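import Cfsg.Statements.S3495
import Mathlib
import Cfsg.Agent.ExtPrim.Manning

set_option autoImplicit false
open Cfsg

namespace Cfsg.Agent.S3495

/-- Let a finite group G act faithfully and primitively on a finite set Ω with non-trivial point stabilizers, each acting primitively on every one of its orbits (an extremely primitive group), and suppose G has an elementary abelian normal p-subgroup N acting regularly on Ω (affine type). Then every non-trivial subgroup M of a point stabilizer G_α that is normal in G_α has the same orbits on Ω as G_α, and normalizes no subgroup of N other than 1 and N. -/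
theorem result {G : Type*} [Group G] [Finite G] {Ω : Type*} [Fintype Ω] [MulAction G Ω] [FaithfulSMul G Ω] (hprim : MulAction.IsPreprimitive G Ω) (hH : ∀ α : Ω, MulAction.stabilizer G α ≠ ⊥) (hep : ∀ (α : Ω) (ω : Ω), MulAction.IsPreprimitive (MulAction.stabilizer G α) (MulAction.orbit (MulAction.stabilizer G α) ω))
    (N : Subgroup G) [N.Normal] (hNc : IsMulCommutative N) (p : ℕ) (hp : p.Prime) (hNp : ∀ n ∈ N, n ^ p = 1)
    (hNtr : MulAction.IsPretransitive N Ω) (hNreg : ∀ ω : Ω, MulAction.stabilizer N ω = ⊥) (α : Ω) (M : Subgroup G) (hM : M ≠ ⊥) (hMle : M ≤ MulAction.stabilizer G α)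
    (hMn : MulAction.stabilizer G α ≤ Subgroup.normalizer (M : Set G)) :
    (∀ ω : Ω, MulAction.orbit M ω = MulAction.orbit (MulAction.stabilizer G α) ω) ∧
    (∀ L : Subgroup G, L ≤ N → M ≤ Subgroup.normalizer (L : Set G) → L = ⊥ ∨ L = N) := by
  have horb := Cfsg.Agent.ExtPrim.orbit_eq_of_normal hprim hH hep α M hMle hMn hM
  refine ⟨horb, ?_⟩
  intro L hLN hML
  by_cases hL : L = ⊥
  · exact Or.inl hL
  right
  have hNcomm : ∀ x ∈ N, ∀ y ∈ N, x * y = y * x := fun x hx y hy =>
    congrArg Subtype.val (hNc.is_comm.comm (⟨x, hx⟩ : N) ⟨y, hy⟩)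
  -- L is invariant under G_α
  have hinv : ∀ g ∈ MulAction.stabilizer G α, ∀ l ∈ L, g * l * g⁻¹ ∈ L := by
    intro g hg l hl
    have h1 : g • (l • α) ∈ MulAction.orbit M (l • α) := by
      rw [horb]
      exact ⟨⟨g, hg⟩, rfl⟩
    obtain ⟨⟨m, hm⟩, h2⟩ := h1
    have h2' : m • l • α = g • l • α := h2
    have hmα : m • α = α := hMle hm
    have hgα : g • α = α := hg
    have hmL : m * l * m⁻¹ ∈ L := (Subgroup.mem_normalizer_iff.1 (hML hm) l).1 hl
    have h3 : (m * l * m⁻¹) • α = (g * l * g⁻¹) • α := by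
      rw [mul_smul, mul_smul, mul_smul, mul_smul, inv_smul_eq_iff.2 hmα.symm,
        inv_smul_eq_iff.2 hgα.symm, h2']
    have hmN : m * l * m⁻¹ ∈ N := hLN hmL
    have hgN : g * l * g⁻¹ ∈ N := Subgroup.Normal.conj_mem inferInstance l (hLN hl) g
    have h4 : (g * l * g⁻¹)⁻¹ * (m * l * m⁻¹) = 1 := by
      have h5 : (⟨(g * l * g⁻¹)⁻¹ * (m * l * m⁻¹), mul_mem (inv_mem hgN) hmN⟩ : N) ∈
          MulAction.stabilizer N α := by
        show ((g * l * g⁻¹)⁻¹ * (m * l * m⁻¹)) • α = α
        rw [mul_smul, h3, inv_smul_smul]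
      rw [hNreg α, Subgroup.mem_bot] at h5
      exact congrArg Subtype.val h5
    have h6 : g * l * g⁻¹ = m * l * m⁻¹ := by
      rw [inv_mul_eq_one] at h4; exact h4
    rw [h6]; exact hmL
  -- hence normal in G = N G_α
  have hLn : L.Normal := by
    constructor
    intro l hl g
    obtain ⟨⟨n, hn⟩, hnα⟩ := hNtr.exists_smul_eq α (g • α)
    have hnα' : n • α = g • α := hnα
    have h1 : n⁻¹ * g ∈ MulAction.stabilizer G α := by
      show (n⁻¹ * g) • α = α
      rw [mul_smul, ← hnα', inv_smul_smul]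
    have h2 := hinv _ h1 l hl
    have h3 : n * ((n⁻¹ * g) * l * (n⁻¹ * g)⁻¹) * n⁻¹ = g * l * g⁻¹ := by group
    rw [← h3, hNcomm n hn _ (hLN h2), mul_inv_cancel_right]
    exact h2
  -- transitive
  have hq : MulAction.IsQuasiPreprimitive G Ω := inferInstance
  have ht := hq.isPretransitive_of_normal (N := L) (by
    intro h
    apply hL
    rw [Subgroup.eq_bot_iff_forall]
    intro l hl
    apply FaithfulSMul.eq_of_smul_eq_smul (α := Ω)
    intro x
    have h1 : x ∈ MulAction.fixedPoints L Ω := by rw [h]; trivial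
    rw [one_smul]
    exact h1 ⟨l, hl⟩)
  apply le_antisymm hLN
  intro n hn
  obtain ⟨⟨l, hl⟩, h1⟩ := ht.exists_smul_eq α (n • α)
  have h1' : l • α = n • α := h1
  have h2 : (⟨l⁻¹ * n, mul_mem (inv_mem (hLN hl)) hn⟩ : N) ∈ MulAction.stabilizer N α := by
    show (l⁻¹ * n) • α = α
    rw [mul_smul, ← h1', inv_smul_smul]
  rw [hNreg α, Subgroup.mem_bot] at h2
  have h3 : l⁻¹ * n = 1 := congrArg Subtype.val h2
  have h4 : l = n := by rw [inv_mul_eq_one] at h3; exact h3
  rw [← h4]; exact hl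

end Cfsg.Agent.S3495
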