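import Cfsg.Statements.S0547
import Cfsg.Agent.H10.PrimAct

set_option autoImplicit false
open Cfsg

namespace Cfsg.Agent.S0547

open Cfsg.Agent.H10 in
theorem result {G : Type*} [Group G] [Finite G] [Group.IsSolvable G] {Ω : Type*} [Nonempty Ω] [MulAction G Ω] [FaithfulSMul G Ω] (hprim : MulAction.IsPreprimitive G Ω) (M : Subgroup G) [M.Normal] (hM : M ≠ ⊥) (hmin : ∀ K : Subgroup G, K.Normal → K ≤ M → K = ⊥ ∨ K = M) : MulAction.IsPretransitive M Ω ∧ (∀ ω : Ω, MulAction.stabilizer M ω = ⊥) ∧ ∃ p d : ℕ, p.Prime ∧ 0 < d ∧ Nat.card Ω = p ^ d ∧ Nat.card M = p ^ d := by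
  have hnt : Nontrivial Ω := nontrivial_of_faithful_of_ne_bot M hM
  have hU : ∀ ω : Ω, IsCoatom (MulAction.stabilizer G ω) := fun ω =>
    MulAction.IsPreprimitive.isCoatom_stabilizer_of_isPreprimitive G ω
  have hcore : ∀ ω : Ω, (MulAction.stabilizer G ω).normalCore = ⊥ := fun ω =>
    stabilizer_normalCore_eq_bot (G := G) ω
  have hMin : IsMinNormal M := ⟨inferInstance, hM, hmin⟩
  have hab : IsMulCommutative M := hMin.isMulCommutative inferInstance
  obtain ⟨p, hp, -, -, d, hd0, hd⟩ := hMin.elementary inferInstance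
  have hst : ∀ ω : Ω, MulAction.stabilizer M ω = ⊥ := by
    intro ω
    obtain ⟨h1, h2, h3⟩ := corefree_complement_of_comm (hU ω) (hcore ω) M hM
    rw [eq_bot_iff]
    intro m hm
    have hm2 : (m : G) ∈ MulAction.stabilizer G ω := by
      rw [MulAction.mem_stabilizer_iff] at hm ⊢
      exact hm
    have : (m : G) ∈ M ⊓ MulAction.stabilizer G ω := ⟨m.2, hm2⟩
    rw [h1, Subgroup.mem_bot] at this
    rw [Subgroup.mem_bot]
    exact Subtype.ext this
  have htr : MulAction.IsPretransitive M Ω := by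
    constructor
    intro x y
    obtain ⟨h1, h2, h3⟩ := corefree_complement_of_comm (hU x) (hcore x) M hM
    obtain ⟨g, rfl⟩ := MulAction.exists_smul_eq G x y
    have hg : g ∈ M ⊔ MulAction.stabilizer G x := by rw [h2]; trivial
    obtain ⟨m, hm, u, hu, rfl⟩ := Subgroup.mem_sup_of_normal_left.mp hg
    refine ⟨⟨m, hm⟩, ?_⟩
    rw [mul_smul, MulAction.mem_stabilizer_iff.mp hu]
    rfl
  refine ⟨htr, hst, p, d, hp, hd0, ?_, hd⟩
  obtain ⟨ω⟩ := (inferInstance : Nonempty Ω)
  rw [← hd]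
  have h1 := MulAction.index_stabilizer_of_transitive M ω
  rw [hst ω, Subgroup.index_bot] at h1
  exact h1.symm

end Cfsg.Agent.S0547
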