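import Cfsg.Statements.S0548
import Cfsg.Agent.H10.PrimAct

set_option autoImplicit false
open Cfsg

namespace Cfsg.Agent.S0548

open Cfsg.Agent.H10 in
theorem result {G : Type*} [Group G] [Finite G] [Group.IsSolvable G] {Ω : Type*} [MulAction G Ω] [FaithfulSMul G Ω] (hprim : MulAction.IsPreprimitive G Ω) (M : Subgroup G) [M.Normal] (hM : M ≠ ⊥) (hmin : ∀ K : Subgroup G, K.Normal → K ≤ M → K = ⊥ ∨ K = M) (ω : Ω) : Subgroup.IsComplement' M (MulAction.stabilizer G ω) ∧ MulAction.stabilizer G ω ⊓ Subgroup.centralizer (M : Set G) = ⊥ ∧ ∀ K : Subgroup G, K ≤ M → MulAction.stabilizer G ω ≤ Subgroup.normalizer (K : Set G) → K = ⊥ ∨ K = M := by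
  have hnt : Nontrivial Ω := nontrivial_of_faithful_of_ne_bot M hM
  have hU : IsCoatom (MulAction.stabilizer G ω) :=
    MulAction.IsPreprimitive.isCoatom_stabilizer_of_isPreprimitive G ω
  have hcore := stabilizer_normalCore_eq_bot (G := G) ω
  have hMin : IsMinNormal M := ⟨inferInstance, hM, hmin⟩
  have hab : IsMulCommutative M := hMin.isMulCommutative inferInstance
  obtain ⟨h1, h2, h3⟩ := corefree_complement_of_comm hU hcore M hM
  refine ⟨h3, ?_, ?_⟩
  · rw [inf_comm]
    exact centralizer_inf_eq_bot_of_corefree hU hcore hM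
  · intro K hK hn
    refine hmin K (normal_of_normalizer_ge h2 ?_ hn) hK
    exact le_normalizer_of_le_centralizer (hK.trans (Subgroup.le_centralizer M))

end Cfsg.Agent.S0548
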