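import Cfsg.Statements.S2402
import Cfsg.Agent.H40.SLCyc

set_option autoImplicit false
open Cfsg

namespace Cfsg.Agent.S2402

open Cfsg.Agent.H40

lemma abstract_core {G : Type*} [Group G] {K : Type*} [Field K] (H : Subgroup G) (h w D : G) (T : K → G) (k e : K)
    (Tadd : ∀ a b, T (a + b) = T a * T b)
    (hD : D = w * h * w⁻¹) (hDh : h * D = D * h)
    (hconj : ∀ t, h * T t = T (k ^ 2 * t) * h)
    (hDconj : ∀ t, D * T (e * t) = T t * D) (hhH : h ∈ H) (hxw : T 1 * w ∈ H) (m : ℕ) :
    T ((k ^ m) ^ 2 * ((k ^ 2 - 1) * (e - 1))) ∈ H := by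
  have T0 : T 0 = 1 := by
    have := Tadd 0 0
    rw [add_zero] at this
    exact (mul_eq_left.1 this.symm)
  have Tinv : ∀ a, (T a)⁻¹ = T (-a) := by
    intro a
    apply inv_eq_of_mul_eq_one_right
    rw [← Tadd, add_neg_cancel, T0]
  have hg1 : D * T (e - 1) ∈ H := by
    have e1 : D * T (e - 1) = (T 1 * w) * h * (T 1 * w)⁻¹ := by
      have h1 : D * T (e - 1) = T 1 * D * T (-1) := by
        rw [← hDconj 1, mul_one, mul_assoc, ← Tadd, sub_eq_add_neg]
      rw [h1, ← Tinv, hD]
      simp only [mul_inv_rev, mul_assoc]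
    rw [e1]
    exact H.mul_mem (H.mul_mem hxw hhH) (H.inv_mem hxw)
  have hg2 : T ((k ^ 2 - 1) * (e - 1)) ∈ H := by
    have e1 : T ((k ^ 2 - 1) * (e - 1)) = (D * T (e - 1))⁻¹ * (h * (D * T (e - 1)) * h⁻¹) := by
      have h1 : h * (D * T (e - 1)) * h⁻¹ = D * T (k ^ 2 * (e - 1)) := by
        rw [← mul_assoc, hDh, mul_assoc D, hconj, ← mul_assoc, mul_assoc _ h, mul_inv_cancel, mul_one]
      rw [h1, mul_inv_rev, Tinv]
      have e2 : (k ^ 2 - 1) * (e - 1) = -(e - 1) + k ^ 2 * (e - 1) := by ring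
      rw [e2, Tadd, mul_assoc, inv_mul_cancel_left]
    rw [e1]
    exact H.mul_mem (H.inv_mem hg1) (H.mul_mem (H.mul_mem hhH hg1) (H.inv_mem hhH))
  have key : ∀ (t : K), T t ∈ H → ∀ m : ℕ, T ((k ^ m) ^ 2 * t) ∈ H := by
    intro t ht m
    induction m with
    | zero => simpa using ht
    | succ m ih =>
      have e1 : T ((k ^ (m + 1)) ^ 2 * t) = h * T ((k ^ m) ^ 2 * t) * h⁻¹ := by
        rw [hconj, mul_assoc, mul_inv_cancel, mul_one]
        congr 1; ring
      rw [e1]
      exact H.mul_mem (H.mul_mem hhH ih) (H.inv_mem hhH)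
  exact key _ hg2 m

/-- Explicit two-element generation of `PSL_{n+1}(K)` for a finite field `K` with more than three elements: let `k` generate the multiplicative group of `K`, `h = diag(k, k⁻¹, 1, …, 1)`, `x = 1 + E₁₂` (the elementary transvection) and `w` the monomial matrix with entries `1` in positions `(i, i+1)` and `(−1)^n` in position `(n+1, 1)`. Then `h` and `x·w` generate `SL_{n+1}(K)` modulo its centre: the subgroup they generate together with the centre is everything. -/
theorem result {K : Type*} [Field K] [Fintype K] (hK : 3 < Fintype.card K) (n : ℕ) (hn : 1 ≤ n)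
    (k : Kˣ) (hk : ∀ u : Kˣ, u ∈ Subgroup.zpowers k)
    (h x w : Matrix.SpecialLinearGroup (Fin (n + 1)) K)
    (hh : (h : Matrix (Fin (n + 1)) (Fin (n + 1)) K) =
      Matrix.diagonal (fun i => if i.val = 0 then (k : K) else if i.val = 1 then ((k⁻¹ : Kˣ) : K) else 1))
    (hx : (x : Matrix (Fin (n + 1)) (Fin (n + 1)) K) = Matrix.transvection (0 : Fin (n + 1)) (1 : Fin (n + 1)) 1)
    (hw : (w : Matrix (Fin (n + 1)) (Fin (n + 1)) K) =
      Matrix.of (fun i j => if j.val = i.val + 1 then 1 else if i.val = n ∧ j.val = 0 then (-1) ^ n else 0)) :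
    Subgroup.closure ({h, x * w} : Set (Matrix.SpecialLinearGroup (Fin (n + 1)) K)) ⊔
      Subgroup.center (Matrix.SpecialLinearGroup (Fin (n + 1)) K) = ⊤ := by
  have hhH : h ∈ Subgroup.closure ({h, x * w} : Set (Matrix.SpecialLinearGroup (Fin (n + 1)) K)) :=
    Subgroup.subset_closure (by simp)
  have hxwH : x * w ∈ Subgroup.closure ({h, x * w} : Set (Matrix.SpecialLinearGroup (Fin (n + 1)) K)) :=
    Subgroup.subset_closure (by simp)
  have h01 : (0 : Fin (n+1)) ≠ 1 := by
    intro hc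
    have := congrArg Fin.val hc
    rw [fin_one_val hn] at this
    simp at this
  have k0 : (k : K) ≠ 0 := k.ne_zero
  -- order of k
  have hk2 : (k : K) ^ 2 ≠ 1 := by
    intro hc
    have hc' : k ^ 2 = 1 := by
      apply Units.ext; simpa using hc
    have h1 : orderOf k ∣ 2 := orderOf_dvd_of_pow_eq_one hc'
    have h2 : orderOf k = Nat.card Kˣ := orderOf_eq_card_of_forall_mem_zpowers hk
    have h3 : Nat.card Kˣ = Fintype.card K - 1 := by
      rw [Nat.card_units, Nat.card_eq_fintype_card]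
    have h4 := Nat.le_of_dvd (by norm_num) h1
    omega
  have hk1 : (k : K) ≠ 1 := by
    intro hc; apply hk2; rw [hc]; simp
  obtain ⟨d, hd⟩ : ∃ d : Fin (n+1) → K, d = (fun i : Fin (n+1) => if i.val = 0 then (k : K) else if i.val = 1 then ((k⁻¹ : Kˣ) : K) else 1) :=
    ⟨_, rfl⟩
  rw [← hd] at hh
  have d0 : d 0 = k := by simp [hd]
  have d1 : d 1 = (k : K)⁻¹ := by
    simp only [hd, fin_one_val hn]
    simp
  have dne : ∀ i, d i ≠ 0 := by
    intro i; simp only [hd]; split_ifs <;> simp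
  have hwc : (w : Matrix (Fin (n + 1)) (Fin (n + 1)) K) = cycMat K n := hw
  -- D = w h w⁻¹
  obtain ⟨D, hD⟩ : ∃ D : Matrix.SpecialLinearGroup (Fin (n + 1)) K, D = w * h * w⁻¹ := ⟨_, rfl⟩
  have hDm : (D : Matrix (Fin (n + 1)) (Fin (n + 1)) K) = Matrix.diagonal (fun i => d (i+1)) := by
    have e1 : D * w = w * h := by rw [hD, mul_assoc, inv_mul_cancel, mul_one]
    have e2 : (D : Matrix (Fin (n + 1)) (Fin (n + 1)) K) * (w : Matrix (Fin (n + 1)) (Fin (n + 1)) K) =
        Matrix.diagonal (fun i => d (i+1)) * (w : Matrix (Fin (n + 1)) (Fin (n + 1)) K) := by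
      rw [← Matrix.SpecialLinearGroup.coe_mul, e1, Matrix.SpecialLinearGroup.coe_mul, hh]
      ext i j
      rw [Matrix.mul_diagonal, Matrix.diagonal_mul, hwc, cycMat_apply hn]
      split_ifs with hc
      · rw [hc]; ring
      · ring
    have hww : (w : Matrix (Fin (n + 1)) (Fin (n + 1)) K) *
        ((w⁻¹ : Matrix.SpecialLinearGroup (Fin (n + 1)) K) : Matrix (Fin (n + 1)) (Fin (n + 1)) K) = 1 := by
      rw [← Matrix.SpecialLinearGroup.coe_mul, mul_inv_cancel, Matrix.SpecialLinearGroup.coe_one]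
    calc (D : Matrix (Fin (n + 1)) (Fin (n + 1)) K) = (D : Matrix (Fin (n + 1)) (Fin (n + 1)) K) *
        ((w : Matrix (Fin (n + 1)) (Fin (n + 1)) K) *
        ((w⁻¹ : Matrix.SpecialLinearGroup (Fin (n + 1)) K) : Matrix (Fin (n + 1)) (Fin (n + 1)) K)) := by
          rw [hww, Matrix.mul_one]
      _ = Matrix.diagonal (fun i => d (i+1)) := by
          rw [← Matrix.mul_assoc, e2, Matrix.mul_assoc, hww, Matrix.mul_one]
  -- T(t)
  obtain ⟨T, hT⟩ : ∃ T : K → Matrix.SpecialLinearGroup (Fin (n + 1)) K, ∀ t, T t = Matrix.SpecialLinearGroup.transvection h01 t :=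
    ⟨_, fun t => rfl⟩
  have hTm : ∀ t, (T t : Matrix (Fin (n + 1)) (Fin (n + 1)) K) = Matrix.transvection 0 1 t := by
    intro t; rw [hT]; rfl
  have hxT : x = T 1 := by
    refine Subtype.ext ?_
    rw [hTm]
    exact hx
  have Tadd : ∀ a b, T (a + b) = T a * T b := fun a b => by
    rw [hT, hT, hT]
    exact Matrix.SpecialLinearGroup.transvection_add h01 a b
  have hconj : ∀ t, h * T t = T ((k : K)^2 * t) * h := by
    intro t
    refine Subtype.ext ?_
    rw [Matrix.SpecialLinearGroup.coe_mul, Matrix.SpecialLinearGroup.coe_mul, hTm, hTm, hh,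
      diagonal_mul_transvection d (dne 1), d0, d1]
    congr 2
    field_simp
  have hDconj : ∀ t, D * T (((k : K) * d (1+1)) * t) = T t * D := by
    intro t
    refine Subtype.ext ?_
    rw [Matrix.SpecialLinearGroup.coe_mul, Matrix.SpecialLinearGroup.coe_mul, hTm, hTm, hDm,
      diagonal_mul_transvection (fun i => d (i+1)) (dne _)]
    congr 2
    rw [zero_add, d1]
    have := dne (1+1)
    field_simp
  have hDh : h * D = D * h := by
    refine Subtype.ext ?_
    rw [Matrix.SpecialLinearGroup.coe_mul, Matrix.SpecialLinearGroup.coe_mul,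
      hh, hDm, Matrix.diagonal_mul_diagonal, Matrix.diagonal_mul_diagonal]
    congr 1
    ext i
    ring
  have hcore := abstract_core (Subgroup.closure ({h, x * w} : Set (Matrix.SpecialLinearGroup (Fin (n + 1)) K)))
    h w D T k ((k : K) * d (1+1)) Tadd hD hDh hconj hDconj hhH (by rw [← hxT]; exact hxwH)
  have hc0 : (k : K) * d (1+1) - 1 ≠ 0 := by
    rcases Nat.lt_or_ge 1 n with hn2 | hn2
    · have e : ((1 + 1 : Fin (n+1))).val = 2 := by
        rw [Fin.val_add, fin_one_val hn]; exact Nat.mod_eq_of_lt (by omega)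
      have : d (1+1) = 1 := by
        rw [hd]
        change (if (1 + 1 : Fin (n+1)).val = 0 then (k : K) else if (1 + 1 : Fin (n+1)).val = 1 then ((k⁻¹ : Kˣ) : K) else 1) = 1
        rw [e]
        norm_num
      rw [this, mul_one]
      exact sub_ne_zero.2 hk1
    · have hn1 : n = 1 := by omega
      subst hn1
      have : d (1+1) = k := by
        rw [← d0]; rfl
      rw [this, ← pow_two]
      exact sub_ne_zero.2 hk2
  have hAtop : transAdd h01 (Subgroup.closure ({h, x * w} : Set (Matrix.SpecialLinearGroup (Fin (n + 1)) K))) = ⊤ := by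
    apply addSubgroup_eq_top_of_sq _ (((k : K)^2 - 1) * ((k : K) * d (1+1) - 1)) (mul_ne_zero (sub_ne_zero.2 hk2) hc0)
    intro s
    by_cases hs : s = 0
    · rw [hs]
      have : (((k : K)^2 - 1) * ((k : K) * d (1+1) - 1)) * (0:K)^2 = 0 := by ring
      rw [this]
      exact AddSubgroup.zero_mem _
    · obtain ⟨j, hj⟩ := (mem_powers_iff_mem_zpowers.2 (hk (Units.mk0 s hs)))
      have := hcore j
      rw [mem_transAdd, ← hT]
      have e3 : (((k : K)^2 - 1) * ((k : K) * d (1+1) - 1)) * s ^ 2 =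
          ((k : K) ^ j) ^ 2 * (((k : K)^2 - 1) * ((k : K) * d (1+1) - 1)) := by
        have : (k : K) ^ j = s := by
          have := congrArg (fun u : Kˣ => (u : K)) hj
          simpa using this
        rw [this]; ring
      rw [e3]
      exact this
  have hTall : ∀ t, T t ∈ Subgroup.closure ({h, x * w} : Set (Matrix.SpecialLinearGroup (Fin (n + 1)) K)) := by
    intro t
    rw [hT, ← mem_transAdd, hAtop]; trivial
  have hwH : w ∈ Subgroup.closure ({h, x * w} : Set (Matrix.SpecialLinearGroup (Fin (n + 1)) K)) := by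
    have e : (T 1)⁻¹ * (x * w) = w := by rw [hxT, inv_mul_cancel_left]
    have h2 := Subgroup.mul_mem _ (Subgroup.inv_mem _ (hTall 1)) hxwH
    rw [e] at h2
    exact h2
  have := cyc_generate hn w hw _ hwH (fun _ t => by rw [← hT]; exact hTall t)
  rw [this, top_sup_eq]

end Cfsg.Agent.S2402
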