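import Cfsg.Statements.S2403
import Cfsg.Agent.H40.SLCyc

set_option autoImplicit false
open Cfsg

namespace Cfsg.Agent.S2403

/-- Explicit two-element generation of `PSL_{n+1}(K)` over the fields with two or three elements: with `x = 1 + E₁₂` and `w` the monomial matrix with entries `1` in positions `(i, i+1)` and `(−1)^n` in position `(n+1, 1)`, the elements `x` and `w` generate `SL_{n+1}(K)` modulo its centre. -/
theorem result {K : Type*} [Field K] [Fintype K] (hK : Fintype.card K ≤ 3) (n : ℕ) (hn : 1 ≤ n)
    (x w : Matrix.SpecialLinearGroup (Fin (n + 1)) K)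
    (hx : (x : Matrix (Fin (n + 1)) (Fin (n + 1)) K) = Matrix.transvection (0 : Fin (n + 1)) (1 : Fin (n + 1)) 1)
    (hw : (w : Matrix (Fin (n + 1)) (Fin (n + 1)) K) =
      Matrix.of (fun i j => if j.val = i.val + 1 then 1 else if i.val = n ∧ j.val = 0 then (-1) ^ n else 0)) :
    Subgroup.closure ({x, w} : Set (Matrix.SpecialLinearGroup (Fin (n + 1)) K)) ⊔
      Subgroup.center (Matrix.SpecialLinearGroup (Fin (n + 1)) K) = ⊤ := by
  have h := Cfsg.Agent.H40.cyc_generate hn w hw (Subgroup.closure ({x, w} : Set (Matrix.SpecialLinearGroup (Fin (n + 1)) K)))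
    (Subgroup.subset_closure (by simp)) ?_
  · rw [h, top_sup_eq]
  intro hij
  set A : AddSubgroup K := Cfsg.Agent.H40.transAdd hij
    (Subgroup.closure ({x, w} : Set (Matrix.SpecialLinearGroup (Fin (n + 1)) K))) with hAdef
  have h1 : (1 : K) ∈ A := by
    rw [hAdef, Cfsg.Agent.H40.mem_transAdd]
    have : Matrix.SpecialLinearGroup.transvection hij (1 : K) = x := by
      refine Subtype.ext ?_
      exact hx.symm
    rw [this]
    exact Subgroup.subset_closure (by simp)
  have hA : A = ⊤ := by
    have h2 : 1 < Fintype.card K := Fintype.one_lt_card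
    have hpr : (Nat.card K).Prime := by
      rw [Nat.card_eq_fintype_card]
      interval_cases hc : Fintype.card K
      · exact Nat.prime_two
      · exact Nat.prime_three
    haveI : Fact (Nat.card K).Prime := ⟨hpr⟩
    rcases AddSubgroup.eq_bot_or_eq_top_of_prime_card A with h | h
    · rw [h] at h1
      simp at h1
    · exact h
  intro t
  have : t ∈ A := by rw [hA]; trivial
  exact this

end Cfsg.Agent.S2403
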