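import Cfsg.Statements.S3909
import Cfsg.Agent.H65.BProp

set_option autoImplicit false
open Cfsg

namespace Cfsg.Agent.S3909

open Subgroup Cfsg.Agent.H65
open scoped Pointwise


/-- Let G be a finite group in which any two abelian subgroups of the same order are conjugate. Let M be a normal subgroup of G. If M contains an element of the same order as a ∈ G, then a ∈ M; and if M is elementary abelian of order p^t with p prime and t ≥ 2, then M is the unique Sylow p-subgroup of G. -/
theorem result {G : Type*} [Group G] [Finite G] (hB : ∀ A B : Subgroup G, IsMulCommutative ↥A → IsMulCommutative ↥B → Nat.card ↥A = Nat.card ↥B → ∃ g : G, B = A.map (MulAut.conj g).toMonoidHom) (M : Subgroup G) [M.Normal] :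
    (∀ a : G, (∃ m ∈ M, orderOf m = orderOf a) → a ∈ M) ∧
    ∀ (p t : ℕ) [Fact p.Prime], 2 ≤ t → Nat.card ↥M = p ^ t → Cfsg.IsElementaryAbelian p M → ∀ P : Sylow p G, (P : Subgroup G) = M := by
  have hB' : BP G := hB
  refine ⟨fun a ⟨m, hm, hma⟩ => hB'.mem_of_orderOf_eq M hm hma, ?_⟩
  intro p t hp ht hMc hME P
  obtain ⟨hMab, hMexp⟩ := hME
  have hMp : IsPGroup p M := IsPGroup.of_card hMc
  -- a subgroup of order p^2
  obtain ⟨E, hE, hEM⟩ : ∃ E : Subgroup G, Nat.card E = p ^ 2 ∧ E ≤ M := by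
    obtain ⟨E, hE⟩ := Sylow.exists_subgroup_card_pow_prime (G := M) p (n := 2)
      (by rw [hMc]; exact pow_dvd_pow p ht)
    refine ⟨E.map M.subtype, ?_, Subgroup.map_subtype_le E⟩
    rw [Subgroup.card_map_of_injective (Subgroup.subtype_injective _), hE]
  have hEab : IsMulCommutative E := ⟨⟨fun a b => by
    have h1 := hMab.is_comm.comm ⟨a, hEM a.2⟩ ⟨b, hEM b.2⟩
    have h2 : (a : G) * b = b * a := congrArg Subtype.val h1
    exact Subtype.ext h2⟩⟩
  have hMP : M ≤ P := by
    obtain ⟨Q, hQ⟩ := hMp.exists_le_sylow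
    obtain ⟨g, rfl⟩ := MulAction.exists_smul_eq G Q P
    intro x hx
    rw [Sylow.coe_subgroup_smul, Subgroup.mem_pointwise_smul_iff_inv_smul_mem]
    apply hQ
    rw [← map_inv, MulAut.smul_def, MulAut.conj_apply, inv_inv]
    exact (inferInstance : M.Normal).conj_mem' x hx g
  refine le_antisymm ?_ hMP
  intro x hx
  obtain ⟨k, hk⟩ := IsPGroup.iff_orderOf.mp P.2 ⟨x, hx⟩
  rw [Subgroup.orderOf_mk] at hk
  have hxp := hB'.exponent_of_elementary E hEab hE (fun y hy => hMexp y (hEM hy)) hk
  rcases eq_or_ne x 1 with rfl | hx1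
  · exact one_mem _
  · have hxo : orderOf x = p := orderOf_eq_prime hxp hx1
    obtain ⟨m, hm⟩ := exists_prime_orderOf_dvd_card' (G := M) p
      (by rw [hMc]; exact dvd_pow_self p (by omega))
    exact hB'.mem_of_orderOf_eq M m.2 (by rw [Subgroup.orderOf_coe, hm, hxo])

end Cfsg.Agent.S3909
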