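import Cfsg.Statements.S1329
import Cfsg.Agent.Cop.GenAb
import Cfsg.Agent.Cop.MinAct
import Cfsg.Agent.FT.Base
import Cfsg.Agent.H65.BSolv
import Cfsg.Agent.SigF.Trans

set_option autoImplicit false
set_option linter.unusedSectionVars false
set_option linter.style.haveILetI false
open Cfsg

namespace Cfsg.Agent.S1329

open Subgroup Cop
open scoped commutatorElement

universe u

section Rel

variable {G : Type u} [Group G] [Finite G]

/-- The subgroup generated by the fixed points in the `[C_Y(B), A]`. -/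
def WW (A Y : Subgroup G) : Subgroup G :=
  ⨆ B ∈ cycQuot A, centralizer (A : Set G) ⊓ ⁅Y ⊓ centralizer (B : Set G), A⁆

theorem WW_le_centralizer (A Y : Subgroup G) : WW A Y ≤ centralizer (A : Set G) :=
  iSup₂_le fun _ _ => inf_le_left

theorem le_WW {A Y B : Subgroup G} (hB : B ∈ cycQuot A) :
    centralizer (A : Set G) ⊓ ⁅Y ⊓ centralizer (B : Set G), A⁆ ≤ WW A Y := by
  unfold WW
  exact le_iSup₂_of_le B hB le_rfl

theorem quot_step (A Y M : Subgroup G) [M.Normal] (hA : IsMulCommutative A) (hAY : A ≤ normalizer (Y : Set G))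
    (hcop : (Nat.card A).Coprime (Nat.card Y)) (hM : M ≤ Y)
    (hIH : Y.map (QuotientGroup.mk' M) ⊓ centralizer ((A.map (QuotientGroup.mk' M) : Subgroup (G ⧸ M)) : Set (G ⧸ M)) ≤
      WW (A.map (QuotientGroup.mk' M)) (Y.map (QuotientGroup.mk' M))) :
    Y ⊓ centralizer (A : Set G) ≤ WW A Y ⊔ (M ⊓ centralizer (A : Set G)) := by
  set f := QuotientGroup.mk' M with hf
  have hsA := isSolvable_of_isMulCommutative hA
  have hAM : A ⊓ M = ⊥ := Cop.inf_eq_bot_of_coprime (Nat.Coprime.coprime_dvd_right (Subgroup.card_dvd_of_le hM) hcop)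
  have hker : ∀ x y : G, f x = f y ↔ x⁻¹ * y ∈ M := fun x y => QuotientGroup.eq
  have hkey : WW (A.map f) (Y.map f) ≤ (WW A Y).map f := by
    refine iSup₂_le fun B' hB' => ?_
    obtain ⟨hB1, a', ha', hB2⟩ := hB'
    obtain ⟨a, ha, rfl⟩ := ha'
    set B := A ⊓ B'.comap f with hBdef
    have hBmap : B.map f = B' := by
      apply le_antisymm
      · rintro _ ⟨x, hx, rfl⟩
        exact hx.2
      · intro b hb
        obtain ⟨x, hx, rfl⟩ := hB1 hb
        exact ⟨x, ⟨hx, hb⟩, rfl⟩
    have hBA : B ≤ A := inf_le_left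
    have hBc : B ∈ cycQuot A := by
      refine ⟨hBA, a, ha, ?_⟩
      have hle : B ⊔ zpowers a ≤ A := sup_le hBA (zpowers_le.2 ha)
      apply le_antisymm hle
      intro x hx
      have h1 : f x ∈ (B ⊔ zpowers a).map f := by
        rw [Subgroup.map_sup, hBmap, MonoidHom.map_zpowers, hB2]
        exact ⟨x, hx, rfl⟩
      obtain ⟨y, hy, hyx⟩ := h1
      have h2 : y⁻¹ * x ∈ A ⊓ M := Subgroup.mem_inf.2 ⟨mul_mem (inv_mem (hle hy)) hx, (hker y x).1 hyx⟩
      rw [hAM, mem_bot, inv_mul_eq_one] at h2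
      rwa [← h2]
    have hfix : Y.map f ⊓ centralizer (B' : Set (G ⧸ M)) ≤ (Y ⊓ centralizer (B : Set G)).map f := by
      rintro _ ⟨⟨y, hy, rfl⟩, hyc⟩
      obtain ⟨c, hc, hc'⟩ := fixed_points_quotient B Y (hBA.trans hAY)
        (Nat.Coprime.coprime_dvd_left (Subgroup.card_dvd_of_le hBA) hcop) (Or.inl (isSolvable_of_le hBA hsA))
        M hM (by rw [normalizer_eq_top]; exact le_top) (by rw [normalizer_eq_top]; exact le_top) y hy (by
          intro b hb
          have h1 : f b * f y = f y * f b := mem_centralizer_iff.1 hyc (f b) hb.2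
          have h2 : f (b * y * b⁻¹ * y⁻¹) = 1 := by
            rw [map_mul, map_mul, map_mul, map_inv, map_inv, h1]; group
          exact (QuotientGroup.eq_one_iff _).1 h2)
      exact ⟨c, hc, ((hker y c).2 hc').symm⟩
    rintro x' ⟨hx1, hx2⟩
    have h3 : x' ∈ (⁅Y ⊓ centralizer (B : Set G), A⁆).map f := by
      rw [Subgroup.map_commutator]
      exact commutator_mono hfix le_rfl hx2
    obtain ⟨d, hd, rfl⟩ := h3
    set D := ⁅Y ⊓ centralizer (B : Set G), A⁆ with hD
    have hAYB := normalizer_inf_centralizer hA hAY (B := (B : Set G)) hBA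
    have hDY : D ≤ Y := (le_normalizer_iff_commutator_le_left.1 hAYB).trans inf_le_left
    have hAD : A ≤ normalizer (D : Set G) := normalizer_commutator_ge_right _ _
    obtain ⟨c, hc, hc'⟩ := fixed_points_quotient A D hAD
        (Nat.Coprime.coprime_dvd_right (Subgroup.card_dvd_of_le hDY) hcop) (Or.inl hsA)
        (M ⊓ D) inf_le_right (le_inf (by rw [normalizer_eq_top]; exact le_top) le_normalizer |>.trans
          Subgroup.inf_normalizer_le_normalizer_inf)
        (le_inf (by rw [normalizer_eq_top]; exact le_top) hAD |>.trans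
          Subgroup.inf_normalizer_le_normalizer_inf) d hd (by
          intro b hb
          have h1 : f b * f d = f d * f b := mem_centralizer_iff.1 hx1 (f b) ⟨b, hb, rfl⟩
          have h2 : f (b * d * b⁻¹ * d⁻¹) = 1 := by
            rw [map_mul, map_mul, map_mul, map_inv, map_inv, h1]; group
          refine Subgroup.mem_inf.2 ⟨(QuotientGroup.eq_one_iff _).1 h2, ?_⟩
          exact mul_mem ((mem_normalizer_iff.1 (hAD hb) d).1 hd) (inv_mem hd))
    exact ⟨c, le_WW hBc ⟨hc.2, hc.1⟩, ((hker d c).2 hc'.1).symm⟩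
  rintro c ⟨hcY, hcA⟩
  have h1 : f c ∈ (WW A Y).map f := by
    apply hkey
    apply hIH
    refine Subgroup.mem_inf.2 ⟨⟨c, hcY, rfl⟩, ?_⟩
    rw [mem_centralizer_iff]
    rintro _ ⟨a, ha, rfl⟩
    rw [← map_mul, ← map_mul, mem_centralizer_iff.1 hcA a ha]
  obtain ⟨w, hw, hwc⟩ := h1
  have h2 : w⁻¹ * c ∈ M := (hker w c).1 hwc
  have h3 : w⁻¹ * c ∈ centralizer (A : Set G) := mul_mem (inv_mem (WW_le_centralizer A Y hw)) hcA
  have h4 : c = w * (w⁻¹ * c) := by group
  rw [h4]
  exact mul_mem (Subgroup.mem_sup_left hw) (Subgroup.mem_sup_right ⟨h2, h3⟩)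

/-- Step 2: `[M,A] (C_M(A) ∩ W)` is normal. -/
theorem normal_U (A Y M : Subgroup G) [M.Normal] [Y.Normal] (hA : IsMulCommutative A) (hsup : Y ⊔ A = ⊤)
    (hcop : (Nat.card A).Coprime (Nat.card Y)) (hYA : ⁅Y, A⁆ = Y) (hMY : M ≤ Y) :
    (⁅M, A⁆ ⊔ (M ⊓ centralizer (A : Set G) ⊓ WW A Y)).Normal := by
  have hsA := isSolvable_of_isMulCommutative hA
  have hMtop : ∀ H : Subgroup G, H ≤ normalizer (M : Set G) := fun H => by rw [normalizer_eq_top]; exact le_top
  have hYtop : ∀ H : Subgroup G, H ≤ normalizer (Y : Set G) := fun H => by rw [normalizer_eq_top]; exact le_top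
  set U := ⁅M, A⁆ ⊔ (M ⊓ centralizer (A : Set G) ⊓ WW A Y) with hU
  have hcopM : (Nat.card A).Coprime (Nat.card M) := Nat.Coprime.coprime_dvd_right (Subgroup.card_dvd_of_le hMY) hcop
  have hUM : U ≤ M := sup_le (le_normalizer_iff_commutator_le_left.1 (hMtop A)) (inf_le_left.trans inf_le_left)
  have hAU : A ≤ normalizer (U : Set G) := by
    have h1 : A ≤ normalizer ((⁅M, A⁆ : Subgroup G) : Set G) := normalizer_commutator_ge_right _ _
    have h2 : A ≤ normalizer ((M ⊓ centralizer (A : Set G) ⊓ WW A Y : Subgroup G) : Set G) := by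
      apply normalizer_le_of_forall
      intro b hb x hx
      have h3 : b * x = x * b := mem_centralizer_iff.1 hx.1.2 b hb
      rw [h3, mul_inv_cancel_right]
      exact hx
    intro a ha
    rw [mem_normalizer_iff_map_conj_eq, hU, Subgroup.map_sup, mem_normalizer_iff_map_conj_eq.1 (h1 ha),
      mem_normalizer_iff_map_conj_eq.1 (h2 ha)]
  have hDU : ∀ B ∈ cycQuot A, ⁅Y ⊓ centralizer (B : Set G), A⁆ ≤ normalizer (U : Set G) := by
    intro B hB
    have hBA : B ≤ A := hB.1
    have hAYB := normalizer_inf_centralizer hA (hYtop A) (B := (B : Set G)) hBA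
    set D := ⁅Y ⊓ centralizer (B : Set G), A⁆ with hD
    have hDC : D ≤ Y ⊓ centralizer (B : Set G) := le_normalizer_iff_commutator_le_left.1 hAYB
    have hAD : A ≤ normalizer (D : Set G) := normalizer_commutator_ge_right _ _
    apply normalizer_le_of_forall
    intro d hd u hu
    obtain ⟨x, hx, c, hc, rfl⟩ := exists_eq_mul_of_mem (hMtop B)
      (Nat.Coprime.coprime_dvd_left (Subgroup.card_dvd_of_le hBA) hcopM) (Or.inl (isSolvable_of_le hBA hsA)) (hUM hu)
    have hxU : ⁅M, B⁆ ≤ U := (commutator_mono le_rfl hBA).trans le_sup_left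
    have hcU : c ∈ U := by
      have h1 : c = x⁻¹ * (x * c) := by group
      rw [h1]; exact mul_mem (inv_mem (hxU hx)) hu
    have hdB : d ∈ normalizer ((⁅M, B⁆ : Subgroup G) : Set G) := by
      have h1 : d ∈ normalizer (B : Set G) := centralizer_le_normalizer _ (hDC hd).2
      rw [mem_normalizer_iff_map_conj_eq, Subgroup.map_commutator, mem_normalizer_iff_map_conj_eq.1 h1,
        mem_normalizer_iff_map_conj_eq.1 (hMtop ⊤ (mem_top d))]
    have h1 : d * x * d⁻¹ ∈ U := hxU ((mem_normalizer_iff.1 hdB x).1 hx)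
    have hcY : c ∈ Y ⊓ centralizer (B : Set G) := Subgroup.mem_inf.2 ⟨hMY hc.1, hc.2⟩
    have hcD : c ∈ normalizer (D : Set G) := normalizer_commutator_ge_left _ _ hcY
    have h2 : d * c * d⁻¹ * c⁻¹ ∈ D ⊓ M := by
      refine Subgroup.mem_inf.2 ⟨?_, ?_⟩
      · have h3 : d * c * d⁻¹ * c⁻¹ = d * (c * d⁻¹ * c⁻¹) := by group
        rw [h3]
        exact mul_mem hd ((mem_normalizer_iff.1 hcD _).1 (inv_mem hd))
      · exact mul_mem ((inferInstance : M.Normal).conj_mem c hc.1 d) (inv_mem hc.1)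
    have hAE : A ≤ normalizer ((D ⊓ M : Subgroup G) : Set G) :=
      (le_inf hAD (hMtop A)).trans Subgroup.inf_normalizer_le_normalizer_inf
    obtain ⟨u', hu', c', hc', he⟩ := exists_eq_mul_of_mem hAE
      (Nat.Coprime.coprime_dvd_right (Subgroup.card_dvd_of_le inf_le_right) hcopM) (Or.inl hsA) h2
    have h4 : u' ∈ U := ((commutator_mono inf_le_right le_rfl).trans le_sup_left : ⁅D ⊓ M, A⁆ ≤ U) hu'
    have h5 : c' ∈ U := by
      have h6 : M ⊓ centralizer (A : Set G) ⊓ WW A Y ≤ U := le_sup_right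
      apply h6
      refine Subgroup.mem_inf.2 ⟨Subgroup.mem_inf.2 ⟨hc'.1.2, hc'.2⟩, ?_⟩
      exact le_WW hB (Subgroup.mem_inf.2 ⟨hc'.2, hc'.1.1⟩)
    have h6 : d * (x * c) * d⁻¹ = (d * x * d⁻¹) * ((d * c * d⁻¹ * c⁻¹) * c) := by group
    rw [h6, he]
    exact mul_mem h1 (mul_mem (mul_mem h4 h5) hcU)
  have hYU : Y ≤ normalizer (U : Set G) := by
    have h1 := commutator_le_genD hA _ Y rfl (hYtop A) hcop
    rw [hYA] at h1
    exact h1.trans (iSup₂_le hDU)
  rw [← normalizer_eq_top_iff, eq_top_iff, ← hsup]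
  exact sup_le hYU hAU

theorem comm_of_le_center {E : Subgroup G} (h : E ≤ center G) : IsMulCommutative E :=
  ⟨⟨fun a b => Subtype.ext (mem_center_iff.1 (h a.2) b).symm⟩⟩

theorem normal_of_le_center {E : Subgroup G} (h : E ≤ center G) : E.Normal :=
  ⟨fun x hx g => by
    rw [mem_center_iff.1 (h hx) g, mul_inv_cancel_right]; exact hx⟩

theorem comm_self_le (X : Subgroup G) : ⁅X, X⁆ ≤ X := by
  rw [commutator_le]
  intro x hx y hy
  rw [commutatorElement_def]
  exact mul_mem (mul_mem (mul_mem hx hy) (inv_mem hx)) (inv_mem hy)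

theorem core_step [Group.IsSolvable G] (A Y : Subgroup G) [Y.Normal] (hA : IsMulCommutative A) (hsup : Y ⊔ A = ⊤)
    (hcop : (Nat.card A).Coprime (Nat.card Y)) (hYA : ⁅Y, A⁆ = Y)
    (hstep : ∀ M : Subgroup G, M.Normal → M ≤ Y → M ≠ ⊥ →
      Y ⊓ centralizer (A : Set G) ≤ WW A Y ⊔ (M ⊓ centralizer (A : Set G))) :
    Y ⊓ centralizer (A : Set G) ≤ WW A Y := by
  have hsA := isSolvable_of_isMulCommutative hA
  by_contra hnot
  have hYtop : ∀ H : Subgroup G, H ≤ normalizer (Y : Set G) := fun H => by rw [normalizer_eq_top]; exact le_top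
  -- abelian normal subgroups are central
  have hcent : ∀ M : Subgroup G, M.Normal → M ≤ Y → IsMulCommutative M → M ≤ center G ∧ M ⊓ WW A Y = ⊥ := by
    intro M hM hMY hMc
    have hAM : A ≤ normalizer (M : Set G) := by rw [normalizer_eq_top]; exact le_top
    have hcopM : (Nat.card A).Coprime (Nat.card M) := Nat.Coprime.coprime_dvd_right (Subgroup.card_dvd_of_le hMY) hcop
    have hUn := normal_U A Y M hA hsup hcop hYA hMY
    set U := ⁅M, A⁆ ⊔ (M ⊓ centralizer (A : Set G) ⊓ WW A Y) with hU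
    have hUM : U ≤ M := sup_le (le_normalizer_iff_commutator_le_left.1 hAM) (inf_le_left.trans inf_le_left)
    have hUW : U ⊓ centralizer (A : Set G) ≤ WW A Y := by
      rintro z ⟨hz, hzA⟩
      have hle : (M ⊓ centralizer (A : Set G) ⊓ WW A Y : Subgroup G) ≤ normalizer ((⁅M, A⁆ : Subgroup G) : Set G) :=
        (inf_le_left.trans inf_le_left).trans (normalizer_commutator_ge_left M A)
      have hz' : z ∈ ((⁅M, A⁆ ⊔ (M ⊓ centralizer (A : Set G) ⊓ WW A Y) : Subgroup G) : Set G) := hz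
      rw [Subgroup.coe_mul_of_right_le_normalizer_left _ _ hle] at hz'
      obtain ⟨u, hu, t, ht, rfl⟩ := hz'
      have h1 : u ∈ centralizer (A : Set G) := by
        have : u = (u * t) * t⁻¹ := by group
        rw [this]; exact mul_mem hzA (inv_mem ht.1.2)
      have h2 : u ∈ (M ⊓ centralizer (A : Set G)) ⊓ ⁅M, A⁆ :=
        Subgroup.mem_inf.2 ⟨Subgroup.mem_inf.2 ⟨le_normalizer_iff_commutator_le_left.1 hAM hu, h1⟩, hu⟩
      rw [(H91.abelian_decomp A M hAM hcopM).1, mem_bot] at h2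
      change u * t ∈ WW A Y
      rw [h2, one_mul]; exact ht.2
    have hUbot : U = ⊥ := by
      by_contra hne
      apply hnot
      exact (hstep U hUn (hUM.trans hMY) hne).trans (sup_le le_rfl hUW)
    have h1 : ⁅M, A⁆ = ⊥ := by
      rw [eq_bot_iff, ← hUbot]; exact le_sup_left
    have hMA : M ≤ centralizer (A : Set G) := commutator_eq_bot_iff_le_centralizer.1 h1
    have h2 : ⁅⁅Y, A⁆, M⁆ = ⊥ := by
      apply commutator_commutator_eq_bot_of_rotate
      · rw [commutator_comm A M, h1, commutator_bot_left]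
      · have : ⁅M, Y⁆ ≤ M := commutator_le_left M Y
        rw [eq_bot_iff, ← h1]
        exact commutator_mono this le_rfl
    rw [hYA, commutator_eq_bot_iff_le_centralizer, le_centralizer_iff] at h2
    refine ⟨?_, ?_⟩
    · have h3 : (⊤ : Subgroup G) ≤ centralizer (M : Set G) := by
        rw [← hsup]
        refine sup_le ?_ ?_
        · rw [le_centralizer_iff]; exact h2
        · rw [le_centralizer_iff]; exact hMA
      intro m hm
      rw [mem_center_iff]
      intro g
      exact (mem_centralizer_iff.1 (h3 (mem_top g)) m hm).symm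
    · rw [eq_bot_iff, ← hUbot]
      rintro x ⟨hx1, hx2⟩
      exact Subgroup.mem_sup_right (Subgroup.mem_inf.2 ⟨Subgroup.mem_inf.2 ⟨hx1, hMA hx1⟩, hx2⟩)
  have hZA : ∀ M : Subgroup G, M ≤ center G → ∀ H : Subgroup G, M ≤ centralizer (H : Set G) := fun M hM H =>
    hM.trans (center_le_centralizer _)
  -- uniqueness
  have huniq : ∀ E₁ E₂ : Subgroup G, E₁.Normal → E₂.Normal → E₁ ≤ Y → E₂ ≤ Y → IsMulCommutative E₁ →
      IsMulCommutative E₂ → E₁ ≠ ⊥ → E₂ ≤ E₁ := by
    intro E₁ E₂ hn1 hn2 h1 h2 hc1 hc2 hne e he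
    have hz1 := (hcent E₁ hn1 h1 hc1).1
    have hz2 := (hcent E₂ hn2 h2 hc2).1
    have h3 : e ∈ WW A Y ⊔ E₁ :=
      (show WW A Y ⊔ (E₁ ⊓ centralizer (A : Set G)) ≤ WW A Y ⊔ E₁ from sup_le_sup_left inf_le_left _) (hstep E₁ hn1 h1 hne (Subgroup.mem_inf.2 ⟨h2 he, hZA _ hz2 A he⟩))
    obtain ⟨w, hw, x, hx, hwx⟩ := mem_sup_of_normal_right.1 h3
    have h4 : w ∈ E₁ ⊔ E₂ := by
      have : w = e * x⁻¹ := by rw [← hwx]; group
      rw [this]; exact mul_mem (Subgroup.mem_sup_right he) (inv_mem (Subgroup.mem_sup_left hx))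
    have hz3 : E₁ ⊔ E₂ ≤ center G := sup_le hz1 hz2
    have h5 := (hcent (E₁ ⊔ E₂) (normal_of_le_center hz3) (sup_le h1 h2) (comm_of_le_center hz3)).2
    have h6 : w ∈ (E₁ ⊔ E₂) ⊓ WW A Y := Subgroup.mem_inf.2 ⟨h4, hw⟩
    rw [h5, mem_bot] at h6
    rw [← hwx, h6, one_mul]
    exact hx
  have hYbot : Y ≠ ⊥ := by
    rintro rfl
    apply hnot
    rw [bot_inf_eq]; exact bot_le
  obtain ⟨M, hMn, hMY, hMbot, hMmin⟩ := H65.exists_min_normal_le Y inferInstance hYbot
  have hcomm_of : ∀ E : Subgroup G, ⁅E, E⁆ = ⊥ → IsMulCommutative E := by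
    intro E hE
    rw [commutator_eq_bot_iff_le_centralizer] at hE
    exact ⟨⟨fun a b => Subtype.ext (mem_centralizer_iff.1 (hE a.2) b b.2).symm⟩⟩
  have hMc : IsMulCommutative M := by
    apply hcomm_of
    have h1 : ⁅M, M⁆ < M := Group.IsSolvable.commutator_lt_of_ne_bot hMbot
    rcases hMmin ⁅M, M⁆ inferInstance h1.le with h | h
    · exact h
    · exact absurd h h1.ne
  have hMZ := (hcent M hMn hMY hMc).1
  have hMW := (hcent M hMn hMY hMc).2
  have hMltY : M < Y := by
    refine lt_of_le_of_ne hMY ?_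
    intro h
    have h1 : ⁅M, A⁆ = ⊥ := commutator_eq_bot_iff_le_centralizer.2 (hZA M hMZ A)
    rw [h, hYA] at h1
    exact hYbot h1
  obtain ⟨F, ⟨hFn, hMF, hFY⟩, hFmin⟩ : ∃ F : Subgroup G, (F.Normal ∧ M < F ∧ F ≤ Y) ∧
      ∀ K : Subgroup G, K.Normal → M < K → K ≤ F → K = F := by
    obtain ⟨F, h1, h2⟩ := (Set.toFinite {F : Subgroup G | F.Normal ∧ M < F ∧ F ≤ Y}).exists_minimal
      ⟨Y, inferInstance, hMltY, le_rfl⟩
    exact ⟨F, h1, fun K hK hMK hKF => le_antisymm hKF (h2 ⟨hK, hMK, hKF.trans h1.2.2⟩ hKF)⟩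
  have hFnc : ¬ IsMulCommutative F := by
    intro hc
    exact absurd (huniq M F hMn hFn hMY hFY hMc hc hMbot) hMF.not_ge
  have hFF : ⁅F, F⁆ ≤ M := by
    by_contra hcon
    have hKn : (⁅F, F⁆ ⊔ M).Normal := inferInstance
    have hMK : M < ⁅F, F⁆ ⊔ M := by
      refine lt_of_le_of_ne le_sup_right ?_
      intro h
      apply hcon
      rw [h]; exact le_sup_left
    have hK := hFmin _ hKn hMK (sup_le (commutator_le_left F F) hMF.le)
    set D := ⁅F, F⁆ with hD
    have hDne : D ≠ ⊥ := fun h => hFnc (hcomm_of F h)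
    have h1 : D ≤ ⁅D, D⁆ := by
      conv_lhs => rw [hD, ← hK]
      rw [commutator_le]
      intro x hx y hy
      obtain ⟨d, hd, m, hm, rfl⟩ := mem_sup_of_normal_right.1 hx
      obtain ⟨d', hd', m', hm', rfl⟩ := mem_sup_of_normal_right.1 hy
      have h2 : ⁅d * m, d' * m'⁆ = ⁅d, d'⁆ := by
        have e1 : ∀ g, g * m = m * g := fun g => mem_center_iff.1 (hMZ hm) g
        have e2 : ∀ g, g * m' = m' * g := fun g => mem_center_iff.1 (hMZ hm') g
        rw [commutatorElement_def, commutatorElement_def]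
        calc d * m * (d' * m') * (d * m)⁻¹ * (d' * m')⁻¹ = d * (m * d') * m' * m⁻¹ * d⁻¹ * m'⁻¹ * d'⁻¹ := by group
          _ = d * d' * (m * m') * m⁻¹ * d⁻¹ * m'⁻¹ * d'⁻¹ := by rw [← e1 d']; group
          _ = d * d' * m' * d⁻¹ * m'⁻¹ * d'⁻¹ := by rw [← e1 m']; group
          _ = d * d' * (m' * d⁻¹) * m'⁻¹ * d'⁻¹ := by group
          _ = d * d' * d⁻¹ * d'⁻¹ := by rw [← e2 d⁻¹]; group
      rw [h2]
      exact commutator_mem_commutator hd hd'
    exact absurd (Group.IsSolvable.commutator_lt_of_ne_bot hDne) h1.not_gt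
  have hAF : A ≤ normalizer (F : Set G) := by rw [normalizer_eq_top]; exact le_top
  have hcopF : (Nat.card A).Coprime (Nat.card F) := Nat.Coprime.coprime_dvd_right (Subgroup.card_dvd_of_le hFY) hcop
  have hX : ∀ B ∈ cycQuot A, ⁅F ⊓ centralizer (B : Set G), A⁆ = ⊥ := by
    intro B hB
    have hBA : B ≤ A := hB.1
    have hAC := normalizer_inf_centralizer hA hAF (B := (B : Set G)) hBA
    set C := F ⊓ centralizer (B : Set G) with hC
    set X := ⁅C, A⁆ with hXdef
    have hXC : X ≤ C := le_normalizer_iff_commutator_le_left.1 hAC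
    have hXM : X ⊓ M = ⊥ := by
      by_contra hne
      have hz : X ⊓ M ≤ center G := inf_le_right.trans hMZ
      have h1 := huniq (X ⊓ M) M (normal_of_le_center hz) hMn (inf_le_right.trans hMY) hMY
        (comm_of_le_center hz) hMc hne
      have h2 : M ≤ WW A Y := by
        refine le_trans (le_inf (hZA M hMZ A) ?_) (le_WW hB)
        exact (h1.trans inf_le_left).trans (commutator_mono (inf_le_inf_right _ hFY) le_rfl)
      rw [inf_eq_left.2 h2] at hMW
      exact hMbot hMW
    have hXX : ⁅X, X⁆ = ⊥ := by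
      rw [eq_bot_iff, ← hXM]
      exact le_inf (comm_self_le X) ((commutator_mono (hXC.trans inf_le_left)
        (hXC.trans inf_le_left)).trans hFF)
    have hXCA : ⁅X, C ⊓ centralizer (A : Set G)⁆ = ⊥ := by
      apply commutator_commutator_eq_bot_of_rotate
      · have : ⁅A, C ⊓ centralizer (A : Set G)⁆ = ⊥ := by
          rw [commutator_comm, commutator_eq_bot_iff_le_centralizer]
          exact inf_le_right
        rw [this, commutator_bot_left]
      · rw [commutator_eq_bot_iff_le_centralizer]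
        refine le_trans ?_ (hZA M hMZ A)
        exact (commutator_mono (inf_le_left.trans inf_le_left) inf_le_left).trans hFF
    have hcopC : (Nat.card A).Coprime (Nat.card C) :=
      Nat.Coprime.coprime_dvd_right (Subgroup.card_dvd_of_le inf_le_left) hcopF
    have h1 : C ≤ centralizer (X : Set G) := by
      conv_lhs => rw [← commutator_sup_centralizer hAC hcopC (Or.inl hsA)]
      refine sup_le ?_ ?_
      · exact commutator_eq_bot_iff_le_centralizer.1 hXX
      · rw [le_centralizer_iff]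
        exact commutator_eq_bot_iff_le_centralizer.1 hXCA
    have h2 : ⁅⁅F, B⁆, X⁆ = ⊥ := by
      apply commutator_commutator_eq_bot_of_rotate
      · have : ⁅B, X⁆ = ⊥ := by
          rw [commutator_comm, commutator_eq_bot_iff_le_centralizer]
          exact hXC.trans inf_le_right
        rw [this, commutator_bot_left]
      · rw [commutator_eq_bot_iff_le_centralizer]
        refine le_trans ?_ (hZA M hMZ B)
        exact (commutator_mono (hXC.trans inf_le_left) le_rfl).trans hFF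
    have h3 : F ≤ centralizer (X : Set G) := by
      conv_lhs => rw [← commutator_sup_centralizer (hBA.trans hAF)
        (Nat.Coprime.coprime_dvd_left (Subgroup.card_dvd_of_le hBA) hcopF) (Or.inl (isSolvable_of_le hBA hsA))]
      exact sup_le (commutator_eq_bot_iff_le_centralizer.1 h2) h1
    have hEn : (F ⊓ centralizer (F : Set G)).Normal := by
      have : (centralizer (F : Set G)).Normal := inferInstance
      exact Subgroup.normal_inf_normal _ _
    have hEc : IsMulCommutative (F ⊓ centralizer (F : Set G) : Subgroup G) :=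
      ⟨⟨fun a b => Subtype.ext (mem_centralizer_iff.1 b.2.2 a a.2.1)⟩⟩
    have h4 : X ≤ M := by
      refine le_trans (le_inf (hXC.trans inf_le_left) ?_) (huniq M _ hMn hEn hMY (inf_le_left.trans hFY) hMc hEc hMbot)
      rw [le_centralizer_iff]; exact h3
    rw [← hXM, inf_eq_left.2 h4]
  have hFA : ⁅F, A⁆ = ⊥ := by
    rw [eq_bot_iff]
    refine (commutator_le_genD hA _ F rfl hAF hcopF).trans ?_
    refine iSup₂_le fun B hB => ?_
    rw [hX B hB]
  have h2 : ⁅⁅Y, A⁆, F⁆ = ⊥ := by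
    apply commutator_commutator_eq_bot_of_rotate
    · rw [commutator_comm A F, hFA, commutator_bot_left]
    · have : ⁅F, Y⁆ ≤ F := commutator_le_left F Y
      rw [eq_bot_iff, ← hFA]
      exact commutator_mono this le_rfl
  rw [hYA] at h2
  apply hFnc
  apply hcomm_of
  rw [eq_bot_iff, ← h2]
  exact commutator_mono hFY le_rfl

end Rel

theorem main (n : ℕ) : ∀ {G : Type u} [Group G] [Finite G] [Group.IsSolvable G] (A Y : Subgroup G) [Y.Normal],
    IsMulCommutative A → Y ⊔ A = ⊤ → (Nat.card A).Coprime (Nat.card Y) → ⁅Y, A⁆ = Y → Nat.card Y = n →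
    Y ⊓ centralizer (A : Set G) ≤ WW A Y := by
  induction n using Nat.strong_induction_on with
  | _ n ih =>
  intro G _ _ _ A Y _ hA hsup hcop hYA hn
  apply core_step A Y hA hsup hcop hYA
  intro M hMn hMY hMbot
  have hsurj := QuotientGroup.mk'_surjective M
  refine quot_step A Y M hA (by rw [normalizer_eq_top]; exact le_top) hcop hMY ?_
  have hcard : Nat.card (Y.map (QuotientGroup.mk' M)) < n := by
    have h1 : M.relIndex Y = Nat.card (Y.map (QuotientGroup.mk' M)) := by
      rw [← Subgroup.relIndex_ker, QuotientGroup.ker_mk']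
    have h2 := relIndex_mul_relIndex (⊥ : Subgroup G) M Y bot_le hMY
    rw [relIndex_bot_left, relIndex_bot_left, h1, hn] at h2
    have h3 : 1 < Nat.card M := by
      rw [Subgroup.one_lt_card_iff_ne_bot]; exact hMbot
    have h4 : 0 < Nat.card (Y.map (QuotientGroup.mk' M)) := Nat.card_pos
    rw [← h2]
    nlinarith
  haveI : (Y.map (QuotientGroup.mk' M)).Normal := (inferInstance : Y.Normal).map _ hsurj
  haveI : Group.IsSolvable (G ⧸ M) := Group.isSolvable_of_surjective hsurj
  refine ih _ hcard (A.map (QuotientGroup.mk' M)) (Y.map (QuotientGroup.mk' M)) ?_ ?_ ?_ ?_ rfl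
  · refine ⟨⟨?_⟩⟩
    rintro ⟨_, a, ha, rfl⟩ ⟨_, b, hb, rfl⟩
    apply Subtype.ext
    change QuotientGroup.mk' M a * QuotientGroup.mk' M b = QuotientGroup.mk' M b * QuotientGroup.mk' M a
    rw [← map_mul, ← map_mul, comm_of_isMulCommutative hA ha hb]
  · rw [← Subgroup.map_sup, hsup, Subgroup.map_top_of_surjective _ hsurj]
  · exact Nat.Coprime.coprime_dvd_left (Subgroup.card_map_dvd _ _)
      (Nat.Coprime.coprime_dvd_right (Subgroup.card_map_dvd _ _) hcop)
  · rw [← Subgroup.map_commutator, hYA]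

section Final

variable {G : Type u} [Group G] [Finite G]

theorem main_rel (A Y : Subgroup G) (hA : IsMulCommutative A) (hAY : A ≤ normalizer (Y : Set G))
    (hcop : (Nat.card A).Coprime (Nat.card Y)) (hs : Group.IsSolvable Y) (hYA : ⁅Y, A⁆ = Y) :
    Y ⊓ centralizer (A : Set G) ≤ WW A Y := by
  set L := Y ⊔ A with hL
  have hYL : Y ≤ L := le_sup_left
  have hAL : A ≤ L := le_sup_right
  haveI hn : (Y.subgroupOf L).Normal :=
    Subgroup.normal_subgroupOf_of_le_normalizer (sup_le le_normalizer hAY)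
  haveI : Group.IsSolvable L := SigF.solvable_sup hs (isSolvable_of_isMulCommutative hA) hAY
  have hmY : (Y.subgroupOf L).map L.subtype = Y := by rw [subgroupOf_map_subtype, inf_eq_left.2 hYL]
  have hmA : (A.subgroupOf L).map L.subtype = A := by rw [subgroupOf_map_subtype, inf_eq_left.2 hAL]
  have h1 := main _ (A.subgroupOf L) (Y.subgroupOf L) ⟨⟨fun a b => Subtype.ext (Subtype.ext
      (comm_of_isMulCommutative hA a.2 b.2))⟩⟩
    (by rw [← Subgroup.subgroupOf_sup hYL hAL, ← hL, subgroupOf_self])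
    (by rw [Nat.card_congr (Subgroup.subgroupOfEquivOfLe hYL).toEquiv,
          Nat.card_congr (Subgroup.subgroupOfEquivOfLe hAL).toEquiv]; exact hcop)
    (by
      apply Subgroup.map_injective L.subtype_injective
      rw [Subgroup.map_commutator, hmY, hmA, hYA])
    rfl
  have hcentr : ∀ (B : Subgroup L), (centralizer (B : Set L)).map L.subtype ≤
      centralizer ((B.map L.subtype : Subgroup G) : Set G) := by
    rintro B _ ⟨x, hx, rfl⟩
    rw [mem_centralizer_iff]
    rintro _ ⟨b, hb, rfl⟩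
    exact congrArg Subtype.val (mem_centralizer_iff.1 hx b hb)
  rintro y ⟨hy, hyA⟩
  have h2 : (⟨y, hYL hy⟩ : L) ∈ WW (A.subgroupOf L) (Y.subgroupOf L) := by
    apply h1
    refine Subgroup.mem_inf.2 ⟨hy, ?_⟩
    rw [mem_centralizer_iff]
    intro a ha
    exact Subtype.ext (mem_centralizer_iff.1 hyA a ha)
  have h3 : (WW (A.subgroupOf L) (Y.subgroupOf L)).map L.subtype ≤ WW A Y := by
    unfold WW
    rw [Subgroup.map_iSup]
    refine iSup_le fun B => ?_
    rw [Subgroup.map_iSup]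
    refine iSup_le fun hB => ?_
    have hBc : B.map L.subtype ∈ cycQuot A := by
      obtain ⟨hB1, a, ha, hB2⟩ := hB
      refine ⟨?_, a, ha, ?_⟩
      · rw [← hmA]; exact Subgroup.map_mono hB1
      · have h5 := congrArg (Subgroup.map L.subtype) hB2
        rw [Subgroup.map_sup, MonoidHom.map_zpowers, hmA] at h5
        exact h5
    refine le_trans ?_ (le_WW hBc)
    refine le_inf ?_ ?_
    · refine (Subgroup.map_mono inf_le_left).trans ((hcentr _).trans ?_)
      rw [hmA]
    · refine (Subgroup.map_mono inf_le_right).trans ?_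
      rw [Subgroup.map_commutator, hmA]
      refine commutator_mono ?_ le_rfl
      refine le_inf ((Subgroup.map_mono inf_le_left).trans hmY.le) ((Subgroup.map_mono inf_le_right).trans (hcentr _))
  exact h3 ⟨_, h2, rfl⟩

theorem cyc_quot {A B H : Subgroup G} (hA : IsMulCommutative A) (hB : B ≤ A) (hH : H ∈ cycQuot A)
    [hn : ((H ⊓ B).subgroupOf B).Normal] : IsCyclic (B ⧸ (H ⊓ B).subgroupOf B) := by
  obtain ⟨hHA, a, ha, hHa⟩ := hH
  haveI hHn : (H.subgroupOf A).Normal := ⟨fun x hx g => by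
    have h1 : g * x * g⁻¹ = x := by
      apply Subtype.ext
      change (g : G) * x * (g : G)⁻¹ = x
      rw [comm_of_isMulCommutative hA g.2 x.2, mul_inv_cancel_right]
    rw [h1]; exact hx⟩
  let f : B →* A ⧸ H.subgroupOf A := (QuotientGroup.mk' _).comp (Subgroup.inclusion hB)
  have hker : f.ker = (H ⊓ B).subgroupOf B := by
    ext x
    rw [MonoidHom.mem_ker]
    change (QuotientGroup.mk (Subgroup.inclusion hB x) : A ⧸ H.subgroupOf A) = 1 ↔ _
    rw [QuotientGroup.eq_one_iff, mem_subgroupOf, mem_subgroupOf, Subgroup.mem_inf]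
    exact ⟨fun h => ⟨h, x.2⟩, fun h => h.1⟩
  haveI hcyc : IsCyclic (A ⧸ H.subgroupOf A) := by
    refine ⟨⟨QuotientGroup.mk ⟨a, ha⟩, ?_⟩⟩
    intro x'
    obtain ⟨x, rfl⟩ := QuotientGroup.mk_surjective x'
    have hle : zpowers a ≤ normalizer (H : Set G) := by
      rw [zpowers_le]
      have h1 : ∀ b ∈ zpowers a, ∀ x ∈ H, b * x * b⁻¹ ∈ H := by
        intro b hb x hx
        rw [comm_of_isMulCommutative hA (zpowers_le.2 ha hb) (hHA hx), mul_inv_cancel_right]
        exact hx
      exact normalizer_le_of_forall h1 (mem_zpowers a)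
    have hx : (x : G) ∈ ((H ⊔ zpowers a : Subgroup G) : Set G) := by rw [hHa]; exact x.2
    rw [Subgroup.coe_mul_of_right_le_normalizer_left _ _ hle] at hx
    obtain ⟨h, hh, _, ⟨k, rfl⟩, hx⟩ := hx
    refine ⟨k, ?_⟩
    change (QuotientGroup.mk (⟨a, ha⟩ : A) : A ⧸ H.subgroupOf A) ^ k = _
    rw [← QuotientGroup.mk_zpow, eq_comm, QuotientGroup.eq, mem_subgroupOf]
    change (x : G)⁻¹ * (a ^ k) ∈ H
    have h2 : (x : G)⁻¹ * (a ^ k) = (a ^ k)⁻¹ * h⁻¹ * (a ^ k) := by
      rw [← hx]; change (h * a ^ k)⁻¹ * a ^ k = _; group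
    rw [h2]
    have h3 := (mem_normalizer_iff.1 (hle (inv_mem (zpow_mem (mem_zpowers a) k))) h⁻¹).1 (inv_mem hh)
    rwa [inv_inv] at h3
  haveI h5 : IsCyclic (B ⧸ f.ker) := isCyclic_of_injective (QuotientGroup.kerLift f) (QuotientGroup.kerLift_injective f)
  let e := QuotientGroup.quotientMulEquivOfEq hker
  exact isCyclic_of_surjective e.toMonoidHom e.surjective

end Final

/-- Let A be an abelian 2-subgroup of the finite group G, B ≤ A, and Y a subgroup of odd order normalized by A with ⁅Y, A⁆ = Y. Then Y ∩ C_G(B) is generated by the subgroups Y ∩ C_G(B) ∩ ⁅Y ∩ C_G(B₀), A⁆, B₀ ranging over the subgroups of B with B / B₀ cyclic. -/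
theorem result {G : Type*} [Group G] [Finite G] (A B Y : Subgroup G) (hA2 : IsPGroup 2 ↥A) (hAc : IsMulCommutative ↥A) (hB : B ≤ A) (hYodd : Odd (Nat.card ↥Y)) (hAY : A ≤ Subgroup.normalizer (Y : Set G)) (hYA : ⁅Y, A⁆ = Y) : Y ⊓ Subgroup.centralizer (B : Set G) = ⨆ B₀ : {B₀ : Subgroup G // B₀ ≤ B ∧ ∀ [(B₀.subgroupOf B).Normal], IsCyclic (↥B ⧸ B₀.subgroupOf B)}, Y ⊓ Subgroup.centralizer (B : Set G) ⊓ ⁅Y ⊓ Subgroup.centralizer ((B₀ : Subgroup G) : Set G), A⁆ := by
  haveI : Fact (Nat.Prime 2) := ⟨Nat.prime_two⟩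
  have hcop : (Nat.card A).Coprime (Nat.card Y) := by
    obtain ⟨k, hk⟩ := IsPGroup.iff_card.1 hA2
    rw [hk]
    exact (Nat.coprime_two_left.2 hYodd).pow_left k
  have hs : Group.IsSolvable Y := FT.solvable_of_odd hYodd
  have hsA := isSolvable_of_isMulCommutative hAc
  apply le_antisymm _ (iSup_le fun _ => inf_le_left)
  have hAC := normalizer_inf_centralizer hAc hAY (B := (B : Set G)) hB
  have hcopC : (Nat.card A).Coprime (Nat.card (Y ⊓ centralizer (B : Set G) : Subgroup G)) :=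
    Nat.Coprime.coprime_dvd_right (Subgroup.card_dvd_of_le inf_le_left) hcop
  conv_lhs => rw [← commutator_sup_centralizer hAC hcopC (Or.inl hsA)]
  have hBB : B ≤ B ∧ ∀ [(B.subgroupOf B).Normal], IsCyclic (↥B ⧸ B.subgroupOf B) := by
    refine ⟨le_rfl, ?_⟩
    intro _
    haveI : Subsingleton (B ⧸ B.subgroupOf B) := by
      rw [subgroupOf_self]
      exact QuotientGroup.subsingleton_quotient_top
    exact isCyclic_of_subsingleton
  refine sup_le ?_ ?_
  · refine le_trans (le_inf (le_normalizer_iff_commutator_le_left.1 hAC) le_rfl)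
      (le_iSup_of_le ⟨B, hBB⟩ le_rfl)
  · refine le_trans (le_inf (inf_le_left.trans inf_le_left) inf_le_right)
      ((main_rel A Y hAc hAY hcop hs hYA).trans ?_)
    unfold WW
    refine iSup₂_le fun H hH => ?_
    have hHB : H ⊓ B ≤ B ∧ ∀ [((H ⊓ B).subgroupOf B).Normal], IsCyclic (↥B ⧸ (H ⊓ B).subgroupOf B) :=
      ⟨inf_le_right, cyc_quot hAc hB hH⟩
    refine le_trans ?_ (le_iSup_of_le ⟨H ⊓ B, hHB⟩ le_rfl)
    have hAH := normalizer_inf_centralizer hAc hAY (B := (H : Set G)) hH.1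
    refine le_inf (le_inf ?_ ?_) ?_
    · exact inf_le_right.trans ((le_normalizer_iff_commutator_le_left.1 hAH).trans inf_le_left)
    · exact inf_le_left.trans (centralizer_le hB)
    · exact inf_le_right.trans (commutator_mono (inf_le_inf_left _ (centralizer_le
        (show ((H ⊓ B : Subgroup G) : Set G) ⊆ H from fun x hx => hx.1))) le_rfl)

end Cfsg.Agent.S1329
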