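import Cfsg.Statements.S0987
import Cfsg.Agent.H17.SelfCent

set_option autoImplicit false
open Cfsg

namespace Cfsg.Agent.S0987

/-- If a finite group has order pqr for primes p < q < r, then its Sylow r-subgroups are normal. -/
theorem result {G : Type*} [Group G] [Finite G] (p q r : ℕ) (hp : p.Prime) (hq : q.Prime) [Fact r.Prime] (hpq : p < q) (hqr : q < r) (hG : Nat.card G = p * q * r) (R : Sylow r G) : (R : Subgroup G).Normal := by
  have hr : r.Prime := Fact.out
  have hp2 := hp.two_le
  have hcard : Nat.card G = r ^ 1 * (p * q) := by rw [hG]; ring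
  have hndvd : ¬ r ∣ p * q := by
    rw [hr.dvd_mul]
    rintro (h | h)
    · exact absurd (Nat.le_of_dvd hp.pos h) (by omega)
    · exact absurd (Nat.le_of_dvd hq.pos h) (by omega)
  have hRc : Nat.card (R : Subgroup G) = r := by
    have := H17.card_sylow_eq R hcard hndvd
    simpa using this
  by_contra hnn
  have hn1 : Nat.card (Sylow r G) ≠ 1 := by
    intro h1
    have : Subsingleton (Sylow r G) := (Nat.card_eq_one_iff_unique.mp h1).1
    exact hnn R.normal_of_subsingleton
  have hnd := H17.card_sylow_dvd (p := r) (G := G) hcard hndvd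
  have hnm := H17.card_sylow_mod (p := r) (G := G)
  have hn : Nat.card (Sylow r G) = p * q := by
    obtain ⟨a, b, ha, hb, hab⟩ := exists_dvd_and_dvd_of_dvd_mul hnd
    rcases (Nat.dvd_prime hp).mp ha with rfl | rfl
    · rcases (Nat.dvd_prime hq).mp hb with rfl | rfl
      · exact absurd hab hn1
      · rw [hab, one_mul, Nat.mod_eq_of_lt hqr] at hnm
        exact absurd hnm hq.ne_one
    · rcases (Nat.dvd_prime hq).mp hb with rfl | rfl
      · rw [hab, mul_one, Nat.mod_eq_of_lt (hpq.trans hqr)] at hnm
        exact absurd hnm hp.ne_one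
      · exact hab
  have hN : Nat.card (Subgroup.normalizer ((R : Subgroup G) : Set G)) = r := by
    have h1 := H17.card_normalizer_mul R
    rw [hn, hG, mul_comm] at h1
    exact Nat.eq_of_mul_eq_mul_left (Nat.mul_pos hp.pos hq.pos) h1
  have hNR : Subgroup.normalizer ((R : Subgroup G) : Set G) = (R : Subgroup G) := by
    symm
    apply Subgroup.eq_of_le_of_card_ge Subgroup.le_normalizer
    rw [hN, hRc]
  have hcyc : IsCyclic (R : Subgroup G) := isCyclic_of_prime_card hRc
  have hcomm : IsMulCommutative (R : Subgroup G) := hcyc.isMulCommutative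
  have hle : Subgroup.normalizer ((R : Subgroup G) : Set G) ≤ Subgroup.centralizer ((R : Subgroup G) : Set G) := by
    rw [hNR]
    intro x hx
    rw [Subgroup.mem_centralizer_iff]
    intro y hy
    exact congrArg Subtype.val (mul_comm' (⟨y, hy⟩ : (R : Subgroup G)) ⟨x, hx⟩)
  have hcompl := MonoidHom.ker_transferSylow_isComplement' R hle
  set K := (MonoidHom.transferSylow R hle).ker with hK
  have hKc : Nat.card K = p * q := by
    have h1 := hcompl.card_mul_card
    rw [hRc, hG] at h1
    exact Nat.eq_of_mul_eq_mul_right hr.pos h1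
  have : Fact q.Prime := ⟨hq⟩
  obtain ⟨Q⟩ : Nonempty (Sylow q K) := inferInstance
  have hqp : ¬ q ∣ p := fun h => absurd (Nat.le_of_dvd hp.pos h) (by omega)
  have hKc' : Nat.card K = q ^ 1 * p := by rw [hKc]; ring
  have hQc : Nat.card (Q : Subgroup K) = q := by simpa using H17.card_sylow_eq Q hKc' hqp
  have hQn : Nat.card (Sylow q K) = 1 := by
    have h1 := H17.card_sylow_dvd (p := q) (G := K) hKc' hqp
    have h2 := H17.card_sylow_mod (p := q) (G := K)
    rcases (Nat.dvd_prime hp).mp h1 with h3 | h3
    · exact h3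
    · rw [h3, Nat.mod_eq_of_lt hpq] at h2
      exact absurd h2 hp.ne_one
  have hsub : Subsingleton (Sylow q K) := (Nat.card_eq_one_iff_unique.mp hQn).1
  have hQnorm : (Q : Subgroup K).Normal := Q.normal_of_subsingleton
  have hQchar : (Q : Subgroup K).Characteristic := Q.characteristic_of_normal hQnorm
  have hKn : K.Normal := by rw [hK]; infer_instance
  have hQ'n : ((Q : Subgroup K).map K.subtype).Normal := by infer_instance
  set Q' := (Q : Subgroup K).map K.subtype with hQ'
  have hQ'c : Nat.card Q' = q := by
    rw [hQ', Nat.card_congr ((Q : Subgroup K).equivMapOfInjective K.subtype K.subtype_injective).symm.toEquiv]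
    exact hQc
  have h1 := H17.relIndex_dvd_of_card_prime hq Q' hQ'c
  rw [Subgroup.normalizer_eq_top Q', Subgroup.relIndex_top_right] at h1
  have h2 : r ∣ Nat.card (Subgroup.centralizer (Q' : Set G)) := by
    have h3 := (Subgroup.centralizer (Q' : Set G)).card_mul_index
    have h4 : r ∣ Nat.card (Subgroup.centralizer (Q' : Set G)) * (Subgroup.centralizer (Q' : Set G)).index := by
      rw [h3, hG]; exact dvd_mul_left _ _
    rcases hr.dvd_mul.mp h4 with h5 | h5
    · exact h5
    · exfalso
      have h6 := h5.trans h1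
      have := Nat.le_of_dvd (by have := hq.two_le; omega) h6
      omega
  obtain ⟨g, hg⟩ := exists_prime_orderOf_dvd_card' (G := Subgroup.centralizer (Q' : Set G)) r h2
  have hg' : orderOf (g : G) = r := by rw [← hg]; exact Subgroup.orderOf_coe g
  obtain ⟨R', hR'⟩ : ∃ R' : Sylow r G, (R' : Subgroup G) = Subgroup.zpowers (g : G) :=
    ⟨H17.sylowOfElt R hRc g hg', rfl⟩
  have h5 : Q' ≤ Subgroup.normalizer ((R' : Subgroup G) : Set G) := by
    refine le_trans ?_ (Subgroup.centralizer_le_normalizer _)
    rw [hR', Subgroup.zpowers_eq_closure, Subgroup.centralizer_closure]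
    intro x hx
    rw [Subgroup.mem_centralizer_singleton_iff]
    exact Subgroup.mem_centralizer_iff.mp g.2 x hx
  have h6 : Nat.card (Subgroup.normalizer ((R' : Subgroup G) : Set G)) = r := by
    have h1 := H17.card_normalizer_mul R'
    rw [hn, hG, mul_comm] at h1
    exact Nat.eq_of_mul_eq_mul_left (Nat.mul_pos hp.pos hq.pos) h1
  have h7 := Subgroup.card_dvd_of_le h5
  rw [hQ'c, h6] at h7
  have := (Nat.dvd_prime hr).mp h7
  have := hq.two_le
  omega

end Cfsg.Agent.S0987
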