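import Cfsg.Statements.S0496

import Mathlib
import Cfsg.Agent.H74.Sieve1092B

set_option autoImplicit false
open Cfsg

namespace Cfsg.Agent.S0496

/-- A non-abelian finite simple group of order at most 1092 has order 60, 168, 360, 504, 660 or 1092. -/
theorem result {G : Type*} [Group G] [Finite G] [IsSimpleGroup G]
    (hG : ¬ IsMulCommutative G) (h : Nat.card G ≤ 1092) :
    Nat.card G = 60 ∨ Nat.card G = 168 ∨ Nat.card G = 360 ∨ Nat.card G = 504 ∨ Nat.card G = 660 ∨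
      Nat.card G = 1092 := by
  rcases Cfsg.Agent.H74.Sv.mem_left hG h with h1 | h1 | h1 | h1 | h1
  · exact Or.inl h1
  · exact Or.inr (Or.inl h1)
  · exact Or.inr (Or.inr (Or.inr (Or.inr (Or.inl h1))))
  · exact Or.inr (Or.inr (Or.inr (Or.inr (Or.inr h1))))
  · have hp5 : Fact (Nat.Prime 5) := ⟨by norm_num⟩
    have hp7 : Fact (Nat.Prime 7) := ⟨by norm_num⟩
    simp only [Cfsg.Agent.H74.Sv.left, List.mem_cons, List.not_mem_nil, or_false] at h1
    rcases h1 with h1 | h1 | h1 | h1 | h1 | h1 | h1 | h1 | h1 | h1 | h1 | h1 | h1 | h1 | h1 | h1 | h1 | h1 | h1 | h1 | h1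
    · exact absurd h1 Cfsg.Agent.H74.Sv.n180
    · exact absurd h1 Cfsg.Agent.H74.Sv.n240
    · exact Or.inr (Or.inr (Or.inl h1))
    · exact absurd h1 (Cfsg.Agent.H74.Sv.n420 hG)
    · exact absurd h1 Cfsg.Agent.H74.Sv.n480
    · exact Or.inr (Or.inr (Or.inr (Or.inl h1)))
    · exact absurd h1 Cfsg.Agent.H74.Sv.n525
    · exact absurd h1 Cfsg.Agent.H74.Sv.n540
    · exact absurd h1 Cfsg.Agent.H74.Sv.n560
    · exact absurd h1 (Cfsg.Agent.H74.Sv.n630 hG)
    · exact absurd h1 Cfsg.Agent.H74.Sv.n672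
    · exact absurd h1 Cfsg.Agent.H74.O7.not720
    · exact absurd h1 Cfsg.Agent.H74.Sv.n735
    · exact absurd h1 Cfsg.Agent.H74.Sv.n756
    · exact absurd h1 Cfsg.Agent.H74.Sv.n810
    · exact absurd h1 (Cfsg.Agent.H74.Sv.n840 hG)
    · exact absurd h1 (Cfsg.Agent.H74.Sv.n900 hG)
    · exact absurd h1 (Cfsg.Agent.H74.Sv.n960 hG)
    · exact absurd h1 Cfsg.Agent.H74.Sv.n1008
    · exact absurd h1 (Cfsg.Agent.H74.Sv.n1050 hG)
    · exact absurd h1 Cfsg.Agent.H74.Sv.n1080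

end Cfsg.Agent.S0496
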