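import Cfsg.Statements.S3707

set_option autoImplicit false
open Cfsg

namespace Cfsg.Agent.S3707

open MulAction
open scoped Pointwise

section
variable {G Ω : Type*} [Group G] [MulAction G Ω] [Fintype Ω] [DecidableEq Ω]

/-- `S` is a Jordan set: the pointwise stabilizer of its complement is transitive on it. -/
def J (G : Type*) {Ω : Type*} [Group G] [MulAction G Ω] (S : Finset Ω) : Prop :=
  ∀ x ∈ S, ∀ y ∈ S, ∃ g : G, (∀ z ∉ S, g • z = z) ∧ g • x = y

omit [Fintype Ω] in
theorem J_union {S T : Finset Ω} (hS : J G S) (hT : J G T) (hne : (S ∩ T).Nonempty) :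
    J G (S ∪ T) := by
  obtain ⟨m, hm⟩ := hne
  rw [Finset.mem_inter] at hm
  have h1 : ∀ x ∈ S ∪ T, ∃ g : G, (∀ z ∉ S ∪ T, g • z = z) ∧ g • x = m := by
    intro x hx
    rcases Finset.mem_union.1 hx with hx | hx
    · obtain ⟨g, hg, hgx⟩ := hS x hx m hm.1
      exact ⟨g, fun z hz => hg z fun h => hz (Finset.mem_union_left _ h), hgx⟩
    · obtain ⟨g, hg, hgx⟩ := hT x hx m hm.2
      exact ⟨g, fun z hz => hg z fun h => hz (Finset.mem_union_right _ h), hgx⟩
  intro x hx y hy
  obtain ⟨g, hg, hgx⟩ := h1 x hx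
  obtain ⟨k, hk, hky⟩ := h1 y hy
  refine ⟨k⁻¹ * g, fun z hz => ?_, ?_⟩
  · rw [mul_smul, hg z hz, inv_smul_eq_iff, hk z hz]
  · rw [mul_smul, hgx, inv_smul_eq_iff, hky]

omit [Fintype Ω] in
theorem J_smul {S : Finset Ω} (hS : J G S) (g : G) : J G (g • S) := by
  intro x hx y hy
  rw [← Finset.inv_smul_mem_iff] at hx hy
  obtain ⟨k, hk, hkx⟩ := hS _ hx _ hy
  refine ⟨g * k * g⁻¹, fun z hz => ?_, ?_⟩
  · rw [← Finset.inv_smul_mem_iff] at hz
    rw [mul_smul, mul_smul, hk _ hz, smul_inv_smul]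
  · rw [mul_smul, mul_smul, hkx, smul_inv_smul]

theorem main (h2 : ∀ {a b c d : Ω} (_ : a ≠ b) (_ : c ≠ d), ∃ g : G, g • a = c ∧ g • b = d)
    (Γ : Finset Ω) (hΓ : J G Γ) (h1 : 1 < Γ.card) (hle : 2 * Γ.card ≤ Fintype.card Ω) :
    ∃ S : Finset Ω, J G S ∧ S.card + 2 = Fintype.card Ω := by
  classical
  set n := Fintype.card Ω with hn
  let P : Finset Ω → Prop := fun S => J G S ∧ 2 ≤ S.card ∧ S.card + 2 ≤ n
  obtain ⟨S, hSP, hmax⟩ : ∃ S, P S ∧ ∀ T, P T → T.card ≤ S.card := by
    have hne : (Finset.univ.filter P).Nonempty := ⟨Γ, by simp only [Finset.mem_filter, Finset.mem_univ, true_and]; exact ⟨hΓ, h1, by omega⟩⟩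
    obtain ⟨S, hS, hS'⟩ := Finset.exists_max_image (Finset.univ.filter P) Finset.card hne
    simp only [Finset.mem_filter, Finset.mem_univ, true_and] at hS hS'
    exact ⟨S, hS, hS'⟩
  obtain ⟨hSJ, hS2, hSn⟩ := hSP
  refine ⟨S, hSJ, ?_⟩
  by_contra hcon
  have hS3 : S.card + 3 ≤ n := by omega
  -- (A) conjugates
  have hA : ∀ (T : Finset Ω), J G T → ∀ g : G, (T ∩ g • S).Nonempty → ¬ T ⊆ g • S →
      n ≤ (T ∪ g • S).card + 1 := by
    intro T hT g hne hns
    by_contra hlt
    have h3 : J G (T ∪ g • S) := J_union hT (J_smul hSJ g) hne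
    have h4 : S.card < (T ∪ g • S).card := by
      rw [← Finset.card_smul_finset g S]
      apply Finset.card_lt_card
      rw [Finset.ssubset_iff_subset_ne]
      refine ⟨Finset.subset_union_right, fun h => hns ?_⟩
      rw [h]
      exact Finset.subset_union_left
    have h5 := hmax _ ⟨h3, by omega, by omega⟩
    omega
  have hcardg : ∀ g : G, (g • S).card = S.card := fun g => Finset.card_smul_finset g S
  have huniv : ∀ T : Finset Ω, T.card + Tᶜ.card = n := fun T => by
    rw [Finset.card_add_card_compl]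
  rcases Nat.lt_or_ge n (2 * S.card) with hbig | hsmall
  · -- Case 1
    have hmeet : ∀ g k : G, (g • S ∩ k • S).Nonempty := by
      intro g k
      rw [← Finset.card_pos]
      have h3 := Finset.card_union_add_card_inter (g • S) (k • S)
      have h4 : (g • S ∪ k • S).card ≤ n := Finset.card_le_univ _
      rw [hcardg, hcardg] at h3
      omega
    -- two points outside determine the conjugate
    have huniq : ∀ g k : G, ∀ a b : Ω, a ≠ b → a ∉ g • S → b ∉ g • S → a ∉ k • S → b ∉ k • S →
        g • S = k • S := by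
      intro g k a b hab h3 h4 h5 h6
      by_contra hne
      have h7 : ¬ g • S ⊆ k • S := fun h => hne (Finset.eq_of_subset_of_card_le h (by rw [hcardg, hcardg]))
      have h8 := hA (g • S) (J_smul hSJ g) k (hmeet g k) h7
      have h9 : ({a, b} : Finset Ω) ⊆ (g • S ∪ k • S)ᶜ := by
        intro x hx
        simp only [Finset.mem_insert, Finset.mem_singleton] at hx
        rw [Finset.mem_compl, Finset.mem_union]
        rcases hx with rfl | rfl
        · tauto
        · tauto
      have h10 := Finset.card_le_card h9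
      rw [Finset.card_pair hab] at h10
      have h11 := huniv (g • S ∪ k • S)
      omega
    have hScompl : 3 ≤ Sᶜ.card := by have := huniv S; omega
    have hline : ∀ a b : Ω, a ≠ b → ∃ g : G, a ∉ g • S ∧ b ∉ g • S := by
      intro a b hab
      obtain ⟨a₀, b₀, ha₀, hb₀, hab₀⟩ := Finset.one_lt_card_iff.1 (show 1 < Sᶜ.card by omega)
      obtain ⟨g, rfl, rfl⟩ := h2 hab₀ hab
      refine ⟨g, ?_, ?_⟩
      · rw [Finset.smul_mem_smul_finset_iff]; exact Finset.mem_compl.1 ha₀
      · rw [Finset.smul_mem_smul_finset_iff]; exact Finset.mem_compl.1 hb₀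
    have hB : ∀ g : G, ∀ x ∈ Γ, x ∉ g • S → ∀ x' ∈ Γ, x' ∈ g • S →
        ∀ y z : Ω, y ∉ Γ → z ∉ Γ → y ∉ g • S → z ∉ g • S → y = z := by
      intro g x hx hxg x' hx' hx'g y z hy hz hyg hzg
      by_contra hyz
      have h3 := hA Γ hΓ g ⟨x', Finset.mem_inter.2 ⟨hx', hx'g⟩⟩ (fun h => hxg (h hx))
      have h9 : ({y, z} : Finset Ω) ⊆ (Γ ∪ g • S)ᶜ := by
        intro w hw
        simp only [Finset.mem_insert, Finset.mem_singleton] at hw
        rw [Finset.mem_compl, Finset.mem_union]
        rcases hw with rfl | rfl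
        · tauto
        · tauto
      have h10 := Finset.card_le_card h9
      rw [Finset.card_pair hyz] at h10
      have h11 := huniv (Γ ∪ g • S)
      omega
    obtain ⟨x, x', hx, hx', hxx'⟩ := Finset.one_lt_card_iff.1 h1
    by_cases hsub : ∃ g : G, ∀ z ∈ Γ, z ∉ g • S
    · obtain ⟨g, hg⟩ := hsub
      -- a point off the line
      obtain ⟨y, hy⟩ : (g • S).Nonempty := by
        rw [← Finset.card_pos, hcardg]; omega
      have hyx : x ≠ y := fun h => hg x hx (h ▸ hy)
      obtain ⟨k, hkx, hky⟩ := hline x y hyx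
      have hx'k : x' ∈ k • S := by
        by_contra h
        have h3 := huniq g k x x' hxx' (hg x hx) (hg x' hx') hkx h
        rw [h3] at hy
        exact hky hy
      have hcc : (k • S)ᶜ.card ≥ 3 := by
        have := huniv (k • S); rw [hcardg] at this; omega
      -- choose `z` in the line, different from `x`, `y`
      obtain ⟨z, hz, hzxy⟩ : ∃ z ∈ (k • S)ᶜ, z ∉ ({x, y} : Finset Ω) := by
        apply Finset.exists_mem_notMem_of_card_lt_card
        exact lt_of_le_of_lt Finset.card_le_two (by omega)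
      simp only [Finset.mem_insert, Finset.mem_singleton, not_or] at hzxy
      rw [Finset.mem_compl] at hz
      have hzΓ : z ∉ Γ := by
        intro h
        have h3 := huniq g k x z (Ne.symm hzxy.1) (hg x hx) (hg z h) hkx hz
        rw [h3] at hy
        exact hky hy
      have hyΓ : y ∉ Γ := fun h => hg y h hy
      exact hzxy.2 (hB k x hx hkx x' hx' hx'k z y hzΓ hyΓ hz hky)
    · push Not at hsub
      -- injection from the complement of `Γ` into `Γ \ {x}`
      have hex : ∀ y : Ω, y ∉ Γ → ∃ w, w ∈ Γ ∧ w ≠ x ∧ ∃ g : G, x ∉ g • S ∧ y ∉ g • S ∧ w ∉ g • S := by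
        intro y hy
        have hyx : x ≠ y := fun h => hy (h ▸ hx)
        obtain ⟨k, hkx, hky⟩ := hline x y hyx
        obtain ⟨v, hv, hvk⟩ := hsub k
        have hcc : (k • S)ᶜ.card ≥ 3 := by
          have := huniv (k • S); rw [hcardg] at this; omega
        obtain ⟨z, hz, hzxy⟩ : ∃ z ∈ (k • S)ᶜ, z ∉ ({x, y} : Finset Ω) := by
          apply Finset.exists_mem_notMem_of_card_lt_card
          exact lt_of_le_of_lt Finset.card_le_two (by omega)
        simp only [Finset.mem_insert, Finset.mem_singleton, not_or] at hzxy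
        rw [Finset.mem_compl] at hz
        have hzΓ : z ∈ Γ := by
          by_contra h
          exact hzxy.2 (hB k x hx hkx v hv hvk z y h hy hz hky)
        exact ⟨z, hzΓ, hzxy.1, k, hkx, hky, hz⟩
      choose! f hf1 hf2 g hg1 hg2 hg3 using hex
      have hcard : Γᶜ.card ≤ (Γ.erase x).card := by
        apply Finset.card_le_card_of_injOn f
        · intro y hy
          have hy' : y ∉ Γ := by simpa using hy
          simp only [Finset.coe_erase, Set.mem_diff, Finset.mem_coe, Set.mem_singleton_iff]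
          exact ⟨hf1 y hy', hf2 y hy'⟩
        · intro y hy z hz hyz
          have hy' : y ∉ Γ := by simpa using hy
          have hz' : z ∉ Γ := by simpa using hz
          have h3 : g y • S = g z • S := by
            apply huniq (g y) (g z) x (f y) (Ne.symm (hf2 y hy')) (hg1 y hy') (hg3 y hy') (hg1 z hz')
            rw [hyz]
            exact hg3 z hz'
          obtain ⟨v, hv, hvk⟩ := hsub (g y)
          apply hB (g y) x hx (hg1 y hy') v hv hvk y z hy' hz' (hg2 y hy')
          rw [h3]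
          exact hg2 z hz'
      rw [Finset.card_erase_of_mem hx] at hcard
      have := huniv Γ
      omega
  · -- Case 2
    obtain ⟨x, hx⟩ : S.Nonempty := by rw [← Finset.card_pos]; omega
    obtain ⟨y, hy⟩ : Sᶜ.Nonempty := by
      rw [← Finset.card_pos]; have := huniv S; omega
    rw [Finset.mem_compl] at hy
    obtain ⟨x', hx', hxx'⟩ : ∃ x' ∈ S, x' ≠ x := by
      obtain ⟨a, b, ha, hb, hab⟩ := Finset.one_lt_card_iff.1 (show 1 < S.card by omega)
      by_cases h : a = x
      · exact ⟨b, hb, fun h' => hab (h.trans h'.symm)⟩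
      · exact ⟨a, ha, h⟩
    have hthru : ∀ z : Ω, z ≠ x → ∃ g : G, x ∈ g • S ∧ z ∈ g • S := by
      intro z hz
      obtain ⟨g, h3, h4⟩ := h2 (Ne.symm hxx') (Ne.symm hz)
      refine ⟨g, ?_, ?_⟩
      · rw [← h3, Finset.smul_mem_smul_finset_iff]; exact hx
      · rw [← h4, Finset.smul_mem_smul_finset_iff]; exact hx'
    -- two conjugates through a common point meet in one point
    have hone : ∀ T : Finset Ω, J G T → T.card = S.card → ∀ g : G, (T ∩ g • S).Nonempty → T ≠ g • S →
        (T ∩ g • S).card = 1 ∧ 2 * S.card = n := by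
      intro T hT hTc g hne hTg
      have h3 : ¬ T ⊆ g • S := fun h => hTg (Finset.eq_of_subset_of_card_le h (by rw [hcardg, hTc]))
      have h4 := hA T hT g hne h3
      have h5 := Finset.card_union_add_card_inter T (g • S)
      rw [hcardg, hTc] at h5
      rw [← Finset.card_pos] at hne
      omega
    have hyx : y ≠ x := fun h => hy (h ▸ hx)
    obtain ⟨g, hgx, hgy⟩ := hthru y hyx
    have h3 : S ≠ g • S := fun h => hy (h ▸ hgy)
    obtain ⟨h4, h5⟩ := hone S hSJ rfl g ⟨x, Finset.mem_inter.2 ⟨hx, hgx⟩⟩ h3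
    have h6 := Finset.card_union_add_card_inter S (g • S)
    rw [hcardg] at h6
    obtain ⟨w, hw⟩ : (S ∪ g • S)ᶜ.Nonempty := by
      rw [← Finset.card_pos]; have := huniv (S ∪ g • S); omega
    have hw' := hw
    rw [Finset.mem_compl, Finset.mem_union, not_or] at hw
    have hwx : w ≠ x := fun h => hw.1 (h ▸ hx)
    obtain ⟨k, hkx, hkw⟩ := hthru w hwx
    have h7 := (hone S hSJ rfl k ⟨x, Finset.mem_inter.2 ⟨hx, hkx⟩⟩ (fun h => hw.1 (h ▸ hkw))).1
    have h8 := (hone (g • S) (J_smul hSJ g) (hcardg g) k ⟨x, Finset.mem_inter.2 ⟨hgx, hkx⟩⟩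
      (fun h => hw.2 (h ▸ hkw))).1
    have h9 : k • S ⊆ (S ∪ g • S)ᶜ ∪ {x} := by
      intro z hz
      rw [Finset.mem_union, Finset.mem_compl, Finset.mem_union, Finset.mem_singleton]
      by_cases hzS : z ∈ S
      · right
        rw [Finset.card_eq_one] at h7
        obtain ⟨t, ht⟩ := h7
        have e1 : z ∈ ({t} : Finset Ω) := by rw [← ht]; exact Finset.mem_inter.2 ⟨hzS, hz⟩
        have e2 : x ∈ ({t} : Finset Ω) := by rw [← ht]; exact Finset.mem_inter.2 ⟨hx, hkx⟩
        rw [Finset.mem_singleton] at e1 e2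
        rw [e1, e2]
      · by_cases hzg : z ∈ g • S
        · right
          rw [Finset.card_eq_one] at h8
          obtain ⟨t, ht⟩ := h8
          have e1 : z ∈ ({t} : Finset Ω) := by rw [← ht]; exact Finset.mem_inter.2 ⟨hzg, hz⟩
          have e2 : x ∈ ({t} : Finset Ω) := by rw [← ht]; exact Finset.mem_inter.2 ⟨hgx, hkx⟩
          rw [Finset.mem_singleton] at e1 e2
          rw [e1, e2]
        · left
          tauto
    have h10 := Finset.card_le_card h9
    have h11 := Finset.card_union_le (S ∪ g • S)ᶜ ({x} : Finset Ω)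
    rw [Finset.card_singleton] at h11
    rw [hcardg] at h10
    have h12 := huniv (S ∪ g • S)
    omega

end

/-- Let G be a finite primitive permutation group on Ω of degree n and Γ ⊂ Ω a subset with 1 < #Γ ≤ n/2 such that the pointwise stabilizer of Ω ∖ Γ is transitive on Γ. Then G is 3-transitive on Ω. -/
theorem result {G Ω : Type*} [Group G] [Finite G] [MulAction G Ω] [FaithfulSMul G Ω] [Finite Ω] (hprim : MulAction.IsPreprimitive G Ω) (Γ : Set Ω) (h1 : 1 < Γ.ncard) (h2 : 2 * Γ.ncard ≤ Nat.card Ω) (htr : ∀ x ∈ Γ, ∀ y ∈ Γ, ∃ g : G, (∀ z ∉ Γ, g • z = z) ∧ g • x = y) : MulAction.IsMultiplyPretransitive G Ω 3 := by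
  classical
  have : Fintype Ω := Fintype.ofFinite Ω
  have hcompl : Γ.ncard + Γᶜ.ncard = Nat.card Ω := Set.ncard_add_ncard_compl Γ
  have h2t : IsMultiplyPretransitive G Ω 2 := by
    apply hprim.is_two_pretransitive (s := Γᶜ) (n := Γᶜ.ncard - 1) (by omega) (by omega)
    constructor
    rintro ⟨x, hx⟩ ⟨y, hy⟩
    have hx' : x ∈ Γ := by simpa [SubMulAction.mem_ofFixingSubgroup_iff] using hx
    have hy' : y ∈ Γ := by simpa [SubMulAction.mem_ofFixingSubgroup_iff] using hy
    obtain ⟨g, hg, hgx⟩ := htr x hx' y hy'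
    refine ⟨⟨g, ?_⟩, ?_⟩
    · rw [mem_fixingSubgroup_iff]
      intro z hz
      exact hg z hz
    · apply Subtype.ext
      exact hgx
  rw [is_two_pretransitive_iff] at h2t
  have hJ : J G Γ.toFinset := by
    intro x hx y hy
    rw [Set.mem_toFinset] at hx hy
    obtain ⟨g, hg, hgx⟩ := htr x hx y hy
    exact ⟨g, fun z hz => hg z (by simpa using hz), hgx⟩
  obtain ⟨S, hS, hcard⟩ := main h2t Γ.toFinset hJ (by rwa [← Set.ncard_eq_toFinset_card'])
    (by rwa [← Set.ncard_eq_toFinset_card', ← Nat.card_eq_fintype_card])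
  have hSc : Sᶜ.card = 2 := by
    have := Finset.card_add_card_compl S
    omega
  obtain ⟨a, b, hab, hSab⟩ := Finset.card_eq_two.1 hSc
  have hmem : ∀ z, z ≠ a → z ≠ b → z ∈ S := by
    intro z hza hzb
    by_contra h
    have h3 : z ∈ Sᶜ := Finset.mem_compl.2 h
    rw [hSab] at h3
    simp only [Finset.mem_insert, Finset.mem_singleton] at h3
    tauto
  have haS : a ∉ S := by
    have : a ∈ Sᶜ := by rw [hSab]; simp
    exact Finset.mem_compl.1 this
  have hbS : b ∉ S := by
    have : b ∈ Sᶜ := by rw [hSab]; simp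
    exact Finset.mem_compl.1 this
  constructor
  intro x y
  have hx01 : x 0 ≠ x 1 := fun h => absurd (x.injective h) (by decide)
  have hx02 : x 0 ≠ x 2 := fun h => absurd (x.injective h) (by decide)
  have hx12 : x 1 ≠ x 2 := fun h => absurd (x.injective h) (by decide)
  have hy01 : y 0 ≠ y 1 := fun h => absurd (y.injective h) (by decide)
  have hy02 : y 0 ≠ y 2 := fun h => absurd (y.injective h) (by decide)
  have hy12 : y 1 ≠ y 2 := fun h => absurd (y.injective h) (by decide)
  obtain ⟨g, hg0, hg1⟩ := h2t hx01 hab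
  obtain ⟨k, hk0, hk1⟩ := h2t hy01 hab
  have hgx : g • x 2 ∈ S := by
    apply hmem
    · rw [← hg0]; exact fun h => hx02 (smul_left_cancel g h).symm
    · rw [← hg1]; exact fun h => hx12 (smul_left_cancel g h).symm
  have hky : k • y 2 ∈ S := by
    apply hmem
    · rw [← hk0]; exact fun h => hy02 (smul_left_cancel k h).symm
    · rw [← hk1]; exact fun h => hy12 (smul_left_cancel k h).symm
  obtain ⟨m, hm, hm2⟩ := hS _ hgx _ hky
  refine ⟨k⁻¹ * m * g, ?_⟩
  ext i
  rw [Function.Embedding.smul_apply, mul_smul, mul_smul, inv_smul_eq_iff]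
  fin_cases i
  · change m • g • x 0 = k • y 0
    rw [hg0, hk0, hm a haS]
  · change m • g • x 1 = k • y 1
    rw [hg1, hk1, hm b hbS]
  · exact hm2

end Cfsg.Agent.S3707
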