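import Cfsg.Statements.S3693
import Cfsg.Agent.H94.TWIdx

set_option autoImplicit false
open Cfsg

namespace Cfsg.Agent.S3693

open Cfsg.Agent.H94

theorem pcore_step {G : Type*} [Group G] [Finite G] {M1 M2 : Subgroup G} (h : TW M1 M2) (p : ℕ) [Fact p.Prime]
    (hR : pCoreOf p (M1 ⊓ M2) ≤ coreIn M1 (M1 ⊓ M2)) : pCoreOf p (M1 ⊓ M2) = ⊥ := by
  by_contra hb
  set D := M1 ⊓ M2 with hD
  set R := pCoreOf p D with hRd
  have hRD : R ≤ D := Cfsg.Agent.H47.pCoreOf_le p D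
  have hRM1 : R ≤ M1 := hRD.trans inf_le_left
  have hA1D : coreIn M1 D ≤ D := coreIn_le_right _ _
  have hReq : R = pCoreOf p (coreIn M1 D) := by
    apply le_antisymm
    · apply Cfsg.Agent.H47.le_pCoreOf hR _ (Cfsg.Agent.H47.pCoreOf_isPGroup p D)
      exact hA1D.trans (Cfsg.Agent.H47.le_normalizer_pCoreOf p D)
    · apply Cfsg.Agent.H47.le_pCoreOf ((Cfsg.Agent.H47.pCoreOf_le p _).trans hA1D) _ (Cfsg.Agent.H47.pCoreOf_isPGroup p _)
      exact Cfsg.Agent.H47.le_normalizer_pCoreOf_of_le ((inf_le_left : D ≤ M1).trans (le_normalizer_coreIn _ _))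
  have hRn : M1 ≤ Subgroup.normalizer (R : Set G) := by
    rw [hReq]
    exact Cfsg.Agent.H47.le_normalizer_pCoreOf_of_le (le_normalizer_coreIn _ _)
  have hN := h.n1 R hRM1 hRn hb
  have hR1 : R ≤ pCoreOf p M1 := Cfsg.Agent.H47.le_pCoreOf hRM1 hRn (Cfsg.Agent.H47.pCoreOf_isPGroup p D)
  have hQ1n : R ≤ Subgroup.normalizer (pCoreOf p M2 : Set G) :=
    (hRD.trans inf_le_right).trans (Cfsg.Agent.H47.le_normalizer_pCoreOf p M2)
  have hsup : IsPGroup p ↥(R ⊔ pCoreOf p M2) :=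
    IsPGroup.to_sup_of_normal_right' (Cfsg.Agent.H47.pCoreOf_isPGroup p D) (Cfsg.Agent.H47.pCoreOf_isPGroup p M2) hQ1n
  have hinter : pCoreOf p M2 ⊓ M1 ≤ R := by
    apply Cfsg.Agent.H47.le_pCoreOf (le_inf inf_le_right (inf_le_left.trans (Cfsg.Agent.H47.pCoreOf_le p M2))) _
      ((Cfsg.Agent.H47.pCoreOf_isPGroup p M2).to_le inf_le_left)
    intro x hx
    have h1 := Cfsg.Agent.H47.le_normalizer_pCoreOf p M2 hx.2
    rw [Subgroup.mem_normalizer_iff]
    intro y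
    constructor
    · rintro ⟨hy1, hy2⟩
      exact ⟨(Subgroup.mem_normalizer_iff.mp h1 y).mp hy1, M1.mul_mem (M1.mul_mem hx.1 hy2) (M1.inv_mem hx.1)⟩
    · rintro ⟨hy1, hy2⟩
      refine ⟨(Subgroup.mem_normalizer_iff.mp h1 y).mpr hy1, ?_⟩
      have : y = x⁻¹ * (x * y * x⁻¹) * x := by group
      rw [this]; exact M1.mul_mem (M1.mul_mem (M1.inv_mem hx.1) hy2) hx.1
  have hle : pCoreOf p M2 ≤ R := by
    by_contra hnle
    have hlt : R < R ⊔ pCoreOf p M2 :=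
      lt_of_le_of_ne le_sup_left (fun he => hnle (by rw [he]; exact le_sup_right))
    obtain ⟨x, hx, hx2, hxn⟩ := Cfsg.Agent.H80.exists_mem_normalizer_of_lt hsup hlt
    obtain ⟨a, ha, b, hb', hab⟩ := FStar.mem_sup_of_le_normalizer hQ1n hx
    have hxM : x ∈ M1 := hN hxn
    have haM : a ∈ M1 := hRM1 ha
    have hbM : b ∈ M1 := by
      have : b = a⁻¹ * x := by rw [← hab]; group
      rw [this]; exact mul_mem (inv_mem haM) hxM
    apply hx2
    rw [← hab]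
    exact mul_mem ha (hinter ⟨hb', hbM⟩)
  have heq : pCoreOf p M2 = pCoreOf p M1 := Subgroup.eq_of_le_of_card_ge (hle.trans hR1) (h.card p).le
  have hReq2 : R = pCoreOf p M2 := le_antisymm (by rw [heq]; exact hR1) hle
  apply hb
  apply h.eq_bot hRM1 (hRD.trans inf_le_right) hRn
  rw [hReq2]
  exact Cfsg.Agent.H47.le_normalizer_pCoreOf p M2

/-- Let a finite group G act faithfully and primitively on a set Ω, let a and b be points such that the orbit Δ of b under the stabilizer H of a has length d ≥ 2, and consider the permutation group induced on Δ by the elements of H fixing b. If that induced group has trivial Fitting subgroup (no non-trivial nilpotent normal subgroup), then the two-point stabilizer of a and b has trivial Fitting subgroup and the order of H divides d! · ((d - 1)!)^d. -/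
theorem result {G Ω : Type*} [Group G] [Finite G] [MulAction G Ω] [FaithfulSMul G Ω] [Finite Ω]
    (hprim : MulAction.IsPreprimitive G Ω) (a b : Ω) (d : ℕ) (hd : Nat.card (MulAction.orbit (MulAction.stabilizer G a) b) = d) (h2 : 2 ≤ d)
    (hF : Cfsg.fittingSubgroup ↥(((MulAction.stabilizer G b).subgroupOf (MulAction.stabilizer G a)).map (MulAction.toPermHom (MulAction.stabilizer G a) (MulAction.orbit (MulAction.stabilizer G a) b))) = ⊥) :
    Cfsg.fittingSubgroup ↥(MulAction.stabilizer G a ⊓ MulAction.stabilizer G b) = ⊥ ∧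
      Nat.card (MulAction.stabilizer G a) ∣ Nat.factorial d * (Nat.factorial (d - 1)) ^ d := by
  obtain ⟨hT, hi1, hi2, hcard⟩ := Cfsg.Agent.H94.wielandt_setup hprim a b d hd h2
  have hfit : Cfsg.fittingSubgroup ↥(MulAction.stabilizer G a ⊓ MulAction.stabilizer G b) = ⊥ := by
    rw [Solv.fitting_eq_iSup_pCore, iSup_eq_bot]
    rintro ⟨p, hp⟩
    have : Fact p.Prime := ⟨hp⟩
    rw [Cfsg.Agent.H47.pCore_eq_bot_iff]
    apply pcore_step hT p
    -- the image of O_p(D)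
    let M1 := MulAction.stabilizer G a
    let M2 := MulAction.stabilizer G b
    let φ : M1 →* Equiv.Perm (MulAction.orbit M1 b) := MulAction.toPermHom M1 (MulAction.orbit M1 b)
    let E := (M2.subgroupOf M1).map φ
    -- hom from D onto E
    let ι : ↥(M1 ⊓ M2) →* M1 := Subgroup.inclusion inf_le_left
    have hmem : ∀ x : ↥(M1 ⊓ M2), φ (ι x) ∈ E := fun x => ⟨ι x, x.2.2, rfl⟩
    let ψ : ↥(M1 ⊓ M2) →* E := (φ.comp ι).codRestrict E hmem
    have hsurj : Function.Surjective ψ := by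
      rintro ⟨_, ⟨y, hy, rfl⟩⟩
      exact ⟨⟨y, y.2, hy⟩, rfl⟩
    have h1 : (Cfsg.pCore p ↥(M1 ⊓ M2)).map ψ ≤ Cfsg.pCore p E := Solv.map_pCore_le p ψ hsurj
    have h2 : Cfsg.pCore p E = ⊥ := by
      rw [eq_bot_iff, ← hF]
      exact Solv.pCore_le_fitting p
    rw [h2, le_bot_iff, Subgroup.map_eq_bot_iff] at h1
    rintro _ ⟨x, hx, rfl⟩
    have h3 : ψ x = 1 := h1 hx
    have h4 : φ (ι x) = 1 := congrArg Subtype.val h3
    rw [mem_coreIn]
    refine ⟨x.2.1, fun m hm => ⟨M1.mul_mem (M1.mul_mem hm x.2.1) (M1.inv_mem hm), ?_⟩⟩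
    have h5 : φ (ι x) ⟨m⁻¹ • b, ⟨⟨m⁻¹, inv_mem hm⟩, rfl⟩⟩ = ⟨m⁻¹ • b, ⟨⟨m⁻¹, inv_mem hm⟩, rfl⟩⟩ := by
      rw [h4]; rfl
    have h6 : (x : G) • m⁻¹ • b = m⁻¹ • b := congrArg Subtype.val h5
    change (m * (x : G) * m⁻¹) • b = b
    rw [mul_smul, mul_smul, h6, smul_inv_smul]
  refine ⟨hfit, ?_⟩
  set M1 := MulAction.stabilizer G a with hM1
  set M2 := MulAction.stabilizer G b with hM2
  have hb1 := Cfsg.Agent.H94.bound hT d hi1 hi2
  have hb2 : (coreIn M2 (coreIn M1 (M1 ⊓ M2) ⊓ coreIn M2 (M1 ⊓ M2))).relIndex M2 ∣ Nat.factorial d * (Nat.factorial (d - 1)) ^ d := by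
    have h3 := Cfsg.Agent.H94.bound hT.symm d (by rw [inf_comm]; exact hi2) (by rw [inf_comm]; exact hi1)
    rw [inf_comm M2 M1, inf_comm (coreIn M2 (M1 ⊓ M2))] at h3
    exact h3
  by_cases hA : coreIn M1 (coreIn M1 (M1 ⊓ M2) ⊓ coreIn M2 (M1 ⊓ M2)) = ⊥
  · rwa [hA, Subgroup.relIndex_bot_left] at hb1
  by_cases hB : coreIn M2 (coreIn M1 (M1 ⊓ M2) ⊓ coreIn M2 (M1 ⊓ M2)) = ⊥
  · rw [hB, Subgroup.relIndex_bot_left] at hb2
    rwa [hcard]
  obtain ⟨p, hp, h1, h2', h3, h4⟩ := hT.knapp hA hB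
  exfalso
  have : Fact p.Prime := ⟨hp⟩
  apply hA
  have hAD : coreIn M1 (coreIn M1 (M1 ⊓ M2) ⊓ coreIn M2 (M1 ⊓ M2)) ≤ M1 ⊓ M2 :=
    (coreIn_le_right _ _).trans (inf_le_left.trans (coreIn_le_right _ _))
  have h5 : coreIn M1 (coreIn M1 (M1 ⊓ M2) ⊓ coreIn M2 (M1 ⊓ M2)) ≤ pCoreOf p (M1 ⊓ M2) := by
    apply Cfsg.Agent.H47.le_pCoreOf hAD _ h1
    exact inf_le_left.trans (le_normalizer_coreIn _ _)
  have h6 : pCoreOf p (M1 ⊓ M2) = ⊥ := by
    rw [← Cfsg.Agent.H47.pCore_eq_bot_iff, eq_bot_iff, ← hfit]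
    exact Solv.pCore_le_fitting p
  rw [h6] at h5
  exact le_bot_iff.mp h5

end Cfsg.Agent.S3693
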