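import Cfsg.Statements.S3927
import Cfsg.Agent.H25.IterComm

set_option autoImplicit false
open Cfsg

namespace Cfsg.Agent.S3927

open SemidirectProduct in
theorem semi_aux {G : Type*} [Group G] [Finite G] (α : MulAut G)
    (hG : Subgroup.closure (Set.range (fun c : G => c * (α c)⁻¹)) = ⊤) (k : ℕ) :
    Subgroup.closure (Set.range ((fun c : G => c * (α c)⁻¹)^[k])) = ⊤ := by
  let Γ := G ⋊[(Subgroup.zpowers α).subtype] ↥(Subgroup.zpowers α)
  have : Finite (MulAut G) := by
    exact Finite.of_injective (fun f : MulAut G => (f : G → G)) DFunLike.coe_injective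
  have hfin : Finite Γ := Finite.of_equiv _ (SemidirectProduct.equivProd
    (φ := (Subgroup.zpowers α).subtype)).symm
  let α' : ↥(Subgroup.zpowers α) := ⟨α, Subgroup.mem_zpowers α⟩
  let a : Γ := inr α'
  let i : G →* Γ := inl
  let N : Subgroup Γ := i.range
  have hN : N.Normal := by
    have : N = (rightHom : Γ →* ↥(Subgroup.zpowers α)).ker :=
      range_inl_eq_ker_rightHom
    rw [this]; infer_instance
  have hinj : Function.Injective i := inl_injective
  have hpow : ∀ j : ℤ, a ^ j = inr (α' ^ j) := fun j => (map_zpow inr α' j).symm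
  have hs : N ⊔ Subgroup.zpowers a = ⊤ := by
    rw [eq_top_iff]
    intro x _
    rw [← inl_left_mul_inr_right x]
    refine mul_mem ((le_sup_left : N ≤ _) ⟨x.left, rfl⟩) ((le_sup_right : Subgroup.zpowers a ≤ _) ?_)
    obtain ⟨j, hj⟩ := Subgroup.mem_zpowers_iff.1 x.right.2
    refine Subgroup.mem_zpowers_iff.2 ⟨j, ?_⟩
    rw [hpow]
    congr 1
    exact Subtype.ext (by simpa [α'] using hj)
  have hd : N ⊓ Subgroup.zpowers a = ⊥ := by
    rw [eq_bot_iff]
    rintro x ⟨⟨g, rfl⟩, hx2⟩
    obtain ⟨j, hj⟩ := Subgroup.mem_zpowers_iff.1 hx2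
    rw [hpow] at hj
    have h1 := congrArg SemidirectProduct.left hj
    rw [left_inr] at h1
    have h2 : (i g).left = g := left_inl g
    rw [Subgroup.mem_bot]
    have : g = 1 := by rw [← h2, ← h1]
    rw [this, map_one]
  have hk : ∀ c : G, H25.IterComm.kap a (i c) = i (c * (α c)⁻¹) := by
    intro c
    have h1 : a * i c⁻¹ * a⁻¹ = i (α c⁻¹) := by
      have h2 := (inl_aut (φ := (Subgroup.zpowers α).subtype) α' c⁻¹).symm
      rw [map_inv inr] at h2
      exact h2
    have e : H25.IterComm.kap a (i c) = i c * (a * i c⁻¹ * a⁻¹) := by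
      unfold H25.IterComm.kap
      rw [map_inv]
      simp only [mul_assoc]
    rw [e, h1, ← map_mul, map_inv α]
  have hsc : Function.Semiconj i (fun c : G => c * (α c)⁻¹) (H25.IterComm.kap a) := fun c => (hk c).symm
  have himg : ∀ j : ℕ, (Subgroup.closure (Set.range ((fun c : G => c * (α c)⁻¹)^[j]))).map i =
      Subgroup.closure ((H25.IterComm.kap a)^[j] '' (N : Set Γ)) := by
    intro j
    rw [MonoidHom.map_closure]
    congr 1
    ext y
    constructor
    · rintro ⟨_, ⟨c, rfl⟩, rfl⟩
      exact ⟨i c, ⟨c, rfl⟩, ((hsc.iterate_right j).eq c).symm⟩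
    · rintro ⟨_, ⟨c, rfl⟩, rfl⟩
      exact ⟨_, ⟨c, rfl⟩, (hsc.iterate_right j).eq c⟩
  have hcl : Subgroup.closure (H25.IterComm.kap a '' (N : Set Γ)) = N := by
    have h1 := himg 1
    rw [Function.iterate_one, Function.iterate_one, hG] at h1
    rw [← h1, ← MonoidHom.range_eq_map]
  have hmain := H25.IterComm.main k (Nat.card Γ) Γ le_rfl a N hs hd hcl
  rw [← himg k] at hmain
  have h2 : (Subgroup.closure (Set.range ((fun c : G => c * (α c)⁻¹)^[k]))).map i =
      (⊤ : Subgroup G).map i := by
    rw [hmain, ← MonoidHom.range_eq_map]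
  exact Subgroup.map_injective hinj h2


/-- Let G be a finite group and α an automorphism of G with [G, α] = G, that is, the elements g·α(g)⁻¹ generate G. Then for every k ≥ 1 the iterated commutators [g, α, …, α] with k entries α — the values of the k-th iterate of the map c ↦ c·α(c)⁻¹ — also generate G. -/
theorem result {G : Type*} [Group G] [Finite G] (α : MulAut G) (hG : Subgroup.closure (Set.range (fun c : G => c * (α c)⁻¹)) = ⊤) (k : ℕ) (hk : 1 ≤ k) :
    Subgroup.closure (Set.range ((fun c : G => c * (α c)⁻¹)^[k])) = ⊤ := by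
  exact semi_aux α hG k

end Cfsg.Agent.S3927
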