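import Cfsg.Statements.S3796
import Cfsg.Agent.HH.Ward

set_option autoImplicit false
open Cfsg

namespace Cfsg.Agent.S3796


open Cfsg.Agent.HH Subgroup

theorem ward_sd {G : Type*} [Group G] [Finite G] (hG : Group.IsSolvable G) {p : ℕ} (hp : p.Prime)
    (A : Subgroup (MulAut G)) (hA : Cfsg.IsElementaryAbelian p A) (hcard : Nat.card A = p ^ 2)
    (hfpf : ∀ g : G, (∀ a ∈ A, a g = g) → g = 1) :
    ∃ k l, ((⊤ : Subgroup G).lowerCentralSeries k).lowerCentralSeries l = ⊥ := by
  haveI : Fact p.Prime := ⟨hp⟩
  haveI : Finite (G ⋊[A.subtype] A) := Finite.of_equiv _ SemidirectProduct.equivProd.symm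
  have h : WardHyp p (SemidirectProduct.inl : G →* G ⋊[A.subtype] A).range
      (SemidirectProduct.inr : A →* G ⋊[A.subtype] A).range :=
    { normal := by rw [SemidirectProduct.range_inl_eq_ker_rightHom]; infer_instance
      solv := by
        haveI := hG
        exact Group.isSolvable_of_surjective (MonoidHom.rangeRestrict_surjective _)
      ea := by
        refine ⟨⟨⟨?_⟩⟩, ?_⟩
        · rintro ⟨_, x, rfl⟩ ⟨_, y, rfl⟩
          apply Subtype.ext
          change SemidirectProduct.inr x * SemidirectProduct.inr y = SemidirectProduct.inr y * SemidirectProduct.inr x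
          rw [← map_mul, ← map_mul, hA.1.is_comm.comm]
        · rintro _ ⟨x, rfl⟩
          have hx : x ^ p = 1 := Subtype.ext (hA.2 x x.2)
          rw [← map_pow, hx, map_one]
      card := by
        rw [← hcard]
        exact (Nat.card_congr (MonoidHom.ofInjective SemidirectProduct.inr_injective).toEquiv).symm
      fix := by
        rw [eq_bot_iff]
        rintro _ ⟨⟨g, rfl⟩, hg⟩
        rw [Subgroup.mem_bot, hfpf g, map_one]
        intro a ha
        have h1 := mem_centralizer_iff.1 hg (SemidirectProduct.inr ⟨a, ha⟩) ⟨⟨a, ha⟩, rfl⟩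
        have h2 := SemidirectProduct.inl_aut (φ := A.subtype) ⟨a, ha⟩ g
        rw [h1, map_inv, mul_inv_cancel_right] at h2
        exact SemidirectProduct.inl_injective h2 }
  obtain ⟨k, l, hkl⟩ := ward_main (Nat.card (SemidirectProduct.inl : G →* G ⋊[A.subtype] A).range) _ _ _ rfl h
  refine ⟨k, l, ?_⟩
  rw [← Subgroup.map_eq_bot_iff_of_injective _ (SemidirectProduct.inl_injective (φ := A.subtype)),
    map_lowerCentralSeries, map_lowerCentralSeries, ← MonoidHom.range_eq_map]
  exact hkl

/-- Ward's Theorem: let G be a finite solvable group and A an elementary abelian group of automorphisms of G of order p² (p a prime) with no non-identity common fixed point. Then G has Fitting height at most 2: G has Fitting height at most m when there is a chain of normal subgroups 1 = F₀ ≤ F₁ ≤ ⋯ ≤ F_m = G with each F_{i+1}/F_i nilpotent. -/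
theorem result {G : Type*} [Group G] [Finite G] (hG : Group.IsSolvable G) {p : ℕ} (hp : p.Prime) (A : Subgroup (MulAut G)) (hA : Cfsg.IsElementaryAbelian p A) (hcard : Nat.card A = p ^ 2) (hfpf : ∀ g : G, (∀ a ∈ A, a g = g) → g = 1) : ∃ F : Fin (2 + 1) → Subgroup G, F 0 = ⊥ ∧ F (Fin.last 2) = ⊤ ∧ Monotone F ∧ (∀ i, (F i).Normal) ∧ ∀ i : Fin 2, ∃ k : ℕ, (F i.succ).lowerCentralSeries k ≤ F i.castSucc := by
  obtain ⟨k, l, hkl⟩ := ward_sd hG hp A hA hcard hfpf
  have hn : ((⊤ : Subgroup G).lowerCentralSeries k).Normal := inferInstance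
  refine ⟨![⊥, (⊤ : Subgroup G).lowerCentralSeries k, ⊤], rfl, rfl, ?_, ?_, ?_⟩
  · intro i j hij
    fin_cases i <;> fin_cases j <;> simp_all
  · intro i
    fin_cases i
    · change (⊥ : Subgroup G).Normal; infer_instance
    · exact hn
    · change (⊤ : Subgroup G).Normal; infer_instance
  · intro i
    fin_cases i
    · exact ⟨l, hkl.le⟩
    · exact ⟨k, le_rfl⟩

end Cfsg.Agent.S3796
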