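import Cfsg.Statements.S0083
import Cfsg.Agent.H31.Avg
import Cfsg.Agent.Transfer.Frobenius

set_option autoImplicit false
open Cfsg

namespace Cfsg.Agent.S0083


/-- For an abelian Sylow p-subgroup P, a normal p-complement exists exactly when the normalizer of P is an internal direct product of P with some subgroup. -/
theorem result {G : Type*} [Group G] [Finite G] {p : ℕ} [Fact p.Prime] (P : Sylow p G) (hP : IsMulCommutative P) : Cfsg.HasNormalPComplement p G ↔ ∃ Q : Subgroup G, Q ≤ Subgroup.centralizer (P : Set G) ∧ Q ⊓ (P : Subgroup G) = ⊥ ∧ Q ⊔ (P : Subgroup G) = Subgroup.normalizer (P : Set G) := by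
  constructor
  · intro h
    refine ⟨Cfsg.pResidual p G ⊓ Subgroup.normalizer (P : Set G), ?_, ?_, ?_⟩
    · rintro g ⟨hg1, hg2⟩
      exact Cfsg.Agent.Transfer.HasNPC.mem_centralizer h P.2 hg2
        (Cfsg.Agent.Transfer.hasNPC_iff_forall_pResidual.1 h g hg1)
    · rw [eq_bot_iff]
      have hd := (Cfsg.Agent.Transfer.hasNPC_iff_disjoint P).1 h
      rintro x ⟨⟨hx1, _⟩, hx2⟩
      have h3 := Cfsg.Agent.Transfer.hasNPC_iff_forall_pResidual.1 h x hx1
      obtain ⟨k, hk⟩ := P.2 ⟨x, hx2⟩
      have h4 : orderOf x ∣ p ^ k := by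
        apply orderOf_dvd_of_pow_eq_one
        exact congrArg Subtype.val hk
      have h5 := Nat.Coprime.eq_one_of_dvd (h3.pow_right k) h4
      rw [Subgroup.mem_bot]
      exact orderOf_eq_one_iff.1 h5
    · apply le_antisymm (sup_le inf_le_right Subgroup.le_normalizer)
      intro n hn
      have hn' : n ∈ (P : Subgroup G) ⊔ Cfsg.pResidual p G := by
        rw [Cfsg.Agent.Transfer.sylow_sup_pResidual P]; exact Subgroup.mem_top n
      obtain ⟨a, ha, b, hb, rfl⟩ := Subgroup.mem_sup_of_normal_right.1 hn'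
      have hb' : b ∈ Subgroup.normalizer (P : Set G) := by
        have : b = a⁻¹ * (a * b) := by group
        rw [this]
        exact Subgroup.mul_mem _ (Subgroup.inv_mem _ (Subgroup.le_normalizer ha)) hn
      exact Subgroup.mul_mem _ (Subgroup.mem_sup_right ha) (Subgroup.mem_sup_left ⟨hb, hb'⟩)
  · rintro ⟨Q, hQ1, hQ2, hQ3⟩
    apply Cfsg.Agent.Transfer.hasNPC_of_normalizer_le_centralizer P
    rw [← hQ3]
    apply sup_le hQ1
    intro x hx
    refine Subgroup.mem_centralizer_iff.2 ?_
    intro y hy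
    exact congrArg Subtype.val (hP.is_comm.comm (⟨y, hy⟩ : P) ⟨x, hx⟩)

end Cfsg.Agent.S0083
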