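import Cfsg.Statements.S1465
import Cfsg.Agent.H25.QuadCore
import Cfsg.Agent.H91.SolvPCore

set_option autoImplicit false
open Cfsg

namespace Cfsg.Agent.S1465

/-- Let p be an odd prime, G a solvable group of odd order, P a normal p-subgroup of G, and X the subgroup generated by a family of abelian p-subgroups of G each normalized by P. Then the image of X in G/C_G(P) lies in O_p(G/C_G(P)); and if O_{p'}(G) = 1 and O_p(G) ∩ C_G(P) ≤ P then X ≤ O_p(G). -/
theorem result {G : Type*} [Group G] [Finite G] [Group.IsSolvable G] (hodd : Odd (Nat.card G)) (p : ℕ) [Fact p.Prime] (hp : p ≠ 2) (P : Subgroup G) [P.Normal] (hP : IsPGroup p P)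
    (S : Set (Subgroup G)) (hS : ∀ B ∈ S, IsMulCommutative B ∧ IsPGroup p B ∧ P ≤ Subgroup.normalizer (B : Set G)) :
    (sSup S).map (QuotientGroup.mk' (Subgroup.centralizer (P : Set G))) ≤ Cfsg.pCore p (G ⧸ Subgroup.centralizer (P : Set G)) ∧
      (Cfsg.pPrimeCore p G = ⊥ → Cfsg.pCore p G ⊓ Subgroup.centralizer (P : Set G) ≤ P → sSup S ≤ Cfsg.pCore p G) := by
  have hC : ∀ k : G, (∀ u ∈ P, k * u = u * k) → k ∈ Subgroup.centralizer (P : Set G) := by
    intro k hk
    rw [Subgroup.mem_centralizer_iff]
    intro u hu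
    exact (hk u hu).symm
  have h1 : (sSup S).map (QuotientGroup.mk' (Subgroup.centralizer (P : Set G))) ≤
      Cfsg.pCore p (G ⧸ Subgroup.centralizer (P : Set G)) := by
    rw [Subgroup.map_le_iff_le_comap]
    refine sSup_le fun B hB => ?_
    rw [← Subgroup.map_le_iff_le_comap]
    obtain ⟨hBc, hBp, hBn⟩ := hS B hB
    refine H25.quad_subgroup_le_pCore hp hodd P hP _ hC B ?_
    have h2 : ⁅P, B⁆ ≤ B := by
      rw [Subgroup.commutator_le]
      intro g hg b hb
      rw [commutatorElement_def]
      exact B.mul_mem ((Subgroup.mem_normalizer_iff.mp (hBn hg) b).mp hb) (B.inv_mem hb)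
    refine le_bot_iff.mp ((Subgroup.commutator_mono h2 le_rfl).trans ?_)
    rw [Subgroup.commutator_le]
    intro a ha b hb
    rw [Subgroup.mem_bot, commutatorElement_eq_one_iff_mul_comm]
    have := hBc.is_comm.comm (⟨a, ha⟩ : B) ⟨b, hb⟩
    exact congrArg Subtype.val this
  refine ⟨h1, fun hpp hle => ?_⟩
  have hCp : IsPGroup p (Subgroup.centralizer (P : Set G)) := by
    have h3 : Cfsg.pPrimeCore p (Subgroup.centralizer (P : Set G)) = ⊥ := by
      have := Solv.map_subtype_pPrimeCore_le p (Subgroup.centralizer (P : Set G))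
      rw [hpp, le_bot_iff] at this
      exact (Subgroup.map_eq_bot_iff_of_injective _ (Subgroup.subtype_injective _)).mp this
    have h4 := H91.centralizer_pCore_le p h3
    have h5 : Cfsg.pCore p (Subgroup.centralizer (P : Set G)) = ⊤ := by
      refine eq_top_iff.mpr (le_trans ?_ h4)
      intro c _
      rw [Subgroup.mem_centralizer_iff]
      intro d hd
      have h6 : (d : G) ∈ Cfsg.pCore p G :=
        Solv.map_subtype_pCore_le p (Subgroup.centralizer (P : Set G))
          (Subgroup.mem_map_of_mem _ hd)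
      have h7 : (d : G) ∈ P := hle ⟨h6, d.2⟩
      have h8 := (Subgroup.mem_centralizer_iff.mp c.2) (d : G) h7
      exact Subtype.ext h8
    have h6 := Solv.pCore_isPGroup (G := Subgroup.centralizer (P : Set G)) p
    rw [h5] at h6
    exact IsPGroup.of_equiv h6 Subgroup.topEquiv
  have hN : ((Cfsg.pCore p (G ⧸ Subgroup.centralizer (P : Set G))).comap
      (QuotientGroup.mk' (Subgroup.centralizer (P : Set G)))).Normal := inferInstance
  have hNp : IsPGroup p ((Cfsg.pCore p (G ⧸ Subgroup.centralizer (P : Set G))).comap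
      (QuotientGroup.mk' (Subgroup.centralizer (P : Set G)))) := by
    refine IsPGroup.comap_of_ker_isPGroup (Solv.pCore_isPGroup p) _ ?_
    rw [QuotientGroup.ker_mk']
    exact hCp
  exact (Subgroup.map_le_iff_le_comap.mp h1).trans (Solv.le_pCore hN hNp)

end Cfsg.Agent.S1465
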