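import Cfsg.Statements.S1466
import Cfsg.Agent.H25.Puig
import Cfsg.Agent.H25.SCN

set_option autoImplicit false
open Cfsg

namespace Cfsg.Agent.S1466

/-- Let p be a prime and R a nontrivial finite p-group. Then for every i > 0, Z(R) ≤ C_R(L_i(R)) ≤ L_i(R); likewise Z(R) ≤ C_R(L_*(R)) ≤ L_*(R) and Z(R) ≤ C_R(L(R)) ≤ L(R); and L(R) ≠ 1, L_*(R) ≠ 1. -/
theorem result {R : Type*} [Group R] [Finite R] (p : ℕ) [Fact p.Prime] (hR : IsPGroup p R) [Nontrivial R] :
    (∀ i : ℕ, 0 < i → Subgroup.center R ≤ Subgroup.centralizer ((Cfsg.puigSeq R i : Subgroup R) : Set R) ∧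
        Subgroup.centralizer ((Cfsg.puigSeq R i : Subgroup R) : Set R) ≤ Cfsg.puigSeq R i) ∧
      (Subgroup.center R ≤ Subgroup.centralizer ((Cfsg.puigLower R : Subgroup R) : Set R) ∧ Subgroup.centralizer ((Cfsg.puigLower R : Subgroup R) : Set R) ≤ Cfsg.puigLower R) ∧
      (Subgroup.center R ≤ Subgroup.centralizer ((Cfsg.puigSubgroup R : Subgroup R) : Set R) ∧ Subgroup.centralizer ((Cfsg.puigSubgroup R : Subgroup R) : Set R) ≤ Cfsg.puigSubgroup R) ∧
      Cfsg.puigSubgroup R ≠ ⊥ ∧ Cfsg.puigLower R ≠ ⊥ := by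
  haveI := hR.isNilpotent
  obtain ⟨A, hAn, hAc, hAcent⟩ := Cfsg.Agent.H25.exists_scn_of_nilpotent (G := R)
  have hZ : ∀ X : Subgroup R, Subgroup.center R ≤ Subgroup.centralizer (X : Set R) := fun X =>
    Subgroup.center_le_centralizer _
  have hkey : ∀ X : Subgroup R, A ≤ X → Subgroup.centralizer (X : Set R) ≤ X := by
    intro X hX
    have h1 : Subgroup.centralizer (X : Set R) ≤ Subgroup.centralizer (A : Set R) :=
      Subgroup.centralizer_le hX
    rw [hAcent] at h1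
    exact h1.trans hX
  have hi : ∀ i : ℕ, 0 < i → A ≤ Cfsg.puigSeq R i := fun i hi =>
    Cfsg.Agent.H25.le_puigSeq_of_normal_abelian hAc hi
  have hlow : A ≤ Cfsg.puigLower R := (hi 2 (by norm_num)).trans (Cfsg.Agent.H25.puigSeq_even_le_lower 1)
  have hup : A ≤ Cfsg.puigSubgroup R := le_iInf (fun n => hi (2 * n + 1) (by omega))
  have hAne : A ≠ ⊥ := by
    rintro rfl
    have : Subgroup.centralizer ((⊥ : Subgroup R) : Set R) = ⊤ := by
      rw [eq_top_iff]; intro x _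
      rw [Subgroup.mem_centralizer_iff]
      intro y hy
      have : y = 1 := by simpa using hy
      simp [this]
    rw [this] at hAcent
    exact top_ne_bot hAcent
  refine ⟨fun i h => ⟨hZ _, hkey _ (hi i h)⟩, ⟨hZ _, hkey _ hlow⟩, ⟨hZ _, hkey _ hup⟩, ?_, ?_⟩
  · intro h; rw [h] at hup; exact hAne (le_bot_iff.1 hup)
  · intro h; rw [h] at hlow; exact hAne (le_bot_iff.1 hlow)

end Cfsg.Agent.S1466
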