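import Cfsg.Statements.S1996
import Cfsg.Agent.H33.SecControl

set_option autoImplicit false
universe u
open Cfsg

namespace Cfsg.Agent.S1996

/-- Let p be a prime, G a finite group and W₁, W₂ two isomorphism-invariant p-group functors (W assigns to every group Q a subgroup W(Q), nontrivial whenever Q is a nontrivial finite p-group, and every isomorphism from a finite p-group Q onto a group R carries W(Q) onto W(R)). Suppose that G* = N_{G*}(W₁(S*)) N_{G*}(W₂(S*)) whenever G* = K/R is a section of G with C_{G*}(O_p(G*)) ≤ O_p(G*) and S* is a Sylow p-subgroup of G*. Then the pair {W₁, W₂} controls strong fusion in G. -/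
theorem result {G : Type u} [Group G] [Finite G] {p : ℕ} [Fact p.Prime] (W₁ W₂ : ∀ (Q : Type u) [Group Q], Subgroup Q) (hW₁ : Cfsg.IsCharPFunctor.{u} p W₁) (hW₂ : Cfsg.IsCharPFunctor.{u} p W₂) (hfac : ∀ (K R : Subgroup G) [hR : (R.subgroupOf K).Normal], Subgroup.centralizer ((Cfsg.pCore p (↥K ⧸ R.subgroupOf K) : Subgroup (↥K ⧸ R.subgroupOf K)) : Set (↥K ⧸ R.subgroupOf K)) ≤ Cfsg.pCore p (↥K ⧸ R.subgroupOf K) → ∀ T : Sylow p (↥K ⧸ R.subgroupOf K), ∀ x : (↥K ⧸ R.subgroupOf K), ∃ a ∈ Subgroup.normalizer ((Cfsg.inducedFunctor (G := (↥K ⧸ R.subgroupOf K)) W₁ (T : Subgroup (↥K ⧸ R.subgroupOf K)) : Subgroup (↥K ⧸ R.subgroupOf K)) : Set (↥K ⧸ R.subgroupOf K)), ∃ b ∈ Subgroup.normalizer ((Cfsg.inducedFunctor (G := (↥K ⧸ R.subgroupOf K)) W₂ (T : Subgroup (↥K ⧸ R.subgroupOf K)) : Subgroup (↥K ⧸ R.subgroupOf K)) : Set (↥K ⧸ R.subgroupOf K)), x = a * b) : Cfsg.FamilyControlsStrongFusionIn p {Cfsg.inducedFunctor (G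 := G) W₁, Cfsg.inducedFunctor (G := G) W₂} ⊤ := by
  have h𝓦 : ∀ W' ∈ ({@W₁, @W₂} : Set (∀ (Q : Type u) [Group Q], Subgroup Q)),
      Cfsg.IsCharPFunctor.{u} p W' := by
    rintro W' (rfl | rfl)
    · exact hW₁
    · exact hW₂
  have e1 : ∀ (X : Type u) [Group X], H33.ind X ({@W₁, @W₂} : Set (∀ (Q : Type u) [Group Q], Subgroup Q)) =
      {Cfsg.inducedFunctor (G := X) W₁, Cfsg.inducedFunctor (G := X) W₂} := by
    intro X _
    exact Set.image_pair _ _ _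
  have key := H33.sf_of_quotients (G := G) h𝓦 (by
    intro K R hR hc
    have : Finite (↥K ⧸ R.subgroupOf K) := inferInstance
    obtain ⟨T⟩ : Nonempty (Sylow p (↥K ⧸ R.subgroupOf K)) := inferInstance
    refine H33.family_iff.2 ⟨(T : Subgroup _), H33.isSyl_top T, ?_⟩
    intro A hA h _ hhA
    obtain ⟨a, ha, b, hb, rfl⟩ := hfac K R hc T h
    set N₁ := Subgroup.normalizer ((Cfsg.inducedFunctor (G := (↥K ⧸ R.subgroupOf K)) W₁
      (T : Subgroup (↥K ⧸ R.subgroupOf K)) : Subgroup (↥K ⧸ R.subgroupOf K)) :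
      Set (↥K ⧸ R.subgroupOf K)) with hN₁
    set N₂ := Subgroup.normalizer ((Cfsg.inducedFunctor (G := (↥K ⧸ R.subgroupOf K)) W₂
      (T : Subgroup (↥K ⧸ R.subgroupOf K)) : Subgroup (↥K ⧸ R.subgroupOf K)) :
      Set (↥K ⧸ R.subgroupOf K)) with hN₂
    have hT1 : (T : Subgroup _) ≤ N₁ := H33.cf_norm_le (H33.induced_conj hW₁) T.2
    have hT2 : (T : Subgroup _) ≤ N₂ := H33.cf_norm_le (H33.induced_conj hW₂) T.2
    have hT12 : H33.IsSyl p (T : Subgroup _) (N₁ ⊓ N₂) :=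
      (H33.isSyl_top T).mono (le_inf hT1 hT2) le_top
    have h1 : H33.cj b A ≤ N₁ ⊓ N₂ := by
      refine le_inf ?_ ?_
      · have h2 : H33.cj b A = H33.cj a⁻¹ (H33.cj (a * b) A) := by
          rw [← H33.cj_mul]; congr 1; group
        rw [h2]
        have h3 := H33.cj_mono (g := a⁻¹) (hhA.trans hT1)
        rwa [H33.mem_norm_iff.1 (Subgroup.le_normalizer (N₁.inv_mem ha))] at h3
      · have h3 := H33.cj_mono (g := b) (hA.trans hT2)
        rwa [H33.mem_norm_iff.1 (Subgroup.le_normalizer hb)] at h3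
    obtain ⟨c, hc, hcA⟩ := hT12.conj_le h1 (H33.isPGroup_cj (H33.isPGroup_sub T.2 hA))
    rw [← H33.cj_mul] at hcA
    have s1 : H33.SFc (H33.nFam (H33.ind (↥K ⧸ R.subgroupOf K)
        ({@W₁, @W₂} : Set (∀ (Q : Type u) [Group Q], Subgroup Q))) ⊤ (T : Subgroup _))
        (T : Subgroup _) A (c * b) :=
      H33.SFc.single ⟨_, ⟨_, Or.inr rfl, rfl⟩, rfl⟩
        ⟨Subgroup.mem_top _, N₂.mul_mem hc.2 hb⟩ hA hcA
    have e2 : a * c⁻¹ * (c * b) = a * b := by group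
    have s2 : H33.SFc (H33.nFam (H33.ind (↥K ⧸ R.subgroupOf K)
        ({@W₁, @W₂} : Set (∀ (Q : Type u) [Group Q], Subgroup Q))) ⊤ (T : Subgroup _))
        (T : Subgroup _) (H33.cj (c * b) A) (a * c⁻¹) :=
      H33.SFc.single ⟨_, ⟨_, Or.inl rfl, rfl⟩, rfl⟩
        ⟨Subgroup.mem_top _, N₁.mul_mem ha (N₁.inv_mem hc.1)⟩ hcA (by
          rw [← H33.cj_mul, e2]; exact hhA)
    have s3 := s1.trans s2
    rwa [e2] at s3) G (H2.Sec.refl G)
  rw [e1] at key
  exact key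

end Cfsg.Agent.S1996
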