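import Cfsg.Agent.H33.GF0
import Cfsg.Agent.H49.Zs.Sz
import Cfsg.Agent.Suzuki.SylowTwo
import Cfsg.Agent.Suzuki.FieldAut
import Cfsg.Agent.Suzuki.LieIso
import Cfsg.Agent.S2904

/-!
The Suzuki groups satisfy `Good` and `InnerTwo`.
-/

set_option autoImplicit false

namespace Cfsg.Agent.SuzGF

open Subgroup Cfsg Cfsg.Agent.Suz Cfsg.Agent.H33.GF
open scoped Pointwise

/-- transfer of `Good` -/
theorem good_congr {L L' : Type*} [Group L] [Group L'] [Finite L] [Finite L'] (e : L ≃* L') (h : Good L') : Good L := by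
  intro T A hAT hcomm hsq hA1
  obtain ⟨T', hT'⟩ : ∃ T' : Sylow 2 L', ∀ y : L, e y ∈ (T' : Subgroup L') ↔ y ∈ (T : Subgroup L) := by
    have : Fact (Nat.Prime 2) := ⟨Nat.prime_two⟩
    have h1 : IsPGroup 2 ((T : Subgroup L).map e.toMonoidHom) := T.isPGroup'.map _
    have h2 : ¬ 2 ∣ ((T : Subgroup L).map e.toMonoidHom).index := by
      rw [Subgroup.index_map_of_bijective (show Function.Bijective e.toMonoidHom from e.bijective)]
      exact T.not_dvd_index
    exact ⟨h1.toSylow h2, fun y => Subgroup.mem_map_iff_mem (f := e.toMonoidHom) e.injective⟩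
  have e1 : ∀ y : L', e (e.symm y) = y := e.apply_symm_apply
  obtain ⟨B, hBA, a, ha, x, hx1, hodd, hinv, hBx, hr, hM⟩ := h T' (A.map e.toMonoidHom) (by
      rintro _ ⟨a, ha, rfl⟩
      exact (hT' a).2 (hAT ha)) (by
      rintro _ ⟨a, ha, rfl⟩ _ ⟨b, hb, rfl⟩
      rw [← map_mul, hcomm a ha b hb, map_mul]) (by
      rintro _ ⟨a, ha, rfl⟩
      rw [← map_mul, hsq a ha, map_one]) (by
      rw [Ne, Subgroup.map_eq_bot_iff_of_injective _ e.injective]
      exact hA1)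
  obtain ⟨a₀, ha₀, rfl⟩ := ha
  refine ⟨B.comap e.toMonoidHom, ?_, a₀, ha₀, e.symm x, ?_, ?_, ?_, ?_, ?_, ?_⟩
  · intro b hb
    obtain ⟨b', hb', hbe⟩ := hBA (Subgroup.mem_comap.1 hb)
    rw [← e.injective hbe]; exact hb'
  · intro h; apply hx1; rw [← e1 x, h, map_one]
  · rw [MulEquiv.orderOf_eq]; exact hodd
  · apply e.injective
    rw [map_mul, map_mul, map_inv, map_inv, e1]
    exact hinv
  · intro b hb
    apply e.injective
    rw [map_mul, map_mul, e1]
    exact hBx _ hb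
  · intro r k h1 h2 h3 h4
    rw [MulEquiv.orderOf_eq] at h2
    rw [Subgroup.relIndex_comap]
    exact hr r k h1 h2 h3 h4
  · intro M hM1 hM2
    have h1 := hM (M.map e.toMonoidHom) (by
      intro g hg
      refine ⟨e.symm g, hM1 ?_, e1 g⟩
      rw [Subgroup.mem_normalizer_iff] at hg ⊢
      intro s
      have h2 := hg (e s)
      have h4 : e (e.symm g * s * (e.symm g)⁻¹) = g * e s * g⁻¹ := by
        rw [map_mul, map_mul, map_inv, e1]
      rw [← h4] at h2
      exact ((hT' _).symm.trans h2).trans (hT' _)) (by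
      intro s hs
      have h2 : e.symm s ∈ (T : Subgroup L) := by
        rw [← hT', e1]; exact hs
      refine ⟨_, hM2 _ h2, ?_⟩
      show e (e.symm x * e.symm s * (e.symm x)⁻¹) = _
      rw [map_mul, map_mul, map_inv, e1, e1])
    rw [eq_top_iff]
    intro g _
    have h2 : e g ∈ M.map e.toMonoidHom := by rw [h1]; trivial
    exact (Subgroup.mem_map_iff_mem (f := e.toMonoidHom) e.injective).1 h2

section

variable {F : Type*} [Field F] [Fintype F] {m : ℕ}

theorem good_Sz (hm : 1 ≤ m) (hF : Fintype.card F = 2 ^ (2 * m + 1)) : Good (Cfsg.Sz F m) := by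
  have := charP_two hF
  have : Fact (Nat.Prime 2) := ⟨Nat.prime_two⟩
  have : Finite (Cfsg.Sz F m) := inferInstance
  intro T A hAT hcomm hsq hA1
  obtain ⟨r, hr, hrd, hrm⟩ := S2904.result 2 (4 * (2 * m + 1)) (by norm_num) (by omega)
    (by rintro ⟨-, h⟩; omega) (by rintro ⟨h, -⟩; omega)
  have hr2 : r ≠ 2 := by
    rintro rfl
    have h1 : 2 ∣ 2 ^ (4 * (2 * m + 1)) := dvd_pow_self 2 (by omega)
    have h2 : 1 ≤ 2 ^ (4 * (2 * m + 1)) := Nat.one_le_pow _ _ (by norm_num)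
    omega
  have hrd' : r ∣ (2 ^ (2 * m + 1)) ^ 2 + 1 := by
    have h1 : 2 ^ (4 * (2 * m + 1)) - 1 = ((2 ^ (2 * m + 1)) ^ 2 + 1) * (2 ^ (2 * (2 * m + 1)) - 1) := by
      have h2 : 2 ^ (4 * (2 * m + 1)) = (2 ^ (2 * (2 * m + 1))) * (2 ^ (2 * (2 * m + 1))) := by
        rw [← pow_add]; congr 1; ring
      have h3 : (2 ^ (2 * m + 1)) ^ 2 = 2 ^ (2 * (2 * m + 1)) := by rw [← pow_mul, mul_comm]
      rw [h2, h3]
      simpa using Nat.mul_self_sub_mul_self_eq (2 ^ (2 * (2 * m + 1))) 1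
    rw [h1] at hrd
    rcases (hr.dvd_mul).1 hrd with h | h
    · exact h
    · exact absurd h (hrm _ (by omega) (by omega))
  obtain ⟨a, ha, ha1⟩ : ∃ a, a ∈ A ∧ a ≠ 1 := by
    obtain ⟨a, ha⟩ := Subgroup.ne_bot_iff_exists_ne_one.1 hA1
    exact ⟨a.1, a.2, fun h => ha (Subtype.ext h)⟩
  have haa := hsq a ha
  have hainv : a⁻¹ = a := inv_eq_of_mul_eq_one_left haa
  obtain ⟨h, hh⟩ := H49.Zs.sz_exists hm hF hr hr2 hrd' ha1 haa
  obtain ⟨k, hk⟩ := MulAction.exists_smul_eq (Cfsg.Sz F m) (sylTT hF hm) T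
  have hT : ∀ s, s ∈ (T : Subgroup (Cfsg.Sz F m)) ↔ k⁻¹ * s * k ∈ TT hF := by
    intro s
    have h1 : (T : Subgroup (Cfsg.Sz F m)) = MulAut.conj k • (TT hF) := by
      rw [← hk, ← coe_sylTT hF hm]; rfl
    rw [h1, Subgroup.mem_pointwise_smul_iff_inv_smul_mem]
    have h2 : (MulAut.conj k)⁻¹ • s = k⁻¹ * s * k := by
      rw [← map_inv, MulAut.smul_def, MulAut.conj_apply, inv_inv]
    rw [h2]
  obtain ⟨p, hp⟩ : ∃ p, p = k • oinf F m := ⟨_, rfl⟩
  have hstab : ∀ g : Cfsg.Sz F m, g • p = p → ∃ a b μ, k⁻¹ * g * k = tS hF a b * hS hF μ := by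
    intro g hg
    apply fix_inf hF hm
    rw [mul_smul, mul_smul, ← hp, hg, hp, inv_smul_smul]
  -- the stabiliser of `p` normalizes `T`
  have hN : ∀ g : Cfsg.Sz F m, g • p = p → g ∈ normalizer ((T : Subgroup (Cfsg.Sz F m)) : Set (Cfsg.Sz F m)) := by
    have h0 : ∀ g : Cfsg.Sz F m, g • p = p → ∀ s ∈ (T : Subgroup (Cfsg.Sz F m)), g * s * g⁻¹ ∈ (T : Subgroup (Cfsg.Sz F m)) := by
      intro g hg s hs
      obtain ⟨b, c, μ, h1⟩ := hstab g hg
      rw [hT] at hs ⊢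
      obtain ⟨u, v, h2⟩ := (mem_TT hF).1 hs
      have h3 : k⁻¹ * (g * s * g⁻¹) * k = (k⁻¹ * g * k) * (k⁻¹ * s * k) * (k⁻¹ * g * k)⁻¹ := by group
      rw [h3, h1, h2, mul_inv_rev]
      have h4 : tS hF b c * hS hF μ * tS hF u v * ((hS hF μ)⁻¹ * (tS hF b c)⁻¹)
        = tS hF b c * (hS hF μ * tS hF u v) * (hS hF μ)⁻¹ * (tS hF b c)⁻¹ := by group
      rw [h4, hS_mul_tS]
      have h5 : ∀ x y z w : Cfsg.Sz F m, x * (y * z) * z⁻¹ * w = x * y * w := by intro x y z w; group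
      rw [h5]
      exact mul_mem (mul_mem (tS_mem_TT hF _ _) (tS_mem_TT hF _ _)) (inv_mem (tS_mem_TT hF _ _))
    intro g hg
    rw [Subgroup.mem_normalizer_iff]
    intro s
    refine ⟨h0 g hg s, fun h1 => ?_⟩
    have h2 := h0 g⁻¹ (by rw [inv_smul_eq_iff, hg]) _ h1
    have h3 : g⁻¹ * (g * s * g⁻¹) * g⁻¹⁻¹ = s := by group
    rwa [h3] at h2
  have hTp : ∀ s ∈ (T : Subgroup (Cfsg.Sz F m)), s • p = p := by
    intro s hs
    obtain ⟨u, v, h2⟩ := (mem_TT hF).1 ((hT s).1 hs)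
    have h3 : s = k * tS hF u v * k⁻¹ := by rw [← h2]; group
    rw [h3, mul_smul, mul_smul, hp, inv_smul_smul, tS_oinf]
  have hxr : orderOf (a * (h * a * h⁻¹)) = r := hh
  obtain ⟨x, hxdef⟩ : ∃ x, x = a * (h * a * h⁻¹) := ⟨_, rfl⟩
  rw [← hxdef] at hxr
  have hx1 : x ≠ 1 := by
    rintro rfl
    rw [orderOf_one] at hxr
    exact hr.one_lt.ne hxr
  have hxp : x • p ≠ p := by
    intro hxp
    obtain ⟨u, v, μ, h1⟩ := hstab x hxp
    have h2 : ∀ n : ℕ, ∃ u' v', (k⁻¹ * x * k) ^ n = tS hF u' v' * hS hF (μ ^ n) := by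
      intro n
      induction n with
      | zero => exact ⟨0, 0, by rw [pow_zero, pow_zero, tS_zero, hS_one, mul_one]⟩
      | succ n ih =>
        obtain ⟨u', v', ih⟩ := ih
        have h6 := tS_mul_hS_mul hF u' v' u v (μ ^ n) μ
        rw [← ih, ← h1, ← pow_succ, ← pow_succ] at h6
        exact ⟨_, _, h6⟩
    obtain ⟨u', v', h3⟩ := h2 (2 ^ (2 * m + 1) - 1)
    have h4 : μ ^ (2 ^ (2 * m + 1) - 1) = 1 := by
      have := FiniteField.pow_card_sub_one_eq_one (μ : F) μ.ne_zero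
      rw [hF] at this
      exact Units.ext (by rw [Units.val_pow_eq_pow_val, this, Units.val_one])
    rw [h4, hS_one, mul_one] at h3
    have h5 : (tS hF u' v') ^ (2 ^ (2 * m + 1)) ^ 2 = 1 := by
      have h6 : (⟨tS hF u' v', tS_mem_TT hF u' v'⟩ : TT hF) ^ (2 ^ (2 * m + 1)) ^ 2 = 1 := by
        rw [← card_TT hF]
        exact pow_card_eq_one'
      exact congrArg Subtype.val h6
    have h6 : orderOf (k⁻¹ * x * k) = r := by
      rw [← hxr]
      have : k⁻¹ * x * k = MulAut.conj k⁻¹ x := by rw [MulAut.conj_apply, inv_inv]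
      rw [this, MulEquiv.orderOf_eq]
    have h7 : r ∣ (2 ^ (2 * m + 1) - 1) * (2 ^ (2 * m + 1)) ^ 2 := by
      rw [← h6]
      apply orderOf_dvd_of_pow_eq_one
      rw [pow_mul, h3, h5]
    rcases (hr.dvd_mul).1 h7 with h | h
    · exact hrm _ (by omega) (by omega) h
    · exact hr2 ((Nat.prime_dvd_prime_iff_eq hr Nat.prime_two).1 (hr.dvd_of_dvd_pow (hr.dvd_of_dvd_pow h)))
  refine ⟨⊥, bot_le, a, ha, x, hx1, ?_, ?_, ?_, ?_, ?_⟩
  · rw [hxr]; exact hr.odd_of_ne_two hr2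
  · rw [hxdef]
    calc a * (a * (h * a * h⁻¹)) * a⁻¹ = (a * a) * (h * a * h⁻¹) * a⁻¹ := by group
      _ = h * a * h⁻¹ * a⁻¹ := by rw [haa]; group
      _ = h * a⁻¹ * h⁻¹ * a⁻¹ := by rw [hainv]
      _ = _ := by group
  · intro b hb
    rw [Subgroup.mem_bot.1 hb]; group
  · intro r' l hr' hrr hl hd
    rw [hxr] at hrr
    have h1 : r' = r := (Nat.prime_dvd_prime_iff_eq hr' hr).1 hrr
    rw [h1] at hd
    have h2 : 4 * (2 * m + 1) ≤ l := by
      by_contra hc
      exact hrm l hl (by omega) hd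
    rw [Subgroup.relIndex_bot_left]
    have h3 : Nat.card A ≤ 2 ^ (2 * m + 1) := by
      have h4 : ∀ a : A, ∃ c : F, k⁻¹ * a.1 * k = tS hF 0 c := by
        intro a
        apply eq_tS_zero_of_sq hF hm
        · have := hTp a.1 (hAT a.2)
          rw [mul_smul, mul_smul, ← hp, this, hp, inv_smul_smul]
        · calc k⁻¹ * a.1 * k * (k⁻¹ * a.1 * k) = k⁻¹ * (a.1 * a.1) * k := by group
            _ = 1 := by rw [hsq a.1 a.2]; group
      choose f hf using h4
      have h5 : Function.Injective f := by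
        intro a b hab
        have h6 : k⁻¹ * a.1 * k = k⁻¹ * b.1 * k := by rw [hf, hf, hab]
        exact Subtype.ext (mul_left_cancel (mul_right_cancel h6))
      have h7 := Nat.card_le_card_of_injective f h5
      rwa [Nat.card_eq_fintype_card (α := F), hF] at h7
    calc Nat.card A ^ 4 ≤ (2 ^ (2 * m + 1)) ^ 4 := Nat.pow_le_pow_left h3 4
      _ = 2 ^ (4 * (2 * m + 1)) := by rw [← pow_mul]; congr 1; ring
      _ ≤ 2 ^ l := Nat.pow_le_pow_right (by norm_num) h2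
      _ < 4 * 2 ^ l := by have : 0 < 2 ^ l := by positivity
                          omega
  · intro M hM1 hM2
    have hMp : ∀ g : Cfsg.Sz F m, g • p = p → g ∈ M := fun g hg => hM1 (hN g hg)
    obtain ⟨y, hyM, hyp⟩ : ∃ y ∈ M, y • p ≠ p := by
      by_contra hcon
      push Not at hcon
      apply hxp
      rcases ov_cases (k⁻¹ • x⁻¹ • p) with h1 | ⟨u, v, h1⟩
      · rw [inv_smul_eq_iff, ← hp, inv_smul_eq_iff] at h1
        exact h1.symm
      · exfalso
        have h2 := hcon _ (hM2 (k * tS hF 0 1 * k⁻¹) (by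
          rw [hT]
          have : k⁻¹ * (k * tS hF 0 1 * k⁻¹) * k = tS hF 0 1 := by group
          rw [this]; exact tS_mem_TT hF 0 1))
        have h3 : tS hF 0 1 • (k⁻¹ • x⁻¹ • p) = k⁻¹ • x⁻¹ • p := by
          rw [eq_inv_smul_iff, eq_inv_smul_iff]
          simp only [← mul_smul]
          convert h2 using 2
          group
        rw [h1, tS_opt] at h3
        have h4 := (opt_injective h3).2
        simp at h4
    rw [eq_top_iff]
    intro g _
    by_cases hg : g • p = p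
    · exact hMp g hg
    · obtain ⟨g1, h1, h2⟩ := exists_smul_pair hF (p := p) (q := y • p) (Ne.symm hyp)
      obtain ⟨g2, h3, h4⟩ := exists_smul_pair hF (p := p) (q := g • p) (Ne.symm hg)
      have h5 : g2 * g1⁻¹ ∈ M := by
        apply hMp
        rw [mul_smul, ← h1, inv_smul_smul, h1, h3]
      have h6 : (g2 * g1⁻¹ * y)⁻¹ * g ∈ M := by
        apply hMp
        rw [mul_smul, inv_smul_eq_iff, mul_smul, mul_smul, ← h2, inv_smul_smul, h4]
      have h7 : g = (g2 * g1⁻¹ * y) * ((g2 * g1⁻¹ * y)⁻¹ * g) := by group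
      rw [h7]
      exact mul_mem (mul_mem h5 hyM) h6

/-- an automorphism of 2-power order of a group with odd outer automorphism group is inner -/
theorem inner_of_odd_out {L : Type*} [Group L] (hodd : Odd (Nat.card (Out L))) (α : MulAut L) {k : ℕ}
    (hα : α ^ 2 ^ k = 1) : ∃ l : L, ∀ x, α x = l * x * l⁻¹ := by
  have h1 : (QuotientGroup.mk' (Inn L) α) ^ 2 ^ k = 1 := by rw [← map_pow, hα, map_one]
  have h2 : (QuotientGroup.mk' (Inn L) α) ^ Nat.card (Out L) = 1 := pow_card_eq_one'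
  have h3 : QuotientGroup.mk' (Inn L) α = 1 := by
    have h4 : Nat.gcd (2 ^ k) (Nat.card (Out L)) = 1 := by
      apply Nat.Coprime.pow_left
      exact Nat.coprime_two_left.2 hodd
    have h5 := pow_gcd_eq_one.2 ⟨h1, h2⟩
    rwa [h4, pow_one] at h5
  obtain ⟨l, hl⟩ := (QuotientGroup.eq_one_iff α).1 h3
  exact ⟨l, fun x => by rw [← hl, MulAut.conj_apply]⟩

end

universe u v

theorem innerTwo_of_odd {L : Type v} [Group L] (hodd : Odd (Nat.card (Out L))) : InnerTwo.{u, v} L := by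
  intro Y _ _ K hK ⟨e⟩ _ a ⟨k, ha⟩
  have hodd' : Odd (Nat.card (Out K)) := by rw [card_out_congr e]; exact hodd
  have hα : (MulAut.conjNormal a : MulAut K) ^ 2 ^ k = 1 := by rw [← map_pow, ha, map_one]
  obtain ⟨l, hl⟩ := inner_of_odd_out hodd' _ hα
  refine ⟨l.1, l.2, fun x hx => ?_⟩
  have h1 := congrArg Subtype.val (hl ⟨x, hx⟩)
  rw [MulAut.conjNormal_apply] at h1
  exact h1

theorem good_of_isoSuzuki {L : Type*} [Group L] [Finite L] (h : Lie.IsoSuzuki L) : Good L := by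
  obtain ⟨F, _, _, m, hm, hF, ⟨e⟩⟩ := h
  obtain ⟨e'⟩ := nonempty_lieEquiv hm hF
  exact good_congr (e.trans e'.symm) (good_Sz hm hF)

theorem innerTwo_of_isoSuzuki {L : Type v} [Group L] (h : Lie.IsoSuzuki L) : InnerTwo.{u, v} L := by
  obtain ⟨F, _, _, m, hm, hF, ⟨e⟩⟩ := h
  have := charP_two hF
  obtain ⟨e'⟩ := nonempty_lieEquiv hm hF
  apply innerTwo_of_odd
  rw [card_out_congr (e.trans e'.symm), card_out_Sz hm hF]
  exact odd_two_mul_add_one m

end Cfsg.Agent.SuzGF
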