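import Cfsg.Statements.S0082
import Cfsg.Agent.H31.Avg
import Cfsg.Agent.Transfer.Frobenius

set_option autoImplicit false
open Cfsg

namespace Cfsg.Agent.S0082


/-- With a cyclic Sylow p-subgroup, either there is a normal p-complement or the elements of order prime to p generate the whole group. -/
theorem result {G : Type*} [Group G] [Finite G] {p : ℕ} [Fact p.Prime] (P : Sylow p G) (hP : IsCyclic P) : Cfsg.HasNormalPComplement p G ∨ Cfsg.pResidual p G = ⊤ := by
  have hPc : IsMulCommutative (P : Subgroup G) := by
    haveI : IsCyclic (P : Subgroup G) := hP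
    letI : CommGroup (P : Subgroup G) := IsCyclic.commGroup
    exact ⟨⟨fun a b => mul_comm a b⟩⟩
  have h3 := Cfsg.Agent.Transfer.inf_pResidual_eq_of_isMulCommutative P hPc
  have h4 := Cfsg.Agent.Transfer.sylow_sup_pResidual P
  have h5 := Cfsg.Agent.Transfer.commutator_inf_eq_of_isMulCommutative P hPc
  haveI : IsCyclic P := hP
  rcases Sylow.normalizer_le_centralizer_or_le_commutator P with h | h
  · left
    exact Cfsg.Agent.Transfer.hasNPC_of_normalizer_le_centralizer P h
  · right
    rw [inf_eq_right.2 h] at h5
    rw [← h5, inf_eq_left] at h3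
    rwa [sup_eq_right.2 h3] at h4

end Cfsg.Agent.S0082
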