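import Cfsg.Statements.S0732
import Mathlib
import Cfsg.Agent.H37.ZReg
import Cfsg.Agent.H34.Sharp3Odd

set_option autoImplicit false
open Cfsg

namespace Cfsg.Agent.S0732

/-- A transitive permutation group on `p + 1` points (`p` prime) of order `(p+1) p d` with `d < p` is isomorphic to `PGL(2,p)` with `d = p - 1`, or to `PSL(2,p)` with `2d = p - 1`, or else `p + 1 = 2^q` for a prime `q`, `d = 1` or `d = q`, and the group is permutation-isomorphic to a group of semi-affine maps `x ↦ a φ(x) + b` of the field with `2^q` elements. -/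
theorem result {α : Type*} [Fintype α] [DecidableEq α] {p d : ℕ} (hp : p.Prime) (hα : Fintype.card α = p + 1) (G : Subgroup (Equiv.Perm α)) [MulAction.IsPretransitive G α] (hG : Nat.card G = (p + 1) * p * d) (hd : d < p) : (d = p - 1 ∧ Nonempty (G ≃* Matrix.ProjGenLinGroup (Fin 2) (ZMod p))) ∨ (2 * d = p - 1 ∧ Nonempty (G ≃* Matrix.ProjectiveSpecialLinearGroup (Fin 2) (ZMod p))) ∨ (∃ q : ℕ, q.Prime ∧ p + 1 = 2 ^ q ∧ (d = 1 ∨ d = q) ∧ ∃ e : α ≃ GaloisField 2 q, ∀ g : G, (e.symm.trans (((g : Equiv.Perm α)).trans e)) ∈ Cfsg.semiaffineGroup (GaloisField 2 q)) := by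
  classical
  have : Fact p.Prime := ⟨hp⟩
  have hΩ : Nat.card α = p + 1 := by rw [Nat.card_eq_fintype_card, hα]
  have hf : ∀ g : G, (∀ a : α, g • a = a) → g = 1 := by
    intro g hg
    apply Subtype.ext
    ext a
    exact hg a
  have ht : ∀ a b : α, ∃ g : G, g • a = b := fun a b => MulAction.exists_smul_eq G a b
  obtain ⟨hZ, hker⟩ := Cfsg.Agent.H37.ZT.prime_setup hf ht hΩ hG hd
  have hp2 := hp.two_le
  have hnt : Nontrivial α := Finite.one_lt_card_iff_nontrivial.1 (by rw [hΩ]; omega)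
  obtain ⟨a, b, hab⟩ := exists_pair_ne α
  have hcard := hZ.card hab
  have hed : Nat.card (Cfsg.Agent.H34.stab2 G a b) = d := by
    rw [hG, hΩ, Nat.add_sub_cancel, mul_assoc] at hcard
    have h1 := Nat.eq_of_mul_eq_mul_left (by omega) hcard
    exact (Nat.eq_of_mul_eq_mul_left (by omega) h1).symm
  have hd0 : 0 < d := by rw [← hed]; exact Nat.card_pos
  -- the sharply three transitive case
  have hpgl : d = p - 1 → Nonempty (G ≃* Matrix.ProjGenLinGroup (Fin 2) (ZMod p)) := by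
    intro hdp
    have h3 := Cfsg.Agent.H37.ZT.stab2_third hZ hab (by rw [hed, hΩ]; omega)
    have hS := Cfsg.Agent.H34.sharp3_of h3.1 h3.2
    have hc : ∃ c : α, c ≠ a ∧ c ≠ b := by
      by_contra hcon
      push Not at hcon
      have : Fintype.card α ≤ 2 := by
        have h4 : (Finset.univ : Finset α) ⊆ {a, b} := by
          intro x _
          by_cases hx : x = a
          · rw [hx]; simp
          · rw [hcon x hx]; simp
        exact (Finset.card_le_card h4).trans Finset.card_le_two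
      omega
    obtain ⟨c, hca, hcb⟩ := hc
    have : ∃ (F : Type) (_ : Field F) (_ : Fintype F), Fintype.card F = Nat.card α - 1 ∧
        Nonempty (G ≃* Matrix.ProjGenLinGroup (Fin 2) F) := by
      by_cases hpt : p = 2
      · exact hS.iso_pgl_even hab (Ne.symm hcb) (Ne.symm hca) (by rw [hΩ, hpt]; decide)
      · exact hS.iso_pgl_odd hab (Ne.symm hcb) (Ne.symm hca) hp hpt odd_one (by rw [hΩ, pow_one])
    obtain ⟨F, iF, iFF, hcF, ⟨φ⟩⟩ := this
    have hcc : Fintype.card F = Fintype.card (ZMod p) := by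
      rw [hcF, hΩ, ZMod.card]; omega
    obtain ⟨ψ⟩ := Cfsg.Agent.H34.pgl_transport (FiniteField.ringEquivOfCardEq hcc)
    exact ⟨φ.trans ψ⟩
  by_cases hpt : p = 2
  · left
    exact ⟨by omega, hpgl (by omega)⟩
  obtain ⟨U, hU, hUc, hUcyc⟩ := hker a
  have hUcomm := Cfsg.Agent.H37.ZT.comm_of_cyclic hUcyc
  by_cases hreg : ∃ N : Subgroup G, N.Normal ∧ MulAction.IsPretransitive N α ∧ ∀ x : α, MulAction.stabilizer N x = ⊥
  · right; right
    obtain ⟨N, hN, hNt, hNr⟩ := hreg
    obtain ⟨q, hq, hpq, hdq, e, he⟩ := Cfsg.Agent.H37.ZT.reg_prime hZ hpt hΩ hab hU hUcomm N hN hNt hNr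
    rw [hed] at hdq
    refine ⟨q, hq, hpq, hdq, e, fun g => ?_⟩
    obtain ⟨s, t, φ, h1⟩ := he g
    exact ⟨s, t, φ, fun x => h1 x⟩
  · have hd2 : 2 ≤ d := by
      by_contra hcon
      have hd1 : d = 1 := by omega
      rw [hd1, Subgroup.card_eq_one] at hed
      have hS2 : Cfsg.Agent.H34.Sharp2 G α := by
        refine ⟨fun h1 h2 => hZ.trans h1 h2, ?_⟩
        intro g x y hxy hgx hgy
        obtain ⟨k, hk1, hk2⟩ := hZ.trans hxy hab
        have h1 := Cfsg.Agent.H34.smul_stab2 (g := k) (Cfsg.Agent.H34.mem_stab2.2 ⟨hgx, hgy⟩)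
        rw [hk1, hk2, hed, Subgroup.mem_bot, mul_inv_eq_one] at h1
        exact mul_eq_left.mp h1
      obtain ⟨K, r, j, hr, hj, hrj, hKn, hKc, h1, h2, h3, h4⟩ := hS2.exists_kernel (by rw [hΩ]; omega)
      refine hreg ⟨K, hKn, ⟨fun x y => ?_⟩, fun x => ?_⟩
      · obtain ⟨k, ⟨hk, hkx⟩, -⟩ := h4 x y
        exact ⟨⟨k, hk⟩, hkx⟩
      · rw [eq_bot_iff]
        intro k hk
        obtain ⟨k', -, hk'⟩ := h4 x x
        have e1 := hk' k ⟨k.2, hk⟩
        have e2 := hk' 1 ⟨K.one_mem, one_smul _ _⟩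
        rw [Subgroup.mem_bot]
        exact Subtype.ext (e1.trans e2.symm)
    have hZ' : Cfsg.IsZassenhausGroup G α := by
      refine ⟨inferInstance, ?_, fun g a b c h1 h2 h3 => hZ.three g h1 h2 h3, ?_, ?_⟩
      · rw [MulAction.is_two_pretransitive_iff]
        intro a b c d hab hcd
        exact hZ.trans hab hcd
      · have hnt : Nontrivial (Cfsg.Agent.H34.stab2 G a b) := Finite.one_lt_card_iff_nontrivial.1 (by omega)
        obtain ⟨x, hx⟩ := exists_ne (1 : Cfsg.Agent.H34.stab2 G a b)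
        have hx' := Cfsg.Agent.H34.mem_stab2.1 x.2
        exact ⟨x, fun h => hx (Subtype.ext h), a, b, hab, hx'.1, hx'.2⟩
      · intro N hN hNt
        by_contra hcon
        push Not at hcon
        exact hreg ⟨N, hN, hNt, hcon⟩
    rcases Cfsg.Agent.H37.ZT.zass_abelian hZ' hab hU hUcomm with h1 | ⟨h1, K, iK, iFK, hr, hK, ⟨φ⟩⟩
    · left
      have hdp : d = p - 1 := by rw [hed, hΩ] at h1; omega
      exact ⟨hdp, hpgl hdp⟩
    · right; left
      refine ⟨by rw [hed, hΩ] at h1; omega, ?_⟩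
      have hKc : Fintype.card K = Fintype.card (ZMod p) := by
        rw [ZMod.card, ← Nat.card_eq_fintype_card]; omega
      obtain ⟨ψ⟩ := Cfsg.Agent.H34.psl_transport (FiniteField.ringEquivOfCardEq hKc)
      exact ⟨φ.trans ψ⟩

end Cfsg.Agent.S0732
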