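import Cfsg.Statements.S2585
import Cfsg.Agent.ClGeo.Symp

set_option autoImplicit false
open Cfsg

namespace Cfsg.Agent.S2585

/-- Over a finite field of characteristic two every element of the symplectic group is orthogonal for a suitable quadratic form: for each A in Sp_2m(F) there is a quadratic form Q on F^(2m) whose polar form is the alternating form defining Sp_2m(F) (so Q is non-degenerate) and which A preserves. Equivalently, for m ≥ 1, Sp_2m(F) is the union of the conjugates of its two orthogonal subgroups O⁺_2m(F) and O⁻_2m(F). -/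
theorem result {F : Type*} [Field F] [Fintype F] [CharP F 2] {m : ℕ} (A : Matrix.symplecticGroup (Fin m) F) : ∃ Q : QuadraticForm F (Fin m ⊕ Fin m → F), (∀ u v : Fin m ⊕ Fin m → F, QuadraticMap.polar ⇑Q u v = Cfsg.sympForm m F u v) ∧ ∀ v : Fin m ⊕ Fin m → F, Q ((A : Matrix (Fin m ⊕ Fin m) (Fin m ⊕ Fin m) F).mulVec v) = Q v := by
  classical
  obtain ⟨B, hB⟩ : ∃ B : (Fin m ⊕ Fin m → F) →ₗ[F] (Fin m ⊕ Fin m → F) →ₗ[F] F,
      ∀ u v, B u v = ∑ i, u (Sum.inr i) * v (Sum.inl i) := by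
    refine ⟨LinearMap.mk₂ F (fun u v => ∑ i, u (Sum.inr i) * v (Sum.inl i)) ?_ ?_ ?_ ?_, fun u v => rfl⟩
    · intro u u' v; simp only [Pi.add_apply, add_mul, Finset.sum_add_distrib]
    · intro c u v; simp only [Pi.smul_apply, smul_eq_mul, Finset.mul_sum, mul_assoc]
    · intro u v v'; simp only [Pi.add_apply, mul_add, Finset.sum_add_distrib]
    · intro c u v; simp only [Pi.smul_apply, smul_eq_mul, Finset.mul_sum, mul_left_comm]
  obtain ⟨Q₀, hQ₀⟩ : ∃ Q₀ : QuadraticForm F (Fin m ⊕ Fin m → F), ∀ v, Q₀ v = B v v :=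
    ⟨LinearMap.BilinMap.toQuadraticMap B, fun v => rfl⟩
  have hpol : ∀ u v, QuadraticMap.polar Q₀ u v = Cfsg.sympForm m F u v := by
    intro u v
    rw [QuadraticMap.polar, hQ₀, hQ₀, hQ₀, Cfsg.Agent.ClGeo.sympForm_eq, hB, hB, hB, Finset.sum_sub_distrib]
    simp only [Pi.add_apply, add_mul, mul_add, Finset.sum_add_distrib]
    rw [CharTwo.sub_eq_add (∑ i, u (Sum.inr i) * v (Sum.inl i))]
    have : ∑ i, v (Sum.inr i) * u (Sum.inl i) = ∑ i, u (Sum.inl i) * v (Sum.inr i) :=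
      Finset.sum_congr rfl fun i _ => mul_comm _ _
    rw [this]
    ring
  obtain ⟨a, ha⟩ : ∃ a : Module.End F (Fin m ⊕ Fin m → F), ∀ v, a v = (A : Matrix (Fin m ⊕ Fin m) (Fin m ⊕ Fin m) F).mulVec v :=
    ⟨Matrix.toLin' (A : Matrix (Fin m ⊕ Fin m) (Fin m ⊕ Fin m) F), fun v => rfl⟩
  have hsp : ∀ u v, Cfsg.sympForm m F (a u) (a v) = Cfsg.sympForm m F u v := by
    intro u v
    rw [ha, ha]
    exact Cfsg.Agent.ClGeo.sympForm_mulVec m A.2 u v
  have hadd : ∀ u v, Q₀ (u + v) = Q₀ u + Q₀ v + Cfsg.sympForm m F u v := by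
    intro u v
    rw [← hpol, QuadraticMap.polar]; ring
  -- the square root of `Q₀ ∘ A - Q₀`
  obtain ⟨l, hl⟩ : ∃ l : Module.Dual F (Fin m ⊕ Fin m → F), ∀ v, (l v) ^ 2 = Q₀ (a v) + Q₀ v := by
    refine ⟨{ toFun := fun v => (frobeniusEquiv F 2).symm (Q₀ (a v) + Q₀ v), map_add' := ?_, map_smul' := ?_ }, ?_⟩
    · intro u v
      rw [← map_add (frobeniusEquiv F 2).symm, map_add a, hadd, hadd, hsp]
      congr 1
      have := CharTwo.add_self_eq_zero (Cfsg.sympForm m F u v)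
      linear_combination this
    · intro c v
      rw [RingHom.id_apply, smul_eq_mul, RingEquiv.symm_apply_eq, map_mul, RingEquiv.apply_symm_apply,
        frobeniusEquiv_apply, frobenius_def, map_smul, QuadraticMap.map_smul, QuadraticMap.map_smul, smul_eq_mul,
        smul_eq_mul]
      ring
    · intro v
      change ((frobeniusEquiv F 2).symm (Q₀ (a v) + Q₀ v)) ^ 2 = _
      rw [← frobenius_def, ← frobeniusEquiv_apply, RingEquiv.apply_symm_apply]
  -- the map `x ↦ (v ↦ f (a v - v, x))`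
  obtain ⟨S, hS⟩ : ∃ S : (Fin m ⊕ Fin m → F) →ₗ[F] Module.Dual F (Fin m ⊕ Fin m → F),
      ∀ x v, S x v = Cfsg.sympForm m F (a v - v) x := by
    refine ⟨LinearMap.flip (LinearMap.comp (Cfsg.Agent.ClGeo.sB F m : (Fin m ⊕ Fin m → F) →ₗ[F] (Fin m ⊕ Fin m → F) →ₗ[F] F) (a - 1)), ?_⟩
    intro x v
    rw [← Cfsg.Agent.ClGeo.sB_apply]
    rfl
  have hmem : l ∈ LinearMap.range S := by
    by_contra hnot
    obtain ⟨φ, hφ, hle⟩ := Submodule.exists_le_ker_of_notMem hnot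
    obtain ⟨v, rfl⟩ := (Module.evalEquiv F (Fin m ⊕ Fin m → F)).surjective φ
    rw [Module.evalEquiv_apply, Module.Dual.eval_apply] at hφ
    have hav : a v - v = 0 := by
      apply Cfsg.Agent.ClGeo.sympForm_nondeg_left
      intro x
      rw [← hS]
      have := hle ⟨x, rfl⟩
      rwa [LinearMap.mem_ker, Module.evalEquiv_apply, Module.Dual.eval_apply] at this
    have h2 := hl v
    rw [sub_eq_zero.1 hav, CharTwo.add_self_eq_zero] at h2
    exact hφ (pow_eq_zero_iff (two_ne_zero)|>.1 h2)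
  obtain ⟨x, hx⟩ := hmem
  obtain ⟨Q₁, hQ₁⟩ : ∃ Q₁ : QuadraticForm F (Fin m ⊕ Fin m → F), ∀ v, Q₁ v = (Cfsg.sympForm m F v x) ^ 2 := by
    refine ⟨QuadraticMap.linMulLin ((Cfsg.Agent.ClGeo.sB F m).flip x) ((Cfsg.Agent.ClGeo.sB F m).flip x), ?_⟩
    intro v
    rw [← Cfsg.Agent.ClGeo.sB_apply, sq]
    rfl
  refine ⟨Q₀ + Q₁, ?_, ?_⟩
  · intro u v
    rw [← hpol, QuadraticMap.polar, QuadraticMap.polar]
    rw [add_apply, add_apply, add_apply, hQ₁, hQ₁, hQ₁,
      Cfsg.Agent.ClGeo.sympForm_add_left, add_sq]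
    have h2 : (2 : F) = 0 := CharTwo.two_eq_zero
    rw [h2]; ring
  · intro v
    rw [← ha, add_apply, add_apply, hQ₁, hQ₁]
    have h1 := hl v
    rw [← hx, hS, Cfsg.Agent.ClGeo.sympForm_sub_left] at h1
    have h2 : (2 : F) = 0 := CharTwo.two_eq_zero
    linear_combination h1 + (Q₀ (a v) - (Cfsg.sympForm m F v x) ^ 2 + (Cfsg.sympForm m F (a v) x) * (Cfsg.sympForm m F v x)) * h2

end Cfsg.Agent.S2585
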