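import Cfsg.Statements.S0756
import Cfsg.Agent.Witt.Ortho

set_option autoImplicit false
open Cfsg

namespace Cfsg.Agent.S0756

/-- Classification of symmetric bilinear forms over finite fields of odd characteristic: if B is non-degenerate symmetric on V of dimension n + 1 and α is a fixed non-square of F, there is an orthogonal basis b_0, ..., b_n with B(b_i, b_i) = 1 for i < n and B(b_n, b_n) ∈ {1, α}. -/
theorem result {F V : Type*} [Field F] [Finite F] [AddCommGroup V] [Module F V] [FiniteDimensional F V] (h2 : (2 : F) ≠ 0) (B : LinearMap.BilinForm F V) (hS : B.IsSymm) (hB : B.Nondegenerate) {n : ℕ} (hn : Module.finrank F V = n + 1) (α : F) (hα : ¬ IsSquare α) : ∃ b : Module.Basis (Fin (n + 1)) F V, (∀ i j, i ≠ j → B (b i) (b j) = 0) ∧ (∀ i, i ≠ Fin.last n → B (b i) (b i) = 1) ∧ (B (b (Fin.last n)) (b (Fin.last n)) = 1 ∨ B (b (Fin.last n)) (b (Fin.last n)) = α) := by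
  have hW := Cfsg.Agent.Witt.isWittForm_of_isSymm h2 B hB hS
  have hA := Cfsg.Agent.Witt.hasAniso_of_isSymm h2 hS
  obtain ⟨v, hv⟩ := Cfsg.Agent.Witt.exists_orthonormal_symm h2 hS hB n (by omega)
  have hof : Cfsg.Agent.Witt.IsOrthoFam (σ := RingHom.id F) B v :=
    ⟨fun i j hij => by rw [hv, if_neg hij], fun i => by rw [hv, if_pos rfl]; exact one_ne_zero⟩
  obtain ⟨u, hu, huu⟩ := hof.exists_ortho hW hA (by omega)
  have hα0 : α ≠ 0 := by rintro rfl; exact hα ⟨0, by simp⟩
  -- rescale
  obtain ⟨l, hl0, hl⟩ : ∃ l : F, l ≠ 0 ∧ (l * l * B u u = 1 ∨ l * l * B u u = α) := by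
    by_cases hsq : IsSquare (B u u)
    · obtain ⟨t, ht⟩ := hsq
      have ht0 : t ≠ 0 := by rintro rfl; rw [mul_zero] at ht; exact huu ht
      refine ⟨t⁻¹, inv_ne_zero ht0, Or.inl ?_⟩
      rw [ht]
      field_simp
    · obtain ⟨t, ht⟩ := Cfsg.Agent.ClGeo.isSquare_mul_of_not hα hsq
      have ht0 : t ≠ 0 := by
        rintro rfl
        rw [mul_zero] at ht
        rcases mul_eq_zero.1 ht with h | h
        · exact hα0 h
        · exact huu h
      refine ⟨t / B u u, div_ne_zero ht0 huu, Or.inr ?_⟩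
      field_simp
      linear_combination -ht
  have hll : l * l * B u u ≠ 0 := mul_ne_zero (mul_ne_zero hl0 hl0) huu
  have hlu : ∀ i, B (v i) (l • u) = 0 := fun i => by rw [map_smul, hu, smul_zero]
  have hluu : B (l • u) (l • u) = l * l * B u u := by
    simp only [map_smul, LinearMap.smul_apply, smul_eq_mul]; ring
  have hof' := hof.snoc hW hlu (by rw [hluu]; exact hll)
  refine ⟨basisOfLinearIndependentOfCardEqFinrank hof'.linearIndependent (by simp [hn]), ?_, ?_, ?_⟩
  · intro i j hij
    rw [coe_basisOfLinearIndependentOfCardEqFinrank]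
    exact hof'.ortho i j hij
  · intro i hi
    rw [coe_basisOfLinearIndependentOfCardEqFinrank]
    refine Fin.lastCases (fun h => absurd rfl h) (fun i' _ => ?_) i hi
    rw [Fin.snoc_castSucc, hv, if_pos rfl]
  · rw [coe_basisOfLinearIndependentOfCardEqFinrank, Fin.snoc_last, hluu]
    exact hl

end Cfsg.Agent.S0756
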