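import Cfsg.Statements.S4001
import Cfsg.Agent.Frob.Complement
import Cfsg.Agent.Frob.Kernel
import Cfsg.Agent.Frob.Nested
import Cfsg.Agent.Frob.Center
import Cfsg.Agent.S0016
import Cfsg.Agent.S0041
import Cfsg.Agent.S0042
import Cfsg.Agent.H66.Util

set_option autoImplicit false
open Cfsg

namespace Cfsg.Agent.S4001

open Subgroup
open scoped Pointwise

theorem exists_orderOf_of_surjective {X Y : Type*} [Group X] [Group Y] [Finite X] (f : X →* Y)
    (hf : Function.Surjective f) (y : Y) : ∃ x : X, orderOf x = orderOf y := by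
  obtain ⟨x, rfl⟩ := hf y
  have h1 : orderOf (f x) ∣ orderOf x := orderOf_map_dvd f x
  exact ⟨x ^ (orderOf x / orderOf (f x)), orderOf_pow_orderOf_div (orderOf_pos x).ne' h1⟩

/-- in a Frobenius group kernel elements do not commute with elements outside the kernel -/
theorem not_comm_of_kernel {X : Type*} [Group X] [Finite X] {C : Subgroup X}
    (hC : IsFrobeniusComplement C) {N : Subgroup X} [N.Normal]
    (hN : frobeniusKernel C = (N : Set X)) {n x : X} (hn : n ∈ N) (hn1 : n ≠ 1) (hx : x ∉ N) :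
    n * x ≠ x * n := by
  intro hcomm
  obtain ⟨M, hM1, hM2, hM3⟩ := Cfsg.Agent.Frob.exists_normal_complement hC
  have hMN : M = N := by
    apply SetLike.coe_injective
    rw [hM1, hN]
  subst hMN
  obtain ⟨g, hg⟩ := Cfsg.Agent.Frob.exists_conj_mem_of_not_mem hC hM3 hx
  have hNb : M ≠ ⊥ := by
    rintro rfl
    exact hn1 (Subgroup.mem_bot.mp hn)
  have hfpf := (Cfsg.Agent.Frob.isFrobeniusComplement_iff_fpf hM3 hNb hC.1).mp hC
  have hx1 : g⁻¹ * x * g ≠ 1 := by
    intro h1
    apply hx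
    have : x = 1 := by
      calc x = g * (g⁻¹ * x * g) * g⁻¹ := by group
        _ = 1 := by rw [h1]; group
    rw [this]; exact one_mem _
  have h2 := hfpf _ hg hx1
  have h3 : g⁻¹ * n * g ∈ M ⊓ centralizer {g⁻¹ * x * g} := by
    refine ⟨?_, ?_⟩
    · have := hM2.conj_mem n hn g⁻¹
      simpa using this
    · apply mem_centralizer_singleton_iff.mpr
      calc g⁻¹ * n * g * (g⁻¹ * x * g) = g⁻¹ * (n * x) * g := by group
        _ = g⁻¹ * (x * n) * g := by rw [hcomm]
        _ = g⁻¹ * x * g * (g⁻¹ * n * g) := by group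
  rw [h2, Subgroup.mem_bot] at h3
  apply hn1
  calc n = g * (g⁻¹ * n * g) * g⁻¹ := by group
    _ = 1 := by rw [h3]; group

/-- a nilpotent Frobenius complement of odd order is cyclic -/
theorem isCyclic_of_odd {C : Type*} [Group C] [Finite C] (h : Cfsg.Agent.Frob.HasFPFModule C)
    (hnil : Group.IsNilpotent C) (hodd : Odd (Nat.card C)) : IsCyclic C := by
  have hz : IsZGroup C := by
    constructor
    intro p hp P
    have hpf := Fact.mk hp
    have h2 := (h.subgroup (P : Subgroup C)).unique_subgroup_of_isPGroup P.isPGroup'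
    rcases Cfsg.Agent.S0016.result p P.isPGroup' h2 with h | ⟨h2, h3⟩
    · exact h
    · subst h2
      have h4 : ¬ 2 ∣ Nat.card C := fun h => (Nat.not_even_iff_odd.mpr hodd) (even_iff_two_dvd.mpr h)
      have h5 : Nat.card (P : Subgroup C) = 1 := by
        rw [P.card_eq_multiplicity, Nat.factorization_eq_zero_of_not_dvd h4, pow_zero]
      have : Subsingleton (P : Subgroup C) := (Nat.card_eq_one_iff_unique.mp h5).1
      exact isCyclic_of_subsingleton
  infer_instance

/-- coprime elements of a nilpotent group: an element of order `p q` -/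
theorem exists_orderOf_mul_of_nilpotent {X : Type*} [Group X] [Finite X] (hX : Group.IsNilpotent X)
    {p q : ℕ} (hp : p.Prime) (hq : q.Prime) (hpq : p ≠ q) (hpX : p ∣ Nat.card X)
    (hqX : q ∣ Nat.card X) : ∃ x : X, orderOf x = p * q := by
  have hpf := Fact.mk hp
  have hqf := Fact.mk hq
  obtain ⟨P⟩ : Nonempty (Sylow p X) := inferInstance
  obtain ⟨Q⟩ : Nonempty (Sylow q X) := inferInstance
  have hPn : (P : Subgroup X).Normal := Group.isNilpotent_of_finite_tfae.out 0 3 rfl rfl |>.mp hX p hpf P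
  have hQn : (Q : Subgroup X).Normal := Group.isNilpotent_of_finite_tfae.out 0 3 rfl rfl |>.mp hX q hqf Q
  have hd : Disjoint (P : Subgroup X) (Q : Subgroup X) :=
    IsPGroup.disjoint_of_ne p q hpq _ _ P.isPGroup' Q.isPGroup'
  have hpP : p ∣ Nat.card (P : Subgroup X) := by
    have := P.dvd_card_of_dvd_card hpX
    exact this
  have hqQ : q ∣ Nat.card (Q : Subgroup X) := Q.dvd_card_of_dvd_card hqX
  obtain ⟨a, ha⟩ := exists_prime_orderOf_dvd_card' p hpP
  obtain ⟨b, hb⟩ := exists_prime_orderOf_dvd_card' q hqQ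
  have hcomm : Commute (a : X) (b : X) := Subgroup.commute_of_normal_of_disjoint _ _ hPn hQn hd _ _ a.2 b.2
  refine ⟨(a : X) * b, ?_⟩
  rw [hcomm.orderOf_mul_eq_mul_orderOf_of_coprime, Subgroup.orderOf_coe, Subgroup.orderOf_coe, ha, hb]
  rw [Subgroup.orderOf_coe, Subgroup.orderOf_coe, ha, hb]
  exact (Nat.coprime_primes hp hq).mpr hpq

/-- Let G be a 2-Frobenius group: it has normal subgroups H < K with K a Frobenius group with kernel H and G/H a Frobenius group with kernel K/H. Then G is solvable; K/H has odd order coprime to the order of H and to the order of G/K (it is the image of an odd-order Hall subgroup); G/K is cyclic; and the prime graph of G has exactly two connected components, both complete: for distinct primes p, q dividing the order of G, G has an element of order pq exactly when p and q either both divide the order of K/H or both do not. -/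
theorem result {G : Type*} [Group G] [Finite G] (H K : Subgroup G) [H.Normal] [K.Normal] (hlt : H < K)
    (hK : ∃ C : Subgroup ↥K, Cfsg.IsFrobeniusComplement C ∧ Cfsg.frobeniusKernel C = (H.subgroupOf K : Set ↥K))
    (hGH : ∃ C : Subgroup (G ⧸ H), Cfsg.IsFrobeniusComplement C ∧ Cfsg.frobeniusKernel C = (K.map (QuotientGroup.mk' H) : Set (G ⧸ H))) :
    Group.IsSolvable G ∧ Odd (Nat.card (↥K ⧸ H.subgroupOf K)) ∧
      Nat.Coprime (Nat.card (↥K ⧸ H.subgroupOf K)) (Nat.card ↥H * Nat.card (G ⧸ K)) ∧ IsCyclic (G ⧸ K) ∧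
      ∀ p q : ℕ, p.Prime → q.Prime → p ≠ q → p ∣ Nat.card G → q ∣ Nat.card G →
        ((∃ g : G, orderOf g = p * q) ↔ (p ∣ Nat.card (↥K ⧸ H.subgroupOf K) ↔ q ∣ Nat.card (↥K ⧸ H.subgroupOf K))) := by
  classical
  obtain ⟨C, hC, hCk⟩ := hK
  obtain ⟨D, hD, hDk⟩ := hGH
  set K' : Subgroup (G ⧸ H) := K.map (QuotientGroup.mk' H) with hK'def
  have hK'n : K'.Normal := Subgroup.Normal.map inferInstance _ (QuotientGroup.mk'_surjective H)
  have memH : ∀ g : G, (QuotientGroup.mk' H g = 1 ↔ g ∈ H) := fun g => by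
    rw [← MonoidHom.mem_ker, QuotientGroup.ker_mk']
  have memK' : ∀ g : G, (QuotientGroup.mk' H g ∈ K' ↔ g ∈ K) := by
    intro g
    constructor
    · rintro ⟨k, hk, hkg⟩
      have h1 : k⁻¹ * g ∈ H := QuotientGroup.eq.mp hkg
      have h2 : g = k * (k⁻¹ * g) := by group
      rw [h2]
      exact mul_mem hk (hlt.le h1)
    · intro hg
      exact ⟨g, hg, rfl⟩
  -- basic commutation facts
  have F1 : ∀ x ∈ K, x ∉ H → ∀ y ∈ H, y ≠ 1 → y * x ≠ x * y := by
    intro x hx hxH y hy hy1 hcomm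
    refine not_comm_of_kernel hC (N := H.subgroupOf K) hCk (n := ⟨y, hlt.le hy⟩) (x := ⟨x, hx⟩)
      (Subgroup.mem_subgroupOf.mpr hy) (fun h => hy1 (congrArg Subtype.val h))
      (fun h => hxH (Subgroup.mem_subgroupOf.mp h)) (Subtype.ext hcomm)
  have F2 : ∀ n ∈ K', n ≠ 1 → ∀ x, x ∉ K' → n * x ≠ x * n := fun n hn hn1 x hx =>
    not_comm_of_kernel hD hDk hn hn1 hx
  -- complements
  obtain ⟨N, hN1, hN2, hN3⟩ := Cfsg.Agent.Frob.exists_normal_complement hC
  have hNH : N = H.subgroupOf K := SetLike.coe_injective (hN1.trans hCk)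
  subst hNH
  obtain ⟨M, hM1, hM2, hM3⟩ := Cfsg.Agent.Frob.exists_normal_complement hD
  have hMK : M = K' := SetLike.coe_injective (hM1.trans hDk)
  subst hMK
  -- the isomorphism of `C` with `K / H`
  let φ : C →* K' := (((QuotientGroup.mk' H).comp K.subtype).comp C.subtype).codRestrict K'
    (fun c => (memK' _).mpr c.1.2)
  have hφ : ∀ c : C, ((φ c : K') : G ⧸ H) = QuotientGroup.mk' H ((c : K) : G) := fun c => rfl
  have hφinj : Function.Injective φ := by
    rw [injective_iff_map_eq_one]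
    intro c hc
    have h1 : ((c : K) : G) ∈ H := (memH _).mp (by rw [← hφ c, hc]; rfl)
    have h2 : (c : K) ∈ H.subgroupOf K ⊓ C := ⟨Subgroup.mem_subgroupOf.mpr h1, c.2⟩
    rw [hN3.disjoint.eq_bot, Subgroup.mem_bot] at h2
    exact Subtype.ext h2
  have hφsurj : Function.Surjective φ := by
    rintro ⟨_, ⟨k, hk, rfl⟩⟩
    obtain ⟨⟨n, c⟩, hnc⟩ := hN3.2 ⟨k, hk⟩
    refine ⟨c, Subtype.ext ?_⟩
    rw [hφ]
    apply QuotientGroup.eq.mpr
    have h1 : ((n : K) : G) * ((c : K) : G) = k := congrArg Subtype.val hnc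
    rw [← h1]
    have h2 : ((n : K) : G) ∈ H := Subgroup.mem_subgroupOf.mp n.2
    have h3 := ‹H.Normal›.conj_mem _ h2 ((c : K) : G)⁻¹
    rw [inv_inv] at h3
    rwa [mul_assoc] at h3
  let e : C ≃* K' := MulEquiv.ofBijective φ ⟨hφinj, hφsurj⟩
  have hfpC := (Cfsg.Agent.Frob.IsFrobeniusComplement.hasFPFModule hC)
  -- nilpotency
  obtain ⟨M0, hM01, -, hM0nil⟩ := Cfsg.Agent.S0042.result D hD
  have hM0 : M0 = K' := SetLike.coe_injective (hM01.trans hDk)
  subst hM0
  obtain ⟨H0, hH01, -, hH0nil⟩ := Cfsg.Agent.S0042.result C hC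
  have hH0 : H0 = H.subgroupOf K := SetLike.coe_injective (hH01.trans hCk)
  subst hH0
  have hCnil : Group.IsNilpotent C := Group.nilpotent_of_mulEquiv e.symm
  have hHnil : Group.IsNilpotent H :=
    Group.nilpotent_of_mulEquiv (Subgroup.subgroupOfEquivOfLe hlt.le)
  have hCcard : Nat.card C = Nat.card K' := Nat.card_congr e.toEquiv
  -- an element outside `K'`
  obtain ⟨d₀, hd₀D, hd₀⟩ : ∃ d ∈ D, d ≠ 1 := by
    obtain ⟨d, hd⟩ := Subgroup.ne_bot_iff_exists_ne_one.mp hD.1
    exact ⟨d, d.2, fun h => hd (Subtype.ext h)⟩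
  have hDK : ∀ d ∈ D, d ∈ K' → d = 1 := by
    intro d hd hdK
    have : d ∈ K' ⊓ D := ⟨hdK, hd⟩
    rwa [hM3.disjoint.eq_bot, Subgroup.mem_bot] at this
  have hd₀K : d₀ ∉ K' := fun h => hd₀ (hDK d₀ hd₀D h)
  -- odd order
  have hodd : Odd (Nat.card C) := by
    by_contra hne
    rw [Nat.not_odd_iff_even, even_iff_two_dvd] at hne
    have h2f := Fact.mk Nat.prime_two
    obtain ⟨t, ht⟩ := exists_prime_orderOf_dvd_card' 2 hne
    have ht1 : t ≠ 1 := by rintro rfl; rw [orderOf_one] at ht; omega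
    have htt : t * t = 1 := by
      have := pow_orderOf_eq_one t
      rwa [ht, sq] at this
    let s : K' := ⟨d₀ * (e t : K') * d₀⁻¹, hK'n.conj_mem _ (e t).2 d₀⟩
    have hs1 : s ≠ 1 := by
      intro h
      have h1 : d₀ * (e t : K') * d₀⁻¹ = (1 : G ⧸ H) := congrArg Subtype.val h
      have h2 : ((e t : K') : G ⧸ H) = 1 := by
        calc ((e t : K') : G ⧸ H) = d₀⁻¹ * (d₀ * (e t : K') * d₀⁻¹) * d₀ := by group
          _ = 1 := by rw [h1]; group
      exact ht1 (e.injective (by rw [map_one]; exact Subtype.ext h2))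
    have hss : s * s = 1 := by
      apply Subtype.ext
      change d₀ * (e t : K') * d₀⁻¹ * (d₀ * (e t : K') * d₀⁻¹) = 1
      have h2 : ((e t : K') : G ⧸ H) * (e t : K') = 1 := by
        have : e t * e t = 1 := by rw [← map_mul, htt, map_one]
        exact congrArg Subtype.val this
      calc d₀ * (e t : K') * d₀⁻¹ * (d₀ * (e t : K') * d₀⁻¹)
          = d₀ * (((e t : K') : G ⧸ H) * (e t : K')) * d₀⁻¹ := by group
        _ = 1 := by rw [h2]; group
    have h3 : e.symm s = t := by
      refine hfpC.eq_of_involution ?_ ?_ htt ht1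
      · rw [← map_mul, hss, map_one]
      · intro h
        exact hs1 (e.symm.injective (by rw [h, map_one]))
    have h4 : s = e t := by rw [← h3, e.apply_symm_apply]
    have h5 : d₀ * (e t : K') * d₀⁻¹ = ((e t : K') : G ⧸ H) := congrArg Subtype.val h4
    refine F2 (e t : K') (e t).2 ?_ d₀ hd₀K ?_
    · intro h
      exact ht1 (e.injective (by rw [map_one]; exact Subtype.ext h))
    · calc ((e t : K') : G ⧸ H) * d₀ = d₀ * (e t : K') * d₀⁻¹ * d₀ := by rw [h5]
        _ = d₀ * (e t : K') := by group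
  have hCcyc : IsCyclic C := isCyclic_of_odd hfpC hCnil hodd
  have hK'cyc : IsCyclic K' := isCyclic_of_surjective e e.surjective
  -- `D` is abelian
  have hK'b : K' ≠ ⊥ := by
    intro h
    have h1 : Nat.card C = 1 := by rw [hCcard, h]; simp
    exact hC.1 (Subgroup.card_eq_one.mp h1)
  obtain ⟨g₀, hg₀⟩ := hK'cyc.exists_generator
  have hg₀1 : (g₀ : G ⧸ H) ≠ 1 := by
    intro h
    apply hK'b
    rw [Subgroup.eq_bot_iff_forall]
    intro x hx
    obtain ⟨k, hk⟩ := Subgroup.mem_zpowers_iff.mp (hg₀ ⟨x, hx⟩)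
    have h1 : g₀ = 1 := Subtype.ext h
    rw [h1, one_zpow] at hk
    exact (congrArg Subtype.val hk).symm
  have hconjg : ∀ a : G ⧸ H, ∃ i : ℤ, a * g₀ * a⁻¹ = (g₀ : G ⧸ H) ^ i := by
    intro a
    obtain ⟨k, hk⟩ := Subgroup.mem_zpowers_iff.mp (hg₀ ⟨a * g₀ * a⁻¹, hK'n.conj_mem _ g₀.2 a⟩)
    exact ⟨k, by have := congrArg Subtype.val hk; simpa using this.symm⟩
  have hDab : ∀ a ∈ D, ∀ b ∈ D, a * b = b * a := by
    intro a ha b hb
    obtain ⟨i, hi⟩ := hconjg a
    obtain ⟨j, hj⟩ := hconjg b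
    have e1 : (a * b) * g₀ * (a * b)⁻¹ = (g₀ : G ⧸ H) ^ (i * j) := by
      calc (a * b) * g₀ * (a * b)⁻¹ = a * (b * g₀ * b⁻¹) * a⁻¹ := by group
        _ = a * (g₀ : G ⧸ H) ^ j * a⁻¹ := by rw [hj]
        _ = (a * g₀ * a⁻¹) ^ j := by rw [conj_zpow]
        _ = _ := by rw [hi, zpow_mul]
    have e2 : (b * a) * g₀ * (b * a)⁻¹ = (g₀ : G ⧸ H) ^ (i * j) := by
      calc (b * a) * g₀ * (b * a)⁻¹ = b * (a * g₀ * a⁻¹) * b⁻¹ := by group
        _ = b * (g₀ : G ⧸ H) ^ i * b⁻¹ := by rw [hi]
        _ = (b * g₀ * b⁻¹) ^ i := by rw [conj_zpow]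
        _ = _ := by rw [hj, mul_comm i j, zpow_mul]
    set u := (b * a)⁻¹ * (a * b) with hu
    have hu1 : u * g₀ * u⁻¹ = g₀ := by
      calc u * g₀ * u⁻¹ = (b * a)⁻¹ * ((a * b) * g₀ * (a * b)⁻¹) * (b * a) := by rw [hu]; group
        _ = (b * a)⁻¹ * ((b * a) * g₀ * (b * a)⁻¹) * (b * a) := by rw [e1, e2]
        _ = g₀ := by group
    have huD : u ∈ D := mul_mem (inv_mem (mul_mem hb ha)) (mul_mem ha hb)
    have hu2 : u ∈ K' := by
      by_contra huK
      refine F2 g₀ g₀.2 hg₀1 u huK ?_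
      calc (g₀ : G ⧸ H) * u = u * g₀ * u⁻¹ * u := by rw [hu1]
        _ = u * g₀ := by group
    have h3 : u = 1 := hDK u huD hu2
    have h4 : (b * a) * u = a * b := by rw [hu]; group
    rw [h3, mul_one] at h4
    exact h4.symm
  have hDc : IsMulCommutative D := ⟨⟨fun a b => Subtype.ext (hDab a a.2 b b.2)⟩⟩
  have hDcyc : IsCyclic D := (Cfsg.Agent.Frob.IsFrobeniusComplement.hasFPFModule hD).isCyclic_of_isMulCommutative
  -- `G / K` is cyclic
  let ψ : G ⧸ H →* G ⧸ K := QuotientGroup.map H K (MonoidHom.id G) (fun x hx => hlt.le hx)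
  have hψ : ∀ g : G, ψ (QuotientGroup.mk' H g) = QuotientGroup.mk' K g := fun g => rfl
  have hψK : ∀ x ∈ K', ψ x = 1 := by
    rintro _ ⟨k, hk, rfl⟩
    rw [hψ]
    exact (QuotientGroup.eq_one_iff k).mpr hk
  have hψsurj : Function.Surjective (ψ.comp D.subtype) := by
    intro y
    obtain ⟨g, rfl⟩ := QuotientGroup.mk'_surjective K y
    obtain ⟨⟨n, d⟩, hnd⟩ := hM3.2 (QuotientGroup.mk' H g)
    refine ⟨d, ?_⟩
    have h1 : (n : G ⧸ H) * d = QuotientGroup.mk' H g := hnd
    rw [← hψ, ← h1, map_mul, hψK n n.2, one_mul]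
    rfl
  have hGKcyc : IsCyclic (G ⧸ K) := isCyclic_of_surjective _ hψsurj
  -- cardinalities
  set c := Nat.card (↥K ⧸ H.subgroupOf K) with hc
  have hHK : Nat.card (H.subgroupOf K) = Nat.card H :=
    Nat.card_congr (Subgroup.subgroupOfEquivOfLe hlt.le).toEquiv
  have hcC : c = Nat.card C := by
    have h1 := Subgroup.card_eq_card_quotient_mul_card_subgroup (H.subgroupOf K)
    have h2 := hN3.card_mul_card
    have h3 : 0 < Nat.card (H.subgroupOf K) := Nat.card_pos
    rw [← hc] at h1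
    rw [h1, mul_comm] at h2
    exact (Nat.eq_of_mul_eq_mul_right h3 h2).symm
  have hGcard : Nat.card G = Nat.card (G ⧸ K) * (c * Nat.card H) := by
    rw [Subgroup.card_eq_card_quotient_mul_card_subgroup K,
      Subgroup.card_eq_card_quotient_mul_card_subgroup (H.subgroupOf K), ← hc, hHK]
  have hGK : Nat.card (G ⧸ K) = Nat.card D := by
    have h1 := Subgroup.card_eq_card_quotient_mul_card_subgroup H
    have h2 := hM3.card_mul_card
    rw [hGcard, ← h2, ← hCcard, ← hcC] at h1
    have h3 : 0 < c * Nat.card H := by rw [hcC]; exact Nat.mul_pos Nat.card_pos Nat.card_pos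
    apply Nat.eq_of_mul_eq_mul_right h3
    rw [h1]; ring
  have hcH : c.Coprime (Nat.card H) := by
    have h1 := Cfsg.Agent.Frob.coprime_card_index hC
    rwa [hN3.index_eq_card, hHK, ← hcC] at h1
  have hcGK : c.Coprime (Nat.card (G ⧸ K)) := by
    have h1 := Cfsg.Agent.Frob.coprime_card_index hD
    rw [hM3.index_eq_card, ← hCcard, ← hcC] at h1
    rw [hGK]
    exact h1.symm
  have hsolvC : Group.IsSolvable (↥K ⧸ H.subgroupOf K) := by
    have h1 : Group.IsSolvable C := inferInstance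
    exact Group.isSolvable_of_isSolvable_injective
      (f := (Subgroup.IsComplement'.QuotientMulEquiv hN3.symm).toMonoidHom)
      (Subgroup.IsComplement'.QuotientMulEquiv hN3.symm).injective
  have hsolv : Group.IsSolvable G := by
    rw [Group.isSolvable_iff_subgroup_quotient K]
    refine ⟨?_, inferInstance⟩
    rw [Group.isSolvable_iff_subgroup_quotient (H.subgroupOf K)]
    exact ⟨inferInstance, hsolvC⟩
  refine ⟨hsolv, hcC ▸ hodd, Nat.Coprime.mul_right hcH hcGK, hGKcyc, ?_⟩
  -- elementary facts on elements of prime order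
  have G1 : ∀ (r : ℕ) (x : G), r.Prime → r ∣ c → orderOf x = r → x ∈ K ∧ x ∉ H := by
    intro r x hr hrc hx
    constructor
    · rw [← QuotientGroup.eq_one_iff (N := K)]
      rw [← orderOf_eq_one_iff, ← Nat.dvd_one, ← Nat.Coprime.gcd_eq_one (Nat.Coprime.coprime_dvd_left hrc hcGK)]
      refine Nat.dvd_gcd ?_ (orderOf_dvd_natCard _)
      rw [← hx]
      exact orderOf_map_dvd (QuotientGroup.mk' K) x
    · intro hxH
      have h1 : r ∣ Nat.card H := by
        rw [← hx]; exact Subgroup.orderOf_dvd_natCard _ hxH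
      have h2 := Nat.dvd_gcd hrc h1
      rw [hcH.gcd_eq_one] at h2
      exact hr.one_lt.ne' (Nat.dvd_one.mp h2)
  have G2 : ∀ (q : ℕ) (y : G), q.Prime → ¬ q ∣ c → orderOf y = q → y ∈ K → y ∈ H := by
    intro q y hq hqc hy hyK
    have h1 : ((⟨y, hyK⟩ : K) : ↥K ⧸ H.subgroupOf K) = 1 := by
      rw [← orderOf_eq_one_iff]
      have h2 : orderOf ((⟨y, hyK⟩ : K) : ↥K ⧸ H.subgroupOf K) ∣ q := by
        have h3 := orderOf_map_dvd (QuotientGroup.mk' (H.subgroupOf K)) (⟨y, hyK⟩ : K)
        have h4 : orderOf (⟨y, hyK⟩ : K) = q := by rw [← hy, ← Subgroup.orderOf_coe]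
        rw [h4] at h3
        exact h3
      rcases (Nat.dvd_prime hq).mp h2 with h3 | h3
      · exact h3
      · exfalso
        apply hqc
        rw [← h3]
        exact orderOf_dvd_natCard _
    exact Subgroup.mem_subgroupOf.mp ((QuotientGroup.eq_one_iff _).mp h1)
  -- no mixed elements
  have hno : ∀ p q : ℕ, p.Prime → q.Prime → p ∣ c → ¬ q ∣ c → ∀ g : G, orderOf g ≠ p * q := by
    intro p q hp hq hpc hqc g hg
    have hx : orderOf (g ^ q) = p := by
      rw [orderOf_pow_of_dvd hq.ne_zero (by rw [hg]; exact Dvd.intro_left p rfl), hg,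
        Nat.mul_div_cancel _ hq.pos]
    have hy : orderOf (g ^ p) = q := by
      rw [orderOf_pow_of_dvd hp.ne_zero (by rw [hg]; exact Dvd.intro q rfl), hg,
        Nat.mul_div_cancel_left _ hp.pos]
    obtain ⟨h1, h2⟩ := G1 p _ hp hpc hx
    have hcomm : g ^ p * g ^ q = g ^ q * g ^ p := by rw [← pow_add, ← pow_add, add_comm]
    have hy1 : g ^ p ≠ 1 := by
      intro h; rw [h, orderOf_one] at hy; exact hq.one_lt.ne hy
    by_cases hyK : g ^ p ∈ K
    · exact F1 _ h1 h2 _ (G2 q _ hq hqc hy hyK) hy1 hcomm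
    · refine F2 _ ((memK' _).mpr h1) (fun h => h2 ((memH _).mp h)) _ (fun h => hyK ((memK' _).mp h)) ?_
      rw [← map_mul, ← map_mul, hcomm]
  -- the mixed case
  have hmixed : ∀ p q : ℕ, p.Prime → q.Prime → p ≠ q → ¬ p ∣ c → ¬ q ∣ c → p ∣ Nat.card (G ⧸ K) →
      q ∣ Nat.card H → ∃ g : G, orderOf g = p * q := by
    intro p q hp hq hpq hpc hqc hpG hqH
    by_contra hcon
    push Not at hcon
    have hpf := Fact.mk hp
    have hqf := Fact.mk hq
    have hc1 : c ≠ 1 := by
      rw [hcC]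
      intro h
      exact hC.1 (Subgroup.card_eq_one.mp h)
    obtain ⟨r, hr, hrc⟩ := Nat.exists_prime_and_dvd hc1
    have hrf := Fact.mk hr
    have hrp : r ≠ p := fun h => hpc (h ▸ hrc)
    obtain ⟨ρ₀, hρ₀⟩ := exists_prime_orderOf_dvd_card' (G := C) r (hcC ▸ hrc)
    set ρ : G := ((ρ₀ : K) : G) with hρdef
    have hρ : orderOf ρ = r := by rw [hρdef, Subgroup.orderOf_coe, Subgroup.orderOf_coe, hρ₀]
    obtain ⟨hρK, hρH⟩ := G1 r ρ hr hrc hρ
    set R := Subgroup.zpowers ρ with hR
    have hRcard : Nat.card R = r := by rw [hR, Nat.card_zpowers, hρ]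
    have hRH : Disjoint H R := by
      rw [Subgroup.disjoint_def]
      intro x hx hxR
      by_contra hx1
      have h1 : orderOf x = r := by
        have h2 : orderOf x ∣ r := by rw [← hRcard]; exact Subgroup.orderOf_dvd_natCard _ hxR
        rcases (Nat.dvd_prime hr).mp h2 with h3 | h3
        · exact absurd (orderOf_eq_one_iff.mp h3) hx1
        · exact h3
      exact (G1 r x hr hrc h1).2 hx
    have hRH' : ∀ x ∈ R, x ∈ H → x = 1 := fun x hx hxH => Subgroup.disjoint_def.mp hRH hxH hx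
    -- `H R` is normal
    have hHRn : (H ⊔ R).Normal := by
      constructor
      intro n hn g
      have h1 : QuotientGroup.mk' H n ∈ Subgroup.zpowers (QuotientGroup.mk' H ρ) := by
        have h2 : (H ⊔ R).map (QuotientGroup.mk' H) = Subgroup.zpowers (QuotientGroup.mk' H ρ) := by
          rw [Subgroup.map_sup, QuotientGroup.map_mk'_self, bot_sup_eq, hR, MonoidHom.map_zpowers]
        rw [← h2]
        exact Subgroup.mem_map_of_mem _ hn
      have h3 : QuotientGroup.mk' H (g * n * g⁻¹) ∈ Subgroup.zpowers (QuotientGroup.mk' H ρ) := by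
        obtain ⟨k, hk⟩ := Subgroup.mem_zpowers_iff.mp h1
        rw [map_mul, map_mul, map_inv, ← hk, ← conj_zpow]
        apply Subgroup.zpow_mem
        have h4 : (QuotientGroup.mk' H g) * (QuotientGroup.mk' H ρ) * (QuotientGroup.mk' H g)⁻¹ ∈ K' :=
          hK'n.conj_mem _ ((memK' _).mpr hρK) _
        have h5 := Cfsg.Agent.Frob.eq_of_card_eq_of_isCyclic
          (Subgroup.zpowers (⟨_, h4⟩ : K')) (Subgroup.zpowers (⟨_, (memK' _).mpr hρK⟩ : K')) (by
            rw [Nat.card_zpowers, Nat.card_zpowers, ← Subgroup.orderOf_coe, ← Subgroup.orderOf_coe]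
            exact MulEquiv.orderOf_eq (MulAut.conj (QuotientGroup.mk' H g)) (QuotientGroup.mk' H ρ))
        have h6 : (⟨_, h4⟩ : K') ∈ Subgroup.zpowers (⟨_, (memK' _).mpr hρK⟩ : K') := by
          rw [← h5]; exact Subgroup.mem_zpowers _
        obtain ⟨k, hk⟩ := Subgroup.mem_zpowers_iff.mp h6
        have h7 := congrArg Subtype.val hk
        simp only [SubgroupClass.coe_zpow] at h7
        exact Subgroup.mem_zpowers_iff.mpr ⟨k, h7⟩
      obtain ⟨k, hk⟩ := Subgroup.mem_zpowers_iff.mp h3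
      have h8 : (ρ ^ k)⁻¹ * (g * n * g⁻¹) ∈ H := by
        rw [← memH, map_mul, map_inv, map_zpow, hk, inv_mul_cancel]
      have h9 : g * n * g⁻¹ = (ρ ^ k) * ((ρ ^ k)⁻¹ * (g * n * g⁻¹)) := by group
      rw [h9]
      exact mul_mem ((le_sup_right : R ≤ H ⊔ R) (Subgroup.zpow_mem _ (Subgroup.mem_zpowers ρ) k))
        ((le_sup_left : H ≤ H ⊔ R) h8)
    have hHRcard : Nat.card (H ⊔ R : Subgroup G) = Nat.card H * r := by
      rw [Cfsg.Agent.Frob.card_sup_of_disjoint_of_le_normalizer H R hRH, hRcard]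
      rw [Subgroup.normalizer_eq_top]; exact le_top
    have hrH : ¬ r ∣ Nat.card H := fun h => by
      have h2 := Nat.dvd_gcd hrc h
      rw [hcH.gcd_eq_one] at h2
      exact hr.one_lt.ne' (Nat.dvd_one.mp h2)
    have hRsub : Nat.card (R.subgroupOf (H ⊔ R)) = r ^ (Nat.card (H ⊔ R : Subgroup G)).factorization r := by
      rw [Nat.card_congr (Subgroup.subgroupOfEquivOfLe (le_sup_right : R ≤ H ⊔ R)).toEquiv, hRcard, hHRcard,
        Nat.factorization_mul Nat.card_pos.ne' hr.ne_zero, Finsupp.add_apply,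
        Nat.factorization_eq_zero_of_not_dvd hrH, hr.factorization_self, zero_add, pow_one]
    have hfrat := Sylow.normalizer_sup_eq_top (Sylow.ofCard (R.subgroupOf (H ⊔ R)) hRsub)
    have hcoe : ((Sylow.ofCard (R.subgroupOf (H ⊔ R)) hRsub : Sylow r (H ⊔ R : Subgroup G)) :
        Subgroup (H ⊔ R : Subgroup G)).map (H ⊔ R).subtype = R := by
      change (R.subgroupOf (H ⊔ R)).map (H ⊔ R).subtype = R
      rw [Subgroup.subgroupOf_map_subtype, inf_of_le_left le_sup_right]
    rw [hcoe] at hfrat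
    have hfrat' : Subgroup.normalizer (R : Set G) ⊔ H = ⊤ := by
      rw [eq_top_iff, ← hfrat]
      exact sup_le le_sup_left (sup_le le_sup_right (Subgroup.le_normalizer.trans le_sup_left))
    have hpN : p ∣ Nat.card (Subgroup.normalizer (R : Set G)) := by
      have h1 : Function.Surjective ((QuotientGroup.mk' H).comp (Subgroup.normalizer (R : Set G)).subtype) := by
        intro y
        obtain ⟨g, rfl⟩ := QuotientGroup.mk'_surjective H y
        have hg : g ∈ Subgroup.normalizer (R : Set G) ⊔ H := by rw [hfrat']; exact Subgroup.mem_top g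
        obtain ⟨a, ha, b, hb, rfl⟩ := Subgroup.mem_sup_of_normal_right.mp hg
        refine ⟨⟨a, ha⟩, ?_⟩
        change QuotientGroup.mk' H a = QuotientGroup.mk' H (a * b)
        rw [map_mul, (memH b).mpr hb, mul_one]
      have h2 := Nat.card_le_card_of_surjective _ h1
      have h3 := Subgroup.card_dvd_of_surjective _ h1
      refine dvd_trans ?_ h3
      have h4 := Subgroup.card_dvd_of_surjective ψ (fun y => by
        obtain ⟨d, hd⟩ := hψsurj y
        exact ⟨d, hd⟩)
      exact hpG.trans h4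
    obtain ⟨d, hd⟩ := exists_prime_orderOf_dvd_card' p hpN
    have hdo : orderOf (d : G) = p := by rw [Subgroup.orderOf_coe, hd]
    have hdn := d.2
    have hd1 : (d : G) ≠ 1 := by
      intro h; rw [h, orderOf_one] at hdo; exact hp.one_lt.ne hdo
    have hdK : (d : G) ∉ K := by
      intro hdK
      have hdH := G2 p _ hp hpc hdo hdK
      have h1 : (d : G) * ρ * (d : G)⁻¹ ∈ R := (Subgroup.mem_normalizer_iff.mp hdn ρ).mp (Subgroup.mem_zpowers ρ)
      have h2 : (d : G) * ρ * (d : G)⁻¹ * ρ⁻¹ ∈ R := mul_mem h1 (inv_mem (Subgroup.mem_zpowers ρ))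
      have h3 : (d : G) * ρ * (d : G)⁻¹ * ρ⁻¹ ∈ H := by
        have h4 := ‹H.Normal›.conj_mem _ (inv_mem hdH) ρ
        have h5 := mul_mem hdH h4
        rwa [← mul_assoc, ← mul_assoc] at h5
      have h4 := hRH' _ h2 h3
      refine F1 ρ hρK hρH _ hdH hd1 ?_
      calc (d : G) * ρ = (d : G) * ρ * (d : G)⁻¹ * ρ⁻¹ * (ρ * d) := by group
        _ = ρ * d := by rw [h4, one_mul]
    -- the abelian normal `q`-subgroup
    obtain ⟨Q⟩ : Nonempty (Sylow q H) := inferInstance
    have hQn : (Q : Subgroup H).Normal := Group.isNilpotent_of_finite_tfae.out 0 3 rfl rfl |>.mp hHnil q hqf Q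
    have hQc : (Q : Subgroup H).Characteristic := Q.characteristic_of_normal hQn
    have hQn' : ((Q : Subgroup H).map H.subtype).Normal := inferInstance
    set QG := (Q : Subgroup H).map H.subtype with hQG
    have hQGp : IsPGroup q QG := Q.isPGroup'.map _
    have hQGnt : Nontrivial QG := by
      rw [Subgroup.nontrivial_iff_ne_bot]
      intro h
      rw [hQG, Subgroup.map_eq_bot_iff_of_injective _ H.subtype_injective] at h
      have h1 : q ∣ Nat.card (Q : Subgroup H) := Q.dvd_card_of_dvd_card hqH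
      rw [h] at h1
      simp at h1
      exact hq.one_lt.ne' h1
    set V := (Subgroup.center QG).map QG.subtype with hV
    have hVn : V.Normal := inferInstance
    have hVc : IsMulCommutative V := inferInstance
    have hVb : V ≠ ⊥ := by
      rw [hV, Ne, Subgroup.map_eq_bot_iff_of_injective _ QG.subtype_injective]
      have := hQGp.center_nontrivial
      exact (Subgroup.nontrivial_iff_ne_bot _).mp this
    have hVH : V ≤ H := by
      rw [hV, hQG]
      exact (Subgroup.map_subtype_le _).trans (Subgroup.map_subtype_le _)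
    have hVq : IsPGroup q V := (hQGp.to_subgroup _).map _
    -- the group `A`
    have hdR : Disjoint R (Subgroup.zpowers (d : G)) := by
      rw [Subgroup.disjoint_def]
      intro x hxR hxd
      by_contra hx1
      have h1 : orderOf x ∣ r := by rw [← hRcard]; exact Subgroup.orderOf_dvd_natCard _ hxR
      have h2 : orderOf x ∣ p := by
        have h5 : Nat.card (Subgroup.zpowers (d : G)) = p := by rw [Nat.card_zpowers, hdo]
        rw [← h5]; exact Subgroup.orderOf_dvd_natCard _ hxd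
      have h3 := Nat.dvd_gcd h1 h2
      rw [(Nat.coprime_primes hr hp).mpr hrp |>.gcd_eq_one] at h3
      exact hx1 (orderOf_eq_one_iff.mp (Nat.dvd_one.mp h3))
    have hdle : Subgroup.zpowers (d : G) ≤ Subgroup.normalizer (R : Set G) := by
      rw [Subgroup.zpowers_le]; exact hdn
    have hAcard : Nat.card (R ⊔ Subgroup.zpowers (d : G) : Subgroup G) = r * p := by
      rw [Cfsg.Agent.Frob.card_sup_of_disjoint_of_le_normalizer _ _ hdR hdle, hRcard, Nat.card_zpowers, hdo]
    have hfpf : ∀ a ∈ (R ⊔ Subgroup.zpowers (d : G) : Subgroup G), a ≠ 1 → V ⊓ centralizer {a} = ⊥ := by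
      intro a ha ha1
      rw [Subgroup.eq_bot_iff_forall]
      intro v hv
      by_contra hv1
      have hvV : v ∈ V := hv.1
      have hva : v * a = a * v := mem_centralizer_singleton_iff.mp hv.2
      have hoa : orderOf a ≠ 1 := fun h => ha1 (orderOf_eq_one_iff.mp h)
      obtain ⟨s, hs, hsa⟩ := Nat.exists_prime_and_dvd hoa
      have hsrp : s ∣ r * p := hsa.trans (hAcard ▸ Subgroup.orderOf_dvd_natCard _ ha)
      have hb := orderOf_pow_orderOf_div (orderOf_pos a).ne' hsa
      set b := a ^ (orderOf a / s) with hbdef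
      have hvb : Commute v b := Commute.pow_right hva _
      rcases (Nat.Prime.dvd_mul hs).mp hsrp with h1 | h1
      · have h2 : s = r := (Nat.prime_dvd_prime_iff_eq hs hr).mp h1
        rw [h2] at hb
        obtain ⟨h3, h4⟩ := G1 r b hr hrc hb
        exact F1 b h3 h4 v (hVH hvV) hv1 hvb
      · have h2 : s = p := (Nat.prime_dvd_prime_iff_eq hs hp).mp h1
        rw [h2] at hb
        obtain ⟨k, hk⟩ := hVq ⟨v, hvV⟩
        have hk' : v ^ q ^ k = 1 := congrArg Subtype.val hk
        have hov : q ∣ orderOf v := by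
          obtain ⟨j, -, hj⟩ := (Nat.dvd_prime_pow hq).mp (orderOf_dvd_of_pow_eq_one hk')
          rw [hj]
          apply dvd_pow_self
          rintro rfl
          rw [pow_zero] at hj
          exact hv1 (orderOf_eq_one_iff.mp hj)
        have hv' := orderOf_pow_orderOf_div (orderOf_pos v).ne' hov
        have hcomm : Commute b (v ^ (orderOf v / q)) := hvb.symm.pow_right _
        apply hcon (b * v ^ (orderOf v / q))
        rw [hcomm.orderOf_mul_eq_mul_orderOf_of_coprime, hb, hv']
        rw [hb, hv']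
        exact (Nat.coprime_primes hp hq).mpr hpq
    have hAcyc : IsCyclic (R ⊔ Subgroup.zpowers (d : G) : Subgroup G) := by
      refine Cfsg.Agent.S0041.result _ V hVb ?_ hfpf (Or.inr ⟨r, p, hr, hp, hAcard⟩)
      have h0 : Subgroup.normalizer (V : Set G) = ⊤ := Subgroup.normalizer_eq_top V
      exact le_top.trans h0.ge
    have hAc : IsMulCommutative (R ⊔ Subgroup.zpowers (d : G) : Subgroup G) := inferInstance
    have hcomm : (ρ : G) * d = d * ρ := by
      have h1 : ρ ∈ (R ⊔ Subgroup.zpowers (d : G) : Subgroup G) :=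
        (le_sup_left : R ≤ _) (Subgroup.mem_zpowers ρ)
      have h2 : (d : G) ∈ (R ⊔ Subgroup.zpowers (d : G) : Subgroup G) :=
        (le_sup_right : Subgroup.zpowers (d : G) ≤ _) (Subgroup.mem_zpowers _)
      exact congrArg Subtype.val (hAc.is_comm.comm ⟨ρ, h1⟩ ⟨(d : G), h2⟩)
    refine F2 (QuotientGroup.mk' H ρ) ((memK' _).mpr hρK) (fun h => hρH ((memH _).mp h))
      (QuotientGroup.mk' H d) (fun h => hdK ((memK' _).mp h)) ?_
    rw [← map_mul, ← map_mul, hcomm]
  intro p q hp hq hpq hpG hqG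
  have hpf := Fact.mk hp
  have hqf := Fact.mk hq
  constructor
  · rintro ⟨g, hg⟩
    by_cases h1 : p ∣ c <;> by_cases h2 : q ∣ c
    · exact ⟨fun _ => h2, fun _ => h1⟩
    · exact absurd hg (hno p q hp hq h1 h2 g)
    · exact absurd (hg.trans (mul_comm p q)) (hno q p hq hp h2 h1 g)
    · exact ⟨fun h => absurd h h1, fun h => absurd h h2⟩
  · intro hiff
    by_cases h1 : p ∣ c
    · have h2 := hiff.mp h1
      have h3 : p * q ∣ Nat.card C := by
        rw [← hcC]
        exact (Nat.coprime_primes hp hq |>.mpr hpq).mul_dvd_of_dvd_of_dvd h1 h2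
      obtain ⟨x, hx⟩ := hCcyc.exists_ofOrder_eq_natCard
      refine ⟨(((x ^ (Nat.card C / (p * q)) : C) : K) : G), ?_⟩
      rw [Subgroup.orderOf_coe, Subgroup.orderOf_coe, ← hx]
      exact orderOf_pow_orderOf_div (orderOf_pos x).ne' (hx ▸ h3)
    · have h2 : ¬ q ∣ c := fun h => h1 (hiff.mpr h)
      have h3 : p ∣ Nat.card (G ⧸ K) ∨ p ∣ Nat.card H := by
        rw [hGcard] at hpG
        rcases (Nat.Prime.dvd_mul hp).mp hpG with h | h
        · exact Or.inl h
        · rcases (Nat.Prime.dvd_mul hp).mp h with h | h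
          · exact absurd h h1
          · exact Or.inr h
      have h4 : q ∣ Nat.card (G ⧸ K) ∨ q ∣ Nat.card H := by
        rw [hGcard] at hqG
        rcases (Nat.Prime.dvd_mul hq).mp hqG with h | h
        · exact Or.inl h
        · rcases (Nat.Prime.dvd_mul hq).mp h with h | h
          · exact absurd h h2
          · exact Or.inr h
      rcases h3 with h3 | h3 <;> rcases h4 with h4 | h4
      · have h5 : p * q ∣ Nat.card (G ⧸ K) :=
          (Nat.coprime_primes hp hq |>.mpr hpq).mul_dvd_of_dvd_of_dvd h3 h4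
        obtain ⟨x, hx⟩ := hGKcyc.exists_ofOrder_eq_natCard
        obtain ⟨g, hg⟩ := exists_orderOf_of_surjective (QuotientGroup.mk' K)
          (QuotientGroup.mk'_surjective K) (x ^ (Nat.card (G ⧸ K) / (p * q)))
        refine ⟨g, hg.trans ?_⟩
        rw [← hx]
        exact orderOf_pow_orderOf_div (orderOf_pos x).ne' (hx ▸ h5)
      · exact hmixed p q hp hq hpq h1 h2 h3 h4
      · obtain ⟨g, hg⟩ := hmixed q p hq hp hpq.symm h2 h1 h4 h3
        exact ⟨g, hg.trans (mul_comm q p)⟩
      · obtain ⟨x, hx⟩ := exists_orderOf_mul_of_nilpotent hHnil hp hq hpq h3 h4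
        exact ⟨x, by rw [Subgroup.orderOf_coe, hx]⟩

end Cfsg.Agent.S4001
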