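import Cfsg.Statements.S3878
import Cfsg.Agent.H64.Basic

set_option autoImplicit false
open Cfsg

namespace Cfsg.Agent.S3878

open Cfsg.Agent.H64

theorem exists_maximal_pi {G : Type*} [Group G] [Finite G] (π : Set ℕ) (P : Subgroup G) (hP : IsPiSubgroup π P) :
    ∃ K : Subgroup G, P ≤ K ∧ Maximal (IsPiSubgroup π) K := by
  obtain ⟨K, hPK, hK⟩ := (Set.toFinite {K : Subgroup G | IsPiSubgroup π K}).exists_le_maximal hP
  exact ⟨K, hPK, hK⟩

/-- `D_π` implies `E_π`. -/
theorem epi_of_dpi {G : Type*} [Group G] [Finite G] {π : Set ℕ} (h : IsDPiGroup π G) : IsEPiGroup π G := by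
  obtain ⟨H, _, hH⟩ := exists_maximal_pi (G := G) π ⊥ (by
    intro p hp hd
    rw [Subgroup.card_bot] at hd
    exact absurd (Nat.dvd_one.1 hd) hp.one_lt.ne')
  refine ⟨H, hH.prop, ?_⟩
  intro p hp hpπ hdvd
  haveI : Fact p.Prime := ⟨hp⟩
  obtain ⟨P⟩ : Nonempty (Sylow p G) := inferInstance
  obtain ⟨K, hPK, hK⟩ := exists_maximal_pi π (P : Subgroup G) (by
    intro q hq hd
    obtain ⟨n, hn⟩ := IsPGroup.iff_card.1 P.2
    rw [hn] at hd
    have := (Nat.prime_dvd_prime_iff_eq hq hp).1 (hq.dvd_of_dvd_pow hd)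
    rw [this]; exact hpπ)
  obtain ⟨g, rfl⟩ := h H K hH hK
  have h1 : (H.map (MulAut.conj g).toMonoidHom).index = H.index := index_map_conj H g
  have h2 := Subgroup.index_dvd_of_le hPK
  rw [h1] at h2
  exact P.not_dvd_index (hdvd.trans h2)

theorem dpi_of {π : Set ℕ} (h : (∀ p q : ℕ, p.Prime → q.Prime → p ∈ π → q ∈ π → p = q) ∨ ∀ p : ℕ, p.Prime → p ∈ π)
    (G : Type*) [Group G] [Finite G] : IsDPiGroup π G := by
  intro H K hH hK
  rcases h with h | h
  · by_cases hex : ∃ p : ℕ, p.Prime ∧ p ∈ π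
    · obtain ⟨p, hp, hpπ⟩ := hex
      haveI : Fact p.Prime := ⟨hp⟩
      have key : ∀ L : Subgroup G, Maximal (IsPiSubgroup π) L → ∃ P : Sylow p G, (P : Subgroup G) = L := by
        intro L hL
        have h1 : IsPGroup p L := by
          rw [IsPGroup.iff_card]
          refine ⟨_, Nat.eq_prime_pow_of_unique_prime_dvd Nat.card_pos.ne' ?_⟩
          intro d hd hdL
          exact h d p hd hp (hL.prop d hd hdL) hpπ
        obtain ⟨P, hP⟩ := h1.exists_le_sylow
        have h2 : IsPiSubgroup π (P : Subgroup G) := by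
          intro q hq hd
          obtain ⟨n, hn⟩ := IsPGroup.iff_card.1 P.2
          rw [hn] at hd
          have := (Nat.prime_dvd_prime_iff_eq hq hp).1 (hq.dvd_of_dvd_pow hd)
          rw [this]; exact hpπ
        exact ⟨P, le_antisymm (hL.le_of_ge h2 hP) hP⟩
      obtain ⟨P, rfl⟩ := key H hH
      obtain ⟨Q, rfl⟩ := key K hK
      obtain ⟨g, hg⟩ := MulAction.exists_smul_eq G P Q
      exact ⟨g, by rw [← hg]; rfl⟩
    · have key : ∀ L : Subgroup G, Maximal (IsPiSubgroup π) L → L = ⊥ := by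
        intro L hL
        rw [← Subgroup.card_eq_one]
        by_contra hne
        obtain ⟨q, hq, hd⟩ := Nat.exists_prime_and_dvd hne
        exact hex ⟨q, hq, hL.prop q hq hd⟩
      exact ⟨1, by rw [key H hH, key K hK, Subgroup.map_bot]⟩
  · have key : ∀ L : Subgroup G, Maximal (IsPiSubgroup π) L → L = ⊤ := by
      intro L hL
      have h1 : IsPiSubgroup π (⊤ : Subgroup G) := fun p hp _ => h p hp
      exact top_le_iff.1 (hL.le_of_ge h1 le_top)
    refine ⟨1, ?_⟩
    rw [key H hH, key K hK, map_conj_one]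

/-- A Hall `π`-subgroup contains a conjugate of any given element of prime power order `p ^ k`, `p ∈ π`. -/
theorem exists_conj_mem {G : Type*} [Group G] [Finite G] {π : Set ℕ} {H : Subgroup G} (hH : IsPiHall π H)
    {p : ℕ} (hp : p.Prime) (hpπ : p ∈ π) {x : G} (hx : orderOf x = p) : ∃ g : G, g * x * g⁻¹ ∈ H := by
  haveI : Fact p.Prime := ⟨hp⟩
  have h1 : IsPGroup p (Subgroup.zpowers x) := IsPGroup.of_card (n := 1) (by rw [Nat.card_zpowers, hx, pow_one])
  obtain ⟨P, hP⟩ := h1.exists_le_sylow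
  obtain ⟨g, hg⟩ := exists_sylow_conj_le P H (hH.2 p hp hpπ)
  exact ⟨g, hg (conj_mem_map_conj (hP (Subgroup.mem_zpowers x)))⟩

theorem exists_isCycle {n p : ℕ} (hp2 : 2 ≤ p) (hpn : p ≤ n) :
    ∃ σ : Equiv.Perm (Fin n), σ.IsCycle ∧ σ.support.card = p := by
  obtain ⟨σ, hσ⟩ := (Equiv.Perm.exists_with_cycleType_iff (Fin n) (m := {p})).2 ⟨by simpa using hpn, by simpa using hp2⟩
  refine ⟨σ, ?_, ?_⟩
  · rw [← Equiv.Perm.card_cycleType_eq_one, hσ]; simp
  · rw [← Equiv.Perm.sum_cycleType, hσ]; simp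

/-- A Hall `π`-subgroup of the symmetric group contains a `p`-cycle for each prime `p ∈ π`, `p ≤ n`. -/
theorem exists_cycle_mem {n p : ℕ} {π : Set ℕ} {H : Subgroup (Equiv.Perm (Fin n))} (hH : IsPiHall π H)
    (hp : p.Prime) (hpπ : p ∈ π) (hpn : p ≤ n) :
    ∃ σ ∈ H, Equiv.Perm.IsCycle σ ∧ σ.support.card = p := by
  obtain ⟨σ, hσ, hc⟩ := exists_isCycle hp.two_le hpn
  obtain ⟨g, hg⟩ := exists_conj_mem hH hp hpπ (x := σ) (by rw [hσ.orderOf, hc])
  exact ⟨g * σ * g⁻¹, hg, hσ.conj, by rw [Equiv.Perm.card_support_conj, hc]⟩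

theorem no_hall_A {π : Set ℕ} {p q r : ℕ} (hp : p.Prime) (hq : q.Prime) (hr : r.Prime) (hpπ : p ∈ π) (hqπ : q ∈ π)
    (hrπ : r ∉ π) (hpq : p < q) (hrq : r < q) (hpr : p = 2 ∨ r = 2) : ¬ IsEPiGroup π (Equiv.Perm (Fin q)) := by
  rintro ⟨H, hH⟩
  -- transitivity
  obtain ⟨τ, hτH, hτ, hτc⟩ := exists_cycle_mem hH hq hqπ le_rfl
  have hsupp : ∀ x, τ x ≠ x := by
    intro x
    have : τ.support = Finset.univ := by
      apply Finset.eq_univ_of_card
      rw [hτc, Fintype.card_fin]
    have hx : x ∈ τ.support := by rw [this]; exact Finset.mem_univ x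
    exact Equiv.Perm.mem_support.1 hx
  have htrans : MulAction.IsPretransitive H (Fin q) := by
    refine ⟨fun x y => ?_⟩
    obtain ⟨k, hk⟩ := hτ.exists_zpow_eq (hsupp x) (hsupp y)
    exact ⟨⟨τ ^ k, H.zpow_mem hτH k⟩, hk⟩
  have hprim : MulAction.IsPreprimitive H (Fin q) :=
    MulAction.IsPreprimitive.of_prime_card (by rw [Nat.card_eq_fintype_card, Fintype.card_fin]; exact hq)
  obtain ⟨σ, hσH, hσ, hσc⟩ := exists_cycle_mem hH hp hpπ hpq.le
  rcases hpr with rfl | rfl
  · have h1 : H = ⊤ := Equiv.Perm.subgroup_eq_top_of_isPreprimitive_of_isSwap_mem hprim σ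
      (Equiv.Perm.card_support_eq_two.1 hσc) hσH
    apply hrπ
    apply hH.1 r hr
    rw [h1, Subgroup.card_top, Nat.card_perm, Nat.card_eq_fintype_card, Fintype.card_fin]
    exact (Nat.Prime.dvd_factorial hr).2 hrq.le
  · have hncard : ((σ.support : Set (Fin q))ᶜ).ncard = (q - p - 1) + 1 := by
      rw [← Finset.coe_compl, Set.ncard_coe_finset, Finset.card_compl, hσc, Fintype.card_fin]
      omega
    have h2 : MulAction.IsMultiplyPretransitive H (Fin q) 2 := by
      apply MulAction.IsPreprimitive.is_two_pretransitive hprim hncard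
      · rw [Nat.card_eq_fintype_card, Fintype.card_fin]
        have := hp.two_le
        omega
      · exact Equiv.Perm.isPretransitive_of_isCycle_mem hσ hσH
    rw [MulAction.is_two_pretransitive_iff] at h2
    have hab : (⟨0, by omega⟩ : Fin q) ≠ ⟨1, by omega⟩ := by
      intro h; exact absurd (congrArg Fin.val h) (by norm_num)
    obtain ⟨g, hg1, hg2⟩ := h2 hab hab.symm
    apply hrπ
    apply hH.1 2 Nat.prime_two
    refine Dvd.dvd.trans ?_ (orderOf_dvd_natCard g)
    by_contra hodd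
    have hpow : ∀ k : ℕ, g ^ (2 * k) • (⟨0, by omega⟩ : Fin q) = ⟨0, by omega⟩ := by
      intro k
      induction k with
      | zero => simp
      | succ k ih =>
        rw [show 2 * (k + 1) = 2 * k + 1 + 1 by ring, pow_succ, pow_succ, mul_smul, mul_smul, hg1, hg2, ih]
    have h3 : orderOf g = 2 * (orderOf g / 2) + 1 := by omega
    have h4 : g ^ orderOf g • (⟨0, by omega⟩ : Fin q) = ⟨0, by omega⟩ := by
      rw [pow_orderOf_eq_one, one_smul]
    rw [h3, pow_succ', mul_smul, hpow, hg1] at h4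
    exact hab h4.symm

theorem no_hall_B {π : Set ℕ} {r : ℕ} (hr : r.Prime) (hr5 : 5 ≤ r) (hrπ : r ∉ π)
    (hlt : ∀ s : ℕ, s.Prime → s < r → s ∈ π) : ¬ IsEPiGroup π (Equiv.Perm (Fin (r + 1))) := by
  rintro ⟨H, hH⟩
  have hcard : Nat.card (Equiv.Perm (Fin (r + 1))) = (r + 1).factorial := by
    rw [Nat.card_perm, Nat.card_eq_fintype_card, Fintype.card_fin]
  have hodd : Odd r := hr.odd_of_ne_two (by omega)
  have hprime : ∀ s : ℕ, s.Prime → s ∣ H.index → s = r := by
    intro s hs hd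
    have h1 : s ∣ (r + 1).factorial := by rw [← hcard]; exact hd.trans H.index_dvd_card
    have h2 : s ≤ r + 1 := (Nat.Prime.dvd_factorial hs).1 h1
    have h3 : s ≠ r + 1 := by
      rintro rfl
      rcases hs.eq_two_or_odd' with h | h
      · omega
      · exact (Nat.not_odd_iff_even.2 hodd.add_one) h
    by_contra hne
    exact hH.2 s hs (hlt s hs (by omega)) hd
  obtain ⟨k, hk⟩ : ∃ k, H.index = r ^ k :=
    ⟨_, Nat.eq_prime_pow_of_unique_prime_dvd Subgroup.index_ne_zero_of_finite (fun {d} hd hdd => hprime d hd hdd)⟩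
  have hk1 : k ≤ 1 := by
    by_contra hcon
    have h1 : r ^ 2 ∣ (r + 1).factorial := by
      rw [← hcard]
      refine (pow_dvd_pow r (by omega : 2 ≤ k)).trans ?_
      rw [← hk]; exact H.index_dvd_card
    obtain ⟨m, rfl⟩ : ∃ m, r = m + 1 := ⟨r - 1, by omega⟩
    rw [Nat.factorial_succ, Nat.factorial_succ, pow_two] at h1
    have h2 : (m + 1) * (m + 1) ∣ (m + 1) * ((m + 1 + 1) * m.factorial) := by
      have e : (m + 1 + 1) * ((m + 1) * m.factorial) = (m + 1) * ((m + 1 + 1) * m.factorial) := by ring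
      rwa [e] at h1
    have h3 := Nat.dvd_of_mul_dvd_mul_left (by omega) h2
    rcases (Nat.Prime.dvd_mul hr).1 h3 with h4 | h4
    · have := (Nat.dvd_add_right (dvd_refl (m + 1))).1 h4
      have := Nat.le_of_dvd (by norm_num) this
      omega
    · have := (Nat.Prime.dvd_factorial hr).1 h4
      omega
  have hk0 : k ≠ 0 := by
    rintro rfl
    rw [pow_zero, Subgroup.index_eq_one] at hk
    apply hrπ
    apply hH.1 r hr
    rw [hk, Subgroup.card_top, hcard]
    exact (Nat.Prime.dvd_factorial hr).2 (by omega)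
  have hk' : k = 1 := by omega
  rw [hk', pow_one] at hk
  -- the kernel of the action on cosets
  set N := H.normalCore with hN
  have hNnt : Nontrivial N := by
    rw [Subgroup.nontrivial_iff_ne_bot]
    intro hbot
    have hinj : Function.Injective (MulAction.toPermHom (Equiv.Perm (Fin (r + 1))) (Equiv.Perm (Fin (r + 1)) ⧸ H)) := by
      rw [← MonoidHom.ker_eq_bot_iff, ← Subgroup.normalCore_eq_ker]; exact hbot
    have h1 := Nat.card_le_card_of_injective _ hinj
    rw [hcard, Nat.card_perm] at h1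
    have h2 : Nat.card (Equiv.Perm (Fin (r + 1)) ⧸ H) = r := hk
    rw [h2, Nat.factorial_succ] at h1
    have := Nat.factorial_pos r
    nlinarith
  have h1 : alternatingGroup (Fin (r + 1)) ≤ N := by
    apply Equiv.Perm.alternatingGroup_le_of_normal _ hNnt
    rw [Nat.card_eq_fintype_card, Fintype.card_fin]; omega
  have h2 : alternatingGroup (Fin (r + 1)) ≤ H := h1.trans H.normalCore_le
  have h3 := Subgroup.index_dvd_of_le h2
  haveI : Nontrivial (Fin (r + 1)) := Fin.nontrivial_iff_two_le.2 (by omega)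
  rw [hk, alternatingGroup.index_eq_two] at h3
  have := Nat.le_of_dvd (by norm_num) h3
  omega

theorem not_epi {π : Set ℕ}
    (h : ¬ ((∀ p q : ℕ, p.Prime → q.Prime → p ∈ π → q ∈ π → p = q) ∨ ∀ p : ℕ, p.Prime → p ∈ π)) :
    ∃ n : ℕ, ¬ IsEPiGroup π (Equiv.Perm (Fin n)) := by
  classical
  push Not at h
  obtain ⟨⟨p, q, hp, hq, hpπ, hqπ, hpq⟩, hex⟩ := h
  by_cases h2 : 2 ∈ π
  · let r := Nat.find hex
    have hr : r.Prime ∧ r ∉ π := Nat.find_spec hex
    have hrmin : ∀ s : ℕ, s.Prime → s < r → s ∈ π := by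
      intro s hs hsr
      by_contra hcon
      exact Nat.find_min hex hsr ⟨hs, hcon⟩
    have hr2 : r ≠ 2 := by intro h; exact hr.2 (by rw [h]; exact h2)
    by_cases hbig : ∃ s : ℕ, s.Prime ∧ s ∈ π ∧ r < s
    · obtain ⟨s, hs, hsπ, hrs⟩ := hbig
      refine ⟨s, no_hall_A Nat.prime_two hs hr.1 h2 hsπ hr.2 ?_ hrs (Or.inl rfl)⟩
      have := hr.1.two_le
      omega
    · push Not at hbig
      -- there is an odd prime in π
      obtain ⟨s, hs, hsπ, hs2⟩ : ∃ s : ℕ, s.Prime ∧ s ∈ π ∧ s ≠ 2 := by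
        by_cases hp2 : p = 2
        · exact ⟨q, hq, hqπ, fun h => hpq (by rw [hp2, h])⟩
        · exact ⟨p, hp, hpπ, hp2⟩
      have h3 : s < r := by
        rcases lt_trichotomy s r with h | h | h
        · exact h
        · exact absurd (h ▸ hsπ) hr.2
        · exact absurd (hbig s hs hsπ) (by omega)
      have h5 : 5 ≤ r := by
        have := hs.two_le
        by_contra hcon
        have h4 : r = 4 := by omega
        rw [h4] at hr
        exact absurd hr.1 (by norm_num)
      exact ⟨r + 1, no_hall_B hr.1 h5 hr.2 hrmin⟩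
  · have hodd : ∀ s : ℕ, s.Prime → s ∈ π → 2 < s := by
      intro s hs hsπ
      have := hs.two_le
      rcases this.lt_or_eq with h | h
      · exact h
      · exact absurd (h ▸ hsπ) h2
    rcases lt_or_gt_of_ne hpq with h | h
    · exact ⟨q, no_hall_A hp hq Nat.prime_two hpπ hqπ h2 h (hodd q hq hqπ) (Or.inr rfl)⟩
    · exact ⟨p, no_hall_A hq hp Nat.prime_two hqπ hpπ h2 h (hodd p hp hpπ) (Or.inr rfl)⟩

/-- For a set of primes π the following are equivalent: every finite group has a Hall π-subgroup; in every finite group the maximal π-subgroups are pairwise conjugate; π contains at most one prime or contains every prime. -/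
theorem result (π : Set ℕ) :
    ((∀ (G : Type) [Group G] [Finite G], Cfsg.IsEPiGroup π G) ↔
      ((∀ p q : ℕ, p.Prime → q.Prime → p ∈ π → q ∈ π → p = q) ∨ ∀ p : ℕ, p.Prime → p ∈ π)) ∧
    ((∀ (G : Type) [Group G] [Finite G], Cfsg.IsDPiGroup π G) ↔
      ((∀ p q : ℕ, p.Prime → q.Prime → p ∈ π → q ∈ π → p = q) ∨ ∀ p : ℕ, p.Prime → p ∈ π)) := by
  refine ⟨⟨?_, ?_⟩, ⟨?_, ?_⟩⟩
  · intro h
    by_contra hcon
    obtain ⟨n, hn⟩ := not_epi hcon
    exact hn (h _)
  · intro h G _ _
    exact epi_of_dpi (dpi_of h G)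
  · intro h
    by_contra hcon
    obtain ⟨n, hn⟩ := not_epi hcon
    exact hn (epi_of_dpi (h _))
  · intro h G _ _
    exact dpi_of h G

end Cfsg.Agent.S3878
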