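import Cfsg.Statements.S3766
import Cfsg.Agent.Solv.Core
import Cfsg.Agent.Solv.MinNormal
import Cfsg.Agent.H63.Comm

set_option autoImplicit false
open Cfsg

namespace Cfsg.Agent.S3766


/-- iterated commutator `[A, E, ..., E]` -/
def itc {G : Type*} [Group G] (A E : Subgroup G) : ℕ → Subgroup G
  | 0 => A
  | k + 1 => ⁅itc A E k, E⁆

theorem itc_mono {G : Type*} [Group G] {A B E : Subgroup G} (h : A ≤ B) (k : ℕ) : itc A E k ≤ itc B E k := by
  induction k with
  | zero => exact h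
  | succ k ih => exact Subgroup.commutator_mono ih le_rfl

theorem itc_succ' {G : Type*} [Group G] (A E : Subgroup G) (k : ℕ) : itc A E (k + 1) = itc ⁅A, E⁆ E k := by
  induction k with
  | zero => rfl
  | succ k ih => rw [itc, ih, itc]

theorem lcs_eq_itc {G : Type*} [Group G] (E : Subgroup G) (k : ℕ) : E.lowerCentralSeries k = itc E E k := by
  induction k with
  | zero => rfl
  | succ k ih => rw [Subgroup.lowerCentralSeries_succ, ih, itc]

theorem centralizes_of_mem_fitting {G : Type*} [Group G] [Finite G] (F : Subgroup G) [F.Normal]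
    (hF : Group.IsNilpotent F)
    (U V : Subgroup G) (hU : U.Normal) (hV : V.Normal) (hVU : V < U)
    (hmin : ∀ W : Subgroup G, W.Normal → V ≤ W → W ≤ U → W = V ∨ W = U) : ⁅U, F⁆ ≤ V := by
  have hW : (⁅U, F⁆ ⊔ V).Normal := inferInstance
  rcases hmin _ hW le_sup_right (sup_le (Subgroup.commutator_le_left U F) hVU.le) with h | h
  · rw [← h]; exact le_sup_left
  · exfalso
    have h1 : ∀ k, U ≤ itc ⁅U, F⁆ F k ⊔ V := by
      intro k
      induction k with
      | zero => exact h.ge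
      | succ k ih =>
        have hle : ⁅U, F⁆ ≤ itc ⁅U, F⁆ F (k + 1) ⊔ V := by
          have hn : ∀ j, (itc ⁅U, F⁆ F j).Normal := by
            intro j
            induction j with
            | zero => exact inferInstanceAs (⁅U, F⁆).Normal
            | succ j ihj => rw [itc]; infer_instance
          have := hn (k + 1)
          refine (Subgroup.commutator_mono ih le_rfl).trans ?_
          apply Cfsg.Agent.H63.sup_commutator_le
          · exact le_sup_left
          · exact (Subgroup.commutator_le_left V F).trans le_sup_right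
        exact h.ge.trans (sup_le hle le_sup_right)
    obtain ⟨n, hn⟩ := (Subgroup.isNilpotent_iff_lowerCentralSeries F).1 hF
    have h2 : itc ⁅U, F⁆ F n ≤ ⊥ := by
      rw [← hn, lcs_eq_itc]
      exact itc_mono (Subgroup.commutator_le_right U F) n
    have h3 := h1 n
    rw [le_bot_iff.1 h2, bot_sup_eq] at h3
    exact absurd h3 (not_le_of_gt hVU)

theorem exists_max_below {G : Type*} [Group G] [Finite G] (U : Subgroup G) (hU1 : U ≠ ⊥) :
    ∃ V : Subgroup G, V.Normal ∧ V < U ∧ ∀ W : Subgroup G, W.Normal → V ≤ W → W ≤ U → W = V ∨ W = U := by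
  have hfin : Set.Finite {V : Subgroup G | V.Normal ∧ V < U} := Set.toFinite _
  obtain ⟨V, hV⟩ := hfin.exists_maximal ⟨⊥, inferInstance, bot_lt_iff_ne_bot.2 hU1⟩
  refine ⟨V, hV.prop.1, hV.prop.2, ?_⟩
  intro W hW hVW hWU
  rcases hWU.lt_or_eq with h | h
  · left
    exact le_antisymm (hV.le_of_ge ⟨hW, h⟩ hVW) hVW
  · right; exact h

theorem backward {G : Type*} [Group G] [Finite G] (hG : Group.IsSolvable G) (N : Subgroup G) [N.Normal] (g : G)
    (hgN : g ∈ N)
    (h : ∀ U V : Subgroup G, (U.Normal ∧ V.Normal ∧ V < U ∧ ∀ W : Subgroup G, W.Normal → V ≤ W → W ≤ U → W = V ∨ W = U) → U ≤ (Cfsg.fittingSubgroup ↥N).map N.subtype → ∀ u ∈ U, u * g * u⁻¹ * g⁻¹ ∈ V) :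
    g ∈ (Cfsg.fittingSubgroup ↥N).map N.subtype := by
  rw [Cfsg.Agent.Solv.inf_fitting_eq] at h ⊢
  set F := N ⊓ Cfsg.fittingSubgroup G with hFdef
  have hFn : F.Normal := Subgroup.normal_inf_normal _ _
  let P : Subgroup G → Subgroup G → Prop := fun U V => (U.Normal ∧ V.Normal ∧ V < U ∧ ∀ W : Subgroup G, W.Normal → V ≤ W → W ≤ U → W = V ∨ W = U) ∧ U ≤ F
  let C : Subgroup G :=
    { carrier := {x | x ∈ N ∧ ∀ U V : Subgroup G, P U V → ∀ u ∈ U, u * x * u⁻¹ * x⁻¹ ∈ V}
      one_mem' := ⟨N.one_mem, fun U V _ u _ => by simp [V.one_mem]⟩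
      mul_mem' := by
        rintro a b ⟨ha, ha'⟩ ⟨hb, hb'⟩
        refine ⟨N.mul_mem ha hb, fun U V hUV u hu => ?_⟩
        have h1 := ha' U V hUV u hu
        have h2 := hb' U V hUV u hu
        have h3 := hUV.1.2.1.conj_mem _ h2 a
        have h4 := V.mul_mem h1 h3
        have e : u * a * u⁻¹ * a⁻¹ * (a * (u * b * u⁻¹ * b⁻¹) * a⁻¹) = u * (a * b) * u⁻¹ * (a * b)⁻¹ := by
          group
        rwa [e] at h4
      inv_mem' := by
        rintro a ⟨ha, ha'⟩
        refine ⟨N.inv_mem ha, fun U V hUV u hu => ?_⟩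
        have h1 := ha' U V hUV u hu
        have h2 := hUV.1.2.1.conj_mem _ (V.inv_mem h1) a⁻¹
        have e : a⁻¹ * (u * a * u⁻¹ * a⁻¹)⁻¹ * a⁻¹⁻¹ = u * a⁻¹ * u⁻¹ * a⁻¹⁻¹ := by group
        rwa [e] at h2 }
  have hCmem : ∀ x, x ∈ C ↔ x ∈ N ∧ ∀ U V : Subgroup G, P U V → ∀ u ∈ U, u * x * u⁻¹ * x⁻¹ ∈ V := fun _ => Iff.rfl
  have hCn : C.Normal := by
    refine ⟨fun x hx y => ?_⟩
    rw [hCmem] at hx ⊢
    refine ⟨(inferInstance : N.Normal).conj_mem _ hx.1 y, fun U V hUV u hu => ?_⟩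
    have h1 := hx.2 U V hUV (y⁻¹ * u * y⁻¹⁻¹) (hUV.1.1.conj_mem _ hu y⁻¹)
    have h2 := hUV.1.2.1.conj_mem _ h1 y
    have e : y * (y⁻¹ * u * y⁻¹⁻¹ * x * (y⁻¹ * u * y⁻¹⁻¹)⁻¹ * x⁻¹) * y⁻¹ = u * (y * x * y⁻¹) * u⁻¹ * (y * x * y⁻¹)⁻¹ := by
      group
    rwa [e] at h2
  have hgC : g ∈ C := ⟨hgN, fun U V hUV => h U V hUV.1 hUV.2⟩
  have hFC : F ≤ C := by
    intro x hx
    refine ⟨hx.1, fun U V hUV u hu => ?_⟩
    have h1 := centralizes_of_mem_fitting (Cfsg.fittingSubgroup G) Cfsg.Agent.Solv.fitting_isNilpotent U V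
      hUV.1.1 hUV.1.2.1 hUV.1.2.2.1 hUV.1.2.2.2
    have := h1 (Subgroup.commutator_mem_commutator hu hx.2)
    exact this
  suffices hCF : C ≤ F from hCF hgC
  by_contra hnot
  -- minimal normal subgroup of G / F inside C / F
  have hCne : C.map (QuotientGroup.mk' F) ≠ ⊥ := by
    rw [Ne, Subgroup.map_eq_bot_iff, QuotientGroup.ker_mk']
    exact hnot
  have hsurj := QuotientGroup.mk'_surjective F
  have hCm : (C.map (QuotientGroup.mk' F)).Normal := hCn.map _ hsurj
  obtain ⟨M, hMn, hMC, hM1, hMmin⟩ := Cfsg.Agent.Solv.exists_minimal_normal _ hCm hCne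
  have hsolM : Group.IsSolvable M := inferInstance
  obtain ⟨hMab, -⟩ := Cfsg.Agent.Solv.minimal_normal_of_solvable M hsolM hM1 hMmin
  set E := M.comap (QuotientGroup.mk' F) with hE
  have hEn : E.Normal := hMn.comap _
  have hFE : F ≤ E := by
    intro x hx
    rw [hE, Subgroup.mem_comap]
    have : QuotientGroup.mk' F x = 1 := (QuotientGroup.eq_one_iff x).2 hx
    rw [this]; exact M.one_mem
  have hEC : E ≤ C := by
    intro x hx
    have h1 := hMC hx
    have h2 : x ∈ (C.map (QuotientGroup.mk' F)).comap (QuotientGroup.mk' F) := h1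
    rwa [Subgroup.comap_map_eq_self (by rw [QuotientGroup.ker_mk']; exact hFC)] at h2
  have hEE : ⁅E, E⁆ ≤ F := by
    have h1 : (⁅E, E⁆).map (QuotientGroup.mk' F) = ⊥ := by
      rw [Subgroup.map_commutator, hE, Subgroup.map_comap_eq_self_of_surjective hsurj,
        Subgroup.commutator_self_eq_bot_iff]
      exact hMab
    rwa [Subgroup.map_eq_bot_iff, QuotientGroup.ker_mk'] at h1
  have hkill : ∀ n : ℕ, ∀ U : Subgroup G, U.Normal → U ≤ F → Nat.card U = n → ∃ k, itc U E k = ⊥ := by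
    intro n
    induction n using Nat.strong_induction_on with
    | _ n ih =>
      intro U hU hUF hcard
      by_cases hU1 : U = ⊥
      · exact ⟨0, hU1⟩
      · obtain ⟨V, hV, hVU, hVmax⟩ := exists_max_below U hU1
        have hcomm : ⁅U, E⁆ ≤ V := by
          rw [Subgroup.commutator_le]
          intro u hu e he
          exact (hEC he).2 U V ⟨⟨hU, hV, hVU, hVmax⟩, hUF⟩ u hu
        have hlt : Nat.card V < n := by
          rw [← hcard]
          have hle := Subgroup.card_le_of_le hVU.le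
          rcases hle.lt_or_eq with h5 | h5
          · exact h5
          · exact absurd (Subgroup.eq_of_le_of_card_ge hVU.le h5.ge) hVU.ne
        obtain ⟨k, hk⟩ := ih _ hlt V hV (hVU.le.trans hUF) rfl
        refine ⟨k + 1, ?_⟩
        rw [itc_succ', eq_bot_iff, ← hk]
        exact itc_mono hcomm k
  obtain ⟨k, hk⟩ := hkill _ F hFn le_rfl rfl
  have hEnil : Group.IsNilpotent E := by
    rw [Subgroup.isNilpotent_iff_lowerCentralSeries]
    refine ⟨k + 1, ?_⟩
    rw [lcs_eq_itc, itc_succ', eq_bot_iff, ← hk]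
    exact itc_mono hEE k
  have hEF : E ≤ F := le_inf (fun x hx => (hEC hx).1) (Cfsg.Agent.Solv.le_fitting hEn hEnil)
  apply hM1
  rw [← Subgroup.map_comap_eq_self_of_surjective hsurj M, ← hE, Subgroup.map_eq_bot_iff, QuotientGroup.ker_mk']
  exact hEF

/-- Let G be a finite solvable group and N a normal subgroup of G. Call a pair V < U of normal subgroups of G a chief factor of G when no normal subgroup of G lies strictly between them; an element g centralizes the chief factor U/V when u g u⁻¹ g⁻¹ ∈ V for all u ∈ U. Then an element of G lies in the Fitting subgroup F(N) if and only if it lies in N and centralizes every chief factor of G; and also if and only if it lies in N and centralizes every chief factor U/V of G with U ≤ F(N). -/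
theorem result {G : Type*} [Group G] [Finite G] (hG : Group.IsSolvable G) (N : Subgroup G) [N.Normal] (g : G) : (g ∈ (Cfsg.fittingSubgroup ↥N).map N.subtype ↔ g ∈ N ∧ ∀ U V : Subgroup G, (U.Normal ∧ V.Normal ∧ V < U ∧ ∀ W : Subgroup G, W.Normal → V ≤ W → W ≤ U → W = V ∨ W = U) → ∀ u ∈ U, u * g * u⁻¹ * g⁻¹ ∈ V) ∧ (g ∈ (Cfsg.fittingSubgroup ↥N).map N.subtype ↔ g ∈ N ∧ ∀ U V : Subgroup G, (U.Normal ∧ V.Normal ∧ V < U ∧ ∀ W : Subgroup G, W.Normal → V ≤ W → W ≤ U → W = V ∨ W = U) → U ≤ (Cfsg.fittingSubgroup ↥N).map N.subtype → ∀ u ∈ U, u * g * u⁻¹ * g⁻¹ ∈ V) := by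
  have fwd : g ∈ (Cfsg.fittingSubgroup ↥N).map N.subtype → g ∈ N ∧ ∀ U V : Subgroup G, (U.Normal ∧ V.Normal ∧ V < U ∧ ∀ W : Subgroup G, W.Normal → V ≤ W → W ≤ U → W = V ∨ W = U) → ∀ u ∈ U, u * g * u⁻¹ * g⁻¹ ∈ V := by
    intro hg
    rw [Cfsg.Agent.Solv.inf_fitting_eq] at hg
    refine ⟨hg.1, ?_⟩
    rintro U V ⟨hU, hV, hVU, hmax⟩ u hu
    exact centralizes_of_mem_fitting (Cfsg.fittingSubgroup G) Cfsg.Agent.Solv.fitting_isNilpotent U V
      hU hV hVU hmax (Subgroup.commutator_mem_commutator hu hg.2)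
  refine ⟨⟨fwd, ?_⟩, ⟨?_, ?_⟩⟩
  · rintro ⟨hgN, h⟩
    exact backward hG N g hgN (fun U V hUV _ => h U V hUV)
  · intro hg
    exact ⟨(fwd hg).1, fun U V hUV _ => (fwd hg).2 U V hUV⟩
  · rintro ⟨hgN, h⟩
    exact backward hG N g hgN h

end Cfsg.Agent.S3766
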