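import Cfsg.Statements.S2758
import Cfsg.Agent.H46.Involves

set_option autoImplicit false
open Cfsg

namespace Cfsg.Agent.S2758

/-- For an odd prime p and a finite group G the following are equivalent: the dihedral group of order 2p is involved in G; some element of 2-power order normalizes but does not centralize some p-subgroup of G; some element of 2-power order inverts some nonidentity element of p-power order. -/
theorem result {G : Type*} [Group G] [Finite G] {p : ℕ} [Fact p.Prime] (hp : p ≠ 2) : (Cfsg.Involves (DihedralGroup p) G ↔ ∃ (x : G) (P : Subgroup G), (∃ k : ℕ, orderOf x = 2 ^ k) ∧ IsPGroup p ↥P ∧ x ∈ Subgroup.normalizer (P : Set G) ∧ x ∉ Subgroup.centralizer (P : Set G)) ∧ (Cfsg.Involves (DihedralGroup p) G ↔ ∃ x y : G, (∃ k : ℕ, orderOf x = 2 ^ k) ∧ (∃ k : ℕ, orderOf y = p ^ k) ∧ y ≠ 1 ∧ x * y * x⁻¹ = y⁻¹) := by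
  have h23 : (∃ (x : G) (P : Subgroup G), (∃ k : ℕ, orderOf x = 2 ^ k) ∧ IsPGroup p ↥P ∧
      x ∈ Subgroup.normalizer (P : Set G) ∧ x ∉ Subgroup.centralizer (P : Set G)) →
      ∃ x y : G, (∃ k : ℕ, orderOf x = 2 ^ k) ∧ (∃ k : ℕ, orderOf y = p ^ k) ∧ y ≠ 1 ∧ x * y * x⁻¹ = y⁻¹ := by
    rintro ⟨x, P, hx, hP, hxP, hxc⟩
    obtain ⟨t, y, _, ht2, hyP, hy1, hty⟩ := Cfsg.Agent.H46.dihedral_two_to_three hx hP hxP hxc
    refine ⟨t, y, ht2, ?_, hy1, hty⟩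
    obtain ⟨k, hk⟩ := (IsPGroup.iff_orderOf.1 hP) ⟨y, hyP⟩
    exact ⟨k, by rw [← hk, Subgroup.orderOf_mk]⟩
  have h31 : (∃ x y : G, (∃ k : ℕ, orderOf x = 2 ^ k) ∧ (∃ k : ℕ, orderOf y = p ^ k) ∧ y ≠ 1 ∧
      x * y * x⁻¹ = y⁻¹) → Cfsg.Involves (DihedralGroup p) G := by
    rintro ⟨x, y, hx, hy, hy1, hxy⟩
    exact Cfsg.Agent.H46.involves_dihedral_of_inverted hp hx hy hy1 hxy
  exact ⟨⟨Cfsg.Agent.H46.exists_of_involves_dihedral hp, fun h => h31 (h23 h)⟩,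
    ⟨fun h => h23 (Cfsg.Agent.H46.exists_of_involves_dihedral hp h), h31⟩⟩

end Cfsg.Agent.S2758
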