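import Cfsg.Statements.S2759
import Cfsg.Agent.H46.SymFour
import Cfsg.Agent.S2758
import Cfsg.Agent.Cop.Basic
import Cfsg.Agent.Solv.Frattini

set_option autoImplicit false
open Cfsg

namespace Cfsg.Agent.S2759


open Cfsg.Agent.H46 Equiv

theorem involves_of_ker_le {N A D : Type*} [Group N] [Group A] [Group D] (ι : N →* A) (φ : N →* D)
    (hφ : Function.Surjective φ) (h : ι.ker ≤ φ.ker) : Involves D A := by
  rw [involves_iff]
  have hk : ι.rangeRestrict.ker ≤ φ.ker := by rw [MonoidHom.ker_rangeRestrict]; exact h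
  refine ⟨ι.range, ι.rangeRestrict.liftOfSurjective ι.rangeRestrict_surjective ⟨φ, hk⟩, ?_⟩
  intro d
  obtain ⟨n, rfl⟩ := hφ d
  refine ⟨ι.rangeRestrict n, ?_⟩
  exact MonoidHom.liftOfRightInverse_comp_apply ι.rangeRestrict _ (Function.rightInverse_surjInv _) ⟨φ, hk⟩ n

/-- the normal four-group of `S₄` -/
def V4 : Subgroup (Perm (Fin 4)) where
  carrier := {g | g * g = 1 ∧ (g = 1 ∨ ∀ i, g i ≠ i)}
  one_mem' := ⟨by rw [mul_one], Or.inl rfl⟩
  mul_mem' := by
    intro a b ha hb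
    revert a b
    have : ∀ a b : Perm (Fin 4), (a * a = 1 ∧ (a = 1 ∨ ∀ i, a i ≠ i)) → (b * b = 1 ∧ (b = 1 ∨ ∀ i, b i ≠ i)) →
      ((a * b) * (a * b) = 1 ∧ (a * b = 1 ∨ ∀ i, (a * b) i ≠ i)) := by decide +kernel
    exact fun {a b} ha hb => this a b ha hb
  inv_mem' := by
    rintro a ⟨h1, h2⟩
    have : a⁻¹ = a := inv_eq_of_mul_eq_one_left h1
    rw [this]
    exact ⟨h1, h2⟩

theorem mem_V4 {g : Perm (Fin 4)} : g ∈ V4 ↔ g * g = 1 ∧ (g = 1 ∨ ∀ i, g i ≠ i) := Iff.rfl

instance V4_normal : V4.Normal := by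
  constructor
  rintro n ⟨h1, h2⟩ g
  refine ⟨?_, ?_⟩
  · have : g * n * g⁻¹ * (g * n * g⁻¹) = g * (n * n) * g⁻¹ := by group
    rw [this, h1]; group
  · rcases h2 with rfl | h2
    · left; group
    · right
      intro i hi
      apply h2 (g⁻¹ i)
      have : g (n (g⁻¹ i)) = i := hi
      rw [Equiv.Perm.eq_inv_iff_eq]; exact this

theorem V4_centralizer : ∀ g : Perm (Fin 4), (∀ q : Perm (Fin 4), (q * q = 1 ∧ (q = 1 ∨ ∀ i, q i ≠ i)) → q * g = g * q) →
    (g * g = 1 ∧ (g = 1 ∨ ∀ i, g i ≠ i)) := by decide +kernel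

/-- embedding of `S₃` in `S₄` -/
noncomputable def emb : Perm (Fin 3) →* Perm (Fin 4) :=
  Equiv.Perm.viaEmbeddingHom (Fin.castSuccEmb (n := 3))

theorem involves_three : Involves (Perm (Fin 3)) (Perm (Fin 4) ⧸ V4) := by
  have := V4_normal
  refine involves_of_injective (involves_refl (Perm (Fin 3))) ((QuotientGroup.mk' V4).comp emb) ?_
  rw [injective_iff_map_eq_one]
  intro g hg
  have h1 : emb g ∈ V4 := (QuotientGroup.eq_one_iff _).1 hg
  have hinj : Function.Injective emb := Equiv.Perm.viaEmbeddingHom_injective _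
  rcases h1.2 with h2 | h2
  · exact hinj (by rw [h2, map_one])
  · exfalso
    apply h2 3
    show (Equiv.Perm.viaEmbeddingHom _ g) 3 = 3
    rw [Equiv.Perm.viaEmbeddingHom_apply]
    apply Equiv.Perm.viaEmbedding_apply_of_notMem
    rintro ⟨i, hi⟩
    fin_cases i <;> exact absurd hi (by decide)

theorem forward {G : Type*} [Group G] [Finite G] (h : Cfsg.Involves (Equiv.Perm (Fin 4)) G) :
    ∃ T : Subgroup G, IsPGroup 2 ↥T ∧ Cfsg.Involves (Equiv.Perm (Fin 3)) (↥(Subgroup.normalizer (T : Set G)) ⧸ (Subgroup.centralizer (T : Set G)).subgroupOf (Subgroup.normalizer (T : Set G))) := by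
  obtain ⟨K, f, hf⟩ := involves_iff.1 h
  have hV4n := V4_normal
  have hf2 : Fact (Nat.Prime 2) := ⟨Nat.prime_two⟩
  have hV4p : IsPGroup 2 V4 := by
    rintro ⟨g, hg⟩
    refine ⟨1, Subtype.ext ?_⟩
    show g ^ 2 ^ 1 = 1
    rw [pow_one, pow_two]; exact hg.1
  obtain ⟨P, hPp, hPQ, hN⟩ := exists_lift_normal_pSubgroup f hf V4 hV4p
  refine ⟨P.map K.subtype, hPp.map _, ?_⟩
  refine involves_trans involves_three ?_
  set T := P.map K.subtype with hT
  -- map from `N_K(P)` to `N_G(T)`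
  have hNT : ∀ n ∈ Subgroup.normalizer (P : Set K), ((n : K) : G) ∈ Subgroup.normalizer (T : Set G) := by
    intro n hn
    rw [mem_normalizer_iff_map_conj] at hn ⊢
    conv_rhs => rw [hT, ← hn]
    rw [hT, Subgroup.map_map, Subgroup.map_map]
    congr 1
  let j : ↥(Subgroup.normalizer (P : Set K)) →* ↥(Subgroup.normalizer (T : Set G)) :=
    (K.subtype.comp (Subgroup.normalizer (P : Set K)).subtype).codRestrict _ (fun n => hNT n n.2)
  refine involves_of_ker_le ((QuotientGroup.mk' _).comp j)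
    ((QuotientGroup.mk' V4).comp (f.comp (Subgroup.normalizer (P : Set K)).subtype)) ?_ ?_
  · intro d
    obtain ⟨g, rfl⟩ := QuotientGroup.mk'_surjective _ d
    have : g ∈ (Subgroup.normalizer (P : Set K)).map f := by rw [hN]; trivial
    obtain ⟨n, hn, rfl⟩ := this
    exact ⟨⟨n, hn⟩, rfl⟩
  · intro n hn
    rw [MonoidHom.mem_ker, MonoidHom.comp_apply, QuotientGroup.mk'_apply, QuotientGroup.eq_one_iff,
      Subgroup.mem_subgroupOf] at hn
    rw [MonoidHom.mem_ker, MonoidHom.comp_apply, QuotientGroup.mk'_apply, QuotientGroup.eq_one_iff]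
    refine V4_centralizer _ ?_
    intro q hq
    have hq' : q ∈ P.map f := by rw [hPQ]; exact hq
    obtain ⟨a, ha, rfl⟩ := hq'
    have h1 := Subgroup.mem_centralizer_iff.1 hn (a : G) ⟨a, ha, rfl⟩
    have h2 : a * (n : K) = (n : K) * a := Subtype.ext h1
    show f a * f n = f n * f a
    rw [← map_mul, h2, map_mul]

theorem S3_dihedral : Involves (DihedralGroup 3) (Perm (Fin 3)) := by
  have hf3 : Fact (Nat.Prime 3) := ⟨Nat.prime_three⟩
  refine involves_dihedral_of_inverted (p := 3) (by norm_num) (x := swap 0 1) (y := swap 0 1 * swap 1 2)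
    ⟨1, ?_⟩ ⟨1, ?_⟩ (by decide) (by decide)
  · rw [pow_one]; exact orderOf_eq_prime (by decide) (by decide)
  · rw [pow_one]; exact orderOf_eq_prime (by decide) (by decide)

theorem backward {G : Type*} [Group G] [Finite G] (T : Subgroup G) (hT2 : IsPGroup 2 ↥T)
    (h : Cfsg.Involves (Equiv.Perm (Fin 3)) (↥(Subgroup.normalizer (T : Set G)) ⧸ (Subgroup.centralizer (T : Set G)).subgroupOf (Subgroup.normalizer (T : Set G)))) :
    Cfsg.Involves (Equiv.Perm (Fin 4)) G := by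
  have hf3 : Fact (Nat.Prime 3) := ⟨Nat.prime_three⟩
  have hf2 : Fact (Nat.Prime 2) := ⟨Nat.prime_two⟩
  set NT := Subgroup.normalizer (T : Set G) with hNT
  set CT := (Subgroup.centralizer (T : Set G)).subgroupOf NT with hCT
  have hD := involves_trans S3_dihedral h
  obtain ⟨xb, yb, ⟨k, hk⟩, ⟨m, hm⟩, hyb, hxyb⟩ := (Cfsg.Agent.S2758.result (G := NT ⧸ CT) (p := 3) (by norm_num)).2.1 hD
  -- make `yb` of order 3
  obtain ⟨zb, hz, hxz⟩ : ∃ z : NT ⧸ CT, orderOf z = 3 ∧ xb * z * xb⁻¹ = z⁻¹ := by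
    have hm0 : m ≠ 0 := by
      rintro rfl
      rw [pow_zero, orderOf_eq_one_iff] at hm
      exact hyb hm
    refine ⟨yb ^ (3 ^ (m - 1)), ?_, ?_⟩
    · rw [orderOf_pow' yb (pow_ne_zero _ (by norm_num)), hm, Nat.gcd_eq_right (pow_dvd_pow 3 (Nat.sub_le m 1))]
      rw [Nat.pow_div (Nat.sub_le m 1) (by norm_num)]
      have : m - (m - 1) = 1 := by omega
      rw [this, pow_one]
    · have h2 : xb * yb ^ (3 ^ (m - 1)) * xb⁻¹ = (xb * yb * xb⁻¹) ^ (3 ^ (m - 1)) := by
        rw [conj_pow]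
      rw [h2, hxyb, inv_pow]
  clear hyb hxyb hm
  -- the group `D`
  set D : Subgroup (NT ⧸ CT) := Subgroup.closure {xb, zb} with hDdef
  have hxD : xb ∈ D := Subgroup.subset_closure (by simp)
  have hzD : zb ∈ D := Subgroup.subset_closure (by simp)
  let K : Subgroup NT := D.comap (QuotientGroup.mk' CT)
  let f : K →* D := (QuotientGroup.mk' CT).subgroupComap D
  have hf : Function.Surjective f := (QuotientGroup.mk' CT).subgroupComap_surjective_of_surjective D
    (QuotientGroup.mk'_surjective CT)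
  let Q : Subgroup D := (Subgroup.zpowers (⟨zb, hzD⟩ : D))
  have hzx : xb⁻¹ * zb * xb = zb⁻¹ := by
    have h1 : zb = (xb * zb * xb⁻¹)⁻¹ := by rw [hxz, inv_inv]
    have h2 : xb⁻¹ * zb * xb = xb⁻¹ * (xb * zb * xb⁻¹)⁻¹ * xb := by rw [← h1]
    rw [h2]; group
  have hQn : Q.Normal := by
    have hDle : D ≤ Subgroup.normalizer (Subgroup.zpowers zb : Set (NT ⧸ CT)) := by
      rw [hDdef, Subgroup.closure_le]
      rintro g (rfl | rfl)
      · apply Subgroup.mem_normalizer_fintype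
        rintro _ ⟨n, rfl⟩
        refine ⟨-n, ?_⟩
        show zb ^ (-n) = g * zb ^ n * g⁻¹
        rw [← conj_zpow, hxz, inv_zpow, zpow_neg]
      · exact Subgroup.le_normalizer (Subgroup.mem_zpowers _)
    constructor
    rintro _ ⟨n, rfl⟩ g
    have h1 := (Subgroup.mem_normalizer_iff.1 (hDle g.2) (zb ^ n)).1 ⟨n, rfl⟩
    obtain ⟨i, hi⟩ := h1
    refine ⟨i, Subtype.ext ?_⟩
    exact hi
  have hQp : IsPGroup 3 Q := by
    apply IsPGroup.of_card (n := 1)
    rw [Nat.card_zpowers, Subgroup.orderOf_mk, hz, pow_one]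
  obtain ⟨P, hPp, hPQ, hNP⟩ := exists_lift_normal_pSubgroup f hf Q hQp
  -- `x` and `y`
  have hx0 : (⟨xb, hxD⟩ : D) ∈ (Subgroup.normalizer (P : Set K)).map f := by rw [hNP]; trivial
  obtain ⟨x0, hx0N, hfx0⟩ := hx0
  obtain ⟨a, b, hab, ⟨k', hk'⟩, hbc⟩ := Cfsg.Agent.Transfer.exists_pow_decomp 2 x0 (orderOf_pos x0).ne'
  have hfb : f (x0 ^ b) = 1 := by
    have h2 : orderOf (f (x0 ^ b)) ∣ orderOf (x0 ^ b) := orderOf_map_dvd _ _
    have h3 : orderOf (f (x0 ^ b)) ∣ 2 ^ k := by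
      rw [map_pow, hfx0]
      have : orderOf ((⟨xb, hxD⟩ : D) ^ b) ∣ orderOf (⟨xb, hxD⟩ : D) := orderOf_pow_dvd b
      have e1 : orderOf (⟨xb, hxD⟩ : D) = orderOf xb := Subgroup.orderOf_mk _ _
      rwa [e1, hk] at this
    exact orderOf_eq_one_iff.1 (Nat.eq_one_of_dvd_coprimes (Nat.Coprime.pow_right k hbc) h2 h3)
  set x := x0 ^ a with hxdef
  have hfx : f x = ⟨xb, hxD⟩ := by
    have := congrArg f hab
    rw [map_mul, hfb, mul_one] at this
    rw [← this, hfx0]
  have hxN : x ∈ Subgroup.normalizer (P : Set K) := Subgroup.pow_mem _ hx0N a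
  have hx2 : x ^ 2 ^ k' = 1 := by rw [← hk', pow_orderOf_eq_one]
  have hy0 : (⟨zb, hzD⟩ : D) ∈ P.map f := by rw [hPQ]; exact Subgroup.mem_zpowers _
  obtain ⟨y, hyP, hfy⟩ := hy0
  have hπx : QuotientGroup.mk' CT (x : NT) = xb := congrArg Subtype.val hfx
  have hπy : QuotientGroup.mk' CT (y : NT) = zb := congrArg Subtype.val hfy
  -- elements of `CT`
  have hy3 : (y : NT) ^ 3 ∈ CT := by
    rw [← QuotientGroup.eq_one_iff]
    show QuotientGroup.mk' CT ((y : NT) ^ 3) = 1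
    rw [map_pow, hπy, ← hz, pow_orderOf_eq_one]
  have hxy3 : (x : NT) * y * (x : NT)⁻¹ * y ∈ CT := by
    rw [← QuotientGroup.eq_one_iff]
    show QuotientGroup.mk' CT ((x : NT) * y * (x : NT)⁻¹ * y) = 1
    rw [map_mul, map_mul, map_mul, map_inv, hπx, hπy, hxz, inv_mul_cancel]
  -- the quotient
  let Φ : Subgroup G := (frattini T).map T.subtype
  have hΦT : Φ ≤ T := Subgroup.map_subtype_le _
  have hNΦ : NT ≤ Subgroup.normalizer (Φ : Set G) := Cfsg.Agent.H49.normalizer_le_normalizer_map_of_char T (frattini T)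
  let D₀ : Subgroup NT := Φ.subgroupOf NT
  have hD₀ : D₀.Normal := by
    constructor
    intro n hn g
    exact (Subgroup.mem_normalizer_iff.1 (hNΦ g.2) _).1 hn
  have hTn : (T.subgroupOf NT).Normal := by
    constructor
    intro n hn g
    exact (Subgroup.mem_normalizer_iff.1 g.2 _).1 hn
  let q : NT →* NT ⧸ D₀ := QuotientGroup.mk' D₀
  have hq : Function.Surjective q := QuotientGroup.mk'_surjective D₀
  have hqeq : ∀ a b : NT, a⁻¹ * b ∈ D₀ → q a = q b := fun a b h => QuotientGroup.eq.2 h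
  have hMn : ((T.subgroupOf NT).map q).Normal := hTn.map q hq
  have hfin : Involves (Perm (Fin 4)) (NT ⧸ D₀) := by
    refine involves_perm4_of_module ((T.subgroupOf NT).map q) ((P.map K.subtype).map q) ?_ ?_ (x := q x) (y := q y)
      ⟨k', ?_⟩ ((hPp.map _).map _) ⟨y, ⟨y, hyP, rfl⟩, rfl⟩ ?_ ?_ ?_ ?_
    · rintro _ ⟨a, ha, rfl⟩ _ ⟨b, hb, rfl⟩
      rw [← map_mul, ← map_mul]
      apply hqeq
      show (((a : G) * b)⁻¹ * ((b : G) * a)) ∈ Φ
      have h1 : (⟨b, hb⟩ : T)⁻¹ * (⟨a, ha⟩ : T)⁻¹ * (⟨b, hb⟩ : T) * (⟨a, ha⟩ : T) ∈ frattini T := by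
        apply Cfsg.Agent.Solv.commutator_le_frattini_of_pGroup hT2
        have := Subgroup.commutator_mem_commutator (G := T) (H₁ := ⊤) (H₂ := ⊤) (Subgroup.mem_top (⟨b, hb⟩ : T)⁻¹)
          (Subgroup.mem_top (⟨a, ha⟩ : T)⁻¹)
        rw [commutatorElement_def, inv_inv, inv_inv] at this
        exact this
      refine ⟨_, h1, ?_⟩
      show ((b : G)⁻¹ * (a : G)⁻¹ * b * a) = _
      simp only [mul_inv_rev, mul_assoc]
    · rintro _ ⟨a, ha, rfl⟩
      rw [← map_mul, ← map_one q]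
      symm
      apply hqeq
      rw [inv_one, one_mul]
      have h1 := Cfsg.Agent.Solv.pow_mem_frattini_of_pGroup hT2 (⟨a, ha⟩ : T)
      rw [pow_two] at h1
      exact ⟨_, h1, rfl⟩
    · rw [← map_pow]
      have : (x : NT) ^ 2 ^ k' = 1 := congrArg Subtype.val hx2
      rw [this, map_one]
    · apply Subgroup.mem_normalizer_fintype
      rintro _ ⟨_, ⟨w, hw, rfl⟩, rfl⟩
      refine ⟨((x * w * x⁻¹ : K) : NT), ⟨x * w * x⁻¹, ?_, rfl⟩, ?_⟩
      · exact (Subgroup.mem_normalizer_iff.1 hxN w).1 hw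
      · rfl
    · rintro _ ⟨a, ha, rfl⟩
      rw [← map_pow, ← map_mul, ← map_mul]
      congr 1
      exact Subtype.ext (Subgroup.mem_centralizer_iff.1 hy3 a ha).symm
    · rintro _ ⟨a, ha, rfl⟩
      rw [← map_inv, ← map_mul, ← map_mul, ← map_mul, ← map_mul, ← map_mul]
      congr 1
      exact Subtype.ext (Subgroup.mem_centralizer_iff.1 hxy3 a ha).symm
    · by_contra hcon
      push Not at hcon
      -- then `y` centralizes `T`
      have hyord : ∃ i, orderOf (((y : K) : NT) : G) = 3 ^ i := by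
        obtain ⟨i, hi⟩ := (IsPGroup.iff_orderOf.1 hPp) ⟨y, hyP⟩
        refine ⟨i, ?_⟩
        rw [← hi, Subgroup.orderOf_coe, Subgroup.orderOf_coe]
        exact (Subgroup.orderOf_mk y hyP).symm
      obtain ⟨i, hi⟩ := hyord
      refine absurd (Cfsg.Agent.Cop.le_centralizer_of_frattini (A := Subgroup.zpowers (((y : K) : NT) : G)) (K := T) ?_ ?_ ?_) ?_
      rotate_left 3
      · intro hc
        have h1 : (y : NT) ∈ CT := hc (Subgroup.mem_zpowers _)
        have h2 : zb = 1 := by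
          rw [← hπy]
          exact (QuotientGroup.eq_one_iff _).2 h1
        rw [h2, orderOf_one] at hz
        exact absurd hz (by norm_num)
      · exact Subgroup.zpowers_le.2 (y : NT).2
      · rw [Nat.card_zpowers, hi]
        obtain ⟨j, hj⟩ := IsPGroup.iff_card.1 (hT2.to_subgroup (frattini T))
        rw [hj]
        exact Nat.Coprime.pow _ _ (by norm_num)
      · rintro _ ⟨n, rfl⟩ t ht
        -- all powers act trivially
        have htN : t ∈ NT := Subgroup.le_normalizer ht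
        have h1 : q y * q ⟨t, htN⟩ = q ⟨t, htN⟩ * q y := by
          have := hcon (q ⟨t, htN⟩) ⟨⟨t, htN⟩, ht, rfl⟩
          exact mul_inv_eq_iff_eq_mul.1 this
        have h2 : Commute (q y) (q ⟨t, htN⟩) := h1
        have h3 := (h2.zpow_left n).eq
        rw [← map_zpow, ← map_mul, ← map_mul] at h3
        have h4 : q (((y : NT) ^ n) * ⟨t, htN⟩ * ((y : NT) ^ n)⁻¹ * (⟨t, htN⟩ : NT)⁻¹) = 1 := by
          rw [map_mul, map_mul, h3, map_mul, map_inv, map_inv]
          group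
        have h5 : (((y : NT) ^ n) * ⟨t, htN⟩ * ((y : NT) ^ n)⁻¹ * (⟨t, htN⟩ : NT)⁻¹) ∈ D₀ :=
          (QuotientGroup.eq_one_iff _).1 h4
        exact h5
  exact involves_of_subgroup (involves_of_surj hfin q hq)


/-- For a finite group G, the symmetric group of degree 4 is involved in G if and only if there is a 2-subgroup T of G such that the symmetric group of degree 3 is involved in N(T)/C(T). -/
theorem result {G : Type*} [Group G] [Finite G] : Cfsg.Involves (Equiv.Perm (Fin 4)) G ↔ ∃ T : Subgroup G, IsPGroup 2 ↥T ∧ Cfsg.Involves (Equiv.Perm (Fin 3)) (↥(Subgroup.normalizer (T : Set G)) ⧸ (Subgroup.centralizer (T : Set G)).subgroupOf (Subgroup.normalizer (T : Set G))) := by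

  exact ⟨forward, fun ⟨T, hT2, h⟩ => backward T hT2 h⟩

end Cfsg.Agent.S2759
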