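import Cfsg.Statements.S0079
import Cfsg.Agent.Transfer.Frobenius

set_option autoImplicit false
open Cfsg

namespace Cfsg.Agent.S0079

/-- A nilpotent Hall subgroup has a normal complement exactly when elements of it that are conjugate in the whole group are already conjugate inside it. -/
theorem result {G : Type*} [Group G] [Finite G] (H : Subgroup G) (hH : Group.IsNilpotent H) (hHall : Nat.Coprime (Nat.card H) H.index) : (∃ N : Subgroup G, N.Normal ∧ N.IsComplement' H) ↔ ∀ x ∈ H, ∀ y ∈ H, (∃ g : G, g * x * g⁻¹ = y) → ∃ h ∈ H, h * x * h⁻¹ = y := by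
  constructor
  · rintro ⟨N, hN, hc⟩ x hx y hy ⟨g, hg⟩
    have h1 : g ∈ N ⊔ H := by rw [hc.sup_eq_top]; trivial
    rw [Subgroup.mem_sup_of_normal_left] at h1
    obtain ⟨n, hn, h, hh, rfl⟩ := h1
    refine ⟨h, hh, ?_⟩
    have h2 : h * x * h⁻¹ ∈ H := mul_mem (mul_mem hh hx) (inv_mem hh)
    have h3 : y * (h * x * h⁻¹)⁻¹ ∈ N ⊓ H := by
      refine ⟨?_, mul_mem hy (Subgroup.inv_mem _ h2)⟩
      have : y * (h * x * h⁻¹)⁻¹ = n * ((h * x * h⁻¹) * n⁻¹ * (h * x * h⁻¹)⁻¹) := by
        rw [← hg]; group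
      change y * (h * x * h⁻¹)⁻¹ ∈ N
      rw [this]
      exact mul_mem hn (hN.conj_mem _ (inv_mem hn) _)
    rw [disjoint_iff.1 hc.disjoint, Subgroup.mem_bot, mul_inv_eq_one] at h3
    exact h3.symm
  · intro h
    apply Transfer.exists_normal_complement_of_forall_hasNPC hHall
    intro q hq hqH
    have : Fact q.Prime := ⟨hq⟩
    apply Transfer.hasNPC_of_nilpotent_hall hH hHall hqH
    intro x hx g hg
    exact h x hx _ hg ⟨g, rfl⟩

end Cfsg.Agent.S0079
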