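import Cfsg.Statements.S4502
import Cfsg.Agent.S4696
import Cfsg.Agent.S0920
import Cfsg.Agent.H34.McK1
import Cfsg.Agent.H79.HeightPS
import Cfsg.Agent.H4.MajorEx
import Cfsg.Agent.BlkInd.ModInd
import Cfsg.Agent.BlkInd.DefectApp2
import Cfsg.Agent.BlkInd.FirstMain
import Cfsg.Agent.Glaub.PGroup
import Cfsg.Agent.CharBase.Column

set_option autoImplicit false
open Cfsg

namespace Cfsg.Agent.S4502

open Cfsg.Agent

universe u

variable {G : Type u} [Group G] [Fintype G] {p : ℕ} [hp : Fact p.Prime] {M : Ideal AlgInt}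

/-- blocks of full defect -/
def FB (p : ℕ) (M : Ideal AlgInt) (P : Subgroup G) : Set (Set (IrrCharacter G)) :=
  {B | IsPBlock M B ∧ IsDefectGroup p M B P}

theorem exists_T (c : Subgroup G) (P : Subgroup G) (hc : c = Subgroup.centralizer (P : Set G))
    {b : Set (IrrCharacter c)} (hM : IsPModular p M) (hb : IsPBlock M b) :
    ∃ T : Subgroup G, ∀ g : G, g ∈ T ↔ (g ∈ Subgroup.normalizer (P : Set G) ∧ ∀ θ ∈ b,
      ∀ θ' : IrrCharacter c, (∀ h h' : c, (h' : G) = g * h * g⁻¹ →
        (θ' : c → ℂ) h' = (θ : c → ℂ) h) → θ' ∈ b) := by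
  classical
  haveI := Blk.isPrime_of_isPModular hM
  subst hc
  refine ⟨Blk.stab (Subgroup.normalizer (P : Set G)) (Blk.EB M _ b), fun g => ?_⟩
  constructor
  · rintro ⟨h1, h2⟩
    refine ⟨h1, (CycG.stabilizesBlock_iff' rfl h1).1 ?_⟩
    rw [Blk.stabilizesBlock_iff (M := M) hb]
    exact ⟨Blk.normalizer_le_normalizer_centralizer P h1, h2⟩
  · rintro ⟨h1, h2⟩
    have h3 := (CycG.stabilizesBlock_iff' rfl h1).2 h2
    rw [Blk.stabilizesBlock_iff (M := M) hb] at h3
    exact ⟨h1, h3.2⟩

theorem card_block {P : Subgroup G} (hM : IsPModular p M) (hP : Nat.card P = p)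
    {B : Set (IrrCharacter G)} (hB : IsPBlock M B) (hBD : IsDefectGroup p M B P)
    {b : Set (IrrCharacter (Subgroup.centralizer (P : Set G)))}
    (hind : IsInducedBlock M (Subgroup.centralizer (P : Set G)) b B)
    {T : Subgroup G} (hT : ∀ g : G, g ∈ T ↔ (g ∈ Subgroup.normalizer (P : Set G) ∧ ∀ θ ∈ b,
      ∀ θ' : IrrCharacter (Subgroup.centralizer (P : Set G)),
        (∀ h h' : Subgroup.centralizer (P : Set G), (h' : G) = g * h * g⁻¹ →
        (θ' : Subgroup.centralizer (P : Set G) → ℂ) h' =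
          (θ : Subgroup.centralizer (P : Set G) → ℂ) h) → θ' ∈ b)) :
    Nat.card B = (Subgroup.centralizer (P : Set G)).relIndex T +
      (p - 1) / (Subgroup.centralizer (P : Set G)).relIndex T := by
  classical
  haveI := Fintype.ofFinite (IrrCharacter G)
  have hcyc : IsCyclic P := isCyclic_of_prime_card hP
  obtain ⟨-, -, X, Y, hXY, hdisj, hX, hY, -⟩ := S4696.result p M hM P hcyc 1 le_rfl
    (by rw [hP, pow_one]) B hB hBD b hind T hT _ rfl
  rw [hXY, Nat.card_coe_set_eq, Set.ncard_union_eq hdisj (Set.toFinite _) (Set.toFinite _),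
    ← Nat.card_coe_set_eq, ← Nat.card_coe_set_eq, hX, hY, pow_one]

theorem height_zero {P : Subgroup G} (hM : IsPModular p M) (hP : Nat.card P = p)
    (hsq : ¬ p ^ 2 ∣ Nat.card G) (hdiv : p ∣ Nat.card G)
    {B : Set (IrrCharacter G)} (hB : IsPBlock M B) (hBD : IsDefectGroup p M B P)
    {χ : IrrCharacter G} (hχ : χ ∈ B) : ¬ p ∣ charDegree (χ : G → ℂ) := by
  classical
  haveI := Blk.isPrime_of_isPModular hM
  obtain ⟨b, hind⟩ := H4.exists_root hM hB hBD
  obtain ⟨T, hT⟩ := exists_T (Subgroup.centralizer (P : Set G)) P rfl hM hind.1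
  have hcyc : IsCyclic P := isCyclic_of_prime_card hP
  obtain ⟨-, hz, -⟩ := S4696.result p M hM P hcyc 1 le_rfl
    (by rw [hP, pow_one]) B hB hBD b hind T hT _ rfl
  have h1 := hz χ hχ
  have h2 := BlkInd.card_defectGroup hM hB hBD
  have hpp := hp.out
  have h3 : blockDefect p B = 1 := by
    rw [hP] at h2
    have : p ^ 1 = p ^ blockDefect p B := by rw [pow_one]; exact h2
    exact (Nat.pow_right_injective hpp.two_le this).symm
  have h4 : (Nat.card G).factorization p = 1 := by
    have hne : Nat.card G ≠ 0 := Nat.card_pos.ne'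
    have h5 : 1 ≤ (Nat.card G).factorization p := by
      exact (hpp.dvd_iff_one_le_factorization hne).1 hdiv
    have h6 : ¬ 2 ≤ (Nat.card G).factorization p := by
      intro h
      exact hsq ((hpp.pow_dvd_iff_le_factorization hne).2 h)
    omega
  unfold blockHeight at h1
  unfold blockDefect at h3
  intro hdvd
  have h7 : charDegree (χ : G → ℂ) ≠ 0 := (BlkC.charDegree_pos χ).ne'
  have h8 := (hpp.dvd_iff_one_le_factorization h7).1 hdvd
  omega

/-- blocks of characters of degree prime to `p` have full defect group -/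
theorem defect_of_mem {P : Sylow p G} (hM : IsPModular p M) (hP : Nat.card (P : Subgroup G) = p)
    {χ : IrrCharacter G} (hχ : ¬ p ∣ charDegree (χ : G → ℂ)) :
    IsDefectGroup p M (blockOf M (χ : G → ℂ)) (P : Subgroup G) := by
  classical
  haveI := Blk.isPrime_of_isPModular hM
  have hpp := hp.out
  have hB : IsPBlock M (blockOf M (χ : G → ℂ)) := ⟨χ, rfl⟩
  obtain ⟨D, hD⟩ := BlkInd.exists_defectGroup hM hB
  have h1 := BlkInd.card_defectGroup hM hB hD
  have h2 : Nat.card (P : Subgroup G) = p ^ (Nat.card G).factorization p := P.card_eq_multiplicity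
  have h3 : sInf ((fun ψ : IrrCharacter G => (charDegree (ψ : G → ℂ)).factorization p) ''
      (blockOf M (χ : G → ℂ))) = 0 := by
    rw [Nat.sInf_eq_zero]
    left
    exact ⟨χ, Blk.mem_blockOf_self χ, Nat.factorization_eq_zero_of_not_dvd hχ⟩
  have h4 : Nat.card D = Nat.card (P : Subgroup G) := by
    rw [h1, h2]
    unfold blockDefect
    rw [h3, Nat.sub_zero]
  have h5 : Nat.card D = p ^ (Nat.card G).factorization p := by rw [h4, h2]
  obtain ⟨x, hx⟩ := MulAction.exists_smul_eq G (Sylow.ofCard D h5) P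
  have h6 := BlkInd.isDefectGroup_conj hD x
  have h7 : D.map (MulAut.conj x).toMonoidHom = (P : Subgroup G) := by
    rw [← hx]
    rfl
  rwa [h7] at h6

theorem card_pprime {P : Sylow p G} (hM : IsPModular p M) (hP : Nat.card (P : Subgroup G) = p)
    (hsq : ¬ p ^ 2 ∣ Nat.card G) (hdiv : p ∣ Nat.card G) :
    Nat.card {χ : IrrCharacter G // ¬ p ∣ charDegree (χ : G → ℂ)} =
      Nat.card (Σ B : FB p M (P : Subgroup G), (B : Set (IrrCharacter G))) := by
  classical
  haveI := Blk.isPrime_of_isPModular hM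
  symm
  refine Nat.card_eq_of_bijective (fun x : (Σ B : FB p M (P : Subgroup G), (B : Set (IrrCharacter G))) =>
    (⟨x.2.1, height_zero hM hP hsq hdiv x.1.2.1 x.1.2.2 x.2.2⟩ :
      {χ : IrrCharacter G // ¬ p ∣ charDegree (χ : G → ℂ)})) ⟨?_, ?_⟩
  · rintro ⟨⟨B, hB⟩, ⟨χ, hχ⟩⟩ ⟨⟨B', hB'⟩, ⟨χ', hχ'⟩⟩ h
    have h1 : χ = χ' := congrArg Subtype.val h
    subst h1
    have h2 : B = B' := Blk.isPBlock_eq_of_mem hB.1 hB'.1 hχ hχ'
    subst h2
    rfl
  · rintro ⟨χ, hχ⟩
    exact ⟨⟨⟨blockOf M (χ : G → ℂ), ⟨χ, rfl⟩, defect_of_mem hM hP hχ⟩, ⟨χ, Blk.mem_blockOf_self χ⟩⟩, rfl⟩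

/-- the block of the normalizer and the induced block have the same number of characters -/
theorem card_eq_of_induced {P N : Subgroup G} (hM : IsPModular p M) (hP : Nat.card P = p)
    (hN : N = Subgroup.normalizer (P : Set G))
    {b : Set (IrrCharacter N)} (hb : IsPBlock M b)
    (hbD : IsDefectGroup p M b (P.subgroupOf N))
    {B : Set (IrrCharacter G)} (hB : IsPBlock M B) (hBD : IsDefectGroup p M B P)
    (hind : IsInducedBlock M N b B) :
    Nat.card B = Nat.card b := by
  classical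
  haveI := Blk.isPrime_of_isPModular hM
  haveI : Fintype N := Fintype.ofFinite _
  have hle : P ≤ N := by rw [hN]; exact Subgroup.le_normalizer
  obtain ⟨P', hP'⟩ : ∃ P' : Subgroup N, P' = P.subgroupOf N := ⟨_, rfl⟩
  rw [← hP'] at hbD
  have hcP' : Nat.card P' = p := by
    rw [hP', Nat.card_congr (Subgroup.subgroupOfEquivOfLe hle).toEquiv, hP]
  obtain ⟨C', hC'⟩ : ∃ C' : Subgroup N, C' = Subgroup.centralizer (P' : Set N) := ⟨_, rfl⟩
  obtain ⟨C, hC⟩ : ∃ C : Subgroup G, C = Subgroup.centralizer (P : Set G) := ⟨_, rfl⟩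
  have hroot := H4.exists_root hM hb hbD
  rw [← hC'] at hroot
  obtain ⟨c, hc⟩ := hroot
  haveI : Fintype C' := Fintype.ofFinite _
  haveI : Fintype C := Fintype.ofFinite _
  have hCN : C ≤ N := by
    rw [hC, hN]; exact Subgroup.centralizer_le_normalizer _
  have hmap : C'.map N.subtype = C := by
    ext x
    rw [Subgroup.mem_map]
    constructor
    · rintro ⟨y, hy, rfl⟩
      rw [hC, Subgroup.mem_centralizer_iff]
      intro z hz
      rw [hC', Subgroup.mem_centralizer_iff] at hy
      have h1 := hy ⟨z, hle hz⟩ (by rw [SetLike.mem_coe, hP', Subgroup.mem_subgroupOf]; exact hz)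
      exact congrArg Subtype.val h1
    · intro hx
      refine ⟨⟨x, hCN hx⟩, ?_, rfl⟩
      rw [hC', Subgroup.mem_centralizer_iff]
      rintro ⟨z, hz⟩ hz'
      rw [SetLike.mem_coe, hP', Subgroup.mem_subgroupOf] at hz'
      rw [hC, Subgroup.mem_centralizer_iff] at hx
      apply Subtype.ext
      exact hx z hz'
  obtain ⟨φ, hφ⟩ : ∃ φ : C' ≃* C, ∀ x : C', ((φ x : C) : G) = ((x : N) : G) := by
    have hinj : Function.Injective N.subtype := N.subtype_injective
    refine ⟨(C'.equivMapOfInjective N.subtype hinj).trans (MulEquiv.subgroupCongr hmap), fun x => ?_⟩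
    rfl
  have hcB : IsInducedBlock M C (Blk.irrMap φ '' c) B :=
    (BlkInd.isInducedBlock_trans_iff φ hφ hc).2 hind
  obtain ⟨T, hT⟩ := exists_T C P hC hM hcB.1
  obtain ⟨T', hT'⟩ := exists_T C' P' hC' hM hc.1
  have hTmap : T'.map N.subtype = T := by
    ext g
    rw [Subgroup.mem_map, hT]
    have hφs : ∀ y : C, (((φ.symm y : C') : N) : G) = (y : G) := by
      intro y
      rw [← hφ, φ.apply_symm_apply]
    constructor
    · rintro ⟨g', hg', rfl⟩
      have hg := ((hT' g').1 hg').2
      refine ⟨by rw [← hN]; exact g'.2, ?_⟩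
      rintro θ ⟨ξ, hξ, rfl⟩ θ' hθ'
      refine ⟨(Blk.irrMap φ).symm θ', ?_, Equiv.apply_symm_apply _ _⟩
      refine hg ξ hξ _ ?_
      intro h h' hh
      have h1 := hθ' (φ h) (φ h') (by
        rw [hφ, hφ, hh]; rfl)
      rw [Blk.irrMap_apply, φ.symm_apply_apply] at h1
      exact h1
    · rintro ⟨hgN, hg⟩
      rw [← hN] at hgN
      refine ⟨⟨g, hgN⟩, ?_, rfl⟩
      rw [hT']
      refine ⟨?_, ?_⟩
      · have : P'.Normal := by
          subst hN
          rw [hP']
          exact Subgroup.normal_in_normalizer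
        rw [Subgroup.normalizer_eq_top_iff.2 this]
        trivial
      · intro θ hθ θ' hθ'
        have h1 := hg (Blk.irrMap φ θ) ⟨θ, hθ, rfl⟩ (Blk.irrMap φ θ') (by
          intro h h' hh
          rw [Blk.irrMap_apply, Blk.irrMap_apply]
          apply hθ'
          apply Subtype.ext
          show (((φ.symm h' : C') : N) : G) = g * (((φ.symm h : C') : N) : G) * g⁻¹
          rw [hφs, hφs, hh])
        obtain ⟨θ₁, h2, h3⟩ := h1
        rwa [← (Blk.irrMap φ).injective h3]
  have e1 : Nat.card B = C.relIndex T + (p - 1) / C.relIndex T := by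
    subst hC
    exact card_block hM hP hB hBD hcB hT
  have e2 : Nat.card b = C'.relIndex T' + (p - 1) / C'.relIndex T' := by
    subst hC'
    exact card_block hM hcP' hb hbD hc hT'
  have e3 : C.relIndex T = C'.relIndex T' := by
    rw [← hmap, ← hTmap, Subgroup.relIndex_map_map_of_injective _ _ N.subtype_injective]
  rw [e1, e2, e3]

theorem main (hM : IsPModular p M) (hdiv : p ∣ Nat.card G) (hsq : ¬ p ^ 2 ∣ Nat.card G)
    (P : Sylow p G) :
    Nat.card {χ : IrrCharacter G // ¬ p ∣ charDegree (χ : G → ℂ)} =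
      Nat.card (ConjClasses (Subgroup.normalizer ((P : Subgroup G) : Set G))) := by
  classical
  haveI := Blk.isPrime_of_isPModular hM
  have hpp := hp.out
  haveI : Fintype (Subgroup.normalizer ((P : Subgroup G) : Set G)) := Fintype.ofFinite _
  have hP : Nat.card (P : Subgroup G) = p := by
    have h2 : Nat.card (P : Subgroup G) = p ^ (Nat.card G).factorization p := P.card_eq_multiplicity
    have hne : Nat.card G ≠ 0 := Nat.card_pos.ne'
    have h5 : 1 ≤ (Nat.card G).factorization p := (hpp.dvd_iff_one_le_factorization hne).1 hdiv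
    have h6 : ¬ 2 ≤ (Nat.card G).factorization p := by
      intro h
      exact hsq ((hpp.pow_dvd_iff_le_factorization hne).2 h)
    have h7 : (Nat.card G).factorization p = 1 := by omega
    rw [h2, h7, pow_one]
  have hle : (P : Subgroup G) ≤ Subgroup.normalizer ((P : Subgroup G) : Set G) := Subgroup.le_normalizer
  set N : Subgroup G := Subgroup.normalizer ((P : Subgroup G) : Set G) with hN
  let P' : Sylow p N := P.subtype hle
  have hPP' : (P' : Subgroup N) = (P : Subgroup G).subgroupOf N := rfl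
  have hcP' : Nat.card (P' : Subgroup N) = p := by
    rw [hPP', Nat.card_congr (Subgroup.subgroupOfEquivOfLe hle).toEquiv, hP]
  haveI hnorm : (P' : Subgroup N).Normal := by
    rw [hPP', hN]; exact Subgroup.normal_in_normalizer
  have hsqN : ¬ p ^ 2 ∣ Nat.card N := fun h => hsq (h.trans (Subgroup.card_subgroup_dvd_card N))
  have hdivN : p ∣ Nat.card N := by
    rw [← hcP']; exact Subgroup.card_subgroup_dvd_card _
  have hidx : ¬ p ∣ (P' : Subgroup N).index := Sylow.not_dvd_index P'
  have hcomm : ∀ a ∈ (P' : Subgroup N), ∀ b ∈ (P' : Subgroup N), a * b = b * a := by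
    haveI : IsCyclic (P' : Subgroup N) := isCyclic_of_prime_card hcP'
    exact Star.comm_of_isCyclic this
  have hN1 := H34.McK.nl_of_abelian (ℓ := p) (P' : Subgroup N) hcomm hidx
  rw [← hN1, H34.McK.nl, card_pprime (M := M) (P := P) hM hP hsq hdiv,
    card_pprime (M := M) (P := P') hM hcP' hsqN hdivN]
  obtain ⟨f1, f2⟩ := S0920.result p M hM (P : Subgroup G) P.isPGroup'
  haveI : Finite (Set (IrrCharacter G)) := inferInstance
  haveI : Fintype (FB p M (P : Subgroup G)) := Fintype.ofFinite _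
  haveI : Fintype (FB p M (P' : Subgroup N)) := Fintype.ofFinite _
  rw [Nat.card_sigma, Nat.card_sigma]
  choose g hg hgu using f2
  have hbij : Function.Bijective (fun B : FB p M (P : Subgroup G) =>
      (⟨g B.1 B.2.1 B.2.2, (hg B.1 B.2.1 B.2.2).1, (hg B.1 B.2.1 B.2.2).2.1⟩ : FB p M (P' : Subgroup N))) := by
    constructor
    · rintro ⟨B, hB, hBD⟩ ⟨B', hB', hBD'⟩ h
      have h1 : g B hB hBD = g B' hB' hBD' := congrArg Subtype.val h
      have h2 := (hg B hB hBD).2.2
      have h3 := (hg B' hB' hBD').2.2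
      rw [← h1] at h3
      exact Subtype.ext (H79.induced_unique h2 h3)
    · rintro ⟨b, hb, hbD⟩
      obtain ⟨B, hB, hBD, hi⟩ := f1 b hb hbD
      refine ⟨⟨B, hB, hBD⟩, Subtype.ext ?_⟩
      exact (hgu B hB hBD b ⟨hb, hbD, hi⟩).symm
  refine Fintype.sum_equiv (Equiv.ofBijective _ hbij) _ _ ?_
  rintro ⟨B, hB, hBD⟩
  exact card_eq_of_induced hM hP hN (hg B hB hBD).1 (hg B hB hBD).2.1 hB hBD (hg B hB hBD).2.2

/-- Let G be a finite group whose order is divisible by the prime p exactly once, and let P be a Sylow p-subgroup. Then the number of irreducible characters of G of degree not divisible by p equals the number of conjugacy classes of the normalizer of P. -/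
theorem result {G : Type*} [Group G] [Finite G] (p : ℕ) [Fact p.Prime] (hdiv : p ∣ Nat.card G) (hsq : ¬ p ^ 2 ∣ Nat.card G) (P : Sylow p G) : Nat.card {χ : Cfsg.IrrCharacter G // ¬ p ∣ Cfsg.charDegree (χ : G → ℂ)} = Nat.card (ConjClasses (Subgroup.normalizer ((P : Subgroup G) : Set G))) := by
  classical
  haveI := Fintype.ofFinite G
  obtain ⟨M, hM⟩ := Glaub.exists_isPModular (Fact.out : p.Prime)
  exact main hM hdiv hsq P

end Cfsg.Agent.S4502
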