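import Cfsg.Statements.S5421
import Cfsg.Agent.H90.Large

set_option autoImplicit false
open Cfsg

namespace Cfsg.Agent.S5421

/-- Let Q be an extraspecial 2-subgroup of the finite group G whose centralizer in G is its centre Z and which is normal in the centralizer of Z. If some involution b of Q outside Z has Z inside the largest normal 2-subgroup of the centralizer of b, then Q is a large extraspecial 2-subgroup of G. -/
theorem result {G : Type*} [Group G] [Finite G] (Q : Subgroup G) (hL1 : Cfsg.IsExtraspecial 2 ↥Q) (hL2 : Subgroup.centralizer (Q : Set G) = ((Subgroup.center ↥Q).map Q.subtype)) (hL3 : Subgroup.centralizer (((Subgroup.center ↥Q).map Q.subtype) : Set G) ≤ Subgroup.normalizer (Q : Set G)) (b : G) (hbQ : b ∈ Q) (hbZ : b ∉ ((Subgroup.center ↥Q).map Q.subtype)) (hb : orderOf b = 2) (hZ : ((Subgroup.center ↥Q).map Q.subtype) ≤ (Cfsg.pCore 2 ↥(Subgroup.centralizer ({b} : Set G))).map (Subgroup.centralizer ({b} : Set G)).subtype)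 : Cfsg.IsLargeExtraspecial Q := by
  obtain ⟨z, h, hz⟩ := H90.PL.of_isExtraspecial hL1 hL2 hL3
  rw [hz] at hbZ hZ
  refine h.isLarge hL1 ?_
  intro K hK hQK
  have hb2 : b * b = 1 := by rw [← pow_two, ← hb, pow_orderOf_eq_one]
  have hb1 : b ≠ 1 := by
    intro h1; rw [h1, orderOf_one] at hb; omega
  have hbz : b ≠ z := by
    intro h1; apply hbZ; rw [h1]; exact Subgroup.mem_zpowers z
  have hCz := h.inf_centralizer_eq_one K hK hQK
  have hCb : ∀ k ∈ K, k * b = b * k → k = 1 := by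
    intro k hk hkb
    apply hCz k hk
    obtain ⟨⟨z', hz'⟩, hzO, hzz⟩ := hZ (Subgroup.mem_zpowers z)
    simp only [Subgroup.coe_subtype] at hzz
    subst hzz
    have hkC : k ∈ Subgroup.centralizer ({b} : Set G) := by
      rw [Subgroup.mem_centralizer_singleton_iff]; exact hkb
    have h1 : (⟨k, hkC⟩ : Subgroup.centralizer ({b} : Set G)) * ⟨z', hz'⟩ * ⟨k, hkC⟩⁻¹ * ⟨z', hz'⟩⁻¹ ∈
        Cfsg.pCore 2 ↥(Subgroup.centralizer ({b} : Set G)) :=
      Subgroup.mul_mem _ ((inferInstance : (Cfsg.pCore 2 _).Normal).conj_mem _ hzO _)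
        (Subgroup.inv_mem _ hzO)
    have h2 : k * z' * k⁻¹ * z'⁻¹ ∈ K := by
      have : k * (z' * k⁻¹ * z'⁻¹) ∈ K := K.mul_mem hk (hQK z' h.mem _ (K.inv_mem hk))
      convert this using 1; group
    obtain ⟨n, hn⟩ := H90.isPGroup_pCore 2 _ ⟨_, h1⟩
    have h3 := H90.eq_one_of_mem_odd_of_pow hK h2 (n := n) (by
      have := congrArg (fun t => ((Subtype.val t : Subgroup.centralizer ({b} : Set G)) : G)) hn
      simpa using this)
    rw [mul_inv_eq_one, mul_inv_eq_iff_eq_mul] at h3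
    exact h3
  have hib := H90.inverts_of_fpf K b hb2 (hQK b hbQ) (fun k hk h1 => hCb k hk h1.symm)
  have hiz := H90.inverts_of_fpf K z h.sq (hQK z h.mem) (fun k hk h1 => hCz k hk h1.symm)
  obtain ⟨q, hq, hqb⟩ := h.exists_conj hbQ hb1 hbz
  intro k hk
  have hbi : b⁻¹ = b := inv_eq_of_mul_eq_one_left hb2
  have h1 : (b * z) * k * (b * z)⁻¹ = k := by
    calc (b * z) * k * (b * z)⁻¹ = b * (z * k * z⁻¹) * b⁻¹ := by group
      _ = b * k⁻¹ * b⁻¹ := by rw [hiz k hk]
      _ = k := by rw [hib _ (K.inv_mem hk), inv_inv]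
  rw [← hqb] at h1
  have h2 : q⁻¹ * k * q ∈ K := by
    have := hQK q⁻¹ (Q.inv_mem hq) k hk
    simpa using this
  have h3 : q⁻¹ * k * q = 1 := by
    apply hCb _ h2
    have h4 : q⁻¹ * (q * b * q⁻¹ * k * (q * b * q⁻¹)⁻¹) * q * b = q⁻¹ * k * q * b := by rw [h1]
    rw [← h4]; group
  have h5 : q * (q⁻¹ * k * q) * q⁻¹ = 1 := by rw [h3]; simp
  have h6 : q * (q⁻¹ * k * q) * q⁻¹ = k := by group
  rw [← h6, h5]

end Cfsg.Agent.S5421
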