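import Cfsg.Statements.S0014
import Cfsg.Agent.Solv.Frattini

set_option autoImplicit false
open Cfsg

namespace Cfsg.Agent.S0014

/-- Burnside's basis Theorem: in a finite p-group whose Frattini quotient has order p ^ n, every generating set contains n elements that already generate, and no set with fewer than n elements generates. -/
theorem result {G : Type*} [Group G] [Finite G] (p n : ℕ) [Fact p.Prime]
    (hG : IsPGroup p G) (hn : (frattini G).index = p ^ n) :
    (∀ S : Finset G, Subgroup.closure (S : Set G) = ⊤ → ∃ T : Finset G, T ⊆ S ∧ T.card = n ∧ Subgroup.closure (T : Set G) = ⊤) ∧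
    (∀ T : Finset G, Subgroup.closure (T : Set G) = ⊤ → n ≤ T.card) := by
  classical
  constructor
  · intro S hS
    obtain ⟨⟨T, hTS, hT, hT1⟩, -⟩ := Cfsg.Agent.Solv.burnside_basis hG hn (S : Set G) hS
    have hTf : T.Finite := Set.toFinite T
    refine ⟨hTf.toFinset, ?_, ?_, ?_⟩
    · intro x hx
      exact hTS (hTf.mem_toFinset.mp hx)
    · rw [← hT, Set.ncard_eq_toFinset_card T hTf]
    · rw [hTf.coe_toFinset]; exact hT1
  · intro T hT
    have h := (Cfsg.Agent.Solv.burnside_basis hG hn (T : Set G) hT).2
    rwa [Set.ncard_coe_finset] at h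

end Cfsg.Agent.S0014
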