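import Cfsg.Statements.S0020
import Cfsg.Agent.H30.SylSys
import Cfsg.Agent.S0003

set_option autoImplicit false
open Pointwise
open Cfsg

namespace Cfsg.Agent.S0020

theorem exists_complement {G : Type*} [Group G] [Finite G] [Group.IsSolvable G] (p : ℕ) (hp : p.Prime) :
    ∃ H : Subgroup G, H.index = p ^ (Nat.card G).factorization p := by
  have hG0 : Nat.card G ≠ 0 := Nat.card_pos.ne'
  have h1 : Nat.card G = (Nat.card G / p ^ (Nat.card G).factorization p) * p ^ (Nat.card G).factorization p :=
    (Nat.div_mul_cancel (Nat.ordProj_dvd _ _)).symm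
  have h2 : (Nat.card G / p ^ (Nat.card G).factorization p).Coprime (p ^ (Nat.card G).factorization p) :=
    Nat.Coprime.pow_right _ (Nat.coprime_ordCompl hp hG0).symm
  obtain ⟨H, hH⟩ := Cfsg.Agent.S0003.result _ _ h1 h2
  refine ⟨H, ?_⟩
  have h3 := H.index_mul_card
  rw [hH] at h3
  have h4 : 0 < Nat.card G / p ^ (Nat.card G).factorization p := by
    rw [← hH]; exact Nat.card_pos
  apply Nat.eq_of_mul_eq_mul_right h4
  rw [h3, mul_comm]
  exact h1

/-- A finite solvable group admits a Sylow system: Sylow subgroups, one for each prime, that pairwise permute as sets. -/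
theorem result {G : Type*} [Group G] [Finite G] [Group.IsSolvable G] :
    ∃ S : (p : Nat.Primes) → Sylow (p : ℕ) G,
      ∀ p q : Nat.Primes, (S p : Set G) * (S q : Set G) = (S q : Set G) * (S p : Set G) := by
  classical
  choose! K hK using (fun p hp => exists_complement (G := G) p hp)
  obtain ⟨S, -, hS⟩ := Cfsg.Agent.H30.exists_sylow_system K hK
  exact ⟨S, hS⟩

end Cfsg.Agent.S0020
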