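import Cfsg.Statements.S0204
import Cfsg.Agent.FT.Base
import Cfsg.Agent.S0215

set_option autoImplicit false
open Cfsg

namespace Cfsg.Agent.S0204

/-- A non-cyclic finite simple group contains a subgroup which is a Klein four-group; this combines the Odd Order Theorem, Burnside's transfer argument for cyclic Sylow 2-subgroups and the Brauer–Suzuki Theorem. -/
theorem result {G : Type*} [Group G] [Finite G] [IsSimpleGroup G] (hG : ¬ IsCyclic G) : ∃ E : Subgroup G, IsKleinFour E := by
  classical
  haveI : Fact (Nat.Prime 2) := ⟨Nat.prime_two⟩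
  have hnab : ¬ IsMulCommutative G := by
    intro h
    apply hG
    haveI := h
    let _ : CommGroup G := { (inferInstance : Group G) with mul_comm := fun a b => h.1.1 a b }
    exact IsSimpleGroup.isCyclic
  have heven : 2 ∣ Nat.card G := FT.even_of_simple hnab
  by_contra hcon
  push Not at hcon
  -- two commuting involutions are equal
  have hcomm : ∀ a b : G, orderOf a = 2 → orderOf b = 2 → a * b = b * a → a = b := by
    intro a b ha hb hab
    by_contra hne
    have ha2 : a * a = 1 := by rw [← pow_two, ← ha]; exact pow_orderOf_eq_one a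
    have hb2 : b * b = 1 := by rw [← pow_two, ← hb]; exact pow_orderOf_eq_one b
    have ha1 : a ≠ 1 := by rintro rfl; rw [orderOf_one] at ha; norm_num at ha
    have hb1 : b ≠ 1 := by rintro rfl; rw [orderOf_one] at hb; norm_num at hb
    have hab1 : a * b ≠ 1 := by
      intro h
      apply hne
      calc a = a * (b * b) := by rw [hb2, mul_one]
        _ = (a * b) * b := by group
        _ = b := by rw [h, one_mul]
    let E : Subgroup G :=
      { carrier := {1, a, b, a * b}
        one_mem' := by simp
        mul_mem' := by
          have e1 : a * (a * b) = b := by rw [← mul_assoc, ha2, one_mul]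
          have e2 : b * (a * b) = a := by rw [hab, ← mul_assoc, hb2, one_mul]
          have e3 : a * b * a = b := by rw [hab, mul_assoc, ha2, mul_one]
          have e4 : a * b * b = a := by rw [mul_assoc, hb2, mul_one]
          have e5 : a * b * (a * b) = 1 := by rw [mul_assoc, e2, ha2]
          intro x y hx hy
          simp only [Set.mem_insert_iff, Set.mem_singleton_iff] at hx hy ⊢
          rcases hx with rfl | rfl | rfl | rfl <;> rcases hy with rfl | rfl | rfl | rfl <;>
            simp [ha2, hb2, e1, e2, e3, e4, e5, ← hab]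
        inv_mem' := by
          have ia : a⁻¹ = a := inv_eq_of_mul_eq_one_right ha2
          have ib : b⁻¹ = b := inv_eq_of_mul_eq_one_right hb2
          intro x hx
          simp only [Set.mem_insert_iff, Set.mem_singleton_iff] at hx ⊢
          rcases hx with rfl | rfl | rfl | rfl
          · simp
          · simp [ia]
          · simp [ib]
          · simp [mul_inv_rev, ia, ib, ← hab] }
    have hcard : Nat.card E = 4 := by
      have h1 : (E : Set G) = {1, a, b, a * b} := rfl
      have h2 : Nat.card E = Set.ncard ({1, a, b, a * b} : Set G) := by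
        rw [← h1]; rfl
      rw [h2]
      have h3 : a ≠ a * b := fun h => hb1 (by simpa using h.symm)
      have h4 : b ≠ a * b := fun h => ha1 (by simpa using h.symm)
      rw [Set.ncard_insert_of_notMem, Set.ncard_insert_of_notMem, Set.ncard_pair h4]
      · simp [hne, h3]
      · simp [ha1.symm, hb1.symm, hab1.symm]
    apply hcon E
    refine ⟨hcard, ?_⟩
    refine Nat.dvd_antisymm ?_ ?_
    · apply Monoid.exponent_dvd_of_forall_pow_eq_one
      rintro ⟨x, hx⟩
      apply Subtype.ext
      change x ^ 2 = 1
      have hx' : x = 1 ∨ x = a ∨ x = b ∨ x = a * b := hx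
      rcases hx' with rfl | rfl | rfl | rfl
      · simp
      · rw [pow_two, ha2]
      · rw [pow_two, hb2]
      · rw [(show Commute a b from hab).mul_pow, pow_two, pow_two, ha2, hb2, one_mul]
    · have h5 : orderOf (⟨a, by change a = 1 ∨ a = a ∨ _; right; left; rfl⟩ : E) = 2 := by
        rw [← Subgroup.orderOf_coe]; exact ha
      rw [← h5]
      exact Monoid.order_dvd_exponent _
  obtain ⟨P⟩ : Nonempty (Sylow 2 G) := inferInstance
  have hPnt : Nontrivial P := by
    have h1 : 2 ∣ Nat.card P := P.dvd_card_of_dvd_card heven
    rw [← Finite.one_lt_card_iff_nontrivial]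
    exact lt_of_lt_of_le one_lt_two (Nat.le_of_dvd Nat.card_pos h1)
  have hZ : Nontrivial (Subgroup.center P) := P.2.center_nontrivial
  have hZ2 : 2 ∣ Nat.card (Subgroup.center P) := by
    obtain ⟨n, hn⟩ := IsPGroup.iff_card.1 (P.2.to_subgroup (Subgroup.center P))
    rw [hn]
    rcases n with _ | n
    · rw [pow_zero] at hn
      have := Finite.one_lt_card_iff_nontrivial.2 hZ
      omega
    · exact dvd_pow_self 2 (Nat.succ_ne_zero n)
  obtain ⟨z, hz⟩ := exists_prime_orderOf_dvd_card' 2 hZ2
  have hz2 : orderOf ((z : P) : G) = 2 := by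
    rw [Subgroup.orderOf_coe, Subgroup.orderOf_coe, hz]
  obtain ⟨N, hN, hNodd, hNz⟩ := S0215.result P ((z : P) : G) hz2 (z : P).2 (by
    intro g hg
    have h1 : orderOf (g * ((z : P) : G) * g⁻¹) = 2 := by
      have h0 := (MulAut.conj g).orderOf_eq ((z : P) : G)
      exact h0.trans hz2
    refine hcomm _ _ h1 hz2 ?_
    have h2 := Subgroup.mem_center_iff.1 z.2 ⟨_, hg⟩
    exact congrArg (fun x : P => (x : G)) h2)
  have hN1 : N = ⊥ := by
    rcases hN.eq_bot_or_eq_top with h | h
    · exact h
    · exfalso
      rw [h, Subgroup.card_top] at hNodd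
      exact (Nat.not_even_iff_odd.2 hNodd) (even_iff_two_dvd.2 heven)
  have hzc : ((z : P) : G) ∈ Subgroup.center G := by
    rw [Subgroup.mem_center_iff]
    intro g
    have h1 := hNz g
    rw [hN1, Subgroup.mem_bot, mul_inv_eq_one, mul_inv_eq_iff_eq_mul] at h1
    exact h1.symm
  have hz1 : ((z : P) : G) ≠ 1 := by
    intro h
    rw [h, orderOf_one] at hz2
    norm_num at hz2
  have hctop : Subgroup.center G = ⊤ := by
    rcases (inferInstance : (Subgroup.center G).Normal).eq_bot_or_eq_top with h | h
    · exfalso
      rw [h, Subgroup.mem_bot] at hzc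
      exact hz1 hzc
    · exact h
  apply hnab
  refine ⟨⟨fun a b => ?_⟩⟩
  have : b ∈ Subgroup.center G := by rw [hctop]; trivial
  exact (Subgroup.mem_center_iff.1 this a)

end Cfsg.Agent.S0204
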