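import Cfsg.Statements.S0225
import Cfsg.Agent.H4.Final

set_option autoImplicit false
open Cfsg

namespace Cfsg.Agent.S0225

/-- If a finite group G has even order but contains no Klein four-subgroup (2-rank 1), then some involution z of G is central modulo a normal subgroup of odd order: there is a normal subgroup N of odd order containing every commutator z g z⁻¹ g⁻¹. -/
theorem result {G : Type*} [Group G] [Finite G] (heven : Even (Nat.card G)) (hrank : ∀ E : Subgroup G, ¬ IsKleinFour E) : ∃ z : G, orderOf z = 2 ∧ ∃ N : Subgroup G, N.Normal ∧ Odd (Nat.card N) ∧ ∀ g : G, z * g * z⁻¹ * g⁻¹ ∈ N := by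

  haveI : Fact (Nat.Prime 2) := ⟨Nat.prime_two⟩
  obtain ⟨P⟩ : Nonempty (Sylow 2 G) := inferInstance
  have h2 : 2 ∣ Nat.card (P : Subgroup G) := by
    have h1 := P.card_eq_multiplicity
    rw [h1]
    have h3 := (Nat.prime_two.factorization_pos_of_dvd Nat.card_pos.ne'
      (even_iff_two_dvd.mp heven)).ne'
    exact dvd_pow_self 2 h3
  have hP : IsPGroup 2 (P : Subgroup G) := P.2
  haveI : Nontrivial (P : Subgroup G) := by
    apply Finite.one_lt_card_iff_nontrivial.mp
    have := Nat.le_of_dvd Nat.card_pos h2
    omega
  haveI := hP.center_nontrivial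
  have h4 : 2 ∣ Nat.card (Subgroup.center (P : Subgroup G)) := by
    obtain ⟨k, hk⟩ := IsPGroup.iff_card.mp (hP.to_subgroup (Subgroup.center (P : Subgroup G)))
    have h4 : 1 < Nat.card (Subgroup.center (P : Subgroup G)) := Finite.one_lt_card
    rw [hk] at h4 ⊢
    have h5 : k ≠ 0 := by rintro rfl; simp at h4
    exact dvd_pow_self 2 h5
  obtain ⟨w, hw⟩ := exists_prime_orderOf_dvd_card' (G := Subgroup.center (P : Subgroup G)) 2 h4
  set u : G := ((w : (P : Subgroup G)) : G) with hudef
  have hu : orderOf u = 2 := by rw [hudef, Subgroup.orderOf_coe, Subgroup.orderOf_coe, hw]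
  have hu2 : u * u = 1 := by rw [← pow_two, ← hu, pow_orderOf_eq_one]
  have hune : u ≠ 1 := by
    intro h
    rw [h, orderOf_one] at hu
    omega
  refine ⟨u, hu, Cfsg.pPrimeCore 2 G, inferInstance, Cfsg.Agent.H4.odd_card_pPrimeCore_two,
    Cfsg.Agent.H4.zstar_uniq P hu ?_⟩
  intro v hv hv2'
  by_contra hne
  have hv2 : v * v = 1 := by rw [← pow_two, ← hv2', pow_orderOf_eq_one]
  have hvne : v ≠ 1 := by
    intro h
    rw [h, orderOf_one] at hv2'
    omega
  have hc : u * v = v * u := by
    have h1 := Subgroup.mem_center_iff.mp w.2 ⟨v, hv⟩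
    exact (congrArg Subtype.val h1).symm
  let E : Subgroup G :=
    { carrier := {1, u, v, u * v}
      mul_mem' := by
        rintro a b (rfl | rfl | rfl | rfl) (rfl | rfl | rfl | rfl) <;>
          simp only [Set.mem_insert_iff, Set.mem_singleton_iff, one_mul, mul_one, hu2, hv2,
            true_or, or_true]
        · right; right; left
          rw [← mul_assoc, hu2, one_mul]
        · rw [← hc]; simp
        · right; left
          rw [hc, ← mul_assoc, hv2, one_mul]
        · right; right; left
          rw [hc, mul_assoc, hu2, mul_one]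
        · right; left
          rw [mul_assoc, hv2, mul_one]
        · left
          have : u * v * (u * v) = u * (v * u) * v := by group
          rw [this, ← hc, ← mul_assoc, hu2, one_mul, hv2]
      one_mem' := Or.inl rfl
      inv_mem' := by
        rintro a (rfl | rfl | rfl | rfl)
        · simp
        · right; left; exact inv_eq_of_mul_eq_one_left hu2
        · right; right; left; exact inv_eq_of_mul_eq_one_left hv2
        · right; right; right
          show (u * v)⁻¹ = u * v
          rw [mul_inv_rev, inv_eq_of_mul_eq_one_left hu2, inv_eq_of_mul_eq_one_left hv2, hc] }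
  apply hrank E
  have huv1 : u * v ≠ 1 := by
    intro h
    apply hne
    have : v = u⁻¹ := (inv_eq_of_mul_eq_one_right h).symm
    rw [this, inv_eq_of_mul_eq_one_left hu2]
  have hcard : Nat.card E = 4 := by
    have h1 : ((({1, u, v, u * v} : Set G)).ncard) = 4 := by
      classical
      have h3 : ({1, u, v, u * v} : Set G) = (↑({1, u, v, u * v} : Finset G) : Set G) := by simp
      rw [h3, Set.ncard_coe_finset]
      rw [Finset.card_insert_of_notMem, Finset.card_insert_of_notMem,
        Finset.card_insert_of_notMem, Finset.card_singleton]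
      · simp [hune]
      · simp [Ne.symm hne, hvne]
      · simp [hune.symm, hvne.symm, huv1.symm]
    exact h1
  constructor
  · exact hcard
  · haveI : Nontrivial E := Finite.one_lt_card_iff_nontrivial.mp (by rw [hcard]; norm_num)
    apply (Nat.dvd_prime Nat.prime_two).mp _ |>.resolve_left
    · rw [Monoid.exp_eq_one_iff]
      exact fun h1 => not_subsingleton _ h1
    · apply Monoid.exponent_dvd_of_forall_pow_eq_one
      rintro ⟨g, hg⟩
      apply Subtype.ext
      show g ^ 2 = 1
      rw [pow_two]
      rcases hg with rfl | rfl | rfl | rfl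
      · simp
      · exact hu2
      · exact hv2
      · have : u * v * (u * v) = u * (v * u) * v := by group
        rw [this, ← hc, ← mul_assoc, hu2, one_mul, hv2]

end Cfsg.Agent.S0225
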