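import Mathlib
import Cfsg.Statements.S0250
import Cfsg.Agent.ClassBase.SmallIso
import Cfsg.Agent.S0242
-- import your own Cfsg.Agent.* helpers here

set_option autoImplicit false
open Cfsg

namespace Cfsg.Agent.S0250

/-- SL_2(2) is isomorphic to S_3. -/
theorem result {F : Type*} [Field F] [Fintype F] (hF : Fintype.card F = 2) : Nonempty (Matrix.SpecialLinearGroup (Fin 2) F ≃* Equiv.Perm (Fin 3)) := by
  classical
  have h1 := Cfsg.Agent.S0242.result hF 2 (by norm_num)
  have h2 : Nat.card (Matrix.SpecialLinearGroup (Fin 2) F) = 6 := by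
    rw [Fin.prod_univ_two] at h1
    generalize Nat.card (Matrix.SpecialLinearGroup (Fin 2) F) = N at h1 ⊢
    norm_num at h1
    omega
  have hc : Subgroup.center (Matrix.SpecialLinearGroup (Fin 2) F) = ⊥ := by
    have h3 := Cfsg.Agent.H4.card_center_SL (F := F) 2 (by norm_num)
    rw [hF] at h3
    exact Subgroup.card_eq_one.1 h3
  have hinj : Function.Injective (MulAction.toPermHom (Matrix.SpecialLinearGroup (Fin 2) F)
      (Projectivization F (Fin 2 → F))) := by
    rw [← MonoidHom.ker_eq_bot_iff, Projectivization.SL_mulAction_ker, hc]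
  haveI : FaithfulSMul (Matrix.SpecialLinearGroup (Fin 2) F) (Projectivization F (Fin 2 → F)) :=
    ⟨fun h => hinj (Equiv.ext h)⟩
  have hX : Nat.card (Projectivization F (Fin 2 → F)) = 3 := by
    rw [Projectivization.card_of_finrank_two F _ (by simp), Nat.card_eq_fintype_card, hF]
  exact Cfsg.Agent.ClassBase.equiv_perm_of_action (X := Projectivization F (Fin 2 → F)) hX
    (by rw [h2]; decide)

end Cfsg.Agent.S0250
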