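import Cfsg.Statements.S4252
-- import your own Cfsg.Agent.* helpers here

set_option autoImplicit false
open Cfsg

namespace Cfsg.Agent.S4252

/-- Let a finite group G act on a finite set Ω with more than one point, transitively but not regularly, so that no non-identity element of G fixes two distinct points. Then the stabilizer H of any point is a Frobenius complement in G (nontrivial, proper, meeting its other conjugates trivially), and the Frobenius kernel of G with respect to H (the identity together with the elements lying in no conjugate of H) is exactly the set consisting of the identity and the elements fixing no point. -/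
theorem result {G Ω : Type*} [Group G] [Finite G] [Fintype Ω] [MulAction G Ω] (hΩ : 1 < Fintype.card Ω)
    (htrans : ∀ α β : Ω, ∃ g : G, g • α = β) (hnreg : ∃ g : G, g ≠ 1 ∧ ∃ α : Ω, g • α = α)
    (hfix : ∀ g : G, g ≠ 1 → ∀ α β : Ω, g • α = α → g • β = β → α = β) (α : Ω) :
    Cfsg.IsFrobeniusComplement (MulAction.stabilizer G α) ∧
      Cfsg.frobeniusKernel (MulAction.stabilizer G α) = {g : G | g = 1 ∨ ∀ ω : Ω, g • ω ≠ ω} := by
  classical
  open scoped Pointwise in
  have hconj : ∀ (g x : G), x ∈ (MulAut.conj g) • (MulAction.stabilizer G α) ↔ x • (g • α) = g • α := by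
    intro g x
    rw [Subgroup.mem_pointwise_smul_iff_inv_smul_mem]
    simp only [MulAction.mem_stabilizer_iff]
    have h1 : (MulAut.conj g)⁻¹ • x = g⁻¹ * x * g := by
      rw [← map_inv]
      simp [MulAut.smul_def, MulAut.conj_apply]
    rw [h1, mul_smul, mul_smul, inv_smul_eq_iff]
  refine ⟨⟨?_, ?_, ?_⟩, ?_⟩
  · intro hbot
    obtain ⟨g, hg, β, hβ⟩ := hnreg
    obtain ⟨k, hk⟩ := htrans α β
    have h1 : k⁻¹ * g * k ∈ MulAction.stabilizer G α := by
      rw [MulAction.mem_stabilizer_iff, mul_smul, mul_smul, hk, hβ, ← hk, inv_smul_smul]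
    rw [hbot, Subgroup.mem_bot] at h1
    apply hg
    have : g = k * (k⁻¹ * g * k) * k⁻¹ := by group
    rw [this, h1]; simp
  · intro htop
    obtain ⟨β, γ, hβγ⟩ := Fintype.one_lt_card_iff.mp hΩ
    have hfixα : ∀ g : G, g • α = α := fun g => by
      have : g ∈ MulAction.stabilizer G α := htop ▸ Subgroup.mem_top g
      exact this
    obtain ⟨k, hk⟩ := htrans α β
    obtain ⟨l, hl⟩ := htrans α γ
    exact hβγ (by rw [← hk, ← hl, hfixα, hfixα])
  · intro g hg
    rw [eq_bot_iff]
    rintro x ⟨hx1, hx2⟩
    rw [Subgroup.mem_bot]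
    by_contra hx
    have hx2' := (hconj g x).mp hx2
    have := hfix x hx α (g • α) hx1 hx2'
    exact hg (MulAction.mem_stabilizer_iff.mpr this.symm)
  · ext x
    simp only [Cfsg.frobeniusKernel, Set.mem_setOf_eq]
    refine or_congr_right ⟨fun h ω hω => ?_, fun h g hg => ?_⟩
    · obtain ⟨k, hk⟩ := htrans α ω
      exact h k ((hconj k x).mpr (by rw [hk, hω]))
    · exact h _ ((hconj g x).mp hg)

end Cfsg.Agent.S4252
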