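import Cfsg.Statements.S0341
import Cfsg.Agent.S4252
import Cfsg.Agent.S0042
import Cfsg.Agent.Frob.Kernel
import Cfsg.Agent.Frob.Center
import Cfsg.Agent.BG3.Action

set_option autoImplicit false
open Cfsg

namespace Cfsg.Agent.S0341

open MulAction

lemma pair_le {α : Type*} (a b : α) : ({a, b} : Set α).ncard ≤ 2 :=
  (Set.ncard_insert_le a {b}).trans (by rw [Set.ncard_singleton])

/-- If a finite group acts faithfully and doubly transitively, no non-identity element fixes three points, some
non-identity element fixes two points, and some normal subgroup acts regularly, then the number of points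
is `2^p` with `p` prime. -/
theorem result {G Ω : Type*} [Group G]
    [MulAction G Ω] [Fintype Ω] [FaithfulSMul G Ω] (h2 : MulAction.IsMultiplyPretransitive G Ω 2)
    (h3 : ∀ g : G, ∀ a b c : Ω, a ≠ b → b ≠ c → a ≠ c → g • a = a → g • b = b → g • c = c → g = 1)
    (hfix : ∃ g : G, g ≠ 1 ∧ ∃ a b : Ω, a ≠ b ∧ g • a = a ∧ g • b = b)
    (N : Subgroup G) [N.Normal] (hNt : MulAction.IsPretransitive N Ω)
    (hNr : ∀ a : Ω, MulAction.stabilizer N a = ⊥) :
    ∃ p : ℕ, p.Prime ∧ Fintype.card Ω = 2 ^ p := by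
  classical
  haveI : Finite G := Finite.of_injective (toPermHom G Ω) toPerm_injective
  rw [is_two_pretransitive_iff] at h2
  obtain ⟨g0, hg0, a, b, hab, hga, hgb⟩ := hfix
  -- regularity of N
  have hN1 : ∀ n ∈ N, ∀ x : Ω, n • x = x → n = 1 := by
    intro n hn x hx
    have : (⟨n, hn⟩ : N) ∈ stabilizer N x := hx
    rw [hNr x, Subgroup.mem_bot] at this
    exact Subtype.ext_iff.mp this
  have hNt' : ∀ x y : Ω, ∃ n ∈ N, n • x = y := by
    intro x y
    obtain ⟨n, hn⟩ := MulAction.exists_smul_eq N x y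
    exact ⟨n, n.2, hn⟩
  obtain ⟨u, huN, hua⟩ := hNt' a b
  have hu1 : u ≠ 1 := by
    intro h; rw [h, one_smul] at hua; exact hab hua
  have hNcard : Nat.card N = Fintype.card Ω := by
    rw [← Nat.card_eq_fintype_card]
    refine Nat.card_congr (Equiv.ofBijective (fun n : N => (n : G) • a) ⟨?_, ?_⟩)
    · intro n m hnm
      have h4 : ((m : G)⁻¹ * n) • a = a := by
        rw [mul_smul, inv_smul_eq_iff]; exact hnm
      have h5 := hN1 _ (N.mul_mem (N.inv_mem m.2) n.2) a h4
      exact Subtype.ext (by rw [← mul_one (m : G), ← h5, mul_inv_cancel_left])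
    · intro y
      obtain ⟨n, hn, hny⟩ := hNt' a y
      exact ⟨⟨n, hn⟩, hny⟩
  -- all nontrivial elements of N are conjugate to u under the stabilizer of a
  have hconj : ∀ n ∈ N, n ≠ 1 → ∃ s : G, s • a = a ∧ s * u * s⁻¹ = n := by
    intro n hn hn1
    have hna : a ≠ n • a := fun h => hn1 (hN1 n hn a h.symm)
    obtain ⟨s, hsa, hsb⟩ := h2 hab hna
    refine ⟨s, hsa, ?_⟩
    have h4 : (n⁻¹ * (s * u * s⁻¹)) • a = a := by
      have : s⁻¹ • a = a := by rw [inv_smul_eq_iff, hsa]
      rw [mul_smul, mul_smul, mul_smul, this, hua, hsb, inv_smul_smul]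
    have h5 := hN1 _ (N.mul_mem (N.inv_mem hn) (Subgroup.Normal.conj_mem inferInstance u huN s)) a h4
    rw [inv_mul_eq_one] at h5
    exact h5.symm
  -- elements of the two point stabilizer commute with u
  have hcomm : ∀ k : G, k • a = a → k • b = b → k * u = u * k := by
    intro k hka hkb
    have h4 : (u⁻¹ * (k * u * k⁻¹)) • a = a := by
      have : k⁻¹ • a = a := by rw [inv_smul_eq_iff, hka]
      rw [mul_smul, mul_smul, mul_smul, this, hua, hkb, ← hua, inv_smul_smul]
    have h5 := hN1 _ (N.mul_mem (N.inv_mem huN) (Subgroup.Normal.conj_mem inferInstance u huN k)) a h4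
    rw [inv_mul_eq_one] at h5
    calc k * u = k * u * k⁻¹ * k := by group
      _ = u * k := by rw [← h5]
  -- u is an involution
  have huu : u * u = 1 := by
    by_contra hne
    have hgu := hcomm g0 hga hgb
    apply hg0
    apply h3 g0 a b (u • b) hab
    · intro h
      exact hu1 (hN1 u huN b h.symm)
    · intro h
      apply hne
      apply hN1 _ (N.mul_mem huN huN) a
      rw [mul_smul, hua, ← h]
    · exact hga
    · exact hgb
    · rw [← mul_smul, hgu, mul_smul, hgb]
  have hNinv : ∀ n ∈ N, n * n = 1 := by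
    intro n hn
    by_cases hn1 : n = 1
    · rw [hn1, one_mul]
    · obtain ⟨s, -, rfl⟩ := hconj n hn hn1
      calc s * u * s⁻¹ * (s * u * s⁻¹) = s * (u * u) * s⁻¹ := by group
        _ = 1 := by rw [huu]; group
  have hNab : ∀ n ∈ N, ∀ m ∈ N, n * m = m * n := by
    intro n hn m hm
    have h4 := hNinv _ (N.mul_mem hn hm)
    have h5 : n⁻¹ = n := inv_eq_of_mul_eq_one_left (hNinv n hn)
    have h6 : m⁻¹ = m := inv_eq_of_mul_eq_one_left (hNinv m hm)
    calc n * m = (n * m)⁻¹ := (inv_eq_of_mul_eq_one_left h4).symm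
      _ = m * n := by rw [mul_inv_rev, h5, h6]
  -- centralizers in N
  have hCN : ∀ k : G, k ≠ 1 → k • a = a → k • b = b → ∀ n ∈ N, k * n = n * k → n = 1 ∨ n = u := by
    intro k hk hka hkb n hn hkn
    by_cases h4 : n • a = a
    · exact Or.inl (hN1 n hn a h4)
    · by_cases h5 : n • a = b
      · right
        have h6 : (u⁻¹ * n) • a = a := by rw [mul_smul, h5, ← hua, inv_smul_smul]
        have h7 := hN1 _ (N.mul_mem (N.inv_mem huN) hn) a h6
        rw [inv_mul_eq_one] at h7
        exact h7.symm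
      · exfalso
        apply hk
        apply h3 k a b (n • a) hab (Ne.symm h5) (Ne.symm h4) hka hkb
        rw [← mul_smul, hkn, mul_smul, hka]
  -- an element of prime order in the two point stabilizer
  let K : Subgroup G := stabilizer G a ⊓ stabilizer G b
  have hKne : Nat.card K ≠ 1 := by
    intro h
    have h4 : K = ⊥ := Subgroup.card_eq_one.mp h
    have h5 : g0 ∈ K := ⟨hga, hgb⟩
    rw [h4, Subgroup.mem_bot] at h5
    exact hg0 h5
  obtain ⟨ℓ, hℓ, hℓK⟩ := Nat.exists_prime_and_dvd hKne
  haveI : Fact ℓ.Prime := ⟨hℓ⟩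
  obtain ⟨k', hk'⟩ := exists_prime_orderOf_dvd_card' ℓ hℓK
  set k : G := (k' : G) with hkdef
  have hka : k • a = a := k'.2.1
  have hkb : k • b = b := k'.2.2
  have hkord : orderOf k = ℓ := by rw [hkdef, Subgroup.orderOf_coe, hk']
  have hk1 : k ≠ 1 := by
    intro h; rw [h, orderOf_one] at hkord; exact hℓ.one_lt.ne hkord
  refine ⟨ℓ, hℓ, ?_⟩
  rw [← hNcard]
  -- N is nontrivial with more than two elements
  have hΩ3 : ∃ c : Ω, c ≠ a ∧ c ≠ b := by
    by_contra hcon
    push Not at hcon
    apply hk1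
    apply FaithfulSMul.eq_of_smul_eq_smul (α := Ω)
    intro w
    rw [one_smul]
    by_cases hwa : w = a
    · rw [hwa, hka]
    · rw [hcon w hwa, hkb]
  have hN2 : IsPGroup 2 N := fun n => ⟨1, by
    apply Subtype.ext
    have := hNinv n n.2
    simpa [pow_one, pow_two] using this⟩
  obtain ⟨m, hm⟩ := IsPGroup.iff_card.mp hN2
  by_cases hℓ2 : ℓ = 2
  · -- order two
    have hkk : k * k = 1 := by
      have := pow_orderOf_eq_one k
      rwa [hkord, hℓ2, pow_two] at this
    have hkinv : k⁻¹ = k := inv_eq_of_mul_eq_one_left hkk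
    let φ : N →* N :=
      { toFun := fun n => ⟨(n : G) * (k * n * k⁻¹), N.mul_mem n.2 (Subgroup.Normal.conj_mem inferInstance _ n.2 k)⟩
        map_one' := by apply Subtype.ext; simp
        map_mul' := fun n n' => by
          apply Subtype.ext
          change (n : G) * n' * (k * (n * n') * k⁻¹) = n * (k * n * k⁻¹) * (n' * (k * n' * k⁻¹))
          have h4 := hNab n' n'.2 (k * n * k⁻¹) (Subgroup.Normal.conj_mem inferInstance _ n.2 k)
          calc (n : G) * n' * (k * (n * n') * k⁻¹) = n * (n' * (k * n * k⁻¹)) * (k * n' * k⁻¹) := by group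
            _ = n * ((k * n * k⁻¹) * n') * (k * n' * k⁻¹) := by rw [h4]
            _ = _ := by group }
    have hker : Nat.card φ.ker ≤ 2 := by
      have : ∀ n ∈ φ.ker, n = 1 ∨ n = ⟨u, huN⟩ := by
        intro n hn
        have h4 : (n : G) * (k * n * k⁻¹) = 1 := Subtype.ext_iff.mp hn
        have h5 : k * n * k⁻¹ = n := by
          have h6 := eq_inv_of_mul_eq_one_right h4
          rw [h6]; exact inv_eq_of_mul_eq_one_left (hNinv n n.2)
        have h6 : k * n = n * k := by
          calc k * (n : G) = k * n * k⁻¹ * k := by group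
            _ = n * k := by rw [h5]
        rcases hCN k hk1 hka hkb n n.2 h6 with h7 | h7
        · exact Or.inl (Subtype.ext h7)
        · exact Or.inr (Subtype.ext h7)
      have hsub : (φ.ker : Set N) ⊆ {1, ⟨u, huN⟩} := fun n hn => this n hn
      calc Nat.card φ.ker = (φ.ker : Set N).ncard := rfl
        _ ≤ ({1, ⟨u, huN⟩} : Set N).ncard := Set.ncard_le_ncard hsub (Set.toFinite _)
        _ ≤ 2 := pair_le _ _
    have hran : Nat.card φ.range ≤ 2 := by
      have : ∀ n ∈ φ.range, n = 1 ∨ n = ⟨u, huN⟩ := by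
        rintro _ ⟨n, rfl⟩
        have h4 := hNab n n.2 (k * n * k⁻¹) (Subgroup.Normal.conj_mem inferInstance _ n.2 k)
        have h5 : k * ((n : G) * (k * n * k⁻¹)) = (n : G) * (k * n * k⁻¹) * k := by
          have h6 : k * (k * n * k⁻¹) * k⁻¹ = n := by
            calc k * (k * (n : G) * k⁻¹) * k⁻¹ = (k * k) * n * (k * k)⁻¹ := by group
              _ = n := by rw [hkk]; group
          calc k * ((n : G) * (k * n * k⁻¹)) = (k * n * k⁻¹) * (k * (k * n * k⁻¹) * k⁻¹) * k := by group
            _ = (k * n * k⁻¹) * n * k := by rw [h6]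
            _ = _ := by rw [← h4]
        rcases hCN k hk1 hka hkb _ (φ n).2 h5 with h7 | h7
        · exact Or.inl (Subtype.ext h7)
        · exact Or.inr (Subtype.ext h7)
      have hsub : (φ.range : Set N) ⊆ {1, ⟨u, huN⟩} := fun n hn => this n hn
      calc Nat.card φ.range = (φ.range : Set N).ncard := rfl
        _ ≤ ({1, ⟨u, huN⟩} : Set N).ncard := Set.ncard_le_ncard hsub (Set.toFinite _)
        _ ≤ 2 := pair_le _ _
    have h4 : Nat.card N ≤ 4 := by
      have h5 := Subgroup.card_mul_index φ.ker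
      rw [Subgroup.index_ker] at h5
      calc Nat.card N = Nat.card φ.ker * Nat.card φ.range := h5.symm
        _ ≤ 2 * 2 := Nat.mul_le_mul hker hran
    have h6 : 3 ≤ Nat.card N := by
      rw [hNcard]
      obtain ⟨c, hca, hcb⟩ := hΩ3
      have : ({c, a, b} : Finset Ω).card = 3 := Finset.card_eq_three.mpr ⟨c, a, b, hca, hcb, hab, rfl⟩
      rw [← this]
      exact Finset.card_le_univ _
    rw [hm] at h4 h6 ⊢
    have h7 : m ≤ 2 := by
      by_contra hcon
      have : 2 ^ 3 ≤ 2 ^ m := Nat.pow_le_pow_right (by norm_num) (by omega)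
      omega
    have h8 : m ≠ 0 := by rintro rfl; norm_num at h6
    have h9 : m ≠ 1 := by rintro rfl; norm_num at h6
    have : m = 2 := by omega
    rw [this, hℓ2]
  · -- odd order
    let S : Subgroup G := stabilizer G a
    let T := SubMulAction.ofStabilizer G a
    let b' : T := ⟨b, fun h => hab h.symm⟩
    letI : Fintype T := Fintype.ofFinite T
    obtain ⟨c, hca, hcb⟩ := hΩ3
    let c' : T := ⟨c, hca⟩
    have hfr := S4252.result (G := S) (Ω := T) (by
        rw [Fintype.one_lt_card_iff]
        exact ⟨b', c', fun h => hcb (Subtype.ext_iff.mp h).symm⟩)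
      (by
        intro α β
        have hα : a ≠ α := fun h => α.2 h.symm
        have hβ : a ≠ β := fun h => β.2 h.symm
        obtain ⟨g, h4, h5⟩ := h2 hα hβ
        exact ⟨⟨g, h4⟩, Subtype.ext h5⟩)
      ⟨⟨k, hka⟩, fun h => hk1 (Subtype.ext_iff.mp h), b', Subtype.ext hkb⟩
      (by
        intro g hg α β hα hβ
        by_contra hne
        apply hg
        apply Subtype.ext
        have hα' : a ≠ α := fun h => α.2 h.symm
        have hβ' : a ≠ β := fun h => β.2 h.symm
        exact h3 g a α β hα' (fun h => hne (Subtype.ext h)) hβ' g.2 (Subtype.ext_iff.mp hα) (Subtype.ext_iff.mp hβ))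
      b'
    obtain ⟨hfc, hker⟩ := hfr
    obtain ⟨F, hF, hFn, hFc⟩ := Cfsg.Agent.Frob.exists_normal_complement hfc
    obtain ⟨F2, hF2, -, hFnil⟩ := S0042.result _ hfc
    have hFF : F = F2 := SetLike.coe_injective (hF.trans hF2.symm)
    rw [← hFF] at hFnil
    -- F is transitive on T
    have hFt : ∀ y : T, ∃ f ∈ F, f • b' = y := by
      intro y
      have hy : a ≠ y := fun h => y.2 h.symm
      obtain ⟨g, h4, h5⟩ := h2 hab hy
      obtain ⟨⟨f, h⟩, hfh⟩ := hFc.2 (⟨g, h4⟩ : S)
      refine ⟨f, f.2, ?_⟩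
      have h6 : (⟨g, h4⟩ : S) • b' = y := Subtype.ext h5
      have h7 : (h : S) • b' = b' := h.2
      have h8 : (f : S) * (h : S) = ⟨g, h4⟩ := hfh
      rw [← h6, ← h8, mul_smul, h7]
    have hFfree : ∀ f ∈ F, ∀ y : T, f • y = y → f = 1 := by
      intro f hf y hy
      have : f ∈ frobeniusKernel (stabilizer S b') := by rw [← hF]; exact hf
      rw [hker] at this
      rcases this with h | h
      · exact h
      · exact absurd hy (h y)
    let F' : Subgroup G := F.map S.subtype
    have hF'mem : ∀ x ∈ F', ∃ f ∈ F, (f : G) = x := by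
      rintro x ⟨f, hf, rfl⟩
      exact ⟨f, hf, rfl⟩
    have hF'conj : ∀ t ∈ S, ∀ x ∈ F', t * x * t⁻¹ ∈ F' := by
      rintro t ht x ⟨f, hf, rfl⟩
      exact ⟨⟨t, ht⟩ * f * ⟨t, ht⟩⁻¹, hFn.conj_mem f hf _, rfl⟩
    have hRfix : ∀ r ∈ Subgroup.zpowers k, r • a = a ∧ r • b = b := by
      rintro r ⟨i, rfl⟩
      have h4 : k ∈ K := ⟨hka, hkb⟩
      exact K.zpow_mem h4 i
    have hFb : ∀ x ∈ F', x • b = b → x = 1 := by
      intro x hx hxb
      obtain ⟨f, hf, rfl⟩ := hF'mem x hx
      rw [hFfree f hf b' (Subtype.ext hxb)]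
      rfl
    have hdisj : Disjoint F' (Subgroup.zpowers k) := by
      rw [disjoint_iff, Subgroup.eq_bot_iff_forall]
      intro x hx
      exact hFb x hx.1 (hRfix x hx.2).2
    have hRK : Subgroup.zpowers k ≤ Subgroup.normalizer (F' : Set G) := by
      rw [Subgroup.zpowers_le, Subgroup.mem_normalizer_iff]
      intro x
      refine ⟨fun hx => hF'conj k hka x hx, fun hx => ?_⟩
      have h4 := hF'conj k⁻¹ (S.inv_mem hka) _ hx
      have h5 : k⁻¹ * (k * x * k⁻¹) * k⁻¹⁻¹ = x := by group
      rwa [h5] at h4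
    have hNnorm : ∀ L : Subgroup G, L ≤ Subgroup.normalizer (N : Set G) := by
      intro L x _
      rw [Subgroup.mem_normalizer_iff]
      intro n
      refine ⟨fun hn => Subgroup.Normal.conj_mem inferInstance n hn x, fun hn => ?_⟩
      have h4 := Subgroup.Normal.conj_mem (H := N) inferInstance _ hn x⁻¹
      have h5 : x⁻¹ * (x * n * x⁻¹) * x⁻¹⁻¹ = n := by group
      rwa [h5] at h4
    have hFcard : Nat.card F' = Nat.card Ω - 1 := by
      have e1 : Nat.card F' = Nat.card F :=
        Nat.card_congr (F.equivMapOfInjective S.subtype S.subtype_injective).symm.toEquiv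
      have e2 : Nat.card F = Nat.card T := by
        refine Nat.card_congr (Equiv.ofBijective (fun f : F => (f : S) • b') ⟨?_, ?_⟩)
        · intro f g hfg
          have h4 : ((g : S)⁻¹ * f) • b' = b' := by
            rw [mul_smul, inv_smul_eq_iff]; exact hfg
          have h5 := hFfree _ (F.mul_mem (F.inv_mem g.2) f.2) b' h4
          rw [inv_mul_eq_one] at h5
          exact Subtype.ext h5.symm
        · intro y
          obtain ⟨f, hf, hfy⟩ := hFt y
          exact ⟨⟨f, hf⟩, hfy⟩
      rw [e1, e2]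
      exact SubMulAction.nat_card_ofStabilizer_eq G a
    have hm0 : m ≠ 0 := by
      rintro rfl
      rw [pow_zero] at hm
      have : N = ⊥ := Subgroup.card_eq_one.mp hm
      rw [this, Subgroup.mem_bot] at huN
      exact hu1 huN
    have hFodd : Odd (Nat.card F') := by
      rw [hFcard, Nat.card_eq_fintype_card, ← hNcard, hm]
      obtain ⟨j, rfl⟩ : ∃ j, m = j + 1 := ⟨m - 1, by omega⟩
      have : 0 < 2 ^ j := by positivity
      exact ⟨2 ^ j - 1, by rw [pow_succ]; omega⟩
    have hmain := Cfsg.Agent.BG3.card_eq_pow_of_frobenius (K := F') (R := Subgroup.zpowers k) (M := N) hRK ?_ ?_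
      (hNnorm _) (hNnorm _) ?_ ?_ ?_
    · have hCcard : Nat.card ↥(N ⊓ Subgroup.centralizer (Subgroup.zpowers k : Set G)) = 2 := by
        have hset : ((N ⊓ Subgroup.centralizer (Subgroup.zpowers k : Set G) : Subgroup G) : Set G) = {1, u} := by
          ext n
          constructor
          · rintro ⟨hn, hnc⟩
            have h4 := Subgroup.mem_centralizer_iff.mp hnc k (Subgroup.mem_zpowers k)
            exact hCN k hk1 hka hkb n hn h4
          · rintro (rfl | rfl)
            · exact Subgroup.one_mem _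
            · refine ⟨huN, Subgroup.mem_centralizer_iff.mpr ?_⟩
              intro r hr
              obtain ⟨h4, h5⟩ := hRfix r hr
              exact hcomm r h4 h5
        change ((N ⊓ Subgroup.centralizer (Subgroup.zpowers k : Set G) : Subgroup G) : Set G).ncard = 2
        rw [hset, Set.ncard_pair (Ne.symm hu1)]
      rw [hmain, hCcard, Nat.card_zpowers, hkord]
    · intro r hr hr1 x hx hxr
      obtain ⟨hra, hrb⟩ := hRfix r hr
      by_contra hx1
      apply hr1
      have hxa : x • a = a := by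
        obtain ⟨f, hf, rfl⟩ := hF'mem x hx
        exact f.2
      apply h3 r a b (x • b) hab (fun h => hx1 (hFb x hx h.symm)) ?_ hra hrb
      · rw [← mul_smul, ← hxr, mul_smul, hrb]
      · intro h
        apply hab
        have h4 : x • a = x • b := by rw [hxa, h]
        exact smul_left_cancel x h4
    · haveI := hFnil
      haveI : Group.IsSolvable F := inferInstance
      let e : F →* F' := (F.equivMapOfInjective S.subtype S.subtype_injective).toMonoidHom
      exact Group.isSolvable_of_surjective (f := e) (F.equivMapOfInjective S.subtype S.subtype_injective).surjective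
    · exact Group.isSolvable_of_comm (fun n n' => Subtype.ext (hNab n n.2 n' n'.2))
    · rw [Cfsg.Agent.Frob.card_sup_of_disjoint_of_le_normalizer F' _ hdisj hRK, hm, Nat.card_zpowers, hkord]
      apply Nat.Coprime.pow_right
      rw [Nat.coprime_comm, Nat.coprime_two_left]
      exact hFodd.mul (hℓ.odd_of_ne_two hℓ2)
    · rw [Subgroup.eq_bot_iff_forall]
      rintro n ⟨hn, hnc⟩
      by_contra hn1
      have hna : n • a ≠ a := fun h => hn1 (hN1 n hn a h)
      let y : T := ⟨n • a, hna⟩
      obtain ⟨y', hy'⟩ : ∃ y' : T, y' ≠ y := by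
        by_cases h4 : b' = y
        · exact ⟨c', fun h => hcb (by rw [← h4] at h; exact Subtype.ext_iff.mp h)⟩
        · exact ⟨b', h4⟩
      obtain ⟨f, hf, hfy⟩ := hFt y'
      obtain ⟨f2, hf2, hf2y⟩ := hFt y
      apply hy'
      have hg : (f : S) * (f2 : S)⁻¹ ∈ F := F.mul_mem hf (F.inv_mem hf2)
      have h4 : ((f : S) * (f2 : S)⁻¹) • y = y' := by
        rw [← hf2y, mul_smul, inv_smul_smul, hfy]
      rw [← h4]
      apply Subtype.ext
      change (((f : S) * (f2 : S)⁻¹ : S) : G) • (n • a) = n • a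
      have h5 := Subgroup.mem_centralizer_iff.mp hnc (((f : S) * (f2 : S)⁻¹ : S) : G) ⟨_, hg, rfl⟩
      rw [← mul_smul, h5, mul_smul]
      congr 1
      exact ((f : S) * (f2 : S)⁻¹ : S).2

end Cfsg.Agent.S0341
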