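import Cfsg.Statements.S0410
import Cfsg.Agent.Stn.AutFin

set_option autoImplicit false
open Cfsg

namespace Cfsg.Agent.S0410

/-- Uniqueness of the Steiner system S(3, 6, 22) up to isomorphism. -/
theorem result {α β : Type*} [Fintype α] [DecidableEq α] [Fintype β] [DecidableEq β] (hα : Fintype.card α = 22) (hβ : Fintype.card β = 22) {B : Set (Finset α)} {B' : Set (Finset β)} (hB : Cfsg.IsSteinerSystem 3 6 B) (hB' : Cfsg.IsSteinerSystem 3 6 B') : Cfsg.SetSystemIso B B' := by
  obtain ⟨f, -, -, -, hf⟩ := Cfsg.Agent.Stn.aut3 hα hB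
  obtain ⟨f', -, -, -, hf'⟩ := Cfsg.Agent.Stn.aut3 hβ hB'
  refine ⟨f.trans f'.symm, ?_⟩
  have key : ∀ X : Finset α, X ∈ B ↔ X.map (f.trans f'.symm).toEmbedding ∈ B' := by
    intro X
    rw [hf, hf', Finset.card_map]
    have : (X.map (f.trans f'.symm).toEmbedding).map (f'.toEmbedding.trans (Function.Embedding.subtype _)) =
        X.map (f.toEmbedding.trans (Function.Embedding.subtype _)) := by
      rw [Finset.map_map]
      congr 1
      ext a : 1
      simp
    rw [this]
  ext Y
  rw [Set.mem_image]
  constructor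
  · rintro ⟨X, hX, rfl⟩
    have := (key X).1 hX
    rwa [Finset.map_eq_image] at this
  · intro hY
    refine ⟨Y.map (f.trans f'.symm).symm.toEmbedding, ?_, ?_⟩
    · rw [key, Finset.map_map]
      have : ((f.trans f'.symm).symm.toEmbedding.trans (f.trans f'.symm).toEmbedding) = Function.Embedding.refl _ := by
        ext y; simp
      rw [this, Finset.map_refl]; exact hY
    · have h1 : ∀ Z : Finset α, Z.image (f.trans f'.symm) = Z.map (f.trans f'.symm).toEmbedding := fun Z => by rw [Finset.map_eq_image]; rfl
      show (Y.map (f.trans f'.symm).symm.toEmbedding).image (f.trans f'.symm) = Y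
      rw [h1, Finset.map_map]
      have : ((f.trans f'.symm).symm.toEmbedding.trans (f.trans f'.symm).toEmbedding) = Function.Embedding.refl _ := by
        ext y; simp
      rw [this, Finset.map_refl]

end Cfsg.Agent.S0410
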