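import Cfsg.Statements.S0454
import Cfsg.Agent.CosetEnum.Ly.ZF

set_option autoImplicit false
open Cfsg

namespace Cfsg.Agent.S0454

/-- Existence of the Lyons group: there is a transitive permutation group of degree 8835156, simple of order 51765179004000000, whose point stabiliser is simple of the order of a group of type G2, and which has an involution whose centraliser is a non-split double cover of the alternating group of degree 11. -/
theorem result : ∃ H : Subgroup (Equiv.Perm (Fin 8835156)), Cfsg.IsLy H ∧ MulAction.IsPretransitive H (Fin 8835156) ∧ Cfsg.IsG2 (MulAction.stabilizer H (0 : Fin 8835156)) ∧ ∃ t : H, orderOf t = 2 ∧ Cfsg.IsNonsplitDoubleCover (Subgroup.centralizer ({t} : Set H)) (alternatingGroup (Fin 11)) :=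
  Cfsg.Agent.LyG.existsL

end Cfsg.Agent.S0454
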