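import Cfsg.Statements.S0563
import Cfsg.Agent.H30.KWH
import Cfsg.Agent.S0561

set_option autoImplicit false
open Pointwise
open Cfsg

namespace Cfsg.Agent.S0563

open Cfsg.Agent.H30.KW Cfsg.Agent.SigF in
theorem hall_syl {G : Type*} [Group G] [Finite G] {A B : Subgroup G}
    (hcop : (Nat.card A).Coprime (Nat.card B)) (hi : A.index = Nat.card B) (p : ℕ) [hp : Fact p.Prime] (P : Sylow p A) :
    (Nat.card ((P : Subgroup A).map A.subtype)).Coprime ((P : Subgroup A).map A.subtype).index := by
  obtain ⟨k, hk⟩ := IsPGroup.iff_card.1 P.isPGroup'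
  rw [Subgroup.card_map_of_injective A.subtype_injective, hk]
  by_cases hd : p ∣ Nat.card A
  · apply Nat.Coprime.pow_left
    rw [Nat.Prime.coprime_iff_not_dvd hp.out]
    apply syl_index (A := A) ⟨P, rfl⟩
    rw [hi]
    exact fun h => hp.out.one_lt.ne' (Nat.dvd_one.1 (hcop ▸ Nat.dvd_gcd hd h))
  · have hk0 : k = 0 := by
      by_contra h
      apply hd
      have : p ∣ Nat.card (P : Subgroup A) := by rw [hk]; exact dvd_pow_self p h
      exact this.trans (Subgroup.card_subgroup_dvd_card _)
    rw [hk0, pow_zero]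
    exact Nat.coprime_one_left _

theorem normal_syl {G : Type*} [Group G] [Finite G] {A : Subgroup G} (hA : Group.IsNilpotent A) (p : ℕ)
    [hp : Fact p.Prime] (P : Sylow p A) : (((P : Subgroup A).map A.subtype).subgroupOf A).Normal := by
  have h1 : (P : Subgroup A).Normal := by
    have := (Group.isNilpotent_of_finite_tfae (G := A)).out 0 3 |>.1 hA
    exact this p hp P
  have h2 : ((P : Subgroup A).map A.subtype).subgroupOf A = P :=
    Subgroup.comap_map_eq_self_of_injective A.subtype_injective _
  rw [h2]; exact h1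

/-- If a finite group G is the product AB of two nilpotent subgroups of coprime orders, then G is solvable, and for every Sylow p-subgroup P of A and Sylow q-subgroup Q of B the product set PQ is a subgroup. -/
theorem result {G : Type*} [Group G] [Finite G] (A B : Subgroup G) (hA : Group.IsNilpotent A) (hB : Group.IsNilpotent B) (hcop : (Nat.card A).Coprime (Nat.card B)) (hAB : ∀ g : G, ∃ a ∈ A, ∃ b ∈ B, g = a * b) : Group.IsSolvable G ∧ ∀ (p q : ℕ) [Fact p.Prime] [Fact q.Prime] (P : Sylow p A) (Q : Sylow q B), ∃ S : Subgroup G, (S : Set G) = (((P : Subgroup A).map A.subtype : Subgroup G) : Set G) * (((Q : Subgroup B).map B.subtype : Subgroup G) : Set G) := by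
  have hs : Group.IsSolvable G := Cfsg.Agent.H30.KW.wielandt hA hB hcop hAB
  refine ⟨hs, ?_⟩
  intro p q _ _ P Q
  obtain ⟨iA, iB⟩ := Cfsg.Agent.H30.KW.index_of_fac hcop hAB
  have h := Cfsg.Agent.S0561.result A B ((P : Subgroup A).map A.subtype) ((Q : Subgroup B).map B.subtype) hAB
    (Subgroup.map_subtype_le _) (normal_syl hA p P) (Subgroup.map_subtype_le _) (normal_syl hB q Q)
    (hall_syl hcop iA p P) (hall_syl hcop.symm iB q Q) 1 1
  simpa using h

end Cfsg.Agent.S0563
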