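import Cfsg.Statements.S0574
import Cfsg.Agent.H52.Kaz
import Cfsg.Agent.S0564

set_option autoImplicit false
open Cfsg
open scoped commutatorElement

namespace Cfsg.Agent.S0574

theorem length_lt_of_dvd {a b : ℕ} (hb : b ≠ 0) (h : a ∣ b) (hne : a ≠ b) :
    a.primeFactorsList.length < b.primeFactorsList.length := by
  obtain ⟨c, rfl⟩ := h
  have ha : a ≠ 0 := fun h => hb (by rw [h, zero_mul])
  have hc : c ≠ 0 := fun h => hb (by rw [h, mul_zero])
  have hc1 : c ≠ 1 := fun h => hne (by rw [h, mul_one])
  have h1 := (Nat.perm_primeFactorsList_mul ha hc).length_eq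
  rw [h1, List.length_append]
  have h2 : 0 < c.primeFactorsList.length := by
    rw [List.length_pos_iff, Ne, Nat.primeFactorsList_eq_nil]
    omega
  omega

theorem main (n : ℕ) : ∀ {G : Type*} [Group G] [Finite G] (_ : Group.IsSolvable G) (A B : Subgroup G)
    (_ : ⁅A, A⁆ = ⊥) (_ : ⁅⁅B, B⁆, B⁆ = ⊥) (_ : ∀ g : G, ∃ a ∈ A, ∃ b ∈ B, g = a * b)
    (_ : (Nat.card ↥⁅B, B⁆).primeFactorsList.length = n), derivedSeries G (2 * (1 + n)) = ⊥ := by
  induction n using Nat.strong_induction_on with
  | _ n ih =>
    intro G _ _ hsol A B hA hB hAB hn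
    by_cases hC : ⁅B, B⁆ = ⊥
    · have h1 : derivedSeries G 2 = ⊥ := by
        have i1 : IsMulCommutative A := ⟨⟨fun x y => Subtype.ext (Cfsg.Agent.H52.comm_of_commutator_eq_bot hA x.2 y.2)⟩⟩
        have i2 : IsMulCommutative B := ⟨⟨fun x y => Subtype.ext (Cfsg.Agent.H52.comm_of_commutator_eq_bot hC x.2 y.2)⟩⟩
        exact Cfsg.Agent.S0572.result A B hAB
      rw [eq_bot_iff, ← h1]
      exact derivedSeries_antitone G (by omega)
    · set C := ⁅B, B⁆ with hCdef
      set H := A ⊔ C with hHdef
      have hAH : A ≤ H := le_sup_left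
      have hCH : C ≤ H := le_sup_right
      have hCB : C ≤ B := Subgroup.commutator_le_self B
      have hconjB : ∀ b ∈ B, ∀ c ∈ C, b * c * b⁻¹ ∈ C := by
        intro b hb c hc
        have : ⁅c, b⁆ ∈ (⊥ : Subgroup G) := by
          rw [← hB]; exact Subgroup.commutator_mem_commutator hc hb
        rw [Subgroup.mem_bot, commutatorElement_eq_one_iff_mul_comm] at this
        rw [← this, mul_inv_cancel_right]
        exact hc
      set N := Subgroup.normalClosure (C : Set G) with hNdef
      have hNH : N ≤ H := by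
        rw [hNdef, Subgroup.normalClosure, Subgroup.closure_le]
        intro x hx
        rw [Group.mem_conjugatesOfSet_iff] at hx
        obtain ⟨c, hc, hg⟩ := hx
        obtain ⟨g, hg'⟩ := isConj_iff.mp hg
        obtain ⟨a, ha, b, hb, rfl⟩ := hAB g
        have h1 := hconjB b hb c hc
        have h2 : a * (b * c * b⁻¹) * a⁻¹ ∈ H :=
          H.mul_mem (H.mul_mem (hAH ha) (hCH h1)) (H.inv_mem (hAH ha))
        have h3 : a * (b * c * b⁻¹) * a⁻¹ = x := by rw [← hg']; group
        rw [← h3]; exact h2
      have hCN : C ≤ N := Subgroup.subset_normalClosure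
      have hder : derivedSeries G 2 ≤ H := by
        refine le_trans ?_ hNH
        apply Cfsg.Agent.H52.derivedSeries_le_of_quotient
        have i1 : IsMulCommutative (A.map (QuotientGroup.mk' N)) := by
          constructor; constructor
          rintro ⟨_, x, hx, rfl⟩ ⟨_, y, hy, rfl⟩
          apply Subtype.ext
          change (QuotientGroup.mk' N) x * (QuotientGroup.mk' N) y = (QuotientGroup.mk' N) y * (QuotientGroup.mk' N) x
          rw [← map_mul, ← map_mul, Cfsg.Agent.H52.comm_of_commutator_eq_bot hA hx hy]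
        have i2 : IsMulCommutative (B.map (QuotientGroup.mk' N)) := by
          have h0 : ⁅B.map (QuotientGroup.mk' N), B.map (QuotientGroup.mk' N)⁆ = ⊥ := by
            rw [← Subgroup.map_commutator, Subgroup.map_eq_bot_iff, QuotientGroup.ker_mk']
            exact hCN
          exact ⟨⟨fun x y => Subtype.ext (Cfsg.Agent.H52.comm_of_commutator_eq_bot h0 x.2 y.2)⟩⟩
        apply Cfsg.Agent.S0572.result (A.map (QuotientGroup.mk' N)) (B.map (QuotientGroup.mk' N))
        intro g
        obtain ⟨g, rfl⟩ := QuotientGroup.mk'_surjective N g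
        obtain ⟨a, ha, b, hb, rfl⟩ := hAB g
        exact ⟨_, ⟨a, ha, rfl⟩, _, ⟨b, hb, rfl⟩, by rw [map_mul]⟩
      set A₁ := A.subgroupOf H with hA₁
      set B₁ := B.subgroupOf H with hB₁
      have hmapA : A₁.map H.subtype = A := by
        rw [hA₁, Subgroup.map_subgroupOf_eq_of_le hAH]
      have hmapB : B₁.map H.subtype ≤ B := by
        rw [hB₁, Subgroup.subgroupOf_map_subtype]; exact inf_le_left
      have hmapC : (⁅B₁, B₁⁆).map H.subtype ≤ C := by
        rw [Subgroup.map_commutator]
        exact Subgroup.commutator_mono hmapB hmapB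
      have hA1 : ⁅A₁, A₁⁆ = ⊥ := by
        rw [← Subgroup.map_eq_bot_iff_of_injective _ H.subtype_injective, Subgroup.map_commutator, hmapA, hA]
      have hB1 : ⁅⁅B₁, B₁⁆, B₁⁆ = ⊥ := by
        rw [← Subgroup.map_eq_bot_iff_of_injective _ H.subtype_injective, Subgroup.map_commutator, eq_bot_iff, ← hB]
        exact Subgroup.commutator_mono hmapC hmapB
      have hAB1 : ∀ g : H, ∃ a ∈ A₁, ∃ b ∈ B₁, g = a * b := by
        intro g
        obtain ⟨a, ha, b, hb, hg⟩ := hAB g
        have hbH : b ∈ H := by
          have : b = a⁻¹ * g := by rw [hg]; group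
          rw [this]; exact H.mul_mem (H.inv_mem (hAH ha)) g.2
        exact ⟨⟨a, hAH ha⟩, ha, ⟨b, hbH⟩, hb, Subtype.ext hg⟩
      have hcardmap : Nat.card ↥((⁅B₁, B₁⁆).map H.subtype) = Nat.card ↥⁅B₁, B₁⁆ :=
        Subgroup.card_map_of_injective H.subtype_injective
      have hdvd : Nat.card ↥⁅B₁, B₁⁆ ∣ Nat.card ↥C := by
        rw [← hcardmap]; exact Subgroup.card_dvd_of_le hmapC
      have hlt : Nat.card ↥⁅B₁, B₁⁆ ≠ Nat.card ↥C := by
        intro heq
        have h1 : (⁅B₁, B₁⁆).map H.subtype = C :=
          Subgroup.eq_of_le_of_card_ge hmapC (by rw [hcardmap, heq])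
        have h2 : A₁ ⊔ ⁅B₁, B₁⁆ = ⊤ := by
          apply Subgroup.map_injective H.subtype_injective
          rw [Subgroup.map_sup, hmapA, h1, ← MonoidHom.range_eq_map, Subgroup.range_subtype]
        have h3 := Cfsg.Agent.H52.key_class_two _ (inferInstance : Group.IsSolvable H) A₁ B₁ hA1 hB1 hAB1 h2 rfl
        apply hC
        rw [← h1, h3, Subgroup.map_bot]
      have hlen := length_lt_of_dvd Nat.card_pos.ne' hdvd hlt
      rw [hn] at hlen
      have h1 := ih _ hlen (G := H) inferInstance A₁ B₁ hA1 hB1 hAB1 rfl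
      have h2 := Cfsg.Agent.H52.derivedSeries_add_le H 2 hder (2 * (1 + (Nat.card ↥⁅B₁, B₁⁆).primeFactorsList.length))
      rw [h1, Subgroup.map_bot] at h2
      rw [eq_bot_iff]
      refine le_trans (derivedSeries_antitone G ?_) h2
      omega

/-- Let the finite group G be the product AB of an abelian subgroup A and a subgroup B of nilpotency class at most two, and let Ω be the number of prime factors, with multiplicity, of the order of the commutator subgroup of B. Then the term of index 2(1 + Ω) of the derived series of G is trivial. -/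
theorem result {G : Type*} [Group G] [Finite G] (A B : Subgroup G) [IsMulCommutative A] (hB : commutator ↥B ≤ Subgroup.center ↥B) (hAB : ∀ g : G, ∃ a ∈ A, ∃ b ∈ B, g = a * b) : derivedSeries G (2 * (1 + (Nat.card ↥(commutator ↥B)).primeFactorsList.length)) = ⊥ := by
  have hAnil : Group.IsNilpotent A := by
    open scoped IsMulCommutative in
    infer_instance
  have hsol : Group.IsSolvable G := Cfsg.Agent.S0564.result A B hAnil (Cfsg.Agent.H52.isNilpotent_of_class_two hB) hAB
  have hcard : Nat.card ↥(commutator ↥B) = Nat.card ↥⁅B, B⁆ := by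
    rw [← Subgroup.map_subtype_commutator]
    exact (Subgroup.card_map_of_injective B.subtype_injective).symm
  rw [hcard]
  apply main _ hsol A B _ _ hAB rfl
  · rw [Subgroup.commutator_eq_bot_iff_le_centralizer]
    intro x hx
    rw [Subgroup.mem_centralizer_iff]
    intro y hy
    exact congrArg Subtype.val (mul_comm' (⟨y, hy⟩ : A) ⟨x, hx⟩)
  · rw [Subgroup.commutator_eq_bot_iff_le_centralizer]
    intro x hx
    rw [Subgroup.mem_centralizer_iff]
    intro y hy
    rw [← Subgroup.map_subtype_commutator] at hx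
    obtain ⟨x, hx, rfl⟩ := hx
    exact congrArg Subtype.val (Subgroup.mem_center_iff.mp (hB hx) ⟨y, hy⟩)

end Cfsg.Agent.S0574
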