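import Mathlib
import Cfsg.Statements.S0737
import Cfsg.Agent.FT.Base
import Cfsg.Agent.FT.TwoHom
import Cfsg.Agent.FT.TwoHomB
import Cfsg.Agent.S0547
-- import your own Cfsg.Agent.* helpers here

set_option autoImplicit false
open Cfsg

namespace Cfsg.Agent.S0737

/-- A non-trivial 2-homogeneous permutation group that is not doubly transitive has odd order and degree `p^f ≡ 3 (mod 4)`, and is permutation-isomorphic to a group of semi-affine transformations `x ↦ a φ(x) + b` of the field with `p^f` elements containing all translations. -/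
theorem result {α : Type*} [Fintype α] [DecidableEq α] (G : Subgroup (Equiv.Perm α)) (hne : G ≠ ⊥) (h2 : MulAction.IsPretransitive G (Set.powersetCard α 2)) (hn2 : ¬ MulAction.IsMultiplyPretransitive G α 2) : Odd (Nat.card G) ∧ ∃ (p f : ℕ) (_ : Fact p.Prime), p ≠ 2 ∧ Fintype.card α = p ^ f ∧ p ^ f % 4 = 3 ∧ ∃ e : α ≃ GaloisField p f, (∀ g : G, e.symm.trans (((g : Equiv.Perm α)).trans e) ∈ Cfsg.semiaffineGroup (GaloisField p f)) ∧ ∀ b : GaloisField p f, ∃ g : G, ∀ x : α, e ((g : Equiv.Perm α) x) = e x + b := by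
  have hodd := FT.th_odd h2 hn2
  have h3 := FT.th_card hne h2 hn2
  have hprim := FT.th_primitive h3 h2
  have hsolv : Group.IsSolvable G := FT.solvable_of_odd hodd
  have hGnt : Nontrivial G := (Subgroup.nontrivial_iff_ne_bot G).2 hne
  have hαne : Nonempty α := Fintype.card_pos_iff.1 (by omega)
  refine ⟨hodd, ?_⟩
  obtain ⟨M, hM⟩ := H10.exists_isMinNormal (G := G)
  have hMn : M.Normal := hM.1
  obtain ⟨hMtr, hMfree, p, d, hp, hd, hcard, hMcard⟩ := Cfsg.Agent.S0547.result hprim M hM.2.1 hM.2.2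
  have hpF : Fact p.Prime := ⟨hp⟩
  obtain ⟨p', hp', hel, -, d', hd', hMcard'⟩ := hM.elementary inferInstance
  have hpp : p' = p := by
    have h5 : p' ∣ p ^ d := by rw [← hMcard, hMcard']; exact dvd_pow_self _ hd'.ne'
    exact (Nat.prime_dvd_prime_iff_eq hp' hp).1 (hp'.dvd_of_dvd_pow h5)
  subst hpp
  rw [Nat.card_eq_fintype_card] at hcard
  have h4 := FT.th_mod4 hp h3 hcard h2 hodd
  obtain ⟨ω⟩ := hαne
  have hMc : ∀ a b : M, a * b = b * a := fun a b => hel.1.1.1 a b
  let iC : CommGroup M := { (inferInstance : Group M) with mul_comm := hMc }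
  let V := Additive M
  let iM : Module (ZMod p') V := AddCommGroup.zmodModule (n := p') (fun v => by
    have h5 : (Additive.toMul v) ^ p' = 1 := Subtype.ext (hel.2 _ (Additive.toMul v).2)
    exact congrArg Additive.ofMul h5)
  have hMnt : Nontrivial M := (Subgroup.nontrivial_iff_ne_bot M).2 hM.2.1
  let τ : Multiplicative V →* G :=
    { toFun := fun v => ((Additive.toMul (Multiplicative.toAdd v) : M) : G)
      map_one' := rfl
      map_mul' := fun _ _ => rfl }
  have hVcard : Nat.card V = p' ^ d := hMcard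
  have hcore := FT.th_core (Γ := G) (V := V) (α := α) (p := p') τ (by
      intro g v
      exact ⟨Additive.ofMul ⟨g * ((Additive.toMul v : M) : G) * g⁻¹, hMn.conj_mem _ (Additive.toMul v).2 g⟩, rfl⟩)
    ω (by
      constructor
      · intro v w hvw
        have h5 : ((Additive.toMul v : M) : G) • ω = ((Additive.toMul w : M) : G) • ω := hvw
        have h6 : (Additive.toMul w)⁻¹ * Additive.toMul v ∈ MulAction.stabilizer M ω := by
          rw [MulAction.mem_stabilizer_iff, mul_smul]
          rw [inv_smul_eq_iff]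
          exact h5
        rw [hMfree ω, Subgroup.mem_bot] at h6
        exact (inv_mul_eq_one.1 h6).symm
      · intro x
        obtain ⟨m, hm⟩ := hMtr.exists_smul_eq ω x
        exact ⟨Additive.ofMul m, hm⟩)
    (fun x y z w hxy hzw => FT.th_pair h2 hxy hzw) inferInstance (by
      intro h5
      have h6 : Nat.card V % 4 = 3 := by rw [hVcard, ← hcard]; exact h4
      simp only [Set.mem_insert_iff, Set.mem_singleton_iff] at h5
      rcases h5 with h5 | h5 | h5 | h5 | h5 | h5 <;> rw [h5] at h6 <;> omega)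
  obtain ⟨F, hF, hFt, E, hFcard, hE1, hE2⟩ := hcore
  have iGf : Fintype (GaloisField p' d) := Fintype.ofFinite _
  have hFG : Fintype.card F = Fintype.card (GaloisField p' d) := by
    rw [hFcard, hVcard, ← Nat.card_eq_fintype_card, GaloisField.card p' d hd.ne']
  let φ : F ≃+* GaloisField p' d := FiniteField.ringEquivOfCardEq hFG
  refine ⟨p', d, hpF, ?_, hcard, ?_, E.trans φ.toEquiv, ?_, ?_⟩
  · rintro rfl
    have h5 : 2 ∣ Fintype.card α := by rw [hcard]; exact dvd_pow_self 2 hd.ne'
    omega
  · rw [← hcard]; exact h4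
  · intro g
    obtain ⟨a, b, σ, ha, hσ⟩ := hE1 g
    refine ⟨Units.mk0 (φ a) (fun h => ha (φ.map_eq_zero_iff.1 h)), φ b, (φ.symm.trans σ).trans φ, fun x => ?_⟩
    have h5 := hσ (E.symm (φ.symm x))
    change φ (E (g • E.symm (φ.symm x))) = φ a * φ (σ (φ.symm x)) + φ b
    rw [h5, Equiv.apply_symm_apply, map_add, map_mul]
  · intro b
    obtain ⟨g, hg⟩ := hE2 (φ.symm b)
    refine ⟨g, fun x => ?_⟩
    change φ (E (g • x)) = φ (E x) + b
    rw [hg x, map_add, RingEquiv.apply_symm_apply]

end Cfsg.Agent.S0737
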