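import Cfsg.Statements.S0885
import Mathlib
import Cfsg.Agent.H37.FNF

set_option autoImplicit false
open Cfsg

namespace Cfsg.Agent.S0885

/-- Let G be a finite Zassenhaus group on Ω with h + 1 points whose two-point stabilizer E has odd order e, and let H be the subgroup of the stabilizer of a consisting of the identity and the elements fixing no point other than a (given here as a subgroup of the stabilizer of order one less than the number of points whose non-identity elements fix only a; it is the Frobenius kernel of the stabilizer). Then either h - 1 ≤ 2 * e, or H is a non-abelian 2-group whose commutator subgroup has index at most 4 * e ^ 2 + 1 in H. -/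
theorem result {G Ω : Type*} [Group G] [Finite G] [MulAction G Ω] [Fintype Ω] (hZ : Cfsg.IsZassenhausGroup G Ω) {a b : Ω} (hab : a ≠ b) (h e : ℕ) (hh : Fintype.card Ω = h + 1) (he : Nat.card ↥(MulAction.stabilizer G a ⊓ MulAction.stabilizer G b : Subgroup G) = e) (hodd : Odd e) (H : Subgroup G) (hHa : H ≤ MulAction.stabilizer G a) (hHcard : Nat.card H + 1 = Fintype.card Ω) (hHfix : ∀ u ∈ H, u ≠ 1 → ∀ c : Ω, u • c = c → c = a) : h - 1 ≤ 2 * e ∨ (IsPGroup 2 H ∧ (∃ u v : H, u * v ≠ v * u) ∧ (commutator H).index ≤ 4 * e ^ 2 + 1) := by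
  classical
  have hfin : Finite G := by infer_instance
  have hcardΩ : Nat.card Ω = h + 1 := by rw [Nat.card_eq_fintype_card, hh]
  have hz := H34.zgp_of hZ
  have hU : H37.ZT.IsKer G a H := H37.ZT.isKer_of_card hz hab H hHa (by rw [hHcard, Nat.card_eq_fintype_card]) hHfix
  obtain ⟨S, iS, iA, φ, hφ1, hφ2, hφ3, hφ4, hφ5⟩ := H37.ZT.exists_simple_zass (Nat.card G) G rfl hZ hU
  have hUS := hU.comap φ hφ2 hφ1 hφ5
  have hfinS : Finite S := Finite.of_injective φ hφ1
  have hfS : Fintype S := Fintype.ofFinite S
  have he' : Nat.card (H34.stab2 G a b) = e := he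
  have hmap : (H34.stab2 S a b).map φ ≤ H34.stab2 G a b := by
    rintro x ⟨s, hs, rfl⟩
    have h1 := H34.mem_stab2.1 hs
    exact H34.mem_stab2.2 ⟨by rw [hφ2]; exact h1.1, by rw [hφ2]; exact h1.2⟩
  have hmapc : Nat.card ((H34.stab2 S a b).map φ) = Nat.card (H34.stab2 S a b) := Subgroup.card_map_of_injective hφ1
  have hdvd' : Nat.card (H34.stab2 S a b) ∣ e := by
    rw [← hmapc, ← he']; exact Subgroup.card_dvd_of_le hmap
  have hle : Nat.card (H34.stab2 S a b) ≤ e := Nat.le_of_dvd (by rw [← he]; exact Nat.card_pos) hdvd'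
  obtain ⟨hzn, he2, hn2⟩ := H37.ZT.zn_of_simple hφ4 hab hUS hcardΩ rfl (Odd.of_dvd_nat hodd hdvd')
  rcases hzn.main he2 hn2 with h1 | ⟨h1, h2, h3⟩
  · left; omega
  · right
    let ψ : (H.comap φ) ≃* H := MulEquiv.ofBijective
      ((φ.comp (H.comap φ).subtype).codRestrict H (fun x => x.2)) ⟨fun x y hxy => by
        have h4 : φ x.1 = φ y.1 := congrArg (fun t : H => (t : G)) hxy
        exact Subtype.ext (hφ1 h4), fun y => by
        obtain ⟨x, hx⟩ := hφ5 y.2
        exact ⟨⟨x, by change φ x ∈ H; rw [hx]; exact y.2⟩, Subtype.ext hx⟩⟩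
    refine ⟨h1.of_equiv ψ, ?_, ?_⟩
    · by_contra hcon
      push Not at hcon
      apply h2
      refine ⟨⟨fun x y => ?_⟩⟩
      apply ψ.injective
      rw [map_mul, map_mul]
      exact hcon _ _
    · have h4 : (commutator (H.comap φ)).map ψ.toMonoidHom = commutator H := by
        rw [commutator_def, Subgroup.map_commutator, commutator_def]
        rw [← MonoidHom.range_eq_map, (MonoidHom.range_eq_top (f := ψ.toMonoidHom)).2 ψ.surjective]
      have h5 : (commutator H).index = (commutator (H.comap φ)).index := by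
        rw [← h4]
        exact Subgroup.index_map_equiv _ ψ
      have h6 : ⁅H.comap φ, H.comap φ⁆.subgroupOf (H.comap φ) = commutator (H.comap φ) := by
        have h7 : (commutator (H.comap φ)).map (H.comap φ).subtype = ⁅H.comap φ, H.comap φ⁆ := by
          rw [commutator_def, Subgroup.map_commutator, ← MonoidHom.range_eq_map, Subgroup.range_subtype]
        rw [← h7]
        exact Subgroup.comap_map_eq_self_of_injective (H.comap φ).subtype_injective _
      rw [h6] at h3
      rw [h5]
      have h8 : Nat.card (H34.stab2 S a b) ^ 2 ≤ e ^ 2 := Nat.pow_le_pow_left hle 2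
      omega

end Cfsg.Agent.S0885
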