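import Cfsg.Statements.S0974
import Mathlib
import Cfsg.Agent.H37.OrdA

set_option autoImplicit false
open Cfsg

namespace Cfsg.Agent.S0974

/-- No finite simple group has order 3648 = 2^6 * 3 * 19. -/
theorem result {G : Type*} [Group G] [Finite G] [IsSimpleGroup G] : Nat.card G ≠ 3648 := by
  intro hG
  have hp : Fact (Nat.Prime 19) := ⟨by norm_num⟩
  obtain ⟨P⟩ : Nonempty (Sylow 19 G) := inferInstance
  obtain ⟨-, n, v, -, -, h⟩ := Cfsg.Agent.H37.Ord.arith (G := G) (p := 19) (m := 192) (by rw [hG]) (by norm_num)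
    (by rw [hG]; norm_num) P
  obtain ⟨e, he⟩ : ∃ e, e = Cfsg.Agent.BR.ind (P : Subgroup G) := ⟨_, rfl⟩
  rw [← he] at h
  have hn : n = 96 := by
    have h1 : n ∈ Nat.divisors 192 := Nat.mem_divisors.2 ⟨⟨e * v, h.hm⟩, by norm_num⟩
    have h2 : ∀ n ∈ Nat.divisors 192, n % 19 = 1 → n ≠ 1 → n = 96 := by decide
    exact h2 n h1 h.n_mod h.n_ne
  have hm := h.hm
  rw [hn] at hm
  have hev : e * v = 2 := by omega
  have he2 : e = 2 := by
    have h1 : e ∣ 2 := ⟨v, hev.symm⟩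
    have := Nat.le_of_dvd (by norm_num) h1
    have := h.e_two
    omega
  obtain ⟨F, h1, h2, h3, h4, h5⟩ := h.two he2
  rw [hn] at h1 h2
  have hd : ∀ d ∈ Nat.divisors (2 * 96), 1 < d → (d % 19 = 1 ∨ d % 19 = 18) → d = 96 := by decide
  have hF := hd F.natAbs (Nat.mem_divisors.2 ⟨h1, by norm_num⟩) h3 (by omega)
  have h6 : F = 96 ∨ F = -96 := by omega
  rcases h6 with h6 | h6
  · rw [h6] at h2
    revert h2
    decide
  · rw [h6] at h5
    revert h5
    decide

end Cfsg.Agent.S0974
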