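import Cfsg.Statements.S0979
import Mathlib
import Cfsg.Agent.H37.OrdA

set_option autoImplicit false
open Cfsg

namespace Cfsg.Agent.S0979

/-- No finite simple group has order 5472 = 2^5 * 3^2 * 19. -/
theorem result {G : Type*} [Group G] [Finite G] [IsSimpleGroup G] : Nat.card G ≠ 5472 := by
  intro hG
  have hp : Fact (Nat.Prime 19) := ⟨by norm_num⟩
  obtain ⟨P⟩ : Nonempty (Sylow 19 G) := inferInstance
  obtain ⟨-, n, v, -, -, h⟩ := Cfsg.Agent.H37.Ord.arith (G := G) (p := 19) (m := 288) (by rw [hG]) (by norm_num)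
    (by rw [hG]; norm_num) P
  obtain ⟨e, he⟩ : ∃ e, e = Cfsg.Agent.BR.ind (P : Subgroup G) := ⟨_, rfl⟩
  rw [← he] at h
  have hn : n = 96 := by
    have h1 : n ∈ Nat.divisors 288 := Nat.mem_divisors.2 ⟨⟨e * v, h.hm⟩, by norm_num⟩
    have h2 : ∀ n ∈ Nat.divisors 288, n % 19 = 1 → n ≠ 1 → n = 96 := by decide
    exact h2 n h1 h.n_mod h.n_ne
  have hm := h.hm
  rw [hn] at hm
  have hev : e * v = 3 := by omega
  have he3 : e = 3 := by
    have h1 : e ∣ 3 := ⟨v, hev.symm⟩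
    have h2 := h.e_two
    rcases (Nat.dvd_prime Nat.prime_three).1 h1 with h3 | h3
    · omega
    · exact h3
  obtain ⟨F₁, F₂, h1, h2, h3, h4, h5, h6, h7, h8⟩ := h.three he3
  rw [hn] at h1 h2 h3
  have hd : ∀ d ∈ Nat.divisors (3 * 96), 1 < d → (d % 19 = 1 ∨ d % 19 = 18) → d = 96 ∨ d = 18 := by decide
  have hF1 := hd F₁.natAbs (Nat.mem_divisors.2 ⟨h1, by norm_num⟩) h4 (by omega)
  have hF2 := hd F₂.natAbs (Nat.mem_divisors.2 ⟨h2, by norm_num⟩) h5 (by omega)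
  have h9 : F₁ = 96 ∨ F₁ = -18 := by omega
  have h10 : F₂ = 96 ∨ F₂ = -18 := by omega
  rcases h9 with h9 | h9 <;> rcases h10 with h10 | h10 <;>
  · rw [h9, h10] at h3
    revert h3
    decide

end Cfsg.Agent.S0979
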