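import Cfsg.Statements.S1172
import Cfsg.Agent.GPF.Inst
import Cfsg.Agent.GPF.SClosed

set_option autoImplicit false
open Cfsg

namespace Cfsg.Agent.S1172

/-- Let G be a finite group with no nontrivial normal subgroup of odd order and no proper normal subgroup of odd index, whose Sylow 2-subgroup S is not commutative and is the internal direct product of two subgroups each isomorphic to a dihedral group of order at least 4 and each strongly closed in S with respect to G (product fusion). Then G is the internal direct product of two normal subgroups G₁, G₂, and S is the internal direct product of dihedral subgroups R₁ ≤ G₁ and R₂ ≤ G₂ of odd index in G₁ and G₂ respectively (so R_i is a Sylow 2-subgroup of G_i). -/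
theorem result {G : Type*} [Group G] [Finite G] (hO : Cfsg.oddCore G = ⊥) (hO' : ∀ N : Subgroup G, N.Normal → Odd N.index → N = ⊤) (S : Sylow 2 G) (hS : ¬ IsMulCommutative (S : Subgroup G)) (S₁ S₂ : Subgroup G) (hprod : Cfsg.IsInternalDirectProduct S₁ S₂ (S : Subgroup G)) (m₁ m₂ : ℕ) (hm₁ : 2 ≤ m₁) (hm₂ : 2 ≤ m₂) (e₁ : S₁ ≃* DihedralGroup m₁) (e₂ : S₂ ≃* DihedralGroup m₂) (hcl₁ : Cfsg.IsStronglyClosed S₁ (S : Subgroup G)) (hcl₂ : Cfsg.IsStronglyClosed S₂ (S : Subgroup G)) : ∃ G₁ G₂ : Subgroup G, G₁.Normal ∧ G₂.Normal ∧ Cfsg.IsInternalDirectProduct G₁ G₂ ⊤ ∧ ∃ R₁ R₂ : Subgroup G, Cfsg.IsInternalDirectProduct R₁ R₂ (S : Subgroup G) ∧ (∃ n₁, 2 ≤ n₁ ∧ Nonempty (R₁ ≃* DihedralGroup n₁)) ∧ (∃ n₂, 2 ≤ n₂ ∧ Nonempty (R₂ ≃* DihedralGroup n₂)) ∧ R₁ ≤ G₁ ∧ R₂ ≤ G₂ ∧ Odd (R₁.relIndex G₁) ∧ Odd (R₂.relIndex G₂) := by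
  haveI : Fact (Nat.Prime 2) := ⟨Nat.prime_two⟩
  obtain ⟨h1P, h2P, hcomm, hdisj, hsup⟩ := hprod
  set N₁ := Subgroup.normalClosure (S₁ : Set G) with hN₁
  set N₂ := Subgroup.normalClosure (S₂ : Set G) with hN₂
  have hn₁ : N₁.Normal := Subgroup.normalClosure_normal
  have hn₂ : N₂.Normal := Subgroup.normalClosure_normal
  have hc : ⁅N₁, N₂⁆ = ⊥ := by
    have h := Cfsg.Agent.GPF.main_sc Cfsg.Agent.GPF.inp S hcomm hdisj hcl₁ hcl₂
    rw [hO] at h
    exact le_bot_iff.1 h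
  have hc' : ⁅N₂, N₁⁆ = ⊥ := by rw [Subgroup.commutator_comm, hc]
  have hi₁ : (S : Subgroup G) ⊓ N₁ = S₁ :=
    Cfsg.Agent.GPF.inf_normalClosure S ⟨h1P, h2P, hcomm, hdisj, hsup⟩ hcl₁ hc
  have hi₂ : (S : Subgroup G) ⊓ N₂ = S₂ :=
    Cfsg.Agent.GPF.inf_normalClosure S ⟨h2P, h1P, fun a ha b hb => (hcomm b hb a ha).symm, by rwa [inf_comm],
      by rwa [sup_comm]⟩ hcl₂ hc'
  have hSle₁ : S₁ ≤ N₁ := Subgroup.subset_normalClosure
  have hSle₂ : S₂ ≤ N₂ := Subgroup.subset_normalClosure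
  -- the index of the Sylow part
  have hodd : ∀ N : Subgroup G, N.Normal → Odd (((S : Subgroup G) ⊓ N).relIndex N) := by
    intro N hN
    rw [Subgroup.inf_relIndex_right, Cfsg.Agent.Transfer.relIndex_eq_relIndex_sup]
    have h1 : (S : Subgroup G).relIndex ((S : Subgroup G) ⊔ N) ∣ (S : Subgroup G).index :=
      Subgroup.relIndex_dvd_index_of_le le_sup_left
    have h2 : ¬ 2 ∣ (S : Subgroup G).index := S.not_dvd_index
    rw [← Nat.not_even_iff_odd, even_iff_two_dvd]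
    exact fun h3 => h2 (h3.trans h1)
  have htop : N₁ ⊔ N₂ = ⊤ := by
    apply hO' _ inferInstance
    have h1 : (S : Subgroup G) ≤ N₁ ⊔ N₂ := by
      rw [← hsup]
      exact sup_le (hSle₁.trans le_sup_left) (hSle₂.trans le_sup_right)
    have h2 : (N₁ ⊔ N₂).index ∣ (S : Subgroup G).index := Subgroup.index_dvd_of_le h1
    rw [← Nat.not_even_iff_odd, even_iff_two_dvd]
    exact fun h3 => S.not_dvd_index (h3.trans h2)
  have hinf : N₁ ⊓ N₂ = ⊥ := by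
    have h1 : (S : Subgroup G) ⊓ (N₁ ⊓ N₂) = ⊥ := by
      rw [← hdisj, ← hi₁, ← hi₂, inf_inf_distrib_left]
    have h2 := hodd (N₁ ⊓ N₂) inferInstance
    rw [h1, Subgroup.relIndex_bot_left] at h2
    have h3 := Cfsg.Agent.Solv.le_pPrimeCore (p := 2) (N := N₁ ⊓ N₂) inferInstance (by rwa [Nat.coprime_two_right])
    rw [show Cfsg.pPrimeCore 2 G = ⊥ from hO] at h3
    exact le_bot_iff.1 h3
  refine ⟨N₁, N₂, hn₁, hn₂, ⟨le_top, le_top, ?_, hinf, htop⟩, S₁, S₂, ⟨h1P, h2P, hcomm, hdisj, hsup⟩,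
    ⟨m₁, hm₁, ⟨e₁⟩⟩, ⟨m₂, hm₂, ⟨e₂⟩⟩, hSle₁, hSle₂, ?_, ?_⟩
  · intro a ha b hb
    have h1 := Subgroup.commutator_mem_commutator ha hb
    rw [hc] at h1
    exact commutatorElement_eq_one_iff_mul_comm.1 (Subgroup.mem_bot.1 h1)
  · have := hodd N₁ hn₁
    rwa [hi₁] at this
  · have := hodd N₂ hn₂
    rwa [hi₂] at this

end Cfsg.Agent.S1172
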