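import Cfsg.Statements.S1245
import Cfsg.Agent.H86.TwoTimes6
import Cfsg.Agent.H86.TwoTimes7
import Cfsg.Agent.JV.Four4
import Cfsg.Agent.BS.Conseq
import Cfsg.Agent.S0251
import Cfsg.Agent.S2540

set_option autoImplicit false
open Cfsg

namespace Cfsg.Agent.S1245

/-- Let G be a non-abelian finite simple group with commutative Sylow 2-subgroups, and t an involution whose centralizer is the internal direct product of ⟨t⟩ and a subgroup E which has a normal subgroup E₀ ≅ PSL(2,F), |F| odd, with C_E(E₀) = 1 (so PSL(2,q) ≤ E ≤ Aut PSL(2,q)). Then C_G(t) is a maximal subgroup of G. -/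
theorem result {G : Type*} [Group G] [Finite G] [IsSimpleGroup G] (hna : ¬ IsMulCommutative G) (S : Sylow 2 G) (hS : IsMulCommutative (S : Subgroup G)) (t : G) (ht : orderOf t = 2) (E E₀ : Subgroup G) (hprod : Cfsg.IsInternalDirectProduct (Subgroup.zpowers t) E (Subgroup.centralizer ({t} : Set G))) (hE₀E : E₀ ≤ E) (hE₀n : (E₀.subgroupOf E).Normal) (hE₀ : ∃ (F : Type) (_ : Field F) (_ : Fintype F), Odd (Fintype.card F) ∧ Nonempty (E₀ ≃* Matrix.ProjectiveSpecialLinearGroup (Fin 2) F)) (hCE : E ⊓ Subgroup.centralizer (E₀ : Set G) = ⊥) : IsCoatom (Subgroup.centralizer ({t} : Set G)) := by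
  classical
  haveI : Fact (Nat.Prime 2) := ⟨Nat.prime_two⟩
  obtain ⟨F, _, _, hodd, ⟨f⟩⟩ := hE₀
  have hc : ∀ P : Sylow 2 G, ∀ x ∈ P, ∀ y ∈ P, x * y = y * x := by
    refine Cfsg.Agent.H86.TT.comm_all (S := S) ?_
    intro x hx y hy
    exact congrArg Subtype.val (hS.is_comm.comm (⟨x, hx⟩ : (S : Subgroup G)) ⟨y, hy⟩)
  have hna' : ∃ a b : G, a * b ≠ b * a := by
    by_contra h
    push Not at h
    exact hna ⟨⟨h⟩⟩
  obtain ⟨hq, S', v, b, D⟩ := Cfsg.Agent.H86.TT.exists_dat hodd hc ht hprod hE₀E hE₀n f hCE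
  by_cases h3 : Fintype.card F ≤ 3
  · exfalso
    have hF3 : Fintype.card F = 3 := by omega
    obtain ⟨e⟩ := Cfsg.Agent.S0251.result hF3
    have hE := D.E_eq hprod hE₀n (f.trans e) hCE
    have hns : ¬ Group.IsSolvable G := by
      intro hs
      obtain ⟨a, b', hab⟩ := hna'
      exact hab ((IsSimpleGroup.comm_iff_isSolvable).2 hs a b')
    have h2 : ∀ N : Subgroup G, N.Normal → N.index ≠ 2 := by
      intro N hN hi
      rcases hN.eq_bot_or_eq_top with h | h
      · rw [h, Subgroup.index_bot] at hi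
        have := isCyclic_of_prime_card hi
        obtain ⟨a, b', hab⟩ := hna'
        obtain ⟨g, hg⟩ := IsCyclic.exists_generator (α := G)
        obtain ⟨i, rfl⟩ := Subgroup.mem_zpowers_iff.1 (hg a)
        obtain ⟨j, rfl⟩ := Subgroup.mem_zpowers_iff.1 (hg b')
        exact hab (by rw [← zpow_add, ← zpow_add, add_comm])
      · rw [h, Subgroup.index_top] at hi
        exact absurd hi (by decide)
    have hJ : Cfsg.IsTwoCentralInvolution t := ⟨ht, S', D.tS, fun x hx => D.comm x hx t D.tS⟩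
    obtain ⟨EM, hEM⟩ := Cfsg.Agent.JV.exists_embM ht E₀ (f.trans e) (hE ▸ hprod)
    rw [← hEM] at hJ
    have hα := EM.exists_fusion h2 hJ
    obtain ⟨S₂, L⟩ := Cfsg.Agent.JV.four_loc hns EM hJ hα
    obtain ⟨F8, _, _, hF8, ⟨e8⟩⟩ := L.final
    exact Cfsg.Agent.H86.TT.aut_psl_eight_not_simple hF8 e8
  · have hs1 : IsSimpleGroup (Matrix.ProjectiveSpecialLinearGroup (Fin 2) F) :=
      Cfsg.Agent.S2540.psl_simple 2 le_rfl (by omega)
    have hs2 : IsSimpleGroup E₀ := (MulEquiv.isSimpleGroup_congr f).2 hs1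
    refine D.maximal hna' (fun H hH => Cfsg.Agent.BS.exists_eq_normalizer hna' hH) ?_ hCE
    intro N hN hn
    have hnn : (N.subgroupOf E₀).Normal := by
      refine ⟨?_⟩
      rintro ⟨y, hy⟩ hyN ⟨x, hx⟩
      exact Subgroup.mem_subgroupOf.2 (hn x hx y (Subgroup.mem_subgroupOf.1 hyN))
    rcases hnn.eq_bot_or_eq_top with h | h
    · left
      rw [Subgroup.subgroupOf_eq_bot] at h
      rw [disjoint_iff, inf_eq_left.2 hN] at h
      exact h
    · right
      rw [Subgroup.subgroupOf_eq_top] at h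
      exact le_antisymm hN h

end Cfsg.Agent.S1245
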