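import Cfsg.Statements.S1279
import Cfsg.Agent.SigF.Bal1

set_option autoImplicit false
open Cfsg

namespace Cfsg.Agent.S1279

/-- Let A be a noncyclic elementary abelian p-subgroup of the finite group G such that C_G(a) is solvable for every non-identity a ∈ A. Then a ↦ O_{p'}(C_G(a)) is a solvable A-signalizer functor on G. -/
theorem result {G : Type*} [Group G] [Finite G] (p : ℕ) [Fact p.Prime] (A : Subgroup G) (hA : Cfsg.IsElementaryAbelian p A) (hA2 : p ^ 2 ≤ Nat.card ↥A) (hsolv : ∀ a ∈ A, a ≠ 1 → Group.IsSolvable ↥(Subgroup.centralizer ({a} : Set G))) : Cfsg.IsSolvableSignalizerFunctor p A (fun a => Cfsg.centralizerPPrimeCore p a) := by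
  have hcomm : ∀ a ∈ A, ∀ b ∈ A, a * b = b * a := fun a ha b hb => SigF.elem_comm hA ha hb
  refine ⟨⟨fun a ha ha1 => SigF.Bal1.cppc_le a, fun a ha ha1 => SigF.Bal1.cppc_not_dvd a, ?_, ?_⟩, ?_⟩
  · intro a ha ha1 b hb x hx
    have h1 : b ∈ Subgroup.normalizer ((Cfsg.centralizerPPrimeCore p a : Subgroup G) : Set G) :=
      SigF.Bal1.centralizer_le_normalizer_cppc a
        (Subgroup.mem_centralizer_singleton_iff.2 (hcomm b hb a ha))
    exact (Subgroup.mem_normalizer_iff.1 h1 x).1 hx
  · intro a ha ha1 b hb hb1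
    exact SigF.Bal1.balance_of_pConstrained (hcomm a ha b hb) (SigF.isPGroup_zpowers hA ha)
      (SigF.PC.isPConstrained_of_isSolvable (hsolv b hb hb1))
  · intro a ha ha1
    haveI := hsolv a ha ha1
    exact Group.isSolvable_of_isSolvable_injective
      (Subgroup.inclusion_injective (SigF.Bal1.cppc_le a))

end Cfsg.Agent.S1279
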