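import Cfsg.Statements.S1312
import Cfsg.Agent.SigF.MaxPair

set_option autoImplicit false
open Cfsg

namespace Cfsg.Agent.S1312

open SigF SigF.MaxPair

/-- Let G be a non-abelian finite simple group and M ≠ N maximal subgroups of G with F*(M) ≤ N and F*(N) ≤ M. Then there is a prime p such that F*(M) and F*(N) are both p-groups. -/
theorem result {G : Type*} [Group G] [Finite G] [IsSimpleGroup G] (hna : ¬ IsMulCommutative G) (M N : Subgroup G) (hM : IsCoatom M) (hN : IsCoatom N) (hMN : M ≠ N) (h1 : (Cfsg.generalizedFittingSubgroup ↥M).map M.subtype ≤ N) (h2 : (Cfsg.generalizedFittingSubgroup ↥N).map N.subtype ≤ M) : ∃ p : ℕ, p.Prime ∧ IsPGroup p ↥(Cfsg.generalizedFittingSubgroup ↥M) ∧ IsPGroup p ↥(Cfsg.generalizedFittingSubgroup ↥N) := by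
  classical
  -- basic facts on maximal subgroups
  have hMt : M ≠ ⊤ := hM.1
  have hmax : ∀ M : Subgroup G, IsCoatom M → ∀ X : Subgroup G, X ≠ ⊥ → X ≤ M →
      M ≤ Subgroup.normalizer (X : Set G) → Subgroup.normalizer (X : Set G) = M := by
    intro M hM X hX hXM hMX
    rcases hM.le_iff.1 hMX with h | h
    · exfalso
      have hXn : X.Normal := Subgroup.normalizer_eq_top_iff.1 h
      rcases hXn.eq_bot_or_eq_top with h3 | h3
      · exact hX h3
      · rw [h3] at hXM
        exact hM.1 (top_le_iff.1 hXM)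
    · exact h
  have hnb : ∀ M : Subgroup G, IsCoatom M → M ≠ ⊥ := by
    rintro M hM rfl
    -- then `G` has no proper nontrivial subgroups, so is cyclic
    apply hna
    obtain ⟨g, hg⟩ := exists_ne (1 : G)
    have h3 : Subgroup.zpowers g = ⊤ := by
      rcases hM.le_iff.1 (bot_le : ⊥ ≤ Subgroup.zpowers g) with h | h
      · exact h
      · exact absurd (Subgroup.zpowers_eq_bot.1 h) hg
    refine IsMulCommutative.of_comm fun a b => ?_
    have ha : a ∈ Subgroup.zpowers g := by rw [h3]; exact Subgroup.mem_top a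
    have hb : b ∈ Subgroup.zpowers g := by rw [h3]; exact Subgroup.mem_top b
    obtain ⟨i, rfl⟩ := Subgroup.mem_zpowers_iff.1 ha
    obtain ⟨j, rfl⟩ := Subgroup.mem_zpowers_iff.1 hb
    exact (zpow_mul_comm g i j)
  -- layers are trivial
  have hE : (Cfsg.layer M).map M.subtype = (Cfsg.layer N).map N.subtype :=
    le_antisymm (component_le_layer_of_pair h1 h2) (component_le_layer_of_pair h2 h1)
  have hlayn : ∀ M : Subgroup G, M ≤ Subgroup.normalizer (((Cfsg.layer M).map M.subtype : Subgroup G) : Set G) :=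
    fun M => Subgroup.le_normalizer.trans (H49.normalizer_le_normalizer_map_of_char M _)
  have hEM : Cfsg.layer M = ⊥ := by
    by_contra hne
    have h3 : (Cfsg.layer M).map M.subtype ≠ ⊥ := fun h =>
      hne ((Subgroup.map_eq_bot_iff_of_injective _ M.subtype_injective).1 h)
    apply hMN
    rw [← hmax M hM _ h3 (Subgroup.map_subtype_le _) (hlayn M)]
    rw [hE] at h3 ⊢
    exact hmax N hN _ h3 (Subgroup.map_subtype_le _) (hlayn N)
  have hEN : Cfsg.layer N = ⊥ := by
    rw [hEM, Subgroup.map_bot] at hE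
    exact (Subgroup.map_eq_bot_iff_of_injective _ N.subtype_injective).1 hE.symm
  have hgF : ∀ M : Subgroup G, Cfsg.layer M = ⊥ → ∀ p : ℕ, p.Prime →
      Cfsg.generalizedFittingSubgroup M = Cfsg.pCore p M ⊔ (Cfsg.fittingSubgroup M ⊓ Cfsg.pPrimeCore p M) := by
    intro M hM p hp
    haveI : Fact p.Prime := ⟨hp⟩
    rw [Cfsg.generalizedFittingSubgroup, hM, bot_sup_eq]
    exact fitting_eq (p := p) M
  -- a prime with `O_p(M) ≠ 1`
  have hex : ∀ M : Subgroup G, IsCoatom M → Cfsg.layer M = ⊥ → ∃ p : ℕ, p.Prime ∧ Cfsg.pCore p M ≠ ⊥ := by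
    intro M hM hlM
    by_contra hcon
    push Not at hcon
    have h3 : Cfsg.generalizedFittingSubgroup M = ⊥ := by
      rw [Cfsg.generalizedFittingSubgroup, hlM, bot_sup_eq, Solv.fitting_eq_iSup_pCore]
      rw [eq_bot_iff]
      exact iSup_le fun q => (hcon q q.2).le
    have h4 := FStar.centralizer_generalizedFitting_le (G := M)
    rw [h3] at h4
    apply hnb M hM
    rw [eq_bot_iff]
    intro x hx
    have h5 : (⟨x, hx⟩ : M) ∈ Subgroup.centralizer ((⊥ : Subgroup M) : Set M) := by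
      rw [Subgroup.mem_centralizer_iff]
      intro y hy
      rw [SetLike.mem_coe, Subgroup.mem_bot] at hy
      rw [hy, one_mul, mul_one]
    have h6 := h4 h5
    rw [Subgroup.mem_bot] at h6
    exact Subgroup.mem_bot.2 (congrArg Subtype.val h6)
  obtain ⟨p, hp, hPM⟩ := hex M hM hEM
  haveI : Fact p.Prime := ⟨hp⟩
  have fM := fd_of_layer (p := p) M hEM
  have fN := fd_of_layer (p := p) N hEN
  obtain ⟨P, hP⟩ : ∃ P, P = (Cfsg.pCore p M).map M.subtype := ⟨_, rfl⟩
  obtain ⟨Q, hQ⟩ : ∃ Q, Q = (Cfsg.fittingSubgroup M ⊓ Cfsg.pPrimeCore p M).map M.subtype := ⟨_, rfl⟩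
  obtain ⟨P', hP'⟩ : ∃ P', P' = (Cfsg.pCore p N).map N.subtype := ⟨_, rfl⟩
  obtain ⟨Q', hQ'⟩ : ∃ Q', Q' = (Cfsg.fittingSubgroup N ⊓ Cfsg.pPrimeCore p N).map N.subtype := ⟨_, rfl⟩
  rw [← hP, ← hQ] at fM
  rw [← hP', ← hQ'] at fN
  have hFM : (Cfsg.generalizedFittingSubgroup M).map M.subtype = P ⊔ Q := by
    rw [hgF M hEM p hp, Subgroup.map_sup, hP, hQ]
  have hFN : (Cfsg.generalizedFittingSubgroup N).map N.subtype = P' ⊔ Q' := by
    rw [hgF N hEN p hp, Subgroup.map_sup, hP', hQ']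
  rw [hFM] at h1
  rw [hFN] at h2
  have hP1 : P ≠ ⊥ := by
    rw [hP]
    exact fun h => hPM ((Subgroup.map_eq_bot_iff_of_injective _ M.subtype_injective).1 h)
  have hsolo : ∀ M N P Q P' Q' : Subgroup G, FD p M P Q → FD p N P' Q' → P ⊔ Q ≤ N → P' ⊔ Q' ≤ M →
      Q = ⊥ → Q' = ⊥ := by
    intro M N P Q P' Q' f f' h1 h2 hQ0
    have h3 := comm_of f.pP f'.pQ f.nP f'.nQ (le_sup_left.trans h1) (le_sup_right.trans h2)
    have h4 : Q' ≤ P := by
      intro y hy
      have h5 : y ∈ M ⊓ (Subgroup.centralizer (P : Set G) ⊓ Subgroup.centralizer (Q : Set G)) := by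
        refine ⟨h2 (Subgroup.mem_sup_right hy), ?_, ?_⟩
        · apply Subgroup.mem_centralizer_iff.2
          intro a ha
          exact h3 a ha y hy
        · rw [hQ0]
          apply Subgroup.mem_centralizer_iff.2
          intro a ha
          rw [SetLike.mem_coe, Subgroup.mem_bot] at ha
          rw [ha, one_mul, mul_one]
      have h6 := f.self h5
      rwa [hQ0, sup_bot_eq] at h6
    have h5 := SigF.MaxPair.inf_eq_bot f.pP f'.pQ
    rwa [inf_eq_right.2 h4] at h5
  have hpg : ∀ M P Q : Subgroup G, FD p M P Q →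
      (Cfsg.generalizedFittingSubgroup M).map M.subtype = P ⊔ Q → Q = ⊥ →
      IsPGroup p (Cfsg.generalizedFittingSubgroup M) := by
    intro M P Q f hF hQ0
    rw [hQ0, sup_bot_eq] at hF
    have h3 : IsPGroup p ((Cfsg.generalizedFittingSubgroup M).map M.subtype) := by rw [hF]; exact f.pP
    exact h3.of_equiv (Subgroup.equivMapOfInjective _ _ M.subtype_injective).symm
  by_cases hQ0 : Q = ⊥
  · exact ⟨p, hp, hpg M P Q fM hFM hQ0, hpg N P' Q' fN hFN (hsolo M N P Q P' Q' fM fN h1 h2 hQ0)⟩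
  by_cases hQ0' : Q' = ⊥
  · exact absurd (hsolo N M P' Q' P Q fN fM h2 h1 hQ0') hQ0
  exact absurd (eq_of_FD fM fN (hmax M hM) (hmax N hN) (le_sup_left.trans h1) (le_sup_right.trans h1)
    (le_sup_left.trans h2) (le_sup_right.trans h2) hP1 hQ0 hQ0') hMN

end Cfsg.Agent.S1312
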