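import Cfsg.Statements.S1313
import Cfsg.Agent.FStar.Layer

set_option autoImplicit false
open Cfsg

namespace Cfsg.Agent.S1313

theorem card_mulAut_le (F : Type*) [Group F] [Finite F] :
    Nat.card (MulAut F) ≤ (Nat.card F - 1).factorial := by
  classical
  haveI := Fintype.ofFinite F
  let f : MulAut F → Equiv.Perm {x : F // x ≠ 1} := fun φ =>
    φ.toEquiv.subtypeEquiv (fun a => by simp)
  have hf : Function.Injective f := by
    intro φ ψ h
    ext a
    by_cases ha : a = 1
    · rw [ha, map_one, map_one]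
    · have h1 := congrArg (fun g : Equiv.Perm {x : F // x ≠ 1} => (g ⟨a, ha⟩ : F)) h
      exact h1
  have h1 := Nat.card_le_card_of_injective f hf
  have h2 : Nat.card (Equiv.Perm {x : F // x ≠ 1}) = (Nat.card F - 1).factorial := by
    rw [Nat.card_eq_fintype_card, Fintype.card_perm, Nat.card_eq_fintype_card]
    congr 1
    rw [Fintype.card_subtype_compl, Fintype.card_subtype_eq]
  rwa [h2] at h1

/-- For a finite group H, |H| ≤ |F*(H)|!. -/
theorem result {H : Type*} [Group H] [Finite H] : Nat.card H ≤ Nat.factorial (Nat.card ↥(Cfsg.generalizedFittingSubgroup H)) := by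
  obtain ⟨F, hF⟩ : ∃ F : Subgroup H, F = Cfsg.generalizedFittingSubgroup H := ⟨_, rfl⟩
  haveI hFn : F.Normal := by rw [hF]; infer_instance
  have hC : Subgroup.centralizer (F : Set H) ≤ F := by
    rw [hF]; exact FStar.centralizer_generalizedFitting_le
  rw [← hF]
  have h1 : Nat.card H = Nat.card (MulAut.conjNormal : H →* MulAut F).range *
      Nat.card (MulAut.conjNormal : H →* MulAut F).ker := by
    rw [← Subgroup.index_ker]
    exact (Subgroup.index_mul_card _).symm
  have h2 : Nat.card (MulAut.conjNormal : H →* MulAut F).ker ≤ Nat.card F := by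
    apply Subgroup.card_le_of_le
    refine le_trans ?_ hC
    intro x hx
    rw [Subgroup.mem_centralizer_iff]
    intro y hy
    have h3 := congrArg (fun φ : MulAut F => ((φ ⟨y, hy⟩ : F) : H)) (MonoidHom.mem_ker.1 hx)
    simp only [MulAut.conjNormal_apply, MulAut.one_apply] at h3
    rw [mul_inv_eq_iff_eq_mul] at h3
    exact h3.symm
  have h3 : Nat.card (MulAut.conjNormal : H →* MulAut F).range ≤ (Nat.card F - 1).factorial :=
    (Subgroup.card_le_card_group _).trans (card_mulAut_le F)
  have h4 : 0 < Nat.card F := Nat.card_pos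
  obtain ⟨n, hn⟩ : ∃ n, Nat.card F = n + 1 := ⟨Nat.card F - 1, by omega⟩
  rw [h1]
  refine (Nat.mul_le_mul h3 h2).trans ?_
  rw [hn, Nat.add_sub_cancel, Nat.factorial_succ, mul_comm]

end Cfsg.Agent.S1313
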