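import Cfsg.Statements.S1330
import Cfsg.Agent.H65.CSep

set_option autoImplicit false
open Cfsg

namespace Cfsg.Agent.S1330

open Cfsg.Agent.H65.CSep in
/-- Let A₁, A₂ be core-separated four-subgroups of the finite group G and A = A₁A₂. For a ∈ G put O_a = O(C_G(a)) and θ a = ⋂_{i=1,2} ( ⁅O_a, A_i⁆ · (O_a ∩ O(C_G(A_i))) ). Then θ is an A-signalizer functor for the prime 2. -/
theorem result {G : Type*} [Group G] [Finite G] (A₁ A₂ : Subgroup G) (hcs : Cfsg.IsCoreSeparated A₁ A₂) : Cfsg.IsSignalizerFunctor 2 (A₁ ⊔ A₂) (fun a => (⁅Cfsg.centralizerPPrimeCore 2 a, A₁⁆ ⊔ (Cfsg.centralizerPPrimeCore 2 a ⊓ ((Cfsg.oddCore ↥(Subgroup.centralizer ((A₁ : Subgroup G) : Set G))).map (Subgroup.centralizer ((A₁ : Subgroup G) : Set G)).subtype))) ⊓ (⁅Cfsg.centralizerPPrimeCore 2 a, A₂⁆ ⊔ (Cfsg.centralizerPPrimeCore 2 a ⊓ ((Cfsg.oddCore ↥(Subgroup.centralizer ((A₂ : Subgroup G)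 : Set G))).map (Subgroup.centralizer ((A₂ : Subgroup G) : Set G)).subtype)))) := by
  have h12 : Cfsg.Agent.H65.CSep.Sep A₁ A₂ := ⟨hcs.1, hcs.2.1, hcs.2.2.1, hcs.2.2.2.2.2.2.1,
    fun b hb hb1 L hL => sepQ hcs hb hb1 hL⟩
  have h21 : Cfsg.Agent.H65.CSep.Sep A₂ A₁ := ⟨hcs.2.1, hcs.1, hcs.2.2.2.1, fun x hx y hy => (hcs.2.2.2.2.2.2.1 y hy x hx).symm,
    fun b hb hb1 L hL => (sepQ hcs (by rwa [sup_comm]) hb1 hL).symm⟩
  have hle : ∀ a ∈ A₁ ⊔ A₂, th A₁ a ⊓ th A₂ a ≤ cp a := fun a ha => inf_le_left.trans (th_le A₁ A₂ h12 ha)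
  have hodd : ∀ a ∈ A₁ ⊔ A₂, (Nat.card (th A₁ a ⊓ th A₂ a : Subgroup G)).Coprime 2 := fun a ha =>
    Nat.Coprime.coprime_dvd_left (Subgroup.card_dvd_of_le (hle a ha)) (odd_cp a)
  have hn : ∀ a ∈ A₁ ⊔ A₂, A₁ ⊔ A₂ ≤ Subgroup.normalizer ((th A₁ a ⊓ th A₂ a : Subgroup G) : Set G) := by
    intro a ha g hg
    have h1 := h12.le_normalizer_th ha hg
    have h2 := h21.le_normalizer_th (a := a) (by rwa [sup_comm]) (show g ∈ A₂ ⊔ A₁ by rwa [sup_comm])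
    refine Cfsg.Agent.Bal.mem_normalizer_of_forall fun y hy => ⟨?_, ?_⟩
    · exact (Subgroup.mem_normalizer_iff.1 h1 y).1 hy.1
    · exact (Subgroup.mem_normalizer_iff.1 h2 y).1 hy.2
  refine ⟨fun a ha _ => (hle a ha).trans (Cfsg.Agent.H31.cpc_le a), ?_, ?_, ?_⟩
  · intro a ha _ h2
    have h3 := hodd a ha
    have h4 : 2 ∣ Nat.gcd (Nat.card (th A₁ a ⊓ th A₂ a : Subgroup G)) 2 := Nat.dvd_gcd h2 dvd_rfl
    rw [h3] at h4
    exact absurd h4 (by decide)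
  · intro a ha _ b hb x hx
    exact (Subgroup.mem_normalizer_iff.1 (hn a ha hb) x).1 hx
  · intro a ha ha1 b hb hb1
    set X : Subgroup G := (th A₁ a ⊓ th A₂ a) ⊓ CC b with hX
    have hXa : X ≤ cp a := inf_le_left.trans (hle a ha)
    have hXn : A₁ ⊔ A₂ ≤ Subgroup.normalizer (X : Set G) := by
      intro g hg
      refine Cfsg.Agent.Bal.mem_normalizer_of_forall fun y hy => ⟨?_, ?_⟩
      · exact (Subgroup.mem_normalizer_iff.1 (hn a ha hg) y).1 hy.1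
      · exact (CC b).mul_mem ((CC b).mul_mem (h12.mem_CC hg hb) hy.2) ((CC b).inv_mem (h12.mem_CC hg hb))
    have hXn' : A₂ ⊔ A₁ ≤ Subgroup.normalizer (X : Set G) := by rwa [sup_comm]
    have hX1 : X ≤ th A₁ a := inf_le_left.trans inf_le_left
    have hX2 : X ≤ th A₂ a := inf_le_left.trans inf_le_right
    have hXcb : X ≤ cp b := key5 h12 h21 ha ha1 hb hb1 hXa hXn inf_le_right hX1 hX2
    have ha' : a ∈ A₂ ⊔ A₁ := by rwa [sup_comm]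
    exact le_inf (key6 h12 ha ha1 hXa hXn hX1 hXcb) (key6 h21 ha' ha1 hXa hXn' hX2 hXcb)

end Cfsg.Agent.S1330
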