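import Cfsg.Statements.S5560
import Cfsg.Agent.S0215
import Cfsg.Agent.Cop.Basic
import Cfsg.Agent.H69.CoprimeIndex
import Cfsg.Agent.H47.Core
import Cfsg.Agent.H48.PCore
import Cfsg.Agent.BG.Core

set_option autoImplicit false
set_option linter.style.haveILetI false
set_option linter.unusedSectionVars false
open Cfsg

namespace Cfsg.Agent.S5560

open Subgroup Cfsg.Agent.H69 Pointwise

/-- A Z*-type result for an odd prime p. Let G be a finite group and d an involution of G such that the product of any two conjugates of d has order a power of p. Then the product of any two conjugates of d lies in the largest normal p-subgroup O_p(G); in other words the conjugacy class of d lies in the coset O_p(G)d, and d is central modulo O_p(G). -/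
theorem result {G : Type*} [Group G] [Finite G] {p : ℕ} (hp : p.Prime) (hp2 : p ≠ 2)
    (d : G) (hd : orderOf d = 2)
    (hprod : ∀ a ∈ conjugatesOf d, ∀ b ∈ conjugatesOf d, ∃ k : ℕ, orderOf (a * b) = p ^ k) :
    ∀ a ∈ conjugatesOf d, ∀ b ∈ conjugatesOf d, a * b ∈ Cfsg.pCore p G := by
  haveI : Fact p.Prime := ⟨hp⟩
  have hd2 : d * d = 1 := by rw [← pow_two, ← hd, pow_orderOf_eq_one]
  have hdinv : d⁻¹ = d := inv_eq_of_mul_eq_one_left hd2
  have hconj : ∀ g : G, g * d * g⁻¹ ∈ conjugatesOf d := fun g => by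
    show IsConj d (g * d * g⁻¹)
    rw [isConj_iff]; exact ⟨g, rfl⟩
  have hdd : d ∈ conjugatesOf d := mem_conjugatesOf_self
  obtain ⟨P, hdP⟩ : ∃ P : Sylow 2 G, d ∈ (P : Subgroup G) := by
    have : IsPGroup 2 (zpowers d) := IsPGroup.of_card (n := 1) (by rw [Nat.card_zpowers, hd, pow_one])
    obtain ⟨P, hP⟩ := this.exists_le_sylow
    exact ⟨P, hP (mem_zpowers d)⟩
  obtain ⟨N, hNn, hNodd, hN⟩ := Cfsg.Agent.S0215.result P d hd hdP (by
    intro g hg
    obtain ⟨k, hk⟩ := hprod _ (hconj g) _ hdd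
    have hmem : g * d * g⁻¹ * d ∈ (P : Subgroup G) := mul_mem hg hdP
    obtain ⟨j, hj⟩ := orderOf_of_mem_isPGroup P.2 hmem
    have h1 : (p ^ k).Coprime (2 ^ j) := Nat.Coprime.pow _ _ ((Nat.coprime_primes hp Nat.prime_two).mpr hp2)
    have h2 : orderOf (g * d * g⁻¹ * d) = 1 := by
      have h3 := h1
      rw [← hk, ← hj, Nat.coprime_self] at h3
      exact h3
    rw [orderOf_eq_one_iff, mul_eq_one_iff_eq_inv, hdinv] at h2
    exact h2)
  set A := zpowers d with hA
  have hAcard : Nat.card A = 2 := by rw [hA, Nat.card_zpowers, hd]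
  have hAN : A ≤ normalizer (N : Set G) := by rw [normalizer_eq_top]; exact le_top
  have hcop : (Nat.card A).Coprime (Nat.card N) := by
    rw [hAcard]; exact (Nat.coprime_two_left).mpr hNodd
  have hsolA : Group.IsSolvable A := inferInstance
  have hdA : d ∈ A := mem_zpowers d
  have hcentA : ∀ x : G, x ∈ centralizer (A : Set G) ↔ d * x = x * d := by
    intro x
    rw [mem_centralizer_iff]
    constructor
    · intro h; exact h d hdA
    · intro h a ha
      obtain ⟨m, rfl⟩ := mem_zpowers_iff.mp ha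
      exact ((show Commute d x from h).zpow_left m).eq
  have hA2 : ∀ a ∈ A, a = 1 ∨ a = d := by
    intro a ha
    obtain ⟨m, rfl⟩ := mem_zpowers_iff.mp ha
    rcases Int.even_or_odd m with hm | hm
    · obtain ⟨j, rfl⟩ := hm
      left
      rw [zpow_add, ← (Commute.refl d).mul_zpow, hd2, one_zpow]
    · obtain ⟨j, rfl⟩ := hm
      right
      rw [zpow_add, two_mul, zpow_add, ← (Commute.refl d).mul_zpow, hd2, one_zpow, one_mul, zpow_one]
  -- the index of the centralizer
  set CN : Subgroup G := N ⊓ centralizer (A : Set G) with hCN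
  have hidx : ∀ q : ℕ, q.Prime → q ∣ CN.relIndex N → q = p := by
    intro q hq hqd
    by_contra hqp
    haveI : Fact q.Prime := ⟨hq⟩
    obtain ⟨Q, hQ⟩ := Cop.exists_invariant_sylow hAN hcop (Or.inl hsolA) q
    have hQC : (Q : Subgroup N).map N.subtype ≤ CN := by
      intro x hx
      refine mem_inf.mpr ⟨map_subtype_le _ hx, ?_⟩
      rw [hcentA]
      have h1 : d * x * d⁻¹ ∈ (Q : Subgroup N).map N.subtype := (mem_normalizer_iff.mp (hQ hdA) x).mp hx
      have h2 : (d * x * d⁻¹ * x⁻¹) ∈ (Q : Subgroup N).map N.subtype := mul_mem h1 (inv_mem hx)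
      obtain ⟨j, hj⟩ := orderOf_of_mem_isPGroup (Q.2.map N.subtype) h2
      obtain ⟨k, hk⟩ := hprod _ hdd _ (hconj x)
      have e : d * (x * d * x⁻¹) = d * x * d⁻¹ * x⁻¹ := by rw [hdinv]; group
      rw [e] at hk
      have h3 : (p ^ k).Coprime (q ^ j) :=
        Nat.Coprime.pow _ _ ((Nat.coprime_primes hp hq).mpr (Ne.symm hqp))
      rw [← hk, ← hj, Nat.coprime_self, orderOf_eq_one_iff, mul_inv_eq_one, mul_inv_eq_iff_eq_mul] at h3
      exact h3
    have h4 : (Q : Subgroup N) ≤ CN.subgroupOf N := by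
      intro x hx
      exact mem_subgroupOf.mpr (hQC ⟨x, hx, rfl⟩)
    exact not_dvd_index_of_sylow_le Q h4 hqd
  -- invariant Sylow p-subgroup
  obtain ⟨P0, hP0⟩ := Cop.exists_invariant_sylow hAN hcop (Or.inl hsolA) p
  have hcomm : ∀ n ∈ N, n * d * n⁻¹ * d⁻¹ ∈ (P0 : Subgroup N).map N.subtype := by
    intro n hn
    have hco : (CN.subgroupOf N).index.Coprime (P0 : Subgroup N).index := by
      apply Nat.coprime_of_dvd
      intro q hq h1 h2
      rw [hidx q hq h1] at h2
      exact P0.not_dvd_index h2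
    obtain ⟨x, hx, hxn⟩ := exists_mul_of_coprime_index hco (⟨n, hn⟩ : N)
    rw [mem_subgroupOf] at hxn
    have h1 := (hcentA _).mp hxn.2
    set c : G := ((x⁻¹ * ⟨n, hn⟩ : N) : G) with hc
    have hn' : n = x * c := by rw [hc]; push_cast; group
    have hxS : (x : G) ∈ (P0 : Subgroup N).map N.subtype := ⟨x, hx, rfl⟩
    have e : n * d * n⁻¹ * d⁻¹ = x * (d * (x : G)⁻¹ * d⁻¹) := by
      rw [hn']
      calc (x : G) * c * d * ((x : G) * c)⁻¹ * d⁻¹ = x * (c * d) * c⁻¹ * (x : G)⁻¹ * d⁻¹ := by group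
        _ = _ := by rw [← h1]; group
    rw [e]
    exact mul_mem hxS ((mem_normalizer_iff.mp (hP0 hdA) _).mp (inv_mem hxS))
  -- the commutator subgroup [N, A] is a normal p-subgroup of N
  have hK1S : ⁅N, A⁆ ≤ (P0 : Subgroup N).map N.subtype := by
    rw [commutator_le]
    intro n hn a ha
    rcases hA2 a ha with rfl | rfl
    · show n * 1 * n⁻¹ * (1 : G)⁻¹ ∈ (P0 : Subgroup N).map N.subtype
      have : n * 1 * n⁻¹ * (1 : G)⁻¹ = 1 := by group
      rw [this]; exact one_mem _
    · exact hcomm n hn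
  have hK1p : IsPGroup p (⁅N, A⁆ : Subgroup G) := (P0.2.map N.subtype).to_le hK1S
  have hK1N : ⁅N, A⁆ ≤ N := commutator_le_left N A
  have hK1 : ⁅N, A⁆ ≤ Cfsg.pCore p G := by
    have h1 : ⁅N, A⁆ ≤ Cfsg.pCoreOf p N :=
      H47.le_pCoreOf hK1N (normalizer_commutator_ge_left N A) hK1p
    have h2 : (Cfsg.pCoreOf p N).Normal := by
      rw [← normalizer_eq_top_iff, eq_top_iff]
      refine le_trans ?_ (BG.normalizer_le_normalizer_map_char N (Cfsg.pCore p N))
      rw [normalizer_eq_top]
    exact h1.trans (H47.le_pCore h2 (H47.pCoreOf_isPGroup _ _))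
  -- conjugates of d
  have hmain : ∀ a ∈ conjugatesOf d, a * d ∈ Cfsg.pCore p G := by
    intro a ha
    obtain ⟨g, rfl⟩ := isConj_iff.mp (show IsConj d a from ha)
    obtain ⟨m, hm, hmg⟩ := Cop.sz_rel (N := N) (A := A) (B := MulAut.conj g • A) hAN
      (by
        intro y hy
        rw [Hall.mem_conj_smul] at hy
        have h1 : y * (g⁻¹ * y * g)⁻¹ ∈ N := by
          rcases hA2 _ hy with h | h
          · have h2 : y = 1 := by
              have : y = g * (g⁻¹ * y * g) * g⁻¹ := by group
              rw [this, h]; group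
            rw [h, h2]; simp
          · have h2 : y = g * d * g⁻¹ := by
              have : y = g * (g⁻¹ * y * g) * g⁻¹ := by group
              rw [this, h]
            rw [h, h2]
            have h3 := inv_mem (hN g)
            have e : (d * g * d⁻¹ * g⁻¹)⁻¹ = g * d * g⁻¹ * d⁻¹ := by group
            rwa [e] at h3
        have e : y = y * (g⁻¹ * y * g)⁻¹ * (g⁻¹ * y * g) := by group
        rw [e]
        exact mul_mem (mem_sup_left h1) (mem_sup_right hy))
      (Nat.card_congr (Subgroup.equivSMul (MulAut.conj g) A).toEquiv.symm) hcop.symm (Or.inr hsolA)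
    have h1 : m * d * m⁻¹ ∈ MulAut.conj g • A := by
      rw [← hmg, Hall.mem_conj_smul]
      have e : m⁻¹ * (m * d * m⁻¹) * m = d := by group
      rw [e]; exact hdA
    rw [Hall.mem_conj_smul] at h1
    have h2 : m * d * m⁻¹ = g * d * g⁻¹ := by
      have e : m * d * m⁻¹ = g * (g⁻¹ * (m * d * m⁻¹) * g) * g⁻¹ := by group
      rcases hA2 _ h1 with h | h
      · exfalso
        rw [h] at e
        have e2 : d = 1 := by
          have : d = m⁻¹ * (m * d * m⁻¹) * m := by group
          rw [this, e]; group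
        rw [e2, orderOf_one] at hd
        exact absurd hd (by norm_num)
      · rw [e, h]
    rw [← h2]
    have h3 : m * d * m⁻¹ * d⁻¹ ∈ ⁅N, A⁆ := commutator_mem_commutator hm hdA
    rw [hdinv] at h3
    exact hK1 h3
  intro a ha b hb
  have h1 := hmain a ha
  have h2 := hmain b hb
  have hb2 : b * b = 1 := by
    obtain ⟨g, rfl⟩ := isConj_iff.mp (show IsConj d b from hb)
    have e : g * d * g⁻¹ * (g * d * g⁻¹) = g * (d * d) * g⁻¹ := by group
    rw [e, hd2]; group
  have h3 : a * b = (a * d) * (b * d)⁻¹ := by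
    rw [mul_inv_rev, hdinv, inv_eq_of_mul_eq_one_left hb2]
    calc a * b = a * (d * d) * b := by rw [hd2]; group
      _ = a * d * (d * b) := by group
  rw [h3]
  exact mul_mem h1 (inv_mem h2)

end Cfsg.Agent.S5560
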