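import Cfsg.Statements.S1618
import Cfsg.Agent.S5560

set_option autoImplicit false
set_option linter.style.haveILetI false
open Cfsg

namespace Cfsg.Agent.S1618

open Subgroup

/-- A group generated by a class of involutions whose pairwise products (of distinct members) have p-power order for a fixed odd prime p has nilpotent derived subgroup. -/
theorem result {G : Type*} [Group G] [Finite G] (p : ℕ) (hp : p.Prime) (hodd : p ≠ 2) {D : Set G} (hinv : ∀ d ∈ D, orderOf d = 2) (hconj : ∃ d ∈ D, D = conjugatesOf d) (hgen : Subgroup.closure D = ⊤) (hprod : ∀ x ∈ D, ∀ y ∈ D, x ≠ y → ∃ k : ℕ, orderOf (x * y) = p ^ k) : Group.IsNilpotent ↥(commutator G) := by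
  haveI : Fact p.Prime := ⟨hp⟩
  obtain ⟨d, hd, hD⟩ := hconj
  have hsq : ∀ x ∈ D, x * x = 1 := by
    intro x hx; rw [← pow_two, ← hinv x hx, pow_orderOf_eq_one]
  have h1 := S5560.result hp hodd d (hinv d hd) (by
    intro a ha b hb
    rw [← hD] at ha hb
    by_cases hab : a = b
    · subst hab
      exact ⟨0, by rw [hsq a ha, orderOf_one, pow_zero]⟩
    · exact hprod a ha b hb hab)
  rw [← hD] at h1
  set O := Cfsg.pCore p G with hO
  -- the quotient is commutative
  have hle : commutator G ≤ O := by
    have hmk : ∀ a ∈ D, (QuotientGroup.mk a : G ⧸ O) = QuotientGroup.mk d := by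
      intro a ha
      rw [QuotientGroup.eq, inv_eq_of_mul_eq_one_left (hsq a ha)]
      exact h1 a ha d hd
    have hz : ∀ y : G ⧸ O, y ∈ zpowers (QuotientGroup.mk d : G ⧸ O) := by
      intro y
      obtain ⟨g, rfl⟩ := QuotientGroup.mk_surjective y
      have hg : g ∈ closure D := by rw [hgen]; exact mem_top g
      have h2 : closure D ≤ (zpowers (QuotientGroup.mk d : G ⧸ O)).comap (QuotientGroup.mk' O) := by
        rw [closure_le]
        intro a ha
        show (QuotientGroup.mk a : G ⧸ O) ∈ zpowers (QuotientGroup.mk d : G ⧸ O)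
        rw [hmk a ha]; exact mem_zpowers _
      exact h2 hg
    rw [commutator_def, commutator_le]
    intro g _ h _
    show g * h * g⁻¹ * h⁻¹ ∈ O
    rw [← QuotientGroup.eq_one_iff]
    obtain ⟨i, hi⟩ := mem_zpowers_iff.mp (hz (QuotientGroup.mk g))
    obtain ⟨j, hj⟩ := mem_zpowers_iff.mp (hz (QuotientGroup.mk h))
    rw [QuotientGroup.mk_mul, QuotientGroup.mk_mul, QuotientGroup.mk_mul, QuotientGroup.mk_inv,
      QuotientGroup.mk_inv, ← hi, ← hj, ← zpow_neg, ← zpow_neg, ← zpow_add, ← zpow_add, ← zpow_add]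
    have : i + j + -i + -j = 0 := by ring
    rw [this, zpow_zero]
  have hOp : IsPGroup p O := H47.pCore_isPGroup p G
  exact (hOp.to_le hle).isNilpotent

end Cfsg.Agent.S1618
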