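import Cfsg.Statements.S1709
import Cfsg.Agent.CosetEnum.Ly.Ord

set_option autoImplicit false
open Cfsg

namespace Cfsg.Agent.S1709

/-- In the presented Lyons group, the subgroup generated by the images of a, b, c, d has index 8835156. -/
theorem result : (((Subgroup.closure ({Cfsg.Spor.Ly.a, Cfsg.Spor.Ly.b, Cfsg.Spor.Ly.c, Cfsg.Spor.Ly.d} : Set (FreeGroup Cfsg.Spor.Ly.Gen))).map (PresentedGroup.mk (Cfsg.Spor.coxRelators Cfsg.Spor.Ly.edges ∪ {r | r ∈ Cfsg.Spor.Ly.extra})))).index = 8835156 := by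
  rw [Cfsg.Agent.LyG.sub_eq]
  exact Cfsg.Agent.LyG.index_eq

end Cfsg.Agent.S1709
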