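import Cfsg.Statements.S1786
import Cfsg.Agent.H84.TI6
import Cfsg.Agent.Solv.Frattini
import Cfsg.Agent.FStar.Layer

set_option autoImplicit false
open Cfsg

namespace Cfsg.Agent.S1786

open Cfsg.Agent.H84.TI Cfsg.Agent.RankOne Subgroup
open scoped commutatorElement

theorem mkCfg {G : Type*} [Group G] [Finite G] (V : Subgroup G)
    (hV : Cfsg.IsElementaryAbelian 2 V)
    (h1 : (Cfsg.generalizedFittingSubgroup ↥(Subgroup.normalizer (V : Set G))).map (Subgroup.normalizer (V : Set G)).subtype =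
      (Cfsg.pCore 2 ↥(Subgroup.normalizer (V : Set G))).map (Subgroup.normalizer (V : Set G)).subtype)
    (h2 : ∀ A : Subgroup G, V ≤ A → A ≤ Subgroup.normalizer (V : Set G) → IsMulCommutative ↥A →
      (∀ m ∈ Subgroup.normalizer (V : Set G), ∀ a ∈ A, m * a * m⁻¹ ∈ A) → A = V)
    (hti : ∀ x : G, V.map (MulAut.conj x).toMonoidHom = V ∨ V.map (MulAut.conj x).toMonoidHom ⊓ V = ⊥)
    (g : G) (hg : V.map (MulAut.conj g).toMonoidHom ≠ V) :
    Cfg V ((Cfsg.pCore 2 ↥(Subgroup.normalizer (V : Set G))).map (Subgroup.normalizer (V : Set G)).subtype) where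
  sq := fun v hv => by
    have := hV.2 v hv
    rwa [pow_two] at this
  VQ := by
    apply H49.le_pCoreOf le_normalizer le_rfl
    intro x
    refine ⟨1, Subtype.ext ?_⟩
    rw [pow_one]
    exact hV.2 x x.2
  QM := H49.pCoreOf_le 2 _
  Qn := le_normalizer.trans (H49.normalizer_le_normalizer_pCoreOf 2 _)
  Qp := H49.isPGroup_pCoreOf 2 _
  core := fun N hN hNn hp => H49.le_pCoreOf hN hNn hp
  cent := by
    intro x hx hc
    rw [← h1]
    refine ⟨⟨x, hx⟩, ?_, rfl⟩
    apply FStar.centralizer_generalizedFitting_le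
    refine mem_centralizer_iff.mpr ?_
    intro y hy
    apply Subtype.ext
    have hy' : (y : G) ∈ (Cfsg.pCore 2 ↥(Subgroup.normalizer (V : Set G))).map (Subgroup.normalizer (V : Set G)).subtype := by
      rw [← h1]; exact ⟨y, hy, rfl⟩
    exact (hc _ hy').symm
  max := by
    intro A h3 h4 h5 h6
    apply h2 A h3 h4 ⟨⟨fun a b => Subtype.ext (h5 a a.2 b b.2)⟩⟩
    intro m hm a ha
    exact (mem_normalizer_iff.mp (h6 hm) a).mp ha
  ti := hti
  ne := ⟨g, hg⟩


/-- Let G be a finite group, V an elementary abelian 2-subgroup of G and M the normalizer of V; write Q for the largest normal 2-subgroup of M. Suppose (1) the generalized Fitting subgroup of M equals Q; (2) V is a maximal abelian normal subgroup of M; (3) every conjugate of V equals V or meets V trivially, and for some g ∈ G the conjugate V' = g V g⁻¹ is different from V and contained in Q. Let P be the centralizer of V in Q, W the subgroup generated by V and V', and H the subgroup generated by P and g P g⁻¹. Then: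 (a) V is contained in g Q g⁻¹; (b) every non-identity element of W lies in exactly one conjugate of V contained in W, H normalizes W, and H modulo the centralizer of W in H is isomorphic to the special linear group of dimension 2 over the field with |V| elements; (c) P = Q, and V equals the Frattini subgroup, the centre and the commutator subgroup of Q. -/
theorem result {G : Type*} [Group G] [Finite G] (V : Subgroup G)
    (hV : Cfsg.IsElementaryAbelian 2 V)
    (h1 : (Cfsg.generalizedFittingSubgroup ↥(Subgroup.normalizer (V : Set G))).map (Subgroup.normalizer (V : Set G)).subtype =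
      (Cfsg.pCore 2 ↥(Subgroup.normalizer (V : Set G))).map (Subgroup.normalizer (V : Set G)).subtype)
    (h2 : ∀ A : Subgroup G, V ≤ A → A ≤ Subgroup.normalizer (V : Set G) → IsMulCommutative ↥A →
      (∀ m ∈ Subgroup.normalizer (V : Set G), ∀ a ∈ A, m * a * m⁻¹ ∈ A) → A = V)
    (hti : ∀ x : G, V.map (MulAut.conj x).toMonoidHom = V ∨ V.map (MulAut.conj x).toMonoidHom ⊓ V = ⊥)
    (g : G) (hg : V.map (MulAut.conj g).toMonoidHom ≠ V)
    (hgQ : V.map (MulAut.conj g).toMonoidHom ≤ (Cfsg.pCore 2 ↥(Subgroup.normalizer (V : Set G))).map (Subgroup.normalizer (V : Set G)).subtype) :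
    let Q : Subgroup G := (Cfsg.pCore 2 ↥(Subgroup.normalizer (V : Set G))).map (Subgroup.normalizer (V : Set G)).subtype
    let P : Subgroup G := Q ⊓ Subgroup.centralizer (V : Set G)
    let W : Subgroup G := V ⊔ V.map (MulAut.conj g).toMonoidHom
    let H : Subgroup G := P ⊔ P.map (MulAut.conj g).toMonoidHom
    V ≤ Q.map (MulAut.conj g).toMonoidHom ∧
      (∀ w ∈ W, w ≠ 1 → ∃! U : Subgroup G, (∃ x : G, U = V.map (MulAut.conj x).toMonoidHom) ∧ U ≤ W ∧ w ∈ U) ∧
      H ≤ Subgroup.normalizer (W : Set G) ∧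
      (∀ hN : ((Subgroup.centralizer (W : Set G)).subgroupOf H).Normal, ∃ (F : Type) (_ : Field F) (_ : Fintype F), Fintype.card F = Nat.card ↥V ∧
        Nonempty (↥H ⧸ (Subgroup.centralizer (W : Set G)).subgroupOf H ≃* Matrix.SpecialLinearGroup (Fin 2) F)) ∧
      P = Q ∧ (frattini ↥Q).map Q.subtype = V ∧ (Subgroup.center ↥Q).map Q.subtype = V ∧ (commutator ↥Q).map Q.subtype = V := by
  intro Q P W H
  have h : Cfg V Q := mkCfg V hV h1 h2 hti g hg
  have p : Pr V Q (conjBy V g) (conjBy Q g) := h.pr hg hgQ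
  have hPP : P = PP V Q := rfl
  have hPP2 : P.map (MulAut.conj g).toMonoidHom = PP (conjBy V g) (conjBy Q g) := by
    rw [← PP_conjBy]; rfl
  have hPQ : P = Q := p.PP_eq
  have hW : W = V ⊔ conjBy V g := rfl
  have hH : H = PP V Q ⊔ PP (conjBy V g) (conjBy Q g) := by
    change P ⊔ P.map (MulAut.conj g).toMonoidHom = _
    rw [hPP2, hPP]
  have hUU : ∀ w ∈ Q, w ∈ PP V Q := fun w hw => by rw [p.PP_eq]; exact hw
  have : Fact (Nat.Prime 2) := ⟨Nat.prime_two⟩
  have hcommQ : commutator ↥Q ≤ V.subgroupOf Q := by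
    rw [commutator_eq_closure, closure_le]
    rintro _ ⟨a, b, rfl⟩
    exact h.comm_mem (hUU a a.2) (hUU b b.2)
  have hVn : (V.subgroupOf Q).Normal := (normal_subgroupOf_iff_le_normalizer h.VQ).2 h.QM
  have hVcomm : V ≤ (commutator ↥Q).map Q.subtype := by
    intro v hv
    obtain ⟨u, hu, hu1⟩ := h.out_ne_bot p.o
    obtain ⟨a, ha, hav⟩ := h.exists_comm_eq p.o hu hu1 hv
    have haQ : a ∈ Q := (mem_PP.mp ha).1
    have huQ : u ∈ Q := p.o.le hu
    rw [← hav]
    refine ⟨⁅(⟨a, haQ⟩ : Q), ⟨u, huQ⟩⁆, commutator_mem_commutator (mem_top _) (mem_top _), rfl⟩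
  refine ⟨?_, ?_, ?_, ?_, hPQ, ?_, ?_, ?_⟩
  · exact p.o'.le
  · intro w hw hw1
    by_cases hwV : w ∈ V
    · refine ⟨V, ⟨⟨1, (conjBy_one V).symm⟩, le_sup_left, hwV⟩, ?_⟩
      rintro U ⟨⟨x, rfl⟩, -, hwx⟩
      have := h.eq_of_mem (x := x) (y := 1) hw1 hwx (by rwa [conjBy_one])
      rw [conjBy_one] at this
      exact this
    · obtain ⟨q, hq, hwq⟩ := h.W_conj p.o hw hwV
      rw [conjBy_conjBy] at hwq
      refine ⟨conjBy V (q * g), ⟨⟨_, rfl⟩, h.conj_le_W p.o hw hw1 hwq, hwq⟩, ?_⟩
      rintro U ⟨⟨x, rfl⟩, -, hwx⟩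
      exact h.eq_of_mem (x := x) (y := q * g) hw1 hwx hwq
  · rw [hH]
    apply sup_le (h.PP_le_NW p.o)
    have := p.h'.PP_le_NW p.o'
    rwa [sup_comm] at this
  · intro hN
    exact p.sl2 H hH hN
  · apply le_antisymm
    · rintro _ ⟨x, hx, rfl⟩
      have h3 := Solv.frattini_le_of_elementary_quotient (p := 2) (V.subgroupOf Q) hcommQ (fun y => by
        rw [mem_subgroupOf]
        have := h.PP_sq (hUU y y.2)
        rw [pow_two]; exact this)
      exact h3 hx
    · intro v hv
      obtain ⟨y, hy, rfl⟩ := hVcomm hv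
      exact ⟨y, Solv.commutator_le_frattini_of_pGroup h.Qp hy, rfl⟩
  · apply le_antisymm
    · rintro _ ⟨x, hx, rfl⟩
      rw [SetLike.mem_coe, mem_center_iff] at hx
      apply h.PP_center (hUU x x.2)
      intro a ha
      exact (congrArg Subtype.val (hx ⟨a, (mem_PP.mp ha).1⟩)).symm
    · intro v hv
      refine ⟨⟨v, h.VQ hv⟩, mem_center_iff.mpr fun y => Subtype.ext ?_, rfl⟩
      exact h.PV_comm (hUU y y.2) hv
  · apply le_antisymm _ hVcomm
    rintro _ ⟨x, hx, rfl⟩
    exact hcommQ hx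

end Cfsg.Agent.S1786
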