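import Cfsg.Statements.S1892
import Cfsg.Agent.Cop.Basic
import Cfsg.Agent.H76.PSolvable

set_option autoImplicit false
open Cfsg

namespace Cfsg.Agent.S1892

open Subgroup
open scoped commutatorElement

/-- Let S be a finite p-solvable group with no nontrivial normal subgroup of order prime to p, A a p-subgroup of S, and Q a nontrivial A-invariant subgroup of order prime to p with [A, Q] = Q. Then the commutator [O_p(S), A, Q] is nontrivial. -/
theorem result {S : Type*} [Group S] [Finite S] {p : ℕ} [Fact p.Prime]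
    (hS : Cfsg.IsPSolvable p S) (hred : Cfsg.pPrimeCore p S = ⊥)
    (A Q : Subgroup S) (hA : IsPGroup p A) (hQ : ¬ p ∣ Nat.card Q) (hQ1 : Q ≠ ⊥)
    (hinv : ∀ a ∈ A, ∀ x ∈ Q, a * x * a⁻¹ ∈ Q) (hAQ : ⁅A, Q⁆ = Q) :
    ⁅⁅Cfsg.pCore p S, A⁆, Q⁆ ≠ ⊥ := by
  intro h
  set V := Cfsg.pCore p S with hV
  have hVp : IsPGroup p V := Solv.pCore_isPGroup p
  have hVn : V.Normal := inferInstance
  have hcopQ : (Nat.card Q).Coprime p := ((Nat.Prime.coprime_iff_not_dvd Fact.out).2 hQ).symm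
  have hcop : (Nat.card Q).Coprime (Nat.card V) := by
    obtain ⟨k, hk⟩ := IsPGroup.iff_card.1 hVp
    rw [hk]; exact Nat.Coprime.pow_right _ hcopQ
  have hQV : Q ≤ normalizer (V : Set S) := by
    rw [Subgroup.normalizer_eq_top]; exact le_top
  set C := V ⊓ centralizer (Q : Set S) with hC
  have hVAC : ⁅V, A⁆ ≤ C := by
    refine le_inf (Subgroup.commutator_le_left _ _) ?_
    exact Subgroup.commutator_eq_bot_iff_le_centralizer.1 h
  have hCA : ∀ a ∈ A, ∀ c ∈ C, a * c * a⁻¹ ∈ C := by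
    intro a ha c hc
    refine Subgroup.mem_inf.2 ⟨hVn.conj_mem c hc.1 a, ?_⟩
    rw [mem_centralizer_iff]
    intro q hq
    have h1 := hinv a⁻¹ (A.inv_mem ha) q hq
    rw [inv_inv] at h1
    have h2 := mem_centralizer_iff.1 hc.2 _ h1
    calc q * (a * c * a⁻¹) = a * ((a⁻¹ * q * a) * c) * a⁻¹ := by group
      _ = a * c * a⁻¹ * q := by rw [h2]; group
  have hCQ : ∀ q ∈ Q, ∀ c ∈ C, q * c * q⁻¹ = c := by
    intro q hq c hc
    rw [mem_centralizer_iff.1 hc.2 q hq]; group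
  -- a moves v inside v C
  have hA1 : ∀ a ∈ A, ∀ v ∈ V, ∃ c ∈ C, a * v * a⁻¹ = v * c := by
    intro a ha v hv
    refine ⟨v⁻¹ * (a * v * a⁻¹), ?_, by group⟩
    have h1 : v⁻¹ * (a * v * a⁻¹) = ⁅v⁻¹, a⁆ := by
      rw [commutatorElement_def]; group
    rw [h1]
    exact hVAC (commutator_mem_commutator (V.inv_mem hv) ha)
  let T : Subgroup S :=
    { carrier := {x | (∀ v ∈ V, ∃ c ∈ C, x * v * x⁻¹ = v * c) ∧ (∀ c ∈ C, x * c * x⁻¹ ∈ C)
        ∧ (∀ c ∈ C, x⁻¹ * c * x ∈ C)}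
      one_mem' := ⟨fun v hv => ⟨1, one_mem _, by simp⟩, fun c hc => by simpa using hc,
        fun c hc => by simpa using hc⟩
      mul_mem' := by
        rintro x y ⟨hx, hx1, hx2⟩ ⟨hy, hy1, hy2⟩
        refine ⟨fun v hv => ?_, fun c hc => ?_, fun c hc => ?_⟩
        · obtain ⟨c, hc, h1⟩ := hy v hv
          obtain ⟨c', hc', h2⟩ := hx v hv
          refine ⟨c' * (x * c * x⁻¹), C.mul_mem hc' (hx1 c hc), ?_⟩
          calc x * y * v * (x * y)⁻¹ = x * (y * v * y⁻¹) * x⁻¹ := by group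
            _ = x * (v * c) * x⁻¹ := by rw [h1]
            _ = (x * v * x⁻¹) * (x * c * x⁻¹) := by group
            _ = v * (c' * (x * c * x⁻¹)) := by rw [h2]; group
        · have := hx1 _ (hy1 c hc)
          convert this using 1
          group
        · have := hy2 _ (hx2 c hc)
          convert this using 1
          group
      inv_mem' := by
        rintro x ⟨hx, hx1, hx2⟩
        refine ⟨fun v hv => ?_, fun c hc => by rw [inv_inv]; exact hx2 c hc,
          fun c hc => by rw [inv_inv]; exact hx1 c hc⟩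
        obtain ⟨c, hc, h1⟩ := hx (x⁻¹ * v * x) (by
          have := hVn.conj_mem v hv x⁻¹
          rwa [inv_inv] at this)
        refine ⟨c⁻¹, C.inv_mem hc, ?_⟩
        have h2 : v = x⁻¹ * v * x * c := by rw [← h1]; group
        rw [inv_inv, eq_mul_inv_iff_mul_eq]
        exact h2.symm }
  have hAT : ∀ a ∈ A, a ∈ T := by
    intro a ha
    refine ⟨hA1 a ha, hCA a ha, fun c hc => ?_⟩
    have := hCA a⁻¹ (A.inv_mem ha) c hc
    rwa [inv_inv] at this
  have hQT : Q ≤ T := by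
    rw [← hAQ, Subgroup.commutator_le]
    intro a ha q hq
    have h1 : a⁻¹ ∈ T := T.inv_mem (hAT a ha)
    have hCQ' : ∀ c ∈ C, q⁻¹ * c * q = c := by
      intro c hc
      have := hCQ q⁻¹ (Q.inv_mem hq) c hc
      rwa [inv_inv] at this
    have hCA' : ∀ c ∈ C, a⁻¹ * c * a ∈ C := by
      intro c hc
      have := hCA a⁻¹ (A.inv_mem ha) c hc
      rwa [inv_inv] at this
    refine ⟨fun v hv => ?_, fun c hc => ?_, fun c hc => ?_⟩
    · have hv1 : q⁻¹ * v * q ∈ V := by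
        have := hVn.conj_mem v hv q⁻¹
        rwa [inv_inv] at this
      obtain ⟨c1, hc1, e1⟩ := h1.1 _ hv1
      obtain ⟨c2, hc2, e2⟩ := hA1 a ha v hv
      rw [inv_inv] at e1
      refine ⟨c2 * (a * c1 * a⁻¹), C.mul_mem hc2 (hCA a ha c1 hc1), ?_⟩
      rw [commutatorElement_def]
      calc a * q * a⁻¹ * q⁻¹ * v * (a * q * a⁻¹ * q⁻¹)⁻¹
          = a * q * (a⁻¹ * (q⁻¹ * v * q) * a) * q⁻¹ * a⁻¹ := by group
        _ = a * q * (q⁻¹ * v * q * c1) * q⁻¹ * a⁻¹ := by rw [e1]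
        _ = (a * v * a⁻¹) * (a * (q * c1 * q⁻¹) * a⁻¹) := by group
        _ = v * (c2 * (a * c1 * a⁻¹)) := by rw [e2, hCQ q hq c1 hc1]; group
    · have e1 := hCA a ha c hc
      have e2 := hCQ' c hc
      have e3 := hCA' c hc
      have : ⁅a, q⁆ * c * ⁅a, q⁆⁻¹ = a * (q * (a⁻¹ * (q⁻¹ * c * q) * a) * q⁻¹) * a⁻¹ := by
        rw [commutatorElement_def]; group
      rw [this, e2, hCQ q hq _ e3]
      exact hCA a ha _ e3
    · have e1 := hCA a ha c hc
      have e3 := hCA' c hc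
      have : ⁅a, q⁆⁻¹ * c * ⁅a, q⁆ = q * (a * (q⁻¹ * (a⁻¹ * c * a) * q) * a⁻¹) * q⁻¹ := by
        rw [commutatorElement_def]; group
      rw [this, hCQ' _ e3, hCQ q hq _ (hCA a ha _ e3)]
      exact hCA a ha _ e3
  have hVQ : ⁅V, Q⁆ ≤ C := by
    rw [Subgroup.commutator_le]
    intro v hv q hq
    obtain ⟨c, hc, h1⟩ := (hQT hq).1 v⁻¹ (V.inv_mem hv)
    have : ⁅v, q⁆ = c := by
      rw [commutatorElement_def]
      calc v * q * v⁻¹ * q⁻¹ = v * (q * v⁻¹ * q⁻¹) := by group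
        _ = c := by rw [h1]; group
    rw [this]; exact hc
  have h2 : ⁅⁅V, Q⁆, Q⁆ = ⊥ := by
    rw [Subgroup.commutator_eq_bot_iff_le_centralizer]
    exact hVQ.trans inf_le_right
  have hsolv : Group.IsSolvable V := by
    have := hVp.isNilpotent
    infer_instance
  rw [Cop.commutator_commutator_eq hQV hcop (Or.inr hsolv)] at h2
  have h3 : Q ≤ centralizer (V : Set S) := by
    rw [Subgroup.commutator_comm] at h2
    exact Subgroup.commutator_eq_bot_iff_le_centralizer.1 h2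
  have h4 : Q ≤ V := h3.trans (H76.centralizer_pCore_le hS hred)
  apply hQ1
  have h5 := Cop.inf_eq_bot_of_coprime hcop
  rw [eq_bot_iff, ← h5]
  exact le_inf le_rfl h4

end Cfsg.Agent.S1892
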