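import Cfsg.Statements.S1893
import Cfsg.Agent.H79.QuadSolv
import Cfsg.Agent.SigF.Comp

set_option autoImplicit false
open Cfsg

namespace Cfsg.Agent.S1893


open Subgroup Cfsg.Agent.H79.SubnCent

/-- `F(S / O_{π'}(S))` is a `π`-group -/
theorem fit_pi {S : Type*} [Group S] [Finite S] (π : Set ℕ) (r : ℕ) (hr : r.Prime)
    (h : r ∣ Nat.card (Cfsg.fittingSubgroup (S ⧸ Cfsg.piCore πᶜ S))) : r ∈ π := by
  by_contra hrπ
  haveI : Fact r.Prime := ⟨hr⟩
  set O := Cfsg.piCore πᶜ S with hO
  have hOn : O.Normal := inferInstance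
  obtain ⟨x, hx⟩ := exists_prime_orderOf_dvd_card' r h
  have h1 : (x : S ⧸ O) ∈ Cfsg.pCore r (S ⧸ O) := mem_pCore x.2 (k := 1) (by
    rw [pow_one, ← hx, ← Subgroup.orderOf_coe, pow_orderOf_eq_one])
  set N : Subgroup S := (Cfsg.pCore r (S ⧸ O)).comap (QuotientGroup.mk' O) with hN
  have hNle : N ≤ O := by
    apply H62.le_piCore inferInstance
    intro q hq hqN
    have h2 : Nat.card N = Nat.card O * Nat.card (Cfsg.pCore r (S ⧸ O)) := by
      have e1 := N.card_mul_index
      have e2 := (Cfsg.pCore r (S ⧸ O)).card_mul_index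
      have e3 : N.index = (Cfsg.pCore r (S ⧸ O)).index :=
        Subgroup.index_comap_of_surjective _ (QuotientGroup.mk'_surjective O)
      have e4 : Nat.card S = Nat.card (S ⧸ O) * Nat.card O := Subgroup.card_eq_card_quotient_mul_card_subgroup O
      rw [e3] at e1
      apply Nat.eq_of_mul_eq_mul_right (Nat.pos_of_ne_zero (Subgroup.index_ne_zero_of_finite (H := Cfsg.pCore r (S ⧸ O))))
      rw [e1, e4, ← e2]; ring
    rw [h2] at hqN
    rcases hq.dvd_mul.1 hqN with h4 | h4
    · exact H62.prime_mem_of_dvd_card_piCore _ q hq h4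
    · obtain ⟨k, hk⟩ := IsPGroup.iff_card.1 (Solv.pCore_isPGroup (G := S ⧸ O) r)
      rw [hk] at h4
      have := (Nat.prime_dvd_prime_iff_eq hq hr).1 (hq.dvd_of_dvd_pow h4)
      rw [this]; exact hrπ
  obtain ⟨y, hy⟩ := QuotientGroup.mk_surjective (x : S ⧸ O)
  have h5 : y ∈ N := by
    rw [hN, mem_comap]
    show (QuotientGroup.mk y : S ⧸ O) ∈ _
    rw [hy]; exact h1
  have h6 : (x : S ⧸ O) = 1 := by rw [← hy]; exact (QuotientGroup.eq_one_iff y).2 (hNle h5)
  have h7 : orderOf x = 1 := orderOf_eq_one_iff.2 (Subtype.ext h6)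
  rw [hx] at h7
  exact hr.one_lt.ne' h7


/-- Let S be a finite solvable group, π a set of primes containing neither 2 nor 3, H a Hall π-subgroup of S, and A a self-centralizing normal subgroup of the Fitting subgroup F(H). Then C_S(A) = A × D for a normal subgroup D of C_S(A) whose order has no prime divisor in π. -/
theorem result {S : Type*} [Group S] [Finite S] [Group.IsSolvable S]
    (π : Set ℕ) (h2 : 2 ∉ π) (h3 : 3 ∉ π) (H : Subgroup S) (hH : Cfsg.IsPiHall π H)
    (A : Subgroup S) (hA : Cfsg.IsSCN ((Cfsg.fittingSubgroup H).map H.subtype) A) :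
    ∃ D : Subgroup S, D ≤ Subgroup.centralizer (A : Set S) ∧
      (∀ c ∈ Subgroup.centralizer (A : Set S), ∀ d ∈ D, c * d * c⁻¹ ∈ D) ∧
      A ⊓ D = ⊥ ∧ A ⊔ D = Subgroup.centralizer (A : Set S) ∧
      ∀ q : ℕ, q.Prime → q ∣ Nat.card D → q ∉ π := by

  classical
  set O : Subgroup S := Cfsg.piCore πᶜ S with hO
  have hOn : O.Normal := inferInstance
  have hOπ : ∀ q : ℕ, q.Prime → q ∣ Nat.card O → q ∉ π := fun q hq h => H62.prime_mem_of_dvd_card_piCore πᶜ q hq h
  set f : S →* S ⧸ O := QuotientGroup.mk' O with hf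
  have hker : ∀ s : S, f s = 1 ↔ s ∈ O := fun s => QuotientGroup.eq_one_iff s
  -- `π`-elements and `O`
  have hpiO : ∀ s : S, s ∈ O → (∀ q : ℕ, q.Prime → q ∣ orderOf s → q ∈ π) → s = 1 := by
    intro s hs h
    rw [← orderOf_eq_one_iff]
    by_contra hne
    obtain ⟨q, hq, hqs⟩ := Nat.exists_prime_and_dvd hne
    exact hOπ q hq (hqs.trans (O.orderOf_dvd_natCard hs)) (h q hq hqs)
  have hHπ : ∀ s ∈ H, ∀ q : ℕ, q.Prime → q ∣ orderOf s → q ∈ π := fun s hs q hq h =>
    hH.1 q hq (h.trans (H.orderOf_dvd_natCard hs))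
  obtain ⟨hA1, hA2, hA3⟩ := hA
  set FH : Subgroup S := (Cfsg.fittingSubgroup H).map H.subtype with hFH
  have hFHH : FH ≤ H := map_subtype_le _
  have hAH : A ≤ H := hA1.trans hFHH
  -- the Fitting subgroup of the quotient
  have hFle : Cfsg.fittingSubgroup (S ⧸ O) ≤ FH.map f := by
    set F := Cfsg.fittingSubgroup (S ⧸ O) with hF
    have hFn : F.Normal := inferInstance
    have hFHb : F ≤ H.map f := by
      -- `F H̄ / H̄`
      have h1 : Nat.card ↥(H.map f ⊔ F) ∣ Nat.card (H.map f) * Nat.card F := Solv.card_sup_dvd_of_normal (H.map f) F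
      have h2 : (H.map f).relIndex (H.map f ⊔ F) = 1 := by
        by_contra hne
        obtain ⟨q, hq, hqd⟩ := Nat.exists_prime_and_dvd hne
        have h3 : q ∈ π := by
          have h4 : q ∣ Nat.card (H.map f) * Nat.card F := (hqd.trans (Subgroup.relIndex_dvd_card _ _)).trans h1
          rcases hq.dvd_mul.1 h4 with h5 | h5
          · exact hH.1 q hq (h5.trans (Subgroup.card_map_dvd _ _))
          · exact fit_pi π q hq h5
        have h4 : q ∣ (H.map f).index :=
          hqd.trans (Dvd.intro _ (Subgroup.relIndex_mul_index (le_sup_left : H.map f ≤ H.map f ⊔ F)))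
        apply hH.2 q hq h3
        exact h4.trans (Subgroup.index_map_dvd _ (QuotientGroup.mk'_surjective O))
      rw [Subgroup.relIndex_eq_one] at h2
      exact le_sup_right.trans h2
    -- pull back to `H`
    set g : H →* S ⧸ O := f.comp H.subtype with hg
    have hginj : Function.Injective g := by
      rw [injective_iff_map_eq_one]
      intro h hh
      have h1 : (h : S) ∈ O := (hker _).1 hh
      exact Subtype.ext (hpiO _ h1 (hHπ _ h.2))
    have h1 : F.comap g ≤ Cfsg.fittingSubgroup H := by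
      apply Solv.le_fitting inferInstance
      have hnil := Solv.fitting_isNilpotent (G := S ⧸ O)
      let φ : ↥(F.comap g) →* F := (g.comp (F.comap g).subtype).codRestrict F (fun x => x.2)
      have hφ : Function.Injective φ := by
        intro a b hab
        exact Subtype.ext (hginj (congrArg Subtype.val hab))
      exact SigF.isNilpotent_of_injective φ hφ
    intro y hy
    obtain ⟨h, hh, rfl⟩ := hFHb hy
    exact ⟨h, ⟨⟨h, hh⟩, h1 hy, rfl⟩, rfl⟩
  have hAc : ∀ a ∈ A, ∀ b ∈ A, a * b = b * a := by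
    intro a ha b hb
    have h1 : a ∈ FH ⊓ centralizer (A : Set S) := by rw [hA3]; exact ha
    exact (mem_centralizer_iff.1 h1.2 b hb).symm
  -- the image of `A` is self-centralizing in the image of `F(H)`
  have hself : ∀ y ∈ FH.map f, y ∈ centralizer ((A.map f : Subgroup (S ⧸ O)) : Set (S ⧸ O)) → y ∈ A.map f := by
    rintro _ ⟨c, hc, rfl⟩ hcc
    refine ⟨c, ?_, rfl⟩
    rw [SetLike.mem_coe, ← hA3]
    refine ⟨hc, ?_⟩
    show c ∈ centralizer (A : Set S)
    rw [mem_centralizer_iff]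
    intro a ha
    have h1 := mem_centralizer_iff.1 hcc (f a) (mem_map_of_mem _ ha)
    have h2 : f (a * c * a⁻¹ * c⁻¹) = 1 := by
      rw [map_mul, map_mul, map_mul, h1, ← map_mul, ← map_mul, ← map_mul]
      have : c * a * a⁻¹ * c⁻¹ = 1 := by group
      rw [this, map_one]
    have h3 := hpiO _ ((hker _).1 h2) (hHπ _ (H.mul_mem (H.mul_mem (H.mul_mem (hAH ha) (hFHH hc)) (H.inv_mem (hAH ha))) (H.inv_mem (hFHH hc))))
    rw [mul_inv_eq_one, mul_inv_eq_iff_eq_mul] at h3
    exact h3
  -- `p`-elements of the centralizer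
  have key : ∀ (p : ℕ), p.Prime → p ∈ π → ∀ (x : S) (k : ℕ), x ^ p ^ k = 1 → x ∈ centralizer (A : Set S) → x ∈ A := by
    intro p hp hpπ x k hx hxA
    haveI : Fact p.Prime := ⟨hp⟩
    have hp5 : 5 ≤ p := by
      have h1 := hp.two_le
      have h2' : p ≠ 2 := fun h => h2 (h ▸ hpπ)
      have h3' : p ≠ 3 := fun h => h3 (h ▸ hpπ)
      have h4' : p ≠ 4 := by rintro rfl; exact absurd hp (by norm_num)
      omega
    have hz : ∀ z ∈ zpowers (f x), z ∈ centralizer ((A.map f : Subgroup (S ⧸ O)) : Set (S ⧸ O)) := by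
      apply zpowers_le.2
      rw [mem_centralizer_iff]
      rintro _ ⟨a, ha, rfl⟩
      rw [← map_mul, ← map_mul, mem_centralizer_iff.1 hxA a ha]
    have h1 : f x ∈ Cfsg.pCore p (S ⧸ O) := by
      refine H79.QuadSolv.mem_pCore_of_quad hp5 (k := k) (by rw [← map_pow, hx, map_one]) (B := A.map f)
        (hz _ (mem_zpowers _)) ?_
      intro y hy z hzz
      have hzc := hz z hzz
      have hyF := hFle hy
      apply hself
      · apply hFle
        have hFn : (Cfsg.fittingSubgroup (S ⧸ O)).Normal := inferInstance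
        have h5 := mul_mem hy (hFn.conj_mem _ (inv_mem hy) z)
        have e1 : y * (z * y⁻¹ * z⁻¹) = y * z * y⁻¹ * z⁻¹ := by group
        rwa [e1] at h5
      · refine mul_mem ?_ (inv_mem hzc)
        obtain ⟨c, hc, rfl⟩ := hyF
        rw [mem_centralizer_iff]
        rintro _ ⟨a, ha, rfl⟩
        have h6 : c⁻¹ * a * c ∈ A := (mem_normalizer_iff''.1 (hA2 hc) a).1 ha
        have h7 := mem_centralizer_iff.1 hzc (f (c⁻¹ * a * c)) (mem_map_of_mem _ h6)
        rw [map_mul, map_mul, map_inv] at h7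
        calc f a * (f c * z * (f c)⁻¹) = f c * (((f c)⁻¹ * f a * f c) * z) * (f c)⁻¹ := by group
          _ = f c * (z * ((f c)⁻¹ * f a * f c)) * (f c)⁻¹ := by rw [h7]
          _ = f c * z * (f c)⁻¹ * f a := by group
    have h4 : f x ∈ A.map f := hself _ (hFle (Solv.pCore_le_fitting p h1)) (hz _ (mem_zpowers _))
    obtain ⟨a, ha, hax⟩ := h4
    have h5 : a⁻¹ * x ∈ O := by
      rw [← hker, map_mul, map_inv, hax, inv_mul_cancel]
    have hcomm : Commute a⁻¹ x := (show Commute a x from mem_centralizer_iff.1 hxA a ha).inv_left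
    have h6 := hpiO _ h5 (by
      intro q hq hqd
      have h7 : q ∣ orderOf a⁻¹ * orderOf x := hqd.trans (hcomm.orderOf_mul_dvd_mul_orderOf)
      rcases hq.dvd_mul.1 h7 with h8 | h8
      · rw [orderOf_inv] at h8
        exact hHπ a (hAH ha) q hq h8
      · have h9 := (Nat.prime_dvd_prime_iff_eq hq hp).1 (hq.dvd_of_dvd_pow (h8.trans (orderOf_dvd_of_pow_eq_one hx)))
        rw [h9]; exact hpπ)
    rw [inv_mul_eq_one] at h6
    rw [← h6]; exact ha
  -- the complement
  set C : Subgroup S := centralizer (A : Set S) with hC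
  have hAC : A ≤ C := by
    intro a ha
    rw [hC, mem_centralizer_iff]
    intro b hb
    exact hAc b hb a ha
  set A' : Subgroup C := A.subgroupOf C with hA'
  have hA'cen : ∀ a ∈ A', ∀ c : C, a * c = c * a := by
    intro a ha c
    exact Subtype.ext (mem_centralizer_iff.1 c.2 a ha)
  have hA'n : A'.Normal := by
    refine ⟨fun a ha c => ?_⟩
    rw [← hA'cen a ha c, mul_inv_cancel_right]
    exact ha
  have hidx : ∀ q : ℕ, q.Prime → q ∈ π → ¬ q ∣ A'.index := by
    intro q hq hqπ hqd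
    haveI : Fact q.Prime := ⟨hq⟩
    let P : Sylow q C := default
    have h1 : (P : Subgroup C) ≤ A' := by
      intro x hx
      obtain ⟨k, hk⟩ := P.isPGroup' ⟨x, hx⟩
      exact key q hq hqπ x k (by
        have := congrArg Subtype.val (congrArg Subtype.val hk)
        exact this) x.2
    exact P.not_dvd_index (hqd.trans (Subgroup.index_dvd_of_le h1))
  have hcop : Nat.Coprime (Nat.card A') A'.index := by
    by_contra hcon
    obtain ⟨q, hq, h1, h2⟩ := Nat.Prime.not_coprime_iff_dvd.1 hcon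
    have h3 : q ∣ Nat.card H := by
      refine h1.trans ?_
      rw [Nat.card_congr (subgroupOfEquivOfLe hAC).toEquiv]
      exact card_dvd_of_le hAH
    exact hidx q hq (hH.1 q hq h3) h2
  obtain ⟨D, hD⟩ := exists_right_complement'_of_coprime hcop
  have hdec : ∀ c : C, ∃ a ∈ A', ∃ d ∈ D, a * d = c := by
    intro c
    obtain ⟨⟨a, d⟩, h⟩ := hD.2 c
    exact ⟨a, a.2, d, d.2, h⟩
  refine ⟨D.map C.subtype, map_subtype_le _, ?_, ?_, ?_, ?_⟩
  · rintro c hc _ ⟨d, hd, rfl⟩
    obtain ⟨a, ha, e, he, hae⟩ := hdec ⟨c, hc⟩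
    refine ⟨e * d * e⁻¹, D.mul_mem (D.mul_mem he hd) (D.inv_mem he), ?_⟩
    have h1 : (⟨c, hc⟩ : C) * d * (⟨c, hc⟩ : C)⁻¹ = e * d * e⁻¹ := by
      rw [← hae, mul_inv_rev]
      have h2 := hA'cen a ha (e * d * e⁻¹)
      calc a * e * d * (e⁻¹ * a⁻¹) = (a * (e * d * e⁻¹)) * a⁻¹ := by group
        _ = (e * d * e⁻¹ * a) * a⁻¹ := by rw [h2]
        _ = e * d * e⁻¹ := by group
    exact (congrArg Subtype.val h1).symm
  · rw [eq_bot_iff]
    rintro _ ⟨hx1, d, hd, rfl⟩
    have h1 : d ∈ A' ⊓ D := ⟨hx1, hd⟩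
    rw [hD.disjoint.eq_bot, mem_bot] at h1
    rw [h1]; exact one_mem _
  · apply le_antisymm
    · exact sup_le hAC (map_subtype_le _)
    · intro c hc
      obtain ⟨a, ha, e, he, hae⟩ := hdec ⟨c, hc⟩
      have h1 : (a : S) * (e : S) = c := congrArg Subtype.val hae
      rw [← h1]
      exact mul_mem (mem_sup_left ha) (mem_sup_right (mem_map_of_mem _ he))
  · intro q hq hqD hqπ
    apply hidx q hq hqπ
    rw [hD.symm.index_eq_card]
    rwa [card_map_of_injective C.subtype_injective] at hqD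

end Cfsg.Agent.S1893
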