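import Cfsg.Statements.S1894
import Cfsg.Agent.H32.Nilp

set_option autoImplicit false
open Cfsg

namespace Cfsg.Agent.S1894

/-- Let P be a finite p-group, A a normal subgroup of P and B an abelian subgroup of A that is normal in P. Then some subgroup C of A containing B is normal in P and is self-centralizing and normal in A (C ∈ SCN(A)). -/
theorem result {P : Type*} [Group P] [Finite P] {p : ℕ} [Fact p.Prime] (hP : IsPGroup p P)
    (A : Subgroup P) [A.Normal] (B : Subgroup P) [B.Normal] (hBA : B ≤ A) (hB : IsMulCommutative B) :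
    ∃ C : Subgroup P, C.Normal ∧ B ≤ C ∧ Cfsg.IsSCN A C := by
  classical
  have : Group.IsNilpotent P := hP.isNilpotent
  -- maximal candidate
  let 𝒞 : Set (Subgroup P) := {C | C.Normal ∧ B ≤ C ∧ C ≤ A ∧ IsMulCommutative C}
  have hfin : 𝒞.Finite := Set.toFinite _
  have hne : 𝒞.Nonempty := ⟨B, inferInstance, le_rfl, hBA, hB⟩
  obtain ⟨C, hC⟩ := hfin.exists_maximal hne
  obtain ⟨⟨hCn, hBC, hCA, hCc⟩, hmax⟩ := hC
  have hCcent : C ≤ Subgroup.centralizer (C : Set P) := by
    intro x hx
    rw [Subgroup.mem_centralizer_iff]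
    intro y hy
    have := hCc.is_comm.comm ⟨y, hy⟩ ⟨x, hx⟩
    exact congrArg Subtype.val this
  refine ⟨C, hCn, hBC, hCA, ?_, ?_⟩
  · rw [Subgroup.normalizer_eq_top]; exact le_top
  · apply le_antisymm _ (le_inf hCA hCcent)
    by_contra hcon
    have hDn : (A ⊓ Subgroup.centralizer (C : Set P)).Normal := inferInstance
    obtain ⟨x, hxD, hxC, hxg⟩ := Cfsg.Agent.H32.exists_central_mod C _ hcon
    -- C ⊔ ⟨x⟩
    have hxc : x ∈ Subgroup.centralizer (C : Set P) := hxD.2
    let E : Subgroup P := C ⊔ Subgroup.zpowers x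
    have hEn : E.Normal := by
      constructor
      intro n hn g
      have key : ∀ k : ℤ, g * x ^ k * g⁻¹ * (x ^ k)⁻¹ ∈ C := by
        intro k
        have h1 : g * x * g⁻¹ * x⁻¹ ∈ C := hxg g
        set c := g * x * g⁻¹ * x⁻¹ with hc
        have h2 : g * x * g⁻¹ = c * x := by rw [hc]; group
        have hcx : Commute c x := by
          rw [Subgroup.mem_centralizer_iff] at hxc
          exact hxc c h1
        rw [← conj_zpow, h2, hcx.mul_zpow]
        have : c ^ k * x ^ k * (x ^ k)⁻¹ = c ^ k := by group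
        rw [this]
        exact C.zpow_mem h1 k
      obtain ⟨y, hy, z, hz, rfl⟩ := Subgroup.mem_sup_of_normal_left.1 hn
      obtain ⟨k, rfl⟩ := Subgroup.mem_zpowers_iff.1 hz
      have : g * (y * x ^ k) * g⁻¹ = (g * y * g⁻¹) * (g * x ^ k * g⁻¹ * (x ^ k)⁻¹) * x ^ k := by group
      rw [this]
      exact E.mul_mem (E.mul_mem (Subgroup.mem_sup_left (hCn.conj_mem y hy g))
        (Subgroup.mem_sup_left (key k))) (Subgroup.mem_sup_right (Subgroup.zpow_mem_zpowers x k))
    have hEA : E ≤ A := sup_le hCA (by rw [Subgroup.zpowers_le]; exact hxD.1)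
    have hEc : IsMulCommutative E := by
      refine Cfsg.Agent.H32.isMulCommutative_sup hCc inferInstance ?_
      rw [Subgroup.le_centralizer_iff, Subgroup.zpowers_le]
      exact hxc
    have h5 : E ≤ C := hmax ⟨hEn, hBC.trans le_sup_left, hEA, hEc⟩ le_sup_left
    exact hxC (h5 (Subgroup.mem_sup_right (Subgroup.mem_zpowers x)))

end Cfsg.Agent.S1894
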