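import Cfsg.Statements.S1897
import Cfsg.Agent.PermTab.J2U3
import Cfsg.Agent.S0495
import Cfsg.Agent.S0493
import Cfsg.Agent.ClassBase.RelHom

set_option autoImplicit false
open Cfsg

namespace Cfsg.Agent.S1897

open Cfsg.Agent.PermTab Cfsg.Agent.J2Tab Matrix

theorem simple168 : ∀ (n : ℕ) {X : Type} [Group X] [Finite X], Nat.card X = n → Nontrivial X → commutator X = ⊤ → Nat.card X ∣ 168 →
    Nat.card X = 168 ∧ IsSimpleGroup X := by
  intro n
  induction n using Nat.strong_induction_on with
  | _ n ih =>
    intro X _ _ hn hnt hp hd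
    by_cases hs : IsSimpleGroup X
    · refine ⟨?_, hs⟩
      have hnc : ¬ IsCyclic X := by
        intro hc
        have : commutator X = ⊥ := by
          rw [commutator_def, Subgroup.commutator_eq_bot_iff_le_centralizer]
          intro a _ b _
          let _ := hc.commGroup
          exact mul_comm _ _
        rw [this] at hp
        exact bot_ne_top hp
      by_cases h100 : Nat.card X ≤ 100
      · have := Cfsg.Agent.S0493.result hnc h100
        rw [this] at hd
        exact absurd hd (by decide)
      · push Not at h100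
        obtain ⟨k, hk⟩ := hd
        have hk1 : k = 1 := by
          by_contra hk1
          have hk0 : k ≠ 0 := by rintro rfl; omega
          have : 2 ≤ k := by omega
          have := Nat.mul_le_mul_left (Nat.card X) this
          omega
        rw [hk1, mul_one] at hk
        exact hk.symm
    · exfalso
      have : ∃ N : Subgroup X, N.Normal ∧ N ≠ ⊥ ∧ N ≠ ⊤ := by
        by_contra hcon
        push Not at hcon
        apply hs
        exact ⟨fun N hN => by
          by_cases h : N = ⊥
          · exact Or.inl h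
          · exact Or.inr (hcon N hN h)⟩
      obtain ⟨N, hN, hb, ht⟩ := this
      have hlt : Nat.card (X ⧸ N) < Nat.card X := by
        have h1 := N.card_mul_index
        have h2 : 2 ≤ Nat.card N := by
          have := Subgroup.one_lt_card_iff_ne_bot N |>.mpr hb
          omega
        have h3 : 0 < N.index := Nat.pos_of_ne_zero Subgroup.index_ne_zero_of_finite
        rw [Subgroup.index] at h1 h3
        nlinarith
      have hdv : Nat.card (X ⧸ N) ∣ Nat.card X := N.card_quotient_dvd_card
      have hntq : Nontrivial (X ⧸ N) := by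
        rw [← not_subsingleton_iff_nontrivial]
        intro h
        exact ht (QuotientGroup.subgroup_eq_top_of_subsingleton N h)
      have hpq : commutator (X ⧸ N) = ⊤ := by
        have h1 := Subgroup.map_commutator (⊤ : Subgroup X) ⊤ (QuotientGroup.mk' N)
        rw [← commutator_def, hp, ← MonoidHom.range_eq_map, MonoidHom.range_eq_top.mpr (QuotientGroup.mk'_surjective N)] at h1
        rw [commutator_def]; exact h1.symm
      have h4 := (ih _ (by omega) rfl hntq hpq (hdv.trans hd)).1
      have h5 := Nat.le_of_dvd (by norm_num) hd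
      omega

/-- relations force perfectness -/
theorem perfect_of_rel {X : Type} [Group X] (a b : X) (hg : Subgroup.closure {a, b} = ⊤) (ha : a ^ 2 = 1) (hb : b ^ 3 = 1)
    (hab : (a * b) ^ 7 = 1) : commutator X = ⊤ := by
  have h1 : (Abelianization.of a) ^ 2 = 1 := by rw [← map_pow, ha, map_one]
  have h2 : (Abelianization.of b) ^ 3 = 1 := by rw [← map_pow, hb, map_one]
  have h3 : (Abelianization.of a * Abelianization.of b) ^ 7 = 1 := by rw [← map_mul, ← map_pow, hab, map_one]
  have h4 : Abelianization.of a = 1 := by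
    rw [mul_pow] at h3
    have e1 : (Abelianization.of a) ^ 7 = Abelianization.of a := by
      calc (Abelianization.of a) ^ 7 = ((Abelianization.of a) ^ 2) ^ 3 * Abelianization.of a := by group
        _ = _ := by rw [h1]; simp
    have e2 : (Abelianization.of b) ^ 7 = Abelianization.of b := by
      calc (Abelianization.of b) ^ 7 = ((Abelianization.of b) ^ 3) ^ 2 * Abelianization.of b := by group
        _ = _ := by rw [h2]; simp
    rw [e1, e2] at h3
    have e3 : Abelianization.of a = (Abelianization.of b)⁻¹ := eq_inv_of_mul_eq_one_left h3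
    have e4 : (Abelianization.of a) ^ 3 = 1 := by rw [e3, inv_pow, h2, inv_one]
    calc Abelianization.of a = (Abelianization.of a) ^ 3 * ((Abelianization.of a) ^ 2)⁻¹ := by group
      _ = 1 := by rw [e4, h1]; simp
  have h5 : Abelianization.of b = 1 := by
    rw [h4, one_mul] at h3
    calc Abelianization.of b = (Abelianization.of b) ^ 7 * (((Abelianization.of b) ^ 3)⁻¹) ^ 2 := by group
      _ = 1 := by rw [h3, h2]; simp
  rw [← Abelianization.ker_of, eq_top_iff, ← hg, Subgroup.closure_le]
  rintro x (rfl | rfl)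
  · exact h4
  · exact h5

def ta : ℕ := tmul 7 100 g4 g4
def tb : ℕ := tmul 7 100 g3 g4

theorem v3 : tvalid 7 100 g3 = true := by decide +kernel
theorem v4 : tvalid 7 100 g4 = true := by decide +kernel
theorem va : tvalid 7 100 ta = true := tvalid_tmul v4 v4
theorem vb : tvalid 7 100 tb = true := tvalid_tmul v3 v4
theorem pa : tpow 7 100 ta 2 = tid 7 100 := by decide +kernel
theorem pb : tpow 7 100 tb 3 = tid 7 100 := by decide +kernel
theorem pab : tpow 7 100 (tmul 7 100 ta tb) 7 = tid 7 100 := by decide +kernel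
theorem na : tget 7 ta 3 ≠ 3 := by decide +kernel

/-- the point stabiliser -/
noncomputable def K2 : Subgroup (Equiv.Perm (Fin 100)) := grp 7 100 [lev2, lev3]

theorem card_K2 : Nat.card K2 = 168 := by
  rw [K2, card_grp (by norm_num) hid _ ((chkChain_cons _ _ _ _ _).1 chk1).2.2]
  decide +kernel

theorem mem3 : toPerm 7 100 g3 ∈ K2 := Subgroup.subset_closure ⟨g3, by decide, rfl⟩
theorem mem4 : toPerm 7 100 g4 ∈ K2 := Subgroup.subset_closure ⟨g4, by decide, rfl⟩

theorem K2_le : K2 ≤ K1 := by
  refine Subgroup.closure_mono ?_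
  rintro x ⟨g, hg, rfl⟩
  exact ⟨g, List.mem_cons_of_mem _ hg, rfl⟩

theorem exists_X : ∃ X : Subgroup K1, Nat.card X = 168 ∧ IsSimpleGroup X := by
  let A : K1 := ⟨toPerm 7 100 g4 * toPerm 7 100 g4, mul_mem (K2_le mem4) (K2_le mem4)⟩
  let B : K1 := ⟨toPerm 7 100 g3 * toPerm 7 100 g4, mul_mem (K2_le mem3) (K2_le mem4)⟩
  let X : Subgroup K1 := Subgroup.closure {A, B}
  have hA : (A : Equiv.Perm (Fin 100)) = toPerm 7 100 ta := (toPerm_tmul v4 v4).symm
  have hB : (B : Equiv.Perm (Fin 100)) = toPerm 7 100 tb := (toPerm_tmul v3 v4).symm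
  have hA2 : A ^ 2 = 1 := by
    apply Subtype.ext
    change (A : Equiv.Perm (Fin 100)) ^ 2 = 1
    rw [hA]; exact toPerm_pow_eq_one (by norm_num) va pa
  have hB3 : B ^ 3 = 1 := by
    apply Subtype.ext
    change (B : Equiv.Perm (Fin 100)) ^ 3 = 1
    rw [hB]; exact toPerm_pow_eq_one (by norm_num) vb pb
  have hAB : (A * B) ^ 7 = 1 := by
    apply Subtype.ext
    change ((A : Equiv.Perm (Fin 100)) * (B : Equiv.Perm (Fin 100))) ^ 7 = 1
    rw [hA, hB, ← toPerm_tmul va vb]; exact toPerm_pow_eq_one (by norm_num) (tvalid_tmul va vb) pab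
  have hA1 : A ≠ 1 := by
    intro h
    have h1 : (A : Equiv.Perm (Fin 100)) = 1 := congrArg Subtype.val h
    rw [hA] at h1
    have h2 := toPerm_apply va (3 : Fin 100)
    rw [h1] at h2
    exact na h2.symm
  have hXA : A ∈ X := Subgroup.subset_closure (Or.inl rfl)
  have hXB : B ∈ X := Subgroup.subset_closure (Or.inr rfl)
  have hg : Subgroup.closure {(⟨A, hXA⟩ : X), ⟨B, hXB⟩} = ⊤ := by
    apply Subgroup.map_injective X.subtype_injective
    rw [MonoidHom.map_closure, ← MonoidHom.range_eq_map, Subgroup.range_subtype]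
    change _ = Subgroup.closure {A, B}
    congr 1
    ext x
    constructor
    · rintro ⟨y, (rfl | rfl), rfl⟩
      · exact Or.inl rfl
      · exact Or.inr rfl
    · rintro (rfl | rfl)
      · exact ⟨_, Or.inl rfl, rfl⟩
      · exact ⟨_, Or.inr rfl, rfl⟩
  have hp : commutator X = ⊤ := perfect_of_rel _ _ hg (Subtype.ext hA2) (Subtype.ext hB3) (Subtype.ext hAB)
  have hnt : Nontrivial X := ⟨⟨A, hXA⟩, 1, fun h => hA1 (congrArg Subtype.val h)⟩
  have hle : X.map K1.subtype ≤ K2 := by
    rw [MonoidHom.map_closure, Subgroup.closure_le]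
    rintro x ⟨y, (rfl | rfl), rfl⟩
    · exact mul_mem mem4 mem4
    · exact mul_mem mem3 mem4
  have hd : Nat.card X ∣ 168 := by
    have h1 : Nat.card (X.map K1.subtype) ∣ Nat.card K2 := Subgroup.card_dvd_of_le hle
    rwa [← Nat.card_congr (X.equivMapOfInjective _ K1.subtype_injective).toEquiv, card_K2] at h1
  have := simple168 _ rfl hnt hp hd
  exact ⟨X, this⟩

theorem su_key {F F' : Type*} [Field F] [Field F'] (n q : ℕ) (e : F ≃+* F') (g : Matrix.SpecialLinearGroup (Fin n) F) (hg : g ∈ SU n F q) :
    Cfsg.Agent.ClassBase.slCongr e g ∈ SU n F' q := by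
  intro u v
  have h1 := hg (fun i => e.symm (u i)) (fun i => e.symm (v i))
  have h2 : ∀ w : Fin n → F', (slToMat n F' (Cfsg.Agent.ClassBase.slCongr e g)) *ᵥ w =
      fun i => e (((slToMat n F g) *ᵥ (fun i => e.symm (w i))) i) := by
    intro w
    funext i
    change ∑ j, e (g i j) * w j = e (∑ j, g i j * e.symm (w j))
    rw [map_sum]
    refine Finset.sum_congr rfl fun j _ => ?_
    rw [map_mul, e.apply_symm_apply]
  rw [h2, h2]
  have h3 := congrArg e h1
  rw [hermForm, hermForm, map_sum, map_sum] at h3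
  simp only [map_mul, map_pow, RingEquiv.apply_symm_apply] at h3
  exact h3

/-- Transport of `SU` along a ring isomorphism. -/
noncomputable def suCongr {F F' : Type*} [Field F] [Field F'] (n q : ℕ) (e : F ≃+* F') : SU n F q ≃* SU n F' q where
  toFun := fun g => ⟨Cfsg.Agent.ClassBase.slCongr e g, su_key n q e g g.2⟩
  invFun := fun g => ⟨Cfsg.Agent.ClassBase.slCongr e.symm g, su_key n q e.symm g g.2⟩
  left_inv := fun g => Subtype.ext ((Cfsg.Agent.ClassBase.slCongr e).symm_apply_apply _)
  right_inv := fun g => Subtype.ext ((Cfsg.Agent.ClassBase.slCongr e).apply_symm_apply _)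
  map_mul' := fun g h => Subtype.ext (map_mul _ _ _)

/-- The projective special unitary group PSU₃(3) (realised over the field with 9 elements) has a subgroup isomorphic to PSL₂(7). -/
theorem result {F : Type*} [Field F] [Fintype F] (hF : Fintype.card F = 9)
    {K : Type*} [Field K] [Fintype K] (hK : Fintype.card K = 7) :
    ∃ H : Subgroup (Cfsg.PSU 3 F 3), Nonempty (H ≃* Matrix.ProjectiveSpecialLinearGroup (Fin 2) K) := by
  obtain ⟨X, hX, hs⟩ := exists_X
  obtain ⟨φ⟩ := exists_iso9
  have e : F9 ≃+* F := FiniteField.ringEquivOfCardEq (card_f9.trans hF.symm)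
  let ψ : K1 ≃* PSU 3 F 3 := φ.trans (Cfsg.Agent.ClassBase.quotCenterCongr (suCongr 3 3 e))
  obtain ⟨f⟩ := Cfsg.Agent.S0495.result hX hK
  exact ⟨X.map ψ.toMonoidHom, ⟨(X.equivMapOfInjective ψ.toMonoidHom ψ.injective).symm.trans f⟩⟩

end Cfsg.Agent.S1897
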