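import Cfsg.Statements.S1899
import Mathlib.GroupTheory.PGroup
import Mathlib.Tactic.Group
import Mathlib.Algebra.Group.Subgroup.Finite

set_option autoImplicit false
open Cfsg

namespace Cfsg.Agent.S1899

/-- Let a dihedral group of order 2n, n odd and n > 1, act on a finite abelian 2-group A through automorphisms d and t with d^n = 1, t² = 1 and t d t⁻¹ = d⁻¹, and suppose that d fixes only the identity. Then A is the internal direct product of C_A(t) and its image under d. -/
theorem result {A : Type*} [CommGroup A] [Finite A] (hA : IsPGroup 2 A)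
    {n : ℕ} (hn : Odd n) (hn1 : 1 < n) (d t : MulAut A) (hd : d ^ n = 1) (ht : t ^ 2 = 1) (hdt : t * d * t⁻¹ = d⁻¹)
    (hfix : ∀ a : A, d a = a → a = 1) :
    (MulEquiv.toMonoidHom t).eqLocus (MonoidHom.id A) ⊓ ((MulEquiv.toMonoidHom t).eqLocus (MonoidHom.id A)).map d.toMonoidHom = ⊥ ∧
      (MulEquiv.toMonoidHom t).eqLocus (MonoidHom.id A) ⊔ ((MulEquiv.toMonoidHom t).eqLocus (MonoidHom.id A)).map d.toMonoidHom = ⊤ := by
  have htt : ∀ a, t (t a) = a := by
    intro a
    have : (t ^ 2) a = a := by rw [ht]; rfl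
    rwa [pow_two] at this
  have htd : t * d = d⁻¹ * t := by rw [← hdt]; group
  have htd' : ∀ a, t (d a) = d⁻¹ (t a) := fun a => by
    have := congrArg (fun f : MulAut A => f a) htd
    exact this
  have hdt2 : t * d⁻¹ = d * t := by
    have h1 : t * t = 1 := by rw [← pow_two]; exact ht
    have h2 : t⁻¹ = t := by rw [inv_eq_iff_mul_eq_one]; exact h1
    calc t * d⁻¹ = t * (t * d * t⁻¹) := by rw [hdt]
      _ = (t * t) * d * t⁻¹ := by group
      _ = d * t := by rw [h1, h2, one_mul]
  have hdt' : ∀ a, t (d⁻¹ a) = d (t a) := fun a => by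
    have := congrArg (fun f : MulAut A => f a) hdt2
    exact this
  have hd2 : ∀ b, d b = d⁻¹ b → b = 1 := by
    intro b hb
    apply hfix
    obtain ⟨k, hk⟩ := hn
    have h1 : (d ^ 2) b = b := by
      rw [pow_two, MulAut.mul_apply, hb, ← MulAut.mul_apply, mul_inv_cancel]; rfl
    have h2 : ∀ j : ℕ, ((d ^ 2) ^ j) b = b := by
      intro j
      induction j with
      | zero => rfl
      | succ j ih => rw [pow_succ, MulAut.mul_apply, h1, ih]
    have h3 : d = (d ^ 2) ^ (k + 1) := by
      rw [← pow_mul]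
      have : 2 * (k + 1) = n + 1 := by omega
      rw [this, pow_succ, hd, one_mul]
    rw [h3]
    exact h2 _
  have hmemF : ∀ a : A, a ∈ (MulEquiv.toMonoidHom t).eqLocus (MonoidHom.id A) ↔ t a = a := fun a => Iff.rfl
  refine ⟨?_, ?_⟩
  · rw [eq_bot_iff]
    rintro a ⟨ha1, b, hb, rfl⟩
    have hb' : t b = b := (hmemF b).1 hb
    have ha' : t (d b) = d b := (hmemF _).1 ha1
    rw [htd', hb'] at ha'
    have := hd2 b ha'.symm
    rw [this]
    simp
  · rw [eq_top_iff]
    intro a _
    let φ : A →* A := ⟨⟨fun y => d y * (d⁻¹ y)⁻¹, by simp⟩, by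
      intro x y
      simp only [map_mul, mul_inv]
      rw [mul_mul_mul_comm]⟩
    have hφ : ∀ y, φ y = d y * (d⁻¹ y)⁻¹ := fun y => rfl
    have hinj : Function.Injective φ := by
      rw [injective_iff_map_eq_one]
      intro y hy
      rw [hφ, mul_inv_eq_one] at hy
      exact hd2 y hy
    have hsurj : Function.Surjective φ := Finite.surjective_of_injective hinj
    obtain ⟨y, hy⟩ := hsurj (a * (t a)⁻¹)
    have hty : t y = y := by
      apply hinj
      have e : φ (t y) = (t (φ y))⁻¹ := by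
        rw [hφ, hφ, ← hdt', ← htd', map_mul, map_inv, mul_inv_rev, inv_inv, mul_comm]
      rw [e, hy, map_mul, map_inv, htt, mul_inv_rev, inv_inv]
    have hx : a * (d y)⁻¹ ∈ (MulEquiv.toMonoidHom t).eqLocus (MonoidHom.id A) := by
      rw [hmemF, map_mul, map_inv, htd', hty]
      rw [hφ] at hy
      have : d y * (t a) = a * (d⁻¹ y) := by
        calc d y * t a = (d y * (d⁻¹ y)⁻¹) * (d⁻¹ y * t a) := by group
          _ = (a * (t a)⁻¹) * (d⁻¹ y * t a) := by rw [hy]
          _ = a * (d⁻¹ y) := by rw [mul_comm (d⁻¹ y)]; group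
      rw [mul_inv_eq_iff_eq_mul, mul_comm a, mul_assoc, eq_comm, inv_mul_eq_iff_eq_mul]
      rw [← this]
    have hy2 : d y ∈ ((MulEquiv.toMonoidHom t).eqLocus (MonoidHom.id A)).map d.toMonoidHom :=
      ⟨y, (hmemF y).2 hty, rfl⟩
    have : a = (a * (d y)⁻¹) * d y := by group
    rw [this]
    exact Subgroup.mul_mem_sup hx hy2

end Cfsg.Agent.S1899
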