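import Cfsg.Statements.S1900
import Cfsg.Agent.Cop.MinAct
import Cfsg.Agent.SigF.Gen
import Cfsg.Agent.Solv.Frattini

set_option autoImplicit false
open Cfsg

namespace Cfsg.Agent.S1900

open Subgroup
open scoped commutatorElement

/-- nilpotent generation: `H ⊔ [K,K] = K` implies `H = K` for a `p`-group `K`. -/
theorem eq_of_sup_commutator {S : Type*} [Group S] [Finite S] {p : ℕ} [Fact p.Prime] {K H : Subgroup S}
    (hK : IsPGroup p K) (hHK : H ≤ K) (h : K ≤ H ⊔ ⁅K, K⁆) : H = K := by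
  have h1 : H.subgroupOf K ⊔ frattini K = ⊤ := by
    rw [eq_top_iff]
    have h2 : (⊤ : Subgroup K) ≤ H.subgroupOf K ⊔ (⁅K, K⁆).subgroupOf K := by
      rw [← Subgroup.subgroupOf_sup hHK (Subgroup.commutator_le_self K)]
      intro x _
      exact h x.2
    refine h2.trans (sup_le_sup_left ?_ _)
    refine le_trans ?_ (Solv.commutator_le_frattini_of_pGroup hK)
    rw [Subgroup.subgroupOf, ← Subgroup.map_le_map_iff_of_injective K.subtype_injective, _root_.commutator_def,
      Subgroup.map_commutator, ← MonoidHom.range_eq_map, Subgroup.range_subtype, ← Subgroup.subgroupOf,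
      Subgroup.subgroupOf_map_subtype]
    exact inf_le_left
  have h2 := frattini_nongenerating h1
  exact le_antisymm hHK (Subgroup.subgroupOf_eq_top.1 h2)

theorem step {S : Type*} [Group S] [Finite S] {p q : ℕ} [Fact p.Prime] [Fact q.Prime] (hpq : p ≠ q)
    (P : Subgroup S) [hPn : P.Normal] (hP : IsPGroup p P) (Q : Subgroup S)
    (hQ : Cfsg.IsElementaryAbelian q Q) (hQc : Nat.card Q = q ^ 2) (hS : P ⊔ Q = ⊤)
    (X₁ X₂ : Subgroup S) (h₁ : X₁ ≤ Q) (hc₁ : Nat.card X₁ = q)
    (honly : ∀ X : Subgroup S, X ≤ Q → Nat.card X = q →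
      P ⊓ Subgroup.centralizer (X : Set S) ≠ ⊥ → X = X₁ ∨ X = X₂) :
    ⁅P, X₁⁆ ≤ centralizer (X₂ : Set S) := by
  have hqP : ¬ q ∣ Nat.card P := by
    obtain ⟨k, hk⟩ := IsPGroup.iff_card.1 hP
    rw [hk]
    intro h
    exact hpq ((Nat.prime_dvd_prime_iff_eq Fact.out Fact.out).1 ((Fact.out : q.Prime).dvd_of_dvd_pow h)).symm
  have hX1n : Q ≤ normalizer (X₁ : Set S) := by
    intro x hx
    rw [Subgroup.mem_normalizer_iff]
    intro y
    constructor
    · intro hy
      have := SigF.elem_comm hQ hx (h₁ hy)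
      rwa [this, mul_inv_cancel_right]
    · intro hy
      have h1 := SigF.elem_comm hQ hx (h₁ hy)
      have h2 : x * y * x⁻¹ = y := by
        have h3 : x * (x * y * x⁻¹) = x * y := by rw [h1]; group
        exact mul_left_cancel h3
      rwa [h2] at hy
  have hX1p : (Nat.card X₁).Coprime (Nat.card P) := by
    rw [hc₁]
    exact (Nat.Prime.coprime_iff_not_dvd Fact.out).2 hqP
  have hPtop : (⊤ : Subgroup S) ≤ normalizer (P : Set S) := by
    rw [Subgroup.normalizer_eq_top]
  have hsolvP : Group.IsSolvable P := by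
    have := hP.isNilpotent
    infer_instance
  set K := ⁅P, X₁⁆ with hK
  have hKP : K ≤ P := Subgroup.commutator_le_left _ _
  have hKp : IsPGroup p K := hP.to_le hKP
  have hKn : K.Normal := by
    rw [← Subgroup.normalizer_eq_top_iff, eq_top_iff, ← hS]
    refine sup_le (Subgroup.normalizer_commutator_ge_left _ _) ?_
    intro x hx
    have e1 : x ∈ normalizer (P : Set S) := hPtop trivial
    have e2 := hX1n hx
    rw [SigF.mem_normalizer_iff_cj] at e1 e2 ⊢
    unfold SigF.cj at e1 e2 ⊢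
    rw [hK, Subgroup.map_commutator, e1, e2]
  have hKX : ⁅K, X₁⁆ = K := Cop.commutator_commutator_eq (le_top.trans hPtop) hX1p (Or.inr hsolvP)
  -- quotient by K' = [K,K]
  set D := ⁅K, K⁆ with hD
  have hDn : D.Normal := inferInstance
  have hKc : K ⊓ centralizer (X₁ : Set S) ≤ D := by
    set f := QuotientGroup.mk' D with hf
    have hcomm : IsMulCommutative (K.map f) := by
      refine IsMulCommutative.of_comm ?_
      rintro ⟨_, a, ha, rfl⟩ ⟨_, b, hb, rfl⟩
      ext
      change f a * f b = f b * f a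
      rw [← map_mul, ← map_mul, hf, QuotientGroup.mk'_apply, QuotientGroup.mk'_apply, QuotientGroup.eq]
      have : (a * b)⁻¹ * (b * a) = b⁻¹ * (a⁻¹ * b * a * b⁻¹) * b := by group
      have h2 : a⁻¹ * b * a * b⁻¹ ∈ D := by
        have h3 := Subgroup.commutator_mem_commutator (K.inv_mem ha) hb
        have h4 : a⁻¹ * b * a * b⁻¹ = ⁅a⁻¹, b⁆ := by rw [commutatorElement_def]; group
        rw [h4]; exact h3
      rw [this]
      have := hDn.conj_mem _ h2 b⁻¹
      rwa [inv_inv] at this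
    have h2 := Cop.inf_centralizer_eq_bot_of_abelian (A := X₁.map f) (P := K.map f) hcomm
      (by
        have : (K.map f).Normal := hKn.map f (QuotientGroup.mk'_surjective D)
        rw [Subgroup.normalizer_eq_top]; exact le_top)
      (by
        refine Nat.Coprime.coprime_dvd_left (Subgroup.card_map_dvd _ _) ?_
        refine Nat.Coprime.coprime_dvd_right ((Subgroup.card_map_dvd _ _).trans (Subgroup.card_dvd_of_le hKP)) hX1p)
      (by rw [← Subgroup.map_commutator, hKX])
    intro x hx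
    have h3 : f x ∈ K.map f ⊓ centralizer ((X₁.map f : Subgroup _) : Set (S ⧸ D)) := by
      refine Subgroup.mem_inf.2 ⟨⟨x, hx.1, rfl⟩, ?_⟩
      rw [mem_centralizer_iff]
      rintro _ ⟨y, hy, rfl⟩
      rw [← map_mul, ← map_mul, mem_centralizer_iff.1 hx.2 y hy]
    rw [h2, Subgroup.mem_bot] at h3
    simpa [hf] using h3
  have hgen : K ≤ (K ⊓ centralizer (X₂ : Set S)) ⊔ D := by
    have hD' : D ≤ K := Subgroup.commutator_le_self K
    refine (SigF.eq_of_fixed_le (p := q) (A := Q) (K := K) (H := (K ⊓ centralizer (X₂ : Set S)) ⊔ D) hQ hQc.ge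
      (fun h => hqP (h.trans (Subgroup.card_dvd_of_le hKP))) ?_ (sup_le inf_le_left hD') ?_).ge
    · rw [Subgroup.normalizer_eq_top]; exact le_top
    · intro a ha ha1
      have hoa : orderOf a = q := orderOf_eq_prime (hQ.2 a ha) ha1
      by_cases hb : P ⊓ centralizer ((Subgroup.zpowers a : Subgroup S) : Set S) = ⊥
      · intro x hx
        have : x ∈ P ⊓ centralizer ((Subgroup.zpowers a : Subgroup S) : Set S) := by
          refine Subgroup.mem_inf.2 ⟨hKP hx.1, ?_⟩
          rw [Subgroup.zpowers_eq_closure, Subgroup.centralizer_closure]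
          exact hx.2
        rw [hb, Subgroup.mem_bot] at this
        rw [this]; exact one_mem _
      · have h3 := honly (Subgroup.zpowers a) (by rwa [Subgroup.zpowers_le]) (by rw [Nat.card_zpowers, hoa]) hb
        have h4 : K ⊓ centralizer {a} ≤ K ⊓ centralizer ((Subgroup.zpowers a : Subgroup S) : Set S) := by
          rw [Subgroup.zpowers_eq_closure, Subgroup.centralizer_closure]
        refine h4.trans ?_
        rcases h3 with h3 | h3
        · rw [h3]; exact hKc.trans le_sup_right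
        · rw [h3]; exact le_sup_left
  have h5 := eq_of_sup_commutator hKp inf_le_left hgen
  rw [← h5]; exact inf_le_right

/-- Let S = PQ be a finite group with P a normal Sylow p-subgroup and Q elementary abelian of order q², q a prime different from p. If exactly two subgroups X₁, X₂ of order q in Q have a nontrivial centralizer in P, then P is the internal direct product of C_P(X₁) and C_P(X₂): they commute elementwise, meet trivially and generate P. -/
theorem result {S : Type*} [Group S] [Finite S] {p q : ℕ} [Fact p.Prime] [Fact q.Prime] (hpq : p ≠ q)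
    (P : Sylow p S) [(P : Subgroup S).Normal] (Q : Subgroup S) (hQ : Cfsg.IsElementaryAbelian q Q) (hQc : Nat.card Q = q ^ 2)
    (hS : (P : Subgroup S) ⊔ Q = ⊤)
    (X₁ X₂ : Subgroup S) (h₁ : X₁ ≤ Q) (h₂ : X₂ ≤ Q) (h₁₂ : X₁ ≠ X₂) (hc₁ : Nat.card X₁ = q) (hc₂ : Nat.card X₂ = q)
    (hf₁ : (P : Subgroup S) ⊓ Subgroup.centralizer (X₁ : Set S) ≠ ⊥)
    (hf₂ : (P : Subgroup S) ⊓ Subgroup.centralizer (X₂ : Set S) ≠ ⊥)
    (honly : ∀ X : Subgroup S, X ≤ Q → Nat.card X = q →
      (P : Subgroup S) ⊓ Subgroup.centralizer (X : Set S) ≠ ⊥ → X = X₁ ∨ X = X₂) :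
    ⁅(P : Subgroup S) ⊓ Subgroup.centralizer (X₁ : Set S), (P : Subgroup S) ⊓ Subgroup.centralizer (X₂ : Set S)⁆ = ⊥ ∧
      ((P : Subgroup S) ⊓ Subgroup.centralizer (X₁ : Set S)) ⊓ ((P : Subgroup S) ⊓ Subgroup.centralizer (X₂ : Set S)) = ⊥ ∧
      ((P : Subgroup S) ⊓ Subgroup.centralizer (X₁ : Set S)) ⊔ ((P : Subgroup S) ⊓ Subgroup.centralizer (X₂ : Set S)) = P := by
  set P' : Subgroup S := (P : Subgroup S) with hP'
  have hPn : P'.Normal := inferInstance
  have hPp : IsPGroup p P' := P.isPGroup'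
  have e1 := step hpq P' hPp Q hQ hQc hS X₁ X₂ h₁ hc₁ honly
  have e2 := step hpq P' hPp Q hQ hQc hS X₂ X₁ h₂ hc₂ (fun X a b c => (honly X a b c).symm)
  have hqP : ¬ q ∣ Nat.card P' := by
    obtain ⟨k, hk⟩ := IsPGroup.iff_card.1 hPp
    rw [hk]
    intro h
    exact hpq ((Nat.prime_dvd_prime_iff_eq Fact.out Fact.out).1 ((Fact.out : q.Prime).dvd_of_dvd_pow h)).symm
  have hPtop : (⊤ : Subgroup S) ≤ normalizer (P' : Set S) := by
    rw [Subgroup.normalizer_eq_top]
  have hsolvP : Group.IsSolvable P' := by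
    have := hPp.isNilpotent
    infer_instance
  have hX1p : (Nat.card X₁).Coprime (Nat.card P') := by
    rw [hc₁]
    exact (Nat.Prime.coprime_iff_not_dvd Fact.out).2 hqP
  have hX2p : (Nat.card X₂).Coprime (Nat.card P') := by
    rw [hc₂]
    exact (Nat.Prime.coprime_iff_not_dvd Fact.out).2 hqP
  -- inf = bot
  have hinf : (P' ⊓ centralizer (X₁ : Set S)) ⊓ (P' ⊓ centralizer (X₂ : Set S)) = ⊥ := by
    have hX12 : X₁ ⊓ X₂ = ⊥ := by
      by_contra hne
      have hd1 : Nat.card (X₁ ⊓ X₂ : Subgroup S) ∣ q := by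
        rw [← hc₁]; exact Subgroup.card_dvd_of_le inf_le_left
      have h3 : Nat.card (X₁ ⊓ X₂ : Subgroup S) = q := by
        rcases (Nat.dvd_prime Fact.out).1 hd1 with h | h
        · exact absurd (Subgroup.eq_bot_of_card_eq _ h) hne
        · exact h
      apply h₁₂
      have h4 : X₁ ⊓ X₂ = X₁ := Subgroup.eq_of_le_of_card_ge inf_le_left (by rw [h3, hc₁])
      have h5 : X₁ ⊓ X₂ = X₂ := Subgroup.eq_of_le_of_card_ge inf_le_right (by rw [h3, hc₂])
      rw [← h4, h5]
    have hne1 : X₁ ≠ ⊥ := by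
      rintro rfl
      rw [Subgroup.card_bot] at hc₁
      exact (Fact.out : q.Prime).one_lt.ne hc₁
    have hne2 : X₂ ≠ ⊥ := by
      rintro rfl
      rw [Subgroup.card_bot] at hc₂
      exact (Fact.out : q.Prime).one_lt.ne hc₂
    obtain ⟨⟨x1, hx1⟩, hx1n⟩ := Subgroup.ne_bot_iff_exists_ne_one.1 hne1
    obtain ⟨⟨x2, hx2⟩, hx2n⟩ := Subgroup.ne_bot_iff_exists_ne_one.1 hne2
    set a : S := (x1 : S) * (x2 : S) with ha
    have haQ : a ∈ Q := Q.mul_mem (h₁ hx1) (h₂ hx2)
    have ha1 : a ∉ X₁ := by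
      intro h
      have h6 : (x2 : S) ∈ X₁ := by
        have := X₁.mul_mem (X₁.inv_mem hx1) h
        rwa [ha, inv_mul_cancel_left] at this
      have h7 : (x2 : S) ∈ X₁ ⊓ X₂ := Subgroup.mem_inf.2 ⟨h6, hx2⟩
      rw [hX12, Subgroup.mem_bot] at h7
      exact hx2n (Subtype.ext h7)
    have ha2 : a ∉ X₂ := by
      intro h
      have h6 : (x1 : S) ∈ X₂ := by
        have := X₂.mul_mem h (X₂.inv_mem hx2)
        rwa [ha, mul_inv_cancel_right] at this
      have h7 : (x1 : S) ∈ X₁ ⊓ X₂ := Subgroup.mem_inf.2 ⟨hx1, h6⟩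
      rw [hX12, Subgroup.mem_bot] at h7
      exact hx1n (Subtype.ext h7)
    have hoa : orderOf a = q := orderOf_eq_prime (hQ.2 a haQ) (fun h => ha1 (h ▸ X₁.one_mem))
    have hbot : P' ⊓ centralizer ((Subgroup.zpowers a : Subgroup S) : Set S) = ⊥ := by
      by_contra hb
      rcases honly (Subgroup.zpowers a) (by rwa [Subgroup.zpowers_le]) (by rw [Nat.card_zpowers, hoa]) hb with h | h
      · exact ha1 (h ▸ Subgroup.mem_zpowers a)
      · exact ha2 (h ▸ Subgroup.mem_zpowers a)
    rw [eq_bot_iff, ← hbot]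
    rintro x ⟨⟨hxP, hxa⟩, ⟨-, hxb⟩⟩
    refine Subgroup.mem_inf.2 ⟨hxP, ?_⟩
    rw [Subgroup.zpowers_eq_closure, Subgroup.centralizer_closure, Subgroup.mem_centralizer_singleton_iff, ha]
    have f1 : (x1 : S) * x = x * x1 := mem_centralizer_iff.1 hxa _ hx1
    have f2 : (x2 : S) * x = x * x2 := mem_centralizer_iff.1 hxb _ hx2
    calc x * (x1 * x2) = (x * x1) * x2 := by group
      _ = x1 * (x * x2) := by rw [← f1]; group
      _ = x1 * x2 * x := by rw [← f2]; group
  -- C2 = [P,X1], C1 = [P,X2]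
  have hC : ∀ Y Z : Subgroup S, (Nat.card Y).Coprime (Nat.card P') →
      (P' ⊓ centralizer (Y : Set S)) ⊓ (P' ⊓ centralizer (Z : Set S)) = ⊥ → ⁅P', Y⁆ ≤ centralizer (Z : Set S) →
      P' ⊓ centralizer (Z : Set S) = ⁅P', Y⁆ := by
    intro Y Z hY hbot hle
    apply le_antisymm
    · intro x hx
      obtain ⟨u, hu, c, hc, rfl⟩ := Cop.exists_eq_mul_of_mem (A := Y) (K := P') (le_top.trans hPtop) hY
        (Or.inr hsolvP) hx.1
      have hu' : u ∈ P' ⊓ centralizer (Z : Set S) :=
        Subgroup.mem_inf.2 ⟨Subgroup.commutator_le_left _ _ hu, hle hu⟩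
      have hc' : c ∈ P' ⊓ centralizer (Z : Set S) := by
        have := (P' ⊓ centralizer (Z : Set S)).mul_mem ((P' ⊓ centralizer (Z : Set S)).inv_mem hu') hx
        rwa [inv_mul_cancel_left] at this
      have : c ∈ (P' ⊓ centralizer (Y : Set S)) ⊓ (P' ⊓ centralizer (Z : Set S)) := Subgroup.mem_inf.2 ⟨hc, hc'⟩
      rw [hbot, Subgroup.mem_bot] at this
      rw [this, mul_one]; exact hu
    · exact le_inf (Subgroup.commutator_le_left _ _) hle
  have hC2 := hC X₁ X₂ hX1p hinf e1
  have hC1 := hC X₂ X₁ hX2p (by rw [inf_comm]; exact hinf) e2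
  have hn1 : P' ≤ normalizer ((⁅P', X₁⁆ : Subgroup S) : Set S) := Subgroup.normalizer_commutator_ge_left _ _
  have hn2 : P' ≤ normalizer ((⁅P', X₂⁆ : Subgroup S) : Set S) := Subgroup.normalizer_commutator_ge_left _ _
  refine ⟨?_, hinf, ?_⟩
  · rw [eq_bot_iff, ← hinf]
    refine le_inf ?_ ?_
    · refine Subgroup.le_normalizer_iff_commutator_le_left.1 ?_
      rw [hC1]; exact inf_le_left.trans hn2
    · refine Subgroup.le_normalizer_iff_commutator_le_right.1 ?_
      rw [hC2]; exact inf_le_left.trans hn1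
  · rw [hC2, sup_comm]
    exact Cop.commutator_sup_centralizer (le_top.trans hPtop) hX1p (Or.inr hsolvP)

end Cfsg.Agent.S1900
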