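import Cfsg.Statements.S1902
import Cfsg.Agent.Cop.ThompsonOdd
import Cfsg.Agent.BG.Critical
import Cfsg.Agent.BG.ConjAut
import Cfsg.Agent.SigF.Coprime
import Cfsg.Agent.H76.PSolvable
import Cfsg.Agent.H32.Syl

set_option autoImplicit false
open Cfsg

namespace Cfsg.Agent.S1902

open Subgroup
open scoped commutatorElement

theorem core_case {G : Type*} [Group G] [Finite G] {p : ℕ} [Fact p.Prime] (hp : p ≠ 2)
    (hG : Cfsg.IsPSolvable p G) (hcore : Cfsg.pPrimeCore p G = ⊥) (B Q : Subgroup G)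
    (hB : ∀ x ∈ B, ∀ y ∈ B, x * y = y * x) (b₀ : G) (hb₀ : b₀ ∈ B) (hbp : b₀ ^ p = 1)
    (hyp : ∀ x ∈ Cfsg.pCore p G, b₀ * x = x * b₀ → x ^ p = 1 → x ∈ B)
    (hQ : (Nat.card Q).Coprime p) (hBQ : B ≤ normalizer (Q : Set G)) : Q = ⊥ := by
  set V := Cfsg.pCore p G with hV
  have hVn : V.Normal := inferInstance
  have hVp : IsPGroup p V := Solv.pCore_isPGroup p
  have hcop : (Nat.card Q).Coprime (Nat.card V) := by
    obtain ⟨k, hk⟩ := IsPGroup.iff_card.1 hVp
    rw [hk]; exact Nat.Coprime.pow_right _ hQ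
  have hQV := Cop.inf_eq_bot_of_coprime hcop
  have htop : ∀ N : Subgroup G, N.Normal → ∀ A : Subgroup G, A ≤ normalizer (N : Set G) := by
    intro N hN A
    rw [Subgroup.normalizer_eq_top]; exact le_top
  -- B ∩ V centralizes Q
  have hBV : B ⊓ V ≤ centralizer (Q : Set G) := by
    rw [← Subgroup.commutator_eq_bot_iff_le_centralizer, eq_bot_iff, ← hQV]
    refine le_inf ?_ ?_
    · exact Subgroup.le_normalizer_iff_commutator_le_right.1 (inf_le_left.trans hBQ)
    · exact (Subgroup.commutator_mono inf_le_right le_rfl).trans (Subgroup.commutator_le_left _ _)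
  obtain ⟨C, hCchar, hexp, -, hfaith⟩ := BG.exists_critical_odd (R := V) (p := p) hp hVp
  set U : Subgroup G := C.map V.subtype with hU
  have hUn : U.Normal := inferInstance
  have hUV : U ≤ V := Subgroup.map_subtype_le _
  have hUp : IsPGroup p U := hVp.to_le hUV
  have hUexp : ∀ x ∈ U, x ^ p = 1 := by
    rintro _ ⟨x, hx, rfl⟩
    exact congrArg Subtype.val (hexp x hx)
  have hzp : IsPGroup p (Subgroup.zpowers b₀) := by
    intro ⟨x, hx⟩
    obtain ⟨k, rfl⟩ := Subgroup.mem_zpowers_iff.1 hx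
    refine ⟨1, Subtype.ext ?_⟩
    rw [pow_one]
    show (b₀ ^ k) ^ p = 1
    rw [← zpow_natCast, ← zpow_mul, mul_comm, zpow_mul, zpow_natCast, hbp, one_zpow]
  have h1 : Q ≤ centralizer (U : Set G) := by
    refine Cop.le_centralizer_of_thompson_odd hp (Subgroup.zpowers b₀) Q U hzp hQ ?_ hUp
      (htop U hUn _) (htop U hUn _) ?_
    · rw [Subgroup.zpowers_le]; exact hBQ hb₀
    · rintro x ⟨hxU, hxb⟩
      apply hBV
      refine Subgroup.mem_inf.2 ⟨hyp x (hUV hxU) ?_ (hUexp x hxU), hUV hxU⟩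
      exact mem_centralizer_iff.1 hxb _ (Subgroup.mem_zpowers _)
  have h2 : Q ≤ centralizer (V : Set G) := by
    intro x hx
    have h3 : BG.conjHom Q V (htop V hVn Q) ⟨x, hx⟩ = 1 := by
      apply hfaith
      · have h4 : orderOf (BG.conjHom Q V (htop V hVn Q) ⟨x, hx⟩) ∣ Nat.card Q :=
          (orderOf_map_dvd _ _).trans (orderOf_dvd_natCard _)
        exact Nat.Coprime.coprime_dvd_left h4 hQ
      · intro c hc
        apply Subtype.ext
        rw [BG.conjHom_apply]
        have h5 : (c : G) ∈ U := ⟨c, hc, rfl⟩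
        have h6 := mem_centralizer_iff.1 (h1 hx) _ h5
        show x * (c : G) * x⁻¹ = c
        rw [← h6]; group
    exact (BG.conjHom_eq_one_iff Q V (htop V hVn Q) ⟨x, hx⟩).1 h3
  have h3 : Q ≤ V := h2.trans (H76.centralizer_pCore_le hG hcore)
  rw [eq_bot_iff, ← hQV]
  exact le_inf le_rfl h3

theorem main {G : Type*} [Group G] [Finite G] {p : ℕ} [Fact p.Prime] (hp : p ≠ 2)
    (hG : Cfsg.IsPSolvable p G) (B : Subgroup G) (hB : Cfsg.IsElementaryAbelian p B)
    (b₀ : G) (hb₀ : b₀ ∈ B) (P0 : Subgroup G) (hP0C : P0 ≤ Subgroup.centralizer ({b₀} : Set G))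
    (hP0p : IsPGroup p P0) (hP0i : ¬ p ∣ P0.relIndex (Subgroup.centralizer ({b₀} : Set G)))
    (hP0B : ∀ c ∈ P0, c ^ p = 1 → c ∈ B)
    (Q : Subgroup G) (hQ : ¬ p ∣ Nat.card Q) (hinv : ∀ b ∈ B, ∀ x ∈ Q, b * x * b⁻¹ ∈ Q) :
    Q ≤ Cfsg.pPrimeCore p G := by
  set K := Cfsg.pPrimeCore p G with hK
  have hKn : K.Normal := inferInstance
  have hKp : (Nat.card K).Coprime p := Solv.pPrimeCore_card_coprime p
  have hKp' : ¬ p ∣ Nat.card K := (Nat.Prime.coprime_iff_not_dvd Fact.out).1 hKp.symm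
  have hBc : ∀ x ∈ B, ∀ y ∈ B, x * y = y * x := by
    intro x hx y hy
    have := hB.1
    exact congrArg (fun z : B => (z : G)) (mul_comm' (⟨x, hx⟩ : B) ⟨y, hy⟩)
  set f := QuotientGroup.mk' K with hf
  have hfs : Function.Surjective f := QuotientGroup.mk'_surjective K
  have hker : ∀ x : G, f x = 1 ↔ x ∈ K := by
    intro x; rw [hf, QuotientGroup.mk'_apply, QuotientGroup.eq_one_iff]
  have hbp : b₀ ^ p = 1 := hB.2 b₀ hb₀
  have hzp : IsPGroup p (Subgroup.zpowers b₀) := by
    intro ⟨x, hx⟩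
    obtain ⟨k, rfl⟩ := Subgroup.mem_zpowers_iff.1 hx
    refine ⟨1, Subtype.ext ?_⟩
    rw [pow_one]
    show (b₀ ^ k) ^ p = 1
    rw [← zpow_natCast, ← zpow_mul, mul_comm, zpow_mul, zpow_natCast, hbp, one_zpow]
  set C0 := Subgroup.centralizer ({b₀} : Set G) with hC0
  set Cb := Subgroup.centralizer ({f b₀} : Set (G ⧸ K)) with hCb
  have hCb' : C0.map f = Cb := by
    apply le_antisymm
    · rintro _ ⟨x, hx, rfl⟩
      rw [hCb, mem_centralizer_singleton_iff, ← map_mul, ← map_mul,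
        mem_centralizer_singleton_iff.1 hx]
    · intro yb hyb
      obtain ⟨y, rfl⟩ := hfs yb
      rw [hCb, mem_centralizer_singleton_iff] at hyb
      have hcomm : ∀ a ∈ Subgroup.zpowers b₀, y⁻¹ * (a * y * a⁻¹) ∈ K := by
        intro a ha
        obtain ⟨k, rfl⟩ := Subgroup.mem_zpowers_iff.1 ha
        rw [← hker, map_mul, map_mul, map_mul, map_inv, map_inv, map_zpow]
        have h1 : Commute (f y) (f b₀) := hyb
        have h2 : f b₀ ^ k * f y = f y * f b₀ ^ k := (h1.zpow_right k).symm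
        rw [h2]; group
      obtain ⟨y', hy', hc⟩ := SigF.exists_fixed_coset hzp hKp' (by
        rw [Subgroup.normalizer_eq_top]; exact le_top) hcomm
      refine ⟨y', ?_, ?_⟩
      · rw [SetLike.mem_coe, hC0, mem_centralizer_singleton_iff]
        exact (hc b₀ (Subgroup.mem_zpowers _)).symm
      · rw [← hker, map_mul, map_inv] at hy'
        exact (inv_mul_eq_one.1 hy').symm
  have hPb : P0.map f ≤ Cb := by rw [← hCb']; exact Subgroup.map_mono hP0C
  have hPbi : ¬ p ∣ (P0.map f).relIndex Cb := by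
    rw [← hCb', ← Subgroup.relIndex_comap]
    intro hd
    exact hP0i (hd.trans (Subgroup.relIndex_dvd_of_le_left _ (Subgroup.le_comap_map _ _)))
  have hQ' : (Nat.card Q).Coprime p := ((Nat.Prime.coprime_iff_not_dvd Fact.out).2 hQ).symm
  have hmain := core_case (G := G ⧸ K) hp (H76.isPSolvable_quotient K hG)
    (Solv.pPrimeCore_quotient_pPrimeCore p) (B.map f) (Q.map f)
    (by
      rintro _ ⟨x, hx, rfl⟩ _ ⟨y, hy, rfl⟩
      rw [← map_mul, ← map_mul, hBc x hx y hy]) (f b₀) ⟨b₀, hb₀, rfl⟩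
    (by rw [← map_pow, hbp, map_one])
    (by
      intro x hxV hxb hxp
      set N1 := Cfsg.pCore p (G ⧸ K) ⊓ Cb with hN1
      have hN1p : IsPGroup p N1 := (Solv.pCore_isPGroup p).to_le inf_le_left
      obtain ⟨h, hh, hhx⟩ := H32.exists_conj_le_of_not_dvd_relIndex hPb (hP0p.map _) hPbi
        (inf_le_right : N1 ≤ Cb) hN1p
      have hxN : x ∈ N1 := Subgroup.mem_inf.2 ⟨hxV, by
        rw [hCb, mem_centralizer_singleton_iff]; exact hxb.symm⟩
      have h1 : h⁻¹ * x * h ∈ N1 := by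
        refine Subgroup.mem_inf.2 ⟨?_, Cb.mul_mem (Cb.mul_mem (Cb.inv_mem hh) hxN.2) hh⟩
        have h2 : (Cfsg.pCore p (G ⧸ K)).Normal := inferInstance
        have := h2.conj_mem x hxV h⁻¹
        rwa [inv_inv] at this
      have h2 := hhx _ h1
      have h3 : h * (h⁻¹ * x * h) * h⁻¹ = x := by group
      rw [h3] at h2
      obtain ⟨c, hc, rfl⟩ := h2
      refine ⟨c, ?_, rfl⟩
      have hcp : c ^ p = 1 := by
        have h4 : c ^ p ∈ K := by rw [← hker, map_pow, hxp]
        have h5 : c ^ p ∈ P0 := P0.pow_mem hc _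
        have h6 : (Nat.card K).Coprime (Nat.card P0) := by
          obtain ⟨k, hk⟩ := IsPGroup.iff_card.1 hP0p
          rw [hk]; exact Nat.Coprime.pow_right _ hKp
        exact Cop.eq_one_of_mem_of_mem h6 h4 h5
      exact hP0B c hc hcp)
    (Nat.Coprime.coprime_dvd_left (Subgroup.card_map_dvd _ _) hQ')
    (by
      refine (Subgroup.map_mono ?_).trans (Subgroup.le_normalizer_map _)
      intro b hb
      rw [Subgroup.mem_normalizer_iff]
      intro x
      constructor
      · exact hinv b hb x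
      · intro hx
        have := hinv b⁻¹ (B.inv_mem hb) _ hx
        have h7 : b⁻¹ * (b * x * b⁻¹) * b⁻¹⁻¹ = x := by group
        rwa [h7] at this)
  rw [Subgroup.map_eq_bot_iff, hf, QuotientGroup.ker_mk'] at hmain
  exact hmain

/-- Let p be an odd prime, G a finite p-solvable group, and B an elementary abelian subgroup of order p² such that B is the subgroup generated by the elements of order p of some Sylow p-subgroup of C_G(b₀), for some nontrivial b₀ ∈ B. Then every B-invariant subgroup of G of order prime to p lies in O_{p'}(G). -/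
theorem result {G : Type*} [Group G] [Finite G] {p : ℕ} [Fact p.Prime] (hp : p ≠ 2)
    (hG : Cfsg.IsPSolvable p G) (B : Subgroup G) (hB : Cfsg.IsElementaryAbelian p B) (hBc : Nat.card B = p ^ 2)
    (b₀ : G) (hb₀ : b₀ ∈ B) (hb₁ : b₀ ≠ 1) (P : Sylow p ↥(Subgroup.centralizer ({b₀} : Set G)))
    (hBP : B = Subgroup.closure {x : G | x ∈ ((P : Subgroup ↥(Subgroup.centralizer ({b₀} : Set G))).map
      (Subgroup.centralizer ({b₀} : Set G)).subtype : Subgroup G) ∧ orderOf x = p})
    (Q : Subgroup G) (hQ : ¬ p ∣ Nat.card Q) (hinv : ∀ b ∈ B, ∀ x ∈ Q, b * x * b⁻¹ ∈ Q) :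
    Q ≤ Cfsg.pPrimeCore p G := by
  set P0 : Subgroup G := (P : Subgroup ↥(Subgroup.centralizer ({b₀} : Set G))).map
      (Subgroup.centralizer ({b₀} : Set G)).subtype with hP0
  have hP0i : ¬ p ∣ P0.relIndex (Subgroup.centralizer ({b₀} : Set G)) := by
    have : P0.relIndex (Subgroup.centralizer ({b₀} : Set G)) =
        (P : Subgroup ↥(Subgroup.centralizer ({b₀} : Set G))).index := by
      rw [Subgroup.relIndex, hP0, Subgroup.subgroupOf,
        Subgroup.comap_map_eq_self_of_injective (Subgroup.subtype_injective _)]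
    rw [this]; exact P.not_dvd_index
  refine main hp hG B hB b₀ hb₀ P0 (Subgroup.map_subtype_le _) (P.isPGroup'.map _) hP0i ?_ Q hQ hinv
  intro c hc hcp
  by_cases hc1 : c = 1
  · rw [hc1]; exact one_mem _
  · rw [hBP]
    exact Subgroup.subset_closure ⟨hc, orderOf_eq_prime hcp hc1⟩

end Cfsg.Agent.S1902
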