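import Cfsg.Statements.S1903
import Cfsg.Agent.H21.F320f

set_option autoImplicit false
open Cfsg

namespace Cfsg.Agent.S1903

/-- A finite group of order 320 whose derived subgroup has order 64 and has centre a Klein four-group is isomorphic to the centralizer of an involution in PSU₃(4). -/
theorem result {G : Type*} [Group G] [Finite G] (hG : Nat.card G = 320) (hD : Nat.card (commutator G) = 64)
    (hZ : IsKleinFour (Subgroup.center (commutator G)))
    {F : Type*} [Field F] [Fintype F] (hF : Fintype.card F = 16) :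
    ∃ t : Cfsg.PSU 3 F 4, orderOf t = 2 ∧ Nonempty (G ≃* Subgroup.centralizer ({t} : Set (Cfsg.PSU 3 F 4))) := by
  classical
  have hF' : Fintype.card F = 4 ^ 2 := by rw [hF]; norm_num
  have hch : CharP F 2 := by
    have h1 : ((Fintype.card F : ℕ) : F) = 0 := FiniteField.cast_card_eq_zero F
    rw [hF] at h1
    have h2 : (2 : F) ^ 4 = 0 := by
      have : ((16 : ℕ) : F) = 2 ^ 4 := by norm_num
      rw [← this, h1]
    exact CharTwo.of_one_ne_zero_of_two_eq_zero one_ne_zero (pow_eq_zero_iff (by norm_num) |>.1 h2)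
  -- an isotropic vector
  obtain ⟨u, hu⟩ : ∃ u : Fin 3 → F, Agent.AutPSU.Iso 4 u := by
    have hp : Fact (Nat.Prime 2) := ⟨Nat.prime_two⟩
    obtain ⟨u, hu, -⟩ := H21.Sq.sylow_SU hF' (default : Sylow 2 (SU 3 F 4))
    exact ⟨u, hu⟩
  obtain ⟨t₀, ht₀⟩ := Agent.Uni.exists_eich hF' u 0 1 hu.2 (Agent.Uni.hermForm_zero_right hF' u) (by
    rw [one_pow, Agent.Uni.hermForm_zero_right hF', CharTwo.add_self_eq_zero, neg_zero])
  obtain ⟨c1, c2, c3⟩ := H21.F320.cent_facts hF' hu ht₀
  obtain ⟨e⟩ := H21.F320.uniq hG hD hZ c1 c2 c3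
  -- the centre of `SU` is trivial
  have hcen : Subgroup.center (SU 3 F 4) = ⊥ := by
    apply Subgroup.eq_bot_of_card_eq
    rw [Agent.Uni.card_center_SU hF' (by norm_num)]
    norm_num
  let f : SU 3 F 4 ≃* Cfsg.PSU 3 F 4 := MulEquiv.ofBijective (QuotientGroup.mk' (Subgroup.center (SU 3 F 4)))
    ⟨by
      rw [← MonoidHom.ker_eq_bot_iff, QuotientGroup.ker_mk', hcen], QuotientGroup.mk'_surjective _⟩
  have ht : orderOf t₀ = 2 := by
    have h1 := ht₀.mul hF' hu.2 (Agent.Uni.hermForm_zero_right hF' u) (Agent.Uni.hermForm_zero_right hF' u) ht₀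
    rw [Agent.Uni.hermForm_zero_right hF', add_zero, sub_zero, CharTwo.add_self_eq_zero] at h1
    apply orderOf_eq_prime
    · rw [pow_two]
      exact h1.unique (Agent.Uni.isEich_one hF' u)
    · intro h
      obtain ⟨v, hv⟩ := Agent.Uni.exists_hyp' hF' hu.1 hu.2
      have hvu : hermForm 3 F 4 v u = 1 := (hv.symm hF').2.2
      have h2 := (Agent.Uni.isEich_zero_iff hF' t₀ u 1).1 ht₀ v
      rw [h, Agent.Uni.act_one, hvu, one_mul, one_smul] at h2
      exact hu.1 (by simpa using h2.symm)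
  refine ⟨f t₀, by rw [MulEquiv.orderOf_eq, ht], ?_⟩
  have h5 : (Subgroup.centralizer ({t₀} : Set (SU 3 F 4))).map f.toMonoidHom =
      Subgroup.centralizer ({f t₀} : Set (Cfsg.PSU 3 F 4)) := by
    ext x
    rw [Subgroup.mem_centralizer_singleton_iff]
    constructor
    · rintro ⟨g, hg, rfl⟩
      have := Subgroup.mem_centralizer_singleton_iff.1 hg
      show f g * f t₀ = f t₀ * f g
      rw [← map_mul, this, map_mul]
    · intro h
      refine ⟨f.symm x, ?_, f.apply_symm_apply x⟩
      apply Subgroup.mem_centralizer_singleton_iff.2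
      apply f.injective
      rw [map_mul, map_mul, f.apply_symm_apply, h]
  exact ⟨e.trans ((f.subgroupMap _).trans (MulEquiv.subgroupCongr h5))⟩

end Cfsg.Agent.S1903
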