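import Cfsg.Statements.S1905
import Cfsg.Agent.H32.Syl
import Cfsg.Agent.StrEmb.Basic

set_option autoImplicit false
open Cfsg

namespace Cfsg.Agent.S1905

open Cfsg.Agent.H32 Cfsg.Agent.StrEmb

theorem one_class {S : Type*} [Group S] [Finite S] (M : Subgroup S) (hM : Even (Nat.card M))
    (hC : ∀ i ∈ M, orderOf i = 2 → Subgroup.centralizer ({i} : Set S) ≤ M)
    (hcore : Odd (Nat.card M.normalCore)) (x y : S) (hx : orderOf x = 2) (hy : orderOf y = 2) :
    IsConj x y := by
  obtain ⟨i, hi⟩ := exists_prime_orderOf_dvd_card' (G := M) 2 (even_iff_two_dvd.1 hM)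
  have key : ∀ x : S, orderOf x = 2 → IsConj (i : S) x := by
    intro x hx
    by_contra hne
    have hxc : x ∈ M.normalCore := by
      intro g
      -- show g * x * g⁻¹ ∈ M
      have hi2 : orderOf (i : S) = 2 := by rw [Subgroup.orderOf_coe, hi]
      have hgx : orderOf (g * x * g⁻¹) = 2 := by rw [orderOf_conj, hx]
      rcases Nat.even_or_odd (orderOf ((i : S) * (g * x * g⁻¹))) with he | ho
      · obtain ⟨z, hz, hzi, hzx⟩ := exists_involution_commute hi2 hgx (orderOf_pos _).ne' he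
        have hzM : z ∈ M := hC _ i.2 hi2 (Subgroup.mem_centralizer_singleton_iff.2 hzi.eq)
        exact hC _ hzM hz (Subgroup.mem_centralizer_singleton_iff.2 hzx.symm.eq)
      · exfalso
        obtain ⟨w, -, -, hw⟩ := exists_conj_of_odd hi2 hgx ho
        apply hne
        rw [isConj_iff]
        refine ⟨g⁻¹ * w, ?_⟩
        calc g⁻¹ * w * (i : S) * (g⁻¹ * w)⁻¹ = g⁻¹ * (w * i * w⁻¹) * g := by group
          _ = x := by rw [hw]; group
    have h1 := orderOf_dvd_natCard (⟨x, hxc⟩ : M.normalCore)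
    rw [Subgroup.orderOf_mk, hx] at h1
    exact absurd (even_iff_two_dvd.2 h1) (Nat.not_even_iff_odd.2 hcore)
  exact (key x hx).symm.trans (key y hy)

theorem strEmb {S : Type*} [Group S] [Finite S] (M : Subgroup S) (hM : Even (Nat.card M))
    (hC : ∀ i ∈ M, orderOf i = 2 → Subgroup.centralizer ({i} : Set S) ≤ M)
    (hcore : Odd (Nat.card M.normalCore)) (X : Sylow 2 M) (I : S) (hIX : I ∈ ((X : Subgroup M).map M.subtype : Subgroup S))
    (hIc : ∀ x ∈ ((X : Subgroup M).map M.subtype : Subgroup S), x * I = I * x) (hI : orderOf I = 2)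
    (hN : Subgroup.normalizer (((X : Subgroup M).map M.subtype : Subgroup S) : Set S) ≤ M) :
    Cfsg.IsStronglyEmbedded M := by
  have hf2 : Fact (Nat.Prime 2) := ⟨Nat.prime_two⟩
  set Xs : Subgroup S := (X : Subgroup M).map M.subtype with hXs
  have hXM : Xs ≤ M := by rw [hXs]; exact Subgroup.map_subtype_le _
  have hXp : IsPGroup 2 Xs := X.2.map _
  have hXrel : ¬ 2 ∣ Xs.relIndex M := by
    have : Xs.relIndex M = (X : Subgroup M).index := by
      rw [Subgroup.relIndex, hXs, Subgroup.subgroupOf, Subgroup.comap_map_eq_self_of_injective M.subtype_injective]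
    rw [this]
    exact X.not_dvd_index
  have hXidx : ¬ 2 ∣ Xs.index := by
    obtain ⟨n, hn⟩ := IsPGroup.iff_card.1 hXp
    intro hd
    have h1 : 2 ^ (n + 1) ∣ Nat.card S := by
      rw [← Xs.card_mul_index, hn, pow_succ]
      exact Nat.mul_dvd_mul_left _ hd
    have h2 := Sylow.prime_dvd_card_quotient_normalizer h1 hn
    apply hXrel
    have h3 : Xs.relIndex (Subgroup.normalizer (Xs : Set S)) * (Subgroup.normalizer (Xs : Set S)).relIndex M = Xs.relIndex M :=
      Subgroup.relIndex_mul_relIndex _ _ _ Subgroup.le_normalizer hN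
    rw [← h3]
    exact Dvd.dvd.mul_right h2 _
  refine ⟨?_, hM, ?_⟩
  · rintro rfl
    have : (⊤ : Subgroup S).normalCore = ⊤ := Subgroup.normalCore_eq_self ⊤
    rw [this] at hcore
    exact Nat.not_even_iff_odd.2 hcore hM
  · intro g hg
    rw [← Nat.not_even_iff_odd]
    intro he
    obtain ⟨t, ht⟩ := exists_prime_orderOf_dvd_card' (G := ↥(M ⊓ M.map (MulAut.conj g).toMonoidHom)) 2
      (even_iff_two_dvd.1 he)
    have ht2 : orderOf (t : S) = 2 := by rw [Subgroup.orderOf_coe, ht]
    obtain ⟨htM, htg⟩ := Subgroup.mem_inf.1 t.2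
    rw [mem_map_conj] at htg
    -- conjugate t into Xs
    have hP : IsPGroup 2 (Subgroup.zpowers (t : S)) := by
      apply IsPGroup.of_card (n := 1)
      rw [Nat.card_zpowers, ht2, pow_one]
    obtain ⟨m, hm, hmt⟩ := exists_conj_le_of_not_dvd_relIndex hXM hXp hXrel
      (by rw [Subgroup.zpowers_le]; exact htM) hP
    have h1 := hmt _ (Subgroup.mem_zpowers _)
    have hcen : ∀ (t y h : S), orderOf t = 2 → h⁻¹ * t * h ∈ M → y * t = t * y → h⁻¹ * y * h ∈ M := by
      intro t y h ht hM hy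
      refine hC _ hM (by have := orderOf_conj h⁻¹ t; rw [inv_inv] at this; rw [this, ht]) ?_
      rw [Subgroup.mem_centralizer_singleton_iff]
      calc h⁻¹ * y * h * (h⁻¹ * t * h) = h⁻¹ * (y * t) * h := by group
        _ = h⁻¹ * t * h * (h⁻¹ * y * h) := by rw [hy]; group
    have h2 : (m * g)⁻¹ * (m * t * m⁻¹) * (m * g) ∈ M := by
      have : (m * g)⁻¹ * (m * t * m⁻¹) * (m * g) = g⁻¹ * t * g := by group
      rw [this]; exact htg
    have h3 : (m * g)⁻¹ * I * (m * g) ∈ M := hcen _ _ _ (by rw [orderOf_conj, ht2]) h2 (hIc _ h1).symm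
    have h4 : ∀ x ∈ Xs, (m * g)⁻¹ * x * (m * g) ∈ M := fun x hx => hcen _ _ _ hI h3 (hIc x hx)
    set k := m * g with hk
    have hkM : k ∉ M := fun h => hg (by
      have := M.mul_mem (M.inv_mem hm) h
      rw [hk] at this
      simpa using this)
    -- Sylow in kMk⁻¹ : use conj version inside M
    set Q : Subgroup S := Xs.map (MulAut.conj k⁻¹).toMonoidHom with hQ
    have hQM : Q ≤ M := by
      rintro x hx
      rw [hQ, mem_map_conj, inv_inv] at hx
      have := h4 _ hx
      have h5 : k⁻¹ * (k * x * k⁻¹) * k = x := by group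
      rwa [h5] at this
    have hQp : IsPGroup 2 Q := hXp.map _
    obtain ⟨l, hl, hlQ⟩ := exists_conj_le_of_not_dvd_relIndex hXM hXp hXrel hQM hQp
    have h6 : l * k⁻¹ ∈ Subgroup.normalizer (Xs : Set S) := by
      have h7 : Xs.map (MulAut.conj (l * k⁻¹)).toMonoidHom ≤ Xs := by
        rintro x hx
        rw [mem_map_conj] at hx
        have h8 : k⁻¹ * ((l * k⁻¹)⁻¹ * x * (l * k⁻¹)) * k ∈ Q := by
          rw [hQ, mem_map_conj]
          have : k⁻¹⁻¹ * (k⁻¹ * ((l * k⁻¹)⁻¹ * x * (l * k⁻¹)) * k) * k⁻¹ = ((l * k⁻¹)⁻¹ * x * (l * k⁻¹)) := by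
            group
          rw [inv_inv]
          rw [inv_inv] at this
          rw [this]; exact hx
        have h9 := hlQ _ h8
        have : l * (k⁻¹ * ((l * k⁻¹)⁻¹ * x * (l * k⁻¹)) * k) * l⁻¹ = x := by group
        rwa [this] at h9
      exact Cfsg.Agent.H21.mem_normalizer_of_map_conj_le h7
    have h7 := hN h6
    apply hkM
    have h8 := M.mul_mem (M.inv_mem h7) hl
    have h9 : (l * k⁻¹)⁻¹ * l = k := by group
    rwa [h9] at h8

/-- Let M be a subgroup of even order of a finite group S such that M contains the centralizer in S of each of its involutions and the normal core of M in S has odd order. Then all involutions of S are conjugate. If moreover N_S(X) ≤ M for a Sylow 2-subgroup X of M and I is an involution in the centre of X, then all involutions of M are conjugate in M and M = M₀ C_M(I) for some subgroup M₀ of M of odd order. -/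
theorem result {S : Type*} [Group S] [Finite S] (M : Subgroup S) (hM : Even (Nat.card M))
    (hC : ∀ i ∈ M, orderOf i = 2 → Subgroup.centralizer ({i} : Set S) ≤ M) (hcore : Odd (Nat.card M.normalCore)) :
    (∀ x y : S, orderOf x = 2 → orderOf y = 2 → IsConj x y) ∧
      ∀ (X : Sylow 2 M) (I : M), I ∈ (Subgroup.center ↥(X : Subgroup ↥M)).map (X : Subgroup ↥M).subtype → orderOf I = 2 →
        Subgroup.normalizer (((X : Subgroup M).map M.subtype : Subgroup S) : Set S) ≤ M →
        (∀ x y : M, orderOf x = 2 → orderOf y = 2 → IsConj x y) ∧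
          ∃ M₀ : Subgroup M, Odd (Nat.card M₀) ∧
            ∀ m : M, ∃ a ∈ M₀, ∃ c ∈ Subgroup.centralizer ({I} : Set M), m = a * c := by
  refine ⟨one_class M hM hC hcore, ?_⟩
  intro X I hI hI2 hN
  obtain ⟨⟨I', hI'X⟩, hI'c, hI'e⟩ := hI
  have hI'e : (I' : M) = I := hI'e
  subst hI'e
  have hse : Cfsg.IsStronglyEmbedded M := by
    refine strEmb M hM hC hcore X (I' : S) ⟨I', hI'X, rfl⟩ ?_ (by rw [Subgroup.orderOf_coe, hI2]) hN
    rintro _ ⟨x, hx, rfl⟩
    have := (Subgroup.mem_center_iff.1 hI'c ⟨x, hx⟩)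
    have h2 : x * I' = I' * x := congrArg Subtype.val this
    exact congrArg Subtype.val h2
  obtain ⟨u, huM⟩ : ∃ u, u ∉ M := by
    by_contra h
    push Not at h
    exact hse.1 (Subgroup.eq_top_iff' M |>.2 h)
  have hconj : ∀ s t : M, orderOf s = 2 → orderOf t = 2 →
      ∃ d : M, (d : S) ∈ (M ⊓ M.map (MulAut.conj u).toMonoidHom) ∧ d * s * d⁻¹ = t := by
    intro s t hs ht
    obtain ⟨d, hd, hdt⟩ := exists_conj_inf hse huM (by rw [Subgroup.orderOf_coe, hs]) s.2
      (by rw [Subgroup.orderOf_coe, ht]) t.2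
    exact ⟨⟨d, (Subgroup.mem_inf.1 hd).1⟩, hd, Subtype.ext hdt⟩
  refine ⟨?_, ?_⟩
  · intro x y hx hy
    obtain ⟨d, -, hd⟩ := hconj x y hx hy
    exact isConj_iff.2 ⟨d, hd⟩
  · refine ⟨(M ⊓ M.map (MulAut.conj u).toMonoidHom).subgroupOf M, ?_, ?_⟩
    · have h1 := hse.2.2 u huM
      rwa [Nat.card_congr (Subgroup.subgroupOfEquivOfLe inf_le_left).toEquiv]
    · intro m
      obtain ⟨d, hd, hdm⟩ := hconj I' (m * I' * m⁻¹) hI2 (by rw [orderOf_conj, hI2])
      refine ⟨d, hd, d⁻¹ * m, ?_, by group⟩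
      rw [Subgroup.mem_centralizer_singleton_iff]
      calc d⁻¹ * m * I' = d⁻¹ * (m * I' * m⁻¹) * m := by group
        _ = I' * (d⁻¹ * m) := by rw [← hdm]; group

end Cfsg.Agent.S1905
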