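import Cfsg.Statements.S1906
import Cfsg.Agent.H88.GL3a
import Cfsg.Agent.H88.GL3b
import Cfsg.Agent.H88.GL3c

set_option autoImplicit false
open Cfsg

namespace Cfsg.Agent.S1906

open H88.GL3

/-- a finite group with a homomorphism to a finite cyclic group whose image contains an involution has
a subgroup of index two -/
theorem exists_index_two {G : Type*} [Group G] {F : Type*} [Field F] [Fintype F] (φ : G →* Fˣ)
    (t : G) (h1 : φ t * φ t = 1) (h2 : φ t ≠ 1) : ∃ H : Subgroup G, H.index = 2 := by
  classical
  let I : Subgroup Fˣ := φ.range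
  set n := Nat.card I with hn
  have hcyc : IsCyclic I := inferInstance
  have ht2 : orderOf (φ t) = 2 := by
    apply orderOf_eq_prime (by rw [pow_two]; exact h1) h2
  have hdvd : 2 ∣ n := by
    have : orderOf (⟨φ t, t, rfl⟩ : I) ∣ Nat.card I := orderOf_dvd_natCard _
    have h3 : orderOf (⟨φ t, t, rfl⟩ : I) = 2 := by
      rw [← ht2]; exact (Subgroup.orderOf_mk _ _)
    rwa [h3] at this
  obtain ⟨m, hm⟩ := hdvd
  have hnpos : 0 < n := Nat.card_pos
  let ψ : G →* Fˣ := (powMonoidHom m).comp φ
  refine ⟨ψ.ker, ?_⟩
  rw [Subgroup.index_ker]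
  obtain ⟨⟨g0, g, hg⟩, hgen⟩ := IsCyclic.exists_generator (α := I)
  have hord : orderOf g0 = n := by
    have h3 : orderOf (⟨g0, g, hg⟩ : I) = Nat.card I := orderOf_eq_card_of_forall_mem_zpowers hgen
    rw [hn, ← h3]; exact (Subgroup.orderOf_mk _ _).symm
  have hψsq : ∀ x, ψ x * ψ x = 1 := by
    intro x
    show (φ x) ^ m * (φ x) ^ m = 1
    rw [← pow_add, ← two_mul, ← hm]
    have h3 : (⟨φ x, x, rfl⟩ : I) ^ Nat.card I = 1 := pow_card_eq_one'
    exact congrArg Subtype.val h3
  have hψg : ψ g ≠ 1 := by
    show (φ g) ^ m ≠ 1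
    rw [hg]
    intro h3
    have h4 := orderOf_dvd_of_pow_eq_one h3
    rw [hord] at h4
    have := Nat.le_of_dvd (by omega) h4
    omega
  have hval : ∀ u : Fˣ, u * u = 1 → u = 1 ∨ u = -1 := by
    intro u hu
    have : (u : F) * (u : F) = 1 := by rw [← Units.val_mul, hu]; rfl
    rcases mul_self_eq_one_iff.1 this with h | h
    · left; exact Units.ext h
    · right; exact Units.ext (by rw [h]; rfl)
  have hψg' : ψ g = -1 := (hval _ (hψsq g)).resolve_left hψg
  have hne : (-1 : Fˣ) ≠ 1 := by rw [← hψg']; exact hψg
  have hrange : (ψ.range : Set Fˣ) = {1, -1} := by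
    ext u
    constructor
    · rintro ⟨x, rfl⟩
      exact hval _ (hψsq x)
    · rintro (h | h)
      · exact ⟨1, by rw [map_one, h]⟩
      · exact ⟨g, by rw [hψg', h]⟩
  have : Nat.card ψ.range = Set.ncard (ψ.range : Set Fˣ) := rfl
  rw [this, hrange, Set.ncard_pair hne.symm]

/-- Let G be a finite group with no subgroup of index 2 whose Sylow 2-subgroup X embeds in GL₃(F) for a finite field F of odd order. If X contains an elementary abelian subgroup of order 8, then X is abelian. -/
theorem result {G : Type*} [Group G] [Finite G] (hG : ∀ H : Subgroup G, H.index ≠ 2) (X : Sylow 2 G)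
    {F : Type*} [Field F] [Fintype F] (hF : Odd (Fintype.card F))
    (f : ↥(X : Subgroup G) →* GL (Fin 3) F) (hf : Function.Injective f)
    (E : Subgroup G) (hE : E ≤ (X : Subgroup G)) (hEa : Cfsg.IsElementaryAbelian 2 E) (hE8 : Nat.card E = 8) :
    IsMulCommutative (X : Subgroup G) := by
  classical
  have h2 : (2 : F) ≠ 0 := two_ne_zero_of_odd hF
  obtain ⟨l, R, hlR⟩ := exists_split X.isPGroup' hF f
  have hinj : ∀ x : (X : Subgroup G), l x = 1 → R x = 1 → x = 1 := by
    intro x h3 h4
    exact hf ((hlR x h3 h4).trans (map_one f).symm)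
  have hinj2 : ∀ x y : (X : Subgroup G), l x = l y → R x = R y → x = y := by
    intro x y h3 h4
    have h5 : R (x⁻¹ * x) = R (x⁻¹ * y) := by rw [map_mul, h4, ← map_mul]
    have h6 := hinj (x⁻¹ * y) (by rw [map_mul, ← h3, ← map_mul, inv_mul_cancel, map_one])
      (by rw [← h5, inv_mul_cancel, map_one])
    exact (inv_mul_eq_one.1 h6)
  have hRinv : ∀ x : (X : Subgroup G), R x * R x⁻¹ = 1 := by
    intro x; rw [← map_mul, mul_inv_cancel, map_one]
  by_contra hnc
  -- a non-commuting pair
  obtain ⟨a, b, hab⟩ : ∃ a b : (X : Subgroup G), a * b ≠ b * a := by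
    by_contra h
    push Not at h
    exact hnc ⟨⟨h⟩⟩
  let K : Subgroup (X : Subgroup G) := commutator (X : Subgroup G)
  have hKne : K ≠ ⊥ := by
    intro h
    apply hab
    have h3 : a * b * a⁻¹ * b⁻¹ ∈ K :=
      Subgroup.commutator_mem_commutator (Subgroup.mem_top a) (Subgroup.mem_top b)
    rw [h, Subgroup.mem_bot] at h3
    exact mul_inv_eq_iff_eq_mul.1 (mul_inv_eq_one.1 h3)
  let dt : (X : Subgroup G) →* Fˣ :=
    (MonoidHom.toHomUnits ((Matrix.detMonoidHom (n := Fin 2) (R := F)).comp R))
  have hdt : ∀ x, ((dt x : Fˣ) : F) = (R x).det := fun x => rfl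
  have hKl : ∀ z ∈ K, l z = 1 := by
    intro z hz
    exact Abelianization.commutator_subset_ker l hz
  have hKd : ∀ z ∈ K, (R z).det = 1 := by
    intro z hz
    have := Abelianization.commutator_subset_ker dt hz
    rw [MonoidHom.mem_ker] at this
    rw [← hdt, this]; rfl
  have hKp : IsPGroup 2 K := X.isPGroup'.to_subgroup K
  obtain ⟨z, hzK, hzo⟩ : ∃ z ∈ K, orderOf z = 2 := by
    haveI : Nontrivial K := (Subgroup.nontrivial_iff_ne_bot K).2 hKne
    obtain ⟨n, hn, hcard⟩ := hKp.nontrivial_iff_card.1 this
    have hdvd : 2 ∣ Nat.card K := by rw [hcard]; exact dvd_pow_self 2 (by omega)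
    obtain ⟨z, hz⟩ := exists_prime_orderOf_dvd_card' 2 hdvd
    exact ⟨z.1, z.2, (Subgroup.orderOf_coe z).trans hz⟩
  have hzz : z * z = 1 := by
    have := pow_orderOf_eq_one z
    rw [hzo, pow_two] at this
    exact this
  have hz1 : z ≠ 1 := by intro h; rw [h, orderOf_one] at hzo; omega
  have hlz : l z = 1 := hKl z hzK
  have hneg1 : ∀ y ∈ K, y * y = 1 → y ≠ 1 → R y = -1 := by
    intro y hy hyy hy1
    have h3 : R y * R y = 1 := by rw [← map_mul, hyy, map_one]
    rcases mat_inv_det_one h2 (R y) h3 (hKd y hy) with h | h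
    · exact absurd (hinj y (hKl y hy) h) hy1
    · exact h
  have hRz : R z = -1 := hneg1 z hzK hzz hz1
  have hzuniq : ∀ y ∈ K, y * y = 1 → y ≠ 1 → y = z := by
    intro y hy hyy hy1
    exact hinj2 y z ((hKl y hy).trans hlz.symm) ((hneg1 y hy hyy hy1).trans hRz.symm)
  have hMne : (-1 : Matrix (Fin 2) (Fin 2) F) ≠ 1 := by
    intro h
    apply hz1
    exact hinj z hlz (hRz.trans h)
  have hcomm_of : ∀ y : (X : Subgroup G), (∀ M : Matrix (Fin 2) (Fin 2) F, R y * M = M * R y) →
      ∀ x, x * y = y * x := by
    intro y hy x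
    apply hinj2
    · rw [map_mul, map_mul, mul_comm]
    · rw [map_mul, map_mul, hy]
  have hzc : ∀ x, x * z = z * x := hcomm_of z (by intro M; rw [hRz]; simp)
  -- the element t of E
  let E' : Subgroup (X : Subgroup G) := E.subgroupOf (X : Subgroup G)
  have hE'card : Nat.card E' = 8 := by
    rw [← hE8]
    exact Nat.card_congr (Subgroup.subgroupOfEquivOfLe hE).toEquiv
  have hE'2 : ∀ e ∈ E', e * e = 1 := by
    intro e he
    have h3 := hEa.2 (e : G) (Subgroup.mem_subgroupOf.1 he)
    apply Subtype.ext
    rw [← pow_two]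
    exact h3
  obtain ⟨t, htE, ht1, hRt⟩ : ∃ t ∈ E', t ≠ 1 ∧ R t = 1 := by
    by_contra h
    push Not at h
    let δ : E' →* Fˣ := dt.comp E'.subtype
    have h3 : Nat.card δ.ker * δ.ker.index = Nat.card E' := Subgroup.card_mul_index _
    rw [Subgroup.index_ker] at h3
    have h4 : Nat.card δ.range ≤ 2 := by
      have h5 : (δ.range : Set Fˣ) ⊆ {1, -1} := by
        rintro u ⟨⟨e, he⟩, rfl⟩
        have h6 : dt e * dt e = 1 := by rw [← map_mul, hE'2 e he, map_one]
        have h7 : ((dt e : Fˣ) : F) * ((dt e : Fˣ) : F) = 1 := by rw [← Units.val_mul, h6]; rfl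
        rcases mul_self_eq_one_iff.1 h7 with h | h
        · left; exact Units.ext h
        · right; exact Units.ext (by rw [Units.val_neg]; exact h)
      have h8 : Nat.card δ.range = Set.ncard (δ.range : Set Fˣ) := rfl
      rw [h8]
      refine (Set.ncard_le_ncard h5 (Set.toFinite _)).trans ?_
      refine (Set.ncard_insert_le _ _).trans ?_
      rw [Set.ncard_singleton]
    have h5 : Nat.card δ.ker ≤ 2 := by
      -- the map to `{R e = 1, R e = -1}` is injective
      let q : δ.ker → Fin 2 := fun e => if R (e : E') = 1 then 0 else 1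
      have hq : Function.Injective q := by
        rintro ⟨⟨e, he⟩, hek⟩ ⟨⟨e', he'⟩, hek'⟩ hqq
        have h6 : ∀ (y : (X : Subgroup G)) (hy : y ∈ E'), (⟨y, hy⟩ : E') ∈ δ.ker → R y = 1 ∨ R y = -1 := by
          intro y hy hyk
          apply mat_inv_det_one h2
          · rw [← map_mul, hE'2 y hy, map_one]
          · have h7 : dt y = 1 := hyk
            rw [← hdt, h7]; rfl
        have hRR : R e = R e' := by
          have h7 : (if R e = 1 then (0 : Fin 2) else 1) = (if R e' = 1 then (0 : Fin 2) else 1) := hqq
          rcases h6 e he hek with h8 | h8 <;> rcases h6 e' he' hek' with h9 | h9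
          · rw [h8, h9]
          · rw [if_pos h8, if_neg (by rw [h9]; exact hMne)] at h7
            exact absurd h7 (by decide)
          · rw [if_neg (by rw [h8]; exact hMne), if_pos h9] at h7
            exact absurd h7 (by decide)
          · rw [h8, h9]
        have h10 : e⁻¹ * e' = 1 := by
          by_contra hne
          apply h (e⁻¹ * e') (E'.mul_mem (E'.inv_mem he) he') hne
          rw [map_mul, ← hRR, ← map_mul, inv_mul_cancel, map_one]
        have h11 : e = e' := inv_mul_eq_one.1 h10
        subst h11
        rfl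
      have := Nat.card_le_card_of_injective q hq
      simpa using this
    rw [hE'card] at h3
    have h6 : Nat.card δ.ker * Nat.card δ.range ≤ 2 * 2 := Nat.mul_le_mul h5 h4
    omega
  have htt : t * t = 1 := hE'2 t htE
  have hltt : ∀ y : (X : Subgroup G), y * y = 1 → l y = 1 ∨ l y = -1 := by
    intro y hy
    have h6 : l y * l y = 1 := by rw [← map_mul, hy, map_one]
    have h7 : ((l y : Fˣ) : F) * ((l y : Fˣ) : F) = 1 := by rw [← Units.val_mul, h6]; rfl
    rcases mul_self_eq_one_iff.1 h7 with h | h
    · left; exact Units.ext h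
    · right; exact Units.ext (by rw [Units.val_neg]; exact h)
  have hlt : l t = -1 := by
    rcases hltt t htt with h | h
    · exact absurd (hinj t h hRt) ht1
    · exact h
  have hlt1 : l t ≠ 1 := fun h => ht1 (hinj t h hRt)
  have htc : ∀ x, x * t = t * x := hcomm_of t (by intro M; rw [hRt]; simp)
  -- central involutions
  have hcentral : ∀ y : (X : Subgroup G), (∀ x, x * y = y * x) → y * y = 1 →
      y = 1 ∨ y = t ∨ y = z ∨ y = t * z := by
    intro y hyc hyy
    have hRyy : R y * R y = 1 := by rw [← map_mul, hyy, map_one]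
    have hRy : R y = 1 ∨ R y = -1 := by
      by_cases hsc : ∃ c : F, R y = Matrix.scalar (Fin 2) c
      · obtain ⟨c, hc⟩ := hsc
        have h3 : c * c = 1 := by
          have h4 := congrFun (congrFun hRyy 0) 0
          rw [hc] at h4
          simpa [Matrix.mul_apply, Fin.sum_univ_two] using h4
        rcases mul_self_eq_one_iff.1 h3 with h4 | h4
        · left; rw [hc, h4]; ext i j; fin_cases i <;> fin_cases j <;> simp
        · right; rw [hc, h4]; ext i j; fin_cases i <;> fin_cases j <;> simp
      · exfalso
        push Not at hsc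
        apply hab
        apply hinj2
        · rw [map_mul, map_mul, mul_comm]
        · rw [map_mul, map_mul]
          apply mat_comm_of_comm (R y) _ _ hsc
          · rw [← map_mul, ← map_mul, hyc]
          · rw [← map_mul, ← map_mul, hyc]
    rcases hRy with h3 | h3 <;> rcases hltt y hyy with h4 | h4
    · left; exact hinj y h4 h3
    · right; left; exact hinj2 _ _ (h4.trans hlt.symm) (h3.trans hRt.symm)
    · right; right; left; exact hinj2 _ _ (h4.trans hlz.symm) (h3.trans hRz.symm)
    · right; right; right
      apply hinj2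
      · rw [map_mul, hlt, hlz, mul_one, h4]
      · rw [map_mul, hRt, hRz, one_mul, h3]
  -- `N_G(X)` centralizes `t`
  have hNt : ∀ n ∈ Subgroup.normalizer ((X : Subgroup G) : Set G), n * (t : G) = (t : G) * n := by
    intro n hn
    -- conjugation by n as an automorphism of X
    have hconj : ∀ x ∈ (X : Subgroup G), n * x * n⁻¹ ∈ (X : Subgroup G) := fun x hx =>
      (Subgroup.mem_normalizer_iff.1 hn x).1 hx
    have hconj' : ∀ x ∈ (X : Subgroup G), n⁻¹ * x * n ∈ (X : Subgroup G) := fun x hx => by
      have := (Subgroup.mem_normalizer_iff.1 (Subgroup.inv_mem _ hn) x).1 hx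
      simpa using this
    let α : (X : Subgroup G) →* (X : Subgroup G) :=
      { toFun := fun x => ⟨n * x * n⁻¹, hconj x x.2⟩
        map_one' := by apply Subtype.ext; simp
        map_mul' := by
          intro x y
          apply Subtype.ext
          show n * ((x : G) * (y : G)) * n⁻¹ = (n * x * n⁻¹) * (n * y * n⁻¹)
          group }
    have hαv : ∀ x, ((α x : (X : Subgroup G)) : G) = n * x * n⁻¹ := fun x => rfl
    have hαinj : Function.Injective α := by
      intro x y hxy
      have h3 : n * (x : G) * n⁻¹ = n * y * n⁻¹ := congrArg Subtype.val hxy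
      apply Subtype.ext
      exact mul_left_cancel (mul_right_cancel h3)
    have hαK : ∀ y ∈ K, α y ∈ K := by
      intro y hy
      have h3 : K.map α ≤ K := by
        show (commutator (X : Subgroup G)).map α ≤ _
        rw [commutator_def, Subgroup.map_commutator]
        exact Subgroup.commutator_mono le_top le_top
      exact h3 (Subgroup.mem_map_of_mem α hy)
    have hαz : α z = z := by
      apply hzuniq (α z) (hαK z hzK)
      · rw [← map_mul, hzz, map_one]
      · intro h; exact hz1 (hαinj (h.trans (map_one α).symm))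
    have hαcent : ∀ y, (∀ x, x * y = y * x) → ∀ x, x * α y = α y * x := by
      intro y hy x
      have h3 := hy ⟨n⁻¹ * x * n, hconj' x x.2⟩
      have h4 : n⁻¹ * (x : G) * n * y = y * (n⁻¹ * (x : G) * n) := congrArg Subtype.val h3
      apply Subtype.ext
      show (x : G) * (n * y * n⁻¹) = n * y * n⁻¹ * x
      calc (x : G) * (n * y * n⁻¹) = n * (n⁻¹ * (x : G) * n * y) * n⁻¹ := by group
        _ = n * y * n⁻¹ * x := by rw [h4]; group
    have hαt : α t = t ∨ α t = t * z := by
      have h3 := hcentral (α t) (hαcent t htc) (by rw [← map_mul, htt, map_one])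
      rcases h3 with h | h | h | h
      · exact absurd (hαinj (h.trans (map_one α).symm)) ht1
      · exact Or.inl h
      · exfalso
        have h4 : t = z := hαinj (h.trans hαz.symm)
        rw [h4, hRz] at hRt
        exact hMne hRt
      · exact Or.inr h
    rcases hαt with h | h
    · have h3 : n * (t : G) * n⁻¹ = t := by rw [← hαv, h]
      rw [mul_inv_eq_iff_eq_mul] at h3
      exact h3
    · exfalso
      -- n² centralizes t and an odd power of n lies in X
      have h3 : n * (t : G) * n⁻¹ = t * z := by rw [← hαv, h]; rfl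
      have h4 : n * (z : G) * n⁻¹ = z := by rw [← hαv, hαz]
      have h5 : Commute (n * n) (t : G) := by
        show n * n * (t : G) = t * (n * n)
        have h6 : n * (n * (t : G) * n⁻¹) * n⁻¹ = t := by
          rw [h3]
          calc n * ((t : G) * z) * n⁻¹ = (n * t * n⁻¹) * (n * z * n⁻¹) := by group
            _ = t * (z * z) := by rw [h3, h4, mul_assoc]
            _ = t := by
              have : (z : G) * z = 1 := congrArg Subtype.val hzz
              rw [this, mul_one]
        calc n * n * (t : G) = (n * (n * (t : G) * n⁻¹) * n⁻¹) * (n * n) := by group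
          _ = t * (n * n) := by rw [h6]
      set N : Subgroup G := Subgroup.normalizer ((X : Subgroup G) : Set G) with hN
      let XN : Subgroup N := (X : Subgroup G).subgroupOf N
      haveI : XN.Normal := Subgroup.normal_in_normalizer
      have h6 : ¬ 2 ∣ XN.index := by
        have h7 : XN.index ∣ (X : Subgroup G).index := by
          have : XN.index = (X : Subgroup G).relIndex N := rfl
          rw [this]
          exact Dvd.intro _ (Subgroup.relIndex_mul_index (Subgroup.le_normalizer))
        intro h8
        exact X.not_dvd_index (h8.trans h7)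
      have h7 : (⟨n, hn⟩ : N) ^ XN.index ∈ XN := Subgroup.pow_index_mem XN _
      have h8 : n ^ XN.index ∈ (X : Subgroup G) := by
        have := Subgroup.mem_subgroupOf.1 h7
        simpa using this
      obtain ⟨k, hk⟩ : ∃ k, XN.index = 2 * k + 1 := by
        rw [Nat.dvd_iff_mod_eq_zero] at h6
        exact ⟨XN.index / 2, by omega⟩
      rw [hk, pow_succ, pow_mul, pow_two] at h8
      have h9 : (⟨(n * n) ^ k * n, h8⟩ : (X : Subgroup G)) * t = t * ⟨(n * n) ^ k * n, h8⟩ := htc _
      have h10 : (n * n) ^ k * n * (t : G) = t * ((n * n) ^ k * n) := congrArg Subtype.val h9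
      have h11 : (n * n) ^ k * (t : G) = t * (n * n) ^ k := h5.pow_left k
      have h12 : n * (t : G) * n⁻¹ = t := by
        have : (n * n) ^ k * (n * (t : G)) = (n * n) ^ k * (t * n) := by
          calc (n * n) ^ k * (n * (t : G)) = (n * n) ^ k * n * (t : G) := by group
            _ = t * ((n * n) ^ k * n) := h10
            _ = (t * (n * n) ^ k) * n := by group
            _ = ((n * n) ^ k * t) * n := by rw [h11]
            _ = _ := by group
        have h13 := mul_left_cancel this
        rw [mul_inv_eq_iff_eq_mul]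
        exact h13
      rw [h12] at h3
      have h14 : (z : G) = 1 := by
        have : (t : G) * z = t * 1 := by rw [mul_one]; exact h3.symm
        exact mul_left_cancel this
      exact hz1 (Subtype.ext h14)
  have hmain := transfer_involution (X : Subgroup G) X.isPGroup' X.not_dvd_index l (t : G) t.2
    (congrArg Subtype.val htt) hNt
  obtain ⟨H, hH⟩ := exists_index_two (MonoidHom.transfer l) (t : G) (by
    rw [hmain, ← map_mul]
    have : (⟨(t : G), t.2⟩ : (X : Subgroup G)) * ⟨(t : G), t.2⟩ = 1 := htt
    rw [this, map_one]) (by rw [hmain]; exact hlt1)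
  exact hG H hH

end Cfsg.Agent.S1906
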