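import Cfsg.Statements.S1907
import Cfsg.Agent.H32.Syl
import Cfsg.Agent.Solv.Core

set_option autoImplicit false
open Cfsg

namespace Cfsg.Agent.S1907

/-- Let P be a Sylow p-subgroup of a finite group G, H = P ∩ O_{p',p}(G), N = N_G(H) and D = O_{p'}(G). (a) If y is an element of p-power order of N and d ∈ D with d⁻¹ y d ∈ N, then d = d₁ d₂ with d₁ ∈ C_D(y) and d₂ ∈ C_D(H). (b) Two elements of P that are conjugate in G are conjugate in N. -/
theorem result {G : Type*} [Group G] [Finite G] {p : ℕ} [Fact p.Prime] (P : Sylow p G) :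
    (∀ y ∈ Subgroup.normalizer (((P : Subgroup G) ⊓ Cfsg.pPrimePCore p G : Subgroup G) : Set G), (∃ k : ℕ, orderOf y = p ^ k) →
      ∀ d ∈ Cfsg.pPrimeCore p G, d⁻¹ * y * d ∈ Subgroup.normalizer (((P : Subgroup G) ⊓ Cfsg.pPrimePCore p G : Subgroup G) : Set G) →
        ∃ d₁ ∈ Cfsg.pPrimeCore p G ⊓ Subgroup.centralizer ({y} : Set G),
          ∃ d₂ ∈ Cfsg.pPrimeCore p G ⊓ Subgroup.centralizer (((P : Subgroup G) ⊓ Cfsg.pPrimePCore p G : Subgroup G) : Set G), d = d₁ * d₂) ∧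
    ∀ x y : G, x ∈ (P : Subgroup G) → y ∈ (P : Subgroup G) → IsConj x y →
      ∃ n ∈ Subgroup.normalizer (((P : Subgroup G) ⊓ Cfsg.pPrimePCore p G : Subgroup G) : Set G), n * x * n⁻¹ = y := by
  classical
  set D := Cfsg.pPrimeCore p G with hD
  set M := Cfsg.pPrimePCore p G with hM
  set H := (P : Subgroup G) ⊓ M with hH
  set N := Subgroup.normalizer (H : Set G) with hN
  have hDn : D.Normal := inferInstance
  have hMn : M.Normal := by
    rw [hM]; unfold Cfsg.pPrimePCore; infer_instance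
  have hDcop : (Nat.card D).Coprime p := Cfsg.Agent.Solv.pPrimeCore_card_coprime p
  have hHp : IsPGroup p H := P.isPGroup'.to_le inf_le_left
  have cop : ∀ T : Subgroup G, IsPGroup p T → D ⊓ T = ⊥ := by
    intro T hT
    obtain ⟨k, hk⟩ := hT.exists_card_eq
    exact Cfsg.Agent.H32.inf_eq_bot_of_coprime (by rw [hk]; exact hDcop.pow_right k)
  have hDM : D ≤ M := by
    intro x hx
    rw [hM]
    show (QuotientGroup.mk' D) x ∈ Cfsg.pCore p (G ⧸ D)
    have : (QuotientGroup.mk' D) x = 1 := (QuotientGroup.eq_one_iff x).2 hx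
    rw [this]
    exact one_mem _
  have hDN : ∀ c ∈ D, c ∈ N → c ∈ Subgroup.centralizer (H : Set G) := by
    intro c hcD hcN
    rw [Subgroup.mem_centralizer_iff]
    intro h hh
    have h1 : c * h * c⁻¹ * h⁻¹ ∈ D ⊓ H := by
      refine ⟨?_, ?_⟩
      · have : c * h * c⁻¹ * h⁻¹ = c * (h * c⁻¹ * h⁻¹) := by group
        rw [this]
        exact D.mul_mem hcD (hDn.conj_mem _ (D.inv_mem hcD) h)
      · refine H.mul_mem ?_ (H.inv_mem hh)
        exact (Subgroup.mem_normalizer_iff.1 hcN h).1 hh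
    rw [cop H hHp, Subgroup.mem_bot] at h1
    calc h * c = (c * h * c⁻¹ * h⁻¹)⁻¹ * c * h := by group
      _ = c * h := by rw [h1]; group
  have parta : ∀ y ∈ N, (∃ k : ℕ, orderOf y = p ^ k) → ∀ d ∈ D, d⁻¹ * y * d ∈ N →
      ∃ d₁ ∈ D ⊓ Subgroup.centralizer ({y} : Set G),
          ∃ d₂ ∈ D ⊓ Subgroup.centralizer (H : Set G), d = d₁ * d₂ := by
    intro y hy ⟨k, hk⟩ d hd hyd
    set C : Subgroup G := D ⊓ N with hC
    set y' := d⁻¹ * y * d with hy'
    have hyC : y⁻¹ * y' ∈ C := by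
      refine ⟨?_, N.mul_mem (N.inv_mem hy) hyd⟩
      have : y⁻¹ * y' = (y⁻¹ * d⁻¹ * (y⁻¹)⁻¹) * d := by rw [hy']; group
      rw [this]
      exact D.mul_mem (hDn.conj_mem _ (D.inv_mem hd) _) hd
    have hyn : Subgroup.zpowers y ≤ Subgroup.normalizer (C : Set G) := by
      rw [Subgroup.zpowers_le, Subgroup.mem_normalizer_iff]
      intro h
      constructor
      · rintro ⟨h1, h2⟩
        exact ⟨hDn.conj_mem _ h1 _, N.mul_mem (N.mul_mem hy h2) (N.inv_mem hy)⟩
      · rintro ⟨h1, h2⟩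
        have e : h = y⁻¹ * (y * h * y⁻¹) * (y⁻¹)⁻¹ := by group
        refine ⟨?_, ?_⟩
        · rw [e]; exact hDn.conj_mem _ h1 _
        · rw [e]; exact N.mul_mem (N.mul_mem (N.inv_mem hy) h2) (N.inv_mem (N.inv_mem hy))
    have hpz : ∀ z : G, orderOf z = p ^ k → IsPGroup p (Subgroup.zpowers z) := by
      intro z hz
      exact IsPGroup.of_card (n := k) (by rw [Nat.card_zpowers, hz])
    have hoy' : orderOf y' = p ^ k := by
      rw [← hk, hy']
      have := orderOf_injective (MulAut.conj d⁻¹).toMonoidHom (MulAut.conj d⁻¹).injective y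
      rw [← this]
      simp [MulAut.conj_apply]
    set K := C ⊔ Subgroup.zpowers y with hK
    have hTK : Subgroup.zpowers y' ≤ K := by
      rw [Subgroup.zpowers_le]
      have : y' = y * (y⁻¹ * y') := by group
      rw [this]
      exact K.mul_mem (Subgroup.mem_sup_right (Subgroup.mem_zpowers y)) (Subgroup.mem_sup_left hyC)
    have hCp : ∀ z : G, orderOf z = p ^ k → C ⊓ Subgroup.zpowers z = ⊥ := by
      intro z hz
      rw [eq_bot_iff, ← cop _ (hpz z hz)]
      exact inf_le_inf_right _ inf_le_left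
    have hKc : Nat.card K = Nat.card C * p ^ k := by
      have := Cfsg.Agent.H32.card_sup_mul_card_inf hyn
      rw [hCp y hk, Subgroup.card_bot, mul_one, Nat.card_zpowers, hk] at this
      exact this
    have hidx : ¬ p ∣ (Subgroup.zpowers y').relIndex K := by
      have h1 := Cfsg.Agent.H32.card_mul_relIndex hTK
      rw [hKc, Nat.card_zpowers, hoy', mul_comm] at h1
      have h2 : (Subgroup.zpowers y').relIndex K = Nat.card C :=
        Nat.eq_of_mul_eq_mul_right (pow_pos (Nat.Prime.pos Fact.out) k) h1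
      rw [h2]
      intro h3
      have h4 : p ∣ Nat.card D := h3.trans (Subgroup.card_dvd_of_le inf_le_left)
      have h5 := Nat.Coprime.eq_one_of_dvd hDcop.symm h4
      exact (Nat.Prime.one_lt (Fact.out : p.Prime)).ne' h5
    obtain ⟨g, hgK, hg⟩ := Cfsg.Agent.H32.exists_conj_le_of_not_dvd_relIndex hTK (hpz y' hoy') hidx
      (P := Subgroup.zpowers y) le_sup_right (hpz y hk)
    obtain ⟨c, hc, z, hz, rfl⟩ := (Cfsg.Agent.H32.mem_sup_of_le_normalizer hyn).1 hgK
    obtain ⟨i, rfl⟩ := Subgroup.mem_zpowers_iff.1 hz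
    have h1 := hg y (Subgroup.mem_zpowers y)
    have h2 : (c * y ^ i) * y * (c * y ^ i)⁻¹ = c * y * c⁻¹ := by
      have hcomm : y ^ i * y * (y ^ i)⁻¹ = y := by group
      calc (c * y ^ i) * y * (c * y ^ i)⁻¹ = c * (y ^ i * y * (y ^ i)⁻¹) * c⁻¹ := by group
        _ = c * y * c⁻¹ := by rw [hcomm]
    rw [h2] at h1
    have h3 : c * y * c⁻¹ * y'⁻¹ ∈ C ⊓ Subgroup.zpowers y' := by
      refine ⟨?_, (Subgroup.zpowers y').mul_mem h1 ((Subgroup.zpowers y').inv_mem (Subgroup.mem_zpowers y'))⟩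
      have : c * y * c⁻¹ * y'⁻¹ = c * (y * (c⁻¹ * (y⁻¹ * y')⁻¹) * y⁻¹) := by group
      rw [this]
      refine C.mul_mem hc ?_
      have h4 := Subgroup.zpowers_le.1 hyn
      exact (Subgroup.mem_normalizer_iff.1 h4 _).1 (C.mul_mem (C.inv_mem hc) (C.inv_mem hyC))
    rw [hCp y' hoy', Subgroup.mem_bot] at h3
    have h4 : c * y * c⁻¹ = y' := by
      rwa [mul_inv_eq_one] at h3
    refine ⟨d * c, ⟨D.mul_mem hd hc.1, ?_⟩, c⁻¹, ⟨D.inv_mem hc.1, ?_⟩, by group⟩
    · show d * c ∈ Subgroup.centralizer ({y} : Set G)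
      rw [Subgroup.mem_centralizer_iff]
      rintro z rfl
      calc z * (d * c) = d * (d⁻¹ * z * d) * c := by group
        _ = d * (c * z * c⁻¹) * c := by rw [h4]
        _ = d * c * z := by group
    · exact Subgroup.inv_mem _ (hDN c hc.1 hc.2)
  refine ⟨parta, ?_⟩
  -- Frattini
  have hHM : ¬ p ∣ H.relIndex M := Cfsg.Agent.H32.not_dvd_relIndex_inf_of_normal P M
  have hMDH : M ≤ D ⊔ H := by
    have hDr : ∃ k, D.relIndex M = p ^ k := by
      have h1 : D = (⊥ : Subgroup (G ⧸ D)).comap (QuotientGroup.mk' D) := by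
        rw [MonoidHom.comap_bot, QuotientGroup.ker_mk']
      have h2 : D.relIndex M = Nat.card (M.map (QuotientGroup.mk' D)) := by
        conv_lhs => rw [h1]
        rw [Subgroup.relIndex_comap, Subgroup.relIndex_bot_left]
      have h3 : M.map (QuotientGroup.mk' D) = Cfsg.pCore p (G ⧸ D) := by
        rw [hM]
        exact Subgroup.map_comap_eq_self_of_surjective (QuotientGroup.mk'_surjective _) _
      rw [h2, h3]
      exact (Cfsg.Agent.Solv.pCore_isPGroup p).exists_card_eq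
    obtain ⟨k, hk⟩ := hDr
    have h1 : (D ⊔ H).relIndex M ∣ D.relIndex M := Subgroup.relIndex_dvd_of_le_left M le_sup_left
    have h2 : (D ⊔ H).relIndex M ∣ H.relIndex M := Subgroup.relIndex_dvd_of_le_left M le_sup_right
    rw [hk] at h1
    obtain ⟨j, -, hj⟩ := (Nat.dvd_prime_pow Fact.out).1 h1
    rcases Nat.eq_zero_or_pos j with rfl | hjp
    · exact Subgroup.relIndex_eq_one.1 (by simpa using hj)
    · exact absurd ((dvd_pow_self p hjp.ne').trans (hj ▸ h2)) hHM
  have hfr : N ⊔ D = ⊤ := by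
    have h1 : IsPGroup p (H.subgroupOf M) := hHp.comap_subtype
    let Q : Sylow p M := h1.toSylow (by rwa [Subgroup.relIndex] at hHM)
    have h2 := Sylow.normalizer_sup_eq_top Q
    have h3 : (Q : Subgroup M).map M.subtype = H := by
      show (H.subgroupOf M).map M.subtype = H
      exact Subgroup.map_subgroupOf_eq_of_le inf_le_right
    rw [h3] at h2
    rw [eq_top_iff, ← h2]
    refine sup_le le_sup_left (hMDH.trans (sup_le le_sup_right ?_))
    exact Subgroup.le_normalizer.trans le_sup_left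
  intro x y hx hy hxy
  obtain ⟨g, hg⟩ := isConj_iff.1 hxy
  have hPN : (P : Subgroup G) ≤ N := by
    intro t ht
    rw [hN, Subgroup.mem_normalizer_iff]
    intro h
    constructor
    · rintro ⟨h1, h2⟩
      exact ⟨(P : Subgroup G).mul_mem ((P : Subgroup G).mul_mem ht h1) ((P : Subgroup G).inv_mem ht),
        hMn.conj_mem _ h2 _⟩
    · rintro ⟨h1, h2⟩
      have e : h = t⁻¹ * (t * h * t⁻¹) * (t⁻¹)⁻¹ := by group
      rw [e]
      have ht' := (P : Subgroup G).inv_mem ht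
      exact ⟨(P : Subgroup G).mul_mem ((P : Subgroup G).mul_mem ht' h1) ((P : Subgroup G).inv_mem ht'),
        hMn.conj_mem _ h2 _⟩
  -- g = n * d
  obtain ⟨n, hn, d, hd, rfl⟩ := Subgroup.mem_sup_of_normal_right.1 (hfr ▸ Subgroup.mem_top g : g ∈ N ⊔ D)
  have hxd : (d⁻¹)⁻¹ * x * d⁻¹ ∈ N := by
    have : (d⁻¹)⁻¹ * x * d⁻¹ = n⁻¹ * (n * d * x * (n * d)⁻¹) * n := by group
    rw [this, hg]
    exact N.mul_mem (N.mul_mem (N.inv_mem hn) (hPN hy)) hn
  have hxo : ∃ k, orderOf x = p ^ k := by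
    obtain ⟨k, hk⟩ := IsPGroup.iff_orderOf.1 P.isPGroup' ⟨x, hx⟩
    exact ⟨k, by simpa using hk⟩
  obtain ⟨d₁, hd₁, d₂, hd₂, he⟩ := parta x (hPN hx) hxo d⁻¹ (D.inv_mem hd) hxd
  refine ⟨n * d₂⁻¹, N.mul_mem hn (N.inv_mem ?_), ?_⟩
  · -- centralizer ≤ normalizer
    have := hd₂.2
    exact Subgroup.centralizer_le_normalizer _ this
  · have h5 : d₁⁻¹ * x * d₁ = x := by
      have := Subgroup.mem_centralizer_iff.1 hd₁.2 x rfl
      rw [mul_assoc, this]; group
    have hdd : d = d₂⁻¹ * d₁⁻¹ := by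
      have : d = (d⁻¹)⁻¹ := by group
      rw [this, he]; group
    rw [← hg, hdd]
    calc n * d₂⁻¹ * x * (n * d₂⁻¹)⁻¹ = n * d₂⁻¹ * (d₁⁻¹ * x * d₁) * (n * d₂⁻¹)⁻¹ := by rw [h5]
      _ = _ := by group

end Cfsg.Agent.S1907
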