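import Cfsg.Statements.S1924
import Mathlib.GroupTheory.SpecificGroups.Dihedral
import Cfsg.Agent.H32.Syl
import Cfsg.Agent.H32.Sign
import Cfsg.Agent.Transfer.Residual

set_option autoImplicit false
open Cfsg

namespace Cfsg.Agent.S1924

open Cfsg.Agent.H32

lemma outside_cyclic {D : Type*} [Group D] {n : ℕ} (hn : 2 ≤ n) (e : D ≃* DihedralGroup n)
    (C : Subgroup D) (hC : IsCyclic C) (hi : C.index = 2) {x : D} (hx : x ∉ C) : orderOf x = 2 := by
  have hne : NeZero n := ⟨by omega⟩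
  have hcard : Nat.card D = 2 * n := by
    rw [Nat.card_congr e.toEquiv, DihedralGroup.nat_card]
  have hfin : Finite D := Nat.finite_of_card_ne_zero (by rw [hcard]; omega)
  have hcC : Nat.card C = n := by
    have := C.card_mul_index
    rw [hi, hcard] at this; omega
  have hord : orderOf x = orderOf (e x) := (orderOf_injective e.toMonoidHom e.injective x).symm
  rcases hex : e x with i | i
  · rcases Nat.lt_or_ge 2 n with h3 | h3
    · exfalso
      obtain ⟨c, hc⟩ := hC.exists_generator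
      have hco : orderOf c = n := by rw [← hcC]; exact orderOf_eq_card_of_forall_mem_zpowers hc
      have hco' : orderOf (e (c : D)) = n :=
        (orderOf_injective e.toMonoidHom e.injective _).trans (by rw [Subgroup.orderOf_coe, hco])
      rcases hec : e (c : D) with j | j
      · have h4 : Subgroup.zpowers (DihedralGroup.r j) = Subgroup.zpowers (DihedralGroup.r (1 : ZMod n)) := by
          apply Subgroup.eq_of_le_of_card_ge
          · rw [Subgroup.zpowers_le, Subgroup.mem_zpowers_iff]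
            refine ⟨(j.val : ℤ), ?_⟩
            rw [zpow_natCast, DihedralGroup.r_one_pow, ZMod.natCast_zmod_val]
          · rw [Nat.card_zpowers, Nat.card_zpowers, DihedralGroup.orderOf_r_one, ← hec, hco']
        have h5 : DihedralGroup.r i ∈ Subgroup.zpowers (DihedralGroup.r j) := by
          rw [h4, Subgroup.mem_zpowers_iff]
          refine ⟨(i.val : ℤ), ?_⟩
          rw [zpow_natCast, DihedralGroup.r_one_pow, ZMod.natCast_zmod_val]
        obtain ⟨k, hk⟩ := Subgroup.mem_zpowers_iff.1 h5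
        rw [← hec, ← map_zpow, ← hex] at hk
        have := e.injective hk
        rw [← this] at hx
        exact hx (C.zpow_mem c.2 k)
      · rw [hec, DihedralGroup.orderOf_sr] at hco'
        omega
    · have h2 : n = 2 := by omega
      subst h2
      have hx1 : x ≠ 1 := fun h => hx (h ▸ C.one_mem)
      refine orderOf_eq_prime ?_ hx1
      apply e.injective
      rw [map_pow, hex, map_one, pow_two, DihedralGroup.r_mul_r]
      have h7 : ∀ j : ZMod 2, j + j = 0 := by decide
      rw [h7 i]; rfl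
  · rw [hord, hex, DihedralGroup.orderOf_sr]

lemma card_mul_le {G : Type*} [Group G] [Finite G] {T C M : Subgroup G} (hTM : T ≤ M) (hCM : C ≤ M)
    (hTC : C ⊓ T = ⊥) : Nat.card T * Nat.card C ≤ Nat.card M := by
  rw [← Nat.card_prod]
  refine Nat.card_le_card_of_injective
    (fun p : T × C => (⟨(p.1 : G) * (p.2 : G), M.mul_mem (hTM p.1.2) (hCM p.2.2)⟩ : M)) ?_
  rintro ⟨t1, c1⟩ ⟨t2, c2⟩ h
  have h1 : (t1 : G) * c1 = t2 * c2 := congrArg Subtype.val h
  have h2 : (c2 : G) * (c1 : G)⁻¹ ∈ C ⊓ T := by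
    refine Subgroup.mem_inf.2 ⟨C.mul_mem c2.2 (C.inv_mem c1.2), ?_⟩
    have : (c2 : G) * (c1 : G)⁻¹ = (t2 : G)⁻¹ * t1 := by
      calc (c2 : G) * (c1 : G)⁻¹ = (t2 : G)⁻¹ * (t2 * c2) * (c1 : G)⁻¹ := by group
        _ = _ := by rw [← h1]; group
    rw [this]
    exact T.mul_mem (T.inv_mem t2.2) t1.2
  rw [hTC, Subgroup.mem_bot, mul_inv_eq_one] at h2
  have h3 : (t1 : G) = t2 := by rw [h2] at h1; exact mul_right_cancel h1
  exact Prod.ext (Subtype.ext h3) (Subtype.ext h2.symm)

/-- A consequence of Thompson's transfer lemma. Let G be a finite group, L a subgroup with O²(L) = L, T a Sylow 2-subgroup of L and S a Sylow 2-subgroup of G containing T. Suppose D ≤ S is a dihedral subgroup of order at least 4 (the four-group counts) with D ∩ T = 1 and S = TD as a set of products (so |S| = |T|·|D|), and C ≤ D is cyclic of index 2 in D. If no involution of D outside C is G-conjugate to an involution of the subgroup generated by T and C, and the involution of C is not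 G-conjugate to any involution of T, then G has a normal subgroup K, containing every Sylow 2-subgroup of L as a Sylow 2-subgroup, with G = KD. -/
theorem result {G : Type*} [Group G] [Finite G] (L T S D C : Subgroup G) (hL : Cfsg.pResidual 2 ↥L = ⊤)
    (hTL : T ≤ L) (hT2 : IsPGroup 2 T) (hTsyl : ¬ 2 ∣ T.relIndex L)
    (hS2 : IsPGroup 2 S) (hSsyl : ¬ 2 ∣ S.index) (hTS : T ≤ S)
    (hDS : D ≤ S) (hDih : ∃ n : ℕ, 2 ≤ n ∧ Nonempty (↥D ≃* DihedralGroup n)) (hDT : D ⊓ T = ⊥) (hTD : T ⊔ D = S) (hTDc : Nat.card T * Nat.card D = Nat.card S)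
    (hCD : C ≤ D) (hC : IsCyclic ↥C) (hCi : C.relIndex D = 2)
    (h1 : ∀ x ∈ D, x ∉ C → orderOf x = 2 → ∀ g : G, g * x * g⁻¹ ∈ T ⊔ C → False)
    (h2 : ∀ c ∈ C, orderOf c = 2 → ∀ g : G, g * c * g⁻¹ ∈ T → False) :
    ∃ K : Subgroup G, K.Normal ∧ K ⊔ D = ⊤ ∧
      ∀ T' : Subgroup G, T' ≤ L → IsPGroup 2 T' → ¬ 2 ∣ T'.relIndex L → T' ≤ K ∧ ¬ 2 ∣ T'.relIndex K := by
  classical
  obtain ⟨n, hn, ⟨e⟩⟩ := hDih
  have hinv : ∀ x ∈ D, x ∉ C → orderOf x = 2 := by
    intro x hx hxC
    have h := outside_cyclic hn e (C.subgroupOf D) (by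
      have := Subgroup.subgroupOfEquivOfLe hCD
      exact (isCyclic_of_surjective this.symm.toMonoidHom this.symm.surjective)) hCi
      (x := ⟨x, hx⟩) (by simpa [Subgroup.mem_subgroupOf] using hxC)
    rwa [Subgroup.orderOf_mk] at h
  set K := Cfsg.pResidual 2 G with hK
  have hKn : K.Normal := inferInstance
  have hLK : L ≤ K := by
    have h := Cfsg.Agent.Transfer.pResidual_map_subtype_le (p := 2) L
    rw [hL] at h
    intro x hx
    exact h ⟨⟨x, hx⟩, Subgroup.mem_top _, rfl⟩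
  have hTK : T ≤ K := hTL.trans hLK
  have hTC : C ⊓ T = ⊥ := by
    rw [eq_bot_iff, ← hDT]; exact inf_le_inf_right _ hCD
  have hCS : C ≤ S := hCD.trans hDS
  -- S = T D as a set
  have hSTD : ∀ s ∈ S, ∃ t ∈ T, ∃ d ∈ D, t * d = s := by
    have hinj : Function.Injective
        (fun p : T × D => (⟨(p.1 : G) * (p.2 : G), S.mul_mem (hTS p.1.2) (hDS p.2.2)⟩ : S)) := by
      rintro ⟨t1, c1⟩ ⟨t2, c2⟩ h
      have h1 : (t1 : G) * c1 = t2 * c2 := congrArg Subtype.val h
      have h2 : (c2 : G) * (c1 : G)⁻¹ ∈ D ⊓ T := by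
        refine Subgroup.mem_inf.2 ⟨D.mul_mem c2.2 (D.inv_mem c1.2), ?_⟩
        have : (c2 : G) * (c1 : G)⁻¹ = (t2 : G)⁻¹ * t1 := by
          calc (c2 : G) * (c1 : G)⁻¹ = (t2 : G)⁻¹ * (t2 * c2) * (c1 : G)⁻¹ := by group
            _ = _ := by rw [← h1]; group
        rw [this]
        exact T.mul_mem (T.inv_mem t2.2) t1.2
      rw [hDT, Subgroup.mem_bot, mul_inv_eq_one] at h2
      have h3 : (t1 : G) = t2 := by rw [h2] at h1; exact mul_right_cancel h1
      exact Prod.ext (Subtype.ext h3) (Subtype.ext h2.symm)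
    have hbij := (Nat.bijective_iff_injective_and_card _).2 ⟨hinj, by rw [Nat.card_prod, hTDc]⟩
    intro s hs
    obtain ⟨⟨t, d⟩, htd⟩ := hbij.2 ⟨s, hs⟩
    exact ⟨t, t.2, d, d.2, congrArg Subtype.val htd⟩
  have hSodd : Odd S.index := by
    rw [← Nat.not_even_iff_odd, even_iff_two_dvd]; exact hSsyl
  set M := T ⊔ C with hM
  have hMS : M ≤ S := sup_le hTS hCS
  have hcardD : Nat.card D = 2 * Nat.card C := by
    rw [← card_mul_relIndex hCD, hCi, mul_comm]
  have hDK : D ⊓ K ≤ C := by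
    rintro x ⟨hxD, hxK⟩
    by_contra hxC
    have hx2 := hinv x hxD hxC
    have hxM : x ∉ M := fun h => h1 x hxD hxC hx2 1 (by simpa using h)
    have hrel : M.relIndex S = 2 := by
      have h3 := card_mul_relIndex hMS
      have h4 : Nat.card T * Nat.card C ≤ Nat.card M :=
        card_mul_le (le_sup_left : T ≤ M) (le_sup_right : C ≤ M) hTC
      have h5 : M.relIndex S ≤ 2 := by
        have hMpos : 0 < Nat.card M := Nat.card_pos
        have h6 : Nat.card M * M.relIndex S ≤ Nat.card M * 2 := by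
          rw [h3, ← hTDc, hcardD]
          calc Nat.card T * (2 * Nat.card C) = 2 * (Nat.card T * Nat.card C) := by ring
            _ ≤ Nat.card M * 2 := by omega
        exact Nat.le_of_mul_le_mul_left h6 hMpos
      have h7 : M.relIndex S ≠ 1 := fun h => hxM (Subgroup.relIndex_eq_one.1 h (hDS hxD))
      have h8 : M.relIndex S ≠ 0 := by
        intro h; rw [h, mul_zero] at h3
        exact (Nat.card_pos (α := S)).ne h3
      omega
    obtain ⟨f, hf⟩ := exists_sign_hom M x S.index (by rw [hx2]; exact even_two) (by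
      intro k g hg
      rcases Nat.even_or_odd' k with ⟨j, rfl | rfl⟩
      · rw [pow_mul, ← hx2, pow_orderOf_eq_one, one_pow]
      · exfalso
        rw [pow_succ, pow_mul, ← hx2, pow_orderOf_eq_one, one_pow, one_mul] at hg
        exact h1 x hxD hxC hx2 g hg) (by
      rw [← Subgroup.relIndex_mul_index hMS, hrel, hx2]) hSodd
    have h9 := Cfsg.Agent.Transfer.pResidual_le_ker (p := 2) f
      (IsPGroup.of_card (n := 1) (by simp [Nat.card_eq_fintype_card])) hxK
    rw [MonoidHom.mem_ker, hf] at h9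
    exact absurd h9 (by decide)
  have hKS : ∀ s ∈ K ⊓ S, ∃ t ∈ T, ∃ c ∈ C ⊓ K, t * c = s := by
    rintro s ⟨hsK, hsS⟩
    obtain ⟨t, ht, d, hd, rfl⟩ := hSTD s hsS
    have hdK : d ∈ K := by
      have : d = t⁻¹ * (t * d) := by group
      rw [this]; exact K.mul_mem (K.inv_mem (hTK ht)) hsK
    exact ⟨t, ht, d, Subgroup.mem_inf.2 ⟨hDK (Subgroup.mem_inf.2 ⟨hd, hdK⟩), hdK⟩, rfl⟩
  have hKSodd : ¬ 2 ∣ (K ⊓ S).relIndex K := by
    have : Fact (Nat.Prime 2) := ⟨Nat.prime_two⟩
    have h := not_dvd_relIndex_inf_of_normal (hS2.toSylow hSsyl) K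
    rw [inf_comm]
    exact h
  have hTKS : T ≤ K ⊓ S := le_inf hTK hTS
  have hCK : C ⊓ K = ⊥ := by
    by_contra hne
    have hcyc : IsCyclic ↥(C ⊓ K) := Subgroup.isCyclic_of_le inf_le_left
    obtain ⟨⟨e0, he0⟩, hgen⟩ := hcyc.exists_generator
    have he0card : orderOf e0 = Nat.card ↥(C ⊓ K) := by
      rw [← Subgroup.orderOf_mk e0 he0]; exact orderOf_eq_card_of_forall_mem_zpowers hgen
    have hpow : ∃ k, orderOf e0 = 2 ^ k := by
      have : Fact (Nat.Prime 2) := ⟨Nat.prime_two⟩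
      obtain ⟨k, hk⟩ := IsPGroup.iff_orderOf.1 hS2 ⟨e0, hCS he0.1⟩
      exact ⟨k, by simpa using hk⟩
    obtain ⟨k, hk⟩ := hpow
    have hk0 : k ≠ 0 := by
      rintro rfl
      rw [pow_zero, he0card] at hk
      exact hne (Subgroup.eq_bot_of_card_eq _ hk)
    have hcardKS : Nat.card ↥(K ⊓ S) = Nat.card T * Nat.card ↥(C ⊓ K) := by
      apply le_antisymm
      · rw [← Nat.card_prod]
        have hsurj : Function.Surjective (fun p : T × ↥(C ⊓ K) =>
            (⟨(p.1 : G) * (p.2 : G), (K ⊓ S).mul_mem (hTKS p.1.2)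
              (Subgroup.mem_inf.2 ⟨p.2.2.2, hCS p.2.2.1⟩)⟩ : ↥(K ⊓ S))) := by
          rintro ⟨s, hs⟩
          obtain ⟨t, ht, c, hc, rfl⟩ := hKS s hs
          exact ⟨⟨⟨t, ht⟩, ⟨c, hc⟩⟩, rfl⟩
        exact Nat.card_le_card_of_surjective _ hsurj
      · refine card_mul_le hTKS (le_inf inf_le_right (inf_le_left.trans hCS)) ?_
        rw [eq_bot_iff, ← hTC]; exact inf_le_inf_right _ inf_le_left
    have hTrel : T.relIndex (K ⊓ S) = Nat.card ↥(C ⊓ K) := by
      have h3 := card_mul_relIndex hTKS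
      rw [hcardKS] at h3
      exact Nat.eq_of_mul_eq_mul_left Nat.card_pos h3
    have hidx : (T.subgroupOf K).index = orderOf (⟨e0, he0.2⟩ : K) * (K ⊓ S).relIndex K := by
      rw [Subgroup.orderOf_mk, he0card, ← hTrel]
      exact (Subgroup.relIndex_mul_relIndex T (K ⊓ S) K hTKS inf_le_left).symm
    obtain ⟨f, hf⟩ := exists_sign_hom (T.subgroupOf K) (⟨e0, he0.2⟩ : K) _ (by
      rw [Subgroup.orderOf_mk, hk]
      exact (Nat.even_pow.2 ⟨even_two, hk0⟩)) (by
      rintro j ⟨g, hg⟩ hgj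
      have hgj' : g * e0 ^ j * g⁻¹ ∈ T := hgj
      by_contra hj1
      have hj1' : e0 ^ j ≠ 1 := fun h => hj1 (Subtype.ext h)
      -- an involution in ⟨e0^j⟩
      obtain ⟨m, -, hm⟩ := (Nat.dvd_prime_pow Nat.prime_two).1
        (show orderOf (e0 ^ j) ∣ 2 ^ k from hk ▸ orderOf_pow_dvd j)
      have hm0 : m ≠ 0 := by
        rintro rfl
        rw [pow_zero, orderOf_eq_one_iff] at hm; exact hj1' hm
      have hc0 : orderOf ((e0 ^ j) ^ (2 ^ (m - 1))) = 2 := by
        rw [orderOf_pow_of_dvd (by positivity) (by rw [hm]; exact pow_dvd_pow 2 (by omega)), hm]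
        rw [Nat.pow_div (by omega) (by norm_num)]
        have : m - (m - 1) = 1 := by omega
        rw [this, pow_one]
      refine h2 _ (C.pow_mem (C.pow_mem he0.1 j) _) hc0 g ?_
      rw [← conj_pow]
      exact T.pow_mem hgj' _) hidx (by
      rw [← Nat.not_even_iff_odd, even_iff_two_dvd]; exact hKSodd)
    have h9 : (⟨e0, he0.2⟩ : K) ∈ f.ker := by
      have h10 := Cfsg.Agent.Transfer.pResidual_le_ker (p := 2) f
        (IsPGroup.of_card (n := 1) (by simp [Nat.card_eq_fintype_card]))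
      rw [Cfsg.Agent.Transfer.pResidual_pResidual] at h10
      exact h10 (Subgroup.mem_top _)
    rw [MonoidHom.mem_ker, hf] at h9
    exact absurd h9 (by decide)
  have hKST : K ⊓ S = T := by
    apply le_antisymm _ hTKS
    intro s hs
    obtain ⟨t, ht, c, hc, rfl⟩ := hKS s hs
    rw [hCK, Subgroup.mem_bot] at hc
    rw [hc, mul_one]; exact ht
  refine ⟨K, hKn, ?_, ?_⟩
  · have : Fact (Nat.Prime 2) := ⟨Nat.prime_two⟩
    have h3 := Cfsg.Agent.Transfer.sylow_sup_pResidual (hS2.toSylow hSsyl)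
    rw [eq_top_iff, ← h3]
    refine sup_le ?_ le_sup_left
    show S ≤ K ⊔ D
    rw [← hTD]
    exact sup_le (hTK.trans le_sup_left) le_sup_right
  · intro T' hT'L hT'2 hT'i
    refine ⟨hT'L.trans hLK, ?_⟩
    have : Fact (Nat.Prime 2) := ⟨Nat.prime_two⟩
    have hle : ∀ A B : Subgroup G, A ≤ L → IsPGroup 2 A → B ≤ L → IsPGroup 2 B → ¬ 2 ∣ B.relIndex L →
        Nat.card A ≤ Nat.card B := by
      intro A B hA hA2 hB hB2 hBi
      obtain ⟨h, -, hh⟩ := exists_conj_le_of_not_dvd_relIndex hB hB2 hBi hA hA2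
      refine Nat.card_le_card_of_injective (fun a : A => (⟨h * a * h⁻¹, hh a a.2⟩ : B)) ?_
      intro a b hab
      have : h * (a : G) * h⁻¹ = h * (b : G) * h⁻¹ := congrArg Subtype.val hab
      exact Subtype.ext (mul_left_cancel (mul_right_cancel this))
    have hcardT : Nat.card T' = Nat.card T :=
      le_antisymm (hle _ _ hT'L hT'2 hTL hT2 hTsyl) (hle _ _ hTL hT2 hT'L hT'2 hT'i)
    have h3 := card_mul_relIndex (hT'L.trans hLK)
    have h4 := card_mul_relIndex hTK
    rw [hcardT, ← h4] at h3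
    have h5 := Nat.eq_of_mul_eq_mul_left Nat.card_pos h3
    rw [h5]
    rw [hKST] at hKSodd
    exact hKSodd

end Cfsg.Agent.S1924
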