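import Cfsg.Statements.S1932
import Cfsg.Agent.Fus.QuadOff4
import Cfsg.Agent.ZJ.Constrained

set_option autoImplicit false
open Cfsg

namespace Cfsg.Agent.S1932

open Cfsg.Agent.H34

theorem aux {G : Type*} [Group G] [Finite G] (hcon : Cfsg.IsPConstrained 2 G)
    (hS4 : ¬ Cfsg.Involves (Equiv.Perm (Fin 4)) G) (S : Sylow 2 G)
    (hcl : Subgroup.lowerCentralSeries (S : Subgroup G) 2 = ⊥) :
    Subgroup.normalizer ((Cfsg.thompsonSubgroupOf 2 (S : Subgroup G)) : Set G) ⊔ Cfsg.pPrimeCore 2 G = ⊤ := by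
  have : Fact (Nat.Prime 2) := ⟨Nat.prime_two⟩
  set O := Cfsg.pPrimeCore 2 G with hO
  have hOn : O.Normal := inferInstance
  let π := QuotientGroup.mk' O
  have hπ : Function.Surjective π := QuotientGroup.mk'_surjective O
  let S' : Sylow 2 (G ⧸ O) := S.mapSurjective hπ
  have hS' : (S' : Subgroup (G ⧸ O)) = (S : Subgroup G).map π := rfl
  have hcl' : Subgroup.lowerCentralSeries (S' : Subgroup (G ⧸ O)) 2 = ⊥ := by
    rw [hS', ← Subgroup.map_lowerCentralSeries, hcl, Subgroup.map_bot]
  have hOc : (Nat.card O).Coprime 2 := Cfsg.Agent.Solv.pPrimeCore_card_coprime 2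
  have hSO : ∀ x ∈ (S : Subgroup G), π x = 1 → x = 1 := by
    intro x hx hx1
    have h1 : x ∈ O := (QuotientGroup.eq_one_iff x).mp hx1
    have h2 : orderOf x ∣ Nat.card O := Subgroup.orderOf_dvd_natCard _ h1
    obtain ⟨k, hk⟩ := S.isPGroup' ⟨x, hx⟩
    have h3 : orderOf x ∣ 2 ^ k := orderOf_dvd_of_pow_eq_one (congrArg Subtype.val hk)
    have h4 : Nat.Coprime (Nat.card O) (2 ^ k) := Nat.Coprime.pow_right _ hOc
    have h5 := Nat.dvd_gcd h2 h3
    rw [h4] at h5
    exact orderOf_eq_one_iff.mp (Nat.dvd_one.mp h5)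
  have hJ' := Cfsg.Agent.Fus.QO.thompson_normal_aux (G := G ⧸ O) (fun h => hS4 (involves_of_quotient O h))
    (Cfsg.Agent.ZJ.centralizer_pCore_quotient_le hcon) S' (class_two_comm _ hcl')
  rw [hS', ← thompsonSubgroupOf_map 2 π (S : Subgroup G) hSO] at hJ'
  set J := Cfsg.thompsonSubgroupOf 2 (S : Subgroup G) with hJ
  let K : Subgroup G := (J.map π).comap π
  have hKn : K.Normal := inferInstance
  have hJK : J ≤ K := Subgroup.le_comap_map π J
  have hK : K = J ⊔ O := by
    show (J.map π).comap π = J ⊔ O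
    rw [Subgroup.comap_map_eq, QuotientGroup.ker_mk']
  have hJp : IsPGroup 2 (J.subgroupOf K) := by
    apply IsPGroup.comap_subtype
    exact S.isPGroup'.to_le (thompsonSubgroupOf_le 2 (S : Subgroup G))
  have hidx : ¬ 2 ∣ (J.subgroupOf K).index := by
    have h1 : (J.subgroupOf K).index = J.relIndex K := rfl
    rw [h1, hK, sup_comm, sup_comm, ← Cfsg.Agent.Transfer.relIndex_eq_relIndex_sup]
    intro h2
    have h3 : J.relIndex O ∣ Nat.card O := Subgroup.relIndex_dvd_card J O
    have h4 := Nat.dvd_gcd (h2.trans h3) (dvd_refl 2)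
    rw [hOc] at h4
    omega
  have hF := Sylow.normalizer_sup_eq_top (hJp.toSylow hidx)
  rw [IsPGroup.toSylow_coe, Subgroup.subgroupOf_map_subtype, inf_eq_left.mpr hJK] at hF
  rw [eq_top_iff, ← hF, hK]
  exact sup_le le_sup_left (sup_le (Subgroup.le_normalizer.trans le_sup_left) le_sup_right)

/-- Let G be a finite group that is 2-constrained and has no section isomorphic to the symmetric group of degree 4, and let S be a Sylow 2-subgroup of G of nilpotency class at most 2. Then G = N_G(J(S))·O_{2'}(G), where J(S) is the Thompson subgroup generated by the elementary abelian subgroups of S of largest order. -/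
theorem result {G : Type*} [Group G] [Finite G] (hcon : Cfsg.IsPConstrained 2 G) (hS4 : ¬ Cfsg.Involves (Equiv.Perm (Fin 4)) G) (S : Sylow 2 G) (hcl : Subgroup.lowerCentralSeries (S : Subgroup G) 2 = ⊥) : Subgroup.normalizer ((Cfsg.thompsonSubgroupOf 2 (S : Subgroup G)) : Set G) ⊔ Cfsg.pPrimeCore 2 G = ⊤ := by
  exact aux hcon hS4 S hcl

end Cfsg.Agent.S1932
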