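import Cfsg.Statements.S1935
import Cfsg.Agent.H69.QO6
import Cfsg.Agent.H10.Timmesfeld

set_option autoImplicit false
set_option linter.unusedSimpArgs false
open Cfsg

namespace Cfsg.Agent.S1935

open Cfsg.Agent.H69.QO

open scoped commutatorElement

theorem quad_comm {E : Type*} [Ring E] (a b : E) (h1 : (a - 1) * (b - 1) = 0)
    (h2 : (b - 1) * (a - 1) = 0) : a * b = b * a := by
  have e1 : a * b = (a - 1) * (b - 1) + a + b - 1 := by noncomm_ring
  have e2 : b * a = (b - 1) * (a - 1) + a + b - 1 := by noncomm_ring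
  rw [e1, e2, h1, h2]

section
variable {Ω : Type*} [Group Ω] [Finite Ω]

/-- first step: a quadratic offender. -/
theorem quad_offender (p : ℕ) [Fact p.Prime] (V G : Subgroup Ω)
    (hV : Cfsg.IsElementaryAbelian p V)
    (hGV : G ≤ Subgroup.normalizer (V : Set Ω)) (hfaith : G ⊓ Subgroup.centralizer (V : Set Ω) = ⊥)
    (hF : ∃ E : Subgroup Ω, E ≤ G ∧ E ≠ ⊥ ∧ Cfsg.IsElementaryAbelian p E ∧
      Nat.card ↥V ≤ Nat.card ↥E * Nat.card ↥(V ⊓ Subgroup.centralizer (E : Set Ω))) :
    ∃ A : Subgroup Ω, A ≤ G ∧ A ≠ ⊥ ∧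
      Nat.card ↥V ≤ Nat.card ↥A * Nat.card ↥(V ⊓ Subgroup.centralizer (A : Set Ω)) ∧
      ⁅⁅V, A⁆, A⁆ = ⊥ := by
  classical
  obtain ⟨E, hEG, hE1, hEab, hEoff⟩ := hF
  obtain ⟨B, ⟨hBE, hB1⟩, hmax⟩ := Set.exists_max_image {B : Subgroup Ω | B ≤ E ∧ B ≠ ⊥}
    (fun B => Nat.card ↥B * Nat.card ↥(V ⊓ Subgroup.centralizer (B : Set Ω))) (Set.toFinite _)
    ⟨E, le_rfl, hE1⟩
  have hBoff : Nat.card ↥V ≤ Nat.card ↥B * Nat.card ↥(V ⊓ Subgroup.centralizer (B : Set Ω)) :=
    hEoff.trans (hmax E ⟨le_rfl, hE1⟩)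
  have hcomm : ∀ a ∈ B, ∀ b ∈ B, a * b = b * a := by
    intro a ha b hb
    have := hEab.1.is_comm.comm ⟨a, hBE ha⟩ ⟨b, hBE hb⟩
    exact congrArg Subtype.val this
  have hbest : Cfsg.IsBestOffenderOn p V B := by
    refine ⟨?_, ?_, ?_⟩
    · intro C hC
      by_cases hC1 : C = ⊥
      · subst hC1
        have h1 : V ⊓ Subgroup.centralizer ((⊥ : Subgroup Ω) : Set Ω) = V := by
          rw [inf_eq_left]
          intro v hv
          rw [Subgroup.mem_centralizer_iff]
          intro h hh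
          have : h = 1 := by simpa using hh
          rw [this]; simp
        rw [h1, Subgroup.card_bot, one_mul]
        exact hBoff
      · exact hmax C ⟨hC.trans hBE, hC1⟩
    · rw [Subgroup.commutator_le]
      intro a ha b hb
      have : ⁅a, b⁆ = 1 := by
        rw [commutatorElement_eq_one_iff_mul_comm]
        exact hcomm a ha b hb
      rw [this]
      exact Subgroup.one_mem _
    · intro a ha
      rw [hEab.2 a (hBE ha)]
      exact Subgroup.one_mem _
  have hBV : B ≤ Subgroup.normalizer (V : Set Ω) := (hBE.trans hEG).trans hGV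
  obtain ⟨h1, h2, h3⟩ := Cfsg.Agent.H10.timmesfeld V B hV hBV hbest V le_rfl
  have hVB : ⁅V, B⁆ ≠ ⊥ := by
    intro hbot
    rw [Subgroup.commutator_eq_bot_iff_le_centralizer] at hbot
    apply hB1
    rw [eq_bot_iff, ← hfaith]
    intro x hx
    refine Subgroup.mem_inf.2 ⟨hEG (hBE hx), ?_⟩
    rw [Subgroup.mem_centralizer_iff]
    intro v hv
    exact ((Subgroup.mem_centralizer_iff.1 (hbot hv)) x hx).symm
  have h4 := h3 hVB
  refine ⟨B ⊓ Subgroup.centralizer ((⁅V, B⁆ : Subgroup Ω) : Set Ω),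
    (inf_le_left.trans hBE).trans hEG, ?_, ?_, ?_⟩
  · intro hbot
    apply h4
    rw [hbot, Subgroup.commutator_bot_right]
  · have := h1.1 ⊥ bot_le
    have h5 : V ⊓ Subgroup.centralizer ((⊥ : Subgroup Ω) : Set Ω) = V := by
      rw [inf_eq_left]
      intro v hv
      rw [Subgroup.mem_centralizer_iff]
      intro h hh
      have : h = 1 := by simpa using hh
      rw [this]; simp
    rw [h5, Subgroup.card_bot, one_mul] at this
    exact this
  · rw [Subgroup.commutator_eq_bot_iff_le_centralizer]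
    intro x hx
    rw [Subgroup.mem_centralizer_iff]
    intro a ha
    have hx' : x ∈ ⁅V, B⁆ := Subgroup.commutator_mono le_rfl inf_le_left hx
    exact ((Subgroup.mem_centralizer_iff.1 ha.2) x hx').symm

end

theorem result {Ω : Type*} [Group Ω] [Finite Ω] (p : ℕ) [Fact p.Prime] (hp : 5 ≤ p) (V G : Subgroup Ω) (hV : Cfsg.IsElementaryAbelian p V) (hG : IsPGroup p ↥G) (hGV : G ≤ Subgroup.normalizer (V : Set Ω)) (hfaith : G ⊓ Subgroup.centralizer (V : Set Ω) = ⊥) (hF : ∃ E : Subgroup Ω, E ≤ G ∧ E ≠ ⊥ ∧ Cfsg.IsElementaryAbelian p E ∧ Nat.card ↥V ≤ Nat.card ↥E * Nat.card ↥(V ⊓ Subgroup.centralizer (E : Set Ω))) : ∃ A : Subgroup Ω, A ≤ G ∧ A ≠ ⊥ ∧ Cfsg.IsElementaryAbelian p A ∧ Nat.card ↥V ≤ Nat.card ↥A * Nat.card ↥(V ⊓ Subgroup.centralizer (A : Set Ω)) ∧ ⁅⁅V, A⁆, A⁆ = ⊥ ∧ ∀ g ∈ Subgroup.closure {x : Ω | ∃ h ∈ G, ∃ a ∈ A, x = h * a * h⁻¹}, ∀ a ∈ A, g * a * g⁻¹ ∈ A := by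
  classical
  obtain ⟨A0, hA0G, hA01, hA0off, hA0q⟩ := quad_offender p V G hV hGV hfaith hF
  let hVc : CommGroup ↥V :=
    { (inferInstance : Group ↥V) with mul_comm := fun a b => hV.1.is_comm.comm a b }
  have hmemV : ∀ g : ↥G, ∀ v : ↥V, g.1 * v.1 * g.1⁻¹ ∈ V := fun g v =>
    (Subgroup.mem_normalizer_iff.1 (hGV g.2) v.1).1 v.2
  let ρ : ↥G →* AddMonoid.End (Additive ↥V) :=
    { toFun := fun g =>
        { toFun := fun v => Additive.ofMul ⟨g.1 * (Additive.toMul v).1 * g.1⁻¹, hmemV g _⟩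
          map_zero' := by
            apply Additive.toMul.injective
            apply Subtype.ext
            show g.1 * 1 * g.1⁻¹ = 1
            group
          map_add' := by
            intro v w
            apply Additive.toMul.injective
            apply Subtype.ext
            show g.1 * ((Additive.toMul v).1 * (Additive.toMul w).1) * g.1⁻¹ =
              (g.1 * (Additive.toMul v).1 * g.1⁻¹) * (g.1 * (Additive.toMul w).1 * g.1⁻¹)
            group }
      map_one' := by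
        apply DFunLike.ext
        intro v
        apply Additive.toMul.injective
        apply Subtype.ext
        show 1 * (Additive.toMul v).1 * 1⁻¹ = (Additive.toMul v).1
        group
      map_mul' := by
        intro g h
        apply DFunLike.ext
        intro v
        apply Additive.toMul.injective
        apply Subtype.ext
        show (g.1 * h.1) * (Additive.toMul v).1 * (g.1 * h.1)⁻¹ =
          g.1 * (h.1 * (Additive.toMul v).1 * h.1⁻¹) * g.1⁻¹
        group }
  have hρ_apply : ∀ (g : ↥G) (v : Additive ↥V),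
      (Additive.toMul (ρ g v)).1 = g.1 * (Additive.toMul v).1 * g.1⁻¹ := fun g v => rfl
  have hρ : Function.Injective ρ := by
    intro g h hgh
    have h1 : ∀ v ∈ V, g.1 * v * g.1⁻¹ = h.1 * v * h.1⁻¹ := by
      intro v hv
      have := DFunLike.congr_fun hgh (Additive.ofMul (⟨v, hv⟩ : ↥V))
      exact congrArg (fun z => (Additive.toMul z).1) this
    have h2 : h.1⁻¹ * g.1 ∈ G ⊓ Subgroup.centralizer (V : Set Ω) := by
      refine Subgroup.mem_inf.2 ⟨G.mul_mem (G.inv_mem h.2) g.2, ?_⟩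
      rw [Subgroup.mem_centralizer_iff]
      intro v hv
      have := h1 v hv
      have e : g.1 * v = h.1 * v * h.1⁻¹ * g.1 := by rw [← this]; group
      rw [mul_assoc, e]
      group
    rw [hfaith, Subgroup.mem_bot] at h2
    apply Subtype.ext
    rw [← mul_one h.1, ← h2]; group
  have hW : ∀ w : Additive ↥V, p • w = 0 := by
    intro w
    apply Additive.toMul.injective
    apply Subtype.ext
    show (Additive.toMul w).1 ^ p = 1
    exact hV.2 _ (Additive.toMul w).2
  have hcardW : Nat.card (Additive ↥V) = Nat.card ↥V := rfl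
  -- fixed points
  have hFix : ∀ A : Subgroup ↥G, Nat.card (Fix ρ A) =
      Nat.card ↥(V ⊓ Subgroup.centralizer ((A.map G.subtype : Subgroup Ω) : Set Ω)) := by
    intro A
    refine Nat.card_congr
      { toFun := fun w => ⟨(Additive.toMul w.1).1, Subgroup.mem_inf.2 ⟨(Additive.toMul w.1).2, ?_⟩⟩
        invFun := fun v => ⟨Additive.ofMul ⟨v.1, v.2.1⟩, ?_⟩
        left_inv := fun w => rfl
        right_inv := fun v => rfl }
    · rw [Subgroup.mem_centralizer_iff]
      rintro _ ⟨a, ha, rfl⟩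
      have := w.2 a ha
      have h1 : a.1 * (Additive.toMul w.1).1 * a.1⁻¹ = (Additive.toMul w.1).1 :=
        congrArg (fun z => (Additive.toMul z).1) this
      show a.1 * (Additive.toMul w.1).1 = (Additive.toMul w.1).1 * a.1
      exact mul_inv_eq_iff_eq_mul.1 h1
    · intro a ha
      apply Additive.toMul.injective
      apply Subtype.ext
      show a.1 * v.1 * a.1⁻¹ = v.1
      have := (Subgroup.mem_centralizer_iff.1 v.2.2) a.1 ⟨a, ha, rfl⟩
      rw [this]; group
  -- quadratic translation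
  have hsubapp : ∀ (a : ↥G) (v : Additive ↥V), (Additive.toMul ((ρ a - 1) v)).1 =
      ⁅a.1, (Additive.toMul v).1⁆ := by
    intro a v
    rw [commutatorElement_def]
    show (Additive.toMul (ρ a v - v)).1 = _
    rw [sub_eq_add_neg]
    rfl
  have hquad : ∀ A : Subgroup ↥G, Quad ρ A ↔
      ⁅⁅V, A.map G.subtype⁆, A.map G.subtype⁆ = ⊥ := by
    intro A
    rw [Subgroup.commutator_eq_bot_iff_le_centralizer, Subgroup.commutator_le]
    constructor
    · intro h v hv _ ha'
      obtain ⟨a', ha', rfl⟩ := ha'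
      rw [Subgroup.mem_centralizer_iff]
      rintro _ ⟨a, ha, rfl⟩
      have h1 := h a ha a' ha'
      have h2 := DFunLike.congr_fun h1 (Additive.ofMul (⟨v, hv⟩ : ↥V))
      have h3 : (Additive.toMul ((ρ a - 1) ((ρ a' - 1) (Additive.ofMul (⟨v, hv⟩ : ↥V))))).1 = 1 :=
        congrArg (fun z => (Additive.toMul z).1) h2
      rw [hsubapp, hsubapp] at h3
      have h4 : ⁅a.1, ⁅a'.1, v⁆⁆ = 1 := h3
      rw [commutatorElement_eq_one_iff_mul_comm] at h4
      have h5 : ⁅v, a'.1⁆ = ⁅a'.1, v⁆⁻¹ := (commutatorElement_inv _ _).symm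
      show a.1 * ⁅v, a'.1⁆ = ⁅v, a'.1⁆ * a.1
      rw [h5]
      have h6 : Commute a.1 ⁅a'.1, v⁆ := h4
      exact h6.inv_right
    · intro h a ha a' ha'
      apply DFunLike.ext
      intro v
      apply Additive.toMul.injective
      apply Subtype.ext
      show (Additive.toMul ((ρ a - 1) ((ρ a' - 1) v))).1 = 1
      rw [hsubapp, hsubapp, commutatorElement_eq_one_iff_mul_comm]
      have h1 := h (Additive.toMul v).1 (Additive.toMul v).2 a'.1 ⟨a', ha', rfl⟩
      have h2 : a.1 * ⁅(Additive.toMul v).1, a'.1⁆ = ⁅(Additive.toMul v).1, a'.1⁆ * a.1 :=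
        (Subgroup.mem_centralizer_iff.1 h1) a.1 ⟨a, ha, rfl⟩
      have h5 : ⁅a'.1, (Additive.toMul v).1⁆ = ⁅(Additive.toMul v).1, a'.1⁆⁻¹ :=
        (commutatorElement_inv _ _).symm
      rw [h5]
      have h6 : Commute a.1 ⁅(Additive.toMul v).1, a'.1⁆ := h2
      exact h6.inv_right
  have hmap0 : (A0.subgroupOf G).map G.subtype = A0 := by
    rw [Subgroup.subgroupOf_map_subtype, inf_eq_left.2 hA0G]
  have hcard0 : Nat.card ↥(A0.subgroupOf G) = Nat.card ↥A0 := by
    conv_rhs => rw [← hmap0]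
    exact (Subgroup.card_map_of_injective Subtype.val_injective).symm
  obtain ⟨A, -, hA1, hAQ, hAoff, hA2⟩ := Cfsg.Agent.H69.QO.main hG Fact.out hp hW ρ hρ
    ⟨A0.subgroupOf G, by
      intro hbot
      apply hA01
      rw [← hmap0, hbot, Subgroup.map_bot],
      by rw [hquad, hmap0]; exact hA0q,
      by rw [hcard0, hFix, hmap0]; exact hA0off⟩
  have hAQ' := fun a ha a' ha' => hAQ a ha a' ha'
  refine ⟨A.map G.subtype, Subgroup.map_subtype_le A, ?_, ⟨?_, ?_⟩, ?_, ?_, ?_⟩
  · intro hbot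
    apply hA1
    rwa [Subgroup.map_eq_bot_iff_of_injective _ Subtype.val_injective] at hbot
  · refine ⟨⟨?_⟩⟩
    rintro ⟨_, ⟨a, ha, rfl⟩⟩ ⟨_, ⟨b, hb, rfl⟩⟩
    apply Subtype.ext
    show a.1 * b.1 = b.1 * a.1
    have : a * b = b * a := by
      apply hρ
      have hab := hAQ a ha b hb
      have hba := hAQ b hb a ha
      rw [map_mul, map_mul]
      exact quad_comm _ _ hab hba
    exact congrArg Subtype.val this
  · rintro _ ⟨a, ha, rfl⟩
    have : a ^ p = 1 := by
      apply hρ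
      have haa := hAQ a ha a ha
      have h1 : ρ a = 1 + (ρ a - 1) := by abel
      rw [rho_pow h1 haa, hE_of_hW hW, map_one, add_zero]
    exact congrArg Subtype.val this
  · rw [Subgroup.card_map_of_injective Subtype.val_injective, ← hFix]
    exact hAoff
  · exact (hquad A).1 hAQ
  · have hle : Subgroup.closure {x : Ω | ∃ h ∈ G, ∃ a ∈ A.map G.subtype, x = h * a * h⁻¹} ≤
        Subgroup.normalizer ((A.map G.subtype : Subgroup Ω) : Set Ω) := by
      rw [Subgroup.closure_le]
      rintro _ ⟨h, hh, _, ⟨a, ha, rfl⟩, rfl⟩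
      apply Subgroup.mem_normalizer_fintype
      rintro _ ⟨a', ha', rfl⟩
      exact ⟨_, hA2 ⟨h, hh⟩ trivial a ha a' ha', rfl⟩
    intro g hg a ha
    exact (Subgroup.mem_normalizer_iff.1 (hle hg) a).1 ha

end Cfsg.Agent.S1935
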