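import Cfsg.Statements.S1936
import Cfsg.Agent.H70.AbPP6
import Cfsg.Agent.S0144
import Cfsg.Agent.FT.Base

set_option autoImplicit false
open Cfsg

namespace Cfsg.Agent.S1936

open Cfsg.Agent.H70.AbPP Subgroup

universe u

/-- the hypothesis -/
def Hyp (p : ℕ) (G : Type u) [Group G] : Prop :=
  ∀ H : Subgroup G, (Nat.card ↥H).Coprime p → IsMulCommutative ↥H ∧ ∀ x ∈ H, x ^ (p - 1) = 1

theorem Hyp.subgroup {p : ℕ} {G : Type u} [Group G] (h : Hyp p G) (K : Subgroup G) : Hyp p K := by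
  intro H hH
  have h1 := h (H.map K.subtype) (by rwa [card_map_of_injective K.subtype_injective])
  refine ⟨⟨⟨fun a b => ?_⟩⟩, fun x hx => ?_⟩
  · have h2 := h1.1.is_comm.comm ⟨_, ⟨(a : K), a.2, rfl⟩⟩ ⟨_, ⟨(b : K), b.2, rfl⟩⟩
    have h3 : ((a : K) : G) * ((b : K) : G) = ((b : K) : G) * ((a : K) : G) := congrArg Subtype.val h2
    exact Subtype.ext (Subtype.ext h3)
  · exact Subtype.ext (h1.2 x ⟨x, hx, rfl⟩)

theorem Hyp.quot {p : ℕ} [hpf : Fact p.Prime] {G : Type u} [Group G] [Finite G] (h : Hyp p G) (N : Subgroup G) [N.Normal]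
    {q : ℕ} [hq : Fact q.Prime] (hN : IsPGroup q N) : Hyp p (G ⧸ N) := by
  intro H hH
  rw [Nat.coprime_comm, Nat.Prime.coprime_iff_not_dvd hpf.out] at hH
  obtain ⟨K, hK, rfl⟩ := exists_lift (p := p) N hN H hH
  have h1 := h K (by rwa [Nat.coprime_comm, Nat.Prime.coprime_iff_not_dvd hpf.out])
  refine ⟨⟨⟨?_⟩⟩, ?_⟩
  · rintro ⟨_, a, ha, rfl⟩ ⟨_, b, hb, rfl⟩
    apply Subtype.ext
    show QuotientGroup.mk' N a * QuotientGroup.mk' N b = QuotientGroup.mk' N b * QuotientGroup.mk' N a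
    have h2 : a * b = b * a := congrArg Subtype.val (h1.1.is_comm.comm ⟨a, ha⟩ ⟨b, hb⟩)
    rw [← map_mul, ← map_mul, h2]
  · rintro _ ⟨a, ha, rfl⟩
    rw [← map_pow, h1.2 a ha, map_one]

theorem Hyp.abP {p : ℕ} [hpf : Fact p.Prime] {G : Type u} [Group G] (h : Hyp p G) : AbP p G := fun H hH =>
  (h H (by rwa [Nat.coprime_comm, Nat.Prime.coprime_iff_not_dvd hpf.out])).1

/-- the prime divisors of `|G|` other than `p` divide `p - 1` -/
theorem Hyp.dvd {p : ℕ} [hpf : Fact p.Prime] {G : Type u} [Group G] [Finite G] (h : Hyp p G) {q : ℕ} (hq : q.Prime)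
    (hqp : q ≠ p) (hd : q ∣ Nat.card G) : q ∣ p - 1 := by
  have : Fact q.Prime := ⟨hq⟩
  obtain ⟨x, hx⟩ := exists_prime_orderOf_dvd_card' q hd
  have h1 := (h (zpowers x) (by
    rw [Nat.card_zpowers, hx]; exact (Nat.coprime_primes hq hpf.out).2 hqp)).2 x (mem_zpowers x)
  rw [← hx]
  exact orderOf_dvd_of_pow_eq_one h1

theorem main (p : ℕ) [hpf : Fact p.Prime] : ∀ (n : ℕ) (G : Type u) [Group G] [Finite G], Nat.card G = n → Hyp p G →
    Group.IsSolvable G := by
  intro n
  induction n using Nat.strong_induction_on with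
  | _ n ih =>
  intro G _ _ hn h
  by_contra hns
  have hsub : ∀ X : Subgroup G, X ≠ ⊤ → Group.IsSolvable X := by
    intro X hX
    refine ih (Nat.card X) ?_ X rfl (h.subgroup X)
    rw [← hn]
    have h1 : X < ⊤ := lt_top_iff_ne_top.2 hX
    refine lt_of_le_of_ne (card_le_card_group X) fun he => hX (eq_top_of_card_eq X he)
  have hnt : Nontrivial G := by
    by_contra hcon
    rw [not_nontrivial_iff_subsingleton] at hcon
    exact hns inferInstance
  have hsimple : IsSimpleGroup G := by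
    refine ⟨fun N hN => ?_⟩
    by_contra hcon
    push Not at hcon
    have hNs : Group.IsSolvable N := hsub N hcon.2
    obtain ⟨M, hM, hMN⟩ := Cfsg.Agent.H10.exists_isMinNormal_le N hcon.1
    have hMs : Group.IsSolvable M := hsub M (fun h1 => hcon.2 (eq_top_iff.2 (h1 ▸ hMN)))
    obtain ⟨q, hq, -, hMq, -⟩ := hM.elementary hMs
    have : Fact q.Prime := ⟨hq⟩
    have hMn := hM.1
    have h2 : Group.IsSolvable (G ⧸ M) := by
      refine ih (Nat.card (G ⧸ M)) ?_ (G ⧸ M) rfl (h.quot M hMq)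
      rw [← hn, ← index_eq_card]
      have h3 := card_mul_index M
      have h4 : 1 < Nat.card M := by
        have : Nontrivial M := (nontrivial_iff_ne_bot M).2 hM.2.1
        exact Finite.one_lt_card
      have h5 : 0 < M.index := Nat.pos_of_ne_zero M.index_ne_zero_of_finite
      nlinarith
    exact hns ((Group.isSolvable_iff_subgroup_quotient M).mpr ⟨hMs, h2⟩)
  -- `p ≥ 5`
  have hp5 : 5 ≤ p := by
    by_contra hlt
    have h23 : p = 2 ∨ p = 3 := by
      have h2 := hpf.out.two_le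
      interval_cases p
      · exact Or.inl rfl
      · exact Or.inr rfl
      · exact absurd hpf.out (by norm_num)
    apply hns
    have hdiv : ∀ q : ℕ, q.Prime → q ∣ Nat.card G → q = 2 ∨ q = 3 := by
      intro q hq hd
      by_cases hqp : q = p
      · rw [hqp]; exact h23
      have h1 := h.dvd hq hqp hd
      rcases h23 with h3 | h3
      · rw [h3] at h1
        exact absurd (Nat.dvd_one.1 h1) hq.ne_one
      · rw [h3] at h1
        exact Or.inl ((Nat.prime_dvd_prime_iff_eq hq Nat.prime_two).1 h1)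
    have hG0 : Nat.card G ≠ 0 := Nat.card_pos.ne'
    obtain ⟨a, m, hm, e1⟩ := Nat.exists_eq_pow_mul_and_not_dvd hG0 2 (by norm_num)
    have hm0 : m ≠ 0 := by rintro rfl; simp at hm
    obtain ⟨b, r, hr, e2⟩ := Nat.exists_eq_pow_mul_and_not_dvd hm0 3 (by norm_num)
    have hr1 : r = 1 := by
      by_contra hne
      obtain ⟨q, hq, hqr⟩ := Nat.exists_prime_and_dvd hne
      have h1 : q ∣ m := e2 ▸ hqr.mul_left _
      rcases hdiv q hq (e1 ▸ h1.mul_left _) with rfl | rfl
      · exact hm h1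
      · exact hr hqr
    rw [hr1, mul_one] at e2
    exact Cfsg.Agent.S0144.result 2 3 a b Nat.prime_two Nat.prime_three (by rw [e1, e2])
  have c : Ctx p G := ⟨h.abP, by omega, hsimple, hns, hsub⟩
  have h2 : 2 ∣ Nat.card G := Cfsg.Agent.FT.even_of_not_solvable hns
  have h8 : ∀ S : Sylow 2 G, 2 ^ 3 ≤ Nat.card (c.om S) := fun S => c.rank_three S h2 hp5
  refine c.false_of_Q h2 h8 fun S Q hQ hM => c.zj_contra h2 S (h8 S) ?_ hQ hM
  have hp4 := (c.se_num hM (h8 S)).2
  intro x hx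
  have h3 : x ^ (p - 1) = 1 := by
    refine (h (S : Subgroup G) ?_).2 x hx
    rw [Nat.coprime_comm, Nat.Prime.coprime_iff_not_dvd hpf.out]
    exact not_dvd_of_pgroup (by omega) S.2
  obtain ⟨k, hk⟩ := Cfsg.Agent.Transfer.isPGroup_mem_pow S.2 hx
  have h4 := orderOf_dvd_of_pow_eq_one h3
  have h5 := orderOf_dvd_of_pow_eq_one hk
  obtain ⟨i, -, hi⟩ := (Nat.dvd_prime_pow Nat.prime_two).1 h5
  have h6 : i ≤ 1 := by
    by_contra hcon
    have h7 : 2 ^ 2 ∣ 2 ^ i := pow_dvd_pow 2 (by omega)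
    rw [← hi] at h7
    have h8 := h7.trans h4
    omega
  rw [← pow_two, ← orderOf_dvd_iff_pow_eq_one, hi]
  have h7 := pow_dvd_pow 2 h6
  rwa [pow_one] at h7

/-- Let p be a prime and G a finite group in which every subgroup of order prime to p is abelian of exponent dividing p − 1. Then G is solvable. -/
theorem result {G : Type*} [Group G] [Finite G] (p : ℕ) [Fact p.Prime] (h : ∀ H : Subgroup G, (Nat.card ↥H).Coprime p → IsMulCommutative ↥H ∧ ∀ x ∈ H, x ^ (p - 1) = 1) : Group.IsSolvable G := by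
  exact main p _ G rfl h

end Cfsg.Agent.S1936
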