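import Cfsg.Statements.S1939
import Cfsg.Agent.H32.Syl

set_option autoImplicit false
open Cfsg

namespace Cfsg.Agent.S1939

/-- Let S be a Sylow p-subgroup of the finite group G and a an element of S that is the only G-conjugate of a lying in S. Then every power of a has the same property: for every n, the only G-conjugate of a^n lying in S is a^n. -/
theorem result {G : Type*} [Group G] [Finite G] {p : ℕ} [Fact p.Prime] (S : Sylow p G) (a : G)
    (haS : a ∈ (S : Subgroup G)) (hwc : ∀ g : G, g * a * g⁻¹ ∈ (S : Subgroup G) → g * a * g⁻¹ = a) (n : ℕ) :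
    ∀ g : G, g * a ^ n * g⁻¹ ∈ (S : Subgroup G) → g * a ^ n * g⁻¹ = a ^ n := by
  intro g hg
  -- a is central in S
  have hcomm : ∀ s ∈ (S : Subgroup G), s * a * s⁻¹ = a := fun s hs =>
    hwc s (S.mul_mem (S.mul_mem hs haS) (S.inv_mem hs))
  have hcomm' : ∀ s ∈ (S : Subgroup G), Commute s a := fun s hs => by
    have := hcomm s hs
    calc s * a = s * a * s⁻¹ * s := by group
      _ = a * s := by rw [this]
  set b := g * a ^ n * g⁻¹ with hb
  let C : Subgroup G := Subgroup.centralizer {b}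
  have hbC : ∀ x : G, x ∈ C ↔ x * b = b * x := by
    intro x
    rw [Subgroup.mem_centralizer_iff]
    constructor
    · intro h; exact (h b rfl).symm
    · rintro h y rfl; exact h.symm
  have haC : a ∈ C := (hbC a).2 (hcomm' b hg).symm.eq
  let T : Subgroup G := (S : Subgroup G).map (MulAut.conj g).toMonoidHom
  have hTC : T ≤ C := by
    intro y hy
    have hy' := Cfsg.Agent.H32.mem_map_conj.1 hy
    rw [hbC]
    have h1 : Commute (g⁻¹ * y * g) (a ^ n) := (hcomm' _ hy').pow_right n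
    have h2 := h1.eq
    calc y * b = g * ((g⁻¹ * y * g) * a ^ n) * g⁻¹ := by rw [hb]; group
      _ = b * y := by rw [h2, hb]; group
  have hTp : IsPGroup p T := S.isPGroup'.map _
  have hTi : ¬ p ∣ T.relIndex C := by
    intro h
    have h1 : T.relIndex C ∣ T.index := Subgroup.relIndex_dvd_index_of_le hTC
    have h2 : T.index = (S : Subgroup G).index := by
      exact Subgroup.index_map_equiv (S : Subgroup G) (MulAut.conj g)
    exact S.not_dvd_index (h2 ▸ h.trans h1)
  obtain ⟨c, hcC, hc⟩ := Cfsg.Agent.H32.exists_conj_le_of_not_dvd_relIndex hTC hTp hTi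
    (P := Subgroup.zpowers a) (by rwa [Subgroup.zpowers_le])
    (S.isPGroup'.to_le (by rwa [Subgroup.zpowers_le]))
  have h3 := Cfsg.Agent.H32.mem_map_conj.1 (hc a (Subgroup.mem_zpowers a))
  have h4 : (g⁻¹ * c) * a * (g⁻¹ * c)⁻¹ ∈ (S : Subgroup G) := by
    have : (g⁻¹ * c) * a * (g⁻¹ * c)⁻¹ = g⁻¹ * (c * a * c⁻¹) * g := by group
    rwa [this]
  have h5 := hwc _ h4
  have h6 : c * a * c⁻¹ = g * a * g⁻¹ := by
    calc c * a * c⁻¹ = g * ((g⁻¹ * c) * a * (g⁻¹ * c)⁻¹) * g⁻¹ := by group
      _ = g * a * g⁻¹ := by rw [h5]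
  have h7 : c * a ^ n * c⁻¹ = b := by
    rw [← conj_pow, h6, conj_pow]
  have h8 := (hbC c).1 hcC
  calc b = c⁻¹ * (c * b) := by group
    _ = c⁻¹ * (b * c) := by rw [h8]
    _ = c⁻¹ * ((c * a ^ n * c⁻¹) * c) := by rw [h7]
    _ = a ^ n := by group

end Cfsg.Agent.S1939
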