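import Cfsg.Statements.S1940
import Mathlib.GroupTheory.Sylow
import Mathlib.Tactic.Group
import Mathlib.Data.ZMod.Basic

set_option autoImplicit false
open Cfsg

namespace Cfsg.Agent.S1940

/-- Let the finite group L act by automorphisms on the finite abelian group M, and let N be an L-invariant subgroup of M such that M/N is a p-group on which L acts trivially (every l • m lies in the coset mN). If every element of M is a product of an element of N and an element fixed by a Sylow p-subgroup T of L, then every element of M is a product of an element of N and an element fixed by all of L. -/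
theorem result {L : Type*} [Group L] [Finite L] {M : Type*} [CommGroup M] [Finite M] [MulDistribMulAction L M]
    {p : ℕ} [Fact p.Prime] (N : Subgroup M) (hN : ∀ (l : L) (m : M), m ∈ N → l • m ∈ N)
    (hquot : IsPGroup p (M ⧸ N)) (htriv : ∀ (l : L) (m : M), (l • m) * m⁻¹ ∈ N) (T : Sylow p L)
    (hT : ∀ m : M, ∃ n ∈ N, ∃ c : M, (∀ t ∈ (T : Subgroup L), t • c = c) ∧ m = n * c) :
    ∀ m : M, ∃ n ∈ N, ∃ c : M, (∀ l : L, l • c = c) ∧ m = n * c := by
  classical
  intro m
  obtain ⟨n, hn, c, hc, rfl⟩ := hT m
  have : Fintype (L ⧸ (T : Subgroup L)) := Fintype.ofFinite _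
  let f : L ⧸ (T : Subgroup L) → M := fun q => Quotient.liftOn' q (fun x => x • c) (by
    intro a b hab
    have h1 : a⁻¹ * b ∈ (T : Subgroup L) := QuotientGroup.leftRel_apply.1 hab
    have h2 := hc _ h1
    show a • c = b • c
    conv_lhs => rw [← h2]
    rw [smul_smul]
    simp)
  have hf : ∀ x : L, f (x : L ⧸ (T : Subgroup L)) = x • c := fun x => rfl
  let c' : M := ∏ q : L ⧸ (T : Subgroup L), f q
  have hc' : ∀ l : L, l • c' = c' := by
    intro l
    show l • (∏ q : L ⧸ (T : Subgroup L), f q) = ∏ q : L ⧸ (T : Subgroup L), f q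
    rw [Finset.smul_prod']
    refine Fintype.prod_equiv (MulAction.toPerm l) _ _ ?_
    intro q
    induction q using QuotientGroup.induction_on with
    | H x =>
      show l • f (x : L ⧸ (T : Subgroup L)) = f ((l * x : L) : L ⧸ (T : Subgroup L))
      rw [hf, hf, smul_smul]
  have hmk : (QuotientGroup.mk' N) c' = (QuotientGroup.mk' N) c ^ ((T : Subgroup L).index) := by
    show (QuotientGroup.mk' N) (∏ q : L ⧸ (T : Subgroup L), f q) = _
    rw [map_prod]
    have : ∀ q : L ⧸ (T : Subgroup L), (QuotientGroup.mk' N) (f q) = (QuotientGroup.mk' N) c := by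
      intro q
      induction q using QuotientGroup.induction_on with
      | H x =>
        rw [hf]
        have h := htriv x c
        rw [← QuotientGroup.eq_one_iff] at h
        have h2 : (QuotientGroup.mk' N) (x • c) * ((QuotientGroup.mk' N) c)⁻¹ = 1 := by
          rw [← map_inv, ← map_mul]; exact h
        exact mul_inv_eq_one.1 h2
    rw [Finset.prod_congr rfl (fun q _ => this q), Finset.prod_const, Finset.card_univ,
      Subgroup.index, Nat.card_eq_fintype_card]
  obtain ⟨j, hj⟩ := hquot ((QuotientGroup.mk' N) c)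
  have hcop : Nat.Coprime ((T : Subgroup L).index) (p ^ j) := by
    refine Nat.Coprime.pow_right j ?_
    exact ((Nat.Prime.coprime_iff_not_dvd Fact.out).2 T.not_dvd_index).symm
  obtain ⟨k, hk⟩ : ∃ k : ℕ, ((QuotientGroup.mk' N) c ^ ((T : Subgroup L).index)) ^ k
      = (QuotientGroup.mk' N) c := by
    have h1 : orderOf ((QuotientGroup.mk' N) c) ∣ p ^ j := orderOf_dvd_of_pow_eq_one hj
    have h2 : Nat.Coprime (orderOf ((QuotientGroup.mk' N) c)) ((T : Subgroup L).index) :=
      (hcop.coprime_dvd_right h1).symm
    exact exists_pow_eq_self_of_coprime h2.symm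
  refine ⟨n * (c * (c' ^ k)⁻¹), N.mul_mem hn ?_, c' ^ k, ?_, ?_⟩
  · rw [← QuotientGroup.eq_one_iff]
    show (QuotientGroup.mk' N) (c * (c' ^ k)⁻¹) = 1
    rw [map_mul, map_inv, map_pow, hmk, hk, mul_inv_cancel]
  · intro l
    rw [smul_pow', hc']
  · group

end Cfsg.Agent.S1940
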