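import Cfsg.Statements.S1941
import Cfsg.Agent.FStar.Layer

set_option autoImplicit false
open Cfsg

namespace Cfsg.Agent.S1941

open Cfsg.Agent.FStar

theorem cocycle {G : Type*} [Group G] [Finite G] {p : ℕ} [Fact p.Prime] (T : Sylow p G) (α : MulAut G)
    (Z : Subgroup G) [Z.Normal] (hZc : ∀ x ∈ Z, ∀ y ∈ Z, x * y = y * x) (hZp : IsPGroup p Z)
    (hfixT : ∀ x ∈ (T : Subgroup G), α x = x) (hc : ∀ g, α g * g⁻¹ ∈ Z) (hZT : Z ≤ T) :
    ∃ g : G, ∀ x : G, α x = g * x * g⁻¹ := by
  classical
  letI : CommGroup Z := { (inferInstance : Group Z) with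
    mul_comm := fun a b => Subtype.ext (hZc a a.2 b b.2) }
  have : Fintype (G ⧸ (T : Subgroup G)) := Fintype.ofFinite _
  let c : G → Z := fun g => ⟨α g * g⁻¹, hc g⟩
  have hcT : ∀ g, ∀ t ∈ (T : Subgroup G), c (g * t) = c g := by
    intro g t ht
    apply Subtype.ext
    show α (g * t) * (g * t)⁻¹ = α g * g⁻¹
    rw [map_mul, hfixT t ht]; group
  let C : G ⧸ (T : Subgroup G) → Z := Quotient.lift c (by
    intro a b hab
    have h1 : a⁻¹ * b ∈ (T : Subgroup G) := QuotientGroup.leftRel_apply.1 hab
    have h2 := hcT a _ h1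
    rw [← h2]; congr 1; group)
  have hC : ∀ g : G, C (QuotientGroup.mk g) = c g := fun g => rfl
  have hcm : ∀ h g, c (h * g) = c h * MulAut.conjNormal h (c g) := by
    intro h g
    apply Subtype.ext
    show α (h * g) * (h * g)⁻¹ = α h * h⁻¹ * (MulAut.conjNormal h (c g) : Z)
    rw [MulAut.conjNormal_apply, map_mul]
    show _ = α h * h⁻¹ * (h * (α g * g⁻¹) * h⁻¹)
    group
  have hCm : ∀ (h : G) (q : G ⧸ (T : Subgroup G)), C (h • q) = c h * MulAut.conjNormal h (C q) := by
    intro h q
    induction q using QuotientGroup.induction_on with | _ g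
    exact hcm h g
  set z : Z := ∏ q, C q with hz
  have hzh : ∀ h : G, z = c h ^ Nat.card (G ⧸ (T : Subgroup G)) * MulAut.conjNormal h z := by
    intro h
    have h1 : ∏ q, C (h • q) = z := Fintype.prod_bijective _ (MulAction.bijective h) _ _ (fun q => rfl)
    calc z = ∏ q, C (h • q) := h1.symm
      _ = ∏ q, (c h * MulAut.conjNormal h (C q)) := by simp only [hCm]
      _ = _ := by
        rw [Finset.prod_mul_distrib, Finset.prod_const, Finset.card_univ,
          ← Nat.card_eq_fintype_card, ← map_prod]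
  set n := Nat.card (G ⧸ (T : Subgroup G)) with hn
  have hcop : (Nat.card Z).Coprime n := by
    obtain ⟨k, hk⟩ := IsPGroup.iff_card.1 hZp
    rw [hk]
    apply Nat.Coprime.pow_left
    rw [Nat.Prime.coprime_iff_not_dvd (Fact.out)]
    exact T.not_dvd_index
  obtain ⟨w, hw⟩ := (powCoprime hcop).surjective z
  have hw : w ^ n = z := hw
  have key : ∀ h : G, c h * MulAut.conjNormal h w = w := by
    intro h
    apply (powCoprime hcop).injective
    show (c h * MulAut.conjNormal h w) ^ n = w ^ n
    rw [mul_pow, ← map_pow, hw]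
    exact (hzh h).symm
  refine ⟨w, fun x => ?_⟩
  have h1 := congrArg Subtype.val (key x)
  have h2 : α x * x⁻¹ * (x * (w : G) * x⁻¹) = w := h1
  have h3 : α x * w * x⁻¹ = w := by
    calc α x * w * x⁻¹ = α x * x⁻¹ * (x * (w : G) * x⁻¹) := by group
      _ = w := h2
  have h4 : α x * w = w * x := by
    calc α x * w = (α x * w * x⁻¹) * x := by group
      _ = w * x := by rw [h3]
  rw [← h4]; group

/-- Let G be a finite group with no nontrivial normal subgroup of order prime to p, T a Sylow p-subgroup of G and E(G) the layer of G (the subgroup generated by its components). An automorphism of G of p-power order that fixes T and E(G) elementwise is inner. -/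
theorem result {G : Type*} [Group G] [Finite G] {p : ℕ} [Fact p.Prime] (hcore : Cfsg.pPrimeCore p G = ⊥)
    (T : Sylow p G) (α : MulAut G) (hα : ∃ j : ℕ, orderOf α = p ^ j) (hfixT : ∀ x ∈ (T : Subgroup G), α x = x)
    (hfixE : ∀ x ∈ Cfsg.layer G, α x = x) : ∃ g : G, ∀ x : G, α x = g * x * g⁻¹ := by
  set F := Cfsg.generalizedFittingSubgroup G with hF
  set Z := Subgroup.centralizer (F : Set G) with hZ
  have hZn : Z.Normal := inferInstance
  have hZF : Z ≤ F := centralizer_generalizedFitting_le
  have hZc : ∀ x ∈ Z, ∀ y ∈ Z, x * y = y * x := by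
    intro x hx y hy
    exact Subgroup.mem_centralizer_iff.1 hy x (hZF hx)
  have hZnil : Group.IsNilpotent Z := by
    letI : CommGroup Z := { (inferInstance : Group Z) with
      mul_comm := fun a b => Subtype.ext (hZc a a.2 b b.2) }
    exact CommGroup.isNilpotent
  have hfit : Cfsg.fittingSubgroup G ≤ Cfsg.pCore p G := by
    rw [Solv.fitting_eq_iSup_pCore]
    apply iSup_le
    rintro ⟨q, hq⟩
    by_cases hqp : q = p
    · subst hqp; exact le_rfl
    · have hqf : Fact q.Prime := ⟨hq⟩
      have h1 : Cfsg.pCore q G ≤ Cfsg.pPrimeCore p G := by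
        apply Solv.le_pPrimeCore inferInstance
        obtain ⟨k, hk⟩ := IsPGroup.iff_card.1 (Solv.pCore_isPGroup (G := G) q)
        rw [hk]
        exact Nat.Coprime.pow_left _ ((Nat.coprime_primes hq Fact.out).2 hqp)
      rw [hcore, le_bot_iff] at h1
      show Cfsg.pCore q G ≤ _
      rw [h1]; exact bot_le
  have hZfit : Z ≤ Cfsg.pCore p G := (Solv.le_fitting hZn hZnil).trans hfit
  have hZp : IsPGroup p Z := (Solv.pCore_isPGroup p).to_le hZfit
  have hpT : Cfsg.pCore p G ≤ (T : Subgroup G) := Solv.pCore_le_sylow T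
  have hfixF : ∀ x ∈ F, α x = x := by
    have h1 : F ≤ MonoidHom.eqLocus (α : G →* G) (MonoidHom.id G) := by
      apply sup_le
      · intro x hx; exact hfixE x hx
      · intro x hx; exact hfixT x (hpT (hfit hx))
    intro x hx; exact h1 hx
  have hc : ∀ g, α g * g⁻¹ ∈ Z := by
    intro g
    rw [hZ, Subgroup.mem_centralizer_iff]
    intro x hx
    have hFn : F.Normal := inferInstance
    have h1 : α (g⁻¹ * x * g) = g⁻¹ * x * g := hfixF _ (by
      have := hFn.conj_mem x hx g⁻¹
      rwa [inv_inv] at this)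
    rw [map_mul, map_mul, map_inv, hfixF x hx] at h1
    have h2 : x * α g = α g * (g⁻¹ * x * g) := by rw [← h1]; group
    calc x * (α g * g⁻¹) = x * α g * g⁻¹ := by group
      _ = α g * g⁻¹ * x := by rw [h2]; group
  exact cocycle T α Z hZc hZp hfixT hc (hZfit.trans hpT)

end Cfsg.Agent.S1941
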