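import Cfsg.Statements.S1944
import Cfsg.Agent.H33.RelTrace
import Cfsg.Agent.H33.Frattini
import Cfsg.Agent.H31.Goldschmidt

set_option autoImplicit false
open Cfsg

namespace Cfsg.Agent.S1944

/-- Let S be a Sylow p-subgroup of the finite group G and suppose that the centre Z(S) lies in O_{p',p}(G). The elements of S each of which is its only G-conjugate in S form a subgroup W of Z(S); W is then a direct factor of Z(S): there is a subgroup K of Z(S) with W ∩ K = 1 and WK = Z(S). -/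
theorem result {G : Type*} [Group G] [Finite G] {p : ℕ} [Fact p.Prime] (S : Sylow p G)
    (hZ : ((S : Subgroup G) ⊓ Subgroup.centralizer ((S : Subgroup G) : Set G)) ≤ Cfsg.pPrimePCore p G) :
    ∃ W K : Subgroup G, (∀ x : G, x ∈ W ↔ (x ∈ (S : Subgroup G) ∧ ∀ g : G, g * x * g⁻¹ ∈ (S : Subgroup G) → g * x * g⁻¹ = x)) ∧
      K ≤ ((S : Subgroup G) ⊓ Subgroup.centralizer ((S : Subgroup G) : Set G)) ∧ W ⊓ K = ⊥ ∧ W ⊔ K = ((S : Subgroup G) ⊓ Subgroup.centralizer ((S : Subgroup G) : Set G)) := by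
  classical
  have hNc : (Nat.card (Cfsg.pPrimeCore p G)).Coprime p := Solv.pPrimeCore_card_coprime p
  have hN : (Cfsg.pPrimeCore p G).Normal := inferInstance
  have hMn : (Cfsg.pPrimePCore p G).Normal := H23.pPrimePCore_normal p G
  have hdisj : ∀ x ∈ Cfsg.pPrimeCore p G, x ∈ (S : Subgroup G) → x = 1 := by
    intro x hx hxS
    have h1 := Transfer.coprime_orderOf_of_coprime_card hNc hx
    obtain ⟨k, hk⟩ := (IsPGroup.iff_orderOf.1 S.2) ⟨x, hxS⟩
    rw [Subgroup.orderOf_mk] at hk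
    rw [hk] at h1
    rw [← orderOf_eq_one_iff, hk]
    rcases Nat.eq_zero_or_pos k with h0 | h0
    · rw [h0, pow_zero]
    · exfalso
      have := Nat.Coprime.coprime_dvd_left (dvd_pow_self p h0.ne') h1
      rw [Nat.coprime_self] at this
      exact (Fact.out : p.Prime).ne_one this
  set N := Cfsg.pPrimeCore p G with hNdef
  set π := QuotientGroup.mk' N with hπ
  have hπs : Function.Surjective π := QuotientGroup.mk'_surjective N
  have hker : ∀ x, π x = 1 ↔ x ∈ N := fun x => by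
    rw [← MonoidHom.mem_ker, hπ, QuotientGroup.ker_mk']
  have hinj : ∀ x ∈ (S : Subgroup G), ∀ y ∈ (S : Subgroup G), π x = π y → x = y := by
    intro x hx y hy h
    have h1 : x * y⁻¹ = 1 := by
      apply hdisj
      · rw [← hker, map_mul, map_inv, h, mul_inv_cancel]
      · exact mul_mem hx (inv_mem hy)
    rwa [mul_inv_eq_one] at h1
  set T := Cfsg.pCore p (G ⧸ N) with hT
  haveI hTn : T.Normal := inferInstance
  have hTS : T ≤ (S : Subgroup G).map π := by
    have h1 : IsPGroup p T := Solv.pCore_isPGroup p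
    have h2 : ((S.mapSurjective hπs : Sylow p (G ⧸ N)) : Subgroup (G ⧸ N)) = (S : Subgroup G).map π := rfl
    rw [← h2]
    exact h1.le_sylow_of_normal _
  set Z := ((S : Subgroup G) ⊓ Subgroup.centralizer ((S : Subgroup G) : Set G)) with hZdef
  have hZT : ∀ z ∈ Z, π z ∈ T := fun z hz => hZ hz
  have hZc : ∀ z ∈ Z, ∀ t ∈ (S : Subgroup G).map π, t * π z = π z * t := by
    rintro z hz _ ⟨s, hs, rfl⟩
    rw [← map_mul, ← map_mul, Subgroup.mem_centralizer_iff.1 hz.2 s hs]
  set Vb : Subgroup (G ⧸ N) := T ⊓ Subgroup.centralizer (T : Set (G ⧸ N)) with hVb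
  haveI hVn : Vb.Normal := inferInstance
  have hVcomm : ∀ a b : Vb, a * b = b * a := fun a b =>
    Subtype.ext (Subgroup.mem_centralizer_iff.1 b.2.2 a a.2.1)
  letI : CommGroup Vb := { (inferInstance : Group Vb) with mul_comm := hVcomm }
  let φ : G →* MulAut Vb := (MulAut.conjNormal (H := Vb)).comp π
  have hφ : ∀ (g : G) (v : Vb), ((φ g v : Vb) : G ⧸ N) = π g * v * (π g)⁻¹ := fun g v => rfl
  have hVp : IsPGroup p Vb := (Solv.pCore_isPGroup p : IsPGroup p T).to_le inf_le_left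
  have hco : (Nat.card Vb).Coprime (S : Subgroup G).index := by
    obtain ⟨k, hk⟩ := IsPGroup.iff_card.1 hVp
    rw [hk]
    exact ((Transfer.coprime_index_sylow S).pow_right k).symm
  obtain ⟨K, hK1, hK2, hK3⟩ := H33.exists_compl_fixed φ (S : Subgroup G) hco
  -- elements of `Z`
  have hZV : ∀ z ∈ Z, π z ∈ Vb := fun z hz =>
    ⟨hZT z hz, Subgroup.mem_centralizer_iff.2 fun t ht => hZc z hz t (hTS ht)⟩
  -- the lift of a subgroup of `Vb`
  let L : Subgroup Vb → Subgroup G := fun X => (S : Subgroup G) ⊓ (X.map Vb.subtype).comap π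
  have hL : ∀ (X : Subgroup Vb) (x : G), x ∈ L X ↔ x ∈ (S : Subgroup G) ∧ ∃ h : π x ∈ Vb, (⟨π x, h⟩ : Vb) ∈ X := by
    intro X x
    constructor
    · rintro ⟨hx, v, hv, hvx⟩
      have h1 : (v : G ⧸ N) = π x := hvx
      refine ⟨hx, h1 ▸ v.2, ?_⟩
      have h2 : (⟨π x, h1 ▸ v.2⟩ : Vb) = v := Subtype.ext h1.symm
      rw [h2]; exact hv
    · rintro ⟨hx, h, hX⟩
      exact ⟨hx, _, hX, rfl⟩
  have hfix : ∀ (H : Subgroup G) (x : G) (h : π x ∈ Vb), (⟨π x, h⟩ : Vb) ∈ H33.fixS φ H ↔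
      ∀ g ∈ H, π g * π x * (π g)⁻¹ = π x := by
    intro H x h
    rw [H33.mem_fixS]
    constructor
    · intro h1 g hg
      have := congrArg Subtype.val (h1 g hg)
      rwa [hφ] at this
    · intro h1 g hg
      apply Subtype.ext
      rw [hφ]; exact h1 g hg
  have hLZ : L (H33.fixS φ (S : Subgroup G)) = Z := by
    ext x
    rw [hL]
    constructor
    · rintro ⟨hx, h, h1⟩
      rw [hfix] at h1
      refine ⟨hx, Subgroup.mem_centralizer_iff.2 fun s hs => ?_⟩
      have h2 := h1 s hs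
      apply hinj _ (mul_mem hs hx) _ (mul_mem hx hs)
      rw [map_mul, map_mul]
      exact mul_inv_eq_iff_eq_mul.1 h2
    · intro hx
      refine ⟨hx.1, hZV x hx, ?_⟩
      rw [hfix]
      intro g hg
      rw [mul_inv_eq_iff_eq_mul]
      exact hZc x hx _ ⟨g, hg, rfl⟩
  have hLmono : ∀ X Y : Subgroup Vb, X ≤ Y → L X ≤ L Y := by
    intro X Y hXY x hx
    rw [hL] at hx ⊢
    obtain ⟨h1, h2, h3⟩ := hx
    exact ⟨h1, h2, hXY h3⟩
  have hlift : ∀ v : Vb, ∃ s ∈ (S : Subgroup G), π s = v := by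
    intro v
    obtain ⟨s, hs, h⟩ := hTS v.2.1
    exact ⟨s, hs, h⟩
  refine ⟨L (H33.fixS φ ⊤), L K, ?_, ?_, ?_, ?_⟩
  · intro x
    rw [hL]
    constructor
    · rintro ⟨hx, h, h1⟩
      rw [hfix] at h1
      refine ⟨hx, fun g hg => ?_⟩
      apply hinj _ hg _ hx
      rw [map_mul, map_mul, map_inv]
      exact h1 g (Subgroup.mem_top g)
    · rintro ⟨hx, hw⟩
      have hxZ : x ∈ Z := by
        refine ⟨hx, Subgroup.mem_centralizer_iff.2 fun s hs => ?_⟩
        have := hw s (mul_mem (mul_mem hs hx) (inv_mem hs))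
        exact mul_inv_eq_iff_eq_mul.1 this
      refine ⟨hx, hZV x hxZ, ?_⟩
      rw [hfix]
      intro g _
      -- Sylow in `M`
      have hSM : H33.IsSyl p ((S : Subgroup G) ⊓ Cfsg.pPrimePCore p G) (Cfsg.pPrimePCore p G) :=
        (H33.isSyl_top S).inf_normal le_top (by rw [Subgroup.normalizer_eq_top_iff.2 hMn])
      have hgM : H33.cj g (Subgroup.zpowers x) ≤ Cfsg.pPrimePCore p G := by
        rw [H33.cj_le_iff]
        intro y hy
        exact hMn.conj_mem _ ((Subgroup.zpowers_le.2 (hZ hxZ)) hy) g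
      have hgp : IsPGroup p (H33.cj g (Subgroup.zpowers x)) :=
        H33.isPGroup_cj (H33.isPGroup_sub S.2 (Subgroup.zpowers_le.2 hx))
      obtain ⟨m, hm, hmS⟩ := hSM.conj_le hgM hgp
      rw [← H33.cj_mul, H33.cj_le_iff] at hmS
      have h2 := hw (m * g) (hmS x (Subgroup.mem_zpowers x)).1
      have h3 : π m ∈ T := hm
      have h4 : g * x * g⁻¹ = m⁻¹ * x * m := by
        have : m⁻¹ * (m * g * x * (m * g)⁻¹) * m = g * x * g⁻¹ := by group
        rw [← this, h2]
      have h5 : π g * π x * (π g)⁻¹ = (π m)⁻¹ * π x * π m := by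
        have := congrArg π h4
        simpa only [map_mul, map_inv] using this
      rw [h5, mul_assoc, ← hZc x hxZ _ (hTS h3)]
      group
  · rw [← hLZ]; exact hLmono _ _ hK1
  · rw [eq_bot_iff]
    intro x hx
    obtain ⟨h1, h2⟩ := hx
    have h1' := (hL _ _).1 h1
    have h2' := (hL _ _).1 h2
    obtain ⟨hxS, h3, h4⟩ := h1'
    obtain ⟨_, h5, h6⟩ := h2'
    have h7 : (⟨π x, h3⟩ : Vb) ∈ H33.fixS φ ⊤ ⊓ K := ⟨h4, h6⟩
    rw [hK2, Subgroup.mem_bot] at h7
    have h8 : π x = 1 := congrArg Subtype.val h7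
    rw [Subgroup.mem_bot]
    exact hdisj x ((hker x).1 h8) hxS
  · apply le_antisymm
    · apply sup_le
      · rw [← hLZ]; apply hLmono
        rw [← hK3]; exact le_sup_left
      · rw [← hLZ]; exact hLmono _ _ hK1
    · intro x hx
      have h1 : x ∈ L (H33.fixS φ (S : Subgroup G)) := by rw [hLZ]; exact hx
      rw [hL] at h1
      obtain ⟨hxS, h2, h3⟩ := h1
      rw [← hK3] at h3
      obtain ⟨w, hw, k, hk, hwk⟩ := Subgroup.mem_sup.1 h3
      obtain ⟨a, ha, hae⟩ := hlift w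
      obtain ⟨b, hb, hbe⟩ := hlift k
      have hab : x = a * b := by
        apply hinj _ hxS _ (mul_mem ha hb)
        have := congrArg Subtype.val hwk
        rw [map_mul, hae, hbe]
        exact this.symm
      rw [hab]
      refine Subgroup.mul_mem_sup ((hL _ _).2 ⟨ha, hae ▸ w.2, ?_⟩) ((hL _ _).2 ⟨hb, hbe ▸ k.2, ?_⟩)
      · have : (⟨π a, hae ▸ w.2⟩ : Vb) = w := Subtype.ext hae
        rw [this]; exact hw
      · have : (⟨π b, hbe ▸ k.2⟩ : Vb) = k := Subtype.ext hbe
        rw [this]; exact hk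

end Cfsg.Agent.S1944
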