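import Cfsg.Statements.S1945
import Cfsg.Agent.H34.WC6
import Cfsg.Agent.S1944
import Cfsg.Agent.H91.SolvPCore

set_option autoImplicit false
open Cfsg

namespace Cfsg.Agent.S1945

open Cfsg.Agent.SigF Cfsg.Agent.H34.WC

theorem solv_case {G : Type*} [Group G] [Finite G] {p : ℕ} [Fact p.Prime] (S : Sylow p G)
    (h : Group.IsSolvable G) :
    ((S : Subgroup G) ⊓ Subgroup.centralizer ((S : Subgroup G) : Set G)) ≤ Cfsg.pPrimePCore p G := by
  intro z hz
  set N := Cfsg.pPrimeCore p G with hN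
  haveI : N.Normal := inferInstance
  have hπs : Function.Surjective (QuotientGroup.mk' N) := QuotientGroup.mk'_surjective N
  set T := Cfsg.pCore p (G ⧸ N) with hT
  haveI hTn : T.Normal := inferInstance
  have hTS : T ≤ (S : Subgroup G).map (QuotientGroup.mk' N) := by
    have h1 : IsPGroup p T := Solv.pCore_isPGroup p
    have h2 : ((S.mapSurjective hπs : Sylow p (G ⧸ N)) : Subgroup (G ⧸ N)) = (S : Subgroup G).map (QuotientGroup.mk' N) := rfl
    rw [← h2]
    exact h1.le_sylow_of_normal _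
  have hH : Subgroup.centralizer (T : Set (G ⧸ N)) ≤ T :=
    H91.centralizer_pCore_le p (Solv.pPrimeCore_quotient_pPrimeCore p)
  refine hH (Subgroup.mem_centralizer_iff.2 fun t ht => ?_)
  obtain ⟨s, hs, rfl⟩ := hTS ht
  have := Subgroup.mem_centralizer_iff.1 hz.2 s hs
  show QuotientGroup.mk' N s * QuotientGroup.mk' N z = QuotientGroup.mk' N z * QuotientGroup.mk' N s
  rw [← map_mul, ← map_mul, this]

theorem odd_case {G : Type*} [Group G] [Finite G] {p : ℕ} [Fact p.Prime] (S : Sylow p G) (hp : p ≠ 2) :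
    ∃ W K : Subgroup G, (∀ x : G, x ∈ W ↔ (x ∈ (S : Subgroup G) ∧ ∀ g : G, g * x * g⁻¹ ∈ (S : Subgroup G) → g * x * g⁻¹ = x)) ∧
      K ≤ ((S : Subgroup G) ⊓ Subgroup.centralizer ((S : Subgroup G) : Set G)) ∧ W ⊓ K = ⊥ ∧ W ⊔ K = ((S : Subgroup G) ⊓ Subgroup.centralizer ((S : Subgroup G) : Set G)) := by
  classical
  have hS : IsSyl p (S : Subgroup G) ⊤ :=
    isSyl_of_forall S.2 le_top fun R hR _ hSR => S.is_maximal' hR hSR
  set J : Subgroup G := JJ (S : Subgroup G) with hJ
  set N : Subgroup G := Subgroup.normalizer (J : Set G) with hN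
  have hJN : J ≤ N := Subgroup.le_normalizer
  have hSN : (S : Subgroup G) ≤ N := by
    intro x hx
    rw [hN, mem_normalizer_iff_cj, hJ, cj_JJ]
    congr 1
    rw [← mem_normalizer_iff_cj]
    exact Subgroup.le_normalizer hx
  set M : Subgroup G := J ⊓ Subgroup.centralizer (J : Set G) with hM
  have hMconj : ∀ n ∈ N, ∀ m ∈ M, n * m * n⁻¹ ∈ M := by
    intro n hn m hm
    refine ⟨(Subgroup.mem_normalizer_iff.1 hn m).1 hm.1, Subgroup.mem_centralizer_iff.2 fun t ht => ?_⟩
    have h1 : n⁻¹ * t * n⁻¹⁻¹ ∈ J := (Subgroup.mem_normalizer_iff.1 (inv_mem hn) t).1 ht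
    rw [inv_inv] at h1
    have h2 := Subgroup.mem_centralizer_iff.1 hm.2 _ h1
    have h3 : t * (n * m * n⁻¹) = n * ((n⁻¹ * t * n) * m) * n⁻¹ := by group
    rw [h3, h2]; group
  have hMcomm : ∀ a b : M, a * b = b * a := fun a b =>
    Subtype.ext (Subgroup.mem_centralizer_iff.1 b.2.2 a a.2.1)
  letI : CommGroup M := { (inferInstance : Group M) with mul_comm := hMcomm }
  have hNM : N ≤ Subgroup.normalizer (M : Set G) := by
    intro n hn
    rw [Subgroup.mem_normalizer_iff]
    intro m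
    refine ⟨hMconj n hn m, fun h => ?_⟩
    have := hMconj n⁻¹ (inv_mem hn) _ h
    have h2 : n⁻¹ * (n * m * n⁻¹) * n⁻¹⁻¹ = m := by group
    rwa [h2] at this
  let φ : N →* MulAut M := (Subgroup.normalizerMonoidHom M).comp (Subgroup.inclusion hNM)
  have hφ : ∀ (g : N) (v : M), ((φ g v : M) : G) = g * v * (g : G)⁻¹ := fun g v => rfl
  have hMp : IsPGroup p M := S.2.to_le (inf_le_left.trans (JJ_le _))
  set H : Subgroup N := (S : Subgroup G).subgroupOf N with hH
  have hco : (Nat.card M).Coprime H.index := by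
    obtain ⟨k, hk⟩ := IsPGroup.iff_card.1 hMp
    rw [hk]
    refine Nat.Coprime.pow_left _ ?_
    rw [Nat.Prime.coprime_iff_not_dvd Fact.out]
    intro hd
    have h1 : H.index = (S : Subgroup G).relIndex N := rfl
    rw [h1] at hd
    have h2 := (hS.of_le hSN le_top).not_dvd_relIndex
    exact h2 hd
  obtain ⟨K, hK1, hK2, hK3⟩ := H33.exists_compl_fixed φ H hco
  set Z := ((S : Subgroup G) ⊓ Subgroup.centralizer ((S : Subgroup G) : Set G)) with hZ
  have hZM : ∀ z ∈ Z, z ∈ M := by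
    intro z hz
    have h1 : (S : Subgroup G) ≤ Subgroup.centralizer {z} := by
      intro s hs
      rw [Subgroup.mem_centralizer_singleton_iff]
      exact Subgroup.mem_centralizer_iff.1 hz.2 s hs
    refine ⟨z_mem_JJ hz.1 h1, Subgroup.mem_centralizer_iff.2 fun t ht => ?_⟩
    exact Subgroup.mem_centralizer_iff.1 hz.2 t (JJ_le _ ht)
  have hfixH : ∀ v : M, v ∈ H33.fixS φ H ↔ (v : G) ∈ Z := by
    intro v
    rw [H33.mem_fixS]
    constructor
    · intro h
      refine ⟨JJ_le _ v.2.1, Subgroup.mem_centralizer_iff.2 fun s hs => ?_⟩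
      have h1 := congrArg Subtype.val (h ⟨s, hSN hs⟩ (Subgroup.mem_subgroupOf.2 hs))
      rw [hφ] at h1
      exact mul_inv_eq_iff_eq_mul.1 h1
    · intro h s hs
      apply Subtype.ext
      rw [hφ, mul_inv_eq_iff_eq_mul]
      exact Subgroup.mem_centralizer_iff.1 h.2 _ (Subgroup.mem_subgroupOf.1 hs)
  have hmapZ : (H33.fixS φ H).map M.subtype = Z := by
    ext x
    constructor
    · rintro ⟨v, hv, rfl⟩
      exact (hfixH v).1 hv
    · intro hx
      exact ⟨⟨x, hZM x hx⟩, (hfixH _).2 hx, rfl⟩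
  refine ⟨(H33.fixS φ ⊤).map M.subtype, K.map M.subtype, ?_, ?_, ?_, ?_⟩
  · intro x
    constructor
    · rintro ⟨v, hv, rfl⟩
      have hvZ : (v : G) ∈ Z := (hfixH v).1 (by
        rw [← hK3]; exact Subgroup.mem_sup_left hv)
      refine ⟨hvZ.1, fun g hg => ?_⟩
      refine gt hp hS hvZ.1 ?_ ?_ hg
      · intro s hs
        exact Subgroup.mem_centralizer_singleton_iff.2 (Subgroup.mem_centralizer_iff.1 hvZ.2 s hs)
      · intro n hn
        have h1 := congrArg Subtype.val (H33.mem_fixS.1 hv ⟨n, hn⟩ (Subgroup.mem_top _))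
        rw [hφ] at h1
        exact Subgroup.mem_centralizer_singleton_iff.2 (mul_inv_eq_iff_eq_mul.1 h1)
    · rintro ⟨hx, hw⟩
      have hxZ : x ∈ Z := by
        refine ⟨hx, Subgroup.mem_centralizer_iff.2 fun s hs => ?_⟩
        have := hw s (mul_mem (mul_mem hs hx) (inv_mem hs))
        exact mul_inv_eq_iff_eq_mul.1 this
      refine ⟨⟨x, hZM x hxZ⟩, H33.mem_fixS.2 fun n _ => ?_, rfl⟩
      apply Subtype.ext
      rw [hφ]
      exact hw _ (JJ_le _ (hMconj n n.2 x (hZM x hxZ)).1)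
  · rw [← hmapZ]; exact Subgroup.map_mono hK1
  · rw [← Subgroup.map_inf _ _ _ M.subtype_injective, hK2, Subgroup.map_bot]
  · rw [← Subgroup.map_sup, hK3, hmapZ]

/-- Let S be a Sylow p-subgroup of the finite group G, and assume that p is odd or that G is solvable. The elements of S each of which is its only G-conjugate in S form a subgroup W of Z(S); W is then a direct factor of Z(S): there is a subgroup K of Z(S) with W ∩ K = 1 and WK = Z(S). (For p = 2 and G not solvable this can fail.) -/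
theorem result {G : Type*} [Group G] [Finite G] {p : ℕ} [Fact p.Prime] (S : Sylow p G) (h : p ≠ 2 ∨ Group.IsSolvable G) :
    ∃ W K : Subgroup G, (∀ x : G, x ∈ W ↔ (x ∈ (S : Subgroup G) ∧ ∀ g : G, g * x * g⁻¹ ∈ (S : Subgroup G) → g * x * g⁻¹ = x)) ∧
      K ≤ ((S : Subgroup G) ⊓ Subgroup.centralizer ((S : Subgroup G) : Set G)) ∧ W ⊓ K = ⊥ ∧ W ⊔ K = ((S : Subgroup G) ⊓ Subgroup.centralizer ((S : Subgroup G) : Set G)) := by
  rcases h with h | h
  · exact odd_case S h
  · exact S1944.result S (solv_case S h)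

end Cfsg.Agent.S1945
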