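import Cfsg.Statements.S1947
import Cfsg.Agent.H33.SmallOrd

set_option autoImplicit false
open Cfsg

namespace Cfsg.Agent.S1947

/-- Let G be a finite group and p a prime. If every element of G of order dividing p (dividing 4 when p = 2) lies in some fixed term Z_n(G) of the upper central series, then G has a normal p-complement. -/
theorem result {G : Type*} [Group G] [Finite G] {p : ℕ} [Fact p.Prime] (n : ℕ)
    (h : ∀ a : G, (a ^ p = 1 ∨ (p = 2 ∧ a ^ 4 = 1)) → a ∈ Subgroup.upperCentralSeries G n) : Cfsg.HasNormalPComplement p G := by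
  have key : ∀ (Q : Subgroup G), IsPGroup p Q → ∀ g : G, (orderOf g).Coprime p →
      (∀ a ∈ Q, g * a * g⁻¹ ∈ Q) → ∀ i : ℕ, ∀ a ∈ Q, a ∈ Subgroup.upperCentralSeries G i →
        g * a * g⁻¹ = a := by
    intro Q hQ g hg hgQ i
    induction i with
    | zero =>
      intro a _ ha
      rw [Subgroup.upperCentralSeries_zero, Subgroup.mem_bot] at ha
      rw [ha]; simp
    | succ i ih =>
      intro a haQ ha
      have hcQ : a⁻¹ * (g * a * g⁻¹) ∈ Q := mul_mem (inv_mem haQ) (hgQ a haQ)
      apply H33.commute_of_commute_comm hQ hg hcQ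
      apply ih _ hcQ
      have h1 := (Subgroup.mem_upperCentralSeries_succ_iff.1 (inv_mem ha)) g
      have e : a⁻¹ * (g * a * g⁻¹) = a⁻¹ * g * a⁻¹⁻¹ * g⁻¹ := by group
      rw [e]; exact h1
  apply Transfer.hasNPC_of_frobenius
  intro Q hQ g hg hgc
  have hgQ : ∀ a ∈ Q, g * a * g⁻¹ ∈ Q := fun a ha => (Subgroup.mem_normalizer_iff.1 hg a).1 ha
  rw [Subgroup.mem_centralizer_iff]
  intro a ha
  have h1 := H33.centralize_of_small hgc _ Q rfl hQ hgQ
    (fun a ha hs => key Q hQ g hgc hgQ n a ha (h a hs)) a ha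
  rw [mul_inv_eq_iff_eq_mul] at h1
  exact h1.symm

end Cfsg.Agent.S1947
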