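import Cfsg.Statements.S1948
import Cfsg.Agent.H31.Goldschmidt
import Cfsg.Agent.H76.PSolvable
import Cfsg.Agent.H36.PConstr
import Cfsg.Agent.H33.Frattini

set_option autoImplicit false
open Cfsg

namespace Cfsg.Agent.S1948

/-- Let S be a Sylow p-subgroup of the finite group G. Then G = N_G(S)·O_{p'}(G) if and only if G is p-constrained and N_G(S) controls fusion in S, in the sense that whenever a subgroup Q of S has a conjugate g Q g⁻¹ inside S, the element g is a product n c with n normalizing S and c centralizing Q. -/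
theorem result {G : Type*} [Group G] [Finite G] {p : ℕ} [Fact p.Prime] (S : Sylow p G) :
    Subgroup.normalizer ((S : Subgroup G) : Set G) ⊔ Cfsg.pPrimeCore p G = ⊤ ↔
      (Cfsg.IsPConstrained p G ∧
        ∀ Q : Subgroup G, Q ≤ (S : Subgroup G) → ∀ g : G, Q.map (MulAut.conj g).toMonoidHom ≤ (S : Subgroup G) →
          ∃ n ∈ Subgroup.normalizer ((S : Subgroup G) : Set G), ∃ c ∈ Subgroup.centralizer (Q : Set G), g = n * c) := by
  have hNc : (Nat.card (Cfsg.pPrimeCore p G)).Coprime p := Solv.pPrimeCore_card_coprime p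
  have hN : (Cfsg.pPrimeCore p G).Normal := inferInstance
  have hMn : (Cfsg.pPrimePCore p G).Normal := H23.pPrimePCore_normal p G
  have hdisj : ∀ x ∈ Cfsg.pPrimeCore p G, x ∈ (S : Subgroup G) → x = 1 := by
    intro x hx hxS
    have h1 := Transfer.coprime_orderOf_of_coprime_card hNc hx
    obtain ⟨k, hk⟩ := (IsPGroup.iff_orderOf.1 S.2) ⟨x, hxS⟩
    rw [Subgroup.orderOf_mk] at hk
    rw [hk] at h1
    rw [← orderOf_eq_one_iff, hk]
    rcases Nat.eq_zero_or_pos k with h0 | h0
    · rw [h0, pow_zero]
    · exfalso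
      have := Nat.Coprime.coprime_dvd_left (dvd_pow_self p h0.ne') h1
      rw [Nat.coprime_self] at this
      exact (Fact.out : p.Prime).ne_one this
  constructor
  · intro h
    have hdec : ∀ g : G, ∃ n ∈ Subgroup.normalizer ((S : Subgroup G) : Set G), ∃ c ∈ Cfsg.pPrimeCore p G,
        g = n * c := by
      intro g
      have hg : g ∈ Subgroup.normalizer ((S : Subgroup G) : Set G) ⊔ Cfsg.pPrimeCore p G := by
        rw [h]; exact Subgroup.mem_top g
      obtain ⟨n, hn, c, hc, e⟩ := Subgroup.mem_sup_of_normal_right.1 hg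
      exact ⟨n, hn, c, hc, e.symm⟩
    constructor
    · rw [H36.PConstr.isPConstrained_iff]
      refine H76.centralizer_pCore_le ?_ (Solv.pPrimeCore_quotient_pPrimeCore p)
      set π := QuotientGroup.mk' (Cfsg.pPrimeCore p G) with hπ
      have hsn : ((S : Subgroup G).map π).Normal := by
        rw [← Subgroup.normalizer_eq_top_iff]
        rw [eq_top_iff]
        have h1 : (⊤ : Subgroup (G ⧸ Cfsg.pPrimeCore p G)) =
            (Subgroup.normalizer ((S : Subgroup G) : Set G)).map π := by
          have h2 := congrArg (Subgroup.map π) h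
          rw [Subgroup.map_sup, Subgroup.map_top_of_surjective π (QuotientGroup.mk'_surjective _)] at h2
          have h3 : (Cfsg.pPrimeCore p G).map π = ⊥ := by
            rw [Subgroup.map_eq_bot_iff, hπ, QuotientGroup.ker_mk']
          rw [h3, sup_bot_eq] at h2
          exact h2.symm
        rw [h1]
        exact Subgroup.le_normalizer_map π
      refine ⟨2, ![⊥, (S : Subgroup G).map π, ⊤], rfl, rfl, ?_, ?_, ?_⟩
      · intro i j hij
        fin_cases i <;> fin_cases j <;> simp at hij ⊢
      · intro i
        fin_cases i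
        · exact (inferInstance : (⊥ : Subgroup (G ⧸ Cfsg.pPrimeCore p G)).Normal)
        · exact hsn
        · exact (inferInstance : (⊤ : Subgroup (G ⧸ Cfsg.pPrimeCore p G)).Normal)
      · intro i
        fin_cases i
        · left
          have := IsPGroup.iff_card.1 (S.2.map π)
          obtain ⟨k, hk⟩ := this
          refine ⟨k, ?_⟩
          change (⊥ : Subgroup (G ⧸ Cfsg.pPrimeCore p G)).relIndex ((S : Subgroup G).map π) = _
          rw [Subgroup.relIndex_bot_left]; exact hk
        · right
          change ((S : Subgroup G).map π).relIndex ⊤ |>.Coprime p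
          rw [Subgroup.relIndex_top_right]
          refine Nat.Coprime.coprime_dvd_left ?_ (Transfer.coprime_index_sylow S)
          exact Subgroup.index_map_dvd _ (QuotientGroup.mk'_surjective _)
    · intro Q hQ g hg
      obtain ⟨n, hn, c, hc, rfl⟩ := hdec g
      refine ⟨n, hn, c, ?_, rfl⟩
      rw [Subgroup.mem_centralizer_iff]
      intro q hq
      have h1 : (n * c) * q * (n * c)⁻¹ ∈ (S : Subgroup G) := H33.cj_le_iff.1 hg q hq
      have h2 : c * q * c⁻¹ ∈ (S : Subgroup G) := by
        have := (Subgroup.mem_normalizer_iff''.1 hn) ((n * c) * q * (n * c)⁻¹)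
        have h3 := this.1 h1
        have e : n⁻¹ * (n * c * q * (n * c)⁻¹) * n = c * q * c⁻¹ := by group
        rw [e] at h3; exact h3
      have h3 : c * q * c⁻¹ * q⁻¹ = 1 := by
        apply hdisj
        · have := hN.conj_mem c⁻¹ (inv_mem hc) q
          have h4 := mul_mem hc this
          have e : c * (q * c⁻¹ * q⁻¹) = c * q * c⁻¹ * q⁻¹ := by group
          rw [e] at h4; exact h4
        · exact mul_mem h2 (inv_mem (hQ hq))
      have h4 : c * q * c⁻¹ = q := by rwa [mul_inv_eq_one] at h3
      rw [mul_inv_eq_iff_eq_mul] at h4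
      exact h4.symm
  · rintro ⟨hc, hf⟩
    set P := Transfer.sylowInf S (Cfsg.pPrimePCore p G) with hP
    have h1 := hc P
    rw [hP, Transfer.sylowInf_map] at h1
    rw [eq_top_iff]
    intro x _
    have hM : Cfsg.pPrimePCore p G ≤
        Subgroup.normalizer ((S : Subgroup G) : Set G) ⊔ Cfsg.pPrimeCore p G := by
      rw [H31.pPrimePCore_eq_sup S]
      apply sup_le le_sup_right
      exact (inf_le_left.trans Subgroup.le_normalizer).trans le_sup_left
    obtain ⟨n, hn, y, hy, hxy⟩ := H31.frattini_decomp S (Cfsg.pPrimePCore p G) x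
    have hle : ((S : Subgroup G) ⊓ Cfsg.pPrimePCore p G) ≤ (S : Subgroup G) := inf_le_left
    have h2 : y ∈ Subgroup.normalizer ((S : Subgroup G) : Set G) ⊔ Cfsg.pPrimeCore p G := by
      obtain ⟨m, hm, c, hc', rfl⟩ := hf _ hle y
        ((le_of_eq (H33.mem_norm_iff.1 hy)).trans inf_le_left)
      exact mul_mem (Subgroup.mem_sup_left hm) (hM (h1 hc'))
    rw [hxy]
    exact mul_mem (hM hn) h2

end Cfsg.Agent.S1948
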