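import Cfsg.Statements.S1949
import Cfsg.Agent.H33.CritD

set_option autoImplicit false
open Cfsg

namespace Cfsg.Agent.S1949

/-- Let P be a finite p-group and G a group of automorphisms of P containing the inner automorphisms. Then there is a G-invariant subgroup D of P, contained in the subgroup generated by the elements x⁻¹α(x) with x in P and α in O^p(G), of exponent dividing p when p is odd and dividing 4 when p = 2, with [D, P] ≤ Z(D), such that every automorphism in G of order prime to p that fixes D elementwise is the identity; moreover every maximal abelian subgroup A of D is normal in P and every automorphism in G fixing A elementwise has p-power order. -/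
theorem result {P : Type*} [Group P] [Finite P] {p : ℕ} [Fact p.Prime] (hP : IsPGroup p P)
    (G : Subgroup (MulAut P)) (hG : Cfsg.Inn P ≤ G) :
    ∃ D : Subgroup P,
      (∀ α ∈ G, D.map α.toMonoidHom = D) ∧
      D ≤ Subgroup.closure {y : P | ∃ α ∈ Cfsg.pResidual p ↥G, ∃ x : P, y = x⁻¹ * (α : MulAut P) x} ∧
      (∀ d ∈ D, d ^ p = 1 ∨ (p = 2 ∧ d ^ 4 = 1)) ∧
      ⁅D, (⊤ : Subgroup P)⁆ ≤ D ⊓ Subgroup.centralizer (D : Set P) ∧
      (∀ α ∈ G, (orderOf α).Coprime p → (∀ d ∈ D, α d = d) → α = 1) ∧
      ∀ A : Subgroup P, A ≤ D → IsMulCommutative ↥A →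
        (∀ B : Subgroup P, A ≤ B → B ≤ D → IsMulCommutative ↥B → B = A) →
        A.Normal ∧ ∀ α ∈ G, (∀ a ∈ A, α a = a) → ∃ k : ℕ, orderOf α = p ^ k := by
  classical
  obtain ⟨W, hWc, hWs, hWcom, hWf⟩ := H33.exists_omega hP
  have hWchar : ∀ (α : MulAut P) (x : P), x ∈ W → α x ∈ W := fun α x hx =>
    (Subgroup.characteristic_iff_le_comap.1 hWc α) hx
  haveI hRn : (Cfsg.pResidual p ↥G).Normal := inferInstance
  set s : Set P := {y : P | ∃ α ∈ Cfsg.pResidual p ↥G, ∃ x ∈ W, y = x⁻¹ * (α : MulAut P) x} with hs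
  set D : Subgroup P := Subgroup.closure s with hD
  have hmemD : ∀ α ∈ Cfsg.pResidual p ↥G, ∀ x ∈ W, x⁻¹ * (α : MulAut P) x ∈ D := fun α hα x hx =>
    Subgroup.subset_closure ⟨α, hα, x, hx, rfl⟩
  have hDW : D ≤ W := by
    rw [hD, Subgroup.closure_le]
    rintro y ⟨α, hα, x, hx, rfl⟩
    exact mul_mem (inv_mem hx) (hWchar _ _ hx)
  have hDinv : ∀ β ∈ G, ∀ d ∈ D, β d ∈ D := by
    intro β hβ d hd
    have h1 : D ≤ D.comap β.toMonoidHom := by
      rw [hD, Subgroup.closure_le]
      rintro y ⟨α, hα, x, hx, rfl⟩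
      change β (x⁻¹ * (α : MulAut P) x) ∈ D
      have h2 := hmemD _ (hRn.conj_mem α hα ⟨β, hβ⟩) (β x) (hWchar β x hx)
      have h3 : (((⟨β, hβ⟩ : ↥G) * α * (⟨β, hβ⟩ : ↥G)⁻¹ : ↥G) : MulAut P) (β x) = β ((α : MulAut P) x) := by
        change (β * (α : MulAut P) * β⁻¹) (β x) = _
        rw [MulAut.mul_apply, MulAut.mul_apply, MulAut.inv_apply_self]
      rw [h3] at h2
      rw [map_mul, map_inv]; exact h2
    exact h1 hd
  have hDn : D.Normal := by
    refine ⟨fun d hd g => ?_⟩
    exact hDinv (MulAut.conj g) (hG ⟨g, rfl⟩) d hd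
  have hDcom : ⁅D, (⊤ : Subgroup P)⁆ ≤ D ⊓ Subgroup.centralizer (D : Set P) := by
    apply le_inf
    · exact Subgroup.commutator_le_left D ⊤
    · exact (Subgroup.commutator_mono hDW le_rfl).trans (hWcom.trans (Subgroup.centralizer_le hDW))
  have hfaith : ∀ α ∈ G, (orderOf α).Coprime p → (∀ d ∈ D, α d = d) → α = 1 := by
    intro α hα hαp hfix
    apply hWf α hαp
    intro x hx
    apply Fus.fix_of_coprime hP α hαp
    apply hfix
    apply hmemD ⟨α, hα⟩ _ x hx
    apply Transfer.mem_pResidual_of_coprime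
    rwa [Subgroup.orderOf_mk]
  refine ⟨D, ?_, ?_, ?_, hDcom, hfaith, ?_⟩
  · intro α hα
    apply le_antisymm
    · rintro _ ⟨d, hd, rfl⟩
      exact hDinv α hα d hd
    · intro d hd
      exact ⟨α⁻¹ d, hDinv α⁻¹ (inv_mem hα) d hd, MulAut.apply_inv_self _ α d⟩
  · apply Subgroup.closure_mono
    rintro y ⟨α, hα, x, _, rfl⟩
    exact ⟨α, hα, x, rfl⟩
  · intro d hd
    exact hWs d (hDW hd)
  · intro A hAD hAc hAmax
    -- the centralizer of `A` in `D`
    have hcent : ∀ d ∈ D, d ∈ Subgroup.centralizer (A : Set P) → d ∈ A := by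
      intro d hd hdA
      have hAA : A ≤ Subgroup.centralizer (A : Set P) := Subgroup.le_centralizer_iff_isMulCommutative.2 hAc
      have h1 : A ⊔ Subgroup.zpowers d ≤ Subgroup.centralizer ((A ⊔ Subgroup.zpowers d : Subgroup P) : Set P) := by
        have hB : A ⊔ Subgroup.zpowers d ≤ Subgroup.centralizer (A : Set P) :=
          sup_le hAA (Subgroup.zpowers_le.2 hdA)
        apply sup_le
        · rw [Subgroup.le_centralizer_iff]; exact hB
        · rw [Subgroup.zpowers_le, Subgroup.mem_centralizer_iff]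
          have h2 : A ⊔ Subgroup.zpowers d ≤ Subgroup.centralizer ({d} : Set P) := by
            apply sup_le
            · intro a ha
              rw [Subgroup.mem_centralizer_singleton_iff]
              exact (Subgroup.mem_centralizer_iff.1 hdA a ha)
            · rw [Subgroup.zpowers_le, Subgroup.mem_centralizer_singleton_iff]
          intro a ha
          exact (Subgroup.mem_centralizer_singleton_iff.1 (h2 ha))
      have h2 := hAmax (A ⊔ Subgroup.zpowers d) le_sup_left (sup_le hAD (Subgroup.zpowers_le.2 hd))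
        (Subgroup.le_centralizer_iff_isMulCommutative.1 h1)
      rw [← h2]
      exact Subgroup.mem_sup_right (Subgroup.mem_zpowers d)
    have hZ : D ⊓ Subgroup.centralizer (D : Set P) ≤ A := fun z hz =>
      hcent z hz.1 (Subgroup.centralizer_le hAD hz.2)
    have hAn : A.Normal := by
      refine ⟨fun a ha g => ?_⟩
      have h1 : a * g * a⁻¹ * g⁻¹ ∈ A := by
        have h3 := hZ (hDcom (Subgroup.commutator_mem_commutator (hAD ha) (Subgroup.mem_top g)))
        rwa [commutatorElement_def] at h3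
      have h2 : g * a * g⁻¹ = (a * g * a⁻¹ * g⁻¹)⁻¹ * a := by group
      rw [h2]; exact mul_mem (inv_mem h1) ha
    refine ⟨hAn, ?_⟩
    intro α hα hfix
    obtain ⟨k, m, hm, hkm⟩ := Nat.exists_eq_pow_mul_and_not_dvd (orderOf_pos α).ne' p (Fact.out : p.Prime).ne_one
    refine ⟨k, ?_⟩
    set β := α ^ p ^ k with hβ
    have hβo : orderOf β = m := by
      rw [hβ, orderOf_pow, hkm, Nat.gcd_eq_right (dvd_mul_right _ _)]
      exact Nat.mul_div_cancel_left m (pow_pos (Fact.out : p.Prime).pos k)
    have hβp : (orderOf β).Coprime p := by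
      rw [hβo]; exact ((Nat.Prime.coprime_iff_not_dvd Fact.out).2 hm).symm
    have hβG : β ∈ G := pow_mem hα _
    have hβA : ∀ a ∈ A, β a = a := by
      have : ∀ n : ℕ, ∀ a ∈ A, (α ^ n) a = a := by
        intro n
        induction n with
        | zero => intro a _; simp
        | succ n ih =>
          intro a ha
          rw [pow_succ, MulAut.mul_apply, hfix a ha, ih a ha]
      exact this _
    have hβ1 : β = 1 := by
      apply hfaith β hβG hβp
      intro d hd
      apply Fus.fix_of_coprime hP β hβp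
      apply hβA
      apply hcent _ (mul_mem (inv_mem hd) (hDinv β hβG d hd))
      rw [Subgroup.mem_centralizer_iff]
      intro a ha
      have h1 := hβA _ (hAn.conj_mem a ha d)
      rw [map_mul, map_mul, map_inv, hβA a ha] at h1
      calc a * (d⁻¹ * β d) = d⁻¹ * (d * a * d⁻¹) * β d := by group
        _ = d⁻¹ * (β d * a * (β d)⁻¹) * β d := by rw [h1]
        _ = _ := by group
    rw [hβ1, orderOf_one] at hβo
    rw [hkm, ← hβo, mul_one]

end Cfsg.Agent.S1949
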