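import Cfsg.Statements.S1951
import Cfsg.Agent.H33.OneClass

set_option autoImplicit false
open Cfsg

namespace Cfsg.Agent.S1951

/-- Let p be a prime and P a nontrivial elementary abelian Sylow p-subgroup of a finite nonabelian simple group G whose nonidentity elements are all conjugate in G. Suppose that two elements of P are conjugate in G only if they are conjugate in N_G(P), that the centralizer of every element of order p of P has a normal p-complement, and that every two elements of order p of G generate a p-solvable subgroup. Then p = 2. -/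
theorem result {G : Type*} [Group G] [Finite G] [IsSimpleGroup G] (hG : ¬ IsMulCommutative G) {p : ℕ} [Fact p.Prime] (P : Sylow p G)
    (hP1 : (P : Subgroup G) ≠ ⊥) (hPe : Cfsg.IsElementaryAbelian p (P : Subgroup G))
    (hconj : ∀ x ∈ (P : Subgroup G), ∀ y ∈ (P : Subgroup G), x ≠ 1 → y ≠ 1 → ∃ g : G, g * x * g⁻¹ = y)
    (ha : ∀ x ∈ (P : Subgroup G), ∀ y ∈ (P : Subgroup G), (∃ g : G, g * x * g⁻¹ = y) →
      ∃ n ∈ Subgroup.normalizer ((P : Subgroup G) : Set G), n * x * n⁻¹ = y)
    (hb : ∀ x ∈ (P : Subgroup G), orderOf x = p → Cfsg.HasNormalPComplement p ↥(Subgroup.centralizer ({x} : Set G)))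
    (hc : ∀ x y : G, orderOf x = p → orderOf y = p → Cfsg.IsPSolvable p ↥(Subgroup.closure ({x, y} : Set G))) :
    p = 2 := by
  by_contra hp2
  rename_i _ _ _ hp
  have hxe : ∃ x ∈ (P : Subgroup G), x ≠ 1 := by
    by_contra hcon
    push Not at hcon
    exact hP1 ((Subgroup.eq_bot_iff_forall _).2 hcon)
  obtain ⟨x, hxP, hx1⟩ := hxe
  have hx : orderOf x = p := orderOf_eq_prime (hPe.2 x hxP) hx1
  have hmem : ∀ y : G, orderOf y = p → ∃ g : G, g * y * g⁻¹ ∈ (P : Subgroup G) := by
    intro y hy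
    obtain ⟨S, hS⟩ := H33.exists_sylow_of_pow (p := p) (z := y) (k := 1)
      (by rw [pow_one, ← hy]; exact pow_orderOf_eq_one y)
    obtain ⟨g, hg⟩ := MulAction.exists_smul_eq G S P
    exact ⟨g, by rw [← hg]; exact ⟨y, hS, by simp⟩⟩
  have hcj : ∀ y : G, orderOf y = p → IsConj x y := by
    intro y hy
    obtain ⟨g, hg⟩ := hmem y hy
    have hy1 : g * y * g⁻¹ ≠ 1 := by
      rw [Ne, conj_eq_one_iff]
      rintro rfl
      rw [orderOf_one] at hy
      exact hp.out.one_lt.ne hy
    obtain ⟨h, hh⟩ := hconj x hxP _ hg hx1 hy1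
    rw [isConj_iff]
    refine ⟨g⁻¹ * h, ?_⟩
    have : g⁻¹ * h * x * (g⁻¹ * h)⁻¹ = g⁻¹ * (h * x * h⁻¹) * g := by group
    rw [this, hh]; group
  have hC : ∃ k, (Cfsg.pPrimeCore p (Subgroup.centralizer ({x} : Set G))).index = p ^ k := by
    obtain ⟨N, hN, hcop, k, hk⟩ := Transfer.hasNPC_iff_exists.1 (hb x hxP hx)
    have hle : N ≤ Cfsg.pPrimeCore p (Subgroup.centralizer ({x} : Set G)) :=
      Solv.le_pPrimeCore hN hcop
    have h1 := Subgroup.index_dvd_of_le hle
    rw [hk] at h1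
    obtain ⟨j, -, hj⟩ := (Nat.dvd_prime_pow hp.out).1 h1
    exact ⟨j, hj⟩
  have hPab : ∀ a ∈ (P : Subgroup G), ∀ b ∈ (P : Subgroup G), a * b = b * a := by
    intro a ha' b hb'
    have := hPe.1.is_comm.comm (⟨a, ha'⟩ : (P : Subgroup G)) ⟨b, hb'⟩
    exact congrArg Subtype.val this
  exact H33.one_class_false hp2 P hPab hPe.2 hxP hx hcj hC (fun y hy => hc x y hx hy)

end Cfsg.Agent.S1951
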