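import Cfsg.Statements.S1954
import Cfsg.Agent.ZJ.NormLift

set_option autoImplicit false
open Cfsg

namespace Cfsg.Agent.S1954

/-- Let N be a normal subgroup of the finite group G, P a Sylow p-subgroup of G, and V a subgroup of P ∩ N normal in P ∩ N such that N_N(V) controls strong fusion in P ∩ N with respect to N (whenever a subgroup A of P ∩ N has n A n⁻¹ ≤ P ∩ N for some n in N, then n = h c with h in N_N(V) and c in C_N(A)). Let W be the subgroup generated by the conjugates of V under N_G(P ∩ N). Then N_G(W) controls strong fusion in P with respect to G. -/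
theorem result {G : Type*} [Group G] [Finite G] {p : ℕ} [Fact p.Prime] (N : Subgroup G) [N.Normal] (P : Sylow p G) (V : Subgroup G)
    (hV : V ≤ (P : Subgroup G) ⊓ N) (hVn : ∀ x ∈ (P : Subgroup G) ⊓ N, V.map (MulAut.conj x).toMonoidHom = V)
    (hctrl : ∀ A : Subgroup G, A ≤ (P : Subgroup G) ⊓ N → ∀ n ∈ N, A.map (MulAut.conj n).toMonoidHom ≤ (P : Subgroup G) ⊓ N →
      ∃ h ∈ N ⊓ Subgroup.normalizer (V : Set G), ∃ c ∈ N ⊓ Subgroup.centralizer (A : Set G), n = h * c)
    (W : Subgroup G) (hW : W = Subgroup.closure (⋃ x ∈ Subgroup.normalizer (((P : Subgroup G) ⊓ N : Subgroup G) : Set G),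
      ((V.map (MulAut.conj x).toMonoidHom : Subgroup G) : Set G))) :
    ∀ A : Subgroup G, A ≤ (P : Subgroup G) → ∀ g : G, A.map (MulAut.conj g).toMonoidHom ≤ (P : Subgroup G) →
        ∃ h ∈ Subgroup.normalizer (W : Set G), ∃ c ∈ Subgroup.centralizer (A : Set G), g = h * c := by
  have hNn : N.Normal := inferInstance
  have hWn : Subgroup.normalizer (((P : Subgroup G) ⊓ N : Subgroup G) : Set G) ≤ Subgroup.normalizer (W : Set G) := by
    intro g hg
    apply H33.mem_norm_of_le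
    rw [hW, H33.cj_closure, Subgroup.closure_le]
    rintro _ ⟨v, hv, rfl⟩
    rw [Set.mem_iUnion₂] at hv
    obtain ⟨x, hx, hv⟩ := hv
    apply Subgroup.subset_closure
    rw [Set.mem_iUnion₂]
    refine ⟨g * x, mul_mem hg hx, ?_⟩
    show g * v * g⁻¹ ∈ H33.cj (g * x) V
    rw [H33.cj_mul]
    exact H33.conj_mem_cj hv
  intro A hA g hg
  refine ZJ.NL.main N P W hWn ?_ A hA g hg
  classical
  have : Fintype G := Fintype.ofFinite G
  intro A hA n hn hnA
  obtain ⟨F, hF⟩ : ∃ F : Finset (Subgroup G), ∀ V', V' ∈ F ↔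
      ∃ x ∈ Subgroup.normalizer (((P : Subgroup G) ⊓ N : Subgroup G) : Set G), V' = H33.cj x V := by
    refine ⟨(Finset.univ.filter (fun x => x ∈ Subgroup.normalizer (((P : Subgroup G) ⊓ N : Subgroup G) : Set G))).image
      (fun x => H33.cj x V), ?_⟩
    intro V'
    simp only [Finset.mem_image, Finset.mem_filter, Finset.mem_univ, true_and]
    constructor
    · rintro ⟨x, hx, rfl⟩; exact ⟨x, hx, rfl⟩
    · rintro ⟨x, hx, rfl⟩; exact ⟨x, hx, rfl⟩
  obtain ⟨h, hh, hhF, c, hc, hhc⟩ := ZJ.NL.iterate N ((P : Subgroup G) ⊓ N) F (by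
    intro V' hV'
    obtain ⟨x, hx, rfl⟩ := (hF V').1 hV'
    have hxR := H33.mem_norm_iff.1 hx
    have hxR' := H33.mem_norm_iff.1 (inv_mem hx)
    refine ⟨?_, ?_, ?_⟩
    · have := H33.cj_mono (g := x) hV
      rwa [hxR] at this
    · intro y hy
      rw [← H33.cj_normalizer, H33.mem_cj]
      apply H33.mem_norm_iff.2
      apply hVn
      rw [← H33.mem_cj, hxR]
      exact hy
    · intro A hA n hn hnA
      have h1 : H33.cj x⁻¹ A ≤ (P : Subgroup G) ⊓ N := by
        have := H33.cj_mono (g := x⁻¹) hA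
        rwa [hxR'] at this
      have h2 : H33.cj (x⁻¹ * n * x) (H33.cj x⁻¹ A) ≤ (P : Subgroup G) ⊓ N := by
        have := H33.cj_mono (g := x⁻¹) hnA
        rw [hxR', ← H33.cj_mul] at this
        rw [← H33.cj_mul]
        have e : x⁻¹ * n * x * x⁻¹ = x⁻¹ * n := by group
        rwa [e]
      obtain ⟨h, hh, c, hc, hhc⟩ := hctrl (H33.cj x⁻¹ A) h1 (x⁻¹ * n * x) (by
        have := hNn.conj_mem n hn x⁻¹
        rwa [inv_inv] at this) h2
      refine ⟨x * h * x⁻¹, ⟨hNn.conj_mem h hh.1 x, ?_⟩, x * c * x⁻¹, ⟨hNn.conj_mem c hc.1 x, ?_⟩, ?_⟩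
      · show x * h * x⁻¹ ∈ Subgroup.normalizer ((H33.cj x V : Subgroup G) : Set G)
        rw [← H33.cj_normalizer]
        exact H33.conj_mem_cj hh.2
      · have h3 : x * c * x⁻¹ ∈ H33.cj x (Subgroup.centralizer ((H33.cj x⁻¹ A : Subgroup G) : Set G)) :=
          H33.conj_mem_cj hc.2
        rw [H33.cj_centralizer, H33.cj_cj_inv] at h3
        exact h3
      · have : n = x * (x⁻¹ * n * x) * x⁻¹ := by group
        rw [this, hhc]; group) A hA n hn hnA
  refine ⟨h, ⟨hh, ?_⟩, c, hc, hhc⟩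
  apply H33.mem_norm_of_le
  rw [hW, H33.cj_closure, Subgroup.closure_le]
  rintro _ ⟨v, hv, rfl⟩
  rw [Set.mem_iUnion₂] at hv
  obtain ⟨x, hx, hv⟩ := hv
  apply Subgroup.subset_closure
  rw [Set.mem_iUnion₂]
  refine ⟨x, hx, ?_⟩
  have h1 := H33.mem_norm_iff.1 (hhF (H33.cj x V) ((hF _).2 ⟨x, hx, rfl⟩))
  have h2 : h * v * h⁻¹ ∈ H33.cj h (H33.cj x V) := H33.conj_mem_cj hv
  rw [h1] at h2
  exact h2

end Cfsg.Agent.S1954
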