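import Cfsg.Statements.S1956
import Cfsg.Agent.H33.Base

set_option autoImplicit false
open Cfsg

namespace Cfsg.Agent.S1956

open Cfsg.Agent.H33 in
/-- Let P be a Sylow p-subgroup of the finite group G such that every element of P of order dividing p (dividing 4 when p = 2) is central in P. Then the fusion of these elements is controlled by N_G(P): if such an element a of P has g a g⁻¹ in P, then g = n c with n normalizing P and c commuting with a. -/
theorem result {G : Type*} [Group G] [Finite G] {p : ℕ} [Fact p.Prime] (P : Sylow p G)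
    (hcen : ∀ a ∈ (P : Subgroup G), (a ^ p = 1 ∨ (p = 2 ∧ a ^ 4 = 1)) → ∀ y ∈ (P : Subgroup G), a * y = y * a) :
    ∀ a ∈ (P : Subgroup G), (a ^ p = 1 ∨ (p = 2 ∧ a ^ 4 = 1)) → ∀ g : G, g * a * g⁻¹ ∈ (P : Subgroup G) →
      ∃ n ∈ Subgroup.normalizer ((P : Subgroup G) : Set G), ∃ c : G, c * a = a * c ∧ g = n * c := by
  intro a ha hap g hg
  have hb : (g * a * g⁻¹) ^ p = 1 ∨ (p = 2 ∧ (g * a * g⁻¹) ^ 4 = 1) := by
    rcases hap with h | ⟨h1, h2⟩
    · left; rw [conj_pow, h]; simp
    · right; exact ⟨h1, by rw [conj_pow, h2]; simp⟩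
  set b := g * a * g⁻¹ with hbdef
  -- both `P` and `g P g⁻¹` centralize `b`
  have h1 : (P : Subgroup G) ≤ Subgroup.centralizer ({b} : Set G) := by
    intro y hy
    rw [Subgroup.mem_centralizer_singleton_iff]
    exact (hcen b hg hb y hy).symm
  have h2 : cj g (P : Subgroup G) ≤ Subgroup.centralizer ({b} : Set G) := by
    rw [cj_le_iff]
    intro y hy
    rw [Subgroup.mem_centralizer_singleton_iff]
    have := hcen a ha hap y hy
    calc g * y * g⁻¹ * b = g * (y * a) * g⁻¹ := by rw [hbdef]; group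
      _ = g * (a * y) * g⁻¹ := by rw [this]
      _ = b * (g * y * g⁻¹) := by rw [hbdef]; group
  have hP1 : IsSyl p (P : Subgroup G) (Subgroup.centralizer ({b} : Set G)) :=
    (isSyl_top P).mono h1 le_top
  obtain ⟨c, hc, hcP⟩ := hP1.conj_le h2 (isPGroup_cj P.2)
  rw [← cj_mul] at hcP
  have hn : c * g ∈ Subgroup.normalizer ((P : Subgroup G) : Set G) := mem_norm_of_le hcP
  rw [Subgroup.mem_centralizer_singleton_iff] at hc
  refine ⟨c * g, hn, (c * g)⁻¹ * g, ?_, by group⟩
  have hc' : c⁻¹ * b = b * c⁻¹ := by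
    have := congrArg (fun z => c⁻¹ * z * c⁻¹) hc
    simpa [mul_assoc] using this.symm
  have : a = g⁻¹ * b * g := by rw [hbdef]; group
  calc (c * g)⁻¹ * g * a = g⁻¹ * (c⁻¹ * b) * g := by rw [hbdef]; group
    _ = g⁻¹ * (b * c⁻¹) * g := by rw [hc']
    _ = a * ((c * g)⁻¹ * g) := by rw [hbdef]; group

end Cfsg.Agent.S1956
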