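import Cfsg.Statements.S2001
import Cfsg.Agent.H33.Frattini
import Cfsg.Agent.H33.TransferLG

set_option autoImplicit false
open Cfsg

namespace Cfsg.Agent.S2001

/-- Let p be a prime dividing the order of the finite group G, P a Sylow p-subgroup, W a conjugacy functor for p on G with Z(H) ≤ W(H) for every nontrivial p-subgroup H, and V a central functor: a conjugacy functor with V(H) ≤ Z(H), and V(H) ≤ V(K) whenever Z(H) ≤ Z(K), for nontrivial p-subgroups H, K. Say that W with V controls transfer in a subgroup L when some Sylow p-subgroup Q of L satisfies Q ∩ L' = (Q ∩ (N_L(W(Q)))')·(Q ∩ (C_L(V(Q)))') as a product of two subgroups. If W with V controls transfer in N_G(H) for every subgroup H with Z(P) ≤ H ≤ P, then W with V controls transfer in G. -/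
theorem result {G : Type*} [Group G] [Finite G] {p : ℕ} [Fact p.Prime] (hdiv : p ∣ Nat.card G) (P : Sylow p G) (W V : Subgroup G → Subgroup G) (hW : Cfsg.IsConjugacyFunctor p W) (hV : Cfsg.IsConjugacyFunctor p V) (hWZ : ∀ H : Subgroup G, IsPGroup p ↥H → H ⊓ Subgroup.centralizer ((H : Subgroup G) : Set G) ≤ W H) (hVZ : ∀ H : Subgroup G, IsPGroup p ↥H → V H ≤ H ⊓ Subgroup.centralizer ((H : Subgroup G) : Set G)) (hVmono : ∀ H K : Subgroup G, IsPGroup p ↥H → IsPGroup p ↥K → H ≠ ⊥ → K ≠ ⊥ → H ⊓ Subgroup.centralizer ((H : Subgroup G) : Set G) ≤ K ⊓ Subgroup.centralizer ((K : Subgroup G) : Set G) → V H ≤ V K) (hloc : ∀ H : Subgroup G, (P : Subgroup G) ⊓ Subgroup.centralizer (((P : Subgroup G) : Subgroup G) : Set G) ≤ H → H ≤ (P : Subgroup G) → ∃ Q : Subgroup G, Q ≤ Subgroup.normalizer ((H : Subgroup G) : Set G) ∧ IsPGroup p ↥Q ∧ ¬ p ∣ (Q).relIndex (Subgroup.normalizer ((H : Subgroup G) : Set G)) ∧ ∀ x : G, x ∈ Q ⊓ ⁅Subgroup.normalizer ((H : Subgroup G) : Set G), Subgroup.normalizer ((H : Subgroup G) : Set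 G)⁆ ↔ ∃ a ∈ Q ⊓ ⁅Subgroup.normalizer ((H : Subgroup G) : Set G) ⊓ Subgroup.normalizer ((W Q : Subgroup G) : Set G), Subgroup.normalizer ((H : Subgroup G) : Set G) ⊓ Subgroup.normalizer ((W Q : Subgroup G) : Set G)⁆, ∃ b ∈ Q ⊓ ⁅Subgroup.normalizer ((H : Subgroup G) : Set G) ⊓ Subgroup.centralizer ((V Q : Subgroup G) : Set G), Subgroup.normalizer ((H : Subgroup G) : Set G) ⊓ Subgroup.centralizer ((V Q : Subgroup G) : Set G)⁆, x = a * b) : ∃ Q : Subgroup G, IsPGroup p ↥Q ∧ ¬ p ∣ Q.index ∧ ∀ x : G, x ∈ Q ⊓ commutator G ↔ ∃ a ∈ Q ⊓ ⁅Subgroup.normalizer ((W Q : Subgroup G) : Set G), Subgroup.normalizer ((W Q : Subgroup G) : Set G)⁆, ∃ b ∈ Q ⊓ ⁅Subgroup.centralizer ((V Q : Subgroup G) : Set G), Subgroup.centralizer ((V Q : Subgroup G) : Set G)⁆, x = a * b := by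
  classical
  -- notation
  set Z : Subgroup G := (P : Subgroup G) ⊓ Subgroup.centralizer (((P : Subgroup G) : Subgroup G) : Set G) with hZdef
  have hPne : (P : Subgroup G) ≠ ⊥ := by
    intro h0
    have h1 := P.not_dvd_index
    have h2 := Subgroup.card_mul_index (P : Subgroup G)
    rw [h0, Subgroup.card_bot, one_mul] at h2
    rw [h0, h2] at h1
    exact h1 hdiv
  have hZne : Z ≠ ⊥ := H33.center_ne_bot P.2 hPne
  set E : Subgroup G := ((P : Subgroup G) ⊓ ⁅Subgroup.normalizer ((W (P : Subgroup G) : Subgroup G) : Set G),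
    Subgroup.normalizer ((W (P : Subgroup G) : Subgroup G) : Set G)⁆) ⊔
    ((P : Subgroup G) ⊓ ⁅Subgroup.centralizer ((V (P : Subgroup G) : Subgroup G) : Set G),
    Subgroup.centralizer ((V (P : Subgroup G) : Subgroup G) : Set G)⁆) with hE
  have h𝓦 : ∀ W' ∈ ({W} : Set (Subgroup G → Subgroup G)), IsConjugacyFunctor p W' := by
    rintro W' rfl; exact hW
  have key : (P : Subgroup G) ⊓ ⁅(⊤ : Subgroup G), ⊤⁆ ≤ E := by
    refine H33.transfer_local_global P E {W} h𝓦 ?_ {T | Z ≤ T}
      {U | H33.IsSyl p (H33.nS (P : Subgroup G) U) (Subgroup.normalizer ((U : Subgroup G) : Set G)) ∧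
      ((P : Subgroup G) ⊓ ⁅Subgroup.normalizer ((U : Subgroup G) : Set G),
        Subgroup.normalizer ((U : Subgroup G) : Set G)⁆ ≤
        (⨆ W' ∈ ({W} : Set (Subgroup G → Subgroup G)), (P : Subgroup G) ⊓
          ⁅Subgroup.normalizer ((W' (H33.nS (P : Subgroup G) U) : Subgroup G) : Set G),
          Subgroup.normalizer ((W' (H33.nS (P : Subgroup G) U) : Subgroup G) : Set G)⁆) ⊔ E) ∧
      (H33.nS (P : Subgroup G) U ≠ P → ∀ W' ∈ ({W} : Set (Subgroup G → Subgroup G)),
        W' (H33.nS (P : Subgroup G) U) ∈ ({T | Z ≤ T} : Set (Subgroup G)))} ?_ ?_ ?_ ?_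
    · rintro W' rfl
      exact le_sup_left
    · intro T hT hTP
      have hT' : Z ≤ T := hT
      obtain ⟨a, ha1, ha2⟩ := H33.domain_fullyNormalized P T
      refine ⟨a, ha1, ha2, ?_, ?_⟩
      · obtain ⟨Q, hQ1, hQ2, hQ3, hQ4⟩ := hloc T hT' hTP
        have hQ : H33.IsSyl p Q (Subgroup.normalizer ((T : Subgroup G) : Set G)) := ⟨hQ1, hQ2, hQ3⟩
        have hQa := hQ.conj a
        rw [H33.cj_normalizer] at hQa
        obtain ⟨x, hx, hxQ⟩ := ha2.conj_eq hQa
        set U := H33.cj a T with hU
        set R := H33.nS (P : Subgroup G) U with hR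
        have hRp : IsPGroup p R := H33.isPGroup_nS P.2
        set g := x * a with hg
        have hgQ : H33.cj g Q = R := by rw [hg, H33.cj_mul]; exact hxQ
        have hgT : H33.cj g T = U := by rw [hg, H33.cj_mul]; exact H33.mem_norm_iff.1 hx
        have hgN : H33.cj g (Subgroup.normalizer ((T : Subgroup G) : Set G)) =
            Subgroup.normalizer ((U : Subgroup G) : Set G) := by rw [H33.cj_normalizer, hgT]
        have hWR : H33.cj g (W Q) = W R := by rw [← hgQ]; exact (H33.cf_cj hW hQ2 g).symm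
        have hVR : H33.cj g (V Q) = V R := by rw [← hgQ]; exact (H33.cf_cj hV hQ2 g).symm
        -- Z ≤ Z(R)
        have hUP : U ≤ (P : Subgroup G) :=
          (H33.cj_mono (le_inf hTP Subgroup.le_normalizer)).trans ha1
        have hZR : Z ≤ R ⊓ Subgroup.centralizer ((R : Subgroup G) : Set G) := by
          have h1 : Z ≤ Subgroup.centralizer ((R : Subgroup G) : Set G) :=
            inf_le_right.trans (Subgroup.centralizer_le (inf_le_left : R ≤ (P : Subgroup G)))
          refine le_inf (le_inf inf_le_left ?_) h1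
          exact (inf_le_right.trans (Subgroup.centralizer_le hUP)).trans (H33.cent_le_norm' U)
        have hRne : R ≠ ⊥ := by
          intro h0
          apply hZne
          rw [← le_bot_iff, ← h0]
          exact hZR.trans inf_le_left
        have hVle : V (P : Subgroup G) ≤ V R := hVmono _ _ P.2 hRp hPne hRne hZR
        intro z hz
        have hzR : z ∈ R := ⟨hz.1, Subgroup.commutator_le_self _ hz.2⟩
        have hz' : g⁻¹ * z * g ∈ Q ⊓ ⁅Subgroup.normalizer ((T : Subgroup G) : Set G),
            Subgroup.normalizer ((T : Subgroup G) : Set G)⁆ := by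
          refine ⟨H33.mem_cj.1 (by rw [hgQ]; exact hzR), ?_⟩
          refine H33.mem_cj.1 ?_
          rw [H33.cj_comm, hgN]; exact hz.2
        obtain ⟨u, hu, v, hv, huv⟩ := (hQ4 _).1 hz'
        have hz2 : z = (g * u * g⁻¹) * (g * v * g⁻¹) := by
          have : g * (g⁻¹ * z * g) * g⁻¹ = g * (u * v) * g⁻¹ := by rw [huv]
          have e1 : g * (g⁻¹ * z * g) * g⁻¹ = z := by group
          rw [e1] at this
          rw [this]; group
        rw [hz2]
        refine Subgroup.mul_mem _ ?_ ?_
        · refine Subgroup.mem_sup_left ?_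
          rw [iSup_singleton]
          have h3 := H33.conj_mem_cj (g := g) hu
          rw [H33.cj_inf, hgQ, H33.cj_comm, H33.cj_inf, H33.cj_normalizer, H33.cj_normalizer, hWR] at h3
          exact ⟨h3.1.1, Subgroup.commutator_mono inf_le_right inf_le_right h3.2⟩
        · refine Subgroup.mem_sup_right ?_
          refine Subgroup.mem_sup_right ?_
          have h3 := H33.conj_mem_cj (g := g) hv
          rw [H33.cj_inf, hgQ, H33.cj_comm, H33.cj_inf, H33.cj_centralizer, hVR] at h3
          refine ⟨h3.1.1, Subgroup.commutator_mono ?_ ?_ h3.2⟩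
          · exact inf_le_right.trans (Subgroup.centralizer_le hVle)
          · exact inf_le_right.trans (Subgroup.centralizer_le hVle)
      · intro _ W' hW'
        rw [Set.mem_singleton_iff] at hW'
        subst hW'
        show Z ≤ _
        have hUP : H33.cj a T ≤ (P : Subgroup G) :=
          (H33.cj_mono (le_inf hTP Subgroup.le_normalizer)).trans ha1
        have hZR : Z ≤ H33.nS (P : Subgroup G) (H33.cj a T) ⊓
            Subgroup.centralizer ((H33.nS (P : Subgroup G) (H33.cj a T) : Subgroup G) : Set G) := by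
          refine le_inf (le_inf inf_le_left ?_) ?_
          · exact (inf_le_right.trans (Subgroup.centralizer_le hUP)).trans (H33.cent_le_norm' _)
          · exact inf_le_right.trans (Subgroup.centralizer_le
              (inf_le_left : H33.nS (P : Subgroup G) (H33.cj a T) ≤ (P : Subgroup G)))
        exact hZR.trans (hWZ _ (H33.isPGroup_nS P.2))
    · rintro U ⟨h1, h2, h3⟩ _
      exact ⟨h1, h2, h3⟩
    · left
      exact (inf_le_left : Z ≤ (P : Subgroup G))
    · intro U hU hUC hUs IH y hy
      obtain ⟨c, hc, hcy⟩ := H33.cent_factor hUs hy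
      set B := U ⊔ ((P : Subgroup G) ⊓ Subgroup.centralizer (U : Set G)) with hB
      have hBP : B ≤ (P : Subgroup G) := sup_le hU.le inf_le_left
      have hUB : U < B := by
        refine lt_of_le_of_ne le_sup_left ?_
        intro he
        apply hUC
        show Z ≤ U
        rw [he]
        refine le_trans ?_ le_sup_right
        exact le_inf inf_le_left (inf_le_right.trans (Subgroup.centralizer_le hU.le))
      have h1 := IH B hBP (H33.card_lt_card_of_lt hUB) (c * y) (by
        rw [H33.mem_norm_iff.1 hcy]; exact hBP)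
      have h2 := h1.mono hUB.le
      have h3 : H33.Tr E (H33.cj (c * y) U) c⁻¹ := by
        have h4 : H33.cj (c * y) U = U := by
          rw [H33.cj_mul, H33.mem_norm_iff.1 hy]
          exact H33.mem_norm_iff.1 (H33.cent_le_norm' U hc)
        rw [h4]
        refine H33.Tr.of_fix (fun u hu => ?_)
        have := (Subgroup.mem_centralizer_iff.1 (Subgroup.inv_mem _ hc)) u hu
        rw [← this]; group
      have h4 := h2.comp h3
      have e : c⁻¹ * (c * y) = y := by group
      rwa [e] at h4
  refine ⟨(P : Subgroup G), P.2, P.not_dvd_index, ?_⟩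
  intro x
  rw [← H33.mem_sup_right_norm (H := (P : Subgroup G) ⊓
    ⁅Subgroup.normalizer ((W (P : Subgroup G) : Subgroup G) : Set G),
    Subgroup.normalizer ((W (P : Subgroup G) : Subgroup G) : Set G)⁆)]
  · constructor
    · intro hx
      exact key hx
    · intro hx
      refine (show E ≤ _ from ?_) hx
      refine sup_le (inf_le_inf_left _ ?_) (inf_le_inf_left _ ?_)
      · exact Subgroup.commutator_mono le_top le_top
      · exact Subgroup.commutator_mono le_top le_top
  · refine inf_le_left.trans ?_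
    intro y hy
    have h1 : H33.cj y (V (P : Subgroup G)) = V (P : Subgroup G) := by
      rw [← H33.cf_cj hV P.2]
      rw [H33.mem_norm_iff.1 (Subgroup.le_normalizer hy)]
    rw [H33.mem_norm_iff, H33.cj_inf, H33.cj_comm, H33.cj_centralizer, h1,
      H33.mem_norm_iff.1 (Subgroup.le_normalizer hy)]

end Cfsg.Agent.S2001
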