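import Cfsg.Statements.S2132
import Cfsg.Agent.H89.McLInst

set_option autoImplicit false
open Cfsg

namespace Cfsg.Agent.S2132

/-- transport of the context along an isomorphism -/
theorem transport {G H : Type*} [Group G] [Group H] (e : G ≃* H) {g : ℕ → G} {ρ : G →* Equiv.Perm (Fin 275)}
    (M : H89.McLC.MC g ρ) : H89.McLC.MC (fun x => e (g x)) (ρ.comp e.symm.toMonoidHom) where
  act x i := by
    have h : (ρ.comp e.symm.toMonoidHom) (e (g x)) = ρ (g x) := by simp
    rw [h]
    exact M.act x i
  fr a h := by
    have h1 : e.symm a = 1 := M.fr _ h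
    have h2 : a = e (e.symm a) := (e.apply_symm_apply a).symm
    rw [h2, h1, map_one]
  inv a i j := M.inv (e.symm a) i j
  card := by rw [← Nat.card_congr e.toEquiv, M.card]

/-- The McLaughlin group (as a two-vector stabiliser in the automorphism group of the rank-24 lattice) has a single conjugacy class of involutions, and the centraliser of an involution is a non-split double cover of the alternating group of degree 8. -/
theorem result : (∀ x y : ↥Cfsg.Spor.McL, orderOf x = 2 → orderOf y = 2 → IsConj x y) ∧ ∃ t : ↥Cfsg.Spor.McL, orderOf t = 2 ∧ Cfsg.IsNonsplitDoubleCover ↥(Subgroup.centralizer ({t} : Set ↥Cfsg.Spor.McL)) ↥(alternatingGroup (Fin 8)) := by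
  obtain ⟨g, ρ, M⟩ := H89.McLC.exists_MC
  have M' := transport H90.Co.isoMcL M
  have : Finite Cfsg.Spor.McL := Nat.finite_of_card_ne_zero (by rw [M'.card]; norm_num)
  exact H89.McLC.main M'

end Cfsg.Agent.S2132
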