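import Cfsg.Statements.S2133
import Cfsg.Agent.H80.SL52

set_option autoImplicit false
open Cfsg

namespace Cfsg.Agent.S2133

/-- The Mathieu group M₂₄ (the automorphism group of the length-24 binary code) has an involution whose centraliser is isomorphic to the centraliser of a transvection in SL(5, 2) (a group of shape 2^{1+6}:GL(3, 2)). -/
theorem result (s : Matrix.SpecialLinearGroup (Fin 5) (ZMod 2)) (hs : (s : Matrix (Fin 5) (Fin 5) (ZMod 2)) = Matrix.transvection 0 1 1) : ∃ z : ↥Cfsg.M24, orderOf z = 2 ∧ Nonempty (↥(Subgroup.centralizer ({z} : Set ↥Cfsg.M24)) ≃* ↥(Subgroup.centralizer ({s} : Set (Matrix.SpecialLinearGroup (Fin 5) (ZMod 2))))) := by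
  obtain ⟨D₂⟩ := Cfsg.Agent.H80.SL52.dat_SL s hs
  have hO := Cfsg.Agent.Golay.o0_mem
  have hc := Cfsg.Agent.M24X.Cent8.card_FXO hO
  have : Nontrivial (Cfsg.Agent.M24X.FX Cfsg.Agent.Golay.o0) := by
    have : Finite (Cfsg.Agent.M24X.FX Cfsg.Agent.Golay.o0) := inferInstance
    rw [← Finite.one_lt_card_iff_nontrivial, hc]; norm_num
  obtain ⟨⟨z, hz⟩, hz1⟩ := exists_ne (1 : Cfsg.Agent.M24X.FX Cfsg.Agent.Golay.o0)
  have hz1' : z ≠ 1 := fun h => hz1 (Subtype.ext h)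
  obtain ⟨D₁, -⟩ := Cfsg.Agent.M24X.Cent8.exists_dat hO hz1' hz
  refine ⟨z, ?_, Cfsg.Agent.H80.SL52.cent_iso D₁ D₂⟩
  exact orderOf_eq_prime (p := 2) (hp := ⟨Nat.prime_two⟩) (by rw [pow_two]; exact D₁.zz) hz1'

end Cfsg.Agent.S2133
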