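import Cfsg.Statements.S2162
import Cfsg.Agent.H41.NilConj

set_option autoImplicit false
open Cfsg

namespace Cfsg.Agent.S2162

open Cfsg.Agent.H41 Cfsg.Agent.H99

/-- Conjugacy of involutions in the special linear group over a finite field of characteristic two, in dimension at least 3: two elements of order 2 of SL_n(F) are conjugate in SL_n(F) exactly when the matrices a − 1 and b − 1 have the same rank (the rank of a − 1 is the dimension of the commutator space [V, a]). -/
theorem result {F : Type*} [Field F] [Fintype F] [CharP F 2] {n : ℕ} (hn : 3 ≤ n) (a b : Matrix.SpecialLinearGroup (Fin n) F) (ha : orderOf a = 2) (hb : orderOf b = 2) :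
    IsConj a b ↔ ((a : Matrix (Fin n) (Fin n) F) - 1).rank = ((b : Matrix (Fin n) (Fin n) F) - 1).rank := by
  classical
  have h2 : (2 : F) = 0 := by exact_mod_cast CharP.cast_eq_zero F 2
  have hneg : ∀ M : Matrix (Fin n) (Fin n) F, -M = M := by
    intro M
    ext i j
    rw [Matrix.neg_apply]
    linear_combination (- M i j) * h2
  have hsq : ∀ c : Matrix.SpecialLinearGroup (Fin n) F, orderOf c = 2 →
      ((c : Matrix (Fin n) (Fin n) F)) ^ 2 = 1 := by
    intro c hc
    have : c ^ 2 = 1 := by rw [← hc]; exact pow_orderOf_eq_one c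
    have := congrArg (fun x : Matrix.SpecialLinearGroup (Fin n) F => (x : Matrix (Fin n) (Fin n) F)) this
    simpa using this
  have hsq' : ∀ c : Matrix.SpecialLinearGroup (Fin n) F, orderOf c = 2 →
      ((c : Matrix (Fin n) (Fin n) F) - 1) ^ 2 = 0 := by
    intro c hc
    have h1 := hsq c hc
    have : ((c : Matrix (Fin n) (Fin n) F) - 1) ^ 2 = (c : Matrix (Fin n) (Fin n) F) ^ 2 - 1 - ((c : Matrix (Fin n) (Fin n) F) - 1) - ((c : Matrix (Fin n) (Fin n) F) - 1) := by
      noncomm_ring
    rw [this, h1, sub_self, zero_sub, sub_eq_add_neg, ← neg_add, hneg]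
    ext i j
    rw [Matrix.add_apply, Matrix.zero_apply]
    linear_combination (((c : Matrix (Fin n) (Fin n) F) - 1) i j) * h2
  constructor
  · intro h
    obtain ⟨g, hg⟩ := isConj_iff.mp h
    have h3 : (b : Matrix (Fin n) (Fin n) F) - 1 = (g : Matrix (Fin n) (Fin n) F) * ((a : Matrix (Fin n) (Fin n) F) - 1) *
        ((g⁻¹ : Matrix.SpecialLinearGroup (Fin n) F) : Matrix (Fin n) (Fin n) F) := by
      rw [← hg, Matrix.mul_sub, Matrix.sub_mul, mul_one, ← Matrix.SpecialLinearGroup.coe_mul, ← Matrix.SpecialLinearGroup.coe_mul,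
        ← Matrix.SpecialLinearGroup.coe_mul, mul_inv_cancel, Matrix.SpecialLinearGroup.coe_one]
    have hdet : ∀ c : Matrix.SpecialLinearGroup (Fin n) F, IsUnit (c : Matrix (Fin n) (Fin n) F).det := by
      intro c; rw [c.det_coe]; exact isUnit_one
    rw [h3, Matrix.rank_mul_eq_left_of_isUnit_det _ _ (hdet g⁻¹), Matrix.rank_mul_eq_right_of_isUnit_det _ _ (hdet g)]
  · intro h
    obtain ⟨P, hP, hP'⟩ := exists_conj_of_sq_zero _ _ (hsq' b hb) (hsq' a ha) h.symm
    have h4 : (a : Matrix (Fin n) (Fin n) F) * P = P * (b : Matrix (Fin n) (Fin n) F) := by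
      rw [Matrix.mul_sub, Matrix.sub_mul, mul_one, one_mul] at hP'
      exact (sub_left_inj.mp hP').symm
    have h5 : CentSurj (a : Matrix (Fin n) (Fin n) F) := centSurj_of_sq_eq (by omega) _ 1 one_ne_zero (by
      rw [hsq a ha, one_smul])
    obtain ⟨S, hS⟩ := h5.exists_sl P _ hP h4
    have h6 : a * S = S * b := by
      apply Subtype.ext
      rw [Matrix.SpecialLinearGroup.coe_mul, Matrix.SpecialLinearGroup.coe_mul]
      exact hS
    rw [isConj_iff]
    refine ⟨S⁻¹, ?_⟩
    rw [inv_inv, mul_assoc, h6]; group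

end Cfsg.Agent.S2162
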