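import Cfsg.Statements.S2163

set_option autoImplicit false
open Cfsg

namespace Cfsg.Agent.S2163

variable {F : Type*} [Field F]

/-- the n × ℓ matrix with ones at (k + (n-ℓ), k) -/
def Pm (F : Type*) [Field F] (n ℓ : ℕ) : Matrix (Fin n) (Fin ℓ) F :=
  Matrix.of fun i k => if i.val = k.val + (n - ℓ) then 1 else 0

/-- the ℓ × n matrix with ones at (k, k) -/
def Rm (F : Type*) [Field F] (n ℓ : ℕ) : Matrix (Fin ℓ) (Fin n) F :=
  Matrix.of fun k j => if j.val = k.val then 1 else 0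

def Nm (F : Type*) [Field F] (n ℓ : ℕ) : Matrix (Fin n) (Fin n) F :=
  Matrix.of (fun i j : Fin n => if j.val < ℓ ∧ i.val = j.val + (n - ℓ) then (1 : F) else 0)

theorem Nm_eq (n ℓ : ℕ) (h2 : 2 * ℓ ≤ n) : Nm F n ℓ = Pm F n ℓ * Rm F n ℓ := by
  ext i j
  simp only [Nm, Pm, Rm, Matrix.mul_apply, Matrix.of_apply]
  by_cases hj : j.val < ℓ
  · rw [Finset.sum_eq_single (⟨j.val, hj⟩ : Fin ℓ)]
    · simp [hj]
    · intro b _ hb
      have : j.val ≠ b.val := fun h => hb (Fin.ext h.symm)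
      simp [this]
    · simp
  · rw [if_neg (by tauto)]
    symm
    apply Finset.sum_eq_zero
    intro k _
    have : j.val ≠ k.val := by have := k.2; omega
    simp [this]

theorem R_mul_P (n ℓ : ℕ) (h1 : 1 ≤ ℓ) (h2 : 2 * ℓ ≤ n) : Rm F n ℓ * Pm F n ℓ = 0 := by
  ext i j
  simp only [Pm, Rm, Matrix.mul_apply, Matrix.of_apply, Matrix.zero_apply]
  apply Finset.sum_eq_zero
  intro k _
  by_cases hk : k.val = i.val
  · have : k.val ≠ j.val + (n - ℓ) := by have := i.2; omega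
    simp [this]
  · simp [hk]

theorem Pt_mul_P (n ℓ : ℕ) (h2 : 2 * ℓ ≤ n) : (Pm F n ℓ).transpose * Pm F n ℓ = 1 := by
  ext i j
  simp only [Pm, Matrix.mul_apply, Matrix.of_apply, Matrix.transpose_apply]
  rw [Finset.sum_eq_single (⟨i.val + (n - ℓ), by have := i.2; omega⟩ : Fin n)]
  · by_cases h : i = j
    · subst h; simp
    · have : i.val ≠ j.val := fun h' => h (Fin.ext h')
      simp [h, this]
  · intro b _ hb
    have : b.val ≠ i.val + (n - ℓ) := fun h => hb (Fin.ext h)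
    simp [this]
  · simp

theorem R_mul_Rt (n ℓ : ℕ) (h2 : 2 * ℓ ≤ n) : Rm F n ℓ * (Rm F n ℓ).transpose = 1 := by
  ext i j
  simp only [Rm, Matrix.mul_apply, Matrix.of_apply, Matrix.transpose_apply]
  rw [Finset.sum_eq_single (⟨i.val, by have := i.2; omega⟩ : Fin n)]
  · by_cases h : i = j
    · subst h; simp
    · have : i.val ≠ j.val := fun h' => h (Fin.ext h')
      simp [h, this]
  · intro b _ hb
    have : b.val ≠ i.val := fun h => hb (Fin.ext h)
    simp [this]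
  · simp

theorem rank_Nm (n ℓ : ℕ) (h2 : 2 * ℓ ≤ n) : (Nm F n ℓ).rank = ℓ := by
  apply le_antisymm
  · rw [Nm_eq n ℓ h2]
    refine (Matrix.rank_mul_le_left _ _).trans ?_
    refine (Matrix.rank_le_width _).trans ?_
    simp
  · have h : (Pm F n ℓ).transpose * Nm F n ℓ * (Rm F n ℓ).transpose = 1 := by
      rw [Nm_eq n ℓ h2, ← Matrix.mul_assoc, Pt_mul_P n ℓ h2, Matrix.one_mul, R_mul_Rt n ℓ h2]
    have h' : (1 : Matrix (Fin ℓ) (Fin ℓ) F).rank ≤ (Nm F n ℓ).rank := by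
      rw [← h]
      exact (Matrix.rank_mul_le_left _ _).trans (Matrix.rank_mul_le_right _ _)
    rwa [Matrix.rank_one, Fintype.card_fin] at h'

theorem Nm_sq (n ℓ : ℕ) (h1 : 1 ≤ ℓ) (h2 : 2 * ℓ ≤ n) : Nm F n ℓ * Nm F n ℓ = 0 := by
  rw [Nm_eq n ℓ h2, Matrix.mul_assoc, ← Matrix.mul_assoc (Rm F n ℓ), R_mul_P n ℓ h1 h2]
  simp

/-- Existence of an involution of SL_n(F) with the given lower left block, F finite of characteristic 2. -/
theorem result {F : Type*} [Field F] [Fintype F] [CharP F 2] {n : ℕ} (hn : 3 ≤ n) (ℓ : ℕ) (h1 : 1 ≤ ℓ) (h2 : 2 * ℓ ≤ n) :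
    ∃ a : Matrix.SpecialLinearGroup (Fin n) F, (a : Matrix (Fin n) (Fin n) F) = 1 + Matrix.of (fun i j : Fin n => if j.val < ℓ ∧ i.val = j.val + (n - ℓ) then (1 : F) else 0) ∧ orderOf a = 2 ∧ ((a : Matrix (Fin n) (Fin n) F) - 1).rank = ℓ := by
  have hsq : (1 + Nm F n ℓ) * (1 + Nm F n ℓ) = 1 := by
    have h2 : Nm F n ℓ + Nm F n ℓ = 0 := by
      ext i j
      simp only [Matrix.add_apply, Matrix.zero_apply]
      exact CharTwo.add_self_eq_zero _
    have : (1 + Nm F n ℓ) * (1 + Nm F n ℓ) = 1 + (Nm F n ℓ + Nm F n ℓ) + Nm F n ℓ * Nm F n ℓ := by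
      noncomm_ring
    rw [this, h2, Nm_sq n ℓ h1 (by assumption)]
    simp
  have hdet : (1 + Nm F n ℓ).det = 1 := by
    have : (1 + Nm F n ℓ).det * (1 + Nm F n ℓ).det = 1 := by
      rw [← Matrix.det_mul, hsq, Matrix.det_one]
    rcases mul_self_eq_one_iff.mp this with h | h
    · exact h
    · rw [h, CharTwo.neg_eq]
  obtain ⟨a, ha⟩ : ∃ a : Matrix.SpecialLinearGroup (Fin n) F, (a : Matrix (Fin n) (Fin n) F) = 1 + Nm F n ℓ :=
    ⟨⟨1 + Nm F n ℓ, hdet⟩, rfl⟩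
  refine ⟨a, ha, ?_, ?_⟩
  · apply orderOf_eq_prime
    · apply Matrix.SpecialLinearGroup.ext
      intro i j
      rw [pow_two, Matrix.SpecialLinearGroup.coe_mul, ha, hsq, Matrix.SpecialLinearGroup.coe_one]
    · intro h
      have h3 : (1 + Nm F n ℓ) = 1 := by rw [← ha, h, Matrix.SpecialLinearGroup.coe_one]
      have h4 : Nm F n ℓ = 0 := by simpa using h3
      have h5 := rank_Nm (F := F) n ℓ h2
      rw [h4, Matrix.rank_zero] at h5
      omega
  · have : (a : Matrix (Fin n) (Fin n) F) - 1 = Nm F n ℓ := by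
      rw [ha]; simp
    rw [this]
    exact rank_Nm n ℓ h2

end Cfsg.Agent.S2163
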