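import Cfsg.Statements.S2164
import Cfsg.Agent.H41.SUInvol
import Cfsg.Agent.H41.NilConj
import Cfsg.Agent.H43.Unitary2

set_option autoImplicit false
open Cfsg

namespace Cfsg.Agent.S2164

open Cfsg.Agent.Uni Cfsg.Agent.H41 Matrix

/-- Conjugacy of involutions in the special unitary group SU_n(q), q even, n ≥ 3, realised over the field F with q² elements as the matrices of determinant 1 preserving the form Σ u_i v_i^q: for two elements of order 2 of SU_n(q) the following are equivalent — they are conjugate in SU_n(q); they are conjugate in SL_n(F); the matrices a − 1 and b − 1 have the same rank. -/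
theorem result {F : Type*} [Field F] [Fintype F] [CharP F 2] {n q : ℕ} (hF : Fintype.card F = q ^ 2) (hn : 3 ≤ n) (a b : ↥(Cfsg.SU n F q)) (ha : orderOf a = 2) (hb : orderOf b = 2) :
    (IsConj a b ↔ IsConj (a : Matrix.SpecialLinearGroup (Fin n) F) (b : Matrix.SpecialLinearGroup (Fin n) F)) ∧
    (IsConj a b ↔ (((a : Matrix.SpecialLinearGroup (Fin n) F) : Matrix (Fin n) (Fin n) F) - 1).rank = (((b : Matrix.SpecialLinearGroup (Fin n) F) : Matrix (Fin n) (Fin n) F) - 1).rank) := by
  have hn0 : 1 ≤ n := by omega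
  have ha2 : a ^ 2 = 1 := by rw [← ha]; exact pow_orderOf_eq_one a
  have hb2 : b ^ 2 = 1 := by rw [← hb]; exact pow_orderOf_eq_one b
  have ha1 : a ≠ 1 := by rintro rfl; rw [orderOf_one] at ha; omega
  have hmat2 : ∀ x : ↥(Cfsg.SU n F q), x ^ 2 = 1 → ((x : Matrix.SpecialLinearGroup (Fin n) F) : Matrix (Fin n) (Fin n) F) * ((x : Matrix.SpecialLinearGroup (Fin n) F) : Matrix (Fin n) (Fin n) F) = 1 := by
    intro x hx
    rw [pow_two] at hx
    exact congrArg (fun z : ↥(Cfsg.SU n F q) => ((z : Matrix.SpecialLinearGroup (Fin n) F) : Matrix (Fin n) (Fin n) F)) hx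
  have h1 : IsConj a b → IsConj (a : Matrix.SpecialLinearGroup (Fin n) F) (b : Matrix.SpecialLinearGroup (Fin n) F) :=
    fun h => MonoidHom.map_isConj (Cfsg.SU n F q).subtype h
  have h2 : IsConj (a : Matrix.SpecialLinearGroup (Fin n) F) (b : Matrix.SpecialLinearGroup (Fin n) F) →
      (((a : Matrix.SpecialLinearGroup (Fin n) F) : Matrix (Fin n) (Fin n) F) - 1).rank = (((b : Matrix.SpecialLinearGroup (Fin n) F) : Matrix (Fin n) (Fin n) F) - 1).rank := by
    intro h
    obtain ⟨c, hc⟩ := isConj_iff.mp h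
    rw [mul_inv_eq_iff_eq_mul] at hc
    have hc2 : (c : Matrix (Fin n) (Fin n) F) * ((a : Matrix.SpecialLinearGroup (Fin n) F) : Matrix (Fin n) (Fin n) F) =
      ((b : Matrix.SpecialLinearGroup (Fin n) F) : Matrix (Fin n) (Fin n) F) * (c : Matrix (Fin n) (Fin n) F) :=
      congrArg (fun x : SpecialLinearGroup (Fin n) F => (x : Matrix (Fin n) (Fin n) F)) hc
    have hdet : IsUnit (c : Matrix (Fin n) (Fin n) F).det := by rw [c.2]; exact isUnit_one
    have h3 : (c : Matrix (Fin n) (Fin n) F) * (((a : Matrix.SpecialLinearGroup (Fin n) F) : Matrix (Fin n) (Fin n) F) - 1) =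
      (((b : Matrix.SpecialLinearGroup (Fin n) F) : Matrix (Fin n) (Fin n) F) - 1) * (c : Matrix (Fin n) (Fin n) F) := by
      rw [mul_sub, sub_mul, hc2, mul_one, one_mul]
    rw [← Matrix.rank_mul_eq_right_of_isUnit_det _ _ hdet, h3, Matrix.rank_mul_eq_left_of_isUnit_det _ _ hdet]
  have h3 : (((a : Matrix.SpecialLinearGroup (Fin n) F) : Matrix (Fin n) (Fin n) F) - 1).rank = (((b : Matrix.SpecialLinearGroup (Fin n) F) : Matrix (Fin n) (Fin n) F) - 1).rank → IsConj a b := by
    intro h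
    have hsq : ∀ x : ↥(Cfsg.SU n F q), x ^ 2 = 1 → (((x : Matrix.SpecialLinearGroup (Fin n) F) : Matrix (Fin n) (Fin n) F) - 1) ^ 2 = 0 := by
      intro x hx
      have e1 := hmat2 x hx
      have e2 : (((x : Matrix.SpecialLinearGroup (Fin n) F) : Matrix (Fin n) (Fin n) F) - 1) ^ 2 =
          ((x : Matrix.SpecialLinearGroup (Fin n) F) : Matrix (Fin n) (Fin n) F) * ((x : Matrix.SpecialLinearGroup (Fin n) F) : Matrix (Fin n) (Fin n) F) + 1
          - (((x : Matrix.SpecialLinearGroup (Fin n) F) : Matrix (Fin n) (Fin n) F) + ((x : Matrix.SpecialLinearGroup (Fin n) F) : Matrix (Fin n) (Fin n) F)) := by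
        rw [pow_two]; noncomm_ring
      have e3 : ∀ M : Matrix (Fin n) (Fin n) F, M + M = 0 := by
        intro M
        ext i j
        exact CharTwo.add_self_eq_zero _
      rw [e2, e1, e3, e3, sub_zero]
    obtain ⟨P, hP, hPA⟩ := exists_conj_of_sq_zero _ _ (hsq a ha2) (hsq b hb2) h
    have hPA' : P * ((a : Matrix.SpecialLinearGroup (Fin n) F) : Matrix (Fin n) (Fin n) F) =
        ((b : Matrix.SpecialLinearGroup (Fin n) F) : Matrix (Fin n) (Fin n) F) * P := by
      rw [mul_sub, sub_mul, mul_one, one_mul] at hPA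
      exact sub_left_injective hPA
    have haG : (Matrix.SpecialLinearGroup.toGL (a : Matrix.SpecialLinearGroup (Fin n) F)) ∈ GU n F q := a.2
    have hbG : (Matrix.SpecialLinearGroup.toGL (b : Matrix.SpecialLinearGroup (Fin n) F)) ∈ GU n F q := b.2
    have hconj : IsConj (⟨_, haG⟩ : GU n F q) ⟨_, hbG⟩ := by
      rw [H43.isConj_GU_iff hF]
      rw [isConj_iff]
      refine ⟨Matrix.GeneralLinearGroup.mkOfDetNeZero P hP, ?_⟩
      rw [mul_inv_eq_iff_eq_mul]
      apply Units.ext
      exact hPA'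
    obtain ⟨g, hg⟩ := isConj_iff.mp hconj
    rw [mul_inv_eq_iff_eq_mul] at hg
    have hg2 : ((g : GL (Fin n) F) : Matrix (Fin n) (Fin n) F) * ((a : Matrix.SpecialLinearGroup (Fin n) F) : Matrix (Fin n) (Fin n) F) =
        ((b : Matrix.SpecialLinearGroup (Fin n) F) : Matrix (Fin n) (Fin n) F) * ((g : GL (Fin n) F) : Matrix (Fin n) (Fin n) F) :=
      congrArg (fun z : GU n F q => ((z : GL (Fin n) F) : Matrix (Fin n) (Fin n) F)) hg
    have hgP : Pres q ((g : GL (Fin n) F) : Matrix (Fin n) (Fin n) F) := g.2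
    have hd := hgP.det_norm hF
    have hd0 : ((g : GL (Fin n) F) : Matrix (Fin n) (Fin n) F).det ≠ 0 := (Matrix.GeneralLinearGroup.det (g : GL (Fin n) F)).ne_zero
    have haP : Pres q ((a : Matrix.SpecialLinearGroup (Fin n) F) : Matrix (Fin n) (Fin n) F) := a.2
    have hane : ((a : Matrix.SpecialLinearGroup (Fin n) F) : Matrix (Fin n) (Fin n) F) ≠ 1 := by
      intro h0
      apply ha1
      apply Subtype.ext
      apply Subtype.ext
      exact h0
    obtain ⟨U, hU1, hU2, hU3⟩ := exists_centralizing_det hF _ haP (hmat2 a ha2) hane (((g : GL (Fin n) F) : Matrix (Fin n) (Fin n) F).det)⁻¹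
      (by rw [inv_pow, hd, inv_one])
    rw [isConj_iff]
    refine ⟨mkSU _ (hgP.mul hU1) (by rw [det_mul, hU3, mul_inv_cancel₀ hd0]), ?_⟩
    rw [mul_inv_eq_iff_eq_mul]
    apply SU_ext
    show ((g : GL (Fin n) F) : Matrix (Fin n) (Fin n) F) * U * ((a : Matrix.SpecialLinearGroup (Fin n) F) : Matrix (Fin n) (Fin n) F) =
      ((b : Matrix.SpecialLinearGroup (Fin n) F) : Matrix (Fin n) (Fin n) F) * (((g : GL (Fin n) F) : Matrix (Fin n) (Fin n) F) * U)
    rw [mul_assoc, hU2, ← mul_assoc, hg2, mul_assoc]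
  exact ⟨⟨h1, fun h => h3 (h2 h)⟩, ⟨fun h => h2 (h1 h), h3⟩⟩

end Cfsg.Agent.S2164
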