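import Cfsg.Statements.S2165

set_option autoImplicit false
open Cfsg

namespace Cfsg.Agent.S2165

variable {F : Type*} [Field F]

/-- the n × ℓ matrix with ones at (k, k) and (k + (n-ℓ), k) -/
def Pm (F : Type*) [Field F] (n ℓ : ℕ) : Matrix (Fin n) (Fin ℓ) F :=
  Matrix.of fun i k => (if i.val = k.val then 1 else 0) + (if i.val = k.val + (n - ℓ) then 1 else 0)

/-- the ℓ × n matrix with ones at (k, k) -/
def Rm (F : Type*) [Field F] (n ℓ : ℕ) : Matrix (Fin ℓ) (Fin n) F :=
  Matrix.of fun k j => if j.val = k.val then 1 else 0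

def Tm (F : Type*) [Field F] (n ℓ : ℕ) : Matrix (Fin n) (Fin n) F :=
  Matrix.of (fun i j : Fin n => if (j.val < ℓ ∧ i.val = j.val + (n - ℓ)) ∨ (i.val < ℓ ∧ j.val = i.val + (n - ℓ)) ∨ (i = j ∧ ℓ ≤ i.val ∧ i.val < n - ℓ) then (1 : F) else 0)

theorem R_mul_P (n ℓ : ℕ) (_h1 : 1 ≤ ℓ) (h2 : 2 * ℓ ≤ n) : Rm F n ℓ * Pm F n ℓ = 1 := by
  ext i j
  simp only [Pm, Rm, Matrix.mul_apply, Matrix.of_apply]
  rw [Finset.sum_eq_single (⟨i.val, by have := i.2; omega⟩ : Fin n)]
  · by_cases h : i = j
    · subst h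
      have : ¬ (n - ℓ = 0) := by have := i.2; omega
      simp [this]
    · have h3 : i.val ≠ j.val := fun h' => h (Fin.ext h')
      have : ¬ (i.val = j.val + (n - ℓ)) := by have := i.2; omega
      simp [h, h3, this]
  · intro b _ hb
    have : b.val ≠ i.val := fun h => hb (Fin.ext h)
    simp [this]
  · simp

theorem Tm_eq [CharP F 2] (n ℓ : ℕ) (h1 : 1 ≤ ℓ) (h2 : 2 * ℓ ≤ n) :
    Tm F n ℓ = 1 + Pm F n ℓ * (Pm F n ℓ).transpose := by
  ext i j
  simp only [Tm, Pm, Matrix.mul_apply, Matrix.of_apply, Matrix.transpose_apply, Matrix.add_apply, Matrix.one_apply]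
  have hi := i.2
  have hj := j.2
  have h11 : (1 : F) + 1 = 0 := CharTwo.add_self_eq_zero _
  -- the index k with i in {k, k + (n-ℓ)}
  by_cases hi1 : i.val < ℓ
  · rw [Finset.sum_eq_single (⟨i.val, hi1⟩ : Fin ℓ)]
    · simp only [true_and]
      have e1 : ¬ (i.val = i.val + (n - ℓ)) := by omega
      simp only [if_true, if_neg e1, add_zero, one_mul]
      by_cases hij : i = j
      · subst hij
        rw [if_neg (by omega), if_pos rfl, if_pos rfl, if_neg (by omega)]
        simp [h11]
      · have hij' : i.val ≠ j.val := fun h => hij (Fin.ext h)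
        by_cases hj2 : j.val = i.val + (n - ℓ)
        · rw [if_pos (by tauto), if_neg hij, if_neg (by omega), if_pos hj2]
          simp
        · rw [if_neg (by rintro (h | h | h); exact absurd h.2 (by omega); exact hj2 h.2; exact hij h.1),
            if_neg hij, if_neg (by omega), if_neg hj2]
          simp
    · intro b _ hb
      have e1 : ¬ (i.val = b.val) := fun h => hb (Fin.ext h.symm)
      have e2 : ¬ (i.val = b.val + (n - ℓ)) := by omega
      rw [if_neg e1, if_neg e2]; simp
    · simp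
  · by_cases hi2 : i.val < n - ℓ
    · rw [Finset.sum_eq_zero]
      · by_cases hij : i = j
        · subst hij
          rw [if_pos (Or.inr (Or.inr ⟨rfl, by omega, hi2⟩)), if_pos rfl]
          simp
        · rw [if_neg (by rintro (h | h | h); omega; omega; exact hij h.1), if_neg hij]
          simp
      · intro k _
        have hk := k.2
        rw [if_neg (by omega), if_neg (by omega)]
        simp
    · rw [Finset.sum_eq_single (⟨i.val - (n - ℓ), by omega⟩ : Fin ℓ)]
      · simp only []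
        rw [if_neg (show ¬ (i.val = i.val - (n - ℓ)) by omega), if_pos (show i.val = i.val - (n - ℓ) + (n - ℓ) by omega)]
        by_cases hij : i = j
        · subst hij
          rw [if_neg (by omega), if_pos rfl, if_neg (by omega), if_pos (by omega)]
          simp [h11]
        · have hij' : i.val ≠ j.val := fun h => hij (Fin.ext h)
          by_cases hj2 : j.val = i.val - (n - ℓ)
          · rw [if_pos (by left; omega), if_neg hij, if_pos hj2, if_neg (by omega)]
            simp
          · rw [if_neg (by rintro (h | h | h); omega; omega; exact hij h.1), if_neg hij, if_neg hj2, if_neg (by omega)]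
            simp
      · intro b _ hb
        have hb' : ¬ (i.val - (n - ℓ) = b.val) := fun h => hb (Fin.ext h.symm)
        have e1 : ¬ (i.val = b.val) := by have := b.2; omega
        have e2 : ¬ (i.val = b.val + (n - ℓ)) := by omega
        rw [if_neg e1, if_neg e2]; simp
      · simp

theorem rank_sub [CharP F 2] (n ℓ : ℕ) (h1 : 1 ≤ ℓ) (h2 : 2 * ℓ ≤ n) : (Tm F n ℓ - 1).rank = ℓ := by
  have he : Tm F n ℓ - 1 = Pm F n ℓ * (Pm F n ℓ).transpose := by
    rw [Tm_eq n ℓ h1 h2]; simp
  rw [he]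
  apply le_antisymm
  · refine (Matrix.rank_mul_le_left _ _).trans ?_
    refine (Matrix.rank_le_width _).trans ?_
    simp
  · have h : Rm F n ℓ * (Pm F n ℓ * (Pm F n ℓ).transpose) * (Rm F n ℓ).transpose = 1 := by
      rw [← Matrix.mul_assoc, R_mul_P n ℓ h1 h2, Matrix.one_mul, ← Matrix.transpose_mul, R_mul_P n ℓ h1 h2,
        Matrix.transpose_one]
    have h' : (1 : Matrix (Fin ℓ) (Fin ℓ) F).rank ≤ (Pm F n ℓ * (Pm F n ℓ).transpose).rank := by
      rw [← h]
      exact (Matrix.rank_mul_le_left _ _).trans (Matrix.rank_mul_le_right _ _)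
    rwa [Matrix.rank_one, Fintype.card_fin] at h'

/-- the involution of `Fin n` swapping i and n-ℓ+i for i<ℓ. -/
def sw (n ℓ : ℕ) (h2 : 2 * ℓ ≤ n) (i : Fin n) : Fin n :=
  if h : i.val < ℓ then ⟨i.val + (n - ℓ), by omega⟩
  else if h' : i.val < n - ℓ then i else ⟨i.val - (n - ℓ), by have := i.2; omega⟩

theorem sw_sw (n ℓ : ℕ) (h2 : 2 * ℓ ≤ n) (i : Fin n) : sw n ℓ h2 (sw n ℓ h2 i) = i := by
  have hi := i.2
  apply Fin.ext
  unfold sw
  by_cases a : i.val < ℓ
  · simp only [a, dif_pos]
    rw [dif_neg (by omega), dif_neg (by omega)]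
    simp
  · by_cases b : i.val < n - ℓ
    · simp only [a, b, dif_neg, dif_pos, not_false_eq_true]
    · simp only [a, b, dif_neg, not_false_eq_true]
      rw [dif_pos (by omega)]
      simp only []
      omega

theorem Tm_mulVec (n ℓ : ℕ) (h2 : 2 * ℓ ≤ n) (u : Fin n → F) (i : Fin n) :
    (Tm F n ℓ).mulVec u i = u (sw n ℓ h2 i) := by
  have hi := i.2
  simp only [Matrix.mulVec, dotProduct, Tm, Matrix.of_apply]
  rw [Finset.sum_eq_single (sw n ℓ h2 i)]
  · rw [if_pos, one_mul]
    unfold sw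
    by_cases a : i.val < ℓ
    · simp only [a, dif_pos]; tauto
    · by_cases b : i.val < n - ℓ
      · simp only [a, b, dif_neg, dif_pos, not_false_eq_true]
        right; right; exact ⟨trivial, by omega, trivial⟩
      · simp only [a, b, dif_neg, not_false_eq_true]
        left; omega
  · intro j _ hj
    rw [if_neg, zero_mul]
    intro hh
    apply hj
    apply Fin.ext
    have hj' := j.2
    unfold sw
    by_cases a : i.val < ℓ
    · simp only [a, dif_pos]
      rcases hh with h | h | h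
      · omega
      · omega
      · omega
    · by_cases b : i.val < n - ℓ
      · simp only [a, b, dif_neg, dif_pos, not_false_eq_true]
        rcases hh with h | h | h
        · omega
        · omega
        · rw [h.1]
      · simp only [a, b, dif_neg, not_false_eq_true]
        rcases hh with h | h | h
        · omega
        · omega
        · omega
  · simp

theorem Tm_sq (n ℓ : ℕ) (h2 : 2 * ℓ ≤ n) : Tm F n ℓ * Tm F n ℓ = 1 := by
  have h : ∀ u : Fin n → F, (Tm F n ℓ * Tm F n ℓ).mulVec u = (1 : Matrix (Fin n) (Fin n) F).mulVec u := by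
    intro u
    rw [← Matrix.mulVec_mulVec]
    funext i
    rw [Tm_mulVec n ℓ h2, Tm_mulVec n ℓ h2, sw_sw, Matrix.one_mulVec]
  exact Matrix.mulVec_injective (funext h)

theorem result {F : Type*} [Field F] [Fintype F] [CharP F 2] {n q : ℕ} (hF : Fintype.card F = q ^ 2) (hn : 3 ≤ n) (ℓ : ℕ) (h1 : 1 ≤ ℓ) (h2 : 2 * ℓ ≤ n) :
    ∃ a : ↥(Cfsg.SU n F q), (((a : Matrix.SpecialLinearGroup (Fin n) F) : Matrix (Fin n) (Fin n) F) = Matrix.of (fun i j : Fin n => if (j.val < ℓ ∧ i.val = j.val + (n - ℓ)) ∨ (i.val < ℓ ∧ j.val = i.val + (n - ℓ)) ∨ (i = j ∧ ℓ ≤ i.val ∧ i.val < n - ℓ) then (1 : F) else 0)) ∧ orderOf a = 2 ∧ ((((a : Matrix.SpecialLinearGroup (Fin n) F) : Matrix (Fin n) (Fin n) F)) - 1).rank = ℓ := by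
  have hsq : Tm F n ℓ * Tm F n ℓ = 1 := Tm_sq n ℓ h2
  have hdet : (Tm F n ℓ).det = 1 := by
    have : (Tm F n ℓ).det * (Tm F n ℓ).det = 1 := by
      rw [← Matrix.det_mul, hsq, Matrix.det_one]
    rcases mul_self_eq_one_iff.mp this with h | h
    · exact h
    · rw [h, CharTwo.neg_eq]
  obtain ⟨a, ha⟩ : ∃ a : Matrix.SpecialLinearGroup (Fin n) F, (a : Matrix (Fin n) (Fin n) F) = Tm F n ℓ :=
    ⟨⟨Tm F n ℓ, hdet⟩, rfl⟩
  have hmem : a ∈ Cfsg.SU n F q := by
    intro u v
    have hT : (slToMat n F) a = Tm F n ℓ := by rw [← ha]; rfl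
    rw [hT]
    unfold hermForm
    simp only [Tm_mulVec n ℓ h2]
    let σ : Equiv.Perm (Fin n) := ⟨sw n ℓ h2, sw n ℓ h2, sw_sw n ℓ h2, sw_sw n ℓ h2⟩
    exact Equiv.sum_comp σ (fun i => u i * v i ^ q)
  refine ⟨⟨a, hmem⟩, ha, ?_, ?_⟩
  · apply orderOf_eq_prime
    · apply Subtype.ext
      apply Matrix.SpecialLinearGroup.ext
      intro i j
      rw [pow_two]
      change ((a * a : Matrix.SpecialLinearGroup (Fin n) F) : Matrix (Fin n) (Fin n) F) i j = ((1 : Matrix.SpecialLinearGroup (Fin n) F) : Matrix (Fin n) (Fin n) F) i j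
      rw [Matrix.SpecialLinearGroup.coe_mul, ha, hsq, Matrix.SpecialLinearGroup.coe_one]
    · intro h
      have h0 : a = 1 := congrArg Subtype.val h
      have h3 : Tm F n ℓ = 1 := by rw [← ha, h0, Matrix.SpecialLinearGroup.coe_one]
      have h5 := rank_sub (F := F) n ℓ h1 h2
      rw [h3, sub_self, Matrix.rank_zero] at h5
      omega
  · change ((a : Matrix (Fin n) (Fin n) F) - 1).rank = ℓ
    rw [ha]
    exact rank_sub n ℓ h1 h2

end Cfsg.Agent.S2165
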