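import Cfsg.Statements.S2166
import Cfsg.Agent.H41.InvolSp
import Cfsg.Agent.H43.InvolO

set_option autoImplicit false
open Cfsg

namespace Cfsg.Agent.S2166

open Cfsg.Agent.H43 Cfsg.Agent.ClGeo

theorem card_all {V : Type*} [Finite V] (P : V → Prop) (h : Nat.card {v // P v} = Nat.card V) (v : V) : P v := by
  have h1 : Function.Bijective (Subtype.val : {v // P v} → V) :=
    (Nat.bijective_iff_injective_and_card _).mpr ⟨Subtype.val_injective, h⟩
  obtain ⟨w, hw⟩ := h1.2 v
  rw [← hw]; exact w.2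

/-- Conjugacy of involutions in the symplectic group Sp_{2m}(F), F a finite field of characteristic two, m ≥ 2 (Sp taken as the matrices A with A J Aᵀ = J, acting on column vectors, with the alternating form f(u, v) = u ⬝ (J v)). For an involution t write V(t) for the set of vectors v with f(v, t v) = 0 (a subspace). Two involutions a, b are conjugate in Sp_{2m}(F) exactly when a − 1 and b − 1 have the same rank and, in case that rank is even, V(a) and V(b) have the same number of elements. -/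
theorem result {F : Type*} [Field F] [Fintype F] [CharP F 2] {m : ℕ} (hm : 2 ≤ m) (a b : ↥(Matrix.symplecticGroup (Fin m) F)) (ha : orderOf a = 2) (hb : orderOf b = 2) :
    IsConj a b ↔ ((((a : ↥(Matrix.symplecticGroup (Fin m) F)) : Matrix (Fin m ⊕ Fin m) (Fin m ⊕ Fin m) F) - 1).rank = (((b : ↥(Matrix.symplecticGroup (Fin m) F)) : Matrix (Fin m ⊕ Fin m) (Fin m ⊕ Fin m) F) - 1).rank ∧
      (Even (((a : ↥(Matrix.symplecticGroup (Fin m) F)) : Matrix (Fin m ⊕ Fin m) (Fin m ⊕ Fin m) F) - 1).rank → Nat.card {v : Fin m ⊕ Fin m → F // Cfsg.sympForm m F v (Matrix.mulVec ((a : ↥(Matrix.symplecticGroup (Fin m) F)) : Matrix (Fin m ⊕ Fin m) (Fin m ⊕ Fin m) F) v) = 0} = Nat.card {v : Fin m ⊕ Fin m → F // Cfsg.sympForm m F v (Matrix.mulVec ((b : ↥(Matrix.symplecticGroup (Fin m) F)) : Matrix (Fin m ⊕ Fin m) (Fin m ⊕ Fin m) F) v) = 0})) := by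
  have ha2 : a ^ 2 = 1 := by rw [← ha]; exact pow_orderOf_eq_one a
  have hb2 : b ^ 2 = 1 := by rw [← hb]; exact pow_orderOf_eq_one b
  have hA := sB_isAlt (F := F) m
  have hnd : ∀ x, (∀ y, sB F m x y = 0) → x = 0 := fun x h => sB_nd x h
  have hG : ∀ g ∈ spG F m, ∀ x y, sB F m (g x) (g y) = sB F m x y := fun g hg => hg
  constructor
  · intro h
    obtain ⟨c, hc⟩ := isConj_iff.mp h
    rw [mul_inv_eq_iff_eq_mul] at hc
    have hk : spHom F m c * spHom F m a = spHom F m b * spHom F m c := by rw [← map_mul, hc, map_mul]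
    refine ⟨?_, fun _ => ?_⟩
    · rw [← H41.rank_spHom, ← H41.rank_spHom]
      exact finrank_nn_conj hk
    · apply Nat.card_congr
      refine (spHom F m c).toEquiv.subtypeEquiv (fun v => ?_)
      show _ ↔ Cfsg.sympForm m F (spHom F m c v) ((b : Matrix (Fin m ⊕ Fin m) (Fin m ⊕ Fin m) F).mulVec (spHom F m c v)) = 0
      rw [← H41.f_nn_eq, ← H41.f_nn_eq, ← nn_conj hk, hG _ (spHom_mem F m c)]
  · rintro ⟨h1, h2⟩
    have hr : Module.finrank F (LinearMap.range (nn (spHom F m a))) = Module.finrank F (LinearMap.range (nn (spHom F m b))) := by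
      rw [H41.rank_spHom, H41.rank_spHom, h1]
    have hal : (∀ v, sB F m v (nn (spHom F m a) v) = 0) ↔ (∀ v, sB F m v (nn (spHom F m b) v) = 0) := by
      have key : ∀ x y : ↥(Matrix.symplecticGroup (Fin m) F), x ^ 2 = 1 →
          (Even (((x : ↥(Matrix.symplecticGroup (Fin m) F)) : Matrix (Fin m ⊕ Fin m) (Fin m ⊕ Fin m) F) - 1).rank → Nat.card {v : Fin m ⊕ Fin m → F // Cfsg.sympForm m F v (Matrix.mulVec ((x : ↥(Matrix.symplecticGroup (Fin m) F)) : Matrix (Fin m ⊕ Fin m) (Fin m ⊕ Fin m) F) v) = 0} = Nat.card {v : Fin m ⊕ Fin m → F // Cfsg.sympForm m F v (Matrix.mulVec ((y : ↥(Matrix.symplecticGroup (Fin m) F)) : Matrix (Fin m ⊕ Fin m) (Fin m ⊕ Fin m) F) v) = 0}) →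
          (∀ v, sB F m v (nn (spHom F m x) v) = 0) → (∀ v, sB F m v (nn (spHom F m y) v) = 0) := by
        intro x y hx hxy hall v
        obtain ⟨k, hk, _⟩ := exists_data_alt hA hnd (H41.invol_spHom x hx) (hG _ (spHom_mem F m x)) hall
        rw [H41.rank_spHom] at hk
        have h3 := hxy (by rw [hk]; exact even_two_mul k)
        have h4 : Nat.card {v : Fin m ⊕ Fin m → F // Cfsg.sympForm m F v (Matrix.mulVec ((x : ↥(Matrix.symplecticGroup (Fin m) F)) : Matrix (Fin m ⊕ Fin m) (Fin m ⊕ Fin m) F) v) = 0} = Nat.card (Fin m ⊕ Fin m → F) := by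
          apply Nat.card_congr
          exact Equiv.subtypeUnivEquiv (fun w => by rw [← H41.f_nn_eq]; exact hall w)
        rw [H41.f_nn_eq]
        exact card_all _ (h3.symm.trans h4) v
      exact ⟨key a b ha2 h2, key b a hb2 (fun he => (h2 (by rw [h1]; exact he)).symm)⟩
    obtain ⟨g, hg, hgt⟩ := conj_of_inv (f := sB F m) (G := spG F m) hsq_of hA hnd hG sp_witt (spHom_mem F m a) (spHom_mem F m b)
      (H41.invol_spHom a ha2) (H41.invol_spHom b hb2) hr hal
    obtain ⟨c, rfl⟩ := H41.sp_surj g hg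
    rw [isConj_iff]
    refine ⟨c, ?_⟩
    rw [mul_inv_eq_iff_eq_mul]
    apply H41.sp_inj
    rw [map_mul, map_mul, hgt]

end Cfsg.Agent.S2166
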