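import Cfsg.Statements.S2167
import Cfsg.Agent.H36.AltEven

set_option autoImplicit false
set_option linter.all false
open Cfsg

namespace Cfsg.Agent.S2167

open Matrix

theorem sympForm_add_left {F : Type*} [Field F] {m : ℕ} (u u' v : Fin m ⊕ Fin m → F) :
    sympForm m F (u + u') v = sympForm m F u v + sympForm m F u' v := by
  simp [sympForm, add_dotProduct]

theorem sympForm_add_right {F : Type*} [Field F] {m : ℕ} (u v v' : Fin m ⊕ Fin m → F) :
    sympForm m F u (v + v') = sympForm m F u v + sympForm m F u v' := by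
  simp [sympForm, Matrix.mulVec_add, dotProduct_add]

theorem sympForm_smul_left {F : Type*} [Field F] {m : ℕ} (c : F) (u v : Fin m ⊕ Fin m → F) :
    sympForm m F (c • u) v = c * sympForm m F u v := by
  simp [sympForm, smul_dotProduct]

theorem sympForm_smul_right {F : Type*} [Field F] {m : ℕ} (c : F) (u v : Fin m ⊕ Fin m → F) :
    sympForm m F u (c • v) = c * sympForm m F u v := by
  simp [sympForm, Matrix.mulVec_smul, dotProduct_smul]

theorem sympForm_neg {F : Type*} [Field F] {m : ℕ} (u v : Fin m ⊕ Fin m → F) :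
    sympForm m F u v = - sympForm m F v u := by
  unfold sympForm
  rw [Matrix.dotProduct_mulVec, ← Matrix.mulVec_transpose, Matrix.J_transpose, Matrix.neg_mulVec, neg_dotProduct,
    dotProduct_comm]

theorem sympForm_mul {F : Type*} [Field F] {m : ℕ} (a : ↥(Matrix.symplecticGroup (Fin m) F)) (u v : Fin m ⊕ Fin m → F) :
    sympForm m F ((a : Matrix (Fin m ⊕ Fin m) (Fin m ⊕ Fin m) F) *ᵥ u) ((a : Matrix (Fin m ⊕ Fin m) (Fin m ⊕ Fin m) F) *ᵥ v) = sympForm m F u v := by
  have h := SymplecticGroup.mem_iff'.mp a.2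
  unfold sympForm
  rw [← Matrix.vecMul_transpose, ← Matrix.dotProduct_mulVec, Matrix.mulVec_mulVec, Matrix.mulVec_mulVec,
    h]

theorem result {F : Type*} [Field F] [Fintype F] [CharP F 2] {m : ℕ} (hm : 2 ≤ m) (a : ↥(Matrix.symplecticGroup (Fin m) F)) (ha : orderOf a = 2) :
    (Nat.card {v : Fin m ⊕ Fin m → F // Cfsg.sympForm m F v (Matrix.mulVec ((a : ↥(Matrix.symplecticGroup (Fin m) F)) : Matrix (Fin m ⊕ Fin m) (Fin m ⊕ Fin m) F) v) = 0} = Fintype.card F ^ (2 * m) ∨ Nat.card {v : Fin m ⊕ Fin m → F // Cfsg.sympForm m F v (Matrix.mulVec ((a : ↥(Matrix.symplecticGroup (Fin m) F)) : Matrix (Fin m ⊕ Fin m) (Fin m ⊕ Fin m) F) v) = 0} * Fintype.card F = Fintype.card F ^ (2 * m)) ∧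
    ((∀ v : Fin m ⊕ Fin m → F, Cfsg.sympForm m F v (Matrix.mulVec ((a : ↥(Matrix.symplecticGroup (Fin m) F)) : Matrix (Fin m ⊕ Fin m) (Fin m ⊕ Fin m) F) v) = 0) → Even (((a : ↥(Matrix.symplecticGroup (Fin m) F)) : Matrix (Fin m ⊕ Fin m) (Fin m ⊕ Fin m) F) - 1).rank) := by
  set A : Matrix (Fin m ⊕ Fin m) (Fin m ⊕ Fin m) F := (a : Matrix (Fin m ⊕ Fin m) (Fin m ⊕ Fin m) F) with hA
  have hsq : A * A = 1 := by
    have h : a * a = 1 := by rw [← pow_two, ← ha, pow_orderOf_eq_one]
    exact congrArg Subtype.val h
  have hform : ∀ u v, sympForm m F (A *ᵥ u) (A *ᵥ v) = sympForm m F u v := fun u v => sympForm_mul a u v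
  constructor
  · let g : (Fin m ⊕ Fin m → F) →+ F :=
      { toFun := fun v => sympForm m F v (A *ᵥ v)
        map_zero' := by simp [sympForm]
        map_add' := by
          intro v w
          rw [Matrix.mulVec_add, sympForm_add_left, sympForm_add_right, sympForm_add_right]
          have h1 : sympForm m F w (A *ᵥ v) = - sympForm m F v (A *ᵥ w) := by
            rw [← hform w (A *ᵥ v), Matrix.mulVec_mulVec, hsq, Matrix.one_mulVec, sympForm_neg]
          rw [h1]; ring }
    have hcardV : Nat.card (Fin m ⊕ Fin m → F) = Fintype.card F ^ (2 * m) := by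
      rw [Nat.card_eq_fintype_card, Fintype.card_fun, Fintype.card_sum, Fintype.card_fin, two_mul]
    have hK : Nat.card {v : Fin m ⊕ Fin m → F // sympForm m F v (A *ᵥ v) = 0} = Nat.card g.ker := rfl
    have hmul : Nat.card g.ker * Nat.card g.range = Nat.card (Fin m ⊕ Fin m → F) := by
      rw [← AddSubgroup.index_ker]
      exact AddSubgroup.card_mul_index g.ker
    rw [hK]
    by_cases h0 : ∀ v, g v = 0
    · left
      have : g.range = ⊥ := by
        rw [eq_bot_iff]
        rintro x ⟨v, rfl⟩
        rw [h0 v]; simp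
      rw [this] at hmul
      rw [← hcardV, ← hmul]; simp
    · right
      push Not at h0
      obtain ⟨v, hv⟩ := h0
      have : g.range = ⊤ := by
        rw [eq_top_iff]
        intro d _
        obtain ⟨s, hs⟩ := FiniteField.isSquare_of_char_two (ringChar.eq F 2) (d * (g v)⁻¹)
        refine ⟨s • v, ?_⟩
        change sympForm m F (s • v) (A *ᵥ (s • v)) = d
        rw [Matrix.mulVec_smul, sympForm_smul_left, sympForm_smul_right, ← mul_assoc, ← hs]
        change d * (g v)⁻¹ * g v = d
        rw [mul_assoc, inv_mul_cancel₀ hv, mul_one]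
      rw [this] at hmul
      rw [← hcardV, ← hmul]
      simp [Nat.card_eq_fintype_card]
  · intro h0
    let M : Matrix (Fin m ⊕ Fin m) (Fin m ⊕ Fin m) F := Matrix.J (Fin m) F * (A - 1)
    let B : (Fin m ⊕ Fin m → F) →ₗ[F] (Fin m ⊕ Fin m → F) →ₗ[F] F := Matrix.toLinearMap₂' F M
    have hBdef : ∀ u v, B u v = sympForm m F u ((A - 1) *ᵥ v) := by
      intro u v
      simp only [B, M, Matrix.toLinearMap₂'_apply', sympForm, Matrix.mulVec_mulVec]
    have hB : ∀ v, B v v = 0 := by
      intro v
      rw [hBdef, Matrix.sub_mulVec, Matrix.one_mulVec, sub_eq_add_neg, sympForm_add_right, h0, zero_add]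
      have h1 : sympForm m F v v = 0 := by
        have h2 := h0
        -- use alternation of J
        simp only [sympForm, Matrix.J, Matrix.fromBlocks_mulVec, dotProduct, Fintype.sum_sum_type]
        simp [Matrix.mulVec, dotProduct, Matrix.one_apply, Finset.sum_comm, mul_comm]
      have : sympForm m F v (-v) = - sympForm m F v v := by
        have := sympForm_smul_right (-1 : F) v v
        simpa using this
      rw [this, h1, neg_zero]
    have hev := Cfsg.Agent.H36.alt_even_rank (F := F) _ B hB rfl
    have hker : LinearMap.ker B = LinearMap.ker (Mᵀ).mulVecLin := by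
      ext v
      simp only [LinearMap.mem_ker]
      constructor
      · intro h
        rw [Matrix.mulVecLin_apply, Matrix.mulVec_transpose]
        have : ∀ w, (v ᵥ* M) ⬝ᵥ w = 0 := by
          intro w
          rw [← Matrix.dotProduct_mulVec]
          have := congrArg (fun f => f w) h
          simpa [B, Matrix.toLinearMap₂'_apply'] using this
        exact dotProduct_eq_zero _ this
      · intro h
        rw [Matrix.mulVecLin_apply, Matrix.mulVec_transpose] at h
        apply LinearMap.ext
        intro w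
        simp only [B, Matrix.toLinearMap₂'_apply', LinearMap.zero_apply]
        rw [Matrix.dotProduct_mulVec, h, zero_dotProduct]
    have hr : Module.finrank F (LinearMap.range B) = (A - 1).rank := by
      have e1 := LinearMap.finrank_range_add_finrank_ker B
      have e2 := LinearMap.finrank_range_add_finrank_ker (Mᵀ).mulVecLin
      rw [hker] at e1
      have e3 : Module.finrank F (LinearMap.range B) = (Mᵀ).rank := by
        rw [Matrix.rank]; omega
      rw [e3, Matrix.rank_transpose]
      exact Matrix.rank_mul_eq_right_of_isUnit_det _ _ (Matrix.isUnit_det_J _ _)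
    rw [← hr]
    exact hev

end Cfsg.Agent.S2167
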