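import Cfsg.Statements.S2173
import Cfsg.Agent.H41.InvolO

set_option autoImplicit false
open Cfsg

namespace Cfsg.Agent.S2173

open Cfsg.Agent.Orth Cfsg.Agent.H43 QuadraticMap

/-- For the quadratic form Σ x_i y_i + (z₁² + c z₁ z₂ + d z₂²) in dimension 2m with anisotropic binary part over a finite field F of characteristic two, m ≥ 4 (minus type): two involutions of the commutator subgroup Ω that are conjugate in the full isometry group O are conjugate by an element of Ω (no class of involutions of O inside Ω splits). -/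
theorem result {F : Type*} [Field F] [Fintype F] [CharP F 2] {m : ℕ} (hm : 4 ≤ m) (c d : F) (hcd : ∀ z₁ z₂ : F, z₁ ^ 2 + c * z₁ * z₂ + d * z₂ ^ 2 = 0 → z₁ = 0 ∧ z₂ = 0) (t s : ↥(Cfsg.isometryGroup F (Cfsg.quadFormMinus (m - 1) F c d))) (ht : orderOf t = 2) (hs : orderOf s = 2) (htO : t ∈ Cfsg.Omega F (Cfsg.quadFormMinus (m - 1) F c d)) (hsO : s ∈ Cfsg.Omega F (Cfsg.quadFormMinus (m - 1) F c d)) (hconj : IsConj t s) :
    ∃ g ∈ Cfsg.Omega F (Cfsg.quadFormMinus (m - 1) F c d), g * t * g⁻¹ = s := by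
  have hQ := qfMinus_nondegenerate (m - 1) F (disc_ne_zero_of_aniso hcd)
  have hfr : Module.finrank F ((Fin (m - 1) ⊕ Fin (m - 1)) ⊕ Fin 2 → F) = 2 * m := by
    rw [Module.finrank_fintype_fun_eq_card, Fintype.card_sum, Fintype.card_sum, Fintype.card_fin, Fintype.card_fin]; omega
  have hR : RGrp (qfMinus (m - 1) F c d) = ⊤ := Cfsg.Agent.ClassO.RGrp_minus (by omega) hcd
  apply H41.omega_conj (qfMinus (m - 1) F c d) hQ hR hfr t s ht hconj
  by_cases h1 : ∃ v : (Fin (m - 1) ⊕ Fin (m - 1)) ⊕ Fin 2 → F, qfMinus (m - 1) F c d (v + Matrix.mulVec (((t : ↥(Cfsg.isometryGroup F (Cfsg.quadFormMinus (m - 1) F c d))) : GL ((Fin (m - 1) ⊕ Fin (m - 1)) ⊕ Fin 2) F) : Matrix ((Fin (m - 1) ⊕ Fin (m - 1)) ⊕ Fin 2) ((Fin (m - 1) ⊕ Fin (m - 1)) ⊕ Fin 2) F) v) ≠ 0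
  · left; exact h1
  · right
    push Not at h1
    rw [← H41.rank_bridge (qfMinus (m - 1) F c d) t]
    have hts : TS (qfMinus (m - 1) F c d) (LinearMap.range (nn ((bridge (qfMinus (m - 1) F c d) t : OGrp (qfMinus (m - 1) F c d)) : ((Fin (m - 1) ⊕ Fin (m - 1)) ⊕ Fin 2 → F) ≃ₗ[F] ((Fin (m - 1) ⊕ Fin (m - 1)) ⊕ Fin 2 → F)))) := by
      rintro _ ⟨x, rfl⟩
      have h2 := h1 x
      rw [add_comm] at h2
      exact h2
    have := hts.finrank_le_minus (disc_ne_zero_of_aniso hcd) hcd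
    omega

end Cfsg.Agent.S2173
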