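import Cfsg.Statements.S2178
import Cfsg.Agent.ChevU.CentCls

set_option autoImplicit false
open Cfsg

namespace Cfsg.Agent.S2178

/-- Centralizers of the long and the short root involutions in the Chevalley group G of type F₄ over a finite field F of characteristic two (this problem's root numbering for type F₄, from the Chevalley data module: fundamental roots p₁, p₂ short, p₃, p₄ long, with indices 33, 27, 25, 24, their negatives 14, 20, 22, 23; highest root 47, highest short root 44; U the subgroup generated by the positive root subgroups). For an element t of G with matrix x_47(1): the centralizer of t in G is the subgroup generated by U and the root subgroups X_{−p₁}, X_{−p₂}, X_{−p₃} (the unipotent radical of the maximal parabolic subgroup whose Levi factor has fundamental roots p₁, p₂, p₃, together with that Levi factor's root subgroups; the Levi factor is of type C₃). For an element u of G with matrix x_44(1): the centralizer of u in G is generated by U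 and X_{−p₂}, X_{−p₃}, X_{−p₄} (the same construction for the Levi factor with fundamental roots p₂, p₃, p₄, of type B₃). -/
theorem result {F : Type*} [Field F] [Fintype F] [CharP F 2] (t u : GL Cfsg.Lie.chevF4.Idx F) (ht : (t : Matrix Cfsg.Lie.chevF4.Idx Cfsg.Lie.chevF4.Idx F) = Cfsg.Lie.chevF4.x F 47 1) (hu : (u : Matrix Cfsg.Lie.chevF4.Idx Cfsg.Lie.chevF4.Idx F) = Cfsg.Lie.chevF4.x F 44 1) :
    Cfsg.Lie.chevF4.group F ⊓ Subgroup.centralizer {t} = Cfsg.Lie.chevF4.posUnipotent F ⊔ Cfsg.Lie.chevF4.rootSubgroup F 14 ⊔ Cfsg.Lie.chevF4.rootSubgroup F 20 ⊔ Cfsg.Lie.chevF4.rootSubgroup F 22 ∧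
    Cfsg.Lie.chevF4.group F ⊓ Subgroup.centralizer {u} = Cfsg.Lie.chevF4.posUnipotent F ⊔ Cfsg.Lie.chevF4.rootSubgroup F 20 ⊔ Cfsg.Lie.chevF4.rootSubgroup F 22 ⊔ Cfsg.Lie.chevF4.rootSubgroup F 23 := by
  have hD : Cfsg.Lie.chevF4 ∈ [Cfsg.Lie.chevG2, Cfsg.Lie.chevB2, Cfsg.Lie.chevD4, Cfsg.Lie.chevF4, Cfsg.Lie.chevE6, Cfsg.Lie.chevE7, Cfsg.Lie.chevE8] := by simp
  obtain ⟨E⟩ := Cfsg.Agent.ChevGrp.DData.nonempty_of_mem hD
  have H := Cfsg.Agent.Chev.good_of_mem hD
  have R := Cfsg.Agent.ChevU.rootFacts hD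
  have h1 := Cfsg.Agent.ChevU.centralizer_inv (F := F) R H E Cfsg.Agent.ChevU.CentDat.c47 (by intro u _ h s hs; have h3 := h s hs; rw [List.mem_singleton] at hs; subst hs; simpa using h3)
  have h2 := Cfsg.Agent.ChevU.centralizer_inv (F := F) R H E Cfsg.Agent.ChevU.CentDat.c44 (by intro u _ h s hs; have h3 := h s hs; rw [List.mem_singleton] at hs; subst hs; simpa using h3)
  have e1 : Cfsg.Agent.ChevU.pl R H [47] (fun _ => (1 : F)) = t := by
    apply Units.ext; rw [Cfsg.Agent.ChevU.pl_coe, ht]; simp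
  have e2 : Cfsg.Agent.ChevU.pl R H [44] (fun _ => (1 : F)) = u := by
    apply Units.ext; rw [Cfsg.Agent.ChevU.pl_coe, hu]; simp
  rw [e1] at h1
  rw [e2] at h2
  rw [h1, h2]
  have n0 : Cfsg.Lie.chevF4.neg (Cfsg.Lie.chevF4.simple 0) = 14 := by decide +kernel
  have n1 : Cfsg.Lie.chevF4.neg (Cfsg.Lie.chevF4.simple 1) = 20 := by decide +kernel
  have n2 : Cfsg.Lie.chevF4.neg (Cfsg.Lie.chevF4.simple 2) = 22 := by decide +kernel
  have n3 : Cfsg.Lie.chevF4.neg (Cfsg.Lie.chevF4.simple 3) = 23 := by decide +kernel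
  constructor
  · rw [Cfsg.Agent.ChevU.rootSubgroup_eq, Cfsg.Agent.ChevU.rootSubgroup_eq, Cfsg.Agent.ChevU.rootSubgroup_eq, Cfsg.Agent.ChevU.posUnipotent_eq_clo, Cfsg.Agent.ChevU.clo_sup, Cfsg.Agent.ChevU.clo_sup, Cfsg.Agent.ChevU.clo_sup]
    apply Cfsg.Agent.ChevU.clo_congr
    intro s
    simp only [List.map_nil, List.not_mem_nil, not_false_eq_true, and_true, List.mem_cons, or_false, exists_eq_or_imp, exists_eq_left, n0, n1, n2]
    tauto
  · rw [Cfsg.Agent.ChevU.rootSubgroup_eq, Cfsg.Agent.ChevU.rootSubgroup_eq, Cfsg.Agent.ChevU.rootSubgroup_eq, Cfsg.Agent.ChevU.posUnipotent_eq_clo, Cfsg.Agent.ChevU.clo_sup, Cfsg.Agent.ChevU.clo_sup, Cfsg.Agent.ChevU.clo_sup]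
    apply Cfsg.Agent.ChevU.clo_congr
    intro s
    simp only [List.map_nil, List.not_mem_nil, not_false_eq_true, and_true, List.mem_cons, or_false, exists_eq_or_imp, exists_eq_left, n1, n2, n3]
    tauto

end Cfsg.Agent.S2178
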