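import Cfsg.Statements.S2179
import Cfsg.Agent.ChevU.CentCls

set_option autoImplicit false
open Cfsg

namespace Cfsg.Agent.S2179

/-- Centralizers of the two remaining classes of involutions in the Chevalley group G of type F₄ over a finite field F of characteristic two (this problem's root numbering for type F₄, from the Chevalley data module: p₁, p₂ short, p₃, p₄ long with indices 33, 27, 25, 24 and negatives 14, 20, 22, 23; U generated by the positive root subgroups). For an element of G with matrix x_47(1)x_44(1) (highest root times highest short root): its centralizer in G is generated by U, X_{−p₂} and X_{−p₃}. For an element of G with matrix x_39(1)x_45(1) (roots (1,2,2,1) and (2,4,2,1), an orthogonal short/long pair): its centralizer in G is generated by X_{p₁}, X_{−p₁}, X_{p₄}, X_{−p₄} and the root subgroups of all positive roots other than p₂ (27), p₃ (25), p₁ + p₂ (34) and p₃ + p₄ (26). -/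
theorem result {F : Type*} [Field F] [Fintype F] [CharP F 2] (w v : GL Cfsg.Lie.chevF4.Idx F) (hw : (w : Matrix Cfsg.Lie.chevF4.Idx Cfsg.Lie.chevF4.Idx F) = Cfsg.Lie.chevF4.x F 47 1 * Cfsg.Lie.chevF4.x F 44 1) (hv : (v : Matrix Cfsg.Lie.chevF4.Idx Cfsg.Lie.chevF4.Idx F) = Cfsg.Lie.chevF4.x F 39 1 * Cfsg.Lie.chevF4.x F 45 1) :
    Cfsg.Lie.chevF4.group F ⊓ Subgroup.centralizer {w} = Cfsg.Lie.chevF4.posUnipotent F ⊔ Cfsg.Lie.chevF4.rootSubgroup F 20 ⊔ Cfsg.Lie.chevF4.rootSubgroup F 22 ∧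
    Cfsg.Lie.chevF4.group F ⊓ Subgroup.centralizer {v} = Cfsg.Lie.chevF4.rootSubgroup F 33 ⊔ Cfsg.Lie.chevF4.rootSubgroup F 14 ⊔ Cfsg.Lie.chevF4.rootSubgroup F 24 ⊔ Cfsg.Lie.chevF4.rootSubgroup F 23 ⊔
      Subgroup.closure {g : GL Cfsg.Lie.chevF4.Idx F | ∃ (r : ℕ) (c : F), Cfsg.Lie.chevF4.IsPosRoot r ∧ r ∉ [27, 25, 34, 26] ∧ (g : Matrix Cfsg.Lie.chevF4.Idx Cfsg.Lie.chevF4.Idx F) = Cfsg.Lie.chevF4.x F r c} := by
  have hD : Cfsg.Lie.chevF4 ∈ [Cfsg.Lie.chevG2, Cfsg.Lie.chevB2, Cfsg.Lie.chevD4, Cfsg.Lie.chevF4, Cfsg.Lie.chevE6, Cfsg.Lie.chevE7, Cfsg.Lie.chevE8] := by simp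
  obtain ⟨E⟩ := Cfsg.Agent.ChevGrp.DData.nonempty_of_mem hD
  have H := Cfsg.Agent.Chev.good_of_mem hD
  have R := Cfsg.Agent.ChevU.rootFacts hD
  have h1 := Cfsg.Agent.ChevU.centralizer_inv (F := F) R H E Cfsg.Agent.ChevU.CentDat.cw (by intro u hu h; exact Cfsg.Agent.ChevU.F4_fixw H E hu h)
  have h2 := Cfsg.Agent.ChevU.centralizer_inv (F := F) R H E Cfsg.Agent.ChevU.CentDat.cv (by intro u hu h; exact Cfsg.Agent.ChevU.F4_fixv H E hu h)
  have e1 : Cfsg.Agent.ChevU.pl R H [47, 44] (fun _ => (1 : F)) = w := by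
    apply Units.ext; rw [Cfsg.Agent.ChevU.pl_coe, hw]; simp
  have e2 : Cfsg.Agent.ChevU.pl R H [39, 45] (fun _ => (1 : F)) = v := by
    apply Units.ext; rw [Cfsg.Agent.ChevU.pl_coe, hv]; simp
  rw [e1] at h1
  rw [e2] at h2
  rw [h1, h2]
  have n0 : Cfsg.Lie.chevF4.neg (Cfsg.Lie.chevF4.simple 0) = 14 := by decide +kernel
  have n1 : Cfsg.Lie.chevF4.neg (Cfsg.Lie.chevF4.simple 1) = 20 := by decide +kernel
  have n2 : Cfsg.Lie.chevF4.neg (Cfsg.Lie.chevF4.simple 2) = 22 := by decide +kernel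
  have n3 : Cfsg.Lie.chevF4.neg (Cfsg.Lie.chevF4.simple 3) = 23 := by decide +kernel
  have p33 : Cfsg.Lie.chevF4.IsPosRoot 33 := by decide +kernel
  have p24 : Cfsg.Lie.chevF4.IsPosRoot 24 := by decide +kernel
  constructor
  · rw [Cfsg.Agent.ChevU.rootSubgroup_eq, Cfsg.Agent.ChevU.rootSubgroup_eq, Cfsg.Agent.ChevU.posUnipotent_eq_clo, Cfsg.Agent.ChevU.clo_sup, Cfsg.Agent.ChevU.clo_sup]
    apply Cfsg.Agent.ChevU.clo_congr
    intro s
    simp only [List.map_nil, List.not_mem_nil, not_false_eq_true, and_true, List.mem_cons, or_false, exists_eq_or_imp, exists_eq_left, n1, n2]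
    tauto
  · have e3 : Subgroup.closure {g : GL Cfsg.Lie.chevF4.Idx F | ∃ (r : ℕ) (c : F), Cfsg.Lie.chevF4.IsPosRoot r ∧ r ∉ [27, 25, 34, 26] ∧ (g : Matrix Cfsg.Lie.chevF4.Idx Cfsg.Lie.chevF4.Idx F) = Cfsg.Lie.chevF4.x F r c} =
        Cfsg.Agent.ChevU.clo Cfsg.Lie.chevF4 F (fun r => Cfsg.Lie.chevF4.IsPosRoot r ∧ r ∉ [27, 25, 34, 26]) := by
      unfold Cfsg.Agent.ChevU.clo
      congr 1
      ext g
      constructor
      · rintro ⟨r, c, h1, h2, h3⟩; exact ⟨r, c, ⟨h1, h2⟩, h3⟩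
      · rintro ⟨r, c, ⟨h1, h2⟩, h3⟩; exact ⟨r, c, h1, h2, h3⟩
    rw [e3, Cfsg.Agent.ChevU.rootSubgroup_eq, Cfsg.Agent.ChevU.rootSubgroup_eq, Cfsg.Agent.ChevU.rootSubgroup_eq, Cfsg.Agent.ChevU.rootSubgroup_eq, Cfsg.Agent.ChevU.clo_sup, Cfsg.Agent.ChevU.clo_sup, Cfsg.Agent.ChevU.clo_sup, Cfsg.Agent.ChevU.clo_sup]
    apply Cfsg.Agent.ChevU.clo_congr
    intro s
    simp only [List.map_cons, List.map_nil, List.mem_cons, List.not_mem_nil, or_false, exists_eq_or_imp, exists_eq_left, n0, n3]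
    constructor
    · rintro (⟨h, h'⟩ | rfl | rfl)
      · right; exact ⟨h, by tauto⟩
      · left; left; left; right; rfl
      · left; right; rfl
    · rintro ((((rfl | rfl) | rfl) | rfl) | ⟨h, h'⟩)
      · left; exact ⟨p33, by decide⟩
      · right; left; rfl
      · left; exact ⟨p24, by decide⟩
      · right; right; rfl
      · left; exact ⟨h, by tauto⟩

end Cfsg.Agent.S2179
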