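import Cfsg.Statements.S2180
import Cfsg.Agent.ChevU.CentCls

set_option autoImplicit false
open Cfsg

namespace Cfsg.Agent.S2180

/-- Centralizers of involutions in the Chevalley group G of type G₂ over a finite field F of characteristic two with at least four elements (this problem's root numbering for type G₂, from the Chevalley data module: a = p₁ short with index 7, b = p₂ long with index 6, −a = 4, −b = 5, 2a + b = 9, 3a + b = 10, 3a + 2b = 11; U generated by the positive root subgroups). For an element z of G with matrix x_{3a+2b}(1): the centralizer of z in G is generated by U and X_{−a}. For an element t of G with matrix x_{2a+b}(1): the centralizer of t in G is generated by X_{2a+b}, X_{3a+b}, X_{3a+2b}, X_b and X_{−b}. -/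
theorem result {F : Type*} [Field F] [Fintype F] [CharP F 2] (hF : 4 ≤ Fintype.card F) (z t : GL Cfsg.Lie.chevG2.Idx F) (hz : (z : Matrix Cfsg.Lie.chevG2.Idx Cfsg.Lie.chevG2.Idx F) = Cfsg.Lie.chevG2.x F 11 1) (ht : (t : Matrix Cfsg.Lie.chevG2.Idx Cfsg.Lie.chevG2.Idx F) = Cfsg.Lie.chevG2.x F 9 1) :
    Cfsg.Lie.chevG2.group F ⊓ Subgroup.centralizer {z} = Cfsg.Lie.chevG2.posUnipotent F ⊔ Cfsg.Lie.chevG2.rootSubgroup F 4 ∧
    Cfsg.Lie.chevG2.group F ⊓ Subgroup.centralizer {t} = Cfsg.Lie.chevG2.rootSubgroup F 9 ⊔ Cfsg.Lie.chevG2.rootSubgroup F 10 ⊔ Cfsg.Lie.chevG2.rootSubgroup F 11 ⊔ Cfsg.Lie.chevG2.rootSubgroup F 6 ⊔ Cfsg.Lie.chevG2.rootSubgroup F 5 := by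
  have hD : Cfsg.Lie.chevG2 ∈ [Cfsg.Lie.chevG2, Cfsg.Lie.chevB2, Cfsg.Lie.chevD4, Cfsg.Lie.chevF4, Cfsg.Lie.chevE6, Cfsg.Lie.chevE7, Cfsg.Lie.chevE8] := by simp
  obtain ⟨E⟩ := Cfsg.Agent.ChevGrp.DData.nonempty_of_mem hD
  have H := Cfsg.Agent.Chev.good_of_mem hD
  have R := Cfsg.Agent.ChevU.rootFacts hD
  have h1 := Cfsg.Agent.ChevU.centralizer_inv (F := F) R H E Cfsg.Agent.ChevU.CentDat.cz (by intro u _ h s hs; have h3 := h s hs; rw [List.mem_singleton] at hs; subst hs; simpa using h3)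
  have h2 := Cfsg.Agent.ChevU.centralizer_inv (F := F) R H E Cfsg.Agent.ChevU.CentDat.ct (by intro u hu h; exact Cfsg.Agent.ChevU.G2_fix E hu h)
  have e1 : Cfsg.Agent.ChevU.pl R H [11] (fun _ => (1 : F)) = z := by
    apply Units.ext; rw [Cfsg.Agent.ChevU.pl_coe, hz]; simp
  have e2 : Cfsg.Agent.ChevU.pl R H [9] (fun _ => (1 : F)) = t := by
    apply Units.ext; rw [Cfsg.Agent.ChevU.pl_coe, ht]; simp
  rw [e1] at h1
  rw [e2] at h2
  rw [h1, h2]
  have n0 : Cfsg.Lie.chevG2.neg (Cfsg.Lie.chevG2.simple 0) = 4 := by decide +kernel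
  have n1 : Cfsg.Lie.chevG2.neg (Cfsg.Lie.chevG2.simple 1) = 5 := by decide +kernel
  have hn : Cfsg.Lie.chevG2.nroots = 12 := by decide +kernel
  have hpos : ∀ s, Cfsg.Lie.chevG2.IsPosRoot s ↔ (s = 6 ∨ s = 7 ∨ s = 8 ∨ s = 9 ∨ s = 10 ∨ s = 11) := by
    intro s
    constructor
    · intro h
      have h3 := h.1
      rw [hn] at h3
      have h4 : (List.range 12).all (fun s => !(decide (Cfsg.Lie.chevG2.IsPosRoot s)) || decide (s = 6 ∨ s = 7 ∨ s = 8 ∨ s = 9 ∨ s = 10 ∨ s = 11)) = true := by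
        decide +kernel
      rw [List.all_eq_true] at h4
      have h5 := h4 s (List.mem_range.2 h3)
      rw [Bool.or_eq_true, Bool.not_eq_true', decide_eq_false_iff_not, decide_eq_true_iff] at h5
      exact h5.resolve_left (fun h6 => h6 h)
    · rintro (rfl | rfl | rfl | rfl | rfl | rfl) <;> decide +kernel
  constructor
  · rw [Cfsg.Agent.ChevU.rootSubgroup_eq, Cfsg.Agent.ChevU.posUnipotent_eq_clo, Cfsg.Agent.ChevU.clo_sup]
    apply Cfsg.Agent.ChevU.clo_congr
    intro s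
    simp only [List.map_nil, List.not_mem_nil, not_false_eq_true, and_true, List.mem_cons, or_false, exists_eq_left, n0]
  · rw [Cfsg.Agent.ChevU.rootSubgroup_eq, Cfsg.Agent.ChevU.rootSubgroup_eq, Cfsg.Agent.ChevU.rootSubgroup_eq, Cfsg.Agent.ChevU.rootSubgroup_eq, Cfsg.Agent.ChevU.rootSubgroup_eq, Cfsg.Agent.ChevU.clo_sup, Cfsg.Agent.ChevU.clo_sup, Cfsg.Agent.ChevU.clo_sup, Cfsg.Agent.ChevU.clo_sup]
    apply Cfsg.Agent.ChevU.clo_congr
    intro s
    simp only [List.map_cons, List.map_nil, List.mem_cons, List.not_mem_nil, or_false, exists_eq_left, n1, hpos]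
    omega

end Cfsg.Agent.S2180
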