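import Cfsg.Statements.S2185
import Cfsg.Agent.H11.F4Syl

set_option autoImplicit false
open Cfsg

namespace Cfsg.Agent.S2185


open Cfsg.Lie Cfsg.Agent.Tw4 Cfsg.Agent.Tw3 Cfsg.Agent.ChevGrp

lemma zp2 {G : Type*} [Group G] {g : G} (h : g * g = 1) : IsPGroup 2 ↥(Subgroup.zpowers g) := by
  rintro ⟨x, k, rfl⟩
  refine ⟨1, Subtype.ext ?_⟩
  show (g ^ k) ^ (2 ^ 1) = 1
  rw [pow_one, sq, ← (Commute.refl g).mul_zpow, h, one_zpow]

lemma main (Tw : Subgroup (GL chevF4.Idx (ZMod 2))) (Z : Sg (ZMod 2)) (hcG : Nat.card ↥Tw = 2 ^ 12 * 8775)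
    (hcU : Nat.card ↥(chevF4.posUnipotent (ZMod 2) ⊓ Tw) = 2 ^ 12)
    (hG1 : (twF Z).G1 = Tw.subgroupOf (chevF4.group (ZMod 2))) (hle : Tw ≤ chevF4.group (ZMod 2))
    (g : ↥Tw) (hgg : g * g = 1) : g ∈ commutator ↥Tw := by
  have hU1 : (out (twF Z)).U = chevF4.posUnipotent (ZMod 2) ⊓ Tw := out_U (T := twF Z) hle hG1
  have hUc : Nat.card ↥((chevF4.posUnipotent (ZMod 2) ⊓ Tw).subgroupOf Tw) = 2 ^ 12 := by
    rw [Nat.card_congr (Subgroup.subgroupOfEquivOfLe inf_le_right).toEquiv, hcU]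
  have hfin : Finite ↥Tw := Nat.finite_of_card_ne_zero (by rw [hcG]; norm_num)
  have hidx : ((chevF4.posUnipotent (ZMod 2) ⊓ Tw).subgroupOf Tw).index = 8775 := by
    have h1 := Subgroup.card_mul_index ((chevF4.posUnipotent (ZMod 2) ⊓ Tw).subgroupOf Tw)
    rw [hUc, hcG] at h1
    exact Nat.eq_of_mul_eq_mul_left (by norm_num) h1
  have hp : IsPGroup 2 ↥((chevF4.posUnipotent (ZMod 2) ⊓ Tw).subgroupOf Tw) := IsPGroup.of_card hUc
  let P : Sylow 2 ↥Tw := hp.toSylow (by rw [hidx]; norm_num)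
  have hg1 : IsPGroup 2 ↥(Subgroup.zpowers g) := zp2 hgg
  obtain ⟨Q, hQ⟩ := hg1.exists_le_sylow
  obtain ⟨h, hh⟩ := MulAction.exists_smul_eq ↥Tw Q P
  have hmem : h * g * h⁻¹ ∈ (chevF4.posUnipotent (ZMod 2) ⊓ Tw).subgroupOf Tw := by
    have h1 : h * g * h⁻¹ ∈ ((h • Q : Sylow 2 ↥Tw) : Subgroup ↥Tw) := by
      rw [Sylow.coe_subgroup_smul]
      exact Subgroup.smul_mem_pointwise_smul g (MulAut.conj h) _ (hQ (Subgroup.mem_zpowers g))
    rw [hh] at h1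
    exact h1
  have h2 : ((h * g * h⁻¹ : ↥Tw) : GL chevF4.Idx (ZMod 2)) ∈ (out (twF Z)).U := by
    rw [hU1]
    exact Subgroup.mem_subgroupOf.1 hmem
  unfold out at h2
  rw [RGrp.mapR_U] at h2
  obtain ⟨y, hy, hye⟩ := h2
  have h3 : (y : GL chevF4.Idx (ZMod 2)) = ((h * g * h⁻¹ : ↥Tw) : GL chevF4.Idx (ZMod 2)) := hye
  have hyy : y * y = 1 := by
    apply Subtype.ext
    have h4 : (h * g * h⁻¹) * (h * g * h⁻¹) = 1 := by
      calc (h * g * h⁻¹) * (h * g * h⁻¹) = h * (g * g) * h⁻¹ := by group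
        _ = 1 := by rw [hgg]; group
    rw [Subgroup.coe_mul, h3, ← Subgroup.coe_mul, h4]; rfl
  have h4 : (y : GL chevF4.Idx (ZMod 2)) ∈ ⁅Tw, Tw⁆ := by
    have h5 := Subgroup.mem_map_of_mem (chevF4.group (ZMod 2)).subtype (Cfsg.Agent.H11.Bit.U_inv Z hy hyy)
    rw [Subgroup.map_commutator, hG1, Subgroup.map_subgroupOf_eq_of_le hle] at h5
    exact h5
  rw [h3, ← Subgroup.map_subtype_commutator] at h4
  obtain ⟨w, hw, hwe⟩ := h4
  have h6 : w = h * g * h⁻¹ := Subtype.ext hwe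
  rw [h6] at hw
  have h7 := (inferInstance : (commutator ↥Tw).Normal).conj_mem _ hw h⁻¹
  have h8 : h⁻¹ * (h * g * h⁻¹) * h⁻¹⁻¹ = g := by group
  rwa [h8] at h7

/-- In the group ²F₄(2) (realised inside the Chevalley group of type F₄ over the field with two elements, θ the identity) every element of order 2 lies in the commutator subgroup (the Tits group, of index 2): there are no involutions outside it. -/
theorem result (g : ↥(Cfsg.Lie.twistedF4 (ZMod 2) 1)) (hg : orderOf g = 2) :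
    g ∈ commutator ↥(Cfsg.Lie.twistedF4 (ZMod 2) 1) := by
  have hK : Fintype.card (ZMod 2) = 2 ^ (2 * 0 + 1) := by decide
  obtain ⟨Z, hZ⟩ := exists_Sg hK
  have hcU := card_U_F4 hK
  have hcG := card_F4 hK
  exact main (Cfsg.Lie.twistedF4 (ZMod 2) 1) Z (hcG.trans (by norm_num)) (hcU.trans (by norm_num)) (G1_F4 Z hZ)
    hle_F4 g (by
      have h1 := pow_orderOf_eq_one g
      have h2 : g ^ orderOf g = g ^ 2 := congrArg (fun k => g ^ k) hg
      rw [← sq, ← h2]; exact h1)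

end Cfsg.Agent.S2185
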