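import Cfsg.Statements.S2205
import Cfsg.Agent.H15PSq.Final

set_option autoImplicit false
open Cfsg

namespace Cfsg.Agent.S2205

/-- A finite group acting faithfully and 2-transitively on a set with p² + 1 points, p a prime, is doubly primitive — a point stabilizer acts primitively on the remaining p² points — unless p = 2 and the group is the Frobenius group of order 20. -/
theorem result {G Ω : Type*} [Group G] [Finite G] [Fintype Ω] [MulAction G Ω] [FaithfulSMul G Ω] (p : ℕ) (hp : p.Prime) (hΩ : Fintype.card Ω = p ^ 2 + 1) (h2 : MulAction.IsMultiplyPretransitive G Ω 2) (a : Ω) :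
    MulAction.IsPreprimitive ↥(MulAction.stabilizer G a) ↥(SubMulAction.ofStabilizer G a) ∨ (p = 2 ∧ Nat.card G = 20) := by
  classical
  haveI : Fact p.Prime := ⟨hp⟩
  have hyp : H15PSq.Hyp G Ω p :=
    ⟨by rw [Nat.card_eq_fintype_card, hΩ],
      fun a b c d hab hcd => MulAction.is_two_pretransitive_iff.1 h2 hab hcd⟩
  by_contra hcon
  push Not at hcon
  obtain ⟨hnp, hnot⟩ := hcon
  apply hnp
  apply H15PSq.prim_or hyp
  intro R hR
  by_cases hodd : p = 2
  · obtain ⟨a, b, P, x, s, D⟩ := H15PSq.exists_CA hyp hR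
    exact hnot hodd (D.card_of_two hodd)
  · exact H15PSq.no_odd hodd R (Nat.card G) G rfl hyp hR

end Cfsg.Agent.S2205
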