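import Cfsg.Statements.S2214
import Cfsg.Agent.AutChev.Fix2
-- import your own Cfsg.Agent.* helpers here

set_option autoImplicit false
open Cfsg

namespace Cfsg.Agent.S2214

open Cfsg.Lie Cfsg.Agent.Chev Cfsg.Agent.ChevGrp Cfsg.Agent.AutChev Cfsg.Agent.ChevU in
/-- Let k be an algebraically closed field of prime characteristic p, G the adjoint Chevalley group of type G₂, B₂, D₄, F₄, E₆, E₇ or E₈ over k (the matrix group generated by the root elements x_s(t), t ∈ k, acting on the Lie algebra), q = p^a with a ≥ 1, and K a subgroup of G containing every root element x_s(t) with t^q = t and consisting of matrices all of whose entries c satisfy c^q = c. Then the centralizer of K in G is trivial, and the normalizer of K in G is exactly the set of elements of G all of whose entries c satisfy c^q = c. -/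
theorem result {k : Type*} [Field k] [IsAlgClosed k] (p : ℕ) [Fact p.Prime] [CharP k p] (D : Cfsg.Lie.ChevalleyDatum) (hD : D ∈ [Cfsg.Lie.chevG2, Cfsg.Lie.chevB2, Cfsg.Lie.chevD4, Cfsg.Lie.chevF4, Cfsg.Lie.chevE6, Cfsg.Lie.chevE7, Cfsg.Lie.chevE8]) (a : ℕ) (ha : 1 ≤ a) (K : Subgroup (GL D.Idx k)) (hKG : K ≤ D.group k)
    (hLK : Subgroup.closure {g : GL D.Idx k | ∃ (s : ℕ) (t : k), t ^ (p ^ a) = t ∧ (g : Matrix D.Idx D.Idx k) = D.x k s t} ≤ K)
    (hKfix : ∀ g ∈ K, ∀ i j : D.Idx, ((g : Matrix D.Idx D.Idx k) i j) ^ (p ^ a) = (g : Matrix D.Idx D.Idx k) i j) :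
    D.group k ⊓ Subgroup.centralizer (K : Set (GL D.Idx k)) = ⊥ ∧
    ∀ g : GL D.Idx k, g ∈ D.group k → (g ∈ Subgroup.normalizer (K : Set (GL D.Idx k)) ↔ ∀ i j : D.Idx, ((g : Matrix D.Idx D.Idx k) i j) ^ (p ^ a) = (g : Matrix D.Idx D.Idx k) i j) := by
  have H := good_of_mem hD
  obtain ⟨E⟩ := DData.nonempty_of_mem hD
  obtain ⟨R⟩ := nonempty_rootFacts hD
  have : ExpChar k p := ExpChar.prime Fact.out
  obtain ⟨σ, hσ⟩ : ∃ σ : k ≃+* k, ∀ t, σ t = t ^ p ^ a := ⟨iterateFrobeniusEquiv k p a, fun t => iterateFrobeniusEquiv_apply k p a t⟩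
  have hLK' : Lsub H σ ≤ K.subgroupOf (D.group k) := by
    unfold Lsub
    rw [Subgroup.closure_le]
    rintro _ ⟨r, t, hr, ht, rfl⟩
    rw [SetLike.mem_coe, Subgroup.mem_subgroupOf]
    exact hLK (Subgroup.subset_closure ⟨r, t, by rw [← hσ, ht], rfl⟩)
  have hK' : ∀ x ∈ K.subgroupOf (D.group k), fAut D σ x = x := by
    intro x hx
    rw [fixed_iff]
    intro i j
    rw [hσ]
    exact hKfix x (Subgroup.mem_subgroupOf.1 hx) i j
  constructor
  · rw [eq_bot_iff]
    rintro c ⟨hc1, hc2⟩
    rw [Subgroup.mem_bot]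
    have h1 : (⟨c, hc1⟩ : ↥(D.group k)) = 1 := by
      apply centralizer_L E H R σ
      intro x hx
      have h2 := Subgroup.mem_subgroupOf.1 (hLK' hx)
      have h3 := Subgroup.mem_centralizer_iff.1 hc2 x h2
      apply Subtype.ext
      show c * x * c⁻¹ = x
      rw [← h3, mul_inv_cancel_right]
    exact congrArg Subtype.val h1
  · intro g hg
    have h1 := mem_normalizer_iff_fixed E H R σ hLK' hK' ⟨g, hg⟩
    have h2 : (⟨g, hg⟩ : ↥(D.group k)) ∈ Subgroup.normalizer ((K.subgroupOf (D.group k) : Subgroup ↥(D.group k)) : Set ↥(D.group k)) ↔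
        g ∈ Subgroup.normalizer (K : Set (GL D.Idx k)) := by
      rw [Subgroup.mem_normalizer_iff, Subgroup.mem_normalizer_iff]
      constructor
      · intro h x
        constructor
        · intro hx
          exact Subgroup.mem_subgroupOf.1 ((h ⟨x, hKG hx⟩).1 (Subgroup.mem_subgroupOf.2 hx))
        · intro hx
          have hxG : x ∈ D.group k := by
            have h3 := (D.group k).mul_mem ((D.group k).mul_mem ((D.group k).inv_mem hg) (hKG hx)) hg
            have e : g⁻¹ * (g * x * g⁻¹) * g = x := by group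
            rwa [e] at h3
          exact Subgroup.mem_subgroupOf.1 ((h ⟨x, hxG⟩).2 (Subgroup.mem_subgroupOf.2 hx))
      · intro h x
        rw [Subgroup.mem_subgroupOf, Subgroup.mem_subgroupOf]
        exact h x
    rw [← h2, h1, fixed_iff]
    exact forall₂_congr fun i j => by rw [hσ]

end Cfsg.Agent.S2214
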