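import Cfsg.Statements.S2221
import Cfsg.Agent.Syl2A.Dec3
-- import your own Cfsg.Agent.* helpers here

set_option autoImplicit false
open Cfsg

namespace Cfsg.Agent.S2221

open Cfsg.Agent.Syl2A

/-- Direct decomposability of the Sylow 2-subgroups of the alternating groups. Let n ≥ 4 and let P be a Sylow 2-subgroup of the alternating group of degree n. Then P is the internal direct product of two nontrivial subgroups if and only if n = 4, n = 5, or n ≡ 2, 3 (mod 4) with 4⌊n/4⌋ not a power of 2. In the remaining cases (n ≡ 0, 1 (mod 4) with n ≥ 8, or n ≡ 2, 3 (mod 4) with 4⌊n/4⌋ a power of 2) P is directly indecomposable. -/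
theorem result (n : ℕ) (hn : 4 ≤ n)
    (P : Sylow 2 (alternatingGroup (Fin n))) :
    (∃ S₁ S₂ : Subgroup (alternatingGroup (Fin n)), S₁ ≠ ⊥ ∧ S₂ ≠ ⊥ ∧
        Cfsg.IsInternalDirectProduct S₁ S₂ (P : Subgroup (alternatingGroup (Fin n)))) ↔
      (n = 4 ∨ n = 5 ∨ ((n % 4 = 2 ∨ n % 4 = 3) ∧ ∀ r : ℕ, 4 * (n / 4) ≠ 2 ^ r)) := by
  classical
  obtain ⟨m, hm⟩ : ∃ m, m = n / 2 := ⟨_, rfl⟩
  have hm2 : 2 ≤ m := by omega
  have hcard : Fintype.card ((Fin m × ZMod 2) ⊕ Fin (n % 2)) = Fintype.card (Fin n) := by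
    rw [Fintype.card_sum, Fintype.card_prod, Fintype.card_fin, Fintype.card_fin, Fintype.card_fin, ZMod.card]
    omega
  let e : (Fin m × ZMod 2) ⊕ Fin (n % 2) ≃ Fin n := Fintype.equivOfCardEq hcard
  let T : Sylow 2 (Equiv.Perm (Fin m)) := default
  let Ψ : WE (Fin m) →* Equiv.Perm (Fin n) :=
    (e.permCongrHom.toMonoidHom.comp
      ((Equiv.Perm.sumCongrHom (Fin m × ZMod 2) (Fin (n % 2))).comp (MonoidHom.inl _ _))).comp pmHom
  have hΨ : ∀ x, Ψ x = e.permCongr (Equiv.sumCongr (pmHom x) 1) := fun x => rfl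
  have hΨi : Function.Injective Ψ := by
    intro x y h
    apply pm_inj
    rw [hΨ, hΨ] at h
    have h1 := e.permCongr.injective h
    apply Equiv.ext
    intro z
    have h2 := congrArg (fun g : Equiv.Perm ((Fin m × ZMod 2) ⊕ Fin (n % 2)) => g (Sum.inl z)) h1
    exact Sum.inl_injective h2
  have hΨs : ∀ x, Equiv.Perm.sign (Ψ x) = 1 ↔ ∑ i, x.f i = 0 := by
    intro x
    rw [hΨ, Equiv.Perm.sign_permCongr, Equiv.Perm.sign_sumCongr, Equiv.Perm.sign_one, mul_one, sign_pm]
  -- the hom to the alternating group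
  have hW : ∀ x ∈ WT T, Ψ x ∈ alternatingGroup (Fin n) := by
    intro x hx
    rw [Equiv.Perm.mem_alternatingGroup, hΨs]
    exact hx.2
  let Θ : WT T →* alternatingGroup (Fin n) :=
    { toFun := fun x => ⟨Ψ x.1, hW x.1 x.2⟩
      map_one' := by ext1; exact map_one Ψ
      map_mul' := fun x y => by ext1; exact map_mul Ψ _ _ }
  have hΘi : Function.Injective Θ := by
    intro x y h
    have := congrArg Subtype.val h
    exact Subtype.ext (hΨi this)
  -- cardinalities
  have hcW : Nat.card Θ.range = Nat.card (WT T) := by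
    rw [Nat.card_congr (MonoidHom.ofInjective hΘi).toEquiv]
  have hcA : 2 * Nat.card (alternatingGroup (Fin n)) = n.factorial := by
    haveI : Nontrivial (Fin n) := Fin.nontrivial_iff_two_le.mpr (by omega)
    have := two_mul_nat_card_alternatingGroup (α := Fin n)
    rw [this, Nat.card_eq_fintype_card, Fintype.card_perm, Fintype.card_fin]
  haveI : Nonempty (Fin m) := ⟨⟨0, by omega⟩⟩
  have hcT : Nat.card T = 2 ^ (m.factorial).factorization 2 := by
    rw [Sylow.card_eq_multiplicity, Nat.card_eq_fintype_card, Fintype.card_perm, Fintype.card_fin]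
  have hfac : (n.factorial).factorization 2 = m + (m.factorial).factorization 2 := by
    haveI : Fact (Nat.Prime 2) := ⟨Nat.prime_two⟩
    have e1 : n = 2 * m + n % 2 := by omega
    rw [e1, Nat.factorization_def _ Nat.prime_two, Nat.factorization_def _ Nat.prime_two,
      padicValNat_factorial_mul_add m (Nat.mod_lt n (by norm_num)), padicValNat_factorial_mul, add_comm]
  have hAne : Nat.card (alternatingGroup (Fin n)) ≠ 0 := Nat.card_pos.ne'
  have hfA : (Nat.card (alternatingGroup (Fin n))).factorization 2 + 1 = (n.factorial).factorization 2 := by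
    rw [← hcA, Nat.factorization_mul (by norm_num) hAne, Finsupp.add_apply,
      Nat.Prime.factorization_self Nat.prime_two, add_comm]
  have hcR : Nat.card Θ.range = 2 ^ (Nat.card (alternatingGroup (Fin n))).factorization 2 := by
    rw [hcW]
    have h1 := card_WT T
    rw [hcT, Fintype.card_fin, ← pow_add, ← hfac, ← hfA, pow_succ] at h1
    omega
  let P₀ : Sylow 2 (alternatingGroup (Fin n)) := Sylow.ofCard Θ.range hcR
  have hP₀ : (P₀ : Subgroup (alternatingGroup (Fin n))) = Θ.range := rfl
  have hiff : Dec (P : Subgroup (alternatingGroup (Fin n))) ↔ Dec (WT T) := by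
    rw [dec_iff_dec', dec_iff_dec' (WT T)]
    let e1 : P ≃* P₀ := P.equiv P₀
    let e2 : WT T ≃* P₀ := MonoidHom.ofInjective hΘi
    exact ⟨fun h => dec'_congr e2.symm (dec'_congr e1 h), fun h => dec'_congr e1.symm (dec'_congr e2 h)⟩
  have hmain := dec_iff T (by rw [Fintype.card_fin]; exact hm2)
  rw [Fintype.card_fin] at hmain
  change Dec (P : Subgroup (alternatingGroup (Fin n))) ↔ _
  rw [hiff, hmain]
  constructor
  · rintro (h | ⟨h1, h2⟩)
    · omega
    · right; right
      refine ⟨by omega, ?_⟩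
      intro r hr
      have h3 : 4 * (n / 4) = 2 * (m - 1) := by omega
      rw [h3] at hr
      rcases r with _ | r
      · omega
      · rw [pow_succ] at hr
        exact h2 r (by omega)
  · rintro (h | h | ⟨h1, h2⟩)
    · left; omega
    · left; omega
    · right
      refine ⟨by omega, ?_⟩
      intro k hk
      have h3 : 4 * (n / 4) = 2 * (m - 1) := by omega
      apply h2 (k + 1)
      rw [h3, hk, pow_succ]; ring

end Cfsg.Agent.S2221
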