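import Cfsg.Statements.S2222
import Cfsg.Agent.H37.SymSylow
import Cfsg.Agent.H37.Pronormal

set_option autoImplicit false
open Cfsg

namespace Cfsg.Agent.S2222

/-- In the alternating group of degree n ≥ 5 every subgroup H of odd index is pronormal: for every element g, the subgroups H and gHg⁻¹ are conjugate by an element of the subgroup they generate. -/
theorem result (n : ℕ) (hn : 5 ≤ n)
    (H : Subgroup (alternatingGroup (Fin n))) (hH : Odd H.index) : Cfsg.IsPronormal H := by
  -- a Sylow 2-subgroup of the whole group inside H
  have hcop : ¬ 2 ∣ H.index := fun h => (Nat.not_even_iff_odd.2 hH) (even_iff_two_dvd.2 h)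
  obtain ⟨S, hSH⟩ := H37.exists_sylow_le (p := 2) H hcop
  rcases hn.lt_or_eq with h6 | h5
  · refine H37.isPronormal_of_selfNormalizing S H ?_ hSH
    rw [H37.alt_sylow_two_normalizer (by rw [Fintype.card_fin]; exact h6) S]
    exact hSH
  · subst h5
    have hc : Nat.card (alternatingGroup (Fin 5)) = 60 := by
      have := two_mul_nat_card_alternatingGroup (α := Fin 5)
      rw [Nat.card_eq_fintype_card (α := Equiv.Perm (Fin 5)), Fintype.card_perm, Fintype.card_fin] at this
      have h120 : Nat.factorial 5 = 120 := by decide
      omega
    have hmul := H.card_mul_index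
    rw [hc] at hmul
    have hidx : H.index ∣ 60 := Dvd.intro_left _ hmul
    have hidx' : H.index ∣ 15 := by
      have h60 : (60 : ℕ) = 2 ^ 2 * 15 := by norm_num
      rw [h60] at hidx
      exact Nat.Coprime.dvd_of_dvd_mul_left (Nat.Coprime.pow_right 2 hH.coprime_two_right) hidx
    have hcases : H.index = 1 ∨ H.index = 3 ∨ H.index = 5 ∨ H.index = 15 := by
      have hle : H.index ≤ 15 := Nat.le_of_dvd (by norm_num) hidx'
      generalize H.index = m at *
      interval_cases m <;> revert hidx' <;> decide
    have hprime : H.index = 1 ∨ (H.index).Prime → Cfsg.IsPronormal H := fun hp =>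
      H37.isPronormal_of_maximal H (H37.eq_or_top_of_prime_index H hp)
    rcases hcases with h | h | h | h
    · exact hprime (Or.inl h)
    · exact hprime (Or.inr (by rw [h]; norm_num))
    · exact hprime (Or.inr (by rw [h]; norm_num))
    · have hcH : Nat.card H = 4 := by rw [h] at hmul; omega
      have hSeq : (S : Subgroup (alternatingGroup (Fin 5))) = H := by
        apply Subgroup.eq_of_le_of_card_ge hSH
        rw [hcH, S.card_eq_multiplicity, hc]
        have : (60 : ℕ).factorization 2 = 2 := by
          rw [show (60 : ℕ) = 2 ^ 2 * 15 by norm_num]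
          rw [Nat.factorization_mul (by norm_num) (by norm_num), Nat.Prime.factorization_pow Nat.prime_two]
          simp [Nat.factorization_eq_zero_of_not_dvd (show ¬ 2 ∣ 15 by norm_num)]
        rw [this]; norm_num
      rw [← hSeq]
      exact H37.isPronormal_sylow S

end Cfsg.Agent.S2222
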