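import Cfsg.Statements.S2228
import Cfsg.Agent.LE.J3U.NC

set_option autoImplicit false
open Cfsg

namespace Cfsg.Agent.S2228

/-- Let G be a finite simple group in which all involutions are conjugate and the centralizer of an involution has a normal extraspecial subgroup of order 32 complemented by a subgroup isomorphic to the alternating group of degree 5 (a group of J₃-type). Then a Sylow 19-subgroup of G is self-centralizing with normalizer-quotient cyclic of order 9, and a Sylow 17-subgroup is self-centralizing with normalizer-quotient cyclic of order 8. -/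
theorem result {G : Type*} [Group G] [Finite G] [IsSimpleGroup G]
    (hone : ∀ x y : G, orderOf x = 2 → orderOf y = 2 → IsConj x y)
    (t : G) (ht : orderOf t = 2) (E A : Subgroup ↥(Subgroup.centralizer ({t} : Set G))) [E.Normal]
    (hE : Cfsg.IsExtraspecial 2 ↥E) (hE32 : Nat.card ↥E = 32) (hEA : E.IsComplement' A)
    (eA : ↥A ≃* ↥(alternatingGroup (Fin 5))) :
    (∀ X : Sylow 19 G, Subgroup.centralizer ((X : Subgroup G) : Set G) = X ∧
        ∃ h : ((X : Subgroup G).subgroupOf (Subgroup.normalizer ((X : Subgroup G) : Set G))).Normal,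
          IsCyclic (↥(Subgroup.normalizer ((X : Subgroup G) : Set G)) ⧸ (X : Subgroup G).subgroupOf _) ∧
          Nat.card (↥(Subgroup.normalizer ((X : Subgroup G) : Set G)) ⧸ (X : Subgroup G).subgroupOf _) = 9) ∧
    (∀ Y : Sylow 17 G, Subgroup.centralizer ((Y : Subgroup G) : Set G) = Y ∧
        ∃ h : ((Y : Subgroup G).subgroupOf (Subgroup.normalizer ((Y : Subgroup G) : Set G))).Normal,
          IsCyclic (↥(Subgroup.normalizer ((Y : Subgroup G) : Set G)) ⧸ (Y : Subgroup G).subgroupOf _) ∧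
          Nat.card (↥(Subgroup.normalizer ((Y : Subgroup G) : Set G)) ⧸ (Y : Subgroup G).subgroupOf _) = 8) := by
  have e : (↥(Subgroup.centralizer ({t} : Set G))) ⧸ E ≃* ↥(alternatingGroup (Fin 5)) :=
    hEA.symm.QuotientMulEquiv.trans eA
  obtain ⟨Q, f, y, a, c⟩ := Cfsg.Agent.LE.J3U.exists_c3' ht E hE hE32 e hone
  obtain ⟨φ, -⟩ := c.iso
  have hn := Cfsg.Agent.LE.J3U.numOf φ
  have h19 : Fact (Nat.Prime 19) := ⟨by norm_num⟩
  have h17 : Fact (Nat.Prime 17) := ⟨by norm_num⟩
  constructor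
  · intro X
    obtain ⟨h1, h2, h3⟩ := hn.nineteen (c.noInv (by norm_num) (by norm_num)) X
    obtain ⟨h4, ⟨ψ⟩⟩ := Cfsg.Agent.LE.J3U.quot_of h1
    refine ⟨h1, h4, ?_, ?_⟩
    · have := Cfsg.Agent.LE.J3U.range_cyclic (p := 19) (hn.card19 X)
      exact isCyclic_of_surjective ψ.symm.toMonoidHom ψ.symm.surjective
    · rw [Nat.card_congr ψ.toEquiv, h3]
  · intro Y
    obtain ⟨h1, h2, h3⟩ := hn.seventeen (c.noInv (by norm_num) (by norm_num)) Y
    obtain ⟨h4, ⟨ψ⟩⟩ := Cfsg.Agent.LE.J3U.quot_of h1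
    refine ⟨h1, h4, ?_, ?_⟩
    · have := Cfsg.Agent.LE.J3U.range_cyclic (p := 17) (hn.card17 Y)
      exact isCyclic_of_surjective ψ.symm.toMonoidHom ψ.symm.surjective
    · rw [Nat.card_congr ψ.toEquiv, h3]

end Cfsg.Agent.S2228
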