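import Cfsg.Statements.S2231
import Cfsg.Agent.QdInv.AbSyl
import Cfsg.Agent.H81.SL2Sylow
import Cfsg.Agent.H46.Qd3

set_option autoImplicit false
open Cfsg

namespace Cfsg.Agent.S2231

/-- Let p be an odd prime and K a finite field of characteristic p. Then Qd(p) (the natural semidirect product of an elementary abelian group of order p² by SL₂(p)) is not involved in the projective special linear group PSL₂(K). -/
theorem result {p : ℕ} [Fact p.Prime] (hp : p ≠ 2) {K : Type*} [Field K] [Fintype K] [CharP K p] : ¬ Cfsg.Involves ↥(Cfsg.qd p) (Matrix.ProjectiveSpecialLinearGroup (Fin 2) K) := by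

  intro hi
  have h1 : Cfsg.Agent.QdInv.AbP p (Matrix.SpecialLinearGroup (Fin 2) K) := by
    intro P hP x hx y hy
    obtain ⟨v, hv, hle⟩ := Cfsg.Agent.H81.exists_fixed_vec_sl p P hP
    obtain ⟨g, hg⟩ := Cfsg.Agent.H46.exists_sl2_mulVec v hv
    have hfix : ∀ z ∈ P, ∃ a : K, g⁻¹ * z * g = Cfsg.Agent.H46.sl2U a := by
      intro z hz
      refine Cfsg.Agent.H46.exists_sl2U ?_
      have h2 := Cfsg.Agent.H81.mem_Tsl.1 (hle hz)
      rw [mul_assoc, Matrix.SpecialLinearGroup.coe_mul, ← Matrix.mulVec_mulVec,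
        Matrix.SpecialLinearGroup.coe_mul, ← Matrix.mulVec_mulVec, hg, h2, ← hg,
        Matrix.mulVec_mulVec, ← Matrix.SpecialLinearGroup.coe_mul, inv_mul_cancel,
        Matrix.SpecialLinearGroup.coe_one, Matrix.one_mulVec]
    obtain ⟨a, ha⟩ := hfix x hx
    obtain ⟨b, hb⟩ := hfix y hy
    have h3 : (g⁻¹ * x * g) * (g⁻¹ * y * g) = (g⁻¹ * y * g) * (g⁻¹ * x * g) := by
      rw [ha, hb, Cfsg.Agent.H46.sl2U_mul, Cfsg.Agent.H46.sl2U_mul, add_comm]
    have h4 : g⁻¹ * (x * y) * g = g⁻¹ * (y * x) * g := by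
      calc g⁻¹ * (x * y) * g = (g⁻¹ * x * g) * (g⁻¹ * y * g) := by group
        _ = (g⁻¹ * y * g) * (g⁻¹ * x * g) := h3
        _ = _ := by group
    exact mul_left_cancel (mul_right_cancel h4)
  have h2 : Cfsg.Agent.QdInv.AbP p (Matrix.ProjectiveSpecialLinearGroup (Fin 2) K) :=
    h1.surj (QuotientGroup.mk' _) (QuotientGroup.mk'_surjective _)
  have h3 : Cfsg.Agent.QdInv.AbP p ↥(Cfsg.qdOver (ZMod p)) := h2.involves hi
  have h4 := h3 (Cfsg.Agent.H46.uniS (ZMod p)) Cfsg.Agent.H46.uniS_isPGroup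
    (Cfsg.Agent.H46.uniE 1 0 0) (Cfsg.Agent.H46.uniE_mem _ _ _)
    (Cfsg.Agent.H46.uniE 0 1 0) (Cfsg.Agent.H46.uniE_mem _ _ _)
  rw [Cfsg.Agent.H46.uniE_mul, Cfsg.Agent.H46.uniE_mul] at h4
  have h5 := (Cfsg.Agent.H46.uniE_injective h4).2.2
  simp at h5

end Cfsg.Agent.S2231
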