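import Cfsg.Statements.S2244
import Cfsg.Agent.ChevU.WeakAll

set_option autoImplicit false
open Cfsg

namespace Cfsg.Agent.S2244

/-- Weakly closed unipotent subgroups of Chevalley groups: let G be the Chevalley group of type G₂, B₂, D₄, F₄, E₆, E₇ or E₈ over a finite field F (the matrix group generated by the root elements), with |F| ≠ 2, and |F| ≠ 3 as well for the types G₂, B₂, D₄, F₄. Let U be the subgroup generated by the positive root subgroups. If X ≤ U is weakly closed in U with respect to G (every G-conjugate of X lying in U equals X), then X is the unipotent radical U_J of a standard parabolic subgroup for some set J of fundamental roots. -/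
theorem result {F : Type*} [Field F] [Fintype F] (D : Cfsg.Lie.ChevalleyDatum) (hD : D ∈ [Cfsg.Lie.chevG2, Cfsg.Lie.chevB2, Cfsg.Lie.chevD4, Cfsg.Lie.chevF4, Cfsg.Lie.chevE6, Cfsg.Lie.chevE7, Cfsg.Lie.chevE8])
    (h2 : Fintype.card F ≠ 2) (h3 : D ∈ [Cfsg.Lie.chevG2, Cfsg.Lie.chevB2, Cfsg.Lie.chevD4, Cfsg.Lie.chevF4] → Fintype.card F ≠ 3)
    (X : Subgroup (GL D.Idx F)) (hXU : X ≤ D.posUnipotent F)
    (hwc : ∀ g ∈ D.group F, X.map (MulAut.conj g).toMonoidHom ≤ D.posUnipotent F → X.map (MulAut.conj g).toMonoidHom = X) :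
    ∃ J : Set ℕ, (∀ j ∈ J, j < D.rank) ∧ X = D.unipotentRadical F J := by
  have hD' := hD
  obtain ⟨E⟩ := Cfsg.Agent.ChevGrp.DData.nonempty_of_mem hD
  set R := Cfsg.Agent.ChevU.rootFacts hD with hR
  set G := Cfsg.Agent.Chev.good_of_mem hD with hG
  have hc1 : 1 < Fintype.card F := Fintype.one_lt_card
  have ha3 : ∃ t : Fˣ, t ≠ 1 := by
    have h1 : 1 < Nat.card Fˣ := by rw [Nat.card_units, Nat.card_eq_fintype_card]; omega
    have : Nontrivial Fˣ := Finite.one_lt_card_iff_nontrivial.mp h1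
    exact exists_ne 1
  have ha4 : Fintype.card F ≠ 3 → ∃ t : Fˣ, t ≠ 1 ∧ t ^ 2 ≠ 1 := by
    intro h3
    obtain ⟨g, hg⟩ := IsCyclic.exists_ofOrder_eq_natCard (α := Fˣ)
    rw [Nat.card_units, Nat.card_eq_fintype_card] at hg
    refine ⟨g, ?_, ?_⟩
    · rintro rfl
      rw [orderOf_one] at hg
      omega
    · intro h
      have h2 := orderOf_le_of_pow_eq_one (by norm_num : 0 < 2) h
      omega
  have key : Cfsg.Agent.ChevU.RootMem R G F ∧ Cfsg.Agent.ChevU.SepT D F := by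
    obtain ⟨t, ht⟩ := ha3
    have hnt : ∃ a : F, a ≠ 0 ∧ a ≠ 1 := ⟨t, t.ne_zero, fun h => ht (Units.ext h)⟩
    have e1 : ∀ a ∈ ([1, -1] : List ℤ), t ^ a ≠ 1 := by
      intro a ha
      simp only [List.mem_cons, List.not_mem_nil, or_false] at ha
      rcases ha with rfl | rfl
      · simpa using ht
      · simpa using ht
    have e2 : Fintype.card F ≠ 3 → ∃ t : Fˣ, (∀ a ∈ ([1, -1, 2, -2] : List ℤ), t ^ a ≠ 1) ∧ t ^ 2 ≠ 1 := by
      intro h3
      obtain ⟨s, hs, hs2⟩ := ha4 h3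
      refine ⟨s, ?_, hs2⟩
      intro a ha
      simp only [List.mem_cons, List.not_mem_nil, or_false] at ha
      have hs2' : s ^ (2 : ℤ) ≠ 1 := by
        intro h
        apply hs2
        exact_mod_cast h
      rcases ha with rfl | rfl | rfl | rfl
      · simpa using hs
      · simpa using hs
      · exact hs2'
      · rw [zpow_neg]
        simpa using hs2
    simp only [List.mem_cons, List.not_mem_nil, or_false] at hD' h3
    rcases hD' with rfl | rfl | rfl | rfl | rfl | rfl | rfl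
    · obtain ⟨s, hs, hs2⟩ := e2 (h3 (by tauto))
      refine ⟨Cfsg.Agent.ChevU.rootMem_G2 R G ⟨s, s.ne_zero, fun h => hs2 (Units.ext (by rw [Units.val_pow_eq_pow_val]; exact h))⟩,
        Cfsg.Agent.ChevU.sepT_of_check Cfsg.Agent.ChevU.sep_G2 s hs⟩
    · obtain ⟨s, hs, hs2⟩ := e2 (h3 (by tauto))
      exact ⟨Cfsg.Agent.ChevU.rootMem_of_cert R G (fun r => Cfsg.Agent.ChevU.hasCert_of_chkAll Cfsg.Agent.ChevU.chk_B2) hnt,
        Cfsg.Agent.ChevU.sepT_of_check Cfsg.Agent.ChevU.sep_B2 s hs⟩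
    · obtain ⟨s, hs, hs2⟩ := e2 (h3 (by tauto))
      exact ⟨Cfsg.Agent.ChevU.rootMem_of_cert R G (fun r => Cfsg.Agent.ChevU.hasCert_of_chkSimple Cfsg.Agent.ChevU.chk_D4) hnt,
        Cfsg.Agent.ChevU.sepT_of_check Cfsg.Agent.ChevU.sep_D4 s hs⟩
    · obtain ⟨s, hs, hs2⟩ := e2 (h3 (by tauto))
      exact ⟨Cfsg.Agent.ChevU.rootMem_of_cert R G (fun r => Cfsg.Agent.ChevU.hasCert_of_chkAll Cfsg.Agent.ChevU.chk_F4) hnt,
        Cfsg.Agent.ChevU.sepT_of_check Cfsg.Agent.ChevU.sep_F4 s hs⟩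
    · exact ⟨Cfsg.Agent.ChevU.rootMem_of_cert R G (fun r => Cfsg.Agent.ChevU.hasCert_of_chkSimple Cfsg.Agent.ChevU.chk_E6) hnt,
        Cfsg.Agent.ChevU.sepT_of_check Cfsg.Agent.ChevU.sep_E6 t e1⟩
    · exact ⟨Cfsg.Agent.ChevU.rootMem_of_cert R G (fun r => Cfsg.Agent.ChevU.hasCert_of_chkSimple Cfsg.Agent.ChevU.chk_E7) hnt,
        Cfsg.Agent.ChevU.sepT_of_check Cfsg.Agent.ChevU.sep_E7 t e1⟩
    · exact ⟨Cfsg.Agent.ChevU.rootMem_of_cert R G (fun r => Cfsg.Agent.ChevU.hasCert_of_chkSimple Cfsg.Agent.ChevU.chk_E8) hnt,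
        Cfsg.Agent.ChevU.sepT_of_check Cfsg.Agent.ChevU.sep_E8 t e1⟩
  exact Cfsg.Agent.ChevU.weakly_closed R G E key.1 key.2 hXU hwc

end Cfsg.Agent.S2244
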