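import Cfsg.Statements.S2245
import Mathlib
import Cfsg.Agent.H38.SylowMax

set_option autoImplicit false
open Cfsg

namespace Cfsg.Agent.S2245

open MulAction Equiv Cfsg.Agent.H38 Cfsg.Agent.H38.SylowMax
open scoped Pointwise

theorem unique_of {n : ℕ} {G : Type*} [Group G] [MulAction G (Fin n)] (hG : Nice n G) [Finite G] (P : Sylow 2 G) (k : ℕ)
    (hk : 2 ≤ k) (hn : n = 2 ^ k + 1)
    (hJ : ∀ M : Subgroup G, (P : Subgroup G) ≤ M → IsMultiplyPretransitive M (Fin n) 2 → M = ⊤) :
    ∃! M : Subgroup G, IsCoatom M ∧ (P : Subgroup G) ≤ M := by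
  classical
  have h4 : 4 ≤ 2 ^ k := by
    calc 4 = 2 ^ 2 := by norm_num
      _ ≤ 2 ^ k := Nat.pow_le_pow_right (by norm_num) hk
  have hodd : Odd n := by
    rw [hn]
    apply Even.add_one
    rw [Nat.even_pow]; exact ⟨even_two, by omega⟩
  obtain ⟨s1, hRs1⟩ := fixed_subset (n := n) (P : Subgroup G) P.isPGroup' 1 (by rw [Nat.choose_one_right]; exact hodd)
  have hcard1 : (s1 : Finset (Fin n)).card = 1 := s1.2
  obtain ⟨x, hx⟩ := Finset.card_eq_one.1 hcard1
  rw [hx] at hRs1
  have hco1 : IsCoatom (stabilizer G (({x} : Finset (Fin n)) : Set (Fin n))) := by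
    apply hG.coatom
    · exact ⟨x, by simp⟩
    · obtain ⟨y, hy⟩ := exists_notMem_finset ({x} : Finset (Fin n)) (by simp; omega)
      exact ⟨y, hy⟩
    · intro h
      exact (Nat.not_even_iff_odd.2 hodd) ⟨_, by rw [h]; ring⟩
  have hfixx : ∀ g : G, g ∈ stabilizer G (({x} : Finset (Fin n)) : Set (Fin n)) ↔ g • x = x := by
    intro g
    rw [mem_stabilizer_iff, ← Finset.coe_smul_finset, Finset.coe_inj, Finset.smul_finset_singleton, Finset.singleton_inj]
  have hPx : ∀ r ∈ P, r • x = x := fun r hr => (hfixx r).1 (hRs1 hr)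
  -- `P` is transitive on the other points
  have hPtr : ∀ y z, y ≠ x → z ≠ x → ∃ r ∈ P, r • y = z := by
    intro y z hy hz
    let O : Finset (Fin n) := (orbit (P : Subgroup G) y).toFinite.toFinset
    have hO : ∀ w, w ∈ O ↔ w ∈ orbit (P : Subgroup G) y := by
      intro w; simp [O]
    have hOinv : (P : Subgroup G) ≤ stabilizer G (O : Set (Fin n)) := by
      intro r hr
      rw [mem_stabilizer_iff, ← Finset.coe_smul_finset, Finset.coe_inj]
      apply Finset.eq_of_subset_of_card_le
      · intro w hw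
        obtain ⟨v, hv, rfl⟩ := Finset.mem_smul_finset.1 hw
        rw [hO] at hv ⊢
        obtain ⟨q, rfl⟩ := hv
        exact ⟨⟨r, hr⟩ * q, by simp [mul_smul, Subgroup.smul_def]⟩
      · rw [Finset.card_smul_finset]
    have hyO : y ∈ O := by rw [hO]; exact mem_orbit_self y
    have hxO : x ∉ O := by
      rw [hO]
      rintro ⟨q, hq⟩
      apply hy
      have h1 : (q : G) • y = x := hq
      have h2 := hPx (q : G) q.2
      exact MulAction.injective (q : G) (h1.trans h2.symm)
    have hOsub : O ⊆ {x}ᶜ := by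
      intro w hw
      rw [Finset.mem_compl, Finset.mem_singleton]
      rintro rfl
      exact hxO hw
    have hcompl : ({x}ᶜ : Finset (Fin n)).card = 2 ^ k := by
      rw [Finset.card_compl, Fintype.card_fin, Finset.card_singleton]; omega
    have hOle : O.card ≤ 2 ^ k := by
      rw [← hcompl]; exact Finset.card_le_card hOsub
    have hOpos : 0 < O.card := Finset.card_pos.2 ⟨y, hyO⟩
    rcases Nat.lt_or_ge O.card (2 ^ k) with hlt | hge
    · exfalso
      rcases Nat.lt_or_ge O.card 2 with h2 | h2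
      · have hO1 : O.card = 1 := by omega
        obtain ⟨w, hw⟩ := Finset.card_eq_one.1 hO1
        rw [hw, Finset.mem_singleton] at hyO
        subst hyO
        rw [hw] at hOinv
        have hpair : (P : Subgroup G) ≤ stabilizer G (({x, y} : Finset (Fin n)) : Set (Fin n)) := by
          intro r hr
          have h3 := hOinv hr
          rw [mem_stabilizer_iff, ← Finset.coe_smul_finset, Finset.coe_inj, Finset.smul_finset_singleton, Finset.singleton_inj] at h3
          rw [mem_stabilizer_iff, ← Finset.coe_smul_finset, Finset.coe_inj, Finset.smul_finset_insert, Finset.smul_finset_singleton,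
            h3, hPx r hr]
        apply no_fixed_subset hG P 2 (by omega) _ ({x, y} : Finset (Fin n)) (Finset.card_pair (Ne.symm hy)) hpair
        rw [hn]
        exact Parity.even_choose_pow_add_one k 2 le_rfl (by omega)
      · apply no_fixed_subset hG P O.card (by omega) _ O rfl hOinv
        have := Parity.even_choose_pow_add_one k O.card h2 hlt
        rwa [← hn] at this
    · have hOeq : O = {x}ᶜ := Finset.eq_of_subset_of_card_le hOsub (by rw [hcompl]; exact hge)
      have hzO : z ∈ O := by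
        rw [hOeq, Finset.mem_compl, Finset.mem_singleton]; exact hz
      rw [hO] at hzO
      obtain ⟨q, hq⟩ := hzO
      exact ⟨(q : G), q.2, hq⟩
  refine ⟨stabilizer G (({x} : Finset (Fin n)) : Set (Fin n)), ⟨hco1, hRs1⟩, ?_⟩
  rintro M ⟨hMc, hPM⟩
  by_contra hne
  have hnle : ¬ M ≤ stabilizer G (({x} : Finset (Fin n)) : Set (Fin n)) := by
    intro hle
    rcases hMc.le_iff.1 hle with h | h
    · exact hco1.1 h
    · exact hne h.symm
  obtain ⟨g, hgM, hg⟩ := SetLike.not_le_iff_exists.1 hnle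
  rw [hfixx] at hg
  apply hMc.1
  apply hJ M hPM
  rw [is_two_pretransitive_iff]
  -- `M` is transitive, starting from `x`
  have hMtr : ∀ a, ∃ m ∈ M, m • x = a := by
    intro a
    by_cases ha : a = x
    · exact ⟨1, one_mem _, by rw [one_smul, ha]⟩
    · obtain ⟨r, hr, hr'⟩ := hPtr (g • x) a hg ha
      exact ⟨r * g, mul_mem (hPM hr) hgM, by rw [mul_smul, hr']⟩
  obtain ⟨y0, hy0⟩ := exists_notMem_finset ({x} : Finset (Fin n)) (by simp; omega)
  rw [Finset.mem_singleton] at hy0
  have hM2 : ∀ a b, a ≠ b → ∃ m ∈ M, m • x = a ∧ m • y0 = b := by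
    intro a b hab
    obtain ⟨m, hm, hma⟩ := hMtr a
    have hb : m⁻¹ • b ≠ x := by
      intro h
      rw [inv_smul_eq_iff, hma] at h
      exact hab h.symm
    obtain ⟨r, hr, hr'⟩ := hPtr y0 (m⁻¹ • b) hy0 hb
    refine ⟨m * r, mul_mem hm (hPM hr), ?_, ?_⟩
    · rw [mul_smul, hPx r hr, hma]
    · rw [mul_smul, hr', smul_inv_smul]
  intro a b c d hab hcd
  obtain ⟨m1, hm1, h1a, h1b⟩ := hM2 a b hab
  obtain ⟨m2, hm2, h2a, h2b⟩ := hM2 c d hcd
  refine ⟨⟨m2 * m1⁻¹, mul_mem hm2 (inv_mem hm1)⟩, ?_, ?_⟩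
  · change (m2 * m1⁻¹) • a = c
    rw [mul_smul, ← h1a, inv_smul_smul, h2a]
  · change (m2 * m1⁻¹) • b = d
    rw [mul_smul, ← h1b, inv_smul_smul, h2b]

theorem nice_perm (n : ℕ) (hn : 5 ≤ n) : Nice n (Perm (Fin n)) where
  trans j _ := Equiv.Perm.isMultiplyPretransitive (Fin n) j
  real σ _ := ⟨σ, fun _ => rfl⟩
  coatom s h0 h1 h2 := Equiv.Perm.isCoatom_stabilizer h0 h1 (by rw [Nat.card_fin]; exact h2)
  prim M s hM hs := by
    classical
    -- a transposition stabilizing `s`
    obtain ⟨x, y, hxy, hmem⟩ : ∃ x y : Fin n, x ≠ y ∧ Equiv.swap x y ∈ stabilizer (Perm (Fin n)) s := by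
      by_cases h : s.Nontrivial
      · obtain ⟨x, hx, y, hy, hxy⟩ := h
        exact ⟨x, y, hxy, Equiv.Perm.swap_mem_stabilizer hx hy⟩
      · have hsc : sᶜ.Nontrivial := by
          rw [Set.not_nontrivial_iff] at h
          rw [← Set.one_lt_ncard_iff_nontrivial]
          have h1 := Set.ncard_add_ncard_compl s
          rw [Nat.card_fin] at h1
          have h2 := Set.ncard_le_one_iff_subsingleton.2 h
          omega
        obtain ⟨x, hx, y, hy, hxy⟩ := hsc
        refine ⟨x, y, hxy, ?_⟩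
        rw [← stabilizer_compl]
        exact Equiv.Perm.swap_mem_stabilizer hx hy
    exact Equiv.Perm.subgroup_eq_top_of_isPreprimitive_of_isSwap_mem hM _ ⟨x, y, hxy, rfl⟩ (hs hmem)

theorem nice_alt (n : ℕ) (hn : 5 ≤ n) : Nice n (alternatingGroup (Fin n)) where
  trans j hj := by
    have h1 := alternatingGroup.isMultiplyPretransitive (Fin n)
    apply MulAction.isMultiplyPretransitive_of_le (n := Nat.card (Fin n) - 2)
    · rw [Nat.card_fin]; omega
    · exact Nat.sub_le _ _
  real σ hσ := ⟨⟨σ, hσ⟩, fun _ => rfl⟩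
  coatom s h0 h1 h2 := alternatingGroup.isCoatom_stabilizer h0 h1 (by rw [Nat.card_fin]; exact h2)
  prim M s hM hs := alternatingGroup.subgroup_eq_top_of_isPreprimitive (by rw [Nat.card_fin]; omega) M hs

theorem exists_conj_le {G : Type*} [Group G] [Finite G] (P : Sylow 2 G) (V : Subgroup G) (hV : IsPGroup 2 V) :
    ∃ g : G, ∀ v ∈ V, g * v * g⁻¹ ∈ (P : Subgroup G) := by
  obtain ⟨Q, hQ⟩ := hV.exists_le_sylow
  obtain ⟨g, hg⟩ := MulAction.exists_smul_eq G Q P
  refine ⟨g, fun v hv => ?_⟩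
  rw [← hg, Sylow.coe_subgroup_smul]
  exact Subgroup.smul_mem_pointwise_smul v (MulAut.conj g) (Q : Subgroup G) (hQ hv)

theorem perm_case {n : ℕ} (hn : 5 ≤ n) (P : Sylow 2 (Perm (Fin n))) (M : Subgroup (Perm (Fin n)))
    (hPM : (P : Subgroup (Perm (Fin n))) ≤ M) (hM : IsMultiplyPretransitive M (Fin n) 2) : M = ⊤ := by
  classical
  let x : Fin n := ⟨0, by omega⟩
  let y : Fin n := ⟨1, by omega⟩
  have hxy : x ≠ y := by
    intro h
    have := congrArg Fin.val h
    simp [x, y] at this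
  have hV : IsPGroup 2 (Subgroup.zpowers (Equiv.swap x y)) := by
    rw [IsPGroup.iff_card, Nat.card_zpowers]
    refine ⟨1, ?_⟩
    rw [pow_one]
    apply orderOf_eq_prime
    · rw [pow_two, Equiv.swap_mul_self]
    · intro h
      have := DFunLike.congr_fun h x
      rw [Equiv.swap_apply_left, Perm.one_apply] at this
      exact hxy this.symm
  obtain ⟨g, hg⟩ := exists_conj_le P _ hV
  have h1 := hPM (hg _ (Subgroup.mem_zpowers _))
  rw [← Equiv.swap_apply_apply] at h1
  exact Equiv.Perm.subgroup_eq_top_of_isPreprimitive_of_isSwap_mem (isPreprimitive_of_is_two_pretransitive hM) _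
    ⟨g x, g y, fun h => hxy (g.injective h), rfl⟩ h1

/-- the even permutations which agree pointwise with the identity or with the involution `u` -/
def partials {n : ℕ} (u : Perm (Fin n)) (hu : ∀ y, u (u y) = y) : Subgroup (alternatingGroup (Fin n)) where
  carrier := {σ | ∀ y, (σ : Perm (Fin n)) y = y ∨ (σ : Perm (Fin n)) y = u y}
  mul_mem' := by
    intro σ τ hσ hτ y
    simp only [Set.mem_ofPred_eq] at hσ hτ
    rw [Subgroup.coe_mul, Perm.mul_apply]
    rcases hτ y with h | h
    · rw [h]; exact hσ y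
    · rw [h]
      rcases hσ (u y) with h' | h'
      · right; exact h'
      · left; rw [h', hu]
  one_mem' := by intro y; left; rfl
  inv_mem' := by
    intro σ hσ y
    simp only [Set.mem_ofPred_eq] at hσ
    have hinv : ∀ y, (σ : Perm (Fin n)) ((σ : Perm (Fin n)) y) = y := by
      intro y
      rcases hσ y with h | h
      · rw [h, h]
      · rcases hσ (u y) with h' | h'
        · have : (σ : Perm (Fin n)) (u y) = (σ : Perm (Fin n)) y := by rw [h', h]
          have h2 := (σ : Perm (Fin n)).injective this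
          rw [h, h2, h, h2]
        · rw [h, h', hu]
    have : ((σ⁻¹ : alternatingGroup (Fin n)) : Perm (Fin n)) y = (σ : Perm (Fin n)) y := by
      rw [Subgroup.coe_inv, Perm.inv_eq_iff_eq, hinv]
    rw [this]
    exact hσ y

theorem partials_isPGroup {n : ℕ} (u : Perm (Fin n)) (hu : ∀ y, u (u y) = y) : IsPGroup 2 (partials u hu) := by
  rintro ⟨σ, hσ⟩
  refine ⟨1, ?_⟩
  apply Subtype.ext
  apply Subtype.ext
  ext y
  have hinv : ∀ y, (σ : Perm (Fin n)) ((σ : Perm (Fin n)) y) = y := by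
    intro y
    rcases hσ y with h | h
    · rw [h, h]
    · rcases hσ (u y) with h' | h'
      · have : (σ : Perm (Fin n)) (u y) = (σ : Perm (Fin n)) y := by rw [h', h]
        have h2 := (σ : Perm (Fin n)).injective this
        rw [h, h2, h, h2]
      · rw [h, h', hu]
  have : ((σ * σ : alternatingGroup (Fin n)) : Perm (Fin n)) y = y := by
    rw [Subgroup.coe_mul, Perm.mul_apply, hinv]
  simpa [pow_two] using congrArg Fin.val this

theorem three_double {n : ℕ} (hn : 9 ≤ n) (P : Sylow 2 (alternatingGroup (Fin n))) :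
    ∃ p : Fin 8 → Fin n, Function.Injective p ∧
      ∀ (q : Fin 8 × Fin 8), q ∈ ({(2, 3), (4, 5), (6, 7)} : Set (Fin 8 × Fin 8)) →
        ∃ h : (Equiv.swap (p 0) (p 1) * Equiv.swap (p q.1) (p q.2)) ∈ alternatingGroup (Fin n),
          (⟨Equiv.swap (p 0) (p 1) * Equiv.swap (p q.1) (p q.2), h⟩ : alternatingGroup (Fin n)) ∈ (P : Subgroup (alternatingGroup (Fin n))) := by
  classical
  let c : Fin 8 → Fin n := Fin.castLE (by omega)
  have hc : Function.Injective c := Fin.castLE_injective _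
  have hne : ∀ i j : Fin 8, i ≠ j → c i ≠ c j := fun i j hij h => hij (hc h)
  let u : Perm (Fin n) := Equiv.swap (c 0) (c 1) * Equiv.swap (c 2) (c 3) * Equiv.swap (c 4) (c 5) * Equiv.swap (c 6) (c 7)
  -- values of `u`
  have u0 : u (c 0) = c 1 := by
    simp only [u, Perm.mul_apply]
    rw [Equiv.swap_apply_of_ne_of_ne (hne 0 6 (by decide)) (hne 0 7 (by decide)),
      Equiv.swap_apply_of_ne_of_ne (hne 0 4 (by decide)) (hne 0 5 (by decide)),
      Equiv.swap_apply_of_ne_of_ne (hne 0 2 (by decide)) (hne 0 3 (by decide)), Equiv.swap_apply_left]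
  have u1 : u (c 1) = c 0 := by
    simp only [u, Perm.mul_apply]
    rw [Equiv.swap_apply_of_ne_of_ne (hne 1 6 (by decide)) (hne 1 7 (by decide)),
      Equiv.swap_apply_of_ne_of_ne (hne 1 4 (by decide)) (hne 1 5 (by decide)),
      Equiv.swap_apply_of_ne_of_ne (hne 1 2 (by decide)) (hne 1 3 (by decide)), Equiv.swap_apply_right]
  have u2 : u (c 2) = c 3 := by
    simp only [u, Perm.mul_apply]
    rw [Equiv.swap_apply_of_ne_of_ne (hne 2 6 (by decide)) (hne 2 7 (by decide)),
      Equiv.swap_apply_of_ne_of_ne (hne 2 4 (by decide)) (hne 2 5 (by decide)),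
      Equiv.swap_apply_left, Equiv.swap_apply_of_ne_of_ne (hne 3 0 (by decide)) (hne 3 1 (by decide))]
  have u3 : u (c 3) = c 2 := by
    simp only [u, Perm.mul_apply]
    rw [Equiv.swap_apply_of_ne_of_ne (hne 3 6 (by decide)) (hne 3 7 (by decide)),
      Equiv.swap_apply_of_ne_of_ne (hne 3 4 (by decide)) (hne 3 5 (by decide)),
      Equiv.swap_apply_right, Equiv.swap_apply_of_ne_of_ne (hne 2 0 (by decide)) (hne 2 1 (by decide))]
  have u4 : u (c 4) = c 5 := by
    simp only [u, Perm.mul_apply]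
    rw [Equiv.swap_apply_of_ne_of_ne (hne 4 6 (by decide)) (hne 4 7 (by decide)),
      Equiv.swap_apply_left, Equiv.swap_apply_of_ne_of_ne (hne 5 2 (by decide)) (hne 5 3 (by decide)),
      Equiv.swap_apply_of_ne_of_ne (hne 5 0 (by decide)) (hne 5 1 (by decide))]
  have u5 : u (c 5) = c 4 := by
    simp only [u, Perm.mul_apply]
    rw [Equiv.swap_apply_of_ne_of_ne (hne 5 6 (by decide)) (hne 5 7 (by decide)),
      Equiv.swap_apply_right, Equiv.swap_apply_of_ne_of_ne (hne 4 2 (by decide)) (hne 4 3 (by decide)),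
      Equiv.swap_apply_of_ne_of_ne (hne 4 0 (by decide)) (hne 4 1 (by decide))]
  have u6 : u (c 6) = c 7 := by
    simp only [u, Perm.mul_apply]
    rw [Equiv.swap_apply_left, Equiv.swap_apply_of_ne_of_ne (hne 7 4 (by decide)) (hne 7 5 (by decide)),
      Equiv.swap_apply_of_ne_of_ne (hne 7 2 (by decide)) (hne 7 3 (by decide)),
      Equiv.swap_apply_of_ne_of_ne (hne 7 0 (by decide)) (hne 7 1 (by decide))]
  have u7 : u (c 7) = c 6 := by
    simp only [u, Perm.mul_apply]
    rw [Equiv.swap_apply_right, Equiv.swap_apply_of_ne_of_ne (hne 6 4 (by decide)) (hne 6 5 (by decide)),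
      Equiv.swap_apply_of_ne_of_ne (hne 6 2 (by decide)) (hne 6 3 (by decide)),
      Equiv.swap_apply_of_ne_of_ne (hne 6 0 (by decide)) (hne 6 1 (by decide))]
  have uout : ∀ y, (∀ i, y ≠ c i) → u y = y := by
    intro y hy
    simp only [u, Perm.mul_apply]
    rw [Equiv.swap_apply_of_ne_of_ne (hy 6) (hy 7), Equiv.swap_apply_of_ne_of_ne (hy 4) (hy 5),
      Equiv.swap_apply_of_ne_of_ne (hy 2) (hy 3), Equiv.swap_apply_of_ne_of_ne (hy 0) (hy 1)]
  have huu : ∀ y, u (u y) = y := by
    intro y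
    by_cases h : ∃ i, y = c i
    · obtain ⟨i, rfl⟩ := h
      fin_cases i
      · exact (congrArg u u0).trans u1
      · exact (congrArg u u1).trans u0
      · exact (congrArg u u2).trans u3
      · exact (congrArg u u3).trans u2
      · exact (congrArg u u4).trans u5
      · exact (congrArg u u5).trans u4
      · exact (congrArg u u6).trans u7
      · exact (congrArg u u7).trans u6
    · push Not at h
      rw [uout y h, uout y h]
  obtain ⟨g, hg⟩ := exists_conj_le P _ (partials_isPGroup u huu)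
  refine ⟨fun i => (g : Perm (Fin n)) (c i), fun i j hij => hc ((g : Perm (Fin n)).injective hij), ?_⟩
  have key : ∀ i j : Fin 8, i ≠ 0 → i ≠ 1 → j ≠ 0 → j ≠ 1 → i ≠ j → u (c i) = c j → u (c j) = c i →
      ∃ h : (Equiv.swap ((g : Perm (Fin n)) (c 0)) ((g : Perm (Fin n)) (c 1)) *
        Equiv.swap ((g : Perm (Fin n)) (c i)) ((g : Perm (Fin n)) (c j))) ∈ alternatingGroup (Fin n),
          (⟨Equiv.swap ((g : Perm (Fin n)) (c 0)) ((g : Perm (Fin n)) (c 1)) *
            Equiv.swap ((g : Perm (Fin n)) (c i)) ((g : Perm (Fin n)) (c j)), h⟩ : alternatingGroup (Fin n)) ∈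
            (P : Subgroup (alternatingGroup (Fin n))) := by
    intro i j hi0 hi1 hj0 hj1 hij huij huji
    have hx : Equiv.swap (c 0) (c 1) * Equiv.swap (c i) (c j) ∈ alternatingGroup (Fin n) := by
      rw [Perm.mem_alternatingGroup, map_mul, Perm.sign_swap (hne 0 1 (by decide)), Perm.sign_swap (hne i j hij)]
      norm_num
    have hV : (⟨_, hx⟩ : alternatingGroup (Fin n)) ∈ partials u huu := by
      intro y
      change (Equiv.swap (c 0) (c 1) * Equiv.swap (c i) (c j)) y = y ∨ (Equiv.swap (c 0) (c 1) * Equiv.swap (c i) (c j)) y = u y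
      rw [Perm.mul_apply]
      by_cases e1 : y = c i
      · right
        rw [e1, Equiv.swap_apply_left, Equiv.swap_apply_of_ne_of_ne (hne j 0 hj0) (hne j 1 hj1), huij]
      by_cases e2 : y = c j
      · right
        rw [e2, Equiv.swap_apply_right, Equiv.swap_apply_of_ne_of_ne (hne i 0 hi0) (hne i 1 hi1), huji]
      rw [Equiv.swap_apply_of_ne_of_ne e1 e2]
      by_cases e3 : y = c 0
      · right; rw [e3, Equiv.swap_apply_left, u0]
      by_cases e4 : y = c 1
      · right; rw [e4, Equiv.swap_apply_right, u1]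
      left; exact Equiv.swap_apply_of_ne_of_ne e3 e4
    have h1 := hg _ hV
    have h2 : (g : Perm (Fin n)) * (Equiv.swap (c 0) (c 1) * Equiv.swap (c i) (c j)) * (g : Perm (Fin n))⁻¹ =
        Equiv.swap ((g : Perm (Fin n)) (c 0)) ((g : Perm (Fin n)) (c 1)) *
          Equiv.swap ((g : Perm (Fin n)) (c i)) ((g : Perm (Fin n)) (c j)) := by
      rw [Equiv.swap_apply_apply, Equiv.swap_apply_apply]
      group
    have h3 : Equiv.swap ((g : Perm (Fin n)) (c 0)) ((g : Perm (Fin n)) (c 1)) *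
        Equiv.swap ((g : Perm (Fin n)) (c i)) ((g : Perm (Fin n)) (c j)) ∈ alternatingGroup (Fin n) := by
      rw [← h2]
      exact mul_mem (mul_mem g.2 hx) (inv_mem g.2)
    have h4 : (⟨Equiv.swap ((g : Perm (Fin n)) (c 0)) ((g : Perm (Fin n)) (c 1)) *
        Equiv.swap ((g : Perm (Fin n)) (c i)) ((g : Perm (Fin n)) (c j)), h3⟩ : alternatingGroup (Fin n)) =
        g * (⟨Equiv.swap (c 0) (c 1) * Equiv.swap (c i) (c j), hx⟩ : alternatingGroup (Fin n)) * g⁻¹ := Subtype.ext h2.symm
    refine ⟨h3, ?_⟩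
    rw [h4]
    exact h1
  intro q hq
  simp only [Set.mem_insert_iff, Set.mem_singleton_iff] at hq
  rcases hq with rfl | rfl | rfl
  · exact key 2 3 (by decide) (by decide) (by decide) (by decide) (by decide) u2 u3
  · exact key 4 5 (by decide) (by decide) (by decide) (by decide) (by decide) u4 u5
  · exact key 6 7 (by decide) (by decide) (by decide) (by decide) (by decide) u6 u7

/-- the commutator of two double transpositions with exactly one common point is a three-cycle -/
theorem comm_threeCycle {n : ℕ} (a b c d z e f : Fin n) (hab : a ≠ b) (haz : a ≠ z) (hbz : b ≠ z)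
    (hac : a ≠ c) (had : a ≠ d) (hae : a ≠ e) (haf : a ≠ f) (hbc : b ≠ c) (hbd : b ≠ d) (hbe : b ≠ e) (hbf : b ≠ f)
    (hzc : z ≠ c) (hzd : z ≠ d) (hze : z ≠ e) (hzf : z ≠ f) (hce : c ≠ e) (hcf : c ≠ f) (hde : d ≠ e) (hdf : d ≠ f)
    (hcd : c ≠ d) (hef : e ≠ f) :
    ((Equiv.swap a b * Equiv.swap c d) * (Equiv.swap a z * Equiv.swap e f) * (Equiv.swap a b * Equiv.swap c d)⁻¹ *
      (Equiv.swap a z * Equiv.swap e f)⁻¹).IsThreeCycle := by
  have hdis : ∀ p q r s : Fin n, p ≠ q → r ≠ s → p ≠ r → p ≠ s → q ≠ r → q ≠ s → Commute (Equiv.swap p q) (Equiv.swap r s) := by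
    intro p q r s hpq hrs h1 h2 h3 h4
    apply Perm.Disjoint.commute
    rw [Perm.disjoint_iff_disjoint_support, Perm.support_swap hpq, Perm.support_swap hrs]
    simp only [Finset.disjoint_insert_left, Finset.mem_insert, Finset.mem_singleton, not_or,
      Finset.disjoint_singleton_left]
    exact ⟨⟨h1, h2⟩, ⟨h3, h4⟩⟩
  have c1 := (hdis a b c d hab hcd hac had hbc hbd).eq
  have c2 := (hdis a z e f haz hef hae haf hze hzf).eq
  have c3 := (hdis c d e f hcd hef hce hcf hde hdf).eq
  have c4 := (hdis a b e f hab hef hae haf hbe hbf).eq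
  have c5 := (hdis a z c d haz hcd hac had hzc hzd).eq
  have i1 := Equiv.swap_inv a b
  have i2 := Equiv.swap_inv c d
  have i3 := Equiv.swap_inv a z
  have i4 := Equiv.swap_inv e f
  have s1 := Equiv.swap_mul_self c d
  have s2 := Equiv.swap_mul_self e f
  have : (Equiv.swap a b * Equiv.swap c d) * (Equiv.swap a z * Equiv.swap e f) * (Equiv.swap a b * Equiv.swap c d)⁻¹ *
      (Equiv.swap a z * Equiv.swap e f)⁻¹ = (Equiv.swap a b * Equiv.swap a z) * (Equiv.swap a b * Equiv.swap a z) := by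
    rw [mul_inv_rev, mul_inv_rev, i1, i2, i3, i4]
    calc Equiv.swap a b * Equiv.swap c d * (Equiv.swap a z * Equiv.swap e f) * (Equiv.swap c d * Equiv.swap a b) * (Equiv.swap e f * Equiv.swap a z)
        = Equiv.swap a b * (Equiv.swap c d * Equiv.swap a z) * (Equiv.swap e f * Equiv.swap c d) * (Equiv.swap a b * Equiv.swap e f) * Equiv.swap a z := by
          simp only [mul_assoc]
      _ = Equiv.swap a b * (Equiv.swap a z * Equiv.swap c d) * (Equiv.swap c d * Equiv.swap e f) * (Equiv.swap e f * Equiv.swap a b) * Equiv.swap a z := by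
          rw [c3, c4, c5]
      _ = Equiv.swap a b * Equiv.swap a z * (Equiv.swap c d * Equiv.swap c d) * (Equiv.swap e f * Equiv.swap e f) * Equiv.swap a b * Equiv.swap a z := by
          simp only [mul_assoc]
      _ = _ := by
          rw [s1, s2, mul_one, mul_one, mul_assoc]
  rw [this]
  exact (Equiv.Perm.isThreeCycle_swap_mul_swap_same hab haz hbz).isThreeCycle_sq

theorem alt_case9 {n : ℕ} (hn : 9 ≤ n) (P : Sylow 2 (alternatingGroup (Fin n))) (M : Subgroup (alternatingGroup (Fin n)))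
    (hPM : (P : Subgroup (alternatingGroup (Fin n))) ≤ M) (hM : IsMultiplyPretransitive M (Fin n) 2) : M = ⊤ := by
  classical
  obtain ⟨p, hp, hpP⟩ := three_double hn P
  have hne : ∀ i j : Fin 8, i ≠ j → p i ≠ p j := fun i j hij h => hij (hp h)
  set M' : Subgroup (Perm (Fin n)) := M.map (alternatingGroup (Fin n)).subtype with hM'
  have hmem : ∀ (q : Fin 8 × Fin 8), q ∈ ({(2, 3), (4, 5), (6, 7)} : Set (Fin 8 × Fin 8)) →
      Equiv.swap (p 0) (p 1) * Equiv.swap (p q.1) (p q.2) ∈ M' := by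
    intro q hq
    obtain ⟨h, h'⟩ := hpP q hq
    exact ⟨_, hPM h', rfl⟩
  have x1 := hmem (2, 3) (by simp)
  have x2 := hmem (4, 5) (by simp)
  have x3 := hmem (6, 7) (by simp)
  simp only at x1 x2 x3
  obtain ⟨z, hz⟩ : ∃ z, z ∉ Finset.univ.image p := by
    apply exists_notMem_finset
    refine lt_of_le_of_lt Finset.card_image_le ?_
    rw [Finset.card_univ, Fintype.card_fin]; omega
  have hz' : ∀ i, z ≠ p i := by
    intro i h
    apply hz
    rw [Finset.mem_image]
    exact ⟨i, Finset.mem_univ _, h.symm⟩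
  have hM2 := hM
  rw [is_two_pretransitive_iff] at hM2
  obtain ⟨g, hg0, hg1⟩ := hM2 (a := p 0) (b := p 1) (c := p 0) (d := z) (hne 0 1 (by decide)) (hz' 0).symm
  let σ : Perm (Fin n) := ((g : alternatingGroup (Fin n)) : Perm (Fin n))
  have hσM : σ ∈ M' := ⟨_, g.2, rfl⟩
  have hσ0 : σ (p 0) = p 0 := hg0
  have hσ1 : σ (p 1) = z := hg1
  have hyconj : ∀ i j, Equiv.swap (p 0) (p 1) * Equiv.swap (p i) (p j) ∈ M' →
      Equiv.swap (p 0) z * Equiv.swap (σ (p i)) (σ (p j)) ∈ M' := by
    intro i j h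
    have := mul_mem (mul_mem hσM h) (inv_mem hσM)
    have e : σ * (Equiv.swap (p 0) (p 1) * Equiv.swap (p i) (p j)) * σ⁻¹ =
        Equiv.swap (p 0) z * Equiv.swap (σ (p i)) (σ (p j)) := by
      rw [Equiv.swap_apply_apply σ (p i)]
      have e2 : Equiv.swap (p 0) z = σ * Equiv.swap (p 0) (p 1) * σ⁻¹ := by
        rw [← Equiv.swap_apply_apply, hσ0, hσ1]
      rw [e2]
      group
    rw [← e]; exact this
  -- choose the pair `{e, f}` avoiding `p 1`
  obtain ⟨e, f, hef, hbe, hbf, hae, haf, hze, hzf, hyM⟩ : ∃ e f : Fin n, e ≠ f ∧ p 1 ≠ e ∧ p 1 ≠ f ∧ p 0 ≠ e ∧ p 0 ≠ f ∧ z ≠ e ∧ z ≠ f ∧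
      Equiv.swap (p 0) z * Equiv.swap e f ∈ M' := by
    have hs0 : ∀ i, i ≠ 0 → p 0 ≠ σ (p i) := by
      intro i hi h
      rw [← hσ0] at h
      exact hne 0 i (Ne.symm hi) (σ.injective h)
    have hs1 : ∀ i, i ≠ 1 → z ≠ σ (p i) := by
      intro i hi h
      rw [← hσ1] at h
      exact hne 1 i (Ne.symm hi) (σ.injective h)
    have hsne : ∀ i j, i ≠ j → σ (p i) ≠ σ (p j) := fun i j hij h => hne i j hij (σ.injective h)
    by_cases h : p 1 ≠ σ (p 2) ∧ p 1 ≠ σ (p 3)
    · exact ⟨σ (p 2), σ (p 3), hsne 2 3 (by decide), h.1, h.2, hs0 2 (by decide), hs0 3 (by decide), hs1 2 (by decide),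
        hs1 3 (by decide), hyconj 2 3 x1⟩
    · refine ⟨σ (p 4), σ (p 5), hsne 4 5 (by decide), ?_, ?_, hs0 4 (by decide), hs0 5 (by decide), hs1 4 (by decide),
        hs1 5 (by decide), hyconj 4 5 x2⟩
      · intro h'
        apply h
        rw [h']
        exact ⟨hsne 4 2 (by decide), hsne 4 3 (by decide)⟩
      · intro h'
        apply h
        rw [h']
        exact ⟨hsne 5 2 (by decide), hsne 5 3 (by decide)⟩
  -- choose the pair `{c, d}` avoiding `{e, f}`
  obtain ⟨c, d, hcd, hac, had, hbc, hbd, hzc, hzd, hce, hcf, hde, hdf, hxM⟩ : ∃ c d : Fin n, c ≠ d ∧ p 0 ≠ c ∧ p 0 ≠ d ∧ p 1 ≠ c ∧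
      p 1 ≠ d ∧ z ≠ c ∧ z ≠ d ∧ c ≠ e ∧ c ≠ f ∧ d ≠ e ∧ d ≠ f ∧ Equiv.swap (p 0) (p 1) * Equiv.swap c d ∈ M' := by
    by_contra hcon
    have key : ∀ i j, i ≠ j → 0 ≠ i → 0 ≠ j → 1 ≠ i → 1 ≠ j → Equiv.swap (p 0) (p 1) * Equiv.swap (p i) (p j) ∈ M' →
        (p i = e ∨ p i = f ∨ p j = e ∨ p j = f) := by
      intro i j hij hi0 hj0 hi1 hj1 hx
      by_contra h
      push Not at h
      exact hcon ⟨p i, p j, hne i j hij, hne 0 i hi0, hne 0 j hj0, hne 1 i hi1, hne 1 j hj1, hz' i, hz' j, h.1, h.2.1,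
        h.2.2.1, h.2.2.2, hx⟩
    have k1 := key 2 3 (by decide) (by decide) (by decide) (by decide) (by decide) x1
    have k2 := key 4 5 (by decide) (by decide) (by decide) (by decide) (by decide) x2
    have k3 := key 6 7 (by decide) (by decide) (by decide) (by decide) (by decide) x3
    -- indices of `e` and `f`
    have inj : ∀ i j y, p i = y → p j = y → i = j := fun i j y h1 h2 => hp (h1.trans h2.symm)
    rcases k1 with h1 | h1 | h1 | h1 <;> rcases k2 with h2 | h2 | h2 | h2 <;>
      first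
      | exact absurd (inj _ _ _ h1 h2) (by decide)
      | (rcases k3 with h3 | h3 | h3 | h3 <;>
          first
          | exact absurd (inj _ _ _ h1 h3) (by decide)
          | exact absurd (inj _ _ _ h2 h3) (by decide))
  have hthree := comm_threeCycle (p 0) (p 1) c d z e f (hne 0 1 (by decide)) (hz' 0).symm (hz' 1).symm hac had hae haf hbc hbd hbe hbf
    hzc hzd hze hzf hce hcf hde hdf hcd hef
  have hmemM : (Equiv.swap (p 0) (p 1) * Equiv.swap c d) * (Equiv.swap (p 0) z * Equiv.swap e f) * (Equiv.swap (p 0) (p 1) * Equiv.swap c d)⁻¹ *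
      (Equiv.swap (p 0) z * Equiv.swap e f)⁻¹ ∈ M' := mul_mem (mul_mem (mul_mem hxM hyM) (inv_mem hxM)) (inv_mem hyM)
  have hM'2 : IsMultiplyPretransitive M' (Fin n) 2 := by
    rw [is_two_pretransitive_iff]
    intro a b c d hab hcd
    obtain ⟨m, hm1, hm2⟩ := hM2 hab hcd
    exact ⟨⟨((m : alternatingGroup (Fin n)) : Perm (Fin n)), ⟨_, m.2, rfl⟩⟩, hm1, hm2⟩
  have hle := Equiv.Perm.alternatingGroup_le_of_isPreprimitive_of_isThreeCycle_mem (isPreprimitive_of_is_two_pretransitive hM'2)
    hthree hmemM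
  rw [Subgroup.eq_top_iff']
  intro τ
  obtain ⟨m, hm, hmτ⟩ := hle τ.2
  have : m = τ := Subtype.ext hmτ
  rw [← this]; exact hm

theorem alt_case5 (P : Sylow 2 (alternatingGroup (Fin 5))) (M : Subgroup (alternatingGroup (Fin 5)))
    (hPM : (P : Subgroup (alternatingGroup (Fin 5))) ≤ M) (hM : IsMultiplyPretransitive M (Fin 5) 2) : M = ⊤ := by
  have hcard : Nat.card (alternatingGroup (Fin 5)) = 60 := by
    have : Nontrivial (Fin 5) := Fin.nontrivial_iff_two_le.2 (by omega)
    have h2 : 2 * Nat.card (alternatingGroup (Fin 5)) = (5 : ℕ).factorial := by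
      rw [two_mul_nat_card_alternatingGroup, Nat.card_perm, Nat.card_fin]
    have h : (5 : ℕ).factorial = 120 := by decide
    omega
  have hPcard : Nat.card (P : Subgroup (alternatingGroup (Fin 5))) = 4 := by
    have h := P.card_eq_multiplicity
    rw [hcard] at h
    have : (60 : ℕ).factorization 2 = 2 := by
      rw [show (60 : ℕ) = 2 ^ 2 * 15 by norm_num, Nat.factorization_mul (by norm_num) (by norm_num), Nat.factorization_pow]
      simp only [Finsupp.coe_add, Finsupp.coe_smul, Pi.add_apply, Pi.smul_apply]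
      rw [Nat.Prime.factorization_self Nat.prime_two, Nat.factorization_eq_zero_of_not_dvd (n := 15) (p := 2) (by norm_num)]
      simp
    rw [this] at h
    exact h
  have h4 : 4 ∣ Nat.card M := by
    rw [← hPcard]; exact Subgroup.card_dvd_of_le hPM
  have htr : IsPretransitive M (Fin 5) := (isPreprimitive_of_is_two_pretransitive hM).toIsPretransitive
  have h5 : 5 ∣ Nat.card M := by
    have h1 := index_stabilizer_of_transitive M (0 : Fin 5)
    rw [Nat.card_fin] at h1
    have h2 := Subgroup.index_dvd_card (stabilizer M (0 : Fin 5))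
    rw [h1] at h2
    exact h2
  have h20 : 20 ∣ Nat.card M := by
    have : Nat.Coprime 4 5 := by decide
    exact this.mul_dvd_of_dvd_of_dvd h4 h5
  have hmul := Subgroup.card_mul_index M
  rw [hcard] at hmul
  obtain ⟨c, hc⟩ := h20
  have hidx : M.index ∣ 3 := ⟨c, by
    rw [hc] at hmul
    nlinarith⟩
  rcases (Nat.dvd_prime Nat.prime_three).1 hidx with h | h
  · exact Subgroup.index_eq_one.1 h
  · exfalso
    have hcore : M.normalCore.index ∣ 6 := by
      have : M.normalCore.index ∣ (M.index).factorial := by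
        rw [Subgroup.normalCore_eq_ker, Subgroup.index_ker, Subgroup.index_eq_card, ← Nat.card_perm]
        exact Subgroup.card_subgroup_dvd_card _
      rw [h] at this
      exact this
    have hs : IsSimpleGroup (alternatingGroup (Fin 5)) := alternatingGroup.isSimpleGroup (by simp)
    rcases hs.eq_bot_or_eq_top_of_normal M.normalCore inferInstance with h1 | h1
    · rw [h1, Subgroup.index_bot, hcard] at hcore
      have := Nat.le_of_dvd (by norm_num) hcore
      omega
    · have : M = ⊤ := top_le_iff.1 (h1 ▸ Subgroup.normalCore_le M)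
      rw [this, Subgroup.index_top] at h
      omega

theorem result (n : ℕ) (hn : 5 ≤ n) (h6 : n ≠ 6) :
    ((∀ R : Sylow 2 ↥(alternatingGroup (Fin n)), (∃! M : Subgroup ↥(alternatingGroup (Fin n)), IsCoatom M ∧ (R : Subgroup ↥(alternatingGroup (Fin n))) ≤ M) ↔ ∃ k : ℕ, 2 ≤ k ∧ n = 2 ^ k + 1) ∧
    (∀ R : Sylow 2 (Equiv.Perm (Fin n)), (∃! M : Subgroup (Equiv.Perm (Fin n)), IsCoatom M ∧ (R : Subgroup (Equiv.Perm (Fin n))) ≤ M) ↔ ∃ k : ℕ, 2 ≤ k ∧ n = 2 ^ k + 1)) := by
  constructor
  · intro R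
    constructor
    · intro h
      by_contra hcon
      push Not at hcon
      exact not_unique (nice_alt n hn) R R.isPGroup' hn hcon h
    · rintro ⟨k, hk, hnk⟩
      apply unique_of (nice_alt n hn) R k hk hnk
      intro M hRM hM
      rcases Nat.lt_or_ge k 3 with h3 | h3
      · have : k = 2 := by omega
        subst this
        have : n = 5 := by rw [hnk]; norm_num
        subst this
        exact alt_case5 R M hRM hM
      · have : 9 ≤ n := by
          have : 2 ^ 3 ≤ 2 ^ k := Nat.pow_le_pow_right (by norm_num) h3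
          omega
        exact alt_case9 this R M hRM hM
  · intro R
    constructor
    · intro h
      by_contra hcon
      push Not at hcon
      exact not_unique (nice_perm n hn) R R.isPGroup' hn hcon h
    · rintro ⟨k, hk, hnk⟩
      apply unique_of (nice_perm n hn) R k hk hnk
      intro M hRM hM
      exact perm_case hn R M hRM hM

end Cfsg.Agent.S2245
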