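import Cfsg.Statements.S2249
import Cfsg.Agent.H94.WrGL2

set_option autoImplicit false
open Cfsg

namespace Cfsg.Agent.S2249

open Matrix Subgroup Cfsg.Agent.H94.Wr Cfsg.Agent.H53.SEA

theorem gl1_comm {F : Type*} [Field F] (a b : GL (Fin 1) F) : a * b = b * a := by
  apply Units.ext
  ext i j
  fin_cases i; fin_cases j
  rw [Units.val_mul, Units.val_mul, Matrix.mul_apply, Matrix.mul_apply, Fin.sum_univ_one, Fin.sum_univ_one]
  exact mul_comm _ _

theorem neg_one_ne {F : Type*} [Field F] (h2 : (2 : F) ≠ 0) (n : ℕ) (hn : 0 < n) : (-1 : GL (Fin n) F) ≠ 1 := by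
  intro h
  have h1 := congrArg Units.val h
  have h3 := congrFun (congrFun h1 ⟨0, hn⟩) ⟨0, hn⟩
  simp at h3
  apply h2
  linear_combination -h3

theorem ub_GL {F : Type*} [Field F] (h2 : (2 : F) ≠ 0) (n : ℕ) (S : Subgroup (GL (Fin n) F)) [Finite S] : UB S n := by
  intro E _ hel
  let ρ : E →* Module.End F (Fin n → F) :=
    (Matrix.toLinAlgEquiv' (R := F) (n := Fin n)).toAlgHom.toRingHom.toMonoidHom.comp ((Units.coeHom _).comp (S.subtype.comp E.subtype))
  have h := Cfsg.Agent.H94.ElAb2.card_le ρ h2 (fun a => Subtype.ext (by have := hel.2 a a.2; rwa [sq] at this)) (by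
    intro x y hxy
    apply Subtype.ext
    apply Subtype.ext
    apply Units.ext
    exact (Matrix.toLinAlgEquiv' (R := F) (n := Fin n)).injective hxy)
  simpa using h

theorem lb_GL1 {F : Type*} [Field F] [Fintype F] (h2 : (2 : F) ≠ 0) (R : Sylow 2 (GL (Fin 1) F)) : LB (R : Subgroup (GL (Fin 1) F)) 1 := by
  have hz2 : (-1 : GL (Fin 1) F) ^ 2 = 1 := by simp
  have hC2 : ∀ c ∈ zpowers (-1 : GL (Fin 1) F), c ^ 2 = 1 := by
    rintro _ ⟨k, rfl⟩
    change ((-1 : GL (Fin 1) F) ^ k) ^ 2 = 1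
    rw [← zpow_natCast, ← _root_.zpow_mul, mul_comm, _root_.zpow_mul, zpow_natCast, hz2, _root_.one_zpow]
  refine LB.of_normal R (zpowers (-1)) ?_ ⟨⟨⟨?_⟩⟩, hC2⟩ ?_
  · constructor
    intro n hn g
    rw [gl1_comm g n, mul_inv_cancel_right]
    exact hn
  · intro a b
    exact Subtype.ext (gl1_comm _ _)
  · rw [Nat.card_zpowers, orderOf_eq_prime hz2 (neg_one_ne h2 1 one_pos), pow_one]

theorem fac_GL_four {F : Type*} [Field F] [Fintype F] (h1 : Fintype.card F % 4 = 1) (n : ℕ) :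
    (Nat.card (GL (Fin n) F)).factorization 2 = (Nat.card (W (Fin n) (GL (Fin 1) F))).factorization 2 := by
  have hq1 : 1 < Fintype.card F := Fintype.one_lt_card
  have h := fac_GL_shape' (p := 2) (F := F) (by omega) (shape_two h1 hq1) n
  rw [h, card_W, Nat.card_fin, Nat.div_one, Nat.factorization_mul (pow_ne_zero _ Nat.card_pos.ne') (Nat.factorial_ne_zero _),
    Nat.factorization_pow]
  rfl

theorem fac_GL_three {F : Type*} [Field F] [Fintype F] (hF : Odd (Fintype.card F)) (m : ℕ) :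
    (Nat.card (GL (Fin (2 * m)) F)).factorization 2 = (Nat.card (W (Fin m) (GL (Fin 2) F))).factorization 2 := by
  rw [fac_card_GL_even hF, card_W, Nat.card_fin, Nat.factorization_mul (pow_ne_zero _ Nat.card_pos.ne') (Nat.factorial_ne_zero _),
    Nat.factorization_pow]
  rfl

theorem both_GL_three {F : Type*} [Field F] [Fintype F] (h3 : Fintype.card F % 4 = 3) (n : ℕ) (S : Sylow 2 (GL (Fin n) F)) :
    LB (S : Subgroup (GL (Fin n) F)) ((n + 1) / 2) ∧ UB (S : Subgroup (GL (Fin n) F)) ((n + 1) / 2) := by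
  have hF : Odd (Fintype.card F) := odd_of_three h3
  have h2 := two_ne_of_three h3
  have hq1 : 1 < Fintype.card F := Fintype.one_lt_card
  have hzc : (-1 : GL (Fin 2) F) ∈ center (GL (Fin 2) F) := by
    rw [mem_center_iff]; intro g; simp
  have hz2 : (-1 : GL (Fin 2) F) ^ 2 = 1 := by simp
  have hz1 : (-1 : GL (Fin 2) F) ≠ 1 := neg_one_ne h2 2 two_pos
  obtain ⟨M⟩ := (inferInstance : Nonempty (Sylow 2 (GL (Fin 2) F)))
  have hw : ∀ m (R : Sylow 2 (W (Fin m) (GL (Fin 2) F))), LB (R : Subgroup (W (Fin m) (GL (Fin 2) F))) m ∧ UB (R : Subgroup (W (Fin m) (GL (Fin 2) F))) m := by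
    intro m R
    have a := LB.wreath R (-1) hzc hz2 hz1
    have b := UB.wreath M (ub_GL2 h3 M) (exists_sq_ne h3 M) R
    rw [Nat.card_fin] at a b
    exact ⟨a, b⟩
  rcases Nat.even_or_odd' n with ⟨m, rfl | rfl⟩
  · obtain ⟨R⟩ := (inferInstance : Nonempty (Sylow 2 (W (Fin m) (GL (Fin 2) F))))
    obtain ⟨e⟩ := sylow_equiv (glWrd' 2 m 0 two_ne_zero F).hom (Wrd.hom_injective _) (fac_GL_three hF m) S R
    have : (2 * m + 1) / 2 = m := by omega
    rw [this]
    exact ⟨(hw m R).1.congr e, (hw m R).2.congr e⟩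
  · obtain ⟨R⟩ := (inferInstance : Nonempty (Sylow 2 (W (Fin m) (GL (Fin 2) F))))
    obtain ⟨R1⟩ := (inferInstance : Nonempty (Sylow 2 (GL (Fin 1) F)))
    obtain ⟨R2⟩ := (inferInstance : Nonempty (Sylow 2 (W (Fin m) (GL (Fin 2) F) × GL (Fin 1) F)))
    obtain ⟨e1⟩ := sylow_prod_equiv R R1 R2
    haveI : NeZero 2 := ⟨two_ne_zero⟩
    obtain ⟨e2⟩ := sylow_equiv ((bigEmb 2 m 1 F).comp (MonoidHom.prodMap (glWrd (Fin 2) (Fin m) F).hom (MonoidHom.id _)))
      ((bigEmb_injective 2 m 1 F).comp (Function.Injective.prodMap (Wrd.hom_injective _) Function.injective_id)) (by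
        rw [fac_card_GL_succ hF, fac_GL_three hF, Nat.card_prod, Nat.factorization_mul Nat.card_pos.ne' Nat.card_pos.ne']
        simp only [Finsupp.add_apply]
        rw [fac_pow_odd hF hq1, fac_card_GL_succ hF 0, fac_card_GL_zero hF]
        simp) S R2
    have : (2 * m + 1 + 1) / 2 = m + 1 := by omega
    rw [this]
    exact ⟨((LB.prod (hw m R).1 (lb_GL1 h2 R1)).congr e1).congr e2, ((UB.prod (hw m R).2 (ub_GL h2 1 R1)).congr e1).congr e2⟩

theorem lb_GL_one {F : Type*} [Field F] [Fintype F] (h1 : Fintype.card F % 4 = 1) (n : ℕ) (S : Sylow 2 (GL (Fin n) F)) :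
    LB (S : Subgroup (GL (Fin n) F)) n := by
  have hF : Odd (Fintype.card F) := by rw [Nat.odd_iff]; omega
  have h2 := two_ne_zero_of_odd hF
  have hzc : (-1 : GL (Fin 1) F) ∈ center (GL (Fin 1) F) := by
    rw [mem_center_iff]; intro g; simp
  have hz2 : (-1 : GL (Fin 1) F) ^ 2 = 1 := by simp
  obtain ⟨R⟩ := (inferInstance : Nonempty (Sylow 2 (W (Fin n) (GL (Fin 1) F))))
  have hn : 1 * n + 0 = n := by omega
  obtain ⟨e⟩ := sylow_equiv ((glWrd' 1 n 0 one_ne_zero F).map (greidx (finCongr hn) F).toMonoidHom (greidx (finCongr hn) F).injective).hom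
    (Wrd.hom_injective _) (fac_GL_four h1 n) S R
  have a := LB.wreath R (-1) hzc hz2 (neg_one_ne h2 1 one_pos)
  rw [Nat.card_fin] at a
  exact a.congr e

/-- The normal 2-rank of the general linear group over a finite field of odd order q: for n ≥ 1 and S a Sylow 2-subgroup of GL_n(F), the largest rank of an elementary abelian subgroup of S that is normal in S equals n when q ≡ 1 (mod 4) and ⌊(n + 1)/2⌋ when q ≡ 3 (mod 4). -/
theorem result {F : Type*} [Field F] [Fintype F] {q : ℕ} (hF : Fintype.card F = q) (hodd : Odd q) (n : ℕ) (hn : 1 ≤ n) (S : Sylow 2 (Matrix.GeneralLinearGroup (Fin n) F)) :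
    (q % 4 = 1 → ((∃ E : Subgroup ↥(S : Subgroup (Matrix.GeneralLinearGroup (Fin n) F)), E.Normal ∧ Cfsg.IsElementaryAbelian 2 E ∧ 2 ^ (n) ≤ Nat.card ↥E) ∧
      ∀ E : Subgroup ↥(S : Subgroup (Matrix.GeneralLinearGroup (Fin n) F)), E.Normal → Cfsg.IsElementaryAbelian 2 E → Nat.card ↥E ≤ 2 ^ (n))) ∧
    (q % 4 = 3 → ((∃ E : Subgroup ↥(S : Subgroup (Matrix.GeneralLinearGroup (Fin n) F)), E.Normal ∧ Cfsg.IsElementaryAbelian 2 E ∧ 2 ^ ((n + 1) / 2) ≤ Nat.card ↥E) ∧
      ∀ E : Subgroup ↥(S : Subgroup (Matrix.GeneralLinearGroup (Fin n) F)), E.Normal → Cfsg.IsElementaryAbelian 2 E → Nat.card ↥E ≤ 2 ^ ((n + 1) / 2))) := by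
  subst hF
  have h2 : (2 : F) ≠ 0 := Cfsg.Agent.H53.SEA.two_ne_zero_of_odd hodd
  refine ⟨fun h => ⟨lb_GL_one h n S, ub_GL h2 n S⟩, fun h => both_GL_three h n S⟩

end Cfsg.Agent.S2249
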