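import Cfsg.Statements.S2250
import Cfsg.Agent.H94.WrNR
import Cfsg.Agent.H94.WrSp
import Cfsg.Agent.H94.ElAb2

set_option autoImplicit false
open Cfsg

namespace Cfsg.Agent.S2250

open Cfsg.Agent.H94.Wr Matrix

theorem lower {F : Type*} [Field F] [Fintype F] (hF : Odd (Fintype.card F)) (n : ℕ)
    (S : Sylow 2 ↥(Matrix.symplecticGroup (Fin n) F)) : LB ↥(S : Subgroup ↥(Matrix.symplecticGroup (Fin n) F)) n := by
  have : Finite (W (Fin n) (SpecialLinearGroup (Fin 2) F)) := inferInstance
  obtain ⟨R⟩ := (inferInstance : Nonempty (Sylow 2 (W (Fin n) (SpecialLinearGroup (Fin 2) F))))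
  have hv : (Nat.card ↥(Matrix.symplecticGroup (Fin n) F)).factorization 2 =
      (Nat.card (W (Fin n) (SpecialLinearGroup (Fin 2) F))).factorization 2 := by
    rw [fac_sp n hF, card_W, Nat.card_fin, Nat.factorization_mul (pow_ne_zero _ Nat.card_pos.ne') (Nat.factorial_ne_zero _),
      Nat.factorization_pow]
    simp
  obtain ⟨e⟩ := sylow_equiv (spWrd n F).hom (spWrd n F).hom_injective hv S R
  have h2 := Cfsg.Agent.H53.SEA.two_ne_zero_of_odd hF
  have h1 : LB (R : Subgroup (W (Fin n) (SpecialLinearGroup (Fin 2) F))) (Nat.card (Fin n)) := by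
    refine LB.wreath R (-1) ?_ ?_ ?_
    · rw [Subgroup.mem_center_iff]
      intro g
      simp
    · simp
    · intro h
      have h3 := congrFun (congrFun (congrArg Subtype.val h) 0) 0
      rw [Matrix.SpecialLinearGroup.coe_neg, Matrix.SpecialLinearGroup.coe_one] at h3
      simp at h3
      apply h2
      linear_combination -h3
  rw [Nat.card_fin] at h1
  exact h1.congr e

theorem upper {F : Type*} [Field F] [Fintype F] (hF : Odd (Fintype.card F)) (n : ℕ)
    (A : Type*) [Group A] [Finite A] (hsq : ∀ a : A, a * a = 1) (ρ : A →* ↥(Matrix.symplecticGroup (Fin n) F))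
    (hρ : Function.Injective ρ) : Nat.card A ≤ 2 ^ n := by
  have h2 := Cfsg.Agent.H53.SEA.two_ne_zero_of_odd hF
  let τ : A →* Module.End F (Fin n ⊕ Fin n → F) :=
    { toFun := fun a => Matrix.toLin' (ρ a : Matrix (Fin n ⊕ Fin n) (Fin n ⊕ Fin n) F)
      map_one' := by
        rw [map_one]
        exact Matrix.toLin'_one
      map_mul' := fun a b => by
        rw [map_mul]
        exact Matrix.toLin'_mul _ _ }
  have hτ : Function.Injective τ := by
    intro a b h
    apply hρ
    apply Subtype.ext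
    exact Matrix.toLin'.injective h
  refine Cfsg.Agent.H94.ElAb2.card_le_symp τ h2 hsq hτ (Matrix.toBilin' (J (Fin n) F)) ?_ ?_ ?_ (n := n) ?_
  · have h3 : (Matrix.toBilin' (J (Fin n) F)).Nondegenerate := by
      rw [Matrix.nondegenerate_toBilin'_iff]
      apply Matrix.nondegenerate_of_det_ne_zero
      exact (Matrix.isUnit_det_J (l := Fin n) (R := F)).ne_zero
    exact h3
  · intro v
    rw [Matrix.toBilin'_apply', J, fromBlocks_mulVec, dotProduct, Fintype.sum_sum_type]
    simp only [Matrix.zero_mulVec, Matrix.neg_mulVec, Matrix.one_mulVec, zero_add, add_zero, Sum.elim_inl, Sum.elim_inr,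
      Pi.neg_apply, Function.comp_apply]
    rw [← Finset.sum_add_distrib]
    exact Finset.sum_eq_zero fun i _ => by ring
  · intro a v w
    rw [Matrix.toBilin'_apply', Matrix.toBilin'_apply']
    change (Matrix.toLin' (ρ a : Matrix (Fin n ⊕ Fin n) (Fin n ⊕ Fin n) F) v) ⬝ᵥ (J (Fin n) F) *ᵥ (Matrix.toLin' (ρ a : Matrix (Fin n ⊕ Fin n) (Fin n ⊕ Fin n) F) w) = _
    rw [Matrix.toLin'_apply, Matrix.toLin'_apply, Matrix.mulVec_mulVec, ← Matrix.vecMul_transpose, Matrix.dotProduct_mulVec, Matrix.vecMul_vecMul, ← Matrix.dotProduct_mulVec, ← Matrix.mul_assoc]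
    have := SymplecticGroup.mem_iff'.mp (ρ a).2
    rw [this]
  · rw [Module.finrank_fintype_fun_eq_card, Fintype.card_sum, Fintype.card_fin]; ring

/-- The normal 2-rank of the symplectic group over a finite field of odd order: for n ≥ 1 and S a Sylow 2-subgroup of Sp_{2n}(F), the largest rank of an elementary abelian subgroup of S that is normal in S equals n. -/
theorem result {F : Type*} [Field F] [Fintype F] (hF : Odd (Fintype.card F)) (n : ℕ) (hn : 1 ≤ n) (S : Sylow 2 ↥(Matrix.symplecticGroup (Fin n) F)) :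
    ((∃ E : Subgroup ↥(S : Subgroup ↥(Matrix.symplecticGroup (Fin n) F)), E.Normal ∧ Cfsg.IsElementaryAbelian 2 E ∧ 2 ^ (n) ≤ Nat.card ↥E) ∧
      ∀ E : Subgroup ↥(S : Subgroup ↥(Matrix.symplecticGroup (Fin n) F)), E.Normal → Cfsg.IsElementaryAbelian 2 E → Nat.card ↥E ≤ 2 ^ (n)) := by
  refine ⟨lower hF n S, fun E hE hEl => ?_⟩
  refine upper hF n E (fun a => ?_) (((S : Subgroup ↥(Matrix.symplecticGroup (Fin n) F)).subtype).comp E.subtype)
    (((S : Subgroup ↥(Matrix.symplecticGroup (Fin n) F)).subtype_injective).comp E.subtype_injective)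
  apply Subtype.ext
  have := hEl.2 a a.2
  rw [sq] at this
  exact this

end Cfsg.Agent.S2250
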