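import Cfsg.Statements.S2254
import Cfsg.Agent.H38.NilUniq

set_option autoImplicit false
open Cfsg

namespace Cfsg.Agent.S2254

open Cfsg.Agent.H38.NilNum Cfsg.Agent.H38.NilPerm Cfsg.Agent.H38.NilUniq in
/-- Let n ≡ 3 (mod 4). Then every nilpotent subgroup of the symmetric group on n letters has order at most 3 times the order of a Sylow 2-subgroup of the symmetric group on n − 3 letters; the bound is attained by a nilpotent subgroup isomorphic to the direct product of such a Sylow 2-subgroup with a cyclic group of order 3; and any two nilpotent subgroups attaining the bound are conjugate. -/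
theorem result  (n : ℕ) (hn : n % 4 = 3)
    (P : Sylow 2 (Equiv.Perm (Fin (n - 3)))) :
    (∀ N : Subgroup (Equiv.Perm (Fin n)), Group.IsNilpotent N → Nat.card N ≤ 3 * Nat.card P) ∧
    (∃ M : Subgroup (Equiv.Perm (Fin n)), Group.IsNilpotent M ∧ Nat.card M = 3 * Nat.card P ∧
      Nonempty (M ≃* (↥(P : Subgroup (Equiv.Perm (Fin (n - 3)))) × Multiplicative (ZMod 3)))) ∧
    (∀ N₁ N₂ : Subgroup (Equiv.Perm (Fin n)), Group.IsNilpotent N₁ → Group.IsNilpotent N₂ →
      Nat.card N₁ = 3 * Nat.card P → Nat.card N₂ = 3 * Nat.card P →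
      ∃ g : Equiv.Perm (Fin n), N₂ = N₁.map (MulAut.conj g).toMonoidHom) := by
  have hf : Fact (2 : ℕ).Prime := ⟨Nat.prime_two⟩
  obtain ⟨m, rfl⟩ : ∃ m, n = m + 3 := ⟨n - 3, by omega⟩
  obtain ⟨k, rfl⟩ : ∃ k, m = 4 * k := ⟨m / 4, by omega⟩
  have hP : Nat.card P = F k := by
    rw [P.card_eq_multiplicity, Nat.card_perm, Nat.card_fin]
    rfl
  refine ⟨?_, ?_, ?_⟩
  · intro N hN
    have h1 := nilp_bound _ N (Fin (4 * k + 3)) hN (Nat.card_fin _)
    rw [H_three] at h1
    rw [hP]; exact h1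
  · exact exists_sym (4 * k) P
  · intro N₁ N₂ h1 h2 h3 h4
    rw [hP] at h3 h4
    exact conj_lemma rfl N₁ N₂ h1 h2 h3 h4

end Cfsg.Agent.S2254
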