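import Cfsg.Statements.S2255
import Cfsg.Agent.H38.NilHat

set_option autoImplicit false
open Cfsg

namespace Cfsg.Agent.S2255

/-- Let n be a natural number not congruent to 3 modulo 4, with n ∉ {5, 6, 9}. Then every nilpotent subgroup of the alternating group on n letters has order at most the order of a Sylow 2-subgroup of the alternating group (so the nilpotent subgroups of largest order are exactly the Sylow 2-subgroups). -/
theorem result  (n : ℕ) (hn : n % 4 ≠ 3)
    (h5 : n ≠ 5) (h6 : n ≠ 6) (h9 : n ≠ 9)
    (N : Subgroup (alternatingGroup (Fin n))) (hN : Group.IsNilpotent N)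
    (P : Sylow 2 (alternatingGroup (Fin n))) :
    Nat.card N ≤ Nat.card P := by
  rcases Nat.lt_or_ge n 2 with h2 | h2
  · have hs : Subsingleton (alternatingGroup (Fin n)) := by
      have : Subsingleton (Equiv.Perm (Fin n)) := by
        have : Subsingleton (Fin n) := Fin.subsingleton_iff_le_one.2 (by omega)
        infer_instance
      infer_instance
    have : Nat.card N = 1 := Nat.card_of_subsingleton 1
    rw [this]
    exact Nat.card_pos
  · have h1 := Cfsg.Agent.H38.NilHat.alt_bound' N hN (by omega) (by omega) (by omega) h5 h6 h9
    have h3 := Cfsg.Agent.H38.NilHat.card_sylow_alt h2 P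
    unfold Cfsg.Agent.H38.NilNum.H at h1
    rw [if_neg hn, ← h3] at h1
    omega

end Cfsg.Agent.S2255
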