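import Cfsg.Statements.S2257
import Cfsg.Agent.Dk.SolTwo
-- import your own Cfsg.Agent.* helpers here

set_option autoImplicit false
open Cfsg

namespace Cfsg.Agent.S2257

/-- Let G = PSL_2(F) with F a field of order q = 2^p, p prime, and for x ∈ G call the solubilizer of x the set of y ∈ G such that x and y generate a solvable subgroup. Then the solubilizer of an involution has 3q(q − 1) elements; that of a non-identity element of order dividing q − 1 has 2q(q − 1) elements; and that of a non-identity element of order dividing q + 1 has 2(q + 1) elements. -/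
theorem result (p : ℕ) (hp : p.Prime) {F : Type*} [Field F] [Fintype F]
    (hF : Fintype.card F = 2 ^ p) (x : Matrix.ProjectiveSpecialLinearGroup (Fin 2) F) :
    (orderOf x = 2 → Nat.card {y : Matrix.ProjectiveSpecialLinearGroup (Fin 2) F // Group.IsSolvable ↥(Subgroup.closure ({x, y} : Set (Matrix.ProjectiveSpecialLinearGroup (Fin 2) F)))} = 3 * 2 ^ p * (2 ^ p - 1)) ∧
    (x ≠ 1 → orderOf x ∣ 2 ^ p - 1 → Nat.card {y : Matrix.ProjectiveSpecialLinearGroup (Fin 2) F // Group.IsSolvable ↥(Subgroup.closure ({x, y} : Set (Matrix.ProjectiveSpecialLinearGroup (Fin 2) F)))} = 2 * 2 ^ p * (2 ^ p - 1)) ∧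
    (x ≠ 1 → orderOf x ∣ 2 ^ p + 1 → Nat.card {y : Matrix.ProjectiveSpecialLinearGroup (Fin 2) F // Group.IsSolvable ↥(Subgroup.closure ({x, y} : Set (Matrix.ProjectiveSpecialLinearGroup (Fin 2) F)))} = 2 * (2 ^ p + 1)) := by
  have hcard : Nat.card F = 2 ^ p := by rw [Nat.card_eq_fintype_card, hF]
  have hchar : CharP F 2 := by
    obtain ⟨r, hr, hrF⟩ := Cfsg.Agent.Dk.exists_char (F := F)
    have h1 := Cfsg.Agent.Dk.char_dvd_card (F := F) hr
    rw [hcard] at h1
    have h2 := (Nat.prime_dvd_prime_iff_eq hr Nat.prime_two).1 (hr.dvd_of_dvd_pow h1)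
    rw [← h2]; exact hrF
  refine ⟨?_, ?_, ?_⟩
  · intro hx
    have hx1 : x ≠ 1 := by
      rintro rfl; rw [orderOf_one] at hx; omega
    have hxx : x * x = 1 := by
      have := pow_orderOf_eq_one x
      rwa [hx, sq] at this
    have h := Cfsg.Agent.Dk.sol_invol_two hp hcard hx1 hxx
    rw [hcard] at h
    exact h
  · intro hx1 hx
    rw [← hcard] at hx
    have h := Cfsg.Agent.Dk.sol_split_two hp hcard hx1 hx
    rw [hcard] at h
    exact h
  · intro hx1 hx
    rw [← hcard] at hx
    have h := Cfsg.Agent.Dk.sol_nonsplit_two hp hcard hx1 hx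
    rw [hcard] at h
    exact h

end Cfsg.Agent.S2257
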