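import Cfsg.Statements.S2268
import Mathlib

set_option autoImplicit false
open Cfsg

namespace Cfsg.Agent.S2268

theorem frattini_part {G : Type*} [Group G] [Finite G] {p : ℕ} [Fact p.Prime]
    (P : Sylow p G) (hP : IsMulCommutative (P : Subgroup G)) (Q : Subgroup G) (hQ : Q ≤ (P : Subgroup G)) :
    Subgroup.normalizer (Q : Set G) =
      (Subgroup.normalizer (Q : Set G) ⊓ Subgroup.normalizer ((P : Subgroup G) : Set G)) ⊔ Subgroup.centralizer (Q : Set G) := by
  have hPC : (P : Subgroup G) ≤ Subgroup.centralizer (Q : Set G) :=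
    (Subgroup.le_centralizer (P : Subgroup G)).trans (Subgroup.centralizer_le hQ)
  have hCN : Subgroup.centralizer (Q : Set G) ≤ Subgroup.normalizer (Q : Set G) :=
    Subgroup.centralizer_le_normalizer _
  apply le_antisymm
  · intro g hg
    have hgP : ((g • P : Sylow p G) : Subgroup G) ≤ Subgroup.centralizer (Q : Set G) := by
      intro x hx
      rw [Sylow.coe_subgroup_smul, Subgroup.mem_smul_pointwise_iff_exists] at hx
      obtain ⟨y, hy, rfl⟩ := hx
      rw [Subgroup.mem_centralizer_iff]
      intro q hq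
      have h1 : g⁻¹ * q * g ∈ Q := by
        have := (Subgroup.mem_normalizer_iff.1 (inv_mem hg) q).1 hq
        simpa using this
      have h2 := (Subgroup.mem_centralizer_iff.1 (hPC hy)) _ h1
      simp only [MulAut.smul_def, MulAut.conj_apply]
      calc q * (g * y * g⁻¹) = g * ((g⁻¹ * q * g) * y) * g⁻¹ := by group
        _ = g * (y * (g⁻¹ * q * g)) * g⁻¹ := by rw [h2]
        _ = _ := by group
    obtain ⟨c, hc⟩ := MulAction.exists_smul_eq (Subgroup.centralizer (Q : Set G))
      ((g • P).subtype hgP) (P.subtype hPC)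
    simp_rw [Sylow.smul_subtype, Subgroup.smul_def, smul_smul] at hc
    have hc' := Sylow.subtype_injective hc
    have h3 : (c : G) * g ∈ Subgroup.normalizer ((P : Subgroup G) : Set G) := by
      exact Sylow.smul_eq_iff_mem_normalizer.1 hc'
    have h4 : (c : G) * g ∈ Subgroup.normalizer (Q : Set G) := mul_mem (hCN c.2) hg
    have : g = (c : G)⁻¹ * ((c : G) * g) := by group
    rw [this]
    exact mul_mem ((le_sup_right : _ ≤ _ ⊔ Subgroup.centralizer (Q : Set G)) (inv_mem c.2))
      ((le_sup_left : Subgroup.normalizer (Q : Set G) ⊓ Subgroup.normalizer ((P : Subgroup G) : Set G) ≤ _) ⟨h4, h3⟩)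
  · exact sup_le inf_le_left hCN

theorem result {G : Type*} [Group G] [Finite G] {p : ℕ} [Fact p.Prime]
    (P : Sylow p G) (hP : IsMulCommutative (P : Subgroup G)) (Q : Subgroup G) (hQ : Q ≤ (P : Subgroup G)) :
    Subgroup.normalizer (Q : Set G) =
      (Subgroup.normalizer (Q : Set G) ⊓ Subgroup.normalizer ((P : Subgroup G) : Set G)) ⊔ Subgroup.centralizer (Q : Set G) ∧
    ((Subgroup.centralizer (Q : Set G)).subgroupOf (Subgroup.normalizer (Q : Set G))).index ∣ ((Subgroup.centralizer ((P : Subgroup G) : Set G)).subgroupOf (Subgroup.normalizer ((P : Subgroup G) : Set G))).index := by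
  have key := frattini_part P hP Q hQ
  refine ⟨key, ?_⟩
  set A : Subgroup G := Subgroup.normalizer (Q : Set G) ⊓ Subgroup.normalizer ((P : Subgroup G) : Set G) with hA
  set N : Subgroup G := Subgroup.normalizer (Q : Set G) with hN
  set C : Subgroup G := Subgroup.centralizer (Q : Set G) with hC
  have hCN : C ≤ N := Subgroup.centralizer_le_normalizer _
  have hAN : A ≤ N := inf_le_left
  have hnorm : (C.subgroupOf N).Normal := by
    rw [hC, hN]; infer_instance
  have h1 : (C.subgroupOf N).index = (C.subgroupOf A).index := by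
    have e1 : A.subgroupOf N ⊔ C.subgroupOf N = ⊤ := by
      rw [← Subgroup.subgroupOf_sup hAN hCN, ← key, Subgroup.subgroupOf_self]
    have e2 := Subgroup.relIndex_sup_right (A.subgroupOf N) (C.subgroupOf N)
    rw [e1, Subgroup.relIndex_top_right, Subgroup.relIndex_subgroupOf hAN] at e2
    exact e2
  rw [h1]
  have hPA : Subgroup.centralizer ((P : Subgroup G) : Set G) ≤ A :=
    le_inf ((Subgroup.centralizer_le hQ).trans hCN) (Subgroup.centralizer_le_normalizer _)
  have h2 : C.relIndex A ∣ (Subgroup.centralizer ((P : Subgroup G) : Set G)).relIndex A :=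
    Subgroup.relIndex_dvd_of_le_left _ (Subgroup.centralizer_le hQ)
  have h3 := Subgroup.relIndex_mul_relIndex _ _ _ hPA (inf_le_right : A ≤ Subgroup.normalizer ((P : Subgroup G) : Set G))
  exact h2.trans (Dvd.intro _ h3)

end Cfsg.Agent.S2268
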