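import Cfsg.Statements.S2269
import Mathlib

set_option autoImplicit false
open Cfsg

namespace Cfsg.Agent.S2269

/-- An abelian Sylow `p`-subgroup containing a real element which is not an involution has an automizer of
even order. -/
theorem two_dvd_of_real {G : Type*} [Group G] [Finite G] {p : ℕ} [Fact p.Prime]
    (P : Sylow p G) (hP : IsMulCommutative (P : Subgroup G)) (x : G) (hx : x ∈ P) (hx1 : x ^ 2 ≠ 1)
    (hc : IsConj x x⁻¹) :
    2 ∣ ((Subgroup.centralizer ((P : Subgroup G) : Set G)).subgroupOf (Subgroup.normalizer ((P : Subgroup G) : Set G))).index := by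
  obtain ⟨g, hg⟩ := isConj_iff.1 hc
  have hy : (g⁻¹)⁻¹ * x * g⁻¹ ∈ P := by
    rw [inv_inv, hg]; exact inv_mem hx
  obtain ⟨n, hn, hn'⟩ := Sylow.conj_eq_normalizer_conj_of_mem P x g⁻¹ hx hy
  rw [inv_inv, hg] at hn'
  -- n⁻¹ x n = x⁻¹
  have hpow : ∀ k : ℕ, Odd k → (n⁻¹) ^ k * x * n ^ k = x⁻¹ := by
    intro k hk
    obtain ⟨m, rfl⟩ := hk
    induction m with
    | zero => simpa using hn'.symm
    | succ m ih =>
      have e1 : n⁻¹ * x⁻¹ * n = x := by
        have := congrArg (·⁻¹) hn'
        simp only [inv_inv, mul_inv_rev] at this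
        rw [mul_assoc]; exact this.symm
      have e2 : n⁻¹ * x * n = x⁻¹ := hn'.symm
      calc (n⁻¹) ^ (2 * (m + 1) + 1) * x * n ^ (2 * (m + 1) + 1)
          = n⁻¹ * (n⁻¹ * ((n⁻¹) ^ (2 * m + 1) * x * n ^ (2 * m + 1)) * n) * n := by
            rw [show 2 * (m + 1) + 1 = (2 * m + 1) + 1 + 1 by ring, pow_succ' n⁻¹, pow_succ' n⁻¹, pow_succ n,
              pow_succ n]
            group
        _ = n⁻¹ * (n⁻¹ * x⁻¹ * n) * n := by rw [ih]
        _ = x⁻¹ := by rw [e1, e2]
  set N := Subgroup.normalizer ((P : Subgroup G) : Set G) with hN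
  set C := (Subgroup.centralizer ((P : Subgroup G) : Set G)).subgroupOf N with hCdef
  have hnormal : C.Normal := by rw [hCdef, hN]; infer_instance
  let a : N ⧸ C := QuotientGroup.mk (⟨n, hn⟩ : N)
  have ha : Even (orderOf a) := by
    rw [← Nat.not_odd_iff_even]
    intro hodd
    have h1 : a ^ orderOf a = 1 := pow_orderOf_eq_one a
    have h2 : (⟨n, hn⟩ : N) ^ orderOf a ∈ C := by
      rw [← QuotientGroup.eq_one_iff]
      exact h1
    have h3 : n ^ orderOf a ∈ Subgroup.centralizer ((P : Subgroup G) : Set G) := by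
      simpa [hCdef, Subgroup.mem_subgroupOf] using h2
    have h4 := Subgroup.mem_centralizer_iff.1 h3 x hx
    have h5 := hpow _ hodd
    rw [inv_pow, mul_assoc, h4, inv_mul_cancel_left] at h5
    -- x = x⁻¹
    apply hx1
    rw [pow_two]
    nth_rewrite 2 [h5]
    simp
  have hcard : C.index = Nat.card (N ⧸ C) := rfl
  rw [hcard]
  exact (even_iff_two_dvd.1 ha).trans (orderOf_dvd_natCard a)

theorem two_dvd_of_real' {G : Type*} [Group G] [Finite G] {p : ℕ} [Fact p.Prime]
    (P : Sylow p G) (hP : IsMulCommutative (P : Subgroup G)) (x : G) (k : ℕ) (hx : x ^ p ^ k = 1) (hx1 : x ^ 2 ≠ 1)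
    (hc : IsConj x x⁻¹) :
    2 ∣ ((Subgroup.centralizer ((P : Subgroup G) : Set G)).subgroupOf (Subgroup.normalizer ((P : Subgroup G) : Set G))).index := by
  have hpg : IsPGroup p (Subgroup.zpowers x) := by
    rw [IsPGroup.iff_card, Nat.card_zpowers]
    obtain ⟨j, -, hj⟩ := (Nat.dvd_prime_pow Fact.out).1 (orderOf_dvd_of_pow_eq_one hx)
    exact ⟨j, hj⟩
  obtain ⟨Q, hQ⟩ := hpg.exists_le_sylow
  obtain ⟨g, hg⟩ := MulAction.exists_smul_eq G Q P
  have hxQ : x ∈ Q := hQ (Subgroup.mem_zpowers x)
  have hgx : g * x * g⁻¹ ∈ P := by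
    rw [← hg]
    change g * x * g⁻¹ ∈ ((g • Q : Sylow p G) : Subgroup G)
    rw [Sylow.coe_subgroup_smul]
    exact Subgroup.smul_mem_pointwise_smul x (MulAut.conj g) (Q : Subgroup G) hxQ
  have hconj : IsConj x (g * x * g⁻¹) := isConj_iff.2 ⟨g, rfl⟩
  have hconj' : IsConj x⁻¹ (g * x * g⁻¹)⁻¹ := isConj_iff.2 ⟨g, by group⟩
  refine two_dvd_of_real P hP (g * x * g⁻¹) hgx ?_ (hconj.symm.trans (hc.trans hconj'))
  intro h
  apply hx1
  have : (g * x * g⁻¹) ^ 2 = g * x ^ 2 * g⁻¹ := by
    rw [conj_pow]
  rw [this, mul_inv_eq_one, mul_eq_left] at h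
  exact h

theorem card_alt_fin (n : ℕ) (hn : 5 ≤ n) : 2 * Nat.card (alternatingGroup (Fin n)) = n.factorial := by
  have : Nontrivial (Fin n) := Fin.nontrivial_iff_two_le.2 (by omega)
  rw [two_mul_nat_card_alternatingGroup, Nat.card_perm, Nat.card_fin]

/-- every alternating group with at least `p+2` points (p odd) has a real element of order `p` -/
theorem exists_real_of_odd (n p : ℕ) [hp : Fact p.Prime] (hp2 : p ≠ 2) (hpn : p + 2 ≤ n) :
    ∃ x : alternatingGroup (Fin n), x ^ p ^ 1 = 1 ∧ x ^ 2 ≠ 1 ∧ IsConj x x⁻¹ := by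
  have hp3 : 3 ≤ p := by
    have := hp.out.two_le
    omega
  obtain ⟨g, hg⟩ := (Equiv.Perm.exists_with_cycleType_iff (α := Fin n) (m := {p})).2
    ⟨by simp; omega, by simp; omega⟩
  have hodd : Odd p := hp.out.odd_of_ne_two hp2
  have hsign : g ∈ alternatingGroup (Fin n) := by
    rw [Equiv.Perm.mem_alternatingGroup, Equiv.Perm.sign_of_cycleType, hg]
    simp
    exact hodd.add_one.neg_one_pow
  have hord : orderOf g = p := by
    rw [← Equiv.Perm.lcm_cycleType, hg]; simp
  refine ⟨⟨g, hsign⟩, ?_, ?_, ?_⟩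
  · apply Subtype.ext
    simp only [pow_one, SubmonoidClass.mk_pow, OneMemClass.coe_one]
    rw [← hord]; exact pow_orderOf_eq_one g
  · intro h
    have h1 : g ^ 2 = 1 := congrArg Subtype.val h
    have h2 := orderOf_dvd_of_pow_eq_one h1
    rw [hord] at h2
    have := Nat.le_of_dvd (by norm_num) h2
    omega
  · apply alternatingGroup.isConj_of
    · rw [Equiv.Perm.isConj_iff_cycleType_eq]
      simp [Equiv.Perm.cycleType_inv]
    · rw [← Equiv.Perm.sum_cycleType]
      simp [hg, hpn]

/-- in degree at least six there is a real element of order four -/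
theorem exists_real_four (n : ℕ) (hn : 6 ≤ n) :
    ∃ x : alternatingGroup (Fin n), x ^ 2 ^ 2 = 1 ∧ x ^ 2 ≠ 1 ∧ IsConj x x⁻¹ := by
  have key : ∃ a b : Equiv.Perm (Fin 6), Equiv.Perm.sign a = 1 ∧ Equiv.Perm.sign b = 1 ∧ a ^ 4 = 1 ∧ a ^ 2 ≠ 1 ∧ b * a * b⁻¹ = a⁻¹ := by
    refine ⟨Equiv.swap 0 1 * Equiv.swap 1 2 * Equiv.swap 2 3 * Equiv.swap 4 5, Equiv.swap 0 2 * Equiv.swap 4 5, ?_⟩
    decide
  obtain ⟨a, b, ha, hb, ha4, ha2, hab⟩ := key
  let φ : Equiv.Perm (Fin 6) →* Equiv.Perm (Fin n) := Equiv.Perm.extendDomainHom (Fin.castLEEmb hn).toEquivRange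
  have hφ : Function.Injective φ := Equiv.Perm.extendDomainHom_injective _
  have hs : ∀ c : Equiv.Perm (Fin 6), Equiv.Perm.sign (φ c) = Equiv.Perm.sign c := fun c =>
    Equiv.Perm.sign_extendDomain c _
  refine ⟨⟨φ a, by rw [Equiv.Perm.mem_alternatingGroup, hs, ha]⟩, ?_, ?_, ?_⟩
  · apply Subtype.ext
    change φ a ^ 4 = 1
    rw [← map_pow, ha4, map_one]
  · intro h
    have h1 : φ a ^ 2 = 1 := congrArg Subtype.val h
    rw [← map_pow] at h1
    exact ha2 (hφ (by rw [h1, map_one]))
  · rw [isConj_iff]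
    refine ⟨⟨φ b, by rw [Equiv.Perm.mem_alternatingGroup, hs, hb]⟩, ?_⟩
    apply Subtype.ext
    change φ b * φ a * (φ b)⁻¹ = (φ a)⁻¹
    rw [← map_mul, ← map_inv, ← map_mul, hab, map_inv]

theorem cyclic_case (n : ℕ) (hn : 5 ≤ n) {p : ℕ} [hp : Fact p.Prime] (hp2 : p ≠ 2) (hpn : n < p + 2)
    (P : Sylow p (alternatingGroup (Fin n))) : IsCyclic (P : Subgroup (alternatingGroup (Fin n))) := by
  have hcard := P.card_eq_multiplicity
  have h2 := card_alt_fin n hn
  have hp3 : 3 ≤ p := by
    have := hp.out.two_le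
    omega
  -- the p-part of n! is at most p
  have hle : (Nat.card (alternatingGroup (Fin n))).factorization p ≤ 1 := by
    have h3 : (Nat.card (alternatingGroup (Fin n))).factorization p = (n.factorial).factorization p := by
      rw [← h2, Nat.factorization_mul (by norm_num) Nat.card_pos.ne']
      simp only [Finsupp.coe_add, Pi.add_apply]
      rw [Nat.factorization_eq_zero_of_not_dvd (n := 2) (p := p), zero_add]
      intro h
      have := Nat.le_of_dvd (by norm_num) h
      omega
    rw [h3]
    have h4 : (n.factorial).factorization p = padicValNat p n.factorial := by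
      rw [Nat.factorization_def _ hp.out]
    rw [h4]
    have h5 : padicValNat p n.factorial = ∑ i ∈ Finset.Ico 1 2, n / p ^ i := by
      apply padicValNat_factorial
      rw [Nat.lt_iff_add_one_le]
      have : Nat.log p n < 2 := by
        apply Nat.log_lt_of_lt_pow (by omega)
        nlinarith
      omega
    rw [h5]
    simp
    rw [Nat.div_le_iff_le_mul_add_pred (by omega)]
    omega
  rcases Nat.lt_or_ge ((Nat.card (alternatingGroup (Fin n))).factorization p) 1 with h | h
  · have h0 : (Nat.card (alternatingGroup (Fin n))).factorization p = 0 := by omega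
    rw [h0, pow_zero] at hcard
    have : Subsingleton (P : Subgroup (alternatingGroup (Fin n))) := (Nat.card_eq_one_iff_unique.1 hcard).1
    infer_instance
  · have h0 : (Nat.card (alternatingGroup (Fin n))).factorization p = 1 := by omega
    rw [h0, pow_one] at hcard
    exact isCyclic_of_prime_card hcard

theorem sq_of_pow_four : ∀ g : Equiv.Perm (Fin 5), Equiv.Perm.sign g = 1 → g ^ 4 = 1 → g ^ 2 = 1 := by
  decide +kernel

theorem card_A5 : Nat.card (alternatingGroup (Fin 5)) = 60 := by
  have := card_alt_fin 5 le_rfl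
  have h : (5 : ℕ).factorial = 120 := by decide
  omega

theorem card_P5 (P : Sylow 2 (alternatingGroup (Fin 5))) : Nat.card (P : Subgroup (alternatingGroup (Fin 5))) = 4 := by
  have h := P.card_eq_multiplicity
  rw [card_A5] at h
  have : (60 : ℕ).factorization 2 = 2 := by
    rw [show (60 : ℕ) = 2 ^ 2 * 15 by norm_num, Nat.factorization_mul (by norm_num) (by norm_num), Nat.factorization_pow]
    simp only [Finsupp.coe_add, Finsupp.coe_smul, Pi.add_apply, Pi.smul_apply]
    rw [Nat.Prime.factorization_self Nat.prime_two, Nat.factorization_eq_zero_of_not_dvd (n := 15) (p := 2) (by norm_num)]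
    simp
  rw [this] at h
  exact h

theorem sq_P5 (P : Sylow 2 (alternatingGroup (Fin 5))) (x : alternatingGroup (Fin 5)) (hx : x ∈ P) : x ^ 2 = 1 := by
  have h1 : (⟨x, hx⟩ : (P : Subgroup (alternatingGroup (Fin 5)))) ^ 4 = 1 := by
    rw [← card_P5 P]; exact pow_card_eq_one'
  have h2 : (x : Equiv.Perm (Fin 5)) ^ 4 = 1 := by
    have := congrArg (fun z : (P : Subgroup (alternatingGroup (Fin 5))) => ((z : alternatingGroup (Fin 5)) : Equiv.Perm (Fin 5))) h1
    simpa using this
  apply Subtype.ext
  exact sq_of_pow_four x (Equiv.Perm.mem_alternatingGroup.1 x.2) h2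

theorem conj_involutions (x y : alternatingGroup (Fin 5)) (hx : x ^ 2 = 1) (hy : y ^ 2 = 1) (hx1 : x ≠ 1) (hy1 : y ≠ 1) :
    IsConj x y := by
  have key : ∀ z : alternatingGroup (Fin 5), z ^ 2 = 1 → z ≠ 1 → (z : Equiv.Perm (Fin 5)).cycleType = {2, 2} := by
    intro z hz hz1
    have hz' : (z : Equiv.Perm (Fin 5)) ^ 2 = 1 := congrArg Subtype.val hz
    have hz1' : (z : Equiv.Perm (Fin 5)) ≠ 1 := fun h => hz1 (Subtype.ext h)
    have hord : orderOf (z : Equiv.Perm (Fin 5)) = 2 := orderOf_eq_prime hz' hz1'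
    have hall : ∀ i ∈ (z : Equiv.Perm (Fin 5)).cycleType, i = 2 := by
      intro i hi
      have h1 : i ∣ 2 := by
        rw [← hord]; exact Equiv.Perm.dvd_of_mem_cycleType hi
      have h2 := Equiv.Perm.two_le_of_mem_cycleType hi
      have h3 := Nat.le_of_dvd (by norm_num) h1
      omega
    have hrep := Multiset.eq_replicate_of_mem hall
    have hsum := (z : Equiv.Perm (Fin 5)).support.card_le_univ
    rw [← Equiv.Perm.sum_cycleType, hrep, Multiset.sum_replicate, Fintype.card_fin, smul_eq_mul] at hsum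
    have hsign := Equiv.Perm.mem_alternatingGroup.1 z.2
    rw [Equiv.Perm.sign_of_cycleType, hrep, Multiset.sum_replicate, Multiset.card_replicate] at hsign
    have hne : Multiset.card (z : Equiv.Perm (Fin 5)).cycleType ≠ 0 := by
      intro h0
      exact hz1' (Equiv.Perm.card_cycleType_eq_zero.1 h0)
    have h2 : Multiset.card (z : Equiv.Perm (Fin 5)).cycleType = 2 := by
      have hle : Multiset.card (z : Equiv.Perm (Fin 5)).cycleType ≤ 2 := by omega
      interval_cases h : Multiset.card (z : Equiv.Perm (Fin 5)).cycleType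
      · exact absurd rfl hne
      · norm_num at hsign
      · rfl
    rw [hrep, h2]
    rfl
  have hxy : IsConj (x : Equiv.Perm (Fin 5)) (y : Equiv.Perm (Fin 5)) := by
    rw [Equiv.Perm.isConj_iff_cycleType_eq, key x hx hx1, key y hy hy1]
  obtain ⟨c, hc⟩ := isConj_iff.1 hxy
  rcases Int.units_eq_one_or (Equiv.Perm.sign c) with h | h
  · exact isConj_iff.2 ⟨⟨c, Equiv.Perm.mem_alternatingGroup.2 h⟩, Subtype.ext hc⟩
  · have hx1' : (x : Equiv.Perm (Fin 5)) ≠ 1 := fun h => hx1 (Subtype.ext h)
    obtain ⟨i, hi⟩ : ∃ i, (x : Equiv.Perm (Fin 5)) i ≠ i := by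
      by_contra hcon
      push Not at hcon
      exact hx1' (Equiv.ext hcon)
    have hxx : ∀ j, (x : Equiv.Perm (Fin 5)) ((x : Equiv.Perm (Fin 5)) j) = j := by
      intro j
      have hz' : (x : Equiv.Perm (Fin 5)) ^ 2 = 1 := congrArg Subtype.val hx
      have := congrArg (fun z : Equiv.Perm (Fin 5) => z j) hz'
      simpa [pow_two] using this
    set s := Equiv.swap i ((x : Equiv.Perm (Fin 5)) i) with hs
    have hcomm : s * (x : Equiv.Perm (Fin 5)) * s⁻¹ = x := by
      rw [mul_inv_eq_iff_eq_mul, ← mul_inv_eq_iff_eq_mul]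
      have e := Equiv.swap_apply_apply (x : Equiv.Perm (Fin 5)) i ((x : Equiv.Perm (Fin 5)) i)
      rw [hxx, Equiv.swap_comm] at e
      rw [hs]
      nth_rewrite 1 [e]
      group
    have hsgn : Equiv.Perm.sign (c * s) = 1 := by
      rw [map_mul, h, hs, Equiv.Perm.sign_swap hi.symm]
      norm_num
    refine isConj_iff.2 ⟨⟨c * s, Equiv.Perm.mem_alternatingGroup.2 hsgn⟩, Subtype.ext ?_⟩
    change (c * s) * (x : Equiv.Perm (Fin 5)) * (c * s)⁻¹ = y
    calc (c * s) * (x : Equiv.Perm (Fin 5)) * (c * s)⁻¹ = c * (s * (x : Equiv.Perm (Fin 5)) * s⁻¹) * c⁻¹ := by group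
      _ = y := by rw [hcomm, hc]

theorem part_two (P : Sylow 2 (alternatingGroup (Fin 5))) (hP : IsMulCommutative (P : Subgroup (alternatingGroup (Fin 5)))) :
    ((Subgroup.centralizer ((P : Subgroup (alternatingGroup (Fin 5))) : Set (alternatingGroup (Fin 5)))).subgroupOf (Subgroup.normalizer ((P : Subgroup (alternatingGroup (Fin 5))) : Set (alternatingGroup (Fin 5))))).index = 3 ∧
      IsKleinFour (P : Subgroup (alternatingGroup (Fin 5))) := by
  have hcard := card_P5 P
  have hexp : ∀ x : (P : Subgroup (alternatingGroup (Fin 5))), x ^ 2 = 1 := fun x => Subtype.ext (sq_P5 P x.1 x.2)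
  have hnt : Nontrivial (P : Subgroup (alternatingGroup (Fin 5))) := by
    apply Finite.one_lt_card_iff_nontrivial.1
    rw [hcard]; norm_num
  constructor
  · set N := Subgroup.normalizer ((P : Subgroup (alternatingGroup (Fin 5))) : Set (alternatingGroup (Fin 5))) with hN
    set C := Subgroup.centralizer ((P : Subgroup (alternatingGroup (Fin 5))) : Set (alternatingGroup (Fin 5))) with hC
    -- divides 15
    have h15 : (C.subgroupOf N).index ∣ 15 := by
      have hPC : (P : Subgroup (alternatingGroup (Fin 5))) ≤ C := Subgroup.le_centralizer _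
      have hCN : C ≤ N := Subgroup.centralizer_le_normalizer _
      have h1 : C.relIndex N ∣ C.index := by
        exact Subgroup.relIndex_dvd_index_of_le hCN
      have h2 : C.index ∣ (P : Subgroup (alternatingGroup (Fin 5))).index := Subgroup.index_dvd_of_le hPC
      have h3 : (P : Subgroup (alternatingGroup (Fin 5))).index = 15 := by
        have := Subgroup.card_mul_index (P : Subgroup (alternatingGroup (Fin 5)))
        rw [hcard, card_A5] at this
        omega
      exact (h1.trans h2).trans (h3 ▸ dvd_rfl)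
    -- divides 6
    have h6 : (C.subgroupOf N).index ∣ 6 := by
      rw [hC, hN, ← Subgroup.normalizerMonoidHom_ker, Subgroup.index_ker]
      refine (Subgroup.card_subgroup_dvd_card _).trans ?_
      let φ : MulAut (P : Subgroup (alternatingGroup (Fin 5))) →* Equiv.Perm {x : (P : Subgroup (alternatingGroup (Fin 5))) // x ≠ 1} :=
        { toFun := fun a => Equiv.Perm.subtypePerm a.toEquiv (fun x => by
            change a x ≠ 1 ↔ x ≠ 1
            rw [Ne, Ne, map_eq_one_iff _ a.injective])
          map_one' := by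
            ext x; rfl
          map_mul' := by
            intro a b
            ext x; rfl }
      have hφ : Function.Injective φ := by
        intro a b hab
        ext x : 1
        by_cases hx : x = 1
        · rw [hx, map_one, map_one]
        · have := congrArg (fun z : Equiv.Perm {x : (P : Subgroup (alternatingGroup (Fin 5))) // x ≠ 1} => ((z ⟨x, hx⟩ : {x : (P : Subgroup (alternatingGroup (Fin 5))) // x ≠ 1}) : (P : Subgroup (alternatingGroup (Fin 5))))) hab
          exact this
      have h1 := Subgroup.card_dvd_of_injective φ hφ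
      rw [Nat.card_perm] at h1
      have h2 : Nat.card {x : (P : Subgroup (alternatingGroup (Fin 5))) // x ≠ 1} = 3 := by
        have : Fintype (P : Subgroup (alternatingGroup (Fin 5))) := Fintype.ofFinite _
        classical
        rw [Nat.card_eq_fintype_card, Fintype.card_subtype_compl, Fintype.card_subtype_eq,
          ← Nat.card_eq_fintype_card, hcard]
      rw [h2] at h1
      exact h1
    have h3 : (C.subgroupOf N).index ∣ 3 := by
      have := Nat.dvd_gcd h15 h6
      have e : Nat.gcd 15 6 = 3 := by decide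
      rwa [e] at this
    rcases (Nat.dvd_prime Nat.prime_three).1 h3 with h | h
    · exfalso
      -- N = C
      obtain ⟨x, hx⟩ := exists_ne (1 : (P : Subgroup (alternatingGroup (Fin 5))))
      obtain ⟨y, hy⟩ : ∃ y : (P : Subgroup (alternatingGroup (Fin 5))), y ≠ 1 ∧ y ≠ x := by
        by_contra hcon
        push Not at hcon
        have : Nat.card (P : Subgroup (alternatingGroup (Fin 5))) ≤ 2 := by
          have : Fintype (P : Subgroup (alternatingGroup (Fin 5))) := Fintype.ofFinite _
          classical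
          rw [Nat.card_eq_fintype_card, ← Finset.card_univ]
          refine (Finset.card_le_card (t := {1, x}) ?_).trans Finset.card_le_two
          intro z _
          by_cases hz : z = 1
          · simp [hz]
          · simp [hcon z hz]
        omega
      have hxy : IsConj (x : alternatingGroup (Fin 5)) (y : alternatingGroup (Fin 5)) := by
        apply conj_involutions _ _ (sq_P5 P x.1 x.2) (sq_P5 P y.1 y.2)
        · intro h; exact hx (Subtype.ext h)
        · intro h; exact hy.1 (Subtype.ext h)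
      obtain ⟨g, hg⟩ := isConj_iff.1 hxy
      have hy' : (g⁻¹)⁻¹ * (x : alternatingGroup (Fin 5)) * g⁻¹ ∈ P := by
        rw [inv_inv, hg]; exact y.2
      obtain ⟨n, hn, hn'⟩ := Sylow.conj_eq_normalizer_conj_of_mem P (x : alternatingGroup (Fin 5)) g⁻¹ x.2 hy'
      rw [inv_inv, hg] at hn'
      rw [Subgroup.index_eq_one, Subgroup.subgroupOf_eq_top] at h
      have hnC : n ∈ C := h hn
      have := Subgroup.mem_centralizer_iff.1 hnC x x.2
      apply hy.2
      apply Subtype.ext
      rw [hn', mul_assoc, this, inv_mul_cancel_left]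
    · exact h
  · refine ⟨hcard, ?_⟩
    have h1 : Monoid.exponent (P : Subgroup (alternatingGroup (Fin 5))) ∣ 2 := Monoid.exponent_dvd_of_forall_pow_eq_one hexp
    rcases (Nat.dvd_prime Nat.prime_two).1 h1 with h | h
    · exfalso
      have h2 := Monoid.exp_eq_one_iff.1 h
      exact not_subsingleton _ h2
    · exact h

theorem part_one (n : ℕ) (hn : 5 ≤ n) {p : ℕ} [hp : Fact p.Prime]
    (P : Sylow p (alternatingGroup (Fin n))) (hP : IsMulCommutative (P : Subgroup (alternatingGroup (Fin n))))
    (h : ¬ (n = 5 ∧ p = 2)) :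
    2 ∣ ((Subgroup.centralizer ((P : Subgroup (alternatingGroup (Fin n))) : Set (alternatingGroup (Fin n)))).subgroupOf (Subgroup.normalizer ((P : Subgroup (alternatingGroup (Fin n))) : Set (alternatingGroup (Fin n))))).index ∨ IsCyclic (P : Subgroup (alternatingGroup (Fin n))) := by
  by_cases hp2 : p = 2
  · subst hp2
    have hn6 : 6 ≤ n := by omega
    obtain ⟨x, hx1, hx2, hx3⟩ := exists_real_four n hn6
    exact Or.inl (two_dvd_of_real' P hP x 2 hx1 hx2 hx3)
  · rcases Nat.lt_or_ge n (p + 2) with hlt | hge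
    · exact Or.inr (cyclic_case n hn hp2 hlt P)
    · obtain ⟨x, hx1, hx2, hx3⟩ := exists_real_of_odd n p hp2 hge
      exact Or.inl (two_dvd_of_real' P hP x 1 hx1 hx2 hx3)

theorem result (n : ℕ) (hn : 5 ≤ n) {p : ℕ} [Fact p.Prime]
    (P : Sylow p (alternatingGroup (Fin n))) (hP : IsMulCommutative (P : Subgroup (alternatingGroup (Fin n)))) :
    (¬ (n = 5 ∧ p = 2) → 2 ∣ ((Subgroup.centralizer ((P : Subgroup (alternatingGroup (Fin n))) : Set (alternatingGroup (Fin n)))).subgroupOf (Subgroup.normalizer ((P : Subgroup (alternatingGroup (Fin n))) : Set (alternatingGroup (Fin n))))).index ∨ IsCyclic (P : Subgroup (alternatingGroup (Fin n)))) ∧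
    ((n = 5 ∧ p = 2) → ((Subgroup.centralizer ((P : Subgroup (alternatingGroup (Fin n))) : Set (alternatingGroup (Fin n)))).subgroupOf (Subgroup.normalizer ((P : Subgroup (alternatingGroup (Fin n))) : Set (alternatingGroup (Fin n))))).index = 3 ∧ IsKleinFour (P : Subgroup (alternatingGroup (Fin n)))) := by
  constructor
  · exact part_one n hn P hP
  · rintro ⟨rfl, rfl⟩
    exact part_two P hP

end Cfsg.Agent.S2269
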