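import Cfsg.Statements.S2270
import Mathlib
import Cfsg.Agent.H38.Automizer

set_option autoImplicit false
open Cfsg

namespace Cfsg.Agent.S2270

theorem result (n : ℕ) (hn : 3 ≤ n) {p : ℕ} [Fact p.Prime] (hp : p ≠ 2) (hpn : p ≤ n)
    (P : Sylow p (Equiv.Perm (Fin n))) (hP : IsMulCommutative (P : Subgroup (Equiv.Perm (Fin n)))) :
    2 ∣ ((Subgroup.centralizer ((P : Subgroup (Equiv.Perm (Fin n))) : Set (Equiv.Perm (Fin n)))).subgroupOf (Subgroup.normalizer ((P : Subgroup (Equiv.Perm (Fin n))) : Set (Equiv.Perm (Fin n))))).index := by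
  have hpp : p.Prime := Fact.out
  have hne : (P : Subgroup (Equiv.Perm (Fin n))) ≠ ⊥ := by
    apply P.ne_bot_of_dvd_card
    rw [Nat.card_perm, Nat.card_fin]
    exact (Nat.Prime.dvd_factorial hpp).2 hpn
  obtain ⟨⟨x, hx⟩, hx1⟩ := Subgroup.ne_bot_iff_exists_ne_one.1 hne
  have hx1' : x ≠ 1 := fun h => hx1 (Subtype.ext h)
  refine Cfsg.Agent.H38.two_dvd_of_real P hP hp x hx hx1' ?_
  rw [Equiv.Perm.isConj_iff_cycleType_eq, Equiv.Perm.cycleType_inv]

end Cfsg.Agent.S2270
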