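import Cfsg.Statements.S2280
import Cfsg.Agent.H42.ThreeUnip2

set_option autoImplicit false
open Cfsg

namespace Cfsg.Agent.S2280


open Matrix Cfsg.Agent.H36.SLT Cfsg.Agent.H42.ThreeUnip

variable {F : Type*} [Field F] {n : ℕ}

theorem N_apply (i j : Fin n) : (Um F n - 1) i j = if (j : ℕ) = i + 1 then (1 : F) else 0 := by
  simp only [Matrix.sub_apply, Um, Matrix.one_apply]
  by_cases h : j = i
  · subst h; simp
  · rw [if_neg h, if_neg (fun h' => h h'.symm : ¬ i = j), sub_zero]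

theorem N_pow (k : ℕ) (i j : Fin n) :
    ((Um F n - 1) ^ k) i j = if (j : ℕ) = i + k then (1 : F) else 0 := by
  induction k generalizing i j with
  | zero =>
    rw [pow_zero, Matrix.one_apply]
    by_cases h : i = j
    · subst h; simp
    · rw [if_neg h, if_neg]
      intro h'
      exact h (Fin.ext (by simpa using h'.symm))
  | succ k ih =>
    rw [pow_succ, Matrix.mul_apply]
    by_cases h : (j : ℕ) = i + (k + 1)
    · rw [if_pos h, Finset.sum_eq_single (⟨i + k, by have := j.2; omega⟩ : Fin n)]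
      · rw [ih, N_apply, if_pos rfl, if_pos (by simp; omega), mul_one]
      · intro b _ hb
        rw [ih, if_neg, zero_mul]
        intro h'
        exact hb (Fin.ext h')
      · simp
    · rw [if_neg h]
      apply Finset.sum_eq_zero
      intro b _
      rw [ih, N_apply]
      by_cases hb : (b : ℕ) = i + k
      · rw [if_neg (by omega : ¬ (j : ℕ) = b + 1), mul_zero]
      · rw [if_neg hb, zero_mul]

theorem vecMul_Um_zero (x : Fin n → F) (j : Fin n) (hj : (j : ℕ) = 0) : (x ᵥ* Um F n) j = x j := by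
  rw [vecMul, dotProduct, Finset.sum_eq_single j]
  · simp [Um]
  · intro i _ hi
    simp only [Um, hi.symm, if_false]
    rw [if_neg (by omega), mul_zero]
  · simp

theorem vecMul_Um_succ (x : Fin n → F) (i j : Fin n) (hj : (j : ℕ) = i + 1) :
    (x ᵥ* Um F n) j = x j + x i := by
  have hne : j ≠ i := by intro h; rw [h] at hj; omega
  rw [vecMul, dotProduct, Finset.sum_eq_add j i hne]
  · simp [Um, hne, hj]
  · intro k _ hk
    simp only [Um, hk.1.symm, if_false]
    rw [if_neg, mul_zero]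
    intro h
    apply hk.2
    apply Fin.ext
    omega
  · simp
  · simp

/-- the reversal matrix -/
def W0 (F : Type*) [Field F] (n : ℕ) : Matrix (Fin n) (Fin n) F :=
  fun i j => if (i : ℕ) + j + 1 = n then 1 else 0

theorem W0_sq : W0 F n * W0 F n = 1 := by
  ext i j
  rw [Matrix.mul_apply, Matrix.one_apply, Finset.sum_eq_single (⟨n - 1 - i, by have := i.2; omega⟩ : Fin n)]
  · have := i.2
    have := j.2
    by_cases h : i = j
    · subst h
      rw [if_pos rfl]
      simp only [W0]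
      rw [if_pos (by omega), if_pos (by omega), mul_one]
    · rw [if_neg h]
      simp only [W0]
      rw [if_pos (by omega), if_neg, mul_zero]
      intro h'
      exact h (Fin.ext (by omega))
  · intro b _ hb
    simp only [W0]
    rw [if_neg, zero_mul]
    intro h'
    exact hb (Fin.ext (by simp; omega))
  · simp

theorem det_W0_sq : (W0 F n).det * (W0 F n).det = 1 := by
  rw [← Matrix.det_mul, W0_sq, Matrix.det_one]

/-- the conjugating matrix -/
def Wm (F : Type*) [Field F] (n : ℕ) : Matrix (Fin n) (Fin n) F :=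
  W0 F n * Matrix.diagonal (fun j : Fin n => if (j : ℕ) = 0 then (W0 F n).det else 1)

theorem Wm_det (hn : 0 < n) : (Wm F n).det = 1 := by
  rw [Wm, Matrix.det_mul, Matrix.det_diagonal, Finset.prod_eq_single (⟨0, hn⟩ : Fin n)]
  · rw [if_pos rfl]; exact det_W0_sq
  · intro b _ hb
    rw [if_neg]
    intro h
    exact hb (Fin.ext h)
  · simp

theorem Wm_apply (i j : Fin n) :
    Wm F n i j = if (i : ℕ) + j + 1 = n then (if (j : ℕ) = 0 then (W0 F n).det else 1) else 0 := by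
  rw [Wm, Matrix.mul_diagonal]
  simp only [W0]
  by_cases h : (i : ℕ) + j + 1 = n
  · rw [if_pos h, if_pos h, one_mul]
  · rw [if_neg h, if_neg h, zero_mul]

/-- coefficients -/
def cc (F : Type*) [Field F] (n : ℕ) : Fin n → F :=
  fun i => if (i : ℕ) + 2 = n then (W0 F n).det else 1

theorem Vm_mul_Wm : Vm (cc F n) * Wm F n = Wm F n * Um F n := by
  ext i j
  have hL : (Vm (cc F n) * Wm F n) i j = (Vm (cc F n) *ᵥ fun k => Wm F n k j) i := rfl
  have hR : (Wm F n * Um F n) i j = ((fun k => Wm F n i k) ᵥ* Um F n) j := rfl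
  rw [hL, hR]
  have hi := i.2
  have hj := j.2
  by_cases hi0 : (i : ℕ) = 0
  · rw [Vm_mulVec_zero _ _ _ hi0]
    by_cases hj0 : (j : ℕ) = 0
    · rw [vecMul_Um_zero _ _ hj0]
    · rw [vecMul_Um_succ _ ⟨j - 1, by omega⟩ j (by simp; omega)]
      rw [Wm_apply i ⟨j - 1, by omega⟩, if_neg (by simp; omega), add_zero]
  · rw [Vm_mulVec_succ _ _ i ⟨i - 1, by omega⟩ (by simp; omega)]
    by_cases hj0 : (j : ℕ) = 0
    · rw [vecMul_Um_zero _ _ hj0, Wm_apply ⟨i - 1, by omega⟩ j, if_neg (by simp; omega), mul_zero, add_zero]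
    · rw [vecMul_Um_succ _ ⟨j - 1, by omega⟩ j (by simp; omega)]
      congr 1
      rw [Wm_apply, Wm_apply]
      simp only [cc]
      by_cases h : (i : ℕ) - 1 + j + 1 = n
      · rw [if_pos h, if_neg hj0, mul_one, if_pos (by omega : (i : ℕ) + (j - 1) + 1 = n)]
        by_cases h2 : (j : ℕ) - 1 = 0
        · rw [if_pos h2, if_pos (by omega)]
        · rw [if_neg h2, if_neg (by omega)]
      · rw [if_neg h, mul_zero, if_neg (by omega)]

/-- Let F be a finite field and n ≥ 3. Then SL_n(F) is generated by three conjugate regular unipotent elements: there are u with u − 1 nilpotent and (u − 1)^(n−1) ≠ 0, and g, h, such that u, g u g⁻¹ and h u h⁻¹ generate SL_n(F). -/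
theorem result {F : Type*} [Field F] [Fintype F] (n : ℕ) (hn : 3 ≤ n) :
    ∃ u g h : Matrix.SpecialLinearGroup (Fin n) F, (IsNilpotent ((u : Matrix (Fin n) (Fin n) F) - 1) ∧ ((u : Matrix (Fin n) (Fin n) F) - 1) ^ (n - 1) ≠ 0) ∧
      Subgroup.closure ({u, g * u * g⁻¹, h * u * h⁻¹} : Set (Matrix.SpecialLinearGroup (Fin n) F)) = ⊤ := by
  classical
  have hn0 : 0 < n := by omega
  obtain ⟨u, hu⟩ : ∃ u : Matrix.SpecialLinearGroup (Fin n) F, (u : Matrix (Fin n) (Fin n) F) = Um F n :=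
    ⟨⟨Um F n, Um_det⟩, rfl⟩
  obtain ⟨v, hv⟩ : ∃ v : Matrix.SpecialLinearGroup (Fin n) F, (v : Matrix (Fin n) (Fin n) F) = Vm (cc F n) :=
    ⟨⟨Vm (cc F n), Vm_det _⟩, rfl⟩
  obtain ⟨h, hh⟩ : ∃ h : Matrix.SpecialLinearGroup (Fin n) F, (h : Matrix (Fin n) (Fin n) F) = Wm F n :=
    ⟨⟨Wm F n, Wm_det hn0⟩, rfl⟩
  have hconj : h * u * h⁻¹ = v := by
    rw [mul_inv_eq_iff_eq_mul]
    apply Subtype.ext
    have e1 : ((h * u : Matrix.SpecialLinearGroup (Fin n) F) : Matrix (Fin n) (Fin n) F) =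
      (h : Matrix (Fin n) (Fin n) F) * (u : Matrix (Fin n) (Fin n) F) := rfl
    have e2 : ((v * h : Matrix.SpecialLinearGroup (Fin n) F) : Matrix (Fin n) (Fin n) F) =
      (v : Matrix (Fin n) (Fin n) F) * (h : Matrix (Fin n) (Fin n) F) := rfl
    exact (e1.trans (by rw [hh, hu, hv]; exact Vm_mul_Wm.symm)).trans e2.symm
  -- the parameter
  obtain ⟨g0, hg0⟩ := IsCyclic.exists_generator (α := Fˣ)
  obtain ⟨θ, hθ⟩ : ∃ θ : F, ∀ x : F, x ≠ 0 → ∃ k : ℕ, θ ^ (k + 1) = x := by
    refine ⟨(g0 : F), fun x hx => ?_⟩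
    have h1 : Units.mk0 x hx ∈ Submonoid.powers g0 := by
      rw [mem_powers_iff_mem_zpowers]
      exact hg0 _
    obtain ⟨k, hk⟩ := h1
    have hk' : g0 ^ k = Units.mk0 x hx := hk
    rcases Nat.eq_zero_or_pos k with h0 | h0
    · refine ⟨orderOf g0 - 1, ?_⟩
      rw [Nat.sub_add_cancel (orderOf_pos g0), ← Units.val_pow_eq_pow_val, pow_orderOf_eq_one]
      rw [h0, pow_zero] at hk'
      exact congrArg Units.val hk'
    · refine ⟨k - 1, ?_⟩
      rw [Nat.sub_add_cancel h0, ← Units.val_pow_eq_pow_val, hk']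
      rfl
  have hcne : ∀ i, cc F n i ≠ 0 := by
    intro i
    simp only [cc]
    by_cases h1 : (i : ℕ) + 2 = n
    · rw [if_pos h1]
      intro h2
      have := det_W0_sq (F := F) (n := n)
      rw [h2, zero_mul] at this
      exact zero_ne_one this
    · rw [if_neg h1]; exact one_ne_zero
  obtain ⟨κ, hκ⟩ : ∃ κ : F, κ = ((Pi.single (⟨n - 1, by omega⟩ : Fin n) (1 : F) : Fin n → F) ᵥ*
      ((v⁻¹ : Matrix.SpecialLinearGroup (Fin n) F) : Matrix (Fin n) (Fin n) F)) ⟨0, by omega⟩ := ⟨_, rfl⟩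
  have hκ0 : κ ≠ 0 := by
    have e : ((v⁻¹ : Matrix.SpecialLinearGroup (Fin n) F) : Matrix (Fin n) (Fin n) F) *
        (v : Matrix (Fin n) (Fin n) F) = 1 :=
      congrArg (fun A : Matrix.SpecialLinearGroup (Fin n) F => (A : Matrix (Fin n) (Fin n) F))
        (inv_mul_cancel v)
    have h1 := vecMul_inv_ne (cc F n) hcne hn0
      ((Pi.single (⟨n - 1, by omega⟩ : Fin n) (1 : F) : Fin n → F) ᵥ*
      ((v⁻¹ : Matrix.SpecialLinearGroup (Fin n) F) : Matrix (Fin n) (Fin n) F))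
      (by rw [← hv, vecMul_vecMul, e, vecMul_one]) (n - 1) (by omega)
    have h2 : (⟨n - 1 - (n - 1), by omega⟩ : Fin n) = ⟨0, by omega⟩ := Fin.ext (by simp)
    rw [h2] at h1
    rw [hκ]
    exact h1
  -- the transvection
  obtain ⟨a, ha⟩ : ∃ a : Fin n → F, a = (κ⁻¹ * θ) • (Pi.single (⟨0, by omega⟩ : Fin n) (1 : F) : Fin n → F) := ⟨_, rfl⟩
  obtain ⟨φ, hφ⟩ : ∃ φ : Fin n → F, φ = Pi.single (⟨n - 2, by omega⟩ : Fin n) (1 : F) := ⟨_, rfl⟩
  obtain ⟨el, hel⟩ : ∃ el : Fin n → F, el = Pi.single (⟨n - 1, by omega⟩ : Fin n) (1 : F) := ⟨_, rfl⟩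
  have hφa : φ ⬝ᵥ a = 0 := by
    rw [hφ, ha, single_dotProduct, Pi.smul_apply, Pi.single_apply, if_neg, smul_zero, mul_zero]
    intro h1
    have := congrArg Fin.val h1
    simp at this
    omega
  have hUa : (u : Matrix (Fin n) (Fin n) F) *ᵥ a = a := by
    rw [ha, mulVec_smul]
    congr 1
    rw [mulVec_single_one, hu]
    ext i
    simp only [Matrix.col_apply, Um, Pi.single_apply]
    by_cases h0 : i = ⟨0, by omega⟩
    · rw [h0]; simp
    · rw [if_neg (fun h => h0 h.symm), if_neg h0, if_neg (by simp)]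
  have hUφ : (φ - el) ᵥ* (u : Matrix (Fin n) (Fin n) F) = φ := by
    rw [hu]
    ext j
    by_cases hj0 : (j : ℕ) = 0
    · rw [vecMul_Um_zero _ _ hj0, Pi.sub_apply, hel, Pi.single_apply, if_neg, sub_zero]
      intro h1
      rw [h1] at hj0
      simp at hj0
      omega
    · rw [vecMul_Um_succ _ ⟨j - 1, by have := j.2; omega⟩ j (by simp; omega), Pi.sub_apply, Pi.sub_apply,
        hφ, hel]
      simp only [Pi.single_apply, Fin.ext_iff]
      have := j.2
      by_cases h1 : (j : ℕ) = n - 1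
      · rw [if_pos (by omega : (j : ℕ) - 1 = n - 2), if_neg (by omega : ¬ (j : ℕ) - 1 = n - 1), if_pos h1]
        ring
      · rw [if_neg h1, if_neg (by omega : ¬ (j : ℕ) - 1 = n - 2), if_neg (by omega : ¬ (j : ℕ) - 1 = n - 1)]
        ring
  have hUφ' : φ ᵥ* ((u⁻¹ : Matrix.SpecialLinearGroup (Fin n) F) : Matrix (Fin n) (Fin n) F) = φ - el := by
    have e : (u : Matrix (Fin n) (Fin n) F) *
        ((u⁻¹ : Matrix.SpecialLinearGroup (Fin n) F) : Matrix (Fin n) (Fin n) F) = 1 :=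
      congrArg (fun A : Matrix.SpecialLinearGroup (Fin n) F => (A : Matrix (Fin n) (Fin n) F))
        (mul_inv_cancel u)
    conv_lhs => rw [← hUφ]
    rw [vecMul_vecMul, e, vecMul_one]
  refine ⟨u, T a φ hφa, h, ⟨?_, ?_⟩, ?_⟩
  · rw [hu]
    refine ⟨n, ?_⟩
    ext i j
    rw [N_pow, if_neg (by have := j.2; omega)]
    rfl
  · rw [hu]
    intro h1
    have h2 := congrFun (congrFun h1 ⟨0, by omega⟩) ⟨n - 1, by omega⟩
    rw [N_pow] at h2
    simp at h2
  · obtain ⟨G, hG⟩ : ∃ G : Subgroup (Matrix.SpecialLinearGroup (Fin n) F),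
        G = Subgroup.closure ({u, T a φ hφa * u * (T a φ hφa)⁻¹, h * u * h⁻¹} :
          Set (Matrix.SpecialLinearGroup (Fin n) F)) := ⟨_, rfl⟩
    rw [← hG]
    have hug : u ∈ G := by rw [hG]; exact Subgroup.subset_closure (by simp)
    have hvg : v ∈ G := by rw [hG, ← hconj]; exact Subgroup.subset_closure (by simp)
    have hgg : T a φ hφa * u * (T a φ hφa)⁻¹ ∈ G := by rw [hG]; exact Subgroup.subset_closure (by simp)
    refine gen_top hn G (cc F n) hcne ?_ u v hu hv hug hvg θ hθ (κ⁻¹ * θ) ?_ ?_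
    · simp only [cc]
      rw [if_neg (by simp; omega)]
    · rw [← hκ, mul_inv_cancel_left₀ hκ0]
    · rw [← ha, ← hel]
      have h1 : T a φ hφa * u * (T a φ hφa)⁻¹ * u⁻¹ = T a φ hφa * (u * (T a φ hφa)⁻¹ * u⁻¹) := by
        group
      have h2 : T a φ hφa * u * (T a φ hφa)⁻¹ * u⁻¹ ∈ G := G.mul_mem hgg (G.inv_mem hug)
      have h3 : (-φ) ⬝ᵥ a = 0 := by rw [neg_dotProduct, hφa, neg_zero]
      rw [h1, T_inv a φ hφa, conj_T u a (-φ) h3] at h2
      have h4 : (-φ) ᵥ* ((u⁻¹ : Matrix.SpecialLinearGroup (Fin n) F) : Matrix (Fin n) (Fin n) F) = -(φ - el) := by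
        rw [neg_vecMul, hUφ']
      rw [T_congr hUa h4, T_mul_same_left] at h2
      have h5 : φ + -(φ - el) = el := by abel
      rw [T_congr rfl h5] at h2
      exact ⟨_, h2⟩

end Cfsg.Agent.S2280
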