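import Cfsg.Statements.S2283
import Cfsg.Agent.H42.SuTwo2
import Cfsg.Agent.H42.SuTwo5

set_option autoImplicit false
open Cfsg

namespace Cfsg.Agent.S2283

/-- Let F be a field with q² elements, q ≥ 3, and SU_3(q) the special unitary group of the standard Hermitian form. Then SU_3(q) is generated by two conjugate regular unipotent elements: there are u ∈ SU_3(q) with u − 1 nilpotent and (u − 1)² ≠ 0, and g ∈ SU_3(q), such that u and g u g⁻¹ generate SU_3(q). -/
theorem result {F : Type*} [Field F] [Fintype F] (q : ℕ) (hq : 3 ≤ q) (hF : Fintype.card F = q ^ 2) :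
    ∃ u g : ↥(Cfsg.SU 3 F q), (IsNilpotent (((u : Matrix.SpecialLinearGroup (Fin 3) F) : Matrix (Fin 3) (Fin 3) F) - 1) ∧ (((u : Matrix.SpecialLinearGroup (Fin 3) F) : Matrix (Fin 3) (Fin 3) F) - 1) ^ (3 - 1) ≠ 0) ∧
      Subgroup.closure ({u, g * u * g⁻¹} : Set ↥(Cfsg.SU 3 F q)) = ⊤ := by
  by_cases h2 : (2 : F) = 0
  · exact Cfsg.Agent.H42.SuGen.two_even3 hF h2 hq rfl
  · by_cases hp : q.Prime
    · exact Cfsg.Agent.H42.SuGen.two_prime3 hF h2 hp rfl
    · have hodd := Cfsg.Agent.H42.SuGen.q_odd hF h2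
      have h9 : 9 ≤ q := by
        by_contra hlt
        push Not at hlt
        clear hF
        interval_cases q <;> revert hp hodd <;> decide
      refine Cfsg.Agent.H42.SuGen.two_nonprime3 hF h2 h9 ?_ ?_ rfl
      · rintro rfl; exact hp (by norm_num)
      · rintro rfl; exact hp (by norm_num)

end Cfsg.Agent.S2283
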