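import Cfsg.Statements.S2284
import Cfsg.Agent.GK.Small
-- import your own Cfsg.Agent.* helpers here

set_option autoImplicit false
open Cfsg

namespace Cfsg.Agent.S2284

/-- For every n, the symmetric group S_n and the alternating group A_n each have a presentation with 2 generators and at most 8 relations. -/
theorem result (n : ℕ) : (∃ rels : Finset (FreeGroup (Fin 2)), rels.card ≤ 8 ∧ Nonempty (PresentedGroup (↑rels : Set (FreeGroup (Fin 2))) ≃* Equiv.Perm (Fin n))) ∧ (∃ rels : Finset (FreeGroup (Fin 2)), rels.card ≤ 8 ∧ Nonempty (PresentedGroup (↑rels : Set (FreeGroup (Fin 2))) ≃* ↥(alternatingGroup (Fin n)))) := by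
  refine ⟨?_, ?_⟩
  · obtain ⟨R, x, hR, hP⟩ := Cfsg.Agent.GK.pres2_sym_all n
    obtain ⟨e, -⟩ := hP.exists_equiv
    exact ⟨R, hR, ⟨e⟩⟩
  · obtain ⟨R, x, hR, hP⟩ := Cfsg.Agent.GK.pres2_alt_all n
    obtain ⟨e, -⟩ := hP.exists_equiv
    exact ⟨R, hR, ⟨e⟩⟩

end Cfsg.Agent.S2284
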