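import Cfsg.Statements.S2286
import Cfsg.Agent.GK.SL2Q
-- import your own Cfsg.Agent.* helpers here

set_option autoImplicit false
open Cfsg

namespace Cfsg.Agent.S2286

open Subgroup Cfsg.Agent.GK

/-- For every finite field F, SL_2(F) and PSL_2(F) have presentations with 3 generators and at most 9 relations; when F has characteristic 2, PSL_2(F) has a presentation with 3 generators and at most 5 relations. -/
theorem result {F : Type*} [Field F] [Fintype F] :
    (∃ rels : Finset (FreeGroup (Fin 3)), rels.card ≤ 9 ∧ Nonempty (PresentedGroup (↑rels : Set (FreeGroup (Fin 3))) ≃* Matrix.SpecialLinearGroup (Fin 2) F)) ∧ (∃ rels : Finset (FreeGroup (Fin 3)), rels.card ≤ 9 ∧ Nonempty (PresentedGroup (↑rels : Set (FreeGroup (Fin 3))) ≃* Matrix.ProjectiveSpecialLinearGroup (Fin 2) F)) ∧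
    (CharP F 2 → ∃ rels : Finset (FreeGroup (Fin 3)), rels.card ≤ 5 ∧ Nonempty (PresentedGroup (↑rels : Set (FreeGroup (Fin 3))) ≃* Matrix.ProjectiveSpecialLinearGroup (Fin 2) F)) := by
  classical
  obtain ⟨ζ, hζ⟩ := exists_isGen F
  have hbot : CharP F 2 → center (Matrix.SpecialLinearGroup (Fin 2) F) = ⊥ := by
    intro h2
    rw [center_sl2]
    have : hm (-1 : Fˣ) = 1 := by
      have : (-1 : Fˣ) = 1 := by
        ext
        rw [Units.val_neg, Units.val_one]
        exact CharTwo.neg_eq _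
      rw [this, hm_one]
    rw [this]
    rw [eq_bot_iff]
    exact normalClosure_le_normal (by simp)
  have h5 : CharP F 2 → ∃ rels : Finset (FreeGroup (Fin 3)), rels.card ≤ 5 ∧ Nonempty (PresentedGroup (↑rels : Set (FreeGroup (Fin 3))) ≃* Matrix.ProjectiveSpecialLinearGroup (Fin 2) F) := by
    intro h2
    obtain ⟨R, hR, P⟩ := sl2_pres_even hζ
    obtain ⟨e, -⟩ := P.exists_equiv
    exact ⟨R, hR, ⟨e.trans (QuotientGroup.quotientBot.symm.trans
      (QuotientGroup.quotientMulEquivOfEq (hbot h2).symm))⟩⟩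
  refine ⟨?_, ?_, h5⟩
  · rcases even_or_odd_card F with h | h
    · obtain ⟨R, hR, P⟩ := sl2_pres_even hζ
      obtain ⟨e, -⟩ := P.exists_equiv
      exact ⟨R, hR.trans (by norm_num), ⟨e⟩⟩
    · obtain ⟨R, hR, P⟩ := sl2_pres_odd hζ h
      obtain ⟨e, -⟩ := P.exists_equiv
      exact ⟨R, hR.trans (by norm_num), ⟨e⟩⟩
  · rcases even_or_odd_card F with h | h
    · obtain ⟨R, hR, he⟩ := h5 h
      exact ⟨R, hR.trans (by norm_num), he⟩
    · obtain ⟨R, hR, P⟩ := sl2_pres_odd hζ h
      obtain ⟨w, hw⟩ := P.surj (hm (-1))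
      have P' := P.quot w (center (Matrix.SpecialLinearGroup (Fin 2) F)) (by rw [hw, center_sl2])
      rw [← Finset.coe_insert] at P'
      obtain ⟨e, -⟩ := P'.exists_equiv
      exact ⟨insert w R, (Finset.card_insert_le _ _).trans (by omega), ⟨e⟩⟩

end Cfsg.Agent.S2286
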