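import Cfsg.Statements.S2288
import Cfsg.Agent.GK.SLnF
-- import your own Cfsg.Agent.* helpers here

set_option autoImplicit false
open Cfsg

namespace Cfsg.Agent.S2288


open Subgroup Cfsg.Agent.GK

/-- For every finite field F and n ≥ 4: SL_n(F) has a presentation with 7 generators and at most 25 relations, and PSL_n(F) one with 7 generators and at most 26 relations; moreover SL_4(F) has one with 6 generators and at most 21 relations and SL_5(F) one with 6 generators and at most 22 relations. -/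
theorem result {F : Type*} [Field F] [Fintype F] (n : ℕ) (hn : 4 ≤ n) :
    (∃ rels : Finset (FreeGroup (Fin 7)), rels.card ≤ 25 ∧ Nonempty (PresentedGroup (↑rels : Set (FreeGroup (Fin 7))) ≃* Matrix.SpecialLinearGroup (Fin n) F)) ∧ (∃ rels : Finset (FreeGroup (Fin 7)), rels.card ≤ 26 ∧ Nonempty (PresentedGroup (↑rels : Set (FreeGroup (Fin 7))) ≃* Matrix.ProjectiveSpecialLinearGroup (Fin n) F)) ∧
    (∃ rels : Finset (FreeGroup (Fin 6)), rels.card ≤ 21 ∧ Nonempty (PresentedGroup (↑rels : Set (FreeGroup (Fin 6))) ≃* Matrix.SpecialLinearGroup (Fin 4) F)) ∧ (∃ rels : Finset (FreeGroup (Fin 6)), rels.card ≤ 22 ∧ Nonempty (PresentedGroup (↑rels : Set (FreeGroup (Fin 6))) ≃* Matrix.SpecialLinearGroup (Fin 5) F)) := by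
  obtain ⟨R, x, hR, P⟩ := sln_seven F n hn
  obtain ⟨R', x', hR', P'⟩ := psl_of_sl F P
  obtain ⟨R4, x4, hR4, P4⟩ := sl4_six F
  obtain ⟨R5, x5, hR5, P5⟩ := sl5_six F
  obtain ⟨e, -⟩ := P.exists_equiv
  obtain ⟨e', -⟩ := P'.exists_equiv
  obtain ⟨e4, -⟩ := P4.exists_equiv
  obtain ⟨e5, -⟩ := P5.exists_equiv
  exact ⟨⟨R, hR, ⟨e⟩⟩, ⟨R', by omega, ⟨e'⟩⟩, ⟨R4, by omega, ⟨e4⟩⟩, ⟨R5, hR5, ⟨e5⟩⟩⟩

end Cfsg.Agent.S2288
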