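import Cfsg.Statements.S2290
import Cfsg.Agent.GK.SLnF
import Cfsg.Agent.S2402
import Cfsg.Agent.S2403
-- import your own Cfsg.Agent.* helpers here

set_option autoImplicit false
open Cfsg

namespace Cfsg.Agent.S2290


open Subgroup Cfsg.Agent.GK

theorem det_w {K : Type*} [Field K] (n : ℕ) :
    (Matrix.of (fun i j : Fin (n + 1) => if j.val = i.val + 1 then (1 : K) else if i.val = n ∧ j.val = 0 then (-1) ^ n else 0)).det = 1 := by
  rw [Matrix.det_succ_column_zero, Finset.sum_eq_single (Fin.last n)]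
  · have h1 : (Matrix.of (fun i j : Fin (n + 1) => if j.val = i.val + 1 then (1 : K) else if i.val = n ∧ j.val = 0 then (-1) ^ n else 0)).submatrix
        (Fin.last n).succAbove Fin.succ = 1 := by
      ext i j
      simp only [Matrix.submatrix_apply, Fin.succAbove_last, Matrix.of_apply, Fin.val_succ, Fin.val_castSucc,
        Matrix.one_apply]
      by_cases h : i = j
      · subst h; simp
      · have h' : ¬ ((j : ℕ) + 1 = (i : ℕ) + 1) := fun h2 => h (Fin.ext (by omega))
        rw [if_neg h', if_neg (by omega), if_neg h]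
    rw [h1, Matrix.det_one, mul_one]
    simp only [Matrix.of_apply, Fin.val_last, Fin.val_zero]
    rw [if_neg (by omega), if_pos ⟨trivial, trivial⟩, ← pow_add, ← two_mul, pow_mul]
    simp
  · intro i _ hi
    simp only [Matrix.of_apply, Fin.val_zero]
    have h2 : (i : ℕ) ≠ n := fun h => hi (Fin.ext (by simpa using h))
    rw [if_neg (by omega), if_neg (by omega)]
    simp
  · intro h; exact absurd (Finset.mem_univ _) h

theorem det_h {K : Type*} [Field K] (n : ℕ) (hn : 1 ≤ n) (k : Kˣ) :
    (Matrix.diagonal (fun i : Fin (n + 1) => if i.val = 0 then (k : K) else if i.val = 1 then ((k⁻¹ : Kˣ) : K) else 1)).det = 1 := by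
  obtain ⟨m, rfl⟩ : ∃ m, n = m + 1 := ⟨n - 1, by omega⟩
  rw [Matrix.det_diagonal, Fin.prod_univ_succ, Fin.prod_univ_succ]
  simp

/-- two generators -/
theorem exists_two {F : Type*} [Field F] [Fintype F] (n : ℕ) (hn : 2 ≤ n) :
    ∃ d : Fin 2 → Matrix.ProjectiveSpecialLinearGroup (Fin n) F, closure (Set.range d) = ⊤ := by
  have key : ∃ a b : Matrix.SpecialLinearGroup (Fin n) F, closure ({a, b} : Set _) ⊔
      center (Matrix.SpecialLinearGroup (Fin n) F) = ⊤ := by
    obtain ⟨m, rfl⟩ : ∃ m, n = m + 1 := ⟨n - 1, by omega⟩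
    by_cases hq : Fintype.card F ≤ 3
    · exact ⟨_, _, Cfsg.Agent.S2403.result hq m (by omega)
        (Matrix.SpecialLinearGroup.transvection (i := (0 : Fin (m + 1))) (j := 1) (by
          have : NeZero m := ⟨by omega⟩
          intro h
          have := congrArg Fin.val h
          simp at this
          omega) 1) ⟨_, det_w m⟩ rfl rfl⟩
    · obtain ⟨k, hk⟩ := IsCyclic.exists_generator (α := Fˣ)
      exact ⟨_, _, Cfsg.Agent.S2402.result (by omega) m (by omega) k hk ⟨_, det_h m (by omega) k⟩
        (Matrix.SpecialLinearGroup.transvection (i := (0 : Fin (m + 1))) (j := 1) (by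
          intro h
          have := congrArg Fin.val h
          simp at this
          omega) 1) ⟨_, det_w m⟩ rfl rfl rfl⟩
  obtain ⟨a, b, h⟩ := key
  let π : Matrix.SpecialLinearGroup (Fin n) F →* Matrix.ProjectiveSpecialLinearGroup (Fin n) F :=
    QuotientGroup.mk' (center (Matrix.SpecialLinearGroup (Fin n) F))
  refine ⟨![π a, π b], ?_⟩
  have hπ : Function.Surjective π := QuotientGroup.mk'_surjective _
  have h1 := congrArg (Subgroup.map π) h
  rw [Subgroup.map_sup, MonoidHom.map_closure, Subgroup.map_top_of_surjective _ hπ, Set.image_pair] at h1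
  have h2 : (center (Matrix.SpecialLinearGroup (Fin n) F)).map π = ⊥ := by
    rw [eq_bot_iff, map_le_iff_le_comap]
    intro x hx
    rw [mem_comap, mem_bot]
    exact (QuotientGroup.eq_one_iff x).2 hx
  rw [h2, sup_bot_eq] at h1
  rw [range2]
  exact h1

theorem two_of {F : Type*} [Field F] [Fintype F] {n k c : ℕ} (hn : 2 ≤ n) (hc : c ≤ 77)
    {R : Finset (FreeGroup (Fin (k + 1)))} {x : Fin (k + 1) → Matrix.SpecialLinearGroup (Fin n) F}
    (h : IsPres (R : Set (FreeGroup (Fin (k + 1)))) x) (hR : R.card ≤ c) :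
    ∃ rels : Finset (FreeGroup (Fin 2)), rels.card ≤ 80 ∧ Nonempty (PresentedGroup (↑rels : Set (FreeGroup (Fin 2))) ≃* Matrix.ProjectiveSpecialLinearGroup (Fin n) F) := by
  obtain ⟨R', y, hR', P⟩ := psl_of_sl F h
  obtain ⟨d, hd⟩ := exists_two (F := F) n hn
  obtain ⟨R2, hR2, P2⟩ := P.regen d hd ∅ (fun _ => 0) (by simp) (by simp)
  obtain ⟨e, -⟩ := P2.exists_equiv
  refine ⟨R2, ?_, ⟨e⟩⟩
  simp at hR2
  omega

/-- For every finite field F with q elements and n ≥ 2, with q ≥ 4 when n = 2, the simple group PSL_n(F) has a presentation with 2 generators and at most 80 relations. -/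
theorem result {F : Type*} [Field F] [Fintype F] (n : ℕ) (hn : 2 ≤ n) (h2 : n = 2 → 4 ≤ Fintype.card F) :
    ∃ rels : Finset (FreeGroup (Fin 2)), rels.card ≤ 80 ∧ Nonempty (PresentedGroup (↑rels : Set (FreeGroup (Fin 2))) ≃* Matrix.ProjectiveSpecialLinearGroup (Fin n) F) := by
  obtain ⟨ζ, hζ⟩ := exists_isGen F
  by_cases h : n = 2
  · subst h
    rcases even_or_odd_card F with h | h
    · obtain ⟨R, hR, P⟩ := sl2_pres_even hζ
      exact two_of hn (c := 5) (by norm_num) P hR
    · obtain ⟨R, hR, P⟩ := sl2_pres_odd hζ h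
      exact two_of hn (c := 8) (by norm_num) P hR
  · by_cases h3 : n = 3
    · subst h3
      obtain ⟨R, hR, P⟩ := sl3_pres hζ
      exact two_of hn (c := 14) (by norm_num) P hR
    · obtain ⟨R, x, hR, P⟩ := sln_seven F n (by omega)
      exact two_of hn (c := 25) (by norm_num) P hR

end Cfsg.Agent.S2290
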