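import Cfsg.Statements.S2297
import Cfsg.Agent.GK.Small
-- import your own Cfsg.Agent.* helpers here

set_option autoImplicit false
open Cfsg

namespace Cfsg.Agent.S2297

theorem aux {G : Type*} [Group G] (h : ∃ (R : Finset (FreeGroup (Fin 3))) (x : Fin 3 → G),
    R.card ≤ 7 ∧ Cfsg.Agent.GK.IsPres (R : Set (FreeGroup (Fin 3))) x) (a b : G)
    (hab : Subgroup.closure ({a, b} : Set G) = ⊤) :
    ∃ rels : Finset (FreeGroup (Fin 2)), rels.card ≤ 9 ∧
      ∃ e : PresentedGroup (↑rels : Set (FreeGroup (Fin 2))) ≃* G,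
        e (PresentedGroup.of 0) = a ∧ e (PresentedGroup.of 1) = b := by
  obtain ⟨R, x, hR, hP⟩ := h
  obtain ⟨R', hR', hP'⟩ := hP.regen (κ := Fin 2) ![a, b] (by
    rw [Cfsg.Agent.GK.range2]; exact hab) ∅ (fun _ => 0) (by simp) (by simp)
  obtain ⟨e, he⟩ := hP'.exists_equiv
  refine ⟨R', ?_, e, he 0, he 1⟩
  simp at hR'
  omega

/-- Let n ≥ 5 and let G be the symmetric group S_n or the alternating group A_n. If a and b generate G, then G has a presentation on two generators mapping to a and b with at most 9 relations: there is a set of at most 9 relators in the free group on two letters and an isomorphism from the presented group onto G sending the two letters to a and b. -/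
theorem result (n : ℕ) (hn : 5 ≤ n) :
    (∀ a b : Equiv.Perm (Fin n), Subgroup.closure ({a, b} : Set (Equiv.Perm (Fin n))) = ⊤ →
      ∃ rels : Finset (FreeGroup (Fin 2)), rels.card ≤ 9 ∧
        ∃ e : PresentedGroup (↑rels : Set (FreeGroup (Fin 2))) ≃* Equiv.Perm (Fin n),
          e (PresentedGroup.of 0) = a ∧ e (PresentedGroup.of 1) = b) ∧
    (∀ a b : ↥(alternatingGroup (Fin n)), Subgroup.closure ({a, b} : Set ↥(alternatingGroup (Fin n))) = ⊤ →
      ∃ rels : Finset (FreeGroup (Fin 2)), rels.card ≤ 9 ∧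
        ∃ e : PresentedGroup (↑rels : Set (FreeGroup (Fin 2))) ≃* ↥(alternatingGroup (Fin n)),
          e (PresentedGroup.of 0) = a ∧ e (PresentedGroup.of 1) = b) := by
  exact ⟨fun a b hab => aux (Cfsg.Agent.GK.pres_sym n hn) a b hab,
    fun a b hab => aux (Cfsg.Agent.GK.pres_alt n hn) a b hab⟩

end Cfsg.Agent.S2297
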