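import Cfsg.Statements.S2335
import Cfsg.Agent.LSU.Irr

set_option autoImplicit false
open Cfsg

namespace Cfsg.Agent.S2335

/-- For even n ≥ 4 and a finite field F with q² elements, (n, q) not (4, 2) or (4, 3), every irreducible complex representation of the special unitary group SU_n(q) (the determinant-one isometries of the standard Hermitian form over F) of degree at least 2 has degree at least (q^n − 1)/(q + 1). -/
theorem result {F : Type*} [Field F] [Fintype F] [DecidableEq F] (n q : ℕ) (hn : 4 ≤ n) (heven : Even n) (hF : Fintype.card F = q ^ 2) (hex : (n, q) ≠ (4, 2) ∧ (n, q) ≠ (4, 3)) :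
    (∀ (k : ℕ) (ρ : Representation ℂ (Cfsg.SU n F q) (Fin k → ℂ)), ρ.IsIrreducible → 2 ≤ k → (q ^ n - 1) / (q + 1) ≤ k) := by
  intro k ρ hirr hk
  have h1 := LSU.BB_le hF (by omega) (fun h => by omega) ρ hirr hk
  have hq := Uni.two_le_q hF
  have h2 := LSU.BB_closed (q := q) (by omega) n
  rw [if_neg (by rw [Nat.not_odd_iff_even]; exact heven)] at h2
  have h3 : q ^ n - 1 = (q + 1) * LSU.BB q n := by omega
  rw [h3, Nat.mul_div_cancel_left _ (by omega)]
  exact h1

end Cfsg.Agent.S2335
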