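import Cfsg.Statements.S2336
import Cfsg.Agent.H39.SLPairs
import Cfsg.Agent.H39.PrinGL
import Cfsg.Agent.S0157

set_option autoImplicit false
open Cfsg

namespace Cfsg.Agent.S2336

open Cfsg.Agent.H39 Cfsg.Agent.Char Cfsg.Agent.CharBase Matrix
open scoped ComplexConjugate

/-- nonzero characters whose sum has norm at most their number are irreducible and different -/
theorem irr_of_norm_le {G : Type*} [Group G] [Fintype G] {I : Type*} [Fintype I] (ψ : I → G → ℂ)
    (hψ : ∀ i, IsCharacter G (ψ i)) (h0 : ∀ i, ψ i 1 ≠ 0) (N : ℕ) (hN : N ≤ Fintype.card I)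
    (h : classInner (∑ i, ψ i) (∑ i, ψ i) = N) : (∀ i, IsIrrCharacter G (ψ i)) ∧ Function.Injective ψ := by
  classical
  choose m hm using fun i j => classInner_natCast (hψ i) (hψ j)
  have h1 : ∀ i, 1 ≤ m i i := by
    intro i
    by_contra hc
    have h2 : m i i = 0 := by omega
    have h3 := hm i i
    rw [h2] at h3
    apply h0 i
    have hG := cardG_ne_zero_complex G
    rw [classInner, Nat.cast_zero, mul_eq_zero] at h3
    have h4 := h3.resolve_left (inv_ne_zero hG)
    have h5 : ∀ g, ψ i g * conj (ψ i g) = ((Complex.normSq (ψ i g) : ℝ) : ℂ) := fun g => Complex.mul_conj _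
    rw [Finset.sum_congr rfl (fun g _ => h5 g), ← Complex.ofReal_sum] at h4
    have h6 : ∑ g : G, Complex.normSq (ψ i g) = 0 := by exact_mod_cast h4
    rw [Finset.sum_eq_zero_iff_of_nonneg (fun g _ => Complex.normSq_nonneg _)] at h6
    exact Complex.normSq_eq_zero.1 (h6 1 (Finset.mem_univ _))
  have h2 : ∑ i, ∑ j, m i j ≤ Fintype.card I := by
    have h3 : ((∑ i, ∑ j, m i j : ℕ) : ℂ) = N := by
      rw [← h, classInner_sum_left]
      push_cast
      refine Finset.sum_congr rfl fun i _ => ?_
      rw [classInner_sum_right]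
      refine Finset.sum_congr rfl fun j _ => ?_
      rw [hm]
    have h4 : ∑ i, ∑ j, m i j = N := by exact_mod_cast h3
    omega
  have h3 : ∀ i, 1 ≤ ∑ j, m i j := fun i =>
    (h1 i).trans (Finset.single_le_sum (f := fun j => m i j) (fun _ _ => Nat.zero_le _) (Finset.mem_univ i))
  have h4 : ∀ i, ∑ j, m i j = 1 := by
    intro i
    by_contra hc
    have h5 : 1 < ∑ j, m i j := lt_of_le_of_ne (h3 i) (Ne.symm hc)
    have h6 : ∑ i : I, 1 < ∑ i, ∑ j, m i j :=
      Finset.sum_lt_sum (fun i _ => h3 i) ⟨i, Finset.mem_univ _, h5⟩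
    rw [Finset.sum_const, Finset.card_univ, smul_eq_mul, mul_one] at h6
    omega
  have h5 : ∀ i, m i i = 1 := by
    intro i
    have := Finset.single_le_sum (f := fun j => m i j) (fun _ _ => Nat.zero_le _) (Finset.mem_univ i)
    have h6 := h4 i
    have h7 := h1 i
    omega
  have h6 : ∀ i j, i ≠ j → m i j = 0 := by
    intro i j hij
    have h7 : ∑ k ∈ ({i, j} : Finset I), m i k ≤ ∑ k, m i k :=
      Finset.sum_le_sum_of_subset (Finset.subset_univ _)
    rw [Finset.sum_pair hij, h4, h5] at h7
    omega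
  refine ⟨fun i => ?_, fun i j hij => ?_⟩
  · rw [isIrrCharacter_iff (hψ i), hm, h5]
    norm_num
  · by_contra hne
    have h7 := hm i j
    rw [h6 i j hne, ← hij, hm, h5] at h7
    norm_num at h7

section
variable {F : Type*} [Field F] [Fintype F] [DecidableEq F] {n : ℕ}

/-- the matrix of an element -/
abbrev mv (g : SpecialLinearGroup (Fin n) F) : Matrix (Fin n) (Fin n) F := (g : Matrix (Fin n) (Fin n) F)

theorem mv_mul (g h : SpecialLinearGroup (Fin n) F) : mv (g * h) = mv g * mv h := rfl

theorem mv_one : mv (1 : SpecialLinearGroup (Fin n) F) = 1 := rfl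

theorem mv_inv_mul (g : SpecialLinearGroup (Fin n) F) : mv g⁻¹ * mv g = 1 := by
  rw [← mv_mul, inv_mul_cancel, mv_one]

/-- nonzero vectors -/
def NZ (F : Type*) [Field F] (n : ℕ) : Type _ := {v : Fin n → F // v ≠ 0}

/-- constructor -/
def mkNZ (e : Fin n → F) (he : e ≠ 0) : NZ F n := ⟨e, he⟩

instance : Finite (NZ F n) := inferInstanceAs (Finite {v : Fin n → F // v ≠ 0})

/-- the action on nonzero vectors, as a function -/
def nzsmul (g : SpecialLinearGroup (Fin n) F) (v : NZ F n) : NZ F n := ⟨(mv g).mulVec v.1, fun h => v.2 (by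
    have h1 : (mv g⁻¹).mulVec ((mv g).mulVec v.1) = v.1 := by
      rw [Matrix.mulVec_mulVec, mv_inv_mul, Matrix.one_mulVec]
    rw [h, Matrix.mulVec_zero] at h1
    exact h1.symm)⟩

theorem nzsmul_val (g : SpecialLinearGroup (Fin n) F) (v : NZ F n) : (nzsmul g v).1 = (mv g).mulVec v.1 := rfl

/-- the action on nonzero vectors -/
instance actNZ : MulAction (SpecialLinearGroup (Fin n) F) (NZ F n) where
  smul g v := nzsmul g v
  one_smul v := Subtype.ext (Matrix.one_mulVec _)
  mul_smul g h v := Subtype.ext (by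
    show (nzsmul (g * h) v).1 = (nzsmul g (nzsmul h v)).1
    rw [nzsmul_val, nzsmul_val, nzsmul_val, mv_mul, Matrix.mulVec_mulVec])

theorem coe_smul (g : SpecialLinearGroup (Fin n) F) (v : NZ F n) :
    (g • v).1 = (mv g).mulVec v.1 := rfl

/-- the stabilizer of a line -/
def lineStab (e : Fin n → F) : Subgroup (SpecialLinearGroup (Fin n) F) where
  carrier := {g | ∃ c : Fˣ, (mv g).mulVec e = (c : F) • e}
  mul_mem' := by
    rintro g h ⟨c, hc⟩ ⟨d, hd⟩
    refine ⟨c * d, ?_⟩
    rw [mv_mul, ← Matrix.mulVec_mulVec, hd, Matrix.mulVec_smul, hc, smul_smul, Units.val_mul, mul_comm]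
  one_mem' := ⟨1, by rw [mv_one, Matrix.one_mulVec, Units.val_one, one_smul]⟩
  inv_mem' := by
    rintro g ⟨c, hc⟩
    refine ⟨c⁻¹, ?_⟩
    have h1 : (mv g⁻¹).mulVec ((mv g).mulVec e) = e := by
      rw [Matrix.mulVec_mulVec, mv_inv_mul, Matrix.one_mulVec]
    rw [hc, Matrix.mulVec_smul] at h1
    have h2 : ((c⁻¹ : Fˣ) : F) • ((c : F) • (mv g⁻¹).mulVec e) = ((c⁻¹ : Fˣ) : F) • e := by rw [h1]
    rwa [smul_smul, ← Units.val_mul, inv_mul_cancel, Units.val_one, one_smul] at h2

theorem mem_lineStab {e : Fin n → F} {g : SpecialLinearGroup (Fin n) F} :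
    g ∈ lineStab e ↔ ∃ c : Fˣ, (mv g).mulVec e = (c : F) • e := Iff.rfl

/-- the eigenvalue, as a function -/
noncomputable def eigf {e : Fin n → F} (g : lineStab e) : Fˣ := g.2.choose

theorem eigf_spec {e : Fin n → F} (g : lineStab e) :
    (mv (g : SpecialLinearGroup (Fin n) F)).mulVec e = (eigf g : F) • e := g.2.choose_spec

theorem eigf_unique {e : Fin n → F} (he : e ≠ 0) (g : lineStab e) (c : Fˣ)
    (hc : (mv (g : SpecialLinearGroup (Fin n) F)).mulVec e = (c : F) • e) : eigf g = c := by
  apply Units.ext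
  have h3 : ((eigf g : F) - c) • e = 0 := by rw [sub_smul, ← eigf_spec, hc, sub_self]
  exact sub_eq_zero.1 ((smul_eq_zero.1 h3).resolve_right he)

/-- the eigenvalue -/
noncomputable def eig {e : Fin n → F} (he : e ≠ 0) : lineStab e →* Fˣ where
  toFun g := eigf g
  map_one' := eigf_unique he _ _ (by
    rw [Units.val_one, one_smul]
    exact Matrix.one_mulVec _)
  map_mul' g h := eigf_unique he _ _ (by
    show (mv (g : SpecialLinearGroup (Fin n) F) * mv (h : SpecialLinearGroup (Fin n) F)).mulVec e = _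
    rw [← Matrix.mulVec_mulVec, eigf_spec h, Matrix.mulVec_smul, eigf_spec g, smul_smul, Units.val_mul, mul_comm])

theorem eig_spec {e : Fin n → F} (he : e ≠ 0) (g : lineStab e) :
    (mv (g : SpecialLinearGroup (Fin n) F)).mulVec e = (eig he g : F) • e := eigf_spec g

theorem eig_eq_one_iff {e : Fin n → F} (he : e ≠ 0) (g : lineStab e) :
    eig he g = 1 ↔ (g : SpecialLinearGroup (Fin n) F) ∈ MulAction.stabilizer (SpecialLinearGroup (Fin n) F) (mkNZ e he) := by
  rw [MulAction.mem_stabilizer_iff]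
  constructor
  · intro h
    apply Subtype.ext
    show (mv (g : SpecialLinearGroup (Fin n) F)).mulVec e = e
    rw [eig_spec he g, h, Units.val_one, one_smul]
  · intro h
    have h : (mv (g : SpecialLinearGroup (Fin n) F)).mulVec e = e := congrArg Subtype.val h
    rw [eig_spec he g] at h
    apply Units.ext
    have h5 : ((eig he g : F) - 1) • e = 0 := by rw [sub_smul, h, one_smul, sub_self]
    exact sub_eq_zero.1 ((smul_eq_zero.1 h5).resolve_right he)

theorem stab_le_lineStab {e : Fin n → F} (he : e ≠ 0) :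
    MulAction.stabilizer (SpecialLinearGroup (Fin n) F) (mkNZ e he) ≤ lineStab e := by
  intro g hg
  rw [MulAction.mem_stabilizer_iff] at hg
  replace hg := congrArg Subtype.val hg
  rw [coe_smul] at hg
  exact ⟨1, by rw [Units.val_one, one_smul]; exact hg⟩

/-- the linear characters of the stabilizer of a line -/
noncomputable def lch {e : Fin n → F} (he : e ≠ 0) (α : MulChar F ℂ) : lineStab e →* ℂ where
  toFun g := α (eig he g : F)
  map_one' := by simp
  map_mul' g h := by simp

/-- the pieces of the permutation character -/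
noncomputable def piece {e : Fin n → F} (he : e ≠ 0) (α : MulChar F ℂ) : SpecialLinearGroup (Fin n) F → ℂ :=
  indFun (lineStab e) (lch he α)

theorem exists_indep (hn : 3 ≤ n) {e : Fin n → F} (he : e ≠ 0) : ∃ w, LinearIndependent F ![e, w] := by
  by_contra hcon
  push Not at hcon
  have h1 : ∀ w, w ∈ Submodule.span F {e} := by
    intro w
    by_contra hw
    apply hcon w
    rw [LinearIndependent.pair_iff' he]
    intro a ha
    exact hw (Submodule.mem_span_singleton.2 ⟨a, ha⟩)
  have h2 : Submodule.span F {e} = ⊤ := by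
    rw [eq_top_iff]
    intro w _
    exact h1 w
  have h3 := finrank_span_singleton (K := F) he
  rw [h2, finrank_top, Module.finrank_fin_fun] at h3
  omega

theorem eig_surjective (hn : 3 ≤ n) {e : Fin n → F} (he : e ≠ 0) : Function.Surjective (eig he) := by
  intro c
  obtain ⟨w, hw⟩ := exists_indep hn he
  have hw' : LinearIndependent F ![(c : F) • e, w] := by
    rw [LinearIndependent.pair_iff] at hw ⊢
    intro s t hst
    rw [smul_smul] at hst
    obtain ⟨h1, h2⟩ := hw _ _ hst
    exact ⟨(mul_eq_zero.1 h1).resolve_right c.ne_zero, h2⟩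
  obtain ⟨A, hA, -⟩ := exists_sl_pair hn hw hw'
  exact ⟨⟨A, ⟨c, hA⟩⟩, eigf_unique he _ _ hA⟩

theorem card_lineStab (hn : 3 ≤ n) {e : Fin n → F} (he : e ≠ 0) :
    Nat.card (lineStab e) = Nat.card Fˣ *
      Nat.card (MulAction.stabilizer (SpecialLinearGroup (Fin n) F) (mkNZ e he)) := by
  have h1 := (eig he).ker.index_mul_card
  rw [Subgroup.index_ker, MonoidHom.range_eq_top.2 (eig_surjective hn he)] at h1
  rw [← h1]
  congr 1
  · exact Nat.card_congr Subgroup.topEquiv.toEquiv
  · refine Nat.card_congr ⟨fun g => ⟨g.1, (eig_eq_one_iff he g.1).1 g.2⟩,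
      fun g => ⟨⟨g.1, stab_le_lineStab he g.2⟩, (eig_eq_one_iff he _).2 g.2⟩, fun _ => rfl, fun _ => rfl⟩

theorem sum_piece (hn : 3 ≤ n) {e : Fin n → F} (he : e ≠ 0) [Fintype (MulChar F ℂ)] :
    ∑ α, piece he α = indFun (MulAction.stabilizer (SpecialLinearGroup (Fin n) F) (mkNZ e he)) (fun _ => 1) := by
  classical
  funext g
  rw [Finset.sum_apply]
  simp only [piece, indFun]
  rw [← Finset.mul_sum, Finset.sum_comm]
  have hcard : Fintype.card (MulChar F ℂ) = Nat.card Fˣ := by
    rw [← Nat.card_eq_fintype_card, MulChar.card_eq_card_units_of_hasEnoughRootsOfUnity]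
  have h1 : ∀ x : SpecialLinearGroup (Fin n) F, ∑ α : MulChar F ℂ, extendByZero (lineStab e) (lch he α) (x⁻¹ * g * x) =
      (Nat.card Fˣ : ℂ) * extendByZero (MulAction.stabilizer (SpecialLinearGroup (Fin n) F) (mkNZ e he)) (fun _ => 1) (x⁻¹ * g * x) := by
    intro x
    by_cases hx : x⁻¹ * g * x ∈ lineStab e
    · have h2 : ∀ α : MulChar F ℂ, extendByZero (lineStab e) (lch he α) (x⁻¹ * g * x) = α (eig he ⟨_, hx⟩ : F) := by
        intro α
        rw [extendByZero_of_mem _ _ hx]
        rfl
      simp only [h2]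
      have h3 := sum_mulChar_dual (F := F) (eig he ⟨_, hx⟩)
      have h4 := congrArg conj h3
      rw [map_sum] at h4
      simp only [Complex.conj_conj] at h4
      rw [h4]
      by_cases hone : eig he ⟨_, hx⟩ = 1
      · have hmem := (eig_eq_one_iff he ⟨_, hx⟩).1 hone
        rw [if_pos hone, extendByZero_of_mem _ _ hmem, hcard]
        simp
      · have hmem := fun h => hone ((eig_eq_one_iff he ⟨_, hx⟩).2 h)
        rw [if_neg hone, extendByZero_of_notMem _ _ hmem]
        simp
    · have h2 : ∀ α : MulChar F ℂ, extendByZero (lineStab e) (lch he α) (x⁻¹ * g * x) = 0 := by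
        intro α
        rw [extendByZero_of_notMem _ _ hx]
      simp only [h2, Finset.sum_const_zero]
      rw [extendByZero_of_notMem _ _ (fun h => hx (stab_le_lineStab he h)), mul_zero]
  simp only [h1]
  rw [← Finset.mul_sum, card_lineStab hn he, ← mul_assoc]
  congr 1
  have hu : (Nat.card Fˣ : ℂ) ≠ 0 := by exact_mod_cast Nat.card_pos.ne'
  push_cast
  field_simp

/-- the norm of the permutation character -/
theorem card_orbits_le (hn : 3 ≤ n) :
    Nat.card (Quotient (MulAction.orbitRel (SpecialLinearGroup (Fin n) F) (NZ F n × NZ F n))) ≤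
      Fintype.card F := by
  classical
  obtain ⟨e, he⟩ : ∃ e : Fin n → F, e ≠ 0 := ⟨Pi.single ⟨0, by omega⟩ 1, by simp⟩
  obtain ⟨w, hw⟩ := exists_indep hn he
  have hw0 : w ≠ 0 := by
    rintro rfl
    have := hw.ne_zero 1
    simp at this
  let f : Option Fˣ → Quotient (MulAction.orbitRel (SpecialLinearGroup (Fin n) F) (NZ F n × NZ F n)) :=
    fun o => match o with
    | none => Quotient.mk _ (⟨e, he⟩, ⟨w, hw0⟩)
    | some c => Quotient.mk _ (⟨e, he⟩, ⟨(c : F) • e, smul_ne_zero c.ne_zero he⟩)
  have hf : Function.Surjective f := by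
    intro x
    obtain ⟨⟨⟨v, hv⟩, ⟨v', hv'⟩⟩, rfl⟩ := Quotient.exists_rep x
    by_cases hdep : LinearIndependent F ![v, v']
    · obtain ⟨A, hA1, hA2⟩ := exists_sl_pair hn hw hdep
      refine ⟨none, ?_⟩
      apply Quotient.sound
      show (_ : NZ F n × NZ F n) ∈ MulAction.orbit _ _
      refine ⟨A⁻¹, ?_⟩
      show A⁻¹ • ((⟨v, hv⟩, ⟨v', hv'⟩) : NZ F n × NZ F n) = (⟨e, he⟩, ⟨w, hw0⟩)
      rw [inv_smul_eq_iff]
      exact Prod.ext (Subtype.ext hA1.symm) (Subtype.ext hA2.symm)
    · obtain ⟨c, hc⟩ : ∃ c : F, c • v = v' := by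
        by_contra hcon
        push Not at hcon
        exact hdep ((LinearIndependent.pair_iff' hv).2 hcon)
      have hc0 : c ≠ 0 := by
        rintro rfl
        rw [zero_smul] at hc
        exact hv' hc.symm
      obtain ⟨w', hw'⟩ := exists_indep hn hv
      obtain ⟨A, hA1, -⟩ := exists_sl_pair hn hw hw'
      refine ⟨some (Units.mk0 c hc0), ?_⟩
      apply Quotient.sound
      show (_ : NZ F n × NZ F n) ∈ MulAction.orbit _ _
      refine ⟨A⁻¹, ?_⟩
      show A⁻¹ • ((⟨v, hv⟩, ⟨v', hv'⟩) : NZ F n × NZ F n) = (⟨e, he⟩, ⟨(c : F) • e, _⟩)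
      rw [inv_smul_eq_iff]
      refine Prod.ext (Subtype.ext hA1.symm) (Subtype.ext ?_)
      show v' = (mv A).mulVec (c • e)
      rw [Matrix.mulVec_smul, ← hc]
      congr 1
      exact hA1.symm
  have h1 := Nat.card_le_card_of_surjective f hf
  refine h1.trans ?_
  rw [Nat.card_eq_fintype_card, Fintype.card_option, Fintype.card_units]
  have := Fintype.card_pos (α := F)
  omega

end

/-- Let F be a finite field with q elements and n ≥ 3. The permutation character of SL_n(F) on the non-zero vectors of F^n (the function sending a matrix to the number of non-zero vectors it fixes) is the sum of the principal character and q − 1 pairwise distinct irreducible complex characters. -/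
theorem result {F : Type*} [Field F] [Fintype F] [DecidableEq F] (n : ℕ) (hn : 3 ≤ n) :
    ∃ χ : Fin (Fintype.card F - 1) → (Matrix.SpecialLinearGroup (Fin n) F → ℂ),
      (∀ i, Cfsg.IsIrrCharacter (Matrix.SpecialLinearGroup (Fin n) F) (χ i)) ∧ Function.Injective χ ∧
      ∀ g : Matrix.SpecialLinearGroup (Fin n) F,
        (Nat.card {v : Fin n → F // v ≠ 0 ∧ (g : Matrix (Fin n) (Fin n) F).mulVec v = v} : ℂ) = 1 + ∑ i, χ i g := by
  classical
  haveI : Fintype (MulChar F ℂ) := Fintype.ofFinite _
  obtain ⟨e, he⟩ : ∃ e : Fin n → F, e ≠ 0 := ⟨Pi.single ⟨0, by omega⟩ 1, by simp⟩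
  haveI : MulAction.IsPretransitive (SpecialLinearGroup (Fin n) F) (NZ F n) := by
    refine ⟨?_⟩
    rintro ⟨v, hv⟩ ⟨v', hv'⟩
    obtain ⟨w, hw⟩ := exists_indep hn hv
    obtain ⟨w', hw'⟩ := exists_indep hn hv'
    obtain ⟨A, hA, -⟩ := exists_sl_pair hn hw hw'
    exact ⟨A, Subtype.ext hA⟩
  have hcard : Fintype.card (MulChar F ℂ) = Fintype.card F - 1 := by
    rw [← Nat.card_eq_fintype_card, MulChar.card_eq_card_units_of_hasEnoughRootsOfUnity, Nat.card_units,
      Nat.card_eq_fintype_card]
  have hpi := Cfsg.Agent.S0190.result (G := SpecialLinearGroup (Fin n) F) (NZ F n) (mkNZ e he)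
  have hnorm := Cfsg.Agent.S0157.classInner_fixedBy_self (G := SpecialLinearGroup (Fin n) F) (NZ F n)
  rw [hpi, ← sum_piece hn he] at hnorm
  have hpc : ∀ α, IsCharacter (SpecialLinearGroup (Fin n) F) (piece he α) := fun α =>
    indFun_isCharacter _ _ (isCharacter_of_hom (lch he α))
  -- the piece of the trivial character contains the trivial character
  haveI : Fintype (lineStab e) := Fintype.ofFinite _
  have hone : classInner (piece he 1) (fun _ => (1 : ℂ)) = 1 := by
    rw [piece, frobenius_reciprocity _ _ _ (isClassFunction_of_isCharacter isCharacter_one)]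
    have h1 : (lch he (1 : MulChar F ℂ) : lineStab e → ℂ) = fun _ => 1 := by
      funext g
      exact MulChar.one_apply_coe _
    rw [h1]
    exact classInner_irr_self ⟨_, Char.isIrrCharacter_one⟩
  have hch1 : IsCharacter (SpecialLinearGroup (Fin n) F) (piece he 1 - fun _ => (1 : ℂ)) := by
    apply isCharacter_of_classInner_nat
      (isClassFunction_sub (isClassFunction_of_isCharacter (hpc 1)) (isClassFunction_of_isCharacter isCharacter_one))
    intro χ
    rw [classInner_sub_left]
    by_cases hχ : (χ : SpecialLinearGroup (Fin n) F → ℂ) = fun _ => 1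
    · refine ⟨0, ?_⟩
      rw [hχ, hone]
      have h2 := classInner_irr_self (G := SpecialLinearGroup (Fin n) F) ⟨_, Char.isIrrCharacter_one⟩
      rw [h2]
      norm_num
    · obtain ⟨m, hm⟩ := classInner_natCast (hpc 1) (irr_isCharacter χ)
      refine ⟨m, ?_⟩
      have h2 := classInner_irr_of_ne (G := SpecialLinearGroup (Fin n) F) (χ := ⟨_, Char.isIrrCharacter_one⟩) (ψ := χ)
        (fun h => hχ (congrArg Subtype.val h).symm)
      rw [hm, h2, sub_zero]
  have hindex : (lineStab e).index ≠ 1 := by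
    intro h1
    rw [Subgroup.index_eq_one] at h1
    obtain ⟨w, hw⟩ := exists_indep hn he
    have hw2 : LinearIndependent F ![w, e] := by
      rw [LinearIndependent.pair_iff] at hw ⊢
      intro s t hst
      rw [add_comm] at hst
      exact (hw _ _ hst).symm
    obtain ⟨A, hA, -⟩ := exists_sl_pair hn hw hw2
    have h2 : A ∈ lineStab e := by rw [h1]; exact Subgroup.mem_top _
    obtain ⟨c, hc⟩ := h2
    have hA' : (mv A).mulVec e = w := hA
    rw [hA'] at hc
    rw [LinearIndependent.pair_iff] at hw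
    have := (hw (c : F) (-1) (by rw [hc]; simp)).2
    simp at this
  let ψ : Option (MulChar F ℂ) → SpecialLinearGroup (Fin n) F → ℂ := fun o => match o with
    | none => fun _ => 1
    | some α => if α = 1 then piece he 1 - fun _ => (1 : ℂ) else piece he α
  have hψc : ∀ i, IsCharacter (SpecialLinearGroup (Fin n) F) (ψ i) := by
    rintro (_ | α)
    · exact isCharacter_one
    · by_cases hα : α = 1
      · simp only [ψ, if_pos hα]; exact hch1
      · simp only [ψ, if_neg hα]; exact hpc α
  have hdeg : ∀ α, piece he α 1 = (lineStab e).index := by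
    intro α
    rw [piece, indFun_one_apply]
    simp
  have hψ0 : ∀ i, ψ i 1 ≠ 0 := by
    rintro (_ | α)
    · exact one_ne_zero
    · by_cases hα : α = 1
      · simp only [ψ, if_pos hα, Pi.sub_apply, hdeg]
        intro h1
        apply hindex
        have h2 : (((lineStab e).index : ℕ) : ℂ) = ((1 : ℕ) : ℂ) := by push_cast; linear_combination h1
        exact_mod_cast h2
      · simp only [ψ, if_neg hα, hdeg]
        exact_mod_cast Subgroup.index_ne_zero_of_finite
  have hψsum : ∑ i, ψ i = ∑ α, piece he α := by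
    rw [Fintype.sum_option]
    have h1 : ∀ α : MulChar F ℂ, ψ (some α) = piece he α - (if α = 1 then (fun _ => (1 : ℂ)) else (0 : SpecialLinearGroup (Fin n) F → ℂ)) := by
      intro α
      by_cases hα : α = 1
      · subst hα
        simp only [ψ, if_true]
      · simp only [ψ, if_neg hα, sub_zero]
    rw [Finset.sum_congr rfl (fun α _ => h1 α), Finset.sum_sub_distrib, Finset.sum_ite_eq', if_pos (Finset.mem_univ _)]
    show (fun _ => (1 : ℂ)) + _ = _
    abel
  rw [← hψsum] at hnorm
  obtain ⟨hirr, hinj⟩ := irr_of_norm_le ψ hψc hψ0 _ (by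
    rw [Fintype.card_option, hcard]
    have h1 := card_orbits_le (F := F) hn
    have := Fintype.card_pos (α := F)
    omega) hnorm
  let eqv : Fin (Fintype.card F - 1) ≃ MulChar F ℂ := (finCongr hcard.symm).trans (Fintype.equivFin _).symm
  refine ⟨fun i => ψ (some (eqv i)), fun i => hirr (some (eqv i)), fun i j hij => ?_, fun g => ?_⟩
  · have h1 : ψ (some (eqv i)) = ψ (some (eqv j)) := hij
    exact eqv.injective (Option.some_injective _ (hinj h1))
  · have h1 : (∑ i, ψ i) g = 1 + ∑ i : Fin (Fintype.card F - 1), ψ (some (eqv i)) g := by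
      rw [Fintype.sum_option, Pi.add_apply, Finset.sum_apply]
      congr 1
      exact (Equiv.sum_comp eqv (fun α => ψ (some α) g)).symm
    rw [← h1, hψsum, sum_piece hn he, ← hpi]
    congr 1
    refine Nat.card_congr ⟨fun v => ⟨⟨v.1, v.2.1⟩, Subtype.ext v.2.2⟩, fun v => ⟨v.1.1, v.1.2, congrArg Subtype.val v.2⟩,
      fun _ => rfl, fun _ => rfl⟩

end Cfsg.Agent.S2336
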