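import Cfsg.Statements.S2354
import Cfsg.Agent.H39.FreeLaw
import Cfsg.Agent.H39.SzBasic

set_option autoImplicit false
open Cfsg

namespace Cfsg.Agent.S2354

open Polynomial Cfsg.Agent.H39

/-- The polynomial matrices. -/
noncomputable def Dm (F : Type*) [Field F] (e : ℕ) : Bool → Matrix (Fin 4) (Fin 4) F[X]
  | true => !![X ^ (2 * e + 2), 0, 0, 0; 0, X ^ (e + 2), 0, 0; 0, 0, X ^ e, 0; 0, 0, 0, 1]
  | false => !![1, 0, 0, 0; 0, X ^ e, 0, 0; 0, 0, X ^ (e + 2), 0; 0, 0, 0, X ^ (2 * e + 2)]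

def idxm : Bool → Fin 4
  | true => 0
  | false => 3

theorem aux (w : FreeGroup ℕ) (hw : w ≠ 1) (k : ℕ) (hk : ∀ x ∈ w.toWord, x.1 < k)
    (F : Type*) [Field F] [Fintype F] (m : ℕ) (hF : Fintype.card F = 2 ^ (2 * m + 1))
    (hkF : k ≤ Fintype.card F) (hT : (2 * 2 ^ (m + 1) + 2) * w.toWord.length < 2 ^ (2 * m + 1) - 1) :
    ∃ f : ℕ → ↥(Cfsg.Lie.Sz F (2 ^ (m + 1))), FreeGroup.lift f w ≠ 1 := by
  classical
  haveI := sz_charTwo hF
  have hemb : Nonempty (Fin k ↪ F) := by
    rw [Function.Embedding.nonempty_iff_card_le]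
    simpa using hkF
  obtain ⟨b⟩ := hemb
  set e := 2 ^ (m + 1) with he
  have he1 : 1 ≤ e := Nat.one_le_two_pow
  refine exists_lift_ne_one (szToMat F e) w hw (2 * e + 2) (e + 1) (by omega) (Dm F e) idxm ?_ ?_
    (fun i => szU hF (if h : i < k then b ⟨i, h⟩ else 0) * szW hF * szU hF 1)
    (fun t => if ht : t ≠ 0 then szH hF ht else 1) (Finset.univ.erase 0) ?_ ?_ ?_ k hk ?_
  · intro ε p q
    cases ε <;> fin_cases p <;> fin_cases q <;> simp [Dm] <;> omega
  · intro ε
    cases ε <;> ext p q <;> fin_cases p <;> fin_cases q <;>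
      simp [Dm, idxm, Matrix.single_apply, coeff_X_pow, coeff_one] <;> omega
  · rw [Finset.card_erase_of_mem (Finset.mem_univ _), Finset.card_univ, hF]
    exact hT
  · intro t ht
    have ht0 : t ≠ 0 := Finset.ne_of_mem_erase ht
    rw [dif_pos ht0, szToMat_szH]
    ext p q
    fin_cases p <;> fin_cases q <;> simp [Dm, szHMat, ← he]
    · ring
    · ring
    · field_simp; ring
    · field_simp
  · intro t ht
    have ht0 : t ≠ 0 := Finset.ne_of_mem_erase ht
    rw [dif_pos ht0, szToMat_szH_inv]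
    ext p q
    fin_cases p <;> fin_cases q <;> simp [Dm, szHMat, ← he]
    · field_simp
    · field_simp; ring
    · ring
    · ring
  · intro i j hi hj hij ε δ
    rw [dif_pos hi, dif_pos hj]
    set x := b ⟨i, hi⟩ with hx
    set y := b ⟨j, hj⟩ with hy
    have hxy : x + y ≠ 0 := by
      intro h
      have : x = y := by
        have h2 := CharTwo.add_self_eq_zero y
        linear_combination h - h2
      have := b.injective this
      simp at this
      exact hij this
    have hone := sz_one_add_ne hF (x + y)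
    have h2 : (2 : F) = 0 := CharTwo.two_eq_zero
    have hpow : (x + y) ^ e ≠ 0 := pow_ne_zero _ hxy
    have hmat : szToMat F e ((szU hF x * szW hF * szU hF 1)⁻¹ * (szU hF y * szW hF * szU hF 1)) =
        szUMat e 1 * szLMat e (x + y) * szUMat e 1 := by
      rw [← szW_mul_U_mul_W]
      have h := szU_mul hF x y
      rw [← he] at h
      rw [← h]
      simp only [mul_inv_rev, map_mul, mul_assoc]
      rfl
    rw [hmat]
    obtain ⟨e1, e2, e3, e4⟩ := szULU_corners h2 e (x + y)
    cases ε <;> cases δ <;> simp only [idxm, e1, e2, e3, e4] <;> assumption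

theorem bound_aux (n : ℕ) : n < 2 ^ n := Nat.lt_two_pow_self

/-- A non-trivial law holds in only finitely many Suzuki groups: for every non-trivial element w of the free group on countably many generators there is N such that for q = 2^(2m+1) with m ≥ N some substitution of elements of the Suzuki group over the field with q elements into w is not the identity. -/
theorem result (w : FreeGroup ℕ) (hw : w ≠ 1) :
    ∃ N : ℕ, ∀ (F : Type*) [Field F] [Fintype F] (m : ℕ), 1 ≤ m → N ≤ m →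
      Fintype.card F = 2 ^ (2 * m + 1) →
      ∃ f : ℕ → ↥(Cfsg.Lie.Sz F (2 ^ (m + 1))), FreeGroup.lift f w ≠ 1 := by
  set ℓ := w.toWord.length with hℓ
  set k := (w.toWord.map Prod.fst).sum + 1 with hk
  refine ⟨ℓ + k + 3, fun F _ _ m _ hm hF => ?_⟩
  refine aux w hw k ?_ F m hF ?_ ?_
  · intro x hx
    have : x.1 ≤ (w.toWord.map Prod.fst).sum := List.single_le_sum (fun _ _ => Nat.zero_le _) _
      (List.mem_map_of_mem hx)
    omega
  · rw [hF]
    have h1 := bound_aux (2 * m + 1)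
    omega
  · rw [← hℓ]
    have h1 : ℓ + 1 ≤ 2 ^ (m - 3) := by
      have := bound_aux ℓ
      have h3 : 2 ^ ℓ ≤ 2 ^ (m - 3) := Nat.pow_le_pow_right (by norm_num) (by omega)
      omega
    have h2 : 2 ^ (2 * m + 1) = 2 ^ (m + 1) * 8 * 2 ^ (m - 3) := by
      rw [show (8 : ℕ) = 2 ^ 3 by norm_num, ← pow_add, ← pow_add]
      congr 1
      omega
    have h4 : 1 ≤ 2 ^ (m + 1) := Nat.one_le_two_pow
    have h5 : (2 * 2 ^ (m + 1) + 2) * ℓ + 1 < 2 ^ (m + 1) * 8 * 2 ^ (m - 3) := by
      calc (2 * 2 ^ (m + 1) + 2) * ℓ + 1 < 2 ^ (m + 1) * 8 * (ℓ + 1) := by nlinarith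
        _ ≤ 2 ^ (m + 1) * 8 * 2 ^ (m - 3) := Nat.mul_le_mul_left _ h1
    rw [h2]
    omega

end Cfsg.Agent.S2354
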