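import Cfsg.Statements.S2355
import Cfsg.Agent.H39.FreeLaw4

set_option autoImplicit false
open Cfsg

namespace Cfsg.Agent.S2355

open Cfsg.Agent.H39

theorem card_mat (ι : Type) [Fintype ι] [DecidableEq ι] (F : Type*) [Fintype F] :
    Nat.card (Matrix ι ι F) = Fintype.card F ^ (Fintype.card ι ^ 2) := by
  have : Nat.card (Matrix ι ι F) = Nat.card (ι → ι → F) := rfl
  rw [this, Nat.card_eq_fintype_card, Fintype.card_fun, Fintype.card_fun, ← pow_mul, sq]

theorem card_gl_le (ι : Type) [Fintype ι] [DecidableEq ι] (F : Type*) [Field F] [Fintype F] :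
    Nat.card (Matrix.GeneralLinearGroup ι F) ≤ Fintype.card F ^ (Fintype.card ι ^ 2) := by
  have h1 : Nat.card (Matrix.GeneralLinearGroup ι F) ≤ Nat.card (Matrix ι ι F) :=
    Nat.card_le_card_of_injective _ (Units.val_injective)
  refine h1.trans (le_of_eq ?_)
  rw [card_mat]

theorem card_sl_le (ι : Type) [Fintype ι] [DecidableEq ι] (F : Type*) [Field F] [Fintype F] :
    Nat.card (Matrix.SpecialLinearGroup ι F) ≤ Fintype.card F ^ (Fintype.card ι ^ 2) := by
  have h1 : Nat.card (Matrix.SpecialLinearGroup ι F) ≤ Nat.card (Matrix ι ι F) :=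
    Nat.card_le_card_of_injective _ (Subtype.val_injective)
  refine h1.trans (le_of_eq ?_)
  rw [card_mat]

theorem card_sp_le (m : ℕ) (F : Type*) [Field F] [Fintype F] :
    Nat.card (Matrix.symplecticGroup (Fin m) F) ≤ Fintype.card F ^ ((2 * m) ^ 2) := by
  have h1 : Nat.card (Matrix.symplecticGroup (Fin m) F) ≤ Nat.card (Matrix (Fin m ⊕ Fin m) (Fin m ⊕ Fin m) F) :=
    Nat.card_le_card_of_injective _ (Subtype.val_injective)
  refine h1.trans (le_of_eq ?_)
  rw [card_mat, Fintype.card_sum, Fintype.card_fin]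
  congr 2
  ring

theorem card_quot_le (H : Type*) [Group H] [Finite H] : Nat.card (H ⧸ Subgroup.center H) ≤ Nat.card H :=
  Nat.card_le_card_of_surjective _ (QuotientGroup.mk'_surjective (Subgroup.center H))

theorem card_pomega_le (ι : Type) [Fintype ι] [DecidableEq ι] (F : Type*) [Field F] [Fintype F]
    (Q : (ι → F) → F) : Nat.card (POmega F Q) ≤ Fintype.card F ^ (Fintype.card ι ^ 2) := by
  refine (card_quot_le _).trans ?_
  refine (Nat.card_le_card_of_injective _ (Subtype.val_injective)).trans ?_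
  refine (Nat.card_le_card_of_injective _ (Subtype.val_injective)).trans ?_
  exact card_gl_le ι F

theorem pow_bound {a b c d : ℕ} (hb : 1 ≤ b) (h1 : a ≤ b) (h2 : c ≤ d) : a ^ c ≤ b ^ d :=
  (Nat.pow_le_pow_left h1 c).trans (Nat.pow_le_pow_right hb h2)

/-- Transport of a law along an isomorphism. -/
theorem law_transport {G H : Type*} [Group G] [Group H] (e : G ≃* H) (w : FreeGroup ℕ)
    (h : ∀ f : ℕ → G, FreeGroup.lift f w = 1) (f : ℕ → H) : FreeGroup.lift f w = 1 := by
  have h1 := h (fun i => e.symm (f i))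
  have h2 := lift_hom_comp e.symm.toMonoidHom f w
  rw [MulEquiv.toMonoidHom_eq_coe] at h2
  have h3 : e.symm (FreeGroup.lift f w) = 1 := by
    rw [← h1]; exact h2.symm
  simpa using h3

/-- A non-trivial law is satisfied by only finitely many finite simple groups that are alternating or classical, up to isomorphism: for every non-trivial element w of the free group on countably many generators there is a bound N such that every alternating group of degree ≥ 5 and every simple classical group (linear, symplectic, unitary or orthogonal, in this problem's sense) in which w is a law has order at most N. -/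
theorem result (w : FreeGroup ℕ) (hw : w ≠ 1) :
    ∃ N : ℕ, ∀ (G : Type*) [Group G] [Finite G],
      (Cfsg.IsAlternating G ∨ Cfsg.IsPSL G ∨ Cfsg.IsPSp G ∨ Cfsg.IsPSU G ∨ Cfsg.IsPOmegaOdd G ∨
          Cfsg.IsPOmegaPlus G ∨ Cfsg.IsPOmegaMinus G) →
      (∀ f : ℕ → G, FreeGroup.lift f w = 1) → Nat.card G ≤ N := by
  classical
  have hw1 : ctrWord w ≠ 1 := ctrWord_ne_one w hw
  have hw2 : comWord (ctrWord w) ≠ 1 := comWord_ne_one _ hw1
  set w1 := ctrWord w with hw1def
  set w2 := comWord w1 with hw2def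
  set A := dimBound w hw + dimBound w1 hw1 + dimBound w2 hw2 + 1 with hA
  set B := sl2Bound w1 + sl2Bound w2 + 1 with hB
  refine ⟨(dimBound w hw).factorial + (B ^ 2) ^ ((2 * A + 2) ^ 2), ?_⟩
  intro G _ _ hG hlaw
  -- law in a quotient of `O(Q)` gives a bound
  have key : ∀ (F : Type) (_ : Field F) (_ : Fintype F) (n : ℕ), 2 ≤ n →
      (∀ f : ℕ → Matrix.SpecialLinearGroup (Fin n) F, FreeGroup.lift f w1 = 1) ∨
      (∀ f : ℕ → Matrix.SpecialLinearGroup (Fin n) F, FreeGroup.lift f w2 = 1) →
      Fintype.card F ≤ B ∧ n ≤ A := by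
    intro F _ _ n hn h
    constructor
    · by_contra hcon
      rcases h with h | h
      · obtain ⟨f, hf⟩ := sl_not_law w1 hw1 F n hn (Or.inl (by omega))
        exact hf (h f)
      · obtain ⟨f, hf⟩ := sl_not_law w2 hw2 F n hn (Or.inl (by omega))
        exact hf (h f)
    · by_contra hcon
      rcases h with h | h
      · obtain ⟨f, hf⟩ := sl_not_law w1 hw1 F n hn (Or.inr (by omega))
        exact hf (h f)
      · obtain ⟨f, hf⟩ := sl_not_law w2 hw2 F n hn (Or.inr (by omega))
        exact hf (h f)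
  have hfin : ∀ {a b c : ℕ}, a ≤ b ^ c → b ≤ B ^ 2 → c ≤ (2 * A + 2) ^ 2 →
      a ≤ (dimBound w hw).factorial + (B ^ 2) ^ ((2 * A + 2) ^ 2) := by
    intro a b c h1 h2 h3
    have h4 : b ^ c ≤ (B ^ 2) ^ ((2 * A + 2) ^ 2) :=
      pow_bound (Nat.one_le_pow _ _ (by omega)) h2 h3
    omega
  have hBB : B ≤ B ^ 2 := by
    have : 1 ≤ B := by omega
    nlinarith
  have law_of_inj : ∀ {H K : Type} [Group H] [Group K] (Ψ : H →* K), Function.Injective Ψ →
      ∀ u : FreeGroup ℕ, (∀ f : ℕ → K, FreeGroup.lift f u = 1) → ∀ f : ℕ → H, FreeGroup.lift f u = 1 := by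
    intro H K _ _ Ψ hΨ u hu f
    by_contra hcon
    obtain ⟨f', hf'⟩ := not_law_of_injective Ψ hΨ u ⟨f, hcon⟩
    exact hf' (hu f')
  rcases hG with hG | hG | hG | hG | hG | hG | hG
  · -- alternating
    obtain ⟨n, hn, ⟨e⟩⟩ := hG
    have h1 : n ≤ dimBound w hw := by
      by_contra hcon
      obtain ⟨f, hf⟩ := dimBound_spec w hw n (by omega)
      exact hf (law_transport e w hlaw f)
    rw [Nat.card_congr e.toEquiv]
    have h2 : Nat.card (alternatingGroup (Fin n)) ≤ Nat.card (Equiv.Perm (Fin n)) :=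
      Nat.card_le_card_of_injective _ (Subtype.val_injective)
    have h3 : Nat.card (Equiv.Perm (Fin n)) = n.factorial := by
      rw [Nat.card_eq_fintype_card, Fintype.card_perm, Fintype.card_fin]
    have h4 := Nat.factorial_le h1
    omega
  · obtain ⟨F, _, _, n, hn, -, ⟨e⟩⟩ := hG
    have h1 := law_of_center_law (H := Matrix.SpecialLinearGroup (Fin n) F) w (law_transport e w hlaw)
    obtain ⟨h2, h3⟩ := key F _ _ n hn (Or.inl h1)
    rw [Nat.card_congr e.toEquiv]
    refine hfin ((card_quot_le _).trans (card_sl_le _ F)) (h2.trans hBB) ?_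
    rw [Fintype.card_fin]
    exact Nat.pow_le_pow_left (by omega) 2
  · obtain ⟨F, _, _, n, hn, -, ⟨e⟩⟩ := hG
    have h1 := law_of_center_law (H := Matrix.symplecticGroup (Fin n) F) w (law_transport e w hlaw)
    obtain ⟨h2, h3⟩ := key F _ _ n hn (Or.inl (law_of_inj (leviSp F n) (leviSp_injective F n) w1 h1))
    rw [Nat.card_congr e.toEquiv]
    refine hfin ((card_quot_le _).trans (card_sp_le _ F)) (h2.trans hBB) ?_
    exact Nat.pow_le_pow_left (by omega) 2
  · obtain ⟨F, _, _, n, q, hq, hn, -, ⟨e⟩⟩ := hG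
    have h1 := law_of_center_law (H := SU n F q) w (law_transport e w hlaw)
    have h2 : q ≤ B := by
      by_contra hcon
      obtain ⟨f, hf⟩ := su_not_law w1 hw1 F n q (by omega) hq (Or.inl (by omega))
      exact hf (h1 f)
    have h3 : n ≤ A := by
      by_contra hcon
      obtain ⟨f, hf⟩ := su_not_law w1 hw1 F n q (by omega) hq (Or.inr (by omega))
      exact hf (h1 f)
    rw [Nat.card_congr e.toEquiv]
    refine hfin ((card_quot_le _).trans ((Nat.card_le_card_of_injective _ (Subtype.val_injective)).trans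
      (card_sl_le _ F))) ?_ ?_
    · rw [hq]; exact Nat.pow_le_pow_left h2 2
    · rw [Fintype.card_fin]
      exact Nat.pow_le_pow_left (by omega) 2
  · obtain ⟨F, _, _, n, hn, -, ⟨e⟩⟩ := hG
    have h1 := law_of_center_law (H := Omega F (quadFormOdd n F)) w (law_transport e w hlaw)
    have h1' := law_of_commutator_law (H := isometryGroup F (quadFormOdd n F)) w1 h1
    have h1'' := law_of_inj (toIsometry (quadFormOdd n F) (leviOddMat F n) quadFormOdd_levi)
      (toIsometry_injective _ _ _ (leviOddMat_injective F n)) w2 h1'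
    obtain ⟨h2, h3⟩ := key F _ _ n (by omega) (Or.inr h1'')
    rw [Nat.card_congr e.toEquiv]
    refine hfin (card_pomega_le _ F _) (h2.trans hBB) ?_
    simp only [Fintype.card_sum, Fintype.card_fin, Fintype.card_unit]
    exact Nat.pow_le_pow_left (by omega) 2
  · obtain ⟨F, _, _, n, hn, ⟨e⟩⟩ := hG
    have h1 := law_of_center_law (H := Omega F (quadFormPlus n F)) w (law_transport e w hlaw)
    have h1' := law_of_commutator_law (H := isometryGroup F (quadFormPlus n F)) w1 h1
    have h1'' := law_of_inj (toIsometry (quadFormPlus n F) (leviMat F n) quadFormPlus_levi)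
      (toIsometry_injective _ _ _ (leviMat_injective F n)) w2 h1'
    obtain ⟨h2, h3⟩ := key F _ _ n (by omega) (Or.inr h1'')
    rw [Nat.card_congr e.toEquiv]
    refine hfin (card_pomega_le _ F _) (h2.trans hBB) ?_
    simp only [Fintype.card_sum, Fintype.card_fin]
    exact Nat.pow_le_pow_left (by omega) 2
  · obtain ⟨F, _, _, n, a, b, hn, -, ⟨e⟩⟩ := hG
    have h1 := law_of_center_law (H := Omega F (quadFormMinus (n - 1) F a b)) w (law_transport e w hlaw)
    have h1' := law_of_commutator_law (H := isometryGroup F (quadFormMinus (n - 1) F a b)) w1 h1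
    have h1'' := law_of_inj (toIsometry (quadFormMinus (n - 1) F a b) (leviMinusMat F (n - 1))
      (quadFormMinus_levi a b)) (toIsometry_injective _ _ _ (leviMinusMat_injective F (n - 1))) w2 h1'
    obtain ⟨h2, h3⟩ := key F _ _ (n - 1) (by omega) (Or.inr h1'')
    rw [Nat.card_congr e.toEquiv]
    refine hfin (card_pomega_le _ F _) (h2.trans hBB) ?_
    simp only [Fintype.card_sum, Fintype.card_fin]
    exact Nat.pow_le_pow_left (by omega) 2

end Cfsg.Agent.S2355
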