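import Cfsg.Statements.S2359
import Cfsg.Agent.Ree.Main
import Cfsg.Agent.Ree.Tor4
-- import your own Cfsg.Agent.* helpers here

set_option autoImplicit false
open Cfsg

namespace Cfsg.Agent.S2359

/-- Let R be the small Ree group over the field with q = 3^(2m+1) ≥ 27 elements. If H is a cyclic subgroup of R of order (q−1)/2, then the centralizer of H in R is cyclic of order q−1, and every non-trivial subgroup of H has the same centralizer as H. If H is a cyclic subgroup of order (q+1)/4, then the centralizer of H is abelian of order q+1 with no element of order 4 (so it is the direct product of H and a group of order 4 whose non-identity elements all have order 2), and every non-trivial subgroup of H has the same centralizer as H. -/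
theorem result {K : Type*} [Field K] [Fintype K] {m : ℕ} (hm : 1 ≤ m)
    (hK : Fintype.card K = 3 ^ (2 * m + 1)) (H : Subgroup ↥(Cfsg.Lie.twistedG2 K (3 ^ m))) (hH : IsCyclic H) :
    (Nat.card H = (3 ^ (2 * m + 1) - 1) / 2 →
      IsCyclic ↥(Subgroup.centralizer (H : Set ↥(Cfsg.Lie.twistedG2 K (3 ^ m)))) ∧
        Nat.card ↥(Subgroup.centralizer (H : Set ↥(Cfsg.Lie.twistedG2 K (3 ^ m)))) = 3 ^ (2 * m + 1) - 1 ∧
        ∀ A : Subgroup ↥(Cfsg.Lie.twistedG2 K (3 ^ m)), A ≤ H → A ≠ ⊥ →
          Subgroup.centralizer (A : Set ↥(Cfsg.Lie.twistedG2 K (3 ^ m))) = Subgroup.centralizer (H : Set ↥(Cfsg.Lie.twistedG2 K (3 ^ m)))) ∧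
    (Nat.card H = (3 ^ (2 * m + 1) + 1) / 4 →
      IsMulCommutative ↥(Subgroup.centralizer (H : Set ↥(Cfsg.Lie.twistedG2 K (3 ^ m)))) ∧
        Nat.card ↥(Subgroup.centralizer (H : Set ↥(Cfsg.Lie.twistedG2 K (3 ^ m)))) = 3 ^ (2 * m + 1) + 1 ∧
        (∀ x ∈ Subgroup.centralizer (H : Set ↥(Cfsg.Lie.twistedG2 K (3 ^ m))), orderOf x ≠ 4) ∧
        ∀ A : Subgroup ↥(Cfsg.Lie.twistedG2 K (3 ^ m)), A ≤ H → A ≠ ⊥ →
          Subgroup.centralizer (A : Set ↥(Cfsg.Lie.twistedG2 K (3 ^ m))) = Subgroup.centralizer (H : Set ↥(Cfsg.Lie.twistedG2 K (3 ^ m)))) := by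
  have hfin : Finite ↥(Cfsg.Lie.twistedG2 K (3 ^ m)) := inferInstance
  have hq := Ree.card_gt hm hK
  rw [← hK]
  constructor
  · intro hc
    have hT := (Ree.rs hK).torus_H hK hq
    obtain ⟨g, hg⟩ := hT.conj_eq hH (by rw [hc]; exact ((Ree.rs hK).card_TH hK).symm)
    have hT' := hT.map_conj g
    rw [hg] at hT'
    have h1 := hT'.centralizer_eq (le_refl H) hT'.ne
    refine ⟨?_, ?_, ?_⟩
    · rw [h1]
      have := (Ree.rs hK).H_cyclic
      exact isCyclic_of_surjective (Subgroup.equivMapOfInjective (Ree.rs hK).H (MulAut.conj g).toMonoidHom (MulAut.conj g).injective)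
        (Subgroup.equivMapOfInjective (Ree.rs hK).H (MulAut.conj g).toMonoidHom (MulAut.conj g).injective).surjective
    · rw [h1, ← (Ree.rs hK).card_H]
      exact (Nat.card_congr (Subgroup.equivMapOfInjective _ _ (MulAut.conj g).injective).toEquiv).symm
    · intro A hA hA1
      rw [h1, hT'.centralizer_eq hA hA1]
  · intro hc
    have hT := (Ree.rs hK).torus_A hK hq
    obtain ⟨g, hg⟩ := hT.conj_eq hH (by rw [hc]; exact ((Ree.rs hK).card_A hK).symm)
    have hT' := hT.map_conj g
    rw [hg] at hT'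
    have h1 := hT'.centralizer_eq (le_refl H) hT'.ne
    refine ⟨?_, ?_, ?_, ?_⟩
    · rw [h1]
      exact ⟨⟨fun x y => Subtype.ext (hT'.comm x x.2 y y.2)⟩⟩
    · rw [h1, Ree.four_kA hK, ← (Ree.rs hK).card_C0 hK]
      exact (Nat.card_congr (Subgroup.equivMapOfInjective _ _ (MulAut.conj g).injective).toEquiv).symm
    · rw [h1]
      rintro _ ⟨x, hx, rfl⟩ ho
      have h2 : orderOf x = 4 := by
        rw [← ho]; exact (orderOf_injective (MulAut.conj g).toMonoidHom (MulAut.conj g).injective x).symm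
      have h3 : Nat.Coprime 4 (Ree.kA K) := by
        have := (Ree.RS.cop_kA_6 hK).coprime_dvd_left (show 2 ∣ 6 by norm_num)
        exact Nat.Coprime.pow_left 2 this
      rcases (Ree.rs hK).order_C0 hK hx with h | h
      · rw [← orderOf_dvd_iff_pow_eq_one, h2] at h
        exact absurd (Nat.le_of_dvd (by norm_num) h) (by norm_num)
      · rw [h2] at h
        exact h h3
    · intro A hA hA1
      rw [h1, hT'.centralizer_eq hA hA1]

end Cfsg.Agent.S2359
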