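import Cfsg.Statements.S2360
import Cfsg.Agent.H39.SUThree3

set_option autoImplicit false
open Cfsg

namespace Cfsg.Agent.S2360

/-- Let q be odd, F the field with q² elements and S = SU_3(F) (determinant-one isometries of the standard Hermitian form). Then all involutions of S are conjugate; there are exactly q²(q²−q+1) of them; the centralizer of an involution has order q(q+1)(q²−1), the order of the full unitary group of degree 2; and for two distinct commuting involutions t and x there is exactly one further involution commuting with both. -/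
theorem result {F : Type*} [Field F] [Fintype F] {q : ℕ} (hq : Odd q)
    (hF : Fintype.card F = q ^ 2) (t : ↥(Cfsg.SU 3 F q)) (ht : t ≠ 1) (ht2 : t * t = 1) :
    (∀ x : ↥(Cfsg.SU 3 F q), x ≠ 1 → x * x = 1 → ∃ g : ↥(Cfsg.SU 3 F q), g * t * g⁻¹ = x) ∧
    Nat.card {x : ↥(Cfsg.SU 3 F q) // x ≠ 1 ∧ x * x = 1} = q ^ 2 * (q ^ 2 - q + 1) ∧
    Nat.card ↥(Subgroup.centralizer ({t} : Set ↥(Cfsg.SU 3 F q))) = q * (q + 1) * (q ^ 2 - 1) ∧
    ∀ x : ↥(Cfsg.SU 3 F q), x ≠ 1 → x * x = 1 → x ≠ t → Commute t x →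
      Nat.card {y : ↥(Cfsg.SU 3 F q) // y ≠ 1 ∧ y * y = 1 ∧ y ≠ t ∧ y ≠ x ∧ Commute t y ∧ Commute x y} = 1 := by
  classical
  obtain ⟨u, rfl⟩ := Cfsg.Agent.H39.SU3.exists_tau hF hq ht ht2
  have hT := Cfsg.Agent.H39.SU3.card_invol hF hq
  have hconj : ∀ x : ↥(Cfsg.SU 3 F q), x ≠ 1 → x * x = 1 →
      ∃ g : ↥(Cfsg.SU 3 F q), g * Cfsg.Agent.H39.SU3.tau hF u * g⁻¹ = x := by
    intro x hx hx2
    obtain ⟨w, rfl⟩ := Cfsg.Agent.H39.SU3.exists_tau hF hq hx hx2
    exact Cfsg.Agent.H39.SU3.exists_conj hF hq u w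
  refine ⟨hconj, hT, ?_, ?_⟩
  · have h1 := Cfsg.Agent.H39.SU3.card_centralizer (Cfsg.Agent.H39.SU3.tau hF u)
    have h2 : Nat.card {x : ↥(Cfsg.SU 3 F q) // ∃ g : ↥(Cfsg.SU 3 F q), g * Cfsg.Agent.H39.SU3.tau hF u * g⁻¹ = x} =
        q ^ 2 * (q ^ 2 - q + 1) := by
      rw [← hT]
      apply Nat.card_congr
      apply Equiv.subtypeEquivRight
      intro x
      constructor
      · rintro ⟨g, rfl⟩
        constructor
        · intro h3
          apply ht
          have : Cfsg.Agent.H39.SU3.tau hF u = g⁻¹ * (g * Cfsg.Agent.H39.SU3.tau hF u * g⁻¹) * g := by group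
          rw [this, h3]; group
        · have : g * Cfsg.Agent.H39.SU3.tau hF u * g⁻¹ * (g * Cfsg.Agent.H39.SU3.tau hF u * g⁻¹) =
            g * (Cfsg.Agent.H39.SU3.tau hF u * Cfsg.Agent.H39.SU3.tau hF u) * g⁻¹ := by group
          rw [this, ht2]; group
      · rintro ⟨h3, h4⟩
        exact hconj x h3 h4
    rw [h2, Cfsg.Agent.QDW.card_SU3 hF] at h1
    have hq3 := Cfsg.Agent.H39.SU3.three_le hF hq
    have e1 : q ≤ q ^ 2 := Nat.le_self_pow (by norm_num) q
    have hpos : 0 < q ^ 2 * (q ^ 2 - q + 1) := by positivity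
    apply Nat.eq_of_mul_eq_mul_left hpos
    rw [h1]
    have e2 : 1 ≤ q ^ 2 := by omega
    zify [e1, e2, show 1 ≤ q by omega]
    ring
  · intro x hx hx2 hne hc
    obtain ⟨w, rfl⟩ := Cfsg.Agent.H39.SU3.exists_tau hF hq hx hx2
    exact Cfsg.Agent.H39.SU3.card_third hF hq hne hc

end Cfsg.Agent.S2360
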