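import Cfsg.Statements.S2450
import Cfsg.Agent.H41.SL2

set_option autoImplicit false
open Cfsg

namespace Cfsg.Agent.S2450

open Cfsg.Agent.H41 Polynomial

theorem tr_family {F : Type*} [Field F] (A B : Matrix.SpecialLinearGroup (Fin 2) F) (s : F) :
    tr (A * (mk4 1 s 0 1 (by ring) * B * (mk4 1 s 0 1 (by ring))⁻¹)) =
      (-(A 1 0 * B 1 0)) * s ^ 2 + (A 0 0 * B 1 0 - A 1 0 * B 0 0 + A 1 0 * B 1 1 - A 1 1 * B 1 0) * s +
        (A 0 0 * B 0 0 + A 0 1 * B 1 0 + A 1 0 * B 0 1 + A 1 1 * B 1 1) := by
  simp only [tr, mul_00, mul_01, mul_10, mul_11, inv_00, inv_01, inv_10, inv_11, mk4_00, mk4_01, mk4_10,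
    mk4_11]
  ring

theorem quad_sq_not_const {F : Type*} [Field F] [Fintype F] (h4 : 4 ≤ Fintype.card F)
    (α β γ t : F) (hα : α ≠ 0) (h : ∀ s : F, (α * s ^ 2 + β * s + γ) ^ 2 = t ^ 2) : False := by
  by_cases h2 : ringChar F = 2
  · haveI : CharP F 2 := by rw [← h2]; exact ringChar.charP F
    have h' : ∀ s : F, α * s ^ 2 + β * s + γ = t := fun s => by
      have := h s
      exact CharTwo.sq_injective this
    have hp : (C α * X ^ 2 + C β * X + C (γ - t) : F[X]) = 0 := by
      apply Polynomial.eq_zero_of_natDegree_lt_card_of_eval_eq_zero _ (Function.injective_id (α := F))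
      · intro s
        have := h' s
        simp
        linear_combination this
      · rw [Polynomial.natDegree_quadratic hα]; omega
    have := Polynomial.natDegree_quadratic (b := β) (c := γ - t) hα
    rw [hp] at this
    simp at this
  · have hodd : 5 ≤ Fintype.card F := by
      rcases Nat.lt_or_ge 4 (Fintype.card F) with h | h
      · exact h
      · exfalso
        have h4' : Fintype.card F = 4 := le_antisymm h h4
        apply h2
        have : (4 : F) = 0 := by
          have := Nat.cast_card_eq_zero F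
          rw [h4'] at this
          exact_mod_cast this
        have h22 : (2 : F) = 0 := by
          have : (2 : F) * 2 = 0 := by linear_combination this
          simpa using this
        haveI := ringChar.charP F
        have hd : ringChar F ∣ 2 := (ringChar.spec F 2).mp (by exact_mod_cast h22)
        rcases (Nat.dvd_prime Nat.prime_two).mp hd with h | h
        · exact absurd h (CharP.ringChar_ne_one)
        · exact h
    have hp : ((C α * X ^ 2 + C β * X + C γ) ^ 2 - C (t ^ 2) : F[X]) = 0 := by
      apply Polynomial.eq_zero_of_natDegree_lt_card_of_eval_eq_zero _ (Function.injective_id (α := F))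
      · intro s
        have := h s
        simp
        linear_combination this
      · rw [Polynomial.natDegree_sub_C, Polynomial.natDegree_pow, Polynomial.natDegree_quadratic hα]; omega
    have := congrArg Polynomial.natDegree hp
    rw [Polynomial.natDegree_sub_C, Polynomial.natDegree_pow, Polynomial.natDegree_quadratic hα] at this
    simp at this

/-- The Arad–Herzog conjecture for PSL(2,q): let F be a finite field with q ≥ 4 elements. For any two non-identity elements a, b of PSL(2,F), the set of products of a conjugate of a with a conjugate of b is not a single conjugacy class. -/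
theorem result {F : Type*} [Field F] [Fintype F] (h4 : 4 ≤ Fintype.card F)
    (a b : Matrix.ProjectiveSpecialLinearGroup (Fin 2) F) (ha : a ≠ 1) (hb : b ≠ 1) (c : Matrix.ProjectiveSpecialLinearGroup (Fin 2) F) :
    {g : Matrix.ProjectiveSpecialLinearGroup (Fin 2) F | ∃ u v : Matrix.ProjectiveSpecialLinearGroup (Fin 2) F, g = (u * a * u⁻¹) * (v * b * v⁻¹)} ≠ {g | IsConj c g} := by
  induction a using psl2_ind with
  | h A =>
  induction b using psl2_ind with
  | h B =>
  induction c using psl2_ind with
  | h C =>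
  intro heq
  have hA : A ∉ Subgroup.center (Matrix.SpecialLinearGroup (Fin 2) F) := fun h => ha ((QuotientGroup.eq_one_iff A).mpr h)
  have hB : B ∉ Subgroup.center (Matrix.SpecialLinearGroup (Fin 2) F) := fun h => hb ((QuotientGroup.eq_one_iff B).mpr h)
  obtain ⟨P, hP⟩ := exists_conj_10_ne_zero hA
  obtain ⟨Q, hQ⟩ := exists_conj_10_ne_zero hB
  set A' := P * A * P⁻¹ with hA'
  set B' := Q * B * Q⁻¹ with hB'
  refine quad_sq_not_const h4 (-(A' 1 0 * B' 1 0))
    (A' 0 0 * B' 1 0 - A' 1 0 * B' 0 0 + A' 1 0 * B' 1 1 - A' 1 1 * B' 1 0)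
    (A' 0 0 * B' 0 0 + A' 0 1 * B' 1 0 + A' 1 0 * B' 0 1 + A' 1 1 * B' 1 1) (tr C)
    (neg_ne_zero.mpr (mul_ne_zero hP hQ)) ?_
  intro s
  rw [← tr_family]
  set U := mk4 1 s 0 1 (by ring : (1:F) * 1 - s * 0 = 1)
  have hmem : (QuotientGroup.mk (A' * (U * B' * U⁻¹)) : Matrix.ProjectiveSpecialLinearGroup (Fin 2) F) ∈
      {g : Matrix.ProjectiveSpecialLinearGroup (Fin 2) F | ∃ u v : Matrix.ProjectiveSpecialLinearGroup (Fin 2) F,
        g = (u * QuotientGroup.mk A * u⁻¹) * (v * QuotientGroup.mk B * v⁻¹)} := by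
    refine ⟨QuotientGroup.mk P, QuotientGroup.mk (U * Q), ?_⟩
    rw [← QuotientGroup.mk_inv, ← QuotientGroup.mk_inv, ← QuotientGroup.mk_mul, ← QuotientGroup.mk_mul,
      ← QuotientGroup.mk_mul, ← QuotientGroup.mk_mul, ← QuotientGroup.mk_mul]
    congr 1
    rw [hA', hB']
    group
  rw [heq] at hmem
  obtain ⟨X, hX⟩ := isConj_iff.mp hmem
  induction X using psl2_ind with
  | h X =>
  rw [← QuotientGroup.mk_inv, ← QuotientGroup.mk_mul, ← QuotientGroup.mk_mul, psl2_mk_eq_iff] at hX
  have h1 : tr (X * C * X⁻¹) = tr C := tr_conj C X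
  rcases hX with h | h
  · rw [← h, h1]
  · have h2 : tr (X * C * X⁻¹) = - tr (A' * (U * B' * U⁻¹)) := by rw [h, tr_neg]
    rw [h1] at h2
    rw [h2]; ring

end Cfsg.Agent.S2450
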