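import Cfsg.Statements.S2455
import Cfsg.Agent.H41.SL2Fin

set_option autoImplicit false
open Cfsg

namespace Cfsg.Agent.S2455

open Cfsg.Agent.H41

theorem factor_of_conic {F : Type*} [Field F] (τ : F) (G : Matrix.SpecialLinearGroup (Fin 2) F)
    (hG : G ∉ Subgroup.center (Matrix.SpecialLinearGroup (Fin 2) F))
    (h : ∃ x y : F, x ^ 2 + y ^ 2 - tr G * x * y - τ * x + τ * y + 1 = 0) :
    ∃ A₁ A₂ : Matrix.SpecialLinearGroup (Fin 2) F, tr A₁ = τ ∧ tr A₂ = τ ∧ G = A₁ * A₂ := by
  obtain ⟨d, hd, P, hP⟩ := exists_conj_comp' G hG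
  obtain ⟨A₁, A₂, h1, h2, h3⟩ := exists_factor_of_conic τ (tr G) d hd h
  refine ⟨P * A₁ * P⁻¹, P * A₂ * P⁻¹, by rw [tr_conj, h1], by rw [tr_conj, h2], ?_⟩
  conv_lhs => rw [hP, h3]
  group

/-- A strong covering result in the direction of Thompson's conjecture (non-identity elements) for PSL(2,q), q odd: let F be a finite field of odd characteristic p with at least 5 elements and let x ∈ PSL(2,F) have order greater than 2 and not divisible by p (so x is not unipotent). Then every non-identity element of PSL(2,F) is a product of two conjugates of x. -/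
theorem result {F : Type*} [Field F] [Fintype F] (p : ℕ) [Fact p.Prime] [CharP F p] (hp : p ≠ 2) (h5 : 5 ≤ Fintype.card F)
    (x : Matrix.ProjectiveSpecialLinearGroup (Fin 2) F) (hx2 : 2 < orderOf x) (hxp : ¬ p ∣ orderOf x) : ∀ g : Matrix.ProjectiveSpecialLinearGroup (Fin 2) F, g ≠ 1 → ∃ u v : Matrix.ProjectiveSpecialLinearGroup (Fin 2) F, g = (u * x * u⁻¹) * (v * x * v⁻¹) := by
  intro g hg
  have hpp : p.Prime := Fact.out
  have hpodd : Odd p := hpp.odd_of_ne_two hp
  have h2 : (2 : F) ≠ 0 := by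
    intro h
    have : p ∣ 2 := (CharP.cast_eq_zero_iff F p 2).mp (by exact_mod_cast h)
    exact hp ((Nat.prime_dvd_prime_iff_eq hpp Nat.prime_two).mp this)
  induction x using psl2_ind with
  | h A =>
  induction g using psl2_ind with
  | h G =>
  have hτ0 : tr A ≠ 0 := by
    intro h
    have h3 := mul_self_eq_neg_one_of_tr_eq_zero h
    have h4 : (QuotientGroup.mk A : Matrix.ProjectiveSpecialLinearGroup (Fin 2) F) ^ 2 = 1 := by
      rw [← QuotientGroup.mk_pow, psl2_mk_eq_one_iff, pow_two]
      right; exact h3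
    have h5 := Nat.le_of_dvd (by norm_num) (orderOf_dvd_of_pow_eq_one h4)
    omega
  have hτ4 : tr A ^ 2 ≠ 4 := by
    intro h
    obtain ⟨δ, hδ, hδ'⟩ : ∃ δ : F, δ ^ 2 = 1 ∧ tr A = 2 * δ := by
      have h4 : (tr A - 2) * (tr A + 2) = 0 := by linear_combination h
      rcases mul_eq_zero.mp h4 with h | h
      · exact ⟨1, by ring, by linear_combination h⟩
      · exact ⟨-1, by ring, by linear_combination h⟩
    have h3 := pow_char_of_tr (p := p) A δ hδ hδ'
    have h4 : (QuotientGroup.mk A : Matrix.ProjectiveSpecialLinearGroup (Fin 2) F) ^ p = 1 := by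
      rw [← QuotientGroup.mk_pow, psl2_mk_eq_one_iff]
      have h5 : (δ - 1) * (δ + 1) = 0 := by linear_combination hδ
      rcases mul_eq_zero.mp h5 with h | h
      · left
        have : δ = 1 := by linear_combination h
        apply eq_of_coe
        rw [Matrix.SpecialLinearGroup.coe_pow, h3, this]; simp
      · right
        have : δ = -1 := by linear_combination h
        apply eq_of_coe
        rw [Matrix.SpecialLinearGroup.coe_pow, h3, this, hpodd.neg_one_pow]; simp
    rcases (Nat.dvd_prime hpp).mp (orderOf_dvd_of_pow_eq_one h4) with h | h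
    · omega
    · exact hxp (by rw [h])
  have hG : G ∉ Subgroup.center (Matrix.SpecialLinearGroup (Fin 2) F) :=
    fun h => hg ((QuotientGroup.eq_one_iff G).mpr h)
  have main : ∀ G' : Matrix.SpecialLinearGroup (Fin 2) F, G' ∉ Subgroup.center (Matrix.SpecialLinearGroup (Fin 2) F) →
      tr G' ≠ 2 → ∃ u v : Matrix.SpecialLinearGroup (Fin 2) F, G' = (u * A * u⁻¹) * (v * A * v⁻¹) := by
    intro G' hG' htr
    have hcon : ∃ x y : F, x ^ 2 + y ^ 2 - tr G' * x * y - tr A * x + tr A * y + 1 = 0 := by
      by_cases ht : tr G' ^ 2 = 4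
      · have h4 : (tr G' - 2) * (tr G' + 2) = 0 := by linear_combination ht
        rcases mul_eq_zero.mp h4 with h | h
        · exact absurd (by linear_combination h) htr
        · have : tr G' = -2 := by linear_combination h
          refine ⟨1 / (2 * tr A), -(1 / (2 * tr A)), ?_⟩
          rw [this]
          field_simp
          ring
      · exact exists_conic (tr A) (tr G') ht
    obtain ⟨A₁, A₂, h1, h2, h3⟩ := factor_of_conic (tr A) G' hG' hcon
    obtain ⟨u, hu⟩ := exists_conj_of_tr_eq A A₁ hτ4 h1.symm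
    obtain ⟨v, hv⟩ := exists_conj_of_tr_eq A A₂ hτ4 h2.symm
    exact ⟨u, v, by rw [h3, hu, hv]⟩
  have fin : ∃ G' : Matrix.SpecialLinearGroup (Fin 2) F, G' ∉ Subgroup.center (Matrix.SpecialLinearGroup (Fin 2) F) ∧
      tr G' ≠ 2 ∧ (QuotientGroup.mk G : Matrix.ProjectiveSpecialLinearGroup (Fin 2) F) = QuotientGroup.mk G' := by
    by_cases ht : tr G = 2
    · refine ⟨-G, ?_, ?_, ?_⟩
      · intro h
        apply hG
        rw [mem_center_sl2] at h ⊢
        rcases h with h | h
        · right; rw [← h, neg_neg]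
        · left; rw [← neg_neg G, h, neg_neg]
      · rw [tr_neg, ht]
        intro h
        have : (2 : F) * 2 = 0 := by linear_combination -h
        exact h2 (by simpa using this)
      · rw [psl2_mk_eq_iff]; right; rw [neg_neg]
    · exact ⟨G, hG, ht, rfl⟩
  obtain ⟨G', h1, h2, h3⟩ := fin
  obtain ⟨u, v, h4⟩ := main G' h1 h2
  exact ⟨QuotientGroup.mk u, QuotientGroup.mk v, by rw [h3, h4]; rfl⟩

end Cfsg.Agent.S2455
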