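import Cfsg.Statements.S2456
import Cfsg.Agent.H41.Torus

set_option autoImplicit false
open Cfsg

namespace Cfsg.Agent.S2456

open Cfsg.Agent.H41

theorem factor_of_conic {F : Type*} [Field F] (τ : F) (G : Matrix.SpecialLinearGroup (Fin 2) F)
    (hG : G ∉ Subgroup.center (Matrix.SpecialLinearGroup (Fin 2) F))
    (h : ∃ x y : F, x ^ 2 + y ^ 2 - tr G * x * y - τ * x + τ * y + 1 = 0) :
    ∃ A₁ A₂ : Matrix.SpecialLinearGroup (Fin 2) F, tr A₁ = τ ∧ tr A₂ = τ ∧ G = A₁ * A₂ := by
  obtain ⟨d, hd, P, hP⟩ := exists_conj_comp' G hG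
  obtain ⟨A₁, A₂, h1, h2, h3⟩ := exists_factor_of_conic τ (tr G) d hd h
  refine ⟨P * A₁ * P⁻¹, P * A₂ * P⁻¹, by rw [tr_conj, h1], by rw [tr_conj, h2], ?_⟩
  conv_lhs => rw [hP, h3]
  group

/-- A strong covering result in the direction of Thompson's conjecture (non-identity elements) for PSL(2,q), q even: let F be a finite field of characteristic 2 with q ≥ 4 elements and let x ∈ PSL(2,F) have order greater than 2 and not dividing q + 1. Then every non-identity element of PSL(2,F) is a product of two conjugates of x. -/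
theorem result {F : Type*} [Field F] [Fintype F] [CharP F 2] (h4 : 4 ≤ Fintype.card F)
    (x : Matrix.ProjectiveSpecialLinearGroup (Fin 2) F) (hx2 : 2 < orderOf x) (hxq : ¬ orderOf x ∣ Fintype.card F + 1) : ∀ g : Matrix.ProjectiveSpecialLinearGroup (Fin 2) F, g ≠ 1 → ∃ u v : Matrix.ProjectiveSpecialLinearGroup (Fin 2) F, g = (u * x * u⁻¹) * (v * x * v⁻¹) := by
  intro g hg
  have h20 : (2 : F) = 0 := CharTwo.two_eq_zero
  have h40 : (4 : F) = 0 := by linear_combination 2 * h20
  induction x using psl2_ind with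
  | h A =>
  induction g using psl2_ind with
  | h G =>
  have hτ0 : tr A ≠ 0 := by
    intro h
    have h3 := mul_self_eq_neg_one_of_tr_eq_zero h
    have h4 : (QuotientGroup.mk A : Matrix.ProjectiveSpecialLinearGroup (Fin 2) F) ^ 2 = 1 := by
      rw [← QuotientGroup.mk_pow, psl2_mk_eq_one_iff, pow_two]
      right; exact h3
    have h5 := Nat.le_of_dvd (by norm_num) (orderOf_dvd_of_pow_eq_one h4)
    omega
  have hτ4 : tr A ^ 2 ≠ 4 := by
    rw [h40]; exact pow_ne_zero 2 hτ0
  have hroot : ∃ a : F, a ^ 2 - tr A * a + 1 = 0 := by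
    by_contra hcon
    push Not at hcon
    have h1 := pow_card_succ_of_noEig A hcon
    apply hxq
    rw [← Nat.card_eq_fintype_card]
    apply orderOf_dvd_of_pow_eq_one
    rw [← QuotientGroup.mk_pow, h1]; rfl
  have hG : G ∉ Subgroup.center (Matrix.SpecialLinearGroup (Fin 2) F) :=
    fun h => hg ((QuotientGroup.eq_one_iff G).mpr h)
  have hcon : ∃ x y : F, x ^ 2 + y ^ 2 - tr G * x * y - tr A * x + tr A * y + 1 = 0 := by
    by_cases ht : tr G ^ 2 = 4
    · have h5 : tr G = 0 := by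
        rw [h40] at ht
        exact pow_eq_zero_iff (two_ne_zero) |>.mp ht
      obtain ⟨a, ha⟩ := hroot
      refine ⟨a, 0, ?_⟩
      rw [h5]
      linear_combination ha
    · exact exists_conic (tr A) (tr G) ht
  obtain ⟨A₁, A₂, h1, h2, h3⟩ := factor_of_conic (tr A) G hG hcon
  obtain ⟨u, hu⟩ := exists_conj_of_tr_eq A A₁ hτ4 h1.symm
  obtain ⟨v, hv⟩ := exists_conj_of_tr_eq A A₂ hτ4 h2.symm
  exact ⟨QuotientGroup.mk u, QuotientGroup.mk v, by rw [h3, hu, hv]; rfl⟩

end Cfsg.Agent.S2456
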