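import Cfsg.Statements.S2459
import Cfsg.Agent.H41.SourourSL
import Cfsg.Agent.H41.L33

set_option autoImplicit false
open Cfsg

namespace Cfsg.Agent.S2459

open Cfsg.Agent.H41 Matrix

/-- every nonscalar matrix of `SL(3,F)` can be moved to have first column `e₂`. -/
theorem exists_conj_nf {F : Type*} [Field F] (A : Matrix.SpecialLinearGroup (Fin 3) F)
    (hA : Nonscalar (A : Matrix (Fin 3) (Fin 3) F)) :
    ∃ (P N : Matrix.SpecialLinearGroup (Fin 3) F), A = P * N * P⁻¹ ∧ (N : Matrix (Fin 3) (Fin 3) F) 0 0 = 0 ∧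
      (N : Matrix (Fin 3) (Fin 3) F) 1 0 = 1 ∧ (N : Matrix (Fin 3) (Fin 3) F) 2 0 = 0 := by
  -- a vector which is not an eigenvector
  obtain ⟨v, hv⟩ : ∃ v : Fin 3 → F, LinearIndependent F ![v, (A : Matrix (Fin 3) (Fin 3) F) *ᵥ v] := by
    by_contra hcon
    push Not at hcon
    have h1 : ∀ v : Fin 3 → F, ∃ c : F, (A : Matrix (Fin 3) (Fin 3) F) *ᵥ v = c • v := by
      intro v
      by_cases hv0 : v = 0
      · subst hv0; exact ⟨0, by simp⟩
      · have := hcon v
        rw [LinearIndependent.pair_iff' hv0] at this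
        push Not at this
        obtain ⟨a, ha⟩ := this
        exact ⟨a, ha.symm⟩
    have h2 : ∀ v : Fin 3 → F, ∃ c : F, Matrix.mulVecLin (A : Matrix (Fin 3) (Fin 3) F) v = c • v := h1
    obtain ⟨c, hc⟩ : ∃ c : F, ∀ v : Fin 3 → F, (A : Matrix (Fin 3) (Fin 3) F) *ᵥ v = c • v := by
      choose f hf using h1
      refine ⟨f (fun _ => 1), fun v => ?_⟩
      have he : ∀ i, f (Pi.single i 1) = f (fun _ => 1) := by
        intro i
        have h3 : (fun _ => 1 : Fin 3 → F) = Pi.single 0 1 + Pi.single 1 1 + Pi.single 2 1 := by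
          ext j; fin_cases j <;> simp
        have h4 := hf (fun _ => 1)
        conv_lhs at h4 => rw [h3, Matrix.mulVec_add, Matrix.mulVec_add, hf, hf, hf]
        have h5 := congrFun h4 i
        fin_cases i <;> simpa using h5
      have h6 : v = ∑ i, v i • (Pi.single i 1 : Fin 3 → F) := by
        ext j
        simp [Finset.sum_apply, Pi.single_apply]
      conv_lhs => rw [h6, Matrix.mulVec_sum]
      conv_rhs => rw [h6]
      rw [Finset.smul_sum]
      refine Finset.sum_congr rfl fun i _ => ?_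
      rw [Matrix.mulVec_smul, hf, he, smul_comm]
    apply hA c
    ext i j
    have := congrFun (hc (Pi.single j 1)) i
    simpa [Matrix.mulVec_single, Matrix.one_apply, Pi.single_apply] using this
  -- complete to a basis
  obtain ⟨w, hw⟩ : ∃ w : Fin 3 → F, w ∉ Submodule.span F (Set.range ![v, (A : Matrix (Fin 3) (Fin 3) F) *ᵥ v]) := by
    by_contra hcon
    push Not at hcon
    have h1 : Submodule.span F (Set.range ![v, (A : Matrix (Fin 3) (Fin 3) F) *ᵥ v]) = ⊤ := by
      rw [eq_top_iff]; intro x _; exact hcon x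
    have h2 := finrank_span_eq_card hv
    rw [h1] at h2
    simp at h2
  have hli : LinearIndependent F (Fin.snoc ![v, (A : Matrix (Fin 3) (Fin 3) F) *ᵥ v] w : Fin 3 → Fin 3 → F) :=
    hv.finSnoc hw
  set P0 : Matrix (Fin 3) (Fin 3) F := Matrix.of fun i j => (Fin.snoc ![v, (A : Matrix (Fin 3) (Fin 3) F) *ᵥ v] w : Fin 3 → Fin 3 → F) j i with hP0
  have hP0u : IsUnit P0 := by
    rw [← Matrix.linearIndependent_cols_iff_isUnit]
    exact hli
  have hd0 : P0.det ≠ 0 := ((Matrix.isUnit_iff_isUnit_det _).mp hP0u).ne_zero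
  set P1 : Matrix (Fin 3) (Fin 3) F := P0 * diagonal ![1, 1, (P0.det)⁻¹] with hP1
  have hP1d : P1.det = 1 := by
    rw [hP1, det_mul, det_diagonal, Fin.prod_univ_three]
    simp [hd0]
  have hc0 : ∀ i, P1 i 0 = v i := by
    intro i
    rw [hP1, Matrix.mul_diagonal]
    simp [hP0, Fin.snoc]
  have hc1 : ∀ i, P1 i 1 = ((A : Matrix (Fin 3) (Fin 3) F) *ᵥ v) i := by
    intro i
    rw [hP1, Matrix.mul_diagonal]
    simp [hP0, Fin.snoc]
  let P : Matrix.SpecialLinearGroup (Fin 3) F := ⟨P1, hP1d⟩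
  refine ⟨P, P⁻¹ * A * P, by group, ?_⟩
  have h3 : ∀ i, ((P⁻¹ * A * P : Matrix.SpecialLinearGroup (Fin 3) F) : Matrix (Fin 3) (Fin 3) F) i 0 = (1 : Matrix (Fin 3) (Fin 3) F) i 1 := by
    intro i
    have h4 : ((P⁻¹ * A * P : Matrix.SpecialLinearGroup (Fin 3) F) : Matrix (Fin 3) (Fin 3) F) *ᵥ (Pi.single 0 1) =
        (1 : Matrix (Fin 3) (Fin 3) F) *ᵥ (Pi.single 1 1) := by
      rw [Matrix.SpecialLinearGroup.coe_mul, Matrix.SpecialLinearGroup.coe_mul, ← Matrix.mulVec_mulVec, ← Matrix.mulVec_mulVec]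
      have h5 : (P : Matrix (Fin 3) (Fin 3) F) *ᵥ (Pi.single 0 1) = v := by
        ext j
        rw [Matrix.mulVec_single]
        simp
        exact hc0 j
      have h6 : (P : Matrix (Fin 3) (Fin 3) F) *ᵥ (Pi.single 1 1) = (A : Matrix (Fin 3) (Fin 3) F) *ᵥ v := by
        ext j
        rw [Matrix.mulVec_single]
        simp
        exact hc1 j
      rw [h5, ← h6, Matrix.mulVec_mulVec, ← Matrix.SpecialLinearGroup.coe_mul, inv_mul_cancel]
      rfl
    have := congrFun h4 i
    rw [Matrix.mulVec_single, Matrix.mulVec_single] at this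
    simpa using this
  exact ⟨by rw [h3]; rfl, by rw [h3]; simp, by rw [h3]; rfl⟩

/-- The case of three elements, in `SL`. -/
theorem sl33 : ∃ x : Matrix.SpecialLinearGroup (Fin 3) (ZMod 3), x ^ 13 = 1 ∧
    ∀ A : Matrix.SpecialLinearGroup (Fin 3) (ZMod 3), Nonscalar (A : Matrix (Fin 3) (Fin 3) (ZMod 3)) →
      ∃ u v : Matrix.SpecialLinearGroup (Fin 3) (ZMod 3), A = (u * x * u⁻¹) * (v * x * v⁻¹) := by
  let x : Matrix.SpecialLinearGroup (Fin 3) (ZMod 3) := ⟨m33 2466, m33_2466_det⟩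
  refine ⟨x, Subtype.ext ?_, ?_⟩
  · exact m33_2466_pow
  · intro A hA
    obtain ⟨P, N, hPN, h0, h1, h2⟩ := exists_conj_nf A hA
    have hN : (N : Matrix (Fin 3) (Fin 3) (ZMod 3)) = nf33 ((N : Matrix (Fin 3) (Fin 3) (ZMod 3)) 0 1)
        ((N : Matrix (Fin 3) (Fin 3) (ZMod 3)) 0 2) ((N : Matrix (Fin 3) (Fin 3) (ZMod 3)) 1 1)
        ((N : Matrix (Fin 3) (Fin 3) (ZMod 3)) 1 2) ((N : Matrix (Fin 3) (Fin 3) (ZMod 3)) 2 1)
        ((N : Matrix (Fin 3) (Fin 3) (ZMod 3)) 2 2) := by
      ext i j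
      fin_cases i <;> fin_cases j <;> simp [nf33, h0, h1, h2]
    obtain ⟨t, ht, htN⟩ := tbl33_complete _ _ _ _ _ _ (hN ▸ N.2)
    rw [← hN] at htN
    obtain ⟨hB1, ⟨hB2, hB3⟩, hC2, hC3⟩ := tbl33_check t ht
    let u : Matrix.SpecialLinearGroup (Fin 3) (ZMod 3) := ⟨m33 t.2.2.1, hB3⟩
    let v : Matrix.SpecialLinearGroup (Fin 3) (ZMod 3) := ⟨m33 t.2.2.2.2, hC3⟩
    have hu : m33 t.2.1 = ((u * x * u⁻¹ : Matrix.SpecialLinearGroup (Fin 3) (ZMod 3)) : Matrix (Fin 3) (Fin 3) (ZMod 3)) := by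
      have h5 : m33 t.2.1 * (u : Matrix (Fin 3) (Fin 3) (ZMod 3)) = (u : Matrix (Fin 3) (Fin 3) (ZMod 3)) * (x : Matrix (Fin 3) (Fin 3) (ZMod 3)) := hB2
      rw [Matrix.SpecialLinearGroup.coe_mul, Matrix.SpecialLinearGroup.coe_mul, ← h5, mul_assoc,
        ← Matrix.SpecialLinearGroup.coe_mul, mul_inv_cancel, Matrix.SpecialLinearGroup.coe_one, mul_one]
    have hv : m33 t.2.2.2.1 = ((v * x * v⁻¹ : Matrix.SpecialLinearGroup (Fin 3) (ZMod 3)) : Matrix (Fin 3) (Fin 3) (ZMod 3)) := by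
      have h5 : m33 t.2.2.2.1 * (v : Matrix (Fin 3) (Fin 3) (ZMod 3)) = (v : Matrix (Fin 3) (Fin 3) (ZMod 3)) * (x : Matrix (Fin 3) (Fin 3) (ZMod 3)) := hC2
      rw [Matrix.SpecialLinearGroup.coe_mul, Matrix.SpecialLinearGroup.coe_mul, ← h5, mul_assoc,
        ← Matrix.SpecialLinearGroup.coe_mul, mul_inv_cancel, Matrix.SpecialLinearGroup.coe_one, mul_one]
    have hNN : N = (u * x * u⁻¹) * (v * x * v⁻¹) := by
      apply Subtype.ext
      rw [Matrix.SpecialLinearGroup.coe_mul, ← hu, ← hv, ← hB1, htN]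
    refine ⟨P * u, P * v, ?_⟩
    rw [hPN, hNN]
    group

theorem aux {F : Type*} [Field F] [Fintype F] (p : ℕ) [Fact p.Prime] [CharP F p] (h3 : 3 ≤ Fintype.card F) :
    ∃ (x : Matrix.SpecialLinearGroup (Fin 3) F) (m : ℕ), x ^ m = 1 ∧ ¬ p ∣ m ∧
      ∀ A : Matrix.SpecialLinearGroup (Fin 3) F, Nonscalar (A : Matrix (Fin 3) (Fin 3) F) →
      ∃ u v : Matrix.SpecialLinearGroup (Fin 3) F, A = (u * x * u⁻¹) * (v * x * v⁻¹) := by
  classical
  have hp : p.Prime := Fact.out
  by_cases h4 : Fintype.card F = 3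
  · have hp3 : p = 3 := by
      obtain ⟨n, hn⟩ := FiniteField.card F p
      rw [h4] at hn
      have : p ∣ 3 := by rw [hn.2]; exact dvd_pow_self p n.ne_zero
      exact (Nat.prime_dvd_prime_iff_eq hp Nat.prime_three).mp this
    let φ : ZMod 3 ≃+* F := ZMod.ringEquivOfPrime F Nat.prime_three h4
    let Φ : Matrix.SpecialLinearGroup (Fin 3) (ZMod 3) →* Matrix.SpecialLinearGroup (Fin 3) F :=
      Matrix.SpecialLinearGroup.map φ.toRingHom
    let Ψ : Matrix.SpecialLinearGroup (Fin 3) F →* Matrix.SpecialLinearGroup (Fin 3) (ZMod 3) :=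
      Matrix.SpecialLinearGroup.map φ.symm.toRingHom
    have hΦΨ : ∀ A, Φ (Ψ A) = A := by
      intro A
      apply Subtype.ext
      ext i j
      exact φ.apply_symm_apply _
    obtain ⟨x, hx, hall⟩ := sl33
    refine ⟨Φ x, 13, by rw [← map_pow, hx, map_one], by rw [hp3]; norm_num, ?_⟩
    intro A hA
    have hns : Nonscalar ((Ψ A : Matrix.SpecialLinearGroup (Fin 3) (ZMod 3)) : Matrix (Fin 3) (Fin 3) (ZMod 3)) := by
      intro c hc
      apply hA (φ c)
      ext i j
      have h5 : (A : Matrix (Fin 3) (Fin 3) F) i j = φ (((Ψ A : Matrix.SpecialLinearGroup (Fin 3) (ZMod 3)) : Matrix (Fin 3) (Fin 3) (ZMod 3)) i j) :=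
        (φ.apply_symm_apply _).symm
      rw [h5, hc]
      simp only [Matrix.smul_apply, Matrix.one_apply, smul_eq_mul]
      split_ifs <;> simp
    obtain ⟨u, v, huv⟩ := hall (Ψ A) hns
    refine ⟨Φ u, Φ v, ?_⟩
    rw [← hΦΨ A, huv]
    simp only [map_mul, map_inv]
  · -- at least four elements
    obtain ⟨l, hl⟩ : ∃ l : Fˣ, l ≠ 1 ∧ l ≠ -1 := by
      by_contra hcon
      push Not at hcon
      have h5 : (Finset.univ : Finset Fˣ) ⊆ {1, -1} := by
        intro l _
        rw [Finset.mem_insert, Finset.mem_singleton]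
        by_cases h6 : l = 1
        · exact Or.inl h6
        · exact Or.inr (hcon l h6)
      have h6 := Finset.card_le_card h5
      rw [Finset.card_univ, Fintype.card_units] at h6
      have h7 := Finset.card_le_two (a := (1 : Fˣ)) (b := -1)
      omega
    have hl1 : (l : F) ≠ 1 := fun h => hl.1 (Units.ext h)
    have hl2 : (l : F) ≠ -1 := fun h => hl.2 (Units.ext h)
    have hl0 : (l : F) ≠ 0 := l.ne_zero
    set β : Fin 3 → F := ![1, l, (l : F)⁻¹] with hβ
    have hβinj : Function.Injective β := by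
      have h8 : (l : F) ≠ (l : F)⁻¹ := by
        intro h
        have h9 : (l : F) ^ 2 = 1 := by rw [sq]; nth_rw 2 [h]; exact mul_inv_cancel₀ hl0
        rcases sq_eq_one_iff.mp h9 with h | h
        · exact hl1 h
        · exact hl2 h
      have h10 : (1 : F) ≠ (l : F)⁻¹ := by
        intro h
        apply hl1
        rw [← inv_inv (l : F), ← h, inv_one]
      intro i j hij
      fin_cases i <;> fin_cases j <;> simp [hβ] at hij ⊢ <;>
        first
          | exact hl1 hij | exact hl1 hij.symm | exact hl.1 hij | exact hl.1 hij.symm | exact h8 hij | exact h8 hij.symm | exact h10 hij | exact h10 hij.symm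
    have hprod : ∏ i, β i = 1 := by
      rw [Fin.prod_univ_three]
      simp [hβ, hl0]
    let x : Matrix.SpecialLinearGroup (Fin 3) F := ⟨diagonal β, by rw [det_diagonal, hprod]⟩
    have hxcp : (x : Matrix (Fin 3) (Fin 3) F).charpoly = ∏ i, (Polynomial.X - Polynomial.C (β i)) := by
      exact Matrix.charpoly_diagonal β
    refine ⟨x, Fintype.card F - 1, ?_, ?_, ?_⟩
    · apply Subtype.ext
      rw [Matrix.SpecialLinearGroup.coe_pow]
      change (diagonal β) ^ _ = 1
      rw [Matrix.diagonal_pow, ← Matrix.diagonal_one]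
      congr 1
      ext i
      have hβ0 : β i ≠ 0 := by
        intro h
        rw [Finset.prod_eq_zero (Finset.mem_univ i) h] at hprod
        exact zero_ne_one hprod
      exact FiniteField.pow_card_sub_one_eq_one _ hβ0
    · intro hdvd
      have h11 : p ∣ Fintype.card F := by
        obtain ⟨n, hn⟩ := FiniteField.card F p
        rw [hn.2]; exact dvd_pow_self p n.ne_zero
      have h12 : p ∣ 1 := by
        have := Nat.dvd_sub h11 hdvd
        rwa [show Fintype.card F - (Fintype.card F - 1) = 1 by omega] at this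
      exact hp.one_lt.ne' (Nat.dvd_one.mp h12)
    · intro A hA
      obtain ⟨B, C, hBC, hB, hC⟩ := sourour_sl A hA β β hprod hprod
      obtain ⟨u, hu⟩ := sl_conj_of_charpoly β hβinj x B hxcp hB
      obtain ⟨v, hv⟩ := sl_conj_of_charpoly β hβinj x C hxcp hC
      exact ⟨u, v, by rw [hBC, hu, hv]⟩

/-- A form of Thompson's conjecture for PSL(3,q), q > 2 (covering the non-identity elements), with a semisimple class: for F a finite field of characteristic p with more than 2 elements there is an element x of PSL(3,F) of order prime to p such that every non-identity element of PSL(3,F) is a product of two conjugates of x. -/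
theorem result {F : Type*} [Field F] [Fintype F] (p : ℕ) [Fact p.Prime] [CharP F p] (h3 : 3 ≤ Fintype.card F) :
    ∃ x : Matrix.ProjectiveSpecialLinearGroup (Fin 3) F, ¬ p ∣ orderOf x ∧ ∀ g : Matrix.ProjectiveSpecialLinearGroup (Fin 3) F, g ≠ 1 → ∃ u v : Matrix.ProjectiveSpecialLinearGroup (Fin 3) F, g = (u * x * u⁻¹) * (v * x * v⁻¹) := by
  obtain ⟨x, m, hxm, hpm, hall⟩ := aux p h3
  let π : Matrix.SpecialLinearGroup (Fin 3) F →* Matrix.ProjectiveSpecialLinearGroup (Fin 3) F := QuotientGroup.mk' _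
  refine ⟨π x, ?_, ?_⟩
  · intro hdvd
    apply hpm
    apply hdvd.trans
    apply orderOf_dvd_of_pow_eq_one
    rw [← map_pow, hxm, map_one]
  · intro g hg
    obtain ⟨A, rfl⟩ := QuotientGroup.mk'_surjective _ g
    have hA : A ∉ Subgroup.center (Matrix.SpecialLinearGroup (Fin 3) F) := by
      intro h
      apply hg
      exact (QuotientGroup.eq_one_iff A).mpr h
    obtain ⟨u, v, huv⟩ := hall A (nonscalar_of_notMem_center A hA)
    refine ⟨π u, π v, ?_⟩
    change π A = _
    rw [huv]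
    simp only [map_mul, map_inv]

end Cfsg.Agent.S2459
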