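import Cfsg.Statements.S2460
import Cfsg.Agent.H41.Sp4

set_option autoImplicit false
set_option linter.unusedSimpArgs false
open Cfsg

namespace Cfsg.Agent.S2460

open Cfsg.Agent.H41 Matrix

variable {F : Type*} [Field F]

theorem comp_pow (τ δ : F) (m : ℕ) : ∃ u v : F, (!![0, -δ; 1, τ] : Matrix (Fin 2) (Fin 2) F) ^ m =
    u • (1 : Matrix (Fin 2) (Fin 2) F) + v • !![0, -δ; 1, τ] := by
  induction m with
  | zero => exact ⟨1, 0, by simp⟩
  | succ m ih =>
    obtain ⟨u, v, h⟩ := ih
    refine ⟨-(v * δ), u + v * τ, ?_⟩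
    rw [pow_succ, h, add_mul, smul_mul_assoc, smul_mul_assoc, one_mul]
    ext i j
    fin_cases i <;> fin_cases j <;> simp [Matrix.mul_apply, Fin.sum_univ_two] <;> ring

theorem xel_pow (τ δ : F) (hδ : δ ≠ 0) (m : ℕ) :
    ((xel τ δ hδ ^ m : symplecticGroup (Fin 2) F) : Matrix (Fin 2 ⊕ Fin 2) (Fin 2 ⊕ Fin 2) F) =
      fromBlocks (!![0, -δ; 1, τ] ^ m) 0 0 (!![τ / δ, -δ⁻¹; 1, 0] ^ m) := by
  induction m with
  | zero => simp
  | succ m ih =>
    rw [pow_succ, Submonoid.coe_mul, ih]
    change _ * fromBlocks !![0, -δ; 1, τ] 0 0 !![τ / δ, -δ⁻¹; 1, 0] = _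
    rw [fromBlocks_multiply]
    simp [pow_succ]

theorem xel_order (p : ℕ) [Fact p.Prime] [CharP F p] [Finite F] (τ δ : F) (hδ : δ ≠ 0) (h4 : τ ^ 2 ≠ 4 * δ) :
    ¬ p ∣ orderOf (xel τ δ hδ) := by
  intro hdvd
  have hp : p.Prime := Fact.out
  have : Finite (symplecticGroup (Fin 2) F) := by infer_instance
  obtain ⟨m, hm⟩ : ∃ m : ℕ, orderOf (xel τ δ hδ ^ m) = p := by
    refine ⟨orderOf (xel τ δ hδ) / p, ?_⟩
    have hpos : orderOf (xel τ δ hδ) ≠ 0 := (orderOf_pos _).ne'
    rw [orderOf_pow_of_dvd (Nat.div_pos (Nat.le_of_dvd (Nat.pos_of_ne_zero hpos) hdvd) hp.pos).ne' (Nat.div_dvd_of_dvd hdvd)]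
    exact Nat.div_div_self hdvd hpos
  have hpow : (xel τ δ hδ ^ m) ^ p = 1 := by rw [← hm]; exact pow_orderOf_eq_one _
  obtain ⟨u, v, huv⟩ := comp_pow τ δ m
  set b : Matrix (Fin 2) (Fin 2) F := !![0, -δ; 1, τ] with hb
  have hbp : (b ^ m) ^ p = 1 := by
    have h1 := congrArg (fun y : symplecticGroup (Fin 2) F => (y : Matrix (Fin 2 ⊕ Fin 2) (Fin 2 ⊕ Fin 2) F)) hpow
    simp only [Submonoid.coe_one] at h1
    rw [← pow_mul, xel_pow] at h1
    rw [← pow_mul]
    have h2 := congrArg Matrix.toBlocks₁₁ h1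
    rw [toBlocks_fromBlocks₁₁] at h2
    rw [h2, ← fromBlocks_one, toBlocks_fromBlocks₁₁]
  -- nilpotent
  have hnil : (b ^ m - 1) ^ p = 0 := by
    rw [sub_pow_char_of_commute p (Commute.one_right _), hbp, one_pow, sub_self]
  have heq : b ^ m - 1 = (u - 1) • (1 : Matrix (Fin 2) (Fin 2) F) + v • b := by
    rw [huv, sub_smul, one_smul]; abel
  have htr : (b ^ m - 1).trace = 0 := by
    have := Matrix.isNilpotent_trace_of_isNilpotent (M := b ^ m - 1) ⟨p, hnil⟩
    exact this.eq_zero
  have hdet : (b ^ m - 1).det = 0 := by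
    have := congrArg Matrix.det hnil
    rw [Matrix.det_pow, Matrix.det_zero] at this
    exact pow_eq_zero_iff hp.ne_zero |>.mp this
  rw [heq, Matrix.trace_fin_two] at htr
  rw [heq, Matrix.det_fin_two] at hdet
  simp [hb] at htr hdet
  have hv : v = 0 := by
    have h5 : v ^ 2 * (τ ^ 2 - 4 * δ) = 0 := by
      linear_combination (2 * (u - 1) + v * τ) * htr - 4 * hdet
    rcases mul_eq_zero.mp h5 with h | h
    · exact pow_eq_zero_iff (two_ne_zero) |>.mp h
    · exact absurd (sub_eq_zero.mp h) h4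
  have hu : u - 1 = 0 := by
    rw [hv] at hdet
    have h6 : (u - 1) ^ 2 = 0 := by linear_combination hdet
    exact pow_eq_zero_iff (two_ne_zero) |>.mp h6
  have hb1 : b ^ m = 1 := by
    rw [← sub_eq_zero, heq, hu, hv]; simp
  have hx1 : xel τ δ hδ ^ m = 1 := by
    apply Subtype.ext
    have hmem := (xel τ δ hδ ^ m).2
    rw [xel_pow, hb1, SymplecticGroup.fromBlocks_mem_iff] at hmem
    have h7 := hmem.2.2
    simp only [transpose_one, one_mul, transpose_zero, zero_mul, sub_zero] at h7
    rw [xel_pow, hb1, h7, Submonoid.coe_one, fromBlocks_one]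
  rw [hx1, orderOf_one] at hm
  exact hp.one_lt.ne hm

/-- choice of `δ` -/
theorem exists_delta [Fintype F] (h3 : 3 ≤ Fintype.card F) :
    ∃ δ : F, δ ≠ 0 ∧ δ ≠ 1 ∧ (δ + 1) ^ 2 ≠ 1 ^ 2 ∧ (1 : F) ^ 2 ≠ 4 * δ ∧ (δ ^ 2 ≠ 1 ∨ (δ = -1 ∧ (2 : F) ≠ 0)) := by
  classical
  have hcard : ∀ s : Finset F, s.card < Fintype.card F → ∃ x, x ∉ s := by
    intro s hs
    by_contra hcon
    push Not at hcon
    rw [Finset.eq_univ_iff_forall.mpr hcon, Finset.card_univ] at hs
    exact lt_irrefl _ hs
  by_cases h2 : (2 : F) = 0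
  · obtain ⟨δ, hδ⟩ := hcard {0, 1} (lt_of_le_of_lt Finset.card_le_two (by omega))
    simp only [Finset.mem_insert, Finset.mem_singleton, not_or] at hδ
    refine ⟨δ, hδ.1, hδ.2, ?_, ?_, Or.inl ?_⟩
    · intro h
      apply hδ.1
      have : δ ^ 2 = 0 := by linear_combination h - δ * h2
      exact pow_eq_zero_iff (two_ne_zero) |>.mp this
    · intro h
      have : (1 : F) = 0 := by linear_combination h + 2 * δ * h2
      exact one_ne_zero this
    · intro h
      apply hδ.2
      have : (δ - 1) ^ 2 = 0 := by linear_combination h + (1 - δ) * h2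
      exact sub_eq_zero.mp (pow_eq_zero_iff (two_ne_zero) |>.mp this)
  · have hzero : ((Fintype.card F : ℕ) : F) = 0 := by
      obtain ⟨q, hq⟩ := CharP.exists F
      have := FiniteField.cast_card_eq_zero F
      exact this
    rcases Nat.lt_or_ge (Fintype.card F) 6 with h6 | h6
    · have h345 : Fintype.card F = 3 ∨ Fintype.card F = 4 ∨ Fintype.card F = 5 := by omega
      rcases h345 with h | h | h
      · rw [h] at hzero
        have h30 : (3 : F) = 0 := by exact_mod_cast hzero
        refine ⟨-1, by simp, ?_, ?_, ?_, Or.inr ⟨rfl, h2⟩⟩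
        · intro h; apply h2; linear_combination -h
        · intro h; apply one_ne_zero (α := F); linear_combination -h
        · intro h; apply h2; linear_combination h - h30
      · exfalso
        apply h2
        rw [h] at hzero
        have h40 : (2 : F) * 2 = 0 := by
          have : ((4 : ℕ) : F) = 0 := hzero
          push_cast at this
          linear_combination this
        rcases mul_eq_zero.mp h40 with h | h <;> exact h
      · rw [h] at hzero
        have h50 : (5 : F) = 0 := by exact_mod_cast hzero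
        have h30 : (3 : F) ≠ 0 := by
          intro h3'
          apply h2
          linear_combination h50 - h3'
        refine ⟨2, h2, ?_, ?_, ?_, Or.inl ?_⟩
        · intro h; apply one_ne_zero (α := F); linear_combination h
        · intro h
          have : (3 : F) = 0 := by linear_combination h - h50
          exact h30 this
        · intro h
          have : (2 : F) = 0 := by linear_combination -h - h50
          exact h2 this
        · intro h
          have : (3 : F) = 0 := by linear_combination h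
          exact h30 this
    · obtain ⟨δ, hδ⟩ := hcard {0, 1, -1, -2, 4⁻¹} (lt_of_le_of_lt (Finset.card_le_five) (by omega))
      simp only [Finset.mem_insert, Finset.mem_singleton, not_or] at hδ
      obtain ⟨g0, g1, g2, g3, g4⟩ := hδ
      refine ⟨δ, g0, g1, ?_, ?_, Or.inl ?_⟩
      · intro h
        have h5 : δ * (δ + 2) = 0 := by linear_combination h
        rcases mul_eq_zero.mp h5 with h | h
        · exact g0 h
        · exact g3 (by linear_combination h)
      · intro h
        apply g4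
        have h5 : δ * 4 = 1 := by linear_combination -h
        exact eq_inv_of_mul_eq_one_left h5
      · intro h
        have h5 : (δ - 1) * (δ + 1) = 0 := by linear_combination h
        rcases mul_eq_zero.mp h5 with h | h
        · exact g1 (by linear_combination h)
        · exact g2 (by linear_combination h)

/-- A form of Thompson's conjecture for the simple groups PSp(4,q), q ≥ 3 (covering the non-identity elements), with a semisimple class: for F a finite field of characteristic p with at least 3 elements there is an element x of PSp(4,F) of order prime to p such that every non-identity element of PSp(4,F) is a product of two conjugates of x. -/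
theorem result {F : Type*} [Field F] [Fintype F] (p : ℕ) [Fact p.Prime] [CharP F p] (h3 : 3 ≤ Fintype.card F) :
    ∃ x : Cfsg.PSp 2 F, ¬ p ∣ orderOf x ∧ ∀ g : Cfsg.PSp 2 F, g ≠ 1 → ∃ u v : Cfsg.PSp 2 F, g = (u * x * u⁻¹) * (v * x * v⁻¹) := by
  obtain ⟨δ, hδ, h1, h2, h4, hcond⟩ := exists_delta (F := F) h3
  let π : symplecticGroup (Fin 2) F →* Cfsg.PSp 2 F := QuotientGroup.mk' _
  refine ⟨π (xel 1 δ hδ), ?_, ?_⟩
  · intro hdvd
    exact xel_order p 1 δ hδ h4 (hdvd.trans (orderOf_map_dvd π _))
  · intro g hg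
    obtain ⟨A, rfl⟩ := QuotientGroup.mk'_surjective _ g
    have hA : A ∉ Subgroup.center (symplecticGroup (Fin 2) F) := by
      intro h
      apply hg
      exact (QuotientGroup.eq_one_iff A).mpr h
    obtain ⟨B, C, hBC, hB, hC⟩ := sp4_main hδ h1 h2 one_ne_zero hcond A hA
    obtain ⟨u, hu⟩ := isConj_iff.mp hB
    obtain ⟨v, hv⟩ := isConj_iff.mp hC
    refine ⟨π u, π v, ?_⟩
    change π A = _
    have hneg : π (negSp A) = π A := by
      change (QuotientGroup.mk (negSp A) : Cfsg.PSp 2 F) = QuotientGroup.mk A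
      rw [QuotientGroup.eq, Cfsg.Agent.ClassSp.mem_center_iff]
      refine ⟨-1, by ring, fun w => ?_⟩
      rw [Cfsg.Agent.ClassSp.mul_mulVec]
      have h5 : (A : Matrix (Fin 2 ⊕ Fin 2) (Fin 2 ⊕ Fin 2) F) *ᵥ w = (negSp A : Matrix (Fin 2 ⊕ Fin 2) (Fin 2 ⊕ Fin 2) F) *ᵥ (-w) := by
        rw [negSp_mulVec, Matrix.mulVec_neg, neg_neg]
      rw [h5, Cfsg.Agent.ClassSp.inv_mulVec_mulVec]
      simp
    rw [← map_inv, ← map_inv, ← map_mul, ← map_mul, ← map_mul, ← map_mul, ← map_mul, hu, hv]
    rcases hBC with h | h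
    · rw [← h]
    · rw [← h, hneg]

end Cfsg.Agent.S2460
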