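import Cfsg.Statements.S2461
import Cfsg.Agent.H51.SqI

set_option autoImplicit false
open Cfsg

namespace Cfsg.Agent.S2461

/-- A form of Thompson's conjecture for the simple Chevalley groups G₂(q), q ≥ 3 (covering the non-identity elements), with a semisimple class: for F a finite field of characteristic p with at least 3 elements there is an element x of the Chevalley group of type G₂ over F of order prime to p such that every non-identity element of that group is a product of two conjugates of x. -/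
theorem result {F : Type*} [Field F] [Fintype F] (p : ℕ) [Fact p.Prime] [CharP F p] (h3 : 3 ≤ Fintype.card F) :
    ∃ x : Cfsg.Lie.chevG2.group F, ¬ p ∣ orderOf x ∧ ∀ g : Cfsg.Lie.chevG2.group F, g ≠ 1 → ∃ u v : Cfsg.Lie.chevG2.group F, g = (u * x * u⁻¹) * (v * x * v⁻¹) := by
  classical
  obtain ⟨K, i1, i2, hcard, ⟨S⟩⟩ := Cfsg.Agent.H51.SqI.exists_Sg h3
  have hx := Cfsg.Agent.H51.SqG.LL_GF (Cfsg.Agent.H51.SqG.x0_LL S)
  refine ⟨⟨Cfsg.Agent.H51.SqG.x0 S, hx⟩, ?_, ?_⟩
  · intro hp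
    have hq0 : 0 < Fintype.card F := Fintype.card_pos
    have h1 : Cfsg.Agent.H51.SqG.x0 S ^ (Fintype.card F ^ 2 - 1) = 1 := by
      apply Cfsg.Agent.H51.SqI.pow_x0
      intro a ha
      rw [← hcard]
      exact FiniteField.pow_card_sub_one_eq_one a ha
    have h2 : (⟨Cfsg.Agent.H51.SqG.x0 S, hx⟩ : Cfsg.Lie.chevG2.group F) ^ (Fintype.card F ^ 2 - 1) = 1 :=
      Subtype.ext h1
    have h4 : p ∣ Fintype.card F ^ 2 - 1 := hp.trans (orderOf_dvd_of_pow_eq_one h2)
    obtain ⟨n, hn, hcF⟩ := FiniteField.card F p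
    have h5 : p ∣ Fintype.card F := by
      rw [hcF]; exact dvd_pow_self p n.ne_zero
    have h6 : p ∣ Fintype.card F ^ 2 := h5.trans (dvd_pow_self _ two_ne_zero)
    have h7 : 1 ≤ Fintype.card F ^ 2 := Nat.one_le_pow _ _ hq0
    have h8 := (Nat.dvd_sub_iff_right h7 h6).1 h4
    exact (Fact.out : p.Prime).one_lt.ne' (Nat.dvd_one.1 h8)
  · intro g hg
    obtain ⟨u, hu, v, hv, e⟩ := Cfsg.Agent.H51.SqI.main S g.2 (fun h => hg (Subtype.ext h))
    exact ⟨⟨u, hu⟩, ⟨v, hv⟩, Subtype.ext e⟩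

end Cfsg.Agent.S2461
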