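import Cfsg.Statements.S2463
import Cfsg.Agent.H51.TrI
import Cfsg.Agent.H51.TitsSyl
import Cfsg.Agent.H80.TitsFacts

set_option autoImplicit false
open Cfsg

namespace Cfsg.Agent.S2463

theorem tits : ∃ x : Cfsg.Lie.TitsGroup, Odd (orderOf x) ∧ ∀ g : Cfsg.Lie.TitsGroup, g ≠ 1 →
    ∃ u v : Cfsg.Lie.TitsGroup, g = (u * x * u⁻¹) * (v * x * v⁻¹) :=
  Cfsg.Agent.H51.TitsSyl.tits_facts Cfsg.Agent.H80.Tits.facts

/-- A form of Thompson's conjecture for the simple groups of type ²F₄ (covering the non-identity elements) with a semisimple class: if M is a large Ree group ²F₄(2^(2m+1)) with m ≥ 1, or the Tits group, then there is an element x of M of odd order such that every non-identity element of M is a product of two conjugates of x. -/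
theorem result {M : Type*} [Group M] [Finite M] (hM : Cfsg.Lie.Iso2F4 M ∨ Cfsg.Lie.IsoTits M) :
    ∃ x : M, Odd (orderOf x) ∧ ∀ g : M, g ≠ 1 → ∃ u v : M, g = (u * x * u⁻¹) * (v * x * v⁻¹) := by
  rcases hM with ⟨K, _, _, m, hm, hK, ⟨e⟩⟩ | h
  · exact Cfsg.Agent.H51.TitsAsm.trM e (Cfsg.Agent.H51.TrI.all hm hK)
  · unfold Cfsg.Lie.IsoTits at h
    obtain ⟨e⟩ := h
    have h1 := tits
    revert h1
    exact Cfsg.Agent.H51.TitsAsm.trM (N := Cfsg.Lie.TitsGroup) e

end Cfsg.Agent.S2463
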