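import Cfsg.Statements.S2466
import Cfsg.Agent.H41.AltOrders

set_option autoImplicit false
open Cfsg

namespace Cfsg.Agent.S2466

open Cfsg.Agent.H41

/-- Adjacency of odd primes in the prime graph of the alternating groups: let r ≠ s be odd primes at most n. The alternating group of degree n has an element of order r·s if and only if r + s ≤ n. -/
theorem result (n r s : ℕ) (hr : r.Prime) (hs : s.Prime) (hr2 : r ≠ 2) (hs2 : s ≠ 2) (hrs : r ≠ s) (hrn : r ≤ n) (hsn : s ≤ n) :
    (r * s ∈ Set.range (orderOf : alternatingGroup (Fin n) → ℕ)) ↔ r + s ≤ n := by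
  rw [mem_range_orderOf_alt_iff]
  constructor
  · rintro ⟨m, h1, h2, h3, h4⟩
    refine le_trans ?_ h1
    obtain ⟨a, ha, hra⟩ := exists_mem_of_prime_dvd_lcm hr m (by rw [h4]; exact dvd_mul_right r s)
    obtain ⟨b, hb, hsb⟩ := exists_mem_of_prime_dvd_lcm hs m (by rw [h4]; exact dvd_mul_left s r)
    have ha2 := h2 a ha
    have hb2 := h2 b hb
    by_cases hab : a = b
    · subst hab
      have h5 : r * s ∣ a := Nat.Coprime.mul_dvd_of_dvd_of_dvd ((Nat.coprime_primes hr hs).mpr hrs) hra hsb
      have h6 := Nat.le_of_dvd (by omega) h5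
      have h7 := le_sum_of_mem_multiset ha
      have := hr.two_le
      have := hs.two_le
      nlinarith
    · obtain ⟨m', hm'⟩ := Multiset.exists_cons_of_mem ha
      have hb' : b ∈ m' := by
        rw [hm'] at hb
        exact (Multiset.mem_cons.mp hb).resolve_left (fun h => hab h.symm)
      have h7 := le_sum_of_mem_multiset hb'
      rw [hm', Multiset.sum_cons]
      have := Nat.le_of_dvd (by omega) hra
      have := Nat.le_of_dvd (by omega) hsb
      omega
  · intro h
    have hro := hr.odd_of_ne_two hr2
    have hso := hs.odd_of_ne_two hs2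
    refine ⟨{r, s}, ?_, ?_, ?_, ?_⟩
    · simpa using h
    · intro a ha
      simp only [Multiset.insert_eq_cons, Multiset.mem_cons, Multiset.mem_singleton] at ha
      rcases ha with rfl | rfl
      · exact hr.two_le
      · exact hs.two_le
    · simp only [Multiset.insert_eq_cons, Multiset.sum_cons, Multiset.sum_singleton, Multiset.card_cons,
        Multiset.card_singleton]
      have := hro.add_odd hso
      exact this.add (by decide)
    · simp only [Multiset.insert_eq_cons, Multiset.lcm_cons, Multiset.lcm_singleton]
      simp only [normalize_eq]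
      exact Nat.Coprime.lcm_eq_mul ((Nat.coprime_primes hr hs).mpr hrs)

end Cfsg.Agent.S2466
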