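import Cfsg.Statements.S2467
import Cfsg.Agent.H41.AltOrders

set_option autoImplicit false
open Cfsg

namespace Cfsg.Agent.S2467

open Cfsg.Agent.H41

theorem exists_even_mem (m : Multiset ℕ) (h : ¬ Even (m.sum + Multiset.card m)) : ∃ a ∈ m, Even a := by
  by_contra hcon
  push Not at hcon
  apply h
  clear h
  induction m using Multiset.induction_on with
  | empty => simp
  | cons a s ih =>
    have h1 := ih (fun b hb => hcon b (Multiset.mem_cons_of_mem hb))
    have h2 := hcon a (Multiset.mem_cons_self a s)
    rw [Multiset.sum_cons, Multiset.card_cons]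
    rw [Nat.even_iff] at *
    omega

/-- Adjacency of 2 and an odd prime in the prime graph of the alternating groups: let r be an odd prime at most n, with n ≥ 4. The alternating group of degree n has an element of order 2r if and only if r + 4 ≤ n. -/
theorem result (n r : ℕ) (hn : 4 ≤ n) (hr : r.Prime) (hr2 : r ≠ 2) (hrn : r ≤ n) :
    (2 * r ∈ Set.range (orderOf : alternatingGroup (Fin n) → ℕ)) ↔ r + 4 ≤ n := by
  have hro := hr.odd_of_ne_two hr2
  have hr3 : 3 ≤ r := by
    have := hr.two_le
    omega
  rw [mem_range_orderOf_alt_iff]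
  constructor
  · rintro ⟨m, h1, h2, h3, h4⟩
    refine le_trans ?_ h1
    obtain ⟨a, ha, h2a⟩ := exists_mem_of_prime_dvd_lcm Nat.prime_two m (by rw [h4]; exact dvd_mul_right 2 r)
    obtain ⟨m', hm'⟩ := Multiset.exists_cons_of_mem ha
    subst hm'
    rw [Multiset.sum_cons, Multiset.card_cons] at h3
    obtain ⟨b, hb, hb2⟩ := exists_even_mem m' (by
      have : Even a := even_iff_two_dvd.mpr h2a
      rw [Nat.even_iff] at *
      omega)
    obtain ⟨m'', hm''⟩ := Multiset.exists_cons_of_mem hb
    subst hm''
    have h2b : 2 ∣ b := even_iff_two_dvd.mp hb2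
    have ha2 := h2 a ha
    have hb2' := h2 b (Multiset.mem_cons_of_mem hb)
    have hcop : Nat.Coprime 2 r := (Nat.coprime_primes Nat.prime_two hr).mpr (fun h => hr2 h.symm)
    obtain ⟨c, hc, hrc⟩ := exists_mem_of_prime_dvd_lcm hr _ (by rw [h4]; exact dvd_mul_left r 2)
    rw [Multiset.sum_cons, Multiset.sum_cons]
    rcases Multiset.mem_cons.mp hc with rfl | hc'
    · have := Nat.le_of_dvd (by omega) (hcop.mul_dvd_of_dvd_of_dvd h2a hrc)
      omega
    · rcases Multiset.mem_cons.mp hc' with rfl | hc''
      · have := Nat.le_of_dvd (by omega) (hcop.mul_dvd_of_dvd_of_dvd h2b hrc)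
        omega
      · have h7 := le_sum_of_mem_multiset hc''
        have h8 := h2 c hc
        have := Nat.le_of_dvd (by omega) hrc
        omega
  · intro h
    refine ⟨{r, 2, 2}, ?_, ?_, ?_, ?_⟩
    · simp only [Multiset.insert_eq_cons, Multiset.sum_cons, Multiset.sum_singleton]
      omega
    · intro a ha
      simp only [Multiset.insert_eq_cons, Multiset.mem_cons, Multiset.mem_singleton] at ha
      rcases ha with rfl | rfl | rfl
      · exact hr.two_le
      · exact le_rfl
      · exact le_rfl
    · simp only [Multiset.insert_eq_cons, Multiset.sum_cons, Multiset.sum_singleton, Multiset.card_cons,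
        Multiset.card_singleton]
      rw [Nat.odd_iff] at hro
      rw [Nat.even_iff]
      omega
    · simp only [Multiset.insert_eq_cons, Multiset.lcm_cons, Multiset.lcm_singleton]
      simp only [normalize_eq]
      have : lcm 2 2 = 2 := by decide
      rw [this]
      change Nat.lcm r 2 = 2 * r
      rw [Nat.Coprime.lcm_eq_mul ((Nat.coprime_primes hr Nat.prime_two).mpr hr2), mul_comm]

end Cfsg.Agent.S2467
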