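import Cfsg.Statements.S2471
import Cfsg.Agent.H41.SL2b

set_option autoImplicit false
open Cfsg

namespace Cfsg.Agent.S2471

open Cfsg.Agent.H41

/-- In PSL(2,q) with q odd, the characteristic p is isolated from 2 in the prime graph: for F a finite field of odd characteristic p with at least 5 elements, PSL(2,F) has no element of order 2p. -/
theorem result {F : Type*} [Field F] [Fintype F] (p : ℕ) [Fact p.Prime] [CharP F p] (hp : p ≠ 2) (h5 : 5 ≤ Fintype.card F) (g : Matrix.ProjectiveSpecialLinearGroup (Fin 2) F) :
    orderOf g ≠ 2 * p := by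
  intro hord
  have hpp : p.Prime := Fact.out
  induction g using psl2_ind with
  | h G =>
  have h1 : (QuotientGroup.mk G : Matrix.ProjectiveSpecialLinearGroup (Fin 2) F) ^ (2 * p) = 1 := by
    rw [← hord]; exact pow_orderOf_eq_one _
  have hpodd : Odd p := hpp.odd_of_ne_two hp
  have h2 : (G * G) ^ p = 1 ∨ (G * G) ^ p = -1 := by
    rw [← pow_two, ← pow_mul]
    exact psl2_mk_eq_one_iff.mp (by rw [QuotientGroup.mk_pow]; exact h1)
  have key : tr G = 0 ∨ ∃ δ : F, δ ^ 2 = 1 ∧ tr G = 2 * δ := by
    rcases h2 with h | h
    · have : tr (G * G) = 2 * 1 := by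
        apply tr_eq_of_pow_char (p := p)
        rw [← Matrix.SpecialLinearGroup.coe_pow, h]; simp
      rw [tr_mul_self] at this
      right
      have h4 : (tr G - 2) * (tr G + 2) = 0 := by linear_combination this
      rcases mul_eq_zero.mp h4 with h | h
      · exact ⟨1, by ring, by linear_combination h⟩
      · exact ⟨-1, by ring, by linear_combination h⟩
    · have : tr (G * G) = 2 * (-1) := by
        apply tr_eq_of_pow_char (p := p)
        rw [← Matrix.SpecialLinearGroup.coe_pow, h, hpodd.neg_one_pow]; simp
      rw [tr_mul_self] at this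
      left
      have h4 : tr G ^ 2 = 0 := by linear_combination this
      exact pow_eq_zero_iff (two_ne_zero) |>.mp h4
  rcases key with h | ⟨δ, hδ, h⟩
  · have h3 := mul_self_eq_neg_one_of_tr_eq_zero h
    have h4 : (QuotientGroup.mk G : Matrix.ProjectiveSpecialLinearGroup (Fin 2) F) ^ 2 = 1 := by
      rw [← QuotientGroup.mk_pow, psl2_mk_eq_one_iff, pow_two]
      right; exact h3
    have h5 := orderOf_dvd_of_pow_eq_one h4
    rw [hord] at h5
    have := Nat.le_of_dvd (by norm_num) h5
    have := hpp.two_le
    omega
  · have h3 := pow_char_of_tr (p := p) G δ hδ h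
    have h4 : (QuotientGroup.mk G : Matrix.ProjectiveSpecialLinearGroup (Fin 2) F) ^ p = 1 := by
      rw [← QuotientGroup.mk_pow, psl2_mk_eq_one_iff]
      have h5 : (δ - 1) * (δ + 1) = 0 := by linear_combination hδ
      rcases mul_eq_zero.mp h5 with h | h
      · left
        have : δ = 1 := by linear_combination h
        apply eq_of_coe
        rw [Matrix.SpecialLinearGroup.coe_pow, h3, this]; simp
      · right
        have : δ = -1 := by linear_combination h
        apply eq_of_coe
        rw [Matrix.SpecialLinearGroup.coe_pow, h3, this, hpodd.neg_one_pow]; simp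
    have h5 := orderOf_dvd_of_pow_eq_one h4
    rw [hord] at h5
    have := Nat.le_of_dvd hpp.pos h5
    have := hpp.two_le
    omega

end Cfsg.Agent.S2471
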