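import Cfsg.Statements.S2476
import Cfsg.Agent.H41.SepCent2

set_option autoImplicit false
set_option linter.unusedSimpArgs false
open Cfsg

namespace Cfsg.Agent.S2476

open Cfsg.Agent.H41 Matrix Polynomial

theorem mk_eq_one_iff {F : Type*} [Field F] (B : Matrix.SpecialLinearGroup (Fin 3) F) :
    (QuotientGroup.mk B : Matrix.ProjectiveSpecialLinearGroup (Fin 3) F) = 1 ↔ ∃ d : F, (B : Matrix (Fin 3) (Fin 3) F) = d • 1 := by
  rw [QuotientGroup.eq_one_iff, Matrix.SpecialLinearGroup.mem_center_iff]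
  constructor
  · rintro ⟨d, -, hd⟩
    refine ⟨d, ?_⟩
    rw [← hd]
    ext i j
    simp [Matrix.scalar_apply, Matrix.diagonal_apply, Matrix.one_apply]
  · rintro ⟨d, hd⟩
    refine ⟨d, ?_, ?_⟩
    · have := B.2
      rw [hd, det_smul, det_one, mul_one] at this
      exact this
    · rw [hd]
      ext i j
      simp [Matrix.scalar_apply, Matrix.diagonal_apply, Matrix.one_apply]

theorem mem_of_dvd {F : Type*} [Field F] [Fintype F] (A : Matrix (Fin 3) (Fin 3) F) (hdet : A.det = 1) (N : ℕ)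
    (h : ∀ j : ℕ, (∃ d : F, A ^ j = d • 1) → N ∣ j) (m : ℕ) (hm : m ∣ N) :
    m ∈ Set.range (orderOf : Matrix.ProjectiveSpecialLinearGroup (Fin 3) F → ℕ) := by
  classical
  obtain ⟨B, hB⟩ : ∃ B : Matrix.SpecialLinearGroup (Fin 3) F, (B : Matrix (Fin 3) (Fin 3) F) = A := ⟨⟨A, hdet⟩, rfl⟩
  have hfin : Finite (Matrix.ProjectiveSpecialLinearGroup (Fin 3) F) := by
    unfold Matrix.ProjectiveSpecialLinearGroup; infer_instance
  have hO : 0 < orderOf (QuotientGroup.mk B : Matrix.ProjectiveSpecialLinearGroup (Fin 3) F) := orderOf_pos _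
  have h1 : N ∣ orderOf (QuotientGroup.mk B : Matrix.ProjectiveSpecialLinearGroup (Fin 3) F) := by
    apply h
    rw [← hB, ← Matrix.SpecialLinearGroup.coe_pow, ← mk_eq_one_iff, QuotientGroup.mk_pow, pow_orderOf_eq_one]
  obtain ⟨t, ht⟩ := hm.trans h1
  have ht0 : t ≠ 0 := by rintro rfl; omega
  have hm0 : 0 < m := by
    rcases Nat.eq_zero_or_pos m with h | h
    · rw [h] at ht; omega
    · exact h
  refine ⟨(QuotientGroup.mk B : Matrix.ProjectiveSpecialLinearGroup (Fin 3) F) ^ t, ?_⟩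
  rw [orderOf_pow_of_dvd ht0 (by rw [ht]; exact dvd_mul_left _ _), ht]
  exact Nat.mul_div_cancel _ (Nat.pos_of_ne_zero ht0)

/-- If the characteristic polynomial divides `X ^ j - c` over an extension, then `A ^ j` is scalar. -/
theorem scalar_of_dvd {F : Type*} [Field F] {K : Type*} [Field K] [Algebra F K] (A : Matrix (Fin 3) (Fin 3) F) (j : ℕ) (c : K)
    (h : A.charpoly.map (algebraMap F K) ∣ X ^ j - C c) : ∃ d : F, A ^ j = d • 1 := by
  have h1 : (A.map (algebraMap F K)).charpoly = A.charpoly.map (algebraMap F K) := Matrix.charpoly_map _ _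
  obtain ⟨g, hg⟩ := h
  have h2 : (A.map (algebraMap F K)) ^ j = c • 1 := by
    have h3 : aeval (A.map (algebraMap F K)) (X ^ j - C c : K[X]) = 0 := by
      rw [hg, map_mul, ← h1, Matrix.aeval_self_charpoly, zero_mul]
    rw [map_sub, map_pow, aeval_X, aeval_C, sub_eq_zero, Algebra.algebraMap_eq_smul_one] at h3
    exact h3
  have h4 : (A ^ j).map (algebraMap F K) = c • 1 := by
    rw [← h2]; exact map_pow (algebraMap F K).mapMatrix A j
  have hinj := (algebraMap F K).injective
  refine ⟨(A ^ j) 0 0, ?_⟩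
  have h00 := congrFun (congrFun h4 0) 0
  rw [Matrix.map_apply, Matrix.smul_apply, Matrix.one_apply_eq, smul_eq_mul, mul_one] at h00
  ext i k
  apply hinj
  have h5 := congrFun (congrFun h4 i) k
  rw [Matrix.map_apply] at h5
  rw [h5, Matrix.smul_apply, Matrix.smul_apply, Matrix.one_apply, Matrix.one_apply]
  split_ifs
  · rw [smul_eq_mul, smul_eq_mul, map_mul, h00, map_one]
  · rw [smul_eq_mul, smul_eq_mul, map_mul, map_zero, mul_zero, mul_zero]

theorem dvd_of_distinct {K : Type*} [Field K] (x y z : K) (hxy : x ≠ y) (hxz : x ≠ z) (hyz : y ≠ z) (f : K[X])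
    (hx : f.IsRoot x) (hy : f.IsRoot y) (hz : f.IsRoot z) : (X - C x) * (X - C y) * (X - C z) ∣ f := by
  have h1 : IsCoprime (X - C x) (X - C y) := isCoprime_X_sub_C_of_isUnit_sub (sub_ne_zero.mpr hxy).isUnit
  have h2 : IsCoprime (X - C x) (X - C z) := isCoprime_X_sub_C_of_isUnit_sub (sub_ne_zero.mpr hxz).isUnit
  have h3 : IsCoprime (X - C y) (X - C z) := isCoprime_X_sub_C_of_isUnit_sub (sub_ne_zero.mpr hyz).isUnit
  exact (h2.mul_left h3).mul_dvd (h1.mul_dvd (dvd_iff_isRoot.mpr hx) (dvd_iff_isRoot.mpr hy)) (dvd_iff_isRoot.mpr hz)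

theorem third.{u} (i j : Fin 3) (hij : i ≠ j) :
    ∃ k : Fin 3, k ≠ i ∧ k ≠ j ∧ ∀ {M : Type u} [CommMonoid M] (g : Fin 3 → M), ∏ l, g l = g i * g j * g k := by
  fin_cases i <;> fin_cases j <;> first | (exact absurd rfl hij) | skip
  · refine ⟨2, by decide, by decide, fun g => ?_⟩; simp [Fin.prod_univ_three]
  · refine ⟨1, by decide, by decide, fun g => ?_⟩; simp [Fin.prod_univ_three]; exact mul_right_comm _ _ _
  · refine ⟨2, by decide, by decide, fun g => ?_⟩; simp [Fin.prod_univ_three]; rw [mul_comm (g 1)]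
  · refine ⟨0, by decide, by decide, fun g => ?_⟩; simp [Fin.prod_univ_three]; rw [mul_comm (g 1 * g 2), mul_assoc]
  · refine ⟨1, by decide, by decide, fun g => ?_⟩; simp [Fin.prod_univ_three]; rw [mul_right_comm, mul_comm (g 0) (g 2)]
  · refine ⟨0, by decide, by decide, fun g => ?_⟩; simp [Fin.prod_univ_three]; rw [mul_comm (g 2 * g 1), mul_comm (g 2), mul_assoc]

theorem upper {F : Type*} [Field F] [Fintype F] (p : ℕ) [Fact p.Prime] [CharP F p] (N d : ℕ) (hq : Fintype.card F = N + 1) (hd : d = Nat.gcd 3 N)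
    (A : Matrix (Fin 3) (Fin 3) F) (hdet : A.det = 1) :
    ∃ j : ℕ, (∃ c : F, A ^ j = c • 1) ∧ (j = (N ^ 2 + 3 * N + 3) / d ∨ j = (N ^ 2 + 2 * N) / d ∨ j = N ∨ j ∣ p * N / d ∨ (p = 2 ∧ j = 4)) := by
  classical
  let K := AlgebraicClosure F
  have hpp : p.Prime := Fact.out
  have hcp : CharP K p := charP_of_injective_algebraMap (algebraMap F K).injective p
  have hN : 1 ≤ N := by
    have : 1 < Fintype.card F := Fintype.one_lt_card
    omega
  have hdN : d ∣ N := hd ▸ Nat.gcd_dvd_right _ _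
  have hd3 : d ∣ 3 := hd ▸ Nat.gcd_dvd_left _ _
  have hd0 : 0 < d := Nat.pos_of_dvd_of_pos hd3 (by norm_num)
  obtain ⟨β, hβ, -⟩ := exists_roots_fun (K := K) 3 (A.charpoly.map (algebraMap F K)) ((Matrix.charpoly_monic A).map _)
    (by rw [natDegree_map, Matrix.charpoly_natDegree_eq_dim, Fintype.card_fin])
  have hroot : ∀ i, (A.charpoly.map (algebraMap F K)).IsRoot (β i) := by
    intro i
    rw [hβ, IsRoot.def, eval_prod]
    exact Finset.prod_eq_zero (Finset.mem_univ i) (by simp)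
  have hroot' : ∀ x, (A.charpoly.map (algebraMap F K)).IsRoot x → ∃ i, β i = x := by
    intro x hx
    rw [hβ, IsRoot.def, eval_prod, Finset.prod_eq_zero_iff] at hx
    obtain ⟨i, -, hi⟩ := hx
    rw [eval_sub, eval_X, eval_C, sub_eq_zero] at hi
    exact ⟨i, hi.symm⟩
  have hdt : ∏ i, β i = 1 := by
    have h1 := Matrix.det_eq_sign_charpoly_coeff A
    rw [hdet] at h1
    have h2 := congrArg (algebraMap F K) h1
    rw [map_mul, ← coeff_map, hβ, map_one, Fin.prod_univ_three, coeff_zero_eq_eval_zero] at h2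
    simp at h2
    rw [Fin.prod_univ_three, h2]; ring
  have hβ0 : ∀ i, β i ≠ 0 := by
    intro i h
    have : ∏ i, β i = 0 := Finset.prod_eq_zero (Finset.mem_univ i) h
    rw [hdt] at this
    exact one_ne_zero this
  have hfi : ∀ x y : K, x ^ (N + 1) = y ^ (N + 1) → x = y := by
    intro x y hxy
    have h1 : FiniteField.frobeniusAlgHom F K x = FiniteField.frobeniusAlgHom F K y := by
      change x ^ Fintype.card F = y ^ Fintype.card F
      rw [hq]; exact hxy
    exact (FiniteField.frobeniusAlgHom F K).toRingHom.injective h1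
  have hfr : ∀ x, (A.charpoly.map (algebraMap F K)).IsRoot x → (A.charpoly.map (algebraMap F K)).IsRoot (x ^ (N + 1)) := by
    intro x hx
    have := isRoot_frob _ x hx 1
    rwa [pow_one, hq] at this
  by_cases hF : ∀ i, β i ^ (N + 1) = β i
  · have hF1 : ∀ i, β i ^ N = 1 := by
      intro i
      have h1 := hF i
      rw [pow_succ] at h1
      exact mul_right_cancel₀ (hβ0 i) (by rw [h1, one_mul])
    by_cases hinj : Function.Injective β
    · refine ⟨N, ?_, by tauto⟩
      apply scalar_of_dvd (K := K) A N 1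
      rw [hβ, Fin.prod_univ_three]
      apply dvd_of_distinct _ _ _ (fun h => absurd (hinj h) (by decide)) (fun h => absurd (hinj h) (by decide)) (fun h => absurd (hinj h) (by decide))
      all_goals simp [hF1]
    · rw [Function.Injective] at hinj
      push Not at hinj
      obtain ⟨i, j, hij, hne⟩ := hinj
      obtain ⟨k, hki, hkj, hprod⟩ := third i j hne
      have h1 : A.charpoly.map (algebraMap F K) = (X - C (β i)) * (X - C (β i)) * (X - C (β k)) := by
        rw [hβ, hprod]; simp only [← hij]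
      have h2 : β i * β i * β k = 1 := by rw [← hdt, hprod]; simp only [← hij]
      by_cases hab : β i = β k
      · rcases eq_or_ne p 2 with hp | hp
        · refine ⟨4, ?_, by tauto⟩
          apply scalar_of_dvd (K := K) A 4 (β i ^ 4)
          rw [h1, ← hab]
          have : (X ^ 4 - C (β i ^ 4) : K[X]) = (X - C (β i)) ^ 4 := by
            subst hp
            rw [C_pow, show (4 : ℕ) = 2 * 2 by norm_num, pow_mul, pow_mul, pow_mul, ← sub_pow_char, ← sub_pow_char]
          rw [this]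
          exact ⟨X - C (β i), by ring⟩
        · refine ⟨p, ?_, Or.inr (Or.inr (Or.inr (Or.inl ?_)))⟩
          · apply scalar_of_dvd (K := K) A p (β i ^ p)
            rw [h1, ← hab]
            have : (X ^ p - C (β i ^ p) : K[X]) = (X - C (β i)) ^ p := by
              rw [C_pow, sub_pow_char]
            rw [this]
            have hp3 : 3 ≤ p := by
              have := hpp.two_le
              omega
            refine dvd_trans ?_ (pow_dvd_pow _ hp3)
            exact ⟨1, by ring⟩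
          · rw [Nat.mul_div_assoc _ hdN]; exact dvd_mul_right _ _
      · refine ⟨p * N / d, ?_, Or.inr (Or.inr (Or.inr (Or.inl dvd_rfl)))⟩
        obtain ⟨e, he⟩ := hdN
        have hpe : p * N / d = e * p := by
          rw [he]; rw [show p * (d * e) = d * (e * p) by ring, Nat.mul_div_cancel_left _ hd0]
        obtain ⟨t, ht⟩ := hd3
        apply scalar_of_dvd (K := K) A _ ((β i ^ e) ^ p)
        rw [hpe, h1, pow_mul, C_pow, ← sub_pow_char]
        have h3 : β k ^ e = β i ^ e := by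
          have h4 : (β i * β i * β k) ^ e = (β i * β i * β i) ^ e := by
            rw [h2, one_pow]
            have : (β i * β i * β i) ^ e = (β i ^ N) ^ t := by
              rw [← pow_mul, show β i * β i * β i = β i ^ 3 by ring, ← pow_mul]
              congr 1
              rw [he, ht]; ring
            rw [this, hF1, one_pow]
          rw [mul_pow, mul_pow (β i * β i) (β i)] at h4
          exact mul_left_cancel₀ (pow_ne_zero _ (mul_ne_zero (hβ0 i) (hβ0 i))) h4
        have h5 : (X - C (β i)) * (X - C (β k)) ∣ X ^ e - C (β i ^ e) := by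
          apply (isCoprime_X_sub_C_of_isUnit_sub (sub_ne_zero.mpr hab).isUnit).mul_dvd
          · rw [dvd_iff_isRoot]; simp
          · rw [dvd_iff_isRoot]; simp [h3]
        refine dvd_trans ?_ (pow_dvd_pow _ hpp.two_le)
        refine dvd_trans ?_ (pow_dvd_pow_of_dvd h5 2)
        exact ⟨X - C (β k), by ring⟩
  · push Not at hF
    obtain ⟨i, hi⟩ := hF
    obtain ⟨j, hj⟩ := hroot' _ (hfr _ (hroot i))
    have hne : i ≠ j := by rintro rfl; exact hi hj.symm
    obtain ⟨k, hki, hkj, hprod⟩ := third i j hne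
    have h1 : A.charpoly.map (algebraMap F K) = (X - C (β i)) * (X - C (β i ^ (N + 1))) * (X - C (β k)) := by
      rw [hβ, hprod, ← hj]
    have h2 : β i * β i ^ (N + 1) * β k = 1 := by rw [← hdt, hprod, ← hj]
    by_cases hl : (β i ^ (N + 1)) ^ (N + 1) = β i
    · refine ⟨(N ^ 2 + 2 * N) / d, ?_, by tauto⟩
      have hm1 : β i ^ (N ^ 2 + 2 * N) = 1 := by
        apply mul_right_cancel₀ (hβ0 i)
        rw [one_mul, ← pow_succ]
        nth_rewrite 2 [← hl]
        rw [← pow_mul]; congr 1; ring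
      have hkf : β k ^ (N + 1) = β k := by
        have h3 : (β i * β i ^ (N + 1) * β k) ^ (N + 1) = (β i * β i ^ (N + 1) * β k) := by rw [h2, one_pow]
        rw [mul_pow, mul_pow, hl, mul_comm (β i ^ (N + 1))] at h3
        exact mul_left_cancel₀ (mul_ne_zero (hβ0 i) (pow_ne_zero _ (hβ0 i))) h3
      have hd1 : ∃ e, N ^ 2 + 2 * N = d * e := by
        obtain ⟨e, he⟩ := hdN
        exact ⟨N * e + 2 * e, by rw [he]; ring⟩
      obtain ⟨e, he⟩ := hd1
      obtain ⟨s, hs⟩ := hdN
      obtain ⟨t, ht⟩ := hd3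
      rw [he, Nat.mul_div_cancel_left _ hd0]
      have h4 : β i ^ (e * N) = 1 := by
        rw [show e * N = (N ^ 2 + 2 * N) * s by rw [he, hs]; ring, pow_mul, hm1, one_pow]
      have h5 : β i ^ (e * 3) = 1 := by
        rw [show e * 3 = (N ^ 2 + 2 * N) * t by rw [he]; nth_rewrite 1 [ht]; ring, pow_mul, hm1, one_pow]
      apply scalar_of_dvd (K := K) A _ (β i ^ e)
      rw [h1]
      have hik : β i ≠ β k := by
        intro h; rw [← h] at hkf; exact hi hkf
      have hjk : β i ^ (N + 1) ≠ β k := by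
        intro h; rw [← h, hl] at hkf; exact hi hkf.symm
      apply dvd_of_distinct _ _ _ (Ne.symm hi) hik hjk
      · simp
      · simp only [IsRoot.def, eval_sub, eval_pow, eval_X, eval_C, sub_eq_zero]
        rw [← pow_mul, show (N + 1) * e = e * N + e by ring, pow_add, h4, one_mul]
      · simp only [IsRoot.def, eval_sub, eval_pow, eval_X, eval_C, sub_eq_zero]
        have h6 : (β i * β i ^ (N + 1)) ^ e * β k ^ e = (β i * β i ^ (N + 1)) ^ e * β i ^ e := by
          rw [← mul_pow, h2, one_pow, ← mul_pow, ← pow_succ', ← pow_succ, ← pow_mul,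
            show (N + 1 + 1 + 1) * e = e * N + e * 3 by ring, pow_add, h4, h5, one_mul]
        exact mul_left_cancel₀ (pow_ne_zero _ (mul_ne_zero (hβ0 i) (pow_ne_zero _ (hβ0 i)))) h6
    · refine ⟨(N ^ 2 + 3 * N + 3) / d, ?_, by tauto⟩
      have hl2 : (β i ^ (N + 1)) ^ (N + 1) ≠ β i ^ (N + 1) := fun h => hi (hfi _ _ h)
      have hk : β k = (β i ^ (N + 1)) ^ (N + 1) := by
        have h3 := hfr _ (hfr _ (hroot i))
        rw [h1, IsRoot.def, eval_mul, eval_mul, mul_eq_zero, mul_eq_zero] at h3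
        simp only [eval_sub, eval_X, eval_C, sub_eq_zero] at h3
        rcases h3 with (h3 | h3) | h3
        · exact absurd h3 hl
        · exact absurd h3 hl2
        · exact h3.symm
      have hm1 : β i ^ (N ^ 2 + 3 * N + 3) = 1 := by
        rw [← h2, hk]; ring
      obtain ⟨e, he⟩ : ∃ e, N ^ 2 + 3 * N + 3 = d * e := by
        obtain ⟨e, he⟩ := hdN
        obtain ⟨t, ht⟩ := hd3
        have h9 : N ^ 2 + 3 * N + 3 = N * (d * e) + 3 * (d * e) + d * t := by rw [← he, ← ht]; ring
        exact ⟨N * e + 3 * e + t, by rw [h9]; ring⟩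
      obtain ⟨s, hs⟩ := hdN
      rw [he, Nat.mul_div_cancel_left _ hd0]
      have h4 : β i ^ (e * N) = 1 := by
        rw [show e * N = (N ^ 2 + 3 * N + 3) * s by rw [he]; nth_rewrite 1 [hs]; ring, pow_mul, hm1, one_pow]
      have h5 : (β i ^ (N + 1)) ^ e = β i ^ e := by
        rw [← pow_mul, show (N + 1) * e = e * N + e by ring, pow_add, h4, one_mul]
      apply scalar_of_dvd (K := K) A _ (β i ^ e)
      rw [h1, hk]
      apply dvd_of_distinct _ _ _ (Ne.symm hi) (Ne.symm hl) (Ne.symm hl2)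
      · simp
      · simp only [IsRoot.def, eval_sub, eval_pow, eval_X, eval_C, sub_eq_zero]
        exact h5
      · simp only [IsRoot.def, eval_sub, eval_pow, eval_X, eval_C, sub_eq_zero]
        rw [← pow_mul, mul_comm (N + 1) e, pow_mul, h5, ← pow_mul, mul_comm e, pow_mul, h5]


theorem exists_gen {F : Type*} [Field F] [Fintype F] (N : ℕ) (hq : Fintype.card F = N + 1) : ∃ a : F, a ≠ 0 ∧ ∀ j : ℕ, a ^ j = 1 → N ∣ j := by
  have hcu : Nat.card Fˣ = N := by rw [Nat.card_units, Nat.card_eq_fintype_card, hq]; rfl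
  obtain ⟨g, hg⟩ := IsCyclic.exists_generator (α := Fˣ)
  have hgo : orderOf g = Nat.card Fˣ := orderOf_eq_card_of_forall_mem_zpowers hg
  refine ⟨(g : F), g.ne_zero, fun j hj => ?_⟩
  rw [← hcu, ← hgo]
  apply orderOf_dvd_of_pow_eq_one
  apply Units.ext
  push_cast
  exact hj

/-- `3 j` divisible by `M` -/
theorem dvd_of_three (M j : ℕ) (h : M ∣ 3 * j) (h3 : 3 ∣ M) : M / 3 ∣ j := by
  obtain ⟨s, hs⟩ := h3
  rw [hs, Nat.mul_div_cancel_left _ (by norm_num)]
  rw [hs] at h
  exact Nat.dvd_of_mul_dvd_mul_left (by norm_num) h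

theorem d_cases (N d : ℕ) (hd : d = Nat.gcd 3 N) : d = 1 ∨ (d = 3 ∧ 3 ∣ N) := by
  have h1 : d ∣ 3 := hd ▸ Nat.gcd_dvd_left _ _
  have h2 : d ∣ N := hd ▸ Nat.gcd_dvd_right _ _
  rcases (Nat.dvd_prime Nat.prime_three).mp h1 with h | h
  · exact Or.inl h
  · exact Or.inr ⟨h, h ▸ h2⟩

theorem cube_eq_one {F : Type*} [Field F] [Fintype F] (N : ℕ) (hq : Fintype.card F = N + 1) (hd : Nat.gcd 3 N = 1) (s : F) (hs : s ^ 3 = 1) :
    s = 1 := by
  have hs0 : s ≠ 0 := by rintro rfl; simp at hs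
  have h1 : s ^ N = 1 := by
    have := FiniteField.pow_card_sub_one_eq_one s hs0
    rwa [hq, Nat.add_sub_cancel] at this
  have h2 := Nat.dvd_gcd (orderOf_dvd_of_pow_eq_one hs) (orderOf_dvd_of_pow_eq_one h1)
  rw [hd] at h2
  exact orderOf_eq_one_iff.mp (Nat.dvd_one.mp h2)

theorem lower {F : Type*} [Field F] [Fintype F] (p : ℕ) [Fact p.Prime] [CharP F p] (N d : ℕ) (hq : Fintype.card F = N + 1) (hd : d = Nat.gcd 3 N)
    (m : ℕ) (hm : m ∣ (N ^ 2 + 3 * N + 3) / d ∨ m ∣ (N ^ 2 + 2 * N) / d ∨ m ∣ N ∨ m ∣ p * N / d ∨ (p = 2 ∧ m ∣ 4)) :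
    m ∈ Set.range (orderOf : Matrix.ProjectiveSpecialLinearGroup (Fin 3) F → ℕ) := by
  have hpp : p.Prime := Fact.out
  have hN : 1 ≤ N := by
    have : 1 < Fintype.card F := Fintype.one_lt_card
    omega
  have hd1 := d_cases N d hd
  have hcop : Nat.Coprime p N := by
    rw [Nat.Prime.coprime_iff_not_dvd hpp]
    intro h
    obtain ⟨m, hm0, hm⟩ := FiniteField.card F p
    have h1 : p ∣ Fintype.card F := by rw [hm]; exact dvd_pow_self _ m.ne_zero
    rw [hq] at h1
    exact hpp.one_lt.ne' (Nat.dvd_one.mp ((Nat.dvd_add_right h).mp h1))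
  obtain ⟨a, ha0, ha⟩ := exists_gen (F := F) N hq
  rcases hm with hm | hm | hm | hm | ⟨hp2, hm⟩
  · -- Singer cycle
    obtain ⟨M, -, -, hM, -⟩ := exists_commuting_matrix (F := F) 3 (Nat.card F ^ 3 - 1) 1 (by norm_num) dvd_rfl (one_dvd _)
    have hcard : Nat.card F ^ 3 - 1 = N * (N ^ 2 + 3 * N + 3) := by
      rw [Nat.card_eq_fintype_card, hq]
      apply Nat.sub_eq_of_eq_add
      ring
    rw [hcard] at hM
    have hMd : M.det ≠ 0 := by
      intro h
      have h1 := (hM _).mpr dvd_rfl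
      have h2 := congrArg Matrix.det h1
      rw [det_pow, h, det_one, zero_pow (by positivity)] at h2
      exact zero_ne_one h2
    have hA : (M ^ N).det = 1 := by
      rw [det_pow]
      have := FiniteField.pow_card_sub_one_eq_one _ hMd
      rwa [hq, Nat.add_sub_cancel] at this
    refine mem_of_dvd (M ^ N) hA ((N ^ 2 + 3 * N + 3) / d) ?_ m hm
    rintro j ⟨c, hc⟩
    have hc3 : c ^ 3 = 1 := by
      have h1 := congrArg Matrix.det hc
      rw [det_pow, hA, one_pow, det_smul, det_one, mul_one, Fintype.card_fin] at h1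
      exact h1.symm
    rcases hd1 with h | ⟨h, h3⟩
    · have hc1 := cube_eq_one N hq (by rw [← hd, h]) c hc3
      rw [h, Nat.div_one]
      rw [hc1, one_smul, ← pow_mul] at hc
      exact Nat.dvd_of_mul_dvd_mul_left hN ((hM _).mp hc)
    · rw [h]
      apply dvd_of_three
      · have h1 : (M ^ N) ^ (3 * j) = 1 := by rw [mul_comm 3 j, pow_mul, hc, _root_.smul_pow, one_pow, hc3, one_smul]
        rw [← pow_mul] at h1
        exact Nat.dvd_of_mul_dvd_mul_left hN ((hM _).mp h1)
      · obtain ⟨s, hs⟩ := h3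
        exact ⟨N * s + N + 1, by rw [mul_add, mul_add, ← mul_assoc, mul_comm 3 N, mul_assoc, ← hs]; ring⟩
  · obtain ⟨M, -, -, hM, -⟩ := exists_commuting_matrix (F := F) 2 (Nat.card F ^ 2 - 1) 1 (by norm_num) dvd_rfl (one_dvd _)
    have hcard : Nat.card F ^ 2 - 1 = N ^ 2 + 2 * N := by
      rw [Nat.card_eq_fintype_card, hq]
      apply Nat.sub_eq_of_eq_add
      ring
    rw [hcard] at hM
    have hMd : M.det ≠ 0 := by
      intro h
      have h1 := (hM _).mpr dvd_rfl
      have h2 := congrArg Matrix.det h1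
      rw [det_pow, h, det_one, zero_pow (by positivity)] at h2
      exact zero_ne_one h2
    let e : Fin 2 ⊕ Fin 1 ≃ Fin 3 := finSumFinEquiv
    let φ := Matrix.reindexAlgEquiv F F e
    obtain ⟨B, hB⟩ : ∃ B : Matrix (Fin 2 ⊕ Fin 1) (Fin 2 ⊕ Fin 1) F, B = fromBlocks M 0 0 (M.det⁻¹ • 1) := ⟨_, rfl⟩
    have hdet : (φ B).det = 1 := by
      change (Matrix.reindexAlgEquiv F F e B).det = _
      rw [Matrix.det_reindexAlgEquiv, hB, det_fromBlocks_zero₂₁, det_smul]
      simp [hMd]
    refine mem_of_dvd (φ B) hdet ((N ^ 2 + 2 * N) / d) ?_ m hm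
    rintro j ⟨c, hc⟩
    have hc3 : c ^ 3 = 1 := by
      have h1 := congrArg Matrix.det hc
      rw [det_pow, hdet, one_pow, det_smul, det_one, mul_one, Fintype.card_fin] at h1
      exact h1.symm
    have hMj : M ^ j = c • 1 := by
      have h1 : B ^ j = c • 1 := by
        apply φ.injective
        rw [map_pow, hc, map_smul, map_one]
      rw [hB, fromBlocks_diagonal_pow, ← fromBlocks_one, fromBlocks_smul] at h1
      have h2 := congrArg Matrix.toBlocks₁₁ h1
      rwa [toBlocks_fromBlocks₁₁, toBlocks_fromBlocks₁₁] at h2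
    rcases hd1 with h | ⟨h, h3⟩
    · have hc1 := cube_eq_one N hq (by rw [← hd, h]) c hc3
      rw [h, Nat.div_one]
      rw [hc1, one_smul] at hMj
      exact (hM _).mp hMj
    · rw [h]
      apply dvd_of_three
      · have h1 : M ^ (3 * j) = 1 := by rw [mul_comm 3 j, pow_mul, hMj, _root_.smul_pow, one_pow, hc3, one_smul]
        exact (hM _).mp h1
      · obtain ⟨s, hs⟩ := h3
        exact ⟨N * s + 2 * s, by rw [mul_add, ← mul_assoc, mul_comm 3 N, mul_assoc, ← hs, hs]; ring⟩
  · refine mem_of_dvd (diagonal ![a, 1, a⁻¹]) ?_ N ?_ m hm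
    · rw [det_diagonal, Fin.prod_univ_three]; simp [ha0]
    · rintro j ⟨c, hc⟩
      rw [diagonal_pow] at hc
      have h0 := congrFun (congrFun hc 0) 0
      have h1 := congrFun (congrFun hc 1) 1
      simp at h0 h1
      exact ha j (by rw [h0, ← h1])
  · have hpow : ∀ j : ℕ, (!![a, a, 0; 0, a, 0; 0, 0, (a ^ 2)⁻¹] : Matrix (Fin 3) (Fin 3) F) ^ j =
        !![a ^ j, j * a ^ j, 0; 0, a ^ j, 0; 0, 0, ((a ^ 2)⁻¹) ^ j] := by
      intro j
      induction j with
      | zero => ext i k; fin_cases i <;> fin_cases k <;> simp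
      | succ j ih =>
        rw [pow_succ, ih]
        ext i k; fin_cases i <;> fin_cases k <;> simp [Matrix.mul_apply, Fin.sum_univ_three, pow_succ]
        ring
    refine mem_of_dvd !![a, a, 0; 0, a, 0; 0, 0, (a ^ 2)⁻¹] ?_ (p * N / d) ?_ m hm
    · rw [det_fin_three]; simp; field_simp
    · rintro j ⟨c, hc⟩
      rw [hpow] at hc
      have h0 := congrFun (congrFun hc 0) 0
      have h1 := congrFun (congrFun hc 0) 1
      have h2 := congrFun (congrFun hc 2) 2
      simp [ha0] at h0 h1 h2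
      have hpj : p ∣ j := (CharP.cast_eq_zero_iff F p j).mp h1
      have h3 : a ^ (3 * j) = 1 := by
        have h4 : (a ^ 2) ^ j * c = 1 := by
          rw [← h2]; exact mul_inv_cancel₀ (pow_ne_zero _ (pow_ne_zero _ ha0))
        rw [← h0] at h4
        rw [← h4]; ring
      have h4 := ha _ h3
      have h5 : N / d ∣ j := by
        rcases hd1 with h | ⟨h, h3⟩
        · rw [h, Nat.div_one]
          have : Nat.Coprime N 3 := by
            rw [Nat.coprime_comm, Nat.coprime_iff_gcd_eq_one, ← hd, h]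
          exact this.dvd_of_dvd_mul_left h4
        · rw [h]; exact dvd_of_three _ _ h4 h3
      have hdN : d ∣ N := hd ▸ Nat.gcd_dvd_right _ _
      rw [Nat.mul_div_assoc _ hdN]
      exact (hcop.coprime_div_right hdN).mul_dvd_of_dvd_of_dvd hpj h5
  · subst hp2
    have h20 : (2 : F) = 0 := CharTwo.two_eq_zero
    obtain ⟨J, hJ⟩ : ∃ J : Matrix (Fin 3) (Fin 3) F, J = !![1, 1, 0; 0, 1, 1; 0, 0, 1] := ⟨_, rfl⟩
    have hJ2 : J ^ 2 = !![1, 0, 1; 0, 1, 0; 0, 0, 1] := by
      rw [pow_two, hJ]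
      ext i k; fin_cases i <;> fin_cases k <;> simp [Matrix.mul_apply, Fin.sum_univ_three]
      all_goals (ring_nf; exact h20)
    have hJ4 : J ^ 4 = 1 := by
      rw [show (4 : ℕ) = 2 + 2 by norm_num, pow_add, hJ2]
      ext i k; fin_cases i <;> fin_cases k <;> simp [Matrix.mul_apply, Fin.sum_univ_three]
      all_goals (ring_nf; exact h20)
    have hJ2n : ¬ ∃ c : F, J ^ 2 = c • 1 := by
      rintro ⟨c, hc⟩
      rw [hJ2] at hc
      have := congrFun (congrFun hc 0) 2
      simp at this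
    refine mem_of_dvd J (by rw [hJ, det_fin_three]; simp) 4 ?_ m hm
    rintro j ⟨c, hc⟩
    rw [← Nat.div_add_mod j 4, pow_add, pow_mul, hJ4, one_pow, one_mul] at hc
    have hlt := Nat.mod_lt j (show 0 < 4 by norm_num)
    rw [Nat.dvd_iff_mod_eq_zero]
    obtain ⟨r, hr⟩ : ∃ r, r = j % 4 := ⟨_, rfl⟩
    rw [← hr] at hc hlt ⊢
    interval_cases r
    · rfl
    · exfalso; apply hJ2n
      refine ⟨c ^ 2, ?_⟩
      have h1 : (J ^ 1) ^ 2 = (c • 1) ^ 2 := by rw [hc]
      rw [_root_.smul_pow, one_pow, pow_one] at h1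
      exact h1
    · exact absurd ⟨c, hc⟩ hJ2n
    · exfalso; apply hJ2n
      refine ⟨c ^ 2, ?_⟩
      have h1 : (J ^ 3) ^ 2 = (c • 1) ^ 2 := by rw [hc]
      rw [_root_.smul_pow, one_pow, ← pow_mul, show 3 * 2 = 4 + 2 by norm_num, pow_add, hJ4, one_mul] at h1
      exact h1

/-- The set of element orders of PSL(3,q): let F be a finite field of characteristic p with q elements and d = gcd(3, q − 1). The orders of elements of PSL(3,F) are exactly the divisors of (q² + q + 1)/d, of (q² − 1)/d, of q − 1, of p(q − 1)/d, and, when p = 2, of 4. -/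
theorem result {F : Type*} [Field F] [Fintype F] (p : ℕ) [Fact p.Prime] [CharP F p] :
    Set.range (orderOf : Matrix.ProjectiveSpecialLinearGroup (Fin 3) F → ℕ) =
      {m : ℕ | m ∣ (Fintype.card F ^ 2 + Fintype.card F + 1) / Nat.gcd 3 (Fintype.card F - 1) ∨
        m ∣ (Fintype.card F ^ 2 - 1) / Nat.gcd 3 (Fintype.card F - 1) ∨ m ∣ Fintype.card F - 1 ∨
        m ∣ p * (Fintype.card F - 1) / Nat.gcd 3 (Fintype.card F - 1) ∨ (p = 2 ∧ m ∣ 4)} := by
  obtain ⟨N, hN⟩ : ∃ N, Fintype.card F = N + 1 := ⟨Fintype.card F - 1, by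
    have : 1 < Fintype.card F := Fintype.one_lt_card
    omega⟩
  obtain ⟨d, hd⟩ : ∃ d, d = Nat.gcd 3 N := ⟨_, rfl⟩
  ext m
  rw [Set.mem_ofPred_eq, hN, Nat.add_sub_cancel, ← hd, show (N + 1) ^ 2 + (N + 1) + 1 = N ^ 2 + 3 * N + 3 by ring,
    show (N + 1) ^ 2 - 1 = N ^ 2 + 2 * N by apply Nat.sub_eq_of_eq_add; ring]
  constructor
  · rintro ⟨g, rfl⟩
    obtain ⟨A, rfl⟩ := QuotientGroup.mk_surjective g
    obtain ⟨j, hj, hcase⟩ := upper p N d hN hd (A : Matrix (Fin 3) (Fin 3) F) A.2
    have h1 : orderOf (QuotientGroup.mk A : Matrix.ProjectiveSpecialLinearGroup (Fin 3) F) ∣ j := by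
      apply orderOf_dvd_of_pow_eq_one
      rw [← QuotientGroup.mk_pow, mk_eq_one_iff, Matrix.SpecialLinearGroup.coe_pow]
      exact hj
    rcases hcase with h | h | h | h | ⟨h, h'⟩
    · left; rw [← h]; exact h1
    · right; left; rw [← h]; exact h1
    · right; right; left; rw [← h]; exact h1
    · right; right; right; left; exact h1.trans h
    · right; right; right; right; exact ⟨h, h' ▸ h1⟩
  · exact lower p N d hN hd m

end Cfsg.Agent.S2476
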