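import Cfsg.Statements.S2479
import Mathlib
import Cfsg.Agent.H43.LabSL2
import Cfsg.Agent.H43.NumSL

set_option autoImplicit false
open Cfsg

namespace Cfsg.Agent.S2479

/-- The number of conjugacy classes of SL(n,q): for F a finite field with q elements, the number k of conjugacy classes of SL(n,F) satisfies q^(n−1) < k and k ≤ (5/2)·q^(n−1) for n ≥ 2, and k ≤ q^(n−1) + 3q^(n−2) for n ≥ 3. -/
theorem result {F : Type*} [Field F] [Fintype F] (n : ℕ) (hn : 2 ≤ n) :
    Fintype.card F ^ (n - 1) < Nat.card (ConjClasses (Matrix.SpecialLinearGroup (Fin n) F)) ∧ 2 * Nat.card (ConjClasses (Matrix.SpecialLinearGroup (Fin n) F)) ≤ 5 * Fintype.card F ^ (n - 1) ∧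
      (3 ≤ n → Nat.card (ConjClasses (Matrix.SpecialLinearGroup (Fin n) F)) ≤ Fintype.card F ^ (n - 1) + 3 * Fintype.card F ^ (n - 2)) := by
  classical
  have hq : 2 ≤ Fintype.card F := Fintype.one_lt_card
  have h1 := Cfsg.Agent.H43.card_conjClasses_SL_ge (F := F) n hn
  have h2 := Cfsg.Agent.H43.card_conjClasses_SL_le (F := F) n (by omega)
  have h3 : 3 ≤ n → Nat.card (ConjClasses (Matrix.SpecialLinearGroup (Fin n) F)) ≤ Fintype.card F ^ (n - 1) + 3 * Fintype.card F ^ (n - 2) :=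
    fun h => Cfsg.Agent.H43.num_bound_three _ n _ hq h h2
  refine ⟨by omega, ?_, h3⟩
  rcases Nat.lt_or_ge 2 n with hn2 | hn2
  · have h4 := h3 (by omega)
    obtain ⟨m, rfl⟩ : ∃ m, n = m + 2 := ⟨n - 2, by omega⟩
    have e1 : m + 2 - 1 = m + 1 := by omega
    rw [e1, Nat.add_sub_cancel] at h4
    rw [e1]
    have h5 : 2 * Fintype.card F ^ m ≤ Fintype.card F ^ (m + 1) := by
      rw [pow_succ, mul_comm 2]
      exact Nat.mul_le_mul_left _ hq
    omega
  · obtain rfl : n = 2 := by omega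
    obtain ⟨h4, h5⟩ := Cfsg.Agent.H43.num_bound_two _ _ hq h2
    have e1 : (2 : ℕ) - 1 = 1 := rfl
    rw [e1, pow_one]
    by_cases h6 : 2 ∣ Fintype.card F - 1
    · omega
    · have := h5 h6
      omega

end Cfsg.Agent.S2479
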