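import Cfsg.Statements.S2481
import Cfsg.Agent.H43.DagLower
import Cfsg.Agent.H43.NumSU

set_option autoImplicit false
open Cfsg

namespace Cfsg.Agent.S2481

/-- The number of conjugacy classes of SU(n,q): for n ≥ 2, q a prime power and F the field with q² elements, the number k of conjugacy classes of SU(n,q) (the determinant-one isometries of the standard Hermitian form on F^n) satisfies q^(n−1) ≤ k ≤ 8.26·q^(n−1). -/
theorem result {F : Type*} [Field F] [Fintype F] (n q : ℕ) (hn : 2 ≤ n) (hF : Fintype.card F = q ^ 2) :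
    q ^ (n - 1) ≤ Nat.card (ConjClasses (Cfsg.SU n F q)) ∧ 100 * Nat.card (ConjClasses (Cfsg.SU n F q)) ≤ 826 * q ^ (n - 1) := by
  classical
  refine ⟨Cfsg.Agent.H43.card_conjClasses_SU_ge hF n (by omega), ?_⟩
  have hq2 : 2 ≤ q := by
    have h2 : 1 < Fintype.card F := Fintype.one_lt_card
    rw [hF] at h2
    by_contra h3
    have : q ≤ 1 := by omega
    have h4 : q ^ 2 ≤ 1 ^ 2 := Nat.pow_le_pow_left this 2
    omega
  have hc0 := Cfsg.Agent.H43.card_PolU_zero (Cfsg.Agent.ClGeo.frob hF)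
  have hc := fun d => Cfsg.Agent.H43.card_PolU (Cfsg.Agent.ClGeo.frob hF) (Cfsg.Agent.ClGeo.frob_frob hF) (Cfsg.Agent.ClGeo.frob_ne_id hF) (q := q)
    (by rw [Nat.card_eq_fintype_card, hF]) (Cfsg.Agent.H43.card_nO hF) d
  have hfin : ∀ m, Finite (Cfsg.Agent.H43.LabT (Cfsg.Agent.H43.degU (Cfsg.Agent.ClGeo.frob hF)) n m) := by
    intro m
    by_cases h : q = 2
    · subst h
      exact (Cfsg.Agent.H43.mass_two _ hc0 hc n m).1
    · exact (Cfsg.Agent.H43.mass_three _ q (by omega) hc0 hc n m).1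
  have hmain := Cfsg.Agent.H43.card_conjClasses_SU_le hF n (by omega)
    (fun m => Nat.card (Cfsg.Agent.H43.LabT (Cfsg.Agent.H43.degU (Cfsg.Agent.ClGeo.frob hF)) n m)) (fun m => ⟨hfin m, le_rfl⟩)
  by_cases h : q = 2
  · subst h
    have hT := Cfsg.Agent.H43.mass_two _ hc0 hc
    have htr : ∀ m K, m ≤ K → Nat.card (Cfsg.Agent.H43.LabT (Cfsg.Agent.H43.degU (Cfsg.Agent.ClGeo.frob hF)) K m) ≤
        Nat.card (Cfsg.Agent.H43.LabT (Cfsg.Agent.H43.degU (Cfsg.Agent.ClGeo.frob hF)) m m) := by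
      intro m K hmK
      induction K, hmK using Nat.le_induction with
      | base => exact le_rfl
      | succ K hK ih => exact (Cfsg.Agent.H43.card_LabT_trunc _ hc0.1 hc0.2 K m hK (hT K m).1).trans ih
    refine Cfsg.Agent.H43.num_SU_two n _ hn _ (fun m => (hT n m).2.1) ?_ ?_ hmain
    · refine (htr 1 n (by omega)).trans ?_
      rcases (hT 1 1).2.2.1 rfl with h | h
      · simpa using h
      · omega
    · refine (htr 2 n hn).trans ?_
      have h := (hT 2 2).2.2.2 rfl
      omega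
  · exact Cfsg.Agent.H43.num_SU_three q n _ (by omega) hn _ (fun m => (Cfsg.Agent.H43.mass_three _ q (by omega) hc0 hc n m).2) hmain

end Cfsg.Agent.S2481
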