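import Cfsg.Statements.S2485
import Mathlib

set_option autoImplicit false
open scoped Pointwise
open Cfsg

namespace Cfsg.Agent.S2485

open Matrix

theorem glext {F : Type*} [Field F] {A B : GL (Fin 2) F} (h00 : A 0 0 = B 0 0) (h01 : A 0 1 = B 0 1)
    (h10 : A 1 0 = B 1 0) (h11 : A 1 1 = B 1 1) : A = B := by
  apply Units.ext
  ext i j
  fin_cases i <;> fin_cases j <;> assumption

theorem gl_mul_00 {F : Type*} [Field F] (A B : GL (Fin 2) F) : (A * B) 0 0 = A 0 0 * B 0 0 + A 0 1 * B 1 0 := by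
  simp [Matrix.mul_apply, Fin.sum_univ_two]
theorem gl_mul_01 {F : Type*} [Field F] (A B : GL (Fin 2) F) : (A * B) 0 1 = A 0 0 * B 0 1 + A 0 1 * B 1 1 := by
  simp [Matrix.mul_apply, Fin.sum_univ_two]
theorem gl_mul_10 {F : Type*} [Field F] (A B : GL (Fin 2) F) : (A * B) 1 0 = A 1 0 * B 0 0 + A 1 1 * B 1 0 := by
  simp [Matrix.mul_apply, Fin.sum_univ_two]
theorem gl_mul_11 {F : Type*} [Field F] (A B : GL (Fin 2) F) : (A * B) 1 1 = A 1 0 * B 0 1 + A 1 1 * B 1 1 := by
  simp [Matrix.mul_apply, Fin.sum_univ_two]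

theorem gl_det {F : Type*} [Field F] (A : GL (Fin 2) F) : A 0 0 * A 1 1 - A 0 1 * A 1 0 ≠ 0 := by
  have h := A.isUnit.map (Matrix.detMonoidHom (n := Fin 2) (R := F))
  have h2 : (A : Matrix (Fin 2) (Fin 2) F).det ≠ 0 := h.ne_zero
  rwa [Matrix.det_fin_two] at h2

/-- The matrix `J` of order four. -/
noncomputable def J (F : Type*) [Field F] : GL (Fin 2) F :=
  Matrix.GeneralLinearGroup.mkOfDetNeZero !![0, -1; 1, 0] (by simp)

@[simp] theorem J00 {F : Type*} [Field F] : (J F) 0 0 = 0 := rfl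
@[simp] theorem J01 {F : Type*} [Field F] : (J F) 0 1 = -1 := rfl
@[simp] theorem J10 {F : Type*} [Field F] : (J F) 1 0 = 1 := rfl
@[simp] theorem J11 {F : Type*} [Field F] : (J F) 1 1 = 0 := rfl

/-- Equality in `PGL₂`. -/
theorem mk_eq_iff {F : Type*} [Field F] {A B : GL (Fin 2) F} :
    (QuotientGroup.mk A : GL (Fin 2) F ⧸ Subgroup.center (GL (Fin 2) F)) = QuotientGroup.mk B ↔
      ∃ c : F, c ≠ 0 ∧ ∀ i j, B i j = c * A i j := by
  rw [QuotientGroup.eq, Matrix.GeneralLinearGroup.mem_center_iff_val_mem_range_scalar]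
  constructor
  · rintro ⟨c, hc⟩
    have h1 : (B : Matrix (Fin 2) (Fin 2) F) = c • (A : Matrix (Fin 2) (Fin 2) F) := by
      have : (B : Matrix (Fin 2) (Fin 2) F) = (A : Matrix (Fin 2) (Fin 2) F) * ((A⁻¹ * B : GL (Fin 2) F) : Matrix (Fin 2) (Fin 2) F) := by
        rw [← Units.val_mul, mul_inv_cancel_left]
      rw [this, ← hc]
      ext i j
      simp [Matrix.scalar_apply, mul_comm]
    refine ⟨c, ?_, fun i j => by rw [h1]; rfl⟩
    rintro rfl
    have := gl_det B
    rw [h1] at this
    simp at this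
  · rintro ⟨c, hc, h⟩
    refine ⟨c, ?_⟩
    have h1 : (B : Matrix (Fin 2) (Fin 2) F) = (A : Matrix (Fin 2) (Fin 2) F) * Matrix.scalar (Fin 2) c := by
      ext i j
      rw [h i j]
      simp [Matrix.scalar_apply, mul_comm]
    rw [Units.val_mul, h1, ← mul_assoc, ← Units.val_mul, inv_mul_cancel, Units.val_one, one_mul]

section

variable {F : Type*} [Field F] (hns : ∀ c : F, c ^ 2 ≠ -1)

include hns

theorem sq_add_sq {a b : F} (h : a ^ 2 + b ^ 2 = 0) : a = 0 ∧ b = 0 := by
  by_cases hb : b = 0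
  · subst hb
    simp at h
    exact ⟨h, rfl⟩
  · exfalso
    apply hns (a / b)
    field_simp
    linear_combination h

theorem card_cent_J [Fintype F] : Nat.card (Subgroup.centralizer ({J F} : Set (GL (Fin 2) F))) = Fintype.card F ^ 2 - 1 := by
  classical
  have e : Subgroup.centralizer ({J F} : Set (GL (Fin 2) F)) ≃ {v : F × F // v ≠ 0} := by
    refine Equiv.ofBijective (fun g => ⟨((g : GL (Fin 2) F) 0 0, (g : GL (Fin 2) F) 1 0), ?_⟩) ⟨?_, ?_⟩
    · intro h
      have h1 : (g : GL (Fin 2) F) 0 0 = 0 := congrArg Prod.fst h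
      have h2 : (g : GL (Fin 2) F) 1 0 = 0 := congrArg Prod.snd h
      have := gl_det (g : GL (Fin 2) F)
      rw [h1, h2] at this
      simp at this
    · rintro ⟨g, hg⟩ ⟨g', hg'⟩ h
      rw [Subgroup.mem_centralizer_singleton_iff] at hg hg'
      have h1 : g 0 0 = g' 0 0 := congrArg (fun x => x.1.1) h
      have h2 : g 1 0 = g' 1 0 := congrArg (fun x => x.1.2) h
      have a1 := congrArg (fun M : GL (Fin 2) F => M 0 0) hg
      have a2 := congrArg (fun M : GL (Fin 2) F => M 1 0) hg
      have b1 := congrArg (fun M : GL (Fin 2) F => M 0 0) hg'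
      have b2 := congrArg (fun M : GL (Fin 2) F => M 1 0) hg'
      simp only [gl_mul_00, gl_mul_10, J00, J01, J10, J11] at a1 a2 b1 b2
      apply Subtype.ext
      apply glext
      · exact h1
      · linear_combination a1 - b1 - h2
      · exact h2
      · linear_combination a2 - b2 + h1
    · rintro ⟨⟨a, b⟩, hv⟩
      have hdet : (!![a, -b; b, a] : Matrix (Fin 2) (Fin 2) F).det ≠ 0 := by
        rw [Matrix.det_fin_two_of]
        intro h
        obtain ⟨ha, hb⟩ := sq_add_sq hns (a := a) (b := b) (by linear_combination h)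
        exact hv (by rw [ha, hb]; rfl)
      refine ⟨⟨Matrix.GeneralLinearGroup.mkOfDetNeZero _ hdet, ?_⟩, rfl⟩
      rw [Subgroup.mem_centralizer_singleton_iff]
      apply glext <;> simp only [gl_mul_00, gl_mul_01, gl_mul_10, gl_mul_11, J00, J01, J10, J11] <;>
        simp [Matrix.GeneralLinearGroup.mkOfDetNeZero]
  rw [Nat.card_congr e, Nat.card_eq_fintype_card]
  have := Set.card_ne_eq (0 : F × F)
  rw [Fintype.card_prod] at this
  rw [pow_two, ← this]
  exact Fintype.card_congr (Equiv.refl _)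

theorem eq_zero_of_mulVec_eq_zero {A U : Matrix (Fin 2) (Fin 2) F} (hA : A * A = -1)
    (hU : U * A = -(A * U)) (hdet : U.det = 0) : U = 0 := by
  obtain ⟨v, hv, hUv⟩ := Matrix.exists_mulVec_eq_zero_iff.mpr hdet
  set w := A *ᵥ v with hw
  have hUw : U *ᵥ w = 0 := by
    rw [hw, Matrix.mulVec_mulVec, hU, Matrix.neg_mulVec, ← Matrix.mulVec_mulVec, hUv]
    simp
  have hAw : A *ᵥ w = -v := by
    rw [hw, Matrix.mulVec_mulVec, hA, Matrix.neg_mulVec, Matrix.one_mulVec]
  by_cases hP : (!![v 0, w 0; v 1, w 1] : Matrix (Fin 2) (Fin 2) F).det = 0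
  · exfalso
    rw [Matrix.det_fin_two_of] at hP
    have key : ∀ c : F, w = c • v → False := by
      intro c hc
      have h1 : A *ᵥ w = c • w := by
        nth_rewrite 1 [hc]
        rw [Matrix.mulVec_smul]
      rw [hAw] at h1
      nth_rewrite 1 [hc] at h1
      rw [smul_smul] at h1
      have h2 : (c * c + 1) • v = 0 := by
        rw [add_smul, ← h1]; simp
      rcases smul_eq_zero.mp h2 with h3 | h3
      · exact hns c (by linear_combination h3)
      · exact hv h3
    by_cases h0 : v 0 = 0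
    · have h1 : v 1 ≠ 0 := by
        intro h1
        apply hv
        ext i
        fin_cases i
        · exact h0
        · exact h1
      apply key (w 1 / v 1)
      ext i
      fin_cases i
      · simp only [Fin.zero_eta, Pi.smul_apply, smul_eq_mul]
        field_simp
        linear_combination -hP
      · simp only [Fin.mk_one, Pi.smul_apply, smul_eq_mul]
        field_simp
    · apply key (w 0 / v 0)
      ext i
      fin_cases i
      · simp only [Fin.zero_eta, Pi.smul_apply, smul_eq_mul]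
        field_simp
      · simp only [Fin.mk_one, Pi.smul_apply, smul_eq_mul]
        field_simp
        linear_combination hP
  · have hmul : U * !![v 0, w 0; v 1, w 1] = 0 := by
      ext i j
      have a1 := congrFun hUv i
      have a2 := congrFun hUw i
      simp only [Matrix.mulVec, dotProduct, Fin.sum_univ_two, Pi.zero_apply] at a1 a2
      fin_cases j
      · simp [Matrix.mul_apply, Fin.sum_univ_two]
        linear_combination a1
      · simp [Matrix.mul_apply, Fin.sum_univ_two]
        linear_combination a2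
    have hunit : IsUnit (!![v 0, w 0; v 1, w 1] : Matrix (Fin 2) (Fin 2) F) := by
      rw [Matrix.isUnit_iff_isUnit_det]
      exact isUnit_iff_ne_zero.mpr hP
    exact (hunit.mul_left_eq_zero).mp hmul

end

theorem J_sq {F : Type*} [Field F] : ((J F : GL (Fin 2) F) : Matrix (Fin 2) (Fin 2) F) * (J F : GL (Fin 2) F) = -1 := by
  ext i j
  fin_cases i <;> fin_cases j <;> simp [Matrix.mul_apply, Fin.sum_univ_two]

/-- `D = diag(1,-1)`. -/
noncomputable def D (F : Type*) [Field F] : GL (Fin 2) F :=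
  Matrix.GeneralLinearGroup.mkOfDetNeZero !![1, 0; 0, -1] (by simp)

@[simp] theorem D00 {F : Type*} [Field F] : (D F) 0 0 = 1 := rfl
@[simp] theorem D01 {F : Type*} [Field F] : (D F) 0 1 = 0 := rfl
@[simp] theorem D10 {F : Type*} [Field F] : (D F) 1 0 = 0 := rfl
@[simp] theorem D11 {F : Type*} [Field F] : (D F) 1 1 = -1 := rfl

/-- The preimage in `GL₂` of the centralizer of the image of `J`. -/
noncomputable def M (F : Type*) [Field F] : Subgroup (GL (Fin 2) F) :=
  (Subgroup.centralizer ({(QuotientGroup.mk (J F) : GL (Fin 2) F ⧸ Subgroup.center (GL (Fin 2) F))} :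
    Set (GL (Fin 2) F ⧸ Subgroup.center (GL (Fin 2) F)))).comap (QuotientGroup.mk' _)

theorem mem_M_iff {F : Type*} [Field F] (g : GL (Fin 2) F) :
    g ∈ M F ↔ ∃ c : F, c ≠ 0 ∧ ∀ i j, (J F * g) i j = c * (g * J F) i j := by
  rw [M, Subgroup.mem_comap, Subgroup.mem_centralizer_singleton_iff, ← mk_eq_iff]
  rfl

theorem mem_M_cases {F : Type*} [Field F] {g : GL (Fin 2) F} (hg : g ∈ M F) :
    (∀ i j, (J F * g) i j = (g * J F) i j) ∨ (∀ i j, (J F * g) i j = - (g * J F) i j) := by
  obtain ⟨c, hc, h⟩ := (mem_M_iff g).mp hg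
  have hd := gl_det g
  have h00 := h 0 0
  have h01 := h 0 1
  have h10 := h 1 0
  have h11 := h 1 1
  simp only [gl_mul_00, gl_mul_01, gl_mul_10, gl_mul_11, J00, J01, J10, J11] at h00 h01 h10 h11
  have e10 : g 1 0 = - (c * g 0 1) := by linear_combination -h00
  have e11 : g 1 1 = c * g 0 0 := by linear_combination -h01
  have e00 : g 0 0 = c * g 1 1 := by linear_combination h10
  have key : (c - 1) * (c + 1) * (g 0 0 * g 1 1 - g 0 1 * g 1 0) = 0 := by
    have e01 : g 0 1 = - (c * g 1 0) := by linear_combination h11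
    have h1 : (c * g 0 0) * (c * g 1 1) - (c * g 0 1) * (c * g 1 0) = g 0 0 * g 1 1 - g 0 1 * g 1 0 := by
      rw [← e00, ← e11, show c * g 0 1 = - g 1 0 by linear_combination e10, show c * g 1 0 = - g 0 1 by linear_combination e01]
      ring
    linear_combination h1
  rcases mul_eq_zero.mp key with h1 | h1
  · rcases mul_eq_zero.mp h1 with h2 | h2
    · left
      have : c = 1 := by linear_combination h2
      intro i j
      rw [h i j, this, one_mul]
    · right
      have : c = -1 := by linear_combination h2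
      intro i j
      rw [h i j, this]; ring
  · exact absurd h1 hd

theorem cent_relIndex {F : Type*} [Field F] (h2 : (2 : F) ≠ 0) :
    (Subgroup.centralizer ({J F} : Set (GL (Fin 2) F))).relIndex (M F) = 2 := by
  have hD : D F ∈ M F := by
    rw [mem_M_iff]
    refine ⟨-1, by simp, ?_⟩
    intro i j
    fin_cases i <;> fin_cases j <;>
      simp only [Fin.zero_eta, Fin.mk_one, gl_mul_00, gl_mul_01, gl_mul_10, gl_mul_11, J00, J01, J10, J11, D00, D01, D10, D11] <;> ring
  rw [Subgroup.relIndex, Subgroup.index_eq_two_iff]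
  refine ⟨⟨D F, hD⟩, ?_⟩
  rintro ⟨g, hg⟩
  rw [Subgroup.mem_subgroupOf, Subgroup.mem_subgroupOf]
  simp only [Subgroup.coe_mul]
  rw [Subgroup.mem_centralizer_singleton_iff, Subgroup.mem_centralizer_singleton_iff]
  rcases mem_M_cases hg with h | h
  · right
    have h00 := h 0 0
    have h01 := h 0 1
    have h10 := h 1 0
    have h11 := h 1 1
    simp only [gl_mul_00, gl_mul_01, gl_mul_10, gl_mul_11, J00, J01, J10, J11] at h00 h01 h10 h11
    constructor
    · apply glext <;> simp only [gl_mul_00, gl_mul_01, gl_mul_10, gl_mul_11, J00, J01, J10, J11]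
      · linear_combination -h00
      · linear_combination -h01
      · linear_combination -h10
      · linear_combination -h11
    · intro h'
      have a1 := congrArg (fun M : GL (Fin 2) F => M 0 0) h'
      have a2 := congrArg (fun M : GL (Fin 2) F => M 0 1) h'
      simp only [gl_mul_00, gl_mul_01, gl_mul_10, gl_mul_11, J00, J01, J10, J11, D00, D01, D10, D11] at a1 a2
      have hd := gl_det g
      apply hd
      have e1 : 2 * g 0 1 = 0 := by linear_combination -a1 - h00
      have e2 : 2 * g 0 0 = 0 := by linear_combination -a2 + h01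
      have e1' := (mul_eq_zero.mp e1).resolve_left h2
      have e2' := (mul_eq_zero.mp e2).resolve_left h2
      rw [e1', e2']; ring
  · left
    have h00 := h 0 0
    have h01 := h 0 1
    have h10 := h 1 0
    have h11 := h 1 1
    simp only [gl_mul_00, gl_mul_01, gl_mul_10, gl_mul_11, J00, J01, J10, J11] at h00 h01 h10 h11
    constructor
    · apply glext <;> simp only [gl_mul_00, gl_mul_01, gl_mul_10, gl_mul_11, J00, J01, J10, J11, D00, D01, D10, D11]
      · linear_combination -h00
      · linear_combination h01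
      · linear_combination -h10
      · linear_combination h11
    · intro h'
      have a1 := congrArg (fun M : GL (Fin 2) F => M 0 0) h'
      have a2 := congrArg (fun M : GL (Fin 2) F => M 0 1) h'
      simp only [gl_mul_00, gl_mul_01, gl_mul_10, gl_mul_11, J00, J01, J10, J11] at a1 a2
      have hd := gl_det g
      apply hd
      have e1 : 2 * g 0 1 = 0 := by linear_combination a1 + h00
      have e2 : 2 * g 0 0 = 0 := by linear_combination -a2 - h01
      have e1' := (mul_eq_zero.mp e1).resolve_left h2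
      have e2' := (mul_eq_zero.mp e2).resolve_left h2
      rw [e1', e2']; ring

/-- Two elements of `PGL₂` lifting to matrices of square `-1` commute with a common nontrivial element. -/
theorem exists_common {F : Type*} [Field F] (h2 : (2 : F) ≠ 0) (hns : ∀ c : F, c ^ 2 ≠ -1) (A B : GL (Fin 2) F)
    (hA : (A : Matrix (Fin 2) (Fin 2) F) * A = -1) (hB : (B : Matrix (Fin 2) (Fin 2) F) * B = -1) :
    ∃ y : GL (Fin 2) F ⧸ Subgroup.center (GL (Fin 2) F), y ≠ 1 ∧
      y * QuotientGroup.mk A = QuotientGroup.mk A * y ∧ y * QuotientGroup.mk B = QuotientGroup.mk B * y := by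
  by_cases hc : A * B = B * A
  · refine ⟨QuotientGroup.mk A, ?_, rfl, ?_⟩
    · intro h
      rw [show (1 : GL (Fin 2) F ⧸ Subgroup.center (GL (Fin 2) F)) = QuotientGroup.mk 1 from rfl, eq_comm, mk_eq_iff] at h
      obtain ⟨c, hc0, h⟩ := h
      have e : (A : Matrix (Fin 2) (Fin 2) F) = c • (1 : Matrix (Fin 2) (Fin 2) F) := by
        ext i j
        rw [h i j]; rfl
      rw [e] at hA
      have := congrFun (congrFun hA 0) 0
      simp at this
      exact hns c (by linear_combination this)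
    · rw [← QuotientGroup.mk_mul, ← QuotientGroup.mk_mul, hc]
  · set U : Matrix (Fin 2) (Fin 2) F := (A : Matrix (Fin 2) (Fin 2) F) * B - B * A with hU
    have hU0 : U ≠ 0 := by
      intro h
      apply hc
      apply Units.ext
      rw [Units.val_mul, Units.val_mul]
      exact sub_eq_zero.mp h
    have hUA : U * A = -((A : Matrix (Fin 2) (Fin 2) F) * U) := by
      rw [hU, sub_mul, mul_sub, mul_assoc (B : Matrix (Fin 2) (Fin 2) F), hA, ← mul_assoc (A : Matrix (Fin 2) (Fin 2) F) A, hA]
      simp [mul_assoc] <;> abel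
    have hUB : U * B = -((B : Matrix (Fin 2) (Fin 2) F) * U) := by
      rw [hU, sub_mul, mul_sub, mul_assoc (A : Matrix (Fin 2) (Fin 2) F), hB, ← mul_assoc (B : Matrix (Fin 2) (Fin 2) F) B, hB]
      simp [mul_assoc] <;> abel
    have hdet : U.det ≠ 0 := fun h => hU0 (eq_zero_of_mulVec_eq_zero hns hA hUA h)
    set u : GL (Fin 2) F := Matrix.GeneralLinearGroup.mkOfDetNeZero U hdet with hu
    have huU : (u : Matrix (Fin 2) (Fin 2) F) = U := rfl
    have htr : U 0 0 + U 1 1 = 0 := by
      have : Matrix.trace U = 0 := by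
        rw [hU, Matrix.trace_sub, Matrix.trace_mul_comm, sub_self]
      rwa [Matrix.trace_fin_two] at this
    refine ⟨QuotientGroup.mk u, ?_, ?_, ?_⟩
    · intro h
      rw [show (1 : GL (Fin 2) F ⧸ Subgroup.center (GL (Fin 2) F)) = QuotientGroup.mk 1 from rfl, eq_comm, mk_eq_iff] at h
      obtain ⟨c, hc0, h⟩ := h
      have e00 := h 0 0
      have e11 := h 1 1
      rw [huU] at e00 e11
      simp at e00 e11
      rw [e00, e11] at htr
      have : 2 * c = 0 := by linear_combination htr
      exact hc0 ((mul_eq_zero.mp this).resolve_left h2)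
    · rw [← QuotientGroup.mk_mul, ← QuotientGroup.mk_mul, mk_eq_iff]
      refine ⟨-1, by simp, fun i j => ?_⟩
      have h1 : ((A * u : GL (Fin 2) F) : Matrix (Fin 2) (Fin 2) F) = - ((u * A : GL (Fin 2) F) : Matrix (Fin 2) (Fin 2) F) := by
        rw [Units.val_mul, Units.val_mul, huU, hUA, neg_neg]
      rw [h1]; simp
    · rw [← QuotientGroup.mk_mul, ← QuotientGroup.mk_mul, mk_eq_iff]
      refine ⟨-1, by simp, fun i j => ?_⟩
      have h1 : ((B * u : GL (Fin 2) F) : Matrix (Fin 2) (Fin 2) F) = - ((u * B : GL (Fin 2) F) : Matrix (Fin 2) (Fin 2) F) := by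
        rw [Units.val_mul, Units.val_mul, huU, hUB, neg_neg]
      rw [h1]; simp

theorem card_gl2 (F : Type*) [Field F] [Fintype F] :
    Nat.card (GL (Fin 2) F) = (Fintype.card F ^ 2 - 1) * (Fintype.card F ^ 2 - Fintype.card F) := by
  rw [Matrix.card_GL_field]
  simp [Fin.prod_univ_two]

theorem card_center_gl2 (F : Type*) [Field F] [Fintype F] :
    Nat.card (Subgroup.center (GL (Fin 2) F)) = Fintype.card F - 1 := by
  rw [Matrix.GeneralLinearGroup.center_eq_range_scalar]
  have hinj : Function.Injective (Matrix.GeneralLinearGroup.scalar (Fin 2) (R := F)) := by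
    intro a b h
    have := congrArg (fun M : GL (Fin 2) F => M 0 0) h
    simp at this
    exact Units.ext this
  rw [← Nat.card_congr (MonoidHom.ofInjective hinj).toEquiv, Nat.card_units, Nat.card_eq_fintype_card]

abbrev PG (q : ℕ) [Fact q.Prime] := GL (Fin 2) (ZMod q) ⧸ Subgroup.center (GL (Fin 2) (ZMod q))

/-- Let q = 2^k − 1 ≥ 7 be a prime and let G = PGL(2,q), the general linear group of degree 2 over the field with q elements modulo its centre. Then any two Sylow 2-subgroups of G have a non-trivial intersection: for a Sylow 2-subgroup H and every x ∈ G, H ∩ H^x ≠ 1. -/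
theorem result {q k : ℕ} [Fact q.Prime] (hk : q + 1 = 2 ^ k) (hq : 7 ≤ q)
    (H : Sylow 2 (GL (Fin 2) (ZMod q) ⧸ Subgroup.center (GL (Fin 2) (ZMod q))))
    (x : GL (Fin 2) (ZMod q) ⧸ Subgroup.center (GL (Fin 2) (ZMod q))) :
    (H : Subgroup (GL (Fin 2) (ZMod q) ⧸ Subgroup.center (GL (Fin 2) (ZMod q)))) ⊓ MulAut.conj x • (H : Subgroup _) ≠ ⊥ := by
  have hqp : q.Prime := Fact.out
  obtain ⟨l, rfl⟩ : ∃ l, k = l + 3 := by
    refine ⟨k - 3, ?_⟩
    have : 3 ≤ k := by
      by_contra hcon
      have h8 : 2 ^ k ≤ 2 ^ 2 := Nat.pow_le_pow_right (by norm_num) (by omega)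
      omega
    omega
  have hq2 : q = 8 * 2 ^ l - 1 := by
    have : (2 : ℕ) ^ (l + 3) = 8 * 2 ^ l := by ring
    omega
  have hl : 1 ≤ 2 ^ l := Nat.one_le_two_pow
  have h2 : (2 : ZMod q) ≠ 0 := by
    intro h
    have : (q : ℕ) ∣ 2 := (ZMod.natCast_eq_zero_iff 2 q).mp (by exact_mod_cast h)
    have := Nat.le_of_dvd (by norm_num) this
    omega
  have hns : ∀ c : ZMod q, c ^ 2 ≠ -1 := by
    intro c hc
    have : q % 4 ≠ 3 := ZMod.exists_sq_eq_neg_one_iff.mp ⟨c, by rw [← hc]; ring⟩
    omega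
  let z0 : PG q := QuotientGroup.mk (J (ZMod q))
  have hz0 : z0 = QuotientGroup.mk (J (ZMod q)) := rfl
  let C0 : Subgroup (PG q) := Subgroup.centralizer {z0}
  have hC0 : C0 = Subgroup.centralizer {z0} := rfl
  have hcardF : Fintype.card (ZMod q) = q := ZMod.card q
  have hM1 : Nat.card (M (ZMod q)) = 2 * (q ^ 2 - 1) := by
    have h1 := cent_relIndex (F := ZMod q) h2
    have h3 := Subgroup.card_mul_index ((Subgroup.centralizer ({J (ZMod q)} : Set (GL (Fin 2) (ZMod q)))).subgroupOf (M (ZMod q)))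
    rw [Subgroup.relIndex] at h1
    rw [h1] at h3
    rw [← h3, mul_comm]
    congr 1
    have hle : Subgroup.centralizer ({J (ZMod q)} : Set (GL (Fin 2) (ZMod q))) ≤ M (ZMod q) := by
      intro g hg
      rw [Subgroup.mem_centralizer_singleton_iff] at hg
      rw [mem_M_iff]
      exact ⟨1, one_ne_zero, fun i j => by rw [hg, one_mul]⟩
    rw [Nat.card_congr (Subgroup.subgroupOfEquivOfLe hle).toEquiv, card_cent_J hns, hcardF]
  have hidx : (M (ZMod q)).index = C0.index := by
    rw [M]
    exact Subgroup.index_comap_of_surjective _ (QuotientGroup.mk'_surjective _)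
  have hcardGL := card_gl2 (ZMod q)
  rw [hcardF] at hcardGL
  have hcardZ := card_center_gl2 (ZMod q)
  rw [hcardF] at hcardZ
  set N := 2 ^ l with hN
  have e1 : q ^ 2 - q = 2 * (q * (4 * N - 1)) := by
    obtain ⟨n, hn⟩ := Nat.exists_eq_add_of_le hl
    have hq3 : q = 8 * n + 7 := by omega
    rw [hq3, show 4 * N - 1 = 4 * n + 3 by omega]
    rw [pow_two, show (8 * n + 7) * (8 * n + 7) = 2 * ((8 * n + 7) * (4 * n + 3)) + (8 * n + 7) by ring]
    omega
  have hpos : 0 < q ^ 2 - 1 := by
    have : 7 ^ 2 ≤ q ^ 2 := Nat.pow_le_pow_left hq 2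
    omega
  have hindex : C0.index = q * (4 * N - 1) := by
    rw [← hidx]
    have h3 := (M (ZMod q)).card_mul_index
    rw [hM1, hcardGL, e1] at h3
    have : (2 * (q ^ 2 - 1)) * (M (ZMod q)).index = (2 * (q ^ 2 - 1)) * (q * (4 * N - 1)) := by
      rw [h3]; ring
    exact Nat.eq_of_mul_eq_mul_left (by omega) this
  have hcardG : Nat.card (PG q) = (8 * N) * (2 * (q * (4 * N - 1))) := by
    have h3 := Subgroup.card_eq_card_quotient_mul_card_subgroup (Subgroup.center (GL (Fin 2) (ZMod q)))
    rw [hcardGL, hcardZ, e1] at h3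
    have e2 : q ^ 2 - 1 = (8 * N) * (q - 1) := by
      obtain ⟨n, hn⟩ := Nat.exists_eq_add_of_le hl
      have hq3 : q = 8 * n + 7 := by omega
      rw [hq3, hn, show 8 * n + 7 - 1 = 8 * n + 6 by omega]
      rw [pow_two, show (8 * n + 7) * (8 * n + 7) = 8 * (1 + n) * (8 * n + 6) + 1 by ring]
      omega
    rw [e2] at h3
    have : Nat.card (PG q) * (q - 1) = (8 * N) * (2 * (q * (4 * N - 1))) * (q - 1) := by
      rw [← h3]; ring
    exact Nat.eq_of_mul_eq_mul_right (by omega) this
  have hcardC : Nat.card C0 = 2 ^ (l + 4) := by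
    have h3 := C0.card_mul_index
    rw [hindex, hcardG] at h3
    have : Nat.card C0 * (q * (4 * N - 1)) = 2 ^ (l + 4) * (q * (4 * N - 1)) := by
      rw [h3, pow_add, hN]; ring
    exact Nat.eq_of_mul_eq_mul_right (Nat.mul_pos (by omega) (by omega)) this
  have : Finite (PG q) := inferInstance
  have hpg : IsPGroup 2 C0 := IsPGroup.of_card hcardC
  have hnd : ¬ 2 ∣ C0.index := by
    rw [hindex, Nat.prime_two.dvd_mul]
    rintro (h | h) <;> omega
  obtain ⟨g, hg⟩ := MulAction.exists_smul_eq (PG q) (hpg.toSylow hnd) H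
  have hH : ∀ y : PG q, y ∈ H ↔ g⁻¹ * y * g ∈ C0 := by
    intro y
    rw [← hg]
    change y ∈ (MulAut.conj g • (C0 : Subgroup (PG q))) ↔ _
    rw [Subgroup.mem_pointwise_smul_iff_inv_smul_mem]
    have : (MulAut.conj g)⁻¹ • y = g⁻¹ * y * g := by
      rw [← map_inv, MulAut.smul_def, MulAut.conj_apply, inv_inv]
    rw [this]
  obtain ⟨P, rfl⟩ := QuotientGroup.mk_surjective g
  obtain ⟨X, rfl⟩ := QuotientGroup.mk_surjective x
  have hsq : ∀ P : GL (Fin 2) (ZMod q), ((P * J (ZMod q) * P⁻¹ : GL (Fin 2) (ZMod q)) : Matrix (Fin 2) (Fin 2) (ZMod q)) *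
      (P * J (ZMod q) * P⁻¹ : GL (Fin 2) (ZMod q)) = -1 := by
    intro P
    rw [← Units.val_mul, show P * J (ZMod q) * P⁻¹ * (P * J (ZMod q) * P⁻¹) = P * (J (ZMod q) * J (ZMod q)) * P⁻¹ by group]
    rw [Units.val_mul, Units.val_mul, Units.val_mul, J_sq]
    simp
  obtain ⟨y, hy1, hyA, hyB⟩ := exists_common h2 hns _ _ (hsq P) (hsq (X * P))
  have memC : ∀ (w : PG q) (P : GL (Fin 2) (ZMod q)), w * QuotientGroup.mk (P * J (ZMod q) * P⁻¹) = QuotientGroup.mk (P * J (ZMod q) * P⁻¹) * w →
      (QuotientGroup.mk P : PG q)⁻¹ * w * QuotientGroup.mk P ∈ C0 := by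
    intro w P h
    rw [hC0, Subgroup.mem_centralizer_singleton_iff]
    have e : (QuotientGroup.mk (P * J (ZMod q) * P⁻¹) : PG q) = QuotientGroup.mk P * z0 * (QuotientGroup.mk P)⁻¹ := rfl
    rw [e] at h
    calc (QuotientGroup.mk P : PG q)⁻¹ * w * QuotientGroup.mk P * z0
        = (QuotientGroup.mk P : PG q)⁻¹ * (w * (QuotientGroup.mk P * z0 * (QuotientGroup.mk P)⁻¹)) * QuotientGroup.mk P := by group
      _ = (QuotientGroup.mk P : PG q)⁻¹ * (QuotientGroup.mk P * z0 * (QuotientGroup.mk P)⁻¹ * w) * QuotientGroup.mk P := by rw [h]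
      _ = z0 * ((QuotientGroup.mk P : PG q)⁻¹ * w * QuotientGroup.mk P) := by group
  intro hbot
  apply hy1
  rw [← Subgroup.mem_bot, ← hbot, Subgroup.mem_inf]
  refine ⟨?_, ?_⟩
  · exact (hH y).mpr (memC y P hyA)
  · rw [Subgroup.mem_pointwise_smul_iff_inv_smul_mem]
    have : (MulAut.conj (QuotientGroup.mk X : PG q))⁻¹ • y = (QuotientGroup.mk X : PG q)⁻¹ * y * QuotientGroup.mk X := by
      rw [← map_inv, MulAut.smul_def, MulAut.conj_apply, inv_inv]
    rw [this]
    refine (hH _).mpr ?_
    have h3 := memC y (X * P) hyB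
    have e : (QuotientGroup.mk (X * P) : PG q)⁻¹ * y * QuotientGroup.mk (X * P) =
        (QuotientGroup.mk P : PG q)⁻¹ * ((QuotientGroup.mk X : PG q)⁻¹ * y * QuotientGroup.mk X) * QuotientGroup.mk P := by
      rw [QuotientGroup.mk_mul]; group
    rw [e] at h3
    exact h3

end Cfsg.Agent.S2485
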