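import Cfsg.Statements.S2486
import Cfsg.Agent.H41.SLTwoOpp
import Cfsg.Agent.ZJ.Core

set_option autoImplicit false
open scoped Pointwise
open Cfsg

namespace Cfsg.Agent.S2486

open Cfsg.Agent.H41
open Cfsg.Agent.Fus.SLn (U)

theorem exists_sylow_map {N S : Type*} [Group N] [Finite N] [Group S] [Finite S] (e : N ≃* S) (P : Sylow 2 N) :
    ∃ Q : Sylow 2 S, (Q : Subgroup S) = (P : Subgroup N).map e.toMonoidHom := by
  refine ⟨IsPGroup.toSylow (P := (P : Subgroup N).map e.toMonoidHom) (P.isPGroup'.map _) ?_, ?_⟩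
  · rw [Subgroup.index_map_of_bijective e.bijective]
    exact P.not_dvd_index
  · rfl

/-- Let n ≥ 4 and let G be a finite group with a normal subgroup N of index 2 isomorphic to SL(n,2) and with trivial centralizer in G (so G is the extension of the simple group L_n(2) by its inverse-transpose automorphism, its full automorphism group). Then any two Sylow 2-subgroups of G have a non-trivial intersection: for a Sylow 2-subgroup H and every x ∈ G, H ∩ H^x ≠ 1. -/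
theorem result {G : Type*} [Group G] [Finite G] {n : ℕ} (hn : 4 ≤ n) (N : Subgroup G) [N.Normal]
    (e : N ≃* Matrix.SpecialLinearGroup (Fin n) (ZMod 2)) (hidx : N.index = 2)
    (hC : Subgroup.centralizer (N : Set G) = ⊥)
    (H : Sylow 2 G) (x : G) :
    (H : Subgroup G) ⊓ MulAut.conj x • (H : Subgroup G) ≠ ⊥ := by
  classical
  intro hbot
  obtain ⟨m, rfl⟩ : ∃ m, n = m + 3 := ⟨n - 3, by omega⟩
  have : Fact (Nat.Prime 2) := ⟨Nat.prime_two⟩
  -- the two Sylow subgroups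
  obtain ⟨H', hH'⟩ : ∃ H' : Sylow 2 G, H' = x • H := ⟨_, rfl⟩
  have hH'c : (H' : Subgroup G) = MulAut.conj x • (H : Subgroup G) := by rw [hH']; rfl
  rw [← hH'c] at hbot
  -- for a Sylow subgroup `K`, `K ∩ N` is Sylow in `N`, and its normalizer outside `N` lies in `K`
  have hnotle : ∀ K : Sylow 2 G, ∃ k ∈ (K : Subgroup G), k ∉ N := by
    intro K
    by_contra hcon
    push Not at hcon
    have h1 : (K : Subgroup G) ≤ N := hcon
    have h2 : N.index ∣ (K : Subgroup G).index := Subgroup.index_dvd_of_le h1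
    rw [hidx] at h2
    exact K.not_dvd_index h2
  -- the Sylow subgroup of `SL` attached to `K`
  have hatt : ∀ K : Sylow 2 G, ∃ P : Sylow 2 N, ∃ Q : Sylow 2 (Matrix.SpecialLinearGroup (Fin (m + 3)) (ZMod 2)),
      (P : Subgroup N).map N.subtype = (K : Subgroup G) ⊓ N ∧ (Q : Subgroup (Matrix.SpecialLinearGroup (Fin (m + 3)) (ZMod 2))) = (P : Subgroup N).map e.toMonoidHom := by
    intro K
    obtain ⟨P, hP⟩ := Cfsg.Agent.ZJ.exists_sylow_map_eq_inf K N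
    obtain ⟨Q, hQ⟩ := exists_sylow_map e P
    exact ⟨P, Q, hP, hQ⟩
  -- membership
  have hmemQ : ∀ (K : Sylow 2 G) (P : Sylow 2 N) (Q : Sylow 2 (Matrix.SpecialLinearGroup (Fin (m + 3)) (ZMod 2))),
      (P : Subgroup N).map N.subtype = (K : Subgroup G) ⊓ N → (Q : Subgroup (Matrix.SpecialLinearGroup (Fin (m + 3)) (ZMod 2))) = (P : Subgroup N).map e.toMonoidHom →
      ∀ y : N, e y ∈ (Q : Subgroup (Matrix.SpecialLinearGroup (Fin (m + 3)) (ZMod 2))) ↔ (y : G) ∈ (K : Subgroup G) := by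
    intro K P Q hP hQ y
    rw [hQ]
    have h1 : e y ∈ (P : Subgroup N).map e.toMonoidHom ↔ y ∈ (P : Subgroup N) := by
      constructor
      · rintro ⟨z, hz, hzy⟩
        rwa [← e.injective hzy]
      · intro h; exact ⟨y, h, rfl⟩
    rw [h1]
    have h2 : (y : G) ∈ (P : Subgroup N).map N.subtype ↔ y ∈ (P : Subgroup N) := by
      constructor
      · rintro ⟨z, hz, hzy⟩
        rwa [← Subtype.ext hzy]
      · intro h; exact ⟨y, h, rfl⟩
    rw [← h2, hP, Subgroup.mem_inf]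
    exact ⟨fun h => h.1, fun h => ⟨h, y.2⟩⟩
  -- an element outside `N` normalizing `K ∩ N` is in `K`
  have hnorm : ∀ (K : Sylow 2 G) (g : G), g ∉ N → (∀ y : G, y ∈ N → (y ∈ (K : Subgroup G) ↔ g * y * g⁻¹ ∈ (K : Subgroup G))) →
      g ∈ (K : Subgroup G) := by
    intro K g hg hgn
    obtain ⟨k, hk, hkN⟩ := hnotle K
    obtain ⟨P, Q, hP, hQ⟩ := hatt K
    have hgk : g * k⁻¹ ∈ N := (Subgroup.mul_mem_iff_of_index_two hidx).mpr (iff_of_false hg (fun h => hkN (inv_mem_iff.mp h)))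
    -- `g k⁻¹` normalizes `K ∩ N`
    have h1 : e ⟨g * k⁻¹, hgk⟩ ∈ Subgroup.normalizer ((Q : Subgroup (Matrix.SpecialLinearGroup (Fin (m + 3)) (ZMod 2))) : Set _) := by
      rw [Subgroup.mem_normalizer_iff]
      intro z
      obtain ⟨y, rfl⟩ := e.surjective z
      rw [← map_inv, ← map_mul, ← map_mul, hmemQ K P Q hP hQ, hmemQ K P Q hP hQ]
      have h2 : ((⟨g * k⁻¹, hgk⟩ * y * ⟨g * k⁻¹, hgk⟩⁻¹ : N) : G) = g * (k⁻¹ * y * k) * g⁻¹ := by
        push_cast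
        group
      rw [h2, ← hgn (k⁻¹ * y * k) (by
        have := Subgroup.Normal.conj_mem (inferInstance : N.Normal) (y : G) y.2 k⁻¹
        simpa using this)]
      constructor
      · intro h
        exact mul_mem (mul_mem (inv_mem hk) h) hk
      · intro h
        have : (y : G) = k * (k⁻¹ * y * k) * k⁻¹ := by group
        rw [this]
        exact mul_mem (mul_mem hk h) (inv_mem hk)
    -- `Q` is self-normalizing
    have h3 : e ⟨g * k⁻¹, hgk⟩ ∈ (Q : Subgroup (Matrix.SpecialLinearGroup (Fin (m + 3)) (ZMod 2))) := by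
      obtain ⟨R, hR⟩ := exists_sylow_U (m := m)
      obtain ⟨a, ha⟩ := MulAction.exists_smul_eq (Matrix.SpecialLinearGroup (Fin (m + 3)) (ZMod 2)) R Q
      have ha' : (Q : Subgroup (Matrix.SpecialLinearGroup (Fin (m + 3)) (ZMod 2))) = MulAut.conj a • U (ZMod 2) m := by rw [← hR, ← ha]; rfl
      have h4 : a⁻¹ * e ⟨g * k⁻¹, hgk⟩ * a ∈ U (ZMod 2) m := by
        apply mem_U_of_normalizer
        rw [Subgroup.mem_normalizer_iff]
        intro z
        have h5 : ∀ w, w ∈ U (ZMod 2) m ↔ a * w * a⁻¹ ∈ (Q : Subgroup (Matrix.SpecialLinearGroup (Fin (m + 3)) (ZMod 2))) := by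
          intro w
          rw [ha', Subgroup.mem_pointwise_smul_iff_inv_smul_mem, ← map_inv, MulAut.smul_def, MulAut.conj_apply]
          constructor
          · intro h; convert h using 1; group
          · intro h; convert h using 1; group
        rw [h5, h5, Subgroup.mem_normalizer_iff.mp h1 (a * z * a⁻¹)]
        have h6 : a * (a⁻¹ * e ⟨g * k⁻¹, hgk⟩ * a * z * (a⁻¹ * e ⟨g * k⁻¹, hgk⟩ * a)⁻¹) * a⁻¹ =
            e ⟨g * k⁻¹, hgk⟩ * (a * z * a⁻¹) * (e ⟨g * k⁻¹, hgk⟩)⁻¹ := by group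
        rw [h6]
      rw [ha', Subgroup.mem_pointwise_smul_iff_inv_smul_mem, ← map_inv, MulAut.smul_def, MulAut.conj_apply]
      convert h4 using 1
      group
    have h7 : g * k⁻¹ ∈ (K : Subgroup G) := (hmemQ K P Q hP hQ ⟨g * k⁻¹, hgk⟩).mp h3
    have : g = (g * k⁻¹) * k := by group
    rw [this]
    exact mul_mem h7 hk
  -- choose an element outside `N`
  obtain ⟨t, htH, htN⟩ := hnotle H
  obtain ⟨P₁, Q₁, hP₁, hQ₁⟩ := hatt H
  obtain ⟨P₂, Q₂, hP₂, hQ₂⟩ := hatt H'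
  obtain ⟨P₃, Q₃, hP₃, hQ₃⟩ := hatt (t • H)
  obtain ⟨P₄, Q₄, hP₄, hQ₄⟩ := hatt (t • H')
  have htmem : ∀ (K : Sylow 2 G) (y : G), y ∈ ((t • K : Sylow 2 G) : Subgroup G) ↔ t⁻¹ * y * t ∈ (K : Subgroup G) := by
    intro K y
    have h1 : ((t • K : Sylow 2 G) : Subgroup G) = MulAut.conj t • (K : Subgroup G) := rfl
    rw [h1, Subgroup.mem_pointwise_smul_iff_inv_smul_mem, ← map_inv, MulAut.smul_def, MulAut.conj_apply, inv_inv]
  have hb1 : (Q₁ : Subgroup (Matrix.SpecialLinearGroup (Fin (m + 3)) (ZMod 2))) ⊓ Q₂ = ⊥ := by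
    rw [eq_bot_iff]
    intro z hz
    obtain ⟨y, rfl⟩ := e.surjective z
    have h1 := (hmemQ H P₁ Q₁ hP₁ hQ₁ y).mp hz.1
    have h2 := (hmemQ H' P₂ Q₂ hP₂ hQ₂ y).mp hz.2
    have h3 : (y : G) ∈ (H : Subgroup G) ⊓ (H' : Subgroup G) := ⟨h1, h2⟩
    rw [hbot, Subgroup.mem_bot] at h3
    have h4 : y = 1 := Subtype.ext h3
    rw [h4, map_one]; exact Subgroup.one_mem _
  have hb2 : (Q₃ : Subgroup (Matrix.SpecialLinearGroup (Fin (m + 3)) (ZMod 2))) ⊓ Q₄ = ⊥ := by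
    rw [eq_bot_iff]
    intro z hz
    obtain ⟨y, rfl⟩ := e.surjective z
    have h1 := (hmemQ _ P₃ Q₃ hP₃ hQ₃ y).mp hz.1
    have h2 := (hmemQ _ P₄ Q₄ hP₄ hQ₄ y).mp hz.2
    rw [htmem] at h1 h2
    have h3 : t⁻¹ * (y : G) * t ∈ (H : Subgroup G) ⊓ (H' : Subgroup G) := ⟨h1, h2⟩
    rw [hbot, Subgroup.mem_bot] at h3
    have h4 : y = 1 := by
      apply Subtype.ext
      have : (y : G) = t * (t⁻¹ * (y : G) * t) * t⁻¹ := by group
      rw [this, h3]; simp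
    rw [h4, map_one]; exact Subgroup.one_mem _
  obtain ⟨s, hs1, hs2⟩ := sylow_pair Q₁ Q₂ hb1
  obtain ⟨r, hr1, hr2⟩ := sylow_pair Q₃ Q₄ hb2
  -- `s r⁻¹` maps the second pair to the first
  obtain ⟨w, hw⟩ : ∃ w : N, e w = s * r⁻¹ := e.surjective _
  have hconj : ∀ (A B V : Subgroup (Matrix.SpecialLinearGroup (Fin (m + 3)) (ZMod 2))) (a b : Matrix.SpecialLinearGroup (Fin (m + 3)) (ZMod 2)),
      MulAut.conj a • V = A → MulAut.conj b • V = B → ∀ z, z ∈ B ↔ (a * b⁻¹) * z * (a * b⁻¹)⁻¹ ∈ A := by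
    intro A B V a b hA hB z
    rw [← hA, ← hB, Subgroup.mem_pointwise_smul_iff_inv_smul_mem, Subgroup.mem_pointwise_smul_iff_inv_smul_mem,
      ← map_inv, ← map_inv, MulAut.smul_def, MulAut.smul_def, MulAut.conj_apply, MulAut.conj_apply]
    have : a⁻¹ * (a * b⁻¹ * z * (a * b⁻¹)⁻¹) * a⁻¹⁻¹ = b⁻¹ * z * b⁻¹⁻¹ := by group
    rw [this]
  have hw1 : ∀ z, z ∈ (Q₃ : Subgroup (Matrix.SpecialLinearGroup (Fin (m + 3)) (ZMod 2))) ↔ e w * z * (e w)⁻¹ ∈ (Q₁ : Subgroup (Matrix.SpecialLinearGroup (Fin (m + 3)) (ZMod 2))) := by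
    intro z; rw [hw]; exact hconj _ _ _ s r hs1 hr1 z
  have hw2 : ∀ z, z ∈ (Q₄ : Subgroup (Matrix.SpecialLinearGroup (Fin (m + 3)) (ZMod 2))) ↔ e w * z * (e w)⁻¹ ∈ (Q₂ : Subgroup (Matrix.SpecialLinearGroup (Fin (m + 3)) (ZMod 2))) := by
    intro z
    rw [hw]
    have := hconj _ _ _ _ _ hs2 hr2 z
    convert this using 2
    group
  -- the element `g = w t`
  have hgN : (w : G) * t ∉ N := by
    intro h
    apply htN
    have : t = (w : G)⁻¹ * ((w : G) * t) := by group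
    rw [this]
    exact mul_mem (inv_mem w.2) h
  have hgH : ∀ (K : Sylow 2 G) (P P' : Sylow 2 N) (Q Q' : Sylow 2 (Matrix.SpecialLinearGroup (Fin (m + 3)) (ZMod 2)))
      (hP : (P : Subgroup N).map N.subtype = (K : Subgroup G) ⊓ N) (hQ : (Q : Subgroup (Matrix.SpecialLinearGroup (Fin (m + 3)) (ZMod 2))) = (P : Subgroup N).map e.toMonoidHom)
      (hP' : (P' : Subgroup N).map N.subtype = ((t • K : Sylow 2 G) : Subgroup G) ⊓ N)
      (hQ' : (Q' : Subgroup (Matrix.SpecialLinearGroup (Fin (m + 3)) (ZMod 2))) = (P' : Subgroup N).map e.toMonoidHom),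
      (∀ z, z ∈ (Q' : Subgroup (Matrix.SpecialLinearGroup (Fin (m + 3)) (ZMod 2))) ↔ e w * z * (e w)⁻¹ ∈ (Q : Subgroup (Matrix.SpecialLinearGroup (Fin (m + 3)) (ZMod 2)))) → (w : G) * t ∈ (K : Subgroup G) := by
    intro K P P' Q Q' hP hQ hP' hQ' hz
    apply hnorm K _ hgN
    intro y hy
    have hyt : t * y * t⁻¹ ∈ N := Subgroup.Normal.conj_mem (inferInstance : N.Normal) y hy t
    have h1 := hz (e ⟨t * y * t⁻¹, hyt⟩)
    rw [hmemQ _ P' Q' hP' hQ', ← map_inv, ← map_mul, ← map_mul, hmemQ K P Q hP hQ, htmem] at h1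
    have h2 : t⁻¹ * ((⟨t * y * t⁻¹, hyt⟩ : N) : G) * t = y := by
      change t⁻¹ * (t * y * t⁻¹) * t = y
      group
    rw [h2] at h1
    rw [h1]
    have h3 : ((w * ⟨t * y * t⁻¹, hyt⟩ * w⁻¹ : N) : G) = (w : G) * t * y * ((w : G) * t)⁻¹ := by
      push_cast
      group
    rw [h3]
  have hg1 := hgH H P₁ P₃ Q₁ Q₃ hP₁ hQ₁ hP₃ hQ₃ hw1
  have hg2 := hgH H' P₂ P₄ Q₂ Q₄ hP₂ hQ₂ hP₄ hQ₄ hw2
  have hg3 : (w : G) * t ∈ (H : Subgroup G) ⊓ (H' : Subgroup G) := ⟨hg1, hg2⟩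
  rw [hbot, Subgroup.mem_bot] at hg3
  rw [hg3] at hgN
  exact hgN N.one_mem

end Cfsg.Agent.S2486
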