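import Cfsg.Statements.S2487
import Cfsg.Agent.H42.QuadTwo

set_option autoImplicit false
open scoped Pointwise
open Cfsg

namespace Cfsg.Agent.S2487

open Cfsg.Agent.H42.QuadTwo Module

section

variable (F : Type*) [Field F] (m : ℕ)

/-- the polar form -/
def polar : LinearMap.BilinForm F (Fin m ⊕ Fin m → F) :=
  LinearMap.mk₂ F (fun u v => ∑ i : Fin m, (u (.inl i) * v (.inr i) + u (.inr i) * v (.inl i)))
    (fun a b c => by rw [← Finset.sum_add_distrib]; exact Finset.sum_congr rfl (fun i _ => by simp only [Pi.add_apply]; ring))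
    (fun a b c => by rw [smul_eq_mul, Finset.mul_sum]; exact Finset.sum_congr rfl (fun i _ => by simp only [Pi.smul_apply, smul_eq_mul]; ring))
    (fun a b c => by rw [← Finset.sum_add_distrib]; exact Finset.sum_congr rfl (fun i _ => by simp only [Pi.add_apply]; ring))
    (fun a b c => by rw [smul_eq_mul, Finset.mul_sum]; exact Finset.sum_congr rfl (fun i _ => by simp only [Pi.smul_apply, smul_eq_mul]; ring))

theorem polar_apply (u v : Fin m ⊕ Fin m → F) :
    polar F m u v = ∑ i : Fin m, (u (.inl i) * v (.inr i) + u (.inr i) * v (.inl i)) := rfl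

theorem quad_polar (u v : Fin m ⊕ Fin m → F) :
    Cfsg.quadFormPlus m F (u + v) = Cfsg.quadFormPlus m F u + Cfsg.quadFormPlus m F v + polar F m u v := by
  rw [polar_apply]
  unfold Cfsg.quadFormPlus
  rw [← Finset.sum_add_distrib, ← Finset.sum_add_distrib]
  exact Finset.sum_congr rfl (fun i _ => by simp only [Pi.add_apply]; ring)

theorem polar_nondeg : (polar F m).Nondegenerate := by
  classical
  have h1 : ∀ u, (∀ v, polar F m u v = 0) → u = 0 := by
    intro u hu
    funext k
    cases k with
    | inl i =>
      have := hu (Pi.single (.inr i) 1)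
      rw [polar_apply, Finset.sum_eq_single i] at this
      · simpa using this
      · intro j _ hj
        simp [Pi.single_apply, hj]
      · intro h; exact absurd (Finset.mem_univ i) h
    | inr i =>
      have := hu (Pi.single (.inl i) 1)
      rw [polar_apply, Finset.sum_eq_single i] at this
      · simpa using this
      · intro j _ hj
        simp [Pi.single_apply, hj]
      · intro h; exact absurd (Finset.mem_univ i) h
  refine ⟨fun u hu => h1 u hu, fun u hu => h1 u (fun v => ?_)⟩
  have h2 : polar F m u v = polar F m v u := by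
    rw [polar_apply, polar_apply]
    exact Finset.sum_congr rfl (fun i _ => by ring)
  rw [h2]
  exact hu v

end

/-- the number of zeros of the dot product -/
theorem card_dot {F : Type*} [Field F] [Fintype F] (hF : Fintype.card F = 2) (m : ℕ) :
    Nat.card {w : Fin (m + 1) ⊕ Fin (m + 1) → F // Cfsg.quadFormPlus (m + 1) F w = 0} =
      2 ^ (2 * (m + 1) - 1) + 2 ^ m := by
  classical
  -- for fixed x the map y ↦ x . y is linear
  have h1 : Nat.card {w : Fin (m + 1) ⊕ Fin (m + 1) → F // Cfsg.quadFormPlus (m + 1) F w = 0} =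
      Nat.card (Σ x : Fin (m + 1) → F, {y : Fin (m + 1) → F // ∑ i, x i * y i = 0}) := by
    refine Nat.card_congr ?_
    refine
      { toFun := fun w => ⟨fun i => w.1 (.inl i), fun i => w.1 (.inr i), w.2⟩
        invFun := fun p => ⟨Sum.elim p.1 p.2.1, p.2.2⟩
        left_inv := fun w => Subtype.ext (by funext k; cases k <;> rfl)
        right_inv := fun p => rfl }
  rw [h1, Nat.card_sigma]
  have hfib : ∀ x : Fin (m + 1) → F, Nat.card {y : Fin (m + 1) → F // ∑ i, x i * y i = 0} =
      if x = 0 then 2 ^ (m + 1) else 2 ^ m := by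
    intro x
    let f : (Fin (m + 1) → F) →ₗ[F] F :=
      { toFun := fun y => ∑ i, x i * y i
        map_add' := fun a b => by rw [← Finset.sum_add_distrib]; exact Finset.sum_congr rfl (fun i _ => by simp only [Pi.add_apply]; ring)
        map_smul' := fun c a => by rw [RingHom.id_apply, smul_eq_mul, Finset.mul_sum]; exact Finset.sum_congr rfl (fun i _ => by simp only [Pi.smul_apply, smul_eq_mul]; ring) }
    have h2 : Nat.card {y : Fin (m + 1) → F // ∑ i, x i * y i = 0} = Nat.card (LinearMap.ker f) := rfl
    rw [h2, card_sub hF]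
    split_ifs with hx
    · have : LinearMap.ker f = ⊤ := by
        rw [LinearMap.ker_eq_top]
        apply LinearMap.ext
        intro y
        show ∑ i, x i * y i = 0
        simp [hx]
      rw [this, finrank_top, Module.finrank_fin_fun]
    · have hsurj : LinearMap.range f = ⊤ := by
        obtain ⟨i, hi⟩ : ∃ i, x i ≠ 0 := by
          by_contra hcon
          push Not at hcon
          exact hx (funext hcon)
        rw [LinearMap.range_eq_top]
        intro c
        refine ⟨Pi.single i ((x i)⁻¹ * c), ?_⟩
        show ∑ j, x j * (Pi.single i ((x i)⁻¹ * c) : Fin (m + 1) → F) j = c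
        rw [Finset.sum_eq_single i]
        · rw [Pi.single_eq_same, ← mul_assoc, mul_inv_cancel₀ hi, one_mul]
        · intro j _ hj
          rw [Pi.single_eq_of_ne hj, mul_zero]
        · intro h; exact absurd (Finset.mem_univ i) h
      have := LinearMap.finrank_range_add_finrank_ker f
      rw [hsurj, finrank_top, Module.finrank_self, Module.finrank_fin_fun] at this
      congr 1
      omega
  simp only [hfib]
  rw [Finset.sum_ite, Finset.sum_const, Finset.sum_const]
  have h3 : (Finset.univ.filter (fun x : Fin (m + 1) → F => x = 0)).card = 1 := by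
    rw [Finset.filter_eq' Finset.univ 0, if_pos (Finset.mem_univ _), Finset.card_singleton]
  have h4 : (Finset.univ.filter (fun x : Fin (m + 1) → F => ¬ x = 0)).card = 2 ^ (m + 1) - 1 := by
    have h5 := Finset.card_filter_add_card_filter_not (s := (Finset.univ : Finset (Fin (m + 1) → F))) (fun x => x = 0)
    rw [h3, Finset.card_univ, Fintype.card_fun, hF, Fintype.card_fin] at h5
    omega
  rw [h3, h4]
  simp only [smul_eq_mul, one_mul]
  have h5 : 2 * (m + 1) - 1 = (m + 1) + m := by omega
  have h6 : 1 ≤ 2 ^ (m + 1) := Nat.one_le_two_pow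
  rw [h5, pow_add 2 (m + 1) m]
  obtain ⟨a, ha⟩ : ∃ a, 2 ^ (m + 1) = a + 1 := ⟨2 ^ (m + 1) - 1, by omega⟩
  have h8 : 2 ^ (m + 1) = 2 ^ m + 2 ^ m := by rw [pow_succ]; ring
  have h9 : a + 1 = 2 ^ m + 2 ^ m := by rw [← ha, h8]
  rw [ha, Nat.add_sub_cancel, add_mul, one_mul]
  generalize a * 2 ^ m = t at *
  omega

theorem aux {F : Type*} [Field F] [Fintype F] (hF : Fintype.card F = 2) {m : ℕ} (hm : 4 ≤ m + 1)
    (Q : (Fin (m + 1) ⊕ Fin (m + 1) → F) → F) (B : LinearMap.BilinForm F (Fin (m + 1) ⊕ Fin (m + 1) → F))
    (hQ : ∀ u v, Q (u + v) = Q u + Q v + B u v) (hB : B.Nondegenerate)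
    (hsing : sing B Q ⊥ = 2 ^ (2 * (m + 1) - 1) + 2 ^ (m + 1 - 1))
    (H : Sylow 2 (Cfsg.isometryGroup F Q))
    (x : Cfsg.isometryGroup F Q) :
    (H : Subgroup (Cfsg.isometryGroup F Q)) ⊓ MulAut.conj x • (H : Subgroup _) ≠ ⊥ := by
  classical
  let V := Fin (m + 1) ⊕ Fin (m + 1) → F
  have hV : finrank F V = 2 * (m + 1) := by
    show finrank F (Fin (m + 1) ⊕ Fin (m + 1) → F) = 2 * (m + 1)
    rw [Module.finrank_fintype_fun_eq_card, Fintype.card_sum, Fintype.card_fin]
    ring
  let G := Cfsg.isometryGroup F Q
  -- the linear action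
  let L : G →* (V →ₗ[F] V) :=
    { toFun := fun g => Matrix.toLin' ((g : GL (Fin (m + 1) ⊕ Fin (m + 1)) F) : Matrix _ _ F)
      map_one' := Matrix.toLin'_one
      map_mul' := fun g h => Matrix.toLin'_mul _ _ }
  have hL : ∀ g v, Q (L g v) = Q v := by
    intro g v
    have := g.2 v v
    exact this
  obtain ⟨U, hUr, hUs, hUL, hUc⟩ := exists_inv B Q hQ hF hB (P := H) H.isPGroup' (L.comp (H : Subgroup G).subtype)
    (fun g v => hL g v) (m := m + 1) (by omega) hV hsing (m + 1 - 1) le_rfl
  have hUc' : sing B Q U = 2 ^ (m + 1 - 1) + 2 ^ (m + 1) := by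
    rw [hUc]
    congr 2
    omega
  have hLinv : ∀ (g : G) (v : V), L g⁻¹ (L g v) = v := by
    intro g v
    rw [← Module.End.mul_apply, ← map_mul, inv_mul_cancel, map_one]
    rfl
  have hLinv' : ∀ (g : G) (v : V), L g (L g⁻¹ v) = v := by
    intro g v
    rw [← Module.End.mul_apply, ← map_mul, mul_inv_cancel, map_one]
    rfl
  have hLinj : ∀ g, Function.Injective (L g) := by
    intro g v w hvw
    rw [← hLinv g v, hvw, hLinv]
  have hLext : ∀ g h : G, (∀ v, L g v = L h v) → g = h := by
    intro g h hgh
    apply Subtype.ext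
    apply Units.ext
    apply (Matrix.toLin' (R := F)).injective
    exact LinearMap.ext hgh
  -- the pointwise stabiliser is contained in H
  let R : Subgroup G :=
    { carrier := {g | ∀ u ∈ U, L g u = u}
      mul_mem' := by
        intro a b ha hb u hu
        rw [map_mul, Module.End.mul_apply, hb u hu, ha u hu]
      one_mem' := by
        intro u _
        rw [map_one]
        rfl
      inv_mem' := by
        intro a ha u hu
        have h1 : L a u = u := ha u hu
        conv_lhs => rw [← h1]
        exact hLinv a u }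
  have hRmem : ∀ g, g ∈ R ↔ ∀ u ∈ U, L g u = u := fun g => Iff.rfl
  have hRp : IsPGroup 2 R := by
    intro g
    refine ⟨3, ?_⟩
    apply Subtype.ext
    apply hLext
    intro v
    have h1 := pow_eight B Q hQ hF hB (m := m + 1) (by omega) hV U hUr hUs hUc' (L g.1) (hL g.1) g.2
    have h2 : ((g ^ 2 ^ 3 : R) : G) = g.1 ^ 8 := rfl
    rw [h2, map_pow, h1]
    show v = L 1 v
    rw [map_one]
    rfl
  have hRH : R ≤ (H : Subgroup G) := by
    have hnorm : (H : Subgroup G) ≤ Subgroup.normalizer (R : Set G) := by
      intro h hh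
      have hmapU : ∀ (h : G), h ∈ (H : Subgroup G) → ∀ u ∈ U, L h u ∈ U := by
        intro h hh u hu
        have := hUL ⟨h, hh⟩
        rw [← this]
        exact ⟨u, hu, rfl⟩
      have key : ∀ (h : G), h ∈ (H : Subgroup G) → ∀ g ∈ R, h * g * h⁻¹ ∈ R := by
        intro h hh g hg u hu
        rw [map_mul, map_mul, Module.End.mul_apply, Module.End.mul_apply,
          hg _ (hmapU h⁻¹ (Subgroup.inv_mem _ hh) u hu)]
        exact hLinv' h u
      rw [Subgroup.mem_normalizer_iff]
      intro g
      constructor
      · exact fun hg => key h hh g hg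
      · intro hg
        have := key h⁻¹ (Subgroup.inv_mem _ hh) _ hg
        have h2 : h⁻¹ * (h * g * h⁻¹) * h⁻¹⁻¹ = g := by group
        rwa [h2] at this
    have h1 : IsPGroup 2 ((H : Subgroup G) ⊔ R : Subgroup G) := H.isPGroup'.to_sup_of_normal_right' hRp hnorm
    have h2 := H.is_maximal' h1 le_sup_left
    rw [← h2]
    exact le_sup_right
  -- the perp of U + xU
  let U' : Submodule F V := U.map (L x)
  have hU'r : finrank F U' = m := by
    rw [← (Submodule.equivMapOfInjective (L x) (hLinj x) U).finrank_eq, hUr]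
    rfl
  have hWr : 2 ≤ finrank F (B.orthogonal (U ⊔ U')) := by
    rw [LinearMap.BilinForm.finrank_orthogonal hB, hV]
    have h1 := Submodule.finrank_sup_add_finrank_inf_eq U U'
    rw [hUr, hU'r, Nat.add_sub_cancel] at h1
    have h2 : finrank F (U ⊔ U' : Submodule F V) ≤ m + m := le_trans (Nat.le_add_right _ _) h1.le
    show 2 ≤ 2 * (m + 1) - finrank F (U ⊔ U' : Submodule F V)
    omega
  set W := B.orthogonal (U ⊔ U') with hW
  have hBs : ∀ u v, B u v = B v u := B_symm B Q hQ
  have hBself : ∀ u, B u u = 0 := B_self B Q hQ hF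
  have hself : ∀ u : V, u + u = 0 := add_self_vec hF
  -- a nontrivial isometry fixing W^perp pointwise
  obtain ⟨T, hT1, hT2, hT3, hT4⟩ : ∃ T : V →ₗ[F] V, (∀ v, Q (T v) = Q v) ∧ (∀ v, T (T v) = v) ∧
      (∃ v, T v ≠ v) ∧ ∀ v ∈ U ⊔ U', T v = v := by
    by_cases hcase : ∃ v ∈ W, Q v ≠ 0
    · obtain ⟨v, hv, hQv⟩ := hcase
      have hQ1 : Q v = 1 := (eq_zero_or_one hF _).resolve_left hQv
      refine ⟨LinearMap.id + (B v).smulRight v, ?_, ?_, ?_, ?_⟩
      · intro y
        show Q (y + B v y • v) = Q y
        rw [hQ, Q_smul B Q hQ hF, hQ1, map_smul, hBs y v, smul_eq_mul, mul_one]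
        rcases eq_zero_or_one hF (B v y) with h | h
        · rw [h]; simp
        · rw [h, mul_one, add_assoc, add_self_eq_zero' hF, add_zero]
      · intro y
        show (y + B v y • v) + B v (y + B v y • v) • v = y
        rw [map_add, map_smul, hBself, smul_zero, add_zero, add_assoc, hself, add_zero]
      · have hv0 : v ≠ 0 := by
          rintro rfl
          exact hQv (Q_zero B Q hQ)
        obtain ⟨z, hz⟩ : ∃ z, B v z ≠ 0 := by
          by_contra hcon
          push Not at hcon
          exact hv0 (hB.1 v hcon)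
        refine ⟨z, ?_⟩
        show z + B v z • v ≠ z
        intro h
        have h1 : B v z • v = 0 := by
          have h2 : z + B v z • v = z + 0 := by rw [h, add_zero]
          exact add_left_cancel h2
        rcases smul_eq_zero.mp h1 with h2 | h2
        · exact hz h2
        · exact hv0 h2
      · intro y hy
        show y + B v y • v = y
        have : B v y = 0 := by
          rw [hBs]
          exact hv y hy
        rw [this, zero_smul, add_zero]
    · push Not at hcase
      -- two independent vectors
      obtain ⟨a, b, ha, hb, hab⟩ : ∃ a b : V, a ∈ W ∧ b ∈ W ∧ ∃ z, B a z ≠ 0 ∧ b ≠ 0 ∧ b ≠ a := by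
        have hW0 : W ≠ ⊥ := by
          rintro h
          rw [h, finrank_bot] at hWr
          omega
        obtain ⟨a, ha, ha0⟩ := Submodule.exists_mem_ne_zero_of_ne_bot hW0
        obtain ⟨z, hz⟩ : ∃ z, B a z ≠ 0 := by
          by_contra hcon
          push Not at hcon
          exact ha0 (hB.1 a hcon)
        obtain ⟨b, hb, hba⟩ : ∃ b ∈ W, b ∉ (F ∙ a : Submodule F V) := by
          by_contra hcon
          push Not at hcon
          have h1 : finrank F W ≤ finrank F (F ∙ a : Submodule F V) := Submodule.finrank_mono hcon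
          rw [finrank_span_singleton ha0] at h1
          omega
        refine ⟨a, b, ha, hb, z, hz, ?_, ?_⟩
        · rintro rfl
          exact hba (Submodule.zero_mem _)
        · rintro rfl
          exact hba (Submodule.mem_span_singleton_self _)
      obtain ⟨z, hz, hb0, hba⟩ := hab
      have hQa := hcase a ha
      have hQb := hcase b hb
      have hBab : B a b = 0 := B_zero_of_ts B Q hQ W hcase ha hb
      have hBba : B b a = 0 := by rw [hBs]; exact hBab
      refine ⟨LinearMap.id + (B a).smulRight b + (B b).smulRight a, ?_, ?_, ?_, ?_⟩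
      · intro y
        show Q (y + B a y • b + B b y • a) = Q y
        rw [hQ, hQ, Q_smul B Q hQ hF, Q_smul B Q hQ hF, hQa, hQb]
        simp only [map_add, map_smul, LinearMap.add_apply, LinearMap.smul_apply, hBba, smul_zero, mul_zero, add_zero,
          smul_eq_mul]
        rw [hBs y b, hBs y a, mul_comm (B b y), add_assoc, add_self_eq_zero' hF, add_zero]
      · intro y
        show (y + B a y • b + B b y • a) + B a (y + B a y • b + B b y • a) • b + B b (y + B a y • b + B b y • a) • a = y
        simp only [map_add, map_smul, hBab, hBba, hBself, smul_zero, add_zero]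
        have : y + B a y • b + B b y • a + B a y • b + B b y • a =
            y + (B a y • b + B a y • b) + (B b y • a + B b y • a) := by abel
        rw [this, hself, hself, add_zero, add_zero]
      · refine ⟨z, ?_⟩
        show z + B a z • b + B b z • a ≠ z
        intro h
        have h0 : B a z • b + B b z • a = 0 := by
          have h2 : z + (B a z • b + B b z • a) = z + 0 := by rw [← add_assoc, h, add_zero]
          exact add_left_cancel h2
        have h1 : B a z = 1 := (eq_zero_or_one hF _).resolve_left hz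
        rw [h1, one_smul] at h0
        rcases eq_zero_or_one hF (B b z) with h2 | h2
        · rw [h2, zero_smul, add_zero] at h0
          exact hb0 h0
        · rw [h2, one_smul] at h0
          apply hba
          have h3 : b + a = a + a := by rw [h0, hself]
          exact add_right_cancel h3
      · intro y hy
        show y + B a y • b + B b y • a = y
        have h1 : B a y = 0 := by
          rw [hBs]
          exact ha y hy
        have h2 : B b y = 0 := by
          rw [hBs]
          exact hb y hy
        rw [h1, h2, zero_smul, zero_smul, add_zero, add_zero]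
  -- the group element
  have hTT : T * T = 1 := LinearMap.ext hT2
  let M : GL (Fin (m + 1) ⊕ Fin (m + 1)) F :=
    ⟨LinearMap.toMatrix' T, LinearMap.toMatrix' T, by
      rw [← LinearMap.toMatrix'_mul, hTT, LinearMap.toMatrix'_one], by
      rw [← LinearMap.toMatrix'_mul, hTT, LinearMap.toMatrix'_one]⟩
  have hMv : ∀ v, Matrix.toLin' (M : Matrix _ _ F) v = T v := by
    intro v
    show Matrix.toLin' (LinearMap.toMatrix' T) v = T v
    rw [Matrix.toLin'_toMatrix']
  have hMG : M ∈ Cfsg.isometryGroup F Q := by
    intro u v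
    show Q (Matrix.toLin' (M : Matrix _ _ F) u) = Q u
    rw [hMv, hT1]
  let z : G := ⟨M, hMG⟩
  have hzL : ∀ v, L z v = T v := hMv
  have hz1 : z ≠ 1 := by
    intro h
    obtain ⟨v, hv⟩ := hT3
    apply hv
    rw [← hzL, h, map_one]
    rfl
  have hzR : z ∈ R := by
    intro u hu
    rw [hzL]
    exact hT4 u (Submodule.mem_sup_left hu)
  have hzR' : x⁻¹ * z * x ∈ R := by
    intro u hu
    rw [map_mul, map_mul, Module.End.mul_apply, Module.End.mul_apply, hzL,
      hT4 _ (Submodule.mem_sup_right ⟨u, hu, rfl⟩)]
    exact hLinv x u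
  intro hbot
  apply hz1
  rw [← Subgroup.mem_bot, ← hbot]
  refine ⟨hRH hzR, ?_⟩
  show z ∈ MulAut.conj x • (H : Subgroup G)
  rw [Subgroup.mem_pointwise_smul_iff_inv_smul_mem]
  have : (MulAut.conj x)⁻¹ • z = x⁻¹ * z * x := by
    show (MulAut.conj x)⁻¹ z = _
    rw [← map_inv, MulAut.conj_apply, inv_inv]
  rw [this]
  exact hRH hzR'

/-- Let m ≥ 4 and let G be the full isometry group of the hyperbolic quadratic form x₁y₁ + ⋯ + x_m y_m on the 2m-dimensional space over the field with 2 elements (the orthogonal group O⁺(2m,2), which contains Ω⁺(2m,2) with index 2). Then any two Sylow 2-subgroups of G have a non-trivial intersection: for a Sylow 2-subgroup H and every x ∈ G, H ∩ H^x ≠ 1. -/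
theorem result {F : Type*} [Field F] [Fintype F] (hF : Fintype.card F = 2) {m : ℕ} (hm : 4 ≤ m)
    (H : Sylow 2 (Cfsg.isometryGroup F (Cfsg.quadFormPlus m F)))
    (x : Cfsg.isometryGroup F (Cfsg.quadFormPlus m F)) :
    (H : Subgroup (Cfsg.isometryGroup F (Cfsg.quadFormPlus m F))) ⊓ MulAut.conj x • (H : Subgroup _) ≠ ⊥ := by
  classical
  obtain ⟨m, rfl⟩ : ∃ k, m = k + 1 := ⟨m - 1, by omega⟩
  refine aux hF hm (Cfsg.quadFormPlus (m + 1) F) (polar F (m + 1)) (quad_polar F (m + 1)) (polar_nondeg F (m + 1)) ?_ H x
  rw [Nat.add_sub_cancel, ← card_dot hF m, sing]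
  refine Nat.card_congr (Equiv.subtypeEquivRight fun w => ?_)
  constructor
  · exact fun h => h.2
  · intro h
    refine ⟨fun n hn => ?_, h⟩
    rw [(Submodule.mem_bot F).mp hn, map_zero]
    rfl

end Cfsg.Agent.S2487
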