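import Cfsg.Statements.S2493
import Cfsg.Agent.H21.CoverE

set_option autoImplicit false
open Cfsg

namespace Cfsg.Agent.S2493

/-- Let n ≥ 5 and let G be a finite perfect group whose centre has order 2 with G/Z(G) isomorphic to the alternating group of degree n (the double cover of the alternating group). Then every element of G is a commutator. -/
theorem result {G : Type*} [Group G] [Finite G] (hperf : commutator G = ⊤) {n : ℕ} (hn : 5 ≤ n)
    (hZ : Nat.card (Subgroup.center G) = 2) (e : G ⧸ Subgroup.center G ≃* alternatingGroup (Fin n))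
    (g : G) :
    ∃ a b : G, a * b * a⁻¹ * b⁻¹ = g := by
  let π0 : G →* alternatingGroup (Fin n) :=
    e.toMonoidHom.comp (QuotientGroup.mk' (Subgroup.center G))
  let π : G →* Equiv.Perm (Fin n) := (alternatingGroup (Fin n)).subtype.comp π0
  have hker : ∀ g, π g = 1 ↔ g ∈ Subgroup.center G := by
    intro g
    constructor
    · intro h
      have h1 : π0 g = 1 := Subtype.ext h
      have h2 : e (QuotientGroup.mk' (Subgroup.center G) g) = 1 := h1
      rwa [map_eq_one_iff e e.injective, QuotientGroup.mk'_apply, QuotientGroup.eq_one_iff] at h2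
    · intro h
      have h2 : QuotientGroup.mk' (Subgroup.center G) g = 1 := by
        rwa [QuotientGroup.mk'_apply, QuotientGroup.eq_one_iff]
      show ((e (QuotientGroup.mk' (Subgroup.center G) g) : alternatingGroup (Fin n)) :
        Equiv.Perm (Fin n)) = 1
      rw [h2, map_one]; rfl
  have hC : Nontrivial (Subgroup.center G) := by
    rw [← Finite.one_lt_card_iff_nontrivial, hZ]; norm_num
  obtain ⟨⟨z, hz⟩, hz1⟩ := exists_ne (1 : Subgroup.center G)
  have hz1' : z ≠ 1 := fun h => hz1 (Subtype.ext h)
  have hzz : z * z = 1 := by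
    have h4 : (⟨z, hz⟩ : Subgroup.center G) ^ Nat.card (Subgroup.center G) = 1 := pow_card_eq_one'
    rw [hZ, sq] at h4
    exact congrArg Subtype.val h4
  have D : H21.CovA.Dat π z := by
    constructor
    · intro g
      exact Equiv.Perm.mem_alternatingGroup.1 (π0 g).2
    · intro σ hσ
      obtain ⟨q, hq⟩ := e.surjective ⟨σ, Equiv.Perm.mem_alternatingGroup.2 hσ⟩
      obtain ⟨g, rfl⟩ := QuotientGroup.mk'_surjective _ q
      exact ⟨g, congrArg Subtype.val hq⟩
    · exact hz1'
    · exact hzz
    · intro g
      exact (Subgroup.mem_center_iff.1 hz g).symm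
    · intro g hg
      have hgc := (hker g).1 hg
      by_contra hcon
      push Not at hcon
      have h3 : ({1, z, g} : Set G) ⊆ (Subgroup.center G : Set G) := by
        rintro w (rfl | rfl | rfl)
        · exact Subgroup.one_mem _
        · exact hz
        · exact hgc
      have h4 := Set.ncard_le_ncard h3 (Set.toFinite _)
      have h5 : ({1, z, g} : Set G).ncard = 3 := by
        rw [Set.ncard_eq_three]
        exact ⟨1, z, g, hz1'.symm, hcon.1.symm, hcon.2.symm, rfl⟩
      have h6 : (Subgroup.center G : Set G).ncard = 2 := by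
        rw [← Nat.card_coe_set_eq]; exact hZ
      omega
    · exact (hker z).2 hz
  obtain ⟨m, rfl⟩ : ∃ m, n = m + 2 + 1 := ⟨n - 3, by omega⟩
  exact H21.CovA.main D (H21.CovA.not_inv D hperf (by omega)) hn g

end Cfsg.Agent.S2493
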