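import Cfsg.Statements.S2504
import Cfsg.Agent.H80.AbPerm

set_option autoImplicit false
open Cfsg

namespace Cfsg.Agent.S2504

/-- The largest order of an abelian subgroup of the alternating group of degree n is 3^k when n = 3k, 4·3^(k−1) when n = 3k + 1, and 16·3^(k−2) when n = 3k + 2, for every k ≥ 2 (so for all degrees n ≥ 6). -/
theorem result (k : ℕ) (hk : 2 ≤ k) :
    IsGreatest {c : ℕ | ∃ A : Subgroup (alternatingGroup (Fin (3 * k))), IsMulCommutative A ∧ Nat.card A = c} (3 ^ k) ∧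
    IsGreatest {c : ℕ | ∃ A : Subgroup (alternatingGroup (Fin (3 * k + 1))), IsMulCommutative A ∧ Nat.card A = c}
      (4 * 3 ^ (k - 1)) ∧
    IsGreatest {c : ℕ | ∃ A : Subgroup (alternatingGroup (Fin (3 * k + 2))), IsMulCommutative A ∧ Nat.card A = c}
      (16 * 3 ^ (k - 2)) := by
  obtain ⟨m, rfl⟩ := Nat.exists_eq_add_of_le' hk
  refine ⟨⟨H80.AbPerm.exists_alt (H80.AbPerm.good3k True _), ?_⟩,
    ⟨H80.AbPerm.exists_alt (by
      have := H80.AbPerm.good3k1 True (m + 1)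
      rw [show 4 * 3 ^ (m + 2 - 1) = 4 * 3 ^ (m + 1) by congr 1]
      exact this), ?_⟩,
    ⟨H80.AbPerm.exists_alt (by simpa using H80.AbPerm.good3k2' True m), ?_⟩⟩
  · rintro _ ⟨A, hA, rfl⟩
    obtain ⟨B, hB, _, hc⟩ := H80.AbPerm.alt_to_sym A hA
    rw [← H80.AbPerm.mx0, ← hc]
    exact H80.AbPerm.upper B hB
  · rintro _ ⟨A, hA, rfl⟩
    obtain ⟨B, hB, _, hc⟩ := H80.AbPerm.alt_to_sym A hA
    rw [show m + 2 - 1 = m + 1 by omega, ← H80.AbPerm.mx1, ← hc]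
    exact H80.AbPerm.upper B hB
  · rintro _ ⟨A, hA, rfl⟩
    obtain ⟨B, hB, hev, hc⟩ := H80.AbPerm.alt_to_sym A hA
    rw [Nat.add_sub_cancel, ← hc]
    exact H80.AbPerm.upper_alt rfl B hB hev

end Cfsg.Agent.S2504
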