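import Cfsg.Statements.S2505
import Cfsg.Agent.H80.AbPerm

set_option autoImplicit false
open Cfsg

namespace Cfsg.Agent.S2505

/-- The largest order of an abelian subgroup of the symmetric group of degree n is 3^k when n = 3k, 4·3^(k−1) when n = 3k + 1, and 2·3^k when n = 3k + 2, for every k ≥ 1. -/
theorem result (k : ℕ) (hk : 1 ≤ k) :
    IsGreatest {c : ℕ | ∃ A : Subgroup (Equiv.Perm (Fin (3 * k))), IsMulCommutative A ∧ Nat.card A = c} (3 ^ k) ∧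
    IsGreatest {c : ℕ | ∃ A : Subgroup (Equiv.Perm (Fin (3 * k + 1))), IsMulCommutative A ∧ Nat.card A = c}
      (4 * 3 ^ (k - 1)) ∧
    IsGreatest {c : ℕ | ∃ A : Subgroup (Equiv.Perm (Fin (3 * k + 2))), IsMulCommutative A ∧ Nat.card A = c}
      (2 * 3 ^ k) := by
  obtain ⟨m, rfl⟩ := Nat.exists_eq_add_of_le' hk
  refine ⟨⟨H80.AbPerm.exists_sym (H80.AbPerm.good3k False _), ?_⟩,
    ⟨H80.AbPerm.exists_sym (by simpa using H80.AbPerm.good3k1 False m), ?_⟩,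
    ⟨H80.AbPerm.exists_sym (H80.AbPerm.good3k2 _), ?_⟩⟩
  · rintro _ ⟨A, hA, rfl⟩
    rw [← H80.AbPerm.mx0]
    exact H80.AbPerm.upper A hA
  · rintro _ ⟨A, hA, rfl⟩
    rw [Nat.add_sub_cancel, ← H80.AbPerm.mx1]
    exact H80.AbPerm.upper A hA
  · rintro _ ⟨A, hA, rfl⟩
    rw [← H80.AbPerm.mx2]
    exact H80.AbPerm.upper A hA

end Cfsg.Agent.S2505
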