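import Cfsg.Statements.S2506
import Mathlib

set_option autoImplicit false
open scoped Pointwise
open Cfsg

namespace Cfsg.Agent.S2506

open Equiv

section model
variable {Ω : Type} {ι : Type} {G : ι → Type} [∀ i, CommGroup (G i)]

/-- coordinatewise translations -/
def Tm (E : (Σ i, G i) ≃ Ω) : (∀ i, G i) →* Perm Ω where
  toFun g := E.permCongr (Equiv.sigmaCongrRight fun i => Equiv.mulLeft (g i))
  map_one' := by
    ext1 x
    simp [Equiv.permCongr_apply]
  map_mul' g h := by
    ext1 x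
    simp [Equiv.permCongr_apply]

theorem Tm_apply (E : (Σ i, G i) ≃ Ω) (g : ∀ i, G i) (i : ι) (x : G i) : Tm E g (E ⟨i, x⟩) = E ⟨i, g i * x⟩ := by
  show E.permCongr (Equiv.sigmaCongrRight fun i => Equiv.mulLeft (g i)) (E ⟨i, x⟩) = _
  simp [Equiv.permCongr_apply]

theorem Tm_injective (E : (Σ i, G i) ≃ Ω) : Function.Injective (Tm E) := by
  intro g h hgh
  funext i
  have h1 := congrArg (fun σ : Perm Ω => σ (E ⟨i, 1⟩)) hgh
  simp only [Tm_apply, mul_one] at h1
  have h2 := E.injective h1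
  simpa using h2

theorem Tm_card [Fintype ι] (E : (Σ i, G i) ≃ Ω) : Nat.card (Tm E).range = ∏ i, Nat.card (G i) := by
  rw [← Nat.card_pi]
  exact (Nat.card_congr (MonoidHom.ofInjective (Tm_injective E)).toEquiv).symm

theorem card_eq_sum [Fintype ι] [∀ i, Finite (G i)] (E : (Σ i, G i) ≃ Ω) : Nat.card Ω = ∑ i, Nat.card (G i) := by
  rw [← Nat.card_sigma, Nat.card_congr E]

theorem Tm_comm (E : (Σ i, G i) ≃ Ω) : ∀ x ∈ (Tm E).range, ∀ y ∈ (Tm E).range, x * y = y * x := by
  rintro _ ⟨g, rfl⟩ _ ⟨h, rfl⟩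
  rw [← map_mul, ← map_mul, mul_comm]

theorem sign_single [Fintype Ω] [DecidableEq Ω] [DecidableEq ι] (E : (Σ i, G i) ≃ Ω) (i : ι) [Fintype (G i)] [DecidableEq (G i)] (x : G i) :
    Perm.sign (Tm E (Pi.mulSingle i x)) = Perm.sign (Equiv.mulLeft x) := by
  symm
  apply Perm.sign_bij (fun y _ => E ⟨i, y⟩)
  · intro y _ _
    rw [Tm_apply, Pi.mulSingle_eq_same]
    rfl
  · intro a b _ _ h
    have := E.injective h
    simpa using this
  · intro y hy
    obtain ⟨⟨j, z⟩, rfl⟩ := E.surjective y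
    rw [Tm_apply] at hy
    by_cases hj : j = i
    · subst hj
      rw [Pi.mulSingle_eq_same] at hy
      refine ⟨z, ?_, rfl⟩
      intro h
      apply hy
      rw [← h]
      simp at h
      simp [h]
    · exfalso
      apply hy
      rw [Pi.mulSingle_eq_of_ne hj, one_mul]

theorem Tm_even [Fintype ι] [Fintype Ω] [DecidableEq Ω] [DecidableEq ι] (E : (Σ i, G i) ≃ Ω) [∀ i, Fintype (G i)] [∀ i, DecidableEq (G i)]
    (h : ∀ i, ∀ x : G i, Perm.sign (Equiv.mulLeft x) = 1) : (Tm E).range ≤ alternatingGroup Ω := by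
  rintro _ ⟨g, rfl⟩
  rw [Perm.mem_alternatingGroup]
  have h1 : Perm.sign (Tm E g) = (Perm.sign.comp (Tm E)) g := rfl
  rw [h1, ← Finset.univ_prod_mulSingle g, map_prod]
  apply Finset.prod_eq_one
  intro i _
  show Perm.sign (Tm E _) = 1
  rw [sign_single, h]

/-- every abelian permutation group is contained in a group of coordinatewise translations -/
theorem exists_model [Finite Ω] (H : Subgroup (Perm Ω)) (hH : ∀ x ∈ H, ∀ y ∈ H, x * y = y * x) :
    ∃ (ι : Type) (_ : Fintype ι) (G : ι → Type) (_ : ∀ i, CommGroup (G i)) (_ : ∀ i, Finite (G i)) (E : (Σ i, G i) ≃ Ω), H ≤ (Tm E).range := by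
  classical
  let cg : CommGroup H := { (inferInstance : Group H) with mul_comm := fun a b => Subtype.ext (hH a.1 a.2 b.1 b.2) }
  let ι := Quotient (MulAction.orbitRel H Ω)
  let pt : ι → Ω := fun ω => ω.out
  let G : ι → Type := fun ω => H ⧸ MulAction.stabilizer H (pt ω)
  let e0 : (Σ i, G i) → Ω := fun p => MulAction.ofQuotientStabilizer H (pt p.1) p.2
  have he0 : Function.Bijective e0 := by
    constructor
    · rintro ⟨i, x⟩ ⟨j, y⟩ h
      obtain ⟨a, rfl⟩ := QuotientGroup.mk_surjective x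
      obtain ⟨b, rfl⟩ := QuotientGroup.mk_surjective y
      have h1 : a • pt i = b • pt j := h
      have hij : i = j := by
        rw [← Quotient.out_eq i, ← Quotient.out_eq j]
        apply Quotient.sound
        show _ ∈ MulAction.orbit H _
        refine ⟨a⁻¹ * b, ?_⟩
        show (a⁻¹ * b) • pt j = pt i
        rw [mul_smul, ← h1, inv_smul_smul]
      subst hij
      congr 1
      exact MulAction.injective_ofQuotientStabilizer H (pt i) h
    · intro x
      let i : ι := Quotient.mk _ x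
      have h1 : (MulAction.orbitRel H Ω) (pt i) x := Quotient.mk_out x
      obtain ⟨h, hh⟩ : pt i ∈ MulAction.orbit H x := h1
      refine ⟨⟨i, QuotientGroup.mk (h⁻¹)⟩, ?_⟩
      show h⁻¹ • pt i = x
      rw [← hh]
      exact inv_smul_smul h x
  refine ⟨ι, Fintype.ofFinite _, G, fun i => QuotientGroup.Quotient.commGroup _, fun i => inferInstance, Equiv.ofBijective e0 he0, ?_⟩
  intro h hh
  refine ⟨fun i => QuotientGroup.mk (⟨h, hh⟩ : H), ?_⟩
  ext1 x
  obtain ⟨⟨i, y⟩, rfl⟩ := (Equiv.ofBijective e0 he0).surjective x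
  rw [Tm_apply]
  obtain ⟨a, rfl⟩ := QuotientGroup.mk_surjective y
  rw [Equiv.ofBijective_apply, Equiv.ofBijective_apply]
  exact mul_smul (⟨h, hh⟩ : H) a (pt i)

theorem conj_apply (σ τ : Perm Ω) (x : Ω) : (σ * τ * σ⁻¹) (σ x) = σ (τ x) := by
  simp

/-- matching two models -/
theorem exists_match {Ω' ι' : Type} {G' : ι' → Type} [∀ i, CommGroup (G' i)] (E : (Σ i, G i) ≃ Ω) (E' : (Σ i, G' i) ≃ Ω') (β : ι ≃ ι') (f : ∀ i, G i ≃* G' (β i)) :
    ∃ Φ : Ω ≃ Ω', ∀ g : ∀ i, G i, ∃ g' : ∀ i, G' i, ∀ x, Φ (Tm E g x) = Tm E' g' (Φ x) := by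
  refine ⟨E.symm.trans ((Equiv.sigmaCongr β fun i => (f i).toEquiv).trans E'), fun g => ⟨Equiv.piCongr β (fun i => (f i).toEquiv) g, fun x => ?_⟩⟩
  obtain ⟨⟨i, y⟩, rfl⟩ := E.surjective x
  rw [Tm_apply]
  simp only [Equiv.trans_apply, Equiv.symm_apply_apply]
  have h1 : ∀ z : G i, (Equiv.sigmaCongr β fun i => (f i).toEquiv) ⟨i, z⟩ = (⟨β i, f i z⟩ : Σ i, G' i) := fun z => rfl
  rw [h1, h1, Tm_apply, Equiv.piCongr_apply_apply, map_mul]
  rfl

/-- an odd permutation normalizing -/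
theorem exists_odd [Fintype Ω] [DecidableEq Ω] (E : (Σ i, G i) ≃ Ω) (i : ι) (a b : G i) (hab : a ≠ b) [DecidableEq (G i)]
    (hm : ∀ x y : G i, Equiv.swap a b (x * y) = Equiv.swap a b x * Equiv.swap a b y) :
    ∃ τ : Perm Ω, Perm.sign τ = -1 ∧ ∀ g : ∀ i, G i, ∃ g' : ∀ i, G i, ∀ x, τ (Tm E g x) = Tm E g' (τ x) := by
  classical
  refine ⟨Equiv.swap (E ⟨i, a⟩) (E ⟨i, b⟩), ?_, fun g => ⟨Function.update g i (Equiv.swap a b (g i)), fun x => ?_⟩⟩
  · apply Perm.sign_swap
    intro h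
    have := E.injective h
    simp at this
    exact hab this
  · have h1 : ∀ z : G i, Equiv.swap (E ⟨i, a⟩) (E ⟨i, b⟩) (E ⟨i, z⟩) = E ⟨i, Equiv.swap a b z⟩ := by
      intro z
      by_cases hza : z = a
      · rw [hza, Equiv.swap_apply_left, Equiv.swap_apply_left]
      · by_cases hzb : z = b
        · rw [hzb, Equiv.swap_apply_right, Equiv.swap_apply_right]
        · rw [Equiv.swap_apply_of_ne_of_ne, Equiv.swap_apply_of_ne_of_ne hza hzb]
          · intro h
            apply hza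
            simpa using E.injective h
          · intro h
            apply hzb
            simpa using E.injective h
    have h2 : ∀ (j : ι) (z : G j), j ≠ i → Equiv.swap (E ⟨i, a⟩) (E ⟨i, b⟩) (E ⟨j, z⟩) = E ⟨j, z⟩ := by
      intro j z hj
      apply Equiv.swap_apply_of_ne_of_ne
      · intro h
        exact hj (congrArg Sigma.fst (E.injective h))
      · intro h
        exact hj (congrArg Sigma.fst (E.injective h))
    obtain ⟨⟨j, y⟩, rfl⟩ := E.surjective x
    rw [Tm_apply]
    by_cases hj : j = i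
    · subst hj
      rw [h1, h1, Tm_apply, Function.update_self, hm]
    · rw [h2 _ _ hj, h2 _ _ hj, Tm_apply, Function.update_of_ne hj]

end model

section small

theorem sign_mulLeft_iso {G H : Type} [Group G] [Group H] [Fintype G] [DecidableEq G] [Fintype H] [DecidableEq H] (e : G ≃* H) (x : G) :
    Perm.sign (Equiv.mulLeft x) = Perm.sign (Equiv.mulLeft (e x)) := by
  apply Perm.sign_eq_sign_of_equiv _ _ e.toEquiv
  intro y
  exact map_mul e x y

theorem z3a : ∀ y : Multiplicative (ZMod 3), Perm.sign (Equiv.mulLeft y) = 1 := by decide +kernel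

theorem z2a : ∃ y : Multiplicative (ZMod 2), Perm.sign (Equiv.mulLeft y) ≠ 1 := by decide +kernel

theorem z3b : ∃ a b : Multiplicative (ZMod 3), a ≠ b ∧ ∀ x y : Multiplicative (ZMod 3), Equiv.swap a b (x * y) = Equiv.swap a b x * Equiv.swap a b y := by decide +kernel

theorem sign_three {G : Type} [Group G] [Fintype G] [DecidableEq G] (h : Nat.card G = 3) (x : G) : Perm.sign (Equiv.mulLeft x) = 1 := by
  have h3 : Fact (Nat.Prime 3) := ⟨Nat.prime_three⟩
  have e : G ≃* Multiplicative (ZMod 3) := mulEquivOfPrimeCardEq (p := 3) h (by simp)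
  rw [sign_mulLeft_iso e]
  exact z3a _

theorem sign_two {G : Type} [Group G] [Fintype G] [DecidableEq G] (h : Nat.card G = 2) : ∃ x : G, Perm.sign (Equiv.mulLeft x) ≠ 1 := by
  have h3 : Fact (Nat.Prime 2) := ⟨Nat.prime_two⟩
  have e : G ≃* Multiplicative (ZMod 2) := mulEquivOfPrimeCardEq (p := 2) h (by simp)
  obtain ⟨y, hy⟩ := z2a
  refine ⟨e.symm y, ?_⟩
  rw [sign_mulLeft_iso e, MulEquiv.apply_symm_apply]
  exact hy

theorem klein_of_sign {G : Type} [Group G] [Fintype G] [DecidableEq G] (h : Nat.card G = 4) (hs : ∀ x : G, Perm.sign (Equiv.mulLeft x) = 1) : IsKleinFour G := by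
  refine ⟨h, ?_⟩
  by_contra hne
  have h1 : ¬ ∀ x : G, x ^ 2 = 1 := by
    intro h2
    have h3 : Monoid.exponent G ∣ 2 := Monoid.exponent_dvd_of_forall_pow_eq_one h2
    rcases (Nat.dvd_prime Nat.prime_two).1 h3 with h4 | h4
    · rw [Monoid.exp_eq_one_iff] at h4
      have := Nat.card_of_subsingleton (1 : G)
      omega
    · exact hne h4
  push Not at h1
  obtain ⟨x, hx⟩ := h1
  have h5 : orderOf x ∣ 4 := by rw [← h]; exact orderOf_dvd_natCard x
  have h6 : orderOf x = 4 := by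
    have h7 : orderOf x ∈ Nat.divisors 4 := Nat.mem_divisors.2 ⟨h5, by norm_num⟩
    have h8 : Nat.divisors 4 = {1, 2, 4} := by decide
    rw [h8] at h7
    simp only [Finset.mem_insert, Finset.mem_singleton] at h7
    rcases h7 with h7 | h7 | h7
    · exact absurd (by rw [orderOf_eq_one_iff.1 h7, one_pow]) hx
    · exact absurd (by rw [← h7, pow_orderOf_eq_one]) hx
    · exact h7
  have hc : IsCyclic G := isCyclic_of_orderOf_eq_card x (by rw [h6, h])
  have hz : IsCyclic (Multiplicative (ZMod 4)) := inferInstance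
  have e : G ≃* Multiplicative (ZMod 4) := mulEquivOfCyclicCardEq (by rw [h]; simp)
  have : ∃ y : Multiplicative (ZMod 4), Perm.sign (Equiv.mulLeft y) ≠ 1 := by decide +kernel
  obtain ⟨y, hy⟩ := this
  apply hy
  rw [← e.apply_symm_apply y, ← sign_mulLeft_iso e]
  exact hs _

theorem sign_klein : ∀ y : Multiplicative (ZMod 2 × ZMod 2), Perm.sign (Equiv.mulLeft y) = 1 := by decide +kernel

theorem klein_std : IsKleinFour (Multiplicative (ZMod 2 × ZMod 2)) := by
  apply klein_of_sign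
  · simp
  · exact sign_klein

theorem swap_iso {G H : Type} [Group G] [Group H] [DecidableEq G] [DecidableEq H] (e : G ≃* H) (h : ∃ a b : H, a ≠ b ∧ ∀ x y : H, Equiv.swap a b (x * y) = Equiv.swap a b x * Equiv.swap a b y) :
    ∃ a b : G, a ≠ b ∧ ∀ x y : G, Equiv.swap a b (x * y) = Equiv.swap a b x * Equiv.swap a b y := by
  obtain ⟨a, b, hab, hm⟩ := h
  refine ⟨e.symm a, e.symm b, fun h => hab (e.symm.injective h), fun x y => ?_⟩
  have h1 : ∀ z : G, e (Equiv.swap (e.symm a) (e.symm b) z) = Equiv.swap a b (e z) := by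
    intro z
    rw [Equiv.swap_apply_def, Equiv.swap_apply_def]
    by_cases h2 : e z = a
    · rw [if_pos h2, if_pos (by rw [← h2, MulEquiv.symm_apply_apply]), MulEquiv.apply_symm_apply]
    · rw [if_neg h2, if_neg (fun h3 => h2 (by rw [h3, MulEquiv.apply_symm_apply]))]
      by_cases h4 : e z = b
      · rw [if_pos h4, if_pos (by rw [← h4, MulEquiv.symm_apply_apply]), MulEquiv.apply_symm_apply]
      · rw [if_neg h4, if_neg (fun h3 => h4 (by rw [h3, MulEquiv.apply_symm_apply]))]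
  apply e.injective
  rw [h1, map_mul, hm, map_mul, h1, h1]

theorem swap_three {G : Type} [Group G] [DecidableEq G] (h : Nat.card G = 3) : ∃ a b : G, a ≠ b ∧ ∀ x y : G, Equiv.swap a b (x * y) = Equiv.swap a b x * Equiv.swap a b y := by
  have h3 : Fact (Nat.Prime 3) := ⟨Nat.prime_three⟩
  have e : G ≃* Multiplicative (ZMod 3) := mulEquivOfPrimeCardEq (p := 3) h (by simp)
  exact swap_iso e z3b

theorem swap_klein {G : Type} [Group G] [DecidableEq G] (h : IsKleinFour G) : ∃ a b : G, a ≠ b ∧ ∀ x y : G, Equiv.swap a b (x * y) = Equiv.swap a b x * Equiv.swap a b y := by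
  have h2 := klein_std
  have hf : Finite G := Nat.finite_of_card_ne_zero (by rw [h.card_four]; norm_num)
  obtain ⟨e⟩ := IsKleinFour.nonempty_mulEquiv (G₁ := G) (G₂ := Multiplicative (ZMod 2 × ZMod 2))
  apply swap_iso e
  decide +kernel

end small

section arith

theorem cube_le : ∀ m : ℕ, m ^ 3 ≤ 3 ^ m := by
  intro m
  induction m with
  | zero => norm_num
  | succ m ih =>
    by_cases h : m < 3
    · interval_cases m <;> norm_num
    · have h1 : (m + 1) ^ 3 ≤ 3 * m ^ 3 := by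
        obtain ⟨k, rfl⟩ := Nat.exists_eq_add_of_le (not_lt.1 h)
        nlinarith [sq_nonneg k, Nat.zero_le k, Nat.zero_le (k ^ 3)]
      calc (m + 1) ^ 3 ≤ 3 * m ^ 3 := h1
        _ ≤ 3 * 3 ^ m := Nat.mul_le_mul_left _ ih
        _ = 3 ^ (m + 1) := by rw [pow_succ, mul_comm]

theorem cube_bad (m : ℕ) (h : m = 1 ∨ 5 ≤ m) : 243 * m ^ 3 ≤ 125 * 3 ^ m := by
  rcases h with rfl | h
  · norm_num
  · induction m, h using Nat.le_induction with
    | base => norm_num
    | succ m hm ih =>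
      have h1 : (m + 1) ^ 3 ≤ 3 * m ^ 3 := by
        obtain ⟨k, rfl⟩ := Nat.exists_eq_add_of_le hm
        nlinarith [sq_nonneg k, Nat.zero_le k, Nat.zero_le (k ^ 3)]
      calc 243 * (m + 1) ^ 3 ≤ 243 * (3 * m ^ 3) := Nat.mul_le_mul_left _ h1
        _ = 3 * (243 * m ^ 3) := by ring
        _ ≤ 3 * (125 * 3 ^ m) := Nat.mul_le_mul_left _ ih
        _ = 125 * 3 ^ (m + 1) := by rw [pow_succ]; ring

variable {ι : Type} [Fintype ι] (s : ι → ℕ)

theorem prod_cube_le : (∏ i, s i) ^ 3 ≤ 3 ^ (∑ i, s i) := by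
  rw [← Finset.prod_pow, ← Finset.prod_pow_eq_pow_sum]
  exact Finset.prod_le_prod' fun i _ => cube_le (s i)

theorem prod_cube_bad (j : ι) (hj : s j = 1 ∨ 5 ≤ s j) : 243 * (∏ i, s i) ^ 3 ≤ 125 * 3 ^ (∑ i, s i) := by
  classical
  rw [← Finset.prod_pow, ← Finset.prod_pow_eq_pow_sum, ← Finset.mul_prod_erase Finset.univ (fun i => s i ^ 3) (Finset.mem_univ j),
    ← Finset.mul_prod_erase Finset.univ (fun i => 3 ^ s i) (Finset.mem_univ j), ← mul_assoc, ← mul_assoc]
  exact Nat.mul_le_mul (cube_bad _ hj) (Finset.prod_le_prod' fun i _ => cube_le (s i))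

theorem F_cube (a r : ℕ) : (3 ^ a * 4 ^ r) ^ 3 * 81 ^ r = 64 ^ r * 3 ^ (3 * a + 4 * r) := by
  have h1 : 3 ^ (4 * r) = 81 ^ r := by rw [pow_mul]; norm_num
  have h2 : (4 ^ r) ^ 3 = 64 ^ r := by rw [← pow_mul, mul_comm, pow_mul]; norm_num
  have h3 : (3 ^ a) ^ 3 = 3 ^ (3 * a) := by rw [← pow_mul, mul_comm]
  rw [mul_pow, h2, h3, pow_add, h1]
  ring

theorem arith_odd (a r : ℕ) (hr : r < 3) (hs : ∑ i, s i = 3 * a + 4 * r) (h : 2 * (3 ^ a * 4 ^ r) ≤ ∏ i, s i) : False := by
  have h1 := prod_cube_le s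
  rw [hs] at h1
  have h2 : (2 * (3 ^ a * 4 ^ r)) ^ 3 ≤ 3 ^ (3 * a + 4 * r) := (Nat.pow_le_pow_left h 3).trans h1
  have h3 := Nat.mul_le_mul_right (81 ^ r) h2
  rw [mul_pow, mul_assoc, F_cube] at h3
  have h4 : 0 < 3 ^ (3 * a + 4 * r) := by positivity
  have h5 : 8 * 64 ^ r ≤ 81 ^ r := by
    apply Nat.le_of_mul_le_mul_left _ h4
    calc 3 ^ (3 * a + 4 * r) * (8 * 64 ^ r) = 2 ^ 3 * (64 ^ r * 3 ^ (3 * a + 4 * r)) := by ring
      _ ≤ 3 ^ (3 * a + 4 * r) * 81 ^ r := h3
  interval_cases r <;> norm_num at h5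

theorem arith_even (a r : ℕ) (hr : r < 3) (hs : ∑ i, s i = 3 * a + 4 * r) (h : 3 ^ a * 4 ^ r ≤ ∏ i, s i) (h1 : ∀ i, 1 ≤ s i) (h2 : ∀ i, s i ≠ 2) :
    ∀ i, s i = 3 ∨ s i = 4 := by
  intro j
  by_contra hj
  push Not at hj
  have hj' : s j = 1 ∨ 5 ≤ s j := by
    have := h1 j
    have := h2 j
    omega
  have h3 := prod_cube_bad s j hj'
  rw [hs] at h3
  have h4 : 243 * (3 ^ a * 4 ^ r) ^ 3 ≤ 125 * 3 ^ (3 * a + 4 * r) := (Nat.mul_le_mul_left _ (Nat.pow_le_pow_left h 3)).trans h3
  have h5 := Nat.mul_le_mul_right (81 ^ r) h4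
  rw [mul_assoc, F_cube] at h5
  have h6 : 0 < 3 ^ (3 * a + 4 * r) := by positivity
  have h7 : 243 * 64 ^ r ≤ 125 * 81 ^ r := by
    apply Nat.le_of_mul_le_mul_left _ h6
    calc 3 ^ (3 * a + 4 * r) * (243 * 64 ^ r) = 243 * (64 ^ r * 3 ^ (3 * a + 4 * r)) := by ring
      _ ≤ 125 * 3 ^ (3 * a + 4 * r) * 81 ^ r := h5
      _ = 3 ^ (3 * a + 4 * r) * (125 * 81 ^ r) := by ring
  interval_cases r <;> norm_num at h7

theorem arith_count (a r : ℕ) (hr : r < 3) (hs : ∑ i, s i = 3 * a + 4 * r) (h : 3 ^ a * 4 ^ r ≤ ∏ i, s i) (h34 : ∀ i, s i = 3 ∨ s i = 4) :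
    Fintype.card {i // s i = 4} = r ∧ Fintype.card {i // ¬ s i = 4} = a := by
  classical
  set b := (Finset.univ.filter fun i => s i = 4).card with hb
  set c := (Finset.univ.filter fun i => ¬ s i = 4).card with hc
  have e1 : ∏ i, s i = 4 ^ b * 3 ^ c := by
    rw [← Finset.prod_filter_mul_prod_filter_not Finset.univ (fun i => s i = 4)]
    congr 1
    · rw [Finset.prod_congr rfl (g := fun _ => 4) (fun i hi => (Finset.mem_filter.1 hi).2), Finset.prod_const]
    · rw [Finset.prod_congr rfl (g := fun _ => 3) (fun i hi => (h34 i).resolve_right (Finset.mem_filter.1 hi).2), Finset.prod_const]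
  have e2 : ∑ i, s i = b * 4 + c * 3 := by
    rw [← Finset.sum_filter_add_sum_filter_not Finset.univ (fun i => s i = 4)]
    congr 1
    · rw [Finset.sum_congr rfl (g := fun _ => 4) (fun i hi => (Finset.mem_filter.1 hi).2), Finset.sum_const, smul_eq_mul]
    · rw [Finset.sum_congr rfl (g := fun _ => 3) (fun i hi => (h34 i).resolve_right (Finset.mem_filter.1 hi).2), Finset.sum_const, smul_eq_mul]
  rw [e2] at hs
  obtain ⟨t, ht⟩ : ∃ t, b = r + 3 * t := ⟨(b - r) / 3, by omega⟩
  have ha : a = c + 4 * t := by omega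
  rw [e1, ht, ha] at h
  have h5 : 81 ^ t ≤ 64 ^ t := by
    have h6 : 0 < 3 ^ c * 4 ^ r := by positivity
    apply Nat.le_of_mul_le_mul_left _ h6
    calc 3 ^ c * 4 ^ r * 81 ^ t = 3 ^ (c + 4 * t) * 4 ^ r := by rw [pow_add, pow_mul]; norm_num; ring
      _ ≤ 4 ^ (r + 3 * t) * 3 ^ c := h
      _ = 3 ^ c * 4 ^ r * 64 ^ t := by rw [pow_add, pow_mul]; norm_num; ring
  have ht0 : t = 0 := by
    by_contra hne
    exact absurd h5 (not_le.2 (Nat.pow_lt_pow_left (by norm_num) hne))
  rw [Fintype.card_subtype, Fintype.card_subtype, ← hb, ← hc]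
  constructor <;> omega

end arith

section main
open scoped Pointwise

/-- the model family -/
def MM : Bool → Type
  | false => Multiplicative (ZMod 3)
  | true => Multiplicative (ZMod 2 × ZMod 2)

instance (b : Bool) : CommGroup (MM b) := match b with
  | false => inferInstanceAs (CommGroup (Multiplicative (ZMod 3)))
  | true => inferInstanceAs (CommGroup (Multiplicative (ZMod 2 × ZMod 2)))

instance (b : Bool) : Fintype (MM b) := match b with
  | false => inferInstanceAs (Fintype (Multiplicative (ZMod 3)))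
  | true => inferInstanceAs (Fintype (Multiplicative (ZMod 2 × ZMod 2)))

instance (b : Bool) : DecidableEq (MM b) := match b with
  | false => inferInstanceAs (DecidableEq (Multiplicative (ZMod 3)))
  | true => inferInstanceAs (DecidableEq (Multiplicative (ZMod 2 × ZMod 2)))

theorem MM_sign (b : Bool) (x : MM b) : Perm.sign (Equiv.mulLeft x) = 1 := by
  cases b
  · exact z3a x
  · exact sign_klein x

theorem MM_card (b : Bool) : Nat.card (MM b) = if b then 4 else 3 := by
  cases b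
  · show Nat.card (Multiplicative (ZMod 3)) = _
    simp
  · show Nat.card (Multiplicative (ZMod 2 × ZMod 2)) = _
    simp

/-- from a group of translations to a subgroup of the alternating group -/
theorem sub_of_range {Ω : Type} [Fintype Ω] [DecidableEq Ω] (D : Subgroup (Perm Ω)) (hD : ∀ x ∈ D, ∀ y ∈ D, x * y = y * x) (hle : D ≤ alternatingGroup Ω) :
    ∃ C : Subgroup (alternatingGroup Ω), IsMulCommutative C ∧ Nat.card C = Nat.card D ∧ C.map (alternatingGroup Ω).subtype = D := by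
  refine ⟨D.subgroupOf (alternatingGroup Ω), ⟨⟨fun a b => ?_⟩⟩, Nat.card_congr (Subgroup.subgroupOfEquivOfLe hle).toEquiv, Subgroup.map_subgroupOf_eq_of_le hle⟩
  apply Subtype.ext
  apply Subtype.ext
  exact hD _ (Subgroup.mem_subgroupOf.1 a.2) _ (Subgroup.mem_subgroupOf.1 b.2)

theorem exists_large (a r : ℕ) : ∃ C : Subgroup (alternatingGroup (Fin (3 * a + 4 * r))), IsMulCommutative C ∧ Nat.card C = 3 ^ a * 4 ^ r := by
  let s : Fin a ⊕ Fin r → Bool := Sum.elim (fun _ => false) (fun _ => true)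
  have hcard : Fintype.card (Σ i, MM (s i)) = 3 * a + 4 * r := by
    rw [← Nat.card_eq_fintype_card, Nat.card_sigma, Fintype.sum_sum_type]
    simp only [s, Sum.elim_inl, Sum.elim_inr, MM_card]
    simp
    ring
  let E : (Σ i, MM (s i)) ≃ Fin (3 * a + 4 * r) := Fintype.equivFinOfCardEq hcard
  obtain ⟨C, h1, h2, -⟩ := sub_of_range (Tm E).range (Tm_comm E) (Tm_even E fun i x => MM_sign _ x)
  refine ⟨C, h1, ?_⟩
  rw [h2, Tm_card, Fintype.prod_sum_type]
  simp only [s, Sum.elim_inl, Sum.elim_inr, MM_card]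
  simp

/-- structure of abelian subgroups of maximal order -/
theorem exists_structure {n : ℕ} (A : Subgroup (alternatingGroup (Fin n))) (hA : IsMulCommutative A)
    (hAmax : ∀ C : Subgroup (alternatingGroup (Fin n)), IsMulCommutative C → Nat.card C ≤ Nat.card A) :
    ∃ (ι : Type) (_ : Fintype ι) (G : ι → Type) (_ : ∀ i, CommGroup (G i)) (_ : ∀ i, Finite (G i)) (E : (Σ i, G i) ≃ Fin n),
      (∑ i, Nat.card (G i) = n) ∧ ((A.map (alternatingGroup (Fin n)).subtype = (Tm E).range ∧ Nat.card A = ∏ i, Nat.card (G i) ∧ (∀ i, Nat.card (G i) ≠ 2) ∧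
        (∀ i, Nat.card (G i) = 4 → IsKleinFour (G i))) ∨ 2 * Nat.card A ≤ ∏ i, Nat.card (G i)) := by
  classical
  have hcA : Nat.card (A.map (alternatingGroup (Fin n)).subtype) = Nat.card A :=
    (Nat.card_congr (A.equivMapOfInjective _ (Subgroup.subtype_injective _)).toEquiv).symm
  have hcomm : ∀ x ∈ A.map (alternatingGroup (Fin n)).subtype, ∀ y ∈ A.map (alternatingGroup (Fin n)).subtype, x * y = y * x := by
    rintro _ ⟨x, hx, rfl⟩ _ ⟨y, hy, rfl⟩
    have := congrArg Subtype.val (hA.1.1 (⟨x, hx⟩ : A) ⟨y, hy⟩)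
    exact congrArg (alternatingGroup (Fin n)).subtype this
  obtain ⟨ι, hι, G, hG, hfG, E, hE⟩ := exists_model _ hcomm
  refine ⟨ι, hι, G, hG, hfG, E, ?_, ?_⟩
  · rw [← card_eq_sum E, Nat.card_fin]
  by_cases hD : (Tm E).range ≤ alternatingGroup (Fin n)
  · left
    obtain ⟨C, h1, h2, h3⟩ := sub_of_range (Tm E).range (Tm_comm E) hD
    have h4 := hAmax C h1
    rw [h2, ← hcA] at h4
    have h5 : A.map (alternatingGroup (Fin n)).subtype = (Tm E).range := Subgroup.eq_of_le_of_card_ge hE h4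
    have hfin : ∀ i, Fintype (G i) := fun i => Fintype.ofFinite _
    have hsign : ∀ i, ∀ x : G i, Perm.sign (Equiv.mulLeft x) = 1 := by
      intro i x
      rw [← sign_single E i x]
      exact Perm.mem_alternatingGroup.1 (hD ⟨_, rfl⟩)
    refine ⟨h5, ?_, fun i hi => ?_, fun i hi => klein_of_sign hi (hsign i)⟩
    · rw [← hcA, h5, Tm_card]
    · obtain ⟨x, hx⟩ := sign_two hi
      exact hx (hsign i x)
  · right
    rw [← Tm_card E, ← hcA]
    have h1 : A.map (alternatingGroup (Fin n)).subtype ≤ alternatingGroup (Fin n) := by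
      rintro _ ⟨x, -, rfl⟩
      exact x.2
    have h2 : A.map (alternatingGroup (Fin n)).subtype ≤ (Tm E).range ⊓ alternatingGroup (Fin n) := le_inf hE h1
    have h3 : Nat.card ↥((Tm E).range ⊓ alternatingGroup (Fin n)) ∣ Nat.card (Tm E).range := Subgroup.card_dvd_of_le inf_le_left
    have h4 : Nat.card (A.map (alternatingGroup (Fin n)).subtype) ≤ Nat.card ↥((Tm E).range ⊓ alternatingGroup (Fin n)) :=
      Subgroup.card_le_of_le h2
    obtain ⟨m, hm⟩ := h3
    have hm1 : m ≠ 1 := by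
      rintro rfl
      apply hD
      rw [mul_one] at hm
      have := Subgroup.eq_of_le_of_card_ge (inf_le_left : (Tm E).range ⊓ alternatingGroup (Fin n) ≤ (Tm E).range) hm.le
      rw [← this]
      exact inf_le_right
    have hm0 : m ≠ 0 := by
      rintro rfl
      rw [mul_zero] at hm
      exact Nat.card_pos.ne' hm
    rw [hm, mul_comm]
    exact Nat.mul_le_mul h4 (by omega)

theorem conj_of_even {n : ℕ} (A B : Subgroup (alternatingGroup (Fin n))) (hcard : Nat.card A = Nat.card B) (Φ : Perm (Fin n)) (hs : Perm.sign Φ = 1)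
    (h : ∀ x ∈ A, ∃ y ∈ B, ∀ z, Φ ((x : Perm (Fin n)) z) = (y : Perm (Fin n)) (Φ z)) : ∃ g : alternatingGroup (Fin n), B = MulAut.conj g • A := by
  refine ⟨⟨Φ, Perm.mem_alternatingGroup.2 hs⟩, ?_⟩
  symm
  apply Subgroup.eq_of_le_of_card_ge
  · rintro _ ⟨x, hx, rfl⟩
    obtain ⟨y, hy, hxy⟩ := h x hx
    have : (MulAut.conj (⟨Φ, Perm.mem_alternatingGroup.2 hs⟩ : alternatingGroup (Fin n))) x = y := by
      rw [MulAut.conj_apply, mul_inv_eq_iff_eq_mul]
      apply Subtype.ext
      ext1 z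
      exact hxy z
    show (MulAut.conj (⟨Φ, Perm.mem_alternatingGroup.2 hs⟩ : alternatingGroup (Fin n))) x ∈ B
    rw [this]
    exact hy
  · rw [← hcard]
    exact (Nat.card_congr (Subgroup.equivSMul (MulAut.conj (⟨Φ, Perm.mem_alternatingGroup.2 hs⟩ : alternatingGroup (Fin n))) A).toEquiv).le

theorem conj_main {n : ℕ} (hn : 3 ≤ n) (A B : Subgroup (alternatingGroup (Fin n))) (hcard : Nat.card A = Nat.card B)
    {ι ι' : Type} [Fintype ι] [Fintype ι'] {G : ι → Type} {G' : ι' → Type} [∀ i, CommGroup (G i)] [∀ i, CommGroup (G' i)] [∀ i, Finite (G i)] [∀ i, Finite (G' i)]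
    (E : (Σ i, G i) ≃ Fin n) (E' : (Σ i, G' i) ≃ Fin n) (hA : A.map (alternatingGroup (Fin n)).subtype = (Tm E).range)
    (hB : B.map (alternatingGroup (Fin n)).subtype = (Tm E').range) (h34 : ∀ i, Nat.card (G i) = 3 ∨ Nat.card (G i) = 4) (h34' : ∀ i, Nat.card (G' i) = 3 ∨ Nat.card (G' i) = 4)
    (hk : ∀ i, Nat.card (G i) = 4 → IsKleinFour (G i)) (hk' : ∀ i, Nat.card (G' i) = 4 → IsKleinFour (G' i))
    (a r : ℕ) (h1 : Fintype.card {i // Nat.card (G i) = 4} = r ∧ Fintype.card {i // ¬ Nat.card (G i) = 4} = a)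
    (h2 : Fintype.card {i // Nat.card (G' i) = 4} = r ∧ Fintype.card {i // ¬ Nat.card (G' i) = 4} = a) :
    ∃ g : alternatingGroup (Fin n), B = MulAut.conj g • A := by
  classical
  -- matching of the indices
  obtain ⟨β, hβ⟩ : ∃ β : ι ≃ ι', ∀ i, Nat.card (G' (β i)) = Nat.card (G i) := by
    let f : ι → Bool := fun i => decide (Nat.card (G i) = 4)
    let f' : ι' → Bool := fun i => decide (Nat.card (G' i) = 4)
    have e : ∀ c : Bool, Nonempty ({i // f i = c} ≃ {i // f' i = c}) := by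
      intro c
      cases c
      · have e1 : {i // f i = false} ≃ {i // ¬ Nat.card (G i) = 4} := Equiv.subtypeEquivRight fun i => by simp [f]
        have e2 : {i // f' i = false} ≃ {i // ¬ Nat.card (G' i) = 4} := Equiv.subtypeEquivRight fun i => by simp [f']
        exact ⟨e1.trans ((Fintype.equivOfCardEq (by rw [h1.2, h2.2])).trans e2.symm)⟩
      · have e1 : {i // f i = true} ≃ {i // Nat.card (G i) = 4} := Equiv.subtypeEquivRight fun i => by simp [f]
        have e2 : {i // f' i = true} ≃ {i // Nat.card (G' i) = 4} := Equiv.subtypeEquivRight fun i => by simp [f']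
        exact ⟨e1.trans ((Fintype.equivOfCardEq (by rw [h1.1, h2.1])).trans e2.symm)⟩
    refine ⟨Equiv.ofFiberEquiv fun c => (e c).some, fun i => ?_⟩
    have h3 := Equiv.ofFiberEquiv_map (fun c => (e c).some) i
    rcases h34 i with h4 | h4
    · rcases h34' (Equiv.ofFiberEquiv (fun c => (e c).some) i) with h5 | h5
      · rw [h4, h5]
      · exfalso
        simp only [f, f', h4, h5] at h3
        simp at h3
    · rcases h34' (Equiv.ofFiberEquiv (fun c => (e c).some) i) with h5 | h5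
      · exfalso
        simp only [f, f', h4, h5] at h3
        simp at h3
      · rw [h4, h5]
  have hf : ∀ i, Nonempty (G i ≃* G' (β i)) := by
    intro i
    rcases h34 i with h4 | h4
    · have h3 : Fact (Nat.Prime 3) := ⟨Nat.prime_three⟩
      exact ⟨mulEquivOfPrimeCardEq (p := 3) h4 (by rw [hβ, h4])⟩
    · have k1 := hk i h4
      have k2 := hk' (β i) (by rw [hβ, h4])
      exact IsKleinFour.nonempty_mulEquiv
  obtain ⟨Φ, hΦ⟩ := exists_match E E' β (fun i => (hf i).some)
  -- an odd normalizing permutation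
  obtain ⟨i0⟩ : Nonempty ι := by
    by_contra hne
    rw [not_nonempty_iff] at hne
    have : Nat.card (Fin n) = 0 := by
      rw [card_eq_sum E]
      simp
    rw [Nat.card_fin] at this
    omega
  obtain ⟨u, v, huv, hm⟩ : ∃ u v : G i0, u ≠ v ∧ ∀ x y : G i0, Equiv.swap u v (x * y) = Equiv.swap u v x * Equiv.swap u v y := by
    rcases h34 i0 with h4 | h4
    · exact swap_three h4
    · exact swap_klein (hk i0 h4)
  obtain ⟨τ, hτ, hτn⟩ := exists_odd E i0 u v huv hm
  have key : ∀ Ψ : Perm (Fin n), (∀ g : ∀ i, G i, ∃ g' : ∀ i, G' i, ∀ x, Ψ (Tm E g x) = Tm E' g' (Ψ x)) →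
      ∀ x ∈ A, ∃ y ∈ B, ∀ z, Ψ ((x : Perm (Fin n)) z) = (y : Perm (Fin n)) (Ψ z) := by
    intro Ψ hΨ x hx
    have h3 : (x : Perm (Fin n)) ∈ (Tm E).range := by
      rw [← hA]
      exact ⟨x, hx, rfl⟩
    obtain ⟨g, hg⟩ := h3
    obtain ⟨g', hg'⟩ := hΨ g
    have h4 : Tm E' g' ∈ B.map (alternatingGroup (Fin n)).subtype := by
      rw [hB]
      exact ⟨g', rfl⟩
    obtain ⟨y, hy, hyg⟩ := h4
    refine ⟨y, hy, fun z => ?_⟩
    rw [← hg, hg', ← hyg]
    rfl
  rcases Int.units_eq_one_or (Perm.sign Φ) with hs | hs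
  · exact conj_of_even A B hcard Φ hs (key Φ hΦ)
  · apply conj_of_even A B hcard (Φ * τ) (by rw [Perm.sign_mul, hs, hτ]; rfl) (key _ ?_)
    intro g
    obtain ⟨g', hg'⟩ := hτn g
    obtain ⟨g'', hg''⟩ := hΦ g'
    refine ⟨g'', fun x => ?_⟩
    rw [Perm.mul_apply, hg', hg'', Perm.mul_apply]

theorem case_main {n : ℕ} (hn : 3 ≤ n) (hn5 : n ≠ 5)
    (A B : Subgroup (alternatingGroup (Fin n))) (hA : IsMulCommutative A) (hB : IsMulCommutative B)
    (hAmax : ∀ C : Subgroup (alternatingGroup (Fin n)), IsMulCommutative C → Nat.card C ≤ Nat.card A)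
    (hBmax : ∀ C : Subgroup (alternatingGroup (Fin n)), IsMulCommutative C → Nat.card C ≤ Nat.card B) :
    ∃ g : alternatingGroup (Fin n), B = MulAut.conj g • A := by
  obtain ⟨a, r, hr, hnar⟩ : ∃ a r, r < 3 ∧ n = 3 * a + 4 * r := ⟨(n - 4 * (n % 3)) / 3, n % 3, Nat.mod_lt _ (by norm_num), by omega⟩
  have hcard : Nat.card A = Nat.card B := le_antisymm (hBmax A hA) (hAmax B hB)
  have hlarge : ∃ C : Subgroup (alternatingGroup (Fin n)), IsMulCommutative C ∧ Nat.card C = 3 ^ a * 4 ^ r := by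
    subst hnar
    exact exists_large a r
  obtain ⟨C, hC, hCc⟩ := hlarge
  have key : ∀ A : Subgroup (alternatingGroup (Fin n)), IsMulCommutative A → (∀ C : Subgroup (alternatingGroup (Fin n)), IsMulCommutative C → Nat.card C ≤ Nat.card A) →
      ∃ (ι : Type) (_ : Fintype ι) (G : ι → Type) (_ : ∀ i, CommGroup (G i)) (_ : ∀ i, Finite (G i)) (E : (Σ i, G i) ≃ Fin n),
        A.map (alternatingGroup (Fin n)).subtype = (Tm E).range ∧ (∀ i, Nat.card (G i) = 3 ∨ Nat.card (G i) = 4) ∧ (∀ i, Nat.card (G i) = 4 → IsKleinFour (G i)) ∧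
        (Fintype.card {i // Nat.card (G i) = 4} = r ∧ Fintype.card {i // ¬ Nat.card (G i) = 4} = a) := by
    intro A hA hAmax
    have h1 := hAmax C hC
    rw [hCc] at h1
    obtain ⟨ι, hι, G, hG, hfG, E, hsum, h2⟩ := exists_structure A hA hAmax
    rw [hnar] at hsum
    rcases h2 with ⟨h3, h4, h5, h6⟩ | h2
    · rw [h4] at h1
      have h7 := arith_even (fun i => Nat.card (G i)) a r hr hsum h1 (fun i => Nat.card_pos) h5
      exact ⟨ι, hι, G, hG, hfG, E, h3, h7, h6, arith_count (fun i => Nat.card (G i)) a r hr hsum h1 h7⟩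
    · exact (arith_odd (fun i => Nat.card (G i)) a r hr hsum ((Nat.mul_le_mul_left 2 h1).trans h2)).elim
  obtain ⟨ι, hι, G, hG, hfG, E, h1, h2, h3, h4⟩ := key A hA hAmax
  obtain ⟨ι', hι', G', hG', hfG', E', h1', h2', h3', h4'⟩ := key B hB hBmax
  exact conj_main hn A B hcard E E' h1 h1' h2 h2' h3 h3' a r h4 h4'

theorem case_five (A B : Subgroup (alternatingGroup (Fin 5))) (hA : IsMulCommutative A) (hB : IsMulCommutative B)
    (hAmax : ∀ C : Subgroup (alternatingGroup (Fin 5)), IsMulCommutative C → Nat.card C ≤ Nat.card A)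
    (hBmax : ∀ C : Subgroup (alternatingGroup (Fin 5)), IsMulCommutative C → Nat.card C ≤ Nat.card B) :
    ∃ g : alternatingGroup (Fin 5), B = MulAut.conj g • A := by
  have h5 : Fact (Nat.Prime 5) := ⟨Nat.prime_five⟩
  have hc60 : Nat.card (alternatingGroup (Fin 5)) = 60 := by
    rw [nat_card_alternatingGroup, Nat.card_fin]
    rfl
  obtain ⟨x, hx⟩ := exists_prime_orderOf_dvd_card' (G := alternatingGroup (Fin 5)) 5 (by rw [hc60]; norm_num)
  have key : ∀ A : Subgroup (alternatingGroup (Fin 5)), IsMulCommutative A → (∀ C : Subgroup (alternatingGroup (Fin 5)), IsMulCommutative C → Nat.card C ≤ Nat.card A) →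
      Nat.card A = 5 := by
    intro A hA hAmax
    have h1 := hAmax (Subgroup.zpowers x) inferInstance
    rw [Nat.card_zpowers, hx] at h1
    obtain ⟨ι, hι, G, hG, hfG, E, hsum, h2⟩ := exists_structure A hA hAmax
    have h3 := prod_cube_le (fun i => Nat.card (G i))
    rw [hsum] at h3
    have h4 : ∏ i, Nat.card (G i) ≤ 6 := by
      by_contra h
      have h5 : 7 ^ 3 ≤ (∏ i, Nat.card (G i)) ^ 3 := Nat.pow_le_pow_left (by omega) 3
      have := h5.trans h3
      norm_num at this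
    rcases h2 with ⟨-, h5, h6, -⟩ | h2
    · rw [h5] at h1 ⊢
      by_contra hne
      have h7 : ∏ i, Nat.card (G i) = 6 := by omega
      have h8 : 2 ∣ ∏ i, Nat.card (G i) := by rw [h7]; norm_num
      rw [Nat.prime_two.prime.dvd_finset_prod_iff] at h8
      obtain ⟨i, -, hi⟩ := h8
      have h9 : Nat.card (G i) ∣ 6 := by
        rw [← h7]
        exact Finset.dvd_prod_of_mem _ (Finset.mem_univ i)
      have h10 : Nat.card (G i) ≤ 5 := by
        rw [← hsum]
        exact Finset.single_le_sum (f := fun i => Nat.card (G i)) (fun _ _ => Nat.zero_le _) (Finset.mem_univ i)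
      have h11 := h6 i
      have h12 : 0 < Nat.card (G i) := Nat.card_pos
      generalize Nat.card (G i) = m at *
      interval_cases m <;> omega
    · omega
  have kA := key A hA hAmax
  have kB := key B hB hBmax
  have hfac : (60 : ℕ).factorization 5 = 1 := by
    have : (60 : ℕ) = 5 ^ 1 * 12 := by norm_num
    rw [this, Nat.factorization_mul (by norm_num) (by norm_num), Finsupp.add_apply, Nat.Prime.factorization_pow Nat.prime_five, Finsupp.single_eq_same,
      Nat.factorization_eq_zero_of_not_dvd (by norm_num)]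
  let P := Sylow.ofCard (p := 5) A (by rw [kA, hc60, hfac]; norm_num)
  let Q := Sylow.ofCard (p := 5) B (by rw [kB, hc60, hfac]; norm_num)
  obtain ⟨g, hg⟩ := MulAction.exists_smul_eq (alternatingGroup (Fin 5)) P Q
  refine ⟨g, ?_⟩
  have h1 : ((g • P : Sylow 5 (alternatingGroup (Fin 5))) : Subgroup (alternatingGroup (Fin 5))) = Q := by rw [hg]
  exact h1.symm

end main

/-- In the alternating group of any degree, any two abelian subgroups of the largest possible order (among abelian subgroups) are conjugate. -/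
theorem result (n : ℕ)
    (A B : Subgroup (alternatingGroup (Fin n))) (hA : IsMulCommutative A) (hB : IsMulCommutative B)
    (hAmax : ∀ C : Subgroup (alternatingGroup (Fin n)), IsMulCommutative C → Nat.card C ≤ Nat.card A)
    (hBmax : ∀ C : Subgroup (alternatingGroup (Fin n)), IsMulCommutative C → Nat.card C ≤ Nat.card B) :
    ∃ g : alternatingGroup (Fin n), B = MulAut.conj g • A := by
  by_cases hn : 3 ≤ n
  · by_cases hn5 : n = 5
    · subst hn5
      exact case_five A B hA hB hAmax hBmax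
    · exact case_main hn hn5 A B hA hB hAmax hBmax
  · refine ⟨1, ?_⟩
    have hs : ∀ x y : alternatingGroup (Fin n), x = y := by
      have : n < 3 := not_le.1 hn
      interval_cases n
      · decide
      · decide
      · decide
    ext x
    have h1 : x = 1 := hs x 1
    rw [h1]
    exact ⟨fun _ => Subgroup.one_mem _, fun _ => Subgroup.one_mem _⟩

end Cfsg.Agent.S2506
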