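import Cfsg.Statements.S2510
import Cfsg.Agent.H42.PSLSpec

set_option autoImplicit false
open Cfsg

namespace Cfsg.Agent.S2510

open Cfsg.Agent.H42 Module

variable {F : Type*} [Field F] [Finite F] {n : ℕ}

/-- decomposition of a positive number -/
theorem exists_decomp (p : ℕ) (hp : p.Prime) (N : ℕ) (hN : N ≠ 0) : ∃ j σ, ¬ p ∣ σ ∧ N = p ^ j * σ :=
  Nat.exists_eq_pow_mul_and_not_dvd hN p hp.ne_one

theorem dvd_iff_of_coprime {a b d : ℕ} (h : Nat.Coprime a b) : a * b ∣ d ↔ a ∣ d ∧ b ∣ d :=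
  ⟨fun hd => ⟨(Dvd.intro _ rfl).trans hd, (Dvd.intro_left _ rfl).trans hd⟩,
    fun hd => h.mul_dvd_of_dvd_of_dvd hd.1 hd.2⟩

/-- core of the three-slot statement -/
theorem three (p : ℕ) [Fact p.Prime] [CharP F p] (hn : 2 ≤ n)
    {r : ℕ} (hr : r.Prime) (hrn : ¬ r ∣ n) (ζ : F) (hζ : orderOf ζ = r)
    (x₁ x₂ x₃ : Matrix.ProjectiveSpecialLinearGroup (Fin n) F) {j₁ σ₁ j₂ σ₂ j₃ σ₃ : ℕ}
    (h₁ : orderOf x₁ = p ^ j₁ * σ₁) (h₂ : orderOf x₂ = p ^ j₂ * σ₂) (h₃ : orderOf x₃ = p ^ j₃ * σ₃)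
    (hσ₁ : ¬ p ∣ σ₁) (hσ₂ : ¬ p ∣ σ₂) (hσ₃ : ¬ p ∣ σ₃)
    (hr₁ : ¬ r ∣ orderOf x₁) (hr₂ : ¬ r ∣ orderOf x₂) (hr₃ : ¬ r ∣ orderOf x₃) (hj₂ : j₂ ≤ j₁) (hj₃ : j₃ ≤ j₁) :
    ∃ y₁ y₂ y₃ : Matrix.ProjectiveSpecialLinearGroup (Fin n) F, ∀ d : ℕ,
      (orderOf y₁ ∣ d ∧ orderOf y₂ ∣ d ∧ orderOf y₃ ∣ d) ↔
        (r ∣ d ∧ orderOf x₁ ∣ d ∧ orderOf x₂ ∣ d ∧ orderOf x₃ ∣ d) := by
  classical
  have hp : p.Prime := Fact.out
  haveI : NeZero n := ⟨by omega⟩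
  let E := FiniteField.Extension F p n
  have hE : finrank F E = n := FiniteField.finrank_extension F p n
  have hcop : ∀ {j σ : ℕ}, ¬ p ∣ σ → Nat.Coprime (p ^ j) σ := fun {j σ} h =>
    Nat.Coprime.pow_left j ((Nat.Prime.coprime_iff_not_dvd hp).mpr h)
  -- p'-parts
  have part : ∀ (x : Matrix.ProjectiveSpecialLinearGroup (Fin n) F) {j σ : ℕ}, orderOf x = p ^ j * σ → ¬ p ∣ σ →
      ¬ r ∣ orderOf x → (∃ y : Matrix.ProjectiveSpecialLinearGroup (Fin n) F, orderOf y = r * σ) ∨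
        SingerOrd F E σ := by
    intro x j σ hx hσ hrx
    have hσ0 : σ ≠ 0 := by rintro rfl; exact hσ (dvd_zero _)
    have hxp : orderOf (x ^ p ^ j) = σ := by
      have hd : p ^ j ∣ orderOf x := by rw [hx]; exact Dvd.intro _ rfl
      rw [orderOf_pow_of_dvd (pow_pos hp.pos j).ne' hd, hx]
      exact Nat.mul_div_cancel_left _ (pow_pos hp.pos j)
    have hrσ : ¬ r ∣ orderOf (x ^ p ^ j) := by
      rw [hxp]
      intro h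
      exact hrx (hx ▸ Dvd.dvd.mul_left h _)
    have := mul_or_singer p (by omega) E hE hr hrn ζ hζ (x ^ p ^ j) (j := 0) (σ := σ)
      (by rw [hxp, pow_zero, one_mul]) hσ hrσ
    rwa [hxp] at this
  have hcr : ∀ {σ : ℕ} {x : Matrix.ProjectiveSpecialLinearGroup (Fin n) F} {j : ℕ}, orderOf x = p ^ j * σ →
      ¬ r ∣ orderOf x → Nat.Coprime r σ := by
    intro σ x j hx hrx
    exact (Nat.Prime.coprime_iff_not_dvd hr).mpr (fun h => hrx (hx ▸ Dvd.dvd.mul_left h _))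
  have key : ∀ d : ℕ, (orderOf x₁ ∣ d ∧ orderOf x₂ ∣ d ∧ orderOf x₃ ∣ d) ↔ (orderOf x₁ ∣ d ∧ σ₂ ∣ d ∧ σ₃ ∣ d) := by
    intro d
    rw [h₁, h₂, h₃, dvd_iff_of_coprime (hcop hσ₁), dvd_iff_of_coprime (hcop hσ₂), dvd_iff_of_coprime (hcop hσ₃)]
    constructor
    · rintro ⟨⟨a, b⟩, ⟨-, c⟩, -, e⟩
      exact ⟨⟨a, b⟩, c, e⟩
    · rintro ⟨⟨a, b⟩, c, e⟩
      exact ⟨⟨a, b⟩, ⟨(pow_dvd_pow p hj₂).trans a, c⟩, (pow_dvd_pow p hj₃).trans a, e⟩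
  have hσ2e : ∃ y : Matrix.ProjectiveSpecialLinearGroup (Fin n) F, orderOf y = σ₂ := by
    refine ⟨x₂ ^ p ^ j₂, ?_⟩
    have hd : p ^ j₂ ∣ orderOf x₂ := by rw [h₂]; exact Dvd.intro _ rfl
    rw [orderOf_pow_of_dvd (pow_pos hp.pos j₂).ne' hd, h₂]
    exact Nat.mul_div_cancel_left _ (pow_pos hp.pos j₂)
  have hσ3e : ∃ y : Matrix.ProjectiveSpecialLinearGroup (Fin n) F, orderOf y = σ₃ := by
    refine ⟨x₃ ^ p ^ j₃, ?_⟩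
    have hd : p ^ j₃ ∣ orderOf x₃ := by rw [h₃]; exact Dvd.intro _ rfl
    rw [orderOf_pow_of_dvd (pow_pos hp.pos j₃).ne' hd, h₃]
    exact Nat.mul_div_cancel_left _ (pow_pos hp.pos j₃)
  rcases part x₂ h₂ hσ₂ hr₂ with ⟨y, hy⟩ | hs₂
  · obtain ⟨z, hz⟩ := hσ3e
    refine ⟨x₁, y, z, fun d => ?_⟩
    rw [hy, hz, key, dvd_iff_of_coprime (hcr h₂ hr₂)]
    tauto
  rcases part x₃ h₃ hσ₃ hr₃ with ⟨y, hy⟩ | hs₃
  · obtain ⟨z, hz⟩ := hσ2e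
    refine ⟨x₁, z, y, fun d => ?_⟩
    rw [hy, hz, key, dvd_iff_of_coprime (hcr h₃ hr₃)]
    tauto
  obtain ⟨z, hz⟩ := (hs₂.lcm hs₃).exists_psl hE
  obtain ⟨y, hy⟩ := exists_order_r hn hr hrn ζ hζ
  refine ⟨x₁, z, y, fun d => ?_⟩
  rw [hy, hz, key, Nat.lcm_dvd_iff]
  tauto

/-- core of the two-slot statement -/
theorem two (p : ℕ) [Fact p.Prime] [CharP F p] (hn : 2 ≤ n)
    {r : ℕ} (hr : r.Prime) (hrp : r ≠ p) (hrn : ¬ r ∣ n) (ζ : F) (hζ : orderOf ζ = r)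
    (hnp : ¬ ∃ j : ℕ, n - 1 = p ^ j)
    (x₁ x₂ : Matrix.ProjectiveSpecialLinearGroup (Fin n) F) {j₁ σ₁ j₂ σ₂ : ℕ}
    (h₁ : orderOf x₁ = p ^ j₁ * σ₁) (h₂ : orderOf x₂ = p ^ j₂ * σ₂)
    (hσ₁ : ¬ p ∣ σ₁) (hσ₂ : ¬ p ∣ σ₂)
    (hr₁ : ¬ r ∣ orderOf x₁) (hr₂ : ¬ r ∣ orderOf x₂) (hj₂ : j₂ ≤ j₁) :
    ∃ y₁ y₂ : Matrix.ProjectiveSpecialLinearGroup (Fin n) F, ∀ d : ℕ,
      (orderOf y₁ ∣ d ∧ orderOf y₂ ∣ d) ↔
        (r ∣ d ∧ orderOf x₁ ∣ d ∧ orderOf x₂ ∣ d) := by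
  classical
  have hp : p.Prime := Fact.out
  haveI : NeZero n := ⟨by omega⟩
  let E := FiniteField.Extension F p n
  have hE : finrank F E = n := FiniteField.finrank_extension F p n
  have hcop : ∀ {j σ : ℕ}, ¬ p ∣ σ → Nat.Coprime (p ^ j) σ := fun {j σ} h =>
    Nat.Coprime.pow_left j ((Nat.Prime.coprime_iff_not_dvd hp).mpr h)
  have hrx : ∀ {x : Matrix.ProjectiveSpecialLinearGroup (Fin n) F}, ¬ r ∣ orderOf x → Nat.Coprime r (orderOf x) := by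
    intro x hrx
    exact (Nat.Prime.coprime_iff_not_dvd hr).mpr hrx
  rcases mul_or_singer p (by omega) E hE hr hrn ζ hζ x₁ h₁ hσ₁ hr₁ with ⟨y, hy⟩ | hs₁
  · refine ⟨y, x₂, fun d => ?_⟩
    rw [hy, dvd_iff_of_coprime (hrx hr₁)]
    tauto
  rcases mul_or_singer p (by omega) E hE hr hrn ζ hζ x₂ h₂ hσ₂ hr₂ with ⟨y, hy⟩ | hs₂
  · refine ⟨x₁, y, fun d => ?_⟩
    rw [hy, dvd_iff_of_coprime (hrx hr₂)]
    tauto
  obtain ⟨z, hz⟩ := (hs₁.lcm hs₂).exists_psl hE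
  have hy : ∃ y : Matrix.ProjectiveSpecialLinearGroup (Fin n) F, orderOf y = r * p ^ j₁ := by
    rcases Nat.eq_zero_or_pos j₁ with h | h
    · obtain ⟨y, hy⟩ := exists_order_r hn hr hrn ζ hζ
      exact ⟨y, by rw [hy, h, pow_zero, mul_one]⟩
    · obtain ⟨j, rfl⟩ : ∃ j, j₁ = j + 1 := ⟨j₁ - 1, by omega⟩
      have h5 : p ^ (j + 1) ∣ orderOf x₁ := by rw [h₁]; exact Dvd.intro _ rfl
      have h3 : p ^ j < n := pow_lt_of_order p (x₁ ^ (orderOf x₁ / p ^ (j + 1)))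
        (orderOf_pow_orderOf_div (orderOf_pos x₁).ne' h5)
      have h4 : n - 1 ≠ p ^ j := fun h4 => hnp ⟨j, h4⟩
      exact exists_order_r_mul p hr hrp hrn ζ hζ (by omega)
  obtain ⟨y, hy⟩ := hy
  refine ⟨z, y, fun d => ?_⟩
  have hcr : Nat.Coprime r (p ^ j₁) := Nat.Coprime.pow_right _ ((Nat.coprime_primes hr hp).mpr hrp)
  rw [hy, hz, Nat.lcm_dvd_iff, dvd_iff_of_coprime hcr, h₁, h₂, dvd_iff_of_coprime (hcop hσ₁),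
    dvd_iff_of_coprime (hcop hσ₂)]
  constructor
  · rintro ⟨⟨a, b⟩, c, e⟩
    exact ⟨c, ⟨e, a⟩, (pow_dvd_pow p hj₂).trans e, b⟩
  · rintro ⟨c, ⟨e, a⟩, -, b⟩
    exact ⟨⟨a, b⟩, c, e⟩

theorem orderOf_eq_of_dvd {G H : Type*} [Monoid G] [Monoid H] {x : G} {y : H}
    (h : ∀ d : ℕ, orderOf x ∣ d ↔ orderOf y ∣ d) : orderOf x = orderOf y :=
  Nat.dvd_antisymm ((h _).mpr dvd_rfl) ((h _).mp dvd_rfl)

/-- Let F be a finite field with q = p^a elements, n ≥ 2 (with q ≥ 4 when n = 2), L = PSL(n, F), and let r be a prime dividing q − 1 and not dividing n. Then for every m the direct product L × L × L × (ℤ/r)^m has the same set of element orders as L × L × L; and if n − 1 ≠ p^j for every j ≥ 0 (so never when n = 2, since 1 = p^0), then already L × L × (ℤ/r)^m has the same set of element orders as L × L. -/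
theorem result {F : Type*} [Field F] [Fintype F] (p a n r m : ℕ) (hp : p.Prime) (ha : 1 ≤ a) (hF : Fintype.card F = p ^ a)
    (hn : 2 ≤ n) (hn2 : n = 2 → 4 ≤ Fintype.card F) (hr : r.Prime) (hrq : r ∣ Fintype.card F - 1) (hrn : ¬ r ∣ n) :
    Set.range (orderOf : Matrix.ProjectiveSpecialLinearGroup (Fin n) F × Matrix.ProjectiveSpecialLinearGroup (Fin n) F × Matrix.ProjectiveSpecialLinearGroup (Fin n) F × Multiplicative (Fin m → ZMod r) → ℕ) =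
      Set.range (orderOf : Matrix.ProjectiveSpecialLinearGroup (Fin n) F × Matrix.ProjectiveSpecialLinearGroup (Fin n) F × Matrix.ProjectiveSpecialLinearGroup (Fin n) F → ℕ) ∧
    ((¬ ∃ j : ℕ, n - 1 = p ^ j) →
      Set.range (orderOf : Matrix.ProjectiveSpecialLinearGroup (Fin n) F × Matrix.ProjectiveSpecialLinearGroup (Fin n) F × Multiplicative (Fin m → ZMod r) → ℕ) =
        Set.range (orderOf : Matrix.ProjectiveSpecialLinearGroup (Fin n) F × Matrix.ProjectiveSpecialLinearGroup (Fin n) F → ℕ)) := by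
  classical
  haveI : Fact p.Prime := ⟨hp⟩
  haveI hchar : CharP F p := by
    obtain ⟨p', hp'⟩ := CharP.exists F
    haveI : Fact p'.Prime := ⟨CharP.char_is_prime F p'⟩
    obtain ⟨k, -, hk⟩ := FiniteField.card F p'
    rw [hF] at hk
    have h1 : p ∣ p' ^ (k : ℕ) := by rw [← hk]; exact dvd_pow_self p (by omega)
    have h2 : p = p' := (Nat.prime_dvd_prime_iff_eq hp Fact.out).mp (hp.dvd_of_dvd_pow h1)
    rw [h2]
    exact hp'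
  -- an element of order r in F
  obtain ⟨ζ, hζ⟩ : ∃ ζ : F, orderOf ζ = r := by
    haveI : Fact r.Prime := ⟨hr⟩
    obtain ⟨u, hu⟩ := exists_prime_orderOf_dvd_card (G := Fˣ) r (by rw [Fintype.card_units]; exact hrq)
    exact ⟨(u : F), by rw [orderOf_units, hu]⟩
  have hrp : r ≠ p := by
    rintro rfl
    have h1 : r ∣ Fintype.card F := by rw [hF]; exact dvd_pow_self r (by omega)
    have h2 : r ∣ 1 := by
      have h3 := (Nat.dvd_sub h1 hrq)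
      have h4 : 0 < Fintype.card F := Fintype.card_pos
      rwa [show Fintype.card F - (Fintype.card F - 1) = 1 by omega] at h3
    exact hr.one_lt.ne' (Nat.dvd_one.mp h2)
  have hE : ∀ e : Multiplicative (Fin m → ZMod r), orderOf e ∣ r := by
    intro e
    rw [orderOf_dvd_iff_pow_eq_one]
    have h1 : r • (Multiplicative.toAdd e) = 0 := by
      funext i
      simp
    exact congrArg Multiplicative.ofAdd h1
  set L := Matrix.ProjectiveSpecialLinearGroup (Fin n) F with hL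
  have hdec : ∀ x : L, ∃ j σ, ¬ p ∣ σ ∧ orderOf x = p ^ j * σ := fun x =>
    exists_decomp p hp _ (orderOf_pos x).ne'
  refine ⟨Set.Subset.antisymm ?_ ?_, fun hnp => Set.Subset.antisymm ?_ ?_⟩
  · rintro _ ⟨⟨x₁, x₂, x₃, e⟩, rfl⟩
    have hd3 : ∀ (y₁ y₂ y₃ : L) (d : ℕ), orderOf (y₁, y₂, y₃) ∣ d ↔ (orderOf y₁ ∣ d ∧ orderOf y₂ ∣ d ∧ orderOf y₃ ∣ d) := by
      intro y₁ y₂ y₃ d
      rw [Prod.orderOf_mk, Prod.orderOf_mk, Nat.lcm_dvd_iff, Nat.lcm_dvd_iff]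
    have hd4 : ∀ (y₁ y₂ y₃ : L) (e : Multiplicative (Fin m → ZMod r)) (d : ℕ), orderOf (y₁, y₂, y₃, e) ∣ d ↔
        (orderOf y₁ ∣ d ∧ orderOf y₂ ∣ d ∧ orderOf y₃ ∣ d ∧ orderOf e ∣ d) := by
      intro y₁ y₂ y₃ e d
      rw [Prod.orderOf_mk, Prod.orderOf_mk, Prod.orderOf_mk, Nat.lcm_dvd_iff, Nat.lcm_dvd_iff, Nat.lcm_dvd_iff]
    suffices hsuff : ∃ y₁ y₂ y₃ : L, ∀ d : ℕ, (orderOf y₁ ∣ d ∧ orderOf y₂ ∣ d ∧ orderOf y₃ ∣ d) ↔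
        (orderOf x₁ ∣ d ∧ orderOf x₂ ∣ d ∧ orderOf x₃ ∣ d ∧ orderOf e ∣ d) by
      obtain ⟨y₁, y₂, y₃, hy⟩ := hsuff
      refine ⟨(y₁, y₂, y₃), orderOf_eq_of_dvd fun d => ?_⟩
      rw [hd3, hd4, hy]
    rcases (Nat.dvd_prime hr).mp (hE e) with he | he
    · exact ⟨x₁, x₂, x₃, fun d => by rw [he]; simp⟩
    by_cases hall : r ∣ orderOf x₁ ∨ r ∣ orderOf x₂ ∨ r ∣ orderOf x₃
    · refine ⟨x₁, x₂, x₃, fun d => ?_⟩
      rw [he]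
      constructor
      · rintro ⟨a, b, c⟩
        refine ⟨a, b, c, ?_⟩
        rcases hall with h | h | h
        · exact h.trans a
        · exact h.trans b
        · exact h.trans c
      · rintro ⟨a, b, c, -⟩
        exact ⟨a, b, c⟩
    push Not at hall
    obtain ⟨hr₁, hr₂, hr₃⟩ := hall
    obtain ⟨j₁, σ₁, hσ₁, h₁⟩ := hdec x₁
    obtain ⟨j₂, σ₂, hσ₂, h₂⟩ := hdec x₂
    obtain ⟨j₃, σ₃, hσ₃, h₃⟩ := hdec x₃
    rw [he]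
    by_cases hc1 : j₂ ≤ j₁ ∧ j₃ ≤ j₁
    · obtain ⟨y₁, y₂, y₃, hy⟩ := three p hn hr hrn ζ hζ x₁ x₂ x₃ h₁ h₂ h₃ hσ₁ hσ₂ hσ₃ hr₁ hr₂ hr₃ hc1.1 hc1.2
      exact ⟨y₁, y₂, y₃, fun d => by rw [hy]; tauto⟩
    by_cases hc2 : j₁ ≤ j₂ ∧ j₃ ≤ j₂
    · obtain ⟨y₁, y₂, y₃, hy⟩ := three p hn hr hrn ζ hζ x₂ x₁ x₃ h₂ h₁ h₃ hσ₂ hσ₁ hσ₃ hr₂ hr₁ hr₃ hc2.1 hc2.2
      exact ⟨y₁, y₂, y₃, fun d => by rw [hy]; tauto⟩
    obtain ⟨y₁, y₂, y₃, hy⟩ := three p hn hr hrn ζ hζ x₃ x₁ x₂ h₃ h₁ h₂ hσ₃ hσ₁ hσ₂ hr₃ hr₁ hr₂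
      (by omega) (by omega)
    exact ⟨y₁, y₂, y₃, fun d => by rw [hy]; tauto⟩
  · rintro _ ⟨⟨x₁, x₂, x₃⟩, rfl⟩
    refine ⟨(x₁, x₂, x₃, 1), orderOf_eq_of_dvd fun d => ?_⟩
    simp only [Prod.orderOf_mk, Nat.lcm_dvd_iff, orderOf_one, isUnit_one, IsUnit.dvd, and_true, one_dvd]
  · rintro _ ⟨⟨x₁, x₂, e⟩, rfl⟩
    have hd2 : ∀ (y₁ y₂ : L) (d : ℕ), orderOf (y₁, y₂) ∣ d ↔ (orderOf y₁ ∣ d ∧ orderOf y₂ ∣ d) := by
      intro y₁ y₂ d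
      rw [Prod.orderOf_mk, Nat.lcm_dvd_iff]
    have hd3 : ∀ (y₁ y₂ : L) (e : Multiplicative (Fin m → ZMod r)) (d : ℕ), orderOf (y₁, y₂, e) ∣ d ↔
        (orderOf y₁ ∣ d ∧ orderOf y₂ ∣ d ∧ orderOf e ∣ d) := by
      intro y₁ y₂ e d
      rw [Prod.orderOf_mk, Prod.orderOf_mk, Nat.lcm_dvd_iff, Nat.lcm_dvd_iff]
    suffices hsuff : ∃ y₁ y₂ : L, ∀ d : ℕ, (orderOf y₁ ∣ d ∧ orderOf y₂ ∣ d) ↔
        (orderOf x₁ ∣ d ∧ orderOf x₂ ∣ d ∧ orderOf e ∣ d) by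
      obtain ⟨y₁, y₂, hy⟩ := hsuff
      refine ⟨(y₁, y₂), orderOf_eq_of_dvd fun d => ?_⟩
      rw [hd2, hd3, hy]
    rcases (Nat.dvd_prime hr).mp (hE e) with he | he
    · exact ⟨x₁, x₂, fun d => by rw [he]; simp⟩
    by_cases hall : r ∣ orderOf x₁ ∨ r ∣ orderOf x₂
    · refine ⟨x₁, x₂, fun d => ?_⟩
      rw [he]
      constructor
      · rintro ⟨a, b⟩
        refine ⟨a, b, ?_⟩
        rcases hall with h | h
        · exact h.trans a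
        · exact h.trans b
      · rintro ⟨a, b, -⟩
        exact ⟨a, b⟩
    push Not at hall
    obtain ⟨hr₁, hr₂⟩ := hall
    obtain ⟨j₁, σ₁, hσ₁, h₁⟩ := hdec x₁
    obtain ⟨j₂, σ₂, hσ₂, h₂⟩ := hdec x₂
    rw [he]
    rcases le_total j₂ j₁ with hc | hc
    · obtain ⟨y₁, y₂, hy⟩ := two p hn hr hrp hrn ζ hζ hnp x₁ x₂ h₁ h₂ hσ₁ hσ₂ hr₁ hr₂ hc
      exact ⟨y₁, y₂, fun d => by rw [hy]; tauto⟩
    · obtain ⟨y₁, y₂, hy⟩ := two p hn hr hrp hrn ζ hζ hnp x₂ x₁ h₂ h₁ hσ₂ hσ₁ hr₂ hr₁ hc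
      exact ⟨y₁, y₂, fun d => by rw [hy]; tauto⟩
  · rintro _ ⟨⟨x₁, x₂⟩, rfl⟩
    refine ⟨(x₁, x₂, 1), orderOf_eq_of_dvd fun d => ?_⟩
    simp only [Prod.orderOf_mk, Nat.lcm_dvd_iff, orderOf_one, isUnit_one, IsUnit.dvd, and_true, one_dvd]

end Cfsg.Agent.S2510
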