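import Cfsg.Statements.S2511
import Cfsg.Agent.H42.HermMain
import Cfsg.Agent.H42.SpAnal
import Cfsg.Agent.H42.SpecMerge

set_option autoImplicit false
open Cfsg

namespace Cfsg.Agent.S2511

open Cfsg.Agent.H42.Herm Cfsg.Agent.H42.SpecMerge Module
open Cfsg.Agent.H42 (ScalOrd)

section

variable {F : Type*} [Field F] [Fintype F] {q n : ℕ}

theorem exists_mul_of_prod (hF : Fintype.card F = q ^ 2) (hn : 2 ≤ n) {V W : Type*} [AddCommGroup V] [Module F V]
    [Module.Finite F V] [AddCommGroup W] [Module F W] [Module.Finite F W] [Nontrivial V] [Nontrivial W]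
    (hVW : finrank F V + finrank F W = n) {H : V → V → F} (hH : IsH q H) {H' : W → W → F} (hH' : IsH q H')
    (T : V →ₗ[F] V) (T' : W →ₗ[F] W) (hT : LinearMap.det T = 1) (hT' : LinearMap.det T' = 1)
    (hTiso : ∀ u v, H (T u) (T v) = H u v) (hTiso' : ∀ u v, H' (T' u) (T' v) = H' u v)
    {s : ℕ} (hs : ScalOrd (T.prodMap T') s)
    {r : ℕ} (hr : r.Prime) (hrn : ¬ r ∣ n) (hrq : r ∣ q + 1) (ζ : F) (hζ : orderOf ζ = r) (hord : ¬ r ∣ s) :
    ∃ y : Cfsg.PSU n F q, orderOf y = r * s := by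
  let G : V × W → V × W → F := fun x y => H x.1 y.1 + H' x.2 y.2
  have hG : IsH q G := by
    refine ⟨?_, ?_, ?_, ?_⟩
    · intro u v w
      show H (u.1 + v.1) w.1 + H' (u.2 + v.2) w.2 = (H u.1 w.1 + H' u.2 w.2) + (H v.1 w.1 + H' v.2 w.2)
      rw [hH.add_left, hH'.add_left]
      ring
    · intro c u w
      show H (c • u.1) w.1 + H' (c • u.2) w.2 = c * (H u.1 w.1 + H' u.2 w.2)
      rw [hH.smul_left, hH'.smul_left]
      ring
    · intro u v
      show (H u.1 v.1 + H' u.2 v.2) ^ q = H v.1 u.1 + H' v.2 u.2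
      rw [Uni.add_pow_q hF, hH.symm, hH'.symm]
    · rintro ⟨u, v⟩ huv
      ext
      · apply hH.nondeg
        intro w
        have h1 : H u w + H' v 0 = 0 := huv (w, 0)
        rwa [hH'.zero_right hF, add_zero] at h1
      · apply hH'.nondeg
        intro w
        have h1 : H u 0 + H' v w = 0 := huv (0, w)
        rwa [hH.zero_right hF, zero_add] at h1
  obtain ⟨v0, hv0⟩ := exists_ne (0 : V)
  obtain ⟨w0, hw0⟩ := exists_ne (0 : W)
  refine exists_mul_of_compl hF hn (V := V × W) (by rw [Module.finrank_prod, hVW]) hG (T.prodMap T')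
    (by rw [LinearMap.det_prodMap, hT, hT', one_mul]) ?_ hs hr hrn hrq ζ hζ
    (LinearMap.ker (LinearMap.snd F V W)) (LinearMap.ker (LinearMap.fst F V W)) ?_ ?_ ?_ ?_ ?_ ?_ hord
  · intro u v
    show H (T u.1) (T v.1) + H' (T' u.2) (T' v.2) = H u.1 v.1 + H' u.2 v.2
    rw [hTiso, hTiso']
  · refine IsCompl.of_eq ?_ ?_
    · rw [Submodule.eq_bot_iff]
      rintro ⟨x, y⟩ ⟨h1, h2⟩
      have h3 : y = 0 := h1
      have h4 : x = 0 := h2
      rw [h3, h4]
      rfl
    · rw [Submodule.eq_top_iff']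
      rintro ⟨x, y⟩
      have : ((x, y) : V × W) = (x, 0) + (0, y) := by simp
      rw [this]
      exact Submodule.add_mem_sup (show (0 : W) = 0 from rfl) (show (0 : V) = 0 from rfl)
  · intro h
    have h3 : ((v0, 0) : V × W) ∈ LinearMap.ker (LinearMap.snd F V W) := (rfl : (0 : W) = 0)
    rw [h] at h3
    exact hv0 (congrArg Prod.fst ((Submodule.mem_bot F).mp h3))
  · intro h
    have h3 : ((0, w0) : V × W) ∈ LinearMap.ker (LinearMap.fst F V W) := (rfl : (0 : V) = 0)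
    rw [h] at h3
    exact hw0 (congrArg Prod.snd ((Submodule.mem_bot F).mp h3))
  · rintro ⟨x, y⟩ h
    have h3 : y = 0 := h
    show T' y = 0
    rw [h3, map_zero]
  · rintro ⟨x, y⟩ h
    have h3 : x = 0 := h
    show T x = 0
    rw [h3, map_zero]
  · rintro ⟨x, y⟩ h ⟨x', y'⟩ h'
    have h3 : y = 0 := h
    have h4 : x' = 0 := h'
    show H x x' + H' y y' = 0
    rw [h3, h4, hH.zero_right hF, hH'.zero_left, add_zero]

/-- an element of order `r` -/
theorem exists_order_r (hF : Fintype.card F = q ^ 2) (hn : 2 ≤ n)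
    {r : ℕ} (hr : r.Prime) (hrn : ¬ r ∣ n) (hrq : r ∣ q + 1) (ζ : F) (hζ : orderOf ζ = r) :
    ∃ y : Cfsg.PSU n F q, orderOf y = r := by
  haveI : NeZero (n - 1) := ⟨by omega⟩
  have key : ScalOrd ((1 : (Fin 1 → F) →ₗ[F] (Fin 1 → F)).prodMap (1 : (Fin (n - 1) → F) →ₗ[F] (Fin (n - 1) → F))) 1 := by
    intro m
    constructor
    · intro _; exact one_dvd m
    · intro _
      refine ⟨1, ?_⟩
      rw [one_smul]
      have h1 : ((1 : (Fin 1 → F) →ₗ[F] (Fin 1 → F)).prodMap (1 : (Fin (n - 1) → F) →ₗ[F] (Fin (n - 1) → F))) = 1 := rfl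
      rw [h1, one_pow]
  obtain ⟨y, hy⟩ := exists_mul_of_prod hF hn (V := Fin 1 → F) (W := Fin (n - 1) → F)
    (by rw [Module.finrank_fin_fun, Module.finrank_fin_fun]; omega) (std_isH hF) (std_isH hF) 1 1
    (by rw [map_one]) (by rw [map_one]) (fun u v => rfl) (fun u v => rfl) (s := 1) key hr hrn hrq ζ hζ
    (fun h => hr.one_lt.ne' (Nat.dvd_one.mp h))
  exact ⟨y, by rw [hy, mul_one]⟩

variable (p : ℕ) [Fact p.Prime] [CharP F p]

/-- an element of order `r * p ^ (j+1)` -/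
theorem exists_order_r_mul (hF : Fintype.card F = q ^ 2) (hn : 2 ≤ n)
    {r : ℕ} (hr : r.Prime) (hrp : r ≠ p) (hrn : ¬ r ∣ n) (hrq : r ∣ q + 1) (ζ : F) (hζ : orderOf ζ = r)
    {j : ℕ} (hj : p ^ j < n - 1) :
    ∃ y : Cfsg.PSU n F q, orderOf y = r * p ^ (j + 1) := by
  have hp : p.Prime := Fact.out
  obtain ⟨t, ⟨H, hH, hHt⟩, hto⟩ := unip (F := F) p hF hj
  haveI := finite_unip (F := F) (n - 1)
  have hfr : finrank F (AdjoinRoot ((Polynomial.X - 1 : Polynomial F) ^ (n - 1))) = n - 1 := finrank_unip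
  haveI : Nontrivial (AdjoinRoot ((Polynomial.X - 1 : Polynomial F) ^ (n - 1))) :=
    Module.finrank_pos_iff (R := F).mp (by rw [hfr]; omega)
  have hpow : ∀ m : ℕ, (LinearMap.mulLeft F t) ^ m = 1 ↔ p ^ (j + 1) ∣ m := by
    intro m
    rw [← hto, ← orderOf_dvd_iff_pow_eq_one, Cfsg.Agent.H42.SpSpec.orderOf_mulLeft]
  refine exists_mul_of_prod hF hn (V := Fin 1 → F) (W := AdjoinRoot ((Polynomial.X - 1 : Polynomial F) ^ (n - 1)))
    (by rw [Module.finrank_fin_fun, hfr]; omega) (std_isH hF) hH 1 (LinearMap.mulLeft F t)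
    (by rw [map_one]) ?_ (fun u v => rfl) (fun u v => hHt u v) (s := p ^ (j + 1)) ?_ hr hrn hrq ζ hζ
    (fun h => hrp ((Nat.prime_dvd_prime_iff_eq hr hp).mp (hr.dvd_of_dvd_pow h)))
  · have h1 : (LinearMap.det (LinearMap.mulLeft F t)) ^ p ^ (j + 1) = 1 := by
      rw [← map_pow, (hpow _).mpr dvd_rfl, map_one]
    have h2 : (LinearMap.det (LinearMap.mulLeft F t) - 1) ^ p ^ (j + 1) = 0 := by
      rw [sub_pow_char_pow, one_pow, h1, sub_self]
    exact sub_eq_zero.mp (pow_eq_zero_iff (pow_ne_zero _ hp.ne_zero) |>.mp h2)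
  · intro m
    have hpm : ∀ m : ℕ, ((1 : (Fin 1 → F) →ₗ[F] (Fin 1 → F)).prodMap (LinearMap.mulLeft F t)) ^ m =
        (1 : (Fin 1 → F) →ₗ[F] (Fin 1 → F)).prodMap ((LinearMap.mulLeft F t) ^ m) := by
      intro m
      induction m with
      | zero => rfl
      | succ m ih =>
        rw [pow_succ, ih, pow_succ]
        rfl
    rw [hpm, ← hpow]
    constructor
    · rintro ⟨c, hc⟩
      have hc1 : c = 1 := by
        have h1 := LinearMap.congr_fun hc ((fun _ => 1, 0) : (Fin 1 → F) × _)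
        have h2 : (fun _ => 1 : Fin 1 → F) = c • (fun _ => 1 : Fin 1 → F) := congrArg Prod.fst h1
        have h3 := congrFun h2 0
        have h4 : (1 : F) = c * 1 := h3
        rw [mul_one] at h4
        exact h4.symm
      apply LinearMap.ext
      intro x
      have h1 := LinearMap.congr_fun hc ((0, x) : (Fin 1 → F) × _)
      rw [hc1, one_smul] at h1
      exact congrArg Prod.snd h1
    · intro h
      refine ⟨1, ?_⟩
      rw [h, one_smul]
      rfl

end

/-- Let F be a finite field with q² elements, q = p^a, n ≥ 3 with (n, q) ≠ (3, 2), L = PSU(n, q) realised over F, and let r be a prime dividing q + 1 and not dividing n. Then for every m the direct product L × L × L × (ℤ/r)^m has the same set of element orders as L × L × L; and if n − 1 is not a power of p, then already L × L × (ℤ/r)^m has the same set of element orders as L × L. -/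
theorem result {F : Type*} [Field F] [Fintype F] (p a n q r m : ℕ) (hp : p.Prime) (ha : 1 ≤ a) (hq : q = p ^ a) (hF : Fintype.card F = q ^ 2)
    (hn : 3 ≤ n) (hn3 : ¬ (n = 3 ∧ q = 2)) (hr : r.Prime) (hrq : r ∣ q + 1) (hrn : ¬ r ∣ n) :
    Set.range (orderOf : Cfsg.PSU n F q × Cfsg.PSU n F q × Cfsg.PSU n F q × Multiplicative (Fin m → ZMod r) → ℕ) = Set.range (orderOf : Cfsg.PSU n F q × Cfsg.PSU n F q × Cfsg.PSU n F q → ℕ) ∧
    ((¬ ∃ j : ℕ, n - 1 = p ^ j) →
      Set.range (orderOf : Cfsg.PSU n F q × Cfsg.PSU n F q × Multiplicative (Fin m → ZMod r) → ℕ) = Set.range (orderOf : Cfsg.PSU n F q × Cfsg.PSU n F q → ℕ)) := by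
  classical
  haveI : Fact p.Prime := ⟨hp⟩
  haveI hchar : CharP F p := by
    obtain ⟨p', hp'⟩ := CharP.exists F
    haveI : Fact p'.Prime := ⟨CharP.char_is_prime F p'⟩
    obtain ⟨k, -, hk⟩ := FiniteField.card F p'
    rw [hF, hq, ← pow_mul] at hk
    have h1 : p ∣ p' ^ (k : ℕ) := by rw [← hk]; exact dvd_pow_self p (by omega)
    have h2 : p = p' := (Nat.prime_dvd_prime_iff_eq hp Fact.out).mp (hp.dvd_of_dvd_pow h1)
    rw [h2]
    exact hp'
  obtain ⟨ζ, hζ⟩ : ∃ ζ : F, orderOf ζ = r := by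
    haveI : Fact r.Prime := ⟨hr⟩
    obtain ⟨u, hu⟩ := exists_prime_orderOf_dvd_card (G := Fˣ) r (by
      rw [← Nat.card_eq_fintype_card, Uni.card_units hF]
      exact Dvd.dvd.mul_right hrq _)
    exact ⟨(u : F), by rw [orderOf_units, hu]⟩
  have hrp : r ≠ p := by
    rintro rfl
    have h1 : r ∣ q := by rw [hq]; exact dvd_pow_self r (by omega)
    have h2 : r ∣ 1 := (Nat.dvd_add_right h1).mp hrq
    exact hr.one_lt.ne' (Nat.dvd_one.mp h2)
  have hn2 : 2 ≤ n := by omega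
  have hn0 : n ≠ 0 := by omega
  haveI : NeZero n := ⟨hn0⟩
  have hdim : finrank F (Fin n → F) = n := Module.finrank_fin_fun F
  have hC := exists_order_r hF hn2 hr hrn hrq ζ hζ
  -- the two parities are treated simultaneously
  obtain ⟨Bad, hB, hBad⟩ : ∃ Bad : ℕ → Prop,
      (∀ σ τ, Bad σ → Bad τ → ∃ y : Cfsg.PSU n F q, orderOf y = Nat.lcm σ τ) ∧
      ∀ (T : (Fin n → F) →ₗ[F] (Fin n → F)),
        (∀ u v, Cfsg.hermForm n F q (T u) (T v) = Cfsg.hermForm n F q u v) → LinearMap.det T = 1 →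
        ¬ DecH (Cfsg.hermForm n F q) T → ∀ j σ : ℕ, ScalOrd T (p ^ j * σ) → ¬ p ∣ σ → Bad σ := by
    rcases Nat.even_or_odd n with hpar | hpar
    · obtain ⟨k, hk⟩ := hpar
      have hk2 : n = 2 * k := by omega
      haveI : NeZero k := ⟨by omega⟩
      refine ⟨BadEven q F (FiniteField.Extension F p k), ?_, ?_⟩
      · intro σ τ h1 h2
        clear hdim hC
        subst hk2
        exact (BadEven.lcm h1 h2).exists_psu p hF hq
      · intro T hT hdet hdec j σ hs hσ
        exact (bad_main p hF ha hq (by omega) hdim (std_isH hF) hT hdet hdec hs hσ).2 k hk2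
    · refine ⟨BadOdd q F (FiniteField.Extension F p n) n, ?_, ?_⟩
      · intro σ τ h1 h2
        exact (BadOdd.lcm h1 h2).exists_psu p hF hq hn2 hpar
      · intro T hT hdet hdec j σ hs hσ
        exact (bad_main p hF ha hq (by omega) hdim (std_isH hF) hT hdet hdec hs hσ).1 hpar
  have hDec : ∀ (x : Cfsg.PSU n F q) (T : (Fin n → F) →ₗ[F] (Fin n → F)), LinearMap.det T = 1 →
      (∀ u v, Cfsg.hermForm n F q (T u) (T v) = Cfsg.hermForm n F q u v) → ScalOrd T (orderOf x) →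
      ¬ r ∣ orderOf x → DecH (Cfsg.hermForm n F q) T → ∃ y : Cfsg.PSU n F q, orderOf y = r * orderOf x := by
    rintro x T hdet hT hs hrx ⟨V₁, V₂, hc, h1, h2, h3, h4, h5⟩
    exact exists_mul_of_compl hF hn2 hdim (std_isH hF) T hdet hT hs hr hrn hrq ζ hζ V₁ V₂ hc h1 h2 h3 h4 h5 hrx
  have hA : ∀ x : Cfsg.PSU n F q, ¬ p ∣ orderOf x → ¬ r ∣ orderOf x →
      (∃ y : Cfsg.PSU n F q, orderOf y = r * orderOf x) ∨ Bad (orderOf x) := by
    intro x hpx hrx
    obtain ⟨T, hdet, hT, hs⟩ := exists_end_of_psu hF hn2 x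
    by_cases hdec : DecH (Cfsg.hermForm n F q) T
    · exact Or.inl (hDec x T hdet hT hs hrx hdec)
    · exact Or.inr (hBad T hT hdet hdec 0 _ (by rw [pow_zero, one_mul]; exact hs) hpx)
  refine ⟨spec_three p r m hp hr Bad hA hB hC, fun hnp => ?_⟩
  refine spec_two p r m hp hr hrp Bad hA hB hC ?_
  intro x j σ hx hσ hrx
  obtain ⟨T, hdet, hT, hs⟩ := exists_end_of_psu hF hn2 x
  by_cases hdec : DecH (Cfsg.hermForm n F q) T
  · exact Or.inl (hDec x T hdet hT hs hrx hdec)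
  right
  have hs' : ScalOrd T (p ^ (j + 1) * σ) := by rw [← hx]; exact hs
  refine ⟨hBad T hT hdet hdec (j + 1) σ hs' hσ, ?_⟩
  -- p ^ j < n - 1
  have hσ0 : 0 < σ := Nat.pos_of_ne_zero (by rintro rfl; exact hσ (dvd_zero _))
  have hTk : ∀ (k : ℕ) u v, Cfsg.hermForm n F q ((T ^ k) u) ((T ^ k) v) = Cfsg.hermForm n F q u v := by
    intro k
    induction k with
    | zero => intro u v; rfl
    | succ k ih => intro u v; rw [pow_succ, Module.End.mul_apply, Module.End.mul_apply, ih, hT]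
  haveI : Nontrivial (Fin n → F) := Module.finrank_pos_iff.mp (by rw [hdim]; omega : 0 < finrank F (Fin n → F))
  have hM : p ^ j < n := by
    obtain ⟨c, hc⟩ := (hs' _).mpr dvd_rfl
    have hcq := scal_pow_norm (std_isH hF) hF hT hc
    set M := σ * (q + 1) with hMdef
    have hTM : (T ^ M) ^ p ^ (j + 1) = 1 := by
      rw [← pow_mul, hMdef, show σ * (q + 1) * p ^ (j + 1) = (p ^ (j + 1) * σ) * (q + 1) by ring, pow_mul, hc,
        _root_.smul_pow, hcq, one_pow, one_smul]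
    have hpq : ¬ p ∣ q + 1 := by
      intro h
      have h1 : p ∣ q := by rw [hq]; exact dvd_pow_self p (by omega)
      have h2 : p ∣ 1 := (Nat.dvd_add_right h1).mp h
      exact hp.one_lt.ne' (Nat.dvd_one.mp h2)
    have hTM2 : (T ^ M) ^ p ^ j ≠ 1 := by
      intro h
      rw [← pow_mul] at h
      have h1 := (hs' _).mp ⟨1, by rw [one_smul]; exact h⟩
      rw [hMdef, show σ * (q + 1) * p ^ j = (p ^ j * σ) * (q + 1) by ring, pow_succ,
        show p ^ j * p * σ = (p ^ j * σ) * p by ring] at h1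
      exact hpq ((Nat.mul_dvd_mul_iff_left (Nat.mul_pos (pow_pos hp.pos j) hσ0)).mp h1)
    have hord : orderOf (T ^ M) = p ^ (j + 1) := orderOf_eq_prime_pow hTM2 hTM
    obtain ⟨t, hjt, ht1, ht0⟩ := Cfsg.Agent.H42.SpSpec.exists_top_pow p (T ^ M) hord
    have h1 := Cfsg.Agent.H42.IrrLin.mul_finrank_range_le (T ^ M - 1) t ht1
    have h2 : 0 < finrank F (LinearMap.range ((T ^ M - 1) ^ t)) := by
      rw [Module.finrank_pos_iff, Submodule.nontrivial_iff_ne_bot, Ne, LinearMap.range_eq_bot]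
      exact ht0
    have h3 : t + 1 ≤ (t + 1) * finrank F (LinearMap.range ((T ^ M - 1) ^ t)) := Nat.le_mul_of_pos_right _ h2
    omega
  have hM2 : p ^ j < n - 1 := by
    have h1 : n - 1 ≠ p ^ j := fun h => hnp ⟨j, h⟩
    omega
  exact exists_order_r_mul p hF hn2 hr hrp hrn hrq ζ hζ hM2

end Cfsg.Agent.S2511
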