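import Cfsg.Statements.S2512
import Cfsg.Agent.H42.SpAnal
import Cfsg.Agent.H42.SpecMerge

set_option autoImplicit false
open Cfsg

namespace Cfsg.Agent.S2512

open Cfsg.Agent.H42.SpSpec Cfsg.Agent.H42.SpecMerge Module

section

variable {F : Type*} [Field F] [Finite F] (p : ℕ) [Fact p.Prime] [CharP F p] {n : ℕ}

include p

/-- elements of order `2 σ` in tori -/
theorem exists_of_four_mul (h2F : (2 : F) ≠ 0) (hn : 1 ≤ n) {σ : ℕ} (hσ : Odd σ)
    (h : 4 * σ ∣ Nat.card F ^ n + 1 ∨ 4 * σ ∣ Nat.card F ^ n - 1) : ∃ y : Cfsg.PSp n F, orderOf y = 2 * σ := by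
  have key : ∀ x : Cfsg.PSp n F, (∀ m : ℕ, x ^ m = 1 ↔ 4 * σ ∣ 2 * m) → orderOf x = 2 * σ := by
    intro x hx
    apply Nat.dvd_antisymm
    · rw [orderOf_dvd_iff_pow_eq_one, hx]
      exact ⟨1, by ring⟩
    · have h1 := (hx (orderOf x)).mp (pow_orderOf_eq_one x)
      obtain ⟨k, hk⟩ := h1
      exact ⟨k, by linarith⟩
  rcases h with h | h
  · haveI : NeZero (2 * n) := ⟨by omega⟩
    obtain ⟨t, ht, hto⟩ := torus_plus (F := F) p h2F hn h
    obtain ⟨x, hx⟩ := ht.exists_psp (FiniteField.finrank_extension F p (2 * n))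
    refine ⟨x, key x fun m => ?_⟩
    rw [hx, ← hto, orderOf_dvd_iff_pow_eq_one, pow_mul', sq_eq_one_iff]
  · haveI : NeZero n := ⟨by omega⟩
    obtain ⟨t, ht, hto, htm⟩ := torus_minus (F := F) p h2F hn h
    obtain ⟨x, hx⟩ := ht.exists_psp (n := n) (by
      rw [Module.finrank_prod, FiniteField.finrank_extension F p n]
      ring)
    refine ⟨x, key x fun m => ?_⟩
    rw [hx, htm]

theorem spOrd_torus (h2F : (2 : F) ≠ 0) {a : ℕ} (ha : 1 ≤ a) {σ : ℕ}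
    (h : σ ∣ Nat.card F ^ a + 1 ∨ σ ∣ Nat.card F ^ a - 1) : SpOrd.{_, 0} F a σ := by
  rcases h with h | h
  · haveI : NeZero (2 * a) := ⟨by omega⟩
    obtain ⟨t, ht, hto⟩ := torus_plus (F := F) p h2F ha h
    rw [← hto]
    exact ht.spOrd (FiniteField.finrank_extension F p (2 * a))
  · haveI : NeZero a := ⟨by omega⟩
    obtain ⟨t, ht, hto, htm⟩ := torus_minus (F := F) p h2F ha h
    rw [← hto]
    exact ht.spOrd (by
      rw [Module.finrank_prod, FiniteField.finrank_extension F p a]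
      ring)

end

/-- Let F be a finite field of odd order q = p^a, n ≥ 2 (with q ≥ 3 automatic), and L = PSp(2n, F). Then for every m the direct product L × L × L × (ℤ/2)^m has the same set of element orders as L × L × L; and if 2n − 1 is not a power of p, then already L × L × (ℤ/2)^m has the same set of element orders as L × L. -/
theorem result {F : Type*} [Field F] [Fintype F] (p a n m : ℕ) (hp : p.Prime) (ha : 1 ≤ a) (hF : Fintype.card F = p ^ a) (hodd : Odd (Fintype.card F))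
    (hn : 2 ≤ n) :
    Set.range (orderOf : Cfsg.PSp n F × Cfsg.PSp n F × Cfsg.PSp n F × Multiplicative (Fin m → ZMod 2) → ℕ) = Set.range (orderOf : Cfsg.PSp n F × Cfsg.PSp n F × Cfsg.PSp n F → ℕ) ∧
    ((¬ ∃ j : ℕ, 2 * n - 1 = p ^ j) →
      Set.range (orderOf : Cfsg.PSp n F × Cfsg.PSp n F × Multiplicative (Fin m → ZMod 2) → ℕ) = Set.range (orderOf : Cfsg.PSp n F × Cfsg.PSp n F → ℕ)) := by
  classical
  haveI : Fact p.Prime := ⟨hp⟩
  haveI hchar : CharP F p := by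
    obtain ⟨p', hp'⟩ := CharP.exists F
    haveI : Fact p'.Prime := ⟨CharP.char_is_prime F p'⟩
    obtain ⟨k, -, hk⟩ := FiniteField.card F p'
    rw [hF] at hk
    have h1 : p ∣ p' ^ (k : ℕ) := by rw [← hk]; exact dvd_pow_self p (by omega)
    have h2 : p = p' := (Nat.prime_dvd_prime_iff_eq hp Fact.out).mp (hp.dvd_of_dvd_pow h1)
    rw [h2]
    exact hp'
  have hp2 : p ≠ 2 := by
    rintro rfl
    rw [hF] at hodd
    have : Even (2 ^ a) := (Nat.even_pow.mpr ⟨even_two, by omega⟩)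
    exact (Nat.not_even_iff_odd.mpr hodd) this
  have hpodd : Odd p := hp.odd_of_ne_two hp2
  have h2F : (2 : F) ≠ 0 := by
    intro h
    have h1 : ((2 : ℕ) : F) = 0 := by exact_mod_cast h
    rw [CharP.cast_eq_zero_iff F p] at h1
    exact hp2 ((Nat.prime_dvd_prime_iff_eq hp Nat.prime_two).mp h1)
  have hq : Nat.card F = Fintype.card F := Nat.card_eq_fintype_card
  set Q := Nat.card F ^ n with hQ
  have hQodd : Odd Q := by rw [hQ, hq]; exact hodd.pow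
  have hQ1 : 1 < Q := by
    rw [hQ]
    exact Nat.one_lt_pow (by omega) Finite.one_lt_card
  -- dimension of the standard space
  have hdim : finrank F (Fin n ⊕ Fin n → F) = 2 * n := by
    rw [Module.finrank_fintype_fun_eq_card, Fintype.card_sum, Fintype.card_fin]
    ring
  obtain ⟨M, hM1, hM2⟩ : ∃ M : ℕ, (M = Q + 1 ∨ M = Q - 1) ∧
      ∀ σ : ℕ, Odd σ → (σ ∣ Q + 1 ∨ σ ∣ Q - 1) → ¬ σ ∣ M → (4 * σ ∣ Q + 1 ∨ 4 * σ ∣ Q - 1) := by
    have h4 : ∀ σ N : ℕ, Odd σ → 4 ∣ N → σ ∣ N → 4 * σ ∣ N := by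
      intro σ N h1 h2 h3
      refine Nat.Coprime.mul_dvd_of_dvd_of_dvd ?_ h2 h3
      have : Nat.Coprime 2 σ := Nat.coprime_two_left.mpr h1
      exact Nat.Coprime.pow_left 2 this
    obtain ⟨k, hk⟩ := hQodd
    rcases Nat.even_or_odd' k with ⟨c, hc | hc⟩
    · refine ⟨Q + 1, Or.inl rfl, fun σ h1 h2 h3 => Or.inr (h4 σ _ h1 ⟨c, by omega⟩ (h2.resolve_left h3))⟩
    · refine ⟨Q - 1, Or.inr rfl, fun σ h1 h2 h3 => Or.inl (h4 σ _ h1 ⟨c + 1, by omega⟩ (h2.resolve_right h3))⟩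
  let Bad : ℕ → Prop := fun σ => Odd σ ∧ σ ∣ M
  have hMpos : 0 < M := by omega
  have hM1' : ∀ σ, σ ∣ M → (σ ∣ Q + 1 ∨ σ ∣ Q - 1) := by
    intro σ hσ
    rcases hM1 with h | h
    · exact Or.inl (h ▸ hσ)
    · exact Or.inr (h ▸ hσ)
  have hDec : ∀ (T : (Fin n ⊕ Fin n → F) →ₗ[F] (Fin n ⊕ Fin n → F)),
      (∀ u v, Cfsg.Agent.ClGeo.sfB F (Fin n) (T u) (T v) = Cfsg.Agent.ClGeo.sfB F (Fin n) u v) → Odd (orderOf T) →
      Dec (Cfsg.Agent.ClGeo.sfB F (Fin n)) T → ∃ y : Cfsg.PSp n F, orderOf y = 2 * orderOf T := by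
    rintro T hT hTo ⟨V₁, V₂, hc, h1, h2, h3, h4, h5⟩
    exact exists_two_mul h2F hdim _ Cfsg.Agent.ClGeo.sfB_isAlt Cfsg.Agent.ClGeo.sfB_nondegenerate T hT hTo
      V₁ V₂ hc h1 h2 h3 h4 h5
  have hA : ∀ x : Cfsg.PSp n F, ¬ p ∣ orderOf x → ¬ 2 ∣ orderOf x →
      (∃ y : Cfsg.PSp n F, orderOf y = 2 * orderOf x) ∨ Bad (orderOf x) := by
    intro x hpx h2x
    have hxodd : Odd (orderOf x) := by rwa [← Nat.not_even_iff_odd, even_iff_two_dvd]
    obtain ⟨T, hT, hTo⟩ := exists_odd_end x rfl hxodd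
    by_cases hdec : Dec (Cfsg.Agent.ClGeo.sfB F (Fin n)) T
    · left
      rw [← hTo]
      exact hDec T hT (by rw [hTo]; exact hxodd) hdec
    · have h1 := semisimple_case p (by omega : 1 ≤ n) hdim Cfsg.Agent.ClGeo.sfB_isAlt
        Cfsg.Agent.ClGeo.sfB_nondegenerate hT (by rw [hTo]; exact hxodd) (by rw [hTo]; exact hpx) hdec
      rw [hTo] at h1
      by_cases hM : orderOf x ∣ M
      · exact Or.inr ⟨hxodd, hM⟩
      · left
        exact exists_of_four_mul p h2F (by omega) hxodd (hM2 _ hxodd h1 hM)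
  have hB : ∀ σ τ, Bad σ → Bad τ → ∃ y : Cfsg.PSp n F, orderOf y = Nat.lcm σ τ := by
    rintro σ τ ⟨h1, h2⟩ ⟨h3, h4⟩
    have h5 : Nat.lcm σ τ ∣ M := Nat.lcm_dvd h2 h4
    have h6 : Odd (Nat.lcm σ τ) := Odd.of_dvd_nat (h1.mul h3) (Nat.lcm_dvd_mul σ τ)
    exact (spOrd_torus p h2F (by omega : 1 ≤ n) (hM1' _ h5)).exists_psp h6
  have hC : ∃ y : Cfsg.PSp n F, orderOf y = 2 := by
    obtain ⟨n', rfl⟩ : ∃ n', n = 1 + n' := ⟨n - 1, by omega⟩
    obtain ⟨y, hy⟩ := (spOrd_one F 1).prod (spOrd_one F n') h2F le_rfl (by omega) odd_one odd_one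
    exact ⟨y, by rw [hy, Nat.lcm_self, mul_one]⟩
  refine ⟨spec_three p 2 m hp Nat.prime_two Bad hA hB hC, fun hnp => ?_⟩
  refine spec_two p 2 m hp Nat.prime_two (Ne.symm hp2) Bad hA hB hC ?_
  intro x j σ hx hσ h2x
  left
  have hxodd : Odd (orderOf x) := by rwa [← Nat.not_even_iff_odd, even_iff_two_dvd]
  have hσodd : Odd σ := Odd.of_dvd_nat hxodd (hx ▸ Dvd.intro_left _ rfl)
  have hpj : Odd (p ^ j) := hpodd.pow
  have hpj1 : Odd (p ^ (j + 1)) := hpodd.pow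
  obtain ⟨T, hT, hTo⟩ := exists_odd_end x rfl hxodd
  by_cases hdec : Dec (Cfsg.Agent.ClGeo.sfB F (Fin n)) T
  · rw [← hTo]
    exact hDec T hT (by rw [hTo]; exact hxodd) hdec
  by_cases hσ1 : σ = 1
  · subst hσ1
    rw [mul_one] at hx
    have h1 := unipotent_case p hdim T (hTo.trans hx)
    have h2 : p ^ j ≠ 2 * n - 1 := fun h => hnp ⟨j, h.symm⟩
    have h3 : p ^ j < 2 * (n - 1) := by
      obtain ⟨c, hc⟩ := hpj
      omega
    obtain ⟨n', rfl⟩ : ∃ n', n = 1 + n' := ⟨n - 1, by omega⟩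
    rw [Nat.add_sub_cancel_left] at h3
    haveI := finite_unip (F := F) n'
    obtain ⟨t, ht, hto⟩ := unip (F := F) p h2F h3
    obtain ⟨y, hy⟩ := (spOrd_one F 1).prod (ht.spOrd finrank_unip) h2F le_rfl (by omega) odd_one
      (by rw [hto]; exact hpj1)
    refine ⟨y, ?_⟩
    rw [hy, hto, Nat.lcm_one_left, hx]
  · obtain ⟨b, hb1, hb2, hb3⟩ := mixed_case p hdim Cfsg.Agent.ClGeo.sfB_isAlt Cfsg.Agent.ClGeo.sfB_nondegenerate hT
      (hTo.trans hx) hσ hσodd hσ1 hdec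
    have h1 : (p ^ j + 1) * b = p ^ j * b + b := by ring
    have h2 : p ^ j ≤ p ^ j * b := Nat.le_mul_of_pos_right _ hb1
    have hpos : 0 < p ^ j := pow_pos hp.pos j
    obtain ⟨n', rfl⟩ : ∃ n', n = b + n' := ⟨n - b, by omega⟩
    have h3 : p ^ j < 2 * n' := by omega
    haveI := finite_unip (F := F) n'
    obtain ⟨t, ht, hto⟩ := unip (F := F) p h2F h3
    obtain ⟨y, hy⟩ := (spOrd_torus p h2F hb1 hb3).prod (ht.spOrd finrank_unip) h2F hb1 (by omega) hσodd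
      (by rw [hto]; exact hpj1)
    refine ⟨y, ?_⟩
    have hcop : Nat.Coprime σ (p ^ (j + 1)) :=
      Nat.Coprime.pow_right _ ((Nat.Prime.coprime_iff_not_dvd hp).mpr hσ).symm
    rw [hy, hto, hx, hcop.lcm_eq_mul, mul_comm σ]

end Cfsg.Agent.S2512
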