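import Cfsg.Statements.S2513
import Cfsg.Agent.H42.PSLOrd

set_option autoImplicit false
open Cfsg

namespace Cfsg.Agent.S2513

open Cfsg.Agent.H42 Module

/-- over the field with two elements nonzero means one -/
theorem eq_one_of_ne_zero {F : Type*} [Field F] [Fintype F] (hF : Fintype.card F = 2) {c : F} (hc : c ≠ 0) :
    c = 1 := by
  have h := FiniteField.pow_card_sub_one_eq_one c hc
  rw [hF] at h
  simpa using h

theorem exists_order {F : Type*} [Field F] [Fintype F] (hF : Fintype.card F = 2) {n i D : ℕ} (hi : 1 ≤ i)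
    (hin : i ≤ n) (hD : D ∣ 2 ^ i - 1) : ∃ x : Matrix.ProjectiveSpecialLinearGroup (Fin n) F, orderOf x = D := by
  classical
  obtain ⟨p, hp⟩ := CharP.exists F
  haveI : Fact p.Prime := ⟨CharP.char_is_prime F p⟩
  haveI : NeZero i := ⟨by omega⟩
  let K := FiniteField.Extension F p i
  haveI : Fintype K := Fintype.ofFinite K
  have hK : Fintype.card Kˣ = 2 ^ i - 1 := by
    rw [Fintype.card_units, ← Nat.card_eq_fintype_card, FiniteField.natCard_extension, Nat.card_eq_fintype_card, hF]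
  obtain ⟨g, hg⟩ := IsCyclic.exists_generator (α := Kˣ)
  have hgo : orderOf g = 2 ^ i - 1 := by
    rw [orderOf_eq_card_of_forall_mem_zpowers hg, Nat.card_eq_fintype_card, hK]
  obtain ⟨u, hu⟩ : ∃ u : Kˣ, orderOf u = D :=
    ⟨g ^ (orderOf g / D), orderOf_pow_orderOf_div (orderOf_pos g).ne' (hgo ▸ hD)⟩
  let V := K × (Fin (n - i) → F)
  have hV : finrank F V = n := by
    show finrank F (K × (Fin (n - i) → F)) = n
    rw [Module.finrank_prod, FiniteField.finrank_extension, Module.finrank_fin_fun]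
    omega
  let T : V →ₗ[F] V := LinearMap.prodMap (LinearMap.mulLeft F (u : K)) LinearMap.id
  have hT0 : ∀ v : V, T v = ((u : K) * v.1, v.2) := fun v => rfl
  have hTpow : ∀ m : ℕ, ∀ v : V, (T ^ m) v = ((u : K) ^ m * v.1, v.2) := by
    intro m
    induction m with
    | zero => intro v; simp
    | succ m ih =>
      intro v
      rw [pow_succ, Module.End.mul_apply, ih, hT0, pow_succ, mul_assoc]
  have hT1 : ∀ m : ℕ, T ^ m = 1 ↔ u ^ m = 1 := by
    intro m
    constructor
    · intro h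
      have h2 := hTpow m (1, 0)
      rw [h] at h2
      have h3 := congrArg Prod.fst h2
      simp at h3
      apply Units.ext
      rw [Units.val_pow_eq_pow_val, Units.val_one, ← h3]
    · intro h
      apply LinearMap.ext
      intro v
      rw [hTpow, ← Units.val_pow_eq_pow_val, h]
      simp
  have hdet0 : LinearMap.det T ≠ 0 := by
    intro h0
    have h1 : T ^ orderOf u = 1 := (hT1 _).mpr (pow_orderOf_eq_one u)
    have h2 := congrArg LinearMap.det h1
    rw [map_pow, h0, map_one, zero_pow (orderOf_pos u).ne'] at h2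
    exact zero_ne_one h2
  have hdet : LinearMap.det T = 1 := eq_one_of_ne_zero hF hdet0
  obtain ⟨x, hx⟩ := exists_psl_of_end hV T hdet
  refine ⟨x, ?_⟩
  rw [← hu, orderOf_eq_orderOf_iff]
  intro m
  rw [hx, ← hT1]
  constructor
  · rintro ⟨c, hc⟩
    have hc0 : c ≠ 0 := by
      rintro rfl
      rw [zero_smul] at hc
      have h2 := congrArg LinearMap.det hc
      rw [map_pow, hdet, one_pow] at h2
      have hnt : Nontrivial V := Module.nontrivial_of_finrank_pos (R := F) (by rw [hV]; omega)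
      have : LinearMap.det (0 : V →ₗ[F] V) = 0 := LinearMap.det_zero''
      rw [this] at h2
      exact one_ne_zero h2
    rw [hc, eq_one_of_ne_zero hF hc0, one_smul]
  · intro h
    exact ⟨1, by rw [h, one_smul]⟩

theorem primePow_dvd {F : Type*} [Field F] [Fintype F] (hF : Fintype.card F = 2) {n : ℕ}
    {ℓ c : ℕ} (hℓ : ℓ.Prime) (hℓ2 : ℓ ≠ 2) (x : Matrix.ProjectiveSpecialLinearGroup (Fin n) F)
    (hx : orderOf x = ℓ ^ (c + 1)) : ∃ i : ℕ, 1 ≤ i ∧ i ≤ n ∧ ℓ ^ (c + 1) ∣ 2 ^ i - 1 := by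
  obtain ⟨T, hT, hT2⟩ := exists_end_of_psl x
  have hn : 0 < n := by
    rcases Nat.eq_zero_or_pos n with h | h
    · exfalso
      subst h
      have : x = 1 := by
        obtain ⟨A, rfl⟩ := QuotientGroup.mk_surjective x
        have : A = 1 := Subsingleton.elim _ _
        rw [this]
        rfl
      rw [this, orderOf_one] at hx
      have := Nat.one_lt_pow (Nat.succ_ne_zero c) hℓ.one_lt
      rw [Nat.succ_eq_add_one, ← hx] at this
      omega
    · exact h
  have key : ∀ m : ℕ, x ^ m = 1 ↔ T ^ m = 1 := by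
    intro m
    rw [hT2]
    constructor
    · rintro ⟨c, hc⟩
      have hc0 : c ≠ 0 := by
        rintro rfl
        rw [zero_smul] at hc
        have h2 := congrArg LinearMap.det hc
        rw [map_pow, hT, one_pow] at h2
        have hnt : Nontrivial (Fin n → F) := Module.nontrivial_of_finrank_pos (R := F)
          (by rw [Module.finrank_fin_fun]; omega)
        have : LinearMap.det (0 : (Fin n → F) →ₗ[F] (Fin n → F)) = 0 := LinearMap.det_zero''
        rw [this] at h2
        exact one_ne_zero h2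
      rw [hc, eq_one_of_ne_zero hF hc0, one_smul]
    · intro h
      exact ⟨1, by rw [h, one_smul]⟩
  have h1 : T ^ ℓ ^ (c + 1) = 1 := by
    rw [← key, ← hx]; exact pow_orderOf_eq_one x
  have h2 : T ^ ℓ ^ c ≠ 1 := by
    rw [Ne, ← key]
    intro h
    have h3 := orderOf_dvd_of_pow_eq_one h
    rw [hx] at h3
    have h4 := (Nat.pow_dvd_pow_iff_le_right hℓ.one_lt).mp h3
    omega
  have hℓF : (ℓ : F) ≠ 0 := by
    obtain ⟨p, hp⟩ := CharP.exists F
    haveI : Fact p.Prime := ⟨CharP.char_is_prime F p⟩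
    have hp2 : p = 2 := by
      obtain ⟨k, -, hk⟩ := FiniteField.card F p
      rw [hF] at hk
      have : p ∣ 2 := by rw [hk]; exact dvd_pow_self p k.ne_zero
      exact (Nat.prime_dvd_prime_iff_eq Fact.out Nat.prime_two).mp this
    intro h0
    rw [CharP.cast_eq_zero_iff F p] at h0
    rw [hp2] at h0
    exact hℓ2 ((Nat.prime_dvd_prime_iff_eq Nat.prime_two hℓ).mp h0).symm
  obtain ⟨i, hi1, hi2, hi3⟩ := exists_primePow_dvd hℓ hℓF T h1 h2
  rw [Module.finrank_fin_fun] at hi2
  rw [Nat.card_eq_fintype_card, hF] at hi3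
  exact ⟨i, hi1, hi2, hi3⟩

/-- a prime power dividing the order of a tuple divides the order of one of the entries -/
theorem primePow_dvd_pi {G : Type*} [Group G] [Finite G] {k : ℕ} (f : Fin k → G) {ℓ c : ℕ} (hℓ : ℓ.Prime)
    (h : ℓ ^ (c + 1) ∣ orderOf f) : ∃ i, ℓ ^ (c + 1) ∣ orderOf (f i) := by
  classical
  by_contra hcon
  push Not at hcon
  have hpos : orderOf f ≠ 0 := (orderOf_pos f).ne'
  -- write orderOf f = ℓ ^ a * m
  set N := orderOf f with hN
  have hd : N ∣ N / ℓ := by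
    rw [hN, orderOf_dvd_iff_pow_eq_one]
    funext i
    show (f i) ^ (N / ℓ) = 1
    rw [← orderOf_dvd_iff_pow_eq_one]
    have h1 : orderOf (f i) ∣ N := orderOf_apply_dvd_orderOf i
    obtain ⟨a, m, hm, hNm⟩ : ∃ a m, ¬ ℓ ∣ m ∧ N = ℓ ^ a * m := Nat.exists_eq_pow_mul_and_not_dvd hpos ℓ hℓ.ne_one
    obtain ⟨b, m', hm', hom⟩ : ∃ b m', ¬ ℓ ∣ m' ∧ orderOf (f i) = ℓ ^ b * m' :=
      Nat.exists_eq_pow_mul_and_not_dvd (orderOf_pos (f i)).ne' ℓ hℓ.ne_one
    have hca : c + 1 ≤ a := by
      rw [hNm] at h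
      have hcop : Nat.Coprime (ℓ ^ (c + 1)) m := Nat.Coprime.pow_left _ ((Nat.Prime.coprime_iff_not_dvd hℓ).mpr hm)
      exact (Nat.pow_dvd_pow_iff_le_right hℓ.one_lt).mp (hcop.dvd_of_dvd_mul_right h)
    have hbc : b ≤ c := by
      by_contra hb
      push Not at hb
      exact hcon i (hom ▸ Dvd.dvd.mul_right (pow_dvd_pow ℓ hb) m')
    have hm'm : m' ∣ m := by
      rw [hom, hNm] at h1
      have hcop : Nat.Coprime m' (ℓ ^ a) := Nat.Coprime.pow_right _ ((Nat.Prime.coprime_iff_not_dvd hℓ).mpr hm').symm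
      exact hcop.dvd_of_dvd_mul_left ((Dvd.intro_left _ rfl).trans h1)
    obtain ⟨a', rfl⟩ : ∃ a', a = a' + 1 := ⟨a - 1, by omega⟩
    have hdiv : N / ℓ = ℓ ^ a' * m := by
      rw [hNm, pow_succ]
      rw [show ℓ ^ a' * ℓ * m = (ℓ ^ a' * m) * ℓ by ring]
      exact Nat.mul_div_cancel _ hℓ.pos
    rw [hdiv, hom]
    exact Nat.mul_dvd_mul (pow_dvd_pow ℓ (by omega)) hm'm
  have hle := Nat.le_of_dvd (Nat.div_pos (Nat.le_of_dvd (Nat.pos_of_ne_zero hpos)
    ((dvd_pow_self ℓ (Nat.succ_ne_zero c)).trans h)) hℓ.pos) hd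
  have := Nat.div_lt_self (Nat.pos_of_ne_zero hpos) hℓ.one_lt
  omega

/-- Let F be the field with two elements, n ≥ 2, L = PSL(n, F) and k₀ = ⌊(n + 3)/2⌋. Then for every k ≥ k₀ the direct product of k copies of L has the same set of element orders as the direct product of k₀ copies of L. -/
theorem result {F : Type*} [Field F] [Fintype F] (hF : Fintype.card F = 2) (n k : ℕ) (hn : 2 ≤ n) (hk : (n + 3) / 2 ≤ k) :
    Set.range (orderOf : (Fin k → Matrix.ProjectiveSpecialLinearGroup (Fin n) F) → ℕ) = Set.range (orderOf : (Fin ((n + 3) / 2) → Matrix.ProjectiveSpecialLinearGroup (Fin n) F) → ℕ) := by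
  classical
  set K := (n + 3) / 2 with hK
  apply Set.Subset.antisymm
  · rintro _ ⟨f, rfl⟩
    set N := orderOf f with hN
    have hN0 : N ≠ 0 := (orderOf_pos f).ne'
    obtain ⟨t, m, hm, hNm⟩ : ∃ t m, ¬ 2 ∣ m ∧ N = 2 ^ t * m := Nat.exists_eq_pow_mul_and_not_dvd hN0 2 (by norm_num)
    -- slot 0 : an element of order 2 ^ t
    have hx0 : ∃ x : Matrix.ProjectiveSpecialLinearGroup (Fin n) F, orderOf x = 2 ^ t := by
      rcases Nat.eq_zero_or_pos t with h | h
      · exact ⟨1, by rw [h, orderOf_one, pow_zero]⟩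
      · obtain ⟨t', rfl⟩ : ∃ t', t = t' + 1 := ⟨t - 1, by omega⟩
        have h2 : 2 ^ (t' + 1) ∣ orderOf f := by rw [← hN, hNm]; exact Dvd.intro _ rfl
        obtain ⟨i, hi⟩ := primePow_dvd_pi f Nat.prime_two h2
        exact ⟨(f i) ^ (orderOf (f i) / 2 ^ (t' + 1)), orderOf_pow_orderOf_div (orderOf_pos _).ne' hi⟩
    obtain ⟨x0, hx0⟩ := hx0
    have hxj : ∀ j : ℕ, 1 ≤ j → j ≤ n →
        ∃ x : Matrix.ProjectiveSpecialLinearGroup (Fin n) F, orderOf x = Nat.gcd m (2 ^ j - 1) :=
      fun j h1 h2 => exists_order hF h1 h2 (Nat.gcd_dvd_right _ _)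
    choose! y hy using hxj
    let f' : Fin K → Matrix.ProjectiveSpecialLinearGroup (Fin n) F := fun i =>
      if (i : ℕ) = 0 then x0 else y (n / 2 + i)
    have hidx : ∀ i : Fin K, (i : ℕ) ≠ 0 → 1 ≤ n / 2 + i ∧ n / 2 + i ≤ n := by
      intro i hi
      have := i.2
      omega
    refine ⟨f', ?_⟩
    apply Nat.dvd_antisymm
    · rw [orderOf_dvd_iff_pow_eq_one]
      funext i
      show (f' i) ^ N = 1
      rw [← orderOf_dvd_iff_pow_eq_one]
      by_cases hi : (i : ℕ) = 0
      · simp only [f', hi, if_true, hx0, hNm]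
        exact Dvd.intro _ rfl
      · simp only [f', hi, if_false]
        rw [hy _ (hidx i hi).1 (hidx i hi).2, hNm]
        exact (Nat.gcd_dvd_left _ _).trans (Dvd.intro_left _ rfl)
    · rw [Nat.dvd_iff_prime_pow_dvd_dvd]
      intro ℓ c hℓ hdvd
      rcases Nat.eq_zero_or_pos c with h | h
      · rw [h, pow_zero]; exact one_dvd _
      obtain ⟨c', rfl⟩ : ∃ c', c = c' + 1 := ⟨c - 1, by omega⟩
      by_cases hℓ2 : ℓ = 2
      · subst hℓ2
        have h3 : 2 ^ (c' + 1) ∣ 2 ^ t := by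
          rw [hNm] at hdvd
          have hcop : Nat.Coprime (2 ^ (c' + 1)) m :=
            Nat.Coprime.pow_left _ ((Nat.Prime.coprime_iff_not_dvd Nat.prime_two).mpr hm)
          exact hcop.dvd_of_dvd_mul_right hdvd
        have h4 : orderOf (f' ⟨0, by omega⟩) ∣ orderOf f' := orderOf_apply_dvd_orderOf _
        simp only [f', if_true, hx0] at h4
        exact h3.trans h4
      · obtain ⟨i, hi⟩ := primePow_dvd_pi f hℓ hdvd
        obtain ⟨j, hj1, hj2, hj3⟩ := primePow_dvd hF hℓ hℓ2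
          ((f i) ^ (orderOf (f i) / ℓ ^ (c' + 1))) (orderOf_pow_orderOf_div (orderOf_pos _).ne' hi)
        -- a multiple of j in (n/2, n]
        obtain ⟨r, hr1, hr2, hr3⟩ : ∃ r : ℕ, n / 2 < r ∧ r ≤ n ∧ j ∣ r := by
          refine ⟨n / j * j, ?_, Nat.div_mul_le_self n j, Dvd.intro_left _ rfl⟩
          have h5 : n < n / j * j + j := by
            have := Nat.lt_div_mul_add (a := n) (b := j) hj1
            exact this
          have h6 : 1 ≤ n / j := (Nat.one_le_div_iff hj1).mpr hj2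
          have h7 : j ≤ n / j * j := Nat.le_mul_of_pos_left j h6
          omega
        have h8 : ℓ ^ (c' + 1) ∣ 2 ^ r - 1 := hj3.trans (Nat.pow_sub_one_dvd_pow_sub_one 2 hr3)
        have h9 : ℓ ^ (c' + 1) ∣ m := by
          rw [hNm] at hdvd
          have hcop : Nat.Coprime (ℓ ^ (c' + 1)) (2 ^ t) :=
            Nat.Coprime.pow _ _ ((Nat.coprime_primes hℓ Nat.prime_two).mpr hℓ2)
          exact hcop.dvd_of_dvd_mul_left hdvd
        have h10 : r - n / 2 < K := by omega
        have h11 : orderOf (f' ⟨r - n / 2, h10⟩) ∣ orderOf f' := orderOf_apply_dvd_orderOf _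
        have h12 : ¬ (r - n / 2 = 0) := by omega
        have h13 : n / 2 + (r - n / 2) = r := by omega
        simp only [f', h12, if_false, h13] at h11
        rw [hy r (by omega) hr2] at h11
        exact (Nat.dvd_gcd h9 h8).trans h11
  · rintro _ ⟨f, rfl⟩
    let f' : Fin k → Matrix.ProjectiveSpecialLinearGroup (Fin n) F := fun i =>
      if h : (i : ℕ) < K then f ⟨i, h⟩ else 1
    refine ⟨f', ?_⟩
    rw [orderOf_eq_orderOf_iff]
    intro a
    constructor
    · intro h
      funext i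
      have h1 := congrFun h ⟨i, lt_of_lt_of_le i.2 hk⟩
      have h2 : (i : ℕ) < K := i.2
      simpa [f', h2] using h1
    · intro h
      funext i
      show (f' i) ^ a = 1
      by_cases hi : (i : ℕ) < K
      · have h1 := congrFun h ⟨i, hi⟩
        simp only [f', hi, dif_pos]
        exact h1
      · simp only [f', hi, dif_neg, not_false_eq_true, one_pow]

end Cfsg.Agent.S2513
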