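import Cfsg.Statements.S2514
import Mathlib

set_option autoImplicit false
open Cfsg

namespace Cfsg.Agent.S2514

/-- every element order divides a maximal one -/
theorem exists_mu {G : Type*} [Group G] [Finite G] (g : G) :
    ∃ m ∈ {n : ℕ | n ∈ Set.range (orderOf : G → ℕ) ∧ ∀ m ∈ Set.range (orderOf : G → ℕ), n ∣ m → m = n},
      orderOf g ∣ m := by
  classical
  -- choose an element whose order is a multiple of `orderOf g` of maximal size
  have hfin : Set.Finite {n : ℕ | n ∈ Set.range (orderOf : G → ℕ) ∧ orderOf g ∣ n} :=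
    (Set.finite_range _).subset (fun n hn => hn.1)
  obtain ⟨m, hm, hmax⟩ := Set.exists_max_image _ (fun n : ℕ => n) hfin ⟨orderOf g, ⟨g, rfl⟩, dvd_rfl⟩
  refine ⟨m, ⟨hm.1, ?_⟩, hm.2⟩
  rintro m' hm' hdvd
  have h1 := hmax m' ⟨hm', hm.2.trans hdvd⟩
  obtain ⟨x, rfl⟩ := hm'
  exact le_antisymm h1 (Nat.le_of_dvd (orderOf_pos x) hdvd)

theorem exists_of_dvd {G : Type*} [Group G] [Finite G] {m a : ℕ} (hm : m ∈ Set.range (orderOf : G → ℕ))
    (ha : a ∣ m) : ∃ g : G, orderOf g = a := by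
  obtain ⟨x, rfl⟩ := hm
  exact ⟨x ^ (orderOf x / a), orderOf_pow_orderOf_div (orderOf_pos x).ne' ha⟩

theorem pow_pi_eq_one_iff {G : Type*} [Group G] {k : ℕ} (f : Fin k → G) (n : ℕ) :
    f ^ n = 1 ↔ ∀ i, orderOf (f i) ∣ n := by
  constructor
  · intro h i
    rw [orderOf_dvd_iff_pow_eq_one]
    exact congrFun h i
  · intro h
    funext i
    exact orderOf_dvd_iff_pow_eq_one.mp (h i)

theorem pow_prod_eq_one_iff {G H : Type*} [Group G] [Group H] {k : ℕ} (f : Fin k → G) (h : H) (n : ℕ) :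
    ((f, h) : (Fin k → G) × H) ^ n = 1 ↔ (∀ i, orderOf (f i) ∣ n) ∧ orderOf h ∣ n := by
  rw [← pow_pi_eq_one_iff, orderOf_dvd_iff_pow_eq_one]
  constructor
  · intro hh
    exact ⟨congrArg Prod.fst hh, congrArg Prod.snd hh⟩
  · rintro ⟨h1, h2⟩
    exact Prod.ext h1 h2

/-- For a finite group X write μ(X) for the set of element orders of X that are maximal under divisibility. Let G and H be finite groups and k ≥ 1 such that μ(H) ⊆ μ(G) and μ(G) has fewer than k elements outside μ(H). Then the direct product of k copies of G has the same set of element orders as the direct product of k − 1 copies of G with H. -/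
theorem result {G H : Type*} [Group G] [Finite G] [Group H] [Finite H] (k : ℕ) (hk : 1 ≤ k)
    (hsub : {n : ℕ | n ∈ Set.range (orderOf : H → ℕ) ∧ ∀ m ∈ Set.range (orderOf : H → ℕ), n ∣ m → m = n} ⊆ {n : ℕ | n ∈ Set.range (orderOf : G → ℕ) ∧ ∀ m ∈ Set.range (orderOf : G → ℕ), n ∣ m → m = n})
    (hfew : ({n : ℕ | n ∈ Set.range (orderOf : G → ℕ) ∧ ∀ m ∈ Set.range (orderOf : G → ℕ), n ∣ m → m = n} \ {n : ℕ | n ∈ Set.range (orderOf : H → ℕ) ∧ ∀ m ∈ Set.range (orderOf : H → ℕ), n ∣ m → m = n}).ncard < k) :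
    Set.range (orderOf : (Fin k → G) → ℕ) = Set.range (orderOf : (Fin (k - 1) → G) × H → ℕ) := by
  obtain ⟨k, rfl⟩ : ∃ j, k = j + 1 := ⟨k - 1, by omega⟩
  show Set.range (orderOf : (Fin (k + 1) → G) → ℕ) = Set.range (orderOf : (Fin k → G) × H → ℕ)
  classical
  apply Set.Subset.antisymm
  · rintro _ ⟨f, rfl⟩
    choose m hm hdvd using fun i => exists_mu (f i)
    by_cases hcase : ∃ i, m i ∈ {n : ℕ | n ∈ Set.range (orderOf : H → ℕ) ∧ ∀ m ∈ Set.range (orderOf : H → ℕ), n ∣ m → m = n}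
    · obtain ⟨i, hi⟩ := hcase
      obtain ⟨h, hh⟩ := exists_of_dvd hi.1 (hdvd i)
      refine ⟨(fun j => f (i.succAbove j), h), ?_⟩
      rw [orderOf_eq_orderOf_iff]
      intro n
      rw [pow_prod_eq_one_iff, pow_pi_eq_one_iff, Fin.forall_iff_succAbove i, hh, and_comm]
    · push Not at hcase
      have hmem : ∀ i, m i ∈ ({n : ℕ | n ∈ Set.range (orderOf : G → ℕ) ∧ ∀ m ∈ Set.range (orderOf : G → ℕ), n ∣ m → m = n} \ {n : ℕ | n ∈ Set.range (orderOf : H → ℕ) ∧ ∀ m ∈ Set.range (orderOf : H → ℕ), n ∣ m → m = n}) := fun i => ⟨hm i, hcase i⟩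
      have hfin : ({n : ℕ | n ∈ Set.range (orderOf : G → ℕ) ∧ ∀ m ∈ Set.range (orderOf : G → ℕ), n ∣ m → m = n} \ {n : ℕ | n ∈ Set.range (orderOf : H → ℕ) ∧ ∀ m ∈ Set.range (orderOf : H → ℕ), n ∣ m → m = n}).Finite :=
        (Set.finite_range (orderOf : G → ℕ)).subset (fun n hn => hn.1.1)
      have hni : ¬ Function.Injective m := by
        intro hinj
        have h1 : (Set.range m).ncard ≤ _ := Set.ncard_le_ncard (Set.range_subset_iff.mpr hmem) hfin
        rw [← Set.image_univ, Set.ncard_image_of_injective _ hinj, Set.ncard_univ, Nat.card_eq_fintype_card,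
          Fintype.card_fin] at h1
        omega
      rw [Function.not_injective_iff] at hni
      obtain ⟨i, j, hij, hne⟩ := hni
      obtain ⟨g, hg⟩ := exists_of_dvd (hm i).1 (Nat.lcm_dvd (hdvd i) (hij ▸ hdvd j))
      obtain ⟨i', rfl⟩ := Fin.exists_succAbove_eq hne
      refine ⟨(Function.update (fun l => f (j.succAbove l)) i' g, 1), ?_⟩
      rw [orderOf_eq_orderOf_iff]
      intro n
      rw [pow_prod_eq_one_iff, pow_pi_eq_one_iff, Fin.forall_iff_succAbove j, orderOf_one]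
      constructor
      · rintro ⟨h1, -⟩
        have h2 := h1 i'
        rw [Function.update_self, hg, Nat.lcm_dvd_iff] at h2
        refine ⟨h2.2, fun l => ?_⟩
        by_cases hl : l = i'
        · rw [hl]; exact h2.1
        · have h3 := h1 l
          rwa [Function.update_of_ne hl] at h3
      · rintro ⟨h1, h2⟩
        refine ⟨fun l => ?_, one_dvd n⟩
        by_cases hl : l = i'
        · rw [hl, Function.update_self, hg]
          exact Nat.lcm_dvd (h2 i') h1
        · rw [Function.update_of_ne hl]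
          exact h2 l
  · rintro _ ⟨⟨f, h⟩, rfl⟩
    obtain ⟨m, hm, hdvd⟩ := exists_mu h
    obtain ⟨g, hg⟩ := exists_of_dvd (hsub hm).1 hdvd
    refine ⟨Fin.cons g f, ?_⟩
    rw [orderOf_eq_orderOf_iff]
    intro n
    rw [pow_prod_eq_one_iff, pow_pi_eq_one_iff, Fin.forall_fin_succ]
    simp only [Fin.cons_zero, Fin.cons_succ, hg]
    rw [and_comm]

end Cfsg.Agent.S2514
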