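import Cfsg.Statements.S2516
import Mathlib

set_option autoImplicit false
open Cfsg

namespace Cfsg.Agent.S2516

theorem left_pow {N G : Type*} [CommGroup N] [Group G] (φ : G →* MulAut N) (x : N ⋊[φ] G) (n : ℕ) :
    (x ^ n).left = ∏ i ∈ Finset.range n, φ (x.right ^ i) x.left := by
  induction n with
  | zero => simp
  | succ n ih =>
    have h2 : (x ^ n).right = x.right ^ n := map_pow (SemidirectProduct.rightHom (φ := φ)) x n
    rw [pow_succ, SemidirectProduct.mul_left, ih, Finset.prod_range_succ, h2]

/-- Let F be a field of characteristic p > 0, V a non-zero finite-dimensional F-vector space, G a finite group and ρ a representation of G on V; form the semidirect product V ⋊ G. For g ∈ G of order k, the coset Vg contains an element of order pk if and only if the minimal polynomial of ρ(g) does not divide 1 + X + ⋯ + X^(k−1). -/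
theorem result {F : Type*} [Field F] (p : ℕ) [Fact p.Prime] [CharP F p] {V : Type*} [AddCommGroup V] [Module F V] [FiniteDimensional F V] [Nontrivial V]
    {G : Type*} [Group G] [Finite G] (ρ : Representation F G V) (g : G) :
    (∃ x : Multiplicative V ⋊[(MulAutMultiplicative V).symm.toMonoidHom.comp
        ((DistribMulAction.toAddAut ((V →ₗ[F] V)ˣ) V).comp ρ.asGroupHom)] G,
        x.right = g ∧ orderOf x = p * orderOf g) ↔
      ¬ (minpoly F (ρ g) ∣ ∑ i ∈ Finset.range (orderOf g), (Polynomial.X : Polynomial F) ^ i) := by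
  classical
  set φ : G →* MulAut (Multiplicative V) := (MulAutMultiplicative V).symm.toMonoidHom.comp
        ((DistribMulAction.toAddAut ((V →ₗ[F] V)ˣ) V).comp ρ.asGroupHom) with hφ
  have hφ1 : ∀ (h : G) (v : V), φ h (Multiplicative.ofAdd v) = Multiplicative.ofAdd (ρ h v) := by
    intro h v
    rfl
  have hsum : ∀ (v : V) (n : ℕ), ((⟨Multiplicative.ofAdd v, g⟩ : Multiplicative V ⋊[φ] G) ^ n).left =
      Multiplicative.ofAdd ((∑ i ∈ Finset.range n, (ρ g) ^ i) v) := by
    intro v n
    rw [left_pow, LinearMap.sum_apply, ofAdd_sum]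
    refine Finset.prod_congr rfl fun i _ => ?_
    rw [hφ1, map_pow]
  have hright : ∀ (x : Multiplicative V ⋊[φ] G) (n : ℕ), (x ^ n).right = x.right ^ n := fun x n =>
    map_pow (SemidirectProduct.rightHom (φ := φ)) x n
  have hk : 0 < orderOf g := orderOf_pos g
  have hp : p.Prime := Fact.out
  have hdvd : ¬ (minpoly F (ρ g) ∣ ∑ i ∈ Finset.range (orderOf g), (Polynomial.X : Polynomial F) ^ i) ↔
      ∃ v : V, (∑ i ∈ Finset.range (orderOf g), (ρ g) ^ i) v ≠ 0 := by
    rw [minpoly.dvd_iff, map_sum]
    simp only [map_pow, Polynomial.aeval_X]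
    constructor
    · intro h
      by_contra hcon
      push Not at hcon
      exact h (LinearMap.ext hcon)
    · rintro ⟨v, hv⟩ h
      rw [h] at hv
      exact hv rfl
  rw [hdvd]
  constructor
  · rintro ⟨⟨v', g'⟩, rfl, hx⟩
    refine ⟨Multiplicative.toAdd v', fun h0 => ?_⟩
    have h1 : ((⟨v', g'⟩ : Multiplicative V ⋊[φ] G)) ^ (orderOf g') = 1 := by
      apply SemidirectProduct.ext
      · have := hsum (Multiplicative.toAdd v') (orderOf g')
        rw [h0] at this
        exact this
      · rw [hright]
        exact pow_orderOf_eq_one g'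
    have h2 := orderOf_dvd_of_pow_eq_one h1
    rw [hx] at h2
    have h3 := Nat.le_of_dvd hk h2
    have h4 := hp.two_le
    simp only at h3 hk
    nlinarith
  · rintro ⟨v, hv⟩
    refine ⟨⟨Multiplicative.ofAdd v, g⟩, rfl, ?_⟩
    set x : Multiplicative V ⋊[φ] G := ⟨Multiplicative.ofAdd v, g⟩ with hxdef
    have hxr : x.right = g := rfl
    -- x ^ (p * k) = 1
    have h1 : (x ^ orderOf g).right = 1 := by rw [hright, hxr, pow_orderOf_eq_one]
    have h2 : x ^ (p * orderOf g) = 1 := by
      rw [mul_comm, pow_mul]
      apply SemidirectProduct.ext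
      · rw [left_pow, h1]
        simp only [one_pow, map_one, MulAut.one_apply, Finset.prod_const, Finset.card_range]
        rw [hsum, ← ofAdd_nsmul]
        have : (p • ((∑ i ∈ Finset.range (orderOf g), (ρ g) ^ i) v) : V) = 0 := by
          rw [← Nat.cast_smul_eq_nsmul F, CharP.cast_eq_zero, zero_smul]
        rw [this]
        rfl
      · rw [hright, h1, one_pow]
        rfl
    have h3 : orderOf x ∣ p * orderOf g := orderOf_dvd_of_pow_eq_one h2
    have h4 : orderOf g ∣ orderOf x := by
      have := orderOf_map_dvd (SemidirectProduct.rightHom (φ := φ)) x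
      exact this
    obtain ⟨c, hc⟩ := h4
    rw [hc, mul_comm p] at h3
    have h5 : c ∣ p := Nat.dvd_of_mul_dvd_mul_left hk h3
    rcases (Nat.dvd_prime hp).mp h5 with h6 | h6
    · exfalso
      rw [h6, mul_one] at hc
      have h7 : x ^ orderOf g = 1 := by rw [← hc]; exact pow_orderOf_eq_one x
      have h8 : (x ^ orderOf g).left = 1 := by rw [h7]; rfl
      rw [hsum] at h8
      exact hv h8
    · rw [hc, h6, mul_comm]

end Cfsg.Agent.S2516
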