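import Cfsg.Statements.S2517
import Cfsg.Agent.H39.SP17

set_option autoImplicit false
open Cfsg

namespace Cfsg.Agent.S2517

/-- Let F be a finite field of odd order q, let Ω₉ be the simple orthogonal group PΩ(9, F), and let Ω₈⁻ be the commutator subgroup of the isometry group of a minus-type non-singular quadratic form on V = F⁸ (the simple group PΩ⁻(8, F), acting on its natural module V). Then Ω₉ and the semidirect product V ⋊ Ω₈⁻ have exactly the same set of element orders. -/
theorem result {F : Type*} [Field F] [Fintype F] (hF : Odd (Fintype.card F)) (a b : F)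
    (hab : ∀ z₁ z₂ : F, z₁ ^ 2 + a * z₁ * z₂ + b * z₂ ^ 2 = 0 → z₁ = 0 ∧ z₂ = 0) :
    Set.range (orderOf : Cfsg.POmega F (Cfsg.quadFormOdd 4 F) → ℕ) =
      Set.range (orderOf :
        (Multiplicative (((Fin 3 ⊕ Fin 3) ⊕ Fin 2) → F)) ⋊[
          (MulAutMultiplicative (((Fin 3 ⊕ Fin 3) ⊕ Fin 2) → F)).symm.toMonoidHom.comp
           ((DistribMulAction.toAddAut (LinearMap.GeneralLinearGroup F (((Fin 3 ⊕ Fin 3) ⊕ Fin 2) → F))
              (((Fin 3 ⊕ Fin 3) ⊕ Fin 2) → F)).comp
            (Matrix.GeneralLinearGroup.toLin.toMonoidHom.comp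
              ((Cfsg.isometryGroup F (Cfsg.quadFormMinus 3 F a b)).subtype.comp
                (Cfsg.Omega F (Cfsg.quadFormMinus 3 F a b)).subtype)))]
          ↥(Cfsg.Omega F (Cfsg.quadFormMinus 3 F a b)) → ℕ) := by
  obtain ⟨p, hp⟩ := CharP.exists F
  haveI : Fact p.Prime := ⟨CharP.char_is_prime F p⟩
  have h2 : (2 : F) ≠ 0 := Orth.two_ne_zero_of_odd hF
  have hpo : Odd p := by
    rcases (Fact.out : p.Prime).eq_two_or_odd' with h | h
    · exfalso
      apply h2
      have : ((2 : ℕ) : F) = 0 := by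
        rw [← h]
        exact CharP.cast_eq_zero F p
      exact_mod_cast this
    · exact h
  have hQ := Orth.qfMinus_nondegenerate 3 F (Orth.disc_ne_zero_of_aniso hab)
  have hPT : ¬ H39.OE.PT (Orth.qfMinus 3 F a b) ⊤ := by
    have h1 := fun U hU => Orth.TS_lt_minus (m := 4) (by norm_num) hab (F := F) U hU
    rw [← H39.OE.not_pt_iff (Orth.finrank_Vm (m := 4) (by norm_num))] at h1
    exact h1
  ext N
  rw [H39.SP.range_iff9 hF, H39.SP.nine_iff (p := p) h2 hpo]
  exact (H39.SP.sd_main (p := p) (Q := Orth.qfMinus 3 F a b) (by simp) h2 hQ hPT _ (fun g v => rfl) N).symm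

end Cfsg.Agent.S2517
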