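import Cfsg.Statements.S2534
import Cfsg.Agent.H49.Hall.Counter

set_option autoImplicit false
open Cfsg Cfsg.Agent.H49.Hall

namespace Cfsg.Agent.S2534

/-- For `n ≥ 5` and a set of primes `π`, the alternating group of degree `n` satisfies the full Sylow analogue for `π` (its maximal `π`-subgroups are pairwise conjugate; for a finite group this says Hall `π`-subgroups exist, are all conjugate, and contain every `π`-subgroup up to conjugacy) if and only if either at most one prime of `π` divides its order or every prime dividing its order lies in `π`. -/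
theorem result (n : ℕ) (hn : 5 ≤ n) (π : Set ℕ) :
    Cfsg.IsDPiGroup π ↥(alternatingGroup (Fin n)) ↔
      ((∀ r s : ℕ, r.Prime → s.Prime → r ∈ π → s ∈ π → r ∣ Nat.card ↥(alternatingGroup (Fin n)) → s ∣ Nat.card ↥(alternatingGroup (Fin n)) → r = s) ∨
        ∀ r : ℕ, r.Prime → r ∣ Nat.card ↥(alternatingGroup (Fin n)) → r ∈ π) := by
  classical
  have hcF : Fintype.card (Fin n) = n := Fintype.card_fin n
  have hdvd : ∀ p : ℕ, p.Prime → (p ∣ Nat.card (alternatingGroup (Fin n)) ↔ p ≤ n) := by
    intro p hp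
    constructor
    · intro h
      have := prime_le_of_dvd_alt hp h
      rwa [hcF] at this
    · intro h
      exact prime_dvd_alt hp (by rw [hcF]; omega) (by rw [hcF]; exact h)
  constructor
  · intro hD
    by_contra hcon
    rw [not_or] at hcon
    obtain ⟨hc1, hc2⟩ := hcon
    push Not at hc1 hc2
    obtain ⟨r, s, hr, hs, hrπ, hsπ, hrd, hsd, hrs⟩ := hc1
    obtain ⟨t, ht, htd, htπ⟩ := hc2
    rw [hdvd r hr] at hrd
    rw [hdvd s hs] at hsd
    rw [hdvd t ht] at htd
    obtain ⟨M, hM⟩ := Cfsg.Agent.S3878.epi_of_dpi hD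
    have hconc := structure_thm (AH_of_hall_alt hM) hr hs ht hrs hrπ hsπ htπ (by simpa using hrd) (by simpa using hsd)
        (by simpa using htd)
    have hsub : ∀ K : Subgroup (alternatingGroup (Fin n)), Cfsg.IsPiSubgroup π K →
        ∃ g : Equiv.Perm (Fin n), ∀ k : Equiv.Perm (Fin n), ∀ hk : k ∈ alternatingGroup (Fin n),
          (⟨k, hk⟩ : alternatingGroup (Fin n)) ∈ K →
          g⁻¹ * k * g ∈ M.map (alternatingGroup (Fin n)).subtype := by
      intro K hK
      obtain ⟨K', hKK', hK'⟩ := Cfsg.Agent.S3878.exists_maximal_pi π K hK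
      obtain ⟨g, rfl⟩ := hD M K' (maximal_of_hall hM) hK'
      refine ⟨g, fun k hk hkK => ?_⟩
      have h1 := hKK' hkK
      rw [Cfsg.Agent.H64.mem_map_conj] at h1
      exact ⟨_, h1, rfl⟩
    -- transfer of subgroups of the symmetric group
    have hsub' : ∀ T : Subgroup (Equiv.Perm (Fin n)), (∀ p : ℕ, p.Prime → p ∣ Nat.card T → p ∈ π) →
        ∃ g : Equiv.Perm (Fin n), ∀ k ∈ T, k ∈ alternatingGroup (Fin n) →
          g⁻¹ * k * g ∈ M.map (alternatingGroup (Fin n)).subtype := by
      intro T hT
      obtain ⟨g, hg⟩ := hsub (T.subgroupOf (alternatingGroup (Fin n))) (fun p hp hd =>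
        hT p hp (hd.trans (Subgroup.card_comap_dvd_of_injective _ _ Subtype.val_injective)))
      exact ⟨g, fun k hkT hk => hg k hk (Subgroup.mem_subgroupOf.2 hkT)⟩
    rcases hconc with ⟨h1, h2, x0, hx0⟩ | ⟨h1, h2, A, hA, hinv⟩ | ⟨h1, h2, A, hA, hinv⟩
    · -- n prime
      have hxy : (⟨0, by omega⟩ : Fin n) ≠ ⟨1, by omega⟩ := by
        intro h; exact absurd (congrArg Fin.val h) (by norm_num)
      obtain ⟨g, hg⟩ := hsub' (stabP (fun w => w = (⟨0, by omega⟩ : Fin n) ∨ w = ⟨1, by omega⟩)) (by
        intro p hp hd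
        rw [card_stabP'] at hd
        have hsum := card_add_card_compl' (fun w : Fin n => w = ⟨0, by omega⟩ ∨ w = ⟨1, by omega⟩)
        have hpos1 : 0 < Nat.card {w : Fin n // w = ⟨0, by omega⟩ ∨ w = ⟨1, by omega⟩} := by
          haveI : Nonempty {w : Fin n // w = ⟨0, by omega⟩ ∨ w = ⟨1, by omega⟩} := ⟨⟨⟨0, by omega⟩, Or.inl rfl⟩⟩
          exact Nat.card_pos
        have hpos2 : 0 < Nat.card {w : Fin n // ¬ (w = ⟨0, by omega⟩ ∨ w = ⟨1, by omega⟩)} := by
          haveI : Nonempty {w : Fin n // ¬ (w = ⟨0, by omega⟩ ∨ w = ⟨1, by omega⟩)} :=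
            ⟨⟨⟨2, by omega⟩, by
              rintro (h | h)
              · exact absurd (congrArg Fin.val h) (by norm_num)
              · exact absurd (congrArg Fin.val h) (by norm_num)⟩⟩
          exact Nat.card_pos
        rcases (Nat.Prime.dvd_mul hp).1 hd with h3 | h3
        · have h4 := (Nat.Prime.dvd_factorial hp).1 h3
          exact (h2 p hp (by omega)).2 (by omega)
        · have h4 := (Nat.Prime.dvd_factorial hp).1 h3
          exact (h2 p hp (by omega)).2 (by omega))
      obtain ⟨k, hkT, hkA, hkz⟩ := exists_move (by rw [hcF]; exact hn) hxy (g x0)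
      have h3 := hx0 _ (hg k hkT hkA)
      apply hkz
      rw [Equiv.Perm.mul_apply, Equiv.Perm.mul_apply, Equiv.Perm.inv_eq_iff_eq] at h3
      exact h3
    · rw [hcF] at h1
      subst h1
      have hπ23 : ∀ p : ℕ, p.Prime → p ∣ 48 → p ∈ π := by
        intro p hp hd
        have h3 : p ∣ 2 ^ 4 * 3 := by simpa using hd
        have h4 : p = 2 ∨ p = 3 := by
          rcases (Nat.Prime.dvd_mul hp).1 h3 with h5 | h5
          · exact Or.inl ((Nat.prime_dvd_prime_iff_eq hp Nat.prime_two).1 (hp.dvd_of_dvd_pow h5))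
          · exact Or.inr ((Nat.prime_dvd_prime_iff_eq hp Nat.prime_three).1 h5)
        exact (h2 p hp (by rw [Fintype.card_fin]; omega)).2 h4
      obtain ⟨g, hg⟩ := hsub' (Subgroup.centralizer {rho7}) (by
        intro p hp hd
        rw [card_cent7] at hd
        exact hπ23 p hp hd)
      have hB : ∀ k ∈ Subgroup.centralizer {rho7}, k ∈ alternatingGroup (Fin 7) →
          ∀ x, k x ∈ A.map g.toEmbedding ↔ x ∈ A.map g.toEmbedding := by
        intro k hkT hkA x
        have hmem : ∀ y, y ∈ A.map g.toEmbedding ↔ g⁻¹ y ∈ A := by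
          intro y
          rw [Finset.mem_map_equiv]
          rfl
        rw [hmem, hmem]
        have h3 := hinv _ (hg k hkT hkA) (g⁻¹ x)
        rw [← h3]
        simp
      refine no_inv7 (A.map g.toEmbedding) (by rw [Finset.card_map, hA]) (hB sigma7 ?_ alt7.1) (hB tau7 ?_ alt7.2)
      · rw [Subgroup.mem_centralizer_singleton_iff]; exact comm7.1
      · rw [Subgroup.mem_centralizer_singleton_iff]; exact comm7.2
    · rw [hcF] at h1
      subst h1
      have hπ23 : ∀ p : ℕ, p.Prime → p ∣ 96 → p ∈ π := by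
        intro p hp hd
        have h3 : p ∣ 2 ^ 5 * 3 := by simpa using hd
        have h4 : p = 2 ∨ p = 3 := by
          rcases (Nat.Prime.dvd_mul hp).1 h3 with h5 | h5
          · exact Or.inl ((Nat.prime_dvd_prime_iff_eq hp Nat.prime_two).1 (hp.dvd_of_dvd_pow h5))
          · exact Or.inr ((Nat.prime_dvd_prime_iff_eq hp Nat.prime_three).1 h5)
        exact (h2 p hp (by rw [Fintype.card_fin]; omega)).2 h4
      obtain ⟨g, hg⟩ := hsub' (Subgroup.centralizer {rho8}) (by
        intro p hp hd
        rw [card_cent8] at hd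
        exact hπ23 p hp hd)
      have hB : ∀ k ∈ Subgroup.centralizer {rho8}, k ∈ alternatingGroup (Fin 8) →
          (∀ x, k x ∈ A.map g.toEmbedding ↔ x ∈ A.map g.toEmbedding) ∨
          (∀ x, k x ∈ A.map g.toEmbedding ↔ x ∉ A.map g.toEmbedding) := by
        intro k hkT hkA
        have hmem : ∀ y, y ∈ A.map g.toEmbedding ↔ g⁻¹ y ∈ A := by
          intro y
          rw [Finset.mem_map_equiv]
          rfl
        rcases hinv _ (hg k hkT hkA) with h3 | h3
        · left
          intro x
          rw [hmem, hmem]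
          have h4 := h3 (g⁻¹ x)
          rw [← h4]
          simp
        · right
          intro x
          rw [hmem, hmem]
          have h4 := h3 (g⁻¹ x)
          rw [← h4]
          simp
      refine no_inv8 (A.map g.toEmbedding) (by rw [Finset.card_map, hA]) (hB sigma8 ?_ alt8.1) (hB tau8 ?_ alt8.2)
      · rw [Subgroup.mem_centralizer_singleton_iff]; exact comm8.1
      · rw [Subgroup.mem_centralizer_singleton_iff]; exact comm8.2
  · rintro (h | h)
    · exact dpi_few h
    · exact dpi_all h

end Cfsg.Agent.S2534
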