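import Cfsg.Statements.S2535
import Cfsg.Agent.H49.Hall.Std

set_option autoImplicit false
open Cfsg Cfsg.Agent.H49.Hall

namespace Cfsg.Agent.S2535

/-- For every `n` and every set of primes `π`, the following are equivalent for the symmetric group `S` of degree `n` and its alternating subgroup `A`: `S` has a Hall `π`-subgroup; `S` has a Hall `π`-subgroup and all of them are conjugate; `A` has a Hall `π`-subgroup; `A` has a Hall `π`-subgroup and all of them are conjugate. -/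
theorem result (n : ℕ) (π : Set ℕ) :
    (Cfsg.IsEPiGroup π (Equiv.Perm (Fin n)) ↔ Cfsg.IsCPiGroup π (Equiv.Perm (Fin n))) ∧
    (Cfsg.IsEPiGroup π (Equiv.Perm (Fin n)) ↔ Cfsg.IsEPiGroup π ↥(alternatingGroup (Fin n))) ∧
    (Cfsg.IsEPiGroup π ↥(alternatingGroup (Fin n)) ↔ Cfsg.IsCPiGroup π ↥(alternatingGroup (Fin n))) := by
  classical
  have hinj : Function.Injective (alternatingGroup (Fin n)).subtype := Subtype.val_injective
  have hSle : ∀ p : ℕ, p.Prime → p ∣ Nat.card (Equiv.Perm (Fin n)) → p ≤ n := fun p hp hd => by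
    have := prime_le_of_dvd_perm hp hd
    rwa [Fintype.card_fin] at this
  have hAle : ∀ p : ℕ, p.Prime → p ∣ Nat.card (alternatingGroup (Fin n)) → p ≤ n := fun p hp hd => by
    have := prime_le_of_dvd_alt hp hd
    rwa [Fintype.card_fin] at this
  rcases trichotomy π n with hall | hfew | ⟨r, s, t, hr, hs, ht, hrs, hrπ, hsπ, htπ, hrn, hsn, htn⟩
  · have hS : Cfsg.IsCPiGroup π (Equiv.Perm (Fin n)) :=
      cpi_of_dpi (dpi_all (fun p hp hd => hall p hp (hSle p hp hd)))
    have hA : Cfsg.IsCPiGroup π (alternatingGroup (Fin n)) :=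
      cpi_of_dpi (dpi_all (fun p hp hd => hall p hp (hAle p hp hd)))
    exact ⟨⟨fun _ => hS, fun _ => hS.1⟩, ⟨fun _ => hA.1, fun _ => hS.1⟩, ⟨fun _ => hA, fun _ => hA.1⟩⟩
  · have hS : Cfsg.IsCPiGroup π (Equiv.Perm (Fin n)) :=
      cpi_of_dpi (dpi_few (fun p q hp hq hpπ hqπ hpd hqd => hfew p q hp hq hpπ hqπ (hSle p hp hpd) (hSle q hq hqd)))
    have hA : Cfsg.IsCPiGroup π (alternatingGroup (Fin n)) :=
      cpi_of_dpi (dpi_few (fun p q hp hq hpπ hqπ hpd hqd => hfew p q hp hq hpπ hqπ (hAle p hp hpd) (hAle q hq hqd)))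
    exact ⟨⟨fun _ => hS, fun _ => hS.1⟩, ⟨fun _ => hA.1, fun _ => hS.1⟩, ⟨fun _ => hA, fun _ => hA.1⟩⟩
  · have hn5 : 5 ≤ n := five_le hr hs ht hrs (fun e => htπ (e ▸ hrπ)) (fun e => htπ (e ▸ hsπ)) hrn hsn htn
    have hstd : ∀ M : Subgroup (Equiv.Perm (Fin n)), AH π M → ∃ T, IsStd π T ∧ M ≤ T := fun M hM =>
      exists_std_of_concl (structure_thm hM hr hs ht hrs hrπ hsπ htπ (by simpa using hrn) (by simpa using hsn)
        (by simpa using htn))
    -- Hall subgroups of S are standard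
    have hS : ∀ M : Subgroup (Equiv.Perm (Fin n)), Cfsg.IsPiHall π M → IsStd π M := by
      intro M hM
      obtain ⟨T, hT, hle⟩ := hstd M (AH_of_hall hM)
      rw [hall_eq_of_le hM hT.hall.1 hle]
      exact hT
    -- Hall subgroups of A are intersections of standard subgroups
    have hA : ∀ M : Subgroup (alternatingGroup (Fin n)), Cfsg.IsPiHall π M →
        ∃ T, IsStd π T ∧ M = T.subgroupOf (alternatingGroup (Fin n)) := by
      intro M hM
      obtain ⟨T, hT, hle⟩ := hstd _ (AH_of_hall_alt hM)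
      refine ⟨T, hT, hall_eq_of_le hM ?_ ?_⟩
      · intro p hp hd
        exact hT.hall.1 p hp (hd.trans (Subgroup.card_comap_dvd_of_injective _ _ hinj))
      · rw [← Subgroup.comap_map_eq_self_of_injective hinj M]
        exact Subgroup.comap_mono hle
    have hEA : ∀ T : Subgroup (Equiv.Perm (Fin n)), IsStd π T →
        Cfsg.IsPiHall π (T.subgroupOf (alternatingGroup (Fin n))) := by
      intro T hT
      refine ⟨fun p hp hd => ?_, fun p hp hpπ hd => ?_⟩
      · exact hT.hall.1 p hp (hd.trans (Subgroup.card_comap_dvd_of_injective _ _ Subtype.val_injective))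
      · exact hT.hall.2 p hp hpπ (hd.trans (relIndex_alt_dvd T))
    refine ⟨⟨fun hE => ⟨hE, ?_⟩, fun h => h.1⟩, ⟨?_, ?_⟩, ⟨fun hE => ⟨hE, ?_⟩, fun h => h.1⟩⟩
    · intro H K hH hK
      exact (hS H hH).conj (hS K hK)
    · rintro ⟨M, hM⟩
      exact ⟨_, hEA M (hS M hM)⟩
    · rintro ⟨M, hM⟩
      obtain ⟨T, hT, _⟩ := hA M hM
      exact ⟨T, hT.hall⟩
    · intro H K hH hK
      obtain ⟨T, hT, rfl⟩ := hA H hH
      obtain ⟨T', hT', rfl⟩ := hA K hK
      obtain ⟨g, hg⟩ := hT.conj hT'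
      -- make g even
      obtain ⟨g, hgA, rfl⟩ : ∃ g ∈ alternatingGroup (Fin n), T' = T.map (MulAut.conj g).toMonoidHom := by
        rcases Int.units_eq_one_or (Equiv.Perm.sign g) with h1 | h1
        · exact ⟨g, Equiv.Perm.mem_alternatingGroup.2 h1, hg⟩
        · obtain ⟨t, ht, hts⟩ := hT.exists_odd (by simpa using hn5)
          refine ⟨g * t, ?_, ?_⟩
          · rw [Equiv.Perm.mem_alternatingGroup, map_mul, h1, hts]; norm_num
          · rw [Cfsg.Agent.H64.map_conj_mul, Cfsg.Agent.H64.map_conj_eq_self_of_mem ht, hg]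
      refine ⟨⟨g, hgA⟩, ?_⟩
      ext ⟨x, hx⟩
      rw [Cfsg.Agent.H64.mem_map_conj, Subgroup.mem_subgroupOf, Subgroup.mem_subgroupOf,
        Cfsg.Agent.H64.mem_map_conj]
      rfl

end Cfsg.Agent.S2535
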