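import Cfsg.Statements.S2536
import Cfsg.Agent.H49.Hall.Std

set_option autoImplicit false
open Cfsg Cfsg.Agent.H49.Hall

namespace Cfsg.Agent.S2536

/-- Let `π` be a set of primes and `n` a natural number such that at least two primes of `π` divide `n!` but not every prime dividing `n!` lies in `π`. Then the symmetric group of degree `n` has a Hall `π`-subgroup if and only if either `n` is prime and the primes of `π` dividing `n!` are exactly the primes smaller than `n` (a point stabilizer is then such a subgroup), or `n ∈ {7, 8}` and the primes of `π` dividing `n!` are exactly 2 and 3. -/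
theorem result (n : ℕ) (π : Set ℕ)
    (h2 : ∃ r s : ℕ, r.Prime ∧ s.Prime ∧ r ≠ s ∧ r ∈ π ∧ s ∈ π ∧ r ≤ n ∧ s ≤ n)
    (hns : ∃ r : ℕ, r.Prime ∧ r ≤ n ∧ r ∉ π) :
    Cfsg.IsEPiGroup π (Equiv.Perm (Fin n)) ↔
      ((n.Prime ∧ ∀ r : ℕ, r.Prime → r ≤ n → (r ∈ π ↔ r < n)) ∨
       ((n = 7 ∨ n = 8) ∧ ∀ r : ℕ, r.Prime → r ≤ n → (r ∈ π ↔ (r = 2 ∨ r = 3)))) := by
  obtain ⟨r, s, hr, hs, hrs, hrπ, hsπ, hrn, hsn⟩ := h2
  obtain ⟨t, ht, htn, htπ⟩ := hns
  constructor
  · rintro ⟨M, hM⟩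
    have hc := structure_thm (AH_of_hall hM) hr hs ht hrs hrπ hsπ htπ (by simpa using hrn) (by simpa using hsn)
      (by simpa using htn)
    rcases hc with ⟨h1, h2, _⟩ | ⟨h1, h2, _⟩ | ⟨h1, h2, _⟩
    · rw [Fintype.card_fin] at h1 h2
      exact Or.inl ⟨h1, h2⟩
    · rw [Fintype.card_fin] at h1 h2
      exact Or.inr ⟨Or.inl h1, h2⟩
    · rw [Fintype.card_fin] at h1 h2
      exact Or.inr ⟨Or.inr h1, h2⟩
  · have hA : 4 ≤ n → ∃ A : Finset (Fin n), A.card = 4 := by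
      intro h4
      obtain ⟨A, _, hA⟩ := Finset.exists_subset_card_eq (s := (Finset.univ : Finset (Fin n))) (n := 4)
        (by rw [Finset.card_univ, Fintype.card_fin]; exact h4)
      exact ⟨A, hA⟩
    rintro (⟨h1, h2⟩ | ⟨h1 | h1, h2⟩)
    · refine ⟨stabP (fun y => y = (⟨0, h1.pos⟩ : Fin n)), IsStd.hall (Or.inl ⟨?_, ?_, _, rfl⟩)⟩
      · rw [Fintype.card_fin]; exact h1
      · rw [Fintype.card_fin]; exact h2
    · obtain ⟨A, hA⟩ := hA (by omega)
      refine ⟨stabP (fun x => x ∈ A), IsStd.hall (Or.inr (Or.inl ⟨?_, ?_, A, hA, rfl⟩))⟩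
      · rw [Fintype.card_fin]; exact h1
      · rw [Fintype.card_fin]; exact h2
    · obtain ⟨A, hA⟩ := hA (by omega)
      refine ⟨swapP (fun x => x ∈ A), IsStd.hall (Or.inr (Or.inr ⟨?_, ?_, A, hA, rfl⟩))⟩
      · rw [Fintype.card_fin]; exact h1
      · rw [Fintype.card_fin]; exact h2

end Cfsg.Agent.S2536
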