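import Cfsg.Statements.S2538
import Cfsg.Agent.H49.Hall.Std

set_option autoImplicit false
open Cfsg Cfsg.Agent.H49.Hall

namespace Cfsg.Agent.S2538

/-- For every `n` and every set of primes `π`, a subgroup of the alternating group of degree `n` is a Hall `π`-subgroup of it if and only if it is the intersection with the alternating group of some Hall `π`-subgroup of the symmetric group of degree `n`. -/
theorem result (n : ℕ) (π : Set ℕ)
    (M : Subgroup ↥(alternatingGroup (Fin n))) :
    Cfsg.IsPiHall π M ↔ ∃ M₀ : Subgroup (Equiv.Perm (Fin n)), Cfsg.IsPiHall π M₀ ∧ M = M₀.subgroupOf (alternatingGroup (Fin n)) := by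
  classical
  constructor
  · intro hM
    have hinj : Function.Injective (alternatingGroup (Fin n)).subtype := Subtype.val_injective
    have hback : (M.map (alternatingGroup (Fin n)).subtype).subgroupOf (alternatingGroup (Fin n)) = M :=
      Subgroup.comap_map_eq_self_of_injective hinj M
    -- if M ≤ T with T a Hall subgroup we are done
    have key : ∀ T : Subgroup (Equiv.Perm (Fin n)), Cfsg.IsPiHall π T →
        M.map (alternatingGroup (Fin n)).subtype ≤ T →
        ∃ M₀ : Subgroup (Equiv.Perm (Fin n)), Cfsg.IsPiHall π M₀ ∧ M = M₀.subgroupOf (alternatingGroup (Fin n)) := by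
      intro T hT hle
      refine ⟨T, hT, hall_eq_of_le hM ?_ ?_⟩
      · intro p hp hd
        exact hT.1 p hp (hd.trans (Subgroup.card_comap_dvd_of_injective _ _ hinj))
      · rw [← hback]
        exact Subgroup.comap_mono hle
    rcases trichotomy π n with hall | hfew | ⟨r, s, t, hr, hs, ht, hrs, hrπ, hsπ, htπ, hrn, hsn, htn⟩
    · exact key ⊤ (hall_top_of_all (fun p hp hd => hall p hp (by
        have := prime_le_of_dvd_perm hp hd
        rwa [Fintype.card_fin] at this))) le_top
    · have hd := dpi_few (G := Equiv.Perm (Fin n)) (π := π) (by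
        intro p q hp hq hpπ hqπ hpd hqd
        refine hfew p q hp hq hpπ hqπ ?_ ?_
        · have := prime_le_of_dvd_perm hp hpd
          rwa [Fintype.card_fin] at this
        · have := prime_le_of_dvd_perm hq hqd
          rwa [Fintype.card_fin] at this)
      obtain ⟨T, hT⟩ := Cfsg.Agent.S3878.epi_of_dpi hd
      obtain ⟨K, hMK, hK⟩ := Cfsg.Agent.S3878.exists_maximal_pi π (M.map (alternatingGroup (Fin n)).subtype) (by
        intro p hp hpd
        rw [Subgroup.card_map_of_injective hinj] at hpd
        exact hM.1 p hp hpd)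
      obtain ⟨g, rfl⟩ := hd T K (maximal_of_hall hT) hK
      refine key _ ⟨hK.prop, fun p hp hpπ hpd => ?_⟩ hMK
      have := Cfsg.Agent.H64.index_map_conj T g
      rw [this] at hpd
      exact hT.2 p hp hpπ hpd
    · have hc := structure_thm (AH_of_hall_alt hM) hr hs ht hrs hrπ hsπ htπ (by simpa using hrn) (by simpa using hsn)
        (by simpa using htn)
      obtain ⟨T, hT, hle⟩ := exists_std_of_concl hc
      exact key T hT.hall hle
  · rintro ⟨M₀, hM₀, rfl⟩
    refine ⟨fun p hp hd => ?_, fun p hp hpπ hd => ?_⟩
    · exact hM₀.1 p hp (hd.trans (Subgroup.card_comap_dvd_of_injective _ _ Subtype.val_injective))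
    · exact hM₀.2 p hp hpπ (hd.trans (relIndex_alt_dvd M₀))

end Cfsg.Agent.S2538
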