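import Cfsg.Statements.S2648
import Cfsg.Agent.H94.WrSp

set_option autoImplicit false
open Cfsg

namespace Cfsg.Agent.S2648

/-- Let q be odd, F a field with q elements and n ≥ 1. A Sylow 2-subgroup R of the symplectic group Sp_{2n}(F) has derived length exactly k + 1, where 2^k ≤ 2n < 2^{k+1}: the (k+1)-st term of its derived series is trivial and the k-th is not. -/
theorem result {F : Type*} [Field F] [Fintype F] [DecidableEq F] (q : ℕ) (hF : Fintype.card F = q) (hq : Odd q) (n : ℕ) (hn : 1 ≤ n) (R : Sylow 2 ↥(Matrix.symplecticGroup (Fin n) F)) : derivedSeries ↥(R : Subgroup ↥(Matrix.symplecticGroup (Fin n) F)) (Nat.log 2 (2 * n) + 1) = ⊥ ∧ derivedSeries ↥(R : Subgroup ↥(Matrix.symplecticGroup (Fin n) F)) (Nat.log 2 (2 * n)) ≠ ⊥ := by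
  subst hF
  have h1 : Nat.log 2 (2 * n) = 1 + Nat.log 2 n := by
    rw [mul_comm, Nat.log_mul_base (by norm_num) (by omega), add_comm]
  have hR : IsPGroup 2 (R : Subgroup ↥(Matrix.symplecticGroup (Fin n) F)) := R.isPGroup'
  have e : DecidableEq F := inferInstance
  rw [h1]
  constructor
  · have h2 := Cfsg.Agent.H94.Wr.dle_wreath n (Cfsg.Agent.H94.Wr.spWrd n F) (Cfsg.Agent.H94.Wr.dle_SL2 hq) (Cfsg.Agent.H94.Wr.fac_sp n hq) _ hR
    rw [show 1 + Nat.log 2 n + 1 = 2 + Nat.log 2 n by ring]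
    exact h2
  · have h2 := Cfsg.Agent.H94.Wr.dge_wreath (k := Nat.log 2 n) (Cfsg.Agent.H94.Wr.spWrd n F) (by
      rw [Nat.card_fin]; exact Nat.pow_log_le_self 2 (by omega)) (Cfsg.Agent.H94.Wr.dge_SL2 hq)
    exact h2.sylow R

end Cfsg.Agent.S2648
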