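import Cfsg.Statements.S2788
import Cfsg.Agent.H49.Zs.L2

set_option autoImplicit false
open Cfsg Cfsg.Agent.H49 Cfsg.Agent

namespace Cfsg.Agent.S2788

/-- Let H act faithfully by conjugation on the elementary abelian p-subgroup V of a finite group with H ≅ SL₂(F), F a field with p^n elements, S a Sylow p-subgroup of H, and A ≤ S a subgroup of order at least 3 acting quadratically on V ([V, A, A] = 1). Then |V/C_V(a)| ≥ p^n for every nonidentity a ∈ A. -/
theorem result {G : Type*} [Group G] [Finite G] {p : ℕ} [Fact p.Prime] (V H : Subgroup G) (hV : Cfsg.IsElementaryAbelian p V) (hHV : H ≤ Subgroup.normalizer (V : Set G)) (hf : H ⊓ Subgroup.centralizer (V : Set G) = ⊥) {F : Type*} [Field F] [Fintype F] (n : ℕ) (hF : Fintype.card F = p ^ n) (hiso : Nonempty (↥H ≃* Matrix.SpecialLinearGroup (Fin 2) F)) (S : Sylow p ↥H) (T : Subgroup G) (hT : T = ((S : Subgroup ↥H).map H.subtype)) (A : Subgroup G) (hA : A ≤ T) (hA3 : 3 ≤ Nat.card A) (hquad : ⁅⁅V, A⁆, A⁆ = ⊥) : ∀ a ∈ A, a ≠ 1 → p ^ n ≤ ((V ⊓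 Subgroup.centralizer ({a} : Set G))).relIndex V := by
  intro a ha ha1
  obtain ⟨haH, k, hk⟩ := Zs.exists_pow_of_mem_sylow S hT (hA ha)
  have hn0 : n ≠ 0 := by
    rintro rfl
    rw [pow_zero] at hF
    exact Fintype.one_lt_card.ne' hF
  have : CharP F p := by
    obtain ⟨p', hp'⟩ := CharP.exists F
    have hp'' : p'.Prime := CharP.char_is_prime F p'
    have h1 : p' ∣ p ^ n := by
      rw [← hF]
      have := Nat.cast_card_eq_zero F
      exact (CharP.cast_eq_zero_iff F p' _).1 this
    have h2 : p' = p := (Nat.prime_dvd_prime_iff_eq hp'' Fact.out).1 (hp''.dvd_of_dvd_pow h1)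
    rwa [← h2]
  obtain ⟨e⟩ := hiso
  let π : ↥H →* Matrix.ProjectiveSpecialLinearGroup (Fin 2) F :=
    (QuotientGroup.mk' (Subgroup.center (Matrix.SpecialLinearGroup (Fin 2) F))).comp e.toMonoidHom
  have hπ : Function.Surjective π := (QuotientGroup.mk'_surjective _).comp e.surjective
  have hker : (Nat.card π.ker).Coprime p := by
    have h1 : π.ker = (Subgroup.center (Matrix.SpecialLinearGroup (Fin 2) F)).comap e.toMonoidHom := by
      ext x
      rw [MonoidHom.mem_ker]
      exact QuotientGroup.eq_one_iff (e x)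
    have h2 : Nat.card π.ker = Nat.card (Subgroup.center (Matrix.SpecialLinearGroup (Fin 2) F)) := by
      rw [h1, Nat.card_congr ((Subgroup.comap e.toMonoidHom (Subgroup.center (Matrix.SpecialLinearGroup (Fin 2) F))).equivMapOfInjective
        e.toMonoidHom e.injective).toEquiv, Subgroup.map_comap_eq_self_of_surjective e.surjective]
    rw [h2]
    exact Zs.sl_center_coprime (ι := Fin 2) (F := F) (p := p)
  exact (Zs.l2_bounds' hV hHV hf hF π hπ hker haH ha1 hk).1

end Cfsg.Agent.S2788
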