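import Cfsg.Statements.S2796
import Cfsg.Agent.H33.GF22
import Cfsg.Agent.S1997
import Cfsg.Agent.S2753
import Cfsg.Agent.H34.Involves

set_option autoImplicit false
universe u
open Cfsg

namespace Cfsg.Agent.S2796

/-- Let G be a finite group in which the symmetric group of degree 4 is not involved, such that for every section K/R of G with C(O₂(K/R)) ≤ O₂(K/R) every non-abelian composition factor of K/R is a Suzuki group Sz(2^(2n+1)) or PSL₂ over a field with 3^(2n+1) elements. Let S be a Sylow 2-subgroup, J_e(S) the subgroup generated by its elementary abelian subgroups of largest order, and A the normal closure of Ω₁(Z(S)) in N_G(J_e(S)). Then A is an elementary abelian subgroup of S, strongly closed in S with respect to G, and A controls strong fusion in G. -/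
theorem result {G : Type u} [Group G] [Finite G] (hfree : ¬ Cfsg.Involves (Equiv.Perm (Fin 4)) G) (hsec : ∀ (K R : Subgroup G) [hR : (R.subgroupOf K).Normal], Subgroup.centralizer (Cfsg.pCore 2 (K ⧸ R.subgroupOf K) : Set (K ⧸ R.subgroupOf K)) ≤ Cfsg.pCore 2 (K ⧸ R.subgroupOf K) → Cfsg.IsCompositionKGroupWith Cfsg.IsSuzukiOrPSL2OddPowerThree (K ⧸ R.subgroupOf K)) (S : Sylow 2 G) (N : Subgroup G) (hN : N = Subgroup.normalizer (Cfsg.thompsonSubgroupOf 2 (S : Subgroup G) : Set G)) (A : Subgroup G) (hA : A = (Subgroup.normalClosure (((Cfsg.omegaOne 2 ((S : Subgroup G) ⊓ Subgroup.centralizer ((S : Subgroup G) : Set G))).subgroupOf N : Subgroup ↥N) : Set ↥N)).map N.subtype) : A ≤ S ∧ Cfsg.IsElementaryAbelian 2 A ∧ Cfsg.IsStronglyClosed A (S : Subgroup G) ∧ Cfsg.ControlsStrongFusion 2 A := by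
  have hch1 : Cfsg.IsCharPFunctor.{u} 2 H33.GF.W1 := H33.GF.charP_W1
  have hch2 : Cfsg.IsCharPFunctor.{u} 2 H33.GF.W2 := H33.GF.charP_W2
  have : Fact (Nat.Prime 2) := ⟨Nat.prime_two⟩
  refine S1997.result S H33.GF.W1 H33.GF.W2 hch1 hch2 ?_ (H33.GF.omZ_le_ind S.isPGroup') N hN A hA
  intro K R hR hchar T
  have hfree' : ¬ Cfsg.Involves (Equiv.Perm (Fin 4)) (↥K ⧸ R.subgroupOf K) := fun h =>
    hfree (H34.involves_of_subgroup K (H34.involves_of_quotient _ h))
  obtain ⟨h1, h2, h3⟩ := S2753.result hchar hfree' (hsec K R hchar) T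
  have hc : Subgroup.centralizer ((((T : Subgroup (↥K ⧸ R.subgroupOf K)) ⊓
      Subgroup.centralizer ((T : Subgroup (↥K ⧸ R.subgroupOf K)) : Set (↥K ⧸ R.subgroupOf K))) :
      Subgroup (↥K ⧸ R.subgroupOf K)) : Set (↥K ⧸ R.subgroupOf K)) ≤
      Subgroup.centralizer ((Cfsg.omegaOne 2 ((T : Subgroup (↥K ⧸ R.subgroupOf K)) ⊓
        Subgroup.centralizer ((T : Subgroup (↥K ⧸ R.subgroupOf K)) : Set (↥K ⧸ R.subgroupOf K))) :
        Subgroup (↥K ⧸ R.subgroupOf K)) : Set (↥K ⧸ R.subgroupOf K)) := by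
    apply Subgroup.centralizer_le
    unfold Cfsg.omegaOne
    exact (Subgroup.closure_le _).2 fun x hx => hx.1
  refine ⟨?_, ?_, ?_⟩
  · intro x
    obtain ⟨c, hc1, n, hn, e⟩ := h1 x
    exact ⟨c, hc hc1, n, hn, e⟩
  · intro x
    obtain ⟨c, hc1, n, hn, e⟩ := h2 x
    refine ⟨c, hc hc1, n, ?_, e⟩
    rw [H33.GF.ind_W2]
    exact H33.GF.norm_omegaOne_le 2 _ (H33.GF.norm_inf_cent_le _ hn)
  · intro x
    obtain ⟨c, hc1, n, hn, e⟩ := h3 x⁻¹
    refine ⟨n⁻¹, inv_mem hn, c⁻¹, ?_, by rw [← mul_inv_rev, ← e, inv_inv]⟩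
    rw [H33.GF.ind_W2]
    apply inv_mem
    exact Subgroup.centralizer_le_normalizer _ hc1

end Cfsg.Agent.S2796
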