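import Cfsg.Statements.S2897
import Cfsg.Agent.H48.Parab

set_option autoImplicit false
open Cfsg

namespace Cfsg.Agent.S2897

open Cfsg.Agent.H47 Cfsg.Agent.H48 Subgroup

/-- Transport of characteristic `p` between a subgroup of `G₁` and its image in `G`. -/
theorem charP'_map_subtype {G : Type*} [Group G] [Finite G] {p : ℕ} [Fact p.Prime] (G₁ : Subgroup G)
    (L : Subgroup G₁) (h : CharP' p (L.map G₁.subtype)) : CharP' p L := by
  rw [← charP'_iff] at h ⊢
  exact H49.charP_of_equiv (L.equivMapOfInjective G₁.subtype G₁.subtype_injective).symm h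

/-- Let p be a prime dividing the order of the finite group G, suppose G has parabolic characteristic p, let S be a Sylow p-subgroup of G and G₁ a normal subgroup of G. If Ω₁(Z(S ∩ G₁)) is nontrivial and contained in Ω₁(Z(S)), then G₁ has parabolic characteristic p. -/
theorem result {G : Type*} [Group G] [Finite G] {p : ℕ} [Fact p.Prime] (hdiv : p ∣ Nat.card G) (hG : Cfsg.IsOfParabolicCharacteristic p G) (S : Sylow p G) (G₁ : Subgroup G) [G₁.Normal] (hne : Cfsg.omegaOne p (((S : Subgroup G) ⊓ G₁) ⊓ Subgroup.centralizer (((S : Subgroup G) ⊓ G₁ : Subgroup G) : Set G)) ≠ ⊥) (hle : Cfsg.omegaOne p (((S : Subgroup G) ⊓ G₁) ⊓ Subgroup.centralizer (((S : Subgroup G) ⊓ G₁ : Subgroup G) : Set G)) ≤ Cfsg.omegaOne p ((S : Subgroup G) ⊓ Subgroup.centralizer ((S : Subgroup G) : Set G))) : Cfsg.IsOfParabolicCharacteristic p ↥G₁ := by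
  -- the Sylow subgroup of G₁
  have h1 : SylIn p ((S : Subgroup G) ⊓ G₁) G₁ :=
    (sylIn_top S).inf_normal le_top Subgroup.le_normalizer_of_normal
  obtain ⟨S₁, hS₁⟩ := h1
  rw [parabolicChar_iff S₁]
  have hG' := (parabolicChar_iff S).mp hG
  intro z hz1 hz
  rw [mem_omegaOne_iff_of_comm comm_center] at hz
  obtain ⟨⟨hzS, hzC⟩, hzp⟩ := hz
  have hz2 : (z : G) ∈ Cfsg.omegaOne p (((S : Subgroup G) ⊓ G₁) ⊓ Subgroup.centralizer (((S : Subgroup G) ⊓ G₁ : Subgroup G) : Set G)) := by
    rw [mem_omegaOne_iff_of_comm comm_center]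
    refine ⟨⟨?_, ?_⟩, ?_⟩
    · rw [← hS₁]
      exact ⟨z, hzS, rfl⟩
    · change (z : G) ∈ Subgroup.centralizer (((S : Subgroup G) ⊓ G₁ : Subgroup G) : Set G)
      rw [← hS₁, mem_centralizer_iff]
      rintro _ ⟨y, hy, rfl⟩
      exact congrArg Subtype.val (mem_centralizer_iff.mp hzC y hy)
    · exact congrArg Subtype.val hzp
  have h2 := hG' z (fun h => hz1 (Subtype.ext h)) (hle hz2)
  have h3 : (centralizer ({z} : Set G₁)).map G₁.subtype = centralizer ({(z : G)} : Set G) ⊓ G₁ := by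
    ext x
    constructor
    · rintro ⟨y, hy, rfl⟩
      have hy' := mem_centralizer_singleton_iff.mp hy
      exact ⟨mem_centralizer_singleton_iff.mpr (congrArg Subtype.val hy'), y.2⟩
    · rintro ⟨hx, hxG⟩
      refine ⟨⟨x, hxG⟩, ?_, rfl⟩
      exact mem_centralizer_singleton_iff.mpr (Subtype.ext (mem_centralizer_singleton_iff.mp hx))
  apply charP'_map_subtype
  rw [h3]
  exact h2.of_normal inf_le_left (le_normalizer_inf le_normalizer le_normalizer_of_normal)

end Cfsg.Agent.S2897
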