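import Cfsg.Statements.S2898
import Cfsg.Agent.H48.SPE
import Cfsg.Agent.H48.PCore

set_option autoImplicit false
open Cfsg

namespace Cfsg.Agent.S2898

open scoped Pointwise
open Cfsg.Agent.H48

theorem fix {G : Type*} [Group G] [Finite G] (hG : Cfsg.IsOfParabolicCharacteristic 2 G) (S : Sylow 2 G)
    (z : G) (hz : orderOf z = 2) (hzS : ∀ s ∈ S, s * z = z * s) (y : G) (hy : y ∈ Cfsg.oddCore G)
    (hyz : y * z = z * y) : y = 1 := by
  set R := Subgroup.zpowers z with hR
  set N := Subgroup.normalizer (R : Set G) with hN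
  have hRp : IsPGroup 2 R := by
    apply IsPGroup.of_card (n := 1)
    rw [hR, Nat.card_zpowers, pow_one, hz]
  have hRne : R ≠ ⊥ := by
    intro h0
    rw [hR, Subgroup.zpowers_eq_bot] at h0
    rw [h0, orderOf_one] at hz
    omega
  have hCN : Subgroup.centralizer ({z} : Set G) ≤ N := centralizer_le_normalizer_zpowers z
  have hpar : Cfsg.IsParabolic 2 N := ⟨S, fun s hs => hCN (by
    rw [Subgroup.mem_centralizer_singleton_iff]; exact hzS s hs)⟩
  have hchar := hG R hRp hRne hpar
  have hyN : y ∈ N := hCN (by rw [Subgroup.mem_centralizer_singleton_iff]; exact hyz)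
  have hodd : (Nat.card (Cfsg.oddCore G)).Coprime 2 := coprime_card_pPrimeCore 2 G
  have hK1 : ((Cfsg.oddCore G).subgroupOf N).Normal := inferInstance
  have hKcard : (Nat.card ((Cfsg.oddCore G).subgroupOf N)).Coprime 2 := by
    have h1 : Nat.card ((Cfsg.oddCore G).subgroupOf N) ∣ Nat.card (Cfsg.oddCore G) := by
      rw [← Subgroup.card_map_of_injective (K := (Cfsg.oddCore G).subgroupOf N) N.subtype_injective]
      rw [Subgroup.subgroupOf_map_subtype]
      exact Subgroup.card_dvd_of_le inf_le_left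
    exact Nat.Coprime.coprime_dvd_left h1 hodd
  obtain ⟨n, hn⟩ := (IsPGroup.iff_card.mp (isPGroup_pCore 2 N))
  have hdisj : Disjoint ((Cfsg.oddCore G).subgroupOf N) (Cfsg.pCore 2 N) := by
    apply Subgroup.disjoint_of_coprime_natCard
    rw [hn]
    exact Nat.Coprime.pow_right n hKcard
  have hyK : (⟨y, hyN⟩ : N) ∈ (Cfsg.oddCore G).subgroupOf N := hy
  have hyO : (⟨y, hyN⟩ : N) ∈ Cfsg.pCore 2 N := by
    apply hchar
    rw [Subgroup.mem_centralizer_iff]
    intro f hf
    exact (Subgroup.commute_of_normal_of_disjoint _ _ hK1 inferInstance hdisj _ _ hyK hf).symm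
  have := Subgroup.disjoint_def.mp hdisj hyK hyO
  exact congrArg Subtype.val this

/-- Let G be a finite group of even order with parabolic characteristic 2. If the centre of G ⧸ O(G) is trivial, then O(G) = 1. -/
theorem result {G : Type*} [Group G] [Finite G] (h2 : 2 ∣ Nat.card G) (hG : Cfsg.IsOfParabolicCharacteristic 2 G) [hN : (Cfsg.oddCore G).Normal] (hZ : Subgroup.center (G ⧸ Cfsg.oddCore G) = ⊥) : Cfsg.oddCore G = ⊥ := by
  classical
  obtain ⟨S⟩ : Nonempty (Sylow 2 G) := inferInstance
  have hSne := S.ne_bot_of_dvd_card h2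
  set Y := Cfsg.oddCore G with hY
  have hodd : (Nat.card Y).Coprime 2 := coprime_card_pPrimeCore 2 G
  set C := Subgroup.centralizer (Y : Set G) with hC
  by_cases hCS : C.subgroupOf (S : Subgroup G) = ⊥
  · -- C_G(Y) has odd order
    obtain ⟨z, hzS, hz, hzc⟩ := exists_central_orderOf_eq S.2 hSne
    have hCn : C.Normal := inferInstance
    have hCodd : (Nat.card C).Coprime 2 := by
      rw [Nat.coprime_comm, Nat.Prime.coprime_iff_not_dvd Nat.prime_two]
      intro hd
      obtain ⟨c, hc⟩ := exists_prime_orderOf_dvd_card' 2 hd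
      obtain ⟨h, hh⟩ := exists_conj_mem_sylow S (c : G) (by rw [Subgroup.orderOf_coe, hc])
      have h1 : (⟨h * c * h⁻¹, hh⟩ : (S : Subgroup G)) ∈ C.subgroupOf (S : Subgroup G) := hCn.conj_mem _ c.2 _
      rw [hCS, Subgroup.mem_bot] at h1
      have h2 : h * (c : G) * h⁻¹ = 1 := congrArg Subtype.val h1
      have h3 : (c : G) = 1 := by
        have : h * (c : G) * h⁻¹ = h * 1 * h⁻¹ := by rw [h2]; group
        simpa using this
      have h4 : c = 1 := by ext; exact h3
      rw [h4, orderOf_one] at hc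
      omega
    have hCY : C ≤ Y := le_pPrimeCore hCn hCodd
    -- z inverts Y
    have hzz : z * z = 1 := by rw [← pow_two, ← hz]; exact pow_orderOf_eq_one z
    have hzi : z⁻¹ = z := by rw [inv_eq_iff_mul_eq_one]; exact hzz
    let φ : Y →* Y := (MulAut.conjNormal z : MulAut Y).toMonoidHom
    have hφ : MonoidHom.FixedPointFree φ := by
      intro y hy
      have h1 : z * (y : G) * z⁻¹ = y := congrArg Subtype.val hy
      have h2 := fix hG S z hz hzc (y : G) y.2 (by rw [← mul_inv_eq_iff_eq_mul.mp h1])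
      ext; exact h2
    have hinv : Function.Involutive φ := by
      intro y
      ext
      change z * (z * (y : G) * z⁻¹) * z⁻¹ = y
      calc z * (z * (y : G) * z⁻¹) * z⁻¹ = (z * z) * y * (z * z)⁻¹ := by group
        _ = y := by rw [hzz]; group
    have hinvert : ∀ y ∈ Y, z * y * z⁻¹ = y⁻¹ := by
      intro y hy
      have := congrFun (hφ.coe_eq_inv_of_involutive hinv) ⟨y, hy⟩
      exact congrArg Subtype.val this
    -- z mod Y is central
    have hzcen : (QuotientGroup.mk z : G ⧸ Cfsg.oddCore G) ∈ Subgroup.center (G ⧸ Cfsg.oddCore G) := by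
      rw [Subgroup.mem_center_iff]
      intro g
      induction g using QuotientGroup.induction_on with
      | H g =>
      rw [← QuotientGroup.mk_mul, ← QuotientGroup.mk_mul, QuotientGroup.eq]
      apply hCY
      rw [Subgroup.mem_centralizer_iff]
      intro y hy
      -- (g z)⁻¹ (z g) commutes with y
      have hYn : Y.Normal := hN
      have a1 : g * y * g⁻¹ ∈ Y := hYn.conj_mem y hy g
      have a2 : ∀ w ∈ Y, z⁻¹ * w * z = w⁻¹ := by
        intro w hw
        have := hinvert w hw
        rw [hzi] at this ⊢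
        exact this
      have e1 : z * (g * y * g⁻¹) * z⁻¹ = (g * y * g⁻¹)⁻¹ := hinvert _ a1
      have e3 : z⁻¹ * (y⁻¹) * z = y := by
        have := a2 y⁻¹ (Y.inv_mem hy)
        simpa using this
      have key : ((g * z)⁻¹ * (z * g)) * y * ((g * z)⁻¹ * (z * g))⁻¹ = y := by
        calc ((g * z)⁻¹ * (z * g)) * y * ((g * z)⁻¹ * (z * g))⁻¹
            = z⁻¹ * g⁻¹ * (z * (g * y * g⁻¹) * z⁻¹) * g * z := by group
          _ = z⁻¹ * g⁻¹ * (g * y * g⁻¹)⁻¹ * g * z := by rw [e1]
          _ = z⁻¹ * (y⁻¹) * z := by group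
          _ = y := e3
      exact (mul_inv_eq_iff_eq_mul.mp key).symm
    rw [hZ, Subgroup.mem_bot, QuotientGroup.eq_one_iff] at hzcen
    exfalso
    have h1 : orderOf z ∣ Nat.card Y := by
      have : orderOf (⟨z, hzcen⟩ : Y) = orderOf z := Subgroup.orderOf_mk z hzcen
      rw [← this]
      exact orderOf_dvd_natCard _
    rw [hz] at h1
    have := Nat.Coprime.eq_one_of_dvd hodd.symm h1
    omega
  · obtain ⟨z, hzC, hzc, hz⟩ := exists_central_in_normal S.2 (C.subgroupOf (S : Subgroup G)) hCS
    rw [eq_bot_iff]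
    intro y hy
    rw [Subgroup.mem_bot]
    refine fix hG S (z : G) (by rw [Subgroup.orderOf_coe, hz]) ?_ y hy ?_
    · intro s hs
      have := Subgroup.mem_center_iff.mp hzc ⟨s, hs⟩
      exact congrArg Subtype.val this
    · have : (z : G) ∈ C := hzC
      exact Subgroup.mem_centralizer_iff.mp this y hy

end Cfsg.Agent.S2898
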