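import Cfsg.Statements.S2905
import Cfsg.Agent.H48.PMin

set_option autoImplicit false
open Cfsg

namespace Cfsg.Agent.S2905

open Cfsg.Agent.H48 Cfsg.Agent.H47
open scoped Pointwise

variable {P : Type*} [Group P] [Finite P] {p : ℕ} [Fact p.Prime]

/-- For every prime `t ≠ p`, either `M` contains a full Sylow `t`-subgroup or `|P|` involves only `p` and `t`. -/
theorem aux (hP : Cfsg.IsPMinimal p P) (S : Sylow p P) (M : Subgroup P) (hM : IsCoatom M)
    (hSM : (S : Subgroup P) ≤ M)
    (hT : ∀ T : Sylow p ↥(Cfsg.pResidual p P), (T : Subgroup ↥(Cfsg.pResidual p P)).Normal)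
    (t : ℕ) [ht : Fact t.Prime] (htp : t ≠ p) :
    (∃ R : Sylow t P, (R : Subgroup P) ≤ M) ∨ (Nat.card P).primeFactors ⊆ {p, t} := by
  have hp := (Fact.out : p.Prime)
  set K := Cfsg.pResidual p P with hK
  have hKn : K.Normal := pResidual_normal p
  obtain ⟨T⟩ : Nonempty (Sylow p K) := inferInstance
  have hTn := hT T
  have hTc := Sylow.characteristic_of_normal T hTn
  set Q := (T : Subgroup K).map K.subtype with hQ
  have hQn : Q.Normal := ConjAct.normal_of_characteristic_of_normal
  have hQK : Q ≤ K := Subgroup.map_subtype_le _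
  have hQp : IsPGroup p Q := T.2.map _
  obtain ⟨R⟩ : Nonempty (Sylow t P) := inferInstance
  have hRK : (R : Subgroup P) ≤ K := by
    intro x hx
    apply Subgroup.subset_closure
    obtain ⟨k, hk⟩ := R.2 ⟨x, hx⟩
    have h1 : x ^ t ^ k = 1 := congrArg Subtype.val hk
    have h2 : orderOf x ∣ t ^ k := orderOf_dvd_of_pow_eq_one h1
    exact Nat.Coprime.coprime_dvd_left h2 (Nat.Coprime.pow_left _ ((Nat.coprime_primes ht.out hp).mpr htp))
  set X := (R : Subgroup P) ⊔ Q with hX
  set N := Subgroup.normalizer (X : Set P) with hN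
  have hNRN : Subgroup.normalizer ((R : Subgroup P) : Set P) ≤ N := by
    exact le_normalizer_sup le_rfl Subgroup.le_normalizer_of_normal
  have hNK : N ⊔ K = ⊤ := by
    rw [eq_top_iff, ← Sylow.normalizer_sup_eq_top' R hRK]
    exact sup_le_sup_right hNRN K
  have hQN : Q ≤ K ⊓ N := le_inf hQK (le_sup_right.trans Subgroup.le_normalizer)
  have hidx := index_mul_card_inf_of_sup_eq_top hNK
  have hpN : ¬ p ∣ N.index := by
    intro hdvd
    apply T.not_dvd_index
    obtain ⟨c, hc⟩ := Subgroup.card_dvd_of_le hQN
    have h1 : Nat.card Q = Nat.card T := Subgroup.card_map_of_injective K.subtype_injective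
    have h2 := Subgroup.index_mul_card (T : Subgroup K)
    rw [← hidx, hc, h1] at h2
    have h3 : (T : Subgroup K).index = N.index * c := by
      apply Nat.eq_of_mul_eq_mul_right (Nat.card_pos (α := T))
      rw [h2]; ring
    rw [h3]
    exact hdvd.mul_right c
  obtain ⟨g, hg⟩ := exists_conj_le_of_not_dvd_index S.2 N hpN
  -- conjugate
  set X' := MulAut.conj g • X with hX'
  have hSX' : (S : Subgroup P) ≤ Subgroup.normalizer (X' : Set P) := by
    intro s hs
    have h1 := hg s hs
    rw [hN, Subgroup.mem_normalizer_iff] at h1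
    rw [Subgroup.mem_normalizer_iff]
    intro h
    have e1 : h ∈ X' ↔ g⁻¹ * h * g ∈ X := by
      rw [hX', Subgroup.mem_pointwise_smul_iff_inv_smul_mem]
      simp [MulAut.smul_def, mul_assoc]
    have e2 : s * h * s⁻¹ ∈ X' ↔ g⁻¹ * (s * h * s⁻¹) * g ∈ X := by
      rw [hX', Subgroup.mem_pointwise_smul_iff_inv_smul_mem]
      simp [MulAut.smul_def, mul_assoc]
    rw [e1, e2, h1]
    have e3 : g⁻¹ * s * g * (g⁻¹ * h * g) * (g⁻¹ * s * g)⁻¹ = g⁻¹ * (s * h * s⁻¹) * g := by group
    rw [e3]
  have hRX' : ((g • R : Sylow t P) : Subgroup P) ≤ X' := by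
    rw [Sylow.coe_subgroup_smul, hX']
    exact Subgroup.pointwise_smul_le_pointwise_smul_iff.mpr le_sup_left
  rcases PMin.eq_top_or_le hP S M hM hSM (X := (S : Subgroup P) ⊔ X') le_sup_left with h | h
  · right
    have hXc : Nat.card X' = Nat.card X := by
      rw [hX']
      exact (Nat.card_congr (Subgroup.equivSMul (MulAut.conj g) X).toEquiv).symm
    -- |P| divides |S| |X'|
    have h1 : (Nat.card P).primeFactors ⊆ (Nat.card S * Nat.card X').primeFactors := by
      apply Nat.primeFactors_mono
      · have h2 : Nat.card ↥((S : Subgroup P) ⊔ X') ∣ Nat.card S * Nat.card X' := by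
          have h3 := Subgroup.card_dvd_of_le (show X' ≤ (S : Subgroup P) ⊔ X' from le_sup_right)
          have h4 : Nat.card X' * X'.relIndex ((S : Subgroup P) ⊔ X') = Nat.card ↥((S : Subgroup P) ⊔ X') := by
            have := Subgroup.relIndex_mul_relIndex (⊥ : Subgroup P) X' ((S : Subgroup P) ⊔ X') bot_le le_sup_right
            simpa [Subgroup.relIndex_bot_left] using this
          have hX'n : X'.Normal := by
            rw [← Subgroup.normalizer_eq_top_iff, eq_top_iff, ← h]
            exact sup_le hSX' Subgroup.le_normalizer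
          have h5 : X'.relIndex ((S : Subgroup P) ⊔ X') = X'.relIndex S := Subgroup.relIndex_sup_right _ _
          rw [← h4, h5, mul_comm]
          exact mul_dvd_mul_right (Subgroup.relIndex_dvd_card _ _) _
        rw [h, Subgroup.card_top] at h2
        exact h2
      · exact mul_ne_zero Nat.card_pos.ne' Nat.card_pos.ne'
    refine h1.trans ?_
    intro q hq
    rw [Nat.mem_primeFactors] at hq
    obtain ⟨hqp, hqd, -⟩ := hq
    rw [Finset.mem_insert, Finset.mem_singleton]
    have hpow : ∀ (r : ℕ) [Fact r.Prime] (Y : Subgroup P), IsPGroup r Y → q ∣ Nat.card Y → q = r := by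
      intro r hr Y hY hd
      obtain ⟨k, hk⟩ := hY.exists_card_eq
      rw [hk] at hd
      exact (Nat.prime_dvd_prime_iff_eq hqp hr.out).mp (hqp.dvd_of_dvd_pow hd)
    rcases (Nat.Prime.dvd_mul hqp).mp hqd with h6 | h6
    · exact Or.inl (hpow p S S.2 h6)
    · rw [hXc] at h6
      have h7 : Nat.card X ∣ Nat.card R * Nat.card Q := by
        have h4 : Nat.card Q * Q.relIndex X = Nat.card X := by
          have := Subgroup.relIndex_mul_relIndex (⊥ : Subgroup P) Q X bot_le le_sup_right
          simpa [Subgroup.relIndex_bot_left] using this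
        rw [← h4, hX, Subgroup.relIndex_sup_right, mul_comm]
        exact mul_dvd_mul_right (Subgroup.relIndex_dvd_card _ _) _
      rcases (Nat.Prime.dvd_mul hqp).mp (h6.trans h7) with h8 | h8
      · exact Or.inr (hpow t R R.2 h8)
      · exact Or.inl (hpow p Q hQp h8)
  · left
    exact ⟨g • R, hRX'.trans (le_sup_right.trans h)⟩

/-- Let P be a finite p-minimal group (a Sylow p-subgroup S is not normal and lies in a unique maximal subgroup M of P) and let F be the normal core of M. Then: every subnormal subgroup N of P contained in M satisfies N ∩ S ≤ O_p(P); if O^p(P) has a normal Sylow p-subgroup then the order of P has at most two prime divisors; every normal subgroup N of P either contains O^p(P) or is contained in F; and O^p(P)F ⧸ F is a minimal normal subgroup of P ⧸ F. -/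
theorem result {P : Type*} [Group P] [Finite P] {p : ℕ} [Fact p.Prime] (hP : Cfsg.IsPMinimal p P) (S : Sylow p P) (M : Subgroup P) (hM : IsCoatom M) (hSM : (S : Subgroup P) ≤ M) [hF : M.normalCore.Normal] : (∀ N : Subgroup P, N.IsSubnormal → N ≤ M → N ⊓ (S : Subgroup P) ≤ Cfsg.pCore p P) ∧ ((∀ T : Sylow p ↥(Cfsg.pResidual p P), (T : Subgroup ↥(Cfsg.pResidual p P)).Normal) → (Nat.card P).primeFactors.card ≤ 2) ∧ (∀ N : Subgroup P, N.Normal → Cfsg.pResidual p P ≤ N ∨ N ≤ M.normalCore) ∧ (∀ N : Subgroup P, N.Normal → M.normalCore ≤ N → N ≤ Cfsg.pResidual p P ⊔ M.normalCore → N = M.normalCore ∨ N = Cfsg.pResidual p P ⊔ M.normalCore) ∧ M.normalCore < Cfsg.pResidual p P ⊔ M.normalCore := by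
  refine ⟨?_, ?_, ?_, ?_, ?_⟩
  · intro N hN hNM
    have h1 := PMin.subnormal_inf_le hP S M hM hSM hN hNM
    exact (inf_le_inf_right _ h1).trans (PMin.normal_inf_le hP S M hM hSM hF (Subgroup.normalCore_le M))
  · intro hT
    by_contra hcard
    have hall : ∀ t : ℕ, t.Prime → ∃ R : Sylow t P, (R : Subgroup P) ≤ M := by
      intro t ht
      haveI := Fact.mk ht
      by_cases htp : t = p
      · subst htp
        exact ⟨S, hSM⟩
      · rcases aux hP S M hM hSM hT t htp with h | h
        · exact h
        · exfalso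
          apply hcard
          exact (Finset.card_le_card h).trans (Finset.card_le_two)
    apply hM.1
    rw [← Subgroup.index_eq_one]
    by_contra hne
    obtain ⟨t, ht, htd⟩ := Nat.exists_prime_and_dvd hne
    haveI := Fact.mk ht
    obtain ⟨R, hR⟩ := hall t ht
    exact R.not_dvd_index (htd.trans (Subgroup.index_dvd_of_le hR))
  · intro N hN
    exact PMin.pResidual_le_or hP S M hM hSM hN
  · intro N hN hle hle2
    rcases PMin.pResidual_le_or hP S M hM hSM hN with h | h
    · right
      exact le_antisymm hle2 (sup_le h hle)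
    · left
      exact le_antisymm h hle
  · apply lt_of_le_of_ne le_sup_right
    intro h
    apply PMin.not_pResidual_le hP S M hM hSM
    have h1 : Cfsg.pResidual p P ≤ M.normalCore := by
      rw [h]; exact le_sup_left
    exact h1.trans (Subgroup.normalCore_le M)

end Cfsg.Agent.S2905
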