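import Cfsg.Statements.S2906
import Cfsg.Agent.H48.PMin2

set_option autoImplicit false
open Cfsg

namespace Cfsg.Agent.S2906

open Cfsg.Agent.H48 Cfsg.Agent.H47 Subgroup
open scoped commutatorElement

universe u

section
variable {P : Type u} [Group P] [Finite P] {p : ℕ} [Fact p.Prime]

theorem not_nil_of_component {K N : Subgroup P} (hK : Cfsg.IsComponent K) (hKN : K ≤ N)
    (hN : Group.IsNilpotent N) : False := by
  apply FStar.not_isSolvable_of_isQuasisimple hK.2
  have h1 : Group.IsSolvable N := inferInstance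
  exact Cfsg.Agent.Cop.isSolvable_of_le hKN h1

/-- the core of `M` is nilpotent. -/
theorem core_nilpotent (hP : Cfsg.IsPMinimal p P) (hOp : Cfsg.pCore p P = ⊥) (S : Sylow p P) (M : Subgroup P)
    (hM : IsCoatom M) (hSM : (S : Subgroup P) ≤ M) : Group.IsNilpotent M.normalCore := by
  apply PMin.isNilpotent_of_normal hP
  have h1 := PMin.normal_inf_le hP S M hM hSM (N := M.normalCore) inferInstance (normalCore_le M)
  rw [hOp, le_bot_iff] at h1
  have h2 : SylIn p ((S : Subgroup P) ⊓ M.normalCore) M.normalCore :=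
    (sylIn_top S).inf_normal le_top le_normalizer_of_normal
  rw [inf_comm, h1] at h2
  have h3 := h2.not_dvd_index
  rwa [relIndex_bot_left] at h3

theorem component_not_le (hP : Cfsg.IsPMinimal p P) (hOp : Cfsg.pCore p P = ⊥) (S : Sylow p P) (M : Subgroup P)
    (hM : IsCoatom M) (hSM : (S : Subgroup P) ≤ M) {K : Subgroup P} (hK : Cfsg.IsComponent K) : ¬ K ≤ M := by
  intro h
  exact not_nil_of_component hK (PMin.subnormal_inf_le hP S M hM hSM hK.1 h) (core_nilpotent hP hOp S M hM hSM)

theorem pResidual_eq_layer (hP : Cfsg.IsPMinimal p P) (hOp : Cfsg.pCore p P = ⊥) (S : Sylow p P) (M : Subgroup P)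
    (hM : IsCoatom M) (hSM : (S : Subgroup P) ≤ M) {K : Subgroup P} (hK : Cfsg.IsComponent K) :
    Cfsg.pResidual p P = Cfsg.layer P := by
  apply le_antisymm
  · rcases PMin.pResidual_le_or hP S M hM hSM (N := Cfsg.layer P) inferInstance with h | h
    · exact h
    · exfalso
      exact component_not_le hP hOp S M hM hSM hK
        ((FStar.component_le_layer hK).trans (h.trans (normalCore_le M)))
  · rw [FStar.layer_le_iff]
    intro L hL
    apply FStar.le_of_pResidual_eq_top (p := p) (FStar.pResidual_eq_top_of_component hL.2)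
    intro b _ hb
    exact Subgroup.subset_closure hb

theorem fstar_eq (hOp : Cfsg.pCore p P = ⊥) (h : Cfsg.pResidual p P = Cfsg.layer P) :
    Cfsg.generalizedFittingSubgroup P = Cfsg.layer P := by
  rw [Cfsg.generalizedFittingSubgroup, sup_eq_left, ← h, Solv.fitting_eq_iSup_pCore]
  apply iSup_le
  intro q
  by_cases hq : (q : ℕ) = p
  · rw [hq, hOp]; exact bot_le
  · intro x hx
    apply Subgroup.subset_closure
    obtain ⟨k, hk⟩ := (Solv.pCore_isPGroup (G := P) (q : ℕ)) ⟨x, hx⟩
    have h1 : x ^ (q : ℕ) ^ k = 1 := congrArg Subtype.val hk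
    exact Nat.Coprime.coprime_dvd_left (orderOf_dvd_of_pow_eq_one h1)
      (Nat.Coprime.pow_left _ ((Nat.coprime_primes q.2 Fact.out).mpr hq))

/-- join of `S`-conjugates -/
def joinConj (S X : Subgroup P) : Subgroup P := ⨆ s : ↥S, X.map (MulAut.conj (s : P)).toMonoidHom

omit [Finite P] in
theorem le_joinConj (S X : Subgroup P) : X ≤ joinConj S X := by
  have := le_iSup (fun s : ↥S => X.map (MulAut.conj (s : P)).toMonoidHom) 1
  refine le_trans ?_ this
  simp only [OneMemClass.coe_one]
  rw [map_conj_one]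

omit [Finite P] in
theorem le_normalizer_joinConj (S X : Subgroup P) : S ≤ normalizer (joinConj S X : Set P) := by
  have key : ∀ t ∈ S, (joinConj S X).map (MulAut.conj t).toMonoidHom ≤ joinConj S X := by
    intro t ht
    unfold joinConj
    rw [Subgroup.map_iSup]
    apply iSup_le
    intro s
    rw [← map_conj_mul]
    exact le_iSup (fun s : ↥S => X.map (MulAut.conj (s : P)).toMonoidHom) (⟨t, ht⟩ * s)
  intro t ht
  rw [mem_normalizer_iff_map_conj]
  apply le_antisymm (key t ht)
  have h1 := key t⁻¹ (inv_mem ht)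
  have h2 := Subgroup.map_mono (f := (MulAut.conj t).toMonoidHom) h1
  rwa [← map_conj_mul, mul_inv_cancel, map_conj_one] at h2

/-- dichotomy for `joinConj`. -/
theorem joinConj_le_or (hP : Cfsg.IsPMinimal p P) (S : Sylow p P) (M : Subgroup P)
    (hM : IsCoatom M) (hSM : (S : Subgroup P) ≤ M) (X : Subgroup P) :
    joinConj (S : Subgroup P) X ≤ M ∨ Cfsg.pResidual p P ≤ joinConj (S : Subgroup P) X := by
  rcases PMin.eq_top_or_le hP S M hM hSM (X := (S : Subgroup P) ⊔ joinConj (S : Subgroup P) X) le_sup_left with h | h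
  · have hn : (joinConj (S : Subgroup P) X).Normal := by
      rw [← normalizer_eq_top_iff, eq_top_iff, ← h]
      exact sup_le (le_normalizer_joinConj _ _) le_normalizer
    rcases PMin.pResidual_le_or hP S M hM hSM hn with h1 | h1
    · exact Or.inr h1
    · exact Or.inl (h1.trans (normalCore_le M))
  · exact Or.inl (le_sup_right.trans h)

theorem layer_eq_joinConj (hP : Cfsg.IsPMinimal p P) (hOp : Cfsg.pCore p P = ⊥) (S : Sylow p P) (M : Subgroup P)
    (hM : IsCoatom M) (hSM : (S : Subgroup P) ≤ M) {K : Subgroup P} (hK : Cfsg.IsComponent K) :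
    Cfsg.layer P = joinConj (S : Subgroup P) K := by
  apply le_antisymm
  · rcases joinConj_le_or hP S M hM hSM K with h | h
    · exact absurd ((le_joinConj _ _).trans h) (component_not_le hP hOp S M hM hSM hK)
    · rwa [pResidual_eq_layer hP hOp S M hM hSM hK] at h
  · apply iSup_le
    intro s
    exact FStar.component_le_layer ((FStar.isComponent_conj (s : P)).mpr hK)

/-- The key claim: proper overgroups of `T = N_S(K)` in `KT` are in `M`. -/
theorem le_of_ne (hP : Cfsg.IsPMinimal p P) (hOp : Cfsg.pCore p P = ⊥) (S : Sylow p P) (M : Subgroup P)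
    (hM : IsCoatom M) (hSM : (S : Subgroup P) ≤ M) {K : Subgroup P} (hK : Cfsg.IsComponent K)
    (X : Subgroup P) (hTX : (S : Subgroup P) ⊓ normalizer (K : Set P) ≤ X)
    (hXW : X ≤ K ⊔ ((S : Subgroup P) ⊓ normalizer (K : Set P)))
    (hne : ¬ K ≤ X) : X ≤ M := by
  set T := (S : Subgroup P) ⊓ normalizer (K : Set P) with hT
  have hTK : T ≤ normalizer (K : Set P) := inf_le_right
  have hXK : X ⊓ K ≤ M := by
    rcases joinConj_le_or hP S M hM hSM (X ⊓ K) with h | h
    · exact (le_joinConj _ _).trans h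
    · exfalso
      apply hne
      rw [pResidual_eq_layer hP hOp S M hM hSM hK] at h
      have h1 : K ≤ joinConj (S : Subgroup P) (X ⊓ K) := (FStar.component_le_layer hK).trans h
      have hWn : X ⊓ K ≤ normalizer (centralizer (K : Set P) : Set P) :=
        (inf_le_right.trans le_normalizer).trans (normalizer_le_normalizer_centralizer K)
      have h2 : joinConj (S : Subgroup P) (X ⊓ K) ≤ (X ⊓ K) ⊔ centralizer (K : Set P) := by
        apply iSup_le
        rintro ⟨s, hs⟩
        by_cases hsK : s ∈ normalizer (K : Set P)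
        · have hsT : s ∈ T := ⟨hs, hsK⟩
          have hsX : s ∈ normalizer ((X ⊓ K : Subgroup P) : Set P) :=
            le_normalizer_inf (L := T) (hTX.trans le_normalizer) hTK hsT
          rw [norm_map_conj hsX]
          exact le_sup_left
        · refine le_trans ?_ le_sup_right
          have h3 : K.map (MulAut.conj s).toMonoidHom ≠ K := fun h => hsK (mem_normalizer_of_map_conj h)
          have h4 := FStar.component_commute ((FStar.isComponent_conj s).mpr hK) hK h3
          rw [commutator_eq_bot_iff_le_centralizer] at h4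
          exact (Subgroup.map_mono inf_le_right).trans h4
      have h3 : K ≤ (X ⊓ K) ⊔ centralizer (K : Set P) := h1.trans h2
      rw [← FStar.commutator_self hK.2, commutator_le]
      intro k hk k' hk'
      have e1 := h3 hk
      have e2 := h3 hk'
      rw [H47.mem_sup_of_le_normalizer hWn] at e1 e2
      obtain ⟨a, ha, c, hc, rfl⟩ := e1
      obtain ⟨a', ha', c', hc', rfl⟩ := e2
      have f1 : c * (a' * c') = (a' * c') * c := ((mem_centralizer_iff.mp hc) _ hk').symm
      have f2 : c' * a = a * c' := ((mem_centralizer_iff.mp hc') _ ha.2).symm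
      have f3 : ⁅a * c, a' * c'⁆ = ⁅a, a'⁆ := by
        rw [commutatorElement_def, commutatorElement_def]
        calc a * c * (a' * c') * (a * c)⁻¹ * (a' * c')⁻¹
            = a * (c * (a' * c')) * c⁻¹ * a⁻¹ * (a' * c')⁻¹ := by group
          _ = a * a' * (c' * a⁻¹) * c'⁻¹ * a'⁻¹ := by rw [f1]; group
          _ = a * a' * (a⁻¹ * (a * c') * a⁻¹) * c'⁻¹ * a'⁻¹ := by group
          _ = a * a' * a⁻¹ * a'⁻¹ := by rw [← f2]; group
      rw [f3]
      exact Subgroup.commutator_le_self X (commutator_mem_commutator ha.1 ha'.1)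
  intro x hx
  have h1 := hXW hx
  rw [sup_comm, mem_sup_of_le_normalizer' hTK] at h1
  obtain ⟨k, hk, t, ht, rfl⟩ := h1
  have hkX : k ∈ X := by
    have := mul_mem hx (inv_mem (hTX ht))
    simpa using this
  exact mul_mem (hXK ⟨hkX, hk⟩) (hSM ht.1)

end

/-- Let P be a finite p-minimal group with O_p(P) = 1, S a Sylow p-subgroup of P and K a component of P. Then O^p(P) = F*(P) = E(P) is generated by the S-conjugates of K, and the subgroup K·N_S(K) is again p-minimal. -/
theorem result {P : Type*} [Group P] [Finite P] {p : ℕ} [Fact p.Prime] (hP : Cfsg.IsPMinimal p P) (hOp : Cfsg.pCore p P = ⊥) (S : Sylow p P) (K : Subgroup P) (hK : Cfsg.IsComponent K) : Cfsg.pResidual p P = Cfsg.generalizedFittingSubgroup P ∧ Cfsg.generalizedFittingSubgroup P = Cfsg.layer P ∧ Cfsg.layer P = ⨆ s : ↥(S : Subgroup P), K.map (MulAut.conj (s : P)).toMonoidHom ∧ Cfsg.IsPMinimal p ↥(K ⊔ ((S : Subgroup P) ⊓ Subgroup.normalizer (K : Set P))) := by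
  obtain ⟨M, ⟨hM, hSM⟩, -⟩ := (hP S).2
  have hlay := pResidual_eq_layer hP hOp S M hM hSM hK
  have hfs := fstar_eq hOp hlay
  refine ⟨hlay.trans hfs.symm, hfs, layer_eq_joinConj hP hOp S M hM hSM hK, ?_⟩
  set T := (S : Subgroup P) ⊓ normalizer (K : Set P) with hT
  set W := K ⊔ T with hW
  have hTK : T ≤ normalizer (K : Set P) := inf_le_right
  have hTW : T ≤ W := le_sup_right
  have hKW : K ≤ W := le_sup_left
  have hTp : IsPGroup p T := S.2.to_le inf_le_left
  have hSK : SylIn p ((S : Subgroup P) ⊓ K) K := (sylIn_top S).inf_subnormal hK.1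
  have hSKT : (S : Subgroup P) ⊓ K ≤ T := inf_le_inf_left _ le_normalizer
  -- T is Sylow in W
  have hTS : SylIn p T W := by
    obtain ⟨T', hT', hTT'⟩ := SylIn.exists_of_le hTW hTp
    have h1 : T' ⊓ K = (S : Subgroup P) ⊓ K := by
      apply hSK.eq_of_le inf_le_right (hT'.isPGroup.to_le inf_le_left)
      exact le_inf (hSKT.trans hTT') inf_le_right
    have h2 : T' ≤ T := by
      intro x hx
      have h3 := hT'.le hx
      rw [hW, sup_comm, mem_sup_of_le_normalizer' hTK] at h3
      obtain ⟨k, hk, t, ht, rfl⟩ := h3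
      have hkT : k ∈ T' := by
        have := mul_mem hx (inv_mem (hTT' ht))
        simpa using this
      have hk2 : k ∈ (S : Subgroup P) ⊓ K := h1 ▸ (⟨hkT, hk⟩ : k ∈ T' ⊓ K)
      exact mul_mem (hSKT hk2) ht
    rwa [le_antisymm hTT' h2]
  obtain ⟨S₀, hS₀⟩ := hTS.subgroupOf
  have hKM : ¬ K ≤ M := component_not_le hP hOp S M hM hSM hK
  have hkey : ∀ X : Subgroup W, (S₀ : Subgroup W) ≤ X → X ≠ ⊤ → X ≤ M.subgroupOf W := by
    intro X hX hXt
    have h1 : T ≤ X.map W.subtype := by
      intro t ht
      refine ⟨⟨t, hTW ht⟩, hX ?_, rfl⟩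
      rw [hS₀]
      exact ht
    have h2 := le_of_ne hP hOp S M hM hSM hK (X.map W.subtype) h1 (map_subtype_le X) (by
      intro h3
      apply hXt
      rw [eq_top_iff]
      intro w _
      have h4 : W ≤ X.map W.subtype := sup_le h3 h1
      obtain ⟨y, hy, hyw⟩ := h4 w.2
      have : y = w := Subtype.ext hyw
      exact this ▸ hy)
    rwa [Subgroup.subgroupOf, ← map_le_iff_le_comap]
  apply isPMinimal_of_sylow S₀ ?_ (M.subgroupOf W) ?_ ?_ hkey
  · -- not normal
    intro hn
    rw [hS₀, normal_subgroupOf_iff_le_normalizer hTW] at hn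
    have hSKn : K ≤ normalizer (((S : Subgroup P) ⊓ K : Subgroup P) : Set P) := by
      have h1 : T ⊓ K = (S : Subgroup P) ⊓ K :=
        le_antisymm (inf_le_inf_right _ inf_le_left) (le_inf hSKT inf_le_right)
      rw [← h1]
      exact le_normalizer_inf (hKW.trans hn) le_normalizer
    have h2 : (S : Subgroup P) ⊓ K = ⊥ := by
      rw [eq_bot_iff, ← hOp]
      refine le_trans (le_pCoreOf inf_le_right hSKn hSK.isPGroup) ?_
      exact pCoreOf_le_of_isSubnormal hK.1
    rw [h2] at hSK
    have h3 := hSK.not_dvd_index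
    rw [relIndex_bot_left] at h3
    have h4 := le_pPrimeCore_of_isSubnormal hK.1 h3
    exact not_nil_of_component hK h4 (PMin.isNilpotent_of_normal hP _ (not_dvd_card_pPrimeCore p P))
  · constructor
    · intro h
      rw [subgroupOf_eq_top] at h
      exact hKM (hKW.trans h)
    · intro X hX
      by_contra hXt
      have hSX : (S₀ : Subgroup W) ≤ X := by
        refine le_trans ?_ hX.le
        rw [hS₀]
        intro x hx
        exact hSM (inf_le_left (a := (S : Subgroup P)) hx)
      exact (hkey X hSX hXt).not_gt hX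
  · rw [hS₀]
    intro x hx
    exact hSM (inf_le_left (a := (S : Subgroup P)) hx)

end Cfsg.Agent.S2906
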