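import Cfsg.Statements.S2907
import Cfsg.Agent.H48.Basic

set_option autoImplicit false
open Cfsg

namespace Cfsg.Agent.S2907

/-- Let X be a finite semi-extraspecial p-group and x an element of X outside the centre. Then the index of C_X(x) in X equals the order of Z(X), and the commutators [x, y], y ∈ X, form exactly the centre Z(X). -/
theorem result {X : Type*} [Group X] [Finite X] {p : ℕ} [Fact p.Prime] (hX : Cfsg.IsSemiExtraspecial p X) (x : X) (hx : x ∉ Subgroup.center X) : (Subgroup.centralizer ({x} : Set X)).index = Nat.card ↥(Subgroup.center X) ∧ {z : X | ∃ y : X, z = x * y * x⁻¹ * y⁻¹} = (Subgroup.center X : Set X) := by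
  obtain ⟨⟨hp, hfr, hcomm⟩, hY⟩ := hX
  set Z := Subgroup.center X with hZ
  have hcz : ∀ a b : X, a * b * a⁻¹ * b⁻¹ ∈ Z := by
    intro a b
    rw [← hcomm]
    exact Subgroup.commutator_mem_commutator (Subgroup.mem_top a) (Subgroup.mem_top b)
  -- commutator with x is a homomorphism
  let f : X →* X :=
    { toFun := fun y => x * y * x⁻¹ * y⁻¹
      map_one' := by group
      map_mul' := by
        intro a b
        have h1 := Subgroup.mem_center_iff.mp (hcz x b) a
        calc x * (a * b) * x⁻¹ * (a * b)⁻¹ = (x * a * x⁻¹) * (x * b * x⁻¹ * b⁻¹) * a⁻¹ := by group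
          _ = (x * a * x⁻¹) * (a⁻¹ * a * (x * b * x⁻¹ * b⁻¹)) * a⁻¹ := by group
          _ = (x * a * x⁻¹) * (a⁻¹ * (a * (x * b * x⁻¹ * b⁻¹))) * a⁻¹ := by group
          _ = (x * a * x⁻¹) * (a⁻¹ * ((x * b * x⁻¹ * b⁻¹) * a)) * a⁻¹ := by rw [h1]
          _ = x * a * x⁻¹ * a⁻¹ * (x * b * x⁻¹ * b⁻¹) := by group }
  have hfapp : ∀ y, f y = x * y * x⁻¹ * y⁻¹ := fun y => rfl
  have hker : f.ker = Subgroup.centralizer ({x} : Set X) := by
    ext y
    rw [MonoidHom.mem_ker, hfapp, Subgroup.mem_centralizer_singleton_iff]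
    constructor
    · intro h
      have : x * y = y * x := by
        calc x * y = (x * y * x⁻¹ * y⁻¹) * (y * x) := by group
          _ = y * x := by rw [h, one_mul]
      exact this.symm
    · intro h
      rw [← h]; group
  have hrle : f.range ≤ Z := by
    rintro _ ⟨y, rfl⟩
    exact hcz x y
  have hrange : f.range = Z := by
    by_contra hne
    have hlt : (f.range.subgroupOf Z) ≠ ⊤ := by
      intro h
      apply hne
      apply le_antisymm hrle
      rw [Subgroup.subgroupOf_eq_top] at h
      exact h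
    obtain ⟨M, hM, hle⟩ := (eq_top_or_exists_le_coatom (f.range.subgroupOf Z)).resolve_left hlt
    -- Y = image of M in X
    have hMY : (M.map Z.subtype).subgroupOf Z = M := by
      rw [Subgroup.subgroupOf, Subgroup.comap_map_eq_self_of_injective Z.subtype_injective]
    obtain ⟨hYn, hext⟩ := hY (M.map Z.subtype) (Subgroup.map_subtype_le M) (by rw [hMY]; exact hM)
    set Y := M.map Z.subtype with hYdef
    have hrY : f.range ≤ Y := by
      intro w hw
      exact ⟨⟨w, hrle hw⟩, hle hw, rfl⟩
    -- image of x is central in X/Y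
    have hxc : (QuotientGroup.mk x : X ⧸ Y) ∈ Subgroup.center (X ⧸ Y) := by
      rw [Subgroup.mem_center_iff]
      intro g
      induction g using QuotientGroup.induction_on with
      | H g =>
      rw [← QuotientGroup.mk_mul, ← QuotientGroup.mk_mul, QuotientGroup.eq]
      have h1 : f g ∈ Y := hrY ⟨_, rfl⟩
      rw [hfapp] at h1
      have h2 : (g * x)⁻¹ * (x * g) = (g * x)⁻¹ * (x * g * x⁻¹ * g⁻¹) * (g * x)⁻¹⁻¹ := by
        group
      rw [h2]
      exact hYn.conj_mem _ h1 _
    have hcardc : Nat.card (Subgroup.center (X ⧸ Y)) = p := hext.2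
    -- Z/Y is in the centre of X/Y
    have hZmap : Z.map (QuotientGroup.mk' Y) ≤ Subgroup.center (X ⧸ Y) := by
      rintro _ ⟨z, hz, rfl⟩
      rw [Subgroup.mem_center_iff]
      intro g
      induction g using QuotientGroup.induction_on with
      | H g =>
      have := Subgroup.mem_center_iff.mp hz g
      exact congrArg (QuotientGroup.mk' Y) this
    have hZne : Z.map (QuotientGroup.mk' Y) ≠ ⊥ := by
      intro h0
      apply hM.1
      rw [eq_top_iff]
      intro z _
      rw [← hMY]
      have h1 : (QuotientGroup.mk' Y) (z : X) ∈ Z.map (QuotientGroup.mk' Y) := ⟨z, z.2, rfl⟩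
      rw [h0, Subgroup.mem_bot] at h1
      have h3 : (QuotientGroup.mk (z : X) : X ⧸ Y) = 1 := h1
      exact (QuotientGroup.eq_one_iff (N := Y) (z : X)).mp h3
    have heq : Z.map (QuotientGroup.mk' Y) = Subgroup.center (X ⧸ Y) := by
      apply Subgroup.eq_of_le_of_card_ge hZmap
      have h1 : Nat.card (Z.map (QuotientGroup.mk' Y)) ∣ p := by
        rw [← hcardc]; exact Subgroup.card_dvd_of_le hZmap
      rcases (Nat.dvd_prime (Fact.out : p.Prime)).mp h1 with h | h
      · exact absurd ((Subgroup.card_eq_one).mp h) hZne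
      · rw [hcardc, h]
    rw [← heq] at hxc
    obtain ⟨z, hz, hzx⟩ := hxc
    apply hx
    have h1 : (z⁻¹ * x) ∈ Y := QuotientGroup.eq.mp hzx
    have h2 := Z.mul_mem hz (Subgroup.map_subtype_le M h1)
    simpa using h2
  refine ⟨?_, ?_⟩
  · rw [← hker, Subgroup.index_ker, hrange]
  · ext z
    constructor
    · rintro ⟨y, rfl⟩
      exact hcz x y
    · intro hz
      have : z ∈ f.range := by rw [hrange]; exact hz
      obtain ⟨y, hy⟩ := this
      exact ⟨y, hy.symm⟩

end Cfsg.Agent.S2907
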