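import Cfsg.Statements.S2909
import Cfsg.Agent.H48.CopComm
import Cfsg.Agent.H91.GenCent
import Cfsg.Agent.H48.Basic

set_option autoImplicit false
open Cfsg

namespace Cfsg.Agent.S2909

open Cfsg.Agent.H47 Cfsg.Agent.H48 Cfsg.Agent.H91 Subgroup

/-- Let p be a prime, E a normal p-subgroup of the finite group G, and U a non-cyclic elementary abelian p-subgroup of G such that either C_E(U) = C_E(u) for every nontrivial u ∈ U, or [E, U] = [E, ⟨u⟩] for every nontrivial u ∈ U. If R is a subgroup of order prime to p normalized by U, then [R, U] centralizes E. -/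
theorem result {G : Type*} [Group G] [Finite G] {p : ℕ} [Fact p.Prime] (E : Subgroup G) [E.Normal] (hE : IsPGroup p ↥E) (U : Subgroup G) (hU : Cfsg.IsElementaryAbelian p U) (hnc : ¬ IsCyclic ↥U) (hcond : (∀ u ∈ U, u ≠ 1 → E ⊓ Subgroup.centralizer (U : Set G) = E ⊓ Subgroup.centralizer ({u} : Set G)) ∨ (∀ u ∈ U, u ≠ 1 → ⁅E, U⁆ = ⁅E, Subgroup.zpowers u⁆)) (R : Subgroup G) (hR : ¬ p ∣ Nat.card ↥R) (hRU : U ≤ Subgroup.normalizer (R : Set G)) : ⁅R, U⁆ ≤ Subgroup.centralizer (E : Set G) := by
  have hcomU : ∀ x ∈ U, ∀ y ∈ U, x * y = y * x := by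
    intro x hx y hy
    have := hU.1.is_comm.comm (⟨x, hx⟩ : U) ⟨y, hy⟩
    exact congrArg Subtype.val this
  have hUc : U ≤ centralizer (U : Set G) := by
    intro x hx
    rw [mem_centralizer_iff]
    intro y hy
    exact (hcomU x hx y hy).symm
  have := hU.1
  have hUp : IsPGroup p U := fun x => ⟨1, by rw [pow_one]; exact Subtype.ext (hU.2 x x.2)⟩
  have hzp : ∀ u ∈ U, zpowers u ≤ U := fun u hu => (zpowers_le).mpr hu
  have hR1R : ⁅R, U⁆ ≤ R := le_normalizer_iff_commutator_le_left.1 hRU
  set R1 := ⁅R, U⁆ with hR1
  have hUR1 : U ≤ normalizer (R1 : Set G) := normalizer_commutator_ge_right R U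
  have hcopR : (Nat.card U).Coprime (Nat.card R) := by
    obtain ⟨k, hk⟩ := hUp.exists_card_eq
    rw [hk]
    exact Nat.Coprime.pow_left _ ((Nat.Prime.coprime_iff_not_dvd Fact.out).mpr hR)
  have hR1' : ¬ p ∣ Nat.card R1 := fun h => hR (h.trans (card_dvd_of_le hR1R))
  have hcopR1 : (Nat.card U).Coprime (Nat.card R1) :=
    Nat.Coprime.coprime_dvd_right (card_dvd_of_le hR1R) hcopR
  have hgR := genCent_eq U R hnc hRU hcopR
  have hgR1 := genCent_eq U R1 hnc hUR1 hcopR1
  have hEn : ∀ X : Subgroup G, X ≤ normalizer (E : Set G) := fun X => le_normalizer_of_normal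
  have hmain : ∀ u ∈ U, u ≠ 1 → R1 ⊓ centralizer {u} ≤ centralizer (E : Set G) := by
    rcases hcond with hcond | hcond
    · -- D = C_E(U)
      set D := E ⊓ centralizer (U : Set G) with hD
      have hRD : R ≤ normalizer (D : Set G) := by
        rw [← hgR]
        refine iSup₂_le (fun u hu => ?_)
        rw [hcond u hu.1 hu.2]
        apply le_normalizer_inf (hEn _)
        intro x hx
        rw [mem_normalizer_iff]
        intro y
        have h1 : x * u = u * x := (mem_centralizer_singleton_iff.mp hx.2)
        have h2 : x⁻¹ * u = u * x⁻¹ := by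
          rw [inv_mul_eq_iff_eq_mul, ← mul_assoc, h1, mul_assoc, mul_inv_cancel, mul_one]
        rw [mem_centralizer_singleton_iff, mem_centralizer_singleton_iff]
        constructor
        · intro h
          calc x * y * x⁻¹ * u = x * y * (x⁻¹ * u) := by group
            _ = x * (y * u) * x⁻¹ := by rw [h2]; group
            _ = (x * u) * y * x⁻¹ := by rw [h]; group
            _ = u * (x * y * x⁻¹) := by rw [h1]; group
        · intro h
          calc y * u = x⁻¹ * (x * y * x⁻¹) * (x * u) := by group
            _ = x⁻¹ * ((x * y * x⁻¹) * u) * x := by rw [h1]; group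
            _ = (x⁻¹ * u) * (x * y * x⁻¹) * x := by rw [h]; group
            _ = u * y := by rw [h2]; group
      have hDR1 : R1 ≤ centralizer (D : Set G) := by
        rw [← commutator_eq_bot_iff_le_centralizer, hR1]
        apply commutator_commutator_eq_bot_of_rotate
        · have : ⁅U, D⁆ = ⊥ := by
            rw [commutator_eq_bot_iff_le_centralizer, le_centralizer_iff]
            exact inf_le_right
          rw [this, commutator_bot_left]
        · have : ⁅D, R⁆ ≤ D := le_normalizer_iff_commutator_le_left.1 hRD
          have h2 : ⁅D, U⁆ = ⊥ := by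
            rw [commutator_eq_bot_iff_le_centralizer]
            exact inf_le_right
          rw [← le_bot_iff, ← h2]
          exact commutator_mono this le_rfl
      intro u hu hu1
      have hQ : (Nat.card ↥(R1 ⊓ centralizer {u})).Coprime p := by
        rw [Nat.coprime_comm, Nat.Prime.coprime_iff_not_dvd Fact.out]
        exact fun h => hR1' (h.trans (card_dvd_of_le inf_le_left))
      refine (Cfsg.Agent.Cop.le_centralizer_of_AxB p (P := zpowers u) (Q := R1 ⊓ centralizer {u}) (U := E)
        (hUp.to_le (hzp u hu)) hQ hE ?_ (hEn _) (hEn _) ?_)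
      · rw [zpowers_le, mem_centralizer_iff]
        intro x hx
        exact mem_centralizer_singleton_iff.mp hx.2
      · have h3 : E ⊓ centralizer (zpowers u : Set G) ≤ D := by
          rw [hcond u hu hu1]
          apply inf_le_inf_left
          apply centralizer_le
          rintro x rfl
          exact mem_zpowers x
        refine h3.trans ?_
        rw [le_centralizer_iff]
        exact inf_le_left.trans hDR1
    · -- D = [E, U]
      set D := ⁅E, U⁆ with hD
      have hRD : R ≤ normalizer (D : Set G) := by
        rw [← hgR]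
        refine iSup₂_le (fun u hu => ?_)
        rw [hcond u hu.1 hu.2]
        apply le_normalizer_commutator (hEn _)
        refine le_trans ?_ (centralizer_le_normalizer _)
        rw [le_centralizer_iff, zpowers_le, mem_centralizer_iff]
        intro x hx
        exact mem_centralizer_singleton_iff.mp hx.2
      have hED : E ≤ normalizer (D : Set G) := normalizer_commutator_ge_left E U
      have hUD : U ≤ normalizer (D : Set G) := normalizer_commutator_ge_right E U
      have hER1 : ⁅E, R1⁆ ≤ D := by
        rw [commutator_comm, hR1]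
        apply three_subgroups_rel hRD hUD hED
        · rw [commutator_comm U E]
          exact le_normalizer_iff_commutator_le_left.1 hRD
        · exact commutator_mono (commutator_le_left E R) le_rfl
      intro u hu hu1
      rw [le_centralizer_iff, ← commutator_eq_bot_iff_le_centralizer]
      apply commutator_eq_bot_of_le_commutator (p := p) E (zpowers u) _ hE (hUp.to_le (hzp u hu))
        (fun h => hR1' (h.trans (card_dvd_of_le inf_le_left))) (hEn _) (hEn _)
      · rw [commutator_eq_bot_iff_le_centralizer, zpowers_le, mem_centralizer_iff]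
        intro x hx
        exact mem_centralizer_singleton_iff.mp hx.2
      · rw [← hcond u hu hu1]
        exact (commutator_mono le_rfl inf_le_left).trans hER1
  rw [← hgR1]
  exact iSup₂_le (fun u hu => hmain u hu.1 hu.2)

end Cfsg.Agent.S2909
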