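import Cfsg.Statements.S2910
import Cfsg.Agent.BG.OmegaOdd
import Cfsg.Agent.Transfer.Frobenius
import Cfsg.Agent.H48.Basic

set_option autoImplicit false
open Cfsg

namespace Cfsg.Agent.S2910

/-- Let p be an odd prime dividing the order of the finite group G and P a Sylow p-subgroup of G. If Ω₁(P) (generated by the elements of order dividing p) is contained in the centre of G, then G has a normal p-complement. In particular, if G is quasisimple then Ω₁(P) is not central in G. -/
theorem result {G : Type*} [Group G] [Finite G] {p : ℕ} [Fact p.Prime] (hp : p ≠ 2) (hdiv : p ∣ Nat.card G) (P : Sylow p G) (hZ : Cfsg.omegaOne p (P : Subgroup G) ≤ Subgroup.center G) : Cfsg.HasNormalPComplement p G ∧ ¬ Cfsg.IsQuasisimple G := by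
  have hp' := (Fact.out : p.Prime)
  -- elements of order dividing p are central
  have hcen : ∀ x : G, x ^ p = 1 → x ∈ Subgroup.center G := by
    intro x hx
    by_cases hx1 : x = 1
    · rw [hx1]; exact Subgroup.one_mem _
    have hxo : orderOf x = p := orderOf_eq_prime hx hx1
    obtain ⟨h, hh⟩ := Cfsg.Agent.H48.exists_conj_mem_sylow P x hxo
    have h1 : h * x * h⁻¹ ∈ Subgroup.center G := by
      apply hZ
      apply Subgroup.subset_closure
      refine ⟨hh, ?_⟩
      rw [conj_pow, hx]; group
    have h2 := Subgroup.Normal.conj_mem (inferInstance : (Subgroup.center G).Normal) _ h1 h⁻¹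
    have h3 : h⁻¹ * (h * x * h⁻¹) * h⁻¹⁻¹ = x := by group
    rwa [h3] at h2
  have hN : Cfsg.HasNormalPComplement p G := by
    apply Cfsg.Agent.Transfer.hasNPC_of_frobenius
    intro Q hQ g hg hgo
    have hA := Cfsg.Agent.BG.le_centralizer_of_omega1 hp (Subgroup.zpowers g)
      (by rw [Nat.card_zpowers]; exact hgo) (Nat.card Q) Q rfl hQ (by rw [Subgroup.zpowers_le]; exact hg)
      (fun x _ hx a _ => (Subgroup.mem_center_iff.mp (hcen x hx) a))
    exact hA (Subgroup.mem_zpowers g)
  refine ⟨hN, ?_⟩
  rintro ⟨hperf, -⟩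
  obtain ⟨N, hNn, hNc, k, hk⟩ := Cfsg.Agent.Transfer.hasNPC_iff_exists.mp hN
  have hQ : IsPGroup p (G ⧸ N) := IsPGroup.of_card (n := k) hk
  by_cases hNt : Nontrivial (G ⧸ N)
  · have := hQ.isNilpotent
    exact Group.IsPerfect.not_isNilpotent (G := G ⧸ N) inferInstance
  · rw [not_nontrivial_iff_subsingleton] at hNt
    have h1 : N = ⊤ := by
      rw [eq_top_iff]; intro x _
      exact (QuotientGroup.eq_one_iff x).mp (Subsingleton.elim _ _)
    rw [h1, Subgroup.card_top] at hNc
    exact hp'.ne_one (Nat.Coprime.eq_one_of_dvd hNc.symm hdiv)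

end Cfsg.Agent.S2910
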