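import Cfsg.Statements.S2912
import Cfsg.Agent.H20.ExtraRep

set_option autoImplicit false
open Cfsg

namespace Cfsg.Agent.S2912

/-- Let p and r be distinct primes, let E be an extraspecial subgroup of order p^(2w+1) of a finite group, and let A be an elementary abelian r-subgroup normalized by E on which E acts faithfully (C_E(A) = 1). If n ≥ 1 is least with p dividing rⁿ − 1 (the smallest dimension of a faithful representation of a group of order p over the field with r elements), then the order of A is at least r^(n·p^w). -/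
theorem result {G : Type*} [Group G] [Finite G] {p r : ℕ} [Fact p.Prime] [hr : Fact r.Prime] (hpr : p ≠ r) (E A : Subgroup G) (w : ℕ) (hE : Cfsg.IsExtraspecial p ↥E) (hEcard : Nat.card ↥E = p ^ (2 * w + 1)) (hA : Cfsg.IsElementaryAbelian r A) (hnorm : E ≤ Subgroup.normalizer (A : Set G)) (hfaith : E ⊓ Subgroup.centralizer (A : Set G) = ⊥) (n : ℕ) (hn : 1 ≤ n) (hdiv : p ∣ r ^ n - 1) (hmin : ∀ k : ℕ, 1 ≤ k → p ∣ r ^ k - 1 → n ≤ k) : r ^ (n * p ^ w) ≤ Nat.card ↥A := by
  have hG : Cfsg.Agent.Extra.GES p E := Cfsg.Agent.Extra.ges_of_isExtraspecial hE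
  letI : CommGroup A := { (inferInstance : Group A) with
    mul_comm := fun a b => hA.1.is_comm.comm a b }
  letI inst : Module (ZMod r) (Additive A) :=
    AddCommGroup.zmodModule (n := r) (G := Additive A) (fun x => Subtype.ext (hA.2 _ x.2))
  haveI hfin : Finite (Additive A) := inferInstanceAs (Finite A)
  let φ : E →* MulAut A := A.normalizerMonoidHom.comp (Subgroup.inclusion hnorm)
  let ρ : Representation (ZMod r) E (Additive A) :=
    { toFun := fun e => AddMonoidHom.toZModLinearMap r (MonoidHom.toAdditive (φ e).toMonoidHom)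
      map_one' := by
        apply LinearMap.ext
        intro x
        show (φ 1) x = x
        rw [map_one]
        rfl
      map_mul' := by
        intro a b
        apply LinearMap.ext
        intro x
        show (φ (a * b)) x = (φ a) ((φ b) x)
        rw [map_mul]
        rfl }
  have h1 := Cfsg.Agent.H20.ExtraRep.bound ρ hpr hmin w hG hEcard (by
    intro z _ hz
    have h2 : (z : G) ∈ E ⊓ Subgroup.centralizer (A : Set G) := by
      rw [Subgroup.mem_inf]
      refine ⟨z.2, ?_⟩
      rw [Subgroup.mem_centralizer_iff]
      intro a ha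
      have h3 : (φ z) ⟨a, ha⟩ = ⟨a, ha⟩ := hz ⟨a, ha⟩
      have h4 : (z : G) * a * (z : G)⁻¹ = a := congrArg Subtype.val h3
      exact (mul_inv_eq_iff_eq_mul.mp h4).symm
    rw [hfaith] at h2
    exact Subtype.ext h2)
  have h5 : Nat.card (Additive A) = Nat.card (ZMod r) ^ Module.finrank (ZMod r) (Additive A) := by
    haveI : Module.Finite (ZMod r) (Additive A) := Module.Finite.of_finite
    haveI : Module.Free (ZMod r) (Additive A) := Module.Free.of_divisionRing _ _
    exact Module.natCard_eq_pow_finrank
  have h6 : Nat.card (Additive A) = Nat.card A := rfl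
  rw [h6, Nat.card_zmod] at h5
  rw [h5]
  exact Nat.pow_le_pow_right hr.out.pos h1

end Cfsg.Agent.S2912
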