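import Cfsg.Statements.S2922
import Cfsg.Agent.H49.CharPF

set_option autoImplicit false
open Cfsg

namespace Cfsg.Agent.S2922

/-- Let p be a prime, X a finite group, B a p-subgroup of X and C a normal subgroup of B. If N_X(C) has characteristic p (its generalized Fitting subgroup is O_p(N_X(C))), then N_X(B) and C_X(B) have characteristic p. -/
theorem result {X : Type*} [Group X] [Finite X] {p : ℕ} [Fact p.Prime] (B C : Subgroup X) (hB : IsPGroup p ↥B) (hCB : C ≤ B) (hCn : (C.subgroupOf B).Normal) (hC : Cfsg.generalizedFittingSubgroup ↥(Subgroup.normalizer (C : Set X)) = Cfsg.pCore p ↥(Subgroup.normalizer (C : Set X))) : Cfsg.generalizedFittingSubgroup ↥(Subgroup.normalizer (B : Set X)) = Cfsg.pCore p ↥(Subgroup.normalizer (B : Set X)) ∧ Cfsg.generalizedFittingSubgroup ↥(Subgroup.centralizer (B : Set X)) = Cfsg.pCore p ↥(Subgroup.centralizer (B : Set X)) := by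
  set N := Subgroup.normalizer (C : Set X) with hN
  have hBN : B ≤ N := (Subgroup.normal_subgroupOf_iff_le_normalizer hCB).1 hCn
  have h1 : IsPGroup p (Cfsg.generalizedFittingSubgroup ↥N) :=
    FStar.generalizedFitting_eq_pCore_iff.1 hC
  have hBp : IsPGroup p (B.subgroupOf N) := hB.comap_subtype
  have h2 := FStar.isPGroup_generalizedFitting_normalizer h1 hBp
  have h3 := H49.isPGroup_fstar_centralizer_of_normalizer h2
  -- C_N(B) = C_X(B)
  have hCXN : Subgroup.centralizer (B : Set X) ≤ N :=
    (Subgroup.centralizer_le hCB).trans (H49.centralizer_le_normalizer' C)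
  have heq : Subgroup.centralizer ((B.subgroupOf N : Subgroup N) : Set N) =
      (Subgroup.centralizer (B : Set X)).subgroupOf N := by
    ext x
    rw [Subgroup.mem_subgroupOf, Subgroup.mem_centralizer_iff, Subgroup.mem_centralizer_iff]
    constructor
    · intro h b hb
      exact congrArg Subtype.val (h ⟨b, hBN hb⟩ hb)
    · intro h b hb
      exact Subtype.ext (h b hb)
  rw [heq] at h3
  have h4 : IsPGroup p (Cfsg.generalizedFittingSubgroup ↥(Subgroup.centralizer (B : Set X))) :=
    H49.isPGroup_fstar_congr (Subgroup.subgroupOfEquivOfLe hCXN) h3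
  exact ⟨FStar.generalizedFitting_eq_pCore_iff.2
    (H49.isPGroup_fstar_normalizer_of_centralizer hB h4),
    FStar.generalizedFitting_eq_pCore_iff.2 h4⟩

end Cfsg.Agent.S2922
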