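import Cfsg.Statements.S2924
import Cfsg.Agent.H49.CoreGen

set_option autoImplicit false
open Cfsg

namespace Cfsg.Agent.S2924

/-- Let X be a finite group and Y an elementary abelian 2-subgroup of X of order at least 8 such that C_X(x) has no components (E(C_X(x)) = 1) for every nontrivial x ∈ Y, and F*(C_X(z)) = O₂(C_X(z)) for some nontrivial z ∈ Y. Then the subgroup generated by the cores O(C_X(y)), y ∈ Y nontrivial, has odd order and is normalized by N_X(Y). -/
theorem result {X : Type*} [Group X] [Finite X] (Y : Subgroup X) (hY : Cfsg.IsElementaryAbelian 2 Y) (h8 : 8 ≤ Nat.card ↥Y) (hE : ∀ x ∈ Y, x ≠ 1 → Cfsg.layer ↥(Subgroup.centralizer ({x} : Set X)) = ⊥) (hz : ∃ z ∈ Y, z ≠ 1 ∧ Cfsg.generalizedFittingSubgroup ↥(Subgroup.centralizer ({z} : Set X)) = Cfsg.pCore 2 ↥(Subgroup.centralizer ({z} : Set X))) : Odd (Nat.card ↥(⨆ y : {y : X // y ∈ Y ∧ y ≠ 1}, (Cfsg.oddCore ↥(Subgroup.centralizer ({(y : X)} : Set X))).map (Subgroup.centralizer ({(y : X)} : Set X)).subtype))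 ∧ Subgroup.normalizer (Y : Set X) ≤ Subgroup.normalizer ((⨆ y : {y : X // y ∈ Y ∧ y ≠ 1}, (Cfsg.oddCore ↥(Subgroup.centralizer ({(y : X)} : Set X))).map (Subgroup.centralizer ({(y : X)} : Set X)).subtype : Subgroup X) : Set X) := by
  obtain ⟨z, hzY, hz1, hz⟩ := hz
  haveI : Fact (Nat.Prime 2) := ⟨Nat.prime_two⟩
  refine ⟨H49.odd_core_generation Y hY h8 hE hzY hz1
    (FStar.generalizedFitting_eq_pCore_iff.1 hz), ?_⟩
  intro g hg
  apply H47.mem_normalizer_of_map_conj_le
  rw [Subgroup.map_iSup]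
  apply iSup_le
  rintro ⟨y, hyY, hy1⟩
  have h1 : (H49.pcOf 2 (Subgroup.centralizer ({y} : Set X))).map (MulAut.conj g).toMonoidHom =
      H49.pcOf 2 (Subgroup.centralizer ({g * y * g⁻¹} : Set X)) := by
    rw [H49.map_pcOf]
    congr 1
    ext x
    rw [H47.mem_map_conj, Subgroup.mem_centralizer_singleton_iff,
      Subgroup.mem_centralizer_singleton_iff]
    constructor
    · intro h
      have := congrArg (fun u => g * u * g⁻¹) h
      simp only [mul_assoc] at this ⊢
      simpa using this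
    · intro h
      have := congrArg (fun u => g⁻¹ * u * g) h
      simp only [mul_assoc] at this ⊢
      simpa using this
  have hy' : g * y * g⁻¹ ∈ Y := (Subgroup.mem_normalizer_iff.1 hg y).1 hyY
  have hy1' : g * y * g⁻¹ ≠ 1 := by
    intro h
    apply hy1
    have := congrArg (fun u => g⁻¹ * u * g) h
    simpa [mul_assoc] using this
  have h2 := le_iSup (fun y : {y : X // y ∈ Y ∧ y ≠ 1} =>
    H49.pcOf 2 (Subgroup.centralizer ({(y : X)} : Set X))) ⟨g * y * g⁻¹, hy', hy1'⟩
  exact h1.le.trans h2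

end Cfsg.Agent.S2924
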