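import Cfsg.Statements.S2928
import Cfsg.Agent.H21.AltC

set_option autoImplicit false
open Cfsg

namespace Cfsg.Agent.S2928

/-- Let n ≥ 8 and let H be a subgroup of the symmetric group of degree n whose generalized Fitting subgroup F*(H) is quasisimple. If H contains a Sylow 2-subgroup of the alternating group of degree n, then F*(H) is isomorphic to an alternating group of degree m for some m ∈ {n − 3, n − 2, n − 1, n}. -/
theorem result (n : ℕ) (hn : 8 ≤ n) (H : Subgroup (Equiv.Perm (Fin n))) (hF : Cfsg.IsQuasisimple ↥(Cfsg.generalizedFittingSubgroup ↥H)) (hS : ∃ P : Sylow 2 ↥(alternatingGroup (Fin n)), ((P : Subgroup ↥(alternatingGroup (Fin n))).map (alternatingGroup (Fin n)).subtype) ≤ H) : ∃ m : ℕ, (m = n - 3 ∨ m = n - 2 ∨ m = n - 1 ∨ m = n) ∧ Nonempty (↥(Cfsg.generalizedFittingSubgroup ↥H) ≃* ↥(alternatingGroup (Fin m))) := by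
  obtain ⟨P, hP⟩ := hS
  set F := Cfsg.generalizedFittingSubgroup ↥H with hFdef
  let L : Subgroup (Equiv.Perm (Fin n)) := F.map H.subtype
  let e : F ≃* L := F.equivMapOfInjective H.subtype H.subtype_injective
  have hFn : F.Normal := inferInstance
  obtain ⟨m, hm, ⟨f⟩⟩ := Cfsg.Agent.H21.AltA.reduction hn H L
    (by rintro x ⟨y, hy, rfl⟩; exact y.2)
    (by
      rintro h hh x ⟨y, hy, rfl⟩
      exact ⟨(⟨h, hh⟩ : H) * y * (⟨h, hh⟩ : H)⁻¹, hFn.conj_mem y hy ⟨h, hh⟩, rfl⟩)
    ((Cfsg.Agent.FStar.isQuasisimple_congr e).1 hF)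
    (by
      intro h hh hc
      have h1 : (⟨h, hh⟩ : H) ∈ Subgroup.centralizer (F : Set H) := by
        rw [Subgroup.mem_centralizer_iff]
        intro y hy
        apply Subtype.ext
        exact hc y ⟨y, hy, rfl⟩
      exact ⟨_, Cfsg.Agent.FStar.centralizer_generalizedFitting_le h1, rfl⟩)
    P hP
  exact ⟨m, hm, ⟨e.trans f⟩⟩

end Cfsg.Agent.S2928
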