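import Cfsg.Statements.S2929
import Cfsg.Agent.H59.ThreeCyc

set_option autoImplicit false
set_option linter.style.haveILetI false
open Cfsg

namespace Cfsg.Agent.S2929

open Cfsg Cfsg.Agent.H59.ThreeCyc Equiv Equiv.Perm


section grp

variable {K : Type*} [Group K] [Finite K]

/-- normal abelian subgroups are central in a quasisimple generalized Fitting subgroup -/
theorem abelian_central (hE : IsQuasisimple ↥(generalizedFittingSubgroup K)) {A : Subgroup K}
    (hA : A.Normal) (hc : ∀ x ∈ A, ∀ y ∈ A, x * y = y * x) :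
    ∀ a ∈ A, a ∈ generalizedFittingSubgroup K ∧ ∀ e ∈ generalizedFittingSubgroup K, a * e = e * a := by
  have hcm : IsMulCommutative A := ⟨⟨fun x y => Subtype.ext (hc x x.2 y y.2)⟩⟩
  have hnil : Group.IsNilpotent A := by
    letI : CommGroup A := { (inferInstance : Group A) with mul_comm := fun x y => Subtype.ext (hc x x.2 y y.2) }
    infer_instance
  have hle : A ≤ fittingSubgroup K := le_sSup ⟨hA, hnil⟩
  have hleE : A ≤ generalizedFittingSubgroup K := hle.trans FStar.fitting_le_generalizedFitting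
  have hsub : (A.subgroupOf (generalizedFittingSubgroup K)).IsSubnormal :=
    (hA.isSubnormal).subgroupOf
  rcases FStar.eq_or_commutator_eq_bot hE hleE hsub with h | h
  · exfalso
    apply FStar.not_isSolvable_of_isQuasisimple hE
    rw [← h]
    infer_instance
  · rw [FStar.commutator_eq_bot_iff_forall] at h
    exact fun a ha => ⟨hleE ha, fun e he => h a ha e he⟩

theorem component_eq (hE : IsQuasisimple ↥(generalizedFittingSubgroup K)) {L : Subgroup K}
    (hL : IsComponent L) : L = generalizedFittingSubgroup K := by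
  have hEc : IsComponent (generalizedFittingSubgroup K) :=
    ⟨(FStar.generalizedFitting_normal (G := K)).isSubnormal, hE⟩
  exact FStar.component_eq_of_le hL hEc ((FStar.component_le_layer hL).trans FStar.layer_le_generalizedFitting)

end grp

section perm

variable {α : Type*} [Fintype α] [DecidableEq α] {H : Subgroup (Perm α)}

/-- `F*(H)` as a group of permutations -/
def FE (H : Subgroup (Perm α)) : Subgroup (Perm α) := (generalizedFittingSubgroup ↥H).map H.subtype

theorem FE_le : FE H ≤ H := Subgroup.map_subtype_le _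

theorem abelian_central' (hE : IsQuasisimple ↥(generalizedFittingSubgroup ↥H)) {A : Subgroup (Perm α)}
    (hAH : A ≤ H) (hn : ∀ h ∈ H, ∀ a ∈ A, h * a * h⁻¹ ∈ A) (hc : ∀ x ∈ A, ∀ y ∈ A, x * y = y * x) :
    ∀ a ∈ A, a ∈ FE H ∧ ∀ e ∈ FE H, a * e = e * a := by
  have h1 := abelian_central hE (A := A.subgroupOf H) ⟨fun a ha h => hn h h.2 a ha⟩
    (fun x hx y hy => Subtype.ext (hc x hx y hy))
  intro a ha
  obtain ⟨h2, h3⟩ := h1 ⟨a, hAH ha⟩ ha
  refine ⟨⟨_, h2, rfl⟩, ?_⟩
  rintro _ ⟨e, he, rfl⟩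
  exact congrArg Subtype.val (h3 e he)

theorem centralizer_le {h : Perm α} (hh : h ∈ H) (hc : ∀ e ∈ FE H, e * h = h * e) : h ∈ FE H := by
  have h1 := FStar.centralizer_generalizedFitting_le (G := ↥H)
  refine ⟨⟨h, hh⟩, h1 ?_, rfl⟩
  rw [Subgroup.mem_centralizer_iff]
  intro e he
  exact Subtype.ext (hc e ⟨e, he, rfl⟩)

theorem commutator_FE (hE : IsQuasisimple ↥(generalizedFittingSubgroup ↥H)) : ⁅FE H, FE H⁆ = FE H := by
  unfold FE
  rw [← Subgroup.map_commutator, FStar.commutator_self hE]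

theorem component_eq' (hE : IsQuasisimple ↥(generalizedFittingSubgroup ↥H)) {L R : Subgroup (Perm α)}
    (hLR : L ≤ R) (hRH : R ≤ H) (hn : ∀ h ∈ H, ∀ r ∈ R, h * r * h⁻¹ ∈ R)
    (hn2 : ∀ r ∈ R, ∀ l ∈ L, r * l * r⁻¹ ∈ L) (hq : IsQuasisimple ↥L) : L = FE H := by
  have h1 : (R.subgroupOf H).Normal := ⟨fun a ha h => hn h h.2 a ha⟩
  have h2 : (L.subgroupOf H).IsSubnormal := by
    refine Subgroup.IsSubnormal.step (L.subgroupOf H) (R.subgroupOf H) ?_ h1.isSubnormal ?_
    · exact Subgroup.comap_mono hLR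
    · refine ⟨fun a ha h => ?_⟩
      exact hn2 _ h.2 _ ha
  have h3 : IsComponent (L.subgroupOf H) := ⟨h2, (FStar.isQuasisimple_subgroupOf (hLR.trans hRH)).2 hq⟩
  have h4 := component_eq hE h3
  unfold FE
  rw [← h4, Subgroup.map_subgroupOf_eq_of_le (hLR.trans hRH)]

/-- small alternating groups: elements of order dividing `k` commute and are transitive -/
theorem small3 : (∀ x y : Perm (Fin 3), sign x = 1 → sign y = 1 → x ^ 3 = 1 → y ^ 3 = 1 → x * y = y * x) ∧
    ∀ a b : Fin 3, ∃ x : Perm (Fin 3), sign x = 1 ∧ x ^ 3 = 1 ∧ x a = b := by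
  constructor
  · decide
  · decide

theorem small4 : (∀ x y : Perm (Fin 4), sign x = 1 → sign y = 1 → x ^ 2 = 1 → y ^ 2 = 1 → x * y = y * x) ∧
    ∀ a b : Fin 4, ∃ x : Perm (Fin 4), sign x = 1 ∧ x ^ 2 = 1 ∧ x a = b := by
  constructor
  · decide
  · decide

/-- transported to a set of 3 or 4 points -/
theorem small (s : Finset α) {k m : ℕ} (hm : s.card = m)
    (h1 : ∀ x y : Perm (Fin m), sign x = 1 → sign y = 1 → x ^ k = 1 → y ^ k = 1 → x * y = y * x)
    (h2 : ∀ a b : Fin m, ∃ x : Perm (Fin m), sign x = 1 ∧ x ^ k = 1 ∧ x a = b) :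
    (∀ x ∈ AO s, ∀ y ∈ AO s, x ^ k = 1 → y ^ k = 1 → x * y = y * x) ∧
    ∀ a ∈ s, ∀ b ∈ s, ∃ x ∈ AO s, x ^ k = 1 ∧ x a = b := by
  have e : s ≃ Fin m := Fintype.equivFinOfCardEq (by rw [Fintype.card_coe, hm])
  constructor
  · intro x hx y hy hxk hyk
    obtain ⟨x', hx', rfl⟩ := exists_ofSubtype hx
    obtain ⟨y', hy', rfl⟩ := exists_ofSubtype hy
    have hxk' : x' ^ k = 1 := by
      rw [← map_pow] at hxk
      exact ofSubtype_injective (by rw [hxk, map_one])
    have hyk' : y' ^ k = 1 := by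
      rw [← map_pow] at hyk
      exact ofSubtype_injective (by rw [hyk, map_one])
    have h3 := h1 (e.permCongrHom x') (e.permCongrHom y') ?_ ?_ ?_ ?_
    · rw [← map_mul, ← map_mul] at h3
      rw [← map_mul, ← map_mul, e.permCongrHom.injective h3]
    · rw [mem_alternatingGroup] at hx'
      simpa using hx'
    · rw [mem_alternatingGroup] at hy'
      simpa using hy'
    · rw [← map_pow, hxk', map_one]
    · rw [← map_pow, hyk', map_one]
  · intro a ha b hb
    obtain ⟨x, hx1, hx2, hx3⟩ := h2 (e ⟨a, ha⟩) (e ⟨b, hb⟩)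
    refine ⟨ofSubtype (e.symm.permCongrHom x), ofSubtype_mem_AO ?_, ?_, ?_⟩
    · rw [mem_alternatingGroup]
      simpa using hx1
    · rw [← map_pow, ← map_pow, hx2, map_one, map_one]
    · rw [ofSubtype_apply_of_mem _ ha]
      simp [hx3]


/-- the case of a small orbit -/
theorem small_case (hE : IsQuasisimple ↥(generalizedFittingSubgroup ↥H)) {x : α} {c : Perm α}
    (hc : c ∈ T3 H) (hx : c x ≠ x) {k m : ℕ} (hm : (Ob H x).card = m)
    (h1 : ∀ x y : Perm (Fin m), sign x = 1 → sign y = 1 → x ^ k = 1 → y ^ k = 1 → x * y = y * x)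
    (h2 : ∀ a b : Fin m, ∃ x : Perm (Fin m), sign x = 1 ∧ x ^ k = 1 ∧ x a = b) : False := by
  obtain ⟨hA, hB⟩ := small (Ob H x) hm h1 h2
  have hAOH : AO (Ob H x) ≤ H := (AO_le_R3 H hc hx).trans (R3_le H)
  set O := Ob H x with hO
  -- conjugates
  have hcomm : ∀ s ∈ AO O, s ^ k = 1 → ∀ s' ∈ AO O, s' ^ k = 1 → ∀ g ∈ H,
      s * (g * s' * g⁻¹) = (g * s' * g⁻¹) * s := by
    intro s hs hsk s' hs' hs'k g hg
    by_cases hgx : g x ∈ O
    · apply hA s hs _ ?_ hsk ?_
      · refine ⟨?_, ?_⟩
        · have := hs'.1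
          rw [mem_alternatingGroup] at this ⊢
          rw [map_mul, map_mul, this]
          simp
        · intro y hy
          have h3 : g⁻¹ y ∉ O := by
            intro h4
            apply hy
            have h5 := (Ob_conj H (x := x) (y := g⁻¹ y) hg).2 h4
            rw [Ob_eq H hgx] at h5
            simpa using h5
          rw [Perm.mul_apply, Perm.mul_apply, hs'.2 _ h3]
          simp
      · rw [conj_pow, hs'k]
        simp
    · have hd : ∀ y, y ∈ O → g⁻¹ y ∉ O := by
        intro y hy h4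
        have h5 := (Ob_conj H (x := x) (y := g⁻¹ y) hg).2 h4
        have h6 : g (g⁻¹ y) = y := by simp
        rw [h6] at h5
        -- y in Ob (g x) and y in O
        have h7 := Ob_eq H h5
        have h8 := Ob_eq H hy
        apply hgx
        rw [hO, ← h8, h7]
        exact self_mem_Ob H (g x)
      have hdis : Disjoint s (g * s' * g⁻¹) := by
        intro y
        by_cases hy : y ∈ O
        · right
          rw [Perm.mul_apply, Perm.mul_apply, hs'.2 _ (hd y hy)]
          simp
        · left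
          exact hs.2 y hy
      exact hdis.commute
  set S : Set (Perm α) := {t | ∃ h ∈ H, ∃ s ∈ AO O, s ^ k = 1 ∧ t = h * s * h⁻¹} with hS
  have hSS : ∀ t ∈ S, ∀ t' ∈ S, t * t' = t' * t := by
    rintro _ ⟨h, hh, s, hs, hsk, rfl⟩ _ ⟨h', hh', s', hs', hs'k, rfl⟩
    have h3 := hcomm s hs hsk s' hs' hs'k (h⁻¹ * h') (mul_mem (inv_mem hh) hh')
    have h4 : h * s * h⁻¹ * (h' * s' * h'⁻¹) = h * (s * (h⁻¹ * h' * s' * (h⁻¹ * h')⁻¹)) * h⁻¹ := by group
    have h5 : h' * s' * h'⁻¹ * (h * s * h⁻¹) = h * ((h⁻¹ * h' * s' * (h⁻¹ * h')⁻¹) * s) * h⁻¹ := by group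
    rw [h4, h5, h3]
  set A := Subgroup.closure S with hAdef
  have hAA : ∀ a ∈ A, ∀ b ∈ A, a * b = b * a := by
    have h3 : A ≤ Subgroup.centralizer S := by
      rw [hAdef, Subgroup.closure_le]
      intro t ht
      rw [SetLike.mem_coe, Subgroup.mem_centralizer_iff]
      intro t' ht'
      exact hSS t' ht' t ht
    have h4 : A ≤ Subgroup.centralizer (A : Set (Perm α)) := by
      rw [hAdef, Subgroup.centralizer_closure] at *
      exact h3
    intro a ha b hb
    exact (Subgroup.mem_centralizer_iff.1 (h4 hb)) a ha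
  have hAH : A ≤ H := by
    rw [hAdef, Subgroup.closure_le]
    rintro _ ⟨h, hh, s, hs, _, rfl⟩
    exact mul_mem (mul_mem hh (hAOH hs)) (inv_mem hh)
  have hAn : ∀ h ∈ H, ∀ a ∈ A, h * a * h⁻¹ ∈ A := by
    intro h hh a ha
    rw [hAdef] at ha ⊢
    induction ha using Subgroup.closure_induction with
    | mem t ht =>
      obtain ⟨g, hg, s, hs, hsk, rfl⟩ := ht
      exact Subgroup.subset_closure ⟨h * g, mul_mem hh hg, s, hs, hsk, by group⟩
    | one => rw [mul_one, mul_inv_cancel]; exact one_mem _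
    | mul a b _ _ ha hb =>
      have : h * (a * b) * h⁻¹ = (h * a * h⁻¹) * (h * b * h⁻¹) := by group
      rw [this]
      exact mul_mem ha hb
    | inv a _ ha =>
      have : h * a⁻¹ * h⁻¹ = (h * a * h⁻¹)⁻¹ := by group
      rw [this]
      exact inv_mem ha
  have hcen := abelian_central' hE hAH hAn hAA
  have hV : ∀ s ∈ AO O, s ^ k = 1 → s ∈ FE H ∧ ∀ e ∈ FE H, s * e = e * s := by
    intro s hs hsk
    exact hcen s (Subgroup.subset_closure ⟨1, one_mem _, s, hs, hsk, by group⟩)
  have hxO : x ∈ O := self_mem_Ob H x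
  have hcx : c x ∈ O := Ob_stable H hxO (Subgroup.subset_closure hc)
  have happ : ∀ s ∈ AO O, s ^ k = 1 → ∀ e ∈ FE H, ∀ y, s (e y) = e (s y) := by
    intro s hs hsk e he y
    rw [← Perm.mul_apply, (hV s hs hsk).2 e he, Perm.mul_apply]
  have hpres : ∀ e ∈ FE H, ∀ y ∈ O, e y ∈ O := by
    intro e he y hy
    have h3 : ∃ s ∈ AO O, s ^ k = 1 ∧ s y ≠ y := by
      by_cases hyx : y = x
      · obtain ⟨s, hs, hsk, h⟩ := hB y hy (c x) hcx
        exact ⟨s, hs, hsk, by rw [h, hyx]; exact hx⟩
      · obtain ⟨s, hs, hsk, h⟩ := hB y hy x hxO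
        exact ⟨s, hs, hsk, by rw [h]; exact fun h4 => hyx h4.symm⟩
    obtain ⟨s, hs, hsk, hsy⟩ := h3
    by_contra hno
    have h4 := hs.2 _ hno
    rw [happ s hs hsk e he y] at h4
    exact hsy (e.injective h4)
  have hcomm2 : ∀ e ∈ FE H, ∀ f ∈ FE H, ∀ y ∈ O, e (f y) = f (e y) := by
    intro e he f hf y hy
    obtain ⟨s, hs, hsk, h3⟩ := hB y hy (e y) (hpres e he y hy)
    obtain ⟨s', hs', hsk', h4⟩ := hB y hy (f y) (hpres f hf y hy)
    rw [← h3, ← h4, ← happ s' hs' hsk' e he, ← happ s hs hsk f hf, ← h3, ← h4, ← Perm.mul_apply,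
      ← Perm.mul_apply, hA s hs s' hs' hsk hsk']
  set Z : Subgroup (Perm α) :=
    { carrier := {g | ∀ y ∈ O, g y = y}
      mul_mem' := fun {a b} ha hb y hy => by rw [Perm.mul_apply, hb y hy, ha y hy]
      one_mem' := fun y _ => rfl
      inv_mem' := fun {a} ha y hy => by rw [Perm.inv_eq_iff_eq]; exact (ha y hy).symm } with hZ
  have hle : FE H ≤ Z := by
    rw [← commutator_FE hE, Subgroup.commutator_le]
    intro e he f hf y hy
    have hy1 : f⁻¹ y ∈ O := hpres _ (inv_mem hf) y hy
    have hy2 : e⁻¹ (f⁻¹ y) ∈ O := hpres _ (inv_mem he) _ hy1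
    rw [commutatorElement_def, Perm.mul_apply, Perm.mul_apply, Perm.mul_apply, hcomm2 e he f hf _ hy2]
    simp
  obtain ⟨s, hs, hsk, h⟩ := hB x hxO (c x) hcx
  have h9 := hle (hV s hs hsk).1 x hxO
  rw [h] at h9
  exact hx h9

/-- the big case -/
theorem big_case (hE : IsQuasisimple ↥(generalizedFittingSubgroup ↥H)) {x : α} {c : Perm α}
    (hc : c ∈ T3 H) (hx : c x ≠ x) (h5 : 5 ≤ (Ob H x).card) :
    AO (Ob H x) = FE H ∧ Nat.card H ∣ (Ob H x).card.factorial := by
  have hAOR : AO (Ob H x) ≤ R3 H := AO_le_R3 H hc hx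
  set O := Ob H x with hO
  have hq : IsQuasisimple ↥(AO O) := by
    rw [← FStar.isQuasisimple_congr (AOequiv O)]
    have h5' : 5 ≤ Nat.card O := by
      rw [Nat.card_eq_fintype_card, Fintype.card_coe]
      exact h5
    haveI := alternatingGroup.isSimpleGroup (α := O) h5'
    apply Cfsg.Agent.H73.AltStd.isQuasisimple_of_simple
    intro hcomm
    have h6 := alternatingGroup.center_eq_bot (α := O) (by omega)
    have h7 : Subgroup.center (alternatingGroup O) = ⊤ := by
      rw [Subgroup.eq_top_iff']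
      intro g
      rw [Subgroup.mem_center_iff]
      intro h
      exact hcomm.1.1 h g
    rw [h6] at h7
    exact bot_ne_top h7
  have hEq : AO O = FE H := by
    refine component_eq' hE hAOR (R3_le H) (fun h hh r hr => conj_R3 H hh hr) ?_ hq
    intro r hr l hl
    refine ⟨?_, ?_⟩
    · have := hl.1
      rw [mem_alternatingGroup] at this ⊢
      rw [map_mul, map_mul, this]
      simp
    · intro y hy
      have h3 : r⁻¹ y ∉ O := by
        intro h4
        apply hy
        have h5 := Ob_stable H h4 hr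
        simpa using h5
      rw [Perm.mul_apply, Perm.mul_apply, hl.2 _ h3]
      simp
  refine ⟨hEq, ?_⟩
  have hnorm : ∀ h ∈ H, ∀ l ∈ AO O, h * l * h⁻¹ ∈ AO O := by
    intro h hh l hl
    rw [hEq] at hl ⊢
    obtain ⟨l', hl', rfl⟩ := hl
    exact ⟨_, (FStar.generalizedFitting_normal (G := ↥H)).conj_mem l' hl' ⟨h, hh⟩, rfl⟩
  have hmv : ∀ y ∈ O, ∃ l ∈ AO O, l y ≠ y := by
    intro y hy
    obtain ⟨r, hr, hry⟩ := (mem_Ob H).1 hy
    have ht : r * c * r⁻¹ ∈ T3 H := conj_T3 H (R3_le H hr) hc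
    have hmvy : (r * c * r⁻¹) y ≠ y := by
      rw [← hry, Perm.mul_apply, Perm.mul_apply, inv_app]
      intro h
      exact hx (r.injective h)
    refine ⟨r * c * r⁻¹, ⟨ht.2.mem_alternatingGroup, ?_⟩, hmvy⟩
    intro z hz
    by_contra hno
    exact hz (support_sub H hy ht hmvy hno)
  have hpres : ∀ h ∈ H, ∀ y ∈ O, h y ∈ O := by
    intro h hh y hy
    by_contra hno
    obtain ⟨l, hl, hly⟩ := hmv y hy
    have h6 := (hnorm h hh l hl).2 _ hno
    rw [Perm.mul_apply, Perm.mul_apply, inv_app] at h6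
    exact hly (h.injective h6)
  have hpres' : ∀ h ∈ H, ∀ y, y ∈ O ↔ h y ∈ O := by
    intro h hh y
    constructor
    · exact hpres h hh y
    · intro hy
      have := hpres _ (inv_mem hh) _ hy
      rwa [inv_app] at this
  let f : H →* Perm O :=
    { toFun := fun h => (h : Perm α).subtypePerm (p := (· ∈ O)) (fun y => (hpres' h h.2 y).symm)
      map_one' := by ext y; rfl
      map_mul' := fun a b => by ext y; rfl }
  have hinj : Function.Injective f := by
    rw [injective_iff_map_eq_one]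
    rintro ⟨h, hh⟩ hf
    have h1 : ∀ y ∈ O, h y = y := by
      intro y hy
      have := DFunLike.congr_fun hf ⟨y, hy⟩
      exact congrArg Subtype.val this
    have h2 : h ∈ FE H := by
      apply centralizer_le hh
      intro e he
      rw [← hEq] at he
      ext y
      rw [Perm.mul_apply, Perm.mul_apply]
      by_cases hy : y ∈ O
      · have hey : e y ∈ O := by
          by_contra hno
          have h3 := he.2 _ hno
          have h4 := e.injective h3
          exact hno (h4.symm ▸ hy)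
        rw [h1 y hy, h1 _ hey]
      · have hhy : h y ∉ O := fun h3 => hy ((hpres' h hh y).2 h3)
        rw [he.2 _ hhy, he.2 _ hy]
    rw [← hEq] at h2
    apply Subtype.ext
    ext y
    by_cases hy : y ∈ O
    · exact h1 y hy
    · exact h2.2 y hy
  have h6 := Subgroup.card_dvd_of_injective f hinj
  rwa [Nat.card_perm, Nat.card_eq_fintype_card (α := O), Fintype.card_coe] at h6

end perm

/-- Let n ≥ 5 and let H be a subgroup of the symmetric group of degree n whose generalized Fitting subgroup F*(H) is quasisimple. If H contains a Sylow 3-subgroup of the symmetric group, then F*(H) is isomorphic to an alternating group of degree m for some m ∈ {n − 2, n − 1, n}. -/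
theorem result (n : ℕ) (hn : 5 ≤ n) (H : Subgroup (Equiv.Perm (Fin n))) (hF : Cfsg.IsQuasisimple ↥(Cfsg.generalizedFittingSubgroup ↥H)) (hS : ∃ P : Sylow 3 (Equiv.Perm (Fin n)), (P : Subgroup (Equiv.Perm (Fin n))) ≤ H) : ∃ m : ℕ, (m = n - 2 ∨ m = n - 1 ∨ m = n) ∧ Nonempty (↥(Cfsg.generalizedFittingSubgroup ↥H) ≃* ↥(alternatingGroup (Fin m))) := by
  classical
  haveI : Fact (Nat.Prime 3) := ⟨Nat.prime_three⟩
  -- a 3-cycle in H
  obtain ⟨P, hP⟩ := hS
  obtain ⟨c, hc⟩ : ∃ c : Perm (Fin n), c ∈ T3 H := by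
    obtain ⟨c0, h0⟩ := (Equiv.Perm.exists_with_cycleType_iff (α := Fin n) (m := {3})).2
      ⟨by simp; omega, by simp⟩
    have hpg : IsPGroup 3 (Subgroup.zpowers c0) := by
      apply IsPGroup.of_card (n := 1)
      have h3 : IsThreeCycle c0 := h0
      rw [Nat.card_zpowers, h3.orderOf, pow_one]
    obtain ⟨Q, hQ⟩ := hpg.exists_le_sylow
    obtain ⟨g, hg⟩ := MulAction.exists_smul_eq (Perm (Fin n)) Q P
    refine ⟨g * c0 * g⁻¹, ?_, ?_⟩
    · apply hP
      rw [← hg]
      refine ⟨c0, hQ (Subgroup.mem_zpowers c0), rfl⟩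
    · unfold IsThreeCycle
      rw [cycleType_conj, h0]
  obtain ⟨x, hx⟩ : ∃ x, c x ≠ x := by
    by_contra hno
    push Not at hno
    have h1 : c = 1 := Equiv.ext hno
    have h2 := hc.2
    unfold IsThreeCycle at h2
    rw [h1, cycleType_one] at h2
    exact absurd h2 (by decide)
  have h3 : 3 ≤ (Ob H x).card := by
    have h4 : c.support ⊆ Ob H x := by
      intro y hy
      exact support_sub H (self_mem_Ob H x) hc hx (Perm.mem_support.1 hy)
    have h5 := Finset.card_le_card h4
    rwa [card_support_eq_three_iff.2 hc.2] at h5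
  by_cases h5 : 5 ≤ (Ob H x).card
  · obtain ⟨hEq, hdvd⟩ := big_case hF hc hx h5
    set m := (Ob H x).card with hm
    have hmn : m ≤ n := by
      have := Finset.card_le_univ (Ob H x)
      rwa [Fintype.card_fin] at this
    refine ⟨m, ?_, ?_⟩
    · by_contra hno
      have hlt : m + 3 ≤ n := by omega
      have h6 : Nat.card P ∣ Nat.card H := Subgroup.card_dvd_of_le hP
      have h7 : Nat.card P = 3 ^ (n.factorial.factorization 3) := by
        rw [P.card_eq_multiplicity, Nat.card_perm, Nat.card_eq_fintype_card, Fintype.card_fin]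
      have h8 : 3 ^ (n.factorial.factorization 3) ∣ m.factorial := by
        rw [← h7]
        exact h6.trans hdvd
      have h9 : (m + 3).factorial ∣ n.factorial := Nat.factorial_dvd_factorial hlt
      have h10 : 3 * m.factorial ∣ (m + 3).factorial := by
        have : (m + 3).factorial = (m + 3) * (m + 2) * (m + 1) * m.factorial := by
          rw [Nat.factorial_succ, Nat.factorial_succ, Nat.factorial_succ]
          ring
        rw [this]
        apply Nat.mul_dvd_mul _ dvd_rfl
        have h11 : m % 3 = 0 ∨ m % 3 = 1 ∨ m % 3 = 2 := by omega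
        rcases h11 with h | h | h
        · exact (Dvd.dvd.mul_right (Dvd.dvd.mul_right (by omega) _) _)
        · exact (Dvd.dvd.mul_right (Dvd.dvd.mul_left (by omega) _) _)
        · exact (Dvd.dvd.mul_left (by omega) _)
      have h12 := (Nat.Prime.pow_dvd_iff_le_factorization Nat.prime_three (Nat.factorial_ne_zero m)).1 h8
      have h13 : (m.factorial.factorization 3) + 1 ≤ n.factorial.factorization 3 := by
        rw [← Nat.Prime.pow_dvd_iff_le_factorization Nat.prime_three (Nat.factorial_ne_zero n), pow_succ, mul_comm]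
        exact (Nat.mul_dvd_mul dvd_rfl (Nat.ordProj_dvd _ _)).trans (h10.trans h9)
      omega
    · have e1 : ↥(generalizedFittingSubgroup ↥H) ≃* ↥(FE H) :=
        Subgroup.equivMapOfInjective _ H.subtype H.subtype_injective
      have e2 : ↥(FE H) ≃* ↥(AO (Ob H x)) := MulEquiv.subgroupCongr hEq.symm
      have e3 : (Ob H x) ≃ Fin m := Fintype.equivFinOfCardEq (by rw [Fintype.card_coe])
      exact ⟨((e1.trans e2).trans (AOequiv _).symm).trans e3.altCongrHom⟩
  · exfalso
    have h34 : (Ob H x).card = 3 ∨ (Ob H x).card = 4 := by omega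
    rcases h34 with h | h
    · exact small_case hF hc hx h small3.1 small3.2
    · exact small_case hF hc hx h small4.1 small4.2


end Cfsg.Agent.S2929
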