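import Cfsg.Statements.S2931
import Cfsg.Agent.OrthCount.Orders
import Cfsg.Agent.ClassSp.Order
import Cfsg.Agent.ClassSp.Simple


set_option autoImplicit false
set_option linter.style.haveILetI false
open Cfsg

namespace Cfsg.Agent.S2931


open Matrix
open scoped MatrixGroups

section syl

lemma fact2 {n k m : ℕ} (h : n = 2 ^ k * m) (hm : ¬ 2 ∣ m) : n.factorization 2 = k := by
  have hm0 : m ≠ 0 := by rintro rfl; exact hm (dvd_zero 2)
  rw [h, Nat.factorization_mul (by positivity) hm0, Nat.Prime.factorization_pow Nat.prime_two]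
  simp [Nat.factorization_eq_zero_of_not_dvd hm]

lemma syl_equiv {p : ℕ} [Fact p.Prime] {B G : Type*} [Group B] [Group G] [Finite B] [Finite G] (f : B →* G)
    (hf : Function.Injective f) (h : (Nat.card B).factorization p = (Nat.card G).factorization p)
    (S : Sylow p B) (P : Sylow p G) : Nonempty (S ≃* P) := by
  have h1 : Nat.card ((S : Subgroup B).map f) = p ^ (Nat.card G).factorization p := by
    rw [← h, ← Sylow.card_eq_multiplicity S]
    exact (Nat.card_congr (Subgroup.equivMapOfInjective (S : Subgroup B) f hf).toEquiv).symm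
  let S' : Sylow p G := Sylow.ofCard _ h1
  exact ⟨(Subgroup.equivMapOfInjective (S : Subgroup B) f hf).trans (Sylow.equiv S' P)⟩

end syl

section E

abbrev Q8 := QuaternionGroup 2

/-- the homomorphism from the group of order two given by an involution -/
def c2 {H : Type*} [Group H] (s : H) (hs : s * s = 1) : Multiplicative (ZMod 2) →* H where
  toFun c := if c.toAdd = 0 then 1 else s
  map_one' := by simp
  map_mul' := by
    intro c d
    obtain ⟨c, rfl⟩ := Multiplicative.ofAdd.surjective c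
    obtain ⟨d, rfl⟩ := Multiplicative.ofAdd.surjective d
    change (if c + d = 0 then 1 else s) = (if c = 0 then 1 else s) * (if d = 0 then 1 else s)
    have h0 : ∀ c : ZMod 2, c = 0 ∨ c = 1 := by decide
    have h11 : (1 : ZMod 2) + 1 = 0 := by decide
    rcases h0 c with rfl | rfl <;> rcases h0 d with rfl | rfl
    · simp
    · simp
    · simp
    · rw [h11, if_pos rfl, if_neg (by decide), hs]

def swp : Multiplicative (ZMod 2) →* MulAut (Q8 × Q8) :=
  c2 (MulEquiv.prodComm : (Q8 × Q8) ≃* (Q8 × Q8)) (by ext x <;> rfl)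

abbrev E := (Q8 × Q8) ⋊[swp] Multiplicative (ZMod 2)

variable {H : Type*} [Group H]

def liftE (f : Q8 × Q8 →* H) (s : H) (hs : s * s = 1) (h : ∀ a b, s * f (a, b) = f (b, a) * s) : E →* H :=
  SemidirectProduct.lift f (c2 s hs) (by
    intro g
    obtain ⟨g, rfl⟩ := Multiplicative.ofAdd.surjective g
    ext ⟨a, b⟩
    have h0 : g = 0 ∨ g = 1 := by revert g; decide
    rcases h0 with rfl | rfl
    · change f (swp 1 (a, b)) = (c2 s hs 1) * f (a, b) * (c2 s hs 1)⁻¹
      simp
    · change f (b, a) = s * f (a, b) * s⁻¹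
      rw [h]; group)

lemma liftE_inl (f : Q8 × Q8 →* H) (s : H) (hs : s * s = 1) (h : ∀ a b, s * f (a, b) = f (b, a) * s) (n : Q8 × Q8) :
    liftE f s hs h ⟨n, 1⟩ = f n := by
  change f n * c2 s hs 1 = f n
  simp

lemma liftE_inr (f : Q8 × Q8 →* H) (s : H) (hs : s * s = 1) (h : ∀ a b, s * f (a, b) = f (b, a) * s) (n : Q8 × Q8) :
    liftE f s hs h ⟨n, Multiplicative.ofAdd 1⟩ = f n * s := rfl

/-- the kernel -/
def KE : Set E := {x | x = 1 ∨ x = ⟨(QuaternionGroup.a 2, QuaternionGroup.a 2), 1⟩}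

lemma ker_liftE (f : Q8 × Q8 →* H) (s : H) (hs : s * s = 1) (h : ∀ a b, s * f (a, b) = f (b, a) * s)
    (h1 : ∀ n, f n = 1 ↔ n = 1 ∨ n = (QuaternionGroup.a 2, QuaternionGroup.a 2)) (h2 : ∀ n, f n * s ≠ 1) :
    ((liftE f s hs h).ker : Set E) = KE := by
  ext ⟨n, c⟩
  obtain ⟨c, rfl⟩ := Multiplicative.ofAdd.surjective c
  have h0 : c = 0 ∨ c = 1 := by revert c; decide
  rw [SetLike.mem_coe, MonoidHom.mem_ker]
  rcases h0 with rfl | rfl
  · rw [ofAdd_zero, liftE_inl, h1]
    constructor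
    · rintro (rfl | rfl)
      · exact Or.inl rfl
      · exact Or.inr rfl
    · rintro (h3 | h3)
      · exact Or.inl (congrArg SemidirectProduct.left h3)
      · exact Or.inr (congrArg SemidirectProduct.left h3)
  · rw [liftE_inr]
    constructor
    · intro h3; exact absurd h3 (h2 n)
    · rintro (h3 | h3)
      · have : Multiplicative.ofAdd (1 : ZMod 2) = 1 := congrArg SemidirectProduct.right h3
        exact absurd this (by decide)
      · have : Multiplicative.ofAdd (1 : ZMod 2) = 1 := congrArg SemidirectProduct.right h3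
        exact absurd this (by decide)

instance : Finite E := Finite.of_equiv _ (SemidirectProduct.equivProd (φ := swp)).symm

lemma card_E : Nat.card E = 128 := by
  rw [SemidirectProduct.card, Nat.card_prod, Nat.card_eq_fintype_card, Nat.card_eq_fintype_card, QuaternionGroup.card]
  rfl

lemma card_KE : KE.ncard = 2 := by
  have : KE = {1, ⟨(QuaternionGroup.a 2, QuaternionGroup.a 2), 1⟩} := rfl
  rw [this, Set.ncard_pair]
  intro h
  have := congrArg (fun x : E => x.left.1) h
  exact absurd this (by decide)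

lemma card_range {f : E →* H} (hf : (f.ker : Set E) = KE) : Nat.card f.range = 64 := by
  have h1 : Nat.card f.ker = 2 := by
    have : Nat.card f.ker = (f.ker : Set E).ncard := rfl
    rw [this, hf, card_KE]
  have h2 := Subgroup.card_eq_card_quotient_mul_card_subgroup f.ker
  rw [card_E, h1] at h2
  have h3 : Nat.card (E ⧸ f.ker) = Nat.card f.range := Nat.card_congr (QuotientGroup.quotientKerEquivRange f).toEquiv
  omega

/-- two groups with a homomorphic image of `E` as Sylow subgroup -/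
theorem syl_E {H' : Type*} [Group H'] [Finite H] [Finite H'] {f : E →* H} {g : E →* H'} (hf : (f.ker : Set E) = KE)
    (hg : (g.ker : Set E) = KE) (h : (Nat.card H).factorization 2 = 6) (h' : (Nat.card H').factorization 2 = 6)
    (P : Sylow 2 H) (Q : Sylow 2 H') : Nonempty (P ≃* Q) := by
  have key : ∀ {L : Type _} [Group L] [Finite L] (f : E →* L), (f.ker : Set E) = KE → (Nat.card L).factorization 2 = 6 →
      ∀ P : Sylow 2 L, Nonempty (f.range ≃* P) := by
    intro L _ _ f hf h P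
    have h1 : Nat.card f.range = 2 ^ (Nat.card L).factorization 2 := by rw [card_range hf, h]; norm_num
    exact ⟨Sylow.equiv (Sylow.ofCard f.range h1) P⟩
  obtain ⟨e1⟩ := key f hf h P
  have h2 : Nat.card g.range = 2 ^ (Nat.card H').factorization 2 := by rw [card_range hg, h']; norm_num
  have e2 := Sylow.equiv (Sylow.ofCard g.range h2) Q
  have h3 : f.ker = g.ker := SetLike.coe_injective (hf.trans hg.symm)
  have e3 : f.range ≃* g.range := (QuotientGroup.quotientKerEquivRange f).symm.trans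
    ((QuotientGroup.quotientMulEquivOfEq h3).trans (QuotientGroup.quotientKerEquivRange g))
  exact ⟨e1.symm.trans (e3.trans e2)⟩

end E

section A8

open QuaternionGroup

/-- an outer automorphism -/
def al : Q8 → Q8
  | .a i => if i = 0 then a 0 else if i = 1 then xa 0 else if i = 2 then a 2 else xa 2
  | .xa i => if i = 0 then a 1 else if i = 1 then xa 3 else if i = 2 then a 3 else xa 1

lemma al_mul : ∀ x y : Q8, al (x * y) = al x * al y := by decide
lemma al_al : ∀ x : Q8, al (al x) = x := by decide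
lemma al_inv : ∀ x : Q8, al x⁻¹ = (al x)⁻¹ := by decide
lemma al_one : al 1 = 1 := by decide

def lr (p : Q8 × Q8) : Equiv.Perm Q8 where
  toFun x := p.1 * x * (al p.2)⁻¹
  invFun x := p.1⁻¹ * x * al p.2
  left_inv x := by group
  right_inv x := by group

def lrHom : Q8 × Q8 →* Equiv.Perm Q8 where
  toFun := lr
  map_one' := by
    ext x
    change 1 * x * (al 1)⁻¹ = x
    rw [al_one]; group
  map_mul' p q := by
    ext x
    change p.1 * q.1 * x * (al (p.2 * q.2))⁻¹ = p.1 * (q.1 * x * (al q.2)⁻¹) * (al p.2)⁻¹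
    rw [al_mul]; group

def ta : Equiv.Perm Q8 where
  toFun x := (al x)⁻¹
  invFun x := (al x)⁻¹
  left_inv x := by
    change (al (al x)⁻¹)⁻¹ = x
    rw [al_inv, inv_inv, al_al]
  right_inv x := by
    change (al (al x)⁻¹)⁻¹ = x
    rw [al_inv, inv_inv, al_al]

lemma sign_ta : Equiv.Perm.sign ta = 1 := by decide +kernel
lemma sign_lr : ∀ p : Q8 × Q8, Equiv.Perm.sign (lr p) = 1 := by decide +kernel

def fA : Q8 × Q8 →* alternatingGroup Q8 := lrHom.codRestrict _ (fun p => Equiv.Perm.mem_alternatingGroup.2 (sign_lr p))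
def tA : alternatingGroup Q8 := ⟨ta, Equiv.Perm.mem_alternatingGroup.2 sign_ta⟩

lemma tA_sq : tA * tA = 1 := by
  apply Subtype.ext
  ext x
  change (al (al x)⁻¹)⁻¹ = x
  rw [al_inv, inv_inv, al_al]

lemma tA_rel (p q : Q8) : tA * fA (p, q) = fA (q, p) * tA := by
  apply Subtype.ext
  ext x
  change (al (p * x * (al q)⁻¹))⁻¹ = q * (al x)⁻¹ * (al p)⁻¹
  rw [al_mul, al_mul, al_inv, al_al]; group

lemma fA_ker_aux : ∀ p : Q8 × Q8, (∀ x, p.1 * x * (al p.2)⁻¹ = x) ↔ p = 1 ∨ p = (a 2, a 2) := by decide +kernel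

lemma fA_ker (p : Q8 × Q8) : fA p = 1 ↔ p = 1 ∨ p = (a 2, a 2) := by
  rw [← fA_ker_aux]
  constructor
  · intro h x
    have := congrArg (fun z : alternatingGroup Q8 => (z : Equiv.Perm Q8) x) h
    exact this
  · intro h
    apply Subtype.ext
    ext x
    exact h x

lemma fA_ta_aux : ∀ p : Q8 × Q8, ¬ (∀ x, p.1 * (al x)⁻¹ * (al p.2)⁻¹ = x) := by decide +kernel

lemma fA_ta (p : Q8 × Q8) : fA p * tA ≠ 1 := by
  intro h
  apply fA_ta_aux p
  intro x
  have := congrArg (fun z : alternatingGroup Q8 => (z : Equiv.Perm Q8) x) h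
  exact this

end A8

section Sp

open QuaternionGroup

/-- matrices of the quaternion group over the field with three elements -/
def qm (x : Q8) : Matrix (Fin 2) (Fin 2) (ZMod 3) :=
  match x with
  | .a i => !![0, -1; 1, 0] ^ i.val
  | .xa i => !![1, 1; 1, -1] * !![0, -1; 1, 0] ^ i.val

lemma qm_mul : ∀ x y : Q8, qm (x * y) = qm x * qm y := by decide +kernel
lemma qm_one : qm 1 = 1 := by decide +kernel
lemma qm_inj : ∀ x : Q8, qm x = 1 → x = 1 := by decide +kernel
lemma qm_two : qm (a 2) = -1 := by decide +kernel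
lemma qm_det : ∀ x : Q8, qm x 0 0 * qm x 1 1 - qm x 0 1 * qm x 1 0 = 1 := by decide +kernel

variable {F : Type*} [Field F] [CharP F 3]

/-- over `F` -/
def qF (F : Type*) [Field F] [CharP F 3] (x : Q8) : Matrix (Fin 2) (Fin 2) F := (qm x).map (ZMod.castHom (dvd_refl 3) F)

lemma qF_mul (x y : Q8) : qF F (x * y) = qF F x * qF F y := by
  unfold qF
  rw [qm_mul, Matrix.map_mul]

lemma qF_one : qF F 1 = 1 := by
  unfold qF
  rw [qm_one]
  simp

lemma qF_inj {x : Q8} (h : qF F x = 1) : x = 1 := by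
  apply qm_inj
  have : Function.Injective (ZMod.castHom (dvd_refl 3) F) := ZMod.castHom_injective F
  ext i j
  apply this
  have h1 := congrFun (congrFun h i) j
  have h2 : (qF F x) i j = ZMod.castHom (dvd_refl 3) F (qm x i j) := rfl
  rw [← h2, h1]
  by_cases hij : i = j
  · subst hij; simp
  · simp [hij]

lemma qF_det (x : Q8) : qF F x 0 0 * qF F x 1 1 - qF F x 0 1 * qF F x 1 0 = 1 := by
  have h := congrArg (ZMod.castHom (dvd_refl 3) F) (qm_det x)
  rw [map_sub, map_mul, map_mul, map_one] at h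
  exact h

lemma qF_two : qF F (a 2) = -1 := by
  unfold qF
  rw [qm_two]
  ext i j
  by_cases hij : i = j
  · subst hij; simp
  · simp [hij]

/-- block sum of two planes -/
def sp2 (A B : Matrix (Fin 2) (Fin 2) F) : Matrix (Fin 2 ⊕ Fin 2) (Fin 2 ⊕ Fin 2) F :=
  fromBlocks (diagonal ![A 0 0, B 0 0]) (diagonal ![A 0 1, B 0 1]) (diagonal ![A 1 0, B 1 0]) (diagonal ![A 1 1, B 1 1])

lemma sp2_mul (A B C D : Matrix (Fin 2) (Fin 2) F) : sp2 A B * sp2 C D = sp2 (A * C) (B * D) := by
  unfold sp2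
  rw [fromBlocks_multiply]
  simp only [diagonal_mul_diagonal, diagonal_add]
  congr 1 <;> congr 1 <;> ext i <;> fin_cases i <;> simp [Matrix.mul_apply, Fin.sum_univ_two]

lemma sp2_one : sp2 (1 : Matrix (Fin 2) (Fin 2) F) 1 = 1 := by
  unfold sp2
  rw [← fromBlocks_one]
  congr 1 <;> ext i j <;> fin_cases i <;> fin_cases j <;> simp

lemma sp2_neg (A B : Matrix (Fin 2) (Fin 2) F) : sp2 (-A) (-B) = - sp2 A B := by
  ext i j
  rcases i with i | i <;> rcases j with j | j <;> fin_cases i <;> fin_cases j <;> simp [sp2]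

lemma sp2_mem {A B : Matrix (Fin 2) (Fin 2) F} (hA : A 0 0 * A 1 1 - A 0 1 * A 1 0 = 1)
    (hB : B 0 0 * B 1 1 - B 0 1 * B 1 0 = 1) : sp2 A B ∈ symplecticGroup (Fin 2) F := by
  rw [SymplecticGroup.mem_iff]
  unfold sp2 J
  rw [fromBlocks_transpose, fromBlocks_multiply, fromBlocks_multiply]
  simp only [diagonal_transpose, mul_zero, mul_one, mul_neg, zero_add, add_zero, neg_mul, diagonal_mul_diagonal,
    diagonal_neg, diagonal_add]
  congr 1
  · ext i j; fin_cases i <;> fin_cases j <;> simp <;> ring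
  · ext i j; fin_cases i <;> fin_cases j <;> simp <;> first | linear_combination -hA | linear_combination -hB
  · ext i j; fin_cases i <;> fin_cases j <;> simp <;> first | linear_combination hA | linear_combination hB
  · ext i j; fin_cases i <;> fin_cases j <;> simp <;> ring

/-- the swap of the planes -/
def sw (F : Type*) [Field F] : Matrix (Fin 2 ⊕ Fin 2) (Fin 2 ⊕ Fin 2) F := fromBlocks !![0, 1; 1, 0] 0 0 !![0, 1; 1, 0]

lemma sw_sq : sw F * sw F = 1 := by
  unfold sw
  rw [fromBlocks_multiply, ← fromBlocks_one]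
  congr 1 <;> ext i j <;> fin_cases i <;> fin_cases j <;> simp

lemma sw_mem : sw F ∈ symplecticGroup (Fin 2) F := by
  rw [SymplecticGroup.mem_iff]
  unfold sw J
  rw [fromBlocks_transpose, fromBlocks_multiply, fromBlocks_multiply]
  have hP : (!![0, 1; 1, 0] : Matrix (Fin 2) (Fin 2) F) * (!![0, 1; 1, 0] : Matrix (Fin 2) (Fin 2) F)ᵀ = 1 := by
    ext i j; fin_cases i <;> fin_cases j <;> simp [Matrix.mul_apply, Fin.sum_univ_two]
  congr 1 <;> simp only [mul_zero, zero_mul, mul_one, mul_neg, neg_mul, add_zero, zero_add, transpose_zero, hP, neg_zero]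

lemma sw_rel (A B : Matrix (Fin 2) (Fin 2) F) : sw F * sp2 A B = sp2 B A * sw F := by
  unfold sw sp2
  rw [fromBlocks_multiply, fromBlocks_multiply]
  have hP : ∀ x y : F, (!![0, 1; 1, 0] : Matrix (Fin 2) (Fin 2) F) * diagonal ![x, y] =
      diagonal ![y, x] * (!![0, 1; 1, 0] : Matrix (Fin 2) (Fin 2) F) := by
    intro x y
    ext i j; rw [Matrix.mul_diagonal, Matrix.diagonal_mul]; fin_cases i <;> fin_cases j <;> simp
  congr 1 <;> simp [hP]

lemma sp2_inj {A B : Matrix (Fin 2) (Fin 2) F} (h : sp2 A B = 1) : A = 1 ∧ B = 1 := by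
  have h' : ∀ i j, sp2 A B i j = (1 : Matrix (Fin 2 ⊕ Fin 2) (Fin 2 ⊕ Fin 2) F) i j := fun i j => by rw [h]
  have a00 := h' (Sum.inl 0) (Sum.inl 0)
  have a01 := h' (Sum.inl 0) (Sum.inr 0)
  have a10 := h' (Sum.inr 0) (Sum.inl 0)
  have a11 := h' (Sum.inr 0) (Sum.inr 0)
  have b00 := h' (Sum.inl 1) (Sum.inl 1)
  have b01 := h' (Sum.inl 1) (Sum.inr 1)
  have b10 := h' (Sum.inr 1) (Sum.inl 1)
  have b11 := h' (Sum.inr 1) (Sum.inr 1)
  simp [sp2] at a00 a01 a10 a11 b00 b01 b10 b11
  constructor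
  · ext i j; fin_cases i <;> fin_cases j <;> simp [a00, a01, a10, a11]
  · ext i j; fin_cases i <;> fin_cases j <;> simp [b00, b01, b10, b11]

variable (F)
def fS : Q8 × Q8 →* symplecticGroup (Fin 2) F where
  toFun p := ⟨sp2 (qF F p.1) (qF F p.2), sp2_mem (qF_det p.1) (qF_det p.2)⟩
  map_one' := by
    apply Subtype.ext
    change sp2 (qF F 1) (qF F 1) = 1
    rw [qF_one, sp2_one]
  map_mul' p q := by
    apply Subtype.ext
    change sp2 (qF F (p.1 * q.1)) (qF F (p.2 * q.2)) = sp2 (qF F p.1) (qF F p.2) * sp2 (qF F q.1) (qF F q.2)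
    rw [sp2_mul, qF_mul, qF_mul]

def sS : symplecticGroup (Fin 2) F := ⟨sw F, sw_mem⟩

lemma fS_inj : Function.Injective (fS F) := by
  rw [injective_iff_map_eq_one]
  rintro ⟨x, y⟩ h
  have h1 : sp2 (qF F x) (qF F y) = 1 := congrArg Subtype.val h
  obtain ⟨h2, h3⟩ := sp2_inj h1
  rw [qF_inj h2, qF_inj h3]; rfl

lemma sS_sq : sS F * sS F = 1 := Subtype.ext sw_sq

lemma sS_rel (x y : Q8) : sS F * fS F (x, y) = fS F (y, x) * sS F := Subtype.ext (sw_rel _ _)

lemma Q8_center : ∀ x : Q8, (∀ c, x * c = c * x) → x = 1 ∨ x = a 2 := by decide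

lemma fS_center (p : Q8 × Q8) : fS F p ∈ Subgroup.center (symplecticGroup (Fin 2) F) ↔ p = 1 ∨ p = (a 2, a 2) := by
  obtain ⟨x, y⟩ := p
  constructor
  · intro h
    rw [Subgroup.mem_center_iff] at h
    have h1 := h (sS F)
    rw [sS_rel] at h1
    have h2 := fS_inj F (mul_right_cancel h1)
    have h3 : y = x := congrArg Prod.fst h2
    subst h3
    have h4 : ∀ c, y * c = c * y := by
      intro c
      have h5 := h (fS F (c, 1))
      rw [← map_mul, ← map_mul] at h5
      exact (congrArg Prod.fst (fS_inj F h5)).symm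
    rcases Q8_center y h4 with rfl | rfl
    · exact Or.inl rfl
    · exact Or.inr rfl
  · rintro (h | h)
    · rw [h, map_one]; exact one_mem _
    · rw [h, Subgroup.mem_center_iff]
      intro g
      apply Subtype.ext
      change (g : Matrix (Fin 2 ⊕ Fin 2) (Fin 2 ⊕ Fin 2) F) * sp2 (qF F (a 2)) (qF F (a 2)) = sp2 (qF F (a 2)) (qF F (a 2)) * g
      rw [qF_two, sp2_neg, sp2_one]
      simp

lemma fS_sS (p : Q8 × Q8) : fS F p * sS F ∉ Subgroup.center (symplecticGroup (Fin 2) F) := by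
  obtain ⟨x, y⟩ := p
  intro h
  rw [Subgroup.mem_center_iff] at h
  have h5 := h (fS F (a 1, 1))
  rw [mul_assoc, sS_rel, ← mul_assoc, ← mul_assoc, ← map_mul, ← map_mul] at h5
  have h6 := fS_inj F (mul_right_cancel h5)
  have h7 : a 1 * x = x * 1 := congrArg Prod.fst h6
  rw [mul_one] at h7
  have h8 := mul_eq_right.1 h7
  exact absurd h8 (by decide)

/-- the quotient map -/
def pr : symplecticGroup (Fin 2) F →* Cfsg.PSp 2 F := QuotientGroup.mk' _

lemma pr_eq_one (x : symplecticGroup (Fin 2) F) : pr F x = 1 ↔ x ∈ Subgroup.center (symplecticGroup (Fin 2) F) := by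
  change (QuotientGroup.mk' _) x = 1 ↔ _
  rw [← MonoidHom.mem_ker, QuotientGroup.ker_mk']

theorem part1 (F : Type) [Field F] [Fintype F] (hF : Fintype.card F = 3) (P : Sylow 2 ↥(alternatingGroup (Fin 8)))
    (Q : Sylow 2 (Cfsg.PSp 2 F)) :
    Nonempty (↥(P : Subgroup ↥(alternatingGroup (Fin 8))) ≃* ↥(Q : Subgroup (Cfsg.PSp 2 F))) := by
  classical
  have : Fact (Nat.Prime 3) := ⟨Nat.prime_three⟩
  have : CharP F 3 := charP_of_card_eq_prime_pow (p := 3) (f := 1) (by rw [hF]; norm_num)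
  let e8 : Q8 ≃ Fin 8 := Fintype.equivFinOfCardEq (by rw [QuaternionGroup.card])
  let eA : alternatingGroup Q8 ≃* alternatingGroup (Fin 8) := e8.altCongrHom
  let f : E →* alternatingGroup (Fin 8) := eA.toMonoidHom.comp (liftE fA tA tA_sq tA_rel)
  have hf : (f.ker : Set E) = KE := by
    rw [← ker_liftE fA tA tA_sq tA_rel fA_ker fA_ta]
    ext x
    simp only [SetLike.mem_coe, MonoidHom.mem_ker]
    exact eA.map_eq_one_iff
  let g : E →* Cfsg.PSp 2 F := (pr F).comp (liftE (fS F) (sS F) (sS_sq F) (sS_rel F))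
  have hg : (g.ker : Set E) = KE := by
    have hr : ∀ x y, pr F (sS F) * (pr F).comp (fS F) (x, y) = (pr F).comp (fS F) (y, x) * pr F (sS F) := by
      intro x y
      rw [MonoidHom.comp_apply, MonoidHom.comp_apply, ← map_mul, ← map_mul, sS_rel]
    have h1 : g = liftE ((pr F).comp (fS F)) (pr F (sS F)) (by rw [← map_mul, sS_sq, map_one]) hr := by
      apply MonoidHom.ext
      rintro ⟨n, c⟩
      obtain ⟨c, rfl⟩ := Multiplicative.ofAdd.surjective c
      have h0 : c = 0 ∨ c = 1 := by revert c; decide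
      rcases h0 with rfl | rfl
      · rw [ofAdd_zero, liftE_inl, MonoidHom.comp_apply, liftE_inl]; rfl
      · rw [liftE_inr, MonoidHom.comp_apply, liftE_inr, map_mul]; rfl
    rw [h1]
    refine ker_liftE _ _ _ _ (fun n => ?_) (fun n => ?_)
    · rw [MonoidHom.comp_apply, pr_eq_one, fS_center]
    · rw [MonoidHom.comp_apply, ← map_mul, Ne, pr_eq_one]
      exact fS_sS F n
  refine syl_E hf hg ?_ ?_ P Q
  · refine fact2 (m := 315) ?_ (by norm_num)
    have h1 := two_mul_nat_card_alternatingGroup (α := Fin 8)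
    rw [Nat.card_perm, Nat.card_fin] at h1
    have : Nat.factorial 8 = 40320 := by decide
    rw [this] at h1
    omega
  · refine fact2 (m := 405) ?_ (by norm_num)
    have h1 : Nat.card (symplecticGroup (Fin 2) F) = Nat.card (Cfsg.PSp 2 F) * Nat.card (Subgroup.center (symplecticGroup (Fin 2) F)) :=
      Subgroup.card_eq_card_quotient_mul_card_subgroup _
    rw [Cfsg.Agent.ClassSp.card_fin, Cfsg.Agent.ClassSp.card_center, hF] at h1
    generalize Nat.card (Cfsg.PSp 2 F) = c at h1 ⊢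
    norm_num [Finset.prod_range_succ] at h1
    omega

end Sp

section B

variable {K : Type} [Field K]

/-- permuting coordinates -/
def prm (K : Type) [Field K] : Equiv.Perm (Fin 4) →* MulAut (Multiplicative (Fin 4 → K)) where
  toFun σ :=
    { toFun := fun u => Multiplicative.ofAdd (fun i => u.toAdd (σ⁻¹ i))
      invFun := fun u => Multiplicative.ofAdd (fun i => u.toAdd (σ i))
      left_inv := fun u => by
        apply Multiplicative.toAdd.injective
        funext i
        change u.toAdd (σ⁻¹ (σ i)) = u.toAdd i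
        simp
      right_inv := fun u => by
        apply Multiplicative.toAdd.injective
        funext i
        change u.toAdd (σ (σ⁻¹ i)) = u.toAdd i
        simp
      map_mul' := fun u v => rfl }
  map_one' := rfl
  map_mul' σ τ := by
    apply MulEquiv.ext
    intro u
    apply Multiplicative.toAdd.injective
    funext i
    change u.toAdd ((σ * τ)⁻¹ i) = u.toAdd (τ⁻¹ (σ⁻¹ i))
    rw [_root_.mul_inv_rev]; rfl

abbrev BB (K : Type) [Field K] := Multiplicative (Fin 4 → K) ⋊[prm K] Equiv.Perm (Fin 4)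

instance [Fintype K] : Finite (BB K) := by
  classical
  exact Finite.of_equiv _ (SemidirectProduct.equivProd (φ := prm K)).symm

lemma card_BB [Fintype K] (hK : Fintype.card K = 2) : Nat.card (BB K) = 384 := by
  rw [SemidirectProduct.card, Nat.card_perm]
  have : Nat.card (Multiplicative (Fin 4 → K)) = 16 := by
    have h : Nat.card (Multiplicative (Fin 4 → K)) = Nat.card (Fin 4 → K) := rfl
    rw [h, Nat.card_fun, Nat.card_eq_fintype_card, Nat.card_eq_fintype_card, hK, Fintype.card_fin]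
    norm_num
  rw [this, Nat.card_fin]
  decide

/-! the action on `Fin 4 × K` -/

def p1 (K : Type) [Field K] : Multiplicative (Fin 4 → K) →* Equiv.Perm (Fin 4 × K) where
  toFun u :=
    { toFun := fun x => (x.1, x.2 + u.toAdd x.1)
      invFun := fun x => (x.1, x.2 - u.toAdd x.1)
      left_inv := fun x => by simp
      right_inv := fun x => by simp }
  map_one' := by ext x <;> simp
  map_mul' u v := by
    ext x
    · rfl
    · change x.2 + (u.toAdd x.1 + v.toAdd x.1) = x.2 + v.toAdd x.1 + u.toAdd x.1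
      ring

def p2 (K : Type) [Field K] : Equiv.Perm (Fin 4) →* Equiv.Perm (Fin 4 × K) where
  toFun σ :=
    { toFun := fun x => (σ x.1, x.2)
      invFun := fun x => (σ⁻¹ x.1, x.2)
      left_inv := fun x => by simp
      right_inv := fun x => by simp }
  map_one' := rfl
  map_mul' σ τ := rfl

def pB (K : Type) [Field K] : BB K →* Equiv.Perm (Fin 4 × K) :=
  SemidirectProduct.lift (p1 K) (p2 K) (by
    intro σ
    apply MonoidHom.ext
    intro u
    change p1 K (prm K σ u) = p2 K σ * p1 K u * (p2 K σ)⁻¹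
    rw [eq_mul_inv_iff_mul_eq]
    ext x : 1
    change (σ x.1, x.2 + u.toAdd (σ⁻¹ (σ x.1))) = (σ x.1, x.2 + u.toAdd x.1)
    simp)

lemma pB_inj : Function.Injective (pB K) := by
  rw [injective_iff_map_eq_one]
  rintro ⟨u, σ⟩ h
  have h1 : ∀ x : Fin 4 × K, (σ x.1, x.2 + u.toAdd (σ x.1)) = x := fun x => congrArg (fun e : Equiv.Perm (Fin 4 × K) => e x) h
  have h2 : σ = 1 := by
    ext i
    exact congrArg (fun y : Fin 4 × K => (y.1 : ℕ)) (h1 (i, 0))
  subst h2
  ext1
  · apply Multiplicative.toAdd.injective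
    funext i
    have h3 := congrArg Prod.snd (h1 (i, 0))
    simpa using h3
  · rfl

/-! the orthogonal side -/

/-- the form on even vectors -/
def qW (w : Fin 4 → K) : K :=
  w 0 ^ 2 + w 1 ^ 2 + w 2 ^ 2 + w 3 ^ 2 + (w 0 * w 1 + w 0 * w 2 + w 0 * w 3 + w 1 * w 2 + w 1 * w 3 + w 2 * w 3)

/-- its polar form (up to even terms) -/
def bW (w u : Fin 4 → K) : K :=
  w 0 * (u 1 + u 2 + u 3) + w 1 * (u 0 + u 2 + u 3) + w 2 * (u 0 + u 1 + u 3) + w 3 * (u 0 + u 1 + u 2)

lemma qW_perm_two : ∀ (w : Fin 4 → ZMod 2) (σ : Equiv.Perm (Fin 4)), qW (fun i => w (σ i)) = qW w := by decide +kernel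
lemma bW_perm_two : ∀ (w u : Fin 4 → ZMod 2) (σ : Equiv.Perm (Fin 4)), bW (fun i => w (σ i)) (fun i => u (σ i)) = bW w u := by
  decide +kernel

lemma map_qW (e : K ≃+* ZMod 2) (w : Fin 4 → K) : e (qW w) = qW (fun i => e (w i)) := by
  simp [qW]
lemma map_bW (e : K ≃+* ZMod 2) (w u : Fin 4 → K) : e (bW w u) = bW (fun i => e (w i)) (fun i => e (u i)) := by
  simp [bW]

lemma qW_perm (e : K ≃+* ZMod 2) (w : Fin 4 → K) (σ : Equiv.Perm (Fin 4)) : qW (fun i => w (σ i)) = qW w := by
  apply e.injective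
  rw [map_qW, map_qW]
  exact qW_perm_two (fun i => e (w i)) σ
lemma bW_perm (e : K ≃+* ZMod 2) (w u : Fin 4 → K) (σ : Equiv.Perm (Fin 4)) :
    bW (fun i => w (σ i)) (fun i => u (σ i)) = bW w u := by
  apply e.injective
  rw [map_bW, map_bW]
  exact bW_perm_two (fun i => e (w i)) (fun i => e (u i)) σ

lemma two0 (e : K ≃+* ZMod 2) : (2 : K) = 0 := by
  apply e.injective
  rw [map_zero, map_ofNat]; decide

lemma qW_add (e : K ≃+* ZMod 2) (w u : Fin 4 → K) : qW (w + u) = qW w + qW u + bW w u := by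
  have h := two0 e
  simp only [qW, bW, Pi.add_apply]
  linear_combination (w 0 * u 0 + w 1 * u 1 + w 2 * u 2 + w 3 * u 3) * h

lemma qW_smul (c : K) (w : Fin 4 → K) : qW (c • w) = c ^ 2 * qW w := by
  simp only [qW, Pi.smul_apply, smul_eq_mul]; ring
lemma bW_add_left (w w' u : Fin 4 → K) : bW (w + w') u = bW w u + bW w' u := by
  simp only [bW, Pi.add_apply]; ring
lemma bW_add_right (w u u' : Fin 4 → K) : bW w (u + u') = bW w u + bW w u' := by
  simp only [bW, Pi.add_apply]; ring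
lemma bW_smul_left (c : K) (w u : Fin 4 → K) : bW (c • w) u = c * bW w u := by
  simp only [bW, Pi.smul_apply, smul_eq_mul]; ring
lemma bW_smul_right (c : K) (w u : Fin 4 → K) : bW w (c • u) = c * bW w u := by
  simp only [bW, Pi.smul_apply, smul_eq_mul]; ring
lemma bW_comm (w u : Fin 4 → K) : bW w u = bW u w := by
  simp only [bW]; ring

abbrev VV (K : Type) := K × (Fin 4 → K) × K

/-- Siegel map as a linear map -/
def sg (u : Fin 4 → K) : VV K →ₗ[K] VV K where
  toFun v := (v.1 + bW v.2.1 u + qW u * v.2.2, v.2.1 + v.2.2 • u, v.2.2)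
  map_add' v w := by
    refine Prod.ext ?_ (Prod.ext ?_ ?_)
    · change (v.1 + w.1) + bW (v.2.1 + w.2.1) u + qW u * (v.2.2 + w.2.2) =
        (v.1 + bW v.2.1 u + qW u * v.2.2) + (w.1 + bW w.2.1 u + qW u * w.2.2)
      rw [bW_add_left]; ring
    · change (v.2.1 + w.2.1) + (v.2.2 + w.2.2) • u = (v.2.1 + v.2.2 • u) + (w.2.1 + w.2.2 • u)
      rw [add_smul]; abel
    · rfl
  map_smul' c v := by
    refine Prod.ext ?_ (Prod.ext ?_ ?_)
    · change (c * v.1) + bW (c • v.2.1) u + qW u * (c * v.2.2) = c * (v.1 + bW v.2.1 u + qW u * v.2.2)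
      rw [bW_smul_left]; ring
    · change (c • v.2.1) + (c * v.2.2) • u = c • (v.2.1 + v.2.2 • u)
      rw [smul_add, mul_smul]
    · rfl

lemma sg_mul (e : K ≃+* ZMod 2) (u u' : Fin 4 → K) (v : VV K) : sg u (sg u' v) = sg (u + u') v := by
  refine Prod.ext ?_ (Prod.ext ?_ ?_)
  · change (v.1 + bW v.2.1 u' + qW u' * v.2.2) + bW (v.2.1 + v.2.2 • u') u + qW u * v.2.2 =
      v.1 + bW v.2.1 (u + u') + qW (u + u') * v.2.2
    rw [bW_add_left, bW_smul_left, bW_add_right, qW_add e, bW_comm u u']; ring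
  · change (v.2.1 + v.2.2 • u') + v.2.2 • u = v.2.1 + v.2.2 • (u + u')
    rw [smul_add]; abel
  · rfl

lemma sg_zero (v : VV K) : sg 0 v = v := by
  refine Prod.ext ?_ (Prod.ext ?_ ?_)
  · change v.1 + bW v.2.1 0 + qW 0 * v.2.2 = v.1
    simp [bW, qW]
  · change v.2.1 + v.2.2 • (0 : Fin 4 → K) = v.2.1
    simp
  · rfl

lemma add_self (e : K ≃+* ZMod 2) (u : Fin 4 → K) : u + u = 0 := by
  funext i
  have := two0 e
  change u i + u i = 0
  linear_combination (u i) * this

/-- Siegel maps -/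
def s1 (e : K ≃+* ZMod 2) : Multiplicative (Fin 4 → K) →* (VV K ≃ₗ[K] VV K) where
  toFun u := { sg u.toAdd with
    invFun := sg u.toAdd
    left_inv := fun v => by
      change sg u.toAdd (sg u.toAdd v) = v
      rw [sg_mul e, add_self e, sg_zero]
    right_inv := fun v => by
      change sg u.toAdd (sg u.toAdd v) = v
      rw [sg_mul e, add_self e, sg_zero] }
  map_one' := by
    apply LinearEquiv.ext
    intro v
    exact sg_zero v
  map_mul' u u' := by
    apply LinearEquiv.ext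
    intro v
    exact (sg_mul e _ _ v).symm

/-- permutations of coordinates -/
def s2 (K : Type) [Field K] : Equiv.Perm (Fin 4) →* (VV K ≃ₗ[K] VV K) where
  toFun σ :=
    { toFun := fun v => (v.1, fun i => v.2.1 (σ⁻¹ i), v.2.2)
      invFun := fun v => (v.1, fun i => v.2.1 (σ i), v.2.2)
      left_inv := fun v => by simp
      right_inv := fun v => by simp
      map_add' := fun v w => rfl
      map_smul' := fun c v => rfl }
  map_one' := rfl
  map_mul' σ τ := by
    apply LinearEquiv.ext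
    intro v
    refine Prod.ext rfl (Prod.ext ?_ rfl)
    funext i
    change v.2.1 ((σ * τ)⁻¹ i) = v.2.1 (τ⁻¹ (σ⁻¹ i))
    rw [_root_.mul_inv_rev]; rfl

def sB (e : K ≃+* ZMod 2) : BB K →* (VV K ≃ₗ[K] VV K) :=
  SemidirectProduct.lift (s1 e) (s2 K) (by
    intro σ
    apply MonoidHom.ext
    intro u
    change s1 e (prm K σ u) = s2 K σ * s1 e u * (s2 K σ)⁻¹
    rw [eq_mul_inv_iff_mul_eq]
    apply LinearEquiv.ext
    intro v
    refine Prod.ext ?_ (Prod.ext ?_ ?_)
    · change v.1 + bW (fun i => v.2.1 (σ⁻¹ i)) (fun i => u.toAdd (σ⁻¹ i)) + qW (fun i => u.toAdd (σ⁻¹ i)) * v.2.2 =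
        v.1 + bW v.2.1 u.toAdd + qW u.toAdd * v.2.2
      rw [bW_perm e, qW_perm e]
    · rfl
    · rfl)

lemma sB_inj (e : K ≃+* ZMod 2) : Function.Injective (sB e) := by
  rw [injective_iff_map_eq_one]
  rintro ⟨u, σ⟩ h
  have h1 : ∀ v : VV K, s1 e u (s2 K σ v) = v := fun v => congrArg (fun e : (VV K ≃ₗ[K] VV K) => e v) h
  have h2 : ∀ v : VV K, (fun i => v.2.1 (σ⁻¹ i)) + v.2.2 • u.toAdd = v.2.1 := fun v => congrArg (fun y : VV K => y.2.1) (h1 v)
  have h3 : u = 1 := by
    have := h2 (0, 0, 1)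
    apply Multiplicative.toAdd.injective
    funext i
    have h9 := congrFun this i
    simpa using h9
  subst h3
  have h4 : σ⁻¹ = 1 := by
    ext i
    by_contra hne
    have h5 := congrFun (h2 (0, Pi.single i 1, 0)) i
    have h6 : (Pi.single i (1 : K) : Fin 4 → K) (σ⁻¹ i) + 0 = 1 := by simpa using h5
    rw [Pi.single_eq_of_ne (fun h7 => hne (by rw [h7]; rfl))] at h6
    simp at h6
  ext1
  · rfl
  · exact inv_eq_one.1 h4

/-- the form on `VV` -/
def qV (v : VV K) : K := v.1 * v.2.2 + qW v.2.1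

lemma qV_sB (e : K ≃+* ZMod 2) (x : BB K) (v : VV K) : qV (sB e x v) = qV v := by
  obtain ⟨u, σ⟩ := x
  change qV (s1 e u (s2 K σ v)) = qV v
  have h1 : ∀ v : VV K, qV (s1 e u v) = qV v := by
    intro v
    change (v.1 + bW v.2.1 u.toAdd + qW u.toAdd * v.2.2) * v.2.2 + qW (v.2.1 + v.2.2 • u.toAdd) = v.1 * v.2.2 + qW v.2.1
    rw [qW_add e, qW_smul, bW_smul_right]
    linear_combination (bW v.2.1 u.toAdd * v.2.2 + qW u.toAdd * v.2.2 ^ 2) * (two0 e)
  rw [h1]
  change v.1 * v.2.2 + qW (fun i => v.2.1 (σ⁻¹ i)) = _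
  rw [qW_perm e]; rfl

/-- the coordinates -/
def LL (K : Type) [Field K] : ((Fin 2 ⊕ Fin 2) ⊕ Fin 2 → K) ≃ₗ[K] VV K where
  toFun v := (v (.inl (.inl 0)), ![v (.inl (.inr 1)), v (.inl (.inl 1)), v (.inl (.inl 1)) + v (.inl (.inr 1)) + v (.inr 0),
    v (.inl (.inl 1)) + v (.inl (.inr 1)) + v (.inr 0) + v (.inr 1)], v (.inl (.inr 0)))
  invFun v := Sum.elim (Sum.elim ![v.1, v.2.1 1] ![v.2.2, v.2.1 0]) ![v.2.1 2 - v.2.1 1 - v.2.1 0, v.2.1 3 - v.2.1 2]
  left_inv v := by
    funext i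
    rcases i with (i | i) | i <;> fin_cases i <;> simp <;> ring
  right_inv v := by
    refine Prod.ext ?_ (Prod.ext ?_ ?_)
    · simp
    · funext i
      fin_cases i <;> simp
    · simp
  map_add' v w := by
    refine Prod.ext ?_ (Prod.ext ?_ ?_)
    · simp
    · funext i
      fin_cases i <;> simp <;> ring
    · simp
  map_smul' c v := by
    refine Prod.ext ?_ (Prod.ext ?_ ?_)
    · simp
    · funext i
      fin_cases i <;> simp <;> ring
    · simp

lemma qm_two' : ∀ x y z w : ZMod 2, qW ![y, x, x + y + z, x + y + z + w] = x * y + (z ^ 2 + z * w + w ^ 2) := by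
  decide +kernel

lemma qV_LL (e : K ≃+* ZMod 2) (v : (Fin 2 ⊕ Fin 2) ⊕ Fin 2 → K) : qV (LL K v) = Cfsg.quadFormMinus 2 K 1 1 v := by
  change v (.inl (.inl 0)) * v (.inl (.inr 0)) + qW ![v (.inl (.inr 1)), v (.inl (.inl 1)), v (.inl (.inl 1)) + v (.inl (.inr 1)) + v (.inr 0),
    v (.inl (.inl 1)) + v (.inl (.inr 1)) + v (.inr 0) + v (.inr 1)] = _
  have key : ∀ x y z w : K, qW ![y, x, x + y + z, x + y + z + w] = x * y + (z ^ 2 + z * w + w ^ 2) := by
    intro x y z w
    apply e.injective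
    rw [map_qW]
    have h1 : (fun i => e ((![y, x, x + y + z, x + y + z + w] : Fin 4 → K) i)) =
        ![e y, e x, e x + e y + e z, e x + e y + e z + e w] := by
      funext i; fin_cases i <;> simp
    rw [h1, qm_two']
    simp
  rw [key, Cfsg.quadFormMinus, Fin.sum_univ_two]
  ring

/-- matrices of linear maps -/
noncomputable def mxx {ι : Type} [Fintype ι] [DecidableEq ι] : ((ι → K) ≃ₗ[K] (ι → K)) ≃* GL ι K :=
  (LinearMap.GeneralLinearGroup.generalLinearEquiv K (ι → K)).symm.trans Matrix.GeneralLinearGroup.toLin.symm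

lemma mxx_mulVec {ι : Type} [Fintype ι] [DecidableEq ι] (g : (ι → K) ≃ₗ[K] (ι → K)) (v : ι → K) :
    ((mxx g : GL ι K) : Matrix ι ι K) *ᵥ v = g v := by
  have h : g = mxx.symm (mxx g) := (MulEquiv.symm_apply_apply mxx g).symm
  conv_rhs => rw [h]
  rfl

def cjL (K : Type) [Field K] : (VV K ≃ₗ[K] VV K) →*
    (((Fin 2 ⊕ Fin 2) ⊕ Fin 2 → K) ≃ₗ[K] ((Fin 2 ⊕ Fin 2) ⊕ Fin 2 → K)) where
  toFun g := (LL K).trans (g.trans (LL K).symm)
  map_one' := by
    apply LinearEquiv.ext
    intro v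
    exact (LL K).symm_apply_apply v
  map_mul' g h := by
    apply LinearEquiv.ext
    intro v
    change (LL K).symm (g (h (LL K v))) = (LL K).symm (g ((LL K) ((LL K).symm (h (LL K v)))))
    rw [LinearEquiv.apply_symm_apply]

lemma cjL_inj : Function.Injective (cjL K) := by
  intro g h hgh
  apply LinearEquiv.ext
  intro v
  have := congrArg (fun e : (((Fin 2 ⊕ Fin 2) ⊕ Fin 2 → K) ≃ₗ[K] ((Fin 2 ⊕ Fin 2) ⊕ Fin 2 → K)) => LL K (e ((LL K).symm v))) hgh
  change LL K ((LL K).symm (g (LL K ((LL K).symm v)))) = LL K ((LL K).symm (h (LL K ((LL K).symm v)))) at this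
  simpa using this

noncomputable def oB (e : K ≃+* ZMod 2) : BB K →* Cfsg.isometryGroup K (Cfsg.quadFormMinus 2 K 1 1) :=
  ((mxx (K := K) (ι := (Fin 2 ⊕ Fin 2) ⊕ Fin 2)).toMonoidHom.comp ((cjL K).comp (sB e))).codRestrict _ (by
    intro x u v
    change Cfsg.quadFormMinus 2 K 1 1 (((mxx (cjL K (sB e x)) : GL ((Fin 2 ⊕ Fin 2) ⊕ Fin 2) K) :
      Matrix ((Fin 2 ⊕ Fin 2) ⊕ Fin 2) ((Fin 2 ⊕ Fin 2) ⊕ Fin 2) K) *ᵥ u) = Cfsg.quadFormMinus 2 K 1 1 u
    rw [mxx_mulVec, ← qV_LL e, ← qV_LL e]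
    change qV (LL K ((LL K).symm (sB e x (LL K u)))) = _
    rw [LinearEquiv.apply_symm_apply, qV_sB])

lemma oB_inj (e : K ≃+* ZMod 2) : Function.Injective (oB e) := by
  intro x y h
  have h1 := congrArg Subtype.val h
  exact sB_inj e (cjL_inj (mxx.injective h1))

theorem part2 (K : Type) [Field K] [Fintype K] (hK : Fintype.card K = 2) (a b : K)
    (hab : ∀ z₁ z₂ : K, z₁ ^ 2 + a * z₁ * z₂ + b * z₂ ^ 2 = 0 → z₁ = 0 ∧ z₂ = 0)
    (P' : Sylow 2 (Equiv.Perm (Fin 8))) (Q' : Sylow 2 ↥(Cfsg.isometryGroup K (Cfsg.quadFormMinus 2 K a b))) :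
    Nonempty (↥(P' : Subgroup (Equiv.Perm (Fin 8))) ≃* ↥(Q' : Subgroup ↥(Cfsg.isometryGroup K (Cfsg.quadFormMinus 2 K a b)))) := by
  classical
  let e : K ≃+* ZMod 2 := (ZMod.ringEquivOfPrime K Nat.prime_two hK).symm
  have h01 : ∀ c : K, c = 0 ∨ c = 1 := by
    intro c
    have : e c = 0 ∨ e c = 1 := by
      have : ∀ c : ZMod 2, c = 0 ∨ c = 1 := by decide
      exact this _
    rcases this with h | h
    · left; apply e.injective; rw [h, map_zero]
    · right; apply e.injective; rw [h, map_one]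
  have hb : b = 1 := by
    rcases h01 b with h | h
    · exfalso
      have := (hab 0 1 (by rw [h]; ring)).2
      exact one_ne_zero this
    · exact h
  have ha : a = 1 := by
    rcases h01 a with h | h
    · exfalso
      have := (hab 1 1 (by rw [h, hb]; linear_combination two0 e)).2
      exact one_ne_zero this
    · exact h
  have hord : Nat.card (Cfsg.isometryGroup K (Cfsg.quadFormMinus 2 K a b)) = 2 ^ 7 * 405 := by
    rw [Cfsg.Agent.OrthCount.order_minus 2 (Cfsg.Agent.OrthCount.aniso_of hab), Nat.card_eq_fintype_card, hK]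
    norm_num [Finset.prod_range_succ]
  subst hb
  subst ha
  obtain ⟨S⟩ : Nonempty (Sylow 2 (BB K)) := inferInstance
  have hfB : (Nat.card (BB K)).factorization 2 = 7 := fact2 (m := 3) (by rw [card_BB hK]; norm_num) (by norm_num)
  have hf8 : (Nat.card (Equiv.Perm (Fin 8))).factorization 2 = 7 := by
    refine fact2 (m := 315) ?_ (by norm_num)
    rw [Nat.card_perm, Nat.card_fin]
    decide
  have hfO : (Nat.card (Cfsg.isometryGroup K (Cfsg.quadFormMinus 2 K 1 1))).factorization 2 = 7 :=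
    fact2 (m := 405) hord (by norm_num)
  have e8 : Fin 4 × K ≃ Fin 8 := Fintype.equivFinOfCardEq (by rw [Fintype.card_prod, hK, Fintype.card_fin])
  have hinj : Function.Injective ((e8.permCongrHom).toMonoidHom.comp (pB K)) := by
    intro x y h
    exact pB_inj (e8.permCongrHom.injective h)
  obtain ⟨E1⟩ := syl_equiv _ hinj (hfB.trans hf8.symm) S P'
  obtain ⟨E2⟩ := syl_equiv (oB e) (oB_inj e) (hfB.trans hfO.symm) S Q'
  exact ⟨E1.symm.trans E2⟩

end B

/-- The Sylow 2-subgroups of the alternating group of degree 8 and of PSp₄(3) are isomorphic, and so are the Sylow 2-subgroups of the symmetric group of degree 8 and of the full isometry group of a non-degenerate quadratic form of minus type in dimension 6 over the field with 2 elements. -/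
theorem result (F : Type) [Field F] [Fintype F] (hF : Fintype.card F = 3) (K : Type) [Field K] [Fintype K] (hK : Fintype.card K = 2) (a b : K) (hab : ∀ z₁ z₂ : K, z₁ ^ 2 + a * z₁ * z₂ + b * z₂ ^ 2 = 0 → z₁ = 0 ∧ z₂ = 0) (P : Sylow 2 ↥(alternatingGroup (Fin 8))) (Q : Sylow 2 (Cfsg.PSp 2 F)) (P' : Sylow 2 (Equiv.Perm (Fin 8))) (Q' : Sylow 2 ↥(Cfsg.isometryGroup K (Cfsg.quadFormMinus 2 K a b))) : Nonempty (↥(P : Subgroup ↥(alternatingGroup (Fin 8))) ≃* ↥(Q : Subgroup (Cfsg.PSp 2 F))) ∧ Nonempty (↥(P' : Subgroup (Equiv.Perm (Fin 8))) ≃* ↥(Q' : Subgroup ↥(Cfsg.isometryGroup K (Cfsg.quadFormMinus 2 K a b)))) := by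

  exact ⟨part1 F hF P Q, part2 K hK a b hab P' Q'⟩


end Cfsg.Agent.S2931
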