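import Cfsg.Statements.S2932
import Cfsg.Agent.Uni36.NS.G
-- import your own Cfsg.Agent.* helpers here

set_option autoImplicit false
open Cfsg

namespace Cfsg.Agent.S2932


theorem aux {X : Type*} [Group X] [Finite X] {p : ℕ} [Fact p.Prime] (F : Type) [Field F] [Fintype F] [CharP F p] (V G L : Subgroup X)
    (hGV : G ≤ Subgroup.normalizer (V : Set X)) (hfaith : G ⊓ Subgroup.centralizer (V : Set X) = ⊥) (hLG : L ≤ G)
    (hnat : Cfsg.IsNaturalSL2Module F V L)
    (hSyl : ∀ S : Sylow p ↥(G ⊓ Subgroup.normalizer (L : Set X)), ∀ P : Sylow p ↥G, Nat.card S = Nat.card P) :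
    (L.subgroupOf G).Normal ∨ (Fintype.card F = 4 ∧ Nonempty (↥G ≃* ↥(alternatingGroup (Fin 7)))) := by
  classical
  obtain ⟨hLV, ρ, ψ, hρ, hker, hact⟩ := hnat
  -- conjugation on `V`
  have hcj : ∀ (g : G) (v : V), (g : X) * (v : X) * (g : X)⁻¹ ∈ V := fun g v =>
    (Subgroup.mem_normalizer_iff.mp (hGV g.2) v).mp v.2
  let cj : G → V → V := fun g v => ⟨(g : X) * (v : X) * (g : X)⁻¹, hcj g v⟩
  have hcjv : ∀ g v, ((cj g v : V) : X) = (g : X) * (v : X) * (g : X)⁻¹ := fun _ _ => rfl
  have cj_mul : ∀ g v w, cj g (v * w) = cj g v * cj g w := fun g v w => Subtype.ext (by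
    rw [Subgroup.coe_mul, hcjv, hcjv, hcjv, Subgroup.coe_mul]; group)
  have cj_cj : ∀ g h v, cj (g * h) v = cj g (cj h v) := fun g h v => Subtype.ext (by
    rw [hcjv, hcjv, hcjv, Subgroup.coe_mul]; group)
  have cj_one : ∀ v, cj 1 v = v := fun v => Subtype.ext (by rw [hcjv, Subgroup.coe_one]; group)
  let θ : G →* AddMonoid.End (Fin 2 → F) :=
    { toFun := fun g =>
        { toFun := fun w => ψ (Additive.ofMul (cj g (Additive.toMul (ψ.symm w))))
          map_zero' := by
            have h1 : Additive.toMul (ψ.symm (0 : Fin 2 → F)) = 1 := by rw [map_zero]; rfl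
            have h2 : cj g (1 : V) = 1 := Subtype.ext (by rw [hcjv, Subgroup.coe_one]; group)
            rw [h1, h2]
            exact map_zero ψ
          map_add' := fun a b => by
            have h1 : Additive.toMul (ψ.symm (a + b)) = Additive.toMul (ψ.symm a) * Additive.toMul (ψ.symm b) := by
              rw [map_add]; rfl
            rw [h1, cj_mul]
            exact map_add ψ _ _ }
      map_one' := by
        ext w : 1
        show ψ (Additive.ofMul (cj 1 (Additive.toMul (ψ.symm w)))) = w
        rw [cj_one]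
        exact ψ.apply_symm_apply w
      map_mul' := fun g h => by
        ext w : 1
        show ψ (Additive.ofMul (cj (g * h) (Additive.toMul (ψ.symm w)))) =
          ψ (Additive.ofMul (cj g (Additive.toMul (ψ.symm (ψ (Additive.ofMul (cj h (Additive.toMul (ψ.symm w)))))))))
        rw [cj_cj, ψ.symm_apply_apply]
        rfl }
  have hθa : ∀ g w, θ g w = ψ (Additive.ofMul (cj g (Additive.toMul (ψ.symm w)))) := fun _ _ => rfl
  have hθ : Function.Injective θ := by
    rw [injective_iff_map_eq_one]
    intro g hg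
    have h1 : (g : X) ∈ G ⊓ Subgroup.centralizer (V : Set X) := by
      refine ⟨g.2, ?_⟩
      show (g : X) ∈ Subgroup.centralizer (V : Set X)
      rw [Subgroup.mem_centralizer_iff]
      intro v hv
      have h2 := hθa g (ψ (Additive.ofMul ⟨v, hv⟩))
      rw [hg, ψ.symm_apply_apply] at h2
      have h3 : (Additive.ofMul (⟨v, hv⟩ : V)) = Additive.ofMul (cj g ⟨v, hv⟩) := ψ.injective h2
      have h4 : (v : X) = (g : X) * v * (g : X)⁻¹ := congrArg (fun x : V => (x : X)) (Additive.ofMul.injective h3)
      conv_lhs => rw [h4]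
      group
    rw [hfaith] at h1
    exact Subtype.ext (Subgroup.mem_bot.mp h1)
  have hρi : Function.Injective ρ := by
    rw [← MonoidHom.ker_eq_bot_iff, hker, Subgroup.eq_bot_iff_forall]
    intro x hx
    have h1 : (x : X) ∈ G ⊓ Subgroup.centralizer (V : Set X) := ⟨hLG x.2, hx⟩
    rw [hfaith] at h1
    exact Subtype.ext (Subgroup.mem_bot.mp h1)
  let e : L ≃* Matrix.SpecialLinearGroup (Fin 2) F := MulEquiv.ofBijective ρ ⟨hρi, hρ⟩
  let ι : Matrix.SpecialLinearGroup (Fin 2) F →* G := (Subgroup.inclusion hLG).comp e.symm.toMonoidHom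
  have hιe : ∀ l : L, ι (ρ l) = Subgroup.inclusion hLG l := by
    intro l
    show Subgroup.inclusion hLG (e.symm (e l)) = _
    rw [e.symm_apply_apply]
  have hι : ∀ l, θ (ι l) = Uni36.NS.sl l := by
    intro l
    obtain ⟨l0, rfl⟩ := hρ l
    rw [hιe]
    ext w : 1
    obtain ⟨u, hu1, hu2⟩ := hact l0 (Additive.toMul (ψ.symm w))
    have h1 : cj (Subgroup.inclusion hLG l0) (Additive.toMul (ψ.symm w)) = u := Subtype.ext hu1.symm
    rw [hθa, h1, hu2, Uni36.NS.sl_apply]
    congr 1
    exact ψ.apply_symm_apply w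
  have hrange : ι.range = L.subgroupOf G := by
    ext x
    constructor
    · rintro ⟨l, rfl⟩
      obtain ⟨l0, rfl⟩ := hρ l
      rw [hιe]
      exact l0.2
    · intro hx
      exact ⟨ρ ⟨x, hx⟩, by rw [hιe]; rfl⟩
  have hS : ∀ (S : Sylow p (Subgroup.normalizer (ι.range : Set G))) (P : Sylow p G), Nat.card S = Nat.card P := by
    intro S P
    obtain ⟨S'⟩ : Nonempty (Sylow p ↥(G ⊓ Subgroup.normalizer (L : Set X))) := inferInstance
    rw [← hSyl S' P, S.card_eq_multiplicity, S'.card_eq_multiplicity]
    have hc : Nat.card (Subgroup.normalizer (ι.range : Set G)) = Nat.card ↥(G ⊓ Subgroup.normalizer (L : Set X)) := by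
      have hmem : ∀ x : G, x ∈ Subgroup.normalizer (ι.range : Set G) ↔ (x : X) ∈ Subgroup.normalizer (L : Set X) := by
        intro x
        rw [hrange, Subgroup.mem_normalizer_iff, Subgroup.mem_normalizer_iff]
        constructor
        · intro h y
          constructor
          · intro hy
            exact (h ⟨y, hLG hy⟩).mp hy
          · intro hy
            have h1 : y ∈ G := by
              have h2 := mul_mem (mul_mem (inv_mem x.2) (hLG hy)) x.2
              have h3 : (x : X)⁻¹ * ((x : X) * y * (x : X)⁻¹) * (x : X) = y := by group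
              rwa [h3] at h2
            exact (h ⟨y, h1⟩).mpr hy
        · intro h y
          exact h y
      apply Nat.card_congr
      exact
        { toFun := fun x => ⟨(x : G), (x : G).2, (hmem x).mp x.2⟩
          invFun := fun x => ⟨⟨x, x.2.1⟩, (hmem _).mpr x.2.2⟩
          left_inv := fun x => rfl
          right_inv := fun x => rfl }
    rw [hc]
  rcases Uni36.NS.main θ ι hθ hι hS with h | ⟨h1, h2⟩
  · left
    rw [← hrange]; exact h
  · right
    exact ⟨by rw [← Nat.card_eq_fintype_card]; exact h1, h2⟩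

/-- Let p be a prime. Inside a finite ambient group let V be an elementary abelian p-subgroup and G a subgroup normalizing V and acting faithfully on it (G ∩ C(V) = 1), and let L ≤ G act on V as SL₂(F) on its natural module, F a finite field of characteristic p, with L ≅ SL₂(F). If every Sylow p-subgroup of N_G(L) is a Sylow p-subgroup of G, then either L is normal in G, or F has 4 elements and G is isomorphic to the alternating group of degree 7. -/
theorem result {X : Type*} [Group X] [Finite X] {p : ℕ} [Fact p.Prime] (F : Type) [Field F] [Fintype F] [CharP F p] (V G L : Subgroup X) (hV : Cfsg.IsElementaryAbelian p V) (hGV : G ≤ Subgroup.normalizer (V : Set X)) (hfaith : G ⊓ Subgroup.centralizer (V : Set X) = ⊥) (hLG : L ≤ G) (hnat : Cfsg.IsNaturalSL2Module F V L) (hLiso : Nonempty (↥L ≃* Matrix.SpecialLinearGroup (Fin 2) F)) (hSyl : ∀ S : Sylow p ↥(G ⊓ Subgroup.normalizer (L : Set X)), ∀ P : Sylow p ↥G, Nat.card S = Nat.card P) : (L.subgroupOf G).Normal ∨ (Fintype.card F = 4 ∧ Nonempty (↥G ≃* ↥(alternatingGroup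 (Fin 7)))) := by
  exact aux F V G L hGV hfaith hLG hnat hSyl


end Cfsg.Agent.S2932
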