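import Cfsg.Statements.S2937
import Cfsg.Agent.Uni36.PM7
import Cfsg.Agent.Uni36.PM8
import Cfsg.Agent.Uni36.PM9
import Cfsg.Agent.Uni36.PM11
import Cfsg.Agent.Uni36.PM13
import Cfsg.Agent.S1074
-- import your own Cfsg.Agent.* helpers here

set_option autoImplicit false
open Cfsg

namespace Cfsg.Agent.S2937

theorem tits_gen {H : Type*} [Group H] (h : IsSimpleGroup ↥(commutator H)) {K : Type*} [Group K]
    (f : Nonempty (K ≃* ↥(commutator H))) : IsSimpleGroup K := by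
  obtain ⟨f⟩ := f
  exact Cfsg.Agent.Uni36.isSimple_equiv f h

theorem tits_simple0 : IsSimpleGroup Cfsg.Lie.TitsGroup := by
  obtain ⟨-, h2, -⟩ := Cfsg.Agent.S1074.result
  exact h2

theorem tits_simple {K : Type*} [Group K] (f : Cfsg.Lie.IsoTits K) : IsSimpleGroup K :=
  tits_gen (H := ↥(Cfsg.Lie.twistedF4 (ZMod 2) 1)) tits_simple0 f


/-- Let X be a finite p-minimal group whose generalized Fitting subgroup K = F*(X) is a simple group of Lie type in characteristic p, and let U be a Sylow p-subgroup of K. Then N_X(U) is a maximal subgroup of X, and either K has Lie rank one (K ≅ PSL₂(pᵉ), PSU₃(pᵉ), a Suzuki group for p = 2, or a Ree group or PSL₂(8) for p = 3), or p = 2, K ≠ X and K is isomorphic to PSL₃(2ᵉ) or to PSp₄(2ᵉ) (e ≥ 2) or to the alternating group of degree 6. -/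
theorem result {X : Type*} [Group X] [Finite X] {p : ℕ} [Fact p.Prime] (hX : Cfsg.IsPMinimal p X) (hK : Cfsg.IsChevSimple p ↥(Cfsg.generalizedFittingSubgroup X)) (U : Sylow p ↥(Cfsg.generalizedFittingSubgroup X)) : IsCoatom (Subgroup.normalizer (((U : Subgroup ↥(Cfsg.generalizedFittingSubgroup X)).map (Cfsg.generalizedFittingSubgroup X).subtype : Subgroup X) : Set X)) ∧ (Cfsg.IsLieRankOneChar p ↥(Cfsg.generalizedFittingSubgroup X) ∨ (p = 2 ∧ Cfsg.generalizedFittingSubgroup X ≠ ⊤ ∧ ((∃ (F : Type) (_ : Field F) (_ : Fintype F) (_ : CharP F 2), Nonempty (↥(Cfsg.generalizedFittingSubgroup X) ≃* Matrix.ProjectiveSpecialLinearGroup (Fin 3) F)) ∨ (∃ (F : Type) (_ : Field F) (_ : Fintype F) (_ : CharP F 2), 4 ≤ Fintype.card F ∧ Nonempty (↥(Cfsg.generalizedFittingSubgroup X) ≃* Cfsg.PSp 2 F)) ∨ Nonempty (↥(Cfsg.generalizedFittingSubgroup X) ≃* ↥(alternatingGroup (Fin 6)))))) := by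
  have hN : (Cfsg.generalizedFittingSubgroup X).Normal := inferInstance
  rcases hK with h | ⟨rfl, ⟨⟨e⟩⟩ | ⟨F, _, _, hF, ⟨e⟩⟩ | h⟩ | ⟨rfl, F, _, _, hF, ⟨e⟩⟩
  · exact Cfsg.Agent.Uni36.PM.conclude hX (Cfsg.Agent.Uni36.isSimple_of_isLieTypeChar h)
      (Cfsg.Agent.Uni36.PM.row_of_isLieTypeChar h) U
  · have : IsSimpleGroup (alternatingGroup (Fin 6)) := alternatingGroup.isSimpleGroup (by simp)
    exact Cfsg.Agent.Uni36.PM.conclude hX (Cfsg.Agent.Uni36.isSimple_equiv e this)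
      (Cfsg.Agent.Uni36.PM.Row.of_equiv Cfsg.Agent.Uni36.PM.A6.row_A6 e.symm) U
  · have hF' : Fintype.card F = 3 ^ 2 := hF
    have : Finite (Cfsg.PSU 3 F 3) := Finite.of_equiv _ e.toEquiv
    exact (Cfsg.Agent.Uni36.PM.no_pmin hX (Cfsg.Agent.Uni36.isSimple_equiv e (Cfsg.Agent.Uni36.simple_U33 hF'))
      ((Cfsg.Agent.Uni36.PM.U3.noPM_PSU hF').of_equiv e.symm)).elim
  · exact Cfsg.Agent.Uni36.PM.conclude hX (tits_simple h) (Cfsg.Agent.Uni36.PM.row_tits h) U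
  · exact Cfsg.Agent.Uni36.PM.conclude hX (Cfsg.Agent.Uni36.isSimple_equiv e (Cfsg.Agent.Uni36.simple_L28 hF))
      (Cfsg.Agent.Uni36.PM.Row.of_equiv (Cfsg.Agent.Uni36.PM.row_L28 hF) e.symm) U


end Cfsg.Agent.S2937
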