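import Cfsg.Statements.S2958


set_option autoImplicit false
open Cfsg

namespace Cfsg.Agent.S2958

/-- Let X, A, B be subgroups of a group G such that G is generated by the conjugates of X and every conjugate of X is contained in A or in B. Then A = G or B = G. -/
theorem result {G : Type*} [Group G] (X A B : Subgroup G) (hgen : (⨆ g : G, X.map (MulAut.conj g).toMonoidHom) = ⊤) (hcover : ∀ g : G, X.map (MulAut.conj g).toMonoidHom ≤ A ∨ X.map (MulAut.conj g).toMonoidHom ≤ B) : A = ⊤ ∨ B = ⊤ := by
  classical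
  by_cases hB : B = ⊤
  · exact Or.inr hB
  left
  -- notation for conjugates
  set c : G → Subgroup G := fun g => X.map (MulAut.conj g).toMonoidHom with hc
  have hcc : ∀ g h : G, (c g).map (MulAut.conj h).toMonoidHom = c (h * g) := by
    intro g h
    simp only [hc, Subgroup.map_map]
    congr 1
    ext x
    simp [mul_assoc]
  -- N generated by the conjugates not inside B
  set N : Subgroup G := ⨆ g : {g : G // ¬ c g ≤ B}, c g with hN
  have hBN : ∀ b ∈ B, N.map (MulAut.conj b).toMonoidHom ≤ N := by
    intro b hb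
    rw [hN, Subgroup.map_iSup]
    refine iSup_le fun g => ?_
    rw [hcc]
    have h1 : ¬ c (b * g) ≤ B := by
      intro h2
      apply g.2
      have h3 : c g = (c (b * g)).map (MulAut.conj b⁻¹).toMonoidHom := by
        rw [hcc]; simp
      rw [h3]
      rintro _ ⟨x, hx, rfl⟩
      have := h2 hx
      simpa using mul_mem (mul_mem (inv_mem hb) this) hb
    exact le_iSup (fun g : {g : G // ¬ c g ≤ B} => c g) ⟨b * g, h1⟩
  have hNN : ∀ b ∈ N, N.map (MulAut.conj b).toMonoidHom ≤ N := by
    intro b hb
    rintro _ ⟨x, hx, rfl⟩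
    simpa using mul_mem (mul_mem hb hx) (inv_mem hb)
  -- the stabilizer is everything
  have hnorm : Subgroup.normalizer (N : Set G) = ⊤ := by
    rw [eq_top_iff, ← hgen]
    refine iSup_le fun g => ?_
    by_cases hg : c g ≤ B
    · rw [Subgroup.le_normalizer_iff]
      intro h hh k hk
      exact hBN h (hg hh) ⟨k, hk, rfl⟩
    · have h1 : c g ≤ N := le_iSup (fun g : {g : G // ¬ c g ≤ B} => c g) ⟨g, hg⟩
      exact h1.trans Subgroup.le_normalizer
  have hNnormal : N.Normal := Subgroup.normalizer_eq_top_iff.1 hnorm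
  have hNA : N ≤ A := by
    rw [hN]
    refine iSup_le fun g => ?_
    exact (hcover g).resolve_right g.2
  -- some conjugate is not in B
  obtain ⟨g, hg⟩ : ∃ g, ¬ c g ≤ B := by
    by_contra hcon
    push Not at hcon
    apply hB
    rw [eq_top_iff, ← hgen]
    exact iSup_le hcon
  have hgN : c g ≤ N := le_iSup (fun g : {g : G // ¬ c g ≤ B} => c g) ⟨g, hg⟩
  rw [eq_top_iff, ← hgen]
  refine iSup_le fun h => le_trans ?_ hNA
  have h3 : c h = (c g).map (MulAut.conj (h * g⁻¹)).toMonoidHom := by
    rw [hcc]; simp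
  change c h ≤ N
  rw [h3]
  rintro _ ⟨x, hx, rfl⟩
  have := hNnormal.conj_mem x (hgN hx) (h * g⁻¹)
  simpa [mul_assoc] using this

end Cfsg.Agent.S2958
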