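import Cfsg.Statements.S2962
import Cfsg.Agent.H32.AutFix3
import Cfsg.Agent.H33.KInf

set_option autoImplicit false
open Cfsg

namespace Cfsg.Agent.S2962

open scoped commutatorElement
open H32.AutFix

/-- Let G be a finite group with G = QN, where N is a normal subgroup of G and Q is a non-abelian 2-subgroup with Q ∩ N = 1. Suppose that some nontrivial element t of Z(Q) ∩ [Q, Q] satisfies C_N(Q) = C_N(t). Then [N, Q] is solvable of odd order. -/
theorem result {G : Type*} [Group G] [Finite G] (N Q : Subgroup G) [N.Normal] (hG : Q ⊔ N = ⊤) (hQ : IsPGroup 2 ↥Q) (hQna : ¬ IsMulCommutative ↥Q) (hdisj : Q ⊓ N = ⊥) (t : G) (ht1 : t ≠ 1) (htZ : t ∈ Q ⊓ Subgroup.centralizer (Q : Set G)) (htQ : t ∈ ⁅Q, Q⁆) (hC : N ⊓ Subgroup.centralizer (Q : Set G) = N ⊓ Subgroup.centralizer ({t} : Set G)) : Group.IsSolvable ↥⁅N, Q⁆ ∧ Odd (Nat.card ↥⁅N, Q⁆) := by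
  classical
  haveI : Fact (Nat.Prime 2) := ⟨Nat.prime_two⟩
  obtain ⟨P, hQP⟩ := hQ.exists_le_sylow
  set T : Subgroup G := (P : Subgroup G) ⊓ N with hT
  have hTsyl : H33.IsSyl 2 T N := isSyl_inf_normal (H33.isSyl_top P) le_top (by
    intro g _
    rw [Subgroup.normalizer_eq_top_iff.2 ‹N.Normal›]; trivial)
  set C0 : Subgroup G := T ⊓ Subgroup.centralizer (Q : Set G) with hC0
  -- `Q` centralizes `T`
  have hTC : T ≤ Subgroup.centralizer (Q : Set G) := by
    by_contra hcon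
    have hTB : ¬ T ≤ C0 := fun h => hcon (h.trans inf_le_right)
    obtain ⟨w, hwT, hwB, hw⟩ := H33.exists_central_mod (M := (P : Subgroup G)) (N := T) (B := C0) P.2 inf_le_left
      (by
        intro g hg
        rw [H33.mem_norm_iff, hT, H33.cj_inf, H33.cj_normal g N,
          H33.mem_norm_iff.1 (Subgroup.le_normalizer hg)]) hTB
    have hcomm : ∀ c ∈ C0, ∀ q ∈ Q, q * c = c * q := fun c hc q hq =>
      Subgroup.mem_centralizer_iff.1 hc.2 q hq
    -- `w` normalizes `C0`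
    have hwn : ∀ c ∈ C0, w⁻¹ * c * w ∈ C0 := by
      have h1 : H33.cj w C0 ≤ C0 := by
        rw [H33.cj_le_iff]
        intro c hc
        have h2 := hw c (hc.1.1)
        have h3 : w * c * w⁻¹ = ⁅w, c⁆ * c := by rw [commutatorElement_def]; group
        rw [h3]
        exact mul_mem h2 hc
      have h2 := H33.cj_eq_of_le h1
      intro c hc
      rw [← h2] at hc
      exact H33.mem_cj.1 hc
    have hd : ∀ q ∈ Q, ⁅w, q⁆ ∈ C0 := fun q hq => hw q (hQP hq)
    have hdc : ∀ q ∈ Q, ∀ c ∈ C0, ⁅w, q⁆ * c = c * ⁅w, q⁆ := by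
      intro q hq c hc
      have h1 := hcomm c hc q⁻¹ (inv_mem hq)
      have h2 := hcomm _ (hwn c hc) q hq
      have h3 : ⁅w, q⁆ * c * ⁅w, q⁆⁻¹ = c := by
        rw [commutatorElement_def]
        calc w * q * w⁻¹ * q⁻¹ * c * (w * q * w⁻¹ * q⁻¹)⁻¹
            = w * q * w⁻¹ * (q⁻¹ * c) * q * w * q⁻¹ * w⁻¹ := by group
          _ = w * q * w⁻¹ * (c * q⁻¹) * q * w * q⁻¹ * w⁻¹ := by rw [h1]
          _ = w * (q * (w⁻¹ * c * w)) * q⁻¹ * w⁻¹ := by group
          _ = w * ((w⁻¹ * c * w) * q) * q⁻¹ * w⁻¹ := by rw [h2]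
          _ = c := by group
      rw [mul_inv_eq_iff_eq_mul] at h3
      exact h3
    have hcen : ⁅Q, Q⁆ ≤ Subgroup.centralizer ({w} : Set G) := by
      rw [Subgroup.commutator_le]
      intro q hq r hr
      rw [Subgroup.mem_centralizer_singleton_iff]
      have e1 : w * q * w⁻¹ = ⁅w, q⁆ * q := by rw [commutatorElement_def]; group
      have e2 : w * r * w⁻¹ = ⁅w, r⁆ * r := by rw [commutatorElement_def]; group
      set d := ⁅w, q⁆ with hdq
      set d' := ⁅w, r⁆ with hdr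
      have c1 : Commute d d' := hdc q hq d' (hd r hr)
      have c2 : Commute q d := hcomm d (hd q hq) q hq
      have c3 : Commute r d := hcomm d (hd q hq) r hr
      have c4 : Commute q d' := hcomm d' (hd r hr) q hq
      have c5 : Commute r d' := hcomm d' (hd r hr) r hr
      have e3 : w * ⁅q, r⁆ * w⁻¹ = ⁅w * q * w⁻¹, w * r * w⁻¹⁆ := by
        rw [commutatorElement_def, commutatorElement_def]; group
      have e4 : ⁅d * q, d' * r⁆ = ⁅q, r⁆ := by
        rw [commutatorElement_def, commutatorElement_def, mul_inv_rev, mul_inv_rev]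
        have k1 : d * q * (d' * r) = d * d' * (q * r) := by
          rw [mul_assoc d q, ← mul_assoc q d', c4.eq]; group
        have k2 : q⁻¹ * d⁻¹ * (r⁻¹ * d'⁻¹) = (q⁻¹ * r⁻¹) * (d * d')⁻¹ := by
          have k3 : d⁻¹ * r⁻¹ = r⁻¹ * d⁻¹ := (c3.inv_inv).eq.symm
          calc q⁻¹ * d⁻¹ * (r⁻¹ * d'⁻¹) = q⁻¹ * (d⁻¹ * r⁻¹) * d'⁻¹ := by group
            _ = q⁻¹ * r⁻¹ * (d⁻¹ * d'⁻¹) := by rw [k3]; group
            _ = q⁻¹ * r⁻¹ * (d * d')⁻¹ := by rw [mul_inv_rev, (c1.inv_inv).eq]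
        calc d * q * (d' * r) * (q⁻¹ * d⁻¹) * (r⁻¹ * d'⁻¹)
            = (d * q * (d' * r)) * (q⁻¹ * d⁻¹ * (r⁻¹ * d'⁻¹)) := by group
          _ = (d * d') * (q * r * (q⁻¹ * r⁻¹)) * (d * d')⁻¹ := by rw [k1, k2]; group
          _ = q * r * q⁻¹ * r⁻¹ := by
            have k4 : Commute (d * d') (q * r * (q⁻¹ * r⁻¹)) := by
              have a1 : Commute (d * d') q := (c2.symm).mul_left (c4.symm)
              have a2 : Commute (d * d') r := (c3.symm).mul_left (c5.symm)
              exact (a1.mul_right a2).mul_right (a1.inv_right.mul_right a2.inv_right)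
            rw [k4.eq]; group
      rw [e1, e2, e4, mul_inv_eq_iff_eq_mul] at e3
      exact e3.symm
    have hwt : w ∈ N ⊓ Subgroup.centralizer ({t} : Set G) := by
      refine Subgroup.mem_inf.2 ⟨hwT.2, ?_⟩
      rw [Subgroup.mem_centralizer_singleton_iff]
      exact (Subgroup.mem_centralizer_singleton_iff.1 (hcen htQ)).symm
    rw [← hC] at hwt
    exact hwB ⟨hwT, hwt.2⟩
  -- the Sylow subgroup of `N`
  let S : Sylow 2 N := hTsyl.toSylow
  have hS : ∀ n : N, n ∈ (S : Subgroup N) ↔ (n : G) ∈ T := fun n => Iff.rfl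
  have hfix : ∀ q ∈ Q, (MulAut.conjNormal q : MulAut N) ∈ FixS (S : Subgroup N) := by
    intro q hq n hn
    change (MulAut.conjNormal q : MulAut N) n = n
    apply Subtype.ext
    rw [MulAut.conjNormal_apply]
    have := Subgroup.mem_centralizer_iff.1 (hTC ((hS n).1 hn)) q hq
    rw [this, mul_inv_cancel_right]
  have hLT : (MulAut.conjNormal t : MulAut N) ∈ LT 2 (S : Subgroup N) := by
    apply commutator_le_LT
    have h1 : (⁅Q, Q⁆).map (MulAut.conjNormal : G →* MulAut N) ≤ ⁅FixS (S : Subgroup N), FixS (S : Subgroup N)⁆ := by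
      rw [Subgroup.map_commutator]
      refine Subgroup.commutator_mono ?_ ?_ <;>
      · rintro _ ⟨q, hq, rfl⟩
        exact hfix q hq
    exact h1 ⟨t, htQ, rfl⟩
  obtain ⟨k, hk⟩ := hQ ⟨t, htZ.1⟩
  have hk' : t ^ 2 ^ k = 1 := congrArg Subtype.val hk
  have hσ : (MulAut.conjNormal t : MulAut N) ^ 2 ^ k = 1 := by
    rw [← map_pow, hk', map_one]
  have hz := zstar_aut S hσ hLT.1 hLT.2
  set O : Subgroup G := (Cfsg.pPrimeCore 2 N).map N.subtype with hO
  haveI hOn : O.Normal := inferInstance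
  have hOodd : Odd (Nat.card O) := by
    rw [hO, Subgroup.card_map_of_injective N.subtype_injective]
    exact Nat.coprime_two_right.1 (Solv.pPrimeCore_card_coprime 2)
  have hle : ⁅N, Q⁆ ≤ O := by
    rw [Subgroup.commutator_le]
    intro n hn q hq
    have h1 := hz ⟨n, hn⟩⁻¹
    obtain ⟨o, ho, hno⟩ := exists_lift (σ := (MulAut.conjNormal t : MulAut N)) hσ (O := Cfsg.pPrimeCore 2 N)
      (fun h => (Nat.Prime.coprime_iff_not_dvd Nat.prime_two).1 (Solv.pPrimeCore_card_coprime (G := N) 2).symm h)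
      (fun o ho => by
        have h2 : (Cfsg.pPrimeCore 2 N).map (MulAut.conjNormal t : MulAut N).toMonoidHom = Cfsg.pPrimeCore 2 N :=
          Subgroup.characteristic_iff_map_eq.1 inferInstance _
        rw [← h2]
        exact ⟨o, ho, rfl⟩) (y := ⟨n, hn⟩) (by
        have h3 : (⟨n, hn⟩ : N)⁻¹ * (MulAut.conjNormal t : MulAut N) ⟨n, hn⟩ =
            (⟨n, hn⟩ : N)⁻¹ * ((MulAut.conjNormal t : MulAut N) (⟨n, hn⟩ : N)⁻¹)⁻¹ := by
          rw [map_inv, inv_inv]
        rw [h3]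
        exact h1)
    -- `n o` centralizes `t`, hence `Q`
    have h4 : n * (o : G) ∈ N ⊓ Subgroup.centralizer ({t} : Set G) := by
      refine Subgroup.mem_inf.2 ⟨mul_mem hn o.2, ?_⟩
      rw [Subgroup.mem_centralizer_singleton_iff]
      have h5 := congrArg Subtype.val hno
      rw [MulAut.conjNormal_apply] at h5
      have h6 : t * (n * (o : G)) * t⁻¹ = n * o := h5
      rw [mul_inv_eq_iff_eq_mul] at h6
      exact h6.symm
    rw [← hC] at h4
    have h5 := Subgroup.mem_centralizer_iff.1 h4.2 q hq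
    have h6 : ⁅n, q⁆ = (n * o) * ((o : G)⁻¹ * (q * o * q⁻¹)) * (n * o)⁻¹ := by
      rw [commutatorElement_def]
      have h7 : q * (n * o)⁻¹ = (n * o)⁻¹ * q := by
        have := congrArg (fun x => (n * (o : G))⁻¹ * x * (n * (o : G))⁻¹) h5
        simp only [mul_assoc] at this ⊢
        simp at this ⊢
        rw [this]
      calc n * q * n⁻¹ * q⁻¹ = n * q * o * (n * o)⁻¹ * q⁻¹ := by group
        _ = n * q * o * ((n * o)⁻¹ * q⁻¹) := by group
        _ = n * q * o * (q⁻¹ * (n * o)⁻¹) := by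
          congr 1
          have := congrArg (fun x => q⁻¹ * x * q⁻¹) h7
          simp only [mul_assoc] at this
          simp at this
          simp only [mul_inv_rev, mul_assoc]
          simp only [mul_assoc] at this
          exact this
        _ = _ := by group
    rw [h6]
    apply hOn.conj_mem
    have ho' : (o : G) ∈ O := ⟨o, ho, rfl⟩
    exact mul_mem (inv_mem ho') (hOn.conj_mem _ ho' q)
  have hodd : Odd (Nat.card ↥⁅N, Q⁆) := by
    obtain ⟨c, hc⟩ := Subgroup.card_dvd_of_le hle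
    rw [hc] at hOodd
    exact (Nat.odd_mul.1 hOodd).1
  exact ⟨FT.solvable_of_odd hodd, hodd⟩

end Cfsg.Agent.S2962
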