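import Cfsg.Statements.S2963
import Cfsg.Agent.H49.SymMin

set_option autoImplicit false
open Cfsg

namespace Cfsg.Agent.S2963

/-- Let n be odd. If the symmetric group of degree n is a minimal parabolic group for the prime 2, that is, a Sylow 2-subgroup is not normal and lies in exactly one maximal subgroup, then n = 2^m + 1 for some natural number m. -/
theorem result (n : ℕ) (hn : Odd n) (h : Cfsg.IsPMinimal 2 (Equiv.Perm (Fin n))) : ∃ m : ℕ, n = 2 ^ m + 1 := by
  exact Cfsg.Agent.H49.odd_degree_two_minimal n hn h

end Cfsg.Agent.S2963
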