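import Cfsg.Statements.S2989
import Cfsg.Agent.H47.PUFr

set_option autoImplicit false
open Cfsg

namespace Cfsg.Agent.S2989

/-- Let G be a finite group and S a Sylow p-subgroup of G in the basic pushing-up situation (G ≠ 1, C_G(O_p(G)) ≤ O_p(G), S lies in a unique maximal subgroup of G, and some quotient of G is isomorphic to PSL₂ over a field of order a power of p), and suppose that S centralizes Z(J(S)), where J(S) is generated by the abelian subgroups of S of largest order (that is, J̃(S) = C_S(Z(J(S))) = S). Call a subgroup R of S centrally large if |R|·|Z(R)| is as large as possible among subgroups of S, and let S_Φ be the subgroup generated by the Frattini subgroups Φ(Q) of those minimal centrally large subgroups Q of S whose Ω₁(Z(Q)) has the largest order among minimal centrally large subgroups. Then Z(S) or S_Φ is normal in G; and if S_Φ = 1, the minimal centrally large subgroups of S are exactly the abelian subgroups of S of largest order, and at least one of them is elementary abelian.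 -/
theorem result {G : Type*} [Group G] [Finite G] {p : ℕ} [Fact p.Prime] (S : Subgroup G) (hE : Cfsg.IsPushingUpSituation p S) (hJ : S ≤ Subgroup.centralizer (Cfsg.centerThompsonAOf S : Set G)) : ((S ⊓ Subgroup.centralizer (S : Set G)).Normal ∨ ((Cfsg.frattiniOfMinimalCLJoin p ↥S).map S.subtype).Normal) ∧ (Cfsg.frattiniOfMinimalCLJoin p ↥S = ⊥ → (∀ Q : Subgroup ↥S, Cfsg.IsMinimalCentrallyLarge Q ↔ Q ∈ Cfsg.maxAbelianSubgroups ↥S) ∧ ∃ A ∈ Cfsg.maxAbelianSubgroups ↥S, Cfsg.IsElementaryAbelian p A) := by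
  obtain ⟨-, ⟨P, rfl⟩, hE₁, hE₂, K, hK, F, _, _, n, hF, hE₃⟩ := hE
  haveI := hK
  have h : H47.PU p (p ^ n) K := ⟨H47.RankOne.of_psl hF hE₃, fun R hR => H47.pu_uniq (H47.sylIn_top P) hE₂ R hR⟩
  refine ⟨?_, ?_⟩
  · rw [H47.SF_eq]
    exact H47.frattini_case h hE₁ (H47.sylIn_top P)
  · intro hΦ
    obtain ⟨R, hR⟩ := H47.exists_FM (p := p) (P : Subgroup G)
    have hRS := H47.map_subgroupOf_eq hR.1.1.1
    have hR' := hR
    rw [← hRS] at hR'
    obtain ⟨h1, h2⟩ := H47.FM_iff.1 hR'
    have h3 : H47.Fr (R.subgroupOf P) = ⊥ := by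
      rw [eq_bot_iff, ← hΦ]
      exact le_iSup (fun Q : {Q : Subgroup P // Cfsg.IsMinimalCentrallyLarge Q ∧ Nat.card ↥(Cfsg.omegaOneCenter p Q) = Cfsg.maxOmegaCenterOfMinimalCL p P} => (frattini ↥(Q : Subgroup P)).map (Q : Subgroup P).subtype) ⟨_, h1, h2⟩
    have h4 : IsPGroup p (R.subgroupOf P) := P.2.to_subgroup _
    have h5 : ⁅R.subgroupOf (P : Subgroup G), R.subgroupOf (P : Subgroup G)⁆ = ⊥ := by
      rw [eq_bot_iff, ← h3]; exact H47.Fr_comm h4
    have h6 : IsMulCommutative (R.subgroupOf (P : Subgroup G)) := by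
      rw [H50.CD.isMulCommutative_iff, ← Subgroup.commutator_eq_bot_iff_le_centralizer]
      exact h5
    have h7 := H50.CD.mcl_abelian_iff h1 h6
    refine ⟨h7, _, (h7 _).1 h1, h6, fun x hx => ?_⟩
    have h8 := H47.Fr_pow h4 hx
    rw [h3] at h8
    exact h8

end Cfsg.Agent.S2989
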