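import Cfsg.Statements.S2998
import Cfsg.Agent.H50.Basic
import Cfsg.Agent.H50.SylowIn
-- import your own Cfsg.Agent.* helpers here

set_option autoImplicit false
open Cfsg

namespace Cfsg.Agent.S2998

open Cfsg.Agent.H50

/-- Let G be a finite group, p a prime, P a Sylow p-subgroup of G and x ∈ P an element such that N_G(R) ≤ C_G(x) for every nontrivial subgroup R of P. Then P ≤ C_G(x); every G-conjugate of x lying in P equals x (so g ∈ C_G(x) whenever g x g⁻¹ ∈ P); and for every normal subgroup N of G, the image of x in G ⧸ N has the same property with respect to the image of P: the normalizer of every nontrivial subgroup of the image of P centralizes the image of x. -/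
theorem result {G : Type*} [Group G] [Finite G] {p : ℕ} [Fact p.Prime] (P : Sylow p G) (x : G) (hxP : x ∈ (P : Subgroup G)) (hlc : ∀ R : Subgroup G, R ≤ (P : Subgroup G) → R ≠ ⊥ → Subgroup.normalizer (R : Set G) ≤ Subgroup.centralizer ({x} : Set G)) : (P : Subgroup G) ≤ Subgroup.centralizer ({x} : Set G) ∧ (∀ g : G, g * x * g⁻¹ ∈ (P : Subgroup G) → g * x * g⁻¹ = x) ∧ ∀ (N : Subgroup G) [N.Normal], ∀ R : Subgroup (G ⧸ N), R ≤ (P : Subgroup G).map (QuotientGroup.mk' N) → R ≠ ⊥ → Subgroup.normalizer (R : Set (G ⧸ N)) ≤ Subgroup.centralizer ({(QuotientGroup.mk x : G ⧸ N)} : Set (G ⧸ N)) := by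
  have hP : (P : Subgroup G) ≤ Subgroup.centralizer ({x} : Set G) := by
    by_cases hbot : (P : Subgroup G) = ⊥
    · rw [hbot]; exact bot_le
    · exact le_trans Subgroup.le_normalizer (hlc P le_rfl hbot)
  have hNP : x ≠ 1 → Subgroup.normalizer ((P : Subgroup G) : Set G) ≤ Subgroup.centralizer ({x} : Set G) := by
    intro hx1
    apply hlc P le_rfl
    intro hbot
    rw [hbot, Subgroup.mem_bot] at hxP
    exact hx1 hxP
  refine ⟨hP, ?_, ?_⟩
  · intro g hg
    by_cases hx1 : x = 1
    · rw [hx1]; group
    set y := g * x * g⁻¹ with hy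
    -- the centralizer of `y` is in `C_G(x)`
    have hy1 : Subgroup.zpowers y ≠ ⊥ := by
      intro h
      rw [Subgroup.zpowers_eq_bot] at h
      apply hx1
      have : x = g⁻¹ * y * g := by rw [hy]; group
      rw [this, h]; group
    have hCy : Subgroup.centralizer ({y} : Set G) ≤ Subgroup.centralizer ({x} : Set G) := by
      refine le_trans ?_ (hlc (Subgroup.zpowers y) (by rwa [Subgroup.zpowers_le]) hy1)
      intro c hc
      rw [Subgroup.mem_centralizer_singleton_iff] at hc
      rw [mem_normalizer_iff_map_conj, MonoidHom.map_zpowers]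
      congr 1
      simp [MulAut.conj_apply, hc]
    -- the Sylow subgroup `g P g⁻¹` is in `C_G(x)`
    set C := Subgroup.centralizer ({x} : Set G) with hC
    have hgP : (P : Subgroup G).map (MulAut.conj g).toMonoidHom ≤ C := by
      refine le_trans ?_ hCy
      rintro _ ⟨u, hu, rfl⟩
      rw [Subgroup.mem_centralizer_singleton_iff]
      have hux := Subgroup.mem_centralizer_singleton_iff.1 (hP hu)
      show (g * u * g⁻¹) * y = y * (g * u * g⁻¹)
      rw [hy]
      calc (g * u * g⁻¹) * (g * x * g⁻¹) = g * (u * x) * g⁻¹ := by group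
        _ = g * (x * u) * g⁻¹ := by rw [hux]
        _ = _ := by group
    -- two Sylow subgroups of `C`
    obtain ⟨c, hcC, hc⟩ := exists_conj_le hgP hP (P.isPGroup'.map _) P.isPGroup'
      (not_dvd_relIndex_of_le hP P.not_dvd_index)
    rw [← map_conj_mul] at hc
    have hcg : c * g ∈ Subgroup.normalizer ((P : Subgroup G) : Set G) :=
      mem_normalizer_iff_map_conj.2 (map_conj_eq_of_le hc)
    have := hNP hx1 hcg
    have hgC : g ∈ C := by
      have h2 := C.mul_mem (C.inv_mem hcC) this
      simpa using h2
    rw [hC, Subgroup.mem_centralizer_singleton_iff] at hgC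
    rw [hy, hgC]; group
  · intro N hN R hR hR1 y hy
    obtain ⟨g, rfl⟩ := QuotientGroup.mk'_surjective N y
    set π := QuotientGroup.mk' N with hπ
    set R' : Subgroup G := R.comap π with hR'
    set Q : Subgroup G := (P : Subgroup G) ⊓ R' with hQ
    have hR'Q : R' = Q ⊔ N := by
      apply le_antisymm
      · intro r hr
        obtain ⟨u, hu, hur⟩ := hR hr
        have huR : u ∈ R' := by
          rw [hR', Subgroup.mem_comap, hur]
          exact hr
        have hn : u⁻¹ * r ∈ N := by
          rw [← QuotientGroup.eq]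
          exact hur
        have : r = u * (u⁻¹ * r) := by group
        rw [this]
        exact Subgroup.mul_mem_sup ⟨hu, huR⟩ hn
      · refine sup_le inf_le_right ?_
        intro n hn
        rw [hR', Subgroup.mem_comap]
        have : π n = 1 := (QuotientGroup.eq_one_iff n).2 hn
        rw [this]
        exact R.one_mem
    have hQ1 : Q ≠ ⊥ := by
      intro h
      apply hR1
      rw [eq_bot_iff]
      intro z hz
      obtain ⟨u, hu, rfl⟩ := hR hz
      have : u ∈ Q := ⟨hu, hz⟩
      rw [h, Subgroup.mem_bot] at this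
      rw [this]
      exact Subgroup.one_mem _
    have hQp : IsPGroup p ↥Q := P.isPGroup'.to_le inf_le_left
    have hQi : ¬ p ∣ Q.relIndex R' := by
      have h1 : Q.relIndex R' = (P : Subgroup G).relIndex N := by
        rw [hR'Q, relIndex_sup_normal]
        have : Q ⊓ N = (P : Subgroup G) ⊓ N := by
          rw [hQ, inf_assoc]
          congr 1
          rw [inf_eq_right, hR'Q]
          exact le_sup_right
        rw [← Subgroup.inf_relIndex_right, this, Subgroup.inf_relIndex_right]
      rw [h1]
      exact not_dvd_relIndex_normal P.not_dvd_index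
    -- `g` normalizes `R'`
    have hgR' : g ∈ Subgroup.normalizer (R' : Set G) := by
      rw [Subgroup.mem_normalizer_iff] at hy ⊢
      intro h
      have := hy (π h)
      rw [hR', Subgroup.mem_comap, Subgroup.mem_comap, map_mul, map_mul, map_inv]
      exact this
    have hgQ : Q.map (MulAut.conj g).toMonoidHom ≤ R' := by
      have h1 := mem_normalizer_iff_map_conj.1 hgR'
      rw [← h1]
      exact Subgroup.map_mono inf_le_right
    obtain ⟨r, hrR, hr⟩ := exists_conj_le hgQ inf_le_right (hQp.map _) hQp hQi
    rw [← map_conj_mul] at hr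
    have hrg : r * g ∈ Subgroup.normalizer (Q : Set G) :=
      mem_normalizer_iff_map_conj.2 (map_conj_eq_of_le hr)
    have hrgC := hlc Q inf_le_left hQ1 hrg
    -- `r = n * q`
    rw [hR'Q, sup_comm] at hrR
    obtain ⟨n, hn, q, hq, hnq⟩ := Subgroup.mem_sup_of_normal_left.1 hrR
    have hqC : q ∈ Subgroup.centralizer ({x} : Set G) := hP hq.1
    have hπr : π r = π q := by
      rw [← hnq, map_mul]
      have : π n = 1 := (QuotientGroup.eq_one_iff n).2 hn
      rw [this, one_mul]
    have hg2 : π g = π (q⁻¹ * (r * g)) := by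
      rw [map_mul, map_mul, hπr, map_inv]
      group
    have hmem : q⁻¹ * (r * g) ∈ Subgroup.centralizer ({x} : Set G) :=
      Subgroup.mul_mem _ (Subgroup.inv_mem _ hqC) hrgC
    rw [Subgroup.mem_centralizer_singleton_iff] at hmem ⊢
    rw [hg2]
    show π (q⁻¹ * (r * g)) * π x = π x * π (q⁻¹ * (r * g))
    rw [← map_mul, ← map_mul, hmem]

end Cfsg.Agent.S2998
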