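import Cfsg.Statements.S2999
import Cfsg.Prelude.Def_LocalEven
import Cfsg.Agent.H88.MA4
import Cfsg.Agent.H10.Timmesfeld

set_option autoImplicit false
open Cfsg

namespace Cfsg.Agent.S2999

open Cfsg.Agent.H33 Cfsg.Agent.H88.MA
open scoped commutatorElement

section Setup

variable {G : Type*} [Group G] {V P : Subgroup G}

/-- conjugation action -/
@[reducible] def act (hPV : P ≤ Subgroup.normalizer (V : Set G)) :
    DistribMulAction ↥P (Additive ↥V) where
  smul z v := Additive.ofMul ⟨(z : G) * (Additive.toMul v : ↥V) * (z : G)⁻¹,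
    (Subgroup.mem_normalizer_iff.mp (hPV z.2) _).mp (Additive.toMul v : ↥V).2⟩
  one_smul v := by
    apply Additive.toMul.injective
    apply Subtype.ext
    change (1 : G) * (Additive.toMul v : ↥V) * (1 : G)⁻¹ = (Additive.toMul v : ↥V)
    simp
  mul_smul x y v := by
    apply Additive.toMul.injective
    apply Subtype.ext
    change ((x : G) * (y : G)) * (Additive.toMul v : ↥V) * ((x : G) * (y : G))⁻¹ =
      (x : G) * ((y : G) * (Additive.toMul v : ↥V) * (y : G)⁻¹) * (x : G)⁻¹
    group
  smul_zero x := by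
    apply Additive.toMul.injective
    apply Subtype.ext
    change (x : G) * (1 : G) * (x : G)⁻¹ = (1 : G)
    group
  smul_add x v w := by
    apply Additive.toMul.injective
    apply Subtype.ext
    change (x : G) * ((Additive.toMul v : ↥V) * (Additive.toMul w : ↥V)) * (x : G)⁻¹ =
      ((x : G) * (Additive.toMul v : ↥V) * (x : G)⁻¹) * ((x : G) * (Additive.toMul w : ↥V) * (x : G)⁻¹)
    group

end Setup

/-- Let p be a prime and let P and V be subgroups of a finite group with V elementary abelian, P normalizing V and acting faithfully on it (P ∩ C(V) = 1). Suppose P is p-minimal (a Sylow p-subgroup T of P is not normal and lies in a unique maximal subgroup M of P) and A ≤ T is an elementary abelian subgroup such that: |V/C_V(A)| ≤ |A| while |A₀|·|C_V(A₀)| < |A|·|C_V(A)| for every nontrivial proper subgroup A₀ of A; [C_V(T), P] ≠ 1; and P = ⟨A, xAx⁻¹⟩ for every x ∈ P outside M. Then, with q = |A|, there is a field F with q elements such that P ≅ SL₂(F), C_V(A) = [V, A]·C_V(P), and P acts on V/C_V(P) as SL₂(F)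 on its natural two-dimensional module. -/
theorem result {G : Type*} [Group G] [Finite G] {p : ℕ} [Fact p.Prime] (V P : Subgroup G) (hV : Cfsg.IsElementaryAbelian p V) (hPV : P ≤ Subgroup.normalizer (V : Set G)) (hfaith : P ⊓ Subgroup.centralizer (V : Set G) = ⊥) (hmin : Cfsg.IsPMinimal p ↥P) (T : Sylow p ↥P) (M : Subgroup ↥P) (hM : IsCoatom M) (hTM : (T : Subgroup ↥P) ≤ M) (A : Subgroup G) (hAT : A ≤ ((T : Subgroup ↥P).map P.subtype)) (hAel : Cfsg.IsElementaryAbelian p A) (hi : Nat.card ↥V ≤ Nat.card ↥A * Nat.card ↥(V ⊓ Subgroup.centralizer ((A : Subgroup G) : Set G)) ∧ ∀ A₀ : Subgroup G, A₀ ≤ A → A₀ ≠ ⊥ → A₀ ≠ A → Nat.card ↥A₀ * Nat.card ↥(V ⊓ Subgroup.centralizer ((A₀ : Subgroup G) : Set G)) < Nat.card ↥A * Nat.card ↥(V ⊓ Subgroup.centralizer ((A : Subgroup G) : Set G))) (hii : ⁅(V ⊓ Subgroup.centralizer ((((T : Subgroup ↥P).map P.subtype) : Subgroup G) : Set G)), P⁆ ≠ ⊥) (hiii : ∀ x : ↥P, x ∉ M → A ⊔ A.map (MulAut.conj (x : G)).toMonoidHom = P) : ∃ (F : Type) (_ : Field F) (_ : Fintype F), Fintype.card F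 = Nat.card ↥A ∧ Nonempty (↥P ≃* Matrix.SpecialLinearGroup (Fin 2) F) ∧ (V ⊓ Subgroup.centralizer ((A : Subgroup G) : Set G)) = ⁅V, A⁆ ⊔ (V ⊓ Subgroup.centralizer ((P : Subgroup G) : Set G)) ∧ Cfsg.ActsAsSL2OnSection F ⊤ P V (V ⊓ Subgroup.centralizer ((P : Subgroup G) : Set G)) := by
  classical
  have hVc : IsMulCommutative V := hV.1
  letI cgV : CommGroup ↥V :=
    { (inferInstance : Group ↥V) with mul_comm := fun a b => hV.1.is_comm.comm a b }
  letI actI : DistribMulAction ↥P (Additive ↥V) := act hPV
  have hVcomm : ∀ x ∈ V, ∀ y ∈ V, x * y = y * x := fun x hx y hy =>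
    congrArg Subtype.val (hV.1.is_comm.comm (⟨x, hx⟩ : V) ⟨y, hy⟩)
  have hsm : ∀ (z : ↥P) (v : ↥V), ((Additive.toMul (z • Additive.ofMul v) : ↥V) : G) =
    (z : G) * v * (z : G)⁻¹ := fun z v => rfl
  have hAP : A ≤ P := hAT.trans (Subgroup.map_subtype_le _)
  set A' : Subgroup ↥P := A.subgroupOf P with hA'
  have hA'map : A'.map P.subtype = A := by
    rw [hA', Subgroup.subgroupOf_map_subtype, inf_eq_left]; exact hAP
  have hA'card : Nat.card A' = Nat.card A :=
    Nat.card_congr (Subgroup.subgroupOfEquivOfLe hAP).toEquiv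
  have hfix : ∀ (B : Subgroup ↥P) (v : ↥V), Additive.ofMul v ∈ fx (Additive ↥V) B ↔
      (v : G) ∈ Subgroup.centralizer ((B.map P.subtype : Subgroup G) : Set G) := by
    intro B v
    rw [mem_fx, Subgroup.mem_centralizer_iff]
    constructor
    · rintro hv _ ⟨b, hb, rfl⟩
      have h1 := congrArg (fun w : Additive ↥V => ((Additive.toMul w : ↥V) : G)) (hv b hb)
      simp only [hsm] at h1
      rw [mul_inv_eq_iff_eq_mul] at h1
      exact h1
    · intro hv b hb
      apply Additive.toMul.injective
      apply Subtype.ext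
      rw [hsm, mul_inv_eq_iff_eq_mul]
      exact hv _ ⟨b, hb, rfl⟩
  have hcfx : ∀ B : Subgroup ↥P, Nat.card (fx (Additive ↥V) B) =
      Nat.card ↥(V ⊓ Subgroup.centralizer ((B.map P.subtype : Subgroup G) : Set G)) := by
    intro B
    apply Nat.card_congr
    exact
      { toFun := fun w => ⟨(Additive.toMul (w : Additive ↥V) : ↥V),
          (Additive.toMul (w : Additive ↥V) : ↥V).2, (hfix B _).mp w.2⟩
        invFun := fun v => ⟨Additive.ofMul ⟨v, v.2.1⟩, (hfix B _).mpr v.2.2⟩
        left_inv := fun w => rfl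
        right_inv := fun v => rfl }
  have hpm : PM p (T : Subgroup ↥P) M :=
    { syl := isSyl_top T
      TM := hTM
      top := hM.1
      uniq := by
        intro N hTN hN
        obtain h1 | ⟨K, hK, hNK⟩ := eq_top_or_exists_le_coatom N
        · exact absurd h1 hN
        · rw [(hmin T).2.unique ⟨hM, hTM⟩ ⟨hK, hTN.trans hNK⟩]
          exact hNK
      nn := (hmin T).1 }
  have hAne : A ≠ ⊥ := by
    intro hA0
    obtain ⟨x, hx⟩ : ∃ x : ↥P, x ∉ M := by
      by_contra hno
      push Not at hno
      exact hM.1 (by rw [eq_top_iff]; intro x _; exact hno x)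
    have h1 := hiii x hx
    rw [hA0, Subgroup.map_bot, sup_bot_eq] at h1
    apply (hmin T).1
    haveI : Subsingleton ↥P := by
      rw [← h1]; infer_instance
    exact ⟨fun n hn g => by rw [Subsingleton.elim (g * n * g⁻¹) n]; exact hn⟩
  have hAV : A ≤ Subgroup.normalizer (V : Set G) := hAP.trans hPV
  have hAcomm : ∀ x ∈ A, ∀ y ∈ A, x * y = y * x := fun x hx y hy =>
    congrArg Subtype.val (hAel.1.is_comm.comm (⟨x, hx⟩ : A) ⟨y, hy⟩)
  -- quadratic action
  have hAcomm2 : ⁅A, A⁆ ≤ Subgroup.centralizer (V : Set G) := by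
    rw [Subgroup.commutator_eq_bot_iff_le_centralizer.mpr]
    · exact bot_le
    · intro x hx
      rw [Subgroup.mem_centralizer_iff]
      intro y hy
      exact hAcomm y hy x hx
  have hbo : IsBestOffenderOn p V A := by
    refine ⟨?_, hAcomm2, fun a ha => by rw [hAel.2 a ha]; exact Subgroup.one_mem _⟩
    intro B hB
    by_cases h0 : B = ⊥
    · subst h0
      have h1 : V ⊓ Subgroup.centralizer ((⊥ : Subgroup G) : Set G) = V := by
        rw [inf_eq_left]
        intro x _
        rw [Subgroup.mem_centralizer_iff]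
        intro y hy
        have : y = 1 := hy
        rw [this]; simp
      rw [h1, Subgroup.card_bot, one_mul]
      exact hi.1
    · by_cases h1 : B = A
      · rw [h1]
      · exact (hi.2 B hB h0 h1).le
  have hquad : ⁅V, A⁆ ≤ Subgroup.centralizer (A : Set G) := by
    obtain ⟨hw, -⟩ := H10.replacement hV.1 hAV hAcomm2 hbo.1 V le_rfl
    obtain ⟨-, -, h3⟩ := H10.timmesfeld V A hV hAV hbo V le_rfl
    set B := A ⊓ Subgroup.centralizer ((⁅V, A⁆ : Subgroup G) : Set G) with hB
    have hVA : ⁅V, A⁆ ≠ ⊥ := by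
      intro h4
      apply hAne
      rw [eq_bot_iff, ← hfaith]
      refine le_inf hAP ?_
      rw [Subgroup.commutator_comm] at h4
      exact Subgroup.commutator_eq_bot_iff_le_centralizer.mp h4
    have hB0 : B ≠ ⊥ := by
      intro h4
      apply h3 hVA
      rw [h4, Subgroup.commutator_bot_right]
    have hBA : B = A := by
      by_contra h4
      exact absurd hw (hi.2 B inf_le_left hB0 h4).ne
    have h5 : A ≤ Subgroup.centralizer ((⁅V, A⁆ : Subgroup G) : Set G) :=
      hBA.ge.trans inf_le_right
    exact Subgroup.le_centralizer_iff.mp h5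
  have hwh : WHyp p (T : Subgroup ↥P) M A' (Additive ↥V) :=
    { pm := hpm
      AT := by
        intro a ha
        obtain ⟨t, ht, he⟩ := hAT (show (a : G) ∈ A from ha)
        have : t = a := Subtype.ext he
        rw [← this]; exact ht
      comm := fun a ha b hb => Subtype.ext (hAcomm a ha b hb)
      quad := by
        intro a ha b hb w
        have h1 : a • w - w = Additive.ofMul (Additive.toMul (a • w) * (Additive.toMul w)⁻¹) := by
          rw [sub_eq_add_neg]; rfl
        rw [h1]
        apply Additive.toMul.injective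
        apply Subtype.ext
        rw [hsm]
        have h2 : ((Additive.toMul (a • w) * (Additive.toMul w)⁻¹ : ↥V) : G) =
          ⁅(a : G), ((Additive.toMul w : ↥V) : G)⁆ := by
          rw [commutatorElement_def]
          rfl
        change (b : G) * ((Additive.toMul (a • w) * (Additive.toMul w)⁻¹ : ↥V) : G) * (b : G)⁻¹ =
          ((Additive.toMul (a • w) * (Additive.toMul w)⁻¹ : ↥V) : G)
        rw [h2]
        have h3 : ⁅(a : G), ((Additive.toMul w : ↥V) : G)⁆ ∈ ⁅V, A⁆ := by
          rw [Subgroup.commutator_comm]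
          exact Subgroup.commutator_mem_commutator ha (Additive.toMul w : ↥V).2
        have h4 := Subgroup.mem_centralizer_iff.mp (hquad h3) b hb
        rw [h4, mul_inv_cancel_right]
      le := by
        rw [hcfx, hA'map, hA'card]
        exact hi.1
      lt := by
        intro B hB hB0 hBA
        rw [hcfx, hcfx, hA'map, hA'card]
        have h1 : Nat.card B = Nat.card (B.map P.subtype) :=
          Nat.card_congr (B.equivMapOfInjective _ P.subtype_injective).toEquiv
        rw [h1]
        apply hi.2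
        · rw [← hA'map]; exact Subgroup.map_mono hB
        · intro h2
          apply hB0
          rwa [Subgroup.map_eq_bot_iff_of_injective _ P.subtype_injective] at h2
        · intro h2
          apply hBA
          apply Subgroup.map_injective P.subtype_injective
          rw [h2, hA'map]
      faith := by
        intro z hz
        apply Subtype.ext
        have h1 : (z : G) ∈ P ⊓ Subgroup.centralizer (V : Set G) := by
          refine Subgroup.mem_inf.mpr ⟨z.2, ?_⟩
          rw [Subgroup.mem_centralizer_iff]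
          intro v hv
          have h2 := congrArg (fun w : Additive ↥V => ((Additive.toMul w : ↥V) : G))
            (hz (Additive.ofMul ⟨v, hv⟩))
          simp only [hsm] at h2
          rw [mul_inv_eq_iff_eq_mul] at h2
          exact h2.symm
        rw [hfaith] at h1
        exact h1
      nt := by
        by_contra hno
        push Not at hno
        apply hii
        rw [Subgroup.commutator_eq_bot_iff_le_centralizer]
        rintro v ⟨hv1, hv2⟩
        have h1 := hno (Additive.ofMul ⟨v, hv1⟩) ((hfix _ _).mpr hv2)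
        have h2 := (hfix _ _).mp h1
        rw [← MonoidHom.range_eq_map, Subgroup.range_subtype] at h2
        exact h2
      gen := by
        intro x hx
        apply Subgroup.map_injective P.subtype_injective
        rw [Subgroup.map_sup, hA'map, ← MonoidHom.range_eq_map, Subgroup.range_subtype]
        have h1 : (cj x A').map P.subtype = A.map (MulAut.conj (x : G)).toMonoidHom := by
          rw [← hA'map]
          ext y
          constructor
          · rintro ⟨z, ⟨w, hw, rfl⟩, rfl⟩
            exact ⟨_, ⟨w, hw, rfl⟩, rfl⟩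
          · rintro ⟨_, ⟨w, hw, rfl⟩, rfl⟩
            exact ⟨_, ⟨w, hw, rfl⟩, rfl⟩
        rw [h1]
        exact hiii x hx
      exp := by
        intro w
        apply Additive.toMul.injective
        apply Subtype.ext
        exact hV.2 _ (Additive.toMul w : ↥V).2 }
  have hqr := hwh.qreg
  obtain ⟨F, iF, iFF, hcardF, ρ, vec, hρ, hvec, heq⟩ := hqr.natural hwh.faithQ
  have hfixtop : ∀ v : ↥V, Additive.ofMul v ∈ fx (Additive ↥V) (⊤ : Subgroup ↥P) ↔
      (v : G) ∈ Subgroup.centralizer (P : Set G) := by
    intro v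
    rw [hfix, ← MonoidHom.range_eq_map, Subgroup.range_subtype]
  refine ⟨F, iF, iFF, ?_, ⟨MulEquiv.ofBijective ρ hρ⟩, ?_, hPV, inf_le_left, ρ, ?_, ?_, ?_, ?_, ?_⟩
  · rw [← Nat.card_eq_fintype_card, hcardF, hA'card]
  · apply le_antisymm
    · rintro z ⟨hzV, hzA⟩
      obtain ⟨g, hg⟩ := hqr.exists_nM
      obtain ⟨v, hvT, hvn⟩ := hwh.nt
      have hz1 : Additive.ofMul (⟨z, hzV⟩ : ↥V) ∈ fx (Additive ↥V) A' := by
        rw [hfix, hA'map]; exact hzA
      have hv0 : (QuotientAddGroup.mk v : Additive ↥V ⧸ fx (Additive ↥V) (⊤ : Subgroup ↥P)) ≠ 0 :=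
        fun h1 => hvn (mk_eq_zero.mp h1)
      obtain ⟨a, ha, h1⟩ := hqr.onto hg (mk_mem_Xq.mpr (fx_anti hwh.AT hvT)) hv0
        (mk_mem_Xq.mpr hz1)
      have h2 : (QuotientAddGroup.mk (a • (g • v) - g • v) :
          Additive ↥V ⧸ fx (Additive ↥V) (⊤ : Subgroup ↥P)) =
          QuotientAddGroup.mk (Additive.ofMul (⟨z, hzV⟩ : ↥V)) := h1
      rw [QuotientAddGroup.eq] at h2
      set w := g • v with hw
      have h3 : (-(a • w - w) + Additive.ofMul (⟨z, hzV⟩ : ↥V)) =
        Additive.ofMul ((Additive.toMul (a • w) * (Additive.toMul w)⁻¹)⁻¹ * (⟨z, hzV⟩ : ↥V)) := by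
        rw [sub_eq_add_neg]; rfl
      rw [h3, hfixtop] at h2
      have h4 : ((Additive.toMul (a • w) * (Additive.toMul w)⁻¹ : ↥V) : G) =
          ⁅(a : G), ((Additive.toMul w : ↥V) : G)⁆ := by
        rw [commutatorElement_def]
        rfl
      have h5 : z = ((Additive.toMul (a • w) * (Additive.toMul w)⁻¹ : ↥V) : G) *
          (((Additive.toMul (a • w) * (Additive.toMul w)⁻¹)⁻¹ * (⟨z, hzV⟩ : ↥V) : ↥V) : G) := by
        rw [← Subgroup.coe_mul, mul_inv_cancel_left]
      rw [h5]
      refine Subgroup.mul_mem_sup ?_ ⟨Subtype.property _, h2⟩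
      rw [h4, Subgroup.commutator_comm]
      exact Subgroup.commutator_mem_commutator ha (Additive.toMul w : ↥V).2
    · apply sup_le
      · refine le_inf ?_ hquad
        exact (Subgroup.le_normalizer_iff_commutator_le_left.mp hAV)
      · exact inf_le_inf_left _ (Subgroup.centralizer_le (SetLike.coe_subset_coe.mpr hAP))
  · exact
      { toFun := fun u => Multiplicative.ofAdd (vec (QuotientAddGroup.mk (Additive.ofMul u)))
        map_one' := by
          change Multiplicative.ofAdd (vec 0) = 1
          rw [map_zero]; rfl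
        map_mul' := fun u w => by
          change Multiplicative.ofAdd (vec (QuotientAddGroup.mk (Additive.ofMul u + Additive.ofMul w)))
            = _
          rw [QuotientAddGroup.mk_add, map_add]; rfl }
  · rw [MonoidHom.range_eq_top]
    exact hρ.2
  · intro m
    obtain ⟨q, hq⟩ := hvec.2 (Multiplicative.toAdd m)
    obtain ⟨w, rfl⟩ := QuotientAddGroup.mk_surjective q
    exact ⟨Additive.toMul w, hq⟩
  · intro u
    change vec (QuotientAddGroup.mk (Additive.ofMul u)) = 0 ↔ _
    rw [map_eq_zero_iff vec hvec.1, mk_eq_zero, hfixtop]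
    exact ⟨fun h1 => ⟨u.2, h1⟩, fun h1 => h1.2⟩
  · intro e u
    refine ⟨Additive.toMul (e • Additive.ofMul u), rfl, ?_⟩
    exact heq e (QuotientAddGroup.mk (Additive.ofMul u))

end Cfsg.Agent.S2999
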