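import Cfsg.Statements.S3003
import Cfsg.Agent.SigF.Gen

set_option autoImplicit false
open Cfsg

namespace Cfsg.Agent.S3003

/-- The key point: a `p'`-subgroup normalized by `Q` meets `C(z)` trivially, `1 ≠ z ∈ Z(Q)`. -/
theorem aux {G : Type*} [Group G] [Finite G] {p : ℕ} [Fact p.Prime] (Q : Subgroup G) (hQp : IsPGroup p ↥Q)
    (hlarge : Cfsg.IsLarge Q) (R : Subgroup G) (hR : (Nat.card ↥R).Coprime p)
    (hQR : Q ≤ Subgroup.normalizer (R : Set G)) {z : G} (hz1 : z ≠ 1)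
    (hz : z ∈ Q ⊓ Subgroup.centralizer (Q : Set G)) {r : G} (hr : r ∈ R) (hrz : r * z = z * r) : r = 1 := by
  have hRQ : R ⊓ Q = ⊥ := by
    obtain ⟨n, hn⟩ := hQp.exists_card_eq
    apply Subgroup.inf_eq_bot_of_coprime
    rw [hn]
    exact hR.pow_right n
  have hzn : Subgroup.zpowers z ≠ ⊥ := by
    rw [Ne, Subgroup.zpowers_eq_bot]; exact hz1
  have h1 := hlarge.2 (Subgroup.zpowers z) (by rw [Subgroup.zpowers_le]; exact hz.2) hzn
  have hrn : r ∈ Subgroup.normalizer ((Subgroup.zpowers z : Subgroup G) : Set G) := by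
    apply Subgroup.centralizer_le_normalizer
    rw [Subgroup.mem_centralizer_iff]
    intro y hy
    obtain ⟨k, rfl⟩ := Subgroup.mem_zpowers_iff.1 hy
    exact ((show Commute r z from hrz).zpow_right k).eq.symm
  have hrQ := h1 hrn
  have hcQ : r ∈ Subgroup.centralizer (Q : Set G) := by
    rw [Subgroup.mem_centralizer_iff]
    intro q hq
    have h2 : q * r * q⁻¹ * r⁻¹ ∈ R ⊓ Q := by
      constructor
      · exact R.mul_mem ((Subgroup.mem_normalizer_iff.1 (hQR hq) r).1 hr) (R.inv_mem hr)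
      · have := Q.mul_mem hq ((Subgroup.mem_normalizer_iff.1 hrQ q⁻¹).1 (Q.inv_mem hq))
        show q * r * q⁻¹ * r⁻¹ ∈ Q
        simpa [mul_assoc] using this
    rw [hRQ, Subgroup.mem_bot] at h2
    have h3 : q * r * q⁻¹ = r := by rwa [mul_inv_eq_one] at h2
    rwa [mul_inv_eq_iff_eq_mul] at h3
  have : r ∈ R ⊓ Q := ⟨hr, hlarge.1 hcQ⟩
  rwa [hRQ, Subgroup.mem_bot] at this

theorem aux2 {G : Type*} [Group G] [Finite G] {p : ℕ} [Fact p.Prime] (Q : Subgroup G) (hQp : IsPGroup p ↥Q)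
    (hlarge : Cfsg.IsLarge Q) (G₁ : Subgroup G) (hQG : Q ≤ G₁) (R : Subgroup G) (hR : (Nat.card ↥R).Coprime p)
    (hGR : G₁ ≤ Subgroup.normalizer (R : Set G)) (U : Subgroup G)
    (h : ∃ x ∈ U, x ≠ 1 ∧ ∃ g ∈ G₁, g * x * g⁻¹ ∈ Q ⊓ Subgroup.centralizer (Q : Set G)) :
    R ⊓ Subgroup.centralizer (U : Set G) = ⊥ := by
  obtain ⟨x, hxU, hx1, g, hg, hgx⟩ := h
  rw [Subgroup.eq_bot_iff_forall]
  rintro r ⟨hr1, hr2⟩
  have h1 : x * r = r * x := Subgroup.mem_centralizer_iff.1 hr2 x hxU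
  have h2 : g * r * g⁻¹ ∈ R := (Subgroup.mem_normalizer_iff.1 (hGR hg) r).1 hr1
  have h3 := aux Q hQp hlarge R hR (hQG.trans hGR) (z := g * x * g⁻¹) (by
    intro h
    apply hx1
    have : x = g⁻¹ * (g * x * g⁻¹) * g := by group
    rw [this, h]; group) hgx h2 (by
    calc g * r * g⁻¹ * (g * x * g⁻¹) = g * (r * x) * g⁻¹ := by group
      _ = g * (x * r) * g⁻¹ := by rw [h1]
      _ = _ := by group)
  have : r = g⁻¹ * (g * r * g⁻¹) * g := by group
  rw [this, h3]; group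

/-- Let G be a finite group, p a prime and Q a large p-subgroup of G: C_G(Q) ≤ Q and N_G(U) ≤ N_G(Q) for every nontrivial subgroup U of C_G(Q). Let Q ≤ G₁ ≤ G, let R be a subgroup of order prime to p normalized by G₁, and let U ≤ G₁ be a p-subgroup. If U contains a nontrivial element which is G₁-conjugate to an element of Z(Q), then C_R(U) = 1. In particular, if U is elementary abelian of order at least p² and every maximal subgroup of U contains a nontrivial element G₁-conjugate into Z(Q), then R = 1. -/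
theorem result {G : Type*} [Group G] [Finite G] {p : ℕ} [Fact p.Prime] (Q : Subgroup G) (hQp : IsPGroup p ↥Q) (hlarge : Cfsg.IsLarge Q) (G₁ : Subgroup G) (hQG : Q ≤ G₁) (R : Subgroup G) (hR : (Nat.card ↥R).Coprime p) (hGR : G₁ ≤ Subgroup.normalizer (R : Set G)) (U : Subgroup G) (hUG : U ≤ G₁) (hUp : IsPGroup p ↥U) : ((∃ x ∈ U, x ≠ 1 ∧ ∃ g ∈ G₁, g * x * g⁻¹ ∈ Q ⊓ Subgroup.centralizer (Q : Set G)) → R ⊓ Subgroup.centralizer (U : Set G) = ⊥) ∧ (Cfsg.IsElementaryAbelian p U → p ^ 2 ≤ Nat.card ↥U → (∀ U₀ : Subgroup G, U₀ ≤ U → IsCoatom (U₀.subgroupOf U) → ∃ x ∈ U₀, x ≠ 1 ∧ ∃ g ∈ G₁, g * x * g⁻¹ ∈ Q ⊓ Subgroup.centralizer (Q : Set G)) → R = ⊥) := by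
  refine ⟨aux2 Q hQp hlarge G₁ hQG R hR hGR U, ?_⟩
  intro hU hU2 hmax
  have hp : p.Prime := Fact.out
  have hpR : ¬ p ∣ Nat.card R := fun h => by
    have := Nat.eq_one_of_dvd_coprimes hR h dvd_rfl
    exact hp.one_lt.ne' this
  have h1 := SigF.iSup_hyperplane hU hpR (hUG.trans hGR)
  rw [← h1, eq_bot_iff]
  apply iSup_le
  rintro ⟨B, hBU, hB⟩
  -- a coatom containing `B`
  have hUbot : U ≠ ⊥ := by
    intro h
    rw [h, Subgroup.card_bot] at hU2
    have := Nat.one_lt_pow two_ne_zero hp.one_lt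
    omega
  have hex : ∃ x ∈ B, x ≠ 1 ∧ ∃ g ∈ G₁, g * x * g⁻¹ ∈ Q ⊓ Subgroup.centralizer (Q : Set G) := by
    rcases (Nat.dvd_prime hp).1 hB with h | h
    · have hUB : U = B := le_antisymm (Subgroup.relIndex_eq_one.1 h) hBU
      have : Nontrivial ↥U := (Subgroup.nontrivial_iff_ne_bot U).2 hUbot
      obtain ⟨M, hM, -⟩ := (eq_top_or_exists_le_coatom (⊥ : Subgroup ↥U)).resolve_left bot_ne_top
      have h2 : (M.map U.subtype).subgroupOf U = M :=
        Subgroup.comap_map_eq_self_of_injective U.subtype_injective M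
      obtain ⟨x, hx, hrest⟩ := hmax (M.map U.subtype) (Subgroup.map_subtype_le M) (by rw [h2]; exact hM)
      exact ⟨x, hUB ▸ (Subgroup.map_subtype_le M hx), hrest⟩
    · refine hmax B hBU ?_
      have h3 : (B.subgroupOf U).index = p := h
      constructor
      · intro h4
        rw [h4, Subgroup.index_top] at h3
        exact hp.one_lt.ne h3
      · intro C hC
        have h5 := Subgroup.relIndex_mul_index hC.le
        rw [h3] at h5
        rcases (Nat.dvd_prime hp).1 (Dvd.intro_left _ h5) with h6 | h6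
        · exact Subgroup.index_eq_one.1 h6
        · exfalso
          rw [h6] at h5
          have h7 : (B.subgroupOf U).relIndex C = 1 := by
            have := hp.pos
            exact Nat.eq_of_mul_eq_mul_right this (by rw [h5, one_mul])
          exact absurd (Subgroup.relIndex_eq_one.1 h7) (not_le_of_gt hC)
  exact (aux2 Q hQp hlarge G₁ hQG R hR hGR B hex).le

end Cfsg.Agent.S3003
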