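import Cfsg.Statements.S3006
import Cfsg.Agent.H50.CD2

set_option autoImplicit false
open scoped Pointwise
open Cfsg

namespace Cfsg.Agent.S3006

/-- Let P be a finite p-group, Q a centrally large subgroup of P (|Q|·|Z(Q)| maximal among subgroups of P) and A an abelian subgroup of P of largest order. Then QA = AQ is a centrally large subgroup of P, C_{QA}(Q ∩ A) = Z(Q)·A, and the subgroup generated by all centrally large subgroups of P contains C_P(Z(J(P))), where J(P) is generated by the abelian subgroups of largest order. -/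
theorem result {p : ℕ} [Fact p.Prime] (P : Type*) [Group P] [Finite P] (hP : IsPGroup p P) (Q A : Subgroup P) (hQ : Cfsg.IsCentrallyLarge Q) (hA : A ∈ Cfsg.maxAbelianSubgroups P) : ((Q ⊔ A : Subgroup P) : Set P) = (Q : Set P) * (A : Set P) ∧ Cfsg.IsCentrallyLarge (Q ⊔ A) ∧ (Q ⊔ A) ⊓ Subgroup.centralizer ((Q ⊓ A : Subgroup P) : Set P) = (Q ⊓ Subgroup.centralizer (Q : Set P)) ⊔ A ∧ (((Q ⊓ Subgroup.centralizer (Q : Set P)) ⊔ A : Subgroup P) : Set P) = ((Q ⊓ Subgroup.centralizer (Q : Set P)) : Set P) * (A : Set P) ∧ Subgroup.centralizer ((Cfsg.thompsonSubgroupA P ⊓ Subgroup.centralizer (Cfsg.thompsonSubgroupA P : Set P) : Subgroup P) : Set P) ≤ Cfsg.centrallyLargeJoin P := by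
  obtain ⟨h1, h2, h3, h4⟩ := H50.CD.cl_sup_maxAb hQ hA
  obtain ⟨-, hc⟩ := (H50.CD.cl_iff Q).1 hQ
  have h5 : Q ⊓ Subgroup.centralizer (Q : Set P) = Subgroup.centralizer (Q : Set P) := inf_eq_right.2 hc
  have h6 : (Q : Set P) ⊓ (Subgroup.centralizer (Q : Set P) : Set P) = (Subgroup.centralizer (Q : Set P) : Set P) :=
    congrArg (fun K : Subgroup P => (K : Set P)) h5
  refine ⟨h1, h2, ?_, ?_, ?_⟩
  · rw [h5]; exact h3
  · rw [h5]
    first
    | rw [h6]; exact h4
    | exact h4
  · exact (H50.CD.centralizer_center_J_le hQ).trans (le_sSup (H50.CD.cl_sup_J hQ))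

end Cfsg.Agent.S3006
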