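import Cfsg.Statements.S3009
import Cfsg.Agent.H47.Quad

set_option autoImplicit false
open Cfsg

namespace Cfsg.Agent.S3009

open Subgroup Cfsg.Agent.H47 Cfsg.Agent.H47.SLM
open scoped commutatorElement

theorem eq_bot_of_le_comm {X : Type*} [Group X] [Finite X] {p : ℕ} [Fact p.Prime] {P V : Subgroup X}
    (hP : IsPGroup p P) (hVP : V ≤ P) (h : V ≤ ⁅V, P⁆) : V = ⊥ := by
  obtain ⟨n, hn⟩ := (isNilpotent_iff_lowerCentralSeries P).1 hP.isNilpotent
  have key : ∀ n, V ≤ P.lowerCentralSeries n := by
    intro n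
    induction n with
    | zero => exact hVP
    | succ n ih => exact h.trans (commutator_mono ih le_rfl)
  rw [eq_bot_iff, ← hn]
  exact key n

set_option linter.style.haveILetI false

/-- Let p be a prime and let G and V be subgroups of a finite group with V elementary abelian and normalized by G, and G isomorphic to SL₂(F) for a finite field F with pⁿ elements. Suppose G acts irreducibly and nontrivially on V by conjugation (no G-invariant subgroups of V other than 1 and V, and [V, G] ≠ 1), and let S be a Sylow p-subgroup of G and V₀ = C_V(S). If [V, S, S] = 1 or |V| ≤ |V₀|², then G acts on V as SL₂(F) on its natural two-dimensional module; in particular |V| = |F|². -/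
theorem result {X : Type*} [Group X] [Finite X] {p : ℕ} [Fact p.Prime] (G V : Subgroup X) (hV : Cfsg.IsElementaryAbelian p V) (hGV : G ≤ Subgroup.normalizer (V : Set X)) (F : Type) [Field F] [Fintype F] (n : ℕ) (hF : Fintype.card F = p ^ n) (hG : Nonempty (↥G ≃* Matrix.SpecialLinearGroup (Fin 2) F)) (hirr : ∀ U : Subgroup X, U ≤ V → G ≤ Subgroup.normalizer (U : Set X) → U = ⊥ ∨ U = V) (hnt : ⁅V, G⁆ ≠ ⊥) (S : Sylow p ↥G) (hyp : ⁅⁅V, (S : Subgroup ↥G).map G.subtype⁆, (S : Subgroup ↥G).map G.subtype⁆ = ⊥ ∨ Nat.card ↥V ≤ Nat.card ↥(V ⊓ Subgroup.centralizer (((S : Subgroup ↥G).map G.subtype : Subgroup X) : Set X)) ^ 2) : Cfsg.ActsAsSL2OnSection F ⊤ G V ⊥ := by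
  obtain ⟨e⟩ := hG
  haveI : CharP F p := charP_of_card_eq_prime_pow hF
  haveI : Finite (Matrix.SpecialLinearGroup (Fin 2) F) := Finite.of_equiv _ e.toEquiv
  have hVc : ∀ a ∈ V, ∀ b ∈ V, a * b = b * a := fun a ha b hb =>
    congrArg Subtype.val (hV.1.is_comm.comm ⟨a, ha⟩ ⟨b, hb⟩)
  have hnorm : ∀ g ∈ G, ∀ v ∈ V, g * v * g⁻¹ ∈ V := fun g hg v hv => (mem_normalizer_iff.1 (hGV hg) v).1 hv
  letI : CommGroup V := { (inferInstance : Group V) with mul_comm := fun a b => Subtype.ext (hVc a a.2 b b.2) }
  -- normalize the isomorphism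
  obtain ⟨e', he'⟩ : ∃ e' : ↥G ≃* Matrix.SpecialLinearGroup (Fin 2) F,
      ∀ x : ↥G, x ∈ (S : Subgroup ↥G) ↔ ∃ t, e' x = xp t := by
    have hc : ((S.mapSurjective (f := e.toMonoidHom) e.surjective : Sylow p _) :
      Subgroup (Matrix.SpecialLinearGroup (Fin 2) F)) = (S : Subgroup ↥G).map e.toMonoidHom := Sylow.coe_mapSurjective _ S
    obtain ⟨v, hv, hP⟩ := H81.sylow_eq_Tsl (p := p) (S.mapSurjective (f := e.toMonoidHom) e.surjective)
    rw [hc] at hP
    obtain ⟨g, hg⟩ := exists_sl_mulVec hv
    refine ⟨e.trans (MulAut.conj g⁻¹), fun x => ?_⟩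
    have h1 : x ∈ (S : Subgroup ↥G) ↔ e x ∈ H81.Tsl v := by
      rw [← hP]
      constructor
      · intro h; exact ⟨x, h, rfl⟩
      · rintro ⟨y, hy, hyx⟩
        have : y = x := e.injective hyx
        rw [← this]; exact hy
    have h2 : e x ∈ H81.Tsl v ↔ g⁻¹ * e x * g ∈ H81.Tsl (![1, 0] : Fin 2 → F) := by
      rw [H81.mem_Tsl, H81.mem_Tsl, ← hg]
      change _ ↔ (g⁻¹.1 * (e x).1 * g.1).mulVec ![1, 0] = ![1, 0]
      have h3 : g⁻¹.1 * g.1 = 1 := congrArg Subtype.val (inv_mul_cancel g)
      have h4 : g.1 * g⁻¹.1 = 1 := congrArg Subtype.val (mul_inv_cancel g)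
      rw [← Matrix.mulVec_mulVec, ← Matrix.mulVec_mulVec]
      constructor
      · intro h5
        rw [h5, Matrix.mulVec_mulVec, h3, Matrix.one_mulVec]
      · intro h5
        have h6 := congrArg (fun z => g.1.mulVec z) h5
        simp only [Matrix.mulVec_mulVec, ← mul_assoc, h4, one_mul] at h6
        rw [Matrix.mulVec_mulVec]
        exact h6
    have h3 : (e.trans (MulAut.conj g⁻¹)) x = g⁻¹ * e x * g := by
      change g⁻¹ * e x * g⁻¹⁻¹ = _
      rw [inv_inv]
    rw [h1, h2, h3]
    constructor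
    · intro h; exact ⟨_, eq_xp h⟩
    · rintro ⟨t, ht⟩
      rw [ht]; exact xp_mem t
  have hsy : ∀ t : F, e'.symm (xp t) ∈ (S : Subgroup ↥G) := fun t => (he' _).2 ⟨t, e'.apply_symm_apply _⟩
  -- the representation
  let ρ₀ : ↥G →* AddMonoid.End (Additive V) :=
    { toFun := fun g =>
        { toFun := fun v => Additive.ofMul ⟨(g : X) * (v.toMul : V) * (g : X)⁻¹, hnorm g g.2 _ v.toMul.2⟩
          map_zero' := by
            apply congrArg Additive.ofMul
            apply Subtype.ext
            change (g : X) * 1 * (g : X)⁻¹ = 1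
            group
          map_add' := by
            intro a b
            apply congrArg Additive.ofMul
            apply Subtype.ext
            change (g : X) * ((a.toMul : V) * (b.toMul : V)) * (g : X)⁻¹ =
              ((g : X) * (a.toMul : V) * (g : X)⁻¹) * ((g : X) * (b.toMul : V) * (g : X)⁻¹)
            group }
      map_one' := by
        ext v
        change (1 : X) * (v.toMul : V) * (1 : X)⁻¹ = (v.toMul : V)
        group
      map_mul' := by
        intro a b
        ext v
        change (a : X) * b * (v.toMul : V) * ((a : X) * b)⁻¹ = (a : X) * ((b : X) * (v.toMul : V) * (b : X)⁻¹) * (a : X)⁻¹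
        group }
  have hρ₀ : ∀ (g : ↥G) (v : Additive V), (((ρ₀ g v).toMul : V) : X) = g * (v.toMul : V) * (g : X)⁻¹ := fun _ _ => rfl
  let ρ : Matrix.SpecialLinearGroup (Fin 2) F →* AddMonoid.End (Additive V) := ρ₀.comp e'.symm.toMonoidHom
  have hρ : ∀ (m : Matrix.SpecialLinearGroup (Fin 2) F) (v : Additive V),
      (((ρ m v).toMul : V) : X) = e'.symm m * (v.toMul : V) * (e'.symm m : X)⁻¹ := fun _ _ => rfl
  have hlift : ∀ D : AddSubgroup (Additive V), ∃ U : Subgroup X, U ≤ V ∧ ∀ v : Additive V, v ∈ D ↔ ((v.toMul : V) : X) ∈ U := by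
    intro D
    refine ⟨(AddSubgroup.toSubgroup' D).map V.subtype, map_subtype_le _, fun v => ?_⟩
    constructor
    · intro h
      exact ⟨v.toMul, h, rfl⟩
    · rintro ⟨w, hw, hwv⟩
      have : w = v.toMul := Subtype.ext hwv
      rw [this] at hw
      exact hw
  have hIrr : Irr p ρ := by
    refine ⟨fun m => ?_, fun D hD => ?_, ?_⟩
    · apply Additive.toMul.injective
      apply Subtype.ext
      exact hV.2 _ m.toMul.2
    · obtain ⟨U, hU, hUD⟩ := hlift D
      have hGU : G ≤ Subgroup.normalizer (U : Set X) := by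
        intro g hg
        apply mem_normalizer_of_map_conj_le
        rintro _ ⟨u, hu, rfl⟩
        have h1 : (Additive.ofMul (⟨u, hU hu⟩ : V)) ∈ D := (hUD _).2 hu
        have h2 := (hUD _).1 (hD (e' ⟨g, hg⟩) _ h1)
        rw [hρ, MulEquiv.symm_apply_apply] at h2
        exact h2
      rcases hirr U hU hGU with h1 | h1
      · left
        rw [eq_bot_iff]
        intro v hv
        have h2 := (hUD v).1 hv
        rw [h1, Subgroup.mem_bot] at h2
        rw [AddSubgroup.mem_bot]
        apply Additive.toMul.injective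
        exact Subtype.ext h2
      · right
        rw [eq_top_iff]
        intro v _
        rw [hUD, h1]
        exact v.toMul.2
    · by_contra hcon
      push Not at hcon
      apply hnt
      rw [eq_bot_iff, commutator_le]
      intro v hv g hg
      have h1 := congrArg (fun z : Additive V => ((z.toMul : V) : X)) (hcon (e' ⟨g, hg⟩) (Additive.ofMul ⟨v, hv⟩))
      simp only [hρ, MulEquiv.symm_apply_apply] at h1
      change g * v * g⁻¹ = v at h1
      rw [mem_bot, commutatorElement_eq_one_iff_mul_comm]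
      exact (mul_inv_eq_iff_eq_mul.1 h1).symm
  set S' := (S : Subgroup ↥G).map G.subtype with hS'
  have hSG : S' ≤ G := map_subtype_le _
  have hcomm : ∀ t (m : Additive V), (((ρ (xp t) m - m).toMul : V) : X) ∈ ⁅V, S'⁆ := by
    intro t m
    have h1 : (((ρ (xp t) m - m).toMul : V) : X) = ⁅((e'.symm (xp t) : ↥G) : X), ((m.toMul : V) : X)⁆ := by
      rw [sub_eq_add_neg]
      rfl
    rw [h1, Subgroup.commutator_comm]
    exact commutator_mem_commutator ⟨_, hsy t, rfl⟩ m.toMul.2
  have hNN : NN ρ ≠ ⊤ := by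
    intro h1
    have hle : V ≤ ⁅V, S'⁆ := by
      intro v hv
      have h2 : (Additive.ofMul (⟨v, hv⟩ : V)) ∈ NN ρ := by rw [h1]; trivial
      have h3 : ∀ m ∈ NN ρ, (((m : Additive V).toMul : V) : X) ∈ ⁅V, S'⁆ := by
        intro m hm
        unfold NN at hm
        induction hm using AddSubgroup.closure_induction with
        | mem x hx =>
          obtain ⟨t, m, rfl⟩ := hx
          exact hcomm t m
        | zero => exact one_mem _
        | add a b _ _ ha hb => exact mul_mem ha hb
        | neg a _ ha => exact inv_mem ha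
      exact h3 _ h2
    have hp : IsPGroup p (V ⊔ S' : Subgroup X) := by
      have hVp : IsPGroup p V := fun x => ⟨1, Subtype.ext (by rw [pow_one]; exact hV.2 x x.2)⟩
      exact hVp.to_sup_of_normal_left' (S.isPGroup'.map _) (hSG.trans hGV)
    have h2 := eq_bot_of_le_comm hp le_sup_left (hle.trans (commutator_mono le_rfl le_sup_right))
    apply hnt
    rw [h2, commutator_bot_left]
  have hquad : (∀ s t m, ρ (xp s) (ρ (xp t) m - m) = ρ (xp t) m - m) ∧ XX ρ ≠ ⊥ := by
    have h0 : (∀ s t m, ρ (xp s) (ρ (xp t) m - m) = ρ (xp t) m - m) := by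
      rcases hyp with h1 | h1
      · intro s t m
        have h2 := hcomm t m
        rw [commutator_eq_bot_iff_le_centralizer] at h1
        have h3 := mem_centralizer_iff.1 (h1 h2) ((e'.symm (xp s) : ↥G) : X) ⟨_, hsy s, rfl⟩
        apply Additive.toMul.injective
        apply Subtype.ext
        rw [hρ, mul_inv_eq_iff_eq_mul]
        exact h3
      · have h2 : Nat.card (Additive V) ≤ Nat.card (XX ρ) ^ 2 := by
          refine le_trans h1 (Nat.pow_le_pow_left ?_ 2)
          have hx : ∀ x : (V ⊓ centralizer (S' : Set X) : Subgroup X), (Additive.ofMul (⟨x, x.2.1⟩ : V)) ∈ XX ρ := by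
            intro x t
            apply Additive.toMul.injective
            apply Subtype.ext
            rw [hρ, mul_inv_eq_iff_eq_mul]
            have hx2 : (x : X) ∈ centralizer (S' : Set X) := x.2.2
            exact mem_centralizer_iff.1 hx2 _ ⟨_, hsy t, rfl⟩
          apply Nat.card_le_card_of_injective (fun x => (⟨_, hx x⟩ : XX ρ))
          intro a b hab
          have h3 := congrArg (fun z : XX ρ => (((z : Additive V).toMul : V) : X)) hab
          exact Subtype.ext h3
        have h3 := quad_of_card hF hIrr hNN h2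
        intro s t m
        exact h3 (mem_NN t m) s
    refine ⟨h0, ?_⟩
    by_cases h1 : ∃ t m, ρ (xp t) m - m ≠ 0
    · obtain ⟨t, m, hm⟩ := h1
      rw [AddSubgroup.ne_bot_iff_exists_ne_zero]
      exact ⟨⟨_, fun s => h0 s t m⟩, fun h2 => hm (congrArg Subtype.val h2)⟩
    · push Not at h1
      have h2 : ∀ m, m ∈ XX ρ := fun m t => sub_eq_zero.1 (h1 t m)
      obtain ⟨g, m, hm⟩ := hIrr.nt
      intro h3
      have h4 := h2 m
      rw [h3, AddSubgroup.mem_bot] at h4
      apply hm
      rw [h4, map_zero]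
  obtain ⟨ψ, hψ⟩ := nat_of_quad hIrr hquad.2 hquad.1
  refine ⟨hGV, bot_le, e'.toMonoidHom, MonoidHom.mk' (fun v => Multiplicative.ofAdd (ψ (Additive.ofMul v))) ?_, ?_, ?_, ?_, ?_⟩
  · intro a b
    rw [ofMul_mul, map_add, ofAdd_add]
  · exact MonoidHom.range_eq_top.2 e'.surjective
  · intro f
    obtain ⟨m, hm⟩ := ψ.surjective (Multiplicative.toAdd f)
    refine ⟨m.toMul, ?_⟩
    change Multiplicative.ofAdd (ψ m) = f
    rw [hm]; rfl
  · intro u
    change Multiplicative.ofAdd (ψ (Additive.ofMul u)) = 1 ↔ _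
    rw [ofAdd_eq_one, ψ.map_eq_zero_iff, mem_bot]
    constructor
    · intro h1
      exact congrArg (fun z : Additive V => ((z.toMul : V) : X)) h1
    · intro h1
      apply Additive.toMul.injective
      exact Subtype.ext h1
  · intro g u
    refine ⟨⟨(g : X) * u * (g : X)⁻¹, hnorm g g.2 u u.2⟩, rfl, ?_⟩
    have h1 := hψ (e' g) (Additive.ofMul u)
    change ψ _ = (e' g).1.mulVec (ψ (Additive.ofMul u))
    rw [← h1]
    congr 1
    apply Additive.toMul.injective
    apply Subtype.ext
    rw [hρ, MulEquiv.symm_apply_apply]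
    rfl

end Cfsg.Agent.S3009
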