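import Cfsg.Statements.S3011
import Cfsg.Agent.S0200
import Cfsg.Agent.Solv.Core
-- import your own Cfsg.Agent.* helpers here

set_option autoImplicit false
open Cfsg

namespace Cfsg.Agent.S3011

/-- An element commuting with the square of an element of odd order commutes with the element. -/
theorem comm_of_sq {G : Type*} [Group G] {w h : G} (hodd : Odd (orderOf h))
    (hc : Commute w (h ^ 2)) : Commute w h := by
  obtain ⟨k, hk⟩ := hodd
  have : h = (h ^ 2) ^ (k + 1) := by
    rw [← pow_mul]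
    have : 2 * (k + 1) = orderOf h + 1 := by omega
    rw [this, pow_succ, pow_orderOf_eq_one, one_mul]
  rw [this]
  exact hc.pow_right _

theorem eq_one_of_sq {G : Type*} [Group G] {h : G} (hodd : Odd (orderOf h)) (hc : h ^ 2 = 1) : h = 1 := by
  obtain ⟨k, hk⟩ := hodd
  have : h = (h ^ 2) ^ (k + 1) := by
    rw [← pow_mul]
    have : 2 * (k + 1) = orderOf h + 1 := by omega
    rw [this, pow_succ, pow_orderOf_eq_one, one_mul]
  rw [this, hc, one_pow]

/-- An element of odd order both centralized and inverted is trivial. -/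
theorem eq_one_of_comm_of_inv {G : Type*} [Group G] {w h : G} (hodd : Odd (orderOf h))
    (hc : Commute w h) (hi : w * h * w⁻¹ = h⁻¹) : h = 1 := by
  apply eq_one_of_sq hodd
  rw [hc.eq, mul_inv_cancel_right] at hi
  rw [pow_two]
  nth_rewrite 1 [hi]
  rw [inv_mul_cancel]

theorem list_of_card_le {G : Type*} [Group G] [Finite G] {V : Subgroup G} (hV : Cfsg.IsElementaryAbelian 2 V)
    (h4 : Nat.card V ≤ 4) {s t : G} (hs : s ∈ V) (ht : t ∈ V) (hs1 : s ≠ 1) (ht1 : t ≠ 1) (hst : s ≠ t) :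
    ∀ w ∈ V, w ≠ 1 → w = s ∨ w = t ∨ w = s * t := by
  have ht2 : t * t = 1 := by
    have := hV.2 t ht
    rwa [pow_two] at this
  have hst1 : s * t ≠ 1 := by
    intro h
    apply hst
    have h1 : s * t = t * t := by rw [h, ht2]
    exact mul_right_cancel h1
  intro w hw hw1
  by_contra hcon
  push Not at hcon
  obtain ⟨c1, c2, c3⟩ := hcon
  classical
  let f : Finset G := {1, s, t, s * t, w}
  have hf : f.card = 5 := by
    have e1 : (1 : G) ≠ s * t := fun h => hst1 h.symm
    have e2 : s ≠ s * t := fun h => ht1 (by simpa using h.symm)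
    have e3 : t ≠ s * t := fun h => hs1 (by simpa using h.symm)
    simp only [f]
    rw [Finset.card_insert_of_notMem, Finset.card_insert_of_notMem, Finset.card_insert_of_notMem,
      Finset.card_insert_of_notMem, Finset.card_singleton]
    · simpa using fun h => c3 h.symm
    · simp only [Finset.mem_insert, Finset.mem_singleton, not_or]
      exact ⟨e3, fun h => c2 h.symm⟩
    · simp only [Finset.mem_insert, Finset.mem_singleton, not_or]
      exact ⟨hst, e2, fun h => c1 h.symm⟩
    · simp only [Finset.mem_insert, Finset.mem_singleton, not_or]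
      exact ⟨fun h => hs1 h.symm, fun h => ht1 h.symm, e1, fun h => hw1 h.symm⟩
  have hsub : ∀ z ∈ f, z ∈ V := by
    intro z hz
    simp only [f, Finset.mem_insert, Finset.mem_singleton] at hz
    rcases hz with rfl | rfl | rfl | rfl | rfl
    · exact V.one_mem
    · exact hs
    · exact ht
    · exact V.mul_mem hs ht
    · exact hw
  have hle : f.card ≤ Nat.card V := by
    have h1 : (f : Set G) ⊆ (V : Set G) := fun z hz => hsub z hz
    have h2 := Set.ncard_le_ncard h1 (Set.toFinite _)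
    rw [Set.ncard_coe_finset] at h2
    exact h2
  omega

theorem core {G : Type*} [Group G] [Finite G] {V : Subgroup G} (hV : Cfsg.IsElementaryAbelian 2 V)
    (hS : Cfsg.IsSidkiPair V) (h4 : Nat.card V ≤ 4) {s t x y : G} (hs : s ∈ V) (ht : t ∈ V)
    (hx : Odd (orderOf x)) (hy : Odd (orderOf y)) (hx1 : x ≠ 1) (hy1 : y ≠ 1)
    (hsx : Commute s x) (htx : t * x * t⁻¹ = x⁻¹) (hty : Commute t y) (hsy : s * y * s⁻¹ = y⁻¹) : False := by
  have hcomm : ∀ a ∈ V, ∀ b ∈ V, Commute a b := by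
    intro a ha b hb
    have := hV.1.is_comm.comm ⟨a, ha⟩ ⟨b, hb⟩
    exact congrArg Subtype.val this
  have hs1 : s ≠ 1 := by
    rintro rfl
    exact hy1 (eq_one_of_comm_of_inv hy (Commute.one_left y) hsy)
  have ht1 : t ≠ 1 := by
    rintro rfl
    exact hx1 (eq_one_of_comm_of_inv hx (Commute.one_left x) htx)
  have hst : s ≠ t := by
    rintro rfl
    exact hx1 (eq_one_of_comm_of_inv hx hsx htx)
  have hs2 : s * s = 1 := by
    have := hV.2 s hs
    rwa [pow_two] at this
  have ht2 : t * t = 1 := by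
    have := hV.2 t ht
    rwa [pow_two] at this
  have hst1 : s * t ≠ 1 := by
    intro h
    apply hst
    have h1 : s * t = t * t := by rw [h, ht2]
    exact mul_right_cancel h1
  have hlist := list_of_card_le hV h4 hs ht hs1 ht1 hst
  -- conjugate pair
  have hgy : s * (x * y * x⁻¹) * s⁻¹ = (x * y * x⁻¹)⁻¹ := by
    have e1 : s * x * s⁻¹ = x := by rw [hsx.eq, mul_inv_cancel_right]
    calc s * (x * y * x⁻¹) * s⁻¹ = (s * x * s⁻¹) * (s * y * s⁻¹) * (s * x * s⁻¹)⁻¹ := by group
      _ = x * y⁻¹ * x⁻¹ := by rw [e1, hsy]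
      _ = _ := by group
  have hoy : Odd (orderOf (x * y * x⁻¹)) := by
    have : orderOf (x * y * x⁻¹) = orderOf y := by
      simpa using orderOf_injective (MulAut.conj x).toMonoidHom (MulAut.conj x).injective y
    rwa [this]
  obtain ⟨w, hwV, hw1, hwc⟩ := hS _ s hs hoy hgy
  have hwc' : Commute (x⁻¹ * w * x) y := by
    show x⁻¹ * w * x * y = y * (x⁻¹ * w * x)
    have h1 : w * (x * y * x⁻¹) = (x * y * x⁻¹) * w := hwc
    calc x⁻¹ * w * x * y = x⁻¹ * (w * (x * y * x⁻¹)) * x := by group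
      _ = x⁻¹ * ((x * y * x⁻¹) * w) * x := by rw [h1]
      _ = _ := by group
  have htg : x⁻¹ * t * x = t * x ^ 2 := by
    have h1 : x⁻¹ * t = t * x := by
      rw [← htx, inv_mul_cancel_right]
    rw [h1, mul_assoc, pow_two]
  have hxy_case : ¬ Commute x y := by
    intro hxy
    have hinv : (s * t) * (x * y) * (s * t)⁻¹ = (x * y)⁻¹ := by
      have e1 : t * y * t⁻¹ = y := by rw [hty.eq, mul_inv_cancel_right]
      have e2 : s * x⁻¹ * s⁻¹ = x⁻¹ := by rw [(hsx.inv_right).eq, mul_inv_cancel_right]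
      calc (s * t) * (x * y) * (s * t)⁻¹ = s * ((t * x * t⁻¹) * (t * y * t⁻¹)) * s⁻¹ := by group
        _ = s * (x⁻¹ * y) * s⁻¹ := by rw [htx, e1]
        _ = (s * x⁻¹ * s⁻¹) * (s * y * s⁻¹) := by group
        _ = x⁻¹ * y⁻¹ := by rw [e2, hsy]
        _ = (x * y)⁻¹ := by rw [mul_inv_rev, (hxy.inv_inv).eq]
    have hoxy : Odd (orderOf (x * y)) :=
      Odd.of_dvd_nat (hx.mul hy) hxy.orderOf_mul_dvd_mul_orderOf
    obtain ⟨u, huV, hu1, huc⟩ := hS _ (s * t) (V.mul_mem hs ht) hoxy hinv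
    have huc' : Commute u (x * y) := huc
    rcases hlist u huV hu1 with rfl | rfl | rfl
    · have h1 : Commute u y := by
        have : y = x⁻¹ * (x * y) := by group
        rw [this]
        exact hsx.inv_right.mul_right huc'
      exact hy1 (eq_one_of_comm_of_inv hy h1 hsy)
    · have h1 : Commute u x := by
        have : x = (x * y) * y⁻¹ := by group
        rw [this]
        exact huc'.mul_right hty.inv_right
      exact hx1 (eq_one_of_comm_of_inv hx h1 htx)
    · have h1 := eq_one_of_comm_of_inv hoxy huc' hinv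
      have h2 : y = x⁻¹ := (eq_inv_of_mul_eq_one_right h1)
      have h3 : Commute s y := by
        rw [h2]; exact hsx.inv_right
      exact hy1 (eq_one_of_comm_of_inv hy h3 hsy)
  rcases hlist w hwV hw1 with rfl | rfl | rfl
  · have : x⁻¹ * w * x = w := by
      rw [mul_assoc, hsx.eq, inv_mul_cancel_left]
    rw [this] at hwc'
    exact hy1 (eq_one_of_comm_of_inv hy hwc' hsy)
  · rw [htg] at hwc'
    have h1 : Commute (x ^ 2) y := by
      have : x ^ 2 = w⁻¹ * (w * x ^ 2) := by group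
      rw [this]
      exact hty.inv_left.mul_left hwc'
    exact hxy_case (comm_of_sq hx h1.symm).symm
  · have e1 : x⁻¹ * (s * t) * x = s * t * x ^ 2 := by
      have h1 : x⁻¹ * s = s * x⁻¹ := hsx.inv_right.symm.eq
      calc x⁻¹ * (s * t) * x = (x⁻¹ * s) * t * x := by group
        _ = s * (x⁻¹ * t * x) := by rw [h1]; group
        _ = s * (t * x ^ 2) := by rw [htg]
        _ = _ := by group
    rw [e1] at hwc'
    -- `x ^ 2` inverts `y`
    have hsti : (s * t) * y * (s * t)⁻¹ = y⁻¹ := by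
      calc (s * t) * y * (s * t)⁻¹ = s * (t * y * t⁻¹) * s⁻¹ := by group
        _ = s * y * s⁻¹ := by rw [hty.eq, mul_inv_cancel_right]
        _ = y⁻¹ := hsy
    have h2 : x ^ 2 * y * (x ^ 2)⁻¹ = y⁻¹ := by
      have h3 : (s * t * x ^ 2) * y * (s * t * x ^ 2)⁻¹ = y := by
        rw [hwc'.eq, mul_inv_cancel_right]
      have h4 : x ^ 2 * y * (x ^ 2)⁻¹ = (s * t)⁻¹ * y * (s * t) := by
        calc x ^ 2 * y * (x ^ 2)⁻¹ = (s * t)⁻¹ * ((s * t * x ^ 2) * y * (s * t * x ^ 2)⁻¹) * (s * t) := by group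
          _ = _ := by rw [h3]
      rw [h4]
      have h5 : y = (s * t) * y⁻¹ * (s * t)⁻¹ := by
        rw [← conj_inv, hsti, inv_inv]
      calc (s * t)⁻¹ * y * (s * t) = (s * t)⁻¹ * ((s * t) * y⁻¹ * (s * t)⁻¹) * (s * t) := by rw [← h5]
        _ = y⁻¹ := by group
    have h6 : Commute (x ^ 4) y := by
      have h7 : x ^ 4 * y * (x ^ 4)⁻¹ = y := by
        calc x ^ 4 * y * (x ^ 4)⁻¹ = x ^ 2 * (x ^ 2 * y * (x ^ 2)⁻¹) * (x ^ 2)⁻¹ := by group
          _ = (x ^ 2 * y * (x ^ 2)⁻¹)⁻¹ := by rw [h2, ← conj_inv, h2]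
          _ = y := by rw [h2, inv_inv]
      exact mul_inv_eq_iff_eq_mul.1 h7
    have h7 : Commute y (x ^ 2) := by
      have ho : Odd (orderOf (x ^ 2)) := Odd.of_dvd_nat hx (orderOf_pow_dvd 2)
      apply comm_of_sq ho
      rw [← pow_mul]
      exact h6.symm
    exact hxy_case (comm_of_sq hx h7).symm

/-- Let G be a finite group and V a nontrivial elementary abelian 2-subgroup of G of order at most 4 such that, whenever an element of V inverts an element h of G of odd order, some nontrivial element of V commutes with h. Then V meets O₂(G) nontrivially. (The case of order at most 4 has a short argument from the Baer–Suzuki theorem.) -/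
theorem result {G : Type*} [Group G] [Finite G] (V : Subgroup G) (hV : Cfsg.IsElementaryAbelian 2 V) (hV1 : V ≠ ⊥) (hS : Cfsg.IsSidkiPair V) (h4 : Nat.card V ≤ 4) : V ⊓ Cfsg.pCore 2 G ≠ ⊥ := by
  intro hbot
  have hcomm : ∀ a ∈ V, ∀ b ∈ V, Commute a b := by
    intro a ha b hb
    have := hV.1.is_comm.comm ⟨a, ha⟩ ⟨b, hb⟩
    exact congrArg Subtype.val this
  have hBS : ∀ v ∈ V, v ≠ 1 → ∃ h : G, h ≠ 1 ∧ Odd (orderOf h) ∧ v * h * v⁻¹ = h⁻¹ := by
    intro v hv hv1
    apply Cfsg.Agent.S0200.result v (orderOf_eq_prime (hV.2 v hv) hv1)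
    intro N hN hNp hvN
    have : v ∈ V ⊓ pCore 2 G := ⟨hv, Cfsg.Agent.Solv.le_pCore hN hNp hvN⟩
    rw [hbot, Subgroup.mem_bot] at this
    exact hv1 this
  obtain ⟨⟨a, ha⟩, ha1'⟩ := Subgroup.ne_bot_iff_exists_ne_one.1 hV1
  have ha1 : a ≠ 1 := fun h => ha1' (Subtype.ext h)
  obtain ⟨y, hy1, hy, hay⟩ := hBS a ha ha1
  obtain ⟨b, hb, hb1, hby⟩ := hS y a ha hy hay
  obtain ⟨x, hx1, hx, hbx⟩ := hBS b hb hb1
  obtain ⟨w, hw, hw1, hwx⟩ := hS x b hb hx hbx
  have hab : a ≠ b := by
    rintro rfl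
    exact hy1 (eq_one_of_comm_of_inv hy hby hay)
  have hwy : w * y * w⁻¹ = y⁻¹ := by
    rcases list_of_card_le hV h4 ha hb ha1 hb1 hab w hw hw1 with rfl | rfl | rfl
    · exact hay
    · exact absurd (eq_one_of_comm_of_inv hx hwx hbx) hx1
    · calc (a * b) * y * (a * b)⁻¹ = a * (b * y * b⁻¹) * a⁻¹ := by group
        _ = a * y * a⁻¹ := by
            have : b * y = y * b := hby
            rw [this, mul_inv_cancel_right]
        _ = y⁻¹ := hay
  exact core hV hS h4 hw hb hx hy hx1 hy1 hwx hbx hby hwy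

end Cfsg.Agent.S3011
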