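import Cfsg.Statements.S3012
-- import your own Cfsg.Agent.* helpers here

set_option autoImplicit false
open Cfsg

namespace Cfsg.Agent.S3012

/-- Let G be a finite group, V a nontrivial elementary abelian 2-subgroup of G satisfying the Sidki pair condition (every odd-order element inverted by an element of V commutes with a nontrivial element of V), and K a normal subgroup of G with V ∩ K = 1. Then the image of V in G/K satisfies the Sidki pair condition in G/K. -/
theorem result {G : Type*} [Group G] [Finite G] (V K : Subgroup G) [K.Normal] (hV : Cfsg.IsElementaryAbelian 2 V) (hV1 : V ≠ ⊥) (hS : Cfsg.IsSidkiPair V) (hVK : V ⊓ K = ⊥) : Cfsg.IsSidkiPair (V.map (QuotientGroup.mk' K)) := by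
  intro h v' hv' hodd hinv
  obtain ⟨v, hvV, rfl⟩ := hv'
  have hv2 : v * v = 1 := by
    have := hV.2 v hvV
    rwa [pow_two] at this
  have hvi : v⁻¹ = v := inv_eq_of_mul_eq_one_left hv2
  obtain ⟨k, hk⟩ := id hodd
  obtain ⟨g, hg⟩ := QuotientGroup.mk'_surjective K (h ^ (k + 1))
  set π := QuotientGroup.mk' K with hπ
  -- the lift of `h`
  set u : G := v * (g⁻¹ * v * g) with hu
  have hinvn : ∀ n : ℕ, π v * h ^ n * (π v)⁻¹ = (h ^ n)⁻¹ := by
    intro n
    rw [← conj_pow, hinv, inv_pow]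
  have hπu : π u = h := by
    have h1 : π v * (π g)⁻¹ * (π v)⁻¹ = π g := by
      rw [hg]
      have := congrArg (fun t => t⁻¹) (hinvn (k + 1))
      simp only [mul_inv_rev, inv_inv] at this
      rw [mul_assoc]
      exact this
    have h2 : (π v)⁻¹ = π v := by rw [← map_inv, hvi]
    have h3 : π u = (π v * (π g)⁻¹ * (π v)⁻¹) * π g := by
      rw [hu, h2]
      simp only [map_mul, map_inv]
      group
    rw [h3, h1, hg, ← pow_add]
    have : k + 1 + (k + 1) = orderOf h + 1 := by omega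
    rw [this, pow_succ, pow_orderOf_eq_one, one_mul]
  have hvu : v * u * v⁻¹ = u⁻¹ := by
    have e1 : u⁻¹ = g⁻¹ * v⁻¹ * g * v⁻¹ := by rw [hu]; group
    rw [e1, hu]
    calc v * (v * (g⁻¹ * v * g)) * v⁻¹ = (v * v) * (g⁻¹ * v * g * v⁻¹) := by group
      _ = g⁻¹ * v⁻¹ * g * v⁻¹ := by rw [hv2, hvi, one_mul]
  have hupos : orderOf u ≠ 0 := (orderOf_pos u).ne'
  obtain ⟨a, b, hb, hab⟩ := Nat.exists_eq_two_pow_mul_odd hupos
  have hcop : Nat.Coprime (2 ^ a) b := (Nat.coprime_two_left.2 hb).pow_left a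
  obtain ⟨e, he1, he2⟩ := Nat.chineseRemainder hcop 0 1
  have hmb : orderOf h ∣ b := by
    have h1 : orderOf h ∣ orderOf u := by
      rw [← hπu]
      exact orderOf_map_dvd π u
    rw [hab] at h1
    exact (Nat.Coprime.dvd_of_dvd_mul_left ((Nat.coprime_two_right.2 hodd).pow_right a) h1)
  have hhe : h ^ e = h := by
    have h1 : e ≡ 1 [MOD orderOf h] := he2.of_dvd hmb
    conv_rhs => rw [← pow_one h]
    exact (pow_eq_pow_iff_modEq).2 h1
  have hodd' : Odd (orderOf (u ^ e)) := by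
    refine Odd.of_dvd_nat hb ?_
    rw [orderOf_dvd_iff_pow_eq_one, ← pow_mul]
    have h0 : 2 ^ a ∣ e := (Nat.modEq_zero_iff_dvd).1 he1
    have : orderOf u ∣ e * b := by
      rw [hab]
      exact Nat.mul_dvd_mul_right h0 b
    exact orderOf_dvd_iff_pow_eq_one.1 this
  have hinv' : v * u ^ e * v⁻¹ = (u ^ e)⁻¹ := by
    rw [← conj_pow, hvu, inv_pow]
  obtain ⟨w, hwV, hw1, hwc⟩ := hS (u ^ e) v hvV hodd' hinv'
  refine ⟨π w, Subgroup.mem_map_of_mem _ hwV, ?_, ?_⟩
  · intro h1
    have hwK : w ∈ K := (QuotientGroup.eq_one_iff w).1 h1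
    have : w ∈ V ⊓ K := ⟨hwV, hwK⟩
    rw [hVK, Subgroup.mem_bot] at this
    exact hw1 this
  · have := congrArg π hwc
    simpa only [map_mul, map_pow, hπu, hhe] using this

end Cfsg.Agent.S3012
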