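import Cfsg.Statements.S3013
-- import your own Cfsg.Agent.* helpers here

set_option autoImplicit false
open Cfsg

namespace Cfsg.Agent.S3013

/-- An element of odd order lies in the centralizer of `w` as soon as its square does. -/
theorem comm_of_sq {G : Type*} [Group G] [Finite G] (w h : G) (hodd : Odd (orderOf h))
    (hc : Commute w (h ^ 2)) : Commute w h := by
  obtain ⟨k, hk⟩ := hodd
  have : h = (h ^ 2) ^ (k + 1) := by
    rw [← pow_mul]
    have : 2 * (k + 1) = orderOf h + 1 := by omega
    rw [this, pow_succ, pow_orderOf_eq_one, one_mul]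
  rw [this]
  exact hc.pow_right _

/-- Let G be a finite group and V a nontrivial elementary abelian 2-subgroup of G satisfying the Sidki pair condition. Let v ∈ V and let x be an element of odd order inverted by v, and put C = C_G(v) ∩ C_G(x), the centralizer of the dihedral subgroup generated by v and x. Then C ∩ V is nontrivial and satisfies the Sidki pair condition inside C: every odd-order element of C inverted by an element of C ∩ V commutes with a nontrivial element of C ∩ V. -/
theorem result {G : Type*} [Group G] [Finite G] (V : Subgroup G) (hV : Cfsg.IsElementaryAbelian 2 V) (hV1 : V ≠ ⊥) (hS : Cfsg.IsSidkiPair V) (v x : G) (hv : v ∈ V) (hx : Odd (orderOf x)) (hinv : v * x * v⁻¹ = x⁻¹) (C : Subgroup G) (hC : C = Subgroup.centralizer ({v} : Set G) ⊓ Subgroup.centralizer ({x} : Set G)) : C ⊓ V ≠ ⊥ ∧ Cfsg.IsSidkiPair ((C ⊓ V).subgroupOf C) := by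
  have hcomm : ∀ a ∈ V, ∀ b ∈ V, a * b = b * a := by
    intro a ha b hb
    have := hV.1.is_comm.comm ⟨a, ha⟩ ⟨b, hb⟩
    exact congrArg Subtype.val this
  have hmem : ∀ g : G, g ∈ C ↔ Commute v g ∧ Commute x g := by
    intro g
    rw [hC, Subgroup.mem_inf, Subgroup.mem_centralizer_singleton_iff, Subgroup.mem_centralizer_singleton_iff]
    constructor
    · rintro ⟨h1, h2⟩
      exact ⟨h1.symm, h2.symm⟩
    · rintro ⟨h1, h2⟩
      exact ⟨h1.eq.symm, h2.eq.symm⟩
  constructor
  · obtain ⟨w, hwV, hw1, hwx⟩ := hS x v hv hx hinv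
    intro hbot
    have : w ∈ C ⊓ V := ⟨(hmem w).2 ⟨hcomm v hv w hwV, hwx.symm⟩, hwV⟩
    rw [hbot, Subgroup.mem_bot] at this
    exact hw1 this
  · rintro ⟨h, hh⟩ ⟨u, hu⟩ huV hodd hinv'
    have huCV : u ∈ C ⊓ V := Subgroup.mem_subgroupOf.1 huV
    have hodd' : Odd (orderOf h) := by
      rwa [Subgroup.orderOf_mk] at hodd
    have hinv2 : u * h * u⁻¹ = h⁻¹ := by
      have := congrArg Subtype.val hinv'
      simpa using this
    obtain ⟨hvh, hxh⟩ := (hmem h).1 hh
    obtain ⟨hvu, hxu⟩ := (hmem u).1 hu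
    -- the element x * h of odd order is inverted by u * v
    have hcxh : Commute x h := hxh
    have hoddxh : Odd (orderOf (x * h)) := by
      have hdvd : orderOf (x * h) ∣ orderOf x * orderOf h := by
        exact hcxh.orderOf_mul_dvd_mul_orderOf
      exact Odd.of_dvd_nat (hx.mul hodd') hdvd
    have hinv3 : (u * v) * (x * h) * (u * v)⁻¹ = (x * h)⁻¹ := by
      have e1 : v * h * v⁻¹ = h := by rw [hvh.eq, mul_inv_cancel_right]
      have e2 : u * x⁻¹ * u⁻¹ = x⁻¹ := by
        have := hxu.symm.inv_right.eq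
        rw [this, mul_inv_cancel_right]
      calc (u * v) * (x * h) * (u * v)⁻¹ = u * ((v * x * v⁻¹) * (v * h * v⁻¹)) * u⁻¹ := by group
        _ = u * (x⁻¹ * h) * u⁻¹ := by rw [hinv, e1]
        _ = (u * x⁻¹ * u⁻¹) * (u * h * u⁻¹) := by group
        _ = x⁻¹ * h⁻¹ := by rw [e2, hinv2]
        _ = (x * h)⁻¹ := by rw [mul_inv_rev, (hcxh.inv_inv).eq]
    obtain ⟨w, hwV, hw1, hwxh⟩ := hS (x * h) (u * v) (V.mul_mem huCV.2 hv) hoddxh hinv3
    have hwv : Commute w v := hcomm w hwV v hv
    have hw1' : Commute w (x⁻¹ * h) := by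
      have e1 : v * h * v⁻¹ = h := by rw [hvh.eq, mul_inv_cancel_right]
      have : x⁻¹ * h = v * (x * h) * v⁻¹ := by
        calc x⁻¹ * h = (v * x * v⁻¹) * (v * h * v⁻¹) := by rw [hinv, e1]
          _ = v * (x * h) * v⁻¹ := by group
      rw [this]
      exact (hwv.mul_right hwxh).mul_right hwv.inv_right
    have hwh2 : Commute w (h ^ 2) := by
      have : h ^ 2 = (x * h) * (x⁻¹ * h) := by
        have : x * h = h * x := hcxh.eq
        rw [this]
        rw [pow_two]
        group
      rw [this]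
      exact Commute.mul_right hwxh hw1'
    have hwh : Commute w h := comm_of_sq w h hodd' hwh2
    have hwx : Commute w x := by
      have : x = (x * h) * h⁻¹ := by group
      rw [this]
      exact Commute.mul_right hwxh hwh.inv_right
    have hwC : w ∈ C := (hmem w).2 ⟨hwv.symm, hwx.symm⟩
    refine ⟨⟨w, hwC⟩, ?_, ?_, ?_⟩
    · exact Subgroup.mem_subgroupOf.2 ⟨hwC, hwV⟩
    · intro h1
      exact hw1 (congrArg Subtype.val h1)
    · exact Subtype.ext hwh.eq

end Cfsg.Agent.S3013
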