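import Cfsg.Statements.S3014
import Cfsg.Agent.H50.Basic
import Cfsg.Agent.H50.TameTransfer
import Cfsg.Agent.H50.ExtClosed
-- import your own Cfsg.Agent.* helpers here

set_option autoImplicit false
open Cfsg

namespace Cfsg.Agent.S3014

open Cfsg.Agent.H50

/-- Let G be a finite group and H ≤ M ≤ G subgroups such that for every g ∈ G the subgroup generated by H and g H g⁻¹ meets M exactly in H. If H is a maximal subgroup of M and M is a maximal subgroup of G, then the normal closure of H in G meets M exactly in H. -/
theorem result {G : Type*} [Group G] [Finite G] (H M : Subgroup G) (hHM : H ≤ M) (hcl : ∀ g : G, (H ⊔ H.map (MulAut.conj g).toMonoidHom) ⊓ M = H) (hmaxH : IsCoatom (H.subgroupOf M)) (hmaxM : IsCoatom M) : Subgroup.normalClosure (H : Set G) ⊓ M = H := by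
  have hge : H ≤ Subgroup.normalClosure (H : Set G) ⊓ M :=
    le_inf Subgroup.subset_normalClosure hHM
  refine le_antisymm ?_ hge
  have hstep : ∀ g : G, H.map (MulAut.conj g).toMonoidHom ≤ M → H.map (MulAut.conj g).toMonoidHom ≤ H := by
    intro g hg
    have h1 := hcl g
    rw [inf_eq_left.2 (sup_le hHM hg)] at h1
    exact sup_eq_left.1 h1
  have hn : M ≤ Subgroup.normalizer (H : Set G) := by
    intro m hm
    rw [mem_normalizer_iff_map_conj]
    apply map_conj_eq_of_le
    apply hstep
    have := Subgroup.map_mono (f := (MulAut.conj m).toMonoidHom) hHM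
    rwa [map_conj_eq_of_mem hm] at this
  have hnormal : (H.subgroupOf M).Normal := Subgroup.normal_subgroupOf_iff_le_normalizer_inf.2 (by
    rw [inf_eq_left.2 hHM]; exact hn)
  have hclosure : ∀ N : Subgroup G, N.Normal → H ≤ N → N ⊓ M ≤ H →
      Subgroup.normalClosure (H : Set G) ⊓ M ≤ H := by
    intro N hN hHN hNM
    exact le_trans (inf_le_inf_right _ (Subgroup.normalClosure_le_normal hHN)) hNM
  have hprime : (H.relIndex M).Prime := prime_index_of_isCoatom_normal hmaxH
  by_cases htame : ∀ c : G, c ∉ M → ∀ m ∈ M, c⁻¹ * m * c ∈ M → c⁻¹ * m * c ∈ H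
  · obtain ⟨N, hN, hNM, -⟩ := exists_normal_inf_eq_of_prime hHM hnormal hprime htame
    exact hclosure N hN (by rw [← hNM]; exact inf_le_left) hNM.le
  · push Not at htame
    obtain ⟨c, hcM, m, hm, hcm, hcH⟩ := htame
    have hT' : (H ⊔ H.map (MulAut.conj c).toMonoidHom) ⊓ M.map (MulAut.conj c).toMonoidHom =
      H.map (MulAut.conj c).toMonoidHom := by
      have h1 := congrArg (fun K : Subgroup G => K.map (MulAut.conj c).toMonoidHom) (hcl c⁻¹)
      rw [Subgroup.map_inf _ _ _ (MulAut.conj c).injective, Subgroup.map_sup, ← map_conj_mul, mul_inv_cancel,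
        map_conj_one, sup_comm] at h1
      exact h1
    rcases normal_of_not_tame hHM hmaxH hmaxM hn hm hcm hcH (hcl c) hT' with h | h
    · exact hclosure _ h le_sup_left (hcl c).le
    · -- `M` is normal
      have hMn : M.Normal := by
        apply normal_of_normalizer_eq_top
        rcases hmaxM.le_iff.1 (Subgroup.le_normalizer (H := M)) with h1 | h1
        · exact h1
        · exfalso
          apply hcM
          rw [← h1]
          exact mem_normalizer_iff_map_conj.2 h
      have hHn : H.Normal := by
        apply normal_of_normalizer_eq_top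
        rw [eq_top_iff]
        intro g _
        rw [mem_normalizer_iff_map_conj]
        apply map_conj_eq_of_le
        apply hstep
        have h1 := Subgroup.map_mono (f := (MulAut.conj g).toMonoidHom) hHM
        have h2 : g ∈ Subgroup.normalizer (M : Set G) := by
          rw [Subgroup.normalizer_eq_top]
          exact Subgroup.mem_top g
        rwa [mem_normalizer_iff_map_conj.1 h2] at h1
      exact hclosure H hHn le_rfl inf_le_left

end Cfsg.Agent.S3014
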