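import Cfsg.Statements.S3015
import Mathlib.GroupTheory.PGroup
import Cfsg.Agent.H50.Basic
import Cfsg.Agent.H50.TameTransfer
import Cfsg.Agent.H50.ExtClosed
-- import your own Cfsg.Agent.* helpers here

set_option autoImplicit false
open Cfsg

namespace Cfsg.Agent.S3015

open Cfsg.Agent.H50

/-- Let G be a finite non-abelian simple group, M a maximal subgroup of G and H a normal subgroup of M of prime index in M. Then G is generated by H together with one of its conjugates. -/
theorem result {G : Type*} [Group G] [Finite G] [IsSimpleGroup G] (hG : ¬ IsMulCommutative G) (M H : Subgroup G) (hmaxM : IsCoatom M) (hHM : H ≤ M) (hHn : (H.subgroupOf M).Normal) (hidx : (H.relIndex M).Prime) : ∃ g : G, H ⊔ H.map (MulAut.conj g).toMonoidHom = ⊤ := by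
  by_contra hno
  push Not at hno
  have hsimple : ∀ N : Subgroup G, N.Normal → N = ⊥ ∨ N = ⊤ := fun N hN => hN.eq_bot_or_eq_top
  have hMtop : M ≠ ⊤ := hmaxM.1
  have hHMne : H ≠ M := by
    intro h
    rw [h, Subgroup.relIndex_self] at hidx
    exact Nat.not_prime_one hidx
  have hMbot : M ≠ ⊥ := by
    intro h
    apply hHMne
    rw [h] at hHM ⊢
    exact le_bot_iff.1 hHM
  have hMn : ¬ M.Normal := fun h => by
    rcases hsimple M h with h | h
    · exact hMbot h
    · exact hMtop h
  have hNM : Subgroup.normalizer (M : Set G) = M := by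
    rcases hmaxM.le_iff.1 (Subgroup.le_normalizer (H := M)) with h1 | h1
    · exact absurd (normal_of_normalizer_eq_top h1) hMn
    · exact h1
  have hn : M ≤ Subgroup.normalizer (H : Set G) := by
    have := Subgroup.normal_subgroupOf_iff_le_normalizer_inf.1 hHn
    rwa [inf_eq_left.2 hHM] at this
  -- `H` is maximal in `M`
  have hbetween : ∀ K : Subgroup G, H ≤ K → K ≤ M → K = H ∨ K = M := by
    intro K h1 h2
    have h3 := Subgroup.relIndex_mul_relIndex H K M h1 h2
    rcases hidx.eq_one_or_self_of_dvd (H.relIndex K) ⟨_, h3.symm⟩ with h | h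
    · left
      exact le_antisymm (Subgroup.relIndex_eq_one.1 h) h1
    · right
      rw [h] at h3
      have : K.relIndex M = 1 := by
        have hpos := hidx.pos
        exact Nat.eq_of_mul_eq_mul_left hpos (by rw [h3, mul_one])
      exact le_antisymm h2 (Subgroup.relIndex_eq_one.1 this)
  have hmaxH : IsCoatom (H.subgroupOf M) := by
    constructor
    · intro h
      exact hHMne (le_antisymm hHM (Subgroup.subgroupOf_eq_top.1 h))
    · intro K hK
      have h1 : H ≤ K.map M.subtype := by
        have := Subgroup.map_mono (f := M.subtype) hK.le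
        rwa [Subgroup.subgroupOf_map_subtype, inf_eq_left.2 hHM] at this
      rcases hbetween _ h1 (Subgroup.map_subtype_le _) with h | h
      · exfalso
        apply hK.ne
        rw [← h, Subgroup.subgroupOf, Subgroup.comap_map_eq_self_of_injective M.subtype_injective]
      · rw [eq_top_iff]
        intro x _
        have : (x : G) ∈ K.map M.subtype := by rw [h]; exact x.2
        obtain ⟨y, hy, hyx⟩ := this
        have : y = x := Subtype.ext hyx
        rwa [← this]
  have htame_false : ¬ (∀ c : G, c ∉ M → ∀ m ∈ M, c⁻¹ * m * c ∈ M → c⁻¹ * m * c ∈ H) := by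
    intro htame
    obtain ⟨N, hN, h1, h2⟩ := exists_normal_inf_eq_of_prime hHM hHn hidx htame
    rcases hsimple N hN with h | h
    · rw [h, bot_sup_eq] at h2
      exact hMtop h2
    · rw [h, top_inf_eq] at h1
      exact hHMne h1.symm
  -- `H ≠ 1`
  have hHbot : H ≠ ⊥ := by
    intro hH
    apply htame_false
    intro c hc m hm hcm
    by_contra hcH
    -- then `M = ⟨m⟩` is normalized by `c`
    have hmH : m ∉ H := by
      intro h
      apply hcH
      rw [hH, Subgroup.mem_bot] at h ⊢
      rw [h]; group
    have h1 := sup_zpowers_eq_of_isCoatom hHM hmaxH hm hmH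
    have h2 := sup_zpowers_conj (sup_zpowers_eq_of_isCoatom hHM hmaxH hcm hcH)
    rw [hH] at h1 h2
    rw [Subgroup.map_bot, h1] at h2
    apply hc
    rw [← hNM]
    exact mem_normalizer_iff_map_conj.2 h2.symm
  have hHtop : H ≠ ⊤ := fun h => hMtop (top_le_iff.1 (h ▸ hHM))
  have hHn' : ¬ H.Normal := fun h => by
    rcases hsimple H h with h | h
    · exact hHbot h
    · exact hHtop h
  have hNH : Subgroup.normalizer (H : Set G) = M := by
    rcases hmaxM.le_iff.1 hn with h1 | h1
    · exact absurd (normal_of_normalizer_eq_top h1) hHn'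
    · exact h1
  -- dichotomy for `T = ⟨H, cHc⁻¹⟩`
  have hT : ∀ c : G, ¬ H.map (MulAut.conj c).toMonoidHom ≤ M →
      (H ⊔ H.map (MulAut.conj c).toMonoidHom) ⊓ M = H := by
    intro c hc
    rcases hbetween ((H ⊔ H.map (MulAut.conj c).toMonoidHom) ⊓ M) (le_inf le_sup_left hHM) inf_le_right with h | h
    · exact h
    · exfalso
      have h1 : M ≤ H ⊔ H.map (MulAut.conj c).toMonoidHom := by
        rw [← h]; exact inf_le_left
      rcases hmaxM.le_iff.1 h1 with h2 | h2
      · exact hno c h2
      · apply hc
        rw [← h2]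
        exact le_sup_right
  have hT' : ∀ c : G, ¬ H ≤ M.map (MulAut.conj c).toMonoidHom →
      (H ⊔ H.map (MulAut.conj c).toMonoidHom) ⊓ M.map (MulAut.conj c).toMonoidHom =
        H.map (MulAut.conj c).toMonoidHom := by
    intro c hc
    have h0 : ¬ H.map (MulAut.conj c⁻¹).toMonoidHom ≤ M := by
      intro h
      apply hc
      have h1 := Subgroup.map_mono (f := (MulAut.conj c).toMonoidHom) h
      rwa [← map_conj_mul, mul_inv_cancel, map_conj_one] at h1
    have h1 := congrArg (fun K : Subgroup G => K.map (MulAut.conj c).toMonoidHom) (hT c⁻¹ h0)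
    rw [Subgroup.map_inf _ _ _ (MulAut.conj c).injective, Subgroup.map_sup, ← map_conj_mul, mul_inv_cancel,
        map_conj_one, sup_comm] at h1
    exact h1
  have hgood : ∀ c : G, c ∉ M → ¬ H.map (MulAut.conj c).toMonoidHom ≤ M →
      ¬ H ≤ M.map (MulAut.conj c).toMonoidHom → ∀ m ∈ M, c⁻¹ * m * c ∈ M → c⁻¹ * m * c ∈ H := by
    intro c hcM h1 h2 m hm hcm
    by_contra hcH
    rcases normal_of_not_tame hHM hmaxH hmaxM hn hm hcm hcH (hT c h1) (hT' c h2) with h | h
    · rcases hsimple _ h with h | h
      · apply hHbot
        exact le_bot_iff.1 (h ▸ le_sup_left)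
      · exact hno c h
    · apply hcM
      rw [← hNM]
      exact mem_normalizer_iff_map_conj.2 h
  -- no conjugate `cHc⁻¹`, `c ∉ M`, lies in `M`
  have hbad : ∀ c : G, c ∉ M → ¬ H.map (MulAut.conj c).toMonoidHom ≤ M := by
    intro c hcM hbad
    set Hc := H.map (MulAut.conj c).toMonoidHom with hHc
    set Mc := M.map (MulAut.conj c).toMonoidHom with hMc
    have hHcH : Hc ≠ H := by
      intro h
      apply hcM
      rw [← hNH]
      exact mem_normalizer_iff_map_conj.2 h
    have hMcM : Mc ≠ M := by
      intro h
      apply hcM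
      rw [← hNM]
      exact mem_normalizer_iff_map_conj.2 h
    -- conjugated `between` statement
    have hbetween' : ∀ (d : G) (K : Subgroup G), H.map (MulAut.conj d).toMonoidHom ≤ K →
        K ≤ M.map (MulAut.conj d).toMonoidHom →
        K = H.map (MulAut.conj d).toMonoidHom ∨ K = M.map (MulAut.conj d).toMonoidHom := by
      intro d K h1 h2
      have e : ∀ L : Subgroup G, (L.map (MulAut.conj d).toMonoidHom).map (MulAut.conj d⁻¹).toMonoidHom = L := by
        intro L
        rw [← map_conj_mul, inv_mul_cancel, map_conj_one]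
      have e' : ∀ L : Subgroup G, (L.map (MulAut.conj d⁻¹).toMonoidHom).map (MulAut.conj d).toMonoidHom = L := by
        intro L
        rw [← map_conj_mul, mul_inv_cancel, map_conj_one]
      have h3 := Subgroup.map_mono (f := (MulAut.conj d⁻¹).toMonoidHom) h1
      have h4 := Subgroup.map_mono (f := (MulAut.conj d⁻¹).toMonoidHom) h2
      rw [e] at h3 h4
      rcases hbetween _ h3 h4 with h | h
      · left; rw [← h, e']
      · right; rw [← h, e']
    have hint : M ⊓ Mc = Hc := by
      rcases hbetween' c (M ⊓ Mc) (le_inf hbad (Subgroup.map_mono hHM)) inf_le_right with h | h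
      · exact h
      · exfalso
        apply hMcM
        have h1 : Mc ≤ M := by
          rw [hMc, ← h]; exact inf_le_left
        exact map_conj_eq_of_le h1
    -- the second conjugate
    set H2 := H.map (MulAut.conj (c * c)).toMonoidHom with hH2
    set M2 := M.map (MulAut.conj (c * c)).toMonoidHom with hM2
    have hH2' : H2 = Hc.map (MulAut.conj c).toMonoidHom := by rw [hH2, map_conj_mul]
    have hM2' : M2 = Mc.map (MulAut.conj c).toMonoidHom := by rw [hM2, map_conj_mul]
    have hH2Mc : H2 ≤ Mc := by
      rw [hH2']
      exact Subgroup.map_mono hbad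
    have hkey : Hc ⊓ H2 ≤ H := by
      by_cases hcc : c * c ∈ M
      · have : H2 = H := mem_normalizer_iff_map_conj.1 (hn hcc)
        rw [this]; exact inf_le_right
      have hH2M : ¬ H2 ≤ M := by
        intro h
        have h1 : H2 ≤ Hc := by rw [← hint]; exact le_inf h hH2Mc
        have h2 : H2 = Hc := by
          apply Subgroup.eq_of_le_of_card_ge h1
          rw [hH2', card_map_conj Hc c]
        apply hHcH
        rw [hH2', hHc] at h2
        exact Subgroup.map_injective (MulAut.conj c).injective h2
      by_cases hHM2 : H ≤ M2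
      · have h1 : M ⊓ M2 = H := by
          rcases hbetween (M ⊓ M2) (le_inf hHM hHM2) inf_le_left with h | h
          · exact h
          · exfalso
            apply hcc
            rw [← hNM]
            apply mem_normalizer_iff_map_conj.2
            have h2 : M ≤ M2 := by rw [← h]; exact inf_le_right
            exact (Subgroup.eq_of_le_of_card_ge h2 (by rw [hM2, card_map_conj])).symm
        rw [← h1]
        exact inf_le_inf hbad (Subgroup.map_mono hHM)
      · intro x hx
        have hg := hgood (c * c) hcc hH2M hHM2 x (hbad hx.1) (mem_map_conj.1 (Subgroup.map_mono hHM hx.2))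
        have hxH2 : x ∈ H2 := mem_map_conj.2 hg
        have hTT := hT (c * c) hH2M
        rw [← hTT]
        exact ⟨(le_sup_right : H2 ≤ _) hxH2, hbad hx.1⟩
    -- `L = H ∩ Hc` is normalized by `c`
    set L := H ⊓ Hc with hL
    have hLc : L.map (MulAut.conj c).toMonoidHom = Hc ⊓ H2 := by
      rw [hL, Subgroup.map_inf _ _ _ (MulAut.conj c).injective, hH2']
    have hLcL : L.map (MulAut.conj c).toMonoidHom = L := by
      apply map_conj_eq_of_le
      rw [hLc]
      exact le_inf hkey inf_le_left
    have hHcN : Hc ≤ Subgroup.normalizer (L : Set G) := by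
      intro x hx
      rw [mem_normalizer_iff_map_conj, hL, Subgroup.map_inf _ _ _ (MulAut.conj x).injective,
        mem_normalizer_iff_map_conj.1 (hn (hbad hx)), map_conj_eq_of_mem hx]
    have hHN : H ≤ Subgroup.normalizer (L : Set G) := by
      intro x hx
      have h1 : c * x * c⁻¹ ∈ Subgroup.normalizer (L : Set G) := hHcN (conj_mem_map_conj hx)
      have hc1 : c ∈ Subgroup.normalizer (L : Set G) := mem_normalizer_iff_map_conj.2 hLcL
      have h2 := Subgroup.mul_mem _ (Subgroup.mul_mem _ (Subgroup.inv_mem _ hc1) h1) hc1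
      have : c⁻¹ * (c * x * c⁻¹) * c = x := by group
      rwa [this] at h2
    have hsup : H ⊔ Hc = M := by
      rcases hbetween (H ⊔ Hc) le_sup_left (sup_le hHM hbad) with h | h
      · exfalso
        apply hHcH
        have : Hc ≤ H := by rw [← h]; exact le_sup_right
        exact map_conj_eq_of_le this
      · exact h
    have hMN : M ≤ Subgroup.normalizer (L : Set G) := by
      rw [← hsup]
      exact sup_le hHN hHcN
    have hLn : L.Normal := by
      apply normal_of_normalizer_eq_top
      rcases hmaxM.le_iff.1 hMN with h | h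
      · exact h
      · exfalso
        apply hcM
        rw [← h]
        exact mem_normalizer_iff_map_conj.2 hLcL
    have hLbot : L = ⊥ := by
      rcases hsimple L hLn with h | h
      · exact h
      · exfalso
        exact hHtop (top_le_iff.1 (h ▸ inf_le_left))
    -- orders
    have hcardH : Nat.card H = H.relIndex M := by
      have h1 : (H.subgroupOf M ⊔ Hc.subgroupOf M) = ⊤ := by
        rw [← Subgroup.subgroupOf_sup hHM hbad, hsup, Subgroup.subgroupOf_self]
      have h2 : (H.subgroupOf M).relIndex (Hc.subgroupOf M ⊔ H.subgroupOf M) =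
          (H.subgroupOf M).relIndex (Hc.subgroupOf M) := Subgroup.relIndex_sup_right _ _
      rw [sup_comm, h1, Subgroup.relIndex_top_right, Subgroup.relIndex_subgroupOf hbad,
        ← Subgroup.inf_relIndex_right, ← hL, hLbot, Subgroup.relIndex_bot_left, hHc, card_map_conj] at h2
      exact h2.symm
    set p := H.relIndex M with hp
    haveI : Fact p.Prime := ⟨hidx⟩
    have hcardM : Nat.card M = p ^ 2 := by
      have h1 : Nat.card (H.subgroupOf M) * (H.subgroupOf M).index = Nat.card M :=
        Subgroup.card_mul_index _
      have h2 : Nat.card (H.subgroupOf M) = Nat.card H :=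
        Nat.card_congr (Subgroup.subgroupOfEquivOfLe hHM).toEquiv
      rw [h2, hcardH] at h1
      rw [← h1, pow_two]
      rfl
    have hMp : IsPGroup p M := IsPGroup.of_card hcardM
    have hMab : IsMulCommutative M := IsPGroup.isMulCommutative_of_card_eq_prime_sq hcardM
    obtain ⟨P, hP⟩ := hMp.exists_le_sylow
    have hPM : (P : Subgroup G) = M := by
      apply eq_of_inf_normalizer_eq P.isPGroup' hP
      rw [hNM, inf_eq_right.2 hP]
    have hcomm : Subgroup.normalizer ((P : Subgroup G) : Set G) ≤ Subgroup.centralizer ((P : Subgroup G) : Set G) := by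
      rw [hPM, hNM]
      intro x hx
      rw [Subgroup.mem_centralizer_iff]
      intro y hy
      have := hMab.is_comm.comm ⟨y, hy⟩ ⟨x, hx⟩
      exact congrArg (Subtype.val : ↥M → G) this
    have hK := MonoidHom.ker_transferSylow_isComplement' P hcomm
    rcases hsimple (MonoidHom.transferSylow P hcomm).ker inferInstance with h | h
    · have h1 := hK.sup_eq_top
      rw [h, bot_sup_eq, hPM] at h1
      exact hMtop h1
    · have h1 := hK.disjoint
      rw [h, top_disjoint, hPM] at h1
      exact hMbot h1
  apply htame_false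
  intro c hcM
  apply hgood c hcM (hbad c hcM)
  intro h
  apply hbad c⁻¹ (fun h => hcM (by simpa using M.inv_mem h))
  have h1 := Subgroup.map_mono (f := (MulAut.conj c⁻¹).toMonoidHom) h
  rwa [← map_conj_mul, inv_mul_cancel, map_conj_one] at h1

end Cfsg.Agent.S3015
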