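import Cfsg.Statements.S3017
import Cfsg.Agent.H69.ExtClosed

set_option autoImplicit false
set_option linter.style.haveILetI false
open Cfsg

namespace Cfsg.Agent.S3017

open Subgroup Cfsg.Agent.H69 Cfsg.Agent.H69.XC Pointwise

theorem cl_of_extremelyClosed {G : Type*} [Group G] [Finite G] (H : Subgroup G) (hH2 : IsPGroup 2 H)
    (hHab : ∀ x ∈ H, ∀ y ∈ H, x * y = y * x) (hcl : Cfsg.IsExtremelyClosed H) : Cl H := by
  intro g
  set K := H ⊔ H.map (MulAut.conj g).toMonoidHom with hK
  have hHK : H ≤ K := le_sup_left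
  have hgK : ∀ h ∈ H, g * h * g⁻¹ ∈ K := fun h hh => mem_sup_right ⟨h, hh, rfl⟩
  have hnorm : ∀ x ∈ K, x ∈ normalizer (H : Set G) → x ∈ H := by
    intro x hx hxn
    rw [← hcl g]
    exact mem_inf.mpr ⟨hx, hxn⟩
  obtain ⟨P, hP⟩ := (hH2.comap_subtype : IsPGroup 2 (H.subgroupOf K)).exists_le_sylow
  have hPH : (P : Subgroup K) = H.subgroupOf K := by
    by_contra hne
    have hlt : H.subgroupOf K < (P : Subgroup K) := lt_of_le_of_ne hP (Ne.symm hne)
    have h1 := Transfer.lt_normalizer_inf_of_isPGroup P.2 hlt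
    obtain ⟨y, hy, hyC⟩ := SetLike.exists_of_lt h1
    apply hyC
    have hyn : (y : G) ∈ normalizer (H : Set G) := by
      rw [mem_normalizer_iff]
      intro h
      have h2 := mem_normalizer_iff.mp hy.1
      constructor
      · intro hh
        exact (h2 ⟨h, hHK hh⟩).mp hh
      · intro hh
        have h3 : h ∈ K := by
          have := K.mul_mem (K.mul_mem (K.inv_mem y.2) (hHK hh)) y.2
          have e : (y : G)⁻¹ * ((y : G) * h * (y : G)⁻¹) * y = h := by group
          rwa [e] at this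
        exact (h2 ⟨h, h3⟩).mpr hh
    exact hnorm y y.2 hyn
  have hnP : normalizer ((P : Subgroup K) : Set K) ≤ centralizer ((P : Subgroup K) : Set K) := by
    intro y hy
    have hyn : (y : G) ∈ normalizer (H : Set G) := by
      rw [mem_normalizer_iff]
      intro h
      have h2 := mem_normalizer_iff.mp hy
      simp only [hPH] at h2
      constructor
      · intro hh
        exact (h2 ⟨h, hHK hh⟩).mp hh
      · intro hh
        have h3 : h ∈ K := by
          have := K.mul_mem (K.mul_mem (K.inv_mem y.2) (hHK hh)) y.2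
          have e : (y : G)⁻¹ * ((y : G) * h * (y : G)⁻¹) * y = h := by group
          rwa [e] at this
        exact (h2 ⟨h, h3⟩).mpr hh
    have hyH := hnorm y y.2 hyn
    rw [mem_centralizer_iff]
    intro z hz
    rw [hPH] at hz
    exact Subtype.ext (hHab _ hz _ hyH)
  obtain ⟨N, hNn, hodd, hsup⟩ : ∃ N : Subgroup K, N.Normal ∧ Odd (Nat.card N) ∧
      N ⊔ (P : Subgroup K) = ⊤ := by
    refine ⟨(MonoidHom.transferSylow P hnP).ker, inferInstance, ?_,
      (MonoidHom.ker_transferSylow_isComplement' P hnP).sup_eq_top⟩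
    rw [← Nat.not_even_iff_odd, even_iff_two_dvd]
    exact MonoidHom.not_dvd_card_ker_transferSylow P hnP
  refine ⟨N.map K.subtype, ⟨?_, ?_⟩, ?_⟩
  · rw [Cop.card_map_subtype]; exact hodd
  · rintro h hh _ ⟨x, hx, rfl⟩
    exact ⟨⟨h, hHK hh⟩ * x * ⟨h, hHK hh⟩⁻¹, hNn.conj_mem x hx _, rfl⟩
  · intro h hh
    have h1 : (⟨g * h * g⁻¹, hgK h hh⟩ : K) ∈ N ⊔ (P : Subgroup K) := by
      rw [hsup]; trivial
    obtain ⟨o, ho, p, hp, hop⟩ := mem_sup_of_normal_left.mp h1
    rw [hPH] at hp
    refine ⟨p, hp, ⟨o, ho, ?_⟩⟩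
    have h2 : (o : G) * p = g * h * g⁻¹ := congrArg Subtype.val hop
    change (o : G) = _
    rw [← h2, mul_inv_cancel_right]

/-- Let G be a finite group and H an abelian 2-subgroup of G that is extremely closed (for every g, the subgroup generated by H and g H g⁻¹ meets N_G(H) exactly in H). Then G = N_G(H) O(G), where O(G) is the largest normal subgroup of odd order. For H of order 2 this is Glauberman's Z*-statement. -/
theorem result {G : Type*} [Group G] [Finite G] (H : Subgroup G) (hH2 : IsPGroup 2 H) (hHab : IsMulCommutative H) (hcl : Cfsg.IsExtremelyClosed H) : Subgroup.normalizer (H : Set G) ⊔ Cfsg.oddCore G = ⊤ := by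
  have hab : ∀ x ∈ H, ∀ y ∈ H, x * y = y * x := by
    intro x hx y hy
    exact congrArg Subtype.val (hHab.is_comm.comm (⟨x, hx⟩ : H) ⟨y, hy⟩)
  have hT := XC.main _ G le_rfl H hH2 hab (cl_of_extremelyClosed H hH2 hab hcl)
  rw [eq_top_iff]
  intro g _
  haveI := Fact.mk Nat.prime_two
  haveI : Group.IsNilpotent H := hH2.isNilpotent
  obtain ⟨m, hm, hmg⟩ := Cop.sz_rel (N := pPrimeCore 2 G) (A := H) (B := MulAut.conj g • H)
    (by rw [normalizer_eq_top]; exact le_top)
    (by
      intro y hy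
      rw [Hall.mem_conj_smul] at hy
      obtain ⟨h', hh', h1⟩ := hT g _ hy
      have e : y = g * (g⁻¹ * y * g) * g⁻¹ * h'⁻¹ * h' := by group
      rw [e]
      exact mul_mem (mem_sup_left h1) (mem_sup_right hh'))
    (Nat.card_congr (Subgroup.equivSMul (MulAut.conj g) H).toEquiv.symm)
    (by
      obtain ⟨k, hk⟩ := hH2.exists_card_eq
      rw [hk]
      exact (Solv.pPrimeCore_card_coprime 2).pow_right k) (Or.inr inferInstance)
  have h1 : m⁻¹ * g ∈ normalizer (H : Set G) := by
    rw [mem_normalizer_iff]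
    intro h
    have h2 : g * h * g⁻¹ ∈ MulAut.conj m • H ↔ g * h * g⁻¹ ∈ MulAut.conj g • H := by rw [hmg]
    rw [Hall.mem_conj_smul, Hall.mem_conj_smul] at h2
    have e1 : m⁻¹ * (g * h * g⁻¹) * m = m⁻¹ * g * h * (m⁻¹ * g)⁻¹ := by group
    have e2 : g⁻¹ * (g * h * g⁻¹) * g = h := by group
    rw [e1, e2] at h2
    exact h2.symm
  have h3 := mul_mem (mem_sup_right (S := normalizer (H : Set G)) hm) (mem_sup_left h1)
  rwa [mul_inv_cancel_left] at h3

end Cfsg.Agent.S3017
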