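import Cfsg.Statements.S3020
import Cfsg.Agent.H50.Basic
import Cfsg.Agent.Solv.Core
import Mathlib.GroupTheory.Transfer
-- import your own Cfsg.Agent.* helpers here

set_option autoImplicit false
open Cfsg

namespace Cfsg.Agent.S3020

open Cfsg.Agent.H50

/-- Let G be a finite group, p a prime and H an abelian p-subgroup of G that is extremely closed (for every g, the subgroup generated by H and g H g⁻¹ meets N_G(H) exactly in H). Then for every g ∈ G, the subgroup T generated by H and g H g⁻¹ is the product of H with O_{p'}(T), and H meets O_{p'}(T) trivially; that is, O_{p'}(T) is a normal p-complement of H in T. -/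
theorem result {G : Type*} [Group G] [Finite G] {p : ℕ} [Fact p.Prime] (H : Subgroup G) (hHp : IsPGroup p H) (hHab : IsMulCommutative H) (hcl : Cfsg.IsExtremelyClosed H) (g : G) (T : Subgroup G) (hT : T = H ⊔ H.map (MulAut.conj g).toMonoidHom) : H ⊔ (Cfsg.pPrimeCore p ↥T).map T.subtype = T ∧ H ⊓ (Cfsg.pPrimeCore p ↥T).map T.subtype = ⊥ := by
  have hHT : H ≤ T := by rw [hT]; exact le_sup_left
  have hcl' : T ⊓ Subgroup.normalizer (H : Set G) = H := by rw [hT]; exact hcl g
  -- `H` as a subgroup of `T`
  set H' : Subgroup ↥T := H.subgroupOf T with hH'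
  have hmap : H'.map T.subtype = H := by
    rw [hH', Subgroup.subgroupOf_map_subtype, inf_eq_left.2 hHT]
  have hH'p : IsPGroup p ↥H' := hHp.comap_of_injective T.subtype T.subtype_injective
  have hnorm : Subgroup.normalizer (H' : Set ↥T) = H' := by
    apply le_antisymm
    · intro x hx
      rw [hH', Subgroup.mem_subgroupOf, ← hcl']
      refine ⟨x.2, ?_⟩
      have h1 := mem_normalizer_iff_map_conj.1 hx
      show (x : G) ∈ Subgroup.normalizer (H : Set G)
      rw [mem_normalizer_iff_map_conj]
      apply map_conj_eq_of_le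
      rintro _ ⟨y, hy, rfl⟩
      have h2 : (MulAut.conj x).toMonoidHom ⟨y, hHT hy⟩ ∈ H' := by
        rw [← h1]
        exact Subgroup.mem_map_of_mem _ (Subgroup.mem_subgroupOf.2 hy)
      exact Subgroup.mem_subgroupOf.1 h2
    · exact Subgroup.le_normalizer
  obtain ⟨P, hP⟩ := hH'p.exists_le_sylow
  have hPH : (P : Subgroup ↥T) = H' := by
    apply eq_of_inf_normalizer_eq P.isPGroup' hP
    rw [hnorm, inf_eq_right.2 hP]
  have hcomm : Subgroup.normalizer ((P : Subgroup ↥T) : Set ↥T) ≤ Subgroup.centralizer ((P : Subgroup ↥T) : Set ↥T) := by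
    rw [hPH, hnorm]
    intro x hx
    rw [Subgroup.mem_centralizer_iff]
    intro y hy
    have := hHab.is_comm.comm ⟨(y : G), Subgroup.mem_subgroupOf.1 hy⟩ ⟨(x : G), Subgroup.mem_subgroupOf.1 hx⟩
    exact Subtype.ext (by simpa using congrArg (Subtype.val : ↥H → G) this)
  have hK := MonoidHom.ker_transferSylow_isComplement' P hcomm
  set K := (MonoidHom.transferSylow P hcomm).ker with hKdef
  have hpp : p.Prime := Fact.out
  have hKcard : (Nat.card K).Coprime p :=
    ((Nat.Prime.coprime_iff_not_dvd hpp).2 (MonoidHom.not_dvd_card_ker_transferSylow P hcomm)).symm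
  have hKle : K ≤ pPrimeCore p ↥T := Cfsg.Agent.Solv.le_pPrimeCore inferInstance hKcard
  have hcard := Cfsg.Agent.Solv.pPrimeCore_card_coprime (G := ↥T) p
  constructor
  · apply le_antisymm
    · exact sup_le hHT (Subgroup.map_subtype_le _)
    · have h1 : (⊤ : Subgroup ↥T).map T.subtype = T := by
        rw [← MonoidHom.range_eq_map, Subgroup.range_subtype]
      calc T = (⊤ : Subgroup ↥T).map T.subtype := h1.symm
        _ = (K ⊔ H').map T.subtype := by rw [← hK.sup_eq_top, hPH]
        _ = K.map T.subtype ⊔ H := by rw [Subgroup.map_sup, hmap]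
        _ ≤ H ⊔ (pPrimeCore p ↥T).map T.subtype :=
            sup_le (le_trans (Subgroup.map_mono hKle) le_sup_right) le_sup_left
  · apply Subgroup.inf_eq_bot_of_coprime
    rw [Subgroup.card_map_of_injective T.subtype_injective]
    obtain ⟨n, hn⟩ := (IsPGroup.iff_card).1 hHp
    rw [hn]
    exact (hcard.symm).pow_left n

end Cfsg.Agent.S3020
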