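import Cfsg.Statements.S3021
import Cfsg.Agent.H50.Basic
-- import your own Cfsg.Agent.* helpers here

set_option autoImplicit false
open Cfsg

namespace Cfsg.Agent.S3021

open Cfsg.Agent.H50

/-- Let G be a finite group, p a prime and H a p-subgroup of G that is extremely closed (for every g, the subgroup generated by H and g H g⁻¹ meets N_G(H) exactly in H). Then every p-subgroup Q of G containing H has N_G(Q) ≤ N_G(H); in particular every Sylow p-subgroup P of G containing H normalizes H, and H is strongly closed in P with respect to G. -/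
theorem result {G : Type*} [Group G] [Finite G] {p : ℕ} [Fact p.Prime] (H : Subgroup G) (hHp : IsPGroup p H) (hcl : Cfsg.IsExtremelyClosed H) : (∀ Q : Subgroup G, IsPGroup p Q → H ≤ Q → Subgroup.normalizer (Q : Set G) ≤ Subgroup.normalizer (H : Set G)) ∧ ∀ P : Sylow p G, H ≤ (P : Subgroup G) → (P : Subgroup G) ≤ Subgroup.normalizer (H : Set G) ∧ Cfsg.IsStronglyClosed H (P : Subgroup G) := by
  have key : ∀ Q : Subgroup G, IsPGroup p Q → H ≤ Q →
      Subgroup.normalizer (Q : Set G) ≤ Subgroup.normalizer (H : Set G) := by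
    intro Q hQ hHQ g hg
    have h1 : H.map (MulAut.conj g).toMonoidHom ≤ Q := by
      have := mem_normalizer_iff_map_conj.1 hg
      rw [← this]
      exact Subgroup.map_mono hHQ
    have h2 : H ⊔ H.map (MulAut.conj g).toMonoidHom = H :=
      eq_of_inf_normalizer_eq (hQ.to_le (sup_le hHQ h1)) le_sup_left (hcl g)
    rw [mem_normalizer_iff_map_conj]
    exact map_conj_eq_of_le (sup_eq_left.1 h2)
  refine ⟨key, fun P hHP => ⟨?_, hHP, ?_⟩⟩
  · exact le_trans Subgroup.le_normalizer (key P P.isPGroup' hHP)
  · intro x hx g hg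
    rw [← hcl g]
    refine ⟨?_, ?_⟩
    · exact (le_sup_right : _ ≤ H ⊔ _) (conj_mem_map_conj hx)
    · exact key P P.isPGroup' hHP (Subgroup.le_normalizer hg)

end Cfsg.Agent.S3021
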