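import Cfsg.Statements.S3023
import Cfsg.Agent.Mdx.ParChar
import Cfsg.Agent.H25.PGroupCenter

set_option autoImplicit false
open scoped MatrixGroups
open Cfsg

namespace Cfsg.Agent.S3023

open Subgroup

/-- Let p be a prime, G a finite group of parabolic characteristic p (every p-local subgroup containing a Sylow p-subgroup of G has characteristic p), S a Sylow p-subgroup of G and G₁ a subnormal subgroup of G. If the centre of S ∩ G₁ is nontrivial and contained in the centre of S, then G₁ has parabolic characteristic p. -/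
theorem result {G : Type*} [Group G] [Finite G] {p : ℕ} [Fact p.Prime] (hG : Cfsg.IsOfParabolicCharacteristic p G) (S : Sylow p G) (G₁ : Subgroup G) (hsn : G₁.IsSubnormal) (hne : ((S : Subgroup G) ⊓ G₁) ⊓ Subgroup.centralizer (((S : Subgroup G) ⊓ G₁ : Subgroup G) : Set G) ≠ ⊥) (hle : ((S : Subgroup G) ⊓ G₁) ⊓ Subgroup.centralizer (((S : Subgroup G) ⊓ G₁ : Subgroup G) : Set G) ≤ (S : Subgroup G) ⊓ Subgroup.centralizer ((S : Subgroup G) : Set G)) : Cfsg.IsOfParabolicCharacteristic p ↥G₁ := by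
  intro R hR hR1 ⟨T, hT⟩
  obtain ⟨T₀, hT₀⟩ := Cfsg.Agent.S0542.result p G₁ hsn S
  obtain ⟨h, hh⟩ := MulAction.exists_smul_eq G₁ T₀ T
  -- membership in `T`
  have memT : ∀ y : G₁, y ∈ (T : Subgroup G₁) ↔ (h : G)⁻¹ * y * h ∈ (S : Subgroup G) := by
    intro y
    rw [← hh, Sylow.coe_subgroup_smul, mem_pointwise_smul_iff_inv_smul_mem, hT₀, mem_subgroupOf]
    simp [mul_assoc]
  -- `R ≤ T`
  have hRn : (R.subgroupOf (normalizer (R : Set G₁))).Normal :=
    (normal_subgroupOf_iff_le_normalizer le_normalizer).2 le_rfl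
  have hRT : R ≤ (T : Subgroup G₁) := by
    have h1 : IsPGroup p ((T : Subgroup G₁) ⊔ R : Subgroup G₁) :=
      T.2.to_sup_of_normal_right' hR hT
    have h2 := T.3 h1 le_sup_left
    rw [← h2]
    exact le_sup_right
  have hRTn : (R.subgroupOf (T : Subgroup G₁)).Normal :=
    (normal_subgroupOf_iff_le_normalizer hRT).2 hT
  obtain ⟨z, hzR, hzT, hz1⟩ : ∃ z ∈ R, (∀ t ∈ (T : Subgroup G₁), t * z = z * t) ∧ z ≠ 1 := by
    have h1 := Cfsg.Agent.H25.inf_center_ne_bot (p := p) T.2 (R.subgroupOf (T : Subgroup G₁)) (by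
      intro h
      rw [subgroupOf_eq_bot] at h
      apply hR1
      rw [eq_bot_iff]
      intro y hy
      exact disjoint_def.1 h hy (hRT hy))
    obtain ⟨⟨z, hz⟩, hz1'⟩ := Subgroup.ne_bot_iff_exists_ne_one.1 h1
    have hz1 : z ≠ 1 := fun h => hz1' (Subtype.ext h)
    refine ⟨z, hz.1, ?_, fun h => hz1 (Subtype.ext h)⟩
    intro t ht
    have := mem_center_iff.1 hz.2 ⟨t, ht⟩
    exact congrArg Subtype.val this
  have hzTm : z ∈ (T : Subgroup G₁) := hRT hzR
  -- `z` is central in the Sylow subgroup `h S h⁻¹` of `G`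
  have hzS : ∀ s ∈ (S : Subgroup G), s * ((h : G)⁻¹ * z * h) = ((h : G)⁻¹ * z * h) * s := by
    have h1 : (h : G)⁻¹ * z * h ∈ ((S : Subgroup G) ⊓ G₁) ⊓
        Subgroup.centralizer (((S : Subgroup G) ⊓ G₁ : Subgroup G) : Set G) := by
      refine ⟨⟨(memT z).1 hzTm, ((h : G₁)⁻¹ * z * h).2⟩, mem_centralizer_iff.2 ?_⟩
      intro s hs
      have hs' : h * ⟨s, hs.2⟩ * h⁻¹ ∈ (T : Subgroup G₁) := by
        rw [memT]
        have : (h : G)⁻¹ * ((h * ⟨s, hs.2⟩ * h⁻¹ : G₁) : G) * h = s := by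
          change (h : G)⁻¹ * ((h : G) * s * (h : G)⁻¹) * h = s
          group
        rw [this]
        exact hs.1
      have h2 := congrArg Subtype.val (hzT _ hs')
      change (h : G) * s * (h : G)⁻¹ * z = z * ((h : G) * s * (h : G)⁻¹) at h2
      calc s * ((h : G)⁻¹ * z * h) = (h : G)⁻¹ * ((h : G) * s * (h : G)⁻¹ * z) * h := by group
        _ = (h : G)⁻¹ * (z * ((h : G) * s * (h : G)⁻¹)) * h := by rw [h2]
        _ = _ := by group
    have h2 := (hle h1).2
    intro s hs
    exact mem_centralizer_iff.1 h2 s hs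
  have hzp : IsPGroup p (zpowers (z : G)) := by
    have h1 : IsPGroup p (zpowers z) := hR.to_le (zpowers_le.2 hzR)
    have h2 := h1.map G₁.subtype
    rwa [MonoidHom.map_zpowers] at h2
  have hloc := hG (zpowers (z : G)) hzp (by
    rw [Ne, zpowers_eq_bot]
    intro h; exact hz1 (Subtype.ext h)) ⟨(h : G) • S, by
      intro s hs
      rw [Sylow.coe_subgroup_smul, mem_pointwise_smul_iff_inv_smul_mem] at hs
      have hs1 : (h : G)⁻¹ * s * h ∈ (S : Subgroup G) := by
        simpa [mul_assoc] using hs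
      have h2 := hzS _ hs1
      have h3 : s * z = z * s := by
        calc s * (z : G) = (h : G) * (((h : G)⁻¹ * s * h) * ((h : G)⁻¹ * z * h)) * (h : G)⁻¹ := by group
          _ = (h : G) * (((h : G)⁻¹ * z * h) * ((h : G)⁻¹ * s * h)) * (h : G)⁻¹ := by rw [h2]
          _ = _ := by group
      apply Cfsg.Agent.H49.centralizer_le_normalizer'
      rw [mem_centralizer_iff]
      rintro _ ⟨k, rfl⟩
      have h4 : Commute s (z : G) := h3
      exact (h4.zpow_right k).eq.symm⟩
  set N := normalizer (zpowers (z : G) : Set G) with hN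
  -- the centralizer of `z` in `G₁` is subnormal in `N`
  set D := G₁ ⊓ centralizer ({(z : G)} : Set G) with hD
  have hCN : centralizer ({(z : G)} : Set G) ≤ N := by
    intro y hy
    apply Cfsg.Agent.H49.centralizer_le_normalizer'
    rw [mem_centralizer_iff]
    rintro _ ⟨k, rfl⟩
    have h4 : Commute y (z : G) := (mem_centralizer_iff.1 hy z rfl).symm
    exact (h4.zpow_right k).eq.symm
  have hDN : D ≤ N := inf_le_right.trans hCN
  have hCn : ((centralizer ({(z : G)} : Set G)).subgroupOf N).Normal := by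
    rw [normal_subgroupOf_iff_le_normalizer hCN]
    have key : ∀ n ∈ N, ∀ y ∈ centralizer ({(z : G)} : Set G),
        n * y * n⁻¹ ∈ centralizer ({(z : G)} : Set G) := by
      intro n hn y hy
      rw [mem_centralizer_iff]
      rintro _ rfl
      have h1 : n⁻¹ * z * n ∈ zpowers (z : G) := by
        have := (mem_normalizer_iff.1 (inv_mem hn) (z : G)).1 (mem_zpowers _)
        simpa using this
      obtain ⟨k, hk⟩ := h1
      have h4 : Commute y (z : G) := (mem_centralizer_iff.1 hy z rfl).symm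
      have h5 : (z : G) ^ k * y = y * (z : G) ^ k := ((h4.zpow_right k).eq).symm
      have hk' : (z : G) ^ k = n⁻¹ * z * n := hk
      rw [hk'] at h5
      calc (z : G) * (n * y * n⁻¹) = n * ((n⁻¹ * z * n) * y) * n⁻¹ := by group
        _ = n * (y * (n⁻¹ * z * n)) * n⁻¹ := by rw [h5]
        _ = _ := by group
    intro n hn
    rw [mem_normalizer_iff]
    intro y
    refine ⟨key n hn y, fun h => ?_⟩
    have := key n⁻¹ (inv_mem hn) _ h
    rwa [show n⁻¹ * (n * y * n⁻¹) * n⁻¹⁻¹ = y by group] at this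
  have hDsn : (D.subgroupOf N).IsSubnormal := by
    have : D.subgroupOf N = G₁.subgroupOf N ⊓ (centralizer ({(z : G)} : Set G)).subgroupOf N := rfl
    rw [this]
    exact hsn.subgroupOf.inf hCn.isSubnormal
  have hDc : centralizer (pCore p ↥(D.subgroupOf N) : Set _) ≤ pCore p ↥(D.subgroupOf N) :=
    Cfsg.Agent.H49.charP_of_isSubnormal hloc _ hDsn
  have e1 : ↥(D.subgroupOf N) ≃* ↥D := subgroupOfEquivOfLe hDN
  have e2 : ↥(D.subgroupOf G₁) ≃* ↥D := subgroupOfEquivOfLe inf_le_left
  have e3 : D.subgroupOf G₁ = centralizer ({z} : Set G₁) := by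
    ext y
    rw [mem_subgroupOf, hD, mem_inf, mem_centralizer_iff, mem_centralizer_iff]
    constructor
    · rintro ⟨-, h1⟩ _ rfl
      exact Subtype.ext (h1 _ rfl)
    · intro h1
      refine ⟨y.2, ?_⟩
      rintro _ rfl
      exact congrArg Subtype.val (h1 z rfl)
  have hDc2 := Cfsg.Agent.H49.charP_of_equiv (e1.trans e2.symm) hDc
  rw [e3] at hDc2
  exact Cfsg.Agent.Mdx.PC.charP_of_centralizer hR hzR (fun r hr => hzT r (hRT hr)) hDc2

end Cfsg.Agent.S3023
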