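import Cfsg.Statements.S3025
import Cfsg.Agent.MaxClass.UniqueOrderP
import Cfsg.Agent.H50.Basic

set_option autoImplicit false
open Cfsg

namespace Cfsg.Agent.S3025

open Subgroup

/-- Let F be a finite group and H a nontrivial subgroup of F that is contained in every nontrivial subgroup of F which H normalizes. Then F has a nontrivial normal subgroup N contained in every nontrivial normal subgroup of F (a unique minimal normal subgroup), N is simple, and one of the following holds: C_F(N) = 1; or H = N has prime order p, C_F(N) is cyclic of order a power of p, and F/C_F(N) is cyclic of order dividing p − 1; or H = N has order 2, N is central in F, and F is a generalized quaternion group. -/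
theorem result {F : Type*} [Group F] [Finite F] (H : Subgroup F) (hH : H ≠ ⊥)
    (hmin : ∀ R : Subgroup F, R ≠ ⊥ → H ≤ Subgroup.normalizer (R : Set F) → H ≤ R) :
    ∃ N : Subgroup F, N.Normal ∧ N ≠ ⊥ ∧ (∀ M : Subgroup F, M.Normal → M ≠ ⊥ → N ≤ M) ∧ IsSimpleGroup ↥N ∧
      (Subgroup.centralizer (N : Set F) = ⊥ ∨
       (H = N ∧ (Nat.card N).Prime ∧ IsCyclic ↥(Subgroup.centralizer (N : Set F)) ∧
          (∃ k : ℕ, 1 ≤ k ∧ Nat.card ↥(Subgroup.centralizer (N : Set F)) = Nat.card N ^ k) ∧
          (∃ g : F, Subgroup.centralizer (N : Set F) ⊔ Subgroup.zpowers g = ⊤) ∧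
          (Subgroup.centralizer (N : Set F)).index ∣ Nat.card N - 1) ∨
       (H = N ∧ Nat.card N = 2 ∧ Subgroup.centralizer (N : Set F) = ⊤ ∧
          ∃ k : ℕ, 1 ≤ k ∧ Nonempty (F ≃* QuaternionGroup (2 ^ k)))) := by
  set N := normalClosure (H : Set F) with hN
  have hHN : H ≤ N := subset_normalClosure
  have hN1 : N ≠ ⊥ := fun h => hH (le_bot_iff.1 (h ▸ hHN))
  have hNmin : ∀ M : Subgroup F, M.Normal → M ≠ ⊥ → N ≤ M := by
    intro M hM hM1
    apply normalClosure_le_normal
    exact hmin M hM1 (by rw [@normalizer_eq_top _ _ M hM]; exact le_top)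
  have hNn : N.Normal := inferInstance
  have hsimple : IsSimpleGroup ↥N := by
    have : Nontrivial N := (nontrivial_iff_ne_bot N).2 hN1
    refine ⟨fun K hK => ?_⟩
    by_cases hK1 : K = ⊥
    · exact Or.inl hK1
    right
    set K' := K.map N.subtype with hK'
    have hKs : K'.subgroupOf N = K := comap_map_eq_self_of_injective N.subtype_injective K
    have hK'1 : K' ≠ ⊥ := by
      intro h
      apply hK1
      rw [← hKs, h, bot_subgroupOf]
    have hK'N : K' ≤ N := map_subtype_le K
    have hNK : N ≤ normalizer (K' : Set F) := by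
      rw [← normal_subgroupOf_iff_le_normalizer hK'N, hKs]
      exact hK
    have key : ∀ f : F, H ≤ K'.map (MulAut.conj f).toMonoidHom := by
      intro f
      apply hmin
      · intro h
        apply hK'1
        rw [Subgroup.map_eq_bot_iff_of_injective _ (MulAut.conj f).injective] at h
        exact h
      · refine hHN.trans ?_
        intro n hn
        have h1 : f⁻¹ * n * f ∈ N := by
          have := hNn.conj_mem n hn f⁻¹
          rwa [inv_inv] at this
        have h2 := H50.mem_normalizer_iff_map_conj.1 (hNK h1)
        rw [H50.mem_normalizer_iff_map_conj, ← H50.map_conj_mul]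
        have : n * f = f * (f⁻¹ * n * f) := by group
        rw [this, H50.map_conj_mul, h2]
    have hNK' : N ≤ K' := by
      rw [hN, normalClosure, closure_le]
      intro x hx
      obtain ⟨h, hh, hx⟩ := Group.mem_conjugatesOfSet_iff.1 hx
      obtain ⟨c, rfl⟩ := isConj_iff.1 hx
      have := key c⁻¹ hh
      rw [H50.mem_map_conj] at this
      simpa using this
    rw [← hKs]
    rw [subgroupOf_eq_top]
    exact hNK'
  refine ⟨N, hNn, hN1, hNmin, hsimple, ?_⟩
  set C := centralizer (N : Set F) with hC
  by_cases hC1 : C = ⊥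
  · exact Or.inl hC1
  right
  have hNC : N ≤ C := hNmin C inferInstance hC1
  -- `N` has prime order
  have hprime : (Nat.card N).Prime := by
    let _ : CommGroup N := { (inferInstance : Group N) with
      mul_comm := fun a b => Subtype.ext (mem_centralizer_iff.1 (hNC b.2) a a.2) }
    exact IsSimpleGroup.prime_card
  set p := Nat.card N with hp
  have : Fact p.Prime := ⟨hprime⟩
  have hHeq : H = N := by
    apply Subgroup.eq_of_le_of_card_ge hHN
    rcases (Nat.dvd_prime hprime).1 (card_dvd_of_le hHN) with h | h
    · exact absurd (card_eq_one.1 h) hH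
    · rw [h]
  have hcyc : ∀ X : Subgroup F, X ≠ ⊥ → X ≤ C → N ≤ X := by
    intro X hX hXC
    rw [← hHeq]
    apply hmin X hX
    rw [hHeq]
    intro n hn
    apply centralizer_le_normalizer
    rw [mem_centralizer_iff]
    intro x hx
    exact (mem_centralizer_iff.1 (hXC hx) n hn).symm
  have hCcard : Nat.card C = p ^ (Nat.card C).primeFactorsList.length := by
    apply Nat.eq_prime_pow_of_unique_prime_dvd Nat.card_pos.ne'
    intro q hq hqd
    have : Fact q.Prime := ⟨hq⟩
    obtain ⟨g, hg⟩ := exists_prime_orderOf_dvd_card' (G := C) q hqd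
    have hg1 : zpowers (g : F) ≠ ⊥ := by
      rw [Ne, zpowers_eq_bot]
      intro h
      have : g = 1 := Subtype.ext h
      rw [this, orderOf_one] at hg
      exact hq.one_lt.ne hg
    have h1 := card_dvd_of_le (hcyc _ hg1 (by rw [zpowers_le]; exact g.2))
    rw [Nat.card_zpowers, orderOf_coe, hg] at h1
    exact ((Nat.prime_dvd_prime_iff_eq hprime hq).1 h1).symm
  have hCp : IsPGroup p C := IsPGroup.of_card hCcard
  have huniq : ∀ X Y : Subgroup C, Nat.card X = p → Nat.card Y = p → X = Y := by
    have key : ∀ X : Subgroup C, Nat.card X = p → X.map C.subtype = N := by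
      intro X hX
      have hXc : Nat.card (X.map C.subtype) = p := by
        rw [card_map_of_injective C.subtype_injective, hX]
      have h1 : N ≤ X.map C.subtype := by
        apply hcyc _ _ (map_subtype_le X)
        intro h
        rw [h, card_bot] at hXc
        exact hprime.one_lt.ne hXc
      exact (Subgroup.eq_of_le_of_card_ge h1 (by rw [hXc])).symm
    intro X Y hX hY
    apply map_injective C.subtype_injective
    rw [key X hX, key Y hY]
  have hclass := MaxClass.cyclic_or_quaternion hCp huniq
  -- the action on `N`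
  have hker : (MulAut.conjNormal (H := N)).ker = C := by
    ext f
    rw [MonoidHom.mem_ker, hC, mem_centralizer_iff]
    constructor
    · intro h n hn
      have h1 := congrArg (fun φ : MulAut N => ((φ ⟨n, hn⟩ : N) : F)) h
      simp only [MulAut.conjNormal_apply, MulAut.one_apply] at h1
      rw [mul_inv_eq_iff_eq_mul] at h1
      exact h1.symm
    · intro h
      ext n
      simp only [MulAut.conjNormal_apply, MulAut.one_apply]
      rw [← h n n.2, mul_assoc, mul_inv_cancel, mul_one]
  have hNcyc : IsCyclic N := isCyclic_of_prime_card (p := p) rfl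
  have hindex : C.index ∣ p - 1 := by
    rw [← hker, index_ker]
    have h1 : Nat.card (MulAut N) = p - 1 := by
      rw [IsCyclic.card_mulAut, ← hp, Nat.totient_prime hprime]
    rw [← h1]
    exact card_subgroup_dvd_card _
  by_cases hCcyc : IsCyclic C
  · left
    refine ⟨hHeq, hprime, hCcyc, ⟨_, ?_, hCcard⟩, ?_, hindex⟩
    · by_contra hcon
      have : (Nat.card C).primeFactorsList.length = 0 := by omega
      rw [this, pow_zero] at hCcard
      exact hC1 (card_eq_one.1 hCcard)
    · have hcA : IsCyclic (MulAut N) := by
        have hf : Fact (Nat.card N).Prime := ⟨hprime⟩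
        have : IsCyclic (ZMod (Nat.card N))ˣ := inferInstance
        exact isCyclic_of_surjective (IsCyclic.mulAutMulEquiv N).symm.toMonoidHom
          (IsCyclic.mulAutMulEquiv N).symm.surjective
      set φ : F →* MulAut N := MulAut.conjNormal (H := N) with hφ
      obtain ⟨⟨y, g, rfl⟩, hg⟩ := IsCyclic.exists_generator (α := φ.range)
      refine ⟨g, ?_⟩
      rw [eq_top_iff]
      intro x _
      obtain ⟨k, hk⟩ := mem_zpowers_iff.1 (hg ⟨φ x, x, rfl⟩)
      have hk' : φ g ^ k = φ x := congrArg Subtype.val hk
      have h1 : x * (g ^ k)⁻¹ ∈ C := by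
        rw [← hker, MonoidHom.mem_ker, map_mul, map_inv, map_zpow, hk', mul_inv_cancel]
      have : x = x * (g ^ k)⁻¹ * g ^ k := by group
      rw [this]
      exact mul_mem_sup h1 (zpow_mem (mem_zpowers g) k)
  · right
    rcases hclass with h | ⟨h2, n, ⟨e⟩⟩
    · exact absurd h hCcyc
    have hCtop : C = ⊤ := by
      rw [h2] at hindex
      exact index_eq_one.1 (Nat.dvd_one.1 (by simpa using hindex))
    refine ⟨hHeq, h2, hCtop, n, ?_, ?_⟩
    · by_contra hcon
      have hn0 : n = 0 := by omega
      subst hn0
      apply hCcyc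
      rw [pow_zero] at e
      have := QuaternionGroup.quaternionGroup_one_isCyclic
      exact isCyclic_of_injective e.toMonoidHom e.injective
    · exact ⟨(Subgroup.topEquiv.symm.trans (MulEquiv.subgroupCongr hCtop.symm)).trans e⟩

end Cfsg.Agent.S3025
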