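import Cfsg.Statements.S3027
import Cfsg.Agent.H50.Basic
import Mathlib.GroupTheory.Commutator.Basic

set_option autoImplicit false
open Cfsg

namespace Cfsg.Agent.S3027

open Subgroup

variable {G : Type*} [Group G] [Finite G]

/-- Minimal subnormal supplement of `D`. -/
def IsMinSup (D B : Subgroup G) : Prop :=
  B.IsSubnormal ∧ B ⊔ D = ⊤ ∧ ∀ B' : Subgroup G, B'.IsSubnormal → B' ⊔ D = ⊤ → B' ≤ B → B' = B

theorem exists_minSup_le {D B : Subgroup G} (h1 : B.IsSubnormal) (h2 : B ⊔ D = ⊤) :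
    ∃ B' ≤ B, IsMinSup D B' := by
  obtain ⟨M, hM⟩ := (Set.toFinite {B' : Subgroup G | B'.IsSubnormal ∧ B' ⊔ D = ⊤ ∧ B' ≤ B}).exists_minimal
    ⟨B, h1, h2, le_rfl⟩
  refine ⟨M, hM.prop.2.2, hM.prop.1, hM.prop.2.1, fun B' hB' hB'D hle => ?_⟩
  exact le_antisymm hle (hM.le_of_le ⟨hB', hB'D, hle.trans hM.prop.2.2⟩ hle)

omit [Finite G] in
theorem sup_eq_top_of_commutator {D : Subgroup G} [D.Normal]
    (hperf : ⁅(⊤ : Subgroup G), (⊤ : Subgroup G)⁆ ⊔ D = ⊤) {M₁ M₂ : Subgroup G}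
    (h1 : M₁ ⊔ D = ⊤) (h2 : M₂ ⊔ D = ⊤) : ⁅M₁, M₂⁆ ⊔ D = ⊤ := by
  have key : ∀ M : Subgroup G, M ⊔ D = ⊤ → M.map (QuotientGroup.mk' D) = ⊤ := by
    intro M hM
    have h := congrArg (Subgroup.map (QuotientGroup.mk' D)) hM
    rw [Subgroup.map_sup, Subgroup.map_top_of_surjective _ (QuotientGroup.mk'_surjective D)] at h
    have h3 : D.map (QuotientGroup.mk' D) = ⊥ := by
      rw [Subgroup.map_eq_bot_iff, QuotientGroup.ker_mk']
    rwa [h3, sup_bot_eq] at h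
  have e1 : (⁅M₁, M₂⁆).map (QuotientGroup.mk' D) = ⊤ := by
    have e0 := key _ hperf
    rw [Subgroup.map_commutator, Subgroup.map_top_of_surjective _ (QuotientGroup.mk'_surjective D)] at e0
    rw [Subgroup.map_commutator, key _ h1, key _ h2, e0]
  have e2 := congrArg (Subgroup.comap (QuotientGroup.mk' D)) e1
  rwa [Subgroup.comap_map_eq, QuotientGroup.ker_mk', Subgroup.comap_top] at e2

/-- A proper subnormal subgroup of `K` lies in a proper normal subgroup of `K`. -/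
theorem exists_normal_in {B K : Subgroup G} (hB : B.IsSubnormal) (hBK : B ≤ K) (hne : B ≠ K) :
    ∃ M : Subgroup G, M ≤ K ∧ B ≤ M ∧ M ≠ K ∧ K ≤ normalizer (M : Set G) ∧
      (M.subgroupOf K).IsSubnormal := by
  have h1 : (B.subgroupOf K).IsSubnormal := hB.subgroupOf
  have h2 : B.subgroupOf K ≠ ⊤ := by
    intro h
    rw [subgroupOf_eq_top] at h
    exact hne (le_antisymm hBK h)
  obtain ⟨M, hM, hBM, hlt⟩ := h1.exists_normal_and_le_and_lt_top_of_ne h2
  have hMs : (M.map K.subtype).subgroupOf K = M := comap_map_eq_self_of_injective K.subtype_injective M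
  refine ⟨M.map K.subtype, map_subtype_le M, ?_, ?_, ?_, ?_⟩
  · intro x hx
    exact ⟨⟨x, hBK hx⟩, hBM (mem_subgroupOf.2 hx), rfl⟩
  · intro h
    apply hlt.ne
    rw [← hMs, h, subgroupOf_self]
  · rw [← normal_subgroupOf_iff_le_normalizer (map_subtype_le M), hMs]
    exact hM
  · rw [hMs]
    exact hM.isSubnormal

theorem unique_minSup (D : Subgroup G) [D.Normal]
    (hperf : ⁅(⊤ : Subgroup G), (⊤ : Subgroup G)⁆ ⊔ D = ⊤) :
    ∀ n : ℕ, ∀ K : Subgroup G, Nat.card K ≤ n → K.IsSubnormal → ∀ B₁ B₂ : Subgroup G,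
      B₁ ≤ K → B₂ ≤ K → IsMinSup D B₁ → IsMinSup D B₂ → B₁ = B₂ := by
  intro n
  induction n with
  | zero =>
    intro K hK
    have : 0 < Nat.card K := Nat.card_pos
    omega
  | succ n ih =>
    intro K hK hKs B₁ B₂ hB₁K hB₂K hB₁ hB₂
    by_cases h1 : B₁ = K
    · exact (hB₁.2.2 B₂ hB₂.1 hB₂.2.1 (h1 ▸ hB₂K)).symm
    by_cases h2 : B₂ = K
    · exact hB₂.2.2 B₁ hB₁.1 hB₁.2.1 (h2 ▸ hB₁K)
    obtain ⟨M₁, hM₁K, hBM₁, hM₁ne, hKM₁, hM₁s⟩ := exists_normal_in hB₁.1 hB₁K h1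
    obtain ⟨M₂, hM₂K, hBM₂, hM₂ne, hKM₂, hM₂s⟩ := exists_normal_in hB₂.1 hB₂K h2
    have hM₁sub : M₁.IsSubnormal := hM₁s.trans hM₁K hKs
    have hM₂sub : M₂.IsSubnormal := hM₂s.trans hM₂K hKs
    have hM₁D : M₁ ⊔ D = ⊤ := top_le_iff.1 (hB₁.2.1 ▸ sup_le_sup_right hBM₁ D)
    have hM₂D : M₂ ⊔ D = ⊤ := top_le_iff.1 (hB₂.2.1 ▸ sup_le_sup_right hBM₂ D)
    have hcomm : ⁅M₁, M₂⁆ ≤ M₁ ⊓ M₂ := by
      rw [commutator_le]
      intro g₁ hg₁ g₂ hg₂
      rw [commutatorElement_def]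
      constructor
      · have := M₁.mul_mem hg₁ ((mem_normalizer_iff.1 (hKM₁ (hM₂K hg₂)) g₁⁻¹).1 (M₁.inv_mem hg₁))
        show g₁ * g₂ * g₁⁻¹ * g₂⁻¹ ∈ M₁
        simpa [mul_assoc] using this
      · have := M₂.mul_mem ((mem_normalizer_iff.1 (hKM₂ (hM₁K hg₁)) g₂).1 hg₂) (M₂.inv_mem hg₂)
        show g₁ * g₂ * g₁⁻¹ * g₂⁻¹ ∈ M₂
        simpa [mul_assoc] using this
    have hMD : (M₁ ⊓ M₂) ⊔ D = ⊤ :=
      top_le_iff.1 ((sup_eq_top_of_commutator hperf hM₁D hM₂D) ▸ sup_le_sup_right hcomm D)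
    obtain ⟨B₃, hB₃le, hB₃⟩ := exists_minSup_le (hM₁sub.inf hM₂sub) hMD
    have c1 : Nat.card M₁ ≤ n := by
      have : Nat.card M₁ < Nat.card K := by
        by_contra hcon
        exact hM₁ne (Subgroup.eq_of_le_of_card_ge hM₁K (not_lt.1 hcon))
      omega
    have c2 : Nat.card M₂ ≤ n := by
      have : Nat.card M₂ < Nat.card K := by
        by_contra hcon
        exact hM₂ne (Subgroup.eq_of_le_of_card_ge hM₂K (not_lt.1 hcon))
      omega
    rw [ih M₁ c1 hM₁sub B₁ B₃ hBM₁ (hB₃le.trans inf_le_left) hB₁ hB₃,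
      ih M₂ c2 hM₂sub B₂ B₃ hBM₂ (hB₃le.trans inf_le_right) hB₂ hB₃]

/-- Let G be a finite group and D a normal subgroup of G such that G/D is perfect (that is, G = G′D). Then among the subnormal subgroups B of G with BD = G there is a least one, and it is normal in G. -/
theorem result {G : Type*} [Group G] [Finite G] (D : Subgroup G) [D.Normal] (hperf : ⁅(⊤ : Subgroup G), (⊤ : Subgroup G)⁆ ⊔ D = ⊤) :
    ∃ B : Subgroup G, B.Normal ∧ B ⊔ D = ⊤ ∧ ∀ B' : Subgroup G, B'.IsSubnormal → B' ⊔ D = ⊤ → B ≤ B' := by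
  obtain ⟨B, -, hB⟩ := exists_minSup_le (D := D) (B := ⊤) IsSubnormal.top (top_sup_eq D)
  have huniq : ∀ B' : Subgroup G, IsMinSup D B' → B = B' := fun B' hB' =>
    unique_minSup D hperf _ ⊤ le_rfl IsSubnormal.top B B' le_top le_top hB hB'
  refine ⟨B, ?_, hB.2.1, ?_⟩
  · rw [← normalizer_eq_top_iff, eq_top_iff]
    intro g _
    rw [H50.mem_normalizer_iff_map_conj]
    symm
    apply huniq
    have hD : ∀ g : G, D.map (MulAut.conj g).toMonoidHom = D := by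
      intro g
      rw [← H50.mem_normalizer_iff_map_conj, normalizer_eq_top]
      trivial
    have hinv : ∀ (g : G) (X : Subgroup G),
        (X.map (MulAut.conj g).toMonoidHom).map (MulAut.conj g⁻¹).toMonoidHom = X := by
      intro g X
      rw [← H50.map_conj_mul, inv_mul_cancel, H50.map_conj_one]
    have hsn : ∀ (g : G) (X : Subgroup G), X.IsSubnormal →
        (X.map (MulAut.conj g).toMonoidHom).IsSubnormal := by
      intro g X hX
      exact hX.map (MulAut.conj g).surjective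
    have hsup : ∀ (g : G) (X : Subgroup G), X ⊔ D = ⊤ →
        X.map (MulAut.conj g).toMonoidHom ⊔ D = ⊤ := by
      intro g X hX
      conv_lhs => rw [← hD g]
      rw [← Subgroup.map_sup, hX]
      exact Subgroup.map_top_of_surjective _ (MulAut.conj g).surjective
    refine ⟨hsn g B hB.1, hsup g B hB.2.1, fun B' hB' hB'D hle => ?_⟩
    have h1 := hB.2.2 (B'.map (MulAut.conj g⁻¹).toMonoidHom) (hsn _ _ hB') (hsup _ _ hB'D) (by
      have := Subgroup.map_mono (f := (MulAut.conj g⁻¹).toMonoidHom) hle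
      rwa [hinv] at this)
    rw [← h1]
    have h2 := hinv g⁻¹ B'
    rw [inv_inv] at h2
    exact h2.symm
  · intro B' hB' hB'D
    obtain ⟨B'', hle, hB''⟩ := exists_minSup_le hB' hB'D
    rw [huniq B'' hB'']
    exact hle

end Cfsg.Agent.S3027
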