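import Cfsg.Statements.S3028
import Cfsg.Agent.H50.SylowIn
import Cfsg.Agent.H62.Subnormal
import Mathlib.GroupTheory.Transfer
import Mathlib.GroupTheory.Abelianization.Defs

set_option autoImplicit false
open Cfsg

namespace Cfsg.Agent.S3028

open Subgroup
open scoped commutatorElement

universe u

/-- A Sylow subgroup meets a subnormal subgroup in a Sylow subgroup. -/
theorem not_dvd_relIndex_subnormal {G : Type*} [Group G] [Finite G] {p : ℕ} {S A : Subgroup G}
    (hS : ¬ p ∣ S.index) (hA : A.IsSubnormal) : ¬ p ∣ S.relIndex A := by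
  induction hA with
  | top => rwa [relIndex_top_right]
  | step H K hle hsub hN ih =>
    rw [← relIndex_subgroupOf hle]
    have h1 : ¬ p ∣ (S.subgroupOf K).index := ih
    exact H50.not_dvd_relIndex_normal h1

theorem exists_minNormal_le {G : Type*} [Group G] [Finite G] {K : Subgroup G} (hK : K.Normal) (hK1 : K ≠ ⊥) :
    ∃ N ≤ K, N.Normal ∧ N ≠ ⊥ ∧ ∀ L : Subgroup G, L.Normal → L ≤ N → L = ⊥ ∨ L = N := by
  obtain ⟨M, hM⟩ := (Set.toFinite {N : Subgroup G | N.Normal ∧ N ≠ ⊥ ∧ N ≤ K}).exists_minimal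
    ⟨K, hK, hK1, le_rfl⟩
  refine ⟨M, hM.prop.2.2, hM.prop.1, hM.prop.2.1, fun L hL hLM => ?_⟩
  by_cases h : L = ⊥
  · exact Or.inl h
  · right
    exact le_antisymm hLM (hM.le_of_le ⟨hL, h, hLM.trans hM.prop.2.2⟩ hLM)

theorem prod_normal {G : Type*} [Group G] {N A₁ A₂ : Subgroup G} (hN : N.Normal)
    (h1 : N ≤ normalizer (A₁ : Set G)) (h2 : N ≤ normalizer (A₂ : Set G)) (htop : A₁ ⊔ A₂ = ⊤) :
    ((N ⊓ A₁) ⊔ (N ⊓ A₂)).Normal := by
  have key : ∀ {A B : Subgroup G}, N ≤ normalizer (A : Set G) → ∀ a ∈ A, ∀ x ∈ (N ⊓ A) ⊔ (N ⊓ B),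
      a * x * a⁻¹ ∈ (N ⊓ A) ⊔ (N ⊓ B) := by
    intro A B hNA a ha x hx
    have : (N ⊓ A) ⊔ (N ⊓ B) ≤ ((N ⊓ A) ⊔ (N ⊓ B)).comap (MulAut.conj a).toMonoidHom := by
      apply sup_le
      · rintro y ⟨hy1, hy2⟩
        apply (le_sup_left : N ⊓ A ≤ (N ⊓ A) ⊔ (N ⊓ B))
        exact ⟨hN.conj_mem y hy1 a, A.mul_mem (A.mul_mem ha hy2) (A.inv_mem ha)⟩
      · rintro y ⟨hy1, hy2⟩
        have e : a * y * a⁻¹ = (a * (y * a⁻¹ * y⁻¹)) * y := by group
        show a * y * a⁻¹ ∈ (N ⊓ A) ⊔ (N ⊓ B)
        rw [e]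
        apply mul_mem_sup
        · refine ⟨?_, A.mul_mem ha ((mem_normalizer_iff.1 (hNA hy1) a⁻¹).1 (A.inv_mem ha))⟩
          have := N.mul_mem (hN.conj_mem y hy1 a) (N.inv_mem hy1)
          show a * (y * a⁻¹ * y⁻¹) ∈ N
          simpa [mul_assoc] using this
        · exact ⟨hy1, hy2⟩
    exact this hx
  rw [← normalizer_eq_top_iff, eq_top_iff, ← htop]
  have hc : ∀ {A : Subgroup G} {M : Subgroup G}, (∀ a ∈ A, ∀ x ∈ M, a * x * a⁻¹ ∈ M) →
      A ≤ normalizer (M : Set G) := by
    intro A M h a ha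
    rw [mem_normalizer_iff]
    intro x
    refine ⟨h a ha x, fun hx => ?_⟩
    have := h a⁻¹ (A.inv_mem ha) _ hx
    simpa [mul_assoc] using this
  apply sup_le
  · exact hc (key h1)
  · rw [sup_comm (N ⊓ A₁)]
    exact hc (key h2)

theorem main_aux {p : ℕ} [Fact p.Prime] : ∀ n : ℕ, ∀ (G : Type u) [Group G] [Finite G], Nat.card G ≤ n →
    ∀ A₁ A₂ : Subgroup G, A₁.IsSubnormal → A₂.IsSubnormal → A₁ ⊔ A₂ = ⊤ →
      ∀ S : Subgroup G, IsPGroup p ↥S → ¬ p ∣ S.index → S ≤ (A₁ ⊓ S) ⊔ (A₂ ⊓ S) := by
  intro n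
  induction n with
  | zero =>
    intro G _ _ hG
    have : 0 < Nat.card G := Nat.card_pos
    omega
  | succ n ih =>
    intro G _ _ hG A₁ A₂ hA₁ hA₂ htop S hSp hSi
    set X := (A₁ ⊓ S) ⊔ (A₂ ⊓ S) with hX
    have hp : p.Prime := Fact.out
    have hXS : X ≤ S := sup_le inf_le_right inf_le_right
    by_contra hcon
    -- step 2
    have step2 : ∀ N : Subgroup G, N.Normal → N ≠ ⊥ → S ≤ X ⊔ N := by
      intro N hN hN1
      set f := QuotientGroup.mk' N with hf
      have hfs : Function.Surjective f := QuotientGroup.mk'_surjective N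
      have hker : f.ker = N := QuotientGroup.ker_mk' N
      have hcard : Nat.card (G ⧸ N) ≤ n := by
        have h1 := N.card_mul_index
        have h2 : 1 < Nat.card N := by
          rw [one_lt_card_iff_ne_bot]; exact hN1
        have h3 : 0 < N.index := Nat.pos_of_ne_zero index_ne_zero_of_finite
        have h4 : Nat.card (G ⧸ N) = N.index := rfl
        rw [h4]
        nlinarith
      have h1 := ih (G ⧸ N) hcard (A₁.map f) (A₂.map f) (hA₁.map hfs) (hA₂.map hfs)
        (by rw [← Subgroup.map_sup, htop, Subgroup.map_top_of_surjective f hfs]) (S.map f) (hSp.map f)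
        (fun hd => hSi (hd.trans (index_map_dvd S hfs)))
      have h2 : ∀ A : Subgroup G, A.IsSubnormal → A.map f ⊓ S.map f ≤ (A ⊓ S).map f := by
        intro A hA
        have h3 : ¬ p ∣ ((A ⊓ S).map f).relIndex (A.map f) := by
          rw [← relIndex_comap, comap_map_eq, hker]
          intro hd
          apply not_dvd_relIndex_subnormal hSi hA
          have h6 : ((A ⊓ S) ⊔ N).relIndex A ∣ (A ⊓ S).relIndex A := relIndex_dvd_of_le_left A le_sup_left
          have h7 : (A ⊓ S).relIndex A = S.relIndex A := inf_relIndex_left _ _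
          rw [h7] at h6
          exact hd.trans h6
        have h8 : IsPGroup p ↥(A.map f ⊓ S.map f : Subgroup (G ⧸ N)) := (hSp.map f).to_le inf_le_right
        have hle : (A ⊓ S).map f ≤ A.map f ⊓ S.map f := le_inf (map_mono inf_le_left) (map_mono inf_le_right)
        have h9 : ((A ⊓ S).map f).relIndex (A.map f ⊓ S.map f) ∣ ((A ⊓ S).map f).relIndex (A.map f) := by
          rw [← relIndex_mul_relIndex _ _ _ hle inf_le_left]
          exact Dvd.intro _ rfl
        obtain ⟨k, hk⟩ := h8.index (((A ⊓ S).map f).subgroupOf (A.map f ⊓ S.map f))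
        have h10 : ((A ⊓ S).map f).relIndex (A.map f ⊓ S.map f) = p ^ k := hk
        rcases Nat.eq_zero_or_pos k with hk0 | hk0
        · rw [hk0, pow_zero] at h10
          exact relIndex_eq_one.1 h10
        · exfalso
          apply h3
          refine dvd_trans ?_ h9
          rw [h10]
          exact dvd_pow_self p hk0.ne'
      have h11 : S.map f ≤ X.map f := by
        refine h1.trans ?_
        rw [hX, Subgroup.map_sup]
        exact sup_le_sup (h2 A₁ hA₁) (h2 A₂ hA₂)
      rw [map_le_iff_le_comap, comap_map_eq, hker] at h11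
      exact h11
    have step2' : ∀ N : Subgroup G, N.Normal → N ≠ ⊥ → ¬ N ⊓ S ≤ X := by
      intro N hN hN1 hle
      apply hcon
      intro s hs
      have h1 := step2 N hN hN1 hs
      rw [← SetLike.mem_coe, mul_normal] at h1
      obtain ⟨x, hx, m, hm, rfl⟩ := h1
      have h2 : m ∈ S := by
        have := S.mul_mem (S.inv_mem (hXS hx)) hs
        simpa using this
      exact X.mul_mem hx (hle ⟨hm, h2⟩)
    -- step 3
    have step3 : ∀ N : Subgroup G, N.Normal → N ≠ ⊥ → (∀ L : Subgroup G, L.Normal → L ≤ N → L = ⊥ ∨ L = N) →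
        N ≤ center G ∧ IsPGroup p N := by
      intro N hN hN1 hmin
      have n1 := H62.minNormal_le_normalizer hA₁ hN hN1 hmin
      have n2 := H62.minNormal_le_normalizer hA₂ hN hN1 hmin
      have hMn := prod_normal hN n1 n2 htop
      rcases hmin _ hMn (sup_le inf_le_left inf_le_left) with hM | hM
      · have hb1 : N ⊓ A₁ = ⊥ := le_bot_iff.1 (hM ▸ le_sup_left)
        have hb2 : N ⊓ A₂ = ⊥ := le_bot_iff.1 (hM ▸ le_sup_right)
        have hcomm : ∀ {A : Subgroup G}, N ≤ normalizer (A : Set G) → N ⊓ A = ⊥ →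
            A ≤ centralizer (N : Set G) := by
          intro A hNA hb a ha
          rw [mem_centralizer_iff]
          intro x hx
          have h1 : x * a * x⁻¹ * a⁻¹ ∈ N ⊓ A := by
            constructor
            · have := N.mul_mem hx (hN.conj_mem _ (N.inv_mem hx) a)
              show x * a * x⁻¹ * a⁻¹ ∈ N
              simpa [mul_assoc] using this
            · exact A.mul_mem ((mem_normalizer_iff.1 (hNA hx) a).1 ha) (A.inv_mem ha)
          rw [hb, mem_bot, mul_inv_eq_one, mul_inv_eq_iff_eq_mul] at h1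
          exact h1
        have hcen : N ≤ center G := by
          intro x hx
          rw [mem_center_iff]
          intro g
          have hg : g ∈ A₁ ⊔ A₂ := by rw [htop]; trivial
          have := (sup_le (hcomm n1 hb1) (hcomm n2 hb2)) hg
          exact (mem_centralizer_iff.1 this x hx).symm
        refine ⟨hcen, ?_⟩
        have hnp : ¬ N ⊓ S ≤ X := step2' N hN hN1
        have hne : N ⊓ S ≠ ⊥ := fun h => hnp (h ▸ bot_le)
        have hnorm : (N ⊓ S).Normal := by
          constructor
          intro x hx g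
          have := mem_center_iff.1 (hcen hx.1) g
          rw [this, mul_assoc, mul_inv_cancel, mul_one]
          exact hx
        rcases hmin _ hnorm inf_le_left with h | h
        · exact absurd h hne
        · rw [← h]
          exact hSp.to_le inf_le_right
      · exfalso
        by_cases hNtop : N = ⊤
        · rw [hNtop, top_le_iff, normalizer_eq_top_iff] at n1 n2
          apply hcon
          rcases hmin _ n1 (hNtop ▸ le_top) with h | h
          · rw [h, bot_sup_eq] at htop
            rw [hX, htop, top_inf_eq]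
            exact le_sup_right
          · rw [hX, h, hNtop, top_inf_eq]
            exact le_sup_left
        · have hcard : Nat.card N ≤ n := by
            have : Nat.card N < Nat.card G := by
              by_contra hc
              exact hNtop (eq_top_of_card_eq N (le_antisymm (card_le_card_group N) (not_lt.1 hc)))
            omega
          have hsubi : ¬ p ∣ (S.subgroupOf N).index := not_dvd_relIndex_subnormal hSi hN.isSubnormal
          have h1 := ih N hcard (A₁.subgroupOf N) (A₂.subgroupOf N) hA₁.subgroupOf hA₂.subgroupOf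
            (by
              have h2 : ((A₁.subgroupOf N) ⊔ (A₂.subgroupOf N)).map N.subtype = N := by
                rw [Subgroup.map_sup, subgroupOf_map_subtype, subgroupOf_map_subtype, inf_comm A₁,
                  inf_comm A₂]
                exact hM
              apply map_injective N.subtype_injective
              rw [h2, ← MonoidHom.range_eq_map, range_subtype])
            (S.subgroupOf N) (hSp.comap_of_injective N.subtype N.subtype_injective) hsubi
          apply step2' N hN hN1
          rintro x ⟨hx1, hx2⟩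
          have h3 := h1 (show (⟨x, hx1⟩ : N) ∈ S.subgroupOf N from mem_subgroupOf.2 hx2)
          have h4 : (A₁.subgroupOf N ⊓ S.subgroupOf N) ⊔ (A₂.subgroupOf N ⊓ S.subgroupOf N) ≤ X.subgroupOf N := by
            apply sup_le
            · rintro y ⟨hy1, hy2⟩
              exact (le_sup_left : A₁ ⊓ S ≤ X) ⟨hy1, hy2⟩
            · rintro y ⟨hy1, hy2⟩
              exact (le_sup_right : A₂ ⊓ S ≤ X) ⟨hy1, hy2⟩
          exact mem_subgroupOf.1 (h4 h3)
    -- step 4: transfer
    have hNS : ∀ N : Subgroup G, N.Normal → IsPGroup p N → N ≤ S := by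
      intro N hN hNp
      have h1 : ¬ p ∣ S.relIndex N := not_dvd_relIndex_subnormal hSi hN.isSubnormal
      obtain ⟨k, hk⟩ := hNp.index (S.subgroupOf N)
      have h10 : S.relIndex N = p ^ k := hk
      rcases Nat.eq_zero_or_pos k with hk0 | hk0
      · rw [hk0, pow_zero] at h10
        exact relIndex_eq_one.1 h10
      · exfalso
        apply h1
        rw [h10]
        exact dvd_pow_self p hk0.ne'
    set τ : G →* Abelianization ↥S := MonoidHom.transfer (Abelianization.of (G := ↥S)) with hτ
    have hker : τ.ker = ⊥ := by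
      by_contra hne
      obtain ⟨N, hNker, hN, hN1, hmin⟩ := exists_minNormal_le (G := G) (K := τ.ker) inferInstance hne
      obtain ⟨hNc, hNp⟩ := step3 N hN hN1 hmin
      have hNS' := hNS N hN hNp
      have hNX : N ⊓ X = ⊥ := by
        have hnorm : (N ⊓ X).Normal := by
          constructor
          intro x hx g
          have := mem_center_iff.1 (hNc hx.1) g
          rw [this, mul_assoc, mul_inv_cancel, mul_one]
          exact hx
        rcases hmin _ hnorm inf_le_left with h | h
        · exact h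
        · exfalso
          exact step2' N hN hN1 (inf_le_left.trans (inf_eq_left.1 h))
      -- `[S, S] ≤ X`
      have hSXN := step2 N hN hN1
      have hcomm : (commutator ↥S).map S.subtype ≤ X := by
        rw [commutator_def, Subgroup.map_commutator, ← MonoidHom.range_eq_map, range_subtype, commutator_le]
        intro a ha b hb
        have ha' := hSXN ha
        have hb' := hSXN hb
        rw [← SetLike.mem_coe, mul_normal] at ha' hb'
        obtain ⟨x, hx, z, hz, rfl⟩ := ha'
        obtain ⟨y, hy, w, hw, rfl⟩ := hb'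
        have hzc := mem_center_iff.1 (hNc hz)
        have hwc := mem_center_iff.1 (hNc hw)
        have : ⁅x * z, y * w⁆ = ⁅x, y⁆ := by
          rw [commutatorElement_def, commutatorElement_def]
          calc x * z * (y * w) * (x * z)⁻¹ * (y * w)⁻¹
              = x * (z * (y * w * (z⁻¹ * x⁻¹))) * w⁻¹ * y⁻¹ := by group
            _ = x * ((y * w * (z⁻¹ * x⁻¹)) * z) * w⁻¹ * y⁻¹ := by rw [hzc (y * w * (z⁻¹ * x⁻¹))]
            _ = x * y * (w * z⁻¹ * (x⁻¹ * z)) * w⁻¹ * y⁻¹ := by group
            _ = x * y * (w * z⁻¹ * (z * x⁻¹)) * w⁻¹ * y⁻¹ := by rw [hzc x⁻¹]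
            _ = x * y * (w * x⁻¹) * w⁻¹ * y⁻¹ := by group
            _ = x * y * (x⁻¹ * w) * w⁻¹ * y⁻¹ := by rw [hwc x⁻¹]
            _ = x * y * x⁻¹ * y⁻¹ := by group
        rw [this, commutatorElement_def]
        exact X.mul_mem (X.mul_mem (X.mul_mem hx hy) (X.inv_mem hx)) (X.inv_mem hy)
      apply hN1
      rw [eq_bot_iff_forall]
      intro z hz
      have hzc := mem_center_iff.1 (hNc hz)
      have h1 : τ z = 1 := hNker hz
      rw [hτ, MonoidHom.transfer_eq_pow _ z (fun k g₀ _ => by
        have : g₀⁻¹ * z ^ k = z ^ k * g₀⁻¹ := by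
          have := mem_center_iff.1 ((center G).pow_mem (hNc hz) k) g₀⁻¹
          exact this
        rw [this, mul_assoc, inv_mul_cancel, mul_one])] at h1
      have h2 : (⟨z ^ S.index, S.pow_mem (hNS' hz) _⟩ : ↥S) ∈ commutator ↥S := by
        rw [← Abelianization.ker_of]
        exact h1
      have h3 : z ^ S.index ∈ N ⊓ X := ⟨N.pow_mem hz _, hcomm ⟨_, h2, rfl⟩⟩
      rw [hNX, mem_bot] at h3
      obtain ⟨k, hk⟩ := hNp.exists_card_eq
      have h4 : orderOf z ∣ Nat.card N := by
        have := orderOf_dvd_natCard (⟨z, hz⟩ : N)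
        rwa [orderOf_mk] at this
      have h5 : orderOf z ∣ S.index := orderOf_dvd_of_pow_eq_one h3
      have h6 : (Nat.card N).Coprime S.index := by
        rw [hk]
        exact Nat.Coprime.pow_left k ((Nat.Prime.coprime_iff_not_dvd hp).2 hSi)
      exact orderOf_eq_one_iff.1 (Nat.eq_one_of_dvd_coprimes h6 h4 h5)
    have hab : ∀ x y : G, x * y = y * x := by
      intro x y
      have hinj : Function.Injective τ := (MonoidHom.ker_eq_bot_iff τ).1 hker
      apply hinj
      rw [map_mul, map_mul, mul_comm]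
    -- `G` is a `p`-group
    have hGp : S = ⊤ := by
      by_contra hne
      have h1 : S.index ≠ 1 := by rwa [Ne, index_eq_one]
      obtain ⟨r, hr, hrd⟩ := Nat.exists_prime_and_dvd h1
      have : Fact r.Prime := ⟨hr⟩
      have hrp : r ≠ p := fun h => hSi (h ▸ hrd)
      obtain ⟨g, hg⟩ := exists_prime_orderOf_dvd_card' (G := G) r (hrd.trans (index_dvd_card S))
      have hZ : (zpowers g).Normal := by
        constructor
        intro x hx y
        rw [hab y x, mul_assoc, mul_inv_cancel, mul_one]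
        exact hx
      have hZ1 : zpowers g ≠ ⊥ := by
        rw [Ne, zpowers_eq_bot]
        intro h
        rw [h, orderOf_one] at hg
        exact hr.one_lt.ne hg
      have hZc : Nat.card (zpowers g) = r := by rw [Nat.card_zpowers, hg]
      obtain ⟨-, h2⟩ := step3 _ hZ hZ1 (by
        intro L _ hL
        have h3 : Nat.card L ∣ r := hZc ▸ card_dvd_of_le hL
        rcases (Nat.dvd_prime hr).1 h3 with h | h
        · exact Or.inl (card_eq_one.1 h)
        · exact Or.inr (Subgroup.eq_of_le_of_card_ge hL (by rw [hZc, h])))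
      obtain ⟨k, hk⟩ := h2.exists_card_eq
      rw [hZc] at hk
      rcases Nat.eq_zero_or_pos k with hk0 | hk0
      · rw [hk0, pow_zero] at hk; exact hr.one_lt.ne' hk
      · have : p ∣ r := by rw [hk]; exact dvd_pow_self p hk0.ne'
        exact hrp ((Nat.prime_dvd_prime_iff_eq hp hr).1 this).symm
    apply hcon
    rw [hX, hGp, inf_top_eq, inf_top_eq, htop]

/-- Let G be a finite group, p a prime, S a Sylow p-subgroup of G and A₁, A₂ subnormal subgroups of G. Then the join of S ∩ A₁ and S ∩ A₂ is a Sylow p-subgroup of the join of A₁ and A₂; equivalently ⟨A₁, A₂⟩ ∩ S = ⟨A₁ ∩ S, A₂ ∩ S⟩. -/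
theorem result {G : Type*} [Group G] [Finite G] {p : ℕ} [Fact p.Prime] (S : Sylow p G) (A₁ A₂ : Subgroup G)
    (h₁ : A₁.IsSubnormal) (h₂ : A₂.IsSubnormal) :
    (A₁ ⊔ A₂) ⊓ (S : Subgroup G) = (A₁ ⊓ (S : Subgroup G)) ⊔ (A₂ ⊓ (S : Subgroup G)) := by
  apply le_antisymm
  · set J := A₁ ⊔ A₂ with hJ
    have hJs : J.IsSubnormal := H62.isSubnormal_sup h₁ h₂
    have h3 : (A₁.subgroupOf J) ⊔ (A₂.subgroupOf J) = ⊤ := by
      apply map_injective J.subtype_injective
      rw [Subgroup.map_sup, subgroupOf_map_subtype, subgroupOf_map_subtype,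
        inf_eq_left.2 (le_sup_left : A₁ ≤ J), inf_eq_left.2 (le_sup_right : A₂ ≤ J),
        ← MonoidHom.range_eq_map, range_subtype]
    have h4 := main_aux (p := p) _ J le_rfl (A₁.subgroupOf J) (A₂.subgroupOf J) h₁.subgroupOf h₂.subgroupOf
      h3 ((S : Subgroup G).subgroupOf J) (S.isPGroup'.comap_of_injective J.subtype J.subtype_injective)
      (not_dvd_relIndex_subnormal S.not_dvd_index hJs)
    rintro x ⟨hx1, hx2⟩
    have h5 := h4 (show (⟨x, hx1⟩ : J) ∈ (S : Subgroup G).subgroupOf J from mem_subgroupOf.2 hx2)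
    have h6 : (A₁.subgroupOf J ⊓ (S : Subgroup G).subgroupOf J) ⊔ (A₂.subgroupOf J ⊓ (S : Subgroup G).subgroupOf J) ≤
        ((A₁ ⊓ (S : Subgroup G)) ⊔ (A₂ ⊓ (S : Subgroup G))).subgroupOf J := by
      apply sup_le
      · rintro y ⟨hy1, hy2⟩
        exact (le_sup_left : A₁ ⊓ (S : Subgroup G) ≤ _) ⟨hy1, hy2⟩
      · rintro y ⟨hy1, hy2⟩
        exact (le_sup_right : A₂ ⊓ (S : Subgroup G) ≤ _) ⟨hy1, hy2⟩
    exact mem_subgroupOf.1 (h6 h5)
  · exact sup_le (inf_le_inf_right _ le_sup_left) (inf_le_inf_right _ le_sup_right)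

end Cfsg.Agent.S3028
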