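import Cfsg.Statements.S3043
import Cfsg.Agent.BTI.CaseB1
import Cfsg.Agent.BTI.CaseB2

set_option autoImplicit false
open Cfsg

namespace Cfsg.Agent.S3043

/-- Let M be a nontrivial subgroup of a finite group G meeting each of its other conjugates trivially, with N_G(M) = M · C_{N_G(M)}(z) for some involution z ∈ N_G(M), and with C_G(x) of odd order for every nontrivial x ∈ M. Then one of the following holds: M is normal in G; the number of involutions of G is at most |G : M|; G is isomorphic to PGL₂(F) or to PSL₂(F) for a finite field F with |F| = |M|, M is an elementary abelian p-group for the characteristic p of F, and |F| ≡ 1 (mod 4) in the PSL₂ case; G is isomorphic to PSL₂(F) with |F| = 2^e, e > 1, and M is cyclic of order 2^e + 1; or for some d ≥ 1, G has an elementary abelian normal subgroup of order 2^{2d} complemented by N_G(M), and N_G(M) is dihedral of order 2(2^d + 1). -/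
theorem result {G : Type*} [Group G] [Finite G] (M : Subgroup G) (hM1 : M ≠ ⊥)
    (hTI : ∀ g : G, M ⊓ M.map (MulAut.conj g).toMonoidHom ≠ ⊥ → M.map (MulAut.conj g).toMonoidHom = M)
    (z : G) (hz : orderOf z = 2) (hzN : z ∈ Subgroup.normalizer (M : Set G))
    (hfac : M ⊔ (Subgroup.normalizer (M : Set G) ⊓ Subgroup.centralizer ({z} : Set G)) = Subgroup.normalizer (M : Set G))
    (hodd : ∀ x ∈ M, x ≠ 1 → Odd (Nat.card ↥(Subgroup.centralizer ({x} : Set G)))) :
    M.Normal ∨
    Nat.card {g : G // orderOf g = 2} ≤ M.index ∨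
    (∃ (F : Type) (_ : Field F) (_ : Fintype F) (p : ℕ) (_ : Fact p.Prime) (_ : CharP F p), Fintype.card F = Nat.card M ∧ Cfsg.IsElementaryAbelian p M ∧
        (Nonempty (G ≃* (GL (Fin 2) F ⧸ Subgroup.center (GL (Fin 2) F))) ∨
         (Fintype.card F % 4 = 1 ∧ Nonempty (G ≃* Matrix.ProjectiveSpecialLinearGroup (Fin 2) F)))) ∨
    (∃ (F : Type) (_ : Field F) (_ : Fintype F) (e : ℕ), 1 < e ∧ Fintype.card F = 2 ^ e ∧ IsCyclic ↥M ∧ Nat.card M = 2 ^ e + 1 ∧
        Nonempty (G ≃* Matrix.ProjectiveSpecialLinearGroup (Fin 2) F)) ∨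
    (∃ (d : ℕ) (E : Subgroup G), 1 ≤ d ∧ E.Normal ∧ Cfsg.IsElementaryAbelian 2 E ∧ Nat.card E = 2 ^ (2 * d) ∧
        E ⊓ Subgroup.normalizer (M : Set G) = ⊥ ∧ E ⊔ Subgroup.normalizer (M : Set G) = ⊤ ∧
        Nonempty (↥(Subgroup.normalizer (M : Set G)) ≃* DihedralGroup (2 ^ d + 1))) := by
  classical
  by_cases hbig : Nat.card {g : G // orderOf g = 2} ≤ M.index
  · exact Or.inr (Or.inl hbig)
  by_cases hN : Subgroup.normalizer (M : Set G) = ⊤
  · exact Or.inl (Subgroup.normalizer_eq_top_iff.1 hN)
  push Not at hbig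
  have hzz : z * z = 1 := by
    have h := pow_orderOf_eq_one z
    rw [hz, sq] at h
    exact h
  have hz1 : z ≠ 1 := by
    rintro rfl
    rw [orderOf_one] at hz; omega
  have H0 : BTI.Hyp M z :=
    { ne := by
        by_contra hcon
        push Not at hcon
        exact hM1 ((Subgroup.eq_bot_iff_forall M).2 hcon)
      ti := by
        intro g a ha ha1 hga
        have h1 : M ⊓ M.map (MulAut.conj g).toMonoidHom ≠ ⊥ := by
          intro h
          have h2 : g * a * g⁻¹ ∈ M ⊓ M.map (MulAut.conj g).toMonoidHom := ⟨hga, ⟨a, ha, rfl⟩⟩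
          rw [h, Subgroup.mem_bot] at h2
          exact ha1 (conj_eq_one_iff.1 h2)
        have h2 := hTI g h1
        rw [Subgroup.mem_normalizer_iff]
        intro x
        constructor
        · intro hx
          rw [← h2]
          exact ⟨x, hx, rfl⟩
        · intro hx
          rw [← h2] at hx
          obtain ⟨y, hy, hyx⟩ := hx
          have h3 : g * y * g⁻¹ = g * x * g⁻¹ := hyx
          rw [← mul_left_cancel (mul_right_cancel h3)]
          exact hy
      z1 := hz1
      zz := hzz
      zN := hzN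
      fac := by
        intro n hn
        rw [← hfac] at hn
        have hnorm : (Subgroup.normalizer (M : Set G) ⊓ Subgroup.centralizer ({z} : Set G)) ≤ Subgroup.normalizer (M : Set G) := inf_le_left
        rw [← SetLike.mem_coe, Subgroup.coe_mul_of_right_le_normalizer_left _ _ hnorm] at hn
        obtain ⟨a, ha, c, hc, h⟩ := hn
        exact ⟨a, ha, c, hc.1, Subgroup.mem_centralizer_singleton_iff.1 hc.2, h.symm⟩
      cent := by
        intro x hx hx1 w hww hwx
        by_contra hw1
        have h1 := hodd x hx hx1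
        have h2 : orderOf w ∣ Nat.card (Subgroup.centralizer ({x} : Set G)) := by
          have := orderOf_dvd_natCard (⟨w, Subgroup.mem_centralizer_singleton_iff.2 hwx⟩ : Subgroup.centralizer ({x} : Set G))
          rwa [Subgroup.orderOf_mk] at this
        have h3 : orderOf w = 2 := orderOf_eq_prime (by rw [sq]; exact hww) hw1
        rw [h3] at h2
        exact (Nat.not_even_iff_odd.2 h1) (even_iff_two_dvd.2 h2) }
  have H : BTI.Hyp2 M z := ⟨H0, H0.all hbig⟩
  by_cases hA : ∀ v w : G, v ∉ Subgroup.normalizer (M : Set G) → v * z = z * v → w ∉ Subgroup.normalizer (M : Set G) →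
      w * z = z * w → v * w ∈ Subgroup.normalizer (M : Set G)
  · right; right; left
    obtain ⟨K, i1, i2, hK, h⟩ := H.caseA hN hA
    obtain ⟨p, hp⟩ := CharP.exists K
    haveI := hp
    obtain ⟨n, hpp, hn⟩ := FiniteField.card K p
    haveI : Fact p.Prime := ⟨hpp⟩
    have hpM : p ∣ Nat.card M := by
      rw [← hK, hn]
      exact dvd_pow_self p (PNat.ne_zero n)
    have hCN : Nat.card M ≤ 2 * Nat.card (BTI.CN M z) + 1 := by
      have : 0 < Nat.card (BTI.CN M z) := Nat.card_pos
      rcases h with ⟨h, -⟩ | ⟨h, -⟩ <;> omega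
    refine ⟨K, i1, i2, p, ⟨hpp⟩, hp, hK, ⟨⟨⟨fun a b => Subtype.ext (H.comm a a.2 b b.2)⟩⟩, H.exp_prime hN hCN hpM⟩, ?_⟩
    rcases h with ⟨-, h⟩ | ⟨h1, h⟩
    · exact Or.inl h
    · refine Or.inr ⟨?_, h⟩
      have h2 : 2 ∣ Nat.card (BTI.CN M z) := by
        have h3 : orderOf z ∣ Nat.card (BTI.CN M z) := by
          have := orderOf_dvd_natCard (⟨z, H.z_mem_CN⟩ : BTI.CN M z)
          rwa [Subgroup.orderOf_mk] at this
        rwa [hz] at h3
      have h3 : 0 < Nat.card M := Nat.card_pos
      rw [hK]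
      omega
  · push Not at hA
    obtain ⟨v, w, hv, hvz, hw, hwz, hvw⟩ := hA
    have HB := H.caseB hv hvz hw hwz hvw
    obtain ⟨k, hk2, hk⟩ := HB.exists_card
    rcases HB.dichotomy hk with hm | hm
    · right; right; right; left
      exact HB.caseB1 hk2 hk hm
    · right; right; right; right
      exact HB.caseB2 hk2 hk hm

end Cfsg.Agent.S3043
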