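import Cfsg.Statements.S3045
import Cfsg.Agent.H55.Iso5

set_option autoImplicit false
open Cfsg Cfsg.Agent

namespace Cfsg.Agent.S3045

/-- Let G be a finite group, p a prime, S a Sylow p-subgroup of G and P a p-minimal subgroup of G containing S. Let L be the subgroup generated by N_G(S) and all p-minimal subgroups of G containing S other than P, and suppose O_p(L) is not contained in O_p(P). Put Y for the normal closure of O^p(P) in G. Then O^p(P) is contained in the preimage in G of F*(G/O_p(G)); and if Y is solvable, then Y = O^p(P) and Y/O_p(Y) is a t-group of nilpotency class at most 2 for some prime t ≠ p. -/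
theorem result {G : Type*} [Group G] [Finite G] {p : ℕ} [Fact p.Prime] (S : Sylow p G) (P : Subgroup G) (hSP : (S : Subgroup G) ≤ P) (hPmin : Cfsg.IsPMinimal p ↥P)
    (L Y : Subgroup G)
    (hL : L = Subgroup.normalizer ((S : Subgroup G) : Set G) ⊔ ⨆ P' : {P' : Subgroup G // (S : Subgroup G) ≤ P' ∧ Cfsg.IsPMinimal p ↥P' ∧ P' ≠ P}, (P' : Subgroup G))
    (hiso : ¬ (Cfsg.pCore p ↥L).map L.subtype ≤ (Cfsg.pCore p ↥P).map P.subtype)
    (hY : Y = Subgroup.normalClosure (((Cfsg.pResidual p ↥P).map P.subtype : Subgroup G) : Set G)) [hn : (Cfsg.pCore p G).Normal] :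
    (Cfsg.pResidual p ↥P).map P.subtype ≤ (Cfsg.generalizedFittingSubgroup (G ⧸ Cfsg.pCore p G)).comap (QuotientGroup.mk' (Cfsg.pCore p G)) ∧
    (Group.IsSolvable ↥Y → (Cfsg.pResidual p ↥P).map P.subtype = Y ∧
       ∃ _ : (Cfsg.pCore p ↥Y).Normal, ∃ t : ℕ, t.Prime ∧ t ≠ p ∧ IsPGroup t (↥Y ⧸ Cfsg.pCore p ↥Y) ∧
         ∃ _ : Group.IsNilpotent (↥Y ⧸ Cfsg.pCore p ↥Y), Group.nilpotencyClass (↥Y ⧸ Cfsg.pCore p ↥Y) ≤ 2) := by
  have hR : (Cfsg.pCore p ↥L).map L.subtype = pCoreOf p L := rfl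
  have hI := H55.iso_of S P L Y hSP hPmin hL hiso hY
  have hSL : (S : Subgroup G) ≤ L := by
    rw [hL]
    exact Subgroup.le_normalizer.trans le_sup_left
  have hYn := hI.normal_Y
  refine ⟨?_, ?_⟩
  · refine hI.pRes_le_gen (Q := pCore p G) rfl ?_
    have h1 : pCore p G ≤ (S : Subgroup G) := by
      rw [← H47.pCoreOf_top]
      exact H47.pCoreOf_le_sylIn (H47.sylIn_top S)
    exact H47.le_pCoreOf (h1.trans hSL) (Subgroup.le_normalizer_of_normal) (H47.pCore_isPGroup p G)
  · intro hs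
    have hQn : (pCoreOf p Y).Normal := hI.normal_pCoreOf p
    have hcn : (Cfsg.pCore p ↥Y).Normal := H47.pCore_normal p Y
    have hQR : pCoreOf p Y ≤ pCoreOf p L := by
      have h1 : pCoreOf p Y ≤ (S : Subgroup G) :=
        (H47.sylIn_top S).le_of_normal le_top Subgroup.le_normalizer_of_normal (H47.pCoreOf_isPGroup p Y)
      exact H47.le_pCoreOf (h1.trans hSL) (Subgroup.le_normalizer_of_normal) (H47.pCoreOf_isPGroup p Y)
    have hker : (QuotientGroup.mk' (pCoreOf p Y)).ker = pCoreOf p Y := QuotientGroup.ker_mk' _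
    have hI' := hI.map (QuotientGroup.mk' (pCoreOf p Y)) (QuotientGroup.mk'_surjective _)
      (by rw [hker]; exact hQR)
    have hO : pCoreOf p (Y.map (QuotientGroup.mk' (pCoreOf p Y))) = ⊥ := H55.pCoreOf_map_eq_bot rfl
    have hs' : Group.IsSolvable ↥(Y.map (QuotientGroup.mk' (pCoreOf p Y))) :=
      Group.isSolvable_of_surjective ((QuotientGroup.mk' (pCoreOf p Y)).subgroupMap_surjective Y)
    have hq := hI'.eq_pRes hO hs'
    refine ⟨hI.eq_of_quot rfl hQR hq, hcn, ?_⟩
    obtain ⟨t, ht, htp, hYt⟩ := hI'.exists_isPGroup hO hs'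
    obtain ⟨e, -⟩ := H55.exists_quotEquiv (Y := Y) (Q := pCoreOf p Y) (p := p) rfl
    haveI : Fact t.Prime := ⟨ht⟩
    have hnil : Group.IsNilpotent ↥(Y.map (QuotientGroup.mk' (pCoreOf p Y))) := hYt.isNilpotent
    have hnil' : Group.IsNilpotent (↥Y ⧸ Cfsg.pCore p ↥Y) := Group.nilpotent_of_mulEquiv e.symm
    refine ⟨t, ht, htp, hYt.of_equiv e.symm, hnil', ?_⟩
    refine le_trans (Group.nilpotencyClass_le_of_surjective e.symm.toMonoidHom e.symm.surjective) ?_
    rw [← Subgroup.lowerCentralSeries_eq_bot_iff_nilpotencyClass_le]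
    have hcl := hI'.class_le hO hs'
    apply Subgroup.map_injective (Y.map (QuotientGroup.mk' (pCoreOf p Y))).subtype_injective
    rw [Subgroup.lowerCentralSeries_succ, Subgroup.lowerCentralSeries_one]
    rw [Subgroup.map_commutator, commutator_def, Subgroup.map_commutator, ← MonoidHom.range_eq_map, Subgroup.range_subtype,
      Subgroup.map_bot]
    exact hcl

end Cfsg.Agent.S3045
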