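import Cfsg.Statements.S3047
import Cfsg.Agent.R1T.Main
import Cfsg.Agent.R1T.SU3
import Cfsg.Agent.R1T.SL2
import Cfsg.Agent.Solv.Core

set_option autoImplicit false
open Cfsg

namespace Cfsg.Agent.S3047


open Subgroup Cfsg.Agent.R1T

/-- the quotient by `O^p` is a `p`-group -/
theorem isPGroup_quot {X : Type*} [Group X] [Finite X] {p : ℕ} [hp : Fact p.Prime] [hn : (pResidual p X).Normal] :
    IsPGroup p (X ⧸ pResidual p X) := by
  intro x
  obtain ⟨g, rfl⟩ := QuotientGroup.mk_surjective x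
  obtain ⟨k, m, hm, hkm⟩ := Nat.exists_eq_pow_mul_and_not_dvd (orderOf_pos g).ne' p hp.out.ne_one
  refine ⟨k, ?_⟩
  rw [← QuotientGroup.mk_pow, QuotientGroup.eq_one_iff]
  apply Subgroup.subset_closure
  show Nat.Coprime (orderOf (g ^ p ^ k)) p
  have h1 : orderOf (g ^ p ^ k) = m := by
    rw [orderOf_pow, hkm, Nat.gcd_eq_right (Dvd.intro _ rfl), Nat.mul_div_cancel_left _ (pow_pos hp.out.pos k)]
  rw [h1]
  exact ((hp.out.coprime_iff_not_dvd).2 hm).symm

theorem residual_normal {X : Type*} [Group X] {p : ℕ} : (pResidual p X).Normal := by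
  constructor
  intro n hn g
  unfold pResidual at hn ⊢
  induction hn using Subgroup.closure_induction with
  | mem x hx =>
    apply Subgroup.subset_closure
    show Nat.Coprime (orderOf (g * x * g⁻¹)) p
    have : orderOf (g * x * g⁻¹) = orderOf x := by
      have := MulEquiv.orderOf_eq (MulAut.conj g) x
      exact this
    rw [this]; exact hx
  | one => simp
  | mul x y _ _ hx hy =>
    have e : g * (x * y) * g⁻¹ = (g * x * g⁻¹) * (g * y * g⁻¹) := by group
    rw [e]; exact mul_mem hx hy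
  | inv x _ hx =>
    have e : g * x⁻¹ * g⁻¹ = (g * x * g⁻¹)⁻¹ := by group
    rw [e]; exact inv_mem hx


/-- Let p ≥ 5 be a prime, G a finite group all of whose composition factors are known simple groups, S a Sylow p-subgroup and P a p-minimal subgroup of G containing S such that O^p(P/O_p(P)) is isomorphic to SL₂(pᵃ), PSL₂(pᵃ), SU₃(pᵃ) or PSU₃(pᵃ) for some a ≥ 1. Let L be the subgroup generated by N_G(S) and the p-minimal subgroups of G containing S other than P. Then either O^p(P) is normal in G, or every p-element of the centre of L lies in O_p(P). -/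
theorem result {G : Type*} [Group G] [Finite G] {p : ℕ} [Fact p.Prime] (hp : 5 ≤ p) (hK : Cfsg.IsCompositionKGroup G)
    (S : Sylow p G) (P : Subgroup G) (hSP : (S : Subgroup G) ≤ P) (hPmin : Cfsg.IsPMinimal p ↥P) [hn : (Cfsg.pCore p ↥P).Normal]
    (hrk1 : ∃ (F : Type) (_ : Field F) (_ : Fintype F) (a : ℕ), 1 ≤ a ∧
      ((Fintype.card F = p ^ a ∧ (Nonempty (↥(Cfsg.pResidual p (↥P ⧸ Cfsg.pCore p ↥P)) ≃* Matrix.SpecialLinearGroup (Fin 2) F) ∨
                                  Nonempty (↥(Cfsg.pResidual p (↥P ⧸ Cfsg.pCore p ↥P)) ≃* Matrix.ProjectiveSpecialLinearGroup (Fin 2) F))) ∨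
       (Fintype.card F = p ^ (2 * a) ∧ (Nonempty (↥(Cfsg.pResidual p (↥P ⧸ Cfsg.pCore p ↥P)) ≃* ↥(Cfsg.SU 3 F (p ^ a))) ∨
                                        Nonempty (↥(Cfsg.pResidual p (↥P ⧸ Cfsg.pCore p ↥P)) ≃* Cfsg.PSU 3 F (p ^ a))))))
    (L : Subgroup G)
    (hL : L = Subgroup.normalizer ((S : Subgroup G) : Set G) ⊔ ⨆ P' : {P' : Subgroup G // (S : Subgroup G) ≤ P' ∧ Cfsg.IsPMinimal p ↥P' ∧ P' ≠ P}, (P' : Subgroup G)) :
    ((Cfsg.pResidual p ↥P).map P.subtype).Normal ∨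
    ∀ z ∈ L ⊓ Subgroup.centralizer (L : Set G), (∃ k : ℕ, orderOf z = p ^ k) → z ∈ (Cfsg.pCore p ↥P).map P.subtype := by
  right
  have hpp : p.Prime := Fact.out
  -- the rank one data
  haveI hEn : (Cfsg.pResidual p (↥P ⧸ Cfsg.pCore p ↥P)).Normal := residual_normal
  haveI hfinE : Finite ↥(Cfsg.pResidual p (↥P ⧸ Cfsg.pCore p ↥P)) := inferInstance
  have hR : R1 p ↥(Cfsg.pResidual p (↥P ⧸ Cfsg.pCore p ↥P)) := by
    obtain ⟨F, hF1, hF2, a, ha, h⟩ := hrk1
    have hchar : CharP F p := by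
      have h1 : ∃ n : ℕ, 1 ≤ n ∧ Fintype.card F = p ^ n := by
        rcases h with ⟨h, -⟩ | ⟨h, -⟩
        · exact ⟨a, ha, h⟩
        · exact ⟨2 * a, by omega, h⟩
      obtain ⟨n, hn, h1⟩ := h1
      obtain ⟨r, hr⟩ := CharP.exists F
      haveI := hr
      have h2 : (Fintype.card F : F) = 0 := FiniteField.cast_card_eq_zero F
      rw [h1, Nat.cast_pow] at h2
      have h3 : ((p : ℕ) : F) = 0 := (pow_eq_zero_iff (by omega)).1 h2
      have h4 := (CharP.cast_eq_zero_iff F r p).1 h3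
      have h5 : r = p := (hpp.eq_one_or_self_of_dvd r h4).resolve_left (CharP.char_ne_one F r)
      rwa [h5] at hr
    obtain ⟨h2p, h2, h3⟩ := two_pow_char (F := F) (p := p) hp
    rcases h with ⟨hc, h⟩ | ⟨hc, h⟩
    · have hsl : R1 p (Matrix.SpecialLinearGroup (Fin 2) F) := r1_sl2 h2p h2 h3
      rcases h with ⟨⟨e⟩⟩ | ⟨⟨e⟩⟩
      · exact hsl.of_surj e.symm.toMonoidHom e.symm.surjective (fun x hx => by
          have : x = 1 := (MulEquiv.map_eq_one_iff e.symm).1 hx
          rw [this]; intro y; rw [one_mul, mul_one])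
      · refine hsl.of_surj (e.symm.toMonoidHom.comp (QuotientGroup.mk' (Subgroup.center (Matrix.SpecialLinearGroup (Fin 2) F))))
          (e.symm.surjective.comp (QuotientGroup.mk'_surjective _)) (fun x hx => ?_)
        have h4 : QuotientGroup.mk' (Subgroup.center (Matrix.SpecialLinearGroup (Fin 2) F)) x = 1 :=
          (MulEquiv.map_eq_one_iff e.symm).1 hx
        have h5 : x ∈ Subgroup.center (Matrix.SpecialLinearGroup (Fin 2) F) := (QuotientGroup.eq_one_iff x).1 h4
        intro y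
        exact ((Subgroup.mem_center_iff.1 h5) y).symm
    · have hsu : R1 p ↥(Cfsg.SU 3 F (p ^ a)) := r1_su3 (by rw [hc, mul_comm, pow_mul]) hp
      rcases h with ⟨⟨e⟩⟩ | ⟨⟨e⟩⟩
      · exact hsu.of_surj e.symm.toMonoidHom e.symm.surjective (fun x hx => by
          have : x = 1 := (MulEquiv.map_eq_one_iff e.symm).1 hx
          rw [this]; intro y; rw [one_mul, mul_one])
      · refine hsu.of_surj (e.symm.toMonoidHom.comp (QuotientGroup.mk' (Subgroup.center ↥(Cfsg.SU 3 F (p ^ a)))))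
          (e.symm.surjective.comp (QuotientGroup.mk'_surjective _)) (fun x hx => ?_)
        have h4 : QuotientGroup.mk' (Subgroup.center ↥(Cfsg.SU 3 F (p ^ a))) x = 1 :=
          (MulEquiv.map_eq_one_iff e.symm).1 hx
        have h5 : x ∈ Subgroup.center ↥(Cfsg.SU 3 F (p ^ a)) := (QuotientGroup.eq_one_iff x).1 h4
        intro y
        exact ((Subgroup.mem_center_iff.1 h5) y).symm
  rintro z ⟨hzL, hzC⟩ ⟨k, hk⟩
  have hNL : Subgroup.normalizer ((S : Subgroup G) : Set G) ≤ L := by rw [hL]; exact le_sup_left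
  have hcomm : ∀ g ∈ Subgroup.normalizer ((S : Subgroup G) : Set G), g * z = z * g := fun g hg =>
    (Subgroup.mem_centralizer_iff.1 hzC) g (hNL hg)
  have hzpow : z ^ p ^ k = 1 := by rw [← hk, pow_orderOf_eq_one]
  have hzS : z ∈ (S : Subgroup G) := by
    apply mem_of_normalizes S hzpow
    apply mem_norm
    intro y hy
    rw [← hcomm y (Subgroup.le_normalizer hy), mul_inv_cancel_right]
    exact hy
  have hzP : z ∈ P := hSP hzS
  -- the Sylow subgroup of the quotient
  obtain ⟨SP, hSPe⟩ : ∃ SP : Sylow p P, (SP : Subgroup P) = (S : Subgroup G).subgroupOf P :=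
    ⟨S.subtype hSP, rfl⟩
  have hker : ∀ x : P, x ∈ Cfsg.pCore p ↥P → x ∈ (SP : Subgroup P) := by
    intro x hx
    have h1 : IsPGroup p (Cfsg.pCore p ↥P ⊔ (SP : Subgroup P) : Subgroup P) :=
      IsPGroup.to_sup_of_normal_left (Cfsg.Agent.Solv.pCore_isPGroup p) SP.2
    have h2 := SP.3 h1 le_sup_right
    rw [← h2]
    exact Subgroup.mem_sup_left hx
  have hmain := Cfsg.Agent.R1T.main (p := p) (Cfsg.pResidual p (↥P ⧸ Cfsg.pCore p ↥P)) isPGroup_quot
    (Cfsg.Agent.Solv.pCore_quotient_pCore p) hR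
    (SP.mapSurjective (QuotientGroup.mk'_surjective (Cfsg.pCore p ↥P))) (QuotientGroup.mk' (Cfsg.pCore p ↥P) ⟨z, hzP⟩)
    (by
      rw [Sylow.coe_mapSurjective]
      exact ⟨⟨z, hzP⟩, by rw [hSPe]; exact hzS, rfl⟩)
    (by
      intro g hg
      obtain ⟨x, rfl⟩ := QuotientGroup.mk'_surjective (Cfsg.pCore p ↥P) g
      rw [Sylow.coe_mapSurjective] at hg
      have hx : (x : G) ∈ Subgroup.normalizer ((S : Subgroup G) : Set G) := by
        apply mem_norm
        intro y hy
        have h1 : QuotientGroup.mk' (Cfsg.pCore p ↥P) (x * ⟨y, hSP hy⟩ * x⁻¹) ∈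
            (SP : Subgroup P).map (QuotientGroup.mk' (Cfsg.pCore p ↥P)) := by
          rw [map_mul, map_mul, map_inv]
          exact (Subgroup.mem_normalizer_iff.1 hg _).1 ⟨⟨y, hSP hy⟩, by rw [hSPe]; exact hy, rfl⟩
        obtain ⟨w, hw, hw'⟩ := h1
        have h2 : w⁻¹ * (x * ⟨y, hSP hy⟩ * x⁻¹) ∈ Cfsg.pCore p ↥P := QuotientGroup.eq.1 hw'
        have h3 : x * ⟨y, hSP hy⟩ * x⁻¹ ∈ (SP : Subgroup P) := by
          have := mul_mem hw (hker _ h2)
          rwa [mul_inv_cancel_left] at this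
        rw [hSPe] at h3
        exact h3
      rw [← map_mul, ← map_mul]
      congr 1
      exact Subtype.ext (hcomm _ hx))
  have h1 : (⟨z, hzP⟩ : P) ∈ Cfsg.pCore p ↥P := (QuotientGroup.eq_one_iff _).1 hmain
  exact ⟨_, h1, rfl⟩

end Cfsg.Agent.S3047
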