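import Cfsg.Statements.S3048
import Cfsg.Agent.Sid22.Core

set_option autoImplicit false
universe u
open Cfsg

namespace Cfsg.Agent.S3048

open Cfsg.Agent.Sid22

/-- The Sidki condition passes to quotients by normal subgroups meeting `V` trivially. -/
theorem quot_sidki {G : Type u} [Group G] [Finite G] {V N : Subgroup G} [hN : N.Normal]
    (hS : Cfsg.IsSidkiPair V) (hinv : ∀ v ∈ V, v * v = 1) (hVN : ∀ v ∈ V, v ∈ N → v = 1) :
    Cfsg.IsSidkiPair (V.map (QuotientGroup.mk' N)) := by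
  rintro hbar vbar ⟨v, hv, rfl⟩ ho hvh
  obtain ⟨h, rfl⟩ := QuotientGroup.mk'_surjective N hbar
  set f := QuotientGroup.mk' N with hf
  set y := h * (v * h⁻¹ * v⁻¹) with hy
  have hvv := hinv v hv
  have hyv : v * y * v⁻¹ = y⁻¹ := by
    calc v * y * v⁻¹ = (v * h * v⁻¹) * (v * v) * h⁻¹ * (v * v)⁻¹ := by rw [hy]; group
      _ = (v * h * v⁻¹) * h⁻¹ := by rw [hvv]; group
      _ = y⁻¹ := by rw [hy]; group
  have hfy : f y = f h ^ 2 := by
    have h1 : f (v * h⁻¹ * v⁻¹) = f h := by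
      have h2 : v * h⁻¹ * v⁻¹ = (v * h * v⁻¹)⁻¹ := by group
      rw [h2, map_inv, map_mul, map_mul, map_inv, hvh, inv_inv]
    rw [hy, map_mul, h1, pow_two]
  -- the odd part of `y`
  obtain ⟨a, m, hm, ham⟩ := Nat.exists_eq_two_pow_mul_odd (orderOf_pos y).ne'
  have hcop : Nat.Coprime (2 ^ (a + 1)) (orderOf (f h)) :=
    Nat.Coprime.pow_left _ (Nat.coprime_two_left.2 ho)
  obtain ⟨k, hk⟩ : ∃ k : ℕ, (f h ^ (2 ^ (a + 1))) ^ k = f h := by
    obtain ⟨k, hk⟩ := exists_pow_eq_self_of_coprime hcop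
    exact ⟨k, hk⟩
  set z := y ^ (2 ^ a * k) with hz
  have hfz : f z = f h := by
    rw [hz, map_pow, hfy, ← pow_mul, ← mul_assoc, mul_comm 2 (2 ^ a), ← pow_succ, pow_mul, hk]
  have hzo : Odd (orderOf z) := by
    apply Odd.of_dvd_nat hm
    apply orderOf_dvd_of_pow_eq_one
    rw [hz, ← pow_mul, show 2 ^ a * k * m = orderOf y * k by rw [ham]; ring, pow_mul,
      pow_orderOf_eq_one, one_pow]
  have hvz : v * z * v⁻¹ = z⁻¹ := by
    rw [hz, ← conj_pow, hyv, inv_pow]
  obtain ⟨w, hw, hw1, hwz⟩ := hS z v hv hzo hvz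
  refine ⟨f w, ⟨w, hw, rfl⟩, ?_, ?_⟩
  · intro h1
    exact hw1 (hVN w hw ((QuotientGroup.eq_one_iff w).1 h1))
  · rw [← hfz, ← map_mul, hwz, map_mul]


/-- Minimal counterexample reduction for the Sidki pair problem. Let G be a finite group and V a nontrivial elementary abelian 2-subgroup satisfying the Sidki pair condition with V ∩ O₂(G) = 1. Suppose that for every finite group H of smaller order, every nontrivial elementary abelian 2-subgroup W of H satisfying the Sidki pair condition meets O₂(H) nontrivially, and that the same holds in G for every such subgroup W of order smaller than that of V. Then the generalized Fitting subgroup F*(G) is a non-abelian simple group and G = V F*(G). -/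
theorem result {G : Type u} [Group G] [Finite G] (V : Subgroup G) (hV : Cfsg.IsElementaryAbelian 2 V) (hV1 : V ≠ ⊥) (hS : Cfsg.IsSidkiPair V) (hVO : V ⊓ Cfsg.pCore 2 G = ⊥) (hminG : ∀ (H : Type u) [Group H] [Finite H] (W : Subgroup H), Nat.card H < Nat.card G → Cfsg.IsElementaryAbelian 2 W → W ≠ ⊥ → Cfsg.IsSidkiPair W → W ⊓ Cfsg.pCore 2 H ≠ ⊥) (hminV : ∀ W : Subgroup G, Nat.card W < Nat.card V → Cfsg.IsElementaryAbelian 2 W → W ≠ ⊥ → Cfsg.IsSidkiPair W → W ⊓ Cfsg.pCore 2 G ≠ ⊥) : IsSimpleGroup ↥(Cfsg.generalizedFittingSubgroup G) ∧ ¬ IsMulCommutative ↥(Cfsg.generalizedFittingSubgroup G) ∧ V ⊔ Cfsg.generalizedFittingSubgroup G = ⊤ := by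
  have hinv : ∀ v ∈ V, v * v = 1 := fun v hv => by rw [← pow_two]; exact hV.2 v hv
  have hcomm : ∀ v ∈ V, ∀ w ∈ V, v * w = w * v := fun v hv w hw =>
    congrArg Subtype.val (hV.1.is_comm.comm (⟨v, hv⟩ : V) ⟨w, hw⟩)
  have hquot : ∀ N : Subgroup G, ∀ _ : N.Normal, N ≠ ⊥ → (∀ v ∈ V, v ∈ N → v = 1) →
      V.map (QuotientGroup.mk' N) ⊓ pCore 2 (G ⧸ N) ≠ ⊥ := by
    intro N hN hN1 hVN
    apply hminG (G ⧸ N) (V.map (QuotientGroup.mk' N))
    · have h1 := Subgroup.card_eq_card_quotient_mul_card_subgroup N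
      have h2 : 1 < Nat.card N := by
        rw [Subgroup.one_lt_card_iff_ne_bot]
        exact hN1
      have h3 : 0 < Nat.card (G ⧸ N) := Nat.card_pos
      rw [h1]
      nlinarith
    · refine ⟨⟨⟨?_⟩⟩, ?_⟩
      · rintro ⟨_, x, hx, rfl⟩ ⟨_, y, hy, rfl⟩
        apply Subtype.ext
        show QuotientGroup.mk' N x * QuotientGroup.mk' N y = QuotientGroup.mk' N y * QuotientGroup.mk' N x
        rw [← map_mul, hcomm x hx y hy, map_mul]
      · rintro _ ⟨x, hx, rfl⟩
        rw [← map_pow, hV.2 x hx, map_one]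
    · intro h
      apply hV1
      rw [eq_bot_iff]
      intro v hv
      have h1 : QuotientGroup.mk' N v ∈ V.map (QuotientGroup.mk' N) := ⟨v, hv, rfl⟩
      rw [h, Subgroup.mem_bot] at h1
      exact Subgroup.mem_bot.2 (hVN v hv ((QuotientGroup.eq_one_iff v).1 h1))
    · exact quot_sidki hS hinv hVN
  apply Min.final (V := V)
  refine
    { inv := hinv
      comm := hcomm
      ne := hV1
      sid := fun h v hv ho hvh => hS h v hv ho hvh
      core := ?_
      sub := ?_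
      lt := ?_
      quo := ?_ }
  · by_contra hne
    apply hquot (pCore 2 G) inferInstance hne
    · intro v hv hvc
      have : v ∈ V ⊓ pCore 2 G := ⟨hv, hvc⟩
      rwa [hVO, Subgroup.mem_bot] at this
    · rw [Solv.pCore_quotient_pCore, inf_bot_eq]
  · intro H hH W hWV hWH hW1 hSI
    have h1 := hminG H (W.subgroupOf H) ?_ ?_ ?_ ?_
    · obtain ⟨⟨x, hx⟩, hx1⟩ := Subgroup.ne_bot_iff_exists_ne_one.1 h1
      refine ⟨x, Subgroup.mem_subgroupOf.1 hx.1, ?_, ⟨x, hx.2, rfl⟩⟩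
      intro h
      exact hx1 (Subtype.ext (Subtype.ext h))
    · have h2 : Nat.card H ≠ Nat.card G := fun h => hH (Subgroup.eq_top_of_card_eq H h)
      have h3 : Nat.card H ≤ Nat.card G := Subgroup.card_le_card_group H
      omega
    · refine ⟨⟨⟨?_⟩⟩, ?_⟩
      · rintro ⟨x, hx⟩ ⟨y, hy⟩
        apply Subtype.ext
        apply Subtype.ext
        exact hcomm x (hWV (Subgroup.mem_subgroupOf.1 hx)) y (hWV (Subgroup.mem_subgroupOf.1 hy))
      · intro x hx
        apply Subtype.ext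
        exact hV.2 x (hWV (Subgroup.mem_subgroupOf.1 hx))
    · intro h
      apply hW1
      rw [Subgroup.subgroupOf_eq_bot] at h
      have h2 := h.eq_bot
      rwa [inf_eq_left.2 hWH] at h2
    · intro h v hv ho hvh
      obtain ⟨w, hw, hw1, hwh⟩ := hSI h h.2 v (Subgroup.mem_subgroupOf.1 hv)
        (by rwa [Subgroup.orderOf_coe]) (congrArg Subtype.val hvh)
      exact ⟨⟨w, hWH hw⟩, Subgroup.mem_subgroupOf.2 hw, fun h1 => hw1 (congrArg Subtype.val h1),
        Subtype.ext hwh⟩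
  · intro W hWV hW1 hSI
    have h1 : Nat.card W < Nat.card V := by
      have h2 : Nat.card W ≤ Nat.card V := Subgroup.card_le_of_le hWV.le
      have h3 : Nat.card W ≠ Nat.card V := fun h => hWV.ne (Subgroup.eq_of_le_of_card_ge hWV.le h.ge)
      omega
    apply hminV W h1 ?_ hW1 (fun h v hv ho hvh => hSI h (Subgroup.mem_top h) v hv ho hvh)
    · rw [eq_bot_iff, ← hVO]
      exact inf_le_inf_right _ hWV.le
    · refine ⟨⟨⟨?_⟩⟩, fun a ha => hV.2 a (hWV.le ha)⟩
      rintro ⟨x, hx⟩ ⟨y, hy⟩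
      exact Subtype.ext (hcomm x (hWV.le hx) y (hWV.le hy))
  · intro N hN hN1 hVN
    have h1 := hquot N hN hN1 hVN
    obtain ⟨⟨x, hx⟩, hx1⟩ := Subgroup.ne_bot_iff_exists_ne_one.1 h1
    obtain ⟨v, hv, hvx⟩ := hx.1
    refine ⟨v, hv, ?_, (pCore 2 (G ⧸ N)).comap (QuotientGroup.mk' N), inferInstance, ?_, ?_, ?_⟩
    · rintro rfl
      apply hx1
      apply Subtype.ext
      show x = 1
      rw [← hvx, map_one]
    · intro n hn
      rw [Subgroup.mem_comap]
      have : QuotientGroup.mk' N n = 1 := (QuotientGroup.eq_one_iff n).2 hn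
      rw [this]
      exact Subgroup.one_mem _
    · rw [Subgroup.mem_comap, hvx]
      exact hx.2
    · intro y hy
      rw [Subgroup.mem_comap] at hy
      obtain ⟨n, hn⟩ := Solv.pCore_isPGroup (G := G ⧸ N) 2 ⟨_, hy⟩
      refine ⟨n, ?_⟩
      have h2 : (QuotientGroup.mk' N y) ^ (2 ^ n) = 1 := congrArg Subtype.val hn
      rw [← map_pow] at h2
      exact (QuotientGroup.eq_one_iff _).1 h2

end Cfsg.Agent.S3048
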