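import Cfsg.Statements.S3049
import Cfsg.Agent.FStar.PComp
import Cfsg.Agent.FStar.AxB
import Cfsg.Agent.Transfer.Frobenius
import Cfsg.Agent.BG.OmegaOdd
import Cfsg.Agent.S0542

set_option autoImplicit false
open Cfsg

namespace Cfsg.Agent.S3049

open Subgroup

theorem central_of_isolated {G : Type*} [Group G] [Finite G] {p : ℕ} [Fact p.Prime] {x : G}
    (hiso : Cfsg.IsIsolated x) (S : Sylow p G) (hxS : x ∈ (S : Subgroup G)) :
    ∀ s ∈ (S : Subgroup G), Commute x s := by
  by_contra hcon
  push Not at hcon
  obtain ⟨s, hs, hsx⟩ := hcon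
  set D : Subgroup G := centralizer ({x} : Set G) ⊓ (S : Subgroup G) with hD
  have hxD : x ∈ D := ⟨mem_centralizer_singleton_iff.2 rfl, hxS⟩
  have hlt : D < (S : Subgroup G) := by
    refine lt_of_le_of_ne inf_le_right ?_
    intro h
    have h1 : s ∈ D := by rw [h]; exact hs
    exact hsx (mem_centralizer_singleton_iff.1 h1.1).symm
  have h1 := Transfer.lt_normalizer_inf_of_isPGroup S.2 hlt
  apply h1.not_ge
  intro t ht
  refine mem_inf.2 ⟨mem_centralizer_singleton_iff.2 ?_, ht.2⟩
  have h2 : t * x * t⁻¹ ∈ D := (mem_normalizer_iff.1 ht.1 x).1 hxD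
  have h3 := hiso t (mem_centralizer_singleton_iff.1 h2.1).symm
  calc t * x = t * x * t⁻¹ * t := by group
    _ = x * t := by rw [h3]

theorem mem_closure_pair_of_commute {G : Type*} [Group G] {x c : G} (h : Commute x c) {y : G}
    (hy : y ∈ closure ({x, c} : Set G)) : ∃ i j : ℤ, y = x ^ i * c ^ j := by
  induction hy using closure_induction with
  | mem z hz =>
    rcases hz with rfl | hz
    · exact ⟨1, 0, by simp⟩
    · rw [Set.mem_singleton_iff] at hz
      subst hz
      exact ⟨0, 1, by simp⟩
  | one => exact ⟨0, 0, by simp⟩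
  | mul a b _ _ ha hb =>
    obtain ⟨i, j, rfl⟩ := ha
    obtain ⟨k, l, rfl⟩ := hb
    refine ⟨i + k, j + l, ?_⟩
    have := (h.zpow_zpow k j).eq
    calc x ^ i * c ^ j * (x ^ k * c ^ l) = x ^ i * (c ^ j * x ^ k) * c ^ l := by group
      _ = x ^ i * (x ^ k * c ^ j) * c ^ l := by rw [this]
      _ = _ := by rw [zpow_add, zpow_add]; group
  | inv a _ ha =>
    obtain ⟨i, j, rfl⟩ := ha
    refine ⟨-i, -j, ?_⟩
    have := (h.zpow_zpow (-i) (-j)).eq
    rw [mul_inv_rev, ← zpow_neg, ← zpow_neg, this]

theorem rank_mem {G : Type*} [Group G] [Finite G] {p : ℕ} [hp : Fact p.Prime]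
    (hrank : Cfsg.PRankLE p 2 G) {x c u : G} (hx : x ^ p = 1) (hc : orderOf c = p) (hu : u ^ p = 1)
    (hxc : Commute x c) (hxu : Commute x u) (hcu : Commute c u) (hne : x ∉ zpowers c) :
    ∃ i j : ℤ, u = x ^ i * c ^ j := by
  apply mem_closure_pair_of_commute hxc
  set A : Subgroup G := closure ({x, c, u} : Set G) with hA
  set B : Subgroup G := closure ({x, c} : Set G) with hB
  have hBA : B ≤ A := by
    apply Subgroup.closure_mono
    intro z hz
    rcases hz with rfl | hz
    · exact Or.inl rfl
    · exact Or.inr (Or.inl hz)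
  have hcomm : ∀ a ∈ A, ∀ b ∈ A, a * b = b * a := by
    have h1 : A ≤ centralizer (({x, c, u} : Set G)) := by
      rw [hA, closure_le]
      intro a ha
      rw [SetLike.mem_coe, mem_centralizer_iff]
      intro b hb
      simp only [Set.mem_insert_iff, Set.mem_singleton_iff] at ha hb
      rcases ha with rfl | rfl | rfl <;> rcases hb with rfl | rfl | rfl <;>
        first | rfl | exact hxc.eq | exact hxu.eq | exact hcu.eq | exact hxc.eq.symm | exact hxu.eq.symm | exact hcu.eq.symm
    intro a ha b hb
    have h2 : A ≤ centralizer ({a} : Set G) := by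
      rw [hA, closure_le]
      intro z hz
      rw [SetLike.mem_coe, mem_centralizer_singleton_iff]
      exact (mem_centralizer_iff.1 (h1 ha) z hz)
    exact (mem_centralizer_singleton_iff.1 (h2 hb)).symm
  have hexp : ∀ a ∈ A, a ^ p = 1 := by
    intro a ha
    rw [hA] at ha
    induction ha using closure_induction with
    | mem z hz =>
      simp only [Set.mem_insert_iff, Set.mem_singleton_iff] at hz
      rcases hz with rfl | rfl | rfl
      · exact hx
      · rw [← hc, pow_orderOf_eq_one]
      · exact hu
    | one => simp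
    | mul a b ha hb h1 h2 =>
      have : Commute a b := hcomm a ha b hb
      rw [this.mul_pow, h1, h2, one_mul]
    | inv a ha h1 => rw [inv_pow, h1, inv_one]
  have hAc : IsMulCommutative A := ⟨⟨fun a b => Subtype.ext (hcomm a a.2 b b.2)⟩⟩
  have h1 := hrank A hAc hexp
  have hBp : IsPGroup p B := by
    intro b
    refine ⟨1, ?_⟩
    rw [pow_one]
    exact Subtype.ext (hexp b (hBA b.2))
  obtain ⟨k, hk⟩ := IsPGroup.iff_card.1 hBp
  have hcB : zpowers c ≤ B := by
    rw [zpowers_le]; exact subset_closure (Or.inr rfl)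
  have hcc : Nat.card (zpowers c) = p := by rw [Nat.card_zpowers, hc]
  have hk2 : 2 ≤ k := by
    by_contra hlt
    have hk1 : k ≤ 1 := by omega
    have h2 : Nat.card B ≤ Nat.card (zpowers c) := by
      rw [hk, hcc]
      calc p ^ k ≤ p ^ 1 := Nat.pow_le_pow_right hp.out.pos hk1
        _ = p := pow_one p
    have h3 : zpowers c = B := Subgroup.eq_of_le_of_card_ge hcB h2
    exact hne (by rw [h3]; exact subset_closure (Or.inl rfl))
  have h2 : Nat.card A ≤ Nat.card B := by
    rw [hk]; exact h1.trans (Nat.pow_le_pow_right hp.out.pos hk2)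
  have h3 : B = A := Subgroup.eq_of_le_of_card_ge hBA h2
  rw [h3]
  exact subset_closure (Or.inr (Or.inr rfl))

theorem key {G : Type*} [Group G] [Finite G] {p : ℕ} [hp' : Fact p.Prime] (hp : p ≠ 2)
    (hcore : Cfsg.pPrimeCore p G = ⊥)
    (hrank : Cfsg.PRankLE p 2 G) (x : G) (hx : orderOf x = p) (hiso : Cfsg.IsIsolated x)
    (S : Sylow p G) (hxS : x ∈ (S : Subgroup G)) (L : Subgroup G) (hL : Cfsg.IsComponent L)
    (hxL : x ∉ centralizer (L : Set G)) (c : G) (hcS : c ∈ (S : Subgroup G))
    (hcL : c ∈ centralizer (L : Set G)) (hc : orderOf c = p) : False := by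
  have hxc := central_of_isolated hiso S hxS
  obtain ⟨P, hP⟩ := S0542.result p L hL.1 S
  have hnpc : Cfsg.HasNormalPComplement p L := by
    apply Transfer.hasNPC_of_frobenius
    apply Transfer.frobenius_hyp_of_sylow P
    intro Q hQP g hg hgp
    have h1 : zpowers g ≤ centralizer (Q : Set L) := by
      apply BG.le_centralizer_of_omega1 hp (zpowers g) (by rw [Nat.card_zpowers]; exact hgp) _ Q rfl
        (P.2.to_le hQP) (by rw [zpowers_le]; exact hg)
      intro u hu hup
      -- it suffices that g commutes with u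
      suffices hgu : Commute g u by
        intro a ha
        obtain ⟨k, rfl⟩ := mem_zpowers_iff.1 ha
        exact (hgu.zpow_left k).eq
      have huS : (u : G) ∈ (S : Subgroup G) := by
        have := hQP hu
        rw [hP, mem_subgroupOf] at this
        exact this
      have hguS : (g : G) * u * (g : G)⁻¹ ∈ (S : Subgroup G) := by
        have h2 : g * u * g⁻¹ ∈ Q := (mem_normalizer_iff.1 hg u).1 hu
        have := hQP h2
        rw [hP, mem_subgroupOf] at this
        exact this
      have hcg : Commute c (g : G) := (mem_centralizer_iff.1 hcL g g.2).symm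
      have hcu : Commute c (u : G) := (mem_centralizer_iff.1 hcL u u.2).symm
      have hup' : (u : G) ^ p = 1 := by
        have := congrArg Subtype.val hup
        simpa using this
      have hne : x ∉ zpowers c := by
        intro h
        exact hxL ((zpowers_le.2 hcL) h)
      obtain ⟨i, j, hu'⟩ := rank_mem hrank (x := x) (c := c) (u := u) (by rw [← hx, pow_orderOf_eq_one])
        hc hup' (hxc c hcS) (hxc u huS) hcu hne
      suffices hgx : Commute (g : G) (x ^ i) by
        have h2 : Commute (g : G) (u : G) := by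
          rw [hu']
          exact hgx.mul_right (hcg.symm.zpow_right j)
        exact Subtype.ext h2.eq
      by_cases hpi : (p : ℤ) ∣ i
      · obtain ⟨k, rfl⟩ := hpi
        rw [zpow_mul, zpow_natCast, ← hx, pow_orderOf_eq_one, one_zpow]
        exact Commute.one_right _
      · -- y = g x g⁻¹
        have h3 : (g : G) * u * (g : G)⁻¹ = ((g : G) * x * (g : G)⁻¹) ^ i * c ^ j := by
          rw [conj_zpow, hu']
          have e : c ^ j * (g : G)⁻¹ = (g : G)⁻¹ * c ^ j := (hcg.inv_right.zpow_left j).eq
          calc (g : G) * (x ^ i * c ^ j) * (g : G)⁻¹ = (g : G) * x ^ i * (c ^ j * (g : G)⁻¹) := by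
                simp only [mul_assoc]
            _ = (g : G) * x ^ i * ((g : G)⁻¹ * c ^ j) := by rw [e]
            _ = _ := by simp only [mul_assoc]
        have h4 : Commute x (((g : G) * x * (g : G)⁻¹) ^ i) := by
          have h5 : ((g : G) * x * (g : G)⁻¹) ^ i = (g : G) * u * (g : G)⁻¹ * (c ^ j)⁻¹ := by
            rw [h3]; group
          rw [h5]
          exact (hxc _ hguS).mul_right ((hxc c hcS).zpow_right j).inv_right
        have hyp : ((g : G) * x * (g : G)⁻¹) ^ p = 1 := by
          rw [conj_pow, ← hx, pow_orderOf_eq_one]; group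
        have h6 : Commute x ((g : G) * x * (g : G)⁻¹) := by
          have hcop : IsCoprime i (p : ℤ) := by
            rw [isCoprime_comm]
            exact (Nat.prime_iff_prime_int.1 hp'.out).irreducible.coprime_iff_not_dvd.2 hpi
          obtain ⟨a, b, hab⟩ := hcop
          have h7 : (g : G) * x * (g : G)⁻¹ = (((g : G) * x * (g : G)⁻¹) ^ i) ^ a := by
            have h8 : ((g : G) * x * (g : G)⁻¹) ^ (a * i + b * (p : ℤ)) = (g : G) * x * (g : G)⁻¹ := by
              rw [hab, zpow_one]
            rw [← zpow_mul, mul_comm i a]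
            rw [zpow_add, mul_comm b, zpow_mul _ (p : ℤ), zpow_natCast, hyp, one_zpow, mul_one] at h8
            exact h8.symm
          rw [h7]
          exact h4.zpow_right a
        have h9 := hiso _ h6
        have h10 : Commute (g : G) x := by
          have : (g : G) * x = x * g := by
            calc (g : G) * x = (g : G) * x * (g : G)⁻¹ * g := by group
              _ = x * g := by rw [h9]
          exact this
        exact h10.zpow_right i
    exact h1 (mem_zpowers g)
  obtain ⟨Q, N, hN, hcN⟩ := hnpc
  obtain ⟨hc1, hc2⟩ := Transfer.card_index_of_isComplement' hcN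
  obtain ⟨k, hk⟩ := hc2
  have h2 : N = ⊤ := by
    have h3 : Cfsg.pResidual p L ≤ N := Transfer.pResidual_le_of_index hk
    rw [FStar.pResidual_eq_top_of_component hL.2] at h3
    exact top_le_iff.1 h3
  rw [h2, Subgroup.card_top] at hc1
  exact FStar.ne_bot hL.2 (FStar.eq_bot_of_coprime_of_isSubnormal hcore hL.1 hc1)

/-- Let G be a finite group and p an odd prime with O_{p'}(G) = 1. Suppose that G has p-rank at most 2 (no elementary abelian subgroup of order p³) and that some element x of order p is isolated in G (no G-conjugate of x other than x commutes with x) and not central. Then the generalized Fitting subgroup F*(G) is a non-abelian simple group. Since O_{p'}(G) = 1, such an x is not central modulo O_{p'}(G): the hypotheses describe a counterexample to the Z*_p statement in p-rank at most 2. -/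
theorem result {G : Type*} [Group G] [Finite G] {p : ℕ} [Fact p.Prime] (hp : p ≠ 2) (hcore : Cfsg.pPrimeCore p G = ⊥)
    (hrank : Cfsg.PRankLE p 2 G) (x : G) (hx : orderOf x = p) (hiso : Cfsg.IsIsolated x) (hnc : x ∉ Subgroup.center G) :
    IsSimpleGroup ↥(Cfsg.generalizedFittingSubgroup G) ∧ ¬ IsMulCommutative ↥(Cfsg.generalizedFittingSubgroup G) := by
  have hp' : Fact p.Prime := inferInstance
  have hxp : IsPGroup p (zpowers x) := by
    rw [IsPGroup.iff_card]
    exact ⟨1, by rw [Nat.card_zpowers, hx, pow_one]⟩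
  obtain ⟨S, hS⟩ := hxp.exists_le_sylow
  have hxS : x ∈ (S : Subgroup G) := hS (mem_zpowers x)
  have hxc := central_of_isolated hiso S hxS
  have hcoreq : ∀ q : ℕ, q.Prime → q ≠ p → Cfsg.pCore q G = ⊥ := by
    intro q hq hqp
    haveI : Fact q.Prime := ⟨hq⟩
    rw [eq_bot_iff, ← hcore]
    exact FStar.pCore_le_pPrimeCore_of_ne hqp
  have hFit : Cfsg.fittingSubgroup G = Cfsg.pCore p G := by
    apply le_antisymm
    · rw [Solv.fitting_eq_iSup_pCore]
      apply iSup_le
      intro q
      by_cases hq : (q : ℕ) = p
      · rw [hq]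
      · rw [hcoreq q q.2 hq]; exact bot_le
    · exact Solv.pCore_le_fitting p
  have hOS : Cfsg.pCore p G ≤ (S : Subgroup G) := by
    have h1 := Solv.pCore_isPGroup (G := G) p
    obtain ⟨T, hT⟩ := h1.exists_le_sylow
    obtain ⟨g, hg⟩ := MulAction.exists_smul_eq G T S
    intro y hy
    rw [← hg]
    refine ⟨g⁻¹ * y * g, hT ?_, ?_⟩
    · have hn : (Cfsg.pCore p G).Normal := inferInstance
      have := hn.conj_mem y hy g⁻¹
      simpa using this
    · change g * (g⁻¹ * y * g) * g⁻¹ = y
      group
  -- a component not centralized by x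
  obtain ⟨L, hL, hxL⟩ : ∃ L : Subgroup G, Cfsg.IsComponent L ∧ x ∉ centralizer (L : Set G) := by
    by_contra hcon
    push Not at hcon
    have h1 : Cfsg.generalizedFittingSubgroup G ≤ centralizer ({x} : Set G) := by
      rw [Cfsg.generalizedFittingSubgroup]
      apply sup_le
      · rw [FStar.layer_le_iff]
        intro K hK y hy
        rw [mem_centralizer_singleton_iff]
        exact (mem_centralizer_iff.1 (hcon K hK) y hy)
      · rw [hFit]
        intro y hy
        rw [mem_centralizer_singleton_iff]
        exact (hxc y (hOS hy)).eq.symm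
    have h2 : x ∈ centralizer (Cfsg.generalizedFittingSubgroup G : Set G) := by
      rw [mem_centralizer_iff]
      intro y hy
      exact mem_centralizer_singleton_iff.1 (h1 hy)
    have h3 : x ∈ Cfsg.generalizedFittingSubgroup G := FStar.centralizer_generalizedFitting_le h2
    apply hnc
    rw [mem_center_iff]
    intro g
    have hn : (Cfsg.generalizedFittingSubgroup G).Normal := inferInstance
    have h4 := hn.conj_mem x h3 g
    have h5 : Commute x (g * x * g⁻¹) := (mem_centralizer_singleton_iff.1 (h1 h4)).symm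
    have h6 := hiso g h5
    calc g * x = g * x * g⁻¹ * g := by group
      _ = x * g := by rw [h6]
  have hCS : (S : Subgroup G) ⊓ centralizer (L : Set G) = ⊥ := by
    by_contra hne
    have hH : IsPGroup p ↥((S : Subgroup G) ⊓ centralizer (L : Set G)) := S.2.to_le inf_le_left
    obtain ⟨k, hk⟩ := IsPGroup.iff_card.1 hH
    have hk0 : k ≠ 0 := by
      rintro rfl
      rw [pow_zero] at hk
      exact hne (Subgroup.card_eq_one.1 hk)
    have hd : p ∣ Nat.card ↥((S : Subgroup G) ⊓ centralizer (L : Set G)) := by
      rw [hk]; exact dvd_pow_self p hk0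
    obtain ⟨c, hc⟩ := exists_prime_orderOf_dvd_card' p hd
    exact key hp hcore hrank x hx hiso S hxS L hL hxL c c.2.1 c.2.2 (by rw [Subgroup.orderOf_coe, hc])
  have huniq : ∀ K : Subgroup G, Cfsg.IsComponent K → K = L := by
    intro K hK
    by_contra hne
    have h1 : ⁅K, L⁆ = ⊥ := FStar.component_commute hK hL hne
    have h2 : K ≤ centralizer (L : Set G) := Subgroup.commutator_eq_bot_iff_le_centralizer.1 h1
    obtain ⟨P, hP⟩ := S0542.result p K hK.1 S
    have h3 : (P : Subgroup K) = ⊥ := by
      rw [hP, eq_bot_iff]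
      intro y hy
      rw [mem_subgroupOf] at hy
      have h4 : (y : G) ∈ (S : Subgroup G) ⊓ centralizer (L : Set G) := ⟨hy, h2 y.2⟩
      rw [hCS, mem_bot] at h4
      rw [mem_bot]
      exact Subtype.ext h4
    have h5 : (Nat.card K).Coprime p := by
      apply FStar.coprime_card_of_sylow_le_center hK.2.1 P
      rw [h3]; exact bot_le
    exact FStar.ne_bot hK.2 (FStar.eq_bot_of_coprime_of_isSubnormal hcore hK.1 h5)
  have hlayer : Cfsg.layer G = L := by
    apply le_antisymm
    · rw [FStar.layer_le_iff]
      intro K hK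
      rw [huniq K hK]
    · exact FStar.component_le_layer hL
  have hO : Cfsg.pCore p G = ⊥ := by
    rw [eq_bot_iff, ← hCS]
    refine le_inf hOS ?_
    rw [← hFit, ← Subgroup.commutator_eq_bot_iff_le_centralizer, Subgroup.commutator_comm, ← hlayer]
    exact FStar.layer_commute_fitting
  have hF : Cfsg.generalizedFittingSubgroup G = L := by
    rw [Cfsg.generalizedFittingSubgroup, hlayer, hFit, hO, sup_bot_eq]
  have hZ : Subgroup.center L = ⊥ := by
    have h1 := FStar.layer_inf_fitting (G := G)
    rw [hFit, hO, inf_bot_eq, hlayer] at h1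
    rw [eq_bot_iff]
    intro z hz
    have h2 : (z : G) ∈ L ⊓ centralizer (L : Set G) := by
      refine mem_inf.2 ⟨z.2, mem_centralizer_iff.2 ?_⟩
      intro y hy
      have := mem_center_iff.1 hz ⟨y, hy⟩
      exact congrArg Subtype.val this
    rw [← h1, mem_bot] at h2
    rw [mem_bot]
    exact Subtype.ext h2
  rw [hF]
  constructor
  · haveI := hL.2.2
    let e : (L ⧸ Subgroup.center L) ≃* L :=
      (QuotientGroup.quotientMulEquivOfEq hZ).trans QuotientGroup.quotientBot
    exact (MulEquiv.isSimpleGroup_congr e).1 inferInstance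
  · intro hcomm
    apply FStar.center_ne_top_of_isQuasisimple hL.2
    rw [eq_top_iff]
    intro z _
    rw [mem_center_iff]
    intro g
    exact hcomm.1.1 g z

end Cfsg.Agent.S3049
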