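import Cfsg.Statements.S3053
import Cfsg.Agent.H51.Extra
import Cfsg.Agent.H51.DStarThm

set_option autoImplicit false
open Cfsg

namespace Cfsg.Agent.S3053

open Cfsg.Agent.H51
open scoped commutatorElement Pointwise

/-- Let p be an odd prime and G a finite group with a Sylow p-subgroup P that is extraspecial of order p³ and exponent p². Then the centre of P is strongly closed in P with respect to G: a G-conjugate of an element of Z(P) that lies in P already lies in Z(P). In particular a nontrivial central element of P is conjugate in G to no noncentral element of P. -/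
theorem result {G : Type*} [Group G] [Finite G]
    {p : ℕ} [Fact p.Prime] (hp : p ≠ 2) (P : Sylow p G) (hE : Cfsg.IsExtraspecial p ↥P)
    (hcard : Nat.card P = p ^ 3) (hexp : Monoid.exponent ↥P = p ^ 2) :
    Cfsg.IsStronglyClosed ((Subgroup.center ↥P).map (P : Subgroup G).subtype) (P : Subgroup G) := by
  classical
  have hpp : p.Prime := Fact.out
  have hPp : IsPGroup p (P : Subgroup G) := P.isPGroup'
  set Z : Subgroup G := (Subgroup.center ↥P).map (P : Subgroup G).subtype with hZ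
  set E : Subgroup G := (extPow hp hE).ker.map (P : Subgroup G).subtype with hEdef
  have hEmem : ∀ x : G, x ∈ E ↔ x ∈ (P : Subgroup G) ∧ x ^ p = 1 := by
    intro x
    constructor
    · rintro ⟨y, hy, rfl⟩
      exact ⟨y.2, congrArg Subtype.val (show y ^ p = 1 from hy)⟩
    · rintro ⟨hx, hxp⟩
      exact ⟨⟨x, hx⟩, Subtype.ext hxp, rfl⟩
  have hZmem : ∀ x : G, x ∈ Z ↔ x ∈ (P : Subgroup G) ∧ ∀ y ∈ (P : Subgroup G), y * x = x * y := by
    intro x
    constructor
    · rintro ⟨y, hy, rfl⟩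
      exact ⟨y.2, fun u hu => congrArg Subtype.val (Subgroup.mem_center_iff.mp hy ⟨u, hu⟩)⟩
    · rintro ⟨hx, hxp⟩
      exact ⟨⟨x, hx⟩, Subgroup.mem_center_iff.mpr fun y => Subtype.ext (hxp y y.2), rfl⟩
  have hZE : Z ≤ E := Subgroup.map_mono (center_le_extPow_ker hp hE)
  have hEP : E ≤ P := Subgroup.map_subtype_le _
  have hZP : Z ≤ P := hZE.trans hEP
  have hcardZ : Nat.card Z = p := by
    rw [hZ, Subgroup.card_map_of_injective (Subgroup.subtype_injective _)]
    exact hE.2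
  have hcardE : Nat.card E = p ^ 2 := by
    rw [hEdef, Subgroup.card_map_of_injective (Subgroup.subtype_injective _)]
    exact card_extPow_ker hp hE hcard hexp
  have hEc : IsMulCommutative E := IsPGroup.isMulCommutative_of_card_eq_prime_sq hcardE
  have hEcomm := (isComm_iff E).mp hEc
  have hcommZ : ∀ u ∈ (P : Subgroup G), ∀ v ∈ (P : Subgroup G), ⁅u, v⁆ ∈ Z := by
    intro u hu v hv
    exact ⟨⁅⟨u, hu⟩, ⟨v, hv⟩⁆, ext_comm_mem_center hE _ _, rfl⟩
  have hpowZ : ∀ u ∈ (P : Subgroup G), u ^ p ∈ Z := by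
    intro u hu
    exact ⟨(⟨u, hu⟩ : P) ^ p, ext_pow_mem_center hE _, rfl⟩
  have hmulpow : ∀ u ∈ (P : Subgroup G), ∀ v ∈ (P : Subgroup G), (u * v) ^ p = u ^ p * v ^ p := by
    intro u hu v hv
    exact congrArg Subtype.val (ext_mul_pow hp hE ⟨u, hu⟩ ⟨v, hv⟩)
  have hprime : ∀ u ∈ Z, u ≠ 1 → Subgroup.zpowers u = Z := by
    intro u hu hu1
    apply Subgroup.eq_of_le_of_card_ge
    · rwa [Subgroup.zpowers_le]
    · have h1 : Nat.card (Subgroup.zpowers u) ∣ p := hcardZ ▸ Subgroup.card_dvd_of_le (by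
        rwa [Subgroup.zpowers_le])
      rcases (Nat.dvd_prime hpp).mp h1 with h2 | h2
      · exact absurd (by rwa [Nat.card_zpowers, orderOf_eq_one_iff] at h2) hu1
      · rw [hcardZ, h2]
  -- self-centralizing
  have hCE : ∀ u ∈ (P : Subgroup G), u ∈ Subgroup.centralizer (E : Set G) → u ∈ E := by
    intro u hu huC
    have hle : E ≤ (P : Subgroup G) ⊓ Subgroup.centralizer (E : Set G) :=
      le_inf hEP (Subgroup.le_centralizer_iff_isMulCommutative.mpr hEc)
    have hdvd : Nat.card ((P : Subgroup G) ⊓ Subgroup.centralizer (E : Set G) : Subgroup G) ∣ p ^ 3 :=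
      hcard ▸ Subgroup.card_dvd_of_le inf_le_left
    obtain ⟨k, hk, hk2⟩ := (Nat.dvd_prime_pow hpp).mp hdvd
    by_cases hk3 : k = 3
    · exfalso
      rw [hk3] at hk2
      have h1 : (P : Subgroup G) ⊓ Subgroup.centralizer (E : Set G) = P :=
        Subgroup.eq_of_le_of_card_ge inf_le_left (by rw [hk2]; exact hcard.le)
      have h2 : E ≤ Z := by
        intro e he
        rw [hZmem]
        refine ⟨hEP he, fun y hy => ?_⟩
        have h3 : y ∈ Subgroup.centralizer (E : Set G) := (h1.symm.le hy).2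
        exact (Subgroup.mem_centralizer_iff.mp h3 e he).symm
      have h3 := Subgroup.card_le_of_le h2
      rw [hcardE, hcardZ] at h3
      nlinarith [hpp.two_le]
    · have h1 : Nat.card ((P : Subgroup G) ⊓ Subgroup.centralizer (E : Set G) : Subgroup G) ≤
          Nat.card E := by
        rw [hk2, hcardE]
        exact Nat.pow_le_pow_right hpp.pos (by omega)
      have h2 := Subgroup.eq_of_le_of_card_ge hle h1
      rw [h2]; exact ⟨hu, huC⟩
  have hclE : ∀ z ∈ Z, z ≠ 1 → ∀ w ∈ E, w ∉ Z → Subgroup.closure ({z, w} : Set G) = E := by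
    intro z hz hz1 w hw hwZ
    have hle : Subgroup.closure ({z, w} : Set G) ≤ E := by
      rw [Subgroup.closure_le]
      rintro x (rfl | rfl)
      · exact hZE hz
      · exact hw
    apply Subgroup.eq_of_le_of_card_ge hle
    have hZle : Z ≤ Subgroup.closure ({z, w} : Set G) := by
      rw [← hprime z hz hz1, Subgroup.zpowers_le]
      exact Subgroup.subset_closure (by simp)
    have h1 : Nat.card (Subgroup.closure ({z, w} : Set G)) ∣ p ^ 2 :=
      hcardE ▸ Subgroup.card_dvd_of_le hle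
    obtain ⟨k, hk, hk2⟩ := (Nat.dvd_prime_pow hpp).mp h1
    have hlt : Nat.card Z < Nat.card (Subgroup.closure ({z, w} : Set G)) := by
      by_contra hge
      push Not at hge
      have := Subgroup.eq_of_le_of_card_ge hZle hge
      exact hwZ (this ▸ Subgroup.subset_closure (by simp))
    rw [hcardZ, hk2] at hlt
    have hpl := hpp.two_le
    interval_cases k
    · rw [pow_zero] at hlt; omega
    · rw [pow_one] at hlt; omega
    · rw [hcardE, hk2]
  -- existence of commutators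
  have hQ : ∀ v ∈ E, v ∉ Z → ∀ z' ∈ Z, ∃ x ∈ (P : Subgroup G), ⁅x, v⁆ = z' := by
    intro v hv hvZ z' hz'
    rw [hZmem] at hvZ
    push Not at hvZ
    obtain ⟨x, hx, hxv⟩ := hvZ (hEP hv)
    have h1 : ⁅x, v⁆ ≠ 1 := by
      rw [Ne, commutatorElement_eq_one_iff_mul_comm]; exact hxv
    have h2 : z' ∈ Subgroup.zpowers ⁅x, v⁆ := by
      rw [hprime _ (hcommZ x hx v (hEP hv)) h1]; exact hz'
    rw [← mem_powers_iff_mem_zpowers] at h2
    obtain ⟨k, hk⟩ := h2
    refine ⟨x ^ k, Subgroup.pow_mem _ hx k, ?_⟩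
    have h3 := comm_pow_left (P := ↥P) (x := ⟨x, hx⟩) (y := ⟨v, hEP hv⟩)
      (ext_comm_mem_center hE _ _) k
    have h4 : ⁅x ^ k, v⁆ = ⁅x, v⁆ ^ k := congrArg Subtype.val h3
    rw [h4]; exact hk
  have hPE : (P : Subgroup G) ≤ Subgroup.normalizer (E : Set G) :=
    le_normalizer_map_subtype_of_normal _ _
  refine ⟨hZP, ?_⟩
  intro z hz g hgP
  by_contra hwZ
  set w := g * z * g⁻¹ with hw
  have hz1 : z ≠ 1 := by
    rintro rfl
    apply hwZ
    rw [hw]; simp
  have hzp : z ^ p = 1 := ((hEmem z).mp (hZE hz)).2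
  have hwE : w ∈ E := by
    rw [hEmem]
    refine ⟨hgP, ?_⟩
    rw [hw, conj_pow, hzp]; group
  -- move g into N(E)
  obtain ⟨g', hg'N, hg'z⟩ : ∃ g' ∈ Subgroup.normalizer (E : Set G), g' * z * g'⁻¹ = w := by
    have hle : ((g • P : Sylow p G) : Subgroup G) ≤ Subgroup.centralizer {w} := by
      rw [Sylow.coe_subgroup_smul]
      rintro _ ⟨y, hy, rfl⟩
      refine Subgroup.mem_centralizer_singleton_iff.mpr ?_
      have h1 := ((hZmem z).mp hz).2 y hy
      show (g * y * g⁻¹) * (g * z * g⁻¹) = (g * z * g⁻¹) * (g * y * g⁻¹)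
      calc (g * y * g⁻¹) * (g * z * g⁻¹) = g * (y * z) * g⁻¹ := by group
        _ = g * (z * y) * g⁻¹ := by rw [h1]
        _ = _ := by group
    have hEle : E ≤ Subgroup.centralizer {w} := by
      intro e he
      exact Subgroup.mem_centralizer_singleton_iff.mpr (hEcomm e he w hwE)
    obtain ⟨s, hs, hsE⟩ := Cfsg.Agent.Transfer.exists_conj_le_sylow_of_le ((g • P).subtype hle)
      (hPp.to_le hEP) hEle
    rw [Sylow.coe_subtype, Subgroup.map_subgroupOf_eq_of_le hle, Sylow.coe_subgroup_smul] at hsE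
    refine ⟨s⁻¹ * g, ?_, ?_⟩
    · have h1 : (s⁻¹ * g)⁻¹ ∈ Subgroup.normalizer (E : Set G) := by
        apply mem_normalizer_of_conj_mem
        intro e he
        rw [hEmem]
        have h2 := hsE (Subgroup.smul_mem_pointwise_smul e (MulAut.conj s) _ he)
        rw [Subgroup.mem_pointwise_smul_iff_inv_smul_mem] at h2
        refine ⟨?_, ?_⟩
        · have h3 : (MulAut.conj g)⁻¹ • (MulAut.conj s • e) = (s⁻¹ * g)⁻¹ * e * (s⁻¹ * g)⁻¹⁻¹ := by
            simp [MulAut.smul_def, mul_assoc]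
          rw [← h3]; exact h2
        · rw [conj_pow, ((hEmem e).mp he).2]; group
      exact (Subgroup.inv_mem_iff _).mp h1
    · have h1 : w * s = s * w := (Subgroup.mem_centralizer_singleton_iff.mp hs).symm
      calc s⁻¹ * g * z * (s⁻¹ * g)⁻¹ = s⁻¹ * (g * z * g⁻¹) * s := by group
        _ = s⁻¹ * (w * s) := by rw [← hw]; group
        _ = s⁻¹ * (s * w) := by rw [h1]
        _ = w := by group
  -- the element x
  obtain ⟨x, hxP, hxw⟩ := hQ w hwE hwZ z hz
  have hxw' : x * w * x⁻¹ = z * w := by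
    rw [commutatorElement_def] at hxw
    calc x * w * x⁻¹ = (x * w * x⁻¹ * w⁻¹) * w := by group
      _ = z * w := by rw [hxw]
  have hxz : x * z * x⁻¹ = z := by
    rw [((hZmem z).mp hz).2 x hxP]; group
  -- the element y
  set v := g'⁻¹ * z * g' with hv
  have hvE : v ∈ E := (Subgroup.mem_normalizer_iff''.mp hg'N z).mp (hZE hz)
  have hvZ : v ∉ Z := by
    intro hvZ
    apply hwZ
    have hv1 : v ≠ 1 := by
      intro h
      apply hz1
      have : z = g' * v * g'⁻¹ := by rw [hv]; group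
      rw [this, h]; group
    have h1 : z ∈ Subgroup.zpowers v := by rw [hprime v hvZ hv1]; exact hz
    obtain ⟨n, hn⟩ := h1
    have h2 : w = z ^ n := by
      have hn' : v ^ n = z := hn
      rw [← hg'z, ← hn']
      have h3 : g' * v ^ n * g'⁻¹ = (g' * v * g'⁻¹) ^ n := by
        rw [conj_zpow]
      rw [h3, hv]
      have h4 : g' * (g'⁻¹ * z * g') * g'⁻¹ = z := by group
      rw [h4]
      have h5 : (g'⁻¹ * z * g') ^ n = z := by rw [← hv]; exact hn'
      rw [h5]
    rw [h2]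
    exact Z.zpow_mem hz n
  obtain ⟨x₂, hx₂P, hx₂v⟩ := hQ v hvE hvZ z⁻¹ (Z.inv_mem hz)
  set y := g' * x₂ * g'⁻¹ with hy
  have hyz : y * z * y⁻¹ = w⁻¹ * z := by
    have h1 : y * z * y⁻¹ = g' * ⁅x₂, v⁆ * g'⁻¹ * z := by
      rw [hy, commutatorElement_def, hv]; group
    rw [h1, hx₂v, ← hg'z]; group
  have hyw : y * w * y⁻¹ = w := by
    have h1 := ((hZmem z).mp hz).2 x₂ hx₂P
    calc y * w * y⁻¹ = g' * (x₂ * z) * x₂⁻¹ * g'⁻¹ := by rw [hy, ← hg'z]; group
      _ = g' * (z * x₂) * x₂⁻¹ * g'⁻¹ := by rw [h1]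
      _ = w := by rw [← hg'z]; group
  have hyN : y ∈ Subgroup.normalizer (E : Set G) :=
    Subgroup.mul_mem _ (Subgroup.mul_mem _ hg'N (hPE hx₂P)) (Subgroup.inv_mem _ hg'N)
  have hzw : z * w = w * z := hEcomm z (hZE hz) w hwE
  -- s = x y x
  set s := x * y * x with hs
  have hsz : s * z * s⁻¹ = w⁻¹ := by
    calc s * z * s⁻¹ = x * (y * (x * z * x⁻¹) * y⁻¹) * x⁻¹ := by rw [hs]; group
      _ = x * (w⁻¹ * z) * x⁻¹ := by rw [hxz, hyz]
      _ = (x * w * x⁻¹)⁻¹ * (x * z * x⁻¹) := by group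
      _ = (z * w)⁻¹ * z := by rw [hxw', hxz]
      _ = w⁻¹ := by group
  have hsw : s * w * s⁻¹ = z := by
    calc s * w * s⁻¹ = x * (y * (x * w * x⁻¹) * y⁻¹) * x⁻¹ := by rw [hs]; group
      _ = x * ((y * z * y⁻¹) * (y * w * y⁻¹)) * x⁻¹ := by rw [hxw']; group
      _ = x * (w⁻¹ * (z * w)) * x⁻¹ := by rw [hyz, hyw]; group
      _ = x * (w⁻¹ * (w * z)) * x⁻¹ := by rw [hzw]
      _ = x * z * x⁻¹ := by group
      _ = z := hxz
  set t := s * s with ht
  have htz : t * z * t⁻¹ = z⁻¹ := by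
    calc t * z * t⁻¹ = s * (s * z * s⁻¹) * s⁻¹ := by rw [ht]; group
      _ = (s * w * s⁻¹)⁻¹ := by rw [hsz]; group
      _ = z⁻¹ := by rw [hsw]
  have htw : t * w * t⁻¹ = w⁻¹ := by
    calc t * w * t⁻¹ = s * (s * w * s⁻¹) * s⁻¹ := by rw [ht]; group
      _ = w⁻¹ := by rw [hsw, hsz]
  have hsN : s ∈ Subgroup.normalizer (E : Set G) :=
    Subgroup.mul_mem _ (Subgroup.mul_mem _ (hPE hxP) hyN) (hPE hxP)
  have htN : t ∈ Subgroup.normalizer (E : Set G) := Subgroup.mul_mem _ hsN hsN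
  have htinv : ∀ e ∈ E, t * e * t⁻¹ = e⁻¹ := by
    intro e he
    rw [← hclE z hz hz1 w hwE hwZ] at he
    have hle : Subgroup.closure ({z, w} : Set G) ≤ E := (hclE z hz hz1 w hwE hwZ).le
    induction he using Subgroup.closure_induction with
    | mem a ha =>
      rcases ha with rfl | rfl
      · exact htz
      · exact htw
    | one => group
    | mul a b ha hb iha ihb =>
      calc t * (a * b) * t⁻¹ = (t * a * t⁻¹) * (t * b * t⁻¹) := by group
        _ = a⁻¹ * b⁻¹ := by rw [iha, ihb]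
        _ = (b * a)⁻¹ := by group
        _ = (a * b)⁻¹ := by rw [hEcomm a (hle ha) b (hle hb)]
    | inv a ha iha =>
      calc t * a⁻¹ * t⁻¹ = (t * a * t⁻¹)⁻¹ := by group
        _ = a⁻¹⁻¹ := by rw [iha]
  -- commutators with inverting elements
  have hcen : ∀ t : G, (∀ e ∈ E, t * e * t⁻¹ = e⁻¹) → ∀ u ∈ Subgroup.normalizer (E : Set G),
      t * u * t⁻¹ * u⁻¹ ∈ Subgroup.centralizer (E : Set G) := by
    intro t htinv u hu
    rw [Subgroup.mem_centralizer_iff]
    intro e he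
    have h1 : u⁻¹ * e * u ∈ E := (Subgroup.mem_normalizer_iff''.mp hu e).mp he
    have h2 : t⁻¹ * (u⁻¹ * e * u) * t = (u⁻¹ * e * u)⁻¹ := by
      have h3 := htinv _ (E.inv_mem h1)
      rw [inv_inv] at h3
      calc t⁻¹ * (u⁻¹ * e * u) * t = t⁻¹ * (t * (u⁻¹ * e * u)⁻¹ * t⁻¹) * t := by rw [h3]
        _ = _ := by group
    have h4 : t * e⁻¹ * t⁻¹ = e := by
      have h3 := htinv _ (E.inv_mem he)
      rwa [inv_inv] at h3
    have h5 : (t * u * t⁻¹ * u⁻¹) * e * (t * u * t⁻¹ * u⁻¹)⁻¹ = e := by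
      calc (t * u * t⁻¹ * u⁻¹) * e * (t * u * t⁻¹ * u⁻¹)⁻¹
          = t * u * (t⁻¹ * (u⁻¹ * e * u) * t) * u⁻¹ * t⁻¹ := by group
        _ = t * u * (u⁻¹ * e * u)⁻¹ * u⁻¹ * t⁻¹ := by rw [h2]
        _ = t * e⁻¹ * t⁻¹ := by group
        _ = e := h4
    calc e * (t * u * t⁻¹ * u⁻¹)
        = ((t * u * t⁻¹ * u⁻¹) * e * (t * u * t⁻¹ * u⁻¹)⁻¹) * (t * u * t⁻¹ * u⁻¹) := by rw [h5]
      _ = _ := by group
  -- find t' in N(P)
  obtain ⟨t', ht'P, ht'inv⟩ : ∃ t' ∈ Subgroup.normalizer ((P : Subgroup G) : Set G),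
      ∀ e ∈ E, t' * e * t'⁻¹ = e⁻¹ := by
    set C := Subgroup.centralizer (E : Set G) with hC
    have hPC : (P : Subgroup G) ≤ Subgroup.normalizer (C : Set G) := by
      rw [Subgroup.le_normalizer_iff]
      intro u hu c hc
      rw [hC, Subgroup.mem_centralizer_iff]
      intro e he
      have h1 : u⁻¹ * e * u ∈ E := (Subgroup.mem_normalizer_iff''.mp (hPE hu) e).mp he
      have h2 := Subgroup.mem_centralizer_iff.mp hc _ h1
      calc e * (u * c * u⁻¹) = u * ((u⁻¹ * e * u) * c) * u⁻¹ := by group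
        _ = u * (c * (u⁻¹ * e * u)) * u⁻¹ := by rw [h2]
        _ = _ := by group
    have hle1 : ((t • P : Sylow p G) : Subgroup G) ≤ C ⊔ (P : Subgroup G) := by
      rw [Sylow.coe_subgroup_smul]
      rintro _ ⟨u, hu, rfl⟩
      show t * u * t⁻¹ ∈ _
      have h1 : t * u * t⁻¹ = (t * u * t⁻¹ * u⁻¹) * u := by group
      rw [h1]
      exact Subgroup.mul_mem _ (le_sup_left (a := C) (hcen t htinv u (hPE hu)))
        (le_sup_right (a := C) hu)
    obtain ⟨l, hl, hlP⟩ := Cfsg.Agent.Transfer.exists_smul_eq_of_le (C ⊔ (P : Subgroup G)) P (t • P)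
      le_sup_right hle1
    obtain ⟨c, hc, u, hu, rfl⟩ := (mem_sup_iff_of_le_normalizer_left hPC).mp hl
    have h1 : (c⁻¹ * t) • P = P := by
      rw [mul_smul, ← hlP, mul_smul, inv_smul_smul, Sylow.smul_eq_iff_mem_normalizer]
      exact Subgroup.le_normalizer hu
    refine ⟨c⁻¹ * t, Sylow.smul_eq_iff_mem_normalizer.mp h1, fun e he => ?_⟩
    have h2 : e⁻¹ * c = c * e⁻¹ := Subgroup.mem_centralizer_iff.mp hc _ (E.inv_mem he)
    calc c⁻¹ * t * e * (c⁻¹ * t)⁻¹ = c⁻¹ * (t * e * t⁻¹) * c := by group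
      _ = c⁻¹ * (e⁻¹ * c) := by rw [htinv e he]; group
      _ = c⁻¹ * (c * e⁻¹) := by rw [h2]
      _ = e⁻¹ := by group
  -- exponent p
  have hfin : ∀ y ∈ (P : Subgroup G), y ^ p = 1 := by
    intro y hy
    have h1 : t' * y * t'⁻¹ ∈ (P : Subgroup G) := (Subgroup.mem_normalizer_iff.mp ht'P y).mp hy
    have h2 : t' * y * t'⁻¹ * y⁻¹ ∈ E :=
      hCE _ (Subgroup.mul_mem _ h1 (Subgroup.inv_mem _ hy)) (hcen t' ht'inv y (hPE hy))
    have h3 : (t' * y * t'⁻¹) ^ p = y ^ p := by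
      have h4 : t' * y * t'⁻¹ = (t' * y * t'⁻¹ * y⁻¹) * y := by group
      rw [h4, hmulpow _ (hEP h2) _ hy, ((hEmem _).mp h2).2, one_mul]
    have h4 : y ^ p ∈ E := hZE (hpowZ y hy)
    have h5 := ht'inv _ h4
    rw [← conj_pow, h3] at h5
    have h6 : (y ^ p) ^ 2 = 1 := by
      rw [pow_two]
      nth_rewrite 1 [h5]
      group
    have h7 : (y ^ p) ^ p = 1 := ((hEmem _).mp h4).2
    have h8 : orderOf (y ^ p) ∣ Nat.gcd 2 p :=
      Nat.dvd_gcd (orderOf_dvd_of_pow_eq_one h6) (orderOf_dvd_of_pow_eq_one h7)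
    have h9 : Nat.gcd 2 p = 1 := (Nat.coprime_primes Nat.prime_two hpp).mpr hp.symm
    rw [h9, Nat.dvd_one, orderOf_eq_one_iff] at h8
    exact h8
  have hfin2 : ∀ y : ↥P, y ^ p = 1 := fun y => Subtype.ext (hfin y y.2)
  have h4 := Monoid.exponent_dvd_of_forall_pow_eq_one hfin2
  rw [hexp] at h4
  have h5 := Nat.le_of_dvd hpp.pos h4
  nlinarith [hpp.two_le]

end Cfsg.Agent.S3053
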