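import Cfsg.Statements.S3054
import Cfsg.Agent.H20.HeisFus

set_option autoImplicit false
open Cfsg

namespace Cfsg.Agent.S3054

/-- Let p be an odd prime and G a finite group with a Sylow p-subgroup P that is extraspecial of order p³ and exponent p. Suppose P contains three distinct subgroups A of order p² (each is elementary abelian of rank 2) such that every automorphism of A of order p is induced by conjugation by an element of G; equivalently the automorphism group induced on A by its normalizer contains the special linear group of A. Then p ≤ 13. -/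
theorem result {G : Type*} [Group G] [Finite G]
    {p : ℕ} [Fact p.Prime] (hp : p ≠ 2) (P : Sylow p G) (hE : Cfsg.IsExtraspecial p ↥P)
    (hcard : Nat.card P = p ^ 3) (hexp : Monoid.exponent ↥P = p)
    (A : Fin 3 → Subgroup G) (hA : Function.Injective A) (hAP : ∀ i, A i ≤ (P : Subgroup G))
    (hAcard : ∀ i, Nat.card ↥(A i) = p ^ 2)
    (hSL : ∀ i, ∀ φ : MulAut ↥(A i), orderOf φ = p → ∃ g : G, ∀ a : ↥(A i), (φ a : G) = g * (a : G) * g⁻¹) :
    p ≤ 13 := by
  by_contra hcon
  push Not at hcon
  have hpp : p.Prime := Fact.out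
  have hexp' : ∀ a : (P : Subgroup G), a ^ p = 1 := fun a => by
    have h0 : Monoid.exponent (P : Subgroup G) = p := hexp
    have h1 : a ^ Monoid.exponent (P : Subgroup G) = 1 := Monoid.pow_exponent_eq_one a
    rw [h0] at h1; exact h1
  have hG : Cfsg.Agent.Extra.GES p (P : Subgroup G) := Cfsg.Agent.Extra.ges_of_isExtraspecial hE
  let B : Fin 3 → Subgroup (P : Subgroup G) := fun i => (A i).subgroupOf (P : Subgroup G)
  have hB : ∀ i, Nat.card (B i) = p ^ 2 := by
    intro i
    rw [← hAcard i]
    exact Nat.card_congr (Subgroup.subgroupOfEquivOfLe (hAP i)).toEquiv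
  have hZB : ∀ i, Subgroup.center (P : Subgroup G) ≤ B i := fun i =>
    Cfsg.Agent.H20.HeisFus.center_le hG hcard (B i) (hB i)
  obtain ⟨z, hz1, hz⟩ : ∃ z : (P : Subgroup G), z ≠ 1 ∧ z ∈ Subgroup.center (P : Subgroup G) := by
    have : Nontrivial (Subgroup.center (P : Subgroup G)) := by
      rw [← Finite.one_lt_card_iff_nontrivial, hG.card_center]
      exact hpp.one_lt
    obtain ⟨z, hz⟩ := exists_ne (1 : Subgroup.center (P : Subgroup G))
    exact ⟨z.1, fun h => hz (Subtype.ext h), z.2⟩
  have hex : ∀ i, ∃ v ∈ B i, v ∉ Subgroup.center (P : Subgroup G) := by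
    intro i
    by_contra hcon2
    push Not at hcon2
    have h4 := Subgroup.card_le_of_le (show B i ≤ Subgroup.center (P : Subgroup G) from hcon2)
    rw [hB, hG.card_center] at h4
    have := hpp.one_lt
    nlinarith
  choose v hvB hv using hex
  have hmain := Cfsg.Agent.H20.HeisFus.main2 P hE hcard hexp' (by omega)
    (Function.Embedding.refl (Fin 3)) v hv (by
      intro i j hij
      apply hA
      have hc1 := Cfsg.Agent.H20.HeisFus.eq_centralizer hcard (B i) (hB i) (hv i) (hvB i)
      have hc2 := Cfsg.Agent.H20.HeisFus.eq_centralizer hcard (B j) (hB j) (hv j) (hvB j)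
      have hij2 : v j ∈ B i := by
        rw [← hc1, Subgroup.mem_centralizer_singleton_iff]
        exact ((commutatorElement_eq_one_iff_mul_comm).mp hij).symm
      have hle : B i ≤ B j := by
        rw [← hc2]
        intro a ha
        rw [Subgroup.mem_centralizer_singleton_iff]
        exact Cfsg.Agent.H20.HeisFus.comm_of_card_sq (B i) (hB i) ha hij2
      have heq : B i = B j := Subgroup.eq_of_le_of_card_ge hle (by rw [hB, hB])
      have h5 := congrArg (Subgroup.map (P : Subgroup G).subtype) heq
      rw [Subgroup.map_subgroupOf_eq_of_le (hAP i), Subgroup.map_subgroupOf_eq_of_le (hAP j)] at h5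
      exact h5) (by
      intro i
      refine ⟨z, hz, hz1, ?_⟩
      have hzA : (z : G) ∈ A i := hZB i hz
      have hvA : ((v i : P) : G) ∈ A i := hvB i
      obtain ⟨φ, ho, h1, h2⟩ := Cfsg.Agent.H20.HeisFus.exists_transvection (A := A i) (hAcard i)
        (by
          intro a
          have := congrArg (Subtype.val : P → G) (hexp' ⟨a.1, hAP i a.2⟩)
          exact Subtype.ext this)
        (z := ⟨z, hzA⟩) (v := ⟨v i, hvA⟩) (by
          intro h
          have h7 : (z : G) = 1 := congrArg Subtype.val h
          exact hz1 (Subtype.ext h7)) (by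
          rintro ⟨k, hk⟩
          apply hv i
          have : v i = z ^ k := Subtype.ext (congrArg Subtype.val hk).symm
          rw [this]
          exact zpow_mem hz k)
      obtain ⟨g, hg⟩ := hSL i φ ho
      refine ⟨g, ?_, ?_⟩
      · rw [← hg ⟨z, hzA⟩, h1]
        rfl
      · have h3 := hg ⟨v i, hvA⟩
        rw [h2] at h3
        exact (eq_mul_inv_iff_mul_eq.mp h3).symm)
  omega

end Cfsg.Agent.S3054
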