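import Cfsg.Statements.S3055
import Cfsg.Agent.H20.HeisFus
import Cfsg.Agent.H20.FusTools

set_option autoImplicit false
open Cfsg

namespace Cfsg.Agent.S3055

open scoped commutatorElement

/-- Let p be an odd prime and G a finite group with a Sylow p-subgroup P that is extraspecial of order p³ and exponent p. If all nonidentity elements of P are conjugate in G, then p ≤ 7. -/
theorem result {G : Type*} [Group G] [Finite G]
    {p : ℕ} [Fact p.Prime] (hp : p ≠ 2) (P : Sylow p G) (hE : Cfsg.IsExtraspecial p ↥P)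
    (hcard : Nat.card P = p ^ 3) (hexp : Monoid.exponent ↥P = p)
    (hconj : ∀ x y : ↥P, x ≠ 1 → y ≠ 1 → ∃ g : G, g * (x : G) * g⁻¹ = (y : G)) :
    p ≤ 7 := by
  by_contra hcon
  push Not at hcon
  have hpp : p.Prime := Fact.out
  have h11 : 11 ≤ p := by
    by_contra h
    push Not at h
    interval_cases p
    · exact absurd hpp (by norm_num)
    · exact absurd hpp (by norm_num)
    · exact absurd hpp (by norm_num)
  have hexp' : ∀ a : (P : Subgroup G), a ^ p = 1 := fun a => by
    have h0 : Monoid.exponent (P : Subgroup G) = p := hexp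
    have h1 : a ^ Monoid.exponent (P : Subgroup G) = 1 := Monoid.pow_exponent_eq_one a
    rw [h0] at h1; exact h1
  have hG : Cfsg.Agent.Extra.GES p (P : Subgroup G) := Cfsg.Agent.Extra.ges_of_isExtraspecial hE
  have hc := hG.classTwo
  have hconj' : ∀ x y : (P : Subgroup G), x ≠ 1 → y ≠ 1 → ∃ g : G, g * (x : G) * g⁻¹ = (y : G) :=
    hconj
  have hnt : Subgroup.center (P : Subgroup G) ≠ ⊤ := by
    intro h
    have h1 := hG.card_center
    rw [h, Subgroup.card_top, hcard] at h1
    have h2 : p ^ 3 = p ^ 1 := by rw [h1, pow_one]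
    exact absurd (Nat.pow_right_injective hpp.two_le h2) (by norm_num)
  obtain ⟨x₀, y₀, hxy⟩ := hG.exists_noncomm hnt
  have hζ : orderOf ⁅x₀, y₀⁆ = p := orderOf_eq_prime (hexp' _) hxy
  obtain ⟨z, hz1, hz⟩ : ∃ z : (P : Subgroup G), z ≠ 1 ∧ z ∈ Subgroup.center (P : Subgroup G) :=
    ⟨_, hxy, hc.mem _ _⟩
  let v : Fin p → (P : Subgroup G) := fun j => y₀ * x₀ ^ (j : ℕ)
  have hv : ∀ i, v i ∉ Subgroup.center (P : Subgroup G) := by
    intro i h
    apply hxy
    have h1 : ⁅x₀, v i⁆ = 1 := by
      rw [commutatorElement_eq_one_iff_mul_comm]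
      exact (Subgroup.mem_center_iff.mp h) x₀
    rw [show v i = y₀ * x₀ ^ (i : ℕ) from rfl, hc.mul_right, hc.pow_right,
      commutatorElement_self, one_pow, mul_one] at h1
    exact h1
  have hmain := Cfsg.Agent.H20.HeisFus.main2 P hE hcard hexp' h11
    (Fin.castLEEmb (show 3 ≤ p by omega)) v hv (by
      intro i j hij
      rw [show v i = y₀ * x₀ ^ (i : ℕ) from rfl, show v j = y₀ * x₀ ^ (j : ℕ) from rfl,
        hc.mul_right, hc.mul_left, hc.mul_left, hc.pow_right, hc.pow_left, hc.pow_right,
        hc.pow_left, commutatorElement_self, commutatorElement_self, one_pow, one_pow, mul_one,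
        one_mul, ← commutatorElement_inv x₀ y₀, inv_pow, mul_inv_eq_one, pow_inj_mod, hζ,
        Nat.mod_eq_of_lt i.2, Nat.mod_eq_of_lt j.2] at hij
      exact Fin.ext hij) (by
      intro i
      refine ⟨z, hz, hz1, ?_⟩
      have hcz : ∀ y : (P : Subgroup G), y * z = z * y := Subgroup.mem_center_iff.mp hz
      obtain ⟨g, hg⟩ := hconj' (v i) z (fun h => hv i (by rw [h]; exact one_mem _)) hz1
      have hPC : (P : Subgroup G) ≤ Subgroup.centralizer ({(z : G)} : Set G) := by
        intro y hy
        rw [Subgroup.mem_centralizer_singleton_iff]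
        exact congrArg Subtype.val (hcz ⟨y, hy⟩)
      have hgz : g * z * g⁻¹ ∈ Subgroup.centralizer ({(z : G)} : Set G) := by
        rw [Subgroup.mem_centralizer_singleton_iff]
        have h1 : (v i : G) * z = z * v i := congrArg Subtype.val (hcz (v i))
        calc g * z * g⁻¹ * z = g * z * g⁻¹ * (g * (v i : G) * g⁻¹) := by rw [hg]
          _ = g * (z * v i) * g⁻¹ := by group
          _ = g * (v i * z) * g⁻¹ := by rw [h1]
          _ = g * (v i : G) * g⁻¹ * (g * z * g⁻¹) := by group
          _ = z * (g * z * g⁻¹) := by rw [hg]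
      obtain ⟨c, hcC, hcP⟩ := Cfsg.Agent.H20.conj_into P hPC
        (P := Subgroup.zpowers (g * z * g⁻¹)) (by
          apply IsPGroup.of_card (n := 1)
          rw [Nat.card_zpowers, Cfsg.Agent.H20.orderOf_conj_eq, pow_one]
          exact orderOf_eq_prime (congrArg Subtype.val (hexp' z)) (fun h => hz1 (Subtype.ext h)))
        (by rw [Subgroup.zpowers_le]; exact hgz)
      have hbP := hcP _ (Subgroup.mem_zpowers _)
      rw [Subgroup.mem_centralizer_singleton_iff] at hcC
      let k : G := c * g
      have hkv : k * v i * k⁻¹ = z := by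
        have h1 : k * v i * k⁻¹ = c * (g * v i * g⁻¹) * c⁻¹ := by
          show c * g * v i * (c * g)⁻¹ = _
          group
        rw [h1, hg, hcC]
        group
      let b : (P : Subgroup G) := ⟨_, hbP⟩
      have hkz : k * z * k⁻¹ = b := by
        show c * g * z * (c * g)⁻¹ = c * (g * z * g⁻¹) * c⁻¹
        group
      have hb1 : b ≠ 1 := by
        intro h
        apply hz1
        apply Subtype.ext
        have h1 : k * z * k⁻¹ = 1 := by rw [hkz, h]; rfl
        exact conj_eq_one_iff.mp h1
      have hbc : b ∉ Subgroup.center (P : Subgroup G) := by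
        intro h
        obtain ⟨n, hn⟩ := hG.exists_pow_eq h hb1 hz
        apply hv i
        have h1 : (v i : G) = (z : G) ^ n := by
          have h2 : k * (z : G) ^ n * k⁻¹ = k * v i * k⁻¹ := by
            rw [← conj_pow, hkz, hkv]
            exact congrArg Subtype.val hn
          exact (mul_left_cancel (mul_right_cancel h2)).symm
        have h3 : v i = z ^ n := Subtype.ext h1
        rw [h3]
        exact pow_mem hz n
      obtain ⟨y, hy⟩ := hG.exists_comm_eq hbc (inv_mem hz)
      have hy' : ⁅y, b⁆ = z := by rw [← commutatorElement_inv, hy, inv_inv]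
      have hyb : (y : G) * b * (y : G)⁻¹ = z * b := by
        have h1 : y * b * y⁻¹ = z * b := by rw [← hy', commutatorElement_def]; group
        exact congrArg Subtype.val h1
      have hyz : (y : G) * z = z * y := congrArg Subtype.val (hcz y)
      refine ⟨k⁻¹ * y * k, ?_, ?_⟩
      · calc k⁻¹ * y * k * z * (k⁻¹ * y * k)⁻¹ = k⁻¹ * (y * (k * z * k⁻¹) * (y : G)⁻¹) * k := by group
          _ = k⁻¹ * (z * b) * k := by rw [hkz, hyb]
          _ = k⁻¹ * (k * v i * k⁻¹) * (k * z * k⁻¹) * k := by rw [hkv, hkz]; group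
          _ = (v i : G) * z := by group
          _ = z * v i := congrArg Subtype.val (hcz (v i))
      · show k⁻¹ * y * k * v i = v i * (k⁻¹ * y * k)
        calc k⁻¹ * y * k * v i = k⁻¹ * (y * (k * v i * k⁻¹)) * k := by group
          _ = k⁻¹ * (z * y) * k := by rw [hkv, hyz]
          _ = k⁻¹ * (k * v i * k⁻¹) * y * k := by rw [hkv]; group
          _ = v i * (k⁻¹ * y * k) := by group)
  rw [Nat.card_eq_fintype_card, Fintype.card_fin] at hmain
  omega

end Cfsg.Agent.S3055
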