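import Cfsg.Statements.S3057
import Cfsg.Agent.H51.SPE2
import Cfsg.Agent.H76.PSolvable

set_option autoImplicit false
open Cfsg

namespace Cfsg.Agent.S3057

open Cfsg.Agent.H51
open scoped Pointwise

theorem quat_unique (m : ℕ) [NeZero m] (x : QuaternionGroup m) (hx : orderOf x = 2) :
    x = QuaternionGroup.a (m : ZMod (2 * m)) := by
  have hm : 0 < m := Nat.pos_of_ne_zero (NeZero.ne m)
  have : NeZero (2 * m) := ⟨by positivity⟩
  rcases x with i | i
  · have hx2 : (QuaternionGroup.a i : QuaternionGroup m) ^ 2 = 1 := by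
      rw [← hx]; exact pow_orderOf_eq_one _
    have hx1 : (QuaternionGroup.a i : QuaternionGroup m) ≠ 1 := by
      intro h; rw [h, orderOf_one] at hx; omega
    rw [sq, QuaternionGroup.a_mul_a, ← QuaternionGroup.a_zero] at hx2
    injection hx2 with hx2
    rw [← QuaternionGroup.a_zero] at hx1
    have hi0 : i ≠ 0 := fun h => hx1 (by rw [h])
    have hiv : ((i.val + i.val : ℕ) : ZMod (2 * m)) = 0 := by
      push_cast; rw [ZMod.natCast_zmod_val]; exact hx2
    rw [ZMod.natCast_eq_zero_iff] at hiv
    have hlt := ZMod.val_lt i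
    have hne : i.val ≠ 0 := fun h => hi0 ((ZMod.val_eq_zero i).1 h)
    obtain ⟨c, hc⟩ := hiv
    have hival : i.val = m := by
      have h1 : c < 2 := by nlinarith
      have h0 : c ≠ 0 := by rintro rfl; omega
      have : c = 1 := by omega
      subst this; omega
    congr 1
    have := ZMod.natCast_zmod_val i
    rw [hival] at this
    exact this.symm
  · exfalso
    rw [QuaternionGroup.orderOf_xa] at hx
    omega

/-- cyclic and quaternion groups have a unique subgroup of order `p`. -/
theorem unique_order {Q : Type*} [Group Q] [Finite Q] {p : ℕ} [Fact p.Prime]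
    (h : IsCyclic Q ∨ (p = 2 ∧ ∃ n : ℕ, Nonempty (Q ≃* QuaternionGroup (2 ^ n))))
    {x y : Q} (hx : orderOf x = p) (hy : orderOf y = p) : y ∈ Subgroup.zpowers x := by
  rcases h with h | ⟨hp2, n, ⟨e⟩⟩
  · have hp0 : 0 < p := (Fact.out : p.Prime).pos
    have := Fintype.ofFinite Q
    classical
    have h1 := IsCyclic.card_pow_eq_one_le (α := Q) hp0
    have h2 : (Finset.univ.filter fun a : Q => a ∈ Subgroup.zpowers x) ⊆
        Finset.univ.filter fun a : Q => a ^ p = 1 := by
      intro a ha
      simp only [Finset.mem_filter, Finset.mem_univ, true_and] at ha ⊢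
      obtain ⟨k, rfl⟩ := ha
      show (x ^ k) ^ p = 1
      rw [← zpow_natCast, ← zpow_mul, mul_comm, zpow_mul, zpow_natCast, ← hx, pow_orderOf_eq_one,
        one_zpow]
    have h3 : (Finset.univ.filter fun a : Q => a ∈ Subgroup.zpowers x).card = p := by
      rw [← Fintype.card_subtype, ← Nat.card_eq_fintype_card]
      change Nat.card (Subgroup.zpowers x) = p
      rw [Nat.card_zpowers, hx]
    have h4 := Finset.eq_of_subset_of_card_le h2 (by rw [h3]; exact h1)
    have h5 : y ∈ Finset.univ.filter fun a : Q => a ^ p = 1 := by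
      simp only [Finset.mem_filter, Finset.mem_univ, true_and]
      rw [← hy, pow_orderOf_eq_one]
    rw [← h4] at h5
    simpa using h5
  · have hx' : orderOf (e x) = 2 := by rw [MulEquiv.orderOf_eq, hx, hp2]
    have hy' : orderOf (e y) = 2 := by rw [MulEquiv.orderOf_eq, hy, hp2]
    have hxy : e x = e y := by rw [quat_unique _ _ hx', quat_unique _ _ hy']
    rw [e.injective hxy]
    exact Subgroup.mem_zpowers y

/-- the same for `p`-subgroups in terms of elements of `G`. -/
theorem unique_order_sylow {G : Type*} [Group G] [Finite G] {p : ℕ} [Fact p.Prime] (P T : Sylow p G)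
    (h : IsCyclic ↥P ∨ (p = 2 ∧ ∃ n : ℕ, Nonempty (↥P ≃* QuaternionGroup (2 ^ n))))
    {x y : G} (hxT : x ∈ (T : Subgroup G)) (hyT : y ∈ (T : Subgroup G))
    (hx : orderOf x = p) (hy : orderOf y = p) : y ∈ Subgroup.zpowers x := by
  have e : ↥T ≃* ↥P := Sylow.equiv T P
  have h1 : orderOf (e ⟨x, hxT⟩) = p := by
    rw [MulEquiv.orderOf_eq]
    exact (Subgroup.orderOf_coe (⟨x, hxT⟩ : (T : Subgroup G))).symm.trans hx
  have h2 : orderOf (e ⟨y, hyT⟩) = p := by
    rw [MulEquiv.orderOf_eq]
    exact (Subgroup.orderOf_coe (⟨y, hyT⟩ : (T : Subgroup G))).symm.trans hy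
  obtain ⟨k, hk⟩ := unique_order h h1 h2
  have hk' : e (⟨x, hxT⟩ ^ k) = e ⟨y, hyT⟩ := by rw [map_zpow]; exact hk
  have hk2 := e.injective hk'
  exact ⟨k, congrArg (fun w : ↥T => (w : G)) hk2⟩

/-- Let p be a prime and G a finite p-solvable group of order divisible by p, with Sylow p-subgroup P. Then the Sylow p-subgroups of G fail to be chain-connected through nontrivial intersections (equivalently, G has a strongly p-embedded subgroup) if and only if O_p(G) = 1 and P is cyclic or, for p = 2, generalized quaternion. -/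
theorem result {G : Type*} [Group G] [Finite G]
    (p : ℕ) [Fact p.Prime] (hdiv : p ∣ Nat.card G) (hsol : Cfsg.IsPSolvable p G) (P : Sylow p G) :
    ¬ Cfsg.IsSylowChainConnected p G ↔
      Cfsg.pCore p G = ⊥ ∧ (IsCyclic ↥P ∨ (p = 2 ∧ ∃ n : ℕ, Nonempty (↥P ≃* QuaternionGroup (2 ^ n)))) := by
  have hp1 : (1 : ℕ) < p := (Fact.out : p.Prime).one_lt
  constructor
  · intro hG
    obtain ⟨H, hH⟩ := not_connected_iff.mp hG
    obtain ⟨S, hSH, hS1⟩ := hH.exists_sylow_le
    have hcore : pCore p G = ⊥ := by
      by_contra h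
      apply hH.1
      have h1 := hH.normalizer_le (Cfsg.Agent.Solv.pCore_isPGroup p) h
        ((Cfsg.Agent.Solv.pCore_le_sylow S).trans hSH)
      have : (pCore p G).Normal := inferInstance
      rw [Subgroup.normalizer_eq_top] at h1
      exact top_le_iff.mp h1
    refine ⟨hcore, ?_⟩
    rcases cyclic_or_quaternion_or_elem S.isPGroup' with h | ⟨E, hES, hE, hE2⟩
    · rcases h with h | ⟨h2, n, ⟨e⟩⟩
      · left
        have e : ↥S ≃* ↥P := Sylow.equiv S P
        exact isCyclic_of_surjective e e.surjective
      · right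
        exact ⟨h2, n, ⟨(Sylow.equiv P S).trans e⟩⟩
    · exfalso
      have hK : ¬ p ∣ Nat.card (pPrimeCore p G) := by
        have := Cfsg.Agent.Solv.pPrimeCore_card_coprime (G := G) p
        rw [Nat.coprime_comm, Nat.Prime.coprime_iff_not_dvd Fact.out] at this
        exact this
      have hKn : (pPrimeCore p G).Normal := inferInstance
      have hKH : pPrimeCore p G ≤ H := by
        refine hH.le_of_elem hE hE2 (hES.trans hSH) hK ?_
        rw [Subgroup.normalizer_eq_top]
        exact le_top
      have h1 := frattini_pCore_quotient S (pPrimeCore p G)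
      have h2 := Cfsg.Agent.H76.centralizer_pCore_le
        (Cfsg.Agent.H76.isPSolvable_quotient (pPrimeCore p G) hsol)
        (Cfsg.Agent.Solv.pPrimeCore_quotient_pPrimeCore p)
      have h3 : (S : Subgroup G) ⊓ (pCore p (G ⧸ pPrimeCore p G)).comap
          (QuotientGroup.mk' (pPrimeCore p G)) ≠ ⊥ := by
        intro h
        have h4 : pCore p (G ⧸ pPrimeCore p G) = ⊥ := by
          rw [eq_bot_iff]
          intro x hx
          obtain ⟨g, rfl⟩ := QuotientGroup.mk'_surjective _ x
          have hidx : ∃ k, (pPrimeCore p G).relIndex ((pCore p (G ⧸ pPrimeCore p G)).comap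
              (QuotientGroup.mk' (pPrimeCore p G))) = p ^ k := by
            have h1 := Subgroup.relIndex_ker (QuotientGroup.mk' (pPrimeCore p G))
              (K := (pCore p (G ⧸ pPrimeCore p G)).comap (QuotientGroup.mk' (pPrimeCore p G)))
            rw [QuotientGroup.ker_mk', Subgroup.map_comap_eq_self_of_surjective
              (QuotientGroup.mk'_surjective _)] at h1
            rw [h1]
            exact (IsPGroup.iff_card.mp (Cfsg.Agent.Solv.pCore_isPGroup p))
          have hle : pPrimeCore p G ≤ (pCore p (G ⧸ pPrimeCore p G)).comap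
              (QuotientGroup.mk' (pPrimeCore p G)) := by
            intro c hc
            rw [Subgroup.mem_comap]
            have : QuotientGroup.mk' (pPrimeCore p G) c = 1 := by simpa using hc
            rw [this]; exact Subgroup.one_mem _
          have h5 := sup_inf_sylow_eq S (pPrimeCore p G) _ hle hidx
          rw [h, sup_bot_eq] at h5
          have h6 : g ∈ (pCore p (G ⧸ pPrimeCore p G)).comap
              (QuotientGroup.mk' (pPrimeCore p G)) := hx
          rw [← h5] at h6
          rw [Subgroup.mem_bot]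
          simpa using h6
        rw [h4] at h2
        have h5 : (⊤ : Subgroup (G ⧸ pPrimeCore p G)) ≤ ⊥ := by
          refine le_trans ?_ h2
          intro x _
          rw [Subgroup.mem_centralizer_iff]
          intro y hy
          have hy' : y = 1 := by simpa using hy
          rw [hy', one_mul, mul_one]
        have h6 : pPrimeCore p G = ⊤ := by
          rw [eq_top_iff]
          intro g _
          have h7 := h5 (Subgroup.mem_top (QuotientGroup.mk' (pPrimeCore p G) g))
          simpa using h7
        apply hK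
        rw [h6, Subgroup.card_top]
        exact hdiv
      apply hH.1
      rw [eq_top_iff, ← h1]
      exact sup_le (hH.normalizer_le (S.isPGroup'.to_le inf_le_left) h3
        (inf_le_left.trans hSH)) hKH
  · rintro ⟨hcore, hP⟩
    have hPc : p ∣ Nat.card (P : Subgroup G) := P.dvd_card_of_dvd_card hdiv
    obtain ⟨z, hzP, hz⟩ := exists_orderOf_eq_mem hPc
    rw [not_connected_iff]
    set H := Subgroup.normalizer ((Subgroup.zpowers z : Subgroup G) : Set G) with hHdef
    have hzH : z ∈ H := Subgroup.le_normalizer (Subgroup.mem_zpowers z)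
    have key : ∀ y ∈ H, orderOf y = p → Subgroup.zpowers y = Subgroup.zpowers z := by
      intro y hy hyo
      have hpg : IsPGroup p ↥(Subgroup.zpowers y ⊔ Subgroup.zpowers z) :=
        (isPGroup_zpowers_of_orderOf hyo).to_sup_of_normal_right'
          (isPGroup_zpowers_of_orderOf hz) (by rwa [Subgroup.zpowers_le])
      obtain ⟨T, hT⟩ := hpg.exists_le_sylow
      have h1 := unique_order_sylow P T hP
        (hT (Subgroup.mem_sup_right (Subgroup.mem_zpowers z)))
        (hT (Subgroup.mem_sup_left (Subgroup.mem_zpowers y))) hz hyo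
      exact Subgroup.eq_of_le_of_card_ge (by rwa [Subgroup.zpowers_le])
        (by rw [Nat.card_zpowers, Nat.card_zpowers, hyo, hz])
    refine ⟨H, ?_, ?_, ?_⟩
    · intro htop
      have h1 : (Subgroup.zpowers z).Normal := by rwa [← Subgroup.normalizer_eq_top_iff]
      have h2 := Cfsg.Agent.Solv.le_pCore h1 (isPGroup_zpowers_of_orderOf hz)
      rw [hcore, Subgroup.zpowers_le, Subgroup.mem_bot] at h2
      rw [h2, orderOf_one] at hz
      exact hp1.ne hz
    · have := orderOf_dvd_natCard (⟨z, hzH⟩ : H)
      rwa [← Subgroup.orderOf_coe, hz] at this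
    · intro g hg hdvd
      apply hg
      obtain ⟨y, hy, hyo⟩ := exists_orderOf_eq_mem hdvd
      obtain ⟨w, hwH, hwy⟩ := hy.2
      have hwy' : g * w * g⁻¹ = y := hwy
      have hwo : orderOf w = p := by
        rw [← hyo, ← hwy]
        exact (orderOf_injective (MulAut.conj g).toMonoidHom (MulAut.conj g).injective w).symm
      have h1 := key y hy.1 hyo
      have h2 := key w hwH hwo
      apply mem_normalizer_of_conj_mem
      intro a ha
      rw [← h2] at ha
      obtain ⟨k, rfl⟩ := ha
      rw [← h1]
      refine ⟨k, ?_⟩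
      show y ^ k = g * w ^ k * g⁻¹
      rw [← hwy', conj_zpow]

end Cfsg.Agent.S3057
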