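import Cfsg.Statements.S3059
import Cfsg.Agent.H51.StrongEmb
import Cfsg.Agent.H51.DStarThm
import Cfsg.Agent.Transfer.Residual

set_option autoImplicit false
open Cfsg

namespace Cfsg.Agent.S3059

open Cfsg.Agent.H51

/-- Let p be a prime and H a strongly p-embedded subgroup of the finite group G in the classical sense: H is proper, p divides the order of H, and H ∩ gHg⁻¹ has order prime to p for every g outside H. Then for every normal subgroup N of G of order divisible by p, G = H · O^p(N), where O^p(N) is the subgroup generated by the elements of N of order prime to p. -/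
theorem result {G : Type*} [Group G] [Finite G]
    (p : ℕ) [Fact p.Prime] (H : Subgroup G) (hH : H ≠ ⊤) (hpH : p ∣ Nat.card H)
    (hse : ∀ g : G, g ∉ H → ¬ p ∣ Nat.card ↥(H ⊓ H.map (MulAut.conj g).toMonoidHom))
    (N : Subgroup G) [N.Normal] (hN : p ∣ Nat.card N) :
    H ⊔ Subgroup.closure {g : G | g ∈ N ∧ (orderOf g).Coprime p} = ⊤ := by
  have hS : IsSPE p H := ⟨hH, hpH, hse⟩
  obtain ⟨P, hPH, hP1⟩ := hS.exists_sylow_le
  set K := Subgroup.closure {g : G | g ∈ N ∧ (orderOf g).Coprime p} with hK
  have hKmap : (Cfsg.pResidual p N).map N.subtype = K := by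
    rw [Cfsg.pResidual, MonoidHom.map_closure, hK]
    congr 1
    ext x
    constructor
    · rintro ⟨y, hy, rfl⟩
      refine ⟨y.2, ?_⟩
      have : orderOf (y : G) = orderOf y := Subgroup.orderOf_coe y
      show (orderOf (y : G)).Coprime p
      rw [this]; exact hy
    · rintro ⟨hx, hxo⟩
      refine ⟨⟨x, hx⟩, ?_, rfl⟩
      show (orderOf (⟨x, hx⟩ : N)).Coprime p
      rwa [← Subgroup.orderOf_coe]
  have h1 := Cfsg.Agent.Transfer.sylow_sup_pResidual (Cfsg.Agent.Transfer.sylowInf P N)
  have h2 : ((P : Subgroup G) ⊓ N) ⊔ K = N := by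
    have h3 := congrArg (Subgroup.map N.subtype) h1
    rw [Subgroup.map_sup, Cfsg.Agent.Transfer.sylowInf_map, hKmap] at h3
    rw [h3, ← MonoidHom.range_eq_map, Subgroup.range_subtype]
  have hP0 : (P : Subgroup G) ⊓ N ≠ ⊥ := by
    intro h0
    have h3 := (Cfsg.Agent.Transfer.sylowInf P N).not_dvd_index
    rw [Cfsg.Agent.Transfer.sylowInf_coe] at h3
    have h4 : (P : Subgroup G).subgroupOf N = ⊥ := by
      rw [Subgroup.subgroupOf_eq_bot, disjoint_iff]
      exact h0
    rw [h4, Subgroup.index_bot] at h3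
    exact h3 hN
  have h3 : Subgroup.normalizer (((P : Subgroup G) ⊓ N : Subgroup G) : Set G) ≤ H :=
    hS.normalizer_le (P.isPGroup'.to_le inf_le_left) hP0 (inf_le_left.trans hPH)
  have h4 := frattini_inf P N
  rw [eq_top_iff, ← h4, ← h2]
  refine sup_le ((by rw [h2]; exact h3 : _ ≤ H).trans le_sup_left) ?_
  exact sup_le ((inf_le_left.trans hPH).trans le_sup_left) le_sup_right

end Cfsg.Agent.S3059
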