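import Cfsg.Statements.S3063
import Cfsg.Agent.H51.Replacement

set_option autoImplicit false
open Cfsg

namespace Cfsg.Agent.S3063

open Cfsg.Agent.H51
open scoped commutatorElement

/-- A weak replacement Theorem for metabelian p-groups: let S be a finite p-group whose derived subgroup is abelian and A an abelian subgroup of S of largest possible order. Then the normal closure of A in S contains an abelian subgroup B of the same order as A that is normal in S. -/
theorem result {S : Type*} [Group S] [Finite S] {p : ℕ} [Fact p.Prime]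
    (hS : IsPGroup p S) (hmeta : IsMulCommutative ↥(commutator S))
    (A : Subgroup S) (hA : A ∈ Cfsg.maxAbelianSubgroups S) :
    ∃ B ∈ Cfsg.maxAbelianSubgroups S, B.Normal ∧ B ≤ Subgroup.normalClosure (A : Set S) := by
  have hfin : (Set.Finite {B : Subgroup S | B ∈ maxAbelianSubgroups S ∧
      B ≤ Subgroup.normalClosure (A : Set S)}) := Set.toFinite _
  obtain ⟨B, ⟨hB, hBA⟩, hmax⟩ := Set.exists_max_image
    {B : Subgroup S | B ∈ maxAbelianSubgroups S ∧ B ≤ Subgroup.normalClosure (A : Set S)}
    (fun B => Nat.card (B ⊓ commutator S : Subgroup S)) hfin ⟨A, hA, Subgroup.le_normalClosure⟩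
  refine ⟨B, hB, ⟨fun b hb x => ?_⟩, hBA⟩
  have hS' : commutator S ≤ Subgroup.centralizer (commutator S : Set S) :=
    Subgroup.le_centralizer_iff_isMulCommutative.mpr hmeta
  have hcS : commSub x B ≤ commutator S := by
    rw [commSub_le]
    intro a _
    exact Subgroup.commutator_mem_commutator (Subgroup.mem_top x) (Subgroup.mem_top a)
  have hM : IsMulCommutative (commSub x B) := by
    rw [← Subgroup.le_centralizer_iff_isMulCommutative]
    exact hcS.trans (hS'.trans (Subgroup.centralizer_le hcS))
  have hB' := replaceSub_mem_maxAbelian hB hM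
  have hcB : commSub x B ≤ Subgroup.normalClosure (B : Set S) := by
    rw [commSub_le]
    intro a ha
    rw [commutatorElement_def]
    exact Subgroup.mul_mem _ (Subgroup.normalClosure_normal.conj_mem _ (Subgroup.subset_normalClosure ha) x)
      (Subgroup.inv_mem _ (Subgroup.subset_normalClosure ha))
  have hBn : Subgroup.normalClosure (B : Set S) ≤ Subgroup.normalClosure (A : Set S) :=
    Subgroup.normalClosure_le_normal hBA
  have hB'A : replaceSub x B ≤ Subgroup.normalClosure (A : Set S) :=
    sup_le (hcB.trans hBn) (inf_le_left.trans hBA)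
  have h1 := hmax _ ⟨hB', hB'A⟩
  have h2 : B ⊓ commutator S ≤ replaceSub x B ⊓ commutator S := by
    refine le_inf ?_ inf_le_right
    refine le_trans (le_inf inf_le_left ?_) le_sup_right
    exact inf_le_right.trans (hS'.trans (Subgroup.centralizer_le hcS))
  have h3 := Subgroup.eq_of_le_of_card_ge h2 h1
  have h4 : commSub x B ≤ B :=
    (le_inf (commSub_le_replaceSub x B) hcS).trans (h3 ▸ inf_le_left)
  have h5 : x * b * x⁻¹ = ⁅x, b⁆ * b := by rw [commutatorElement_def]; group
  rw [h5]
  exact B.mul_mem (h4 (commElt_mem hb)) hb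

end Cfsg.Agent.S3063
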