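import Cfsg.Statements.S3064
import Cfsg.Agent.H51.SPE2
import Cfsg.Agent.H76.PSolvable
import Cfsg.Agent.Transfer.NPC
import Cfsg.Agent.Frob.Kernel

set_option autoImplicit false
open Cfsg

namespace Cfsg.Agent.S3064

open Cfsg.Agent.H51
open scoped Pointwise



theorem main {p : ℕ} [hp : Fact p.Prime] (n : ℕ) : ∀ (G : Type*) [Group G] [Finite G] (x : G),
    Nat.card G = n →
    (∀ (g : G) (Q : Subgroup G), IsPGroup p Q → x ∈ Q → g * x * g⁻¹ ∈ Q → g * x * g⁻¹ = x) →
    (IsPGroup p (Subgroup.zpowers x)) →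
    (∀ H : Subgroup G, (Nat.card H).Coprime p → (∀ h ∈ H, x * h * x⁻¹ ∈ H) → ∀ h ∈ H, x * h = h * x) →
    x ∈ Subgroup.center G := by
  induction n using Nat.strong_induction_on with
  | _ n ih =>
  intro G _ _ x hn hiso hxp hb
  by_contra hxc
  set M := Subgroup.centralizer ({x} : Set G) with hM
  have hxM : x ∈ M := Subgroup.mem_centralizer_singleton_iff.mpr rfl
  have hMt : M ≠ ⊤ := by
    intro h
    apply hxc
    rw [Subgroup.mem_center_iff]
    intro g
    have : g ∈ M := h ▸ Subgroup.mem_top g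
    exact Subgroup.mem_centralizer_singleton_iff.mp this
  have stepA : ∀ H : Subgroup G, x ∈ H → H ≠ ⊤ → H ≤ M := by
    intro H hxH hH
    have hlt : Nat.card H < n := by
      rw [← hn]
      exact lt_of_le_of_ne (Subgroup.card_le_card_group H) fun h => hH (Subgroup.eq_top_of_card_eq H h)
    have h1 := ih (Nat.card H) hlt H ⟨x, hxH⟩ rfl ?_ ?_ ?_
    · intro h hh
      rw [Subgroup.mem_center_iff] at h1
      exact Subgroup.mem_centralizer_singleton_iff.mpr
        (congrArg (fun t : H => (t : G)) (h1 ⟨h, hh⟩))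
    · intro g Q hQ hxQ hgQ
      apply Subtype.ext
      exact hiso g (Q.map H.subtype) (hQ.map _) ⟨_, hxQ, rfl⟩ ⟨_, hgQ, rfl⟩
    · rintro ⟨_, k, rfl⟩
      obtain ⟨m, hm⟩ := hxp ⟨x ^ k, k, rfl⟩
      refine ⟨m, ?_⟩
      apply Subtype.ext
      apply Subtype.ext
      have h2 : (x ^ k) ^ p ^ m = 1 := congrArg Subtype.val hm
      simpa using h2
    · intro L hL hLx h hh
      apply Subtype.ext
      refine hb (L.map H.subtype) ?_ ?_ h ⟨h, hh, rfl⟩
      · rw [Subgroup.card_map_of_injective H.subtype_injective]; exact hL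
      · rintro _ ⟨l, hl, rfl⟩
        exact ⟨_, hLx l hl, rfl⟩
  have stepB : ∀ g : G, g ∉ M → Subgroup.closure {x, g * x * g⁻¹} = ⊤ := by
    intro g hg
    by_contra h
    apply hg
    have h1 : g * x * g⁻¹ ∈ M :=
      stepA _ (Subgroup.subset_closure (by simp)) h (Subgroup.subset_closure (by simp))
    have hcomm : g * x * g⁻¹ * x = x * (g * x * g⁻¹) := Subgroup.mem_centralizer_singleton_iff.mp h1
    have hgp : IsPGroup p (Subgroup.zpowers (g * x * g⁻¹)) := by
      have h2 := hxp.map (MulAut.conj g).toMonoidHom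
      rw [MonoidHom.map_zpowers] at h2
      exact h2
    have hle : Subgroup.zpowers (g * x * g⁻¹) ≤ Subgroup.normalizer ((Subgroup.zpowers x : Subgroup G) : Set G) := by
      have h1 : Subgroup.zpowers (g * x * g⁻¹) ≤ Subgroup.centralizer ((Subgroup.zpowers x : Subgroup G) : Set G) := by
        rw [Subgroup.zpowers_le]
        rintro _ ⟨n, rfl⟩
        exact ((show Commute x (g * x * g⁻¹) from hcomm.symm).zpow_left n).eq
      exact h1.trans (Subgroup.centralizer_le_normalizer _)
    have hpg := hgp.to_sup_of_normal_right' hxp hle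
    have h3 := hiso g _ hpg (Subgroup.mem_sup_right (Subgroup.mem_zpowers x))
      (Subgroup.mem_sup_left (Subgroup.mem_zpowers _))
    rw [hM, Subgroup.mem_centralizer_singleton_iff]
    rw [mul_inv_eq_iff_eq_mul] at h3
    exact h3
  set Z := Subgroup.center G with hZ
  have hZM : Z ≤ M := by
    intro z hz
    rw [hM, Subgroup.mem_centralizer_singleton_iff]
    exact (Subgroup.mem_center_iff.mp hz x).symm
  have stepC : ∀ g y : G, g ∉ M → y ∈ M → g⁻¹ * y * g ∈ M → y ∈ Z := by
    intro g y hg hy hy'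
    have h1 : Subgroup.closure {x, g * x * g⁻¹} ≤ Subgroup.centralizer {y} := by
      rw [Subgroup.closure_le]
      rintro t (rfl | ht)
      · exact Subgroup.mem_centralizer_singleton_iff.mpr
          (Subgroup.mem_centralizer_singleton_iff.mp hy).symm
      · rw [Set.mem_singleton_iff] at ht
        subst ht
        have h2 := Subgroup.mem_centralizer_singleton_iff.mp hy'
        apply Subgroup.mem_centralizer_singleton_iff.mpr
        have h3 : g * (g⁻¹ * y * g * x) * g⁻¹ = g * (x * (g⁻¹ * y * g)) * g⁻¹ := by rw [h2]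
        have h4 : g * (g⁻¹ * y * g * x) * g⁻¹ = y * (g * x * g⁻¹) := by group
        have h5 : g * (x * (g⁻¹ * y * g)) * g⁻¹ = g * x * g⁻¹ * y := by group
        rw [h4, h5] at h3
        exact h3.symm
    rw [stepB g hg] at h1
    rw [hZ, Subgroup.mem_center_iff]
    intro t
    exact Subgroup.mem_centralizer_singleton_iff.mp (h1 (Subgroup.mem_top t))
  -- the quotient
  let f := QuotientGroup.mk' Z
  have hf : Function.Surjective f := QuotientGroup.mk'_surjective Z
  have hfk : ∀ t, f t = 1 ↔ t ∈ Z := fun t => QuotientGroup.eq_one_iff t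
  have hmap : ∀ t, f t ∈ M.map f ↔ t ∈ M := by
    intro t
    constructor
    · rintro ⟨m, hm, hmt⟩
      have h1 : f (m⁻¹ * t) = 1 := by rw [map_mul, map_inv, hmt, inv_mul_cancel]
      have h2 := hZM ((hfk _).mp h1)
      have := M.mul_mem hm h2
      rwa [mul_inv_cancel_left] at this
    · intro h; exact ⟨t, h, rfl⟩
  have hFC : IsFrobeniusComplement (M.map f) := by
    rw [Cfsg.Agent.Frob.isFrobeniusComplement_iff]
    refine ⟨?_, ?_, ?_⟩
    · intro h
      apply hxc
      rw [← hfk, ← Subgroup.mem_bot, ← h, hmap]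
      exact hxM
    · intro h
      apply hMt
      rw [eq_top_iff]
      intro t _
      rw [← hmap, h]
      exact Subgroup.mem_top _
    · intro g' h' hh' hh1 hgh
      obtain ⟨g, rfl⟩ := hf g'
      obtain ⟨h, rfl⟩ := hf h'
      rw [hmap] at hh' ⊢
      rw [← map_inv, ← map_mul, ← map_mul, hmap] at hgh
      by_contra hg
      apply hh1
      rw [hfk]
      refine stepC g⁻¹ h (fun hc => hg (by simpa using M.inv_mem hc)) hh' ?_
      rwa [inv_inv]
  obtain ⟨K', -, hK'n, hK'c⟩ := Cfsg.Agent.Frob.exists_normal_complement hFC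
  have hcop := Cfsg.Agent.Frob.coprime_card_index hFC
  rw [Subgroup.IsComplement'.index_eq_card hK'c] at hcop
  have hxo : p ∣ Nat.card (M.map f) := by
    have h1 : f x ≠ 1 := fun h => hxc ((hfk x).mp h)
    have h2 : IsPGroup p (Subgroup.zpowers (f x)) := by
      have := hxp.map f
      rwa [MonoidHom.map_zpowers] at this
    obtain ⟨m, hm⟩ := IsPGroup.iff_card.mp h2
    have h3 : Subgroup.zpowers (f x) ≤ M.map f := by
      rw [Subgroup.zpowers_le, hmap]; exact hxM
    refine (dvd_trans ?_ (Subgroup.card_dvd_of_le h3))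
    rw [hm]
    rcases Nat.eq_zero_or_pos m with h0 | h0
    · rw [h0, pow_zero] at hm
      exact absurd (Subgroup.zpowers_eq_bot.mp (Subgroup.eq_bot_of_card_eq _ hm)) h1
    · exact dvd_pow_self p h0.ne'
  have hK'p : (Nat.card K').Coprime p := (hcop.coprime_dvd_left hxo).symm
  set K := K'.comap f with hK
  have hKn : K.Normal := inferInstance
  have hZK : Z ≤ K := by
    intro z hz
    rw [hK, Subgroup.mem_comap, (hfk z).mpr hz]
    exact K'.one_mem
  have hidx : Z.relIndex K = Nat.card K' := by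
    have h1 := Subgroup.relIndex_ker f (K := K)
    rw [QuotientGroup.ker_mk', hK, Subgroup.map_comap_eq_self_of_surjective hf] at h1
    exact h1
  have hT : ∀ T : Sylow p K, ∀ t ∈ T, (t : G) ∈ Z := by
    intro T
    have h1 : (T : Subgroup K).map K.subtype ≤ Z := by
      rw [← Subgroup.relIndex_eq_one]
      have h2 : Z.relIndex ((T : Subgroup K).map K.subtype) ∣ Z.relIndex K :=
        Cfsg.Agent.H76.relIndex_dvd_relIndex_of_le (Subgroup.map_subtype_le _)
      have h3 : Z.relIndex ((T : Subgroup K).map K.subtype) ∣ Nat.card ((T : Subgroup K).map K.subtype) :=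
        Subgroup.relIndex_dvd_card _ _
      obtain ⟨m, hm⟩ := IsPGroup.iff_card.mp (T.isPGroup'.map K.subtype)
      rw [hm] at h3
      rw [hidx] at h2
      exact Nat.Coprime.eq_one_of_dvd ((hK'p.coprime_dvd_left h2).pow_right m) h3
    intro t ht
    exact h1 ⟨t, ht, rfl⟩
  have hKM : K ≤ M := by
    have T : Sylow p K := default
    have hNPC : Cfsg.HasNormalPComplement p K := by
      refine Cfsg.Agent.Transfer.hasNPC_of_normalizer_le_centralizer T fun k _ => ?_
      rw [Subgroup.mem_centralizer_iff]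
      intro t ht
      apply Subtype.ext
      exact (Subgroup.mem_center_iff.mp (hT T t ht) k).symm
    obtain ⟨P, D, hDn, hDc⟩ := hNPC
    have hDp : (Nat.card D).Coprime p := (Cfsg.Agent.Transfer.card_index_of_isComplement' hDc).1
    have hDle : D ≤ pPrimeCore p K := Cfsg.Agent.Solv.le_pPrimeCore hDn hDp
    have hcoren : ((pPrimeCore p K).map K.subtype).Normal := inferInstance
    have hcent := hb ((pPrimeCore p K).map K.subtype) (by
      rw [Subgroup.card_map_of_injective K.subtype_injective]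
      exact Cfsg.Agent.Solv.pPrimeCore_card_coprime p) (fun h hh => hcoren.conj_mem h hh x)
    have hsup := hDc.sup_eq_top
    intro k hk
    have h1 : (⟨k, hk⟩ : K) ∈ D ⊔ (P : Subgroup K) := hsup ▸ Subgroup.mem_top _
    obtain ⟨d, hd, t, ht, hdt⟩ := Subgroup.mem_sup_of_normal_left.mp h1
    have h2 : (d : G) ∈ M := by
      rw [hM, Subgroup.mem_centralizer_singleton_iff]
      exact (hcent d ⟨d, hDle hd, rfl⟩).symm
    have h3 : (t : G) ∈ M := hZM (hT P t ht)
    have h4 := M.mul_mem h2 h3
    rw [← Subgroup.coe_mul, hdt] at h4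
    exact h4
  have hK'bot : K' = ⊥ := by
    rw [eq_bot_iff]
    intro k hk
    obtain ⟨g, rfl⟩ := hf k
    have h1 : g ∈ M := hKM hk
    have h2 := hK'c.disjoint
    rw [Subgroup.disjoint_def] at h2
    rw [Subgroup.mem_bot]
    exact h2 hk ((hmap g).mpr h1)
  rw [hK'bot, Subgroup.isComplement'_bot_left] at hK'c
  exact hFC.2.1 hK'c

/-- Let S be a Sylow p-subgroup of the finite group G and x an element of S such that (i) x is the only G-conjugate of x lying in S, and (ii) x centralizes every subgroup of order prime to p that it normalizes. Then x lies in the centre of G. -/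
theorem result {G : Type*} [Group G] [Finite G] {p : ℕ} [Fact p.Prime]
    (S : Sylow p G) (x : G) (hx : x ∈ S)
    (hU : ∀ g : G, g⁻¹ * x * g ∈ S → g⁻¹ * x * g = x)
    (hb : ∀ H : Subgroup G, (Nat.card H).Coprime p → (∀ h ∈ H, x * h * x⁻¹ ∈ H) → ∀ h ∈ H, x * h = h * x) :
    x ∈ Subgroup.center G := by
  refine main (p := p) (Nat.card G) G x rfl ?_ ?_ hb
  · intro g Q hQ hxQ hgQ
    obtain ⟨T, hT⟩ := hQ.exists_le_sylow
    obtain ⟨k, hk⟩ := MulAction.exists_smul_eq G S T
    have hmem : ∀ t ∈ T, k⁻¹ * t * k ∈ S := by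
      intro t ht
      rw [← hk] at ht
      have h1 : t ∈ ((k • S : Sylow p G) : Subgroup G) := ht
      rw [Sylow.coe_subgroup_smul, Subgroup.mem_pointwise_smul_iff_inv_smul_mem] at h1
      have h2 : k⁻¹ * t * k ∈ (S : Subgroup G) := by simpa [MulAut.smul_def] using h1
      exact h2
    have h1 := hU k (hmem x (hT hxQ))
    have h2 := hU (g⁻¹ * k) (by
      have := hmem _ (hT hgQ)
      have e : (g⁻¹ * k)⁻¹ * x * (g⁻¹ * k) = k⁻¹ * (g * x * g⁻¹) * k := by group
      rw [e]; exact this)
    have e : (g⁻¹ * k)⁻¹ * x * (g⁻¹ * k) = k⁻¹ * (g * x * g⁻¹) * k := by group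
    rw [e] at h2
    have h3 : g * x * g⁻¹ = k * (k⁻¹ * (g * x * g⁻¹) * k) * k⁻¹ := by group
    rw [h3, h2]
    have h4 : k * x * k⁻¹ = k * (k⁻¹ * x * k) * k⁻¹ := by rw [h1]
    rw [h4]; group
  · exact S.isPGroup'.to_le (by rw [Subgroup.zpowers_le]; exact hx)

end Cfsg.Agent.S3064
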