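import Cfsg.Statements.S3065
import Cfsg.Agent.H32.AutFix3

set_option autoImplicit false
open Cfsg

namespace Cfsg.Agent.S3065

open H32.AutFix

/-- Let G be a finite non-abelian simple group with a nontrivial Sylow 2-subgroup S (that is, G has even order). If the automorphism group of S is solvable, then the outer automorphism group Out(G) = Aut(G)/Inn(G) is solvable. -/
theorem result {G : Type*} [Group G] [Finite G] [IsSimpleGroup G]
    (hG : ¬ IsMulCommutative G) (S : Sylow 2 G) (hS1 : (S : Subgroup G) ≠ ⊥) (hS : Group.IsSolvable (MulAut ↥S)) :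
    Group.IsSolvable (Cfsg.Out G) := by
  have hO := pPrimeCore_eq_bot_of_simple S hS1
  haveI := hS
  haveI h1 : Group.IsSolvable (Stab (S : Subgroup G)) := Stab_solvable S hO
    (Group.isSolvable_of_isSolvable_injective (f := (restr (S : Subgroup G)).range.subtype)
      (Subgroup.subtype_injective _))
  refine Group.isSolvable_of_surjective (f := (QuotientGroup.mk' (Cfsg.Inn G)).comp (Stab (S : Subgroup G)).subtype) ?_
  intro x
  obtain ⟨σ, rfl⟩ := QuotientGroup.mk'_surjective _ x
  obtain ⟨g, hg⟩ := exists_conj_mul_mem_Stab S σ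
  refine ⟨⟨_, hg⟩, ?_⟩
  change QuotientGroup.mk' (Cfsg.Inn G) (MulAut.conj g * σ) = QuotientGroup.mk' (Cfsg.Inn G) σ
  have h2 : MulAut.conj g ∈ Cfsg.Inn G := ⟨g, rfl⟩
  rw [map_mul]
  have h3 : QuotientGroup.mk' (Cfsg.Inn G) (MulAut.conj g) = 1 := (QuotientGroup.eq_one_iff _).2 h2
  rw [h3, one_mul]

end Cfsg.Agent.S3065
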