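import Cfsg.Statements.S3070
import Cfsg.Agent.H51.ThompsonFive

set_option autoImplicit false
open Cfsg

namespace Cfsg.Agent.S3070

open Cfsg.Agent.ZJ in
theorem thompsonA_ne_bot {p : ℕ} [Fact p.Prime] (X : Type*) [Group X] [Finite X]
    (hX : IsPGroup p X) (hn : Nontrivial X) : thompsonSubgroupA X ≠ ⊥ := by
  intro h
  apply zja_ne_bot X hX hn
  rw [eq_bot_iff, ← h]
  exact inf_le_left

/-- if `p'`-elements of `N_G(J(S))` centralize `J(S)`, then `N_G(J(S))` has a normal `p`-complement -/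
theorem npc_normalizer {G : Type*} [Group G] [Finite G] {p : ℕ} [hp : Fact p.Prime] (S : Sylow p G)
    (h : ∀ g ∈ Subgroup.normalizer (Cfsg.thompsonSubgroupAOf (S : Subgroup G) : Set G), (orderOf g).Coprime p →
        g ∈ Subgroup.centralizer (Cfsg.thompsonSubgroupAOf (S : Subgroup G) : Set G)) :
    HasNormalPComplement p (Subgroup.normalizer (Cfsg.thompsonSubgroupAOf (S : Subgroup G) : Set G)) := by
  set J := Cfsg.thompsonSubgroupAOf (S : Subgroup G) with hJ
  set N := Subgroup.normalizer (J : Set G) with hN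
  have hSN : (S : Subgroup G) ≤ N := by
    have h1 := Cfsg.Agent.ZJ.normalizer_le_normalizer_rel Cfsg.Agent.ZJ.isNat_thompsonA (S : Subgroup G)
    exact Subgroup.le_normalizer.trans h1
  set C := Subgroup.centralizer (J : Set G) with hC
  have hCN : C ≤ N := Subgroup.centralizer_le_normalizer _
  have hCn : (C.subgroupOf N).Normal := by
    rw [Subgroup.normal_subgroupOf_iff hCN]
    intro c n hc hn
    rw [Subgroup.mem_centralizer_iff] at hc ⊢
    intro j hj
    have h1 : n⁻¹ * j * n ∈ J := by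
      have := (Subgroup.mem_normalizer_iff.mp (N.inv_mem hn)) j
      rw [inv_inv] at this
      exact this.mp hj
    have h2 := hc _ h1
    calc j * (n * c * n⁻¹) = n * ((n⁻¹ * j * n) * c) * n⁻¹ := by group
      _ = n * (c * (n⁻¹ * j * n)) * n⁻¹ := by rw [h2]
      _ = n * c * n⁻¹ * j := by group
  have hSJ : ∀ s ∈ (S : Subgroup G), s ∈ C → s ∈ J := by
    intro s hs hsC
    obtain ⟨A, hA⟩ := Cfsg.Agent.ZJ.maxIn_nonempty (fun A : Subgroup G => IsMulCommutative A)
      (inferInstance : IsMulCommutative (⊥ : Subgroup G)) (S : Subgroup G)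
    have h1 : A ≤ J := by
      rw [hJ, Cfsg.Agent.ZJ.thompsonSubgroupAOf_eq]
      exact le_sSup hA
    apply h1
    apply Cfsg.Agent.ZJ.mem_of_maxIn_comm hA hs
    exact (Subgroup.centralizer_le (SetLike.coe_subset_coe.mpr h1)) hsC
  set C' := C.subgroupOf N with hC'
  -- `N / C` is a `p`-group
  have hidx : IsPGroup p (N ⧸ C') := by
    intro y
    obtain ⟨g, rfl⟩ := QuotientGroup.mk'_surjective C' y
    obtain ⟨a, b, hab, ⟨k, hk⟩, hb⟩ := Cfsg.Agent.Transfer.exists_pow_decomp p g (orderOf_pos g).ne'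
    refine ⟨k, ?_⟩
    have h1 : QuotientGroup.mk' C' (g ^ b) = 1 := by
      rw [QuotientGroup.mk'_apply, QuotientGroup.eq_one_iff, Subgroup.mem_subgroupOf]
      apply h _ (g ^ b).2
      rw [Subgroup.orderOf_coe]
      exact hb
    have h2 : QuotientGroup.mk' C' g = QuotientGroup.mk' C' (g ^ a) := by
      conv_lhs => rw [hab]
      rw [map_mul, h1, mul_one]
    rw [h2, ← map_pow, ← hk, pow_orderOf_eq_one, map_one]
  obtain ⟨k, hk⟩ := IsPGroup.iff_card.mp hidx
  rw [← Subgroup.index_eq_card] at hk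
  apply Cfsg.Agent.Transfer.HasNPC.of_normal_index_pow hk
  -- a central Sylow subgroup of `C'`
  set S' : Sylow p N := S.subtype hSN with hS'
  let T : Sylow p C' := default
  have hTc : (T : Subgroup C') ≤ Subgroup.center C' := by
    have hT' : IsPGroup p ((T : Subgroup C').map C'.subtype) := T.isPGroup'.map _
    obtain ⟨Q, hQ⟩ := hT'.exists_le_sylow
    obtain ⟨n, hn⟩ := MulAction.exists_smul_eq N S' Q
    intro t ht
    have h1 : (t : N) ∈ (Q : Subgroup N) := hQ ⟨t, ht, rfl⟩
    rw [← hn] at h1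
    obtain ⟨s, hs, hst⟩ := h1
    have hst' : n * s * n⁻¹ = t := hst
    have hsC : s ∈ C' := by
      have h2 := hCn.conj_mem _ t.2 n⁻¹
      have e : n⁻¹ * (t : N) * n⁻¹⁻¹ = s := by rw [← hst']; group
      rwa [e] at h2
    have hsJ : (s : G) ∈ J := hSJ s hs (Subgroup.mem_subgroupOf.mp hsC)
    rw [Subgroup.mem_center_iff]
    intro c
    have h2 := hCn.conj_mem _ c.2 n⁻¹
    have h3 : ((n⁻¹ * (c : N) * n⁻¹⁻¹ : N) : G) ∈ C := Subgroup.mem_subgroupOf.mp h2
    have h4 := Subgroup.mem_centralizer_iff.mp h3 s hsJ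
    have h5 : s * (n⁻¹ * (c : N) * n⁻¹⁻¹) = (n⁻¹ * (c : N) * n⁻¹⁻¹) * s := Subtype.ext h4
    apply Subtype.ext
    change (c : N) * t = t * c
    rw [← hst']
    calc (c : N) * (n * s * n⁻¹) = n * ((n⁻¹ * (c : N) * n⁻¹⁻¹) * s) * n⁻¹ := by group
      _ = n * (s * (n⁻¹ * (c : N) * n⁻¹⁻¹)) * n⁻¹ := by rw [h5]
      _ = n * s * n⁻¹ * c := by group
  apply Cfsg.Agent.Transfer.hasNPC_of_normalizer_le_centralizer T
  intro x _
  rw [Subgroup.mem_centralizer_iff]
  intro t ht
  exact ((Subgroup.mem_center_iff.mp (hTc ht)) x).symm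

/-- Let p ≥ 5 be a prime, S a Sylow p-subgroup of the finite group G and J(S) the subgroup generated by the abelian subgroups of S of largest order. Then G has a normal p-complement if and only if N_G(J(S))/C_G(J(S)) is a p-group (every element of N_G(J(S)) of order prime to p centralizes J(S)). -/
theorem result {G : Type*} [Group G] [Finite G] {p : ℕ} [Fact p.Prime]
    (hp : 5 ≤ p) (S : Sylow p G) :
    Cfsg.HasNormalPComplement p G ↔
      ∀ g ∈ Subgroup.normalizer (Cfsg.thompsonSubgroupAOf (S : Subgroup G) : Set G), (orderOf g).Coprime p →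
        g ∈ Subgroup.centralizer (Cfsg.thompsonSubgroupAOf (S : Subgroup G) : Set G) := by
  constructor
  · intro h g hg hgp
    refine Cfsg.Agent.Transfer.HasNPC.mem_centralizer h ?_ hg hgp
    exact (S.isPGroup'.to_subgroup (thompsonSubgroupA (S : Subgroup G))).map _
  · intro h
    refine Cfsg.Agent.ZJ.hasNPC_of_functors' (ι := Unit) (fun _ X _ => thompsonSubgroupA X)
      (fun _ => Cfsg.Agent.ZJ.isNat_thompsonA) (fun _ X _ _ hX hn => thompsonA_ne_bot X hX hn) ?_ G S
      (fun _ => npc_normalizer S h)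
    intro G _ _ P M hsp hrel
    have h1 := hrel ()
    set J := Cfsg.thompsonSubgroupAOf (P : Subgroup G) with hJ
    set O := pCore p G with hO
    have hOn : O.Normal := inferInstance
    have hJn : J.Normal := by
      have hle : ∀ A ∈ Cfsg.Agent.ZJ.maxIn (fun A : Subgroup G => IsMulCommutative A) (P : Subgroup G),
          A ≤ O := fun A hA => Cfsg.Agent.H51.le_pCore_of_special hp P M hsp hA
      obtain ⟨A₀, hA₀⟩ := Cfsg.Agent.ZJ.maxIn_nonempty (fun A : Subgroup G => IsMulCommutative A)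
        (inferInstance : IsMulCommutative (⊥ : Subgroup G)) (P : Subgroup G)
      have hOP : O ≤ P := Cfsg.Agent.Solv.pCore_le_sylow P
      have h2 := Cfsg.Agent.ZJ.maxIn_eq_of_mem hOP hA₀ (hle A₀ hA₀)
      have h3 : Cfsg.Agent.ZJ.maxIn (fun A : Subgroup G => IsMulCommutative A) O =
          Cfsg.Agent.ZJ.maxIn (fun A : Subgroup G => IsMulCommutative A) (P : Subgroup G) := by
        rw [h2]
        ext X
        exact ⟨fun h => h.1, fun h => ⟨h, hle X h⟩⟩
      have h4 : J = Cfsg.thompsonSubgroupAOf O := by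
        rw [hJ, Cfsg.Agent.ZJ.thompsonSubgroupAOf_eq, Cfsg.Agent.ZJ.thompsonSubgroupAOf_eq, h3]
      have h5 := Cfsg.Agent.ZJ.normalizer_le_normalizer_rel Cfsg.Agent.ZJ.isNat_thompsonA O
      rw [Subgroup.normalizer_eq_top_iff.mpr hOn] at h5
      rw [h4, ← Subgroup.normalizer_eq_top_iff]
      exact top_le_iff.mp h5
    have h6 : Subgroup.normalizer (J : Set G) = P := h1
    rw [Subgroup.normalizer_eq_top_iff.mpr hJn] at h6
    exact hsp.ne_top h6.symm

end Cfsg.Agent.S3070
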