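import Cfsg.Statements.S3073
import Cfsg.Agent.H51.CharNPC

set_option autoImplicit false
universe u
open Cfsg

namespace Cfsg.Agent.S3073

/-- For an odd prime p, every finite p-group S has a characteristic subgroup K with C_S(K) ≤ K such that, whenever S is (isomorphic to) a Sylow p-subgroup of a finite group G, G has a normal p-complement if and only if N_G(K)/C_G(K) is a p-group, i.e. every element of N_G(K) of order prime to p centralizes K (K transported into G along the isomorphism). -/
theorem result (p : ℕ) [Fact p.Prime] (hp : p ≠ 2)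
    (S : Type u) [Group S] [Finite S] (hS : IsPGroup p S) :
    ∃ K : Subgroup S, K.Characteristic ∧ Subgroup.centralizer (K : Set S) ≤ K ∧
      ∀ (G : Type u) [Group G] [Finite G] (P : Sylow p G) (e : ↥(P : Subgroup G) ≃* S),
        Cfsg.HasNormalPComplement p G ↔
          ∀ g ∈ Subgroup.normalizer (((K.comap (e : ↥(P : Subgroup G) →* S)).map (P : Subgroup G).subtype : Subgroup G) : Set G),
            (orderOf g).Coprime p →
              g ∈ Subgroup.centralizer (((K.comap (e : ↥(P : Subgroup G) →* S)).map (P : Subgroup G).subtype : Subgroup G) : Set G) := by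
  obtain ⟨K, hK1, hK2, hK3⟩ := Cfsg.Agent.H51.exists_char_npc p hp _ S rfl hS
  refine ⟨K, hK1, hK2, ?_⟩
  intro G _ _ P e
  have hmap : (K.comap (e : ↥(P : Subgroup G) →* S)).map (P : Subgroup G).subtype =
      K.map ((P : Subgroup G).subtype.comp e.symm.toMonoidHom) := by
    rw [← Subgroup.map_map]
    congr 1
    ext x
    constructor
    · intro hx
      exact ⟨e x, hx, e.symm_apply_apply x⟩
    · rintro ⟨y, hy, rfl⟩
      show e (e.symm y) ∈ K
      rwa [e.apply_symm_apply]
  have hp' : IsPGroup p (((K.comap (e : ↥(P : Subgroup G) →* S)).map (P : Subgroup G).subtype : Subgroup G)) :=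
    P.isPGroup'.to_le (Subgroup.map_subtype_le _)
  constructor
  · intro h g hg hgp
    exact Cfsg.Agent.Transfer.HasNPC.mem_centralizer h hp' hg hgp
  · intro h
    rw [hmap] at h
    refine hK3 G P _ ?_ ?_ h
    · exact (P : Subgroup G).subtype_injective.comp e.symm.injective
    · rw [MonoidHom.range_comp]
      have : (e.symm.toMonoidHom).range = ⊤ := MonoidHom.range_eq_top.mpr e.symm.surjective
      rw [this, ← MonoidHom.range_eq_map, Subgroup.range_subtype]

end Cfsg.Agent.S3073
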