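import Cfsg.Statements.S3074
import Cfsg.Agent.H51.QdSylow

set_option autoImplicit false
open Cfsg

namespace Cfsg.Agent.S3074

open Cfsg.Agent.H51
open Cfsg.Agent.Extra

theorem ges_equiv {p : ℕ} {P Q : Type*} [Group P] [Group Q] (e : P ≃* Q) (h : GES p P) : GES p Q := by
  constructor
  · rw [← h.card_center]
    exact (Nat.card_congr (Subgroup.centerCongr e).toEquiv).symm
  · rw [classTwo_iff]
    intro x y
    rw [Subgroup.mem_center_iff]
    intro g
    have h1 := h.classTwo.mem (e.symm x) (e.symm y)
    rw [Subgroup.mem_center_iff] at h1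
    have h2 := congrArg e (h1 (e.symm g))
    simpa [commutatorElement_def] using h2

/-- Let p be an odd prime. A Sylow p-subgroup of Qd(p), the split extension of an elementary abelian group of order p² by SL₂(p) acting naturally, is extraspecial of order p³ and exponent p. -/
theorem result (p : ℕ) [Fact p.Prime] (hp : p ≠ 2) (P : Sylow p ↥(Cfsg.qd p)) :
    Cfsg.IsExtraspecial p ↥P ∧ Nat.card P = p ^ 3 ∧ Monoid.exponent ↥P = p := by
  have e : ↥(heisSylow p) ≃* ↥P := Sylow.equiv (heisSylow p) P
  have hc : Nat.card ↥P = p ^ 3 := by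
    rw [← Nat.card_congr e.toEquiv]
    exact card_heisSub
  have hp1 := (Fact.out : p.Prime).one_lt
  refine ⟨?_, hc, ?_⟩
  · have hG : GES p ↥P := ges_equiv e ges_heisSub
    refine isExtraspecial_of_ges hG fun htop => ?_
    have h1 := hG.card_center
    rw [htop, Subgroup.card_top, hc] at h1
    have : p ^ 1 < p ^ 3 := Nat.pow_lt_pow_right hp1 (by norm_num)
    rw [h1, pow_one] at this
    exact lt_irrefl _ this
  · rw [← Monoid.exponent_eq_of_mulEquiv e]
    have h1 : Monoid.exponent ↥(heisSylow p) ∣ p := by
      apply Monoid.exponent_dvd_of_forall_pow_eq_one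
      rintro ⟨g, hg⟩
      obtain ⟨a, x, y, rfl⟩ := hg
      apply Subtype.ext
      exact heis_pow_p hp a x y
    rcases (Nat.dvd_prime (Fact.out : p.Prime)).mp h1 with h2 | h2
    · exfalso
      have h3 := Monoid.exp_eq_one_iff.mp h2
      have h4 : Nat.card ↥(heisSylow p) = 1 := by
        exact Nat.card_of_subsingleton (1 : ↥(heisSylow p))
      rw [Nat.card_congr e.toEquiv, hc] at h4
      have : p ^ 0 < p ^ 3 := Nat.pow_lt_pow_right hp1 (by norm_num)
      rw [h4, pow_zero] at this
      exact lt_irrefl _ this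
    · exact h2

end Cfsg.Agent.S3074
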