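import Cfsg.Statements.S3075
import Cfsg.Agent.H51.Replacement
import Cfsg.Agent.H4.CardSL

set_option autoImplicit false
open Cfsg

namespace Cfsg.Agent.S3075

open Cfsg.Agent.H51
open Matrix

/-- The order of `SL₂` over the field with `p` elements, in the form needed. -/
theorem card_SL2_gt {F : Type*} [Field F] [Fintype F] {p : ℕ} (hp : 2 ≤ p)
    (hF : Fintype.card F = p) :
    (p - 1) * (p ^ 2 - p) < Nat.card (Matrix.SpecialLinearGroup (Fin 2) F) := by
  have h1 := Cfsg.Agent.H4.card_SL_mul (F := F) 2 (by norm_num)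
  have h2 : Nat.card (GL (Fin 2) F) = (p ^ 2 - 1) * (p ^ 2 - p) := by
    rw [Matrix.card_GL_field, hF, Fin.prod_univ_two]
    simp
  rw [h2, hF] at h1
  obtain ⟨k, rfl⟩ : ∃ k, p = k + 2 := ⟨p - 2, by omega⟩
  set s := Nat.card (Matrix.SpecialLinearGroup (Fin 2) F)
  have h3 : k + 2 - 1 = k + 1 := by omega
  have h4 : (k + 2) ^ 2 - (k + 2) = (k + 2) * (k + 1) := by
    have : (k + 2) ^ 2 = (k + 2) * (k + 1) + (k + 2) := by ring
    omega
  have h5 : (k + 2) ^ 2 - 1 = (k + 1) * (k + 3) := by
    have : (k + 2) ^ 2 = (k + 1) * (k + 3) + 1 := by ring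
    omega
  rw [h3, h4, h5] at h1
  rw [h3, h4]
  have h6 : s = (k + 3) * ((k + 2) * (k + 1)) := by
    apply Nat.eq_of_mul_eq_mul_left (Nat.succ_pos k)
    rw [← Nat.add_one, h1]
    ring
  rw [h6]
  have : 0 < (k + 2) * (k + 1) := by positivity
  nlinarith

/-- Let p be an odd prime and N a finite group with a normal elementary abelian subgroup A of order p² that is its own centralizer in N, such that N/A is isomorphic to SL₂(p) (over any field F with p elements). Then N splits over A: some subgroup U of N satisfies A ∩ U = 1 and AU = N. -/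
theorem result {N : Type*} [Group N] [Finite N] {p : ℕ} [Fact p.Prime] (hp : p ≠ 2)
    (A : Subgroup N) [A.Normal] (hAcomm : IsMulCommutative A) (hAcard : Nat.card A = p ^ 2) (hAexp : Monoid.exponent ↥A = p)
    (hAself : Subgroup.centralizer (A : Set N) = A)
    {F : Type*} [Field F] [Fintype F] (hF : Fintype.card F = p) (e : N ⧸ A ≃* Matrix.SpecialLinearGroup (Fin 2) F) :
    ∃ U : Subgroup N, A ⊓ U = ⊥ ∧ A ⊔ U = ⊤ := by
  classical
  have hpp : p.Prime := Fact.out
  have hp3 : 3 ≤ p := by
    have := hpp.two_le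
    omega
  have hAc := (isComm_iff A).mp hAcomm
  have hApow : ∀ a ∈ A, a ^ p = 1 := by
    intro a ha
    have := Monoid.pow_exponent_eq_one (⟨a, ha⟩ : A)
    rw [hAexp] at this
    exact congrArg Subtype.val this
  -- the central involution of SL₂
  have hchar : (2 : F) ≠ 0 := by
    intro h
    have h1 : (Fintype.card F : F) = 0 := FiniteField.cast_card_eq_zero F
    rw [hF] at h1
    obtain ⟨m, hm⟩ : ∃ m, p = 2 * m + 1 := by
      rcases hpp.eq_two_or_odd' with h2 | ⟨m, hm⟩
      · exact absurd h2 hp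
      · exact ⟨m, hm⟩
    rw [hm] at h1
    push_cast at h1
    rw [h, zero_mul, zero_add] at h1
    exact one_ne_zero h1
  set z : Matrix.SpecialLinearGroup (Fin 2) F := -1 with hz
  have hz1 : z ≠ 1 := by
    intro h
    have h1 := congrArg (fun M : Matrix.SpecialLinearGroup (Fin 2) F =>
      (M : Matrix (Fin 2) (Fin 2) F) 0 0) h
    simp [hz] at h1
    apply hchar
    have h2 : (1 : F) + 1 = 0 := by
      nth_rewrite 1 [← h1]; ring
    rw [← h2]; norm_num
  have hz2 : z * z = 1 := by simp [hz]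
  have hzc : ∀ g, g * z = z * g := by
    intro g
    simp [hz]
  set zb : N ⧸ A := e.symm z with hzb
  have hzb1 : zb ≠ 1 := by
    intro h
    apply hz1
    have := congrArg e h
    simpa [hzb] using this
  have hzb2 : zb * zb = 1 := by
    rw [hzb, ← map_mul, hz2, map_one]
  have hzbc : ∀ g, g * zb = zb * g := by
    intro g
    apply e.injective
    rw [map_mul, map_mul, hzb, MulEquiv.apply_symm_apply]
    exact hzc _
  obtain ⟨n₀, hn₀⟩ := QuotientGroup.mk'_surjective A zb
  have hn₀2 : n₀ * n₀ ∈ A := by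
    rw [← QuotientGroup.eq_one_iff]
    have : ((n₀ * n₀ : N) : N ⧸ A) = zb * zb := by
      rw [← hn₀]; rfl
    rw [this, hzb2]
  obtain ⟨m, hm⟩ : ∃ m, p = 2 * m + 1 := by
    rcases hpp.eq_two_or_odd' with h2 | ⟨m, hm⟩
    · exact absurd h2 hp
    · exact ⟨m, hm⟩
  set t := n₀ ^ p with ht
  have htb : (t : N ⧸ A) = zb := by
    have h1 : (t : N ⧸ A) = zb ^ p := by
      rw [ht, ← hn₀]; rfl
    rw [h1, hm, pow_succ, pow_mul, pow_two, hzb2, one_pow, one_mul]
  have ht2 : t * t = 1 := by
    have h1 : t * t = (n₀ * n₀) ^ p := by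
      rw [ht, ← pow_two, ← pow_two, ← pow_mul, ← pow_mul, mul_comm]
    rw [h1, hApow _ hn₀2]
  have htinv : t⁻¹ = t := inv_eq_of_mul_eq_one_left ht2
  -- conjugates of t are t modulo A
  have htn : ∀ n : N, t⁻¹ * (n * t * n⁻¹) ∈ A := by
    intro n
    rw [← QuotientGroup.eq]
    have : ((n * t * n⁻¹ : N) : N ⧸ A) = (n : N ⧸ A) * (t : N ⧸ A) * (n : N ⧸ A)⁻¹ := rfl
    rw [this, htb, hzbc]; group
  set B : Subgroup N := A ⊓ Subgroup.centralizer {t} with hB
  have hBn : B.Normal := by
    refine ⟨fun b hb n => ?_⟩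
    refine ⟨(inferInstance : A.Normal).conj_mem b hb.1 n, ?_⟩
    refine Subgroup.mem_centralizer_singleton_iff.mpr ?_
    have h1 : b * t = t * b := Subgroup.mem_centralizer_singleton_iff.mp hb.2
    set b' := n * b * n⁻¹ with hb'
    set a' := t⁻¹ * (n * t * n⁻¹) with ha'
    have hb'A : b' ∈ A := (inferInstance : A.Normal).conj_mem b hb.1 n
    have h2 : b' * (t * a') = (t * a') * b' := by
      have h3 : t * a' = n * t * n⁻¹ := by rw [ha']; group
      rw [h3, hb']
      calc n * b * n⁻¹ * (n * t * n⁻¹) = n * (b * t) * n⁻¹ := by group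
        _ = n * (t * b) * n⁻¹ := by rw [h1]
        _ = _ := by group
    have h3 : a' * b' = b' * a' := hAc a' (htn n) b' hb'A
    have h4 : b' * t * a' = t * b' * a' := by
      rw [mul_assoc, h2, mul_assoc, h3, ← mul_assoc]
    exact mul_right_cancel h4
  have hBbot : B = ⊥ := by
    by_contra hB1
    have hBA : B ≤ A := inf_le_left
    have hBneA : B ≠ A := by
      intro h
      have h1 : t ∈ Subgroup.centralizer (A : Set N) := by
        rw [Subgroup.mem_centralizer_iff]
        intro a ha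
        have h2 : a ∈ B := by rw [h]; exact ha
        exact Subgroup.mem_centralizer_singleton_iff.mp h2.2
      rw [hAself] at h1
      apply hzb1
      rw [← htb, QuotientGroup.eq_one_iff]
      exact h1
    have hBcard : Nat.card B = p := by
      have h1 : Nat.card B ∣ p ^ 2 := hAcard ▸ Subgroup.card_dvd_of_le hBA
      obtain ⟨k, hk, hk2⟩ := (Nat.dvd_prime_pow hpp).mp h1
      interval_cases k
      · rw [pow_zero] at hk2
        exact absurd (Subgroup.eq_bot_of_card_eq B hk2) hB1
      · rw [hk2, pow_one]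
      · exact absurd (Subgroup.eq_of_le_of_card_ge hBA (by rw [hAcard, hk2])) hBneA
    obtain ⟨b₀, hb₀, hb₀1⟩ : ∃ b ∈ B, b ≠ 1 := by
      by_contra hcon
      push Not at hcon
      exact hB1 ((Subgroup.eq_bot_iff_forall _).mpr hcon)
    obtain ⟨a₀, ha₀, ha₀B⟩ : ∃ a ∈ A, a ∉ B := SetLike.exists_of_lt (lt_of_le_of_ne hBA hBneA)
    have hcl : Subgroup.closure ({b₀, a₀} : Set N) = A := by
      have hle : Subgroup.closure ({b₀, a₀} : Set N) ≤ A := by
        rw [Subgroup.closure_le]
        rintro x (rfl | rfl)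
        · exact hBA hb₀
        · exact ha₀
      have hzB : Subgroup.zpowers b₀ = B := by
        apply Subgroup.eq_of_le_of_card_ge
        · rwa [Subgroup.zpowers_le]
        · have h1 : Nat.card (Subgroup.zpowers b₀) ∣ p := hBcard ▸ Subgroup.card_dvd_of_le (by
            rwa [Subgroup.zpowers_le])
          rcases (Nat.dvd_prime hpp).mp h1 with h2 | h2
          · exfalso
            apply hb₀1
            rw [Nat.card_zpowers, orderOf_eq_one_iff] at h2
            exact h2
          · rw [hBcard, h2]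
      have hBle : B ≤ Subgroup.closure ({b₀, a₀} : Set N) := by
        rw [← hzB, Subgroup.zpowers_le]
        exact Subgroup.subset_closure (by simp)
      apply Subgroup.eq_of_le_of_card_ge hle
      have h1 : Nat.card (Subgroup.closure ({b₀, a₀} : Set N)) ∣ p ^ 2 :=
        hAcard ▸ Subgroup.card_dvd_of_le hle
      obtain ⟨k, hk, hk2⟩ := (Nat.dvd_prime_pow hpp).mp h1
      have hlt : Nat.card B < Nat.card (Subgroup.closure ({b₀, a₀} : Set N)) := by
        by_contra hge
        push Not at hge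
        have := Subgroup.eq_of_le_of_card_ge hBle hge
        exact ha₀B (this ▸ Subgroup.subset_closure (by simp))
      rw [hBcard, hk2] at hlt
      interval_cases k
      · rw [pow_zero] at hlt; omega
      · rw [pow_one] at hlt; omega
      · rw [hAcard, hk2]
    have hcent : ∀ m : N, b₀ * m = m * b₀ → a₀ * m = m * a₀ → m ∈ A := by
      intro m h1 h2
      rw [← hAself, ← hcl, Subgroup.centralizer_closure, Subgroup.mem_centralizer_iff]
      rintro x (rfl | rfl)
      · exact h1
      · exact h2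
    -- the injection
    let f : N ⧸ A → ((B : Set N) \ {1} : Set N) × ((A : Set N) \ (B : Set N) : Set N) := fun q =>
      (⟨q.out * b₀ * q.out⁻¹, hBn.conj_mem _ hb₀ _, by
          rw [Set.mem_singleton_iff]
          intro h
          apply hb₀1
          have : b₀ = q.out⁻¹ * (q.out * b₀ * q.out⁻¹) * q.out := by group
          rw [this, h]; group⟩,
        ⟨q.out * a₀ * q.out⁻¹, (inferInstance : A.Normal).conj_mem _ ha₀ _, by
          intro h
          apply ha₀B
          have : a₀ = q.out⁻¹ * (q.out * a₀ * q.out⁻¹) * (q.out⁻¹)⁻¹ := by group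
          rw [this]
          exact hBn.conj_mem _ h _⟩)
    have hf : Function.Injective f := by
      intro q r hqr
      have h1 : q.out * b₀ * q.out⁻¹ = r.out * b₀ * r.out⁻¹ :=
        congrArg (fun x => (x.1 : N)) hqr
      have h2 : q.out * a₀ * q.out⁻¹ = r.out * a₀ * r.out⁻¹ :=
        congrArg (fun x => (x.2 : N)) hqr
      have h3 : q.out⁻¹ * r.out ∈ A := by
        apply hcent
        · calc b₀ * (q.out⁻¹ * r.out) = q.out⁻¹ * (q.out * b₀ * q.out⁻¹) * r.out := by group
            _ = q.out⁻¹ * (r.out * b₀ * r.out⁻¹) * r.out := by rw [h1]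
            _ = _ := by group
        · calc a₀ * (q.out⁻¹ * r.out) = q.out⁻¹ * (q.out * a₀ * q.out⁻¹) * r.out := by group
            _ = q.out⁻¹ * (r.out * a₀ * r.out⁻¹) * r.out := by rw [h2]
            _ = _ := by group
      have h4 := QuotientGroup.eq.mpr h3
      rwa [QuotientGroup.out_eq', QuotientGroup.out_eq'] at h4
    have hle := Nat.card_le_card_of_injective f hf
    rw [Nat.card_prod, Nat.card_congr e.toEquiv] at hle
    have h5 : Nat.card ((B : Set N) \ {1} : Set N) = p - 1 := by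
      rw [Nat.card_coe_set_eq, Set.ncard_diff_singleton_of_mem B.one_mem, ← Nat.card_coe_set_eq]
      exact congrArg (· - 1) hBcard
    have h6 : Nat.card ((A : Set N) \ (B : Set N) : Set N) = p ^ 2 - p := by
      rw [Nat.card_coe_set_eq, Set.ncard_diff (SetLike.coe_subset_coe.mpr hBA)
        (Set.toFinite _), ← Nat.card_coe_set_eq, ← Nat.card_coe_set_eq]
      exact congrArg₂ (· - ·) hAcard hBcard
    rw [h5, h6] at hle
    exact absurd hle (not_le.mpr (card_SL2_gt hpp.two_le hF))
  -- the commutator map is onto A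
  have hsurj : ∀ a' ∈ A, ∃ a ∈ A, a * t * a⁻¹ * t⁻¹ = a' := by
    let φ : A → A := fun a => ⟨a * (t * (a : N)⁻¹ * t⁻¹), A.mul_mem a.2
      ((inferInstance : A.Normal).conj_mem _ (A.inv_mem a.2) t)⟩
    have hφ : Function.Injective φ := by
      intro a b hab
      have h1 : (a : N) * (t * (a : N)⁻¹ * t⁻¹) = b * (t * (b : N)⁻¹ * t⁻¹) :=
        congrArg Subtype.val hab
      have h2 : (b : N)⁻¹ * a ∈ B := by
        refine ⟨A.mul_mem (A.inv_mem b.2) a.2, ?_⟩
        refine Subgroup.mem_centralizer_singleton_iff.mpr ?_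
        have h3 : (b : N)⁻¹ * a * (t * (a : N)⁻¹ * t⁻¹) = t * (b : N)⁻¹ * t⁻¹ := by
          rw [mul_assoc, h1]; group
        have h4 : (b : N)⁻¹ * a = t * (b : N)⁻¹ * t⁻¹ * (t * (a : N)⁻¹ * t⁻¹)⁻¹ := by
          rw [← h3]; group
        have h5 : (b : N)⁻¹ * a = t * ((b : N)⁻¹ * a) * t⁻¹ := by
          calc (b : N)⁻¹ * a = t * (b : N)⁻¹ * t⁻¹ * (t * (a : N)⁻¹ * t⁻¹)⁻¹ := h4
            _ = _ := by group
        calc (b : N)⁻¹ * a * t = (t * ((b : N)⁻¹ * a) * t⁻¹) * t := by rw [← h5]
          _ = _ := by group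
      rw [hBbot, Subgroup.mem_bot] at h2
      exact Subtype.ext (by rw [← mul_one (b : N), ← h2]; group)
    have hφs := Finite.surjective_of_injective hφ
    intro a' ha'
    obtain ⟨a, ha⟩ := hφs ⟨a', ha'⟩
    refine ⟨a, a.2, ?_⟩
    have h := congrArg Subtype.val ha
    change (a : N) * (t * (a : N)⁻¹ * t⁻¹) = a' at h
    rw [← h]; group
  refine ⟨Subgroup.centralizer {t}, hBbot, ?_⟩
  rw [eq_top_iff]
  intro n _
  have h1 : n * t * n⁻¹ * t⁻¹ ∈ A := by
    have h2 := (inferInstance : A.Normal).conj_mem _ (htn n) t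
    have h3 : t * (t⁻¹ * (n * t * n⁻¹)) * t⁻¹ = n * t * n⁻¹ * t⁻¹ := by group
    rwa [h3] at h2
  obtain ⟨a, ha, hat⟩ := hsurj _ h1
  have h2 : a * t * a⁻¹ = n * t * n⁻¹ := mul_right_cancel hat
  have h3 : n = a * (a⁻¹ * n) := by group
  rw [h3]
  refine Subgroup.mul_mem _ (le_sup_left (a := A) ha) (le_sup_right (a := A) ?_)
  refine Subgroup.mem_centralizer_singleton_iff.mpr ?_
  calc a⁻¹ * n * t = a⁻¹ * (n * t * n⁻¹) * n := by group
    _ = a⁻¹ * (a * t * a⁻¹) * n := by rw [h2]
    _ = t * (a⁻¹ * n) := by group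

end Cfsg.Agent.S3075
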