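import Cfsg.Statements.S3076
import Cfsg.Agent.H51.SPE2
import Cfsg.Agent.H76.PSolvable
import Cfsg.Agent.H23.ExtLayer
import Cfsg.Agent.Transfer.NPC

set_option autoImplicit false
open Cfsg

namespace Cfsg.Agent.S3076

open Cfsg.Agent.H51
open scoped Pointwise

section General

variable {X : Type*} [Group X] [Finite X] {p : ℕ} [hp : Fact p.Prime]

theorem relIndex_comap_pCore (C : Subgroup X) [C.Normal] :
    ∃ k, C.relIndex ((pCore p (X ⧸ C)).comap (QuotientGroup.mk' C)) = p ^ k := by
  have h1 := Subgroup.relIndex_ker (QuotientGroup.mk' C)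
    (K := (pCore p (X ⧸ C)).comap (QuotientGroup.mk' C))
  rw [QuotientGroup.ker_mk', Subgroup.map_comap_eq_self_of_surjective
    (QuotientGroup.mk'_surjective _)] at h1
  rw [h1]
  exact (IsPGroup.iff_card.mp (Cfsg.Agent.Solv.pCore_isPGroup p))

theorem le_comap_pCore (C : Subgroup X) [C.Normal] :
    C ≤ (pCore p (X ⧸ C)).comap (QuotientGroup.mk' C) := by
  intro c hc
  rw [Subgroup.mem_comap]
  have : QuotientGroup.mk' C c = 1 := by simpa using hc
  rw [this]; exact Subgroup.one_mem _

theorem le_comap_pCore_of_relIndex (C M : Subgroup X) [C.Normal] [M.Normal] {k : ℕ}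
    (h : C.relIndex M ∣ p ^ k) : M ≤ (pCore p (X ⧸ C)).comap (QuotientGroup.mk' C) := by
  rw [← Subgroup.map_le_iff_le_comap]
  apply Cfsg.Agent.Solv.le_pCore
  · exact Subgroup.Normal.map inferInstance _ (QuotientGroup.mk'_surjective C)
  · have h1 := Subgroup.relIndex_ker (QuotientGroup.mk' C) (K := M)
    rw [QuotientGroup.ker_mk'] at h1
    rw [h1] at h
    obtain ⟨n, -, hn⟩ := (Nat.dvd_prime_pow hp.out).mp h
    exact IsPGroup.of_card hn

theorem main (P : Sylow p X) (H : Subgroup X) [H.Normal] (hHp : IsPGroup p H) (C : Subgroup X)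
    [C.Normal] (hC : C = Subgroup.centralizer (H : Set X)) :
    ¬ p ∣ H.relIndex ((pCore p (X ⧸ C)).comap (QuotientGroup.mk' C)) ↔
      (P : Subgroup X) ⊓ C ≤ H ∧ pPrimePCore p X = H ⊔ C := by
  have hp1 := hp.out.one_lt
  set K := pPrimeCore p X with hK
  set Q := pPrimePCore p X with hQ
  set N := (pCore p (X ⧸ C)).comap (QuotientGroup.mk' C) with hN
  have hKn : K.Normal := inferInstance
  have hQn : Q.Normal := Cfsg.Agent.H23.pPrimePCore_normal p X
  have hNn : N.Normal := inferInstance
  have hKc : (Nat.card K).Coprime p := Cfsg.Agent.Solv.pPrimeCore_card_coprime p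
  obtain ⟨kQ, hkQ⟩ := Cfsg.Agent.H23.relIndex_pPrimeCore_pPrimePCore (X := X) p
  obtain ⟨kN, hkN⟩ := relIndex_comap_pCore (p := p) C
  have hKC : K ≤ C := by
    have hcop : Disjoint K H := by
      apply Subgroup.disjoint_of_coprime_natCard
      obtain ⟨n, hn⟩ := IsPGroup.iff_card.mp hHp
      rw [hn]
      exact Nat.Coprime.pow_right _ hKc
    rw [hC]
    intro k hk
    rw [Subgroup.mem_centralizer_iff]
    intro h hh
    exact (Subgroup.commute_of_normal_of_disjoint K H inferInstance inferInstance hcop k h hk hh).eq.symm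
  have hHdvd : ∀ R : Subgroup X, IsPGroup p R → R ≤ N → ¬ p ∣ H.relIndex N → R ≤ H := by
    intro R hR hRN hnd
    have h1 : H.relIndex R ∣ H.relIndex N := Cfsg.Agent.H76.relIndex_dvd_relIndex_of_le hRN
    have h2 : H.relIndex R ∣ Nat.card R := Subgroup.relIndex_dvd_card H R
    obtain ⟨n, hn⟩ := IsPGroup.iff_card.mp hR
    rw [hn] at h2
    obtain ⟨m, -, hm⟩ := (Nat.dvd_prime_pow hp.out).mp h2
    rcases Nat.eq_zero_or_pos m with h0 | h0
    · rw [h0, pow_zero] at hm
      exact Subgroup.relIndex_eq_one.mp hm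
    · exact absurd ((dvd_pow_self p h0.ne').trans (hm ▸ h1)) hnd
  constructor
  · intro hnd
    have hPC : (P : Subgroup X) ⊓ C ≤ H :=
      hHdvd _ (P.isPGroup'.to_le inf_le_left) (inf_le_right.trans (le_comap_pCore C)) hnd
    refine ⟨hPC, le_antisymm ?_ (sup_le ?_ ?_)⟩
    · -- `Q ≤ N = H ⊔ C`
      have hQN : Q ≤ N := by
        refine le_comap_pCore_of_relIndex C Q (k := kQ) ?_
        rw [← hkQ]
        exact Subgroup.relIndex_dvd_of_le_left _ hKC
      refine hQN.trans ?_
      rw [← Subgroup.relIndex_eq_one]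
      have h1 : (H ⊔ C).relIndex N ∣ H.relIndex N := Subgroup.relIndex_dvd_of_le_left _ le_sup_left
      have h2 : (H ⊔ C).relIndex N ∣ p ^ kN := by
        rw [← hkN]
        exact Subgroup.relIndex_dvd_of_le_left _ le_sup_right
      obtain ⟨m, -, hm⟩ := (Nat.dvd_prime_pow hp.out).mp h2
      rcases Nat.eq_zero_or_pos m with h0 | h0
      · rw [hm, h0, pow_zero]
      · exact absurd ((dvd_pow_self p h0.ne').trans (hm ▸ h1)) hnd
    · obtain ⟨n, hn⟩ := IsPGroup.iff_card.mp hHp
      refine le_comap_pCore_of_relIndex K H (k := n) ?_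
      rw [← hn]
      exact Subgroup.relIndex_dvd_card _ _
    · -- Burnside
      have h1 : Cfsg.HasNormalPComplement p C := by
        apply Cfsg.Agent.Transfer.hasNPC_of_normalizer_le_centralizer
          (Cfsg.Agent.Transfer.sylowInf P C)
        intro c _
        rw [Subgroup.mem_centralizer_iff]
        intro x hx
        have hx' : (x : X) ∈ H := by
          apply hPC
          rw [← Cfsg.Agent.Transfer.sylowInf_map]
          exact ⟨x, hx, rfl⟩
        apply Subtype.ext
        have hc : (c : X) ∈ Subgroup.centralizer (H : Set X) := hC ▸ c.2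
        exact (Subgroup.mem_centralizer_iff.mp hc) x hx'
      obtain ⟨D, hDn, hD1, m, hD2⟩ : ∃ D : Subgroup C, D.Normal ∧ (Nat.card D).Coprime p ∧
          ∃ m, D.index = p ^ m := Cfsg.Agent.Transfer.hasNPC_iff_exists.mp h1
      have hDK : (pPrimeCore p C).map C.subtype ≤ K := Cfsg.Agent.Solv.map_subtype_pPrimeCore_le p C
      have h2 : D ≤ pPrimeCore p C := Cfsg.Agent.Solv.le_pPrimeCore hDn hD1
      refine le_comap_pCore_of_relIndex K C (k := m) ?_
      rw [← hD2]
      have h3 : (D.map C.subtype) ≤ K := (Subgroup.map_mono h2).trans hDK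
      have h4 : D.index = (D.map C.subtype).relIndex C := by
        rw [Subgroup.relIndex, Subgroup.subgroupOf, Subgroup.comap_map_eq_self_of_injective C.subtype_injective]
      rw [h4]
      exact Subgroup.relIndex_dvd_of_le_left _ h3
  · rintro ⟨hPC, hQe⟩
    have hCQ : C ≤ Q := by rw [hQe]; exact le_sup_right
    have hNQ : N ≤ Q := by
      refine le_comap_pCore_of_relIndex K N (k := kQ + kN) ?_
      have h1 := Subgroup.relIndex_mul_relIndex K C N hKC (le_comap_pCore C)
      rw [← h1, hkN, pow_add]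
      apply Nat.mul_dvd_mul_right
      rw [← hkQ]
      exact Cfsg.Agent.H76.relIndex_dvd_relIndex_of_le hCQ
    intro hdvd
    have h1 : p ∣ H.relIndex Q := hdvd.trans (Cfsg.Agent.H76.relIndex_dvd_relIndex_of_le hNQ)
    rw [hQe, Subgroup.relIndex_sup_left] at h1
    have h2 : H.relIndex C ∣ ((P : Subgroup X) ⊓ C).relIndex C :=
      Subgroup.relIndex_dvd_of_le_left _ hPC
    have h3 := (Cfsg.Agent.Transfer.sylowInf P C).not_dvd_index
    rw [Cfsg.Agent.Transfer.sylowInf_coe] at h3
    apply h3
    rw [Subgroup.inf_relIndex_right] at h2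
    exact h1.trans h2

omit [Finite X] hp in
theorem relIndex_map_subtype' {H Y : Subgroup X} (hHX : H ≤ Y) (N : Subgroup Y) :
    H.relIndex (N.map Y.subtype) = (H.subgroupOf Y).relIndex N := by
  conv_lhs => rw [← Subgroup.map_subgroupOf_eq_of_le hHX]
  rw [Subgroup.relIndex_map_map_of_injective _ _ Y.subtype_injective]

end General

/-- Let P be a Sylow p-subgroup of the finite group G and H ≤ P a subgroup with N_P(H) a Sylow p-subgroup of N_G(H). Let N be the preimage in N_G(H) of O_p(N_G(H)/C_G(H)). Then H is a Sylow p-subgroup of N if and only if C_P(H) ≤ H and O_{p',p}(N_G(H)) = H·C_G(H). -/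
theorem result {G : Type*} [Group G] [Finite G] {p : ℕ} [Fact p.Prime]
    (P : Sylow p G) (H : Subgroup G) (hHP : H ≤ (P : Subgroup G))
    (hSyl : ¬ p ∣ ((P : Subgroup G) ⊓ Subgroup.normalizer (H : Set G)).relIndex (Subgroup.normalizer (H : Set G)))
    [hC : ((Subgroup.centralizer (H : Set G)).subgroupOf (Subgroup.normalizer (H : Set G))).Normal] :
    (H ≤ ((Cfsg.pCore p (↥(Subgroup.normalizer (H : Set G)) ⧸
              (Subgroup.centralizer (H : Set G)).subgroupOf (Subgroup.normalizer (H : Set G)))).comap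
            (QuotientGroup.mk' _)).map (Subgroup.normalizer (H : Set G)).subtype ∧
      ¬ p ∣ H.relIndex (((Cfsg.pCore p (↥(Subgroup.normalizer (H : Set G)) ⧸
              (Subgroup.centralizer (H : Set G)).subgroupOf (Subgroup.normalizer (H : Set G)))).comap
            (QuotientGroup.mk' _)).map (Subgroup.normalizer (H : Set G)).subtype)) ↔
    ((P : Subgroup G) ⊓ Subgroup.centralizer (H : Set G) ≤ H ∧
      (Cfsg.pPrimePCore p ↥(Subgroup.normalizer (H : Set G))).map (Subgroup.normalizer (H : Set G)).subtype =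
        H ⊔ Subgroup.centralizer (H : Set G)) := by
  set X := Subgroup.normalizer (H : Set G) with hX
  have hHX : H ≤ X := Subgroup.le_normalizer
  have hCX : Subgroup.centralizer (H : Set G) ≤ X := Subgroup.centralizer_le_normalizer _
  have hHn : (H.subgroupOf X).Normal := Subgroup.normal_subgroupOf_of_le_normalizer le_rfl
  have hHp : IsPGroup p (H.subgroupOf X) := (P.isPGroup'.to_le hHP).comap_subtype
  have hSyl' : ¬ p ∣ (((P : Subgroup G) ⊓ X).subgroupOf X).index := hSyl
  have hPp : IsPGroup p (((P : Subgroup G) ⊓ X).subgroupOf X) :=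
    (P.isPGroup'.to_le inf_le_left).comap_subtype
  let P' : Sylow p X := hPp.toSylow hSyl'
  have hP' : (P' : Subgroup X) = ((P : Subgroup G) ⊓ X).subgroupOf X := IsPGroup.toSylow_coe _ _
  have hCe : (Subgroup.centralizer (H : Set G)).subgroupOf X =
      Subgroup.centralizer ((H.subgroupOf X : Subgroup X) : Set X) := by
    ext c
    rw [Subgroup.mem_subgroupOf, Subgroup.mem_centralizer_iff, Subgroup.mem_centralizer_iff]
    constructor
    · intro h x hx
      exact Subtype.ext (h x (Subgroup.mem_subgroupOf.mp hx))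
    · intro h x hx
      exact congrArg (fun t : X => (t : G)) (h ⟨x, hHX hx⟩ (Subgroup.mem_subgroupOf.mpr hx))
  have key := main P' (H.subgroupOf X) hHp _ hCe
  have h1 : H ≤ ((Cfsg.pCore p (↥X ⧸ (Subgroup.centralizer (H : Set G)).subgroupOf X)).comap
            (QuotientGroup.mk' _)).map X.subtype := by
    obtain ⟨n, hn⟩ := IsPGroup.iff_card.mp hHp
    have h2 := le_comap_pCore_of_relIndex (p := p) ((Subgroup.centralizer (H : Set G)).subgroupOf X)
      (H.subgroupOf X) (k := n) (by rw [← hn]; exact Subgroup.relIndex_dvd_card _ _)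
    have h3 := Subgroup.map_mono (f := X.subtype) h2
    rwa [Subgroup.map_subgroupOf_eq_of_le hHX] at h3
  have h2 : H.relIndex (((Cfsg.pCore p (↥X ⧸ (Subgroup.centralizer (H : Set G)).subgroupOf X)).comap
            (QuotientGroup.mk' _)).map X.subtype) =
      (H.subgroupOf X).relIndex ((Cfsg.pCore p (↥X ⧸ (Subgroup.centralizer (H : Set G)).subgroupOf X)).comap
            (QuotientGroup.mk' _)) := relIndex_map_subtype' hHX _
  rw [h2, and_iff_right h1, key]
  apply and_congr
  · rw [hP']
    constructor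
    · rintro h x ⟨hxP, hxC⟩
      exact Subgroup.mem_subgroupOf.mp (h (x := ⟨x, hCX hxC⟩)
        ⟨Subgroup.mem_subgroupOf.mpr ⟨hxP, hCX hxC⟩, Subgroup.mem_subgroupOf.mpr hxC⟩)
    · rintro h x ⟨hxP, hxC⟩
      exact Subgroup.mem_subgroupOf.mpr (h ⟨(Subgroup.mem_subgroupOf.mp hxP).1,
        Subgroup.mem_subgroupOf.mp hxC⟩)
  · constructor
    · intro h
      rw [h, Subgroup.map_sup, Subgroup.map_subgroupOf_eq_of_le hHX,
        Subgroup.map_subgroupOf_eq_of_le hCX]
    · intro h
      apply Subgroup.map_injective X.subtype_injective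
      rw [h, Subgroup.map_sup, Subgroup.map_subgroupOf_eq_of_le hHX,
        Subgroup.map_subgroupOf_eq_of_le hCX]

end Cfsg.Agent.S3076
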