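import Cfsg.Statements.S3086
import Cfsg.Agent.PGV.Main

set_option autoImplicit false
open Cfsg

namespace Cfsg.Agent.S3086

/-- The P(G,V)-theorem. Let p be a prime, G a finite group acting faithfully and linearly on a finite vector space V over the field with p elements, and A a nontrivial elementary abelian p-subgroup of G such that |A|·|C_V(A)| ≥ |B|·|C_V(B)| for every subgroup B of A. Then A normalizes every component (subnormal quasisimple subgroup) of G. -/
theorem result {G V : Type*} [Group G] [Finite G] [AddCommGroup V] [Finite V] (p : ℕ) [Fact p.Prime] [Module (ZMod p) V]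
    (ρ : Representation (ZMod p) G V) (hρ : Function.Injective ρ)
    (A : Subgroup G) (hA : A ≠ ⊥) (hAel : Cfsg.IsElementaryAbelian p A)
    (hP : ∀ B : Subgroup G, B ≤ A →
      Nat.card ↥B * Nat.card {v : V // ∀ b ∈ B, ρ b v = v} ≤ Nat.card ↥A * Nat.card {v : V // ∀ a ∈ A, ρ a v = v}) :
    ∀ K : Subgroup G, Cfsg.IsComponent K → A ≤ Subgroup.normalizer (K : Set G) := by
  intro K hK
  have hcomm : ∀ a ∈ A, ∀ c ∈ A, a * c = c * a := by
    intro a ha c hc
    haveI := hAel.1
    exact congrArg Subtype.val (mul_comm' (⟨a, ha⟩ : A) ⟨c, hc⟩)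
  have hcc : ∀ a ∈ A, (∀ l ∈ K, a * l * a⁻¹ ∈ K) ∨ (∀ l ∈ K, ∀ m ∈ K, Commute l (a * m * a⁻¹)) := by
    intro a ha
    have hKa : Cfsg.IsComponent (K.map (MulAut.conj a).toMonoidHom) :=
      (Cfsg.Agent.FStar.isComponent_conj a).2 hK
    by_cases heq : K = K.map (MulAut.conj a).toMonoidHom
    · left
      intro l hl
      rw [heq]
      exact ⟨l, hl, rfl⟩
    · right
      have h1 := Cfsg.Agent.FStar.component_commute hK hKa heq
      rw [Cfsg.Agent.FStar.commutator_eq_bot_iff_forall] at h1
      intro l hl m hm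
      exact h1 l hl _ ⟨m, hm, rfl⟩
  have hyp : Cfsg.Agent.PGV.Hyp ρ K A :=
    { qs := hK.2
      comm := hcomm
      pow := hAel.2
      cc := hcc
      nt := by
        intro htr
        apply Cfsg.Agent.FStar.ne_bot hK.2
        rw [eq_bot_iff]
        intro l hl
        rw [Subgroup.mem_bot]
        apply hρ
        rw [map_one]
        ext v
        exact htr l hl v
      bo := fun B hB => hP B hB }
  intro a ha
  exact Cfsg.Agent.PGV.mem_normalizer_of_pow (Fact.out : p.Prime).pos (hAel.2 a ha)
    (Cfsg.Agent.PGV.main ρ K A hyp a ha)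

end Cfsg.Agent.S3086
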