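import Cfsg.Statements.S3087


set_option autoImplicit false
open Cfsg

namespace Cfsg.Agent.S3087

theorem add_card_eq_card_inf_mul {M : Type*} [AddGroup M] (A B : AddSubgroup M) :
    Nat.card A = Nat.card (A ⊓ B : AddSubgroup M) * B.relIndex A := by
  have := AddSubgroup.relIndex_mul_relIndex (⊥ : AddSubgroup M) (A ⊓ B) A bot_le inf_le_left
  rw [AddSubgroup.relIndex_bot_left, AddSubgroup.relIndex_bot_left,
    AddSubgroup.inf_relIndex_left] at this
  exact this.symm

theorem add_card_mul_card_le {M : Type*} [AddGroup M] [Finite M] (A B C : AddSubgroup M)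
    (hA : A ≤ C) (hB : B ≤ C) :
    Nat.card A * Nat.card B ≤ Nat.card (A ⊓ B : AddSubgroup M) * Nat.card C := by
  have h1 : Nat.card C = Nat.card B * B.relIndex C := by
    have := AddSubgroup.relIndex_mul_relIndex (⊥ : AddSubgroup M) B C bot_le hB
    rw [AddSubgroup.relIndex_bot_left, AddSubgroup.relIndex_bot_left] at this
    exact this.symm
  rw [add_card_eq_card_inf_mul A B, h1, mul_assoc, mul_comm (Nat.card B)]
  apply Nat.mul_le_mul_left
  apply Nat.mul_le_mul_right
  exact AddSubgroup.relIndex_le_of_le_right hA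
    (AddSubgroup.index_ne_zero_of_finite (H := B.addSubgroupOf C))

/-- Let p be a prime, G a finite group acting linearly on a finite vector space V over the field with p elements, W a G-invariant subspace, and A a subgroup of G with |A|·|C_V(A)| ≥ |B|·|C_V(B)| for every subgroup B of A. Then |A|·|C_W(A)| ≥ |B|·|C_W(B)| for every subgroup B of A that contains C_A(W); that is, the image of A in the group induced on W satisfies the same maximality condition. -/
theorem result {G V : Type*} [Group G] [Finite G] [AddCommGroup V] [Finite V] (p : ℕ) [Fact p.Prime] [Module (ZMod p) V]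
    (ρ : Representation (ZMod p) G V) (W : Submodule (ZMod p) V) (hW : ∀ g : G, ∀ w ∈ W, ρ g w ∈ W)
    (A : Subgroup G)
    (hP : ∀ B : Subgroup G, B ≤ A →
      Nat.card ↥B * Nat.card {v : V // ∀ b ∈ B, ρ b v = v} ≤ Nat.card ↥A * Nat.card {v : V // ∀ a ∈ A, ρ a v = v})
    (B : Subgroup G) (hBA : B ≤ A) (hCB : ∀ a ∈ A, (∀ w ∈ W, ρ a w = w) → a ∈ B) :
    Nat.card ↥B * Nat.card {w : W // ∀ b ∈ B, ρ b w = w} ≤ Nat.card ↥A * Nat.card {w : W // ∀ a ∈ A, ρ a w = w} := by
  classical
  -- fixed spaces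
  let fx : Subgroup G → AddSubgroup V := fun B =>
    { carrier := {v | ∀ b ∈ B, ρ b v = v}
      zero_mem' := fun b _ => map_zero _
      add_mem' := fun {x y} hx hy b hb => by rw [map_add, hx b hb, hy b hb]
      neg_mem' := fun {x} hx b hb => by rw [map_neg, hx b hb] }
  have hfx : ∀ (B : Subgroup G) (v : V), v ∈ fx B ↔ ∀ b ∈ B, ρ b v = v := fun _ _ => Iff.rfl
  have hcV : ∀ B : Subgroup G, Nat.card {v : V // ∀ b ∈ B, ρ b v = v} = Nat.card (fx B) :=
    fun B => rfl
  have hcW : ∀ B : Subgroup G, Nat.card {w : W // ∀ b ∈ B, ρ b w = w} =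
      Nat.card (fx B ⊓ W.toAddSubgroup : AddSubgroup V) := by
    intro B
    refine Nat.card_congr
      { toFun := fun w => ⟨w.1.1, w.2, w.1.2⟩
        invFun := fun v => ⟨⟨v.1, v.2.2⟩, v.2.1⟩
        left_inv := fun w => rfl
        right_inv := fun v => rfl }
  have h1 := hP B hBA
  rw [hcV, hcV] at h1
  rw [hcW, hcW]
  have hAB : fx A ≤ fx B := fun v hv b hb => hv b (hBA hb)
  have h2 := add_card_mul_card_le (fx B ⊓ W.toAddSubgroup) (fx A) (fx B) inf_le_left hAB
  have h3 : (fx B ⊓ W.toAddSubgroup) ⊓ fx A = fx A ⊓ W.toAddSubgroup := by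
    rw [inf_assoc, inf_comm W.toAddSubgroup, ← inf_assoc, inf_eq_right.mpr hAB]
  rw [h3] at h2
  have hpos : 0 < Nat.card (fx A) := Nat.card_pos
  refine Nat.le_of_mul_le_mul_right ?_ hpos
  calc Nat.card B * Nat.card (fx B ⊓ W.toAddSubgroup : AddSubgroup V) * Nat.card (fx A)
      = Nat.card B * (Nat.card (fx B ⊓ W.toAddSubgroup : AddSubgroup V) * Nat.card (fx A)) := by ring
    _ ≤ Nat.card B * (Nat.card (fx A ⊓ W.toAddSubgroup : AddSubgroup V) * Nat.card (fx B)) :=
        Nat.mul_le_mul_left _ h2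
    _ = Nat.card (fx A ⊓ W.toAddSubgroup : AddSubgroup V) * (Nat.card B * Nat.card (fx B)) := by ring
    _ ≤ Nat.card (fx A ⊓ W.toAddSubgroup : AddSubgroup V) * (Nat.card A * Nat.card (fx A)) :=
        Nat.mul_le_mul_left _ h1
    _ = _ := by ring

end Cfsg.Agent.S3087
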