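import Cfsg.Statements.S3109
import Cfsg.Agent.H32.SECon
import Cfsg.Agent.H32.SEBS

set_option autoImplicit false
open Cfsg

namespace Cfsg.Agent.S3109

open H32.SFB H32.SE

/-- Let G be a non-abelian finite simple group in which every 2-local subgroup is 2-constrained, and suppose some Sylow 2-subgroup S of G has a self-centralizing abelian normal subgroup A (C_S(A) = A) of 2-rank at least 3. Then the centralizer of every involution of G has no nontrivial normal subgroup of odd order. -/
theorem result {G : Type*} [Group G] [Finite G] [IsSimpleGroup G] (hG : ¬ IsMulCommutative G)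
    (h2c : ∀ T : Subgroup G, IsPGroup 2 T → T ≠ ⊥ → Cfsg.IsPConstrained 2 ↥(Subgroup.normalizer (T : Set G)))
    (S : Sylow 2 G) (A : Subgroup ↥(S : Subgroup G)) (hAn : A.Normal) (hAab : IsMulCommutative ↥A)
    (hAC : Subgroup.centralizer (A : Set ↥(S : Subgroup G)) = A) (hA3 : ¬ Cfsg.PRankLE 2 2 ↥A) :
    ∀ t : G, orderOf t = 2 → Cfsg.centralizerPPrimeCore 2 t = ⊥ := by
  haveI : Fact (Nat.Prime 2) := ⟨Nat.prime_two⟩
  obtain ⟨V, hVS, hV, hV3, hSV⟩ := exists_V hAn hAab hA3
  have hS : (S : Subgroup G) ≠ ⊥ := by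
    intro h
    rw [h, le_bot_iff] at hVS
    rw [hVS, Subgroup.card_bot] at hV3
    norm_num at hV3
  have hcc : CentConstr G := fun t ht => AllConstr.centralizer h2c (sq_of_order ht).1 (sq_of_order ht).2
  have hO : Cfsg.oddCore G = ⊥ := by
    have hn : (Cfsg.oddCore G).Normal := by infer_instance
    rcases hn.eq_bot_or_eq_top with h | h
    · exact h
    · exfalso
      have h1 : (Nat.card (Cfsg.oddCore G)).Coprime 2 := Solv.pPrimeCore_card_coprime 2
      rw [h, Subgroup.card_top] at h1
      have h2 : Nat.card V ∣ Nat.card G := Subgroup.card_subgroup_dvd_card V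
      obtain ⟨n, hn⟩ := elem_card (p := 2) hV
      rw [hn] at h2 hV3
      rcases n with _ | n
      · norm_num at hV3
      · have h3 := Nat.Coprime.eq_one_of_dvd h1.symm ((dvd_pow_self 2 (Nat.succ_ne_zero n)).trans h2)
        omega
  intro t ht
  exact core_trivial H32.SE.strongCore hcc hO S (inEight_of_normal hVS hV hV3 hSV) hS _
    (fun B hB hBr => cc_W_eq hcc S.2 hV hV3 hSV hB hBr) ht

end Cfsg.Agent.S3109
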