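import Cfsg.Statements.S3110
import Cfsg.Agent.H32.SFConstr
import Cfsg.Agent.SigO.Con2

set_option autoImplicit false
open Cfsg

namespace Cfsg.Agent.S3110

open H32.SFB

/-- Let G be a finite group in which every 2-local subgroup is 2-constrained and some Sylow 2-subgroup has a self-centralizing abelian normal subgroup of 2-rank at least 3, and let S be any Sylow 2-subgroup of G. Then there is a subgroup W of G of odd order such that, for every subgroup B of S of 2-rank at least 2, W is generated by the largest normal odd-order subgroups O(C_G(b)) of the centralizers of the non-identity elements b of B, and W is normalized by the normalizer of every such B. -/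
theorem result {G : Type*} [Group G] [Finite G]
    (h2c : ∀ T : Subgroup G, IsPGroup 2 T → T ≠ ⊥ → Cfsg.IsPConstrained 2 ↥(Subgroup.normalizer (T : Set G)))
    (S : Sylow 2 G) (A : Subgroup ↥(S : Subgroup G)) (hAn : A.Normal) (hAab : IsMulCommutative ↥A)
    (hAC : Subgroup.centralizer (A : Set ↥(S : Subgroup G)) = A) (hA3 : ¬ Cfsg.PRankLE 2 2 ↥A) (S' : Sylow 2 G) :
    ∃ W : Subgroup G, Odd (Nat.card ↥W) ∧
      ∀ B : Subgroup G, B ≤ (S' : Subgroup G) → ¬ Cfsg.PRankLE 2 1 ↥B →
        W = (⨆ b : {b : G // b ∈ B ∧ b ≠ 1}, Cfsg.centralizerPPrimeCore 2 (b : G)) ∧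
        Subgroup.normalizer (B : Set G) ≤ Subgroup.normalizer (W : Set G) := by
  haveI : Fact (Nat.Prime 2) := ⟨Nat.prime_two⟩
  obtain ⟨V, hVS, hV, hV3, hSV⟩ := exists_V hAn hAab hA3
  obtain ⟨g, hg⟩ := MulAction.exists_smul_eq G S S'
  have hS' : (S' : Subgroup G) = (S : Subgroup G).map (MulAut.conj g).toMonoidHom := by
    rw [← hg]; rfl
  have hV' := elem_map hV (MulAut.conj g).toMonoidHom
  have hV3' : 2 ^ 3 ≤ Nat.card (V.map (MulAut.conj g).toMonoidHom) := by
    rwa [Subgroup.card_map_of_injective (MulAut.conj g).injective]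
  have hSV' : (S' : Subgroup G) ≤ Subgroup.normalizer ((V.map (MulAut.conj g).toMonoidHom : Subgroup G) : Set G) := by
    rw [hS']
    exact (Subgroup.map_mono hSV).trans (Subgroup.le_normalizer_map _)
  refine ⟨W (fun a : G => Cfsg.centralizerPPrimeCore 2 a) (V.map (MulAut.conj g).toMonoidHom), ?_, ?_⟩
  · rw [← Nat.not_even_iff_odd]
    exact fun h => (SigO.allConstr_complete h2c hV' hV3').1 h.two_dvd
  · intro B hB hBr
    have h1 := SigO.allConstr_W_eq h2c S'.2 hV' hV3' hSV' hB hBr
    refine ⟨h1.symm, ?_⟩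
    rw [← h1]
    exact conj_cppc_W

end Cfsg.Agent.S3110
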