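import Cfsg.Statements.S3155
import Mathlib

set_option autoImplicit false
open Cfsg

namespace Cfsg.Agent.S3155

/-- Let B be the direct product of three cyclic groups of order 4. Then the automorphism of B inverting every element is not the square of any automorphism of B. -/
theorem result {B : Type*} [CommGroup B] [Finite B] (hB : Nonempty (B ≃* Multiplicative (ZMod 4 × ZMod 4 × ZMod 4)))
    (τ : B ≃* B) : τ.trans τ ≠ MulEquiv.inv B := by
  intro h
  obtain ⟨e⟩ := hB
  -- additive automorphism of M = ZMod 4 × ZMod 4 × ZMod 4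
  let f : (ZMod 4 × ZMod 4 × ZMod 4) →+ (ZMod 4 × ZMod 4 × ZMod 4) :=
    { toFun := fun v => Multiplicative.toAdd (e (τ (e.symm (Multiplicative.ofAdd v))))
      map_zero' := by simp
      map_add' := by intro a b; simp [ofAdd_add, map_mul] }
  let g : (ZMod 4 × ZMod 4 × ZMod 4) →ₗ[ZMod 4] (ZMod 4 × ZMod 4 × ZMod 4) := f.toZModLinearMap 4
  have hg : g ∘ₗ g = (-1 : ZMod 4) • LinearMap.id := by
    apply LinearMap.ext
    intro v
    have h1 := congrArg (fun φ : B ≃* B => e (φ (e.symm (Multiplicative.ofAdd v)))) h
    simp only [MulEquiv.trans_apply, MulEquiv.inv_apply, map_inv, MulEquiv.apply_symm_apply] at h1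
    have h2 : g (g v) = -v := by
      show Multiplicative.toAdd (e (τ (e.symm (Multiplicative.ofAdd (Multiplicative.toAdd (e (τ (e.symm (Multiplicative.ofAdd v))))))))) = -v
      rw [ofAdd_toAdd, MulEquiv.symm_apply_apply, h1]
      rfl
    rw [LinearMap.comp_apply, h2]
    simp
  have hdet := congrArg LinearMap.det hg
  rw [LinearMap.det_comp, LinearMap.det_smul, LinearMap.det_id] at hdet
  have hr : Module.finrank (ZMod 4) (ZMod 4 × ZMod 4 × ZMod 4) = 3 := by
    have : Nontrivial (ZMod 4) := ⟨⟨0, 1, by decide⟩⟩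
    rw [Module.finrank_prod, Module.finrank_prod]
    simp [Module.finrank_self]
  rw [hr] at hdet
  generalize LinearMap.det g = d at hdet
  revert hdet
  revert d
  decide

end Cfsg.Agent.S3155
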