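import Cfsg.Statements.S3156
import Cfsg.Agent.H21.TFAut

set_option autoImplicit false
open Cfsg

namespace Cfsg.Agent.S3156

/-- If a finite group T is isomorphic to a Sylow 2-subgroup of the projective special unitary group of dimension 3 with parameter 4 (realised over the field with 16 elements), then no subgroup of the automorphism group of T is isomorphic to the symmetric group of degree 3. -/
theorem result {T : Type*} [Group T] [Finite T] (hT : (∃ (F : Type) (_ : Field F) (_ : Fintype F), Fintype.card F = 16 ∧ ∃ S : Sylow 2 (Cfsg.PSU 3 F 4), Nonempty (T ≃* ↥(S : Subgroup (Cfsg.PSU 3 F 4))))) (H : Subgroup (MulAut T)) : ¬ Nonempty (↥H ≃* Equiv.Perm (Fin 3)) := by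
  obtain ⟨F, _, _, hF, S, ⟨e⟩⟩ := hT
  obtain ⟨Z, α, h, hc, hsq, -⟩ := H21.TF.psu_conf hF S
  rintro ⟨f⟩
  let g : Equiv.Perm (Fin 3) →* MulAut S :=
    ((MulAut.congr e).toMonoidHom.comp H.subtype).comp f.symm.toMonoidHom
  have hg : Function.Injective g := by
    intro a b hab
    exact f.symm.injective (Subtype.ext ((MulAut.congr e).injective hab))
  have h3 : g (finRotate 3) = 1 := by
    apply h.no_sym_three hc hsq (τ := g (Equiv.swap 0 1))
    · rw [← map_pow, show (finRotate 3 : Equiv.Perm (Fin 3)) ^ 3 = 1 by decide, map_one]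
    · rw [← map_pow, show (Equiv.swap 0 1 : Equiv.Perm (Fin 3)) ^ 2 = 1 by decide, map_one]
    · rw [← map_mul, ← map_mul, ← map_inv]
      congr 1
      decide
  have h4 := hg (h3.trans (map_one g).symm)
  exact absurd h4 (by decide)

end Cfsg.Agent.S3156
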