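import Cfsg.Statements.S3157
import Cfsg.Agent.H21.Fpf3e

set_option autoImplicit false
open Cfsg

namespace Cfsg.Agent.S3157

/-- Let T be a non-abelian group of order 64 admitting automorphisms ρ of order 3 and x of order 2 with x ρ x⁻¹ = ρ⁻¹ (so they generate a symmetric group of degree 3), where ρ fixes only the identity. Then T is isomorphic to a Sylow 2-subgroup of the projective special linear group of dimension 3 over the field with 4 elements, and the subgroup of fixed points of x is dihedral of order 8 or quaternion of order 8. -/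
theorem result {T : Type*} [Group T] [Finite T] (hT : Nat.card T = 64) (hna : ¬ IsMulCommutative T) (ρ x : MulAut T) (hρ : orderOf ρ = 3) (hx : orderOf x = 2)
    (hxr : x * ρ * x⁻¹ = ρ⁻¹) (hfp : ∀ y : T, ρ y = y → y = 1) (C : Subgroup T) (hC : ∀ y : T, y ∈ C ↔ x y = y) :
    (∃ (F : Type) (_ : Field F) (_ : Fintype F), Fintype.card F = 4 ∧
        ∃ S : Sylow 2 (Matrix.ProjectiveSpecialLinearGroup (Fin 3) F), Nonempty (T ≃* ↥(S : Subgroup (Matrix.ProjectiveSpecialLinearGroup (Fin 3) F)))) ∧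
      (Nonempty (↥C ≃* DihedralGroup 4) ∨ Nonempty (↥C ≃* QuaternionGroup 2)) := by
  have h3 : ρ ^ 3 = 1 := by rw [← hρ, pow_orderOf_eq_one]
  have hx2 : x ^ 2 = 1 := by rw [← hx, pow_orderOf_eq_one]
  have h3' : ∀ t, ρ (ρ (ρ t)) = t := fun t => by
    have := DFunLike.congr_fun h3 t
    simpa [pow_succ] using this
  have hx' : ∀ t, x (x t) = t := fun t => by
    have := DFunLike.congr_fun hx2 t
    simpa [pow_succ] using this
  have hρ1 : ρ ≠ 1 := by
    rintro rfl
    rw [orderOf_one] at hρ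
    omega
  have hna' : ∃ a b : T, a * b ≠ b * a := by
    by_contra hcon
    push Not at hcon
    exact hna ⟨⟨hcon⟩⟩
  have hxi : x⁻¹ = x := inv_eq_of_mul_eq_one_right (by rw [← pow_two, hx2])
  have hxr' : ∀ t, x (ρ t) = ρ⁻¹ (x t) := fun t => by
    have h1 : x * ρ = ρ⁻¹ * x := by rw [← hxr]; group
    exact DFunLike.congr_fun h1 t
  rw [hxi] at hxr
  exact ⟨H21.Fpf3.iso_part hT hna' hfp h3' h3 hρ1 hx2 hxr, H21.Fpf3.fix_part hT hna' hfp h3' hx' hxr' hC⟩

end Cfsg.Agent.S3157
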