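import Cfsg.Statements.S3161
import Cfsg.Agent.H21.SI7

set_option autoImplicit false
open Cfsg

namespace Cfsg.Agent.S3161

/-- Let Q be a non-abelian finite 2-group admitting commuting automorphisms α of order 2 and ρ of order 2^n − 1, where n ≥ 2, such that the fixed points of α form an elementary abelian subgroup of order 2^n on whose nonidentity elements the group generated by ρ acts transitively. Then Q is isomorphic to a Sylow 2-subgroup of the projective special unitary group of dimension 3 with parameter 2^n (realised over the field with 4^n elements) or of the projective special linear group of dimension 3 over the field with 2^n elements. -/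
theorem result {Q : Type*} [Group Q] [Finite Q] (hQ : IsPGroup 2 Q) (hna : ¬ IsMulCommutative Q) (n : ℕ) (hn : 2 ≤ n)
    (α ρ : MulAut Q) (hα : orderOf α = 2) (hρ : orderOf ρ = 2 ^ n - 1) (hc : Commute α ρ)
    (C : Subgroup Q) (hC : ∀ x : Q, x ∈ C ↔ α x = x) (hCE : Cfsg.IsElementaryAbelian 2 C ∧ Nat.card ↥C = 2 ^ n)
    (htr : ∀ x y : Q, x ∈ C → y ∈ C → x ≠ 1 → y ≠ 1 → ∃ k : ℕ, (ρ ^ k) x = y) :
    (∃ (F : Type) (_ : Field F) (_ : Fintype F), Fintype.card F = 4 ^ n ∧
        ∃ S : Sylow 2 (Cfsg.PSU 3 F (2 ^ n)), Nonempty (Q ≃* ↥(S : Subgroup (Cfsg.PSU 3 F (2 ^ n))))) ∨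
      (∃ (F : Type) (_ : Field F) (_ : Fintype F), Fintype.card F = 2 ^ n ∧
        ∃ S : Sylow 2 (Matrix.ProjectiveSpecialLinearGroup (Fin 3) F), Nonempty (Q ≃* ↥(S : Subgroup (Matrix.ProjectiveSpecialLinearGroup (Fin 3) F)))) := by
  classical
  have hp : Fact (Nat.Prime 2) := ⟨Nat.prime_two⟩
  let E := GaloisField 2 (2 * n)
  have hcE : Nat.card E = 2 ^ (2 * n) := GaloisField.card 2 (2 * n) (by omega)
  have : Finite E := Nat.finite_of_card_ne_zero (by rw [hcE]; positivity)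
  let _ : Fintype E := Fintype.ofFinite E
  have hE : Fintype.card E = (2 ^ n) ^ 2 := by
    rw [← Nat.card_eq_fintype_card, hcE, ← pow_mul, mul_comm n 2]
  have hα' : ∀ x, α (α x) = x := by
    intro x
    have h1 : α ^ 2 = 1 := by rw [← hα, pow_orderOf_eq_one]
    rw [pow_two] at h1
    exact DFunLike.congr_fun h1 x
  have hna' : ∃ x y : Q, x * y ≠ y * x := by
    by_contra hcon
    push Not at hcon
    exact hna ⟨⟨hcon⟩⟩
  obtain ⟨e, ⟨D⟩⟩ := Agent.H21.SI.nonab_final hQ hna' hn α ρ hα' hρ hc C hC hCE.1.1 hCE.2 htr hE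
  have : CharP (Agent.H21.SI.fixF (Agent.H21.Sq.conjE hE)) 2 := Agent.H21.SI.charP_fixF _
  have hcF := Agent.H21.SI.card_fixF hE
  by_cases he : ∃ r : Agent.H21.SI.fixF (Agent.H21.Sq.conjE hE), r * r + r = e
  · right
    obtain ⟨r, hr⟩ := he
    refine ⟨Agent.H21.SI.fixF (Agent.H21.Sq.conjE hE), inferInstance, inferInstance, ?_, ?_⟩
    · rw [← Nat.card_eq_fintype_card, hcF]
    · obtain ⟨S⟩ : Nonempty (Sylow 2 (Matrix.ProjectiveSpecialLinearGroup (Fin 3) (Agent.H21.SI.fixF (Agent.H21.Sq.conjE hE)))) :=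
        inferInstance
      obtain ⟨D₂⟩ := Agent.H21.Sq.psl_data S
      exact ⟨S, Agent.H21.SI.iso_hyp D D₂ hr⟩
  · left
    push Not at he
    refine ⟨E, inferInstance, inferInstance, ?_, ?_⟩
    · rw [hE, ← pow_mul, mul_comm n 2, pow_mul]; norm_num
    · obtain ⟨S⟩ : Nonempty (Sylow 2 (Cfsg.PSU 3 E (2 ^ n))) := inferInstance
      obtain ⟨D₂⟩ := Agent.H21.Sq.psu_data hE S
      refine ⟨S, Agent.H21.SI.iso_ell (Agent.H21.Sq.conjE hE) (Agent.H21.Sq.conjE_conjE hE) (Agent.H21.Sq.conjE_ne_one hE)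
        ?_ D D₂ he⟩
      rw [hcF, Nat.card_eq_fintype_card, hE, pow_two]

end Cfsg.Agent.S3161
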