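import Cfsg.Statements.S3162
import Cfsg.Agent.H21.SqCount

set_option autoImplicit false
open Cfsg

namespace Cfsg.Agent.S3162

/-- Let S be a Sylow 2-subgroup of the special unitary group of dimension 3 with parameter q = 2^n (n ≥ 2; realised over the field with q² elements). Then the largest normal 2-subgroup of the automorphism group of S is elementary abelian of order 2^(2n²), and the automorphism group has order 2^(2n²) · 2n(q² − 1). -/
theorem result {S : Type*} [Group S] [Finite S] (n : ℕ) (hn : 2 ≤ n) {F : Type*} [Field F] [Fintype F] (hF : Fintype.card F = 4 ^ n)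
    (P : Sylow 2 ↥(Cfsg.SU 3 F (2 ^ n))) (hS : Nonempty (S ≃* ↥(P : Subgroup ↥(Cfsg.SU 3 F (2 ^ n))))) :
    Cfsg.IsElementaryAbelian 2 (Cfsg.pCore 2 (MulAut S)) ∧ Nat.card ↥(Cfsg.pCore 2 (MulAut S)) = 2 ^ (2 * n ^ 2) ∧
      Nat.card (MulAut S) = 2 ^ (2 * n ^ 2) * (2 * n * ((2 ^ n) ^ 2 - 1)) := by
  classical
  have hF2 : Fintype.card F = (2 ^ n) ^ 2 := by rw [hF, ← pow_mul, mul_comm n 2, pow_mul]; norm_num
  have hFp : Fintype.card F = 2 ^ (2 * n) := by rw [hF, pow_mul]; norm_num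
  have : Fact (Nat.Prime 2) := ⟨Nat.prime_two⟩
  have : CharP F 2 := charP_of_card_eq_prime_pow hFp
  obtain ⟨e⟩ := hS
  obtain ⟨D₀⟩ := Agent.H21.Sq.su_data hF2 P
  let D := D₀.congr e
  have hQ := Agent.H21.Sq.nrm_surj hF2
  have hcard : Nat.card ↥(Cfsg.pCore 2 (MulAut S)) = 2 ^ (2 * n ^ 2) := by
    rw [Agent.H21.Sq.pCore_eq hF2 D, Agent.H21.Sq.card_kerAut D hQ,
      Agent.H21.Sq.card_hom (a := 2 * n) (b := n) (fun w => CharTwo.add_self_eq_zero w) D.two
        (by rw [Nat.card_eq_fintype_card, hFp]) (Agent.H21.Sq.card_fixedAdd hF2)]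
    congr 1; ring
  refine ⟨?_, hcard, ?_⟩
  · rw [Agent.H21.Sq.pCore_eq hF2 D]
    exact Agent.H21.Sq.elementary_kerAut D hQ
  · have h1 := Subgroup.card_eq_card_quotient_mul_card_subgroup (Agent.H21.Sq.kerAut D)
    rw [Agent.H21.Sq.card_quot hF2 D, ← Agent.H21.Sq.pCore_eq hF2 D, hcard,
      Agent.H21.Sq.card_autF (m := 2 * n) (by rw [Nat.card_eq_fintype_card, hFp]) (by omega)] at h1
    have h2 : Nat.card Fˣ = (2 ^ n) ^ 2 - 1 := by
      rw [Nat.card_eq_fintype_card, Fintype.card_units, hF2]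
    rw [h1, h2]; ring

end Cfsg.Agent.S3162
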