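import Cfsg.Statements.S3171
import Cfsg.Agent.H80.M24P

set_option autoImplicit false
open Cfsg

namespace Cfsg.Agent.S3171

open Cfsg.Agent.Golay hiding idTab papp_lt
open Cfsg.Agent.Fus.Mat Cfsg.Agent.H80.M24P

theorem U_le : U ≤ M24 := by
  change UL LM24 ≤ M24
  unfold UL
  rw [Subgroup.closure_le]
  rintro _ ⟨n, hn, rfl⟩
  exact (validM24_spec n (allL_iff.mp inG_M24 n hn)).2

theorem U_pgroup : IsPGroup 2 U := by
  rintro ⟨n, hn⟩
  obtain ⟨j, hj⟩ := pow_eq_one_of_check hL labCheck_M24 szCheck_M24 (P := 0) (ks := ksM24) (by decide) chainCheck_M24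
    (Subgroup.le_normalizer hn) (fun x => by simp)
  exact ⟨j, Subtype.ext hj⟩

theorem card_U : Nat.card U = 1024 := by
  have : Fact (Nat.Prime 2) := ⟨Nat.prime_two⟩
  obtain ⟨a, ha⟩ := U_pgroup.exists_card_eq
  have h1 : 2 ^ 10 ≤ Nat.card U := (Nat.le_of_ble_eq_true ord_M24).trans (ordLB_le' hL lvCheck_M24)
  have h2 : Nat.card U ∣ 2 ^ 10 * 239085 := by
    have := Subgroup.card_dvd_of_le U_le
    rw [card_M24] at this
    exact this
  rw [ha] at h1 h2 ⊢
  have h3 : 10 ≤ a := (Nat.pow_le_pow_iff_right (by norm_num)).mp h1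
  have h4 : 2 ^ a ∣ 2 ^ 10 := by
    apply Nat.Coprime.dvd_of_dvd_mul_right _ h2
    apply Nat.Coprime.pow_left
    norm_num
  have h5 : a ≤ 10 := (Nat.pow_dvd_pow_iff_le_right (by norm_num)).mp h4
  have : a = 10 := by omega
  rw [this]; norm_num

theorem exists_equiv (P : Sylow 2 ↥M24) : Nonempty (↥(P : Subgroup ↥M24) ≃* U) := by
  have : Fact (Nat.Prime 2) := ⟨Nat.prime_two⟩
  have hfin : Finite M24 := inferInstance
  let V : Subgroup M24 := U.subgroupOf M24
  have e1 : V ≃* U := Subgroup.subgroupOfEquivOfLe U_le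
  have hV : IsPGroup 2 V := U_pgroup.of_equiv e1.symm
  obtain ⟨Q, hQ⟩ := hV.exists_le_sylow
  have hVc : Nat.card V = 1024 := by rw [Nat.card_congr e1.toEquiv, card_U]
  have hQc : Nat.card (Q : Subgroup M24) = 1024 := by
    have h1 := Q.card_eq_multiplicity
    rw [h1, card_M24]
    have : (244823040 : ℕ).factorization 2 = 10 := by
      rw [show (244823040 : ℕ) = 2 ^ 10 * 239085 by norm_num, Nat.factorization_mul (by norm_num) (by norm_num),
        Nat.Prime.factorization_pow Nat.prime_two]
      simp [Nat.factorization_eq_zero_of_not_dvd]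
    rw [this]; norm_num
  have hVQ : V = (Q : Subgroup M24) := Subgroup.eq_of_le_of_card_ge hQ (by rw [hQc, hVc])
  exact ⟨(Sylow.equiv P Q).trans ((MulEquiv.subgroupCongr hVQ).symm.trans e1)⟩

theorem zz_comm : ∀ u : U, u * zz = zz * u := by
  rintro ⟨u, hu⟩
  apply Subtype.ext
  change u * permOf tz = permOf tz * u
  have hu' := hu
  change u ∈ Subgroup.closure _ at hu'
  induction hu' using Subgroup.closure_induction with
  | mem x hx =>
    obtain ⟨n, hn, rfl⟩ := hx
    have h1 : allL (fun n => Nat.beq (tmul n tz) (tmul tz n)) LM24 = true := by decide +kernel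
    have h2 := Nat.eq_of_beq_eq_true (allL_iff.mp h1 n hn)
    have h3 := isTable_permOf (allL_iff.mp hL n hn)
    have h4 := IsTable.tmul h3 zz_tab
    rw [h2] at h4
    exact isTable_unique h4 (IsTable.tmul zz_tab h3)
  | one => rw [one_mul, mul_one]
  | mul x y hx' hy' hx hy => rw [mul_assoc, hy hy', ← mul_assoc, hx hx', mul_assoc]
  | inv x hx' hx =>
    have := hx hx'
    calc x⁻¹ * permOf tz = x⁻¹ * (permOf tz * x) * x⁻¹ := by group
      _ = x⁻¹ * (x * permOf tz) * x⁻¹ := by rw [this]
      _ = permOf tz * x⁻¹ := by group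

theorem center_U {g : U} (hg : ∀ u : U, u * g = g * u) : g = 1 ∨ g = zz := by
  rcases cen_of_check hL labCheck_M24 szCheck_M24 cenCheck_M24 U_le g.2
    (fun u hu => congrArg Subtype.val (hg ⟨u, hu⟩)) with h1 | ⟨z, hz, h1⟩
  · exact Or.inl (Subtype.ext h1)
  · right
    rw [List.mem_singleton] at hz
    subst hz
    exact Subtype.ext (isTable_unique h1 zz_tab)

theorem zz_ne : (zz : U) ≠ 1 := by
  intro h
  have h1 : (zz : Equiv.Perm GolayPt) = 1 := congrArg Subtype.val h
  have h2 := zz_tab
  rw [h1] at h2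
  have h3 := Cfsg.Agent.Golay.Orb.isTable_inj h2 isTable_id (by norm_num [tz]) (by norm_num)
  revert h3
  decide +kernel

theorem final {P : Type*} [Group P] (e : P ≃* U) :
    (∀ M : Subgroup (P ⧸ Subgroup.center P), IsCoatom M → Nat.card ↥(Subgroup.center ↥M) ≤ 8) ∧
      (∃ A : Subgroup (P ⧸ Subgroup.center P), Cfsg.IsElementaryAbelian 2 A ∧ Nat.card ↥A = 64) ∧
      ∀ A B : Subgroup (P ⧸ Subgroup.center P),
        IsMulCommutative ↥A → Nat.card ↥A = 64 → IsMulCommutative ↥B → Nat.card ↥B = 64 → A = B := by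
  have hfin : Finite P := Finite.of_equiv U e.symm.toEquiv
  have hcen : ∀ g : U, e.symm g ∈ Subgroup.center P ↔ g = 1 ∨ g = zz := by
    intro g
    constructor
    · intro h
      apply center_U
      intro u
      have h1 := Subgroup.mem_center_iff.1 h (e.symm u)
      rw [← map_mul, ← map_mul] at h1
      exact e.symm.injective h1
    · rintro (rfl | rfl)
      · rw [map_one]; exact Subgroup.one_mem _
      · rw [Subgroup.mem_center_iff]
        intro p
        obtain ⟨u, rfl⟩ := e.symm.surjective p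
        rw [← map_mul, ← map_mul, zz_comm]
  have hc2 : Nat.card (Subgroup.center P) = 2 := by
    have h1 : (Subgroup.center P : Set P) = {1, e.symm zz} := by
      ext p
      obtain ⟨u, rfl⟩ := e.symm.surjective p
      rw [SetLike.mem_coe, hcen, Set.mem_insert_iff, Set.mem_singleton_iff]
      constructor
      · rintro (rfl | rfl)
        · left; rw [map_one]
        · right; rfl
      · rintro (h | h)
        · left; exact e.symm.injective (by rw [h, map_one])
        · right; exact e.symm.injective h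
    have h2 : Nat.card (Subgroup.center P) = (Subgroup.center P : Set P).ncard := Nat.card_coe_set_eq _
    rw [h2, h1, Set.ncard_pair]
    intro h
    apply zz_ne
    apply e.symm.injective
    rw [← h, map_one]
  have hS : Nat.card (P ⧸ Subgroup.center P) = 512 := by
    have h1 := Subgroup.card_eq_card_quotient_mul_card_subgroup (Subgroup.center P)
    rw [hc2, Nat.card_congr e.toEquiv, card_U] at h1
    omega
  refine good ((QuotientGroup.mk' (Subgroup.center P)).comp e.symm.toMonoidHom) ?_ ?_ hS ?_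
  · change (QuotientGroup.mk' (Subgroup.center P)) (e.symm zz) = 1
    rw [QuotientGroup.mk'_apply, QuotientGroup.eq_one_iff, hcen]
    exact Or.inr rfl
  · intro g hg
    change (QuotientGroup.mk' (Subgroup.center P)) (e.symm g) = 1 at hg
    rw [QuotientGroup.mk'_apply, QuotientGroup.eq_one_iff, hcen] at hg
    exact hg
  · intro s
    obtain ⟨p, rfl⟩ := QuotientGroup.mk'_surjective (Subgroup.center P) s
    exact ⟨e p, by change (QuotientGroup.mk' (Subgroup.center P)) (e.symm (e p)) = _; rw [e.symm_apply_apply]⟩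

/-- Let P be a Sylow 2-subgroup of the Mathieu group of degree 24 and S the quotient of P by its centre. Then the centre of every maximal subgroup of S has order at most 8; S has an elementary abelian subgroup of order 64; and S has only one abelian subgroup of order 64. -/
theorem result (P : Sylow 2 ↥Cfsg.M24) :
    (∀ M : Subgroup (↥(P : Subgroup ↥Cfsg.M24) ⧸ Subgroup.center ↥(P : Subgroup ↥Cfsg.M24)), IsCoatom M →
        Nat.card ↥(Subgroup.center ↥M) ≤ 8) ∧
      (∃ A : Subgroup (↥(P : Subgroup ↥Cfsg.M24) ⧸ Subgroup.center ↥(P : Subgroup ↥Cfsg.M24)),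
        Cfsg.IsElementaryAbelian 2 A ∧ Nat.card ↥A = 64) ∧
      ∀ A B : Subgroup (↥(P : Subgroup ↥Cfsg.M24) ⧸ Subgroup.center ↥(P : Subgroup ↥Cfsg.M24)),
        IsMulCommutative ↥A → Nat.card ↥A = 64 → IsMulCommutative ↥B → Nat.card ↥B = 64 → A = B := by
  have : Fact (Nat.Prime 2) := ⟨Nat.prime_two⟩
  obtain ⟨e⟩ := exists_equiv P
  exact final e

end Cfsg.Agent.S3171
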