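import Cfsg.Statements.S3174
import Cfsg.Agent.H92.U14d

set_option autoImplicit false
open Cfsg

namespace Cfsg.Agent.S3174

open Cfsg.Agent.H92.U14 in
/-- Let T be a finite 2-group of order at least 2^14 in which the fourth term of the upper central series has order 16. Let W be the centralizer in T of the third term Z₃(T), and suppose the Frattini subgroup of W has order at most 8 and lies in every subgroup of W of index at most 16. Then T has order exactly 2^14; the derived subgroup of W and the Frattini subgroup of W both equal Z₃(T), which is elementary abelian of order 8; the centre of W has order 8; W is normal in T with quotient dihedral of order 8; and W modulo its derived subgroup is elementary abelian of order 2^8. -/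
theorem result {T : Type*} [Group T] [Finite T]
    (hT : IsPGroup 2 T) (ha : 2 ^ 14 ≤ Nat.card T) (hb : Nat.card ↥(Subgroup.upperCentralSeries T 4) = 16)
    (W : Subgroup T) (hW : W = Subgroup.centralizer ((Subgroup.upperCentralSeries T 3 : Subgroup T) : Set T))
    (hc : Nat.card ↥(frattini ↥W) ≤ 8) (hd : ∀ U : Subgroup ↥W, U.index ≤ 16 → frattini ↥W ≤ U) :
    Nat.card T = 2 ^ 14 ∧
      (commutator ↥W).map W.subtype = Subgroup.upperCentralSeries T 3 ∧
      (frattini ↥W).map W.subtype = Subgroup.upperCentralSeries T 3 ∧
      Nat.card ↥(Subgroup.center ↥W) = 8 ∧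
      Nat.card ↥(Subgroup.upperCentralSeries T 3) = 8 ∧ (∀ z ∈ Subgroup.upperCentralSeries T 3, z ^ 2 = 1) ∧
      (∃ (_ : W.Normal), Nonempty (T ⧸ W ≃* DihedralGroup 4)) ∧
      Nat.card (↥W ⧸ commutator ↥W) = 2 ^ 8 ∧ (∀ x : ↥W ⧸ commutator ↥W, x ^ 2 = 1) := by
  have h : HypW T W := { p := hT, big := ha, z4 := hb, w := hW, c8 := hc, sub := hd }
  obtain ⟨h1, h2, h3, h4, h5, h6⟩ := h.orders
  have hcard3 : Nat.card ↥(Subgroup.upperCentralSeries T 3) = 8 := by
    have := h.toHyp.card_Z (n := 3) (by norm_num)
    rw [this]
    norm_num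
  refine ⟨h6, ?_, h3, ?_, hcard3, fun z hz => h.Z3_sq hz, h.quotient, ?_, ?_⟩
  · rw [h.commutator_eq]
    exact h3
  · have h7 := h.card_center
    have h8 : Nat.card ((Subgroup.center ↥W).map W.subtype) = Nat.card (Subgroup.center ↥W) :=
      Subgroup.card_map_of_injective W.subtype_injective
    rw [← h8, h7]
    exact hcard3
  · rw [h.commutator_eq]
    have h7 : (HypW.F W).relIndex W = (frattini W).index := by
      unfold Subgroup.relIndex
      congr 1
      exact Subgroup.comap_map_eq_self_of_injective W.subtype_injective (frattini W)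
    rw [← h4, h7]
    rfl
  · intro x
    obtain ⟨w, rfl⟩ := QuotientGroup.mk_surjective x
    rw [← QuotientGroup.mk_pow, QuotientGroup.eq_one_iff, h.commutator_eq]
    exact HypW.mem_F.1 (h.sq_mem w.2)

end Cfsg.Agent.S3174
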