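import Cfsg.Statements.S3175
import Cfsg.Agent.H92.U14e

set_option autoImplicit false
open Cfsg

namespace Cfsg.Agent.S3175

open Cfsg.Agent.H92.U14 in
/-- Let G be a finite group whose Sylow 2-subgroup T has order at least 2^14 and whose upper central series has fourth term of order 16; let W be the centralizer in T of the third term, and suppose the Frattini subgroup of W has order at most 8 and lies in every subgroup of W of index at most 16. Then the normalizer of T in G has a normal 2-complement, and W is weakly closed in T with respect to G. -/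
theorem result {G : Type*} [Group G] [Finite G]
    (T : Sylow 2 G) (ha : 2 ^ 14 ≤ Nat.card ↥(T : Subgroup G))
    (hb : Nat.card ↥(Subgroup.upperCentralSeries ↥(T : Subgroup G) 4) = 16)
    (W : Subgroup ↥(T : Subgroup G))
    (hW : W = Subgroup.centralizer ((Subgroup.upperCentralSeries ↥(T : Subgroup G) 3 : Subgroup ↥(T : Subgroup G)) : Set ↥(T : Subgroup G)))
    (hc : Nat.card ↥(frattini ↥W) ≤ 8)
    (hd : ∀ U : Subgroup ↥W, U.index ≤ 16 → frattini ↥W ≤ U) :
    Cfsg.HasNormalPComplement 2 ↥(Subgroup.normalizer ((T : Subgroup G) : Set G)) ∧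
      Cfsg.IsWeaklyClosed (W.map (T : Subgroup G).subtype) (T : Subgroup G) := by
  have h : HypW (T : Subgroup G) W := { p := T.2, big := ha, z4 := hb, w := hW, c8 := hc, sub := hd }
  have : Fact (Nat.Prime 2) := ⟨Nat.prime_two⟩
  constructor
  · let N := Subgroup.normalizer ((T : Subgroup G) : Set G)
    let P : Sylow 2 N := T.subtype Subgroup.le_normalizer
    have hP : (P : Subgroup N) = (T : Subgroup G).subgroupOf N := rfl
    have hPn : (P : Subgroup N).Normal := by
      rw [hP]
      exact Subgroup.normal_in_normalizer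
    have hcop : Nat.Coprime (Nat.card (P : Subgroup N)) (P : Subgroup N).index := P.card_coprime_index
    obtain ⟨C, hC⟩ := Subgroup.exists_left_complement'_of_coprime hcop
    have hodd : Odd (Nat.card C) := by
      have h1 : ¬ 2 ∣ (P : Subgroup N).index := P.not_dvd_index
      rw [hC.index_eq_card] at h1
      exact Nat.not_even_iff_odd.1 (fun h2 => h1 h2.two_dvd)
    have hcent : ∀ c ∈ C, ∀ t ∈ (P : Subgroup N), t * c * t⁻¹ = c := by
      intro c hc' t ht
      have h1 : (Subgroup.normalizerMonoidHom (T : Subgroup G) c) ^ (Nat.card C) = 1 := by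
        rw [← map_pow]
        have h2 : c ^ Nat.card C = 1 := by
          have h3 := pow_card_eq_one' (x := (⟨c, hc'⟩ : C))
          exact congrArg Subtype.val h3
        rw [h2, map_one]
      have h2 := h.aut_eq_one hodd h1
      have h3 := congrArg (fun α : MulAut (T : Subgroup G) => ((α ⟨(t : G), ht⟩ : (T : Subgroup G)) : G)) h2
      have h4 : (c : G) * t * (c : G)⁻¹ = t := h3
      apply Subtype.ext
      show (t : G) * c * (t : G)⁻¹ = c
      calc (t : G) * c * (t : G)⁻¹ = (c : G) * t * (c : G)⁻¹ * c * (t : G)⁻¹ := by rw [h4]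
        _ = c := by group
    refine ⟨P, C, ?_, hC⟩
    constructor
    intro c hc' n
    obtain ⟨⟨a, t⟩, hat⟩ := hC.2 n
    have hat' : (a : N) * (t : N) = n := hat
    rw [← hat']
    have h1 := hcent c hc' t t.2
    have h2 : (a : N) * (t : N) * c * ((a : N) * (t : N))⁻¹ = (a : N) * ((t : N) * c * (t : N)⁻¹) * (a : N)⁻¹ := by group
    rw [h2, h1]
    exact mul_mem (mul_mem a.2 hc') (inv_mem a.2)
  · refine ⟨Subgroup.map_subtype_le W, ?_⟩
    intro g hg
    let W' := W.map (T : Subgroup G).subtype
    let W1 : Subgroup (T : Subgroup G) := (W'.map (MulAut.conj g).toMonoidHom).subgroupOf (T : Subgroup G)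
    have e1 : W ≃* W' := W.equivMapOfInjective _ (T : Subgroup G).subtype_injective
    have e2 : W' ≃* W'.map (MulAut.conj g).toMonoidHom :=
      W'.equivMapOfInjective _ (MulAut.conj g).injective
    have e3 : W1 ≃* W'.map (MulAut.conj g).toMonoidHom := Subgroup.subgroupOfEquivOfLe hg
    have h1 : W1 = W := h.eq_of_equiv ((e1.trans e2).trans e3.symm)
    have h2 : W1.map (T : Subgroup G).subtype = W'.map (MulAut.conj g).toMonoidHom :=
      Subgroup.map_subgroupOf_eq_of_le hg
    rw [← h2, h1]

end Cfsg.Agent.S3175
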