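import Cfsg.Statements.S3179
import Cfsg.Agent.H73.GL52

set_option autoImplicit false
open Cfsg

namespace Cfsg.Agent.S3179

/-- Let X be a section of the general linear group GL(5, 2), that is, a quotient of a subgroup of it. If X is isomorphic to PSL(2, 2^n) for some n ≥ 2, to a Suzuki group over the field with 2^(2m+1) elements for some m ≥ 1, or to PSU(3, 2^n) for some n ≥ 2, then X is isomorphic to PSL(2, 4). -/
theorem result {H : Subgroup (GL (Fin 5) (ZMod 2))}
    {K : Subgroup ↥H} [K.Normal]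
    (hX : (∃ (n : ℕ) (F : Type) (_ : Field F) (_ : Fintype F), 2 ≤ n ∧ Fintype.card F = 2 ^ n ∧
        Nonempty (↥H ⧸ K ≃* Matrix.ProjectiveSpecialLinearGroup (Fin 2) F)) ∨
      (∃ (m : ℕ) (F : Type) (_ : Field F) (_ : Fintype F), 1 ≤ m ∧ Fintype.card F = 2 ^ (2 * m + 1) ∧
        Nonempty (↥H ⧸ K ≃* ↥(Cfsg.Lie.Sz F (2 ^ (m + 1))))) ∨
      (∃ (n : ℕ) (F : Type) (_ : Field F) (_ : Fintype F), 2 ≤ n ∧ Fintype.card F = 4 ^ n ∧
        Nonempty (↥H ⧸ K ≃* Cfsg.PSU 3 F (2 ^ n)))) :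
    ∃ (F : Type) (_ : Field F) (_ : Fintype F), Fintype.card F = 4 ∧
      Nonempty (↥H ⧸ K ≃* Matrix.ProjectiveSpecialLinearGroup (Fin 2) F) := by
  have hdvd : Nat.card (↥H ⧸ K) ∣ 9999360 := H73.GL52.card_dvd
  have hbound : ∀ n : ℕ, 2 ^ n ∣ 9999360 → n ≤ 10 := by
    intro n hn
    by_contra hcon
    have h1 : 2 ^ 11 ∣ 9999360 := (pow_dvd_pow 2 (by omega)).trans hn
    revert h1; norm_num
  rcases hX with ⟨n, F, _, _, hn, hF, ⟨e⟩⟩ | ⟨m, F, _, _, hm, hF, ⟨e⟩⟩ | ⟨n, F, _, _, hn, hF, ⟨e⟩⟩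
  · rw [Nat.card_congr e.toEquiv, H14.SubField.card_PSL2_even
      (by rw [hF]; exact (Nat.even_pow' (by omega)).mpr even_two), hF] at hdvd
    have hn10 := hbound n ((Dvd.intro _ rfl).trans hdvd)
    by_cases hn2 : n = 2
    · subst hn2
      exact ⟨F, inferInstance, inferInstance, by rw [hF]; norm_num, ⟨e⟩⟩
    · by_cases hn3 : n = 3
      · exfalso
        subst hn3
        obtain ⟨x, hx⟩ := H73.GL52.exists_nine (F := F) (by rw [hF]; norm_num)
        apply H73.GL52.section_order (e.symm x)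
        rw [MulEquiv.orderOf_eq, hx]
      · exfalso
        have h4 : 4 ≤ n := by omega
        clear hF e hn
        revert hdvd
        interval_cases n <;> norm_num
  · exfalso
    have hch : CharP F 2 := Suz.charP_two hF
    obtain ⟨e'⟩ := Suz.nonempty_lieEquiv hm hF
    rw [Nat.card_congr e.toEquiv, ← Nat.card_congr e'.toEquiv, Suz.card_Sz hm hF] at hdvd
    have h1 : 2 ^ (2 * (2 * m + 1)) ∣ 9999360 := by
      refine Dvd.dvd.trans ?_ hdvd
      refine ⟨((2 ^ (2 * m + 1)) ^ 2 + 1) * (2 ^ (2 * m + 1) - 1), ?_⟩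
      rw [mul_comm 2 (2 * m + 1), pow_mul, mul_assoc]
    have h2 := hbound _ h1
    have h3 : m ≤ 2 := by omega
    clear hF e e' h1 h2
    revert hdvd
    interval_cases m <;> norm_num
  · exfalso
    have hF2 : Fintype.card F = (2 ^ n) ^ 2 := by
      rw [hF, ← pow_mul, mul_comm n 2, pow_mul]; norm_num
    have hc := S0280.result (q := 2 ^ n) hF2 3 (by norm_num)
    rw [Nat.card_congr e.toEquiv] at hdvd
    generalize Nat.card (Cfsg.PSU 3 F (2 ^ n)) = N at hc hdvd
    simp only [Finset.prod_range_succ, Finset.prod_range_zero] at hc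
    norm_num at hc
    clear hF hF2 e
    have hodd : Nat.Coprime ((2 ^ n) ^ 3) (Nat.gcd 3 (2 ^ n + 1) * (2 ^ n + 1)) := by
      rw [← pow_mul]
      apply Nat.Coprime.pow_left
      rw [Nat.coprime_two_left]
      have h1 : Odd (2 ^ n + 1) := by
        have : Even (2 ^ n) := (Nat.even_pow' (by omega)).mpr even_two
        exact this.add_one
      refine Odd.mul ?_ h1
      exact Odd.of_dvd_nat (by decide : Odd 3) (Nat.gcd_dvd_left 3 (2 ^ n + 1))
    have h1 : (2 ^ n) ^ 3 ∣ N := by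
      apply hodd.dvd_of_dvd_mul_left
      rw [mul_assoc, hc]
      exact Dvd.intro _ rfl
    have h2 := hbound (n * 3) (by rw [pow_mul]; exact h1.trans hdvd)
    have h3 : n ≤ 3 := by omega
    obtain rfl | rfl : n = 2 ∨ n = 3 := by omega
    · norm_num at hc
      have h4 : N = 62400 := by omega
      rw [h4] at hdvd
      revert hdvd; norm_num
    · norm_num at hc
      have h4 : N = 5515776 := by omega
      rw [h4] at hdvd
      revert hdvd; norm_num

end Cfsg.Agent.S3179
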