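import Cfsg.Statements.S3180
import Mathlib
import Cfsg.Agent.H53.Basic

set_option autoImplicit false
open Cfsg

namespace Cfsg.Agent.S3180

/-- Let P be a Sylow p-subgroup of a finite group J and P₁ a subgroup of P that is weakly closed in P with respect to J. If J acts on a set and two points, each fixed by every element of P₁, lie in one J-orbit, then they lie in one orbit of the normalizer of P₁ in J. -/
theorem result {J : Type*} [Group J] [Finite J]
    {p : ℕ} [Fact p.Prime] (P : Sylow p J) (P₁ : Subgroup J) (hW : Cfsg.IsWeaklyClosed P₁ (P : Subgroup J))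
    {Ω : Type*} [MulAction J Ω] (x y : Ω) (hx : ∀ g ∈ P₁, g • x = x) (hy : ∀ g ∈ P₁, g • y = y)
    (hc : ∃ g : J, g • x = y) :
    ∃ g ∈ Subgroup.normalizer (P₁ : Set J), g • x = y := by
  obtain ⟨g, rfl⟩ := hc
  have hP₁ : IsPGroup p P₁ := P.2.to_le hW.1
  have hw : ∀ h : J, P₁ ≤ (P : Subgroup J).map (MulAut.conj h).toMonoidHom →
      P₁.map (MulAut.conj h).toMonoidHom = P₁ := by
    intro h hh
    have h1 := H53.map_conj_le_iff (H := P₁) (K := (P : Subgroup J)) (a := h⁻¹)
    rw [inv_inv] at h1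
    have h2 := hW.2 h⁻¹ (h1.mpr hh)
    rw [← H53.mem_normalizer_iff_map_eq] at h2 ⊢
    exact inv_mem_iff.mp h2
  set K : Subgroup J := MulAction.stabilizer J (g • x)
  have hK1 : P₁ ≤ K := fun a ha => hy a ha
  have hK2 : P₁.map (MulAut.conj g).toMonoidHom ≤ K := by
    rintro _ ⟨a, ha, rfl⟩
    show (g * a * g⁻¹) • (g • x) = g • x
    rw [smul_smul, mul_assoc, inv_mul_cancel, mul_one, ← smul_smul, hx a ha]
  obtain ⟨k, hk, R, hR, hRK, h1, h2⟩ := H53.exists_conj_le_common K P₁ _ hP₁ (hP₁.map _) hK1 hK2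
  obtain ⟨Q, hQ⟩ := hR.exists_le_sylow
  obtain ⟨h, hh⟩ := H53.exists_sylow_conj P Q
  rw [← hh] at hQ
  have e1 := hw h (h1.trans hQ)
  have e2 : P₁.map (MulAut.conj (h⁻¹ * (k * g))).toMonoidHom = P₁ := by
    apply hW.2
    rw [H53.map_conj_map_conj] at h2
    have := H53.map_conj_mono (h2.trans hQ) h⁻¹
    rwa [H53.map_conj_map_conj, H53.map_conj_map_conj, inv_mul_cancel, H53.map_conj_one] at this
  refine ⟨k * g, ?_, ?_⟩
  · rw [← H53.mem_normalizer_iff_map_eq] at e1 e2
    have := mul_mem e1 e2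
    simpa using this
  · rw [← smul_smul]; exact hk

end Cfsg.Agent.S3180
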