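import Cfsg.Statements.S3183
import Mathlib
import Cfsg.Agent.H53.Basic

set_option autoImplicit false
open Cfsg

namespace Cfsg.Agent.S3183

open Cfsg.Agent.H53 in
theorem central_of_ne {G : Type*} [Group G] [Finite G]
    (hCI : ∀ S T : Sylow 2 G, S ≠ T → ∃ U : Sylow 2 G,
      (S : Subgroup G) ⊓ (T : Subgroup G) ≤ (Subgroup.center ↥(U : Subgroup G)).map (U : Subgroup G).subtype) :
    ∀ (S T : Sylow 2 G), S ≠ T →
      (S : Subgroup G) ⊓ (T : Subgroup G) ≤ (Subgroup.center ↥(S : Subgroup G)).map (S : Subgroup G).subtype := by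
  classical
  have : Fact (Nat.Prime 2) := ⟨Nat.prime_two⟩
  by_contra hcon
  push Not at hcon
  -- choose a counterexample with largest intersection
  have hex : ∃ n, ∃ S T : Sylow 2 G, S ≠ T ∧
      ¬ (S : Subgroup G) ⊓ (T : Subgroup G) ≤ (Subgroup.center ↥(S : Subgroup G)).map (S : Subgroup G).subtype ∧
      Nat.card ↥((S : Subgroup G) ⊓ (T : Subgroup G)) + n = Nat.card G := by
    obtain ⟨S, T, h1, h2⟩ := hcon
    exact ⟨Nat.card G - Nat.card ↥((S : Subgroup G) ⊓ (T : Subgroup G)), S, T, h1, h2, by
      have := Subgroup.card_le_card_group ((S : Subgroup G) ⊓ (T : Subgroup G)); omega⟩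
  obtain ⟨S, T, hST, hnZ, hn⟩ := Nat.find_spec hex
  have hmin := fun m hm => Nat.find_min hex (m := m) hm
  set n := Nat.find hex with hndef
  set D : Subgroup G := (S : Subgroup G) ⊓ (T : Subgroup G) with hD
  have hDS : D ≤ S := inf_le_left
  have key : ∀ V : Sylow 2 G, D ≤ (Subgroup.center ↥(V : Subgroup G)).map (V : Subgroup G).subtype →
      (S : Subgroup G) ⊓ (V : Subgroup G) = D := by
    intro V hV
    have hDV : D ≤ V := hV.trans (Subgroup.map_subtype_le _)
    have hSV : S ≠ V := by rintro rfl; exact hnZ hV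
    have hle : D ≤ (S : Subgroup G) ⊓ (V : Subgroup G) := le_inf hDS hDV
    by_contra hne
    have hlt : D < (S : Subgroup G) ⊓ (V : Subgroup G) := lt_of_le_of_ne hle (Ne.symm hne)
    have hcardlt : Nat.card D < Nat.card ↥((S : Subgroup G) ⊓ (V : Subgroup G)) := by
      refine lt_of_le_of_ne (Subgroup.card_le_of_le hle) ?_
      intro h
      exact hne (Subgroup.eq_of_le_of_card_ge hle h.ge).symm
    have hle2 := Subgroup.card_le_card_group ((S : Subgroup G) ⊓ (V : Subgroup G))
    have := hmin (Nat.card G - Nat.card ↥((S : Subgroup G) ⊓ (V : Subgroup G))) (by omega)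
    apply this
    refine ⟨S, V, hSV, ?_, by omega⟩
    intro h
    exact hnZ (hle.trans h)
  obtain ⟨U, hU⟩ := hCI S T hST
  have hSU := key U hU
  have hDlt : D < S := by
    refine lt_of_le_of_ne hDS ?_
    intro h
    have h1 : (S : Subgroup G) ≤ U := by rw [← h, ← hSU]; exact inf_le_right
    have h2 : S = U := Sylow.ext ((S.3 U.2 h1).symm)
    rw [← h2] at hU
    exact hnZ hU
  obtain ⟨K, hDK, hKS, hKN, hrel, hKp⟩ := exists_relIndex_eq_prime_le_normalizer D S
    (S.2.to_le hDS) hDS (prime_dvd_relIndex_of_lt S.2 hDlt)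
  rw [le_center_map_iff] at hU
  have hUN : (U : Subgroup G) ≤ Subgroup.normalizer (D : Set G) := by
    rw [Subgroup.le_normalizer_iff]
    intro u hu d hd
    rw [hU.2 d hd u hu, mul_assoc, mul_inv_cancel, mul_one]
    exact hd
  obtain ⟨k, hk, R, hR, hRN, h1, h2⟩ := exists_conj_le_common (p := 2) _ _ _ U.2 hKp hUN hKN
  have hRU : R = U := U.3 hR h1
  rw [hRU] at h2
  have hV := key (k⁻¹ • U) (by
    rw [le_center_map_iff]
    have hkD : D.map (MulAut.conj k).toMonoidHom = D := mem_normalizer_iff_map_eq.mp hk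
    rw [coe_smul_sylow]
    constructor
    · rw [← map_conj_le_iff, hkD]; exact hU.1
    · intro d hd x hx
      rw [mem_map_conj, inv_inv] at hx
      have hd' : k * d * k⁻¹ ∈ D := by rw [← hkD]; exact ⟨d, hd, rfl⟩
      have := hU.2 _ hd' _ hx
      have h3 : k * (x * d) * k⁻¹ = k * (d * x) * k⁻¹ := by
        calc k * (x * d) * k⁻¹ = k * x * k⁻¹ * (k * d * k⁻¹) := by group
          _ = (k * d * k⁻¹) * (k * x * k⁻¹) := this
          _ = k * (d * x) * k⁻¹ := by group
      exact mul_left_cancel (mul_right_cancel h3))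
  have hKV : K ≤ D := by
    rw [← hV]
    refine le_inf hKS ?_
    rw [coe_smul_sylow, ← map_conj_le_iff]
    exact h2
  rw [Subgroup.relIndex_eq_one.mpr hKV] at hrel
  omega


/-- Let G be a finite group in which the intersection of any two distinct Sylow 2-subgroups is contained in the centre of some Sylow 2-subgroup, and let S be a Sylow 2-subgroup. Then for every x in S the centralizer of x in S is a Sylow 2-subgroup of the centralizer of x in G (no 2-subgroup centralizing x is larger), and for every other Sylow 2-subgroup T the intersection S ∩ T lies in both the centre of S and the centre of T. -/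
theorem result {G : Type*} [Group G] [Finite G]
    (hCI : ∀ S T : Sylow 2 G, S ≠ T → ∃ U : Sylow 2 G,
      (S : Subgroup G) ⊓ (T : Subgroup G) ≤ (Subgroup.center ↥(U : Subgroup G)).map (U : Subgroup G).subtype)
    (S : Sylow 2 G) :
    (∀ x ∈ (S : Subgroup G), ∀ P : Subgroup G, IsPGroup 2 ↥P → P ≤ Subgroup.centralizer ({x} : Set G) →
        Nat.card ↥P ≤ Nat.card ↥((S : Subgroup G) ⊓ Subgroup.centralizer ({x} : Set G))) ∧
    (∀ T : Sylow 2 G, T ≠ S →
        (S : Subgroup G) ⊓ (T : Subgroup G) ≤
          (Subgroup.center ↥(S : Subgroup G)).map (S : Subgroup G).subtype ⊓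
            (Subgroup.center ↥(T : Subgroup G)).map (T : Subgroup G).subtype) := by
  classical
  have : Fact (Nat.Prime 2) := ⟨Nat.prime_two⟩
  have hA := central_of_ne hCI
  refine ⟨?_, ?_⟩
  · intro x hx P hP hPx
    -- P and x generate a 2-group
    have hxp : IsPGroup 2 (Subgroup.zpowers x) := S.2.to_le (by rwa [Subgroup.zpowers_le])
    have hnorm : Subgroup.zpowers x ≤ Subgroup.normalizer (P : Set G) := by
      rw [Subgroup.zpowers_le, Subgroup.mem_normalizer_iff]
      intro h
      constructor
      · intro hh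
        have := Subgroup.mem_centralizer_singleton_iff.mp (hPx hh)
        rw [← this, mul_assoc, mul_inv_cancel, mul_one]; exact hh
      · intro hh
        have := Subgroup.mem_centralizer_singleton_iff.mp (hPx hh)
        have h2 : x * h * x⁻¹ = h := by
          have h3 : x * h = x * (x * h * x⁻¹) := by
            rw [← this]; group
          exact (mul_left_cancel h3).symm
        rw [← h2]; exact hh
    have hPQ : IsPGroup 2 ↥(P ⊔ Subgroup.zpowers x) := hP.to_sup_of_normal_left' hxp hnorm
    obtain ⟨T, hT⟩ := hPQ.exists_le_sylow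
    have hxT : x ∈ (T : Subgroup G) := hT (Subgroup.mem_sup_right (Subgroup.mem_zpowers x))
    have hPT : P ≤ T := le_sup_left.trans hT
    by_cases hST : T = S
    · rw [hST] at hPT
      exact Subgroup.card_le_of_le (le_inf hPT hPx)
    · have hxZ := hA S T (Ne.symm hST) ⟨hx, hxT⟩
      have hSx : (S : Subgroup G) ≤ Subgroup.centralizer ({x} : Set G) := by
        intro s hs
        rw [Subgroup.mem_centralizer_singleton_iff]
        obtain ⟨z, hz, rfl⟩ := hxZ
        exact congrArg Subtype.val (Subgroup.mem_center_iff.mp hz ⟨s, hs⟩)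
      rw [inf_eq_left.mpr hSx]
      calc Nat.card P ≤ Nat.card T := Subgroup.card_le_of_le hPT
        _ = Nat.card S := Nat.card_congr (Sylow.equiv T S).toEquiv
  · intro T hT
    refine le_inf (hA S T (Ne.symm hT)) ?_
    rw [inf_comm]
    exact hA T S hT

end Cfsg.Agent.S3183
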