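import Cfsg.Statements.S3184
import Cfsg.Agent.S0215
import Cfsg.Agent.S3183
import Cfsg.Agent.H69.Basic
import Cfsg.Agent.Solv.Core
import Cfsg.Agent.BG.Core
import Cfsg.Agent.Frob.Complement
import Cfsg.Agent.H48.Basic
import Cfsg.Agent.Hall.Basic

set_option autoImplicit false
set_option linter.style.haveILetI false
set_option linter.unusedSectionVars false
open Cfsg

namespace Cfsg.Agent.S3184

open Subgroup Cfsg.Agent.H69 Pointwise

theorem eq_of_orderOf_two_of_cyclic {C : Type*} [Group C] [Finite C] (hC : IsCyclic C) {a b : C}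
    (ha : orderOf a = 2) (hb : orderOf b = 2) : a = b := by
  haveI := hC
  have h1 := Frob.eq_of_card_eq_of_isCyclic (zpowers a) (zpowers b)
    (by rw [Nat.card_zpowers, Nat.card_zpowers, ha, hb])
  have h2 : a ∈ zpowers b := by rw [← h1]; exact mem_zpowers a
  obtain ⟨m, hm⟩ := mem_zpowers_iff.mp h2
  have hb2 : b * b = 1 := by rw [← pow_two, ← hb, pow_orderOf_eq_one]
  rcases Int.even_or_odd m with hm' | hm'
  · obtain ⟨j, rfl⟩ := hm'
    rw [zpow_add, ← (Commute.refl b).mul_zpow, hb2, one_zpow] at hm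
    rw [← hm, orderOf_one] at ha
    exact absurd ha (by norm_num)
  · obtain ⟨j, rfl⟩ := hm'
    rw [zpow_add, two_mul, zpow_add, ← (Commute.refl b).mul_zpow, hb2, one_zpow, one_mul,
      zpow_one] at hm
    exact hm.symm

/-- Let G be a finite group in which the intersection of any two distinct Sylow 2-subgroups is contained in the centre of some Sylow 2-subgroup, and let S be a Sylow 2-subgroup. If C is a nontrivial cyclic characteristic subgroup of S, then the involution of C is central modulo the largest normal subgroup of odd order of G: each of its conjugates has the same image in G/O(G). -/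
theorem result {G : Type*} [Group G] [Finite G]
    (hCI : ∀ S T : Sylow 2 G, S ≠ T → ∃ U : Sylow 2 G,
      (S : Subgroup G) ⊓ (T : Subgroup G) ≤ (Subgroup.center ↥(U : Subgroup G)).map (U : Subgroup G).subtype)
    (S : Sylow 2 G) (C : Subgroup ↥(S : Subgroup G)) (hC : C ≠ ⊥) (hCc : IsCyclic ↥C) (hCh : C.Characteristic)
    (c : ↥(S : Subgroup G)) (hc : c ∈ C) (hc2 : orderOf c = 2) :
    ∀ g : G, (QuotientGroup.mk (s := Cfsg.oddCore G) (g * (c : G) * g⁻¹)) =
      QuotientGroup.mk (s := Cfsg.oddCore G) (c : G) := by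
  have hc2' : orderOf (c : G) = 2 := by rw [orderOf_coe]; exact hc2
  have hnorm : ∀ n : G, n ∈ normalizer ((S : Subgroup G) : Set G) → n * (c : G) * n⁻¹ = c := by
    intro n hn
    have h1 := BG.normalizer_le_normalizer_map_char (S : Subgroup G) C hn
    have h2 : n * (c : G) * n⁻¹ ∈ C.map (S : Subgroup G).subtype :=
      (mem_normalizer_iff.mp h1 _).mp ⟨c, hc, rfl⟩
    obtain ⟨c', hc', hcc'⟩ := h2
    have h3 : orderOf c' = 2 := by
      rw [← orderOf_coe]
      show orderOf ((S : Subgroup G).subtype c') = 2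
      rw [hcc']
      exact ((MulAut.conj n).orderOf_eq (c : G)).trans hc2'
    have h4 : (⟨c', hc'⟩ : C) = ⟨c, hc⟩ :=
      eq_of_orderOf_two_of_cyclic hCc (by rw [Subgroup.orderOf_mk]; exact h3)
        (by rw [Subgroup.orderOf_mk]; exact hc2)
    have h5 : c' = c := congrArg Subtype.val h4
    rw [← hcc', h5]; rfl
  have hiso : ∀ g : G, g * (c : G) * g⁻¹ ∈ S → g * (c : G) * g⁻¹ = c := by
    intro g hg
    by_cases hST : g⁻¹ • S = S
    · have h1 : g⁻¹ ∈ normalizer ((S : Subgroup G) : Set G) := Sylow.smul_eq_iff_mem_normalizer.mp hST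
      have := inv_mem h1
      rw [inv_inv] at this
      exact hnorm g this
    · have h1 := (S3183.result hCI S).2 (g⁻¹ • S) hST
      have hcT : (c : G) ∈ ((g⁻¹ • S : Sylow 2 G) : Subgroup G) := by
        rw [Sylow.coe_subgroup_smul, Hall.mem_conj_smul, inv_inv]; exact hg
      have h2 := h1 ⟨c.2, hcT⟩
      have hcen : ∀ T : Sylow 2 G, (c : G) ∈ (center (T : Subgroup G)).map (T : Subgroup G).subtype →
          (T : Subgroup G) ≤ centralizer ({(c : G)} : Set G) := by
        rintro T ⟨z, hz, hzc⟩ t ht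
        rw [mem_cent_singleton, ← hzc]
        exact (congrArg Subtype.val (mem_center_iff.mp hz ⟨t, ht⟩)).symm
      obtain ⟨h, hh, hhS⟩ := H48.sylow_conj_in S (g⁻¹ • S) (hcen S h2.1) (hcen _ h2.2)
      have h3 : g * h ∈ normalizer ((S : Subgroup G) : Set G) := by
        apply Sylow.smul_eq_iff_mem_normalizer.mp
        rw [mul_smul, hhS, smul_inv_smul]
      have h4 := hnorm _ h3
      have h5 := mem_cent_singleton.mp hh
      calc g * (c : G) * g⁻¹ = g * (c * h * h⁻¹) * g⁻¹ := by group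
        _ = g * h * c * (g * h)⁻¹ := by rw [h5]; group
        _ = c := h4
  obtain ⟨N, hNn, hNodd, hN⟩ := Cfsg.Agent.S0215.result S (c : G) hc2' c.2 hiso
  have hNO : N ≤ Cfsg.oddCore G := Solv.le_pPrimeCore hNn (Nat.coprime_two_right.mpr hNodd)
  intro g
  rw [QuotientGroup.eq]
  have h1 := hNO (inv_mem (hN g⁻¹))
  have h2 := (inferInstance : (Cfsg.oddCore G).Normal).conj_mem _ h1 g
  have e : (g * (c : G) * g⁻¹)⁻¹ * (c : G) = g * (c : G)⁻¹ * g⁻¹ * c := by group
  rw [e]
  have h3 := (inferInstance : (Cfsg.oddCore G).Normal).conj_mem _ (hNO (hN g)) (c : G)⁻¹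
  have e2 : (c : G)⁻¹ * ((c : G) * g * (c : G)⁻¹ * g⁻¹) * (c : G)⁻¹⁻¹ = g * (c : G)⁻¹ * g⁻¹ * c := by group
  rwa [e2] at h3

end Cfsg.Agent.S3184
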