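import Cfsg.Statements.S3190
import Mathlib
import Cfsg.Agent.H53.Basic

set_option autoImplicit false
open Cfsg

namespace Cfsg.Agent.S3190

/-- Let p be an odd prime and, inside a finite group, let P be a p-subgroup normalized by a Klein four-group T. Let R be a subgroup of P, normal in P and normalized by T, such that P is the product of R with the centralizer of T in P. If T centralizes the centre of P, then T centralizes the centre of R. -/
theorem result {X : Type*} [Group X] [Finite X]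
    {p : ℕ} (hp : p.Prime) (hodd : Odd p) (P T R : Subgroup X) (hP : IsPGroup p ↥P) (hT : IsKleinFour ↥T)
    (hTP : T ≤ Subgroup.normalizer (P : Set X)) (hRP : R ≤ P) (hRn : (R.subgroupOf P).Normal)
    (hTR : T ≤ Subgroup.normalizer (R : Set X)) (hfac : R ⊔ (P ⊓ Subgroup.centralizer (T : Set X)) = P)
    (hZ : T ≤ Subgroup.centralizer (((Subgroup.center ↥P).map P.subtype : Subgroup X) : Set X)) :
    T ≤ Subgroup.centralizer (((Subgroup.center ↥R).map R.subtype : Subgroup X) : Set X) := by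
  classical
  have : Fact p.Prime := ⟨hp⟩
  have hTsq : ∀ t ∈ T, t * t = 1 := by
    intro t ht
    have h := hT.exponent_two
    have := Monoid.pow_exponent_eq_one (⟨t, ht⟩ : T)
    rw [h, pow_two] at this
    exact congrArg Subtype.val this
  intro t ht
  rw [Subgroup.mem_centralizer_iff]
  set Z : Subgroup X := (Subgroup.center ↥R).map R.subtype with hZdef
  have hZR : Z ≤ R := Subgroup.map_subtype_le _
  have hZc : ∀ z ∈ Z, ∀ r ∈ R, r * z = z * r := (H53.le_center_map_iff.mp le_rfl).2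
  have hZchar : ∀ g : X, g ∈ Subgroup.normalizer (R : Set X) → ∀ z ∈ Z, g * z * g⁻¹ ∈ Z := by
    intro g hg z hz
    have hZ' : Z.map (MulAut.conj g).toMonoidHom ≤ Z := by
      rw [hZdef, H53.le_center_map_iff]
      have hR : R.map (MulAut.conj g).toMonoidHom = R := H53.mem_normalizer_iff_map_eq.mp hg
      constructor
      · calc _ ≤ R.map (MulAut.conj g).toMonoidHom := H53.map_conj_mono hZR g
          _ = R := hR
      · rintro _ ⟨z, hz, rfl⟩ r hr
        rw [← hR] at hr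
        obtain ⟨r, hr, rfl⟩ := hr
        show (g * r * g⁻¹) * (g * z * g⁻¹) = (g * z * g⁻¹) * (g * r * g⁻¹)
        have := hZc z hz r hr
        calc (g * r * g⁻¹) * (g * z * g⁻¹) = g * (r * z) * g⁻¹ := by group
          _ = g * (z * r) * g⁻¹ := by rw [this]
          _ = _ := by group
    exact hZ' ⟨z, hz, rfl⟩
  have htZ : ∀ z ∈ Z, t * z * t⁻¹ ∈ Z := hZchar t (hTR ht)
  -- W = [t, Z]
  let W : Subgroup X :=
    { carrier := {w | ∃ z ∈ Z, w = t * z * t⁻¹ * z⁻¹}
      one_mem' := ⟨1, Z.one_mem, by group⟩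
      mul_mem' := by
        rintro _ _ ⟨z, hz, rfl⟩ ⟨y, hy, rfl⟩
        refine ⟨z * y, Z.mul_mem hz hy, ?_⟩
        have h1 := hZc z⁻¹ (Z.inv_mem hz) (t * y * t⁻¹) (hZR (htZ y hy))
        have h2 := hZc z⁻¹ (Z.inv_mem hz) y⁻¹ (hZR (Z.inv_mem hy))
        calc t * z * t⁻¹ * z⁻¹ * (t * y * t⁻¹ * y⁻¹) = t * z * t⁻¹ * (z⁻¹ * (t * y * t⁻¹)) * y⁻¹ := by group
          _ = t * z * t⁻¹ * ((t * y * t⁻¹) * z⁻¹) * y⁻¹ := by rw [h1]
          _ = t * z * y * t⁻¹ * (z⁻¹ * y⁻¹) := by group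
          _ = t * z * y * t⁻¹ * (y⁻¹ * z⁻¹) := by rw [h2]
          _ = _ := by group
      inv_mem' := by
        rintro _ ⟨z, hz, rfl⟩
        refine ⟨z⁻¹, Z.inv_mem hz, ?_⟩
        have h1 := hZc z hz (t * z⁻¹ * t⁻¹) (hZR (htZ _ (Z.inv_mem hz)))
        calc (t * z * t⁻¹ * z⁻¹)⁻¹ = z * (t * z⁻¹ * t⁻¹) := by group
          _ = (t * z⁻¹ * t⁻¹) * z := h1.symm
          _ = _ := by group }
  have hWZ : W ≤ Z := by
    rintro _ ⟨z, hz, rfl⟩
    exact Z.mul_mem (htZ z hz) (Z.inv_mem hz)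
  have hPN : P ≤ Subgroup.normalizer (W : Set X) := by
    rw [← hfac]
    refine sup_le ?_ ?_
    · rw [Subgroup.le_normalizer_iff]
      intro r hr w hw
      rw [hZc w (hWZ hw) r hr, mul_assoc, mul_inv_cancel, mul_one]; exact hw
    · rw [Subgroup.le_normalizer_iff]
      rintro c ⟨hcP, hcT⟩ _ ⟨z, hz, rfl⟩
      have hcR : c ∈ Subgroup.normalizer (R : Set X) :=
        (Subgroup.normal_subgroupOf_iff_le_normalizer hRP).mp hRn hcP
      have hct : t * c = c * t := Subgroup.mem_centralizer_iff.mp hcT t ht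
      have hct' : c * t⁻¹ = t⁻¹ * c := by
        calc c * t⁻¹ = t⁻¹ * (t * c) * t⁻¹ := by group
          _ = t⁻¹ * (c * t) * t⁻¹ := by rw [hct]
          _ = _ := by group
      refine ⟨c * z * c⁻¹, hZchar c hcR z hz, ?_⟩
      calc c * (t * z * t⁻¹ * z⁻¹) * c⁻¹ = (c * t) * z * t⁻¹ * z⁻¹ * c⁻¹ := by group
        _ = (t * c) * z * t⁻¹ * z⁻¹ * c⁻¹ := by rw [hct]
        _ = t * (c * z * c⁻¹) * (c * t⁻¹) * z⁻¹ * c⁻¹ := by group
        _ = t * (c * z * c⁻¹) * (t⁻¹ * c) * z⁻¹ * c⁻¹ := by rw [hct']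
        _ = _ := by group
  by_cases hW : W = ⊥
  · intro z hz
    have : t * z * t⁻¹ * z⁻¹ ∈ W := ⟨z, hz, rfl⟩
    rw [hW, Subgroup.mem_bot] at this
    have h1 : t * z * t⁻¹ = z := mul_inv_eq_one.mp this
    calc z * t = t * z * t⁻¹ * t := by rw [h1]
      _ = t * z := by group
  · exfalso
    have hWP : W ≤ P := hWZ.trans (hZR.trans hRP)
    obtain ⟨w, hw, hw1, hwP⟩ := H53.exists_fixed_ne_one hP (hP.to_le hWP) hPN hW
    have hwZ : w ∈ ((Subgroup.center ↥P).map P.subtype : Subgroup X) := by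
      have : Subgroup.zpowers w ≤ (Subgroup.center ↥P).map P.subtype := by
        rw [H53.le_center_map_iff]
        refine ⟨by rw [Subgroup.zpowers_le]; exact hWP hw, ?_⟩
        rintro _ ⟨n, rfl⟩ x hx
        have : Commute x w := hwP x hx
        exact this.zpow_right n
      exact this (Subgroup.mem_zpowers w)
    have htw := Subgroup.mem_centralizer_iff.mp (hZ ht) w hwZ
    obtain ⟨z, hz, hwz⟩ := hw
    -- t w t⁻¹ = w⁻¹
    have h1 : t * w * t⁻¹ = w⁻¹ := by
      have h2 := hZc z hz (t * z⁻¹ * t⁻¹) (hZR (htZ _ (Z.inv_mem hz)))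
      have htt : t * t = 1 := hTsq t ht
      have htt' : t⁻¹ = t := inv_eq_of_mul_eq_one_left htt
      rw [hwz]
      calc t * (t * z * t⁻¹ * z⁻¹) * t⁻¹ = (t * t) * z * (t⁻¹ * z⁻¹ * t⁻¹) := by group
        _ = z * (t * z⁻¹ * t⁻¹) := by rw [htt, one_mul]; rw [htt']
        _ = _ := by group
    have h2 : w = w⁻¹ := by
      rw [← h1, ← htw]; group
    have h3 : w ^ 2 = 1 := by
      rw [pow_two]; nth_rw 2 [h2]; group
    have h4 : orderOf w ∣ 2 := orderOf_dvd_of_pow_eq_one h3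
    obtain ⟨k, hk⟩ := hP (⟨w, (hWZ.trans (hZR.trans hRP)) ⟨z, hz, hwz⟩⟩ : P)
    have h5 : w ^ p ^ k = 1 := congrArg Subtype.val hk
    have h6 : orderOf w ∣ p ^ k := orderOf_dvd_of_pow_eq_one h5
    have h7 : Nat.Coprime 2 (p ^ k) := Nat.coprime_two_left.mpr (hodd.pow)
    have h8 : orderOf w ∣ 1 := by
      rw [← h7]; exact Nat.dvd_gcd h4 h6
    exact hw1 (orderOf_eq_one_iff.mp (Nat.dvd_one.mp h8))

end Cfsg.Agent.S3190
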