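import Cfsg.Statements.S3195
import Cfsg.Agent.H67.OddReal
import Cfsg.Agent.Solv.Core

set_option autoImplicit false
open Cfsg

namespace Cfsg.Agent.S3195

private theorem odd_pow_mem {G : Type*} [Group G] [Finite G] {y : G} (hy : Odd (orderOf y)) :
    ∃ k : ℕ, (y ^ 2) ^ k = y := by
  obtain ⟨m, hm⟩ := hy
  refine ⟨m + 1, ?_⟩
  have h1 : y ^ (2 * m + 1) = 1 := by rw [← hm]; exact pow_orderOf_eq_one y
  rw [← pow_mul, show 2 * (m + 1) = (2 * m + 1) + 1 by ring, pow_succ, h1, one_mul]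

private theorem comm_of_sq {G : Type*} [Group G] [Finite G] {y c : G} (hy : Odd (orderOf y)) (h : Commute (y ^ 2) c) :
    Commute y c := by
  obtain ⟨k, hk⟩ := odd_pow_mem hy
  rw [← hk]
  exact h.pow_left k

private theorem lem1 {G : Type*} [Group G] [Finite G] {a : G} (ha : a * a = 1)
    (hN : ∀ N : Subgroup G, N.Normal → IsPGroup 2 N → a ∉ N) :
    ∃ h : G, Odd (orderOf (a * (h * a * h⁻¹))) ∧ a * (h * a * h⁻¹) ≠ 1 ∧ h ∈ Subgroup.zpowers (a * (h * a * h⁻¹)) := by
  haveI : Fact (Nat.Prime 2) := ⟨Nat.prime_two⟩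
  have h1 : ∃ g : G, ¬ IsPGroup 2 ↥(Subgroup.closure ({a, g * a * g⁻¹} : Set G)) := by
    by_contra hcon
    push Not at hcon
    obtain ⟨N, hN1, hN2, haN⟩ := Cfsg.Agent.H4.baer_suzuki_elem a hcon
    exact hN N hN1 hN2 haN
  obtain ⟨g, hg⟩ := h1
  set b := g * a * g⁻¹ with hb
  have hb2 : b * b = 1 := by
    have : b * b = g * (a * a) * g⁻¹ := by rw [hb]; group
    rw [this, ha]; group
  have ha' : a⁻¹ = a := inv_eq_of_mul_eq_one_left ha
  have hb' : b⁻¹ = b := inv_eq_of_mul_eq_one_left hb2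
  have h2 : ¬ ∃ k, orderOf (a * b) = 2 ^ k := by
    intro h0
    exact hg (Cfsg.Agent.H67.isPGroup_closure_pair_of_involutions (by rw [sq]; exact ha) (by rw [sq]; exact hb2) h0)
  obtain ⟨k, m, hm, hkm⟩ := Nat.exists_eq_two_pow_mul_odd (orderOf_pos (a * b)).ne'
  set y := (a * b) ^ (2 ^ k) with hy
  have hoy : orderOf y = m := by
    rw [hy, orderOf_pow' _ (by positivity), hkm]
    rw [Nat.gcd_eq_right (Dvd.intro _ rfl), Nat.mul_div_cancel_left _ (by positivity)]
  have hay : a * y * a = y⁻¹ := by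
    have e1 : a * (a * b) * a⁻¹ = (a * b)⁻¹ := by
      rw [mul_inv_rev, ha', hb', ← mul_assoc, ha, one_mul]
    have e2 : a * y * a⁻¹ = (a * (a * b) * a⁻¹) ^ (2 ^ k) := by rw [hy, conj_pow]
    rw [e1, inv_pow, ha'] at e2
    exact e2
  have hy1 : y ≠ 1 := by
    intro h0
    rw [h0, orderOf_one] at hoy
    apply h2
    exact ⟨k, by rw [hkm, ← hoy, mul_one]⟩
  have hval : a * (y * a * y⁻¹) = (y ^ 2)⁻¹ := by
    calc a * (y * a * y⁻¹) = (a * y * a) * y⁻¹ := by group
      _ = (y ^ 2)⁻¹ := by rw [hay, sq, mul_inv_rev]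
  have hoy' : Odd (orderOf y) := hoy ▸ hm
  obtain ⟨j, hj⟩ := odd_pow_mem hoy'
  refine ⟨y, ?_, ?_, ?_⟩
  · rw [hval, orderOf_inv]
    exact Odd.of_dvd_nat hoy' (orderOf_pow_dvd 2)
  · rw [hval]
    intro h0
    rw [inv_eq_one] at h0
    rw [h0, one_pow] at hj
    exact hy1 hj.symm
  · rw [hval, Subgroup.zpowers_inv]
    exact ⟨(j : ℤ), by show (y ^ 2) ^ (j : ℤ) = y; rw [zpow_natCast]; exact hj⟩


/-- Let A be a Klein four-subgroup of a finite group G. If every G-conjugate of every involution of A commutes with some involution of A (its centralizer meets A nontrivially), then A meets the largest normal 2-subgroup O₂(G) nontrivially. -/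
theorem result {G : Type*} [Group G] [Finite G]
    (A : Subgroup G) (hA : IsKleinFour ↥A)
    (h : ∀ a ∈ A, a ≠ 1 → ∀ g : G, A ⊓ Subgroup.centralizer ({g * a * g⁻¹} : Set G) ≠ ⊥) :
    A ⊓ Cfsg.pCore 2 G ≠ ⊥ := by
  by_contra hbot
  have hK : IsKleinFour ↥A := hA
  have hsq : ∀ x ∈ A, x * x = 1 := fun x hx => congrArg Subtype.val (IsKleinFour.mul_self (⟨x, hx⟩ : A))
  have hAc : ∀ x ∈ A, ∀ y ∈ A, Commute x y := by
    intro x hx y hy
    have h1 := hsq _ (A.mul_mem hx hy)
    have hx' : x⁻¹ = x := inv_eq_of_mul_eq_one_left (hsq x hx)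
    have hy' : y⁻¹ = y := inv_eq_of_mul_eq_one_left (hsq y hy)
    have h2 : x * y = (x * y)⁻¹ := eq_inv_of_mul_eq_one_left h1
    rw [mul_inv_rev, hx', hy'] at h2
    exact h2
  have hno : ∀ x ∈ A, x ≠ 1 → ∀ N : Subgroup G, N.Normal → IsPGroup 2 N → x ∉ N := by
    intro x hx hx1 N hN1 hN2 hxN
    have h1 : x ∈ A ⊓ Cfsg.pCore 2 G := ⟨hx, Cfsg.Agent.Solv.le_pCore hN1 hN2 hxN⟩
    rw [hbot, Subgroup.mem_bot] at h1
    exact hx1 h1
  have hthird : ∀ x ∈ A, ∀ y ∈ A, ∀ z ∈ A, x ≠ 1 → y ≠ 1 → x ≠ y → z ≠ 1 → z = x ∨ z = y ∨ z = x * y := by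
    intro x hx y hy z hz hx1 hy1 hxy hz1
    by_cases h1 : z = x
    · exact Or.inl h1
    by_cases h2 : z = y
    · exact Or.inr (Or.inl h2)
    right; right
    have := IsKleinFour.eq_mul_of_ne_all (x := (⟨x, hx⟩ : A)) (y := ⟨y, hy⟩) (z := ⟨z, hz⟩)
      (fun h0 => hx1 (congrArg Subtype.val h0)) (fun h0 => hy1 (congrArg Subtype.val h0)) (fun h0 => hxy (congrArg Subtype.val h0))
      (fun h0 => hz1 (congrArg Subtype.val h0)) (fun h0 => h1 (congrArg Subtype.val h0)) (fun h0 => h2 (congrArg Subtype.val h0))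
    exact congrArg Subtype.val this
  have hex : ∀ x ∈ A, x ≠ 1 → ∀ g : G, ∃ e ∈ A, e ≠ 1 ∧ Commute e (g * x * g⁻¹) := by
    intro x hx hx1 g
    obtain ⟨⟨e, he⟩, he1⟩ := (Subgroup.ne_bot_iff_exists_ne_one).1 (h x hx hx1 g)
    refine ⟨e, he.1, fun h0 => he1 (Subtype.ext h0), ?_⟩
    exact ((Subgroup.mem_centralizer_iff.1 he.2) _ rfl).symm
  have hoddsq : ∀ x : G, Odd (orderOf x) → x * x = 1 → x = 1 := by
    intro x hx hxx
    obtain ⟨k, hk⟩ := odd_pow_mem hx
    rw [sq, hxx, one_pow] at hk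
    exact hk.symm
  -- the first involution
  have hnt : Nontrivial A := by
    rw [← Finite.one_lt_card_iff_nontrivial, IsKleinFour.card_four]; norm_num
  obtain ⟨⟨a, haA⟩, ha1'⟩ := exists_ne (1 : A)
  have ha1 : a ≠ 1 := fun h0 => ha1' (Subtype.ext h0)
  obtain ⟨u, hu1, hu2, hu3⟩ := lem1 (hsq a haA) (hno a haA ha1)
  set b := u * a * u⁻¹ with hb
  have ha2 := hsq a haA
  have hb2 : b * b = 1 := by
    have : b * b = u * (a * a) * u⁻¹ := by rw [hb]; group
    rw [this, ha2]; group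
  obtain ⟨a', ha'A, ha'1, ha'b⟩ := hex a haA ha1 u
  rw [← hb] at ha'b
  have hne : a' ≠ a := by
    rintro rfl
    apply hu2
    apply hoddsq _ hu1
    calc a' * b * (a' * b) = a' * (b * a') * b := by group
      _ = a' * (a' * b) * b := by rw [ha'b.eq]
      _ = (a' * a') * (b * b) := by group
      _ = 1 := by rw [ha2, hb2, one_mul]
  have ha'a : Commute a' a := hAc a' ha'A a haA
  have ha'y : Commute a' (a * b) := ha'a.mul_right ha'b
  have ha'u : Commute a' u := by
    obtain ⟨k, hk⟩ := hu3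
    rw [← hk]
    exact ha'y.zpow_right k
  -- the second
  obtain ⟨v, hv1, hv2, hv3⟩ := lem1 (hsq a' ha'A) (hno a' ha'A ha'1)
  set c := v * a' * v⁻¹ with hc
  have ha'2 := hsq a' ha'A
  have hc2 : c * c = 1 := by
    have : c * c = v * (a' * a') * v⁻¹ := by rw [hc]; group
    rw [this, ha'2]; group
  have hca' : ¬ Commute a' c := by
    intro h0
    apply hv2
    apply hoddsq _ hv1
    calc a' * c * (a' * c) = a' * (c * a') * c := by group
      _ = a' * (a' * c) * c := by rw [h0.eq]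
      _ = (a' * a') * (c * c) := by group
      _ = 1 := by rw [ha'2, hc2, one_mul]
  obtain ⟨s, hsA, hs1, hsc⟩ := hex a' ha'A ha'1 v
  rw [← hc] at hsc
  have hsa' : s ≠ a' := by rintro rfl; exact hca' hsc
  have hs : s = a ∨ s = a * a' := by
    rcases hthird a haA a' ha'A s hsA ha1 ha'1 hne.symm hs1 with h1 | h1 | h1
    · exact Or.inl h1
    · exact absurd h1 hsa'
    · exact Or.inr h1
  -- apply the hypothesis to the conjugate of `A` by `u`
  obtain ⟨t', ht'A, ht'1, ht'c⟩ := hex a' ha'A ha'1 (u⁻¹ * v)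
  have ht0 : ∃ t, (t = b ∨ t = b * a') ∧ Commute t c := by
    refine ⟨u * t' * u⁻¹, ?_, ?_⟩
    · rcases hthird a haA a' ha'A t' ht'A ha1 ha'1 hne.symm ht'1 with h1 | h1 | h1
      · left; rw [h1]
      · exfalso
        apply hca'
        rw [h1] at ht'c
        have e1 : u⁻¹ * v * a' * (u⁻¹ * v)⁻¹ = u⁻¹ * c * u := by rw [hc]; group
        rw [e1] at ht'c
        have e2 : a' = u * a' * u⁻¹ := by
          rw [← ha'u.eq, mul_inv_cancel_right]
        rw [e2]
        show u * a' * u⁻¹ * c = c * (u * a' * u⁻¹)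
        calc u * a' * u⁻¹ * c = u * (a' * (u⁻¹ * c * u)) * u⁻¹ := by group
          _ = u * ((u⁻¹ * c * u) * a') * u⁻¹ := by rw [ht'c.eq]
          _ = c * (u * a' * u⁻¹) := by group
      · right
        rw [h1, hb]
        calc u * (a * a') * u⁻¹ = u * a * (a' * u⁻¹) := by group
          _ = u * a * (u⁻¹ * a') := by rw [(ha'u.inv_right).eq]
          _ = u * a * u⁻¹ * a' := by group
    · have e1 : u⁻¹ * v * a' * (u⁻¹ * v)⁻¹ = u⁻¹ * c * u := by rw [hc]; group
      rw [e1] at ht'c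
      show u * t' * u⁻¹ * c = c * (u * t' * u⁻¹)
      calc u * t' * u⁻¹ * c = u * (t' * (u⁻¹ * c * u)) * u⁻¹ := by group
        _ = u * ((u⁻¹ * c * u) * t') * u⁻¹ := by rw [ht'c.eq]
        _ = c * (u * t' * u⁻¹) := by group
  obtain ⟨t, ht, htc⟩ := ht0
  -- `c` commutes with `y = a b`
  have hab'c : Commute (a * b) c := by
    apply comm_of_sq hu1
    have hst : Commute ((s * t) ^ 2) c := (hsc.mul_left htc).pow_left 2
    have ha'ab : ∀ z : G, Commute a' z → (z * a') ^ 2 = z ^ 2 := by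
      intro z hz
      rw [(hz.symm).mul_pow, sq a', ha'2, mul_one]
    have : (s * t) ^ 2 = (a * b) ^ 2 := by
      rcases hs with hs | hs <;> rcases ht with ht | ht
      · rw [hs, ht]
      · rw [hs, ht, ← mul_assoc]; exact ha'ab _ ha'y
      · rw [hs, ht]
        have : a * a' * b = (a * b) * a' := by
          calc a * a' * b = a * (a' * b) := mul_assoc _ _ _
            _ = a * (b * a') := by rw [ha'b.eq]
            _ = (a * b) * a' := (mul_assoc _ _ _).symm
        rw [this]; exact ha'ab _ ha'y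
      · rw [hs, ht]
        have : a * a' * (b * a') = (a * b) * (a' * a') := by
          calc a * a' * (b * a') = a * (a' * b) * a' := by group
            _ = a * (b * a') * a' := by rw [ha'b.eq]
            _ = (a * b) * (a' * a') := by group
        rw [this, ha'2, mul_one]
    rwa [this] at hst
  have huc : Commute u c := by
    obtain ⟨k, hk⟩ := hu3
    rw [← hk]
    exact hab'c.zpow_left k
  -- `v` commutes with `s`
  have hsa'c : Commute s (a' * c) := (hAc s hsA a' ha'A).mul_right hsc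
  have hsv : Commute s v := by
    obtain ⟨k, hk⟩ := hv3
    rw [← hk]
    exact hsa'c.zpow_right k
  -- `s₂ = u s u⁻¹`
  set s₂ := u * s * u⁻¹ with hs₂
  have hss₂ : s * s₂ = a * b := by
    rcases hs with hs | hs
    · rw [hs₂, hs]
    · have e1 : s₂ = b * a' := by
        rw [hs₂, hs, hb]
        calc u * (a * a') * u⁻¹ = u * a * (a' * u⁻¹) := by group
          _ = u * a * (u⁻¹ * a') := by rw [(ha'u.inv_right).eq]
          _ = u * a * u⁻¹ * a' := by group
      rw [e1, hs]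
      calc a * a' * (b * a') = a * (a' * b) * a' := by group
        _ = a * (b * a') * a' := by rw [ha'b.eq]
        _ = (a * b) * (a' * a') := by group
        _ = a * b := by rw [ha'2, mul_one]
  have hs2 := hsq s hsA
  have hs₂2 : s₂ * s₂ = 1 := by
    have : s₂ * s₂ = u * (s * s) * u⁻¹ := by rw [hs₂]; group
    rw [this, hs2]; group
  have ha's₂ : Commute a' s₂ := (ha'u.mul_right (hAc a' ha'A s hsA)).mul_right ha'u.inv_right
  have hs₂c : Commute s₂ c := (huc.mul_left hsc).mul_left huc.inv_left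
  -- the conjugate `s₂ c` of `s a'`
  have hsa'A : s * a' ∈ A := A.mul_mem hsA ha'A
  have hsa'1 : s * a' ≠ 1 := by
    intro h0
    apply hsa'
    have : a'⁻¹ = a' := inv_eq_of_mul_eq_one_left ha'2
    rw [← this]
    exact eq_inv_of_mul_eq_one_left h0
  obtain ⟨e, heA, he1, hec⟩ := hex (s * a') hsa'A hsa'1 (u * v)
  have hd : u * v * (s * a') * (u * v)⁻¹ = s₂ * c := by
    calc u * v * (s * a') * (u * v)⁻¹ = u * (v * s) * a' * v⁻¹ * u⁻¹ := by group
      _ = u * (s * v) * a' * v⁻¹ * u⁻¹ := by rw [hsv.eq]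
      _ = u * s * (v * a' * v⁻¹) * u⁻¹ := by group
      _ = u * s * (c * u⁻¹) := by rw [← hc]; group
      _ = u * s * (u⁻¹ * c) := by rw [(huc.symm.inv_right).eq]
      _ = s₂ * c := by rw [hs₂]; group
  rw [hd] at hec
  have hss : ¬ Commute s s₂ := by
    intro h0
    apply hu2
    apply hoddsq _ hu1
    rw [← hss₂]
    calc s * s₂ * (s * s₂) = s * (s₂ * s) * s₂ := by group
      _ = s * (s * s₂) * s₂ := by rw [h0.eq]
      _ = (s * s) * (s₂ * s₂) := by group
      _ = 1 := by rw [hs2, hs₂2, one_mul]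
  rcases hthird s hsA a' ha'A e heA hs1 ha'1 hsa' he1 with h1 | h1 | h1
  · rw [h1] at hec
    apply hss
    have : Commute s (s₂ * c * c⁻¹) := hec.mul_right hsc.inv_right
    rwa [mul_inv_cancel_right] at this
  · rw [h1] at hec
    apply hca'
    have : Commute a' (s₂⁻¹ * (s₂ * c)) := (ha's₂.inv_right).mul_right hec
    rwa [inv_mul_cancel_left] at this
  · rw [h1] at hec
    have hsa'comm : Commute s a' := hAc s hsA a' ha'A
    -- `(s s₂)² = (c a')²`
    have e1 : (s * s₂) * (a' * c) = (s₂ * s) * (c * a') := by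
      calc (s * s₂) * (a' * c) = s * (s₂ * a') * c := by group
        _ = s * (a' * s₂) * c := by rw [ha's₂.eq]
        _ = (s * a') * (s₂ * c) := by group
        _ = (s₂ * c) * (s * a') := hec.eq
        _ = s₂ * (c * s) * a' := by group
        _ = s₂ * (s * c) * a' := by rw [hsc.eq]
        _ = (s₂ * s) * (c * a') := by group
    have hsi : s⁻¹ = s := inv_eq_of_mul_eq_one_left hs2
    have hs₂i : s₂⁻¹ = s₂ := inv_eq_of_mul_eq_one_left hs₂2
    have hci : c⁻¹ = c := inv_eq_of_mul_eq_one_left hc2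
    have ha'i : a'⁻¹ = a' := inv_eq_of_mul_eq_one_left ha'2
    have e2 : (a * b) ^ 2 = (c * a') ^ 2 := by
      rw [← hss₂]
      calc (s * s₂) ^ 2 = (s₂ * s)⁻¹ * ((s * s₂) * (a' * c)) * (a' * c)⁻¹ := by
            rw [mul_inv_rev, hsi, hs₂i, sq]; group
        _ = (s₂ * s)⁻¹ * ((s₂ * s) * (c * a')) * (a' * c)⁻¹ := by rw [e1]
        _ = (c * a') * (c * a') := by
            have e5 : (a' * c)⁻¹ = c * a' := by rw [mul_inv_rev, hci, ha'i]
            rw [e5]; group
        _ = (c * a') ^ 2 := by rw [sq]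
    have e3 : Commute s ((a * b) ^ 2) := by
      rw [e2]
      exact ((hsc.mul_right hsa'comm).pow_right 2)
    have e4 : Commute s (a * b) := (comm_of_sq hu1 e3.symm).symm
    rw [← hss₂] at e4
    apply hss
    have : Commute s (s⁻¹ * (s * s₂)) := ((Commute.refl s).inv_right).mul_right e4
    rwa [inv_mul_cancel_left] at this

end Cfsg.Agent.S3195
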