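import Cfsg.Statements.S3196
import Cfsg.Agent.GeoMax.OneAll
import Cfsg.Agent.Solv.Core

set_option autoImplicit false
open Cfsg

namespace Cfsg.Agent.S3196

open Cfsg.Agent.GeoMax.OneAll

private theorem zpowers_eq_of_card {G : Type*} [Group G] [Finite G] {p : ℕ} (hp : p.Prime) {X : Subgroup G} (hX : Nat.card X = p)
    {x : G} (hx : x ∈ X) (h1 : x ≠ 1) : Subgroup.zpowers x = X := by
  have hle : Subgroup.zpowers x ≤ X := by rwa [Subgroup.zpowers_le]
  apply Subgroup.eq_of_le_of_card_ge hle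
  rw [hX]
  have hdvd : Nat.card (Subgroup.zpowers x) ∣ p := by rw [← hX]; exact Subgroup.card_dvd_of_le hle
  rcases (Nat.dvd_prime hp).1 hdvd with h | h
  · exfalso
    rw [Nat.card_zpowers, orderOf_eq_one_iff] at h
    exact h1 h
  · exact h.ge

private theorem mem_sup_zpowers {G : Type*} [Group G] {x y t : G} (h : Commute x y)
    (ht : t ∈ Subgroup.zpowers x ⊔ Subgroup.zpowers y) : ∃ i j : ℤ, t = x ^ i * y ^ j := by
  let S : Subgroup G :=
    { carrier := {t | ∃ i j : ℤ, t = x ^ i * y ^ j}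
      one_mem' := ⟨0, 0, by simp⟩
      mul_mem' := by
        rintro a b ⟨i, j, rfl⟩ ⟨k, l, rfl⟩
        refine ⟨i + k, j + l, ?_⟩
        have h1 : y ^ j * x ^ k = x ^ k * y ^ j := (h.symm.zpow_zpow j k).eq
        calc x ^ i * y ^ j * (x ^ k * y ^ l) = x ^ i * (y ^ j * x ^ k) * y ^ l := by group
          _ = x ^ i * (x ^ k * y ^ j) * y ^ l := by rw [h1]
          _ = x ^ (i + k) * y ^ (j + l) := by rw [zpow_add, zpow_add]; group
      inv_mem' := by
        rintro a ⟨i, j, rfl⟩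
        refine ⟨-i, -j, ?_⟩
        have h1 : y ^ (-j) * x ^ (-i) = x ^ (-i) * y ^ (-j) := (h.symm.zpow_zpow (-j) (-i)).eq
        rw [mul_inv_rev, ← zpow_neg, ← zpow_neg, h1] }
  have hle : Subgroup.zpowers x ⊔ Subgroup.zpowers y ≤ S := by
    refine sup_le ?_ ?_
    · rw [Subgroup.zpowers_le]; exact ⟨1, 0, by simp⟩
    · rw [Subgroup.zpowers_le]; exact ⟨0, 1, by simp⟩
  exact hle ht


/-- Let p be a prime and K a set of subgroups of order p of a finite group G, closed under conjugation, such that at least two distinct members of K commute elementwise, and whenever two distinct members X, Y of K commute: every subgroup of order p of the group XY they generate belongs to K, and every member W of K has centralizer meeting XY nontrivially. Then some member V of K commutes elementwise with every member of K and lies in O_p(G); in particular G is not simple. -/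
theorem result {G : Type*} [Group G] [Finite G]
    {p : ℕ} (hp : p.Prime) (K : Set (Subgroup G)) (hK : ∀ X ∈ K, Nat.card ↥X = p)
    (hKc : ∀ X ∈ K, ∀ g : G, X.map (MulAut.conj g).toMonoidHom ∈ K)
    (hex : ∃ X ∈ K, ∃ Y ∈ K, X ≠ Y ∧ ∀ x ∈ X, ∀ y ∈ Y, x * y = y * x)
    (ha : ∀ X ∈ K, ∀ Y ∈ K, X ≠ Y → (∀ x ∈ X, ∀ y ∈ Y, x * y = y * x) →
      ∀ Z : Subgroup G, Z ≤ X ⊔ Y → Nat.card ↥Z = p → Z ∈ K)
    (hb : ∀ X ∈ K, ∀ Y ∈ K, X ≠ Y → (∀ x ∈ X, ∀ y ∈ Y, x * y = y * x) →
      ∀ W ∈ K, (X ⊔ Y) ⊓ Subgroup.centralizer (W : Set G) ≠ ⊥) :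
    (∃ V ∈ K, (∀ W ∈ K, ∀ v ∈ V, ∀ w ∈ W, v * w = w * v) ∧ V ≤ Cfsg.pCore p G) ∧ ¬ IsSimpleGroup G := by
  set E : Set G := {x | x ≠ 1 ∧ Subgroup.zpowers x ∈ K} with hE
  have hord : ∀ x ∈ E, orderOf x = p := fun x hx => by rw [← Nat.card_zpowers]; exact hK _ hx.2
  have hpow : ∀ x ∈ E, x ^ p = 1 := fun x hx => by rw [← hord x hx, pow_orderOf_eq_one]
  have hpz : ∀ x ∈ E, ∀ i : ℤ, (x ^ i) ^ p = 1 := by
    intro x hx i
    rw [← zpow_natCast, ← zpow_mul, mul_comm, zpow_mul, zpow_natCast, hpow x hx, one_zpow]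
  have hcomm_sub : ∀ x y : G, Commute x y → ∀ a ∈ Subgroup.zpowers x, ∀ b ∈ Subgroup.zpowers y, a * b = b * a := by
    rintro x y hxy _ ⟨i, rfl⟩ _ ⟨j, rfl⟩
    exact (hxy.zpow_zpow i j).eq
  have hD : Dat p E := by
    refine ⟨hp, hord, ?_, ?_, ?_⟩
    · intro x hx g
      refine ⟨?_, ?_⟩
      · intro h0
        apply hx.1
        have : x = g⁻¹ * (g * x * g⁻¹) * g := by group
        rw [this, h0]; group
      · have h1 := hKc _ hx.2 g
        have h2 : (Subgroup.zpowers x).map (MulAut.conj g).toMonoidHom = Subgroup.zpowers (g * x * g⁻¹) := by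
          rw [MonoidHom.map_zpowers]; simp
        rwa [h2] at h1
    · intro x hx y hy hxy i j hij
      refine ⟨hij, ?_⟩
      by_cases hXY : Subgroup.zpowers x = Subgroup.zpowers y
      · have hmem : x ^ i * y ^ j ∈ Subgroup.zpowers x :=
          mul_mem (Subgroup.zpow_mem _ (Subgroup.mem_zpowers x) i) (Subgroup.zpow_mem _ (hXY ▸ Subgroup.mem_zpowers y) j)
        rw [zpowers_eq_of_card hp (hK _ hx.2) hmem hij]
        exact hx.2
      · apply ha _ hx.2 _ hy.2 hXY (hcomm_sub x y hxy)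
        · rw [Subgroup.zpowers_le]
          exact mul_mem (Subgroup.mem_sup_left (Subgroup.zpow_mem _ (Subgroup.mem_zpowers x) i))
            (Subgroup.mem_sup_right (Subgroup.zpow_mem _ (Subgroup.mem_zpowers y) j))
        · rw [Nat.card_zpowers]
          have hpf : Fact p.Prime := ⟨hp⟩
          have hc' : Commute (x ^ i) (y ^ j) := hxy.zpow_zpow i j
          exact orderOf_eq_prime (by rw [hc'.mul_pow, hpz x hx, hpz y hy, one_mul]) hij
    · intro x hx y hy hxy hne w hw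
      have hXY : Subgroup.zpowers x ≠ Subgroup.zpowers y := by
        intro h0
        have : x ∈ Subgroup.zpowers y := h0 ▸ Subgroup.mem_zpowers x
        obtain ⟨k, hk⟩ := this
        exact hne k hk.symm
      have h1 := hb _ hx.2 _ hy.2 hXY (hcomm_sub x y hxy) _ hw.2
      obtain ⟨⟨t, ht⟩, ht1⟩ := (Subgroup.ne_bot_iff_exists_ne_one).1 h1
      obtain ⟨i, j, hij⟩ := mem_sup_zpowers hxy ht.1
      refine ⟨i, j, ?_, ?_⟩
      · rw [← hij]; intro h0; exact ht1 (Subtype.ext h0)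
      · rw [← hij]
        have := (Subgroup.mem_centralizer_iff.1 ht.2) w (Subgroup.mem_zpowers w)
        exact this.symm
  obtain ⟨X, hX, Y, hY, hXY, hXYc⟩ := hex
  have hgen : ∀ X ∈ K, ∃ x ∈ X, x ≠ 1 := by
    intro X hX
    have : Nontrivial X := by
      rw [← Finite.one_lt_card_iff_nontrivial, hK X hX]; exact hp.one_lt
    obtain ⟨x, hx⟩ := exists_ne (1 : X)
    exact ⟨x, x.2, fun h0 => hx (Subtype.ext h0)⟩
  obtain ⟨x, hxX, hx1⟩ := hgen X hX
  obtain ⟨y, hyY, hy1⟩ := hgen Y hY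
  have hzx := zpowers_eq_of_card hp (hK X hX) hxX hx1
  have hzy := zpowers_eq_of_card hp (hK Y hY) hyY hy1
  have hxE : x ∈ E := ⟨hx1, by rw [hzx]; exact hX⟩
  have hyE : y ∈ E := ⟨hy1, by rw [hzy]; exact hY⟩
  have hne : ∀ k : ℤ, x ≠ y ^ k := by
    intro k hk
    apply hXY
    have : x ∈ Y := hk ▸ Subgroup.zpow_mem _ hyY k
    rw [← hzx]
    exact zpowers_eq_of_card hp (hK Y hY) this hx1
  obtain ⟨c, hcE, hc⟩ := hD.exists_universal ⟨x, hxE, y, hyE, hXYc x hxX y hyY, hne⟩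
  obtain ⟨hN1, hN2, hN3⟩ := hD.normal_of_universal hcE hc
  have hN : IsPGroup p (Subgroup.normalClosure ({c} : Set G)) := by
    intro a
    refine ⟨1, Subtype.ext ?_⟩
    rw [pow_one]
    exact hN3 a a.2
  have hcN : c ∈ Subgroup.normalClosure ({c} : Set G) := Subgroup.subset_normalClosure rfl
  refine ⟨⟨Subgroup.zpowers c, hcE.2, ?_, ?_⟩, ?_⟩
  · intro W hW v hv w hw
    obtain ⟨k, rfl⟩ := hv
    by_cases hw1 : w = 1
    · rw [hw1]; simp
    · have hwE : w ∈ E := ⟨hw1, by rw [zpowers_eq_of_card hp (hK W hW) hw hw1]; exact hW⟩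
      exact ((hc w hwE).zpow_left k).eq
  · rw [Subgroup.zpowers_le]
    exact Cfsg.Agent.Solv.le_pCore hN1 hN hcN
  · intro hs
    have htop : Subgroup.normalClosure ({c} : Set G) = ⊤ := by
      rcases hN1.eq_bot_or_eq_top with h0 | h0
      · exfalso
        rw [h0, Subgroup.mem_bot] at hcN
        exact hcE.1 hcN
      · exact h0
    have hcomm : ∀ a b : G, a * b = b * a := fun a b => hN2 a (htop ▸ Subgroup.mem_top a) b (htop ▸ Subgroup.mem_top b)
    have hnorm : ∀ a : G, (Subgroup.zpowers a).Normal := by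
      intro a
      refine ⟨fun n hn g => ?_⟩
      rw [hcomm g n, mul_inv_cancel_right]
      exact hn
    have hall : ∀ a : G, a ≠ 1 → Subgroup.zpowers a = ⊤ := by
      intro a ha
      rcases (hnorm a).eq_bot_or_eq_top with h0 | h0
      · rw [Subgroup.zpowers_eq_bot] at h0; exact absurd h0 ha
      · exact h0
    apply hXY
    rw [← hzx, ← hzy, hall x hx1, hall y hy1]

end Cfsg.Agent.S3196
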