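import Cfsg.Statements.S3200
import Cfsg.Agent.H67.Kazarin
import Cfsg.Agent.Hall.Hall

set_option autoImplicit false
open Cfsg

namespace Cfsg.Agent.S3200

open Subgroup Cfsg.Agent.H67 Cfsg.Agent.Hall in
/-- an abelian odd-order subgroup of 2-power index is a complement. -/
theorem compl_of {X : Type*} [Group X] [Finite X] (D : Subgroup X) (hD : IsMulCommutative ↥D)
    (hodd : ¬ 2 ∣ Nat.card D) (k : ℕ) (hi : D.index = 2 ^ k) :
    ∃ (P : Sylow 2 X) (D : Subgroup X), IsMulCommutative ↥D ∧ Subgroup.IsComplement' (P : Subgroup X) D := by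
  have : Fact (Nat.Prime 2) := ⟨Nat.prime_two⟩
  obtain ⟨P⟩ : Nonempty (Sylow 2 X) := inferInstance
  refine ⟨P, D, hD, ?_⟩
  have hX : Nat.card X = Nat.card D * 2 ^ k := by rw [← hi, Subgroup.card_mul_index]
  have hP : Nat.card P = 2 ^ k := by
    rw [P.card_eq_multiplicity, hX, Nat.factorization_mul Nat.card_pos.ne' (by positivity)]
    simp [Nat.factorization_eq_zero_of_not_dvd hodd, Nat.prime_two.factorization_self]
  apply Subgroup.isComplement'_of_coprime
  · rw [hP, hX, mul_comm]
  · rw [hP]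
    exact (Nat.Coprime.pow_left k ((Nat.Prime.coprime_iff_not_dvd Nat.prime_two).mpr hodd))

/-- Let H be a finite group in which a Sylow 2-subgroup has an abelian complement (an abelian subgroup meeting it trivially whose product with it is all of H). Then H is solvable, and every subgroup and every quotient group of H again has a Sylow 2-subgroup with an abelian complement. -/
theorem result {H : Type*} [Group H] [Finite H]
    (S : Sylow 2 H) (C : Subgroup H) (hC : IsMulCommutative ↥C) (hSC : Subgroup.IsComplement' (S : Subgroup H) C) :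
    Group.IsSolvable H ∧
    (∀ L : Subgroup H, ∃ (P : Sylow 2 ↥L) (D : Subgroup ↥L), IsMulCommutative ↥D ∧ Subgroup.IsComplement' (P : Subgroup ↥L) D) ∧
    (∀ (N : Subgroup H) [N.Normal], ∃ (P : Sylow 2 (H ⧸ N)) (D : Subgroup (H ⧸ N)),
      IsMulCommutative ↥D ∧ Subgroup.IsComplement' (P : Subgroup (H ⧸ N)) D) := by
  classical
  have : Fact (Nat.Prime 2) := ⟨Nat.prime_two⟩
  obtain ⟨a, ha⟩ : ∃ a, Nat.card S = 2 ^ a := S.2.exists_card_eq
  have hcard : Nat.card H = 2 ^ a * Nat.card C := by rw [← ha, hSC.card_mul]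
  have hCi : C.index = 2 ^ a := by
    have h1 := C.card_mul_index
    rw [hcard, mul_comm (2 ^ a)] at h1
    exact Nat.eq_of_mul_eq_mul_left Nat.card_pos h1
  have hodd : ¬ 2 ∣ Nat.card C := by
    intro h2
    have h3 : ¬ 2 ∣ (S : Subgroup H).index := S.not_dvd_index
    have h4 : (S : Subgroup H).index = Nat.card C := by
      have h1 := (S : Subgroup H).card_mul_index
      rw [hcard, ← ha] at h1
      exact Nat.eq_of_mul_eq_mul_left Nat.card_pos h1
    exact h3 (h4 ▸ h2)
  have hCR : C ≤ Cfsg.solvableRadical H := by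
    intro c hc
    have hle : C ≤ Subgroup.centralizer ({c} : Set H) := by
      intro y hy
      rw [Subgroup.mem_centralizer_singleton_iff]
      have := hC.is_comm.comm (⟨c, hc⟩ : C) ⟨y, hy⟩
      have := congrArg Subtype.val this
      simpa using this.symm
    have h1 : (Subgroup.centralizer ({c} : Set H)).index ∣ 2 ^ a := by
      rw [← hCi]
      exact Subgroup.index_dvd_of_le hle
    obtain ⟨k, -, hk⟩ := (Nat.dvd_prime_pow Nat.prime_two).mp h1
    have h2 := Cfsg.Agent.H67.kazarin c Nat.prime_two k (by rw [Cfsg.Agent.H67.ncard_carrier_eq_index, hk])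
    exact Cfsg.Agent.H67.mem_solvableRadical_of_isSolvable_normalClosure h2
  have hRn := Cfsg.Agent.H67.solvableRadical_normal H
  have hRs := Cfsg.Agent.H67.solvableRadical_isSolvable H
  have hsolv : Group.IsSolvable H := by
    have hq : IsPGroup 2 (H ⧸ Cfsg.solvableRadical H) := by
      have h1 : (Cfsg.solvableRadical H).index ∣ 2 ^ a := by
        rw [← hCi]
        exact Subgroup.index_dvd_of_le hCR
      obtain ⟨k, -, hk⟩ := (Nat.dvd_prime_pow Nat.prime_two).mp h1
      exact IsPGroup.of_card (n := k) hk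
    have hqn := hq.isNilpotent
    have hqs : Group.IsSolvable (H ⧸ Cfsg.solvableRadical H) := inferInstance
    exact solvable_of_ker_le_range (Cfsg.solvableRadical H).subtype (QuotientGroup.mk' (Cfsg.solvableRadical H))
      (by rw [QuotientGroup.ker_mk', Subgroup.range_subtype])
  refine ⟨hsolv, ?_, ?_⟩
  · intro L
    have hLs : Group.IsSolvable L := inferInstance
    obtain ⟨k, m, hm, hk⟩ := Nat.exists_eq_pow_mul_and_not_dvd (n := Nat.card L) Nat.card_pos.ne' 2 (by norm_num)
    have hcop : m.Coprime (2 ^ k) :=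
      (Nat.Coprime.pow_left k ((Nat.Prime.coprime_iff_not_dvd Nat.prime_two).mpr hm)).symm
    obtain ⟨D, hDc⟩ := Cfsg.Agent.Hall.hall_exists (G := L) m (2 ^ k) (by rw [hk, mul_comm]) hcop
    have hDi : D.index = 2 ^ k := by
      have h1 := D.card_mul_index
      rw [hDc, hk, mul_comm (2 ^ k)] at h1
      exact Nat.eq_of_mul_eq_mul_left (Nat.pos_of_ne_zero (by rintro rfl; simp at hm)) h1
    refine compl_of D ?_ (by rw [hDc]; exact hm) k hDi
    have h5 : Nat.card (D.map L.subtype) = m := by
      rw [← hDc]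
      exact Nat.card_congr (D.equivMapOfInjective _ L.subtype_injective).symm.toEquiv
    obtain ⟨g, hg⟩ := Cfsg.Agent.Hall.hall_le_conj (G := H) (Nat.card C) (2 ^ a) (by rw [hcard, mul_comm])
      ((Nat.Coprime.pow_left a ((Nat.Prime.coprime_iff_not_dvd Nat.prime_two).mpr hodd)).symm) C
      (D.map L.subtype) rfl (by
        rw [h5]
        exact (Nat.Coprime.pow_left a ((Nat.Prime.coprime_iff_not_dvd Nat.prime_two).mpr hm)).symm)
    constructor
    constructor
    rintro ⟨x, hx⟩ ⟨y, hy⟩
    have hx' := hg ⟨x, hx, rfl⟩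
    have hy' := hg ⟨y, hy, rfl⟩
    rw [Cfsg.Agent.Hall.mem_conj_smul] at hx' hy'
    have h6 := congrArg Subtype.val (hC.is_comm.comm ⟨_, hx'⟩ ⟨_, hy'⟩)
    simp only [Subgroup.coe_mul, Subgroup.coe_subtype] at h6
    apply Subtype.ext
    apply Subtype.ext
    simp only [Subgroup.coe_mul]
    have h7 : g⁻¹ * ((x : H) * y) * g = g⁻¹ * ((y : H) * x) * g := by
      calc g⁻¹ * ((x : H) * y) * g = g⁻¹ * x * g * (g⁻¹ * y * g) := by group
        _ = g⁻¹ * y * g * (g⁻¹ * x * g) := h6
        _ = _ := by group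
    exact mul_left_cancel (mul_right_cancel h7)
  · intro N hN
    have hdvd : (C.map (QuotientGroup.mk' N)).index ∣ 2 ^ a := by
      rw [← hCi]
      exact Subgroup.index_map_dvd C (QuotientGroup.mk'_surjective N)
    obtain ⟨k, -, hk⟩ := (Nat.dvd_prime_pow Nat.prime_two).mp hdvd
    refine compl_of (C.map (QuotientGroup.mk' N)) ?_ ?_ k hk
    · constructor
      constructor
      rintro ⟨_, x, hx, rfl⟩ ⟨_, y, hy, rfl⟩
      apply Subtype.ext
      simp only [Subgroup.coe_mul]
      rw [← map_mul, ← map_mul]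
      congr 1
      exact congrArg Subtype.val (hC.is_comm.comm ⟨x, hx⟩ ⟨y, hy⟩)
    · intro h2
      exact hodd (h2.trans (Subgroup.card_map_dvd C (QuotientGroup.mk' N)))

end Cfsg.Agent.S3200
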