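import Cfsg.Statements.S3201
import Mathlib
import Cfsg.Agent.H48.Basic
import Cfsg.Agent.H81.Quat
import Cfsg.Agent.MaxClass.UniqueOrderP

set_option autoImplicit false
open Cfsg

namespace Cfsg.Agent.S3201

open Subgroup
/-- `a 1` and `xa 0` in the quaternion group do not commute when `2 ≤ m`. -/
theorem quat_xa_noncomm (m : ℕ) (hm : 2 ≤ m) (i : ZMod (2 * m)) :
    (QuaternionGroup.xa i : QuaternionGroup m) * QuaternionGroup.a 1 ≠ QuaternionGroup.a 1 * QuaternionGroup.xa i := by
  intro h
  rw [QuaternionGroup.xa_mul_a, QuaternionGroup.a_mul_xa] at h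
  have h1 : i + 1 = i - 1 := by injection h
  have h2 : ((2 : ℕ) : ZMod (2 * m)) = 0 := by
    have : (1 : ZMod (2 * m)) + 1 = 0 := by linear_combination h1
    rw [← this]; push_cast; ring
  rw [ZMod.natCast_eq_zero_iff] at h2
  have := Nat.le_of_dvd (by norm_num) h2
  omega

/-- Let S be a finite 2-group whose centre Z(S) has n ≥ 2 distinct maximal subgroups C₁, …, Cₙ with trivial intersection such that each quotient S/Cᵢ is a non-abelian group with exactly one involution (a generalized quaternion group). Then S is the internal direct product of an elementary abelian subgroup and a non-abelian subgroup with exactly one involution. -/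
theorem result {S : Type*} [Group S] [Finite S]
    (hS : IsPGroup 2 S) (n : ℕ) (hn : 2 ≤ n) (C : Fin n → Subgroup ↥(Subgroup.center S))
    (hCmax : ∀ i, IsCoatom (C i)) (hCinj : Function.Injective C) (hCint : ⨅ i, C i = ⊥)
    (hCq : ∀ i, ∃ (_ : ((C i).map (Subgroup.center S).subtype).Normal),
      ¬ IsMulCommutative (S ⧸ (C i).map (Subgroup.center S).subtype) ∧
      ∃! x : S ⧸ (C i).map (Subgroup.center S).subtype, orderOf x = 2) :
    ∃ E Q : Subgroup S, Cfsg.IsInternalDirectProduct E Q ⊤ ∧ Cfsg.IsElementaryAbelian 2 E ∧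
      ¬ IsMulCommutative ↥Q ∧ ∃! x : ↥Q, orderOf x = 2 := by
  classical
  have hf2 : Fact (Nat.Prime 2) := ⟨Nat.prime_two⟩
  have hZ2 : IsPGroup 2 (center S) := hS.to_subgroup _
  have hidx : ∀ i, (C i).index = 2 := fun i => H48.index_eq_of_isCoatom hZ2 (hCmax i)
  have hmul : ∀ i, ∀ u v : center S, u ∉ C i → v ∉ C i → u * v⁻¹ ∈ C i := by
    intro i u v hu hv
    have := Subgroup.mul_mem_iff_of_index_two (hidx i) (a := u) (b := v⁻¹)
    rw [this]
    constructor
    · intro h; exact absurd h hu
    · intro h; exact absurd ((C i).inv_mem_iff.1 h) hv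
  have hsq : ∀ i, ∀ u : center S, u * u ∈ C i := by
    intro i u
    rw [Subgroup.mul_mem_iff_of_index_two (hidx i)]
  have hone : ∀ u : center S, (∀ i, u ∈ C i) → u = 1 := by
    intro u hu
    have : u ∈ ⨅ i, C i := Subgroup.mem_iInf.2 hu
    rw [hCint] at this
    exact Subgroup.mem_bot.1 this
  have huniq : ∀ u v : center S, (∀ i, u ∉ C i) → (∀ i, v ∉ C i) → u = v := by
    intro u v hu hv
    exact mul_inv_eq_one.1 (hone _ (fun i => hmul i u v (hu i) (hv i)))
  -- key fact
  have hN : ∀ i (u : center S), (u : S) ∈ (C i).map (center S).subtype ↔ u ∈ C i := by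
    intro i u
    constructor
    · rintro ⟨v, hv, hvu⟩
      have : v = u := Subtype.ext hvu
      exact this ▸ hv
    · intro h
      exact ⟨u, h, rfl⟩
  have hNZ : ∀ i, (C i).map (center S).subtype ≤ center S := fun i => Subgroup.map_subtype_le _
  have hout : ∀ i, ∃ c : center S, c ∉ C i := by
    intro i
    by_contra hcon
    push Not at hcon
    have : C i = ⊤ := eq_top_iff.2 (fun x _ => hcon x)
    exact (hCmax i).1 this
  have key : ∀ g : S, g ∉ center S → ∀ hg : g * g ∈ center S, ∀ i, (⟨g * g, hg⟩ : center S) ∉ C i := by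
    intro g hgZ hg i hmem
    obtain ⟨hn', -, hu⟩ := hCq i
    obtain ⟨c, hc⟩ := hout i
    have hg2 : orderOf (QuotientGroup.mk g : S ⧸ (C i).map (center S).subtype) = 2 := by
      apply orderOf_eq_prime
      · rw [sq, ← QuotientGroup.mk_mul, QuotientGroup.eq_one_iff]
        exact (hN i _).2 hmem
      · rw [Ne, QuotientGroup.eq_one_iff]
        intro h
        exact hgZ (hNZ i h)
    have hc2 : orderOf (QuotientGroup.mk (c : S) : S ⧸ (C i).map (center S).subtype) = 2 := by
      apply orderOf_eq_prime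
      · rw [sq, ← QuotientGroup.mk_mul, QuotientGroup.eq_one_iff]
        exact (hN i (c * c)).2 (hsq i c)
      · rw [Ne, QuotientGroup.eq_one_iff]
        intro h
        exact hc ((hN i c).1 h)
    have heq := hu.unique hg2 hc2
    rw [QuotientGroup.eq] at heq
    apply hgZ
    have h1 := hNZ i heq
    have h2 : g⁻¹ ∈ center S := by
      have := (center S).mul_mem h1 ((center S).inv_mem c.2)
      rwa [mul_inv_cancel_right] at this
    exact (center S).inv_mem_iff.1 h2
  -- the quotient for index 0
  have i0 : Fin n := ⟨0, by omega⟩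
  obtain ⟨hn', hnab, hu⟩ := hCq i0
  set N := (C i0).map (center S).subtype with hNdef
  have hQ2 : IsPGroup 2 (S ⧸ N) := hS.to_quotient N
  have hfact : Fact (Nat.Prime 2) := ⟨Nat.prime_two⟩
  have huc : ∀ H K : Subgroup (S ⧸ N), Nat.card H = 2 → Nat.card K = 2 → H = K := by
    have hgen : ∀ H : Subgroup (S ⧸ N), Nat.card H = 2 → H = zpowers hu.choose := by
      intro H hH
      obtain ⟨h, hh⟩ := exists_prime_orderOf_dvd_card' (G := H) 2 (by rw [hH])
      have h1 : orderOf (h : S ⧸ N) = 2 := by rw [← hh]; exact Subgroup.orderOf_coe h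
      have h2 : (h : S ⧸ N) = hu.choose := hu.unique h1 hu.choose_spec.1
      symm
      apply Subgroup.eq_of_le_of_card_ge
      · rw [zpowers_le, ← h2]; exact h.2
      · rw [Nat.card_zpowers, hH, ← h2, h1]
    intro H K hH hK
    rw [hgen H hH, hgen K hK]
  rcases Cfsg.Agent.MaxClass.cyclic_or_quaternion hQ2 huc with hc | ⟨-, a, ⟨e⟩⟩
  · exfalso
    apply hnab
    exact IsCyclic.isMulCommutative
  -- `2 ≤ 2 ^ a`
  have ha : 2 ≤ 2 ^ a := by
    rcases Nat.eq_zero_or_pos a with h0 | h0
    · exfalso
      subst h0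
      apply hnab
      refine ⟨⟨fun x y => ?_⟩⟩
      apply e.injective
      rw [map_mul, map_mul]
      generalize e x = u
      generalize e y = v
      revert u v
      decide
    · calc 2 = 2 ^ 1 := rfl
        _ ≤ 2 ^ a := Nat.pow_le_pow_right (by norm_num) h0
  set m := 2 ^ a with hm
  have hm0 : NeZero m := ⟨by omega⟩
  -- images
  have hx0 := QuotientGroup.mk_surjective (s := N) (e.symm (QuaternionGroup.a 1))
  have hy0 := QuotientGroup.mk_surjective (s := N) (e.symm (QuaternionGroup.xa 0))
  obtain ⟨x, hx⟩ := hx0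
  obtain ⟨y, hy⟩ := hy0
  have hex : e (QuotientGroup.mk x) = QuaternionGroup.a 1 := by rw [hx, MulEquiv.apply_symm_apply]
  have hey : e (QuotientGroup.mk y) = QuaternionGroup.xa 0 := by rw [hy, MulEquiv.apply_symm_apply]
  -- an element of order two in the quotient is in the image of the centre
  have hinv : ∀ g : S, orderOf (QuotientGroup.mk g : S ⧸ N) = 2 → g ∈ center S := by
    intro g hg
    obtain ⟨c, hc⟩ := hout i0
    have hc2 : orderOf (QuotientGroup.mk (c : S) : S ⧸ N) = 2 := by
      apply orderOf_eq_prime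
      · rw [sq, ← QuotientGroup.mk_mul, QuotientGroup.eq_one_iff]
        exact (hN i0 (c * c)).2 (hsq i0 c)
      · rw [Ne, QuotientGroup.eq_one_iff]
        intro h
        exact hc ((hN i0 c).1 h)
    have heq := hu.unique hg hc2
    rw [QuotientGroup.eq] at heq
    have h1 := hNZ i0 heq
    have h2 : g⁻¹ ∈ center S := by
      have := (center S).mul_mem h1 ((center S).inv_mem c.2)
      rwa [mul_inv_cancel_right] at this
    exact (center S).inv_mem_iff.1 h2
  have horda : orderOf (QuaternionGroup.a 1 : QuaternionGroup m) = 2 * m := QuaternionGroup.orderOf_a_one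
  have hxm : x ^ m ∈ center S := by
    apply hinv
    rw [QuotientGroup.mk_pow, ← MulEquiv.orderOf_eq e, map_pow, hex,
      orderOf_pow_of_dvd (by omega) (by rw [horda]; exact Dvd.intro_left 2 rfl), horda]
    exact Nat.mul_div_cancel _ (by omega)
  have hyy : ∀ g : S, (∃ i, e (QuotientGroup.mk g) = QuaternionGroup.xa i) → g * g ∈ center S ∧ g ∉ center S := by
    rintro g ⟨i, hi⟩
    constructor
    · apply hinv
      rw [← sq, QuotientGroup.mk_pow, ← MulEquiv.orderOf_eq e, map_pow, hi,
        orderOf_pow_of_dvd (by omega) (by rw [QuaternionGroup.orderOf_xa]; norm_num), QuaternionGroup.orderOf_xa]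
    · intro hg
      apply quat_xa_noncomm m ha i
      rw [← hi, ← hex, ← map_mul, ← map_mul, ← QuotientGroup.mk_mul, ← QuotientGroup.mk_mul]
      rw [Subgroup.mem_center_iff.1 hg x]
  obtain ⟨hy1, hy2⟩ := hyy y ⟨0, hey⟩
  -- `x ^ (m / 2)` is not central
  have hmdvd : 2 ∣ m := by
    rcases Nat.eq_zero_or_pos a with h0 | h0
    · rw [hm, h0] at ha; omega
    · rw [hm]; exact dvd_pow_self 2 (by omega)
  obtain ⟨k, hk⟩ := hmdvd
  have hxk : x ^ k ∉ center S := by
    intro hcen
    have h1 : ∀ g : QuaternionGroup m, g * (QuaternionGroup.a 1) ^ k = (QuaternionGroup.a 1) ^ k * g := by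
      intro g
      obtain ⟨s, hs⟩ := QuotientGroup.mk_surjective (s := N) (e.symm g)
      have hs' : e (QuotientGroup.mk s) = g := by rw [hs, MulEquiv.apply_symm_apply]
      rw [← hs', ← hex, ← map_pow, ← map_mul, ← map_mul, ← QuotientGroup.mk_pow, ← QuotientGroup.mk_mul,
        ← QuotientGroup.mk_mul, Subgroup.mem_center_iff.1 hcen s]
    have h2 := h1 (QuaternionGroup.xa 0)
    rw [QuaternionGroup.a_one_pow, QuaternionGroup.xa_mul_a, QuaternionGroup.a_mul_xa] at h2
    have h3 : (0 : ZMod (2 * m)) + k = 0 - k := by injection h2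
    have h4 : ((2 * k : ℕ) : ZMod (2 * m)) = 0 := by
      push_cast
      linear_combination h3
    rw [ZMod.natCast_eq_zero_iff] at h4
    have := Nat.le_of_dvd (by omega) h4
    omega
  have hxkk : x ^ k * x ^ k = x ^ m := by rw [← pow_add, hk]; congr 1; omega
  -- the element z
  have hz1 : (⟨x ^ m, hxm⟩ : center S) = ⟨y * y, hy1⟩ := by
    apply huniq
    · intro i
      have := key (x ^ k) hxk (by rw [hxkk]; exact hxm) i
      simp only [hxkk] at this
      exact this
    · exact key y hy2 hy1
  have hz1' : y * y = x ^ m := (congrArg Subtype.val hz1).symm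
  -- the element `y x`
  have hyx : e (QuotientGroup.mk (y * x)) = QuaternionGroup.xa 1 := by
    rw [QuotientGroup.mk_mul, map_mul, hex, hey, QuaternionGroup.xa_mul_a, zero_add]
  obtain ⟨h3, h4⟩ := hyy (y * x) ⟨1, hyx⟩
  have hz2 : (⟨(y * x) * (y * x), h3⟩ : center S) = ⟨y * y, hy1⟩ :=
    huniq _ _ (key _ h4 h3) (key y hy2 hy1)
  have hz2' : (y * x) * (y * x) = y * y := congrArg Subtype.val hz2
  have hxyx : x * y * x = y := by
    have : y * (x * y * x) = y * y := by rw [← hz2']; group
    exact mul_left_cancel this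
  have hconj : y * x * y⁻¹ = x⁻¹ := by
    have h5 : y * x = x⁻¹ * y := by rw [eq_inv_mul_iff_mul_eq, ← mul_assoc]; exact hxyx
    rw [h5]; group
  -- order of `x`
  have hcsq : ∀ u : center S, u * u = 1 := fun u => hone _ (fun i => hsq i u)
  have hx2m : x ^ (2 * m) = 1 := by
    have := congrArg Subtype.val (hcsq ⟨x ^ m, hxm⟩)
    change x ^ m * x ^ m = 1 at this
    rw [← pow_add] at this
    rw [two_mul]; exact this
  have hordx : orderOf x = 2 * m := by
    apply Nat.dvd_antisymm (orderOf_dvd_of_pow_eq_one hx2m)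
    rw [← horda]
    apply orderOf_dvd_of_pow_eq_one
    rw [← hex, ← map_pow, ← QuotientGroup.mk_pow, pow_orderOf_eq_one, QuotientGroup.mk_one, map_one]
  obtain ⟨Q, ⟨eQ⟩, hQc, hxQ, hyQ⟩ := Cfsg.Agent.H81.exists_subgroup_quat m ha x y hz1' hconj hordx
  -- the quotient map restricted to `Q`
  have hsup : N ⊔ Q = ⊤ := by
    have hmap : Q.map (QuotientGroup.mk' N) = ⊤ := by
      rw [eq_top_iff]
      intro g _
      have hgen : ∀ q : QuaternionGroup m, e.symm q ∈ Q.map (QuotientGroup.mk' N) := by
        have hA : ∀ i : ZMod (2 * m), e.symm (QuaternionGroup.a i) ∈ Q.map (QuotientGroup.mk' N) := by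
          intro i
          have : (QuaternionGroup.a i : QuaternionGroup m) = (QuaternionGroup.a 1) ^ i.val := by
            rw [QuaternionGroup.a_one_pow, ZMod.natCast_zmod_val]
          rw [this, map_pow, ← hx]
          exact Subgroup.pow_mem _ (Subgroup.mem_map_of_mem (QuotientGroup.mk' N) hxQ) _
        rintro (i | i)
        · exact hA i
        · have : (QuaternionGroup.xa i : QuaternionGroup m) = QuaternionGroup.xa 0 * QuaternionGroup.a i := by
            rw [QuaternionGroup.xa_mul_a, zero_add]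
          rw [this, map_mul]
          refine Subgroup.mul_mem _ ?_ (hA i)
          rw [← hy]
          exact Subgroup.mem_map_of_mem (QuotientGroup.mk' N) hyQ
      have := hgen (e g)
      rwa [MulEquiv.symm_apply_apply] at this
    have h5 := Subgroup.comap_map_eq (QuotientGroup.mk' N) Q
    rw [hmap, Subgroup.comap_top, QuotientGroup.ker_mk'] at h5
    rw [sup_comm]; exact h5.symm
  have hinf : N ⊓ Q = ⊥ := by
    have hcardS : Nat.card (S ⧸ N) = 4 * m := by
      rw [Nat.card_congr e.toEquiv, Nat.card_eq_fintype_card, QuaternionGroup.card]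
    have h6 : Function.Surjective ((QuotientGroup.mk' N).subgroupMap Q) := MonoidHom.subgroupMap_surjective _ _
    have hmap : Q.map (QuotientGroup.mk' N) = ⊤ := by
      rw [eq_top_iff, ← Subgroup.map_top_of_surjective (QuotientGroup.mk' N) (QuotientGroup.mk'_surjective N), ← hsup, Subgroup.map_sup]
      rw [sup_le_iff]
      refine ⟨?_, le_refl _⟩
      have : N.map (QuotientGroup.mk' N) = ⊥ := by
        rw [Subgroup.map_eq_bot_iff, QuotientGroup.ker_mk']
      rw [this]; exact bot_le
    have h7 : Function.Injective ((QuotientGroup.mk' N).comp Q.subtype) := by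
      have hs : Function.Surjective ((QuotientGroup.mk' N).comp Q.subtype) := by
        intro g
        have : g ∈ Q.map (QuotientGroup.mk' N) := by rw [hmap]; trivial
        obtain ⟨q, hq, hqg⟩ := this
        exact ⟨⟨q, hq⟩, hqg⟩
      exact ((Nat.bijective_iff_surjective_and_card _).2 ⟨hs, by rw [hQc, hcardS]⟩).1
    rw [eq_bot_iff]
    rintro g ⟨hg1, hg2⟩
    have h8 : ((QuotientGroup.mk' N).comp Q.subtype) ⟨g, hg2⟩ = 1 := by
      change (QuotientGroup.mk g : S ⧸ N) = 1
      rw [QuotientGroup.eq_one_iff]; exact hg1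
    have h9 := h7 (h8.trans (map_one _).symm)
    exact Subgroup.mem_bot.2 (congrArg Subtype.val h9)
  refine ⟨N, Q, ⟨le_top, le_top, ?_, hinf, hsup⟩, ⟨?_, ?_⟩, ?_, ?_⟩
  · intro u hu' v _
    exact (Subgroup.mem_center_iff.1 (hNZ i0 hu') v).symm
  · refine ⟨⟨fun u v => Subtype.ext ?_⟩⟩
    exact (Subgroup.mem_center_iff.1 (hNZ i0 u.2) v).symm
  · intro u hu'
    rw [sq]
    exact congrArg Subtype.val (hcsq ⟨u, hNZ i0 hu'⟩)
  · intro hcom
    apply quat_xa_noncomm m ha 0
    have := hcom.is_comm.comm (eQ.symm (QuaternionGroup.xa 0)) (eQ.symm (QuaternionGroup.a 1))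
    have h5 := congrArg eQ this
    simpa using h5
  · have eQS : Q ≃* S ⧸ N := eQ.trans e.symm
    obtain ⟨w, hw, hw'⟩ := hu
    refine ⟨eQS.symm w, ?_, ?_⟩
    · change orderOf (eQS.symm w) = 2
      rw [MulEquiv.orderOf_eq]; exact hw
    · intro v hv
      have := hw' (eQS v) (by change orderOf (eQS v) = 2; rw [MulEquiv.orderOf_eq]; exact hv)
      rw [← this, MulEquiv.symm_apply_apply]

end Cfsg.Agent.S3201
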