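import Cfsg.Statements.S3202
import Mathlib
import Cfsg.Agent.H53.Quat
import Cfsg.Agent.H53.CommGen

set_option autoImplicit false
open Cfsg

namespace Cfsg.Agent.S3202

/-- Let S be a finite 2-group of 2-rank exactly 2 and D a maximal subgroup of the centre of S such that S/D is a non-abelian group with exactly one involution (a generalized quaternion group). Then S has a nontrivial cyclic characteristic subgroup. -/
theorem result {S : Type*} [Group S]
    [Finite S] (hS : IsPGroup 2 S) (hr2 : Cfsg.PRankLE 2 2 S) (hr1 : ¬ Cfsg.PRankLE 2 1 S)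
    (D : Subgroup ↥(Subgroup.center S)) (hD : IsCoatom D)
    (hq : ∃ (_ : (D.map (Subgroup.center S).subtype).Normal),
      ¬ IsMulCommutative (S ⧸ D.map (Subgroup.center S).subtype) ∧
      ∃! x : S ⧸ D.map (Subgroup.center S).subtype, orderOf x = 2) :
    ∃ C : Subgroup S, C ≠ ⊥ ∧ IsCyclic ↥C ∧ C.Characteristic := by
  classical
  have : Fact (Nat.Prime 2) := ⟨Nat.prime_two⟩
  obtain ⟨hn, hna, hu⟩ := hq
  set D' : Subgroup S := D.map (Subgroup.center S).subtype with hD'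
  have hDc : ∀ d ∈ D', ∀ s : S, s * d = d * s := by
    rintro _ ⟨d, hd, rfl⟩ s
    exact Subgroup.mem_center_iff.mp d.2 s
  have hQ2 : IsPGroup 2 (S ⧸ D') := hS.to_quotient D'
  obtain ⟨m, X, Y, hm, hX, hYX, hconj, hgen, -⟩ := H53.exists_gens hQ2 hna hu
  obtain ⟨x, rfl⟩ := QuotientGroup.mk_surjective X
  obtain ⟨y, rfl⟩ := QuotientGroup.mk_surjective Y
  set c := y * x * y⁻¹ * x with hc
  have hcD : c ∈ D' := by
    rw [← QuotientGroup.eq_one_iff, hc]
    have : ((y * x * y⁻¹ * x : S) : S ⧸ D') = ((y : S ⧸ D') * x * (y : S ⧸ D')⁻¹) * x := rfl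
    rw [this, hconj, inv_mul_cancel]
  have hcc := hDc c hcD
  have hyx : y * x * y⁻¹ = c * x⁻¹ := by rw [hc]; group
  set z := c * (x ^ 2)⁻¹ with hz
  have hzx : x * z * x⁻¹ = z := by
    rw [hz, ← mul_assoc, hcc]; group
  have hzy : y * z * y⁻¹ = z⁻¹ := by
    have h1 : y * (x ^ 2)⁻¹ * y⁻¹ = ((y * x * y⁻¹) ^ 2)⁻¹ := by rw [conj_pow]; group
    have h2 : y * z * y⁻¹ = c * (y * (x ^ 2)⁻¹ * y⁻¹) := by
      rw [hz, ← mul_assoc, hcc]; group
    have h3 : (c * x⁻¹) ^ 2 = c ^ 2 * (x ^ 2)⁻¹ := by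
      calc (c * x⁻¹) ^ 2 = c * (x⁻¹ * c) * x⁻¹ := by rw [pow_two]; group
        _ = c * (c * x⁻¹) * x⁻¹ := by rw [hcc]
        _ = _ := by rw [pow_two, pow_two]; group
    rw [h2, h1, hyx, h3, hz]
    have h4 : x ^ 2 * (c ^ 2)⁻¹ = (c ^ 2)⁻¹ * x ^ 2 := hDc _ (D'.inv_mem (D'.pow_mem hcD 2)) _
    calc c * (c ^ 2 * (x ^ 2)⁻¹)⁻¹ = c * (x ^ 2 * (c ^ 2)⁻¹) := by rw [mul_inv_rev, inv_inv]
      _ = c * ((c ^ 2)⁻¹ * x ^ 2) := by rw [h4]
      _ = c⁻¹ * x ^ 2 := by group
      _ = x ^ 2 * c⁻¹ := (hDc _ (D'.inv_mem hcD) _).symm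
      _ = (c * (x ^ 2)⁻¹)⁻¹ := by group
  have hgenS : ∀ s : S, ∃ k : ℤ, ∃ d ∈ D', s = x ^ k * d ∨ s = y * x ^ k * d := by
    intro s
    obtain ⟨k, hk | hk⟩ := hgen (s : S ⧸ D')
    · refine ⟨k, (x ^ k)⁻¹ * s, ?_, Or.inl (by group)⟩
      rw [← QuotientGroup.eq_one_iff, QuotientGroup.mk_mul, hk, QuotientGroup.mk_inv, QuotientGroup.mk_zpow,
        inv_mul_cancel]
    · refine ⟨k, (y * x ^ k)⁻¹ * s, ?_, Or.inr (by group)⟩
      rw [← QuotientGroup.eq_one_iff, QuotientGroup.mk_mul, hk, QuotientGroup.mk_inv, QuotientGroup.mk_mul,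
        QuotientGroup.mk_zpow, inv_mul_cancel]
  have hclos : Subgroup.closure (({x, y} : Set S) ∪ D') = ⊤ := by
    rw [Subgroup.eq_top_iff']
    intro s
    have hxm : x ∈ Subgroup.closure (({x, y} : Set S) ∪ D') := Subgroup.subset_closure (by simp)
    have hym : y ∈ Subgroup.closure (({x, y} : Set S) ∪ D') := Subgroup.subset_closure (by simp)
    obtain ⟨k, d, hd, rfl | rfl⟩ := hgenS s
    · exact mul_mem (zpow_mem hxm k) (Subgroup.subset_closure (Or.inr hd))
    · exact mul_mem (mul_mem hym (zpow_mem hxm k)) (Subgroup.subset_closure (Or.inr hd))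
  have hnorm : (Subgroup.zpowers z).Normal := by
    rw [← Subgroup.normalizer_eq_top_iff, eq_top_iff, ← hclos, Subgroup.closure_le]
    rintro s ((hs | hs) | hs)
    · rw [hs, SetLike.mem_coe, H53.mem_normalizer_iff_map_eq, MonoidHom.map_zpowers]
      show Subgroup.zpowers (x * z * x⁻¹) = _
      rw [hzx]
    · rw [Set.mem_singleton_iff.mp hs, SetLike.mem_coe, H53.mem_normalizer_iff_map_eq, MonoidHom.map_zpowers]
      show Subgroup.zpowers (y * z * y⁻¹) = _
      rw [hzy, Subgroup.zpowers_inv]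
    · rw [SetLike.mem_coe, H53.mem_normalizer_iff_map_eq, MonoidHom.map_zpowers]
      show Subgroup.zpowers (s * z * s⁻¹) = _
      rw [← hDc s hs, mul_assoc, mul_inv_cancel, mul_one]
  have hcomm : commutator S ≤ Subgroup.zpowers z := by
    have hyxz : y * x * y⁻¹ * x⁻¹ = z := by rw [hyx, hz]; group
    apply H53.commutator_le_of_closure hclos
    rintro s ((hs | hs) | hs) t ((ht | ht) | ht)
    · have : x * x * x⁻¹ * x⁻¹ = 1 := by group
      rw [hs, ht, this]; exact one_mem _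
    · have : x * y * x⁻¹ * y⁻¹ = z⁻¹ := by rw [← hyxz]; group
      rw [hs, Set.mem_singleton_iff.mp ht, this]; exact inv_mem (Subgroup.mem_zpowers z)
    · have : x * t * x⁻¹ * t⁻¹ = 1 := by rw [hDc t ht]; group
      rw [hs, this]; exact one_mem _
    · rw [Set.mem_singleton_iff.mp hs, ht, hyxz]; exact Subgroup.mem_zpowers z
    · have : y * y * y⁻¹ * y⁻¹ = 1 := by group
      rw [Set.mem_singleton_iff.mp hs, Set.mem_singleton_iff.mp ht, this]; exact one_mem _
    · have : y * t * y⁻¹ * t⁻¹ = 1 := by rw [hDc t ht]; group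
      rw [Set.mem_singleton_iff.mp hs, this]; exact one_mem _
    · have : s * x * s⁻¹ * x⁻¹ = 1 := by rw [← hDc s hs]; group
      rw [ht, this]; exact one_mem _
    · have : s * y * s⁻¹ * y⁻¹ = 1 := by rw [← hDc s hs]; group
      rw [Set.mem_singleton_iff.mp ht, this]; exact one_mem _
    · have : s * t * s⁻¹ * t⁻¹ = 1 := by rw [← hDc s hs]; group
      rw [this]; exact one_mem _
  refine ⟨commutator S, ?_, ?_, inferInstance⟩
  · intro h
    apply hna
    refine ⟨⟨fun a b => ?_⟩⟩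
    obtain ⟨a, rfl⟩ := QuotientGroup.mk_surjective a
    obtain ⟨b, rfl⟩ := QuotientGroup.mk_surjective b
    have h1 := Subgroup.commutator_mem_commutator (Subgroup.mem_top a) (Subgroup.mem_top b)
    rw [← commutator_def, h, Subgroup.mem_bot, commutatorElement_eq_one_iff_mul_comm] at h1
    exact congrArg (QuotientGroup.mk (s := D')) h1
  · have : IsCyclic (Subgroup.zpowers z) := inferInstance
    have h1 : IsCyclic ((commutator S).subgroupOf (Subgroup.zpowers z)) := inferInstance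
    exact (MulEquiv.isCyclic (Subgroup.subgroupOfEquivOfLe hcomm)).mp h1

end Cfsg.Agent.S3202
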