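import Cfsg.Statements.S3208
import Mathlib
import Cfsg.Agent.H53.Basic

set_option autoImplicit false
open Cfsg

namespace Cfsg.Agent.S3208

/-- Let j be an involution of a finite group G, H a subgroup of G, and T a Sylow 2-subgroup of H ∩ C_G(j) containing j such that ⟨j⟩ is a characteristic subgroup of T. Then T is a Sylow 2-subgroup of H. -/
theorem result {G : Type*} [Group G] [Finite G]
    (j : G) (hj : orderOf j = 2) (H T : Subgroup G) (hT : T ≤ H ⊓ Subgroup.centralizer ({j} : Set G)) (h2 : IsPGroup 2 ↥T)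
    (hSyl : ¬ 2 ∣ T.relIndex (H ⊓ Subgroup.centralizer ({j} : Set G))) (hjT : j ∈ T)
    (hchar : ((Subgroup.zpowers j).subgroupOf T).Characteristic) :
    ¬ 2 ∣ T.relIndex H := by
  classical
  have : Fact (Nat.Prime 2) := ⟨Nat.prime_two⟩
  have hTH : T ≤ H := hT.trans inf_le_left
  intro hdvd
  obtain ⟨K, hTK, hKH, hKN, hrel, -⟩ := H53.exists_relIndex_eq_prime_le_normalizer T H h2 hTH hdvd
  have hKC : K ≤ Subgroup.centralizer ({j} : Set G) := by
    intro k hk
    rw [Subgroup.mem_centralizer_singleton_iff]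
    have hkN := hKN hk
    -- conjugation by k as an automorphism of T
    let φ : T ≃* T := MulAut.conjNormal (H := T.subgroupOf (Subgroup.normalizer (T : Set G))) ⟨k, hkN⟩ |> fun ψ =>
      (Subgroup.subgroupOfEquivOfLe (Subgroup.le_normalizer (H := T))).symm.trans
        (ψ.trans (Subgroup.subgroupOfEquivOfLe (Subgroup.le_normalizer (H := T))))
    have hφ : ((φ ⟨j, hjT⟩ : T) : G) = k * j * k⁻¹ := rfl
    have h1 := (Subgroup.characteristic_iff_map_le.mp hchar) φ
    have h2 : φ ⟨j, hjT⟩ ∈ (Subgroup.zpowers j).subgroupOf T :=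
      h1 ⟨⟨j, hjT⟩, Subgroup.mem_zpowers j, rfl⟩
    rw [Subgroup.mem_subgroupOf, hφ] at h2
    have h3 : k * j * k⁻¹ = j := by
      have hj2 : j ^ 2 = 1 := by rw [← hj]; exact pow_orderOf_eq_one j
      obtain ⟨n, hn⟩ := Subgroup.mem_zpowers_iff.mp h2
      rcases Int.even_or_odd n with ⟨m, rfl⟩ | ⟨m, rfl⟩
      · exfalso
        have : j ^ (m + m) = 1 := by
          rw [← two_mul, zpow_mul]
          have : j ^ (2:ℤ) = 1 := by exact_mod_cast hj2
          rw [this, one_zpow]
        rw [this] at hn
        have : j = 1 := by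
          have h5 : k * j * k⁻¹ = 1 := hn.symm
          simpa using h5
        rw [this, orderOf_one] at hj
        omega
      · have : j ^ (2 * m + 1) = j := by
          rw [zpow_add, zpow_mul]
          have : j ^ (2:ℤ) = 1 := by exact_mod_cast hj2
          rw [this, one_zpow, one_mul, zpow_one]
        rw [this] at hn
        exact hn.symm
    calc k * j = k * j * k⁻¹ * k := by group
      _ = j * k := by rw [h3]
  apply hSyl
  rw [← Subgroup.relIndex_mul_relIndex T K _ hTK (le_inf hKH hKC), hrel]
  exact dvd_mul_right _ _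

end Cfsg.Agent.S3208
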