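import Cfsg.Statements.S3209
import Mathlib
import Cfsg.Agent.H53.SL2Inv

set_option autoImplicit false
open Cfsg

namespace Cfsg.Agent.S3209

/-- Let L₁ ≅ SL₂(q₁) and L₂ ≅ SL₂(q₂), q₁ and q₂ odd, be elementwise-commuting subgroups of a finite group meeting in ⟨j⟩ for an involution j. Then L₁L₂ has exactly two conjugacy classes of involutions: the central involution j, and one further class (there is an involution x ≠ j in L₁L₂, and every involution of L₁L₂ other than j is conjugate to x by an element of L₁L₂). -/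
theorem result {G : Type*} [Group G] [Finite G]
    {F₁ : Type*} [Field F₁] [Fintype F₁] {F₂ : Type*} [Field F₂] [Fintype F₂]
    (hF₁ : Odd (Fintype.card F₁)) (hF₂ : Odd (Fintype.card F₂)) (L₁ L₂ : Subgroup G)
    (e₁ : ↥L₁ ≃* Matrix.SpecialLinearGroup (Fin 2) F₁) (e₂ : ↥L₂ ≃* Matrix.SpecialLinearGroup (Fin 2) F₂)
    (hc : ∀ x ∈ L₁, ∀ y ∈ L₂, x * y = y * x) (j : G) (hj : orderOf j = 2) (hm : L₁ ⊓ L₂ = Subgroup.zpowers j) :
    ∃ x ∈ L₁ ⊔ L₂, orderOf x = 2 ∧ x ≠ j ∧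
      ∀ y ∈ L₁ ⊔ L₂, orderOf y = 2 → y = j ∨ ∃ g ∈ L₁ ⊔ L₂, g * x * g⁻¹ = y := by
  have h2₁ := H53.two_ne_zero_of_odd hF₁
  have h2₂ := H53.two_ne_zero_of_odd hF₂
  have hj12 : j ∈ L₁ ⊓ L₂ := by rw [hm]; exact Subgroup.mem_zpowers j
  obtain ⟨hj1, hj2⟩ := hj12
  have hjj : j * j = 1 := by rw [← pow_two, ← hj, pow_orderOf_eq_one]
  have hjne : j ≠ 1 := by rintro rfl; rw [orderOf_one] at hj; omega
  have hjinv : j⁻¹ = j := inv_eq_of_mul_eq_one_left hjj
  have hmem : ∀ x ∈ L₁, x ∈ L₂ → x = 1 ∨ x = j := by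
    intro x h1 h2
    have : x ∈ Subgroup.zpowers j := by rw [← hm]; exact ⟨h1, h2⟩
    obtain ⟨n, rfl⟩ := this
    rcases Int.even_or_odd n with ⟨m, rfl⟩ | ⟨m, rfl⟩
    · left
      show j ^ (m + m) = 1
      rw [← two_mul, zpow_mul]
      have : j ^ (2:ℤ) = 1 := by rw [zpow_two]; exact hjj
      rw [this, one_zpow]
    · right
      show j ^ (2 * m + 1) = j
      rw [zpow_add, zpow_mul]
      have : j ^ (2:ℤ) = 1 := by rw [zpow_two]; exact hjj
      rw [this, one_zpow, one_mul, zpow_one]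
  obtain ⟨a, ha, haa⟩ := H53.exists_sq_eq h2₁ e₁ hj1 hj
  obtain ⟨b, hb, hbb⟩ := H53.exists_sq_eq h2₂ e₂ hj2 hj
  have hx2 : a * b * (a * b) = 1 := by
    calc a * b * (a * b) = a * (b * a) * b := by group
      _ = a * (a * b) * b := by rw [hc a ha b hb]
      _ = (a * a) * (b * b) := by group
      _ = 1 := by rw [haa, hbb, hjj]
  refine ⟨a * b, Subgroup.mul_mem_sup ha hb, ?_, ?_, ?_⟩
  · apply orderOf_eq_prime
    · rw [pow_two]; exact hx2
    · intro h
      have : a = b⁻¹ := eq_inv_of_mul_eq_one_left h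
      have ha2 : a ∈ L₂ := by rw [this]; exact L₂.inv_mem hb
      rcases hmem a ha ha2 with rfl | rfl
      · rw [one_mul] at haa; exact hjne haa.symm
      · rw [hjj] at haa; exact hjne haa.symm
  · intro h
    have : a = j * b⁻¹ := eq_mul_inv_of_mul_eq h
    have ha2 : a ∈ L₂ := by rw [this]; exact L₂.mul_mem hj2 (L₂.inv_mem hb)
    rcases hmem a ha ha2 with rfl | rfl
    · rw [one_mul] at haa; exact hjne haa.symm
    · rw [hjj] at haa; exact hjne haa.symm
  · intro y hy hyo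
    obtain ⟨c, hc1, d, hd, rfl⟩ := (H53.mem_sup_of_commute hc).mp hy
    have hyy : c * d * (c * d) = 1 := by rw [← pow_two, ← hyo, pow_orderOf_eq_one]
    have hccdd : (c * c) * (d * d) = 1 := by
      calc (c * c) * (d * d) = c * (c * d) * d := by group
        _ = c * (d * c) * d := by rw [hc c hc1 d hd]
        _ = c * d * (c * d) := by group
        _ = 1 := hyy
    have hcc1 : c * c = (d * d)⁻¹ := eq_inv_of_mul_eq_one_left hccdd
    have hcc2 : c * c ∈ L₂ := by rw [hcc1]; exact L₂.inv_mem (L₂.mul_mem hd hd)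
    rcases hmem _ (L₁.mul_mem hc1 hc1) hcc2 with hcc | hcc
    · -- c² = 1, d² = 1
      have hdd : d * d = 1 := by rw [hcc] at hcc1; exact inv_eq_one.mp hcc1.symm
      left
      rcases H53.sq_eq_one_of_sl2 h2₁ e₁ hj1 hj hc1 hcc with rfl | rfl <;>
        rcases H53.sq_eq_one_of_sl2 h2₂ e₂ hj2 hj hd hdd with rfl | rfl
      · rw [mul_one, orderOf_one] at hyo; omega
      · rw [one_mul]
      · rw [mul_one]
      · rw [hjj, orderOf_one] at hyo; omega
    · right
      have hdd : d * d = j := by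
        rw [hcc] at hcc1
        rw [← hjinv, hcc1, inv_inv]
      obtain ⟨g, hg, hgc⟩ := H53.conj_of_sq_eq h2₁ e₁ hj1 hj ha hc1 haa hcc
      obtain ⟨h, hh, hhd⟩ := H53.conj_of_sq_eq h2₂ e₂ hj2 hj hb hd hbb hdd
      refine ⟨g * h, Subgroup.mul_mem_sup hg hh, ?_⟩
      rw [← hgc, ← hhd]
      have e1 := hc g hg h hh
      have e2 := hc a ha h hh
      have e3 := hc g⁻¹ (L₁.inv_mem hg) h hh
      have e4 := hc g⁻¹ (L₁.inv_mem hg) b hb
      have e5 := hc g⁻¹ (L₁.inv_mem hg) h⁻¹ (L₂.inv_mem hh)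
      calc g * h * (a * b) * (g * h)⁻¹ = g * (h * a) * b * (h⁻¹ * g⁻¹) := by group
        _ = g * (a * h) * b * (g⁻¹ * h⁻¹) := by rw [e2, e5]
        _ = g * a * h * (b * g⁻¹) * h⁻¹ := by group
        _ = g * a * h * (g⁻¹ * b) * h⁻¹ := by rw [e4]
        _ = g * a * (h * g⁻¹) * b * h⁻¹ := by group
        _ = g * a * (g⁻¹ * h) * b * h⁻¹ := by rw [e3]
        _ = _ := by group

end Cfsg.Agent.S3209
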