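import Cfsg.Statements.S3210
import Mathlib
import Cfsg.Agent.H53.SL2Pair

set_option autoImplicit false
open Cfsg

namespace Cfsg.Agent.S3210

open Cfsg.Agent.H53


/-- Let G be a finite group with subgroups L₁ ≅ SL₂(q₁) and L₂ ≅ SL₂(q₂), q₁ and q₂ odd prime powers, which commute elementwise and meet in ⟨j⟩ for an involution j, and suppose L₁L₂ has index 2 in C_G(j). Then every element n of C_G(j) outside L₁L₂ either normalizes both L₁ and L₂, or conjugates L₁ onto L₂; in the second case q₁ = q₂ and there is an element n′ of C_G(j) outside L₁L₂ conjugating L₁ onto L₂ with n′² ∈ ⟨j⟩. -/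
theorem result {G : Type*} [Group G] [Finite G]
    {F₁ : Type*} [Field F₁] [Fintype F₁] {F₂ : Type*} [Field F₂] [Fintype F₂]
    (hF₁ : Odd (Fintype.card F₁)) (hF₂ : Odd (Fintype.card F₂)) (L₁ L₂ : Subgroup G)
    (e₁ : ↥L₁ ≃* Matrix.SpecialLinearGroup (Fin 2) F₁) (e₂ : ↥L₂ ≃* Matrix.SpecialLinearGroup (Fin 2) F₂)
    (hc : ∀ x ∈ L₁, ∀ y ∈ L₂, x * y = y * x) (j : G) (hj : orderOf j = 2) (hm : L₁ ⊓ L₂ = Subgroup.zpowers j)
    (hle : L₁ ⊔ L₂ ≤ Subgroup.centralizer ({j} : Set G)) (hi : (L₁ ⊔ L₂).relIndex (Subgroup.centralizer ({j} : Set G)) = 2) (n : G) (hn : n ∈ Subgroup.centralizer ({j} : Set G)) (hn' : n ∉ L₁ ⊔ L₂) :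
    (L₁.map (MulAut.conj n).toMonoidHom = L₁ ∧ L₂.map (MulAut.conj n).toMonoidHom = L₂) ∨
      (L₁.map (MulAut.conj n).toMonoidHom = L₂ ∧ Fintype.card F₁ = Fintype.card F₂ ∧
        ∃ n' ∈ Subgroup.centralizer ({j} : Set G), n' ∉ L₁ ⊔ L₂ ∧ L₁.map (MulAut.conj n').toMonoidHom = L₂ ∧ n' ^ 2 ∈ Subgroup.zpowers j) := by
  have h2₁ := H53.two_ne_zero_of_odd hF₁
  have h2₂ := H53.two_ne_zero_of_odd hF₂
  set Cj := Subgroup.centralizer ({j} : Set G) with hCj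
  have hnorm : ((L₁ ⊔ L₂).subgroupOf Cj).Normal := Subgroup.normal_of_index_eq_two hi
  have hNY : Cj ≤ Subgroup.normalizer ((L₁ ⊔ L₂ : Subgroup G) : Set G) :=
    (Subgroup.normal_subgroupOf_iff_le_normalizer hle).mp hnorm
  have hnn : n * n ∈ L₁ ⊔ L₂ := by
    have := Subgroup.mul_self_mem_of_index_two (H := (L₁ ⊔ L₂).subgroupOf Cj) hi ⟨n, hn⟩
    exact this
  have hnj : n * j = j * n := Subgroup.mem_centralizer_singleton_iff.mp hn
  have hYmap : (L₁ ⊔ L₂).map (MulAut.conj n).toMonoidHom = L₁ ⊔ L₂ :=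
    mem_normalizer_iff_map_eq.mp (hNY hn)
  have hzj : (Subgroup.zpowers j).map (MulAut.conj n).toMonoidHom = Subgroup.zpowers j := by
    rw [MonoidHom.map_zpowers]
    congr 1
    show n * j * n⁻¹ = j
    rw [hnj]; group
  let f₁ : (L₁.map (MulAut.conj n).toMonoidHom) ≃* Matrix.SpecialLinearGroup (Fin 2) F₁ :=
    (L₁.equivMapOfInjective _ (MulAut.conj n).injective).symm.trans e₁
  let f₂ : (L₂.map (MulAut.conj n).toMonoidHom) ≃* Matrix.SpecialLinearGroup (Fin 2) F₂ :=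
    (L₂.equivMapOfInjective _ (MulAut.conj n).injective).symm.trans e₂
  have hcM : ∀ x ∈ L₁.map (MulAut.conj n).toMonoidHom, ∀ y ∈ L₂.map (MulAut.conj n).toMonoidHom,
      x * y = y * x := by
    rintro _ ⟨x, hx, rfl⟩ _ ⟨y, hy, rfl⟩
    rw [← map_mul, hc x hx y hy, map_mul]
  have hmM : L₁.map (MulAut.conj n).toMonoidHom ⊓ L₂.map (MulAut.conj n).toMonoidHom =
      Subgroup.zpowers j := by
    rw [← Subgroup.map_inf_eq _ _ _ (MulAut.conj n).injective, hm, hzj]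
  have hY : L₁ ⊔ L₂ = L₁.map (MulAut.conj n).toMonoidHom ⊔ L₂.map (MulAut.conj n).toMonoidHom := by
    rw [← Subgroup.map_sup, hYmap]
  rcases pair_unique h2₁ h2₂ h2₁ h2₂ e₁ e₂ f₁ f₂ hc hcM hj hm hmM hY with ⟨h, h'⟩ | ⟨h, h'⟩
  · left; exact ⟨h, h'⟩
  · right
    refine ⟨h, ?_, ?_⟩
    · let g₁ : L₂ ≃* Matrix.SpecialLinearGroup (Fin 2) F₁ := (MulEquiv.subgroupCongr h.symm).trans f₁
      exact card_field_eq_of_sl2 (g₁.symm.trans e₂)
    · obtain ⟨l₁, hl₁, l₂, hl₂, hl⟩ := (mem_sup_of_commute hc).mp hnn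
      have hb : n⁻¹ * l₁ * n ∈ L₂ := by
        rw [← h', mem_map_conj] at hl₁
        exact hl₁
      have hc' : n⁻¹ * l₂ * n ∈ L₁ := by
        rw [← h, mem_map_conj] at hl₂
        exact hl₂
      refine ⟨n * l₁⁻¹, ?_, ?_, ?_, ?_⟩
      · exact mul_mem hn (inv_mem (hle (Subgroup.mem_sup_left hl₁)))
      · intro hmem
        apply hn'
        have := mul_mem hmem (Subgroup.mem_sup_left (T := L₂) hl₁)
        simpa using this
      · rw [← map_conj_map_conj, mem_normalizer_iff_map_eq.mp (Subgroup.le_normalizer (L₁.inv_mem hl₁)), h]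
      · rw [← hm]
        have hcomm := hc _ hc' _ hb
        have e1 : (n⁻¹ * l₂ * n) * (n⁻¹ * l₁ * n) = l₁ * l₂ := by
          rw [hcomm]
          calc (n⁻¹ * l₁ * n) * (n⁻¹ * l₂ * n) = n⁻¹ * (l₁ * l₂) * n := by group
            _ = n⁻¹ * (n * n) * n := by rw [hl]
            _ = n * n := by group
            _ = l₁ * l₂ := hl
        have e2 : l₁⁻¹ * (n⁻¹ * l₂ * n) = l₂ * (n⁻¹ * l₁ * n)⁻¹ := by
          rw [eq_mul_inv_iff_mul_eq, mul_assoc, e1]; group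
        have e3 : (n * l₁⁻¹) ^ 2 = l₂ * (n⁻¹ * l₁ * n)⁻¹ := by
          have h5 := hc _ hl₁ _ (L₂.mul_mem hl₂ (L₂.inv_mem hb))
          calc (n * l₁⁻¹) ^ 2 = (n * n) * (n⁻¹ * l₁ * n)⁻¹ * l₁⁻¹ := by rw [pow_two]; group
            _ = (l₁ * l₂) * (n⁻¹ * l₁ * n)⁻¹ * l₁⁻¹ := by rw [hl]
            _ = l₁ * (l₂ * (n⁻¹ * l₁ * n)⁻¹) * l₁⁻¹ := by group
            _ = (l₂ * (n⁻¹ * l₁ * n)⁻¹) * l₁ * l₁⁻¹ := by rw [h5]
            _ = _ := by group
        rw [e3]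
        exact ⟨by rw [← e2]; exact L₁.mul_mem (L₁.inv_mem hl₁) hc', L₂.mul_mem hl₂ (L₂.inv_mem hb)⟩

end Cfsg.Agent.S3210
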