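import Cfsg.Statements.S3211
import Cfsg.Agent.H69.SL2Facts
import Cfsg.Agent.H69.ZStar
import Cfsg.Agent.H47.Basic

set_option autoImplicit false
set_option linter.style.haveILetI false
open Cfsg

namespace Cfsg.Agent.S3211

open Subgroup Cfsg.Agent.H69

theorem isolated {G : Type*} [Group G] [Finite G] {L₁ L₂ : Subgroup G} {j : G} (h₁ : SL2Like L₁ j)
    (h₂ : SL2Like L₂ j) (hc : ∀ x ∈ L₁, ∀ y ∈ L₂, x * y = y * x) (hj : orderOf j = 2)
    (hm : L₁ ⊓ L₂ = zpowers j) (hle : L₁ ⊔ L₂ ≤ centralizer ({j} : Set G))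
    (hi : (L₁ ⊔ L₂).relIndex (centralizer ({j} : Set G)) = 2)
    (n : G) (hn : n ∈ centralizer ({j} : Set G)) (hn2 : n ^ 2 = j)
    (hswap : L₁.map (MulAut.conj n).toMonoidHom = L₂) : IsIsolatedInvolution j := by
  set C : Subgroup G := centralizer ({j} : Set G) with hC
  set M : Subgroup G := L₁ ⊔ L₂ with hM
  have hjj : j * j = 1 := by rw [← pow_two, ← hj, pow_orderOf_eq_one]
  have hj1 : j ≠ 1 := by
    intro h; rw [h, orderOf_one] at hj; omega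
  have hji : j⁻¹ = j := inv_eq_of_mul_eq_one_left hjj
  have hCm : ∀ {c : G}, c ∈ C ↔ c * j = j * c := by
    intro c
    rw [hC, mem_centralizer_singleton_iff]
  have hnn : n * n = j := by rw [← pow_two]; exact hn2
  have hjC : j ∈ C := hCm.mpr rfl
  have hL12 : L₁ ≤ normalizer (L₂ : Set G) := by
    intro x hx
    rw [mem_normalizer_iff]
    intro y
    constructor
    · intro hy
      rw [hc x hx y hy, mul_inv_cancel_right]; exact hy
    · intro hy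
      have h3 := hc x hx _ hy
      have h6 : x * (x * y * x⁻¹) * x⁻¹ = x * y * x⁻¹ := by rw [h3]; group
      have h7 : x * y * x⁻¹ = x⁻¹ * (x * (x * y * x⁻¹) * x⁻¹) * x := by group
      have h8 : x * y * x⁻¹ = y := by rw [h7, h6]; group
      rwa [h8] at hy
  have hMm : ∀ {x : G}, x ∈ M ↔ ∃ a ∈ L₁, ∃ b ∈ L₂, a * b = x := by
    intro x
    rw [hM]
    exact H47.mem_sup_of_le_normalizer hL12
  have hL1M : L₁ ≤ M := le_sup_left
  have hL2M : L₂ ≤ M := le_sup_right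
  have hz : ∀ a, a ∈ L₁ → a ∈ L₂ → a = 1 ∨ a = j := by
    intro a h1 h2
    have : a ∈ zpowers j := by rw [← hm]; exact ⟨h1, h2⟩
    exact eq_one_or_eq_of_mem_zpowers hj this
  have hn1 : ∀ a ∈ L₁, n * a * n⁻¹ ∈ L₂ := by
    intro a ha
    rw [← hswap]
    exact ⟨a, ha, rfl⟩
  have hnnc : ∀ x ∈ C, n * (n * x * n⁻¹) * n⁻¹ = x := by
    intro x hx
    have h1 : n * (n * x * n⁻¹) * n⁻¹ = (n * n) * x * (n * n)⁻¹ := by group
    rw [h1, hnn, ← hCm.mp hx, mul_inv_cancel_right]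
  have hn2' : ∀ b ∈ L₂, n * b * n⁻¹ ∈ L₁ := by
    intro b hb
    rw [← hswap] at hb
    obtain ⟨a, ha, hab⟩ := hb
    have hab' : n * a * n⁻¹ = b := hab
    rw [← hab', hnnc a (hle (hL1M ha))]
    exact ha
  have hnM : n ∉ M := by
    intro hnM
    obtain ⟨a, ha, b, hb, hab⟩ := hMm.mp hnM
    obtain ⟨x, hx, hxx⟩ := h₁.exists_sq
    have h1 : n * x * n⁻¹ = a * x * a⁻¹ := by
      rw [← hab]
      calc a * b * x * (a * b)⁻¹ = a * (b * x) * b⁻¹ * a⁻¹ := by group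
        _ = a * (x * b) * b⁻¹ * a⁻¹ := by rw [hc x hx b hb]
        _ = a * x * a⁻¹ := by group
    have h2 : n * x * n⁻¹ ∈ L₁ := by
      rw [h1]; exact mul_mem (mul_mem ha hx) (inv_mem ha)
    have h3 : (n * x * n⁻¹) * (n * x * n⁻¹) = j := by
      calc (n * x * n⁻¹) * (n * x * n⁻¹) = n * (x * x) * n⁻¹ := by group
        _ = j := by rw [hxx, hCm.mp hn, mul_inv_cancel_right]
    rcases hz _ h2 (hn1 x hx) with h | h
    · rw [h, one_mul] at h3; exact hj1 h3.symm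
    · rw [h, hjj] at h3; exact hj1 h3.symm
  have hidx : ∀ c ∈ C, c ∉ M → ∃ a ∈ L₁, ∃ b ∈ L₂, c = n * (a * b) := by
    intro c hcC hcM
    have h2 : (M.subgroupOf C).index = 2 := hi
    have h3 : (⟨n, hn⟩ : C)⁻¹ * ⟨c, hcC⟩ ∈ M.subgroupOf C := by
      rw [mul_mem_iff_of_index_two h2, inv_mem_iff, mem_subgroupOf, mem_subgroupOf]
      exact iff_of_false hnM hcM
    have h4 : n⁻¹ * c ∈ M := h3
    obtain ⟨a, ha, b, hb, hab⟩ := hMm.mp h4
    exact ⟨a, ha, b, hb, by rw [hab]; group⟩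
  have hsw1 : ∀ c ∈ C, c ∉ M → ∀ x ∈ L₁, c * x * c⁻¹ ∈ L₂ := by
    intro c hcC hcM x hx
    obtain ⟨a, ha, b, hb, rfl⟩ := hidx c hcC hcM
    have h1 : n * (a * b) * x * (n * (a * b))⁻¹ = n * (a * x * a⁻¹) * n⁻¹ := by
      calc n * (a * b) * x * (n * (a * b))⁻¹ = n * a * (b * x) * b⁻¹ * a⁻¹ * n⁻¹ := by group
        _ = n * a * (x * b) * b⁻¹ * a⁻¹ * n⁻¹ := by rw [hc x hx b hb]
        _ = n * (a * x * a⁻¹) * n⁻¹ := by group
    rw [h1]
    exact hn1 _ (mul_mem (mul_mem ha hx) (inv_mem ha))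
  have hsw2 : ∀ c ∈ C, c ∉ M → ∀ x ∈ L₂, c * x * c⁻¹ ∈ L₁ := by
    intro c hcC hcM x hx
    obtain ⟨a, ha, b, hb, rfl⟩ := hidx c hcC hcM
    have hbx : b * x * b⁻¹ ∈ L₂ := mul_mem (mul_mem hb hx) (inv_mem hb)
    have h1 : n * (a * b) * x * (n * (a * b))⁻¹ = n * (b * x * b⁻¹) * n⁻¹ := by
      calc n * (a * b) * x * (n * (a * b))⁻¹ = n * (a * (b * x * b⁻¹)) * a⁻¹ * n⁻¹ := by group
        _ = n * ((b * x * b⁻¹) * a) * a⁻¹ * n⁻¹ := by rw [hc a ha _ hbx]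
        _ = n * (b * x * b⁻¹) * n⁻¹ := by group
    rw [h1]
    exact hn2' _ hbx
  -- no involutions outside `M`
  have hout : ∀ c ∈ C, c ∉ M → c * c ≠ 1 := by
    intro c hcC hcM hcc
    obtain ⟨a, ha, b, hb, rfl⟩ := hidx c hcC hcM
    set y₂ := n * a * n⁻¹ with hy₂
    set y₁ := n * b * n⁻¹ with hy₁
    have hy2 : y₂ ∈ L₂ := hn1 a ha
    have hy1 : y₁ ∈ L₁ := hn2' b hb
    have e1 : n * (a * b) * (n * (a * b)) = (y₁ * a) * (y₂ * b) * j := by
      calc n * (a * b) * (n * (a * b)) = y₂ * y₁ * (n * n) * (a * b) := by rw [hy₂, hy₁]; group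
        _ = y₂ * y₁ * (j * (a * b)) := by rw [hnn]; group
        _ = y₂ * y₁ * ((a * b) * j) := by rw [hCm.mp (hle (mul_mem (hL1M ha) (hL2M hb)))]
        _ = y₂ * (y₁ * a) * b * j := by group
        _ = (y₁ * a) * y₂ * b * j := by rw [← hc (y₁ * a) (mul_mem hy1 ha) y₂ hy2]
        _ = (y₁ * a) * (y₂ * b) * j := by group
    rw [e1] at hcc
    have hw : y₁ * a = 1 ∨ y₁ * a = j := by
      apply hz _ (mul_mem hy1 ha)
      have : y₁ * a = ((y₂ * b) * j)⁻¹ := by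
        rw [eq_inv_iff_mul_eq_one, ← hcc]; group
      rw [this]
      exact inv_mem (mul_mem (mul_mem hy2 hb) h₂.mem)
    have hwn : n * (y₁ * a) * n⁻¹ = y₁ * a := by
      rcases hw with h | h
      · rw [h]; group
      · rw [h, hCm.mp hn, mul_inv_cancel_right]
    have hwn2 : n * (y₁ * a) * n⁻¹ = b * y₂ := by
      calc n * (y₁ * a) * n⁻¹ = (n * y₁ * n⁻¹) * (n * a * n⁻¹) := by group
        _ = b * y₂ := by rw [hy₁, hnnc b (hle (hL2M hb))]
    have hbw : y₂ * b = y₁ * a := by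
      have h1 : y₂ * b = b⁻¹ * (b * y₂) * b := by group
      rw [h1, ← hwn2, hwn]
      rcases hw with h | h
      · rw [h]; group
      · rw [h]
        have := hCm.mp (hle (hL2M hb))
        rw [mul_assoc, ← this]; group
    rw [hbw] at hcc
    rcases hw with h | h
    · rw [h, one_mul, one_mul] at hcc; exact hj1 hcc
    · rw [h, hjj, one_mul] at hcc; exact hj1 hcc
  -- involutions of `C`
  have hinv : ∀ u ∈ C, u * u = 1 → u ≠ 1 → u ≠ j →
      ∃ a ∈ L₁, ∃ b ∈ L₂, a * a = j ∧ b * b = j ∧ u = a * b := by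
    intro u huC huu hu1 huj
    have huM : u ∈ M := by
      by_contra h
      exact hout u huC h huu
    obtain ⟨a, ha, b, hb, hab⟩ := hMm.mp huM
    have e1 : (a * a) * (b * b) = 1 := by
      calc (a * a) * (b * b) = a * (a * b) * b := by group
        _ = a * (b * a) * b := by rw [hc a ha b hb]
        _ = u * u := by rw [← hab]; group
        _ = 1 := huu
    have e2 : a * a = 1 ∨ a * a = j := by
      apply hz _ (mul_mem ha ha)
      rw [eq_inv_of_mul_eq_one_left e1]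
      exact inv_mem (mul_mem hb hb)
    rcases e2 with e2 | e2
    · exfalso
      rw [e2, one_mul] at e1
      rcases h₁.one_or a ha e2 with h | h <;> rcases h₂.one_or b hb e1 with h' | h'
      · apply hu1; rw [← hab, h, h', one_mul]
      · apply huj; rw [← hab, h, h', one_mul]
      · apply huj; rw [← hab, h, h', mul_one]
      · apply hu1; rw [← hab, h, h', hjj]
    · refine ⟨a, ha, b, hb, e2, ?_, hab.symm⟩
      rw [e2] at e1
      rw [eq_inv_of_mul_eq_one_right e1, hji]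
  have hconj : ∀ u ∈ C, u * u = 1 → u ≠ 1 → u ≠ j → ∀ v ∈ C, v * v = 1 → v ≠ 1 → v ≠ j →
      ∃ c ∈ C, c * u * c⁻¹ = v := by
    intro u hu1 hu2 hu3 hu4 v hv1 hv2 hv3 hv4
    obtain ⟨a, ha, b, hb, haa, hbb, rfl⟩ := hinv u hu1 hu2 hu3 hu4
    obtain ⟨a', ha', b', hb', haa', hbb', rfl⟩ := hinv v hv1 hv2 hv3 hv4
    obtain ⟨g, hg, hga⟩ := h₁.conj a ha a' ha' haa haa'
    obtain ⟨k, hk, hkb⟩ := h₂.conj b hb b' hb' hbb hbb'
    refine ⟨g * k, hle (mul_mem (hL1M hg) (hL2M hk)), ?_⟩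
    calc g * k * (a * b) * (g * k)⁻¹ = g * (k * a) * b * k⁻¹ * g⁻¹ := by group
      _ = g * (a * k) * b * k⁻¹ * g⁻¹ := by rw [hc a ha k hk]
      _ = g * a * ((k * b * k⁻¹) * g⁻¹) := by group
      _ = g * a * (b' * g⁻¹) := by rw [hkb]
      _ = g * a * (g⁻¹ * b') := by rw [hc g⁻¹ (inv_mem hg) b' hb']
      _ = a' * b' := by rw [← hga]; group
  refine ⟨hj, ?_⟩
  intro g hg
  by_contra hne
  set i := g * j * g⁻¹ with hi'
  have hii : i * i = 1 := by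
    calc i * i = g * (j * j) * g⁻¹ := by rw [hi']; group
      _ = 1 := by rw [hjj]; group
  have hi1 : i ≠ 1 := by
    intro h
    apply hj1
    have : j = g⁻¹ * i * g := by rw [hi']; group
    rw [this, h]; group
  have hiC : i ∈ C := hCm.mpr hg.symm
  have hij : i * j = j * i := hCm.mp hiC
  -- the element `h`
  obtain ⟨h, hhi, hhj⟩ : ∃ h : G, h * i * h⁻¹ = i ∧ h * j * h⁻¹ = i * j := by
    set j' := g⁻¹ * j * g with hj'
    have a1 : j' ∈ C := by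
      rw [hCm]
      calc j' * j = g⁻¹ * (j * i) * g := by rw [hj', hi']; group
        _ = g⁻¹ * (i * j) * g := by rw [hij]
        _ = j * j' := by rw [hj', hi']; group
    have a2 : j' * j' = 1 := by
      calc j' * j' = g⁻¹ * (j * j) * g := by rw [hj']; group
        _ = 1 := by rw [hjj]; group
    have a3 : j' ≠ 1 := by
      intro h
      apply hj1
      have : j = g * j' * g⁻¹ := by rw [hj']; group
      rw [this, h]; group
    have a4 : j' ≠ j := by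
      intro h
      apply hne
      have h5 : j = g * j' * g⁻¹ := by rw [hj']; group
      rw [hi']
      nth_rewrite 2 [h5]
      rw [h]
    have b1 : j * j' ∈ C := mul_mem hjC a1
    have b2 : (j * j') * (j * j') = 1 := by
      calc (j * j') * (j * j') = j * (j' * j) * j' := by group
        _ = j * (j * j') * j' := by rw [hCm.mp a1]
        _ = (j * j) * (j' * j') := by group
        _ = 1 := by rw [hjj, a2, one_mul]
    have b3 : j * j' ≠ 1 := by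
      intro h
      apply a4
      have := eq_inv_of_mul_eq_one_right h
      rw [this, hji]
    have b4 : j * j' ≠ j := by
      intro h
      exact a3 (mul_eq_left.mp h)
    obtain ⟨c, hcC, hcj⟩ := hconj j' a1 a2 a3 a4 (j * j') b1 b2 b3 b4
    refine ⟨g * c * g⁻¹, ?_, ?_⟩
    · calc g * c * g⁻¹ * i * (g * c * g⁻¹)⁻¹ = g * (c * j) * c⁻¹ * g⁻¹ := by rw [hi']; group
        _ = g * (j * c) * c⁻¹ * g⁻¹ := by rw [hCm.mp hcC]
        _ = i := by rw [hi']; group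
    · calc g * c * g⁻¹ * j * (g * c * g⁻¹)⁻¹ = g * (c * j' * c⁻¹) * g⁻¹ := by rw [hj']; group
        _ = g * (j * j') * g⁻¹ := by rw [hcj]
        _ = i * j := by rw [hi', hj']; group
  obtain ⟨x₁, hx₁, x₂, hx₂, hx11, hx22, hix⟩ := hinv i hiC hii hi1 hne
  have hx1C : x₁ ∈ C := hle (hL1M hx₁)
  have hx2C : x₂ ∈ C := hle (hL2M hx₂)
  have hx12 : x₁ * x₂ = x₂ * x₁ := hc x₁ hx₁ x₂ hx₂
  have hxi : x₁ * i = i * x₁ := by
    rw [hix]
    exact (Commute.mul_right (Commute.refl x₁) hx12 : Commute x₁ (x₁ * x₂))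
  have hxi2 : x₂ * i = i * x₂ := by
    rw [hix]
    exact (Commute.mul_right (Commute.symm hx12) (Commute.refl x₂) : Commute x₂ (x₁ * x₂))
  have hinv1 : x₁⁻¹ = x₁ * j := by
    rw [inv_eq_iff_mul_eq_one, ← mul_assoc, hx11, hjj]
  have hinv2 : x₂⁻¹ = x₂ * j := by
    rw [inv_eq_iff_mul_eq_one, ← mul_assoc, hx22, hjj]
  set R : G → Set G := fun z => {u | u ∈ C ∧ u * i = i * u ∧ u * u = z} with hR
  have hRm : ∀ {z u : G}, u ∈ R z ↔ u ∈ C ∧ u * i = i * u ∧ u * u = z := fun {z u} => Iff.rfl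
  -- first inequality
  have hle1 : (R j).ncard ≤ (R (i * j)).ncard := by
    have hinj : Function.Injective (fun u : G => h * u * h⁻¹) := by
      intro u v huv
      have huv' : h * u * h⁻¹ = h * v * h⁻¹ := huv
      exact mul_left_cancel (mul_right_cancel huv')
    rw [← Set.ncard_image_of_injective (R j) hinj]
    apply Set.ncard_le_ncard _ (Set.toFinite _)
    rintro _ ⟨u, hu, rfl⟩
    obtain ⟨hu1, hu2, hu3⟩ := hRm.mp hu
    have hu1' := hCm.mp hu1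
    have c1 : (h * u * h⁻¹) * i = i * (h * u * h⁻¹) := by
      calc (h * u * h⁻¹) * i = (h * u * h⁻¹) * (h * i * h⁻¹) := by rw [hhi]
        _ = h * (u * i) * h⁻¹ := by group
        _ = h * (i * u) * h⁻¹ := by rw [hu2]
        _ = (h * i * h⁻¹) * (h * u * h⁻¹) := by group
        _ = i * (h * u * h⁻¹) := by rw [hhi]
    have c2 : (h * u * h⁻¹) * (i * j) = (i * j) * (h * u * h⁻¹) := by
      calc (h * u * h⁻¹) * (i * j) = (h * u * h⁻¹) * (h * j * h⁻¹) := by rw [hhj]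
        _ = h * (u * j) * h⁻¹ := by group
        _ = h * (j * u) * h⁻¹ := by rw [hu1']
        _ = (h * j * h⁻¹) * (h * u * h⁻¹) := by group
        _ = (i * j) * (h * u * h⁻¹) := by rw [hhj]
    have c3 : (h * u * h⁻¹) * j = j * (h * u * h⁻¹) := by
      have hj' : j = i * (i * j) := by rw [← mul_assoc, hii, one_mul]
      calc (h * u * h⁻¹) * j = (h * u * h⁻¹) * (i * (i * j)) := by rw [← hj']
        _ = ((h * u * h⁻¹) * i) * (i * j) := by group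
        _ = i * ((h * u * h⁻¹) * (i * j)) := by rw [c1]; group
        _ = (i * (i * j)) * (h * u * h⁻¹) := by rw [c2]; group
        _ = j * (h * u * h⁻¹) := by rw [← hj']
    refine hRm.mpr ⟨hCm.mpr c3, c1, ?_⟩
    calc (h * u * h⁻¹) * (h * u * h⁻¹) = h * (u * u) * h⁻¹ := by group
      _ = i * j := by rw [hu3, hhj]
  -- square roots inside `M`
  have hin : ∀ u ∈ R (i * j), u ∈ M → ∃ y₁ ∈ L₁, ∃ y₂ ∈ L₂, u = y₁ * y₂ ∧ y₁ * x₁ = x₁ * y₁ ∧
      y₂ * x₂ = x₂ * y₂ := by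
    intro u hu huM
    obtain ⟨hu1, hu2, hu3⟩ := hRm.mp hu
    obtain ⟨y₁, hy₁, y₂, hy₂, rfl⟩ := hMm.mp huM
    have e1 : (y₁ * x₁ * y₁⁻¹) * (y₂ * x₂ * y₂⁻¹) = x₁ * x₂ := by
      have hyx : y₂ * x₂ * y₂⁻¹ ∈ L₂ := mul_mem (mul_mem hy₂ hx₂) (inv_mem hy₂)
      calc (y₁ * x₁ * y₁⁻¹) * (y₂ * x₂ * y₂⁻¹) = y₁ * x₁ * (y₁⁻¹ * (y₂ * x₂ * y₂⁻¹)) := by group
        _ = y₁ * x₁ * ((y₂ * x₂ * y₂⁻¹) * y₁⁻¹) := by rw [hc y₁⁻¹ (inv_mem hy₁) _ hyx]
        _ = y₁ * (x₁ * y₂) * x₂ * y₂⁻¹ * y₁⁻¹ := by group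
        _ = y₁ * (y₂ * x₁) * x₂ * y₂⁻¹ * y₁⁻¹ := by rw [hc x₁ hx₁ y₂ hy₂]
        _ = ((y₁ * y₂) * (x₁ * x₂)) * (y₁ * y₂)⁻¹ := by group
        _ = ((x₁ * x₂) * (y₁ * y₂)) * (y₁ * y₂)⁻¹ := by rw [← hix, hu2]
        _ = x₁ * x₂ := by group
    have e2 : x₁⁻¹ * (y₁ * x₁ * y₁⁻¹) = 1 ∨ x₁⁻¹ * (y₁ * x₁ * y₁⁻¹) = j := by
      apply hz
      · exact mul_mem (inv_mem hx₁) (mul_mem (mul_mem hy₁ hx₁) (inv_mem hy₁))
      · have : x₁⁻¹ * (y₁ * x₁ * y₁⁻¹) = x₂ * (y₂ * x₂ * y₂⁻¹)⁻¹ := by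
          rw [eq_mul_inv_iff_mul_eq, mul_assoc, e1]; group
        rw [this]
        exact mul_mem hx₂ (inv_mem (mul_mem (mul_mem hy₂ hx₂) (inv_mem hy₂)))
    rcases e2 with e2 | e2
    · have e3 : y₁ * x₁ * y₁⁻¹ = x₁ := (inv_mul_eq_one.mp e2).symm
      rw [e3] at e1
      have e4 : y₂ * x₂ * y₂⁻¹ = x₂ := mul_left_cancel e1
      exact ⟨y₁, hy₁, y₂, hy₂, rfl, mul_inv_eq_iff_eq_mul.mp e3, mul_inv_eq_iff_eq_mul.mp e4⟩
    · exfalso
      have e3 : y₁ * x₁ * y₁⁻¹ = x₁⁻¹ := by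
        rw [inv_mul_eq_iff_eq_mul] at e2
        rw [e2, hinv1]
      rw [e3] at e1
      have e4 : y₂ * x₂ * y₂⁻¹ = x₂⁻¹ := by
        have : y₂ * x₂ * y₂⁻¹ = x₁ * (x₁ * x₂) := by rw [← e1]; group
        rw [this, ← mul_assoc, hx11, hinv2, hCm.mp hx2C]
      have f1 := h₁.inverts x₁ hx₁ y₁ hy₁ hx11 e3
      have f2 := h₂.inverts x₂ hx₂ y₂ hy₂ hx22 e4
      have f3 : (y₁ * y₂) * (y₁ * y₂) = 1 := by
        calc (y₁ * y₂) * (y₁ * y₂) = y₁ * (y₂ * y₁) * y₂ := by group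
          _ = y₁ * (y₁ * y₂) * y₂ := by rw [hc y₁ hy₁ y₂ hy₂]
          _ = (y₁ * y₁) * (y₂ * y₂) := by group
          _ = 1 := by rw [f1, f2, hjj]
      rw [f3] at hu3
      apply hne
      have := eq_inv_of_mul_eq_one_left hu3.symm
      rw [this, hji]
  have hijC : (i * j) * (i * j) = 1 := by
    calc (i * j) * (i * j) = i * (j * i) * j := by group
      _ = i * (i * j) * j := by rw [hij]
      _ = (i * i) * (j * j) := by group
      _ = 1 := by rw [hii, hjj, one_mul]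
  obtain ⟨t, htM, ht⟩ : ∃ t ∈ M, ∀ u ∈ R (i * j), u ∈ M → u * t ∈ R j := by
    by_cases hex : ∃ u₀ ∈ R (i * j), u₀ ∈ M
    · obtain ⟨u₀, hu0, hu0M⟩ := hex
      refine ⟨u₀⁻¹ * x₁, mul_mem (inv_mem hu0M) (hL1M hx₁), ?_⟩
      intro u hu huM
      obtain ⟨y₁, hy₁, y₂, hy₂, huy, k1, k2⟩ := hin u hu huM
      obtain ⟨w₁, hw₁, w₂, hw₂, huw, l1, l2⟩ := hin u₀ hu0 hu0M
      obtain ⟨p1, p2, p3⟩ := hRm.mp hu
      obtain ⟨q1, q2, q3⟩ := hRm.mp hu0
      have m1 := h₁.comm x₁ hx₁ y₁ hy₁ w₁ hw₁ hx11 k1 l1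
      have m2 := h₂.comm x₂ hx₂ y₂ hy₂ w₂ hw₂ hx22 k2 l2
      have c1 : Commute u x₁ := by
        show u * x₁ = x₁ * u
        rw [huy, mul_assoc, ← hc x₁ hx₁ y₂ hy₂, ← mul_assoc, k1, mul_assoc]
      have c2 : Commute u₀ x₁ := by
        show u₀ * x₁ = x₁ * u₀
        rw [huw, mul_assoc, ← hc x₁ hx₁ w₂ hw₂, ← mul_assoc, l1, mul_assoc]
      have c3 : Commute u u₀ := by
        show u * u₀ = u₀ * u
        rw [huy, huw]
        calc y₁ * y₂ * (w₁ * w₂) = y₁ * (y₂ * w₁) * w₂ := by group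
          _ = y₁ * (w₁ * y₂) * w₂ := by rw [hc w₁ hw₁ y₂ hy₂]
          _ = (y₁ * w₁) * (y₂ * w₂) := by group
          _ = (w₁ * y₁) * (w₂ * y₂) := by rw [m1, m2]
          _ = w₁ * (y₁ * w₂) * y₂ := by group
          _ = w₁ * (w₂ * y₁) * y₂ := by rw [hc y₁ hy₁ w₂ hw₂]
          _ = w₁ * w₂ * (y₁ * y₂) := by group
      refine hRm.mpr ⟨mul_mem p1 (mul_mem (inv_mem q1) hx1C), ?_, ?_⟩
      · have : Commute (u * (u₀⁻¹ * x₁)) i :=
          Commute.mul_left p2 (Commute.mul_left (Commute.inv_left q2) hxi)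
        exact this
      · have d1 : Commute u (u₀⁻¹ * x₁) := Commute.mul_right (Commute.inv_right c3) c1
        have d2 : Commute u₀⁻¹ x₁ := Commute.inv_left c2
        calc u * (u₀⁻¹ * x₁) * (u * (u₀⁻¹ * x₁)) = u * ((u₀⁻¹ * x₁) * u) * (u₀⁻¹ * x₁) := by group
          _ = u * (u * (u₀⁻¹ * x₁)) * (u₀⁻¹ * x₁) := by rw [d1.eq]
          _ = (u * u) * (u₀⁻¹ * (x₁ * u₀⁻¹) * x₁) := by group
          _ = (u * u) * (u₀⁻¹ * (u₀⁻¹ * x₁) * x₁) := by rw [d2.eq]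
          _ = (u * u) * (u₀ * u₀)⁻¹ * (x₁ * x₁) := by group
          _ = j := by rw [p3, q3, mul_inv_cancel, one_mul, hx11]
    · exact ⟨1, one_mem _, fun u hu huM => absurd ⟨u, hu, huM⟩ hex⟩
  -- square roots outside `M`
  have hout2 : ∀ u ∈ R (i * j), u ∉ M → u * x₁ ∈ R j ∧ u * x₁ * u⁻¹ = x₂ := by
    intro u hu huM
    obtain ⟨p1, p2, p3⟩ := hRm.mp hu
    have k1 : u * x₁ * u⁻¹ ∈ L₂ := hsw1 u p1 huM x₁ hx₁
    have k2 : u * x₂ * u⁻¹ ∈ L₁ := hsw2 u p1 huM x₂ hx₂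
    have e1 : (u * x₂ * u⁻¹) * (u * x₁ * u⁻¹) = x₁ * x₂ := by
      calc (u * x₂ * u⁻¹) * (u * x₁ * u⁻¹) = u * (x₂ * x₁) * u⁻¹ := by group
        _ = u * i * u⁻¹ := by rw [← hx12, ← hix]
        _ = x₁ * x₂ := by rw [p2, mul_inv_cancel_right, hix]
    have e2 : x₁⁻¹ * (u * x₂ * u⁻¹) = 1 ∨ x₁⁻¹ * (u * x₂ * u⁻¹) = j := by
      apply hz
      · exact mul_mem (inv_mem hx₁) k2
      · have : x₁⁻¹ * (u * x₂ * u⁻¹) = x₂ * (u * x₁ * u⁻¹)⁻¹ := by
          rw [eq_mul_inv_iff_mul_eq, mul_assoc, e1]; group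
        rw [this]
        exact mul_mem hx₂ (inv_mem k1)
    rcases e2 with e2 | e2
    · have e3 : u * x₂ * u⁻¹ = x₁ := (inv_mul_eq_one.mp e2).symm
      rw [e3] at e1
      have e4 : u * x₁ * u⁻¹ = x₂ := mul_left_cancel e1
      refine ⟨hRm.mpr ⟨mul_mem p1 hx1C, ?_, ?_⟩, e4⟩
      · exact (Commute.mul_left p2 hxi : Commute (u * x₁) i)
      · calc u * x₁ * (u * x₁) = (u * x₁ * u⁻¹) * (u * u) * x₁ := by group
          _ = x₂ * (i * j) * x₁ := by rw [e4, p3]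
          _ = (x₂ * i) * (j * x₁) := by group
          _ = (i * x₂) * (x₁ * j) := by rw [hxi2, ← hCm.mp hx1C]
          _ = i * (x₂ * x₁) * j := by group
          _ = i * i * j := by rw [← hx12, ← hix]
          _ = j := by rw [hii, one_mul]
    · exfalso
      have e3 : u * x₂ * u⁻¹ = x₁⁻¹ := by
        rw [inv_mul_eq_iff_eq_mul] at e2
        rw [e2, hinv1]
      rw [e3] at e1
      have e4 : u * x₁ * u⁻¹ = x₂⁻¹ := by
        have : u * x₁ * u⁻¹ = x₁ * (x₁ * x₂) := by rw [← e1]; group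
        rw [this, ← mul_assoc, hx11, hinv2, hCm.mp hx2C]
      have hux : u * x₁ ∉ M := by
        intro h5
        apply huM
        have : u = (u * x₁) * x₁⁻¹ := by group
        rw [this]
        exact mul_mem h5 (inv_mem (hL1M hx₁))
      apply hout (u * x₁) (mul_mem p1 hx1C) hux
      have hjx1 := hCm.mp hx1C
      have hjx2 := hCm.mp hx2C
      calc u * x₁ * (u * x₁) = (u * x₁ * u⁻¹) * (u * u) * x₁ := by group
        _ = (x₂ * j) * (i * j) * x₁ := by rw [e4, p3, hinv2]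
        _ = x₂ * (j * i) * (j * x₁) := by group
        _ = x₂ * (i * j) * (x₁ * j) := by rw [hij, hjx1]
        _ = (x₂ * i) * (j * x₁) * j := by group
        _ = (i * x₂) * (x₁ * j) * j := by rw [hxi2, ← hjx1]
        _ = i * (x₂ * x₁) * (j * j) := by group
        _ = 1 := by rw [← hx12, ← hix, hjj, mul_one, hii]
  obtain ⟨n', hn'R, hn'M, hn'x⟩ : ∃ n' ∈ R j, n' ∉ M ∧ n' * x₁ * n'⁻¹ = x₂⁻¹ := by
    have e1 : (n * x₁ * n⁻¹) * (n * x₁ * n⁻¹) = j := by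
      calc (n * x₁ * n⁻¹) * (n * x₁ * n⁻¹) = n * (x₁ * x₁) * n⁻¹ := by group
        _ = j := by rw [hx11, hCm.mp hn, mul_inv_cancel_right]
    have e2 : x₂⁻¹ * x₂⁻¹ = j := by rw [← mul_inv_rev, hx22, hji]
    obtain ⟨y, hy, hyx⟩ := h₂.conj (n * x₁ * n⁻¹) (hn1 x₁ hx₁) x₂⁻¹ (inv_mem hx₂) e1 e2
    have hyC : y ∈ C := hle (hL2M hy)
    have e3 : (y * n * y⁻¹) * x₁ * (y * n * y⁻¹)⁻¹ = x₂⁻¹ := by
      calc (y * n * y⁻¹) * x₁ * (y * n * y⁻¹)⁻¹ = y * n * y⁻¹ * (x₁ * y) * n⁻¹ * y⁻¹ := by group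
        _ = y * n * y⁻¹ * (y * x₁) * n⁻¹ * y⁻¹ := by rw [hc x₁ hx₁ y hy]
        _ = y * (n * x₁ * n⁻¹) * y⁻¹ := by group
        _ = x₂⁻¹ := hyx
    have e4 : (y * n * y⁻¹) * (y * n * y⁻¹) = j := by
      calc (y * n * y⁻¹) * (y * n * y⁻¹) = y * (n * n) * y⁻¹ := by group
        _ = j := by rw [hnn, hCm.mp hyC, mul_inv_cancel_right]
    have hn'C : y * n * y⁻¹ ∈ C := mul_mem (mul_mem hyC hn) (inv_mem hyC)
    have hn'M : y * n * y⁻¹ ∉ M := by
      intro h5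
      apply hnM
      have : n = y⁻¹ * (y * n * y⁻¹) * y := by group
      rw [this]
      exact mul_mem (mul_mem (inv_mem (hL2M hy)) h5) (hL2M hy)
    refine ⟨y * n * y⁻¹, hRm.mpr ⟨hn'C, ?_, e4⟩, hn'M, e3⟩
    set m := y * n * y⁻¹ with hm'
    have e5 : m * x₂ * m⁻¹ = x₁⁻¹ := by
      have e6 : m * x₂⁻¹ * m⁻¹ = x₁ := by
        calc m * x₂⁻¹ * m⁻¹ = m * (m * x₁ * m⁻¹) * m⁻¹ := by rw [e3]
          _ = (m * m) * x₁ * (m * m)⁻¹ := by group
          _ = x₁ := by rw [e4, ← hCm.mp hx1C, mul_inv_cancel_right]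
      calc m * x₂ * m⁻¹ = (m * x₂⁻¹ * m⁻¹)⁻¹ := by group
        _ = x₁⁻¹ := by rw [e6]
    have e7 : m * i * m⁻¹ = i := by
      calc m * i * m⁻¹ = (m * x₁ * m⁻¹) * (m * x₂ * m⁻¹) := by rw [hix]; group
        _ = x₂⁻¹ * x₁⁻¹ := by rw [e3, e5]
        _ = i⁻¹ := by rw [hix]; group
        _ = i := inv_eq_of_mul_eq_one_left hii
    exact mul_inv_eq_iff_eq_mul.mp e7
  classical
  set f : G → G := fun u => if u ∈ M then u * t else u * x₁ with hf
  have hfM : ∀ u, u ∈ M → f u = u * t := fun u hu => if_pos hu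
  have hfN : ∀ u, u ∉ M → f u = u * x₁ := fun u hu => if_neg hu
  have hfMM : ∀ u, u ∈ M ↔ f u ∈ M := by
    intro u
    constructor
    · intro hu
      rw [hfM u hu]; exact mul_mem hu htM
    · intro hu
      by_contra hcon
      rw [hfN u hcon] at hu
      apply hcon
      have : u = (u * x₁) * x₁⁻¹ := by group
      rw [this]
      exact mul_mem hu (inv_mem (hL1M hx₁))
  have hfinj : Set.InjOn f (R (i * j)) := by
    intro u _ v _ huv
    by_cases huM : u ∈ M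
    · have hvM : v ∈ M := by rw [hfMM v, ← huv, ← hfMM u]; exact huM
      rw [hfM u huM, hfM v hvM] at huv
      exact mul_right_cancel huv
    · have hvM : v ∉ M := by rw [hfMM v, ← huv, ← hfMM u]; exact huM
      rw [hfN u huM, hfN v hvM] at huv
      exact mul_right_cancel huv
  have hss : f '' (R (i * j)) ⊂ R j := by
    rw [Set.ssubset_iff_of_subset]
    · refine ⟨n', hn'R, ?_⟩
      rintro ⟨u, hu, hun⟩
      by_cases huM : u ∈ M
      · apply hn'M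
        rw [← hun]; exact (hfMM u).mp huM
      · rw [hfN u huM] at hun
        have k1 := (hout2 u hu huM).2
        have k2 : n' * x₁ * n'⁻¹ = u * x₁ * u⁻¹ := by rw [← hun]; group
        rw [hn'x, k1] at k2
        have k3 : x₂ * x₂ = 1 := by nth_rewrite 1 [← k2]; group
        rw [hx22] at k3
        exact hj1 k3
    · rintro _ ⟨u, hu, rfl⟩
      by_cases huM : u ∈ M
      · rw [hfM u huM]; exact ht u hu huM
      · rw [hfN u huM]; exact (hout2 u hu huM).1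
  have hlt := Set.ncard_lt_ncard hss (Set.toFinite _)
  rw [hfinj.ncard_image] at hlt
  omega

/-- Let G be a finite group with subgroups L₁ ≅ SL₂(q₁) and L₂ ≅ SL₂(q₂), q₁ and q₂ odd prime powers, which commute elementwise and meet in ⟨j⟩ for an involution j, and suppose L₁L₂ has index 2 in C_G(j). If some n ∈ C_G(j) with n² = j interchanges L₁ and L₂ under conjugation (so that C_G(j) = L₁L₂⟨n⟩), then G = C_G(j)O(G). -/
theorem result {G : Type*} [Group G] [Finite G]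
    {F₁ : Type*} [Field F₁] [Fintype F₁] {F₂ : Type*} [Field F₂] [Fintype F₂]
    (hF₁ : Odd (Fintype.card F₁)) (hF₂ : Odd (Fintype.card F₂)) (L₁ L₂ : Subgroup G)
    (e₁ : ↥L₁ ≃* Matrix.SpecialLinearGroup (Fin 2) F₁) (e₂ : ↥L₂ ≃* Matrix.SpecialLinearGroup (Fin 2) F₂)
    (hc : ∀ x ∈ L₁, ∀ y ∈ L₂, x * y = y * x) (j : G) (hj : orderOf j = 2) (hm : L₁ ⊓ L₂ = Subgroup.zpowers j)
    (hle : L₁ ⊔ L₂ ≤ Subgroup.centralizer ({j} : Set G)) (hi : (L₁ ⊔ L₂).relIndex (Subgroup.centralizer ({j} : Set G)) = 2) (n : G) (hn : n ∈ Subgroup.centralizer ({j} : Set G))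
    (hn2 : n ^ 2 = j) (hswap : L₁.map (MulAut.conj n).toMonoidHom = L₂) :
    Subgroup.centralizer ({j} : Set G) ⊔ Cfsg.oddCore G = ⊤ := by
  have hj12 : j ∈ L₁ ⊓ L₂ := by rw [hm]; exact mem_zpowers j
  have hiso := isolated (sl2Like_of_equiv hF₁ L₁ e₁ hj12.1 hj) (sl2Like_of_equiv hF₂ L₂ e₂ hj12.2 hj)
    hc hj hm hle hi n hn hn2 hswap
  obtain ⟨N, hN, hodd, hNc⟩ := isolated_zstar hiso
  haveI := hN
  rw [eq_top_iff]
  intro g _
  obtain ⟨m, hm', hmg⟩ := frattini_involution hj hodd hNc g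
  have h1 : N ≤ oddCore G := Solv.le_pPrimeCore hN (Nat.coprime_two_right.mpr hodd)
  have h2 : g = m * (m⁻¹ * g) := by group
  rw [h2]
  exact mul_mem ((le_sup_right : oddCore G ≤ _) (h1 hm'))
    ((le_sup_left : centralizer ({j} : Set G) ≤ _) hmg)

end Cfsg.Agent.S3211
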