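import Cfsg.Statements.S3213
import Mathlib
import Cfsg.Agent.H53.SL2Indec

set_option autoImplicit false
open Cfsg

namespace Cfsg.Agent.S3213


open Matrix

section alg
variable {F : Type*} [Field F] {n : Type*} [Fintype n] [DecidableEq n]

/-- every element of a field with 3 elements is 0, 1 or -1 -/
theorem f3_cases [Fintype F] (hF : Fintype.card F = 3) (a : F) : a = 0 ∨ a = 1 ∨ a = -1 := by
  have h := FiniteField.pow_card a
  rw [hF] at h
  have : a * ((a - 1) * (a + 1)) = 0 := by linear_combination h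
  rcases mul_eq_zero.mp this with h | h
  · exact Or.inl h
  · rcases mul_eq_zero.mp h with h | h
    · right; left; linear_combination h
    · right; right; linear_combination h

theorem char3 [Fintype F] (hF : Fintype.card F = 3) : (3 : F) = 0 := by
  have h := FiniteField.cast_card_eq_zero F
  rw [hF] at h
  exact_mod_cast h

/-- the product of two rank one unipotents over `F₃` has order dividing 12 -/
theorem pow_twelve {A : Type*} [Ring A] [Algebra F A] [Fintype F] (hF : Fintype.card F = 3)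
    (N M : A) (α : F) (hN : N * N = 0) (hM : M * M = 0) (h1 : N * M * N = α • N) (h2 : M * N * M = α • M) :
    ((1 + N) * (1 + M)) ^ 12 = 1 := by
  set h := N + M + N * M with hh
  have e1 : h * h = α • h + (N * M + M * N) := by
    rw [hh]
    have : (N + M + N * M) * (N + M + N * M) = N * N + N * M + (N * N) * M + M * N + M * M + M * N * M +
        N * M * N + N * (M * M) + (N * M * N) * M := by noncomm_ring
    rw [this, hN, hM, h1, h2]
    simp only [zero_mul, mul_zero, add_zero, smul_mul_assoc, smul_add]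
    abel
  have e2 : h * (N * M + M * N) = α • h := by
    rw [hh]
    have : (N + M + N * M) * (N * M + M * N) = (N * N) * M + N * M * N + M * N * M + (M * M) * N +
        (N * M * N) * M + N * (M * M) * N := by noncomm_ring
    rw [this, hN, hM, h1, h2]
    simp only [zero_mul, mul_zero, add_zero, zero_add, smul_mul_assoc, smul_add]
  have e3 : h * h * h = α • (h * h) + α • h := by
    rw [mul_assoc, e1, mul_add, e2, mul_smul_comm, e1]
  have hg : (1 + N) * (1 + M) = 1 + h := by rw [hh]; noncomm_ring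
  have h3 : (3 : A) = 0 := by
    have := congrArg (algebraMap F A) (char3 hF)
    rwa [map_ofNat, map_zero] at this
  have h3' : ∀ x : A, x + x + x = 0 := by
    intro x
    have : (3 : A) * x = x + x + x := by noncomm_ring
    rw [← this, h3, zero_mul]
  rw [hg]
  clear hg e1 e2
  clear_value h
  rcases f3_cases hF α with rfl | rfl | rfl
  · rw [zero_smul, zero_smul, add_zero] at e3
    have : (1 + h) ^ 3 = 1 := by
      have : (1 + h) ^ 3 = 1 + (h + h + h) + (h * h + h * h + h * h) + h * h * h := by noncomm_ring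
      rw [this, h3', h3', e3]; simp
    rw [show (12 : ℕ) = 3 * 4 by norm_num, pow_mul, this, one_pow]
  · rw [one_smul, one_smul] at e3
    have : (1 + h) ^ 4 = 1 := by
      have : (1 + h) ^ 4 = 1 + (h + h + h) + h + (h * h + h * h + h * h) + (h * h + h * h + h * h) +
        (h * h * h + h * h * h + h * h * h) + h * h * h + h * (h * h * h) := by noncomm_ring
      rw [this, h3', h3', h3', e3, mul_add, ← mul_assoc, e3]
      calc (1 : A) + 0 + h + 0 + 0 + 0 + (h * h + h) + (h * h + h + h * h) =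
          1 + (h + h + h) + (h * h + h * h + h * h) := by abel
        _ = 1 := by rw [h3', h3']; simp
    rw [show (12 : ℕ) = 4 * 3 by norm_num, pow_mul, this, one_pow]
  · rw [neg_smul, neg_smul, one_smul, one_smul] at e3
    have e4 : h * (h * h * h) = h := by
      rw [e3, mul_add, mul_neg, mul_neg, ← mul_assoc, e3]; abel
    have : (1 + h) ^ 6 = 1 := by
      have h5 : (1 + h) ^ 3 = 1 + (h + h + h) + (h * h + h * h + h * h) + h * h * h := by noncomm_ring
      rw [h3', h3'] at h5
      simp only [add_zero] at h5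
      rw [show (6 : ℕ) = 3 * 2 by norm_num, pow_mul, h5]
      have : (1 + h * h * h) ^ 2 = 1 + (h * h * h + h * h * h) + h * h * (h * (h * h * h)) := by noncomm_ring
      rw [this, e4]
      calc (1 : A) + (h * h * h + h * h * h) + h * h * h = 1 + (h * h * h + h * h * h + h * h * h) := by abel
        _ = 1 := by rw [h3', add_zero]
    rw [show (12 : ℕ) = 6 * 2 by norm_num, pow_mul, this, one_pow]

/-- rank one decomposition -/
theorem exists_vecMulVec (N : Matrix n n F)
    (h : Module.finrank F (LinearMap.range (Matrix.toLin' N)) ≤ 1) :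
    ∃ a b : n → F, N = vecMulVec a b := by
  obtain ⟨v, hv⟩ := finrank_le_one_iff.mp h
  choose c hc using fun j : n => hv ⟨Matrix.toLin' N (Pi.single j 1), LinearMap.mem_range_self _ _⟩
  refine ⟨v, c, ?_⟩
  ext i j
  have := congrArg (fun w : LinearMap.range (Matrix.toLin' N) => (w : n → F) i) (hc j)
  simp at this
  rw [vecMulVec_apply, ← this, mul_comm]

theorem prod_pow_twelve [Fintype F] (hF : Fintype.card F = 3) (N M : Matrix n n F)
    (hN : N * N = 0) (hM : M * M = 0)
    (h1 : Module.finrank F (LinearMap.range (Matrix.toLin' N)) ≤ 1)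
    (h2 : Module.finrank F (LinearMap.range (Matrix.toLin' M)) ≤ 1) :
    ((1 + N) * (1 + M)) ^ 12 = 1 := by
  obtain ⟨a, b, rfl⟩ := exists_vecMulVec N h1
  obtain ⟨c, d, rfl⟩ := exists_vecMulVec M h2
  apply pow_twelve hF _ _ ((b ⬝ᵥ c) * (d ⬝ᵥ a)) hN hM
  · simp only [vecMulVec_mul_vecMulVec, smul_mul_assoc, vecMulVec_smul, smul_smul]
  · simp only [vecMulVec_mul_vecMulVec, smul_mul_assoc, vecMulVec_smul, smul_smul]
    rw [mul_comm]

end alg

section symp
variable {F : Type*} [Field F] {l : Type*} [Fintype l] [DecidableEq l]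

/-- the symplectic form -/
def bf (v w : l ⊕ l → F) : F := v ⬝ᵥ (Matrix.J l F).mulVec w

theorem bf_add_left (v v' w : l ⊕ l → F) : bf (v + v') w = bf v w + bf v' w := by
  simp [bf, add_dotProduct]
theorem bf_add_right (v w w' : l ⊕ l → F) : bf v (w + w') = bf v w + bf v w' := by
  simp [bf, mulVec_add, dotProduct_add]
theorem bf_smul_left (c : F) (v w : l ⊕ l → F) : bf (c • v) w = c * bf v w := by
  simp [bf, smul_dotProduct]
theorem bf_zero_left (w : l ⊕ l → F) : bf 0 w = 0 := by simp [bf]
theorem bf_zero_right (w : l ⊕ l → F) : bf w 0 = 0 := by simp [bf]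

theorem bf_swap (v w : l ⊕ l → F) : bf v w = - bf w v := by
  have : (Matrix.J l F).mulVec w = -(vecMul w (Matrix.J l F)) := by
    rw [← Matrix.mulVec_transpose, J_transpose, neg_mulVec, neg_neg]
  rw [bf, bf, this, dotProduct_neg, dotProduct_comm, ← dotProduct_mulVec]

theorem bf_nondeg {v : l ⊕ l → F} (h : ∀ w, bf v w = 0) : v = 0 := by
  have h1 : vecMul v (Matrix.J l F) = 0 := by
    apply dotProduct_eq_zero
    intro w
    rw [← dotProduct_mulVec]
    exact h w
  have h2 := congrArg (fun x => vecMul x (Matrix.J l F)) h1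
  simp only [vecMul_vecMul, J_squared, zero_vecMul, vecMul_neg, vecMul_one] at h2
  exact neg_eq_zero.mp h2

theorem bf_symp {u : Matrix (l ⊕ l) (l ⊕ l) F} (hu : u ∈ symplecticGroup l F) (v w : l ⊕ l → F) :
    bf (u.mulVec v) (u.mulVec w) = bf v w := by
  rw [SymplecticGroup.mem_iff'] at hu
  rw [bf, bf, mulVec_mulVec, ← vecMul_transpose, ← dotProduct_mulVec, mulVec_mulVec, ← Matrix.mul_assoc, hu]

variable {u : Matrix (l ⊕ l) (l ⊕ l) F}

/-- `(*)` -/
theorem bf_star (hu : u ∈ symplecticGroup l F) (v w : l ⊕ l → F) :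
    bf ((u - 1).mulVec v) w + bf v ((u - 1).mulVec w) + bf ((u - 1).mulVec v) ((u - 1).mulVec w) = 0 := by
  have h := bf_symp hu v w
  have hv : u.mulVec v = (u - 1).mulVec v + v := by rw [sub_mulVec, one_mulVec]; abel
  have hw : u.mulVec w = (u - 1).mulVec w + w := by rw [sub_mulVec, one_mulVec]; abel
  rw [hv, hw, bf_add_left, bf_add_right, bf_add_right] at h
  linear_combination h

theorem sq_zero_of_cube_zero (h2 : (2 : F) ≠ 0) (hl : Fintype.card (l ⊕ l) < 6)
    (hu : u ∈ symplecticGroup l F) (h3 : (u - 1) * (u - 1) * (u - 1) = 0) : (u - 1) * (u - 1) = 0 := by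
  by_contra hne
  set N := u - 1 with hN
  have hs := bf_star hu
  rw [← hN] at hs
  have n3 : ∀ v : l ⊕ l → F, N.mulVec (N.mulVec (N.mulVec v)) = 0 := by
    intro v
    rw [mulVec_mulVec, mulVec_mulVec, h3, zero_mulVec]
  have c1 : ∀ v w, bf (N.mulVec v) (N.mulVec (N.mulVec w)) = 0 := by
    intro v w
    have := hs v (N.mulVec (N.mulVec w))
    rw [n3, bf_zero_right, bf_zero_right] at this
    linear_combination this
  have c2 : ∀ v w, bf (N.mulVec (N.mulVec v)) w = bf v (N.mulVec (N.mulVec w)) := by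
    intro v w
    have e1 := hs (N.mulVec v) w
    have e2 := hs v (N.mulVec w)
    have e3 := hs (N.mulVec v) (N.mulVec w)
    have e4 := c1 v w
    have e5 := c1 (N.mulVec v) w
    linear_combination e1 - e2 - e3 + 2 * e4 + e5
  have c3 : ∀ v, bf (N.mulVec (N.mulVec v)) v = 0 := by
    intro v
    have e1 := c2 v v
    rw [bf_swap v] at e1
    have : 2 * bf (N.mulVec (N.mulVec v)) v = 0 := by linear_combination e1
    exact (mul_eq_zero.mp this).resolve_left h2
  -- choose v, w
  obtain ⟨v, w, hvw⟩ : ∃ v w, bf (N.mulVec (N.mulVec v)) w ≠ 0 := by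
    by_contra hcon
    push Not at hcon
    apply hne
    have : ∀ v, (N * N).mulVec v = 0 := by
      intro v
      rw [← mulVec_mulVec]
      exact bf_nondeg (hcon v)
    exact Matrix.ext_of_mulVec_single (fun i => by rw [this, zero_mulVec])
  have hwv : bf (N.mulVec (N.mulVec w)) v ≠ 0 := by
    rw [c2 w v, bf_swap]
    exact neg_ne_zero.mpr hvw
  -- independence
  have key : ∀ a b : F, a • N.mulVec (N.mulVec v) + b • N.mulVec (N.mulVec w) = 0 → a = 0 ∧ b = 0 := by
    intro a b h
    have e1 := congrArg (fun x => bf x w) h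
    have e2 := congrArg (fun x => bf x v) h
    simp only [bf_add_left, bf_smul_left, bf_zero_left, c3, mul_zero, add_zero, zero_add] at e1 e2
    exact ⟨(mul_eq_zero.mp e1).resolve_right hvw, (mul_eq_zero.mp e2).resolve_right hwv⟩
  let f : Fin 6 → (l ⊕ l → F) := ![v, N.mulVec v, N.mulVec (N.mulVec v), w, N.mulVec w, N.mulVec (N.mulVec w)]
  have hli : LinearIndependent F f := by
    rw [Fintype.linearIndependent_iff]
    intro g hg
    simp only [Fin.sum_univ_six, f] at hg
    simp only [Fin.isValue, cons_val_zero, cons_val_one, cons_val] at hg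
    have g1 := congrArg (fun x => N.mulVec (N.mulVec x)) hg
    simp only [mulVec_add, mulVec_smul, n3, mulVec_zero, smul_zero, add_zero] at g1
    obtain ⟨h0, h3'⟩ := key _ _ g1
    have g2 := congrArg (fun x => N.mulVec x) hg
    simp only [mulVec_add, mulVec_smul, n3, mulVec_zero, smul_zero, add_zero, h0, h3', zero_smul, zero_add] at g2
    obtain ⟨h1, h4⟩ := key _ _ g2
    simp only [h0, h1, h3', h4, zero_smul, zero_add, add_zero] at hg
    obtain ⟨h2', h5⟩ := key _ _ hg
    intro i
    fin_cases i <;> assumption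
  have := hli.fintype_card_le_finrank
  rw [Module.finrank_fintype_fun_eq_card, Fintype.card_fin] at this
  omega

end symp

section sl
open Cfsg.Agent.H41 Cfsg.Agent.H53
variable {K : Type*} [Field K]

theorem char5 [Fintype K] (hK : Fintype.card K = 5) : (5 : K) = 0 := by
  have h := FiniteField.cast_card_eq_zero K
  rw [hK] at h
  exact_mod_cast h

theorem tr_of_order_three (h5 : (5 : K) = 0) {x : Matrix.SpecialLinearGroup (Fin 2) K}
    (h3 : x * x * x = 1) (hx : x ≠ 1) : tr x = -1 := by
  have h2 : (2 : K) ≠ 0 := by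
    intro h
    have : (1 : K) = 0 := by linear_combination h5 - 2 * h
    exact one_ne_zero this
  have hd := det_eq x
  have h00 := congrArg (fun B : Matrix.SpecialLinearGroup (Fin 2) K => B 0 0) h3
  have h01 := congrArg (fun B : Matrix.SpecialLinearGroup (Fin 2) K => B 0 1) h3
  have h10 := congrArg (fun B : Matrix.SpecialLinearGroup (Fin 2) K => B 1 0) h3
  have h11 := congrArg (fun B : Matrix.SpecialLinearGroup (Fin 2) K => B 1 1) h3
  simp only [mul_00, mul_01, mul_10, mul_11, one_00, one_01, one_10, one_11] at h00 h01 h10 h11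
  set a := x 0 0 with ha
  set b := x 0 1 with hb
  set c := x 1 0 with hc
  set d := x 1 1 with hd'
  have e01 : ((a + d) ^ 2 - 1) * b = 0 := by linear_combination h01 + b * hd
  have e10 : ((a + d) ^ 2 - 1) * c = 0 := by linear_combination h10 + c * hd
  have e00 : ((a + d) ^ 2 - 1) * a = 1 + (a + d) := by linear_combination h00 + (2 * a + d) * hd
  have e11 : ((a + d) ^ 2 - 1) * d = 1 + (a + d) := by linear_combination h11 + (2 * d + a) * hd
  by_cases ht : (a + d) ^ 2 - 1 = 0
  · rw [ht, zero_mul] at e00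
    show a + d = -1
    linear_combination -e00
  · exfalso
    have hb0 := (mul_eq_zero.mp e01).resolve_left ht
    have hc0 := (mul_eq_zero.mp e10).resolve_left ht
    have had : a = d := mul_left_cancel₀ ht (e00.trans e11.symm)
    rcases pm_one_of_diag hb0 hc0 had with h | h
    · exact hx h
    · rw [h] at h3
      have : (-1 : Matrix.SpecialLinearGroup (Fin 2) K) * -1 * -1 = -1 := by simp
      rw [this] at h3
      exact neg_one_ne_one h2 h3

theorem fib_ne (h5 : (5 : K) = 0) (M : Matrix.SpecialLinearGroup (Fin 2) K) (hM : M = mk4 1 1 1 2 (by norm_num)) :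
    M ^ 12 ≠ 1 := by
  intro h
  have e2 : M * M = mk4 2 3 3 5 (by norm_num) := by
    rw [hM]
    apply sl2_ext <;> simp only [mul_00, mul_01, mul_10, mul_11, mk4_00, mk4_01, mk4_10, mk4_11] <;> norm_num
  have e4 : (M * M) * (M * M) = mk4 13 21 21 34 (by norm_num) := by
    rw [e2]
    apply sl2_ext <;> simp only [mul_00, mul_01, mul_10, mul_11, mk4_00, mk4_01, mk4_10, mk4_11] <;> norm_num
  have e8 : ((M * M) * (M * M)) * ((M * M) * (M * M)) = mk4 610 987 987 1597 (by norm_num) := by
    rw [e4]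
    apply sl2_ext <;> simp only [mul_00, mul_01, mul_10, mul_11, mk4_00, mk4_01, mk4_10, mk4_11] <;> norm_num
  have e12 : M ^ 12 = (((M * M) * (M * M)) * ((M * M) * (M * M))) * ((M * M) * (M * M)) := by
    simp only [pow_succ, pow_zero, one_mul, mul_assoc]
  rw [e12, e8, e4] at h
  have := congrArg (fun B : Matrix.SpecialLinearGroup (Fin 2) K => B 0 1) h
  simp only [mul_01, mk4_00, mk4_01, mk4_11, one_01] at this
  have h1 : (1 : K) = 0 := by linear_combination 2 * this - (2 * 9273 + 1) * h5
  exact one_ne_zero h1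

theorem exists_good [Fintype K] (hK : Fintype.card K = 5) (x : Matrix.SpecialLinearGroup (Fin 2) K)
    (h3 : x * x * x = 1) (hx : x ≠ 1) : ∃ g : Matrix.SpecialLinearGroup (Fin 2) K,
      (x * (g * x * g⁻¹)) ^ 12 ≠ 1 := by
  have h5 := char5 hK
  have ht := tr_of_order_three h5 h3 hx
  have h4 : (-1 : K) ^ 2 ≠ 4 := by
    intro h
    have : (1 : K) = 0 := by linear_combination -2 * h - h5
    exact one_ne_zero this
  obtain ⟨P, hP⟩ := exists_conj_of_tr_eq (mk4 0 (-1) 1 (-1) (by norm_num)) x
    (by simp only [tr, mk4_00, mk4_11, zero_add]; exact h4) (by rw [ht]; simp [tr])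
  obtain ⟨Q, hQ⟩ := exists_conj_of_tr_eq (mk4 0 (-1) 1 (-1) (by norm_num)) (mk4 0 1 (-1) (-1) (by norm_num) : Matrix.SpecialLinearGroup (Fin 2) K)
    (by simp only [tr, mk4_00, mk4_11, zero_add]; exact h4) (by simp [tr])
  refine ⟨P * Q * P⁻¹, ?_⟩
  intro h
  set x0 : Matrix.SpecialLinearGroup (Fin 2) K := mk4 0 (-1) 1 (-1) (by norm_num) with hx0
  have e1 : x * (P * Q * P⁻¹ * x * (P * Q * P⁻¹)⁻¹) = P * (x0 * (Q * x0 * Q⁻¹)) * P⁻¹ := by
    rw [hP]; group
  rw [e1, ← hQ, conj_pow] at h
  have h' : (x0 * mk4 0 1 (-1) (-1) (by norm_num)) ^ 12 = 1 := by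
    have := congrArg (fun z => P⁻¹ * z * P) h
    simpa [mul_assoc] using this
  refine fib_ne h5 _ ?_ h'
  rw [hx0]
  apply sl2_ext <;> simp only [mul_00, mul_01, mul_10, mul_11, mk4_00, mk4_01, mk4_10, mk4_11] <;> norm_num

end sl

theorem finrank_range_conj_le {F : Type*} [Field F] {n : Type*} [Fintype n] [DecidableEq n]
    (A N B : Matrix n n F) (h : Module.finrank F (LinearMap.range (Matrix.toLin' N)) ≤ 1) :
    Module.finrank F (LinearMap.range (Matrix.toLin' (A * N * B))) ≤ 1 := by
  rw [toLin'_mul, toLin'_mul]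
  refine le_trans ?_ h
  rw [LinearMap.range_comp]
  calc Module.finrank F (Submodule.map (toLin' A ∘ₗ toLin' N) (LinearMap.range (toLin' B))) ≤
      Module.finrank F (LinearMap.range (toLin' A ∘ₗ toLin' N)) := by
        apply Submodule.finrank_mono
        exact LinearMap.map_le_range
    _ ≤ _ := by
        rw [LinearMap.range_comp]
        exact Submodule.finrank_map_le _ _

theorem main {F : Type*} [Field F] [Fintype F] (hF : Fintype.card F = 3)
    {K : Type*} [Field K] [Fintype K] (hK : Fintype.card K = 5)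
    (φ : Matrix.SpecialLinearGroup (Fin 2) K →* ↥(Matrix.symplecticGroup (Fin 2) F)) (hφ : Function.Injective φ)
    (x : Matrix.SpecialLinearGroup (Fin 2) K) (hx : orderOf x = 3) (u : Matrix (Fin 2 ⊕ Fin 2) (Fin 2 ⊕ Fin 2) F)
    (hu : u = (φ x : Matrix (Fin 2 ⊕ Fin 2) (Fin 2 ⊕ Fin 2) F)) :
    Module.finrank F ↥(LinearMap.ker (Matrix.toLin' u - LinearMap.id)) = 2 ∧
      ∀ v w : Fin 2 ⊕ Fin 2 → F, u.mulVec v = v → u.mulVec w = w → bf v w = 0 := by
  have h3F := char3 hF
  have h2F : (2 : F) ≠ 0 := by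
    intro h
    have : (1 : F) = 0 := by linear_combination h3F - h
    exact one_ne_zero this
  have hx3 : x * x * x = 1 := by
    have := pow_orderOf_eq_one x
    rw [hx] at this
    rw [← this]; simp only [pow_succ, pow_zero, one_mul]
  have hx1 : x ≠ 1 := by rintro rfl; rw [orderOf_one] at hx; omega
  have husp : u ∈ symplecticGroup (Fin 2) F := by rw [hu]; exact (φ x).2
  have cube : ∀ y : Matrix.SpecialLinearGroup (Fin 2) K, y * y * y = 1 →
      ((φ y : Matrix (Fin 2 ⊕ Fin 2) (Fin 2 ⊕ Fin 2) F) - 1) * ((φ y : Matrix _ _ F) - 1) *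
        ((φ y : Matrix _ _ F) - 1) = 0 := by
    intro y hy
    have h1 : (φ y : Matrix (Fin 2 ⊕ Fin 2) (Fin 2 ⊕ Fin 2) F) * (φ y : Matrix _ _ F) * (φ y : Matrix _ _ F) = 1 := by
      have := congrArg (fun z => ((φ z : ↥(Matrix.symplecticGroup (Fin 2) F)) : Matrix (Fin 2 ⊕ Fin 2) (Fin 2 ⊕ Fin 2) F)) hy
      simpa using this
    set U := (φ y : Matrix (Fin 2 ⊕ Fin 2) (Fin 2 ⊕ Fin 2) F)
    have h3' : ∀ X : Matrix (Fin 2 ⊕ Fin 2) (Fin 2 ⊕ Fin 2) F, X + X + X = 0 := by
      intro X
      have : X + X + X = (3 : F) • X := by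
        rw [show (3 : F) = 1 + 1 + 1 by norm_num, add_smul, add_smul, one_smul]
      rw [this, h3F, zero_smul]
    have : (U - 1) * (U - 1) * (U - 1) = U * U * U - (U * U + U * U + U * U) + (U + U + U) - 1 := by
      noncomm_ring
    rw [this, h3', h3', h1]; simp
  have sq : ∀ y : Matrix.SpecialLinearGroup (Fin 2) K, y * y * y = 1 →
      ((φ y : Matrix (Fin 2 ⊕ Fin 2) (Fin 2 ⊕ Fin 2) F) - 1) * ((φ y : Matrix _ _ F) - 1) = 0 :=
    fun y hy => sq_zero_of_cube_zero h2F (by simp) (φ y).2 (cube y hy)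
  have hNN := sq x hx3
  rw [← hu] at hNN
  set N := u - 1 with hN
  have hlin : Matrix.toLin' u - LinearMap.id = Matrix.toLin' N := by
    rw [hN, map_sub, toLin'_one]
  -- range ≤ ker
  have hrk : LinearMap.range (Matrix.toLin' N) ≤ LinearMap.ker (Matrix.toLin' N) := by
    rintro _ ⟨v, rfl⟩
    rw [LinearMap.mem_ker, toLin'_apply, toLin'_apply, mulVec_mulVec, hNN, zero_mulVec]
  have hrn := LinearMap.finrank_range_add_finrank_ker (Matrix.toLin' N)
  rw [Module.finrank_fintype_fun_eq_card, Fintype.card_sum, Fintype.card_fin] at hrn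
  have hle := Submodule.finrank_mono hrk
  -- range not of dimension ≤ 1
  have hnot : ¬ Module.finrank F (LinearMap.range (Matrix.toLin' N)) ≤ 1 := by
    intro h1
    obtain ⟨g, hg⟩ := exists_good hK x hx3 hx1
    apply hg
    apply hφ
    have hy3 : (g * x * g⁻¹) * (g * x * g⁻¹) * (g * x * g⁻¹) = 1 := by
      calc (g * x * g⁻¹) * (g * x * g⁻¹) * (g * x * g⁻¹) = g * (x * x * x) * g⁻¹ := by group
        _ = 1 := by rw [hx3]; group
    have hMM := sq _ hy3
    set G : Matrix (Fin 2 ⊕ Fin 2) (Fin 2 ⊕ Fin 2) F := (φ g : ↥(Matrix.symplecticGroup (Fin 2) F)).1 with hG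
    set G' : Matrix (Fin 2 ⊕ Fin 2) (Fin 2 ⊕ Fin 2) F := (φ g⁻¹ : ↥(Matrix.symplecticGroup (Fin 2) F)).1 with hG'
    have hGG' : G * G' = 1 := by
      rw [hG, hG', ← Submonoid.coe_mul, ← map_mul, mul_inv_cancel, map_one]; rfl
    have hM : (φ (g * x * g⁻¹) : Matrix (Fin 2 ⊕ Fin 2) (Fin 2 ⊕ Fin 2) F) - 1 = G * N * G' := by
      rw [map_mul, map_mul, Submonoid.coe_mul, Submonoid.coe_mul, hN, mul_sub, sub_mul, mul_one, hGG', ← hu]
    have hrM : Module.finrank F (LinearMap.range (Matrix.toLin'
        ((φ (g * x * g⁻¹) : Matrix (Fin 2 ⊕ Fin 2) (Fin 2 ⊕ Fin 2) F) - 1))) ≤ 1 := by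
      rw [hM]; exact finrank_range_conj_le _ _ _ h1
    have h12 := prod_pow_twelve hF N _ hNN hMM h1 hrM
    rw [hN, add_sub_cancel, add_sub_cancel] at h12
    apply Subtype.ext
    rw [map_pow, map_mul, SubmonoidClass.coe_pow, Submonoid.coe_mul, ← hu, h12, map_one]
    rfl
  have hr2 : Module.finrank F (LinearMap.range (Matrix.toLin' N)) = 2 := by omega
  have hk2 : Module.finrank F (LinearMap.ker (Matrix.toLin' N)) = 2 := by omega
  rw [hlin]
  refine ⟨hk2, ?_⟩
  have heq : LinearMap.range (Matrix.toLin' N) = LinearMap.ker (Matrix.toLin' N) :=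
    Submodule.eq_of_le_of_finrank_eq hrk (by rw [hr2, hk2])
  intro v w hv hw
  have hv' : N.mulVec v = 0 := by rw [hN, sub_mulVec, one_mulVec, hv, sub_self]
  have hw' : N.mulVec w = 0 := by rw [hN, sub_mulVec, one_mulVec, hw, sub_self]
  have hvr : v ∈ LinearMap.range (Matrix.toLin' N) := by
    rw [heq, LinearMap.mem_ker, toLin'_apply]; exact hv'
  obtain ⟨t, rfl⟩ := hvr
  rw [toLin'_apply]
  have := bf_star husp t w
  rw [← hN, hw', bf_zero_right, bf_zero_right] at this
  linear_combination this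


/-- Let F be the field with 3 elements and K the field with 5 elements. For every injective homomorphism φ from SL₂(K) into the symplectic group Sp₄(F) (4 × 4 matrices g with g J gᵀ = J for the standard alternating matrix J) and every element x of order 3 of SL₂(K), the vectors of F⁴ fixed by φ(x) form a 2-dimensional subspace that is totally isotropic for the alternating form defined by J. -/
theorem result {F : Type*} [Field F] [Fintype F] (hF : Fintype.card F = 3)
    {K : Type*} [Field K] [Fintype K] (hK : Fintype.card K = 5)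
    (φ : Matrix.SpecialLinearGroup (Fin 2) K →* ↥(Matrix.symplecticGroup (Fin 2) F)) (hφ : Function.Injective φ)
    (x : Matrix.SpecialLinearGroup (Fin 2) K) (hx : orderOf x = 3) :
    Module.finrank F ↥(LinearMap.ker (Matrix.toLin' ((φ x : Matrix (Fin 2 ⊕ Fin 2) (Fin 2 ⊕ Fin 2) F)) - LinearMap.id)) = 2 ∧
      ∀ v w : Fin 2 ⊕ Fin 2 → F, (φ x : Matrix (Fin 2 ⊕ Fin 2) (Fin 2 ⊕ Fin 2) F).mulVec v = v →
        (φ x : Matrix (Fin 2 ⊕ Fin 2) (Fin 2 ⊕ Fin 2) F).mulVec w = w →
          dotProduct v ((Matrix.J (Fin 2) F).mulVec w) = 0 := by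
  exact main hF hK φ hφ x hx _ rfl

end Cfsg.Agent.S3213
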