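import Cfsg.Statements.S3215
import Cfsg.Agent.Transfer.NPC
import Cfsg.Agent.Cop.Basic
import Cfsg.Agent.ZJ.SolvFact
import Cfsg.Agent.H76.PSolvable
import Cfsg.Agent.Solv.MinNormal
import Cfsg.Agent.Supersolvable.Structure
import Cfsg.Agent.Supersolvable.Hereditary
import Cfsg.Agent.H73.Syl21c
import Cfsg.Agent.FC.Struct1
import Cfsg.Agent.Frob.Complement

set_option autoImplicit false
open Cfsg

namespace Cfsg.Agent.S3215

open Subgroup
open scoped commutatorElement

section

variable {G : Type*} [Group G] [Finite G]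

theorem exists_involution_pow {y : G} {n : ℕ} (hy : orderOf y = 2 ^ n) (hy1 : y ≠ 1) :
    ∃ k : ℕ, orderOf (y ^ k) = 2 := by
  have hn : n ≠ 0 := by
    rintro rfl
    exact hy1 (orderOf_eq_one_iff.1 (by simpa using hy))
  obtain ⟨m, rfl⟩ := Nat.exists_eq_succ_of_ne_zero hn
  refine ⟨2 ^ m, ?_⟩
  rw [orderOf_pow_of_dvd (by positivity) (by rw [hy]; exact Dvd.intro _ (pow_succ 2 m).symm), hy,
    pow_succ, Nat.mul_div_cancel_left _ (by positivity)]

/-- in the centralizer of an involution, an odd element normalising a 2-group centralises it -/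
theorem cent_of_npc (hI : ∀ t : G, orderOf t = 2 →
      Cfsg.HasNormalPComplement 2 ↥(Subgroup.centralizer ({t} : Set G)))
    {t x : G} (ht : orderOf t = 2) (hx : (orderOf x).Coprime 2) (hxt : x * t = t * x)
    {Q : Subgroup G} (hQ : IsPGroup 2 Q) (hQt : Q ≤ Subgroup.centralizer ({t} : Set G))
    (hxQ : x ∈ Subgroup.normalizer (Q : Set G)) : x ∈ Subgroup.centralizer (Q : Set G) := by
  have hxC : x ∈ Subgroup.centralizer ({t} : Set G) := by
    rw [Subgroup.mem_centralizer_singleton_iff]; exact hxt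
  have h1 := Transfer.HasNPC.mem_centralizer (hI t ht) (Q := Q.subgroupOf _)
    (g := (⟨x, hxC⟩ : ↥(Subgroup.centralizer ({t} : Set G))))
    (by
      have : IsPGroup 2 Q := hQ
      exact this.comap_subtype) (by
      rw [Subgroup.mem_normalizer_iff] at hxQ ⊢
      intro h
      exact hxQ h) (by rwa [Subgroup.orderOf_mk])
  rw [Subgroup.mem_centralizer_iff] at h1 ⊢
  intro q hq
  exact congrArg Subtype.val (h1 ⟨q, hQt hq⟩ hq)

theorem L1 (hsol : Group.IsSolvable G) (hO : Cfsg.pPrimeCore 2 G = ⊥)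
    (hI : ∀ t : G, orderOf t = 2 → Cfsg.HasNormalPComplement 2 ↥(Subgroup.centralizer ({t} : Set G)))
    {x y : G} (hx : (orderOf x).Coprime 2) (hx1 : x ≠ 1) (hy : y ∈ Cfsg.pCore 2 G) (hy1 : y ≠ 1) :
    x * y ≠ y * x := by
  intro hxy
  set Y := Cfsg.pCore 2 G with hY
  have hYp : IsPGroup 2 Y := Solv.pCore_isPGroup 2
  obtain ⟨n, hn⟩ := IsPGroup.iff_orderOf.1 hYp ⟨y, hy⟩
  rw [Subgroup.orderOf_mk] at hn
  obtain ⟨k, hk⟩ := exists_involution_pow hn hy1
  set t := y ^ k with ht
  have htY : t ∈ Y := pow_mem hy k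
  have hxt : x * t = t * x := (Commute.pow_right hxy k).eq
  have hYn : Y.Normal := inferInstance
  have hYnorm : ∀ g : G, g ∈ Subgroup.normalizer (Y : Set G) := fun g => by
    rw [Subgroup.normalizer_eq_top]; trivial
  -- x centralizes C_Y(t)
  have h1 : x ∈ Subgroup.centralizer ((Y ⊓ Subgroup.centralizer ({t} : Set G) : Subgroup G) : Set G) := by
    refine cent_of_npc hI hk hx hxt (hYp.to_le inf_le_left) inf_le_right ?_
    have hxC : x ∈ Subgroup.centralizer ({t} : Set G) := by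
      rw [Subgroup.mem_centralizer_singleton_iff]; exact hxt
    rw [Subgroup.mem_normalizer_iff]
    intro h
    constructor
    · rintro ⟨h2, h3⟩
      exact ⟨hYn.conj_mem _ h2 _, Subgroup.mul_mem _ (Subgroup.mul_mem _ hxC h3) (Subgroup.inv_mem _ hxC)⟩
    · rintro ⟨h2, h3⟩
      have h4 : x⁻¹ * (x * h * x⁻¹) * x⁻¹⁻¹ = h := by group
      rw [← h4]
      exact ⟨hYn.conj_mem _ h2 _, Subgroup.mul_mem _ (Subgroup.mul_mem _ (Subgroup.inv_mem _ hxC) h3) (Subgroup.inv_mem _ (Subgroup.inv_mem _ hxC))⟩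
  have h2 : Subgroup.zpowers x ≤ Subgroup.centralizer (Y : Set G) := by
    refine Cop.le_centralizer_of_AxB 2 (P := Subgroup.zpowers t) (Q := Subgroup.zpowers x) (U := Y)
      (hYp.to_le (by rwa [Subgroup.zpowers_le])) (by rwa [Nat.card_zpowers]) hYp ?_
      (fun g _ => hYnorm g) (fun g _ => hYnorm g) ?_
    · rw [Subgroup.zpowers_le, Subgroup.mem_centralizer_iff]
      intro z hz
      obtain ⟨m, rfl⟩ := Subgroup.mem_zpowers_iff.1 hz
      exact (Commute.zpow_left hxt m).eq
    · rw [Subgroup.le_centralizer_iff, Subgroup.zpowers_le]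
      refine Subgroup.centralizer_le ?_ h1
      intro z hz
      refine ⟨hz.1, ?_⟩
      have := (Subgroup.mem_centralizer_iff.1 hz.2) t (Subgroup.mem_zpowers t)
      exact Subgroup.mem_centralizer_singleton_iff.2 this.symm
  have h3 : x ∈ Y := H76.centralizer_pCore_le (ZJ.isPSolvable_of_isSolvable 2 hsol) hO
    (h2 (Subgroup.mem_zpowers x))
  obtain ⟨m, hm⟩ := IsPGroup.iff_orderOf.1 hYp ⟨x, h3⟩
  rw [Subgroup.orderOf_mk] at hm
  rw [hm] at hx
  apply hx1
  rw [← orderOf_eq_one_iff, hm]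
  rcases Nat.eq_zero_or_pos m with rfl | hm0
  · rfl
  · exfalso
    have := Nat.Coprime.coprime_dvd_left (dvd_pow_self 2 hm0.ne') hx
    norm_num at this

theorem L2 (hsol : Group.IsSolvable G) (hO : Cfsg.pPrimeCore 2 G = ⊥)
    (hI : ∀ t : G, orderOf t = 2 → Cfsg.HasNormalPComplement 2 ↥(Subgroup.centralizer ({t} : Set G)))
    {x a : G} (hx : (orderOf x).Coprime 2) (hx1 : x ≠ 1) (ha : orderOf a = 2) :
    x * a ≠ a * x := by
  intro hxa
  set Y := Cfsg.pCore 2 G with hY
  have hYp : IsPGroup 2 Y := Solv.pCore_isPGroup 2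
  have hYn : Y.Normal := inferInstance
  have hYnorm : ∀ g : G, g ∈ Subgroup.normalizer (Y : Set G) := fun g => by
    rw [Subgroup.normalizer_eq_top]; trivial
  have hYbot : Y ≠ ⊥ := by
    intro h
    have h3 : x ∈ Y := H76.centralizer_pCore_le (ZJ.isPSolvable_of_isSolvable 2 hsol) hO (by
      rw [← hY, h]
      rw [Subgroup.mem_centralizer_iff]
      intro z hz
      rw [Subgroup.mem_bot.1 hz, one_mul, mul_one])
    rw [h] at h3
    exact hx1 (Subgroup.mem_bot.1 h3)
  have ha2 : IsPGroup 2 (Subgroup.zpowers a) := by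
    apply IsPGroup.of_card (n := 1)
    rw [Nat.card_zpowers, ha, pow_one]
  have h1 := Supersolvable.inf_centralizer_ne_bot (p := 2) (Subgroup.zpowers a) Y ha2 hYp
    (fun g _ => hYnorm g) hYbot
  obtain ⟨u, hu, hu1⟩ : ∃ u : G, u ∈ Y ⊓ Subgroup.centralizer ((Subgroup.zpowers a : Subgroup G) : Set G) ∧ u ≠ 1 := by
    by_contra hcon
    push Not at hcon
    exact h1 ((Subgroup.eq_bot_iff_forall _).2 hcon)
  -- x centralizes Y ⊓ C(a)
  have hxC : x ∈ Subgroup.centralizer ({a} : Set G) := by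
    rw [Subgroup.mem_centralizer_singleton_iff]; exact hxa
  have h2 : x ∈ Subgroup.centralizer ((Y ⊓ Subgroup.centralizer ({a} : Set G) : Subgroup G) : Set G) := by
    refine cent_of_npc hI ha hx hxa (hYp.to_le inf_le_left) inf_le_right ?_
    rw [Subgroup.mem_normalizer_iff]
    intro h
    constructor
    · rintro ⟨h2, h3⟩
      exact ⟨hYn.conj_mem _ h2 _, Subgroup.mul_mem _ (Subgroup.mul_mem _ hxC h3) (Subgroup.inv_mem _ hxC)⟩
    · rintro ⟨h2, h3⟩
      have h4 : x⁻¹ * (x * h * x⁻¹) * x⁻¹⁻¹ = h := by group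
      rw [← h4]
      exact ⟨hYn.conj_mem _ h2 _, Subgroup.mul_mem _ (Subgroup.mul_mem _ (Subgroup.inv_mem _ hxC) h3) (Subgroup.inv_mem _ (Subgroup.inv_mem _ hxC))⟩
  refine L1 hsol hO hI hx hx1 hu.1 hu1 ?_
  have h3 : u ∈ Subgroup.centralizer ({a} : Set G) := by
    have := (Subgroup.mem_centralizer_iff.1 hu.2) a (Subgroup.mem_zpowers a)
    exact Subgroup.mem_centralizer_singleton_iff.2 this.symm
  exact ((Subgroup.mem_centralizer_iff.1 h2) u ⟨hu.1, h3⟩).symm

/-- a 2-element commuting modulo `Y` with an odd element outside lies in `Y` -/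
theorem L3 (hsol : Group.IsSolvable G) (hO : Cfsg.pPrimeCore 2 G = ⊥)
    (hI : ∀ t : G, orderOf t = 2 → Cfsg.HasNormalPComplement 2 ↥(Subgroup.centralizer ({t} : Set G)))
    {x t : G} (hx : (orderOf x).Coprime 2) (hx1 : x ≠ 1) {n : ℕ} (ht : orderOf t = 2 ^ n)
    (hxt : x * t * x⁻¹ * t⁻¹ ∈ Cfsg.pCore 2 G) : t ∈ Cfsg.pCore 2 G := by
  set Y := Cfsg.pCore 2 G with hY
  have hYp : IsPGroup 2 Y := Solv.pCore_isPGroup 2
  have hYn : Y.Normal := inferInstance
  have hYnorm : ∀ g : G, g ∈ Subgroup.normalizer (Y : Set G) := fun g => by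
    rw [Subgroup.normalizer_eq_top]; trivial
  have ht2 : IsPGroup 2 (Subgroup.zpowers t) := IsPGroup.of_card (n := n) (by rw [Nat.card_zpowers, ht])
  have hK2 : IsPGroup 2 ↥(Y ⊔ Subgroup.zpowers t) := by
    exact hYp.to_sup_of_normal_left ht2
  have htK : t ∈ Y ⊔ Subgroup.zpowers t := Subgroup.mem_sup_right (Subgroup.mem_zpowers t)
  -- x normalizes K
  have hxt' : ∀ z ∈ Y ⊔ Subgroup.zpowers t, ∀ w : G, (w * t * w⁻¹ * t⁻¹ ∈ Y) →
      w * z * w⁻¹ ∈ Y ⊔ Subgroup.zpowers t := by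
    intro z hz w hw
    have h1 : (Y ⊔ Subgroup.zpowers t).map (MulAut.conj w).toMonoidHom ≤ Y ⊔ Subgroup.zpowers t := by
      rw [Subgroup.map_sup, sup_le_iff]
      constructor
      · rintro _ ⟨y, hy, rfl⟩
        exact Subgroup.mem_sup_left (hYn.conj_mem _ hy _)
      · rw [MonoidHom.map_zpowers, Subgroup.zpowers_le]
        have : (MulAut.conj w).toMonoidHom t = (w * t * w⁻¹ * t⁻¹) * t := by
          show w * t * w⁻¹ = _
          group
        rw [this]
        exact mul_mem (Subgroup.mem_sup_left hw) htK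
    exact h1 ⟨z, hz, rfl⟩
  have hxinv : x⁻¹ * t * x⁻¹⁻¹ * t⁻¹ ∈ Y := by
    have h1 : x⁻¹ * t * x⁻¹⁻¹ * t⁻¹ = (x⁻¹ * (x * t * x⁻¹ * t⁻¹)⁻¹ * x⁻¹⁻¹) := by group
    rw [h1]
    exact hYn.conj_mem _ (inv_mem hxt) _
  have hxK : x ∈ Subgroup.normalizer ((Y ⊔ Subgroup.zpowers t : Subgroup G) : Set G) := by
    rw [Subgroup.mem_normalizer_iff]
    intro z
    constructor
    · intro hz
      exact hxt' z hz x hxt
    · intro hz
      have h4 : x⁻¹ * (x * z * x⁻¹) * x⁻¹⁻¹ = z := by group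
      rw [← h4]
      exact hxt' _ hz _ hxinv
  have hcop : (Nat.card (Subgroup.zpowers x)).Coprime (Nat.card ↥(Y ⊔ Subgroup.zpowers t)) := by
    obtain ⟨m, hm⟩ := IsPGroup.iff_card.1 hK2
    rw [hm, Nat.card_zpowers]
    exact hx.pow_right m
  obtain ⟨c, hc, hc2⟩ := Cop.fixed_points_quotient (Subgroup.zpowers x) (Y ⊔ Subgroup.zpowers t)
    (by rwa [Subgroup.zpowers_le]) hcop (Or.inr (Cop.isSolvable_of_le le_top (by
      haveI := hsol
      infer_instance))) Y le_sup_left (fun g _ => hYnorm g) (fun g _ => hYnorm g) t htK (by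
      intro a ha
      obtain ⟨m, rfl⟩ := Subgroup.mem_zpowers_iff.1 ha
      -- commute modulo Y
      have h1 : Commute (QuotientGroup.mk' Y x) (QuotientGroup.mk' Y t) := by
        show _ = _
        rw [← map_mul, ← map_mul]
        have h2 := (QuotientGroup.eq_one_iff _).2 hxt
        have h3 : QuotientGroup.mk' Y (x * t * x⁻¹ * t⁻¹) = 1 := h2
        rw [map_mul, map_mul, map_inv, map_inv] at h3
        rw [mul_inv_eq_one, mul_inv_eq_iff_eq_mul, ← map_mul] at h3
        rw [h3, map_mul]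
      have h2 := h1.zpow_left m
      have h3 : QuotientGroup.mk' Y (x ^ m * t * (x ^ m)⁻¹ * t⁻¹) = 1 := by
        rw [map_mul, map_mul, map_mul, map_inv, map_inv, map_zpow, h2.eq]
        group
      exact (QuotientGroup.eq_one_iff _).1 h3)
  -- c is a 2-element commuting with x
  have hcx : x * c = c * x := by
    exact (Subgroup.mem_centralizer_iff.1 hc.2) x (Subgroup.mem_zpowers x)
  by_cases hc1 : c = 1
  · rw [hc1, mul_one] at hc2
    exact (Subgroup.inv_mem_iff _).1 hc2
  · exfalso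
    obtain ⟨m, hm⟩ := IsPGroup.iff_orderOf.1 hK2 ⟨c, hc.1⟩
    rw [Subgroup.orderOf_mk] at hm
    obtain ⟨k, hk⟩ := exists_involution_pow hm hc1
    exact L2 hsol hO hI hx hx1 hk (Commute.pow_right hcx k).eq

theorem odd_subgroup_of_no_involution {K : Subgroup G} (h : ∀ t ∈ K, orderOf t ≠ 2) : (Nat.card K).Coprime 2 := by
  rw [Nat.coprime_two_right]
  by_contra hcon
  rw [Nat.not_odd_iff_even, even_iff_two_dvd] at hcon
  haveI : Fact (Nat.Prime 2) := ⟨Nat.prime_two⟩
  obtain ⟨t, ht⟩ := exists_prime_orderOf_dvd_card' 2 hcon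
  exact h t t.2 (by rw [Subgroup.orderOf_coe, ht])

theorem main (hsol : Group.IsSolvable G)
    (hO : Cfsg.pPrimeCore 2 G = ⊥)
    (hI : ∀ t : G, orderOf t = 2 → Cfsg.HasNormalPComplement 2 ↥(Subgroup.centralizer ({t} : Set G)))
    (X : Subgroup G) (hXodd : Odd (Nat.card X)) (hXidx : ∃ k : ℕ, X.index = 2 ^ k) (hnt : Nontrivial G) :
    (∀ x ∈ X, x ≠ 1 → ∀ y ∈ Cfsg.pCore 2 G, y ≠ 1 → x * y ≠ y * x) ∧
      (∀ (p : ℕ) [Fact p.Prime] (P : Sylow p ↥X), IsCyclic ↥(P : Subgroup ↥X)) ∧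
      (X ⊔ Cfsg.pCore 2 G).Normal ∧
      ∀ hN : (X ⊔ Cfsg.pCore 2 G).Normal, IsCyclic (G ⧸ (X ⊔ Cfsg.pCore 2 G)) ∧ IsPGroup 2 (G ⧸ (X ⊔ Cfsg.pCore 2 G)) := by
  set Y := Cfsg.pCore 2 G with hY
  have hYp : IsPGroup 2 Y := Solv.pCore_isPGroup 2
  have hYn : Y.Normal := inferInstance
  have hXc : (Nat.card X).Coprime 2 := by rwa [Nat.coprime_two_right]
  have hxo : ∀ x ∈ X, (orderOf x).Coprime 2 := by
    intro x hx
    have h1 : orderOf x ∣ Nat.card X := by
      rw [← Subgroup.orderOf_mk x hx]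
      exact orderOf_dvd_natCard _
    exact Nat.Coprime.coprime_dvd_left h1 hXc
  have hYbot : Y ≠ ⊥ := by
    intro h
    have h3 : (⊤ : Subgroup G) ≤ Y := fun x _ =>
      H76.centralizer_pCore_le (ZJ.isPSolvable_of_isSolvable 2 hsol) hO (by
        rw [← hY, h]
        rw [Subgroup.mem_centralizer_iff]
        intro z hz
        rw [Subgroup.mem_bot.1 hz, one_mul, mul_one])
    rw [h] at h3
    exact (bot_ne_top (α := Subgroup G)) (le_antisymm bot_le h3)
  have hfact2 : Fact (Nat.Prime 2) := ⟨Nat.prime_two⟩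
  -- part 1
  have p1 : ∀ x ∈ X, x ≠ 1 → ∀ y ∈ Y, y ≠ 1 → x * y ≠ y * x := fun x hx hx1 y hy hy1 =>
    L1 hsol hO hI (hxo x hx) hx1 hy hy1
  -- part 2
  have hfpf : Frob.HasFPFModule ↥X := by
    let Z : Subgroup G := (Subgroup.center Y).map Y.subtype
    have hZn : Z.Normal := ConjAct.normal_of_characteristic_of_normal
    have hZY : Z ≤ Y := Subgroup.map_subtype_le _
    have hZc : ∀ a ∈ Z, ∀ b ∈ Z, a * b = b * a := by
      rintro _ ⟨a, ha, rfl⟩ _ ⟨b, hb, rfl⟩
      exact congrArg Subtype.val ((Subgroup.mem_center_iff.1 hb) a)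
    have hZbot : Z ≠ ⊥ := by
      haveI : Nontrivial Y := by rwa [Subgroup.nontrivial_iff_ne_bot]
      have h1 := hYp.center_nontrivial
      rw [Subgroup.nontrivial_iff_ne_bot] at h1
      intro h2
      exact h1 ((Subgroup.map_eq_bot_iff_of_injective _ Y.subtype_injective).1 h2)
    letI iZ : CommGroup Z := { (inferInstance : Group Z) with
      mul_comm := fun a b => Subtype.ext (hZc a a.2 b b.2) }
    haveI : Nontrivial Z := by rwa [Subgroup.nontrivial_iff_ne_bot]
    refine ⟨Z, iZ, inferInstance, inferInstance, (MulAut.conjNormal (H := Z)).comp X.subtype, ?_⟩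
    intro a ha w hw
    by_contra hw1
    have h1 : (a : G) * w * (a : G)⁻¹ = w := by
      have := congrArg Subtype.val hw
      exact this
    exact p1 a a.2 (fun h => ha (Subtype.ext h)) w (hZY w.2) (fun h => hw1 (Subtype.ext h))
      (mul_inv_eq_iff_eq_mul.1 h1)
  have p2 : ∀ (p : ℕ) [Fact p.Prime] (P : Sylow p ↥X), IsCyclic ↥(P : Subgroup ↥X) := by
    intro p hp P
    rcases FC.psub hfpf P.2 with h | ⟨rfl, -⟩
    · exact h
    · have h1 : Nat.card (P : Subgroup X) = 1 := by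
        obtain ⟨n, hn⟩ := IsPGroup.iff_card.1 P.2
        have h2 : Nat.card (P : Subgroup X) ∣ Nat.card X := Subgroup.card_subgroup_dvd_card _
        rw [hn] at h2 ⊢
        rcases Nat.eq_zero_or_pos n with rfl | hn0
        · rfl
        · exfalso
          have h3 : 2 ∣ Nat.card X := (dvd_pow_self 2 hn0.ne').trans h2
          rw [← even_iff_two_dvd, ← Nat.not_odd_iff_even] at h3
          exact h3 hXodd
      haveI : Subsingleton ↥(P : Subgroup X) := (Nat.card_eq_one_iff_unique.1 h1).1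
      exact isCyclic_of_subsingleton
  haveI hz : IsZGroup ↥X := ⟨fun p hp P => by
    haveI : Fact p.Prime := ⟨hp⟩
    exact p2 p P⟩
  -- the quotient
  set π := QuotientGroup.mk' Y with hπ
  have hπs : Function.Surjective π := QuotientGroup.mk'_surjective Y
  have hker : π.ker = Y := QuotientGroup.ker_mk' Y
  set Xb := X.map π with hXb
  haveI hsolb : Group.IsSolvable (G ⧸ Y) := by
    haveI := hsol
    infer_instance
  haveI hzb : IsZGroup ↥Xb :=
    IsZGroup.of_surjective (f := π.subgroupMap X) (π.subgroupMap_surjective X)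
  have hXbc : (Nat.card Xb).Coprime 2 := Nat.Coprime.coprime_dvd_left (Subgroup.card_map_dvd _ _) hXc
  set Fb := fittingSubgroup (G ⧸ Y) with hFb
  have hFbn : Fb.Normal := inferInstance
  have hFbc : (Nat.card Fb).Coprime 2 := by
    have h1 := Solv.coprime_relIndex_pCore_iSup (G := G ⧸ Y) 2
    rw [← Solv.fitting_eq_iSup_pCore, Solv.pCore_quotient_pCore, Subgroup.relIndex_bot_left] at h1
    exact h1
  obtain ⟨k, hk⟩ := hXidx
  have hle : ∀ K : Subgroup (G ⧸ Y), K.Normal → (Nat.card K).Coprime 2 → K ≤ Xb := by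
    intro K hK hKc
    have h1 : (Nat.card ↥(Xb ⊔ K)).Coprime 2 :=
      Nat.Coprime.coprime_dvd_left (Solv.card_sup_dvd_of_normal Xb K) (Nat.Coprime.mul_left hXbc hKc)
    have h2 : Xb.relIndex (Xb ⊔ K) ∣ 2 ^ k := by
      refine (Subgroup.relIndex_dvd_index_of_le le_sup_left).trans ?_
      rw [← hk]
      have h3 := Subgroup.index_map X π
      rw [hXb, h3]
      rw [MonoidHom.range_eq_top.2 hπs, Subgroup.index_top, mul_one]
      exact Subgroup.index_dvd_of_le le_sup_left
    have h3 : Xb.relIndex (Xb ⊔ K) = 1 := by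
      have h4 : (Xb.relIndex (Xb ⊔ K)).Coprime 2 := Nat.Coprime.coprime_dvd_left (Subgroup.relIndex_dvd_card _ _) h1
      exact Nat.Coprime.eq_one_of_dvd (h4.pow_right k) h2
    rw [Subgroup.relIndex_eq_one] at h3
    exact le_sup_right.trans h3
  have hFX : Fb ≤ Xb := hle Fb hFbn hFbc
  haveI hFz : IsZGroup ↥Fb := IsZGroup.of_injective (f := Subgroup.inclusion hFX) (Subgroup.inclusion_injective hFX)
  haveI hFnil : Group.IsNilpotent ↥Fb := Solv.fitting_isNilpotent
  have hFcyc : IsCyclic ↥Fb := inferInstance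
  have hcomm : commutator (G ⧸ Y) ≤ Xb :=
    (Supersolvable.commutator_le_centralizer_of_isCyclic Fb hFcyc).trans
      ((Solv.centralizer_fitting_le).trans hFX)
  have hXbn : Xb.Normal := by
    constructor
    intro n hn g
    have h1 : ⁅g, n⁆ ∈ Xb := hcomm (Subgroup.commutator_mem_commutator (Subgroup.mem_top g) (Subgroup.mem_top n))
    have h2 : g * n * g⁻¹ = ⁅g, n⁆ * n := by rw [commutatorElement_def]; group
    rw [h2]
    exact mul_mem h1 hn
  have hcomap : Xb.comap π = X ⊔ Y := by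
    rw [hXb, Subgroup.comap_map_eq, hker]
  have p3 : (X ⊔ Y).Normal := by
    rw [← hcomap]; infer_instance
  refine ⟨p1, p2, p3, fun hN => ⟨?_, ?_⟩⟩
  · by_cases hXbot : Xb = ⊥
    · -- then G is a 2-group, trivial quotient
      have h1 : Fb = ⊥ := le_bot_iff.1 (hXbot ▸ hFX)
      have h2 : (⊤ : Subgroup (G ⧸ Y)) ≤ Fb := by
        intro z _
        refine Solv.centralizer_fitting_le ?_
        rw [← hFb, h1]
        rw [Subgroup.mem_centralizer_iff]
        intro w hw
        rw [Subgroup.mem_bot.1 hw, one_mul, mul_one]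
      have h3 : (X ⊔ Y) = ⊤ := by
        rw [← hcomap, top_le_iff.1 (h2.trans hFX), Subgroup.comap_top]
      haveI : Subsingleton (G ⧸ (X ⊔ Y)) := by
        rw [h3]
        exact QuotientGroup.subsingleton_quotient_top
      exact isCyclic_of_subsingleton
    · -- a normal subgroup of prime order in Fb
      have hFbot : Fb ≠ ⊥ := by
        intro h1
        apply hXbot
        have h2 : (⊤ : Subgroup (G ⧸ Y)) ≤ Fb := by
          intro z _
          refine Solv.centralizer_fitting_le ?_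
          rw [← hFb, h1]
          rw [Subgroup.mem_centralizer_iff]
          intro w hw
          rw [Subgroup.mem_bot.1 hw, one_mul, mul_one]
        rw [h1] at h2
        exact le_bot_iff.1 (le_top.trans h2)
      obtain ⟨r, hr, hrd⟩ := Nat.exists_prime_and_dvd (n := Nat.card Fb) (fun h => hFbot (Subgroup.card_eq_one.1 h))
      haveI : Fact r.Prime := ⟨hr⟩
      obtain ⟨z, hz⟩ := exists_prime_orderOf_dvd_card' r hrd
      -- Z0 = ⟨z⟩ is normal in G/Y
      have hZn : (Subgroup.zpowers (z : G ⧸ Y)).Normal := by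
        constructor
        intro n hn g
        obtain ⟨j, rfl⟩ := Subgroup.mem_zpowers_iff.1 hn
        have h1 : g * (z : G ⧸ Y) ^ j * g⁻¹ = (g * (z : G ⧸ Y) * g⁻¹) ^ j := by rw [conj_zpow]
        rw [h1]
        apply Subgroup.zpow_mem
        -- both generate the unique subgroup of order r in the cyclic group Fb
        have h2 : g * (z : G ⧸ Y) * g⁻¹ ∈ Fb := hFbn.conj_mem _ z.2 g
        have h3 : orderOf (⟨g * (z : G ⧸ Y) * g⁻¹, h2⟩ : Fb) = r := by
          rw [Subgroup.orderOf_mk]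
          have h9 : orderOf (MulAut.conj g (z : G ⧸ Y)) = orderOf (z : G ⧸ Y) :=
            orderOf_injective (MulAut.conj g).toMonoidHom (MulAut.conj g).injective _
          rw [MulAut.conj_apply, Subgroup.orderOf_coe, hz] at h9
          exact h9
        have h4 : Subgroup.zpowers (⟨g * (z : G ⧸ Y) * g⁻¹, h2⟩ : Fb) = Subgroup.zpowers z := by
          apply Frob.eq_of_card_eq_of_isCyclic
          rw [Nat.card_zpowers, Nat.card_zpowers, h3, hz]
        have h5 : (⟨g * (z : G ⧸ Y) * g⁻¹, h2⟩ : Fb) ∈ Subgroup.zpowers z := by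
          rw [← h4]; exact Subgroup.mem_zpowers _
        obtain ⟨i, hi⟩ := Subgroup.mem_zpowers_iff.1 h5
        exact Subgroup.mem_zpowers_iff.2 ⟨i, congrArg Subtype.val hi⟩
      have hzcard : Nat.card ↥(Subgroup.zpowers (z : G ⧸ Y)) = r := by
        rw [Nat.card_zpowers, Subgroup.orderOf_coe, hz]
      have hMc := H73.Syl21.isCyclic_mulAut (A := ↥(Subgroup.zpowers (z : G ⧸ Y))) (q := r) hzcard
      set φ : G ⧸ Y →* MulAut ↥(Subgroup.zpowers (z : G ⧸ Y)) := MulAut.conjNormal with hφ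
      have hkerle : φ.ker ≤ Xb := by
        apply hle _ inferInstance
        apply odd_subgroup_of_no_involution
        intro tb htb ht2
        obtain ⟨t, rfl⟩ := hπs tb
        have h1 : t ^ 2 ∈ Y := by
          rw [← hker, MonoidHom.mem_ker, map_pow, ← ht2, pow_orderOf_eq_one]
        obtain ⟨m, hm⟩ := IsPGroup.iff_orderOf.1 hYp ⟨_, h1⟩
        rw [Subgroup.orderOf_mk] at hm
        have h2 : orderOf t ∣ 2 ^ (m + 1) := by
          apply orderOf_dvd_of_pow_eq_one
          rw [pow_succ', pow_mul, ← hm, pow_orderOf_eq_one]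
        obtain ⟨n, -, hn⟩ := (Nat.dvd_prime_pow Nat.prime_two).1 h2
        obtain ⟨x, hx, hxz⟩ := hFX z.2
        have hx1 : x ≠ 1 := by
          rintro rfl
          rw [map_one] at hxz
          have : (z : G ⧸ Y) = 1 := hxz.symm
          have h5 : orderOf (z : G ⧸ Y) = r := by rw [Subgroup.orderOf_coe, hz]
          rw [this, orderOf_one] at h5
          exact hr.one_lt.ne h5
        have h3 : x * t * x⁻¹ * t⁻¹ ∈ Y := by
          have h4 : φ (π t) = 1 := htb
          have h5 : π t * (z : G ⧸ Y) * (π t)⁻¹ = z := by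
            have h6 : ((φ (π t) ⟨(z : G ⧸ Y), Subgroup.mem_zpowers _⟩ : ↥(Subgroup.zpowers (z : G ⧸ Y))) : G ⧸ Y) = z := by
              rw [h4]; rfl
            exact h6
          rw [← hker, MonoidHom.mem_ker, map_mul, map_mul, map_mul, map_inv, map_inv, hxz]
          have h7 : π t * (z : G ⧸ Y) = z * π t := mul_inv_eq_iff_eq_mul.1 h5
          rw [← h7]
          group
        have h6 := L3 hsol hO hI (hxo x hx) hx1 hn h3
        have h7 : π t = 1 := by
          rw [← MonoidHom.mem_ker, hker]; exact h6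
        rw [h7, orderOf_one] at ht2
        norm_num at ht2
      have hrc : IsCyclic ↥(φ.comp π).range := inferInstance
      obtain ⟨⟨_, g, rfl⟩, hg⟩ := hrc.exists_generator
      refine ⟨⟨QuotientGroup.mk' (X ⊔ Y) g, ?_⟩⟩
      intro w
      obtain ⟨w, rfl⟩ := QuotientGroup.mk'_surjective (X ⊔ Y) w
      obtain ⟨j, hj⟩ := Subgroup.mem_zpowers_iff.1 (hg ⟨_, w, rfl⟩)
      refine Subgroup.mem_zpowers_iff.2 ⟨j, ?_⟩
      have h1 : ((φ.comp π) g) ^ j = (φ.comp π) w := congrArg Subtype.val hj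
      rw [← map_zpow]
      show (QuotientGroup.mk' (X ⊔ Y)) (g ^ j) = _
      rw [QuotientGroup.mk'_apply, QuotientGroup.mk'_apply, QuotientGroup.eq, ← hcomap, Subgroup.mem_comap]
      apply hkerle
      rw [MonoidHom.mem_ker]
      have h2 : (φ.comp π) ((g ^ j)⁻¹ * w) = 1 := by
        rw [map_mul, map_inv, map_zpow, h1, inv_mul_cancel]
      exact h2
  · have h1 : (X ⊔ Y).index ∣ 2 ^ k := by
      rw [← hk]; exact Subgroup.index_dvd_of_le le_sup_left
    obtain ⟨j, -, hj⟩ := (Nat.dvd_prime_pow Nat.prime_two).1 h1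
    exact IsPGroup.of_card (n := j) hj

end

/-- Let H be a finite solvable group with no nontrivial normal subgroup of odd order in which the centralizer of every involution has a normal 2-complement. Let X be a Hall 2'-subgroup of H (odd order, index a power of 2) and Y = O₂(H). Then no non-identity element of X commutes with a non-identity element of Y (so for X ≠ 1 the group XY is a Frobenius group with kernel Y), every Sylow subgroup of X is cyclic, XY is normal in H, and H/XY is a cyclic 2-group. -/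
theorem result {H : Type*} [Group H] [Finite H] (hsol : Group.IsSolvable H)
    (hO : Cfsg.oddCore H = ⊥)
    (hI : ∀ t : H, orderOf t = 2 → Cfsg.HasNormalPComplement 2 ↥(Subgroup.centralizer ({t} : Set H)))
    (X : Subgroup H) (hXodd : Odd (Nat.card X)) (hXidx : ∃ k : ℕ, X.index = 2 ^ k) :
    (∀ x ∈ X, x ≠ 1 → ∀ y ∈ Cfsg.pCore 2 H, y ≠ 1 → x * y ≠ y * x) ∧
      (∀ (p : ℕ) [Fact p.Prime] (P : Sylow p ↥X), IsCyclic ↥(P : Subgroup ↥X)) ∧
      (X ⊔ Cfsg.pCore 2 H).Normal ∧
      ∀ hN : (X ⊔ Cfsg.pCore 2 H).Normal, IsCyclic (H ⧸ (X ⊔ Cfsg.pCore 2 H)) ∧ IsPGroup 2 (H ⧸ (X ⊔ Cfsg.pCore 2 H)) := by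
  rcases subsingleton_or_nontrivial H with hs | hn
  · refine ⟨fun x _ hx1 => absurd (Subsingleton.elim x 1) hx1, fun p _ P => ?_, ?_, fun hN => ⟨?_, ?_⟩⟩
    · exact isCyclic_of_subsingleton
    · constructor
      intro n hn g
      rw [Subsingleton.elim (g * n * g⁻¹) n]
      exact hn
    · haveI : Subsingleton (H ⧸ (X ⊔ Cfsg.pCore 2 H)) := inferInstance
      exact isCyclic_of_subsingleton
    · intro g
      exact ⟨0, Subsingleton.elim _ _⟩
  · exact main hsol hO hI X hXodd hXidx hn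

end Cfsg.Agent.S3215
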