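import Cfsg.Statements.S3244
import Cfsg.Agent.H11.EarlyCT2

set_option autoImplicit false
open Cfsg

namespace Cfsg.Agent.S3244

/-- Say that a finite group G is of characteristic 2 type in the early sense when a Sylow 2-subgroup S of G has a self-centralizing normal subgroup of rank at least 3, S normalizes no nontrivial subgroup of odd order, and every 2-local subgroup of G is 2-constrained. If G is a non-abelian simple group of characteristic 2 type in this sense, then for some maximal 2-local subgroup M of G the centre of O₂(M) is not cyclic. -/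
theorem result {G : Type*} [Group G] [Finite G] [IsSimpleGroup G]
    (hG : ¬ IsMulCommutative G) (S : Sylow 2 G) (A : Subgroup G) (hA : Cfsg.IsSCN (S : Subgroup G) A) (hA3 : ¬ Cfsg.PRankLE 2 2 ↥A)
    (hinv : ∀ X : Subgroup G, Odd (Nat.card ↥X) → (S : Subgroup G) ≤ Subgroup.normalizer (X : Set G) → X = ⊥)
    (hcon : ∀ T : Subgroup G, IsPGroup 2 ↥T → T ≠ ⊥ → Cfsg.IsPConstrained 2 ↥(Subgroup.normalizer (T : Set G))) :
    ∃ M : Subgroup G, Cfsg.IsMaximalTwoLocal M ∧ ¬ IsCyclic ↥(Subgroup.center ↥(Cfsg.pCore 2 ↥M)) := by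
  classical
  have hf2 : Fact (Nat.Prime 2) := ⟨Nat.prime_two⟩
  by_contra hno
  push Not at hno
  -- `Ω₁(A)`
  obtain ⟨hAS, hSA, hAA⟩ := hA
  have hAc : ∀ a ∈ A, ∀ b ∈ A, a * b = b * a := by
    intro a ha b hb
    have h1 : b ∈ (S : Subgroup G) ⊓ Subgroup.centralizer (A : Set G) := by rw [hAA]; exact hb
    exact Subgroup.mem_centralizer_iff.1 h1.2 a ha
  let A0 : Subgroup G :=
    { carrier := {a | a ∈ A ∧ a ^ 2 = 1}
      mul_mem' := by
        rintro a b ⟨ha, ha2⟩ ⟨hb, hb2⟩
        refine ⟨mul_mem ha hb, ?_⟩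
        have h1 : Commute a b := hAc a ha b hb
        rw [h1.mul_pow, ha2, hb2, one_mul]
      one_mem' := ⟨one_mem _, one_pow 2⟩
      inv_mem' := by
        rintro a ⟨ha, ha2⟩
        refine ⟨inv_mem ha, ?_⟩
        rw [inv_pow, ha2, inv_one] }
  have hA0 : ∀ a, a ∈ A0 ↔ a ∈ A ∧ a ^ 2 = 1 := fun a => Iff.rfl
  have hA0e : Cfsg.IsElementaryAbelian 2 A0 := by
    refine ⟨⟨⟨?_⟩⟩, fun a ha => ha.2⟩
    rintro ⟨x, hx⟩ ⟨y, hy⟩
    exact Subtype.ext (hAc x hx.1 y hy.1)
  have hA08 : 2 ^ 3 ≤ Nat.card A0 := by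
    obtain ⟨B, hBc, hB2, hB4⟩ : ∃ B : Subgroup A, IsMulCommutative B ∧ (∀ a ∈ B, a ^ 2 = 1) ∧ 2 ^ 2 < Nat.card B := by
      by_contra hcon
      push Not at hcon
      exact hA3 fun B hB1 hB2 => hcon B hB1 hB2
    have hBp : IsPGroup 2 B := fun x => ⟨1, by
      have := hB2 x x.2
      apply Subtype.ext
      rw [pow_one]
      exact this⟩
    obtain ⟨n, hn⟩ := IsPGroup.iff_card.1 hBp
    have hn3 : 3 ≤ n := by
      rw [hn] at hB4
      have := (Nat.pow_lt_pow_iff_right (by norm_num : 1 < 2)).1 hB4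
      omega
    have h1 : B.map A.subtype ≤ A0 := by
      rintro _ ⟨b, hb, rfl⟩
      exact ⟨b.2, congrArg Subtype.val (hB2 b hb)⟩
    have h2 := Nat.le_of_dvd Nat.card_pos (Subgroup.card_dvd_of_le h1)
    rw [Subgroup.card_map_of_injective A.subtype_injective, hn] at h2
    exact (Nat.pow_le_pow_right (by norm_num) hn3).trans h2
  have hSA0 : (S : Subgroup G) ≤ Subgroup.normalizer (A0 : Set G) := by
    intro s hs
    have h1 := Subgroup.mem_normalizer_iff.1 (hSA hs)
    rw [Subgroup.mem_normalizer_iff]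
    intro a
    rw [hA0, hA0, h1 a]
    have h2 : (s * a * s⁻¹) ^ 2 = 1 ↔ a ^ 2 = 1 := by
      rw [conj_pow, mul_inv_eq_one, mul_eq_left]
    rw [h2]
  -- the central involution
  obtain ⟨z, hz, hzA, hzS, hzSm⟩ : ∃ z : G, orderOf z = 2 ∧ z ∈ A0 ∧ (∀ s ∈ (S : Subgroup G), s * z = z * s) ∧ z ∈ (S : Subgroup G) := by
    have hA0S : A0 ≤ (S : Subgroup G) := fun a ha => hAS ha.1
    have hn : (A0.subgroupOf (S : Subgroup G)).Normal := (Subgroup.normal_subgroupOf_iff_le_normalizer hA0S).2 hSA0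
    have h1 : A0.subgroupOf (S : Subgroup G) ≠ ⊥ := by
      intro h
      have h2 : A0 ≤ ⊥ := by
        rw [← Subgroup.map_subgroupOf_eq_of_le hA0S, h, Subgroup.map_bot]
      rw [le_bot_iff.1 h2, Subgroup.card_bot] at hA08
      omega
    have h2 := H63.inf_center_ne_bot S.isPGroup' (A0.subgroupOf (S : Subgroup G)) h1
    obtain ⟨z, hz1⟩ := Subgroup.ne_bot_iff_exists_ne_one.1 h2
    obtain ⟨z, hz⟩ : ∃ w : (S : Subgroup G), w ∈ A0.subgroupOf (S : Subgroup G) ⊓ Subgroup.center (S : Subgroup G) ∧ w ≠ 1 :=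
      ⟨z, z.2, fun h => hz1 (Subtype.ext h)⟩
    refine ⟨z, ?_, hz.1.1, ?_, z.2⟩
    · apply orderOf_eq_prime
      · exact (hz.1.1 : (z : G) ∈ A0).2
      · intro h
        exact hz.2 (Subtype.ext h)
    · intro s hs
      exact congrArg Subtype.val (Subgroup.mem_center_iff.1 hz.1.2 ⟨s, hs⟩)
  have hcon' : ∀ t : G, orderOf t = 2 → Cfsg.IsPConstrained 2 ↥(Subgroup.centralizer ({t} : Set G)) := by
    intro t ht
    have h1 := hcon (Subgroup.zpowers t) (H11.EarlyCT.zpowers_isPGroup ht) (H11.EarlyCT.zpowers_ne_bot ht)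
    rwa [H11.EarlyCT.normalizer_zpowers ht] at h1
  have hchar : ∀ t : G, orderOf t = 2 → H36.PConstr.CharP 2 ↥(Subgroup.centralizer ({t} : Set G)) := fun t ht =>
    H11.EarlyCT.charP_centralizer_inv hcon' S hinv hA0e hA08 hSA0 hz hzA hzS ht
  have hall := fun (M : Subgroup G) (hM : Cfsg.IsMaximalTwoLocal M) =>
    H11.EarlyCT.maximal_eq_centralizer hchar hM (hno M hM)
  have hodd := fun (X : Subgroup G) (hX : Cfsg.IsMaximalTwoLocal X)
    (hXz : X ≠ Subgroup.centralizer ({z} : Set G)) => H11.EarlyCT.odd_inf S hz hzS hall hX hXz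
  -- `C(z)` is a maximal 2-local
  have hpos : ∀ (X : Subgroup G) (w : G), orderOf w = 2 → w ∈ X → H11.EarlyCT.tp X ≠ 0 := by
    intro X w hw hwX h0
    have h1 : 1 ≤ H11.EarlyCT.tp X := H11.EarlyCT.le_tp (T := Subgroup.zpowers w) (by rwa [Subgroup.zpowers_le])
      (by rw [Nat.card_zpowers, hw, pow_one])
    omega
  have hCz : ∀ w : G, orderOf w = 2 → w * z = z * w → Subgroup.centralizer ({w} : Set G) ≤ Subgroup.centralizer ({z} : Set G) := by
    intro w hw hwz
    obtain ⟨M, hM, hwM⟩ := H11.EarlyCT.exists_maximal (N := Subgroup.centralizer ({w} : Set G))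
      ⟨Subgroup.zpowers w, H11.EarlyCT.zpowers_isPGroup hw, H11.EarlyCT.zpowers_ne_bot hw,
        (H11.EarlyCT.normalizer_zpowers hw).symm⟩
    by_cases hMz : M = Subgroup.centralizer ({z} : Set G)
    · rw [← hMz]; exact hwM
    · exfalso
      refine hpos _ z hz ?_ (hodd M hM hMz)
      refine ⟨hwM (Subgroup.mem_centralizer_singleton_iff.2 hwz.symm), Subgroup.mem_centralizer_singleton_iff.2 rfl⟩
  have hCmax : Cfsg.IsMaximalTwoLocal (Subgroup.centralizer ({z} : Set G)) := by
    obtain ⟨M, hM, hwM⟩ := H11.EarlyCT.exists_maximal (N := Subgroup.centralizer ({z} : Set G))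
      ⟨Subgroup.zpowers z, H11.EarlyCT.zpowers_isPGroup hz, H11.EarlyCT.zpowers_ne_bot hz,
        (H11.EarlyCT.normalizer_zpowers hz).symm⟩
    by_cases hMz : M = Subgroup.centralizer ({z} : Set G)
    · rw [← hMz]; exact hM
    · exfalso
      refine hpos _ z hz ?_ (hodd M hM hMz)
      exact ⟨hwM (Subgroup.mem_centralizer_singleton_iff.2 rfl), Subgroup.mem_centralizer_singleton_iff.2 rfl⟩
  -- Z*
  have hZ : ∃ g : G, g * z * g⁻¹ ∈ (S : Subgroup G) ∧ g * z * g⁻¹ ≠ z := by
    by_contra hcon2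
    push Not at hcon2
    have h1 := H4.zstar_sylow S hz hcon2
    have h2 : Cfsg.pPrimeCore 2 G = ⊥ := by
      rcases (inferInstance : (Cfsg.pPrimeCore 2 G).Normal).eq_bot_or_eq_top with h | h
      · exact h
      · exfalso
        have h3 := Solv.pPrimeCore_card_coprime (G := G) 2
        rw [h, Subgroup.card_top] at h3
        have h4 : 2 ∣ Nat.card G := by rw [← hz]; exact orderOf_dvd_natCard z
        exact (Nat.prime_two.coprime_iff_not_dvd.1 h3.symm) h4
    rw [h2] at h1
    have h3 : z ∈ Subgroup.center G := by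
      rw [Subgroup.mem_center_iff]
      intro g
      have h4 := h1 g
      rw [Subgroup.mem_bot] at h4
      have : z * g = g * z := by
        calc z * g = (z * g * z⁻¹ * g⁻¹) * (g * z) := by group
          _ = g * z := by rw [h4, one_mul]
      exact this.symm
    rcases (inferInstance : (Subgroup.center G).Normal).eq_bot_or_eq_top with h | h
    · rw [h, Subgroup.mem_bot] at h3
      rw [h3, orderOf_one] at hz
      omega
    · apply hG
      refine ⟨⟨fun a b => ?_⟩⟩
      have h5 : b ∈ Subgroup.center G := by rw [h]; exact Subgroup.mem_top _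
      exact Subgroup.mem_center_iff.1 h5 a
  obtain ⟨g, hgS, hgz⟩ := hZ
  set w := g * z * g⁻¹ with hw
  have hwo : orderOf w = 2 := by rw [hw, H4.orderOf_conj', hz]
  have hwz : w * z = z * w := hzS w hgS
  have h1 := hCz w hwo hwz
  -- cardinalities
  have hcard : Nat.card (Subgroup.centralizer ({w} : Set G)) = Nat.card (Subgroup.centralizer ({z} : Set G)) := by
    have h2 : Subgroup.centralizer ({w} : Set G) = (Subgroup.centralizer ({z} : Set G)).map (MulAut.conj g).toMonoidHom := by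
      ext y
      rw [Subgroup.mem_centralizer_singleton_iff, Subgroup.mem_map]
      constructor
      · intro h
        refine ⟨g⁻¹ * y * g, Subgroup.mem_centralizer_singleton_iff.2 ?_, ?_⟩
        · calc g⁻¹ * y * g * z = g⁻¹ * (y * (g * z * g⁻¹)) * g := by group
            _ = g⁻¹ * ((g * z * g⁻¹) * y) * g := by rw [← hw, h]
            _ = z * (g⁻¹ * y * g) := by group
        · simp only [MulEquiv.toMonoidHom_eq_coe, MonoidHom.coe_coe, MulAut.conj_apply]
          group
      · rintro ⟨x, hx, rfl⟩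
        rw [Subgroup.mem_centralizer_singleton_iff] at hx
        simp only [MulEquiv.toMonoidHom_eq_coe, MonoidHom.coe_coe, MulAut.conj_apply]
        rw [hw]
        calc g * x * g⁻¹ * (g * z * g⁻¹) = g * (x * z) * g⁻¹ := by group
          _ = g * (z * x) * g⁻¹ := by rw [hx]
          _ = g * z * g⁻¹ * (g * x * g⁻¹) := by group
    rw [h2, Subgroup.card_map_of_injective (MulAut.conj g).injective]
  have h2 : Subgroup.centralizer ({w} : Set G) = Subgroup.centralizer ({z} : Set G) :=
    Subgroup.eq_of_le_of_card_ge h1 hcard.ge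
  obtain ⟨x, hx, -, hxO, huniq⟩ := hall _ hCmax
  have h3 : z = x := by
    refine huniq z hz (Subgroup.mem_centralizer_singleton_iff.2 rfl) ?_
    intro q hq
    exact Subgroup.mem_centralizer_singleton_iff.1 ((Subgroup.map_subtype_le _) hq)
  have h4 : w = x := by
    refine huniq w hwo (Subgroup.mem_centralizer_singleton_iff.2 hwz) ?_
    intro q hq
    have h5 : q ∈ Subgroup.centralizer ({w} : Set G) := by rw [h2]; exact (Subgroup.map_subtype_le _) hq
    exact Subgroup.mem_centralizer_singleton_iff.1 h5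
  exact hgz (h4.trans h3.symm)

end Cfsg.Agent.S3244
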