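import Cfsg.Statements.S3246
import Cfsg.Agent.H1.CharTwo

set_option autoImplicit false
open Cfsg

namespace Cfsg.Agent.S3246

/-- Let G be a finite group whose Sylow 2-subgroup S has a self-centralizing normal subgroup of rank at least 3. Suppose that either every maximal 2-local subgroup of G is 2-constrained with no nontrivial normal subgroup of odd order, or the centralizer of every involution of G is 2-constrained with no nontrivial normal subgroup of odd order. Then S normalizes no nontrivial subgroup of G of odd order and every 2-local subgroup of G is 2-constrained. -/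
theorem result {G : Type*} [Group G] [Finite G]
    (S : Sylow 2 G) (A : Subgroup G) (hA : Cfsg.IsSCN (S : Subgroup G) A) (hA3 : ¬ Cfsg.PRankLE 2 2 ↥A)
    (h : (∀ M : Subgroup G, Cfsg.IsMaximalTwoLocal M → Cfsg.IsPConstrained 2 ↥M ∧ Cfsg.oddCore ↥M = ⊥) ∨
      (∀ t : G, orderOf t = 2 → Cfsg.IsPConstrained 2 ↥(Subgroup.centralizer ({t} : Set G)) ∧
        Cfsg.oddCore ↥(Subgroup.centralizer ({t} : Set G)) = ⊥)) :
    (∀ X : Subgroup G, Odd (Nat.card ↥X) → (S : Subgroup G) ≤ Subgroup.normalizer (X : Set G) → X = ⊥) ∧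
      (∀ T : Subgroup G, IsPGroup 2 ↥T → T ≠ ⊥ → Cfsg.IsPConstrained 2 ↥(Subgroup.normalizer (T : Set G))) := by
  classical
  have : Fact (Nat.Prime 2) := ⟨Nat.prime_two⟩
  have hmk : ∀ {X : Type _} [Group X] [Finite X], Cfsg.IsPConstrained 2 X → Cfsg.oddCore X = ⊥ → H36.PConstr.CharP 2 X :=
    fun h1 h2 => (H36.PConstr.isPConstrained_iff_of_core_eq_bot h2).1 h1
  have hch : ∀ t : G, orderOf t = 2 → H36.PConstr.CharP 2 (Subgroup.centralizer ({t} : Set G)) := by
    intro t ht
    rcases h with h | h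
    · have hzp : IsPGroup 2 (Subgroup.zpowers t) := by
        rw [IsPGroup.iff_card]
        exact ⟨1, by rw [Nat.card_zpowers, ht]; rfl⟩
      have hz1 : Subgroup.zpowers t ≠ ⊥ := by
        rw [Ne, Subgroup.zpowers_eq_bot]
        rintro rfl
        rw [orderOf_one] at ht
        omega
      have hfin : {M : Subgroup G | Cfsg.IsTwoLocal M}.Finite := Set.toFinite _
      obtain ⟨M, hTM, hM⟩ := hfin.exists_le_maximal (a := Subgroup.normalizer ((Subgroup.zpowers t : Subgroup G) : Set G))
        ⟨_, hzp, hz1, rfl⟩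
      obtain ⟨h1, h2⟩ := h M ⟨hM.prop, fun N hN hMN => le_antisymm (hM.le_of_ge hN hMN) hMN⟩
      have h3 := H1.charP_centralizer_of_le hzp (Subgroup.le_normalizer.trans hTM) (hmk h1 h2)
        ((Subgroup.centralizer_le_normalizer _).trans hTM)
      have h4 : Subgroup.centralizer ((Subgroup.zpowers t : Subgroup G) : Set G) = Subgroup.centralizer ({t} : Set G) := by
        rw [Subgroup.zpowers_eq_closure, Subgroup.centralizer_closure]
      rwa [h4] at h3
    · exact hmk (h t ht).1 (h t ht).2
  constructor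
  · -- the normal four-group
    obtain ⟨B, hBc, hB2, hB4⟩ : ∃ B : Subgroup A, IsMulCommutative B ∧ (∀ a ∈ B, a ^ 2 = 1) ∧ 2 ^ 2 < Nat.card B := by
      by_contra hcon
      push Not at hcon
      exact hA3 fun B hB1 hB2 => hcon B hB1 hB2
    have hBp : IsPGroup 2 B := fun x => ⟨1, by
      have := hB2 x x.2
      apply Subtype.ext
      rw [pow_one]
      exact this⟩
    obtain ⟨n, hn⟩ := IsPGroup.iff_card.1 hBp
    have hn3 : 3 ≤ n := by
      rw [hn] at hB4
      have := (Nat.pow_lt_pow_iff_right (by norm_num : 1 < 2)).1 hB4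
      omega
    let f : A →* (S : Subgroup G) := Subgroup.inclusion hA.1
    have hf : Function.Injective f := Subgroup.inclusion_injective _
    have hE : Cfsg.IsElementaryAbelian 2 (B.map f) := by
      refine ⟨⟨⟨?_⟩⟩, ?_⟩
      · rintro ⟨_, x, hx, rfl⟩ ⟨_, y, hy, rfl⟩
        apply Subtype.ext
        change f x * f y = f y * f x
        rw [← map_mul, ← map_mul]
        congr 1
        exact congrArg Subtype.val (hBc.1.1 ⟨x, hx⟩ ⟨y, hy⟩)
      · rintro _ ⟨x, hx, rfl⟩
        rw [← map_pow, hB2 x hx, map_one]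
    obtain ⟨U', hU'n, hU'e, hU'c⟩ := H23.exists_normal_elab_sq (P := (S : Subgroup G)) S.isPGroup' hE (by
      rw [Subgroup.card_map_of_injective hf, hn]
      exact Nat.pow_le_pow_right (by norm_num) hn3)
    intro X hX hSX
    refine H1.odd_eq_bot_of_charP_two S (U := U'.map (S : Subgroup G).subtype) ?_ ?_ (Subgroup.map_subtype_le _) ?_ hch hX hSX
    · refine ⟨⟨⟨?_⟩⟩, ?_⟩
      · rintro ⟨_, x, hx, rfl⟩ ⟨_, y, hy, rfl⟩
        apply Subtype.ext
        have h5 : (((x * y : (S : Subgroup G)) : G)) = ((y * x : (S : Subgroup G)) : G) :=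
          congrArg Subtype.val (congrArg Subtype.val (hU'e.1.1.1 ⟨x, hx⟩ ⟨y, hy⟩))
        exact h5
      · rintro _ ⟨x, hx, rfl⟩
        have h5 : (((x ^ 2 : (S : Subgroup G)) : G)) = 1 := congrArg Subtype.val (hU'e.2 x hx)
        exact h5
    · rw [Subgroup.card_map_of_injective (S : Subgroup G).subtype_injective, hU'c]
    · exact BG.le_normalizer_map_normal (S : Subgroup G) _
  · intro T hT hT1
    have hnt : Nontrivial T := (Subgroup.nontrivial_iff_ne_bot T).2 hT1
    have h1 : Nontrivial (Subgroup.center T) := hT.center_nontrivial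
    have h2 : 2 ∣ Nat.card (Subgroup.center T) := by
      obtain ⟨n, hn0, hn⟩ := (IsPGroup.nontrivial_iff_card (hT.to_subgroup _)).1 h1
      rw [hn]; exact dvd_pow_self 2 hn0.ne'
    obtain ⟨z, hz⟩ := exists_prime_orderOf_dvd_card' 2 h2
    have hzG : orderOf (((z : T) : G)) = 2 := by
      rw [Subgroup.orderOf_coe, Subgroup.orderOf_coe, hz]
    refine H1.isPConstrained_normalizer_of_le hT ?_ (H36.PConstr.isPConstrained_of_charP (hch _ hzG)) ?_
    · intro t ht
      rw [Subgroup.mem_centralizer_singleton_iff]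
      exact (congrArg Subtype.val (Subgroup.mem_center_iff.1 z.2 ⟨t, ht⟩))
    · exact Subgroup.centralizer_le (Set.singleton_subset_iff.2 (z : T).2)

end Cfsg.Agent.S3246
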