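import Cfsg.Statements.S3247
import Cfsg.Agent.H1.PCon

set_option autoImplicit false
open Cfsg

namespace Cfsg.Agent.S3247

/-- Let G be a finite group and p a prime; here a p-local subgroup means the normalizer of a nontrivial p-subgroup, other than G itself. If every p-local subgroup of G that is maximal among p-local subgroups is p-constrained, or if the centralizer of every element of order p of G is p-constrained, then every p-local subgroup of G is p-constrained. -/
theorem result {G : Type*} [Group G] [Finite G] (p : ℕ) [hp : Fact p.Prime]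
    (h : (∀ M : Subgroup G, (∃ T : Subgroup G, IsPGroup p ↥T ∧ T ≠ ⊥ ∧ M = Subgroup.normalizer (T : Set G)) → M ≠ ⊤ →
        (∀ M' : Subgroup G, (∃ T' : Subgroup G, IsPGroup p ↥T' ∧ T' ≠ ⊥ ∧ M' = Subgroup.normalizer (T' : Set G)) → M' ≠ ⊤ → M ≤ M' → M = M') →
        Cfsg.IsPConstrained p ↥M) ∨
      (∀ x : G, orderOf x = p → Cfsg.IsPConstrained p ↥(Subgroup.centralizer ({x} : Set G))))
    (T : Subgroup G) (hT : IsPGroup p ↥T) (hT1 : T ≠ ⊥) (hTG : Subgroup.normalizer (T : Set G) ≠ ⊤) :
    Cfsg.IsPConstrained p ↥(Subgroup.normalizer (T : Set G)) := by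
  classical
  rcases h with h | h
  · -- a maximal proper `p`-local subgroup containing `N_G(T)`
    have hfin : {M : Subgroup G | (∃ T : Subgroup G, IsPGroup p ↥T ∧ T ≠ ⊥ ∧ M = Subgroup.normalizer (T : Set G)) ∧
      M ≠ ⊤}.Finite := Set.toFinite _
    obtain ⟨M, hTM, hM⟩ := hfin.exists_le_maximal (a := Subgroup.normalizer (T : Set G)) ⟨⟨T, hT, hT1, rfl⟩, hTG⟩
    have hMc := h M hM.prop.1 hM.prop.2 (fun M' h1 h2 h3 => le_antisymm h3 (hM.le_of_ge ⟨h1, h2⟩ h3))
    exact H1.isPConstrained_normalizer_of_le hT (Subgroup.le_normalizer.trans hTM) hMc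
      ((Subgroup.centralizer_le_normalizer _).trans hTM)
  · have hnt : Nontrivial T := (Subgroup.nontrivial_iff_ne_bot T).2 hT1
    have h1 : Nontrivial (Subgroup.center T) := hT.center_nontrivial
    have h2 : p ∣ Nat.card (Subgroup.center T) := by
      obtain ⟨n, hn0, hn⟩ := (IsPGroup.nontrivial_iff_card (hT.to_subgroup _)).1 h1
      rw [hn]; exact dvd_pow_self p hn0.ne'
    obtain ⟨z, hz⟩ := exists_prime_orderOf_dvd_card' p h2
    have hzG : orderOf (((z : T) : G)) = p := by
      rw [Subgroup.orderOf_coe, Subgroup.orderOf_coe, hz]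
    refine H1.isPConstrained_normalizer_of_le hT ?_ (h _ hzG) ?_
    · intro t ht
      rw [Subgroup.mem_centralizer_singleton_iff]
      exact (congrArg Subtype.val (Subgroup.mem_center_iff.1 z.2 ⟨t, ht⟩))
    · exact Subgroup.centralizer_le (Set.singleton_subset_iff.2 (z : T).2)

end Cfsg.Agent.S3247
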