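import Cfsg.Statements.S3264
import Cfsg.Agent.H87.Eng
-- import your own Cfsg.Agent.* helpers here

set_option autoImplicit false
open Cfsg

namespace Cfsg.Agent.S3264

/-- Let G be a non-abelian finite simple group and X a conjugacy class of involutions of G. Form the graph on X in which two distinct involutions are joined when their product has odd order. Then this graph is connected. (By the Baer–Suzuki Theorem the graph has at least one edge; connectedness is the stronger statement.) -/
theorem result {G : Type*} [Group G] [Finite G] [IsSimpleGroup G]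
    (hG : ¬ IsMulCommutative G) (t : G) (ht : orderOf t = 2) :
    (SimpleGraph.fromRel fun x y : {x : G // IsConj t x} => Odd (orderOf (x.1 * y.1))).Connected := by
  have htt : t * t = 1 := by rw [← pow_two, ← ht]; exact pow_orderOf_eq_one t
  have ht1 : t ≠ 1 := by
    rintro rfl
    simp at ht
  have hN : Subgroup.normalClosure {t} = ⊤ := by
    rcases (Subgroup.normalClosure_normal (s := {t})).eq_bot_or_eq_top with h | h
    · exact absurd (Subgroup.mem_bot.mp (h ▸ Subgroup.subset_normalClosure (Set.mem_singleton t))) ht1
    · exact h
  have hgen := Cfsg.Agent.H87.Eng.gen_involution t htt hN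
  set Γ := (SimpleGraph.fromRel fun x y : {x : G // IsConj t x} => Odd (orderOf (x.1 * y.1))) with hΓ
  let act : G → {x : G // IsConj t x} → {x : G // IsConj t x} := fun g x =>
    ⟨g * x.1 * g⁻¹, x.2.trans (isConj_iff.mpr ⟨g, rfl⟩)⟩
  have act_mul : ∀ g h x, act (g * h) x = act g (act h x) := by
    intro g h x
    apply Subtype.ext
    show g * h * x.1 * (g * h)⁻¹ = g * (h * x.1 * h⁻¹) * g⁻¹
    group
  have act_one : ∀ x, act 1 x = x := by
    intro x
    apply Subtype.ext
    show 1 * x.1 * 1⁻¹ = x.1
    group
  have hom : ∀ g x y, Γ.Adj x y → Γ.Adj (act g x) (act g y) := by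
    intro g x y h
    rw [hΓ, SimpleGraph.fromRel_adj] at h ⊢
    have e : ∀ a b : {x : G // IsConj t x}, orderOf ((act g a).1 * (act g b).1) = orderOf (a.1 * b.1) := by
      intro a b
      have : (act g a).1 * (act g b).1 = g * (a.1 * b.1) * g⁻¹ := by
        show (g * a.1 * g⁻¹) * (g * b.1 * g⁻¹) = _
        group
      rw [this]
      exact orderOf_eq_orderOf_iff.mpr (fun n => by rw [conj_pow]; exact conj_eq_one_iff)
    refine ⟨?_, ?_⟩
    · intro he
      apply h.1
      have := congrArg (act g⁻¹) he
      rwa [← act_mul, ← act_mul, inv_mul_cancel, act_one, act_one] at this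
    · rw [e x y, e y x]; exact h.2
  have hreach : ∀ g x y, Γ.Reachable x y → Γ.Reachable (act g x) (act g y) := by
    intro g x y h
    exact h.map (⟨act g, fun {a b} hab => hom g a b hab⟩ : Γ →g Γ)
  let v : {x : G // IsConj t x} := ⟨t, IsConj.refl t⟩
  let H : Subgroup G :=
    { carrier := {g | Γ.Reachable v (act g v)}
      mul_mem' := by
        intro a b ha hb
        show Γ.Reachable v (act (a * b) v)
        rw [act_mul]
        exact SimpleGraph.Reachable.trans ha (hreach a _ _ hb)
      one_mem' := by
        show Γ.Reachable v (act 1 v)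
        rw [act_one]
      inv_mem' := by
        intro a ha
        show Γ.Reachable v (act a⁻¹ v)
        have := hreach a⁻¹ _ _ ha
        rw [← act_mul, inv_mul_cancel, act_one] at this
        exact this.symm }
  have hH : H = ⊤ := by
    rw [eq_top_iff, ← hgen, Subgroup.closure_le]
    rintro y (hy | ⟨hy1, hy2⟩)
    · rw [Set.mem_singleton_iff] at hy
      subst hy
      show Γ.Reachable v (act y v)
      have : act y v = v := by
        apply Subtype.ext
        show y * y * y⁻¹ = y
        group
      rw [this]
    · show Γ.Reachable v (act y v)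
      by_cases he : v = act y v
      · rw [← he]
      · apply SimpleGraph.Adj.reachable
        rw [hΓ, SimpleGraph.fromRel_adj]
        refine ⟨he, Or.inl ?_⟩
        have hti : t⁻¹ = t := inv_eq_of_mul_eq_one_left htt
        have e : v.1 * (act y v).1 = (y ^ 2)⁻¹ := by
          show t * (y * t * y⁻¹) = _
          have : t * (y * t * y⁻¹) = (t * y * t⁻¹) * y⁻¹ := by rw [hti]; group
          rw [this, hy1, ← mul_inv_rev, pow_two]
        rw [e, orderOf_inv]
        exact Odd.of_dvd_nat hy2 (orderOf_pow_dvd 2)
  have hall : ∀ x, Γ.Reachable v x := by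
    intro x
    obtain ⟨g, hg⟩ := isConj_iff.mp x.2
    have hgH : g ∈ H := by rw [hH]; exact Subgroup.mem_top _
    have : act g v = x := Subtype.ext hg
    rw [← this]; exact hgH
  haveI : Nonempty {x : G // IsConj t x} := ⟨v⟩
  exact { preconnected := fun x y => (hall x).symm.trans (hall y) }

end Cfsg.Agent.S3264
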