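import Cfsg.Statements.S3265
import Cfsg.Agent.H41.InvGraph

set_option autoImplicit false
open Cfsg

namespace Cfsg.Agent.S3265

open Equiv Cfsg.Agent.H41.InvGraph

theorem isConj_of_odd {G : Type*} [Group G] {x z : G} (hx : x * x = 1) (hz : z * z = 1) (h : Odd (orderOf (x * z))) : IsConj x z := by
  obtain ⟨k, hk⟩ := h
  have hx' : x⁻¹ = x := inv_eq_of_mul_eq_one_left hx
  have hz' : z⁻¹ = z := inv_eq_of_mul_eq_one_left hz
  have hinv : (x * z)⁻¹ = z * x := by rw [mul_inv_rev, hx', hz']
  have hs : SemiconjBy x (x * z) (x * z)⁻¹ := by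
    show x * (x * z) = (x * z)⁻¹ * x
    rw [hinv, ← mul_assoc, hx, one_mul, mul_assoc, hx, mul_one]
  have hsk := hs.pow_right k
  have hsk' : x * (x * z) ^ k = ((x * z)⁻¹) ^ k * x := hsk
  have h1 : (x * z) ^ (2 * k + 1) = 1 := by rw [← hk, pow_orderOf_eq_one]
  have h2 : (x * z) ^ k = ((x * z)⁻¹) ^ (k + 1) := by
    rw [inv_pow, eq_inv_iff_mul_eq_one, ← pow_add, ← h1]
    congr 1
    ring
  rw [isConj_iff]
  refine ⟨(x * z) ^ k, ?_⟩
  rw [mul_inv_eq_iff_eq_mul]
  have h3 : z = (x * z)⁻¹ * x := by rw [hinv, mul_assoc, hx, mul_one]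
  calc (x * z) ^ k * x = ((x * z)⁻¹) ^ (k + 1) * x := by rw [h2]
    _ = (x * z)⁻¹ * (((x * z)⁻¹) ^ k * x) := by rw [pow_succ', mul_assoc]
    _ = (x * z)⁻¹ * (x * (x * z) ^ k) := by rw [hsk']
    _ = z * (x * z) ^ k := by rw [← mul_assoc, ← h3]

theorem card_support_of_isConj {n : ℕ} {x y : Perm (Fin n)} (h : IsConj x y) : x.support.card = y.support.card := by
  rw [← Perm.sum_cycleType, ← Perm.sum_cycleType, Perm.isConj_iff_cycleType_eq.1 h]

theorem exists_third (n : ℕ) (hn : 5 ≤ n) (x y : Perm (Fin n)) (hx : x * x = 1) (hy : y * y = 1) (hxy : IsConj x y) :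
    ∃ z : Perm (Fin n), z * z = 1 ∧ Odd (orderOf (x * z)) ∧ Odd (orderOf (y * z)) := by
  by_cases hb : Bad x y
  · obtain ⟨v, hv, ex, ey⟩ := hb
    obtain ⟨f, hf⟩ : ∃ f : Fin n, ∀ i, v i ≠ f := by
      by_contra hcon
      push Not at hcon
      have h1 : Function.Surjective v := fun f => hcon f
      have h2 := Fintype.card_le_of_surjective v h1
      rw [Fintype.card_fin, Fintype.card_fin] at h2
      omega
    have hv5 : Function.Injective ![v 0, v 1, v 2, v 3, f] := by
      intro i j hij
      fin_cases i <;> fin_cases j <;> first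
        | rfl
        | (exfalso; first
          | exact absurd (hv hij) (by decide)
          | exact hf _ hij
          | exact hf _ hij.symm)
    obtain ⟨z, h1, h2, h3⟩ := caseBad hv5
    rw [ex, ey]
    exact ⟨z, h1, h2, h3⟩
  · obtain ⟨z, h1, -, h3, h4⟩ := main x.support.card x y hx hy rfl (card_support_of_isConj hxy).symm hb
    exact ⟨z, h1, h3, h4⟩

theorem exists_commuting (n : ℕ) (hn : 5 ≤ n) (t : Perm (Fin n)) (ht : t * t = 1) (ht1 : t ≠ 1) :
    ∃ y : Perm (Fin n), IsConj t y ∧ y ≠ t ∧ t * y = y * t := by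
  obtain ⟨a, ha⟩ : ∃ a, t a ≠ a := by
    by_contra hcon
    push Not at hcon
    exact ht1 (Equiv.ext hcon)
  obtain ⟨b, hb⟩ : ∃ b, t a = b := ⟨_, rfl⟩
  have hab : a ≠ b := by rw [← hb]; exact ha.symm
  obtain ⟨r1, r2, r3, r4, r5⟩ := rem ht hb hab
  by_cases h1 : t * swap a b = 1
  · have ht2 : t = swap a b := by
      rw [← msm t a b, h1, one_mul]
    obtain ⟨c, hc⟩ : ∃ c : Fin n, c ∉ ({a, b} : Finset (Fin n)) := by
      by_contra hcon
      push Not at hcon
      have h2 : (Finset.univ : Finset (Fin n)).card ≤ ({a, b} : Finset (Fin n)).card := Finset.card_le_card fun w _ => hcon w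
      rw [Finset.card_univ, Fintype.card_fin] at h2
      have := Finset.card_le_two (a := a) (b := b)
      omega
    obtain ⟨d, hd⟩ : ∃ d : Fin n, d ∉ ({a, b, c} : Finset (Fin n)) := by
      by_contra hcon
      push Not at hcon
      have h2 : (Finset.univ : Finset (Fin n)).card ≤ ({a, b, c} : Finset (Fin n)).card := Finset.card_le_card fun w _ => hcon w
      rw [Finset.card_univ, Fintype.card_fin] at h2
      have := Finset.card_le_three (a := a) (b := b) (c := c)
      omega
    simp only [Finset.mem_insert, Finset.mem_singleton, not_or] at hc hd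
    obtain ⟨hca, hcb⟩ := hc
    obtain ⟨hda, hdb, hdc⟩ := hd
    refine ⟨swap c d, ?_, ?_, ?_⟩
    · rw [ht2]
      exact Perm.isConj_swap hab (Ne.symm hdc)
    · intro h2
      rw [ht2] at h2
      have h3 := congrArg (fun σ : Perm (Fin n) => σ c) h2
      simp only [swap_apply_left, swap_apply_of_ne_of_ne hca hcb] at h3
      exact hdc h3
    · rw [ht2]
      exact swap_comm4 (Ne.symm hca) (Ne.symm hda) (Ne.symm hcb) (Ne.symm hdb)
  · obtain ⟨c, hc⟩ : ∃ c, (t * swap a b) c ≠ c := by
      by_contra hcon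
      push Not at hcon
      exact h1 (Equiv.ext hcon)
    obtain ⟨d, hd⟩ : ∃ d, (t * swap a b) c = d := ⟨_, rfl⟩
    have hcd : c ≠ d := by rw [← hd]; exact hc.symm
    obtain ⟨s1, s2, s3, s4, s5⟩ := rem r1 hd hcd
    have hdc : (t * swap a b) d = c := by rw [← hd, ← Perm.mul_apply, r1, Perm.one_apply]
    have hca : a ≠ c := by rintro rfl; exact hc r2
    have hcb : b ≠ c := by rintro rfl; exact hc r3
    have hda : a ≠ d := by rintro rfl; rw [r2] at hdc; exact hcd hdc.symm
    have hdb : b ≠ d := by rintro rfl; rw [r3] at hdc; exact hcd hdc.symm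
    have hinj : Function.Injective ![a, b, c, d] := by
      intro i j hij
      fin_cases i <;> fin_cases j <;> first | rfl | (exfalso; first | exact hab hij | exact hab hij.symm | exact hca hij | exact hca hij.symm | exact hcb hij | exact hcb hij.symm | exact hda hij | exact hda hij.symm | exact hdb hij | exact hdb hij.symm | exact hcd hij | exact hcd hij.symm)
    obtain ⟨t', ht'⟩ : ∃ t', t' = t * swap a b * swap c d := ⟨_, rfl⟩
    rw [← ht'] at s1 s2 s3 s4
    have et : t = t' * swap c d * swap a b := by rw [ht', msm, msm]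
    have ft : ∀ i, t' (![a, b, c, d] i) = ![a, b, c, d] i := by
      intro i; fin_cases i
      · exact (s4 _ hca hda).trans r2
      · exact (s4 _ hcb hdb).trans r3
      · exact s2
      · exact s3
    let e := emb ![a, b, c, d] hinj
    have et2 : t = t' * L e (swap 2 3 * swap 0 1) := by
      rw [et, map_mul, L_swap, L_swap, mul_assoc]
      rfl
    have hcomm : ∀ π, t' * L e π = L e π * t' := fun π => L_comm e π t' fun i _ => ft i
    refine ⟨t' * L e (swap 0 2 * swap 1 3), ?_, ?_, ?_⟩
    · rw [isConj_iff]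
      refine ⟨L e (swap 1 2), ?_⟩
      rw [mul_inv_eq_iff_eq_mul, et2, ← mul_assoc, ← hcomm, mul_assoc, mul_assoc, ← map_mul, ← map_mul]
      congr 2
      decide
    · intro h2
      rw [et2] at h2
      have h3 := mul_left_cancel h2
      have h4 := Perm.viaEmbeddingHom_injective e h3
      revert h4
      decide
    · rw [et2]
      have h5 : ∀ π π' : Perm (Fin 4), (t' * L e π) * (t' * L e π') = t' * t' * L e (π * π') := by
        intro π π'
        rw [map_mul]
        calc (t' * L e π) * (t' * L e π') = t' * (L e π * t') * L e π' := by group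
          _ = t' * t' * (L e π * L e π') := by rw [← hcomm]; group
      rw [h5, h5]
      congr 2
      decide

/-- Let n ≥ 5 and let X be a conjugacy class of involutions of the symmetric group of degree n. The graph on X joining two distinct involutions whose product has odd order is connected and has diameter exactly 2. -/
theorem result (n : ℕ) (hn : 5 ≤ n) (t : Equiv.Perm (Fin n)) (ht : orderOf t = 2) :
    (SimpleGraph.fromRel fun x y : {x : Equiv.Perm (Fin n) // IsConj t x} =>
        Odd (orderOf (x.1 * y.1))).Connected ∧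
      (SimpleGraph.fromRel fun x y : {x : Equiv.Perm (Fin n) // IsConj t x} =>
        Odd (orderOf (x.1 * y.1))).diam = 2 := by
  classical
  set G := SimpleGraph.fromRel fun x y : {x : Equiv.Perm (Fin n) // IsConj t x} => Odd (orderOf (x.1 * y.1)) with hG
  have ht2 : t * t = 1 := by rw [← sq, ← ht, pow_orderOf_eq_one]
  have ht1 : t ≠ 1 := by
    rintro rfl
    rw [orderOf_one] at ht
    omega
  have hinv : ∀ x : Perm (Fin n), IsConj t x → x * x = 1 := by
    intro x hx
    obtain ⟨g, hg⟩ := isConj_iff.1 hx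
    rw [← hg]
    calc g * t * g⁻¹ * (g * t * g⁻¹) = g * (t * t) * g⁻¹ := by group
      _ = 1 := by rw [ht2, mul_one, mul_inv_cancel]
  have hle : ∀ u v : {x : Equiv.Perm (Fin n) // IsConj t x}, G.edist u v ≤ 2 := by
    intro u v
    by_cases huv : u = v
    · rw [huv, SimpleGraph.edist_self]
      exact bot_le
    · obtain ⟨z, hz, h1, h2⟩ := exists_third n hn u.1 v.1 (hinv _ u.2) (hinv _ v.2) (u.2.symm.trans v.2)
      let z' : {x : Equiv.Perm (Fin n) // IsConj t x} := ⟨z, u.2.trans (isConj_of_odd (hinv _ u.2) hz h1)⟩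
      by_cases hzu : z' = u
      · have hadj : G.Adj u v := by
          rw [hG, SimpleGraph.fromRel_adj]
          refine ⟨huv, Or.inr ?_⟩
          have : z = u.1 := congrArg Subtype.val hzu
          rw [← this]
          exact h2
        exact (SimpleGraph.Walk.edist_le hadj.toWalk).trans (by norm_num)
      · by_cases hzv : z' = v
        · have hadj : G.Adj u v := by
            rw [hG, SimpleGraph.fromRel_adj]
            refine ⟨huv, Or.inl ?_⟩
            have : z = v.1 := congrArg Subtype.val hzv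
            rw [← this]
            exact h1
          exact (SimpleGraph.Walk.edist_le hadj.toWalk).trans (by norm_num)
        · have hadj1 : G.Adj u z' := by
            rw [hG, SimpleGraph.fromRel_adj]
            exact ⟨Ne.symm hzu, Or.inl h1⟩
          have hadj2 : G.Adj z' v := by
            rw [hG, SimpleGraph.fromRel_adj]
            exact ⟨hzv, Or.inr h2⟩
          exact (SimpleGraph.Walk.edist_le (hadj1.toWalk.append hadj2.toWalk)).trans (by norm_num)
  have hed : G.ediam ≤ 2 := SimpleGraph.ediam_le_of_edist_le hle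
  have hne : G.ediam ≠ ⊤ := by
    intro h
    rw [h] at hed
    exact absurd hed (by simp)
  have hNE : Nonempty {x : Equiv.Perm (Fin n) // IsConj t x} := ⟨⟨t, IsConj.refl t⟩⟩
  obtain ⟨y, hy1, hy2, hy3⟩ := exists_commuting n hn t ht2 ht1
  have hNT : Nontrivial {x : Equiv.Perm (Fin n) // IsConj t x} :=
    ⟨⟨⟨t, IsConj.refl t⟩, ⟨y, hy1⟩, fun h => hy2 (congrArg Subtype.val h).symm⟩⟩
  refine ⟨SimpleGraph.connected_of_ediam_ne_top hne, ?_⟩
  have h0 : G.diam ≠ 0 := by
    rw [Ne, SimpleGraph.diam_eq_zero_iff_ediam_eq_top]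
    exact hne
  have h1 : G.diam ≠ 1 := by
    rw [Ne, SimpleGraph.diam_eq_one]
    intro h
    have hadj : G.Adj ⟨t, IsConj.refl t⟩ ⟨y, hy1⟩ := by
      rw [h, SimpleGraph.top_adj]
      exact fun h => hy2 (congrArg Subtype.val h).symm
    rw [hG, SimpleGraph.fromRel_adj] at hadj
    have hsq : (t * y) ^ 2 = 1 := by
      rw [sq]
      calc t * y * (t * y) = t * (y * t) * y := by group
        _ = t * t * (y * y) := by rw [← hy3]; group
        _ = 1 := by rw [ht2, hinv y hy1, one_mul]
    have h3 : orderOf (t * y) ∣ 2 := orderOf_dvd_of_pow_eq_one hsq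
    have h4 : Odd (orderOf (t * y)) := by
      rcases hadj.2 with h4 | h4
      · exact h4
      · rw [hy3]
        exact h4
    rcases (Nat.dvd_prime Nat.prime_two).1 h3 with h5 | h5
    · have h6 := orderOf_eq_one_iff.1 h5
      apply hy2
      have : y = t⁻¹ := (inv_eq_of_mul_eq_one_right h6).symm
      rw [this, inv_eq_of_mul_eq_one_left ht2]
    · rw [h5] at h4
      exact absurd h4 (by decide)
  have h2 : G.diam ≤ 2 := by
    have : G.diam = G.ediam.toNat := rfl
    rw [this]
    exact ENat.toNat_le_of_le_coe hed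
  omega

end Cfsg.Agent.S3265
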