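import Cfsg.Statements.S3269
import Cfsg.Agent.H69.ZStar
import Cfsg.Agent.H69.Quat
import Cfsg.Agent.H47.Basic

set_option autoImplicit false
set_option linter.style.haveILetI false
set_option linter.unusedSectionVars false
open Cfsg

namespace Cfsg.Agent.S3269

open Subgroup Cfsg.Agent.H69 Pointwise

variable {G : Type*} [Group G] [Finite G]

/-- structure of a quaternion subgroup: its involution is unique and a commutator -/
theorem quat_sub {Q : Subgroup G} {n : ℕ} (hn : 1 ≤ n) (e : Q ≃* QuaternionGroup (2 ^ n)) :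
    ∃ z ∈ Q, z ≠ 1 ∧ z * z = 1 ∧ (∀ w ∈ Q, w * w = 1 → w = 1 ∨ w = z) ∧
      ∃ x ∈ Q, ∃ y ∈ Q, x * y * x⁻¹ * y⁻¹ = z := by
  obtain ⟨x, y, hxy⟩ := quat_commutator n hn
  set c : QuaternionGroup (2 ^ n) := QuaternionGroup.a ((2 ^ n : ℕ) : ZMod (2 * 2 ^ n)) with hc
  haveI : NeZero (2 ^ n) := ⟨by positivity⟩
  have hc1 : c ≠ 1 := quat_a_ne_one
  have hcc : c * c = 1 := by
    rw [hc, QuaternionGroup.a_mul_a, QuaternionGroup.one_def]
    congr 1
    have h0 : ((2 * 2 ^ n : ℕ) : ZMod (2 * 2 ^ n)) = 0 := ZMod.natCast_self _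
    have h1 : ((2 ^ n + 2 ^ n : ℕ) : ZMod (2 * 2 ^ n)) = ((2 * 2 ^ n : ℕ) : ZMod (2 * 2 ^ n)) := by
      congr 1; omega
    rw [Nat.cast_add] at h1
    exact h1.trans h0
  refine ⟨((e.symm c : Q) : G), (e.symm c).2, ?_, ?_, ?_, ((e.symm x : Q) : G), (e.symm x).2,
    ((e.symm y : Q) : G), (e.symm y).2, ?_⟩
  · intro h
    apply hc1
    have : e.symm c = 1 := Subtype.ext h
    rw [← e.apply_symm_apply c, this, map_one]
  · have : e.symm c * e.symm c = 1 := by rw [← map_mul, hcc, map_one]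
    exact congrArg Subtype.val this
  · intro w hw hww
    have h1 : e ⟨w, hw⟩ * e ⟨w, hw⟩ = 1 := by
      rw [← map_mul]
      have : (⟨w, hw⟩ : Q) * ⟨w, hw⟩ = 1 := Subtype.ext hww
      rw [this, map_one]
    rcases quat_mul_self_eq_one _ h1 with h | h
    · left
      have : (⟨w, hw⟩ : Q) = 1 := by rw [← e.symm_apply_apply ⟨w, hw⟩, h, map_one]
      exact congrArg Subtype.val this
    · right
      have : (⟨w, hw⟩ : Q) = e.symm c := by rw [← e.symm_apply_apply ⟨w, hw⟩, h]
      exact congrArg Subtype.val this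
  · have : e.symm x * e.symm y * (e.symm x)⁻¹ * (e.symm y)⁻¹ = e.symm c := by
      rw [← map_inv, ← map_inv, ← map_mul, ← map_mul, ← map_mul, hxy]
    exact congrArg Subtype.val this

/-- the key lemma on two decompositions -/
theorem key {S Q R Q₁ R₁ : Subgroup G} (hS : IsPGroup 2 S) (h : IsInternalDirectProduct Q R S)
    (h₁ : IsInternalDirectProduct Q₁ R₁ S) {n : ℕ} (hn : 1 ≤ n)
    (e : Q ≃* QuaternionGroup (2 ^ n)) (e₁ : Q₁ ≃* QuaternionGroup (2 ^ n))
    {z z₁ : G} (hz : z ∈ Q) (hz2 : orderOf z = 2) (hz₁ : z₁ ∈ Q₁) (hz₁2 : orderOf z₁ = 2) :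
    z₁ = z ∨ z₁ ∈ R := by
  obtain ⟨c, hc, hc1, hcc, huniq, -⟩ := quat_sub hn e
  obtain ⟨c₁, hc₁, hc₁1, hcc₁, huniq₁, x, hx, y, hy, hxy⟩ := quat_sub hn e₁
  have hz1 : z ≠ 1 := by rintro rfl; rw [orderOf_one] at hz2; omega
  have hz₁1 : z₁ ≠ 1 := by rintro rfl; rw [orderOf_one] at hz₁2; omega
  have hzz : z * z = 1 := by rw [← pow_two, ← hz2, pow_orderOf_eq_one]
  have hzz₁ : z₁ * z₁ = 1 := by rw [← pow_two, ← hz₁2, pow_orderOf_eq_one]
  have ec : z = c := (huniq z hz hzz).resolve_left hz1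
  have ec₁ : z₁ = c₁ := (huniq₁ z₁ hz₁ hzz₁).resolve_left hz₁1
  by_cases hR : z₁ ∈ R
  · exact Or.inr hR
  left
  -- Q₁ ∩ R = 1
  have hint : Q₁ ⊓ R = ⊥ := by
    by_contra hne
    obtain ⟨⟨w, hw⟩, hw1'⟩ := (Subgroup.ne_bot_iff_exists_ne_one (H := Q₁ ⊓ R)).mp hne
    have hw1 : w ≠ 1 := fun h => hw1' (Subtype.ext h)
    obtain ⟨k, hk⟩ := orderOf_of_mem_isPGroup hS (h₁.1 hw.1)
    have hk0 : k ≠ 0 := by
      rintro rfl; rw [pow_zero, orderOf_eq_one_iff] at hk; exact hw1 hk
    set t := w ^ (2 ^ (k - 1)) with ht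
    have htm : t ∈ Q₁ ⊓ R := pow_mem hw _
    have htt : t * t = 1 := by
      rw [ht, ← pow_add, ← two_mul, ← pow_succ', Nat.sub_add_cancel (by omega), ← hk,
        pow_orderOf_eq_one]
    have ht1 : t ≠ 1 := by
      intro h
      have := orderOf_dvd_of_pow_eq_one h
      rw [hk, Nat.pow_dvd_pow_iff_le_right (by norm_num)] at this
      omega
    have := (huniq₁ t htm.1 htt).resolve_left ht1
    exact hR (by rw [ec₁, ← this]; exact htm.2)
  -- decomposition of elements of S
  have hnorm : Q ≤ normalizer (R : Set G) := by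
    intro q hq
    rw [mem_normalizer_iff]
    intro r
    constructor
    · intro hr
      rw [h.2.2.1 q hq r hr, mul_inv_cancel_right]; exact hr
    · intro hr
      have h3 := h.2.2.1 q hq _ hr
      have h4 : q * (q * r * q⁻¹) * q⁻¹ = q * r * q⁻¹ := by rw [h3]; group
      have h5 : q * r * q⁻¹ = r := mul_left_cancel (mul_right_cancel (b := q⁻¹) h4)
      rw [← h5]; exact hr
  have hdec : ∀ s ∈ S, ∃ q ∈ Q, ∃ r ∈ R, q * r = s := by
    intro s hs
    rw [← h.2.2.2.2] at hs
    exact (H47.mem_sup_of_le_normalizer hnorm).mp hs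
  -- Q₁ centralizes R
  have hQ₁n : ∀ s ∈ S, ∀ q ∈ Q₁, s * q * s⁻¹ ∈ Q₁ := by
    intro s hs q hq
    have hS₁ : S ≤ normalizer (Q₁ : Set G) := by
      rw [← h₁.2.2.2.2, sup_le_iff]
      refine ⟨le_normalizer, fun r hr => ?_⟩
      rw [mem_normalizer_iff]
      intro q
      constructor
      · intro hq
        rw [← h₁.2.2.1 q hq r hr, mul_inv_cancel_right]; exact hq
      · intro hq
        have h3 := h₁.2.2.1 _ hq r hr
        have h4 : r * (r * q * r⁻¹) * r⁻¹ = r * q * r⁻¹ := by rw [← h3]; group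
        have h5 : r * q * r⁻¹ = q := mul_left_cancel (mul_right_cancel (b := r⁻¹) h4)
        rw [← h5]; exact hq
    exact (mem_normalizer_iff.mp (hS₁ hs) q).mp hq
  have hRn : ∀ s ∈ S, ∀ r ∈ R, s * r * s⁻¹ ∈ R := by
    intro s hs r hr
    have hS₁ : S ≤ normalizer (R : Set G) := by
      rw [← h.2.2.2.2, sup_le_iff]
      exact ⟨hnorm, le_normalizer⟩
    exact (mem_normalizer_iff.mp (hS₁ hs) r).mp hr
  have hcomm : ∀ q ∈ Q₁, ∀ r ∈ R, q * r = r * q := by
    intro q hq r hr
    have h1 : q * r * q⁻¹ * r⁻¹ ∈ Q₁ ⊓ R := by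
      refine mem_inf.mpr ⟨?_, ?_⟩
      · have := mul_mem hq (hQ₁n r (h.2.1 hr) q⁻¹ (inv_mem hq))
        have e : q * r * q⁻¹ * r⁻¹ = q * (r * q⁻¹ * r⁻¹) := by group
        rw [e]; exact this
      · exact mul_mem (hRn q (h₁.1 hq) r hr) (inv_mem hr)
    rw [hint, mem_bot, mul_inv_eq_one, mul_inv_eq_iff_eq_mul] at h1
    exact h1
  -- x = q r, y = q' r'
  obtain ⟨q, hq, r, hr, hqr⟩ := hdec x (h₁.1 hx)
  obtain ⟨q', hq', r', hr', hqr'⟩ := hdec y (h₁.1 hy)
  have hrr : r * r' = r' * r := by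
    have h1 := hcomm x hx r' hr'
    rw [← hqr] at h1
    have h2 := h.2.2.1 q hq r' hr'
    have h3 : q * (r * r') = q * (r' * r) := by
      calc q * (r * r') = q * r * r' := by group
        _ = r' * (q * r) := h1
        _ = r' * q * r := by group
        _ = q * r' * r := by rw [h2]
        _ = q * (r' * r) := by group
    exact mul_left_cancel h3
  have hzQ : z₁ ∈ Q := by
    have h1 : z₁ = q * q' * q⁻¹ * q'⁻¹ := by
      rw [ec₁, ← hxy, ← hqr, ← hqr']
      have c1 : Commute r q' := (h.2.2.1 q' hq' r hr).symm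
      have c2 : Commute r q := (h.2.2.1 q hq r hr).symm
      have c3 : Commute r' q := (h.2.2.1 q hq r' hr').symm
      have c4 : Commute r' q' := (h.2.2.1 q' hq' r' hr').symm
      have c5 : Commute r r' := hrr
      calc q * r * (q' * r') * (q * r)⁻¹ * (q' * r')⁻¹
          = q * (r * q') * r' * r⁻¹ * q⁻¹ * r'⁻¹ * q'⁻¹ := by group
        _ = q * (q' * r) * r' * r⁻¹ * q⁻¹ * r'⁻¹ * q'⁻¹ := by rw [c1.eq]
        _ = q * q' * (r * r') * r⁻¹ * q⁻¹ * r'⁻¹ * q'⁻¹ := by group
        _ = q * q' * (r' * r) * r⁻¹ * q⁻¹ * r'⁻¹ * q'⁻¹ := by rw [c5.eq]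
        _ = q * q' * (r' * q⁻¹) * r'⁻¹ * q'⁻¹ := by group
        _ = q * q' * (q⁻¹ * r') * r'⁻¹ * q'⁻¹ := by rw [(c3.inv_right).eq]
        _ = q * q' * q⁻¹ * q'⁻¹ := by group
    rw [h1]
    exact mul_mem (mul_mem (mul_mem hq hq') (inv_mem hq)) (inv_mem hq')
  rw [ec]
  exact (huniq z₁ hzQ hzz₁).resolve_left hz₁1

/-- Let G be a finite group whose Sylow 2-subgroup S is an internal direct product Q × R with Q generalized quaternion (of order at least 8) and R a subgroup all of whose involutions are central in R. Then G is not simple. In particular no finite simple group has a Sylow 2-subgroup that is a direct product of one or more generalized quaternion groups. -/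
theorem result {G : Type*} [Group G] [Finite G]
    (S : Sylow 2 G) (Q R : Subgroup G) (hQR : Cfsg.IsInternalDirectProduct Q R (S : Subgroup G))
    (n : ℕ) (hn : 1 ≤ n) (eQ : ↥Q ≃* QuaternionGroup (2 ^ n))
    (hR : ∀ r ∈ R, orderOf r = 2 → ∀ s ∈ R, r * s = s * r) :
    ¬ IsSimpleGroup G := by
  intro hsimple
  classical
  obtain ⟨z, hzQ, hz1, hzz, huniq, x₀, hx₀, y₀, hy₀, hxy₀⟩ := quat_sub hn eQ
  have hz2 : orderOf z = 2 := orderOf_eq_prime (by rw [pow_two]; exact hzz) hz1
  -- involutions of S are central in S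
  have hnorm : Q ≤ normalizer (R : Set G) := by
    intro q hq
    rw [mem_normalizer_iff]
    intro r
    constructor
    · intro hr
      rw [hQR.2.2.1 q hq r hr, mul_inv_cancel_right]; exact hr
    · intro hr
      have h3 := hQR.2.2.1 q hq _ hr
      have h4 : q * (q * r * q⁻¹) * q⁻¹ = q * r * q⁻¹ := by rw [h3]; group
      have h5 : q * r * q⁻¹ = r := mul_left_cancel (mul_right_cancel (b := q⁻¹) h4)
      rw [← h5]; exact hr
  have hdec : ∀ s ∈ (S : Subgroup G), ∃ q ∈ Q, ∃ r ∈ R, q * r = s := by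
    intro s hs
    rw [← hQR.2.2.2.2] at hs
    exact (H47.mem_sup_of_le_normalizer hnorm).mp hs
  have hcen : ∀ s ∈ (S : Subgroup G), s * s = 1 → ∀ w ∈ (S : Subgroup G), s * w = w * s := by
    intro s hs hss w hw
    obtain ⟨q, hq, r, hr, rfl⟩ := hdec s hs
    obtain ⟨q', hq', r', hr', rfl⟩ := hdec w hw
    have c1 : Commute q r := hQR.2.2.1 q hq r hr
    have h1 : q * q * (r * r) = 1 := by
      calc q * q * (r * r) = q * (q * r) * r := by group
        _ = q * (r * q) * r := by rw [c1.eq]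
        _ = (q * r) * (q * r) := by group
        _ = 1 := hss
    have h2 : q * q ∈ Q ⊓ R := by
      refine mem_inf.mpr ⟨mul_mem hq hq, ?_⟩
      rw [mul_eq_one_iff_eq_inv] at h1
      rw [h1]; exact inv_mem (mul_mem hr hr)
    rw [hQR.2.2.2.1, mem_bot] at h2
    rw [h2, one_mul] at h1
    have cq : ∀ v ∈ Q, q * v = v * q := by
      intro v hv
      rcases huniq q hq h2 with h | h
      · rw [h, one_mul, mul_one]
      · have h3 : v * q * v⁻¹ ∈ Q := mul_mem (mul_mem hv hq) (inv_mem hv)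
        have h4 : (v * q * v⁻¹) * (v * q * v⁻¹) = 1 := by
          calc (v * q * v⁻¹) * (v * q * v⁻¹) = v * (q * q) * v⁻¹ := by group
            _ = 1 := by rw [h2]; group
        rcases huniq _ h3 h4 with h5 | h5
        · exfalso
          have : q = 1 := by
            calc q = v⁻¹ * (v * q * v⁻¹) * v := by group
              _ = 1 := by rw [h5]; group
          rw [h] at this; exact hz1 this
        · rw [← h, mul_inv_eq_iff_eq_mul] at h5
          exact h5.symm
    have cr : ∀ v ∈ R, r * v = v * r := by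
      intro v hv
      by_cases hr1 : r = 1
      · rw [hr1, one_mul, mul_one]
      · exact hR r hr (orderOf_eq_prime (by rw [pow_two]; exact h1) hr1) v hv
    have d1 : Commute q q' := cq q' hq'
    have d2 : Commute q r' := hQR.2.2.1 q hq r' hr'
    have d3 : Commute r q' := (hQR.2.2.1 q' hq' r hr).symm
    have d4 : Commute r r' := cr r' hr'
    exact ((d1.mul_right d2).mul_left (d3.mul_right d4)).eq
  -- the set T
  set T : Set G := {w | ∃ Q' R' : Subgroup G, IsInternalDirectProduct Q' R' (S : Subgroup G) ∧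
    Nonempty (Q' ≃* QuaternionGroup (2 ^ n)) ∧ w ∈ Q' ∧ orderOf w = 2} with hT
  have hTS : ∀ w ∈ T, w ∈ (S : Subgroup G) := by
    rintro w ⟨Q', R', h1, -, h3, -⟩
    exact h1.1 h3
  have hTsq : ∀ w ∈ T, w * w = 1 := by
    rintro w ⟨Q', R', -, -, -, h4⟩
    rw [← pow_two, ← h4, pow_orderOf_eq_one]
  have hTkey : ∀ w ∈ T, w = z ∨ w ∈ R := by
    rintro w ⟨Q', R', h1, ⟨e'⟩, h3, h4⟩
    exact key S.2 hQR h1 hn eQ e' hzQ hz2 h3 h4
  have hTconj : ∀ g ∈ normalizer ((S : Subgroup G) : Set G), ∀ w ∈ T, g * w * g⁻¹ ∈ T := by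
    rintro g hg w ⟨Q', R', ⟨h1, h2, h3, h4, h5⟩, ⟨e'⟩, h6, h7⟩
    have hgS : MulAut.conj g • (S : Subgroup G) = (S : Subgroup G) := by
      ext x
      rw [Hall.mem_conj_smul]
      have := mem_normalizer_iff.mp (inv_mem hg) x
      rw [inv_inv] at this
      exact this.symm
    refine ⟨MulAut.conj g • Q', MulAut.conj g • R', ⟨?_, ?_, ?_, ?_, ?_⟩, ?_, ?_, ?_⟩
    · rw [← hgS]; exact pointwise_smul_le_pointwise_smul_iff.mpr h1
    · rw [← hgS]; exact pointwise_smul_le_pointwise_smul_iff.mpr h2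
    · intro a ha b hb
      rw [Hall.mem_conj_smul] at ha hb
      have := h3 _ ha _ hb
      have e1 : g * (g⁻¹ * a * g * (g⁻¹ * b * g)) * g⁻¹ = a * b := by group
      have e2 : g * (g⁻¹ * b * g * (g⁻¹ * a * g)) * g⁻¹ = b * a := by group
      rw [← e1, ← e2, this]
    · rw [← smul_inf, h4, smul_bot]
    · rw [← smul_sup, h5, hgS]
    · exact ⟨(Subgroup.equivSMul (MulAut.conj g) Q').symm.trans e'⟩
    · rw [Hall.mem_conj_smul]
      have : g⁻¹ * (g * w * g⁻¹) * g = w := by group
      rw [this]; exact h6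
    · rw [← h7]; exact (MulAut.conj g).orderOf_eq w
  have hzT : z ∈ T := ⟨Q, R, hQR, ⟨eQ⟩, hzQ, hz2⟩
  -- product
  have hTc : ∀ w (hw : w ∈ T), (⟨w, hTS w hw⟩ : (S : Subgroup G)) ∈
      center (S : Subgroup G) := by
    intro w hw
    rw [mem_center_iff]
    intro v
    exact Subtype.ext (hcen w (hTS w hw) (hTsq w hw) v v.2).symm
  haveI : Fintype (center (S : Subgroup G)) := Fintype.ofFinite _
  letI : CommGroup (center (S : Subgroup G)) :=
    { (inferInstance : Group (center (S : Subgroup G))) with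
      mul_comm := fun a b => Subtype.ext (mem_center_iff.mp b.2 a) }
  set F : Finset (center (S : Subgroup G)) := Finset.univ.filter
    (fun c => (((c : (S : Subgroup G)) : G) ∈ T)) with hF
  have hFmem : ∀ c, c ∈ F ↔ (((c : (S : Subgroup G)) : G) ∈ T) := by
    intro c; rw [hF, Finset.mem_filter]; simp
  set t : center (S : Subgroup G) := ∏ c ∈ F, c with ht
  set zc : center (S : Subgroup G) := ⟨_, hTc z hzT⟩ with hzc
  have hzcF : zc ∈ F := (hFmem zc).mpr hzT
  have htz : t = zc * ∏ c ∈ F.erase zc, c := (Finset.mul_prod_erase F (fun c => c) hzcF).symm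
  have htR : ∃ r ∈ R, ((t : (S : Subgroup G)) : G) = z * r := by
    refine ⟨(((∏ c ∈ F.erase zc, c : center (S : Subgroup G)) : (S : Subgroup G)) : G), ?_, ?_⟩
    · have : (∏ c ∈ F.erase zc, c : center (S : Subgroup G)) ∈
          (R.comap (S : Subgroup G).subtype).comap (center (S : Subgroup G)).subtype := by
        apply Subgroup.prod_mem
        intro c hc
        rw [Finset.mem_erase, hFmem] at hc
        rcases hTkey _ hc.2 with h | h
        · exfalso
          apply hc.1
          apply Subtype.ext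
          apply Subtype.ext
          exact h
        · exact h
      exact this
    · rw [htz]; rfl
  obtain ⟨r, hr, htr⟩ := htR
  have ht1 : ((t : (S : Subgroup G)) : G) ≠ 1 := by
    intro h
    rw [htr, mul_eq_one_iff_eq_inv] at h
    have : z ∈ Q ⊓ R := mem_inf.mpr ⟨hzQ, by rw [h]; exact inv_mem hr⟩
    rw [hQR.2.2.2.1, mem_bot] at this
    exact hz1 this
  have htt : ((t : (S : Subgroup G)) : G) * ((t : (S : Subgroup G)) : G) = 1 := by
    have h1 : t * t = 1 := by
      rw [ht, ← Finset.prod_mul_distrib]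
      apply Finset.prod_eq_one
      intro c hc
      apply Subtype.ext
      apply Subtype.ext
      exact hTsq _ ((hFmem c).mp hc)
    exact congrArg (fun u : center (S : Subgroup G) => ((u : (S : Subgroup G)) : G)) h1
  set τ : G := ((t : (S : Subgroup G)) : G) with hτ
  have hτS : τ ∈ (S : Subgroup G) := (t : (S : Subgroup G)).2
  -- t is fixed by N(S)
  have hfix : ∀ g ∈ normalizer ((S : Subgroup G) : Set G), g * τ * g⁻¹ = τ := by
    intro g hg
    set φ : center (S : Subgroup G) ≃* center (S : Subgroup G) :=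
      Subgroup.centerCongr ((S : Subgroup G).normalizerMonoidHom ⟨g, hg⟩) with hφ
    have hφv : ∀ c, (((φ c : center (S : Subgroup G)) : (S : Subgroup G)) : G) =
        g * ((c : (S : Subgroup G)) : G) * g⁻¹ := fun c => rfl
    have h1 : φ t = t := by
      rw [ht, map_prod]
      apply Finset.prod_equiv φ.toEquiv
      · intro c
        rw [hFmem, hFmem]
        constructor
        · intro hc
          have := hTconj g hg _ hc
          rw [← hφv] at this
          exact this
        · intro hc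
          have h2 : (((φ c : center (S : Subgroup G)) : (S : Subgroup G)) : G) ∈ T := hc
          rw [hφv] at h2
          have := hTconj g⁻¹ (inv_mem hg) _ h2
          have e : g⁻¹ * (g * ((c : (S : Subgroup G)) : G) * g⁻¹) * g⁻¹⁻¹ =
            ((c : (S : Subgroup G)) : G) := by group
          rwa [e] at this
      · intro c _; rfl
    rw [hτ, ← hφv, h1]
  have hτcen : τ ∈ centralizer ((S : Subgroup G) : Set G) := by
    rw [mem_centralizer_iff]
    intro w hw
    exact (hcen τ hτS htt w hw).symm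
  have hzs := zstar_gen (Nat.card G) G le_rfl S τ hτS (by
    intro g hg
    have h2 : g * τ * g⁻¹ ∈ centralizer ((S : Subgroup G) : Set G) := by
      rw [mem_centralizer_iff]
      intro w hw
      refine (hcen _ hg ?_ w hw).symm
      calc (g * τ * g⁻¹) * (g * τ * g⁻¹) = g * (τ * τ) * g⁻¹ := by group
        _ = 1 := by rw [htt]; group
    obtain ⟨m, hm, e⟩ := S.conj_eq_normalizer_conj_of_mem_centralizer τ g⁻¹ hτcen (by
      rw [inv_inv]; exact h2)
    rw [inv_inv] at e
    rw [e]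
    have := hfix m⁻¹ (inv_mem hm)
    rwa [inv_inv] at this)
  -- G simple
  have hO : pPrimeCore 2 G = ⊥ := by
    rcases (pPrimeCore_normal 2 G).eq_bot_or_eq_top with h | h
    · exact h
    · exfalso
      have h1 : (Nat.card (pPrimeCore 2 G)).Coprime 2 := Solv.pPrimeCore_card_coprime 2
      rw [h, Subgroup.card_top] at h1
      have h2 : 2 ∣ Nat.card G := by rw [← hz2]; exact orderOf_dvd_natCard z
      have h3 := Nat.Coprime.eq_one_of_dvd h1.symm h2
      omega
  have hτc : τ ∈ center G := by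
    rw [mem_center_iff]
    intro g
    have := hzs g
    rw [hO, mem_bot, mul_inv_eq_one, mul_inv_eq_iff_eq_mul] at this
    exact this
  have hcentop : center G = ⊤ := by
    rcases (inferInstance : (center G).Normal).eq_bot_or_eq_top with h | h
    · exfalso; rw [h, mem_bot] at hτc; exact ht1 hτc
    · exact h
  have hx : x₀ ∈ center G := by rw [hcentop]; exact mem_top _
  rw [mem_center_iff] at hx
  have := hx y₀
  rw [← this] at hxy₀
  apply hz1
  rw [← hxy₀]; group

end Cfsg.Agent.S3269
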