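import Cfsg.Statements.S3279
import Cfsg.Agent.H55.FewInv

set_option autoImplicit false
open Pointwise
open Cfsg

namespace Cfsg.Agent.S3279

open Cfsg.Agent.H55

/-- Let G be a finite simple group and x an involution of G whose centralizer contains at most three involutions. Then C_G(x) contains a Sylow 2-subgroup of G, and all involutions of G are conjugate. -/
theorem result {G : Type*} [Group G] [Finite G] [IsSimpleGroup G] (x : G) (hx : orderOf x = 2)
    (h3 : Nat.card {u : ↥(Subgroup.centralizer ({x} : Set G)) // orderOf u = 2} ≤ 3) :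
    (∃ S : Sylow 2 G, (S : Subgroup G) ≤ Subgroup.centralizer ({x} : Set G)) ∧
      ∀ u v : G, orderOf u = 2 → orderOf v = 2 → IsConj u v := by
  haveI : Fact (Nat.Prime 2) := ⟨Nat.prime_two⟩
  have hx1 : x ≠ 1 := by rintro rfl; rw [orderOf_one] at hx; omega
  have hx2 : x * x = 1 := by rw [← pow_two, ← hx]; exact pow_orderOf_eq_one x
  have hall : ∀ u : G, orderOf u = 2 → Commute u x → IsConj x u := by
    intro u hu hux
    by_cases hne : x = u
    · rw [hne]
    · have hI := three_involutions hx h3 hu hux.symm hne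
      exact isConj_of_three_involutions hx hu hux.symm hne hI
  -- a Sylow subgroup containing x
  have hz2 : IsPGroup 2 (Subgroup.zpowers x) := by
    apply IsPGroup.of_card (n := 1)
    rw [Nat.card_zpowers, hx, pow_one]
  obtain ⟨P, hP⟩ := hz2.exists_le_sylow
  have hxP : x ∈ (P : Subgroup G) := hP (Subgroup.mem_zpowers x)
  have hPne : (P : Subgroup G) ≠ ⊥ := by
    intro h; rw [h, Subgroup.mem_bot] at hxP; exact hx1 hxP
  obtain ⟨z, hzP, hz, hzc⟩ := two_group_center_involution (P : Subgroup G) P.isPGroup' hPne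
  have hzx : IsConj x z := hall z hz (hzc x hxP).symm
  have hcj : ∀ v : G, orderOf v = 2 → IsConj x v := by
    intro v hv
    have hz2 : IsPGroup 2 (Subgroup.zpowers v) := by
      apply IsPGroup.of_card (n := 1)
      rw [Nat.card_zpowers, hv, pow_one]
    obtain ⟨Q, hQ⟩ := hz2.exists_le_sylow
    have hvQ : v ∈ (Q : Subgroup G) := hQ (Subgroup.mem_zpowers v)
    obtain ⟨g, hg⟩ := MulAction.exists_smul_eq G P Q
    have hg' : ∀ a : G, a ∈ (P : Subgroup G) → g * a * g⁻¹ ∈ (Q : Subgroup G) := by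
      intro a ha
      rw [← hg]
      exact Subgroup.smul_mem_pointwise_smul a (MulAut.conj g) _ ha
    have hg'' : ∀ b : G, b ∈ (Q : Subgroup G) → g⁻¹ * b * g ∈ (P : Subgroup G) := by
      intro b hb
      rw [← hg] at hb
      have : b ∈ MulAut.conj g • (P : Subgroup G) := hb
      rw [Subgroup.mem_pointwise_smul_iff_inv_smul_mem] at this
      simpa [MulAut.conj_inv_apply] using this
    -- v commutes with g z g⁻¹
    have h1 : Commute (g⁻¹ * v * g) z := hzc _ (hg'' v hvQ)
    obtain ⟨k, hk⟩ := isConj_iff.1 hzx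
    rw [← hk] at h1
    have h2 : Commute (k⁻¹ * (g⁻¹ * v * g) * k) x := by
      have := h1.conj k⁻¹
      have e1 : k⁻¹ * (g⁻¹ * v * g) * (k⁻¹)⁻¹ = k⁻¹ * (g⁻¹ * v * g) * k := by group
      have e2 : k⁻¹ * (k * x * k⁻¹) * (k⁻¹)⁻¹ = x := by group
      rwa [e1, e2] at this
    have h3 : orderOf (k⁻¹ * (g⁻¹ * v * g) * k) = 2 := by
      have e : k⁻¹ * (g⁻¹ * v * g) * k = MulAut.conj (k⁻¹ * g⁻¹) v := by
        simp [mul_assoc]
      rw [e, ← hv]; exact (MulAut.conj (k⁻¹ * g⁻¹)).orderOf_eq v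
    have h4 := hall _ h3 h2
    refine h4.trans (isConj_iff.2 ⟨g * k, by group⟩)
  refine ⟨?_, fun u v hu hv => (hcj u hu).symm.trans (hcj v hv)⟩
  obtain ⟨k, hk⟩ := isConj_iff.1 hzx
  refine ⟨k⁻¹ • P, ?_⟩
  intro a ha
  have ha' : a ∈ MulAut.conj k⁻¹ • (P : Subgroup G) := ha
  rw [Subgroup.mem_pointwise_smul_iff_inv_smul_mem] at ha'
  have h1 : k * a * k⁻¹ ∈ (P : Subgroup G) := by simpa using ha'
  have h2 := hzc _ h1
  rw [← hk] at h2
  have := h2.conj k⁻¹
  have e1 : k⁻¹ * (k * a * k⁻¹) * (k⁻¹)⁻¹ = a := by group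
  have e2 : k⁻¹ * (k * x * k⁻¹) * (k⁻¹)⁻¹ = x := by group
  rw [e1, e2] at this
  exact Subgroup.mem_centralizer_singleton_iff.2 this

end Cfsg.Agent.S3279
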