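import Cfsg.Statements.S3278
import Cfsg.Agent.S3279
import Cfsg.Agent.H55.FourChar
import Cfsg.Agent.H55.KleinSylow

set_option autoImplicit false
set_option linter.style.haveILetI false
open Cfsg

namespace Cfsg.Agent.S3278

open Cfsg.Agent.H55 Cfsg.Agent.CharBase
open scoped ComplexConjugate

universe u

/-- Group data of the configuration: centraliser `S₀ × O`. -/
structure GD {G : Type u} [Group G] (x t : G) (S₀ O : Subgroup G) : Prop where
  x1 : x ≠ 1
  t1 : t ≠ 1
  tx : t ≠ x
  xS : x ∈ S₀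
  tS : t ∈ S₀
  all : ∀ u ∈ S₀, u = 1 ∨ u = x ∨ u = t ∨ u = x * t
  msq : ∀ u ∈ S₀, u * u = 1
  inv : ∀ u : G, u * x = x * u → u * u = 1 → u ∈ S₀
  odd : Odd (Nat.card O)
  comm : ∀ u ∈ S₀, ∀ y ∈ O, u * y = y * u
  SC : ∀ u ∈ S₀, u * x = x * u
  prod : ∀ g : G, g * x = x * g → ∃ u ∈ S₀, ∃ y ∈ O, g = u * y
  card : Nat.card (Subgroup.centralizer ({x} : Set G)) = 4 * Nat.card O
  allconj : ∀ u v : G, orderOf u = 2 → orderOf v = 2 → IsConj u v

namespace GD

variable {G : Type u} [Group G] [Finite G] {x t : G} {S₀ O : Subgroup G} (h : GD x t S₀ O)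

include h

theorem pow_odd (y : G) (hy : y ∈ O) : (x * y) ^ Nat.card O = x := by
  have hc : Commute x y := h.comm x h.xS y hy
  rw [hc.mul_pow]
  obtain ⟨k, hk⟩ := h.odd
  have h1 : y ^ Nat.card O = 1 := by
    have := Subgroup.orderOf_dvd_natCard O hy
    exact orderOf_dvd_iff_pow_eq_one.1 this
  rw [h1, mul_one, hk, pow_add, pow_mul, sq, h.msq x h.xS, one_pow, one_mul, pow_one]

theorem cen (g : G) (y : G) (hy : y ∈ O) (y' : G) (hy' : y' ∈ O)
    (e : g * (x * y) * g⁻¹ = x * y') : g * x = x * g := by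
  have h1 := congrArg (fun z => z ^ Nat.card O) e
  simp only [conj_pow, h.pow_odd y hy, h.pow_odd y' hy'] at h1
  calc g * x = (g * x * g⁻¹) * g := by group
    _ = x * g := by rw [h1]

theorem norm (g : G) (hg : g * x = x * g) (y : G) (hy : y ∈ O) :
    ∃ c ∈ O, g * y * g⁻¹ = c * y * c⁻¹ := by
  obtain ⟨u, hu, c, hc, rfl⟩ := h.prod g hg
  refine ⟨c, hc, ?_⟩
  have h1 : u * (c * y * c⁻¹) = (c * y * c⁻¹) * u :=
    h.comm u hu _ (O.mul_mem (O.mul_mem hc hy) (O.inv_mem hc))
  calc u * c * y * (u * c)⁻¹ = (u * (c * y * c⁻¹)) * u⁻¹ := by group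
    _ = c * y * c⁻¹ := by rw [h1]; group

/-- If a product of two involutions is `x y` then `y = 1` and the factors lie in `S₀`. -/
theorem pair (u v : G) (hu : orderOf u = 2) (hv : orderOf v = 2) (y : G) (hy : y ∈ O)
    (e : u * v = x * y) : y = 1 ∧ ((u = t ∧ v = x * t) ∨ (u = x * t ∧ v = t)) := by
  have hu2 := mul_self_of_orderOf hu
  have hv2 := mul_self_of_orderOf hv
  have hui : u⁻¹ = u := inv_eq_of_mul_eq_one_left hu2
  have hvi : v⁻¹ = v := inv_eq_of_mul_eq_one_left hv2
  have hx2 := h.msq x h.xS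
  have hxi : x⁻¹ = x := inv_eq_of_mul_eq_one_left hx2
  -- u inverts x y
  have h1 : u * (x * y) * u⁻¹ = x * y⁻¹ := by
    rw [← e]
    have h2 : u * (u * v) * u⁻¹ = v * u := by rw [← mul_assoc, hu2, one_mul, hui]
    have h3 : v * u = (x * y)⁻¹ := by rw [← e, mul_inv_rev, hui, hvi]
    rw [h2, h3, mul_inv_rev, hxi]
    exact (h.comm x h.xS y⁻¹ (O.inv_mem hy)).symm
  have h2 := h.cen u y hy y⁻¹ (O.inv_mem hy) h1
  have huS := h.inv u h2 hu2
  have h3 : y = y⁻¹ := by
    have h4 : u * (x * y) * u⁻¹ = x * y := by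
      have h5 : u * (x * y) = (x * y) * u := by
        rw [← mul_assoc, h2, mul_assoc, h.comm u huS y hy, mul_assoc]
      rw [h5]; group
    rw [h4] at h1
    exact mul_left_cancel h1
  have hy2 : y * y = 1 := by
    calc y * y = y * y⁻¹ := by rw [← h3]
      _ = 1 := mul_inv_cancel y
  have hy1 : y = 1 := by
    have d1 : orderOf y ∣ 2 := orderOf_dvd_of_pow_eq_one (by rw [sq]; exact hy2)
    have d2 : orderOf y ∣ Nat.card O := Subgroup.orderOf_dvd_natCard O hy
    have d3 : orderOf y ∣ 1 := by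
      have : Nat.Coprime 2 (Nat.card O) := by
        rw [Nat.coprime_two_left]; exact h.odd
      rw [← this]; exact Nat.dvd_gcd d1 d2
    exact orderOf_eq_one_iff.1 (Nat.dvd_one.1 d3)
  refine ⟨hy1, ?_⟩
  rw [hy1, mul_one] at e
  have hv' : v = u * x := by
    rw [← e, ← mul_assoc, hu2, one_mul]
  rcases h.all u huS with rfl | rfl | rfl | rfl
  · rw [orderOf_one] at hu; omega
  · rw [hx2] at hv'
    rw [hv', orderOf_one] at hv; omega
  · left; exact ⟨rfl, by rw [hv', h2]⟩
  · right
    refine ⟨rfl, ?_⟩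
    rw [hv', h.SC _ (S₀.mul_mem h.xS h.tS), ← mul_assoc, hx2, one_mul]

theorem orderOf_mem {u : G} (hu : u ∈ S₀) (hu1 : u ≠ 1) : orderOf u = 2 :=
  orderOf_eq_prime (by rw [_root_.sq]; exact h.msq u hu) hu1

theorem xt1 : x * t ≠ 1 := by
  intro e
  apply h.tx
  have hx2 := h.msq x h.xS
  calc t = x * (x * t) := by rw [← mul_assoc, hx2, one_mul]
    _ = x := by rw [e, mul_one]

theorem xtt : x * t ≠ t := by
  intro e; exact h.x1 (mul_eq_right.1 e)

theorem xtx : x * t ≠ x := by
  intro e; exact h.t1 (mul_eq_left.1 e)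

theorem count_conj [Fintype G] [DecidableEq G] (u : G) (hu : orderOf u = 2) :
    (∑ g : G, if g * x * g⁻¹ = u then (1 : ℂ) else 0) =
      (Nat.card (Subgroup.centralizer ({x} : Set G)) : ℂ) := by
  classical
  haveI : Fintype (IrrCharacter G) := Fintype.ofFinite _
  rw [← FourChar.col_count, column_orthogonality_of_isConj]
  exact h.allconj x u (h.orderOf_mem h.xS h.x1) hu

theorem pairs [Fintype G] [DecidableEq G] (y : G) (hy : y ∈ O) :
    (∑ a : G, ∑ g : G, if g * (x * (a * x * a⁻¹)) * g⁻¹ = x * y then (1 : ℂ) else 0)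
    = if y = 1 then 2 * (Nat.card (Subgroup.centralizer ({x} : Set G)) : ℂ) ^ 2 else 0 := by
  have hox := h.orderOf_mem h.xS h.x1
  have hoc : ∀ g : G, orderOf (g * x * g⁻¹) = 2 := by
    intro g
    have : g * x * g⁻¹ = MulAut.conj g x := by simp
    rw [this, ← hox]; exact (MulAut.conj g).orderOf_eq x
  rw [Finset.sum_comm]
  have e1 : ∀ g : G, (∑ a : G, if g * (x * (a * x * a⁻¹)) * g⁻¹ = x * y then (1 : ℂ) else 0) =
      ∑ b : G, if (g * x * g⁻¹) * (b * x * b⁻¹) = x * y then (1 : ℂ) else 0 := by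
    intro g
    rw [← Equiv.sum_comp (Equiv.mulLeft g)
      (fun b => if (g * x * g⁻¹) * (b * x * b⁻¹) = x * y then (1 : ℂ) else 0)]
    refine Finset.sum_congr rfl (fun a _ => ?_)
    have : g * x * g⁻¹ * ((Equiv.mulLeft g) a * x * ((Equiv.mulLeft g) a)⁻¹) =
        g * (x * (a * x * a⁻¹)) * g⁻¹ := by
      simp only [Equiv.coe_mulLeft]; group
    rw [this]
  rw [Finset.sum_congr rfl (fun g _ => e1 g)]
  split_ifs with hy1
  · have e2 : ∀ g b : G, (if (g * x * g⁻¹) * (b * x * b⁻¹) = x * y then (1 : ℂ) else 0) =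
        (if g * x * g⁻¹ = t then (1 : ℂ) else 0) * (if b * x * b⁻¹ = x * t then (1 : ℂ) else 0) +
        (if g * x * g⁻¹ = x * t then (1 : ℂ) else 0) * (if b * x * b⁻¹ = t then (1 : ℂ) else 0) := by
      intro g b
      have ht2 := h.msq t h.tS
      have htx := h.SC t h.tS
      by_cases c : (g * x * g⁻¹) * (b * x * b⁻¹) = x * y
      · rw [if_pos c]
        rcases (h.pair _ _ (hoc g) (hoc b) y hy c).2 with ⟨c1, c2⟩ | ⟨c1, c2⟩
        · rw [c1, c2, if_pos rfl, if_pos rfl, if_neg h.xtt.symm, zero_mul]; norm_num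
        · rw [c1, c2, if_pos rfl, if_pos rfl, if_neg h.xtt, zero_mul]; norm_num
      · rw [if_neg c]
        have n1 : ¬ (g * x * g⁻¹ = t ∧ b * x * b⁻¹ = x * t) := by
          rintro ⟨c1, c2⟩
          apply c
          rw [c1, c2, hy1, mul_one, ← mul_assoc, htx, mul_assoc, ht2, mul_one]
        have n2 : ¬ (g * x * g⁻¹ = x * t ∧ b * x * b⁻¹ = t) := by
          rintro ⟨c1, c2⟩
          apply c
          rw [c1, c2, hy1, mul_one, mul_assoc, ht2, mul_one]
        have m1 : (if g * x * g⁻¹ = t then (1 : ℂ) else 0) *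
            (if b * x * b⁻¹ = x * t then (1 : ℂ) else 0) = 0 := by
          by_cases c1 : g * x * g⁻¹ = t
          · rw [if_neg (fun c2 => n1 ⟨c1, c2⟩), mul_zero]
          · rw [if_neg c1, zero_mul]
        have m2 : (if g * x * g⁻¹ = x * t then (1 : ℂ) else 0) *
            (if b * x * b⁻¹ = t then (1 : ℂ) else 0) = 0 := by
          by_cases c1 : g * x * g⁻¹ = x * t
          · rw [if_neg (fun c2 => n2 ⟨c1, c2⟩), mul_zero]
          · rw [if_neg c1, zero_mul]
        rw [m1, m2, add_zero]
    simp only [e2, Finset.sum_add_distrib]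
    simp only [← Finset.mul_sum]
    rw [← Finset.sum_mul, ← Finset.sum_mul, h.count_conj t (h.orderOf_mem h.tS h.t1),
      h.count_conj (x * t) (h.orderOf_mem (S₀.mul_mem h.xS h.tS) h.xt1)]
    ring
  · apply Finset.sum_eq_zero
    intro g _
    apply Finset.sum_eq_zero
    intro b _
    rw [if_neg]
    intro c
    exact hy1 (h.pair _ _ (hoc g) (hoc b) y hy c).1

theorem kdata [Fintype G] [DecidableEq G]
    (hio : Odd (Subgroup.centralizer ({x} : Set G)).index)
    (hlin : ∀ χ : IrrCharacter G, (χ : G → ℂ) 1 = 1 → (χ : G → ℂ) = fun _ => 1) :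
    FourChar.KData x O :=
  ⟨h.x1, h.msq x h.xS, h.odd, fun y hy => h.comm x h.xS y hy,
    fun g y hy y' hy' e => h.cen g y hy y' hy' e, fun g hg y hy => h.norm g hg y hy,
    h.card, h.pairs, hio, hlin⟩

end GD

/-- Linear characters of non-abelian simple groups are trivial. -/
theorem lin_trivial {G : Type u} [Group G] [Finite G] [IsSimpleGroup G]
    (hnc : ¬ ∀ a b : G, a * b = b * a) (χ : IrrCharacter G) (h1 : (χ : G → ℂ) 1 = 1) :
    (χ : G → ℂ) = fun _ => 1 := by
  have hχ := irr_isCharacter χ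
  let f := Cfsg.Agent.Char.linHom hχ h1
  have hf : ∀ g, f g = (χ : G → ℂ) g := fun g => rfl
  rcases f.normal_ker.eq_bot_or_eq_top with h2 | h2
  · exfalso
    apply hnc
    intro a b
    have h3 : (b * a)⁻¹ * (a * b) ∈ f.ker := by
      rw [MonoidHom.mem_ker, map_mul, map_mul, mul_comm (f a) (f b), ← map_mul, ← map_mul,
        inv_mul_cancel, map_one]
    rw [h2, Subgroup.mem_bot, inv_mul_eq_one] at h3
    exact h3.symm
  · funext g
    rw [← hf]
    have : g ∈ f.ker := by rw [h2]; trivial
    exact this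

/-- Let G be a finite simple group with an involution x such that a Sylow 2-subgroup of C_G(x) is a Klein four-group which is normal in C_G(x). Then G is isomorphic to the alternating group of degree 5 (that is, to PSL(2, 5)). -/
theorem result {G : Type*} [Group G] [Finite G] [IsSimpleGroup G] (x : G) (hx : orderOf x = 2)
    (S₀ : Subgroup G) (hle : S₀ ≤ Subgroup.centralizer ({x} : Set G)) (hK : IsKleinFour ↥S₀)
    (hodd : ¬ 2 ∣ S₀.relIndex (Subgroup.centralizer ({x} : Set G))) (hn : (S₀.subgroupOf (Subgroup.centralizer ({x} : Set G))).Normal) :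
    Nonempty (G ≃* ↥(alternatingGroup (Fin 5))) := by
  classical
  haveI : Fact (Nat.Prime 2) := ⟨Nat.prime_two⟩
  haveI : Fintype G := Fintype.ofFinite G
  have hx2 := mul_self_of_orderOf hx
  have hx1 : x ≠ 1 := by rintro rfl; rw [orderOf_one] at hx; omega
  have hmC : ∀ g : G, g ∈ Subgroup.centralizer ({x} : Set G) ↔ g * x = x * g := fun g =>
    Subgroup.mem_centralizer_singleton_iff
  have hK0 : Nat.card (S₀.subgroupOf (Subgroup.centralizer ({x} : Set G))) = 4 := by
    rw [Nat.card_congr (Subgroup.subgroupOfEquivOfLe hle).toEquiv]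
    exact IsKleinFour.card_four
  have hodd' : Odd (S₀.subgroupOf (Subgroup.centralizer ({x} : Set G))).index := by
    rw [← Nat.not_even_iff_odd, even_iff_two_dvd]; exact hodd
  have htwo : ∀ g ∈ Subgroup.centralizer ({x} : Set G), (∃ k, g ^ 2 ^ k = 1) → g ∈ S₀ := by
    rintro g hg ⟨k, hk⟩
    let q : (Subgroup.centralizer ({x} : Set G)) ⧸ (S₀.subgroupOf (Subgroup.centralizer ({x} : Set G))) :=
      QuotientGroup.mk ⟨g, hg⟩
    have h1 : orderOf q ∣ 2 ^ k := by
      apply orderOf_dvd_of_pow_eq_one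
      show QuotientGroup.mk ((⟨g, hg⟩ : Subgroup.centralizer ({x} : Set G)) ^ 2 ^ k) = _
      have : (⟨g, hg⟩ : Subgroup.centralizer ({x} : Set G)) ^ 2 ^ k = 1 := Subtype.ext hk
      rw [this]; rfl
    have h2 : orderOf q ∣ (S₀.subgroupOf (Subgroup.centralizer ({x} : Set G))).index :=
      orderOf_dvd_natCard q
    have h3 : Nat.Coprime (2 ^ k) (S₀.subgroupOf (Subgroup.centralizer ({x} : Set G))).index := by
      apply Nat.Coprime.pow_left
      rw [Nat.coprime_two_left]; exact hodd'
    have h4 : orderOf q = 1 := Nat.eq_one_of_dvd_coprimes h3 h1 h2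
    rw [orderOf_eq_one_iff] at h4
    have h5 := (QuotientGroup.eq_one_iff _).1 h4
    exact h5
  have hxC : x ∈ Subgroup.centralizer ({x} : Set G) := (hmC x).2 rfl
  have hxS : x ∈ S₀ := htwo x hxC ⟨1, by rw [pow_one, sq]; exact hx2⟩
  have hsq : ∀ u ∈ S₀, u * u = 1 := by
    intro u hu
    have := IsKleinFour.mul_self (⟨u, hu⟩ : S₀)
    exact congrArg Subtype.val this
  have hSC : ∀ u ∈ S₀, u * x = x * u := fun u hu => (hmC u).1 (hle hu)
  obtain ⟨t, htS, ht1, htx⟩ : ∃ t ∈ S₀, t ≠ 1 ∧ t ≠ x := by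
    haveI : Fintype S₀ := Fintype.ofFinite _
    have h1 : ({1, ⟨x, hxS⟩} : Finset S₀).card < (Finset.univ : Finset S₀).card := by
      have h2 : (Finset.univ : Finset S₀).card = 4 := by
        rw [Finset.card_univ, ← Nat.card_eq_fintype_card]; exact IsKleinFour.card_four
      rw [h2]
      exact lt_of_le_of_lt Finset.card_le_two (by norm_num)
    obtain ⟨e, -, he⟩ := Finset.exists_mem_notMem_of_card_lt_card h1
    simp only [Finset.mem_insert, Finset.mem_singleton, not_or] at he
    refine ⟨e, e.2, ?_, ?_⟩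
    · intro h3; exact he.1 (Subtype.ext h3)
    · intro h3; exact he.2 (Subtype.ext h3)
  have hall : ∀ u ∈ S₀, u = 1 ∨ u = x ∨ u = t ∨ u = x * t := by
    intro u hu
    by_cases h1 : u = 1
    · exact Or.inl h1
    by_cases h2 : u = x
    · exact Or.inr (Or.inl h2)
    by_cases h3 : u = t
    · exact Or.inr (Or.inr (Or.inl h3))
    right; right; right
    have := IsKleinFour.eq_mul_of_ne_all (x := (⟨x, hxS⟩ : S₀)) (y := ⟨t, htS⟩) (z := ⟨u, hu⟩)
      (fun e => hx1 (congrArg Subtype.val e)) (fun e => ht1 (congrArg Subtype.val e))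
      (fun e => htx (congrArg Subtype.val e).symm) (fun e => h1 (congrArg Subtype.val e))
      (fun e => h2 (congrArg Subtype.val e)) (fun e => h3 (congrArg Subtype.val e))
    exact congrArg Subtype.val this
  -- at most three involutions in the centraliser
  have h3 : Nat.card {u : ↥(Subgroup.centralizer ({x} : Set G)) // orderOf u = 2} ≤ 3 := by
    have hmem : ∀ u : {u : ↥(Subgroup.centralizer ({x} : Set G)) // orderOf u = 2},
        ((u.1 : G)) ∈ S₀ := by
      intro u
      apply htwo _ u.1.2 ⟨1, ?_⟩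
      have h4 := u.2
      rw [← Subgroup.orderOf_coe] at h4
      rw [pow_one]
      exact orderOf_dvd_iff_pow_eq_one.1 h4.dvd
    let f : Option {u : ↥(Subgroup.centralizer ({x} : Set G)) // orderOf u = 2} → S₀ := fun o =>
      o.elim 1 (fun u => ⟨u.1, hmem u⟩)
    have hf : Function.Injective f := by
      have hne : ∀ u : {u : ↥(Subgroup.centralizer ({x} : Set G)) // orderOf u = 2},
          f (some u) ≠ 1 := by
        intro u e
        have h4 : ((u.1 : G)) = 1 := congrArg Subtype.val e
        have h5 := u.2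
        rw [← Subgroup.orderOf_coe, h4, orderOf_one] at h5
        omega
      intro a b hab
      rcases a with _ | a <;> rcases b with _ | b
      · rfl
      · exact absurd hab.symm (hne b)
      · exact absurd hab (hne a)
      · congr 1
        apply Subtype.ext; apply Subtype.ext
        exact congrArg (fun z : S₀ => (z : G)) hab
    have h4 := Nat.card_le_card_of_injective f hf
    have h5 : Nat.card S₀ = 4 := IsKleinFour.card_four
    rw [Finite.card_option, h5] at h4
    omega
  obtain ⟨⟨S, hSC'⟩, hconj⟩ := Cfsg.Agent.S3279.result x hx h3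
  have hS₀p : IsPGroup 2 S₀ := by
    apply IsPGroup.of_card (n := 2)
    rw [IsKleinFour.card_four]; norm_num
  have hSS : (S : Subgroup G) = S₀ := by
    have h4 : (S : Subgroup G) ≤ S₀ := by
      intro g hg
      obtain ⟨k, hk⟩ := S.isPGroup' ⟨g, hg⟩
      exact htwo g (hSC' hg) ⟨k, congrArg Subtype.val hk⟩
    exact (S.3 hS₀p h4).symm
  -- complement
  have hcop : Nat.Coprime (Nat.card (S₀.subgroupOf (Subgroup.centralizer ({x} : Set G))))
      (S₀.subgroupOf (Subgroup.centralizer ({x} : Set G))).index := by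
    rw [hK0, show 4 = 2 ^ 2 by norm_num]
    apply Nat.Coprime.pow_left
    rw [Nat.coprime_two_left]; exact hodd'
  obtain ⟨H, hH⟩ := Subgroup.exists_right_complement'_of_coprime hcop
  have hHcard : Nat.card H = (S₀.subgroupOf (Subgroup.centralizer ({x} : Set G))).index :=
    hH.symm.index_eq_card.symm
  let O : Subgroup G := H.map (Subgroup.centralizer ({x} : Set G)).subtype
  have hOcard : Nat.card O = Nat.card H :=
    (Nat.card_congr (H.equivMapOfInjective _ (Subgroup.subtype_injective _)).toEquiv).symm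
  have hOodd : Odd (Nat.card O) := by rw [hOcard, hHcard]; exact hodd'
  have hconjS : ∀ c : G, c * x = x * c → ∀ u ∈ S₀, c * u * c⁻¹ ∈ S₀ := by
    intro c hc u hu
    have := hn.conj_mem ⟨u, hle hu⟩ hu ⟨c, (hmC c).2 hc⟩
    exact this
  have hcommt : ∀ y ∈ O, t * y = y * t := by
    intro y hy
    have hyC : y * x = x * y := by
      obtain ⟨c, hc, rfl⟩ := hy
      exact (hmC _).1 c.2
    have hyt := hconjS y hyC t htS
    rcases hall _ hyt with e | e | e | e
    · exfalso; apply ht1
      have : t = y⁻¹ * (y * t * y⁻¹) * y := by group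
      rw [this, e]; group
    · exfalso; apply htx
      have : t = y⁻¹ * (y * t * y⁻¹) * y := by group
      rw [this, e]
      calc y⁻¹ * x * y = y⁻¹ * (x * y) := by group
        _ = x := by rw [← hyC]; group
    · calc t * y = (y * t * y⁻¹) * y := by rw [e]
        _ = y * t := by group
    · exfalso
      have h5 : Commute (y ^ 2) t := by
        have h6 : y ^ 2 * t * (y ^ 2)⁻¹ = t := by
          calc y ^ 2 * t * (y ^ 2)⁻¹ = y * (y * t * y⁻¹) * y⁻¹ := by rw [sq]; group
            _ = y * (x * t) * y⁻¹ := by rw [e]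
            _ = (y * x) * y⁻¹ * (y * t * y⁻¹) := by group
            _ = (x * y) * y⁻¹ * (x * t) := by rw [e, hyC]
            _ = (x * x) * t := by group
            _ = t := by rw [hx2, one_mul]
        show y ^ 2 * t = t * y ^ 2
        calc y ^ 2 * t = (y ^ 2 * t * (y ^ 2)⁻¹) * y ^ 2 := by group
          _ = t * y ^ 2 := by rw [h6]
      obtain ⟨k, hk⟩ := hOodd
      have h6 : y ^ (2 * k + 1) = 1 := by
        rw [← hk]
        exact orderOf_dvd_iff_pow_eq_one.1 (Subgroup.orderOf_dvd_natCard O hy)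
      have h7 : Commute (y ^ (2 * k)) t := by rw [pow_mul]; exact h5.pow_left k
      have h8 : y = (y ^ (2 * k))⁻¹ := by
        rw [pow_succ] at h6
        exact (inv_eq_of_mul_eq_one_right h6).symm
      have h9 : Commute y t := by rw [h8]; exact h7.inv_left
      have h10 : y * t * y⁻¹ = t := by rw [h9.eq]; group
      rw [e] at h10
      exact hx1 (mul_eq_right.1 h10)
  have hcomm : ∀ u ∈ S₀, ∀ y ∈ O, u * y = y * u := by
    intro u hu y hy
    have hyC : y * x = x * y := by
      obtain ⟨c, hc, rfl⟩ := hy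
      exact (hmC _).1 c.2
    rcases hall u hu with rfl | rfl | rfl | rfl
    · rw [one_mul, mul_one]
    · exact hyC.symm
    · exact hcommt y hy
    · rw [mul_assoc, hcommt y hy, ← mul_assoc, ← hyC, mul_assoc]
  have hgd : GD x t S₀ O := by
    refine ⟨hx1, ht1, htx, hxS, htS, hall, hsq, ?_, hOodd, hcomm, hSC, ?_, ?_, hconj⟩
    · intro u hu hu2
      exact htwo u ((hmC u).2 hu) ⟨1, by rw [pow_one, sq]; exact hu2⟩
    · intro g hg
      obtain ⟨⟨a, b⟩, hab⟩ := hH.2 ⟨g, (hmC g).2 hg⟩
      refine ⟨(a : Subgroup.centralizer ({x} : Set G)), a.2, (b : Subgroup.centralizer ({x} : Set G)),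
        ⟨b, b.2, rfl⟩, ?_⟩
      exact (congrArg Subtype.val hab).symm
    · rw [hOcard, ← hH.card_mul, hK0]
  have hCidx : Odd (Subgroup.centralizer ({x} : Set G)).index := by
    rw [← Nat.not_even_iff_odd, even_iff_two_dvd]
    intro h4
    exact S.not_dvd_index (h4.trans (Subgroup.index_dvd_of_le hSC'))
  have hnc : ¬ ∀ a b : G, a * b = b * a := by
    intro hab
    haveI hnor : (Subgroup.zpowers x).Normal := ⟨fun n hn g => by
      rw [hab g n, mul_inv_cancel_right]; exact hn⟩
    rcases hnor.eq_bot_or_eq_top with h4 | h4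
    · rw [Subgroup.zpowers_eq_bot] at h4; exact hx1 h4
    · have h5 : Nat.card (Subgroup.zpowers x) = Nat.card G := by rw [h4]; exact Subgroup.card_top
      rw [Nat.card_zpowers, hx] at h5
      have h6 := S₀.card_subgroup_dvd_card
      rw [IsKleinFour.card_four, ← h5] at h6
      exact absurd h6 (by norm_num)
  have h15 := (hgd.kdata hCidx (lin_trivial hnc)).index_eq
  have hG60 : Nat.card G = 60 * Nat.card O := by
    have := (Subgroup.centralizer ({x} : Set G)).card_mul_index
    rw [h15, hgd.card] at this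
    omega
  -- the normaliser
  let N : Subgroup G := Subgroup.normalizer (S₀ : Set G)
  have hCN : Subgroup.centralizer ({x} : Set G) ≤ N := by
    intro c hc
    rw [Subgroup.mem_normalizer_iff]
    have hc' := (hmC c).1 hc
    have hci : c⁻¹ * x = x * c⁻¹ := by
      have : Commute c x := hc'
      exact this.inv_left.eq
    intro u
    constructor
    · exact hconjS c hc' u
    · intro hu
      have := hconjS c⁻¹ hci _ hu
      have e : c⁻¹ * (c * u * c⁻¹) * c⁻¹⁻¹ = u := by group
      rwa [e] at this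
  have hNidx : N.index = 5 := by
    have hmul := Subgroup.relIndex_mul_index hCN
    rw [h15] at hmul
    letI : MulAction N G := MulAction.compHom G ((MulAut.conj : G →* MulAut G).comp N.subtype)
    have hact : ∀ (n : N) (g : G), n • g = n * g * (n : G)⁻¹ := fun n g => rfl
    have hstab : MulAction.stabilizer N x = (Subgroup.centralizer ({x} : Set G)).subgroupOf N := by
      ext n
      rw [MulAction.mem_stabilizer_iff, hact, Subgroup.mem_subgroupOf, hmC, mul_inv_eq_iff_eq_mul]
    have hrel : (Subgroup.centralizer ({x} : Set G)).relIndex N = (MulAction.orbit N x).ncard := by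
      rw [← MulAction.index_stabilizer, hstab]; rfl
    have hsub : MulAction.orbit N x ⊆ ({x, t, x * t} : Set G) := by
      rintro _ ⟨n, rfl⟩
      show n • x ∈ _
      rw [hact]
      have h4 : (n : G) * x * (n : G)⁻¹ ∈ S₀ := (Subgroup.mem_normalizer_iff.1 n.2 x).1 hxS
      rcases hall _ h4 with e | e | e | e
      · exfalso; apply hx1
        have : x = (n : G)⁻¹ * (n * x * (n : G)⁻¹) * n := by group
        rw [this, e]; group
      · rw [e]; simp
      · rw [e]; simp
      · rw [e]; simp
    have hle3 : (MulAction.orbit N x).ncard ≤ 3 := by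
      refine (Set.ncard_le_ncard hsub (Set.toFinite _)).trans ?_
      have h4 := Set.ncard_insert_le x ({t, x * t} : Set G)
      have h5 := Set.ncard_insert_le t ({x * t} : Set G)
      rw [Set.ncard_singleton] at h5
      omega
    have hne1 : (Subgroup.centralizer ({x} : Set G)).relIndex N ≠ 1 := by
      intro h4
      rw [Subgroup.relIndex_eq_one] at h4
      obtain ⟨c, hc⟩ := isConj_iff.1 (hconj x t hx (hgd.orderOf_mem htS ht1))
      haveI : IsMulCommutative (S : Subgroup G) := by
        refine ⟨⟨fun a b => Subtype.ext ?_⟩⟩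
        have ha : (a : G) ∈ S₀ := hSS ▸ a.2
        have hb : (b : G) ∈ S₀ := hSS ▸ b.2
        have hab := hsq _ (S₀.mul_mem ha hb)
        have ha2 := hsq _ ha
        have hb2 := hsq _ hb
        show (a : G) * b = b * a
        calc (a : G) * b = (a * b) * 1 := by rw [mul_one]
          _ = (a : G) * b * ((a * b) * (b * a)) := by
            have : (a : G) * b * (b * a) = 1 := by
              rw [mul_assoc, ← mul_assoc (b : G), hb2, one_mul, ha2]
            rw [this]
          _ = (a * b) * (a * b) * (b * a) := by group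
          _ = b * a := by rw [hab, one_mul]
      obtain ⟨n, hn', hnx⟩ := S.conj_eq_normalizer_conj_of_mem x c⁻¹
        (by show x ∈ (S : Subgroup G); rw [hSS]; exact hxS)
        (by rw [inv_inv, hc]; show t ∈ (S : Subgroup G); rw [hSS]; exact htS)
      rw [inv_inv, hc] at hnx
      have hnN : n ∈ N := by
        have : (S : Set G) = (S₀ : Set G) := by
          ext g; rw [← hSS]; rfl
        show n ∈ Subgroup.normalizer (S₀ : Set G)
        rw [← this]; exact hn'
      have h6 := (hmC n).1 (h4 hnN)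
      apply htx
      rw [hnx, mul_assoc, ← h6]; group
    rw [hrel] at hmul hne1
    have h7 : (MulAction.orbit N x).ncard = 0 ∨ (MulAction.orbit N x).ncard = 1 ∨
      (MulAction.orbit N x).ncard = 2 ∨ (MulAction.orbit N x).ncard = 3 := by omega
    rcases h7 with h7 | h7 | h7 | h7 <;> rw [h7] at hmul hne1 <;> omega
  -- the action on five points
  have hker : (MulAction.toPermHom G (G ⧸ N)).ker = ⊥ := by
    rcases (MulAction.toPermHom G (G ⧸ N)).normal_ker.eq_bot_or_eq_top with h4 | h4
    · exact h4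
    · exfalso
      rw [← Subgroup.normalCore_eq_ker] at h4
      have h5 : N = ⊤ := top_le_iff.1 (h4 ▸ N.normalCore_le)
      rw [h5, Subgroup.index_top] at hNidx
      omega
  have hinj : Function.Injective (MulAction.toPermHom G (G ⧸ N)) := (MonoidHom.ker_eq_bot_iff _).1 hker
  have hX : Nat.card (G ⧸ N) = 5 := hNidx
  have hdvd := Subgroup.card_dvd_of_injective (MulAction.toPermHom G (G ⧸ N)) hinj
  rw [Nat.card_perm, hX, hG60] at hdvd
  have h120 : Nat.factorial 5 = 60 * 2 := rfl
  rw [h120] at hdvd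
  have hO2 : Nat.card O ∣ 2 := Nat.dvd_of_mul_dvd_mul_left (by norm_num) hdvd
  have hO1 : Nat.card O = 1 := by
    rcases (Nat.dvd_prime Nat.prime_two).1 hO2 with h4 | h4
    · exact h4
    · rw [h4] at hOodd; exact absurd hOodd (by decide)
  rw [hO1] at hG60
  exact alt5_of_injective (by omega) hX _ hinj

end Cfsg.Agent.S3278
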