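import Cfsg.Statements.S3285
import Cfsg.Agent.JV.FiveCase
import Cfsg.Agent.JV.Four4

set_option autoImplicit false
open Cfsg

namespace Cfsg.Agent.S3285

/-- Let G be a finite non-solvable group with no normal subgroup of index 2, and J an involution lying in the centre of a Sylow 2-subgroup of G whose centralizer is the internal direct product of ⟨J⟩ with a subgroup isomorphic to the alternating group of degree m. Then either m = 4 and G is isomorphic to the automorphism group PΓL(2, 8) of PSL(2, 8), or m = 5 and G is isomorphic to the first Janko group. -/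
theorem result {G : Type*} [Group G] [Finite G] (hns : ¬ Group.IsSolvable G) (h2 : ∀ N : Subgroup G, N.Normal → N.index ≠ 2)
    (J : G) (hJ : Cfsg.IsTwoCentralInvolution J) (m : ℕ) (T : Subgroup G)
    (hT : Nonempty (↥T ≃* ↥(alternatingGroup (Fin m))))
    (hd : Cfsg.IsInternalDirectProduct (Subgroup.zpowers J) T (Subgroup.centralizer ({J} : Set G))) :
    (m = 4 ∧ ∃ (F : Type) (_ : Field F) (_ : Fintype F), Fintype.card F = 8 ∧
        Nonempty (G ≃* MulAut (Matrix.ProjectiveSpecialLinearGroup (Fin 2) F))) ∨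
      (m = 5 ∧ Cfsg.Spor.IsoJ1 G) := by
  obtain ⟨ε⟩ := hT
  obtain ⟨E, hE⟩ := Cfsg.Agent.JV.exists_embM hJ.1 T ε hd
  rw [← hE] at hJ
  have hα := E.exists_fusion h2 hJ
  have hm : m ≤ 3 ∨ m = 4 ∨ m = 5 ∨ 6 ≤ m := by omega
  rcases hm with hm | rfl | rfl | hm
  · exact (E.not_three hm hα).elim
  · left
    obtain ⟨S, L⟩ := Cfsg.Agent.JV.four_loc hns E hJ hα
    exact ⟨rfl, L.final⟩
  · right
    exact ⟨rfl, Cfsg.Agent.JV.five_case E hJ hα⟩
  · exact (E.not_six hm hα).elim

end Cfsg.Agent.S3285
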