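import Cfsg.Statements.S3303
import Cfsg.Agent.S3305
import Cfsg.Agent.H55.SolvTwo

set_option autoImplicit false
open Pointwise
open Cfsg

namespace Cfsg.Agent.S3303

open Cfsg.Agent.H55

/-- Let G be a finite solvable group in which the intersection of any two distinct Sylow 2-subgroups is cyclic. Then G/O(G) has a normal Sylow 2-subgroup, where O(G) is the largest normal subgroup of odd order. -/
theorem result {G : Type*} [Group G] [Finite G] (hs : Group.IsSolvable G)
    (hC : ∀ S T : Sylow 2 G, S ≠ T → IsCyclic ↥((S : Subgroup G) ⊓ (T : Subgroup G))) :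
    ∃ P : Sylow 2 (G ⧸ Cfsg.oddCore G), (P : Subgroup (G ⧸ Cfsg.oddCore G)).Normal := by
  haveI : Fact (Nat.Prime 2) := ⟨Nat.prime_two⟩
  haveI : Group.IsSolvable G := hs
  have hsq : Group.IsSolvable (G ⧸ Cfsg.oddCore G) := inferInstance
  have hC' := Cfsg.Agent.S3305.result hC (Cfsg.oddCore G)
  have hcen := centralizer_twoCore_le hsq oddCore_quotient
  by_cases h : ∃ S T : Sylow 2 (G ⧸ Cfsg.oddCore G), S ≠ T
  · exfalso
    obtain ⟨S, T, hST⟩ := h
    have hcyc := hC' S T hST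
    have hle : Cfsg.pCore 2 (G ⧸ Cfsg.oddCore G) ≤
        (S : Subgroup (G ⧸ Cfsg.oddCore G)) ⊓ (T : Subgroup (G ⧸ Cfsg.oddCore G)) :=
      le_inf (Cfsg.Agent.Solv.pCore_le_sylow S) (Cfsg.Agent.Solv.pCore_le_sylow T)
    have hRc : IsCyclic (Cfsg.pCore 2 (G ⧸ Cfsg.oddCore G)) :=
      isCyclic_of_injective (Subgroup.inclusion hle) (Subgroup.inclusion_injective _)
    have hR2 := Cfsg.Agent.Solv.pCore_isPGroup (G := G ⧸ Cfsg.oddCore G) 2
    have h2 : IsPGroup 2 (G ⧸ Cfsg.oddCore G) := by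
      apply isPGroup_two_of_odd
      intro g hg
      have h1 := hcen (odd_centralizes_cyclic _ hRc hR2 hg)
      obtain ⟨n, hn⟩ := (IsPGroup.iff_orderOf.1 hR2) ⟨g, h1⟩
      rw [← Subgroup.orderOf_coe] at hn
      simp only at hn
      rcases Nat.eq_zero_or_pos n with rfl | hpos
      · rw [pow_zero, orderOf_eq_one_iff] at hn; exact hn
      · exfalso
        rw [hn] at hg
        exact Nat.not_even_iff_odd.2 hg ((Nat.even_pow' hpos.ne').2 even_two)
    have htop : ∀ S : Sylow 2 (G ⧸ Cfsg.oddCore G), (S : Subgroup (G ⧸ Cfsg.oddCore G)) = ⊤ := by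
      intro S
      exact (S.3 (h2.to_subgroup ⊤) le_top).symm
    exact hST (Sylow.ext ((htop S).trans (htop T).symm))
  · push Not at h
    obtain ⟨P⟩ : Nonempty (Sylow 2 (G ⧸ Cfsg.oddCore G)) := inferInstance
    refine ⟨P, ?_⟩
    haveI : Subsingleton (Sylow 2 (G ⧸ Cfsg.oddCore G)) := ⟨h⟩
    exact Sylow.normal_of_subsingleton P

end Cfsg.Agent.S3303
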