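import Cfsg.Statements.S3306
import Cfsg.Agent.H31.CycInt

set_option autoImplicit false
open Cfsg

namespace Cfsg.Agent.S3306


/-- Let G be a finite nonsolvable group in which any two distinct Sylow 2-subgroups intersect in a cyclic group, and let N be a solvable normal subgroup of G. Then the image of N in G/O(G) is a cyclic 2-group contained in the centre of G/O(G) (O(G) the largest normal subgroup of odd order). In other words the solvable radical of G is V·O(G) with V a cyclic 2-group central modulo O(G). -/
theorem result {G : Type*} [Group G] [Finite G] (hns : ¬ Group.IsSolvable G)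
    (hC : ∀ S T : Sylow 2 G, S ≠ T → IsCyclic ↥((S : Subgroup G) ⊓ (T : Subgroup G)))
    (N : Subgroup G) [N.Normal] (hN : Group.IsSolvable ↥N) :
    IsCyclic ↥(N.map (QuotientGroup.mk' (Cfsg.oddCore G))) ∧ IsPGroup 2 ↥(N.map (QuotientGroup.mk' (Cfsg.oddCore G))) ∧
      N.map (QuotientGroup.mk' (Cfsg.oddCore G)) ≤ Subgroup.center (G ⧸ Cfsg.oddCore G) := by
  exact H31.CycInt.main hns hC N hN

end Cfsg.Agent.S3306
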