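import Cfsg.Statements.S3309
import Cfsg.Agent.S0111
import Cfsg.Agent.Transfer.Fusion

set_option autoImplicit false
open Cfsg

namespace Cfsg.Agent.S3309

theorem mul_two_key : ∀ x : Multiplicative (ZMod 2), x ≠ 1 → x = Multiplicative.ofAdd 1 := by decide

theorem mul_two_ne : ¬ (Multiplicative.ofAdd (1 : ZMod 2) = 1) := by decide

/-- Thompson transfer in a simple group. -/
theorem exists_conj_ker {G : Type*} [Group G] [Finite G] [IsSimpleGroup G]
    (hG : ¬ IsMulCommutative G) (S : Sylow 2 G)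
    (f : (S : Subgroup G) →* Multiplicative (ZMod 2)) (u : G) (hu : u ^ 2 = 1) :
    ∃ g : G, ∃ hg : g⁻¹ * u * g ∈ (S : Subgroup G), f ⟨g⁻¹ * u * g, hg⟩ = 1 := by
  haveI : Fact (Nat.Prime 2) := ⟨Nat.prime_two⟩
  by_contra hcon
  push Not at hcon
  have hodd : Odd (S : Subgroup G).index := by
    rw [← Nat.not_even_iff_odd, even_iff_two_dvd]
    exact S.not_dvd_index
  have h1 := Cfsg.Agent.S0111.transfer_ne_one (S : Subgroup G) hodd f u hu
    (fun g hg => mul_two_key _ (hcon g hg))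
  rcases (MonoidHom.transfer f : G →* Multiplicative (ZMod 2)).normal_ker.eq_bot_or_eq_top with h2 | h2
  · apply hG
    have hinj := (MonoidHom.ker_eq_bot_iff _).1 h2
    refine ⟨⟨fun a b => hinj ?_⟩⟩
    rw [map_mul, map_mul, mul_comm]
  · have h3 : u ∈ (MonoidHom.transfer f : G →* Multiplicative (ZMod 2)).ker := by rw [h2]; trivial
    rw [MonoidHom.mem_ker, h1] at h3
    exact mul_two_ne h3

abbrev Q16 := Multiplicative (ZMod 2) × DihedralGroup 4

def phiFun (ρ σ : ZMod 2) (q : Q16) : ZMod 2 :=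
  Multiplicative.toAdd q.1 + match q.2 with
    | DihedralGroup.r i => ρ * (i.val : ZMod 2)
    | DihedralGroup.sr i => σ + ρ * (i.val : ZMod 2)

def phi (ρ σ : ZMod 2) : Q16 →* Multiplicative (ZMod 2) where
  toFun q := Multiplicative.ofAdd (phiFun ρ σ q)
  map_one' := by revert ρ σ; decide
  map_mul' := by revert ρ σ; decide

def aa : Q16 := (Multiplicative.ofAdd 1, 1)
def zz : Q16 := (1, DihedralGroup.r 2)
def ss (ε : ZMod 2) (i : ZMod 4) : Q16 := (Multiplicative.ofAdd ε, DihedralGroup.sr i)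

theorem class_ker : ∀ ρ σ : ZMod 2, ∀ q : Q16, phiFun ρ σ q = 0 → q * q = 1 → q ≠ 1 →
    q = zz ∨ (∃ h : Q16, h * q * h⁻¹ = ss σ 0) ∨ (∃ h : Q16, h * q * h⁻¹ = ss (σ + ρ) 1) := by
  decide

theorem class_all : ∀ q : Q16, q * q = 1 → q ≠ 1 →
    q = zz ∨ q = aa ∨ q = aa * zz ∨ (∃ h : Q16, h * q * h⁻¹ = ss 0 0) ∨
    (∃ h : Q16, h * q * h⁻¹ = ss 1 0) ∨ (∃ h : Q16, h * q * h⁻¹ = ss 0 1) ∨
    (∃ h : Q16, h * q * h⁻¹ = ss 1 1) := by
  decide

theorem sq_eq : ∀ q : Q16, q * q = 1 ∨ q * q = zz := by decide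

open Pointwise in
theorem exists_conj_mem {G : Type*} [Group G] [Finite G] (S : Sylow 2 G) (C : Subgroup G)
    (hSC : (S : Subgroup G) ≤ C) (w : G) (hw : w ∈ C) (hw2 : w ^ 2 ^ 1 = 1) :
    ∃ s ∈ C, s * w * s⁻¹ ∈ (S : Subgroup G) := by
  haveI : Fact (Nat.Prime 2) := ⟨Nat.prime_two⟩
  have hpw : IsPGroup 2 (Subgroup.zpowers w) := by
    rintro ⟨_, ⟨m, rfl⟩⟩
    refine ⟨1, ?_⟩
    ext
    show (w ^ m) ^ 2 ^ 1 = 1
    rw [← zpow_natCast, ← zpow_mul, mul_comm, zpow_mul, zpow_natCast, hw2, one_zpow]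
  obtain ⟨s, hs, hs2⟩ := Cfsg.Agent.Transfer.exists_conj_le_sylow_of_le (S.subtype hSC) hpw
    (by rw [Subgroup.zpowers_le]; exact hw)
  refine ⟨s, hs, ?_⟩
  have h2 : s * w * s⁻¹ ∈ MulAut.conj s • Subgroup.zpowers w :=
    Subgroup.smul_mem_pointwise_smul _ (MulAut.conj s) _ (Subgroup.mem_zpowers _)
  obtain ⟨y, hy, hy2⟩ := hs2 h2
  rw [← hy2]
  exact hy

theorem f1 : zz = ((1, DihedralGroup.r 1) : Q16) * (1, DihedralGroup.r 1) := by decide
theorem f2 : ¬ (zz = 1) := by decide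
theorem f3 : ¬ (zz = aa) := by decide
theorem f4 : ¬ (zz = aa * zz) := by decide
theorem f5 : aa = (aa * zz) * zz := by decide
theorem f6 : ¬ (aa = aa * zz) := by decide
theorem f7 : (0 : ZMod 2) + 0 = 0 := by decide
theorem f8 : (1 : ZMod 2) + 0 = 1 := by decide
theorem f9 : (0 : ZMod 2) + 1 = 1 := by decide
theorem f10 : (1 : ZMod 2) + 1 = 0 := by decide
theorem f11 : zz ^ 2 ^ 1 = 1 := by decide
theorem f12 : zz * zz = 1 := by decide
theorem f13 : ∀ ε : ZMod 2, ε = 0 ∨ ε = 1 := by decide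
theorem f14 : aa * aa = 1 := by decide
theorem f15 : aa ≠ 1 := by decide
theorem f16 : (aa * zz) * (aa * zz) = 1 := by decide
theorem f17 : (aa * zz) ≠ 1 := by decide

theorem aa_central : ∀ q : Q16, aa * q = q * aa := by decide
theorem zz_central : ∀ q : Q16, zz * q = q * zz := by decide
theorem aazz_central : ∀ q : Q16, (aa * zz) * q = q * (aa * zz) := by decide
theorem ss_zz : ∀ i : ZMod 4, ∃ h : Q16, h * (ss 0 i * zz) * h⁻¹ = ss 0 i := by decide

/-- A finite group whose Sylow 2-subgroups are isomorphic to the direct product of a group of order 2 and the dihedral group of order 8 is not a non-abelian simple group. -/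
theorem result {G : Type*} [Group G] [Finite G] (S : Sylow 2 G) (hS : Nonempty (↥(S : Subgroup G) ≃* Multiplicative (ZMod 2) × DihedralGroup 4))
    [IsSimpleGroup G] (hG : ¬ IsMulCommutative G) : False := by
  haveI : Fact (Nat.Prime 2) := ⟨Nat.prime_two⟩
  obtain ⟨e⟩ := hS
  let j : Q16 →* G := (S : Subgroup G).subtype.comp e.symm.toMonoidHom
  have hj : Function.Injective j := (Subgroup.subtype_injective _).comp e.symm.injective
  have hjS : ∀ q, j q ∈ (S : Subgroup G) := fun q => (e.symm q).2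
  have hje : ∀ x : (S : Subgroup G), j (e x) = x := fun x => by
    show ((e.symm (e x) : (S : Subgroup G)) : G) = x
    rw [e.symm_apply_apply]
  have hSj : ∀ x ∈ (S : Subgroup G), ∃ q, j q = x := fun x hx => ⟨e ⟨x, hx⟩, hje _⟩
  have hz : ∀ n ∈ Subgroup.normalizer (S : Set G), n⁻¹ * j zz * n = j zz := by
    intro n hn
    have h1 := f1
    have h2 : n⁻¹ * j (1, DihedralGroup.r 1) * n ∈ (S : Subgroup G) := by
      have := (Subgroup.mem_normalizer_iff''.1 hn (j (1, DihedralGroup.r 1))).1 (hjS _)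
      exact this
    obtain ⟨q, hq⟩ := hSj _ h2
    have h3 : n⁻¹ * j zz * n = j (q * q) := by rw [map_mul, hq, h1, map_mul]; group
    rcases sq_eq q with h4 | h4
    · exfalso
      rw [h4, map_one, mul_eq_one_iff_eq_inv, inv_mul_eq_iff_eq_mul, mul_inv_cancel, ← map_one j] at h3
      exact f2 (hj h3)
    · rw [h3, h4]
  have hcen : ∀ q : Q16, (∀ q', q * q' = q' * q) → j q ∈ Subgroup.centralizer (S : Set G) := by
    intro q hq
    rw [Subgroup.mem_centralizer_iff]
    intro x hx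
    obtain ⟨q', rfl⟩ := hSj x hx
    rw [← map_mul, ← map_mul, hq]
  have hburn : ∀ q q' : Q16, (∀ x, q * x = x * q) → (∀ x, q' * x = x * q') →
      IsConj (j q) (j q') → ∃ n ∈ Subgroup.normalizer (S : Set G), j q' = n⁻¹ * j q * n := by
    intro q q' hq hq' hc
    obtain ⟨c, hc⟩ := isConj_iff.1 hc
    have hc' : (c⁻¹)⁻¹ * j q * c⁻¹ = j q' := by rw [inv_inv]; exact hc
    obtain ⟨n, hn, h1⟩ := S.conj_eq_normalizer_conj_of_mem_centralizer (j q) c⁻¹ (hcen q hq)
      (by rw [hc']; exact hcen q' hq')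
    exact ⟨n, hn, by rw [← hc', h1]⟩
  have hza : ¬ IsConj (j zz) (j aa) := by
    intro h
    obtain ⟨n, hn, h1⟩ := hburn _ _ zz_central aa_central h
    rw [hz n hn] at h1
    exact f3 (hj h1.symm)
  have hzaz : ¬ IsConj (j zz) (j (aa * zz)) := by
    intro h
    obtain ⟨n, hn, h1⟩ := hburn _ _ zz_central aazz_central h
    rw [hz n hn] at h1
    exact f4 (hj h1.symm)
  have haz : ¬ IsConj (j aa) (j (aa * zz)) := by
    intro h
    obtain ⟨n, hn, h1⟩ := hburn _ _ aa_central aazz_central h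
    have hcz := hz n hn
    have h2 : n⁻¹ * j (aa * zz) * n = j aa := by
      have := f5
      rw [map_mul]
      calc n⁻¹ * (j aa * j zz) * n = (n⁻¹ * j aa * n) * (n⁻¹ * j zz * n) := by group
        _ = j (aa * zz * zz) := by rw [← h1, hcz, ← map_mul]
        _ = j aa := by rw [← this]
    have h3 : ∀ k : ℕ, (n ^ (2 * k + 1))⁻¹ * j aa * n ^ (2 * k + 1) = j (aa * zz) := by
      intro k
      induction k with
      | zero => simp [h1]
      | succ k ih =>
        have e1 : n ^ (2 * (k + 1) + 1) = n ^ (2 * k + 1) * n * n := by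
          rw [show 2 * (k + 1) + 1 = (2 * k + 1) + 1 + 1 by ring, pow_succ, pow_succ]
        rw [e1]
        calc (n ^ (2 * k + 1) * n * n)⁻¹ * j aa * (n ^ (2 * k + 1) * n * n)
            = n⁻¹ * (n⁻¹ * ((n ^ (2 * k + 1))⁻¹ * j aa * n ^ (2 * k + 1)) * n) * n := by group
          _ = j (aa * zz) := by rw [ih, h2, ← h1]
    obtain ⟨k, m, hm, hkm⟩ := Nat.exists_eq_two_pow_mul_odd (orderOf_pos n).ne'
    obtain ⟨l, hl⟩ := hm
    have h4 : n ^ m ∈ (S : Subgroup G) := by
      apply Cfsg.Agent.Transfer.mem_sylow_of_mem_normalizer (pow_mem hn m) (k := k)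
      rw [← pow_mul, mul_comm, ← hkm, pow_orderOf_eq_one]
    have h5 := h3 l
    rw [← hl] at h5
    have h6 := Subgroup.mem_centralizer_iff.1 (hcen aa aa_central) _ h4
    rw [mul_assoc, ← h6, inv_mul_cancel_left] at h5
    exact f6 (hj h5)
  -- Thompson transfer
  have hT : ∀ c : Q16, c * c = 1 → c ≠ 1 → ¬ IsConj (j zz) (j c) → ∀ ρ σ : ZMod 2,
      IsConj (j c) (j (ss σ 0)) ∨ IsConj (j c) (j (ss (σ + ρ) 1)) := by
    intro c hc2 hc1 hcz ρ σ
    have hjc : j c ^ 2 = 1 := by rw [← map_pow, pow_two, hc2, map_one]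
    obtain ⟨g, hg, hfg⟩ := exists_conj_ker hG S ((phi ρ σ).comp e.toMonoidHom) (j c) hjc
    set q := e ⟨g⁻¹ * j c * g, hg⟩ with hq
    have hjq : j q = g⁻¹ * j c * g := hje _
    have hcon : IsConj (j c) (j q) := isConj_iff.2 ⟨g⁻¹, by rw [hjq, inv_inv]⟩
    have h1 : phiFun ρ σ q = 0 := by
      have : phi ρ σ q = 1 := hfg
      exact Multiplicative.ofAdd.injective this
    have h2 : q * q = 1 := by
      apply hj
      rw [map_mul, hjq, map_one]
      rw [pow_two] at hjc
      calc g⁻¹ * j c * g * (g⁻¹ * j c * g) = g⁻¹ * (j c * j c) * g := by group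
        _ = 1 := by rw [hjc]; group
    have h3 : q ≠ 1 := by
      intro h
      rw [h, map_one] at hjq
      have : j c = 1 := by
        have := congrArg (fun x => g * x * g⁻¹) hjq
        simp only [mul_one, mul_inv_cancel] at this
        rw [this]; group
      rw [← map_one j] at this
      exact hc1 (hj this)
    rcases class_ker ρ σ q h1 h2 h3 with h4 | ⟨h, h4⟩ | ⟨h, h4⟩
    · exact absurd (by rw [h4] at hcon; exact hcon.symm) hcz
    · left
      refine hcon.trans (isConj_iff.2 ⟨j h, ?_⟩)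
      rw [← h4, map_mul, map_mul, map_inv]
    · right
      refine hcon.trans (isConj_iff.2 ⟨j h, ?_⟩)
      rw [← h4, map_mul, map_mul, map_inv]
  have hA : ∀ c : Q16, c * c = 1 → c ≠ 1 → ¬ IsConj (j zz) (j c) →
      (IsConj (j c) (j (ss 0 0)) ∧ IsConj (j c) (j (ss 1 0))) ∨
      (IsConj (j c) (j (ss 0 1)) ∧ IsConj (j c) (j (ss 1 1))) := by
    intro c h1 h2 h3
    have t1 := hT c h1 h2 h3 0 0
    have t2 := hT c h1 h2 h3 0 1
    have t3 := hT c h1 h2 h3 1 0
    have t4 := hT c h1 h2 h3 1 1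
    rw [f7] at t1
    rw [f8] at t2
    rw [f9] at t3
    rw [f10] at t4
    tauto
  have hfin : ∀ i, IsConj (j aa) (j (ss 0 i)) →
      (∀ q : Q16, q * q = 1 → q ≠ 1 → q = zz ∨ IsConj (j aa) (j q) ∨ IsConj (j (aa * zz)) (j q)) →
      False := by
    intro i hi hall
    obtain ⟨c, hc⟩ := isConj_iff.1 hi.symm
    let C : Subgroup G := Subgroup.centralizer {j aa}
    have hSC : (S : Subgroup G) ≤ C := by
      intro x hx
      rw [Subgroup.mem_centralizer_singleton_iff]
      obtain ⟨q, rfl⟩ := hSj x hx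
      rw [← map_mul, ← map_mul, aa_central]
    have hw : c * j zz * c⁻¹ ∈ C := by
      rw [Subgroup.mem_centralizer_singleton_iff, ← hc]
      calc c * j zz * c⁻¹ * (c * j (ss 0 i) * c⁻¹) = c * (j zz * j (ss 0 i)) * c⁻¹ := by group
        _ = c * (j (ss 0 i) * j zz) * c⁻¹ := by rw [← map_mul, zz_central, map_mul]
        _ = c * j (ss 0 i) * c⁻¹ * (c * j zz * c⁻¹) := by group
    have hw2 : (c * j zz * c⁻¹) ^ 2 ^ 1 = 1 := by
      rw [conj_pow, ← map_pow]
      rw [f11, map_one]; group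
    obtain ⟨s, hs, h1⟩ := exists_conj_mem S C hSC _ hw hw2
    have h2 : (s * c) * j (ss 0 i) * (s * c)⁻¹ = j aa := by
      have h3 := Subgroup.mem_centralizer_singleton_iff.1 hs
      calc (s * c) * j (ss 0 i) * (s * c)⁻¹ = s * (c * j (ss 0 i) * c⁻¹) * s⁻¹ := by group
        _ = j aa := by rw [hc, h3]; group
    have h3 : (s * c) * j zz * (s * c)⁻¹ = s * (c * j zz * c⁻¹) * s⁻¹ := by group
    rw [← h3] at h1
    obtain ⟨q, hq⟩ := hSj _ h1
    have hq2 : q * q = 1 := by
      apply hj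
      rw [map_mul, hq, map_one]
      calc s * c * j zz * (s * c)⁻¹ * (s * c * j zz * (s * c)⁻¹)
          = s * c * (j zz * j zz) * (s * c)⁻¹ := by group
        _ = s * c * j (zz * zz) * (s * c)⁻¹ := by rw [← map_mul]
        _ = s * c * j 1 * (s * c)⁻¹ := by
          rw [f12]
        _ = 1 := by rw [map_one]; group
    have hq1 : q ≠ 1 := by
      intro h
      rw [h, map_one] at hq
      have : j zz = 1 := by
        have := congrArg (fun x => (s * c)⁻¹ * x * (s * c)) hq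
        simp only [mul_one, inv_mul_cancel] at this
        rw [this]; group
      rw [← map_one j] at this
      exact f2 (hj this)
    have hzq : IsConj (j zz) (j q) := isConj_iff.2 ⟨s * c, hq.symm⟩
    rcases hall q hq2 hq1 with h4 | h4 | h4
    · rw [h4] at hq
      apply haz
      obtain ⟨h, hh⟩ := ss_zz i
      have e1 : IsConj (j (ss 0 i * zz)) (j (ss 0 i)) :=
        isConj_iff.2 ⟨j h, by rw [← map_inv, ← map_mul, ← map_mul, hh]⟩
      have e2 : IsConj (j (ss 0 i * zz)) (j (aa * zz)) := by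
        refine isConj_iff.2 ⟨s * c, ?_⟩
        rw [map_mul, map_mul]
        calc s * c * (j (ss 0 i) * j zz) * (s * c)⁻¹
            = (s * c * j (ss 0 i) * (s * c)⁻¹) * (s * c * j zz * (s * c)⁻¹) := by group
          _ = j aa * j zz := by rw [h2, ← hq]
      exact (hi.trans e1.symm).trans e2
    · exact hza (hzq.trans h4.symm)
    · exact hzaz (hzq.trans h4.symm)
  have hall : (∀ ε : ZMod 2, ∀ i : ZMod 4, i = 0 ∨ i = 1 → IsConj (j aa) (j (ss ε i)) ∨
      IsConj (j (aa * zz)) (j (ss ε i))) →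
      ∀ q : Q16, q * q = 1 → q ≠ 1 → q = zz ∨ IsConj (j aa) (j q) ∨ IsConj (j (aa * zz)) (j q) := by
    intro hss q h1 h2
    have haux : ∀ ε : ZMod 2, ∀ i : ZMod 4, i = 0 ∨ i = 1 → (∃ h : Q16, h * q * h⁻¹ = ss ε i) →
        q = zz ∨ IsConj (j aa) (j q) ∨ IsConj (j (aa * zz)) (j q) := by
      rintro ε i hi ⟨h, hh⟩
      have e1 : IsConj (j q) (j (ss ε i)) :=
        isConj_iff.2 ⟨j h, by rw [← map_inv, ← map_mul, ← map_mul, hh]⟩
      rcases hss ε i hi with h3 | h3
      · exact Or.inr (Or.inl (h3.trans e1.symm))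
      · exact Or.inr (Or.inr (h3.trans e1.symm))
    rcases class_all q h1 h2 with h | h | h | h | h | h | h
    · exact Or.inl h
    · right; left; rw [h]
    · right; right; rw [h]
    · exact haux _ _ (Or.inl rfl) h
    · exact haux _ _ (Or.inl rfl) h
    · exact haux _ _ (Or.inr rfl) h
    · exact haux _ _ (Or.inr rfl) h
  have hε := f13
  rcases hA aa f14 f15 hza with ⟨a1, a2⟩ | ⟨a1, a2⟩ <;>
    rcases hA (aa * zz) f16 f17 hzaz with ⟨b1, b2⟩ | ⟨b1, b2⟩
  · exact haz (a1.trans b1.symm)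
  · refine hfin 0 a1 (hall ?_)
    intro ε i hi
    rcases hε ε with rfl | rfl <;> rcases hi with rfl | rfl <;> tauto
  · refine hfin 1 a1 (hall ?_)
    intro ε i hi
    rcases hε ε with rfl | rfl <;> rcases hi with rfl | rfl <;> tauto
  · exact haz (a1.trans b1.symm)

end Cfsg.Agent.S3309
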