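import Cfsg.Statements.S3313
import Cfsg.Agent.LE.J2Card
import Cfsg.Agent.LE.AltUse
import Cfsg.Agent.H11.Act

set_option autoImplicit false
open Cfsg

namespace Cfsg.Agent.S3313

/-- The order of a simple group with the involution pattern of the Hall–Janko group. Let G be a non-abelian finite simple group with exactly two conjugacy classes of involutions, represented by z and t, such that: F*(C_G(z)) is an extraspecial 2-group; Q = O₂(C_G(z)) has order 32 and C_G(z) is the semidirect product of Q by a subgroup isomorphic to A₅; every involution of Q is conjugate to z and every other involution of C_G(z) is conjugate to t; C_G(t) is an internal direct product V × B with V a four-group containing t and B ≅ A₅; every involution of B is conjugate to z and every other involution of C_G(t) is conjugate to t. Then |G| = 604800. -/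
theorem result {G : Type*} [Group G] [Finite G]
    [IsSimpleGroup G] (hna : ¬ IsMulCommutative G) (z t : G) (hz : orderOf z = 2) (ht : orderOf t = 2)
    (hzt : ¬ IsConj z t) (hcl : ∀ x : G, orderOf x = 2 → IsConj x z ∨ IsConj x t)
    (hex : Cfsg.IsExtraspecial 2 ↥(Cfsg.generalizedFittingSubgroup ↥(Subgroup.centralizer ({z} : Set G))))
    (hQ : Nat.card ↥(Cfsg.pCore 2 ↥(Subgroup.centralizer ({z} : Set G))) = 32)
    (K : Subgroup G) (hK : Nonempty (↥K ≃* alternatingGroup (Fin 5)))
    (hKC : K ⊔ (Cfsg.pCore 2 ↥(Subgroup.centralizer ({z} : Set G))).map (Subgroup.centralizer ({z} : Set G)).subtype = Subgroup.centralizer ({z} : Set G))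
    (hKQ : K ⊓ (Cfsg.pCore 2 ↥(Subgroup.centralizer ({z} : Set G))).map (Subgroup.centralizer ({z} : Set G)).subtype = ⊥)
    (hQz : ∀ x ∈ (Cfsg.pCore 2 ↥(Subgroup.centralizer ({z} : Set G))).map (Subgroup.centralizer ({z} : Set G)).subtype, orderOf x = 2 → IsConj x z)
    (hCz : ∀ x ∈ Subgroup.centralizer ({z} : Set G), orderOf x = 2 →
      x ∉ (Cfsg.pCore 2 ↥(Subgroup.centralizer ({z} : Set G))).map (Subgroup.centralizer ({z} : Set G)).subtype → IsConj x t)
    (V B : Subgroup G) (hVB : Cfsg.IsInternalDirectProduct V B (Subgroup.centralizer ({t} : Set G)))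
    (hV : Nat.card ↥V = 4) (hV2 : ∀ v ∈ V, v ^ 2 = 1) (htV : t ∈ V) (hB : Nonempty (↥B ≃* alternatingGroup (Fin 5)))
    (hBz : ∀ x ∈ B, orderOf x = 2 → IsConj x z)
    (hCt : ∀ x ∈ Subgroup.centralizer ({t} : Set G), orderOf x = 2 → x ∉ B → IsConj x t) :
    Nat.card G = 604800 := by
  haveI : Fact (Nat.Prime 2) := ⟨Nat.prime_two⟩
  set C := Subgroup.centralizer ({z} : Set G) with hCdef
  have hFQ : Cfsg.generalizedFittingSubgroup C = Cfsg.pCore 2 C := by
    apply le_antisymm
    · exact Cfsg.Agent.Solv.le_pCore inferInstance hex.1.1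
    · exact (Cfsg.Agent.Solv.pCore_le_fitting 2).trans le_sup_right
  have hX : Cfsg.IsExtraspecial 2 ↥(Cfsg.pCore 2 C) := hFQ ▸ hex
  have h1 : Nat.card ((Cfsg.pCore 2 C).map C.subtype) = 32 := by
    rw [← hQ]
    exact (Nat.card_congr ((Cfsg.pCore 2 C).equivMapOfInjective _ (Subgroup.subtype_injective _)).toEquiv).symm
  have hcC : Nat.card C = 1920 := by
    have h2 : Nat.card K = 60 := Cfsg.Agent.LE.A5.card hK
    have hn : K ≤ Subgroup.normalizer (((Cfsg.pCore 2 C).map C.subtype : Subgroup G) : Set G) := by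
      intro k hk
      have hkC : k ∈ C := by
        rw [← hKC]; exact Subgroup.mem_sup_left hk
      rw [Subgroup.mem_normalizer_iff]
      have : ∀ c : C, ∀ q ∈ Cfsg.pCore 2 C, c * q * c⁻¹ ∈ Cfsg.pCore 2 C :=
        fun c q hq => (inferInstance : (Cfsg.pCore 2 C).Normal).conj_mem q hq c
      intro q
      constructor
      · rintro ⟨q, hq, rfl⟩
        exact ⟨_, this ⟨k, hkC⟩ q hq, rfl⟩
      · rintro ⟨q', hq, h⟩
        refine ⟨_, this ⟨k, hkC⟩⁻¹ q' hq, ?_⟩
        simp only [Subgroup.subtype_apply] at h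
        simp [h]
        group
    have h3 := Cfsg.Agent.H11.card_sup_mul_card_inf hn
    rw [hKC, hKQ, h1, h2] at h3
    simpa using h3
  have hnwc : ∃ g : G, (∃ hq : g * z * g⁻¹ ∈ C, (⟨g * z * g⁻¹, hq⟩ : C) ∈ Cfsg.pCore 2 C) ∧
      g * z * g⁻¹ ≠ z := by
    obtain ⟨ζ, hζ, -⟩ := Cfsg.Agent.H90.XS.of_isExtraspecial hX
    have hzC : z ∈ C := by
      rw [Subgroup.mem_centralizer_singleton_iff]
    have hc : ∀ c : C, c * (⟨z, hzC⟩ : C) = ⟨z, hzC⟩ * c := by
      intro c
      apply Subtype.ext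
      have := Subgroup.mem_centralizer_singleton_iff.1 c.2
      exact this
    have hz1 : (⟨z, hzC⟩ : C) ∈ Cfsg.pCore 2 C := by
      rw [← hFQ]
      apply Cfsg.Agent.FStar.centralizer_generalizedFitting_le
      rw [Subgroup.mem_centralizer_iff]
      intro c _
      exact hc c
    have hzζ : (⟨z, hzC⟩ : C) = ζ := by
      rcases hζ.nondeg _ hz1 (fun y _ => (hc y).symm) with h3 | h3
      · exfalso
        have : z = 1 := congrArg Subtype.val h3
        rw [this, orderOf_one] at hz
        omega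
      · exact h3
    obtain ⟨x, hx, hx2, hxz⟩ := Cfsg.Agent.LE.exists_noncentral_inv hζ (by rw [hQ])
    have hx2' : orderOf (x : G) = 2 := by rw [Subgroup.orderOf_coe, hx2]
    obtain ⟨c, hc'⟩ := isConj_iff.1 (hQz (x : G) ⟨x, hx, rfl⟩ hx2').symm
    refine ⟨c, ⟨by rw [hc']; exact x.2, ?_⟩, ?_⟩
    · have : (⟨c * z * c⁻¹, by rw [hc']; exact x.2⟩ : C) = x := Subtype.ext hc'
      rw [this]; exact hx
    · intro h4
      apply hxz
      rw [← hzζ]
      apply Subtype.ext
      rw [← hc', h4]
  obtain ⟨g, E, L, K', h⟩ := Cfsg.Agent.LE.exists_j2Loc_of_card z hz (Cfsg.pCore 2 C) hFQ hX (by rw [hQ]; norm_num)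
    hcC hnwc ht (fun h => hzt h.symm)
  exact h.cardG

end Cfsg.Agent.S3313
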