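import Cfsg.Statements.S3315
import Cfsg.Agent.H21.SqU3
import Cfsg.Agent.H21.SqAut

set_option autoImplicit false
open Cfsg

namespace Cfsg.Agent.S3315

/-- Let S be a Sylow 2-subgroup of SU₃(2ⁿ), n ≥ 2 (realised over the field with 4ⁿ elements). If a finite 2-group R contains a subgroup S' of index 2 isomorphic to S, then the centre of S' is contained in the centre of R. -/
theorem result {R : Type*} [Group R] [Finite R]
    (hR : IsPGroup 2 R) (n : ℕ) (hn : 2 ≤ n) {F : Type*} [Field F] [Fintype F] (hF : Fintype.card F = 4 ^ n)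
    (P : Sylow 2 ↥(Cfsg.SU 3 F (2 ^ n))) (S' : Subgroup R) (hS : Nonempty (↥S' ≃* ↥(P : Subgroup ↥(Cfsg.SU 3 F (2 ^ n)))))
    (hidx : S'.index = 2) :
    (Subgroup.center ↥S').map S'.subtype ≤ Subgroup.center R := by
  classical
  have hF2 : Fintype.card F = (2 ^ n) ^ 2 := by rw [hF, ← pow_mul, mul_comm n 2, pow_mul]; norm_num
  have hFp : Fintype.card F = 2 ^ (2 * n) := by rw [hF, pow_mul]; norm_num
  have : Fact (Nat.Prime 2) := ⟨Nat.prime_two⟩
  have : CharP F 2 := charP_of_card_eq_prime_pow hFp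
  have : Fintype (F ≃+* F) := by
    have := Agent.Suz2.finite_aut F
    exact Fintype.ofFinite _
  obtain ⟨e⟩ := hS
  obtain ⟨D₀⟩ := Agent.H21.Sq.su_data hF2 P
  let D := D₀.congr e
  have hcen : Subgroup.center ↥S' = D.ι.range :=
    D.center_eq (Agent.H21.Sq.nrm_nondeg _ (Agent.H21.Sq.conjE_conjE hF2) (Agent.H21.Sq.conjE_ne_one hF2))
  have hnorm : S'.Normal := Subgroup.normal_of_index_eq_two hidx
  rintro _ ⟨z, hz, rfl⟩
  rw [Subgroup.mem_center_iff]
  intro r
  -- conjugation by `r`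
  let φ : S' ≃* S' := MulAut.conjNormal r
  have hφ : ∀ x : S', ((φ x : S') : R) = r * x * r⁻¹ := fun x => MulAut.conjNormal_apply _ _
  obtain ⟨A, B, hB, hA, hι, hQ⟩ := D.induced D φ (by
    intro t ht
    rw [D.exact] at ht ⊢
    have h1 : t ∈ Subgroup.center ↥S' := by rw [hcen]; exact ht
    have h2 : φ t ∈ Subgroup.center ↥S' := by
      have := Subgroup.Characteristic.fixed (H := Subgroup.center ↥S') inferInstance φ
      rw [← this] at h1
      exact h1
    rw [hcen] at h2
    exact h2)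
  obtain ⟨a, σ, ha, hσ⟩ := Agent.H21.Sq.semilinear _ (Agent.H21.Sq.conjE_conjE hF2) (Agent.H21.Sq.conjE_ne_one hF2)
    (Agent.H21.Sq.conjE_comm hF2) A ((AddSubgroup.subtype _).comp B)
    (fun x y hxy => hB (Subtype.ext hxy)) (fun x => congrArg Subtype.val (hQ x))
  -- `A` is an involution
  have hr2 : r * r ∈ S' := by
    have := Subgroup.sq_mem_of_index_two hidx r
    rwa [pow_two] at this
  have hAA : ∀ x, A (A x) = x := by
    intro x
    obtain ⟨t, ht⟩ := D.surj (Multiplicative.ofAdd x)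
    have h1 : φ (φ t) = (⟨r * r, hr2⟩ : S') * t * (⟨r * r, hr2⟩ : S')⁻¹ := by
      apply Subtype.ext
      rw [hφ, hφ]
      show r * (r * t * r⁻¹) * r⁻¹ = (r * r) * t * (r * r)⁻¹
      group
    have h2 := congrArg D.π h1
    rw [map_mul, map_mul, map_inv, mul_comm, inv_mul_cancel_left] at h2
    have h3 : Multiplicative.toAdd (D.π (φ (φ t))) = A (A x) := by
      rw [hA, hA, ht]; rfl
    rw [← h3, h2, ht]; rfl
  have ha1 : a * σ a = 1 := by
    have h1 := hAA 1
    rw [hσ 1, map_one, mul_one, hσ] at h1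
    exact h1
  have hσσ : ∀ x, σ (σ x) = x := by
    intro x
    have h1 := hAA x
    rw [hσ x, hσ, map_mul, ← mul_assoc, ha1, one_mul] at h1
    exact h1
  have hB1 : ∀ v, B v = v := by
    intro v
    obtain ⟨x, hx⟩ := Agent.Uni.exists_norm_eq hF2 v.2
    have hv : v = Agent.H21.Sq.nrm (Agent.H21.Sq.conjE hF2) (Agent.H21.Sq.conjE_conjE hF2) x := by
      apply Subtype.ext
      show v.1 = x * x ^ 2 ^ n
      rw [← hx, pow_succ, mul_comm]
    conv_lhs => rw [hv]
    rw [← hQ, hv]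
    apply Subtype.ext
    show A x * (A x) ^ 2 ^ n = x * x ^ 2 ^ n
    rcases Agent.H21.Sq.aut_sq_eq_one (n := n) (by rw [Nat.card_eq_fintype_card, hFp]) σ hσσ with h | h
    · rw [h] at ha1
      have ha2 : a = 1 := by
        have h1 : (a - 1) * (a - 1) = 0 := by
          have : (a - 1) * (a - 1) = a * a - 2 * a + 1 := by ring
          rw [this, ha1, CharTwo.two_eq_zero, zero_mul, sub_zero, CharTwo.add_self_eq_zero]
        exact sub_eq_zero.1 (mul_self_eq_zero.1 h1)
      rw [hσ, h, ha2, one_mul]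
    · rw [h] at ha1
      rw [hσ, h, mul_pow, Agent.Uni.pow_q_pow_q hF2]
      calc a * x ^ 2 ^ n * (a ^ 2 ^ n * x) = (a * a ^ 2 ^ n) * (x * x ^ 2 ^ n) := by ring
        _ = _ := by rw [ha1, one_mul]
  have hzr : φ z = z := by
    have h1 : z ∈ D.ι.range := by rw [← hcen]; exact hz
    obtain ⟨v, rfl⟩ := h1
    have := hι (Multiplicative.toAdd v)
    rw [hB1] at this
    exact this
  have h1 := hφ z
  rw [hzr] at h1
  show r * (z : R) = (z : R) * r
  conv_rhs => rw [h1]
  group

end Cfsg.Agent.S3315
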