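import Cfsg.Statements.S3341
import Cfsg.Agent.H67.ColThree
import Cfsg.Agent.S0497

set_option autoImplicit false
open Cfsg

namespace Cfsg.Agent.S3341

/-- Let G be a finite simple group whose Sylow 3-subgroup S is elementary abelian of order 9, such that G has more than one conjugacy class of elements of order 3 and C_G(s) = S for every non-identity s in S. Then G is isomorphic to the alternating group of degree 6. -/
theorem result {G : Type*} [Group G] [Finite G] [IsSimpleGroup G]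
    (P : Sylow 3 G) (S : Subgroup G) (hSP : S = P) (hcomm : IsMulCommutative S) (hexp : ∀ a ∈ S, a ^ 3 = 1)
    (hcard : Nat.card S = 9)
    (hclasses : ∃ a b : G, orderOf a = 3 ∧ orderOf b = 3 ∧ ∀ g : G, g * a * g⁻¹ ≠ b)
    (hcent : ∀ s ∈ S, s ≠ 1 → Subgroup.centralizer ({s} : Set G) = S) :
    Nonempty (G ≃* alternatingGroup (Fin 6)) := by
  classical
  have h : Cfsg.Agent.H67.Col.CC S := by
    refine ⟨?_, hexp, hcard, hcent⟩
    intro a ha b hb
    exact congrArg Subtype.val (hcomm.is_comm.comm (⟨a, ha⟩ : S) ⟨b, hb⟩)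
  obtain ⟨a, b, ha, hb, hab⟩ := hclasses
  obtain ⟨g, hg⟩ := Cfsg.Agent.H67.Col.exists_conj_mem P (k := a) ⟨1, by rw [pow_one, ← ha, pow_orderOf_eq_one]⟩
  obtain ⟨g', hg'⟩ := Cfsg.Agent.H67.Col.exists_conj_mem P (k := b) ⟨1, by rw [pow_one, ← hb, pow_orderOf_eq_one]⟩
  rw [← hSP] at hg hg'
  have ha1 : a ≠ 1 := by rintro rfl; rw [orderOf_one] at ha; omega
  have hb1 : b ≠ 1 := by rintro rfl; rw [orderOf_one] at hb; omega
  apply S0497.result
  apply Cfsg.Agent.H67.Col.higman_card h P hSP.symm hg (by rwa [Ne, conj_eq_one_iff]) hg' (by rwa [Ne, conj_eq_one_iff])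
  intro hc
  have h1 : IsConj a (g * a * g⁻¹) := isConj_iff.mpr ⟨g, rfl⟩
  have h2 : IsConj b (g' * b * g'⁻¹) := isConj_iff.mpr ⟨g', rfl⟩
  obtain ⟨x, hx⟩ := isConj_iff.mp ((h1.trans hc).trans h2.symm)
  exact hab x hx

end Cfsg.Agent.S3341
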