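import Cfsg.Statements.S3349

set_option autoImplicit false
open Cfsg

namespace Cfsg.Agent.S3349

/-- Let Q be a finite extraspecial p-group and α an automorphism of Q fixing every element of some maximal abelian subgroup of Q. Then the order of α is a power of p. -/
theorem result {Q : Type*} [Group Q] [Finite Q]
    (p : ℕ) [Fact p.Prime] (hQ : Cfsg.IsExtraspecial p Q) (α : MulAut Q)
    (A : Subgroup Q) (hA : IsMulCommutative A) (hmax : ∀ B : Subgroup Q, A ≤ B → IsMulCommutative B → B = A)
    (hfix : ∀ a ∈ A, α a = a) :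
    ∃ k : ℕ, orderOf α = p ^ k := by
  obtain ⟨⟨hp, hfr, hcomm⟩, hcard⟩ := hQ
  have hAc : ∀ a ∈ A, ∀ b ∈ A, a * b = b * a := by
    intro a ha b hb
    have := isMulCommutative_iff.1 hA ⟨a, ha⟩ ⟨b, hb⟩
    simpa [Subtype.ext_iff] using this
  -- self-centralizing
  have hself : ∀ x : Q, (∀ a ∈ A, x * a = a * x) → x ∈ A := by
    intro x hx
    have hB : Subgroup.closure ((A : Set Q) ∪ {x}) = A := by
      apply hmax
      · exact fun a ha => Subgroup.subset_closure (Or.inl ha)
      · apply Subgroup.isMulCommutative_closure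
        rintro a (ha | ha) b (hb | hb)
        · exact hAc a ha b hb
        · rw [Set.mem_singleton_iff] at hb
          subst hb
          exact (hx a ha).symm
        · rw [Set.mem_singleton_iff] at ha
          subst ha
          exact hx b hb
        · rw [Set.mem_singleton_iff] at ha hb
          rw [ha, hb]
    rw [← hB]
    exact Subgroup.subset_closure (Or.inr rfl)
  have hZ : Subgroup.center Q ≤ A := by
    intro z hz
    apply hself
    intro a _
    exact (Subgroup.mem_center_iff.1 hz a).symm
  have hcommA : ∀ x a : Q, x * a * x⁻¹ * a⁻¹ ∈ A := by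
    intro x a
    apply hZ
    rw [← hcomm]
    exact Subgroup.commutator_mem_commutator (Subgroup.mem_top x) (Subgroup.mem_top a)
  have hdiff : ∀ x : Q, x⁻¹ * α x ∈ A := by
    intro x
    apply hself
    intro a ha
    have h1 : x * a * x⁻¹ ∈ A := by
      have := A.mul_mem (hcommA x a) ha
      simpa using this
    have h2 : α (x * a * x⁻¹) = x * a * x⁻¹ := hfix _ h1
    rw [map_mul, map_mul, map_inv, hfix a ha] at h2
    have h3 : α x * a = x * a * x⁻¹ * α x := by
      rw [← h2]; group
    calc x⁻¹ * α x * a = x⁻¹ * (α x * a) := by group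
      _ = x⁻¹ * (x * a * x⁻¹ * α x) := by rw [h3]
      _ = a * (x⁻¹ * α x) := by group
  have hpow : ∀ (n : ℕ) (x : Q), (α ^ n) x = x * (x⁻¹ * α x) ^ n := by
    intro n x
    induction n with
    | zero => simp
    | succ n ih =>
      rw [pow_succ', MulAut.mul_apply, ih, map_mul, hfix _ (A.pow_mem (hdiff x) n), pow_succ' (x⁻¹ * α x)]
      simp [mul_assoc]
  have hcardQ : α ^ (Nat.card Q) = 1 := by
    ext x
    rw [hpow, pow_card_eq_one']
    simp
  obtain ⟨n, hn⟩ := IsPGroup.iff_card.1 hp
  rw [hn] at hcardQ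
  have := orderOf_dvd_of_pow_eq_one hcardQ
  obtain ⟨k, -, hk⟩ := (Nat.dvd_prime_pow (Fact.out : p.Prime)).1 this
  exact ⟨k, hk⟩

end Cfsg.Agent.S3349
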