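import Cfsg.Statements.S3366
import Cfsg.Agent.H21.G648h
import Cfsg.Agent.H21.G648c
import Cfsg.Agent.Fus.Alperin

set_option autoImplicit false
open Cfsg

namespace Cfsg.Agent.S3366

open Cfsg.Agent.H21.G648 commutatorElement in
theorem main_coord {X : Type*} [Group X] [Finite X] (E : Subgroup X) [hEn : E.Normal]
    (hR : Cfsg.IsExtraspecial 3 E) (hRcard : Nat.card E = 27)
    (hRexp : ∀ r ∈ E, r ^ 3 = 1)
    (e : X ⧸ E ≃* Matrix.SpecialLinearGroup (Fin 2) (ZMod 3))
    (hO2 : Cfsg.pCore 2 X = ⊥)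
    (hE : ∃ E : Subgroup X, IsMulCommutative E ∧ (∀ a ∈ E, a ^ 3 = 1) ∧ Nat.card E = 27) :
    Nonempty (Coord X (ZMod 3)) := by
  classical
  obtain ⟨⟨-, -, hcomm⟩, hcen⟩ := hR
  -- noncommuting pair
  have hnc : ∃ x ∈ E, ∃ y ∈ E, x * y ≠ y * x := by
    by_contra hcon
    push Not at hcon
    have h1 : Subgroup.center E = ⊤ := by
      rw [eq_top_iff]
      rintro ⟨x, hx⟩ -
      rw [Subgroup.mem_center_iff]
      rintro ⟨y, hy⟩
      exact Subtype.ext (hcon y hy x hx)
    rw [h1, Subgroup.card_top, hRcard] at hcen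
    omega
  obtain ⟨x, hx, y, hy, hxy⟩ := hnc
  set k := x * y * x⁻¹ * y⁻¹ with hk
  have hkE : k ∈ E := mul_mem (mul_mem (mul_mem hx hy) (inv_mem hx)) (inv_mem hy)
  have hk1 : k ≠ 1 := by
    intro h
    apply hxy
    have : x * y = k * (y * x) := by rw [hk]; group
    rw [this, h, one_mul]
  have hkcE : ∀ r ∈ E, r * k = k * r := by
    intro r hr
    have h1 : (⟨k, hkE⟩ : E) ∈ Subgroup.center E := by
      rw [← hcomm]
      have h2 : (⟨k, hkE⟩ : E) = ⁅(⟨x, hx⟩ : E), ⟨y, hy⟩⁆ := Subtype.ext (by rw [commutatorElement_def]; rfl)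
      rw [h2]
      exact Subgroup.commutator_mem_commutator (Subgroup.mem_top _) (Subgroup.mem_top _)
    exact congrArg Subtype.val (Subgroup.mem_center_iff.1 h1 ⟨r, hr⟩)
  have hk3 : k ^ 3 = 1 := hRexp k hkE
  -- conjugates of k
  have hconj : ∀ g : X, g * k * g⁻¹ = k ∨ g * k * g⁻¹ = k⁻¹ := by
    intro g
    have h1 : g * k * g⁻¹ ∈ E := hEn.conj_mem k hkE g
    have h2 : ∀ z ∈ E, (∀ r ∈ E, r * z = z * r) → z ≠ 1 → z = k ∨ z = k⁻¹ := by
      intro z hz hzc hz1
      have hord : orderOf (⟨k, hkE⟩ : E) = 3 :=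
        haveI : Fact (Nat.Prime 3) := ⟨Nat.prime_three⟩
        orderOf_eq_prime (Subtype.ext hk3) (fun h => hk1 (congrArg Subtype.val h))
      have h3 : Subgroup.zpowers (⟨k, hkE⟩ : E) = Subgroup.center E := by
        apply Subgroup.eq_of_le_of_card_ge
        · rw [Subgroup.zpowers_le, Subgroup.mem_center_iff]
          rintro ⟨r, hr⟩
          exact Subtype.ext (hkcE r hr)
        · rw [Nat.card_zpowers, hord, hcen]
      have h4 : (⟨z, hz⟩ : E) ∈ Subgroup.zpowers (⟨k, hkE⟩ : E) := by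
        rw [h3, Subgroup.mem_center_iff]
        rintro ⟨r, hr⟩
        exact Subtype.ext (hzc r hr)
      obtain ⟨n, hn⟩ := Subgroup.mem_zpowers_iff.1 h4
      have hn' : k ^ n = z := congrArg Subtype.val hn
      have hk3' : k ^ (3 : ℤ) = 1 := by exact_mod_cast hk3
      have h5 : k ^ n = k ^ (n % 3) := by
        conv_lhs => rw [← Int.emod_add_mul_ediv n 3, zpow_add, zpow_mul, hk3', one_zpow, mul_one]
      rw [h5] at hn'
      have h6 : n % 3 = 0 ∨ n % 3 = 1 ∨ n % 3 = 2 := by omega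
      rcases h6 with h6 | h6 | h6
      · rw [h6, zpow_zero] at hn'
        exact absurd hn'.symm hz1
      · rw [h6, zpow_one] at hn'
        exact Or.inl hn'.symm
      · rw [h6] at hn'
        right
        rw [← hn']
        have : k ^ (2 : ℤ) = k ^ (3 : ℤ) * k⁻¹ := by group
        rw [this, hk3', one_mul]
    apply h2 _ h1
    · intro r hr
      have h3 : g⁻¹ * r * g ∈ E := by
        have := hEn.conj_mem r hr g⁻¹
        rwa [inv_inv] at this
      have h4 := hkcE _ h3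
      calc r * (g * k * g⁻¹) = g * ((g⁻¹ * r * g) * k) * g⁻¹ := by group
        _ = g * (k * (g⁻¹ * r * g)) * g⁻¹ := by rw [h4]
        _ = g * k * g⁻¹ * r := by group
    · intro h
      apply hk1
      have : k = g⁻¹ * (g * k * g⁻¹) * g := by group
      rw [this, h]; group
  have hsq : ∀ g : X, (g * g) * k = k * (g * g) := by
    intro g
    rcases hconj g with h | h
    · have h1 : g * k = k * g := mul_inv_eq_iff_eq_mul.1 h
      rw [mul_assoc, h1, ← mul_assoc, h1, mul_assoc]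
    · have h1 : g * k = k⁻¹ * g := mul_inv_eq_iff_eq_mul.1 h
      have h2 : g * k⁻¹ = k * g := by
        have : g * k⁻¹ * g⁻¹ = (g * k * g⁻¹)⁻¹ := by group
        rw [h, inv_inv] at this
        exact mul_inv_eq_iff_eq_mul.1 this
      rw [mul_assoc, h1, ← mul_assoc, h2, mul_assoc]
  have hkc : ∀ g : X, g * k = k * g := by
    intro g
    obtain ⟨a, b, hab⟩ := sq2 (e (QuotientGroup.mk g))
    obtain ⟨a, rfl⟩ := e.surjective a
    obtain ⟨a, rfl⟩ := QuotientGroup.mk_surjective a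
    obtain ⟨b, rfl⟩ := e.surjective b
    obtain ⟨b, rfl⟩ := QuotientGroup.mk_surjective b
    rw [← map_mul, ← map_mul, ← map_mul] at hab
    have h1 := e.injective hab
    rw [← QuotientGroup.mk_mul, ← QuotientGroup.mk_mul, ← QuotientGroup.mk_mul] at h1
    have h2 : (a * a * (b * b))⁻¹ * g ∈ E := QuotientGroup.eq.1 h1.symm
    have h3 := hkcE _ h2
    set r := (a * a * (b * b))⁻¹ * g with hr
    have h4 : g = a * a * (b * b) * r := by rw [hr]; group
    rw [h4]
    have ha := hsq a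
    have hb := hsq b
    calc a * a * (b * b) * r * k = a * a * (b * b) * (r * k) := by group
      _ = a * a * ((b * b) * k) * r := by rw [h3]; group
      _ = (a * a * k) * (b * b) * r := by rw [hb]; group
      _ = k * (a * a * (b * b) * r) := by rw [ha]; group
  have hxy' : x * y = k * (y * x) := by rw [hk]; group
  let H₀ : Heis X E := mkHeis E hRcard hRexp hx hy hkE hk1 hkc hxy'
  -- the involution
  obtain ⟨t₀, ht₀⟩ : ∃ t₀ : X, e (QuotientGroup.mk t₀) = -1 := by
    obtain ⟨q, hq⟩ := e.surjective (-1)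
    obtain ⟨t₀, rfl⟩ := QuotientGroup.mk_surjective q
    exact ⟨t₀, hq⟩
  have hm1 : (-1 : Matrix.SpecialLinearGroup (Fin 2) (ZMod 3)) * (-1) = 1 := by decide
  have hm2 : (-1 : Matrix.SpecialLinearGroup (Fin 2) (ZMod 3)) ≠ 1 := by decide
  have ht₀2 : t₀ * t₀ ∈ E := by
    rw [← QuotientGroup.eq_one_iff]
    apply e.injective
    rw [QuotientGroup.mk_mul, map_mul, ht₀, hm1, map_one]
  set t := t₀ * t₀ * t₀ with ht
  have hte : e (QuotientGroup.mk t) = -1 := by
    rw [ht, QuotientGroup.mk_mul, QuotientGroup.mk_mul, map_mul, map_mul, ht₀, hm1, one_mul]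
  have ht2 : t * t = 1 := by
    have : t * t = (t₀ * t₀) ^ 3 := by
      rw [ht, pow_succ, pow_two]
      simp only [mul_assoc]
    rw [this, hRexp _ ht₀2]
  have ht1 : t ≠ 1 := by
    intro h
    apply hm2
    rw [← hte, h, QuotientGroup.mk_one, map_one]
  have hnt : ∃ r ∈ E, t * r ≠ r * t := by
    by_contra hcon
    push Not at hcon
    have hcen : ∀ g : X, g * t * g⁻¹ = t := by
      intro g
      have h1 : (g * t * g⁻¹)⁻¹ * t ∈ E := by
        rw [← QuotientGroup.eq_one_iff]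
        apply e.injective
        have h2 : e (QuotientGroup.mk g) * (-1) = (-1) * e (QuotientGroup.mk g) := by
          apply Subtype.ext
          show (e (QuotientGroup.mk g)).1 * (-(1 : Matrix (Fin 2) (Fin 2) (ZMod 3))) = (-(1 : Matrix (Fin 2) (Fin 2) (ZMod 3))) * (e (QuotientGroup.mk g)).1
          simp
        simp only [QuotientGroup.mk_mul, QuotientGroup.mk_inv, map_mul, map_inv, hte, map_one]
        rw [h2, mul_inv_cancel_right, inv_mul_cancel]
      set r := (g * t * g⁻¹)⁻¹ * t with hr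
      have h3 := hcon r h1
      have h4 : g * t * g⁻¹ = t * r⁻¹ := by rw [hr]; group
      have h5 : (t * r⁻¹) * (t * r⁻¹) = 1 := by
        rw [← h4]
        have : g * t * g⁻¹ * (g * t * g⁻¹) = g * (t * t) * g⁻¹ := by group
        rw [this, ht2]; group
      have h6 : r⁻¹ * t = t * r⁻¹ := by
        have : r⁻¹ * (t * r) * r⁻¹ = r⁻¹ * (r * t) * r⁻¹ := by rw [h3]
        have h7 : r⁻¹ * (t * r) * r⁻¹ = r⁻¹ * t := by group
        have h8 : r⁻¹ * (r * t) * r⁻¹ = t * r⁻¹ := by group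
        rw [← h7, this, h8]
      have h7 : r⁻¹ * r⁻¹ = 1 := by
        calc r⁻¹ * r⁻¹ = (t * t) * (r⁻¹ * r⁻¹) := by rw [ht2, one_mul]
          _ = t * (t * r⁻¹) * r⁻¹ := by group
          _ = t * (r⁻¹ * t) * r⁻¹ := by rw [h6]
          _ = (t * r⁻¹) * (t * r⁻¹) := by group
          _ = 1 := h5
      have h8 : r ^ 3 = 1 := hRexp r h1
      have h9 : r = 1 := by
        have : r = r ^ 3 * (r⁻¹ * r⁻¹) := by group
        rw [this, h8, h7, one_mul]
      rw [h4, h9, inv_one, mul_one]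
    have hnorm : (Subgroup.zpowers t).Normal := by
      constructor
      intro z hz g
      obtain ⟨n, rfl⟩ := Subgroup.mem_zpowers_iff.1 hz
      have : g * t ^ n * g⁻¹ = t ^ n := by
        rw [← conj_zpow, hcen]
      rw [this]
      exact Subgroup.zpow_mem_zpowers t n
    have hp : IsPGroup 2 (Subgroup.zpowers t) := by
      haveI : Fact (Nat.Prime 2) := ⟨Nat.prime_two⟩
      rw [IsPGroup.iff_card]
      refine ⟨1, ?_⟩
      rw [Nat.card_zpowers, pow_one]
      exact orderOf_eq_prime (by rw [pow_two]; exact ht2) ht1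
    have h1 := Cfsg.Agent.Fus.le_pCore hnorm hp
    rw [hO2] at h1
    exact ht1 (Subgroup.mem_bot.1 (h1 (Subgroup.mem_zpowers t)))
  have hρt := H₀.rho_t ht2 (H₀.rho_ne_one ht2 hnt)
  obtain ⟨H, hinv⟩ := H₀.new_coords hRcard hRexp hρt
  have hker : H.rho.ker = E := H.ker_eq e hte (H.rho_ne_one ht2 hnt)
  have hsurj := H.rho_surj e hker
  obtain ⟨A, hAc, hA3, hA⟩ := hE
  obtain ⟨c, hct, hc3, hcE⟩ := H.exists_c hinv hRcard hker ht2 hRexp A
    (fun a ha b hb => congrArg Subtype.val (hAc.is_comm.comm ⟨a, ha⟩ ⟨b, hb⟩)) hA3 hA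
  obtain ⟨h, h1, h2⟩ := H.exists_hom hRexp hinv hker hsurj ht2 hct hc3 hcE
  exact H.coord hinv hker h h1 h2


/-- Let X be a finite group with O₃(X) extraspecial of order 27 and exponent 3, X/O₃(X) isomorphic to SL(2,3), O₂(X) = 1, and a Sylow 3-subgroup of X containing an elementary abelian subgroup of order 27. Then X is isomorphic to the centralizer in PSp(4,3) of a 3-central element of order 3 (an element of order 3 in the centre of a Sylow 3-subgroup). -/
theorem result {X : Type*} [Group X] [Finite X]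
    (hR : Cfsg.IsExtraspecial 3 (Cfsg.pCore 3 X)) (hRcard : Nat.card (Cfsg.pCore 3 X) = 27)
    (hRexp : ∀ r ∈ Cfsg.pCore 3 X, r ^ 3 = 1)
    (e : X ⧸ Cfsg.pCore 3 X ≃* Matrix.SpecialLinearGroup (Fin 2) (ZMod 3))
    (hO2 : Cfsg.pCore 2 X = ⊥)
    (hE : ∃ E : Subgroup X, IsMulCommutative E ∧ (∀ a ∈ E, a ^ 3 = 1) ∧ Nat.card E = 27)
    (F : Type*) [Field F] [Fintype F] (hF : Fintype.card F = 3) :
    ∃ (c : Cfsg.PSp 2 F) (S : Sylow 3 (Cfsg.PSp 2 F)), orderOf c = 3 ∧ c ∈ (S : Subgroup (Cfsg.PSp 2 F)) ∧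
      c ∈ Subgroup.centralizer ((S : Subgroup (Cfsg.PSp 2 F)) : Set (Cfsg.PSp 2 F)) ∧
      Nonempty (X ≃* Subgroup.centralizer ({c} : Set (Cfsg.PSp 2 F))) := by
  classical
  obtain ⟨c, S, h1, h2, h3, ⟨C₂⟩⟩ := Cfsg.Agent.H21.G648.psp_side hF
  obtain ⟨C₁⟩ := main_coord (Cfsg.pCore 3 X) hR hRcard hRexp e hO2 hE
  let θ : ZMod 3 ≃+* F := FiniteField.ringEquivOfCardEq (K := ZMod 3) (K' := F) (by rw [hF, ZMod.card])
  exact ⟨c, S, h1, h2, h3, Cfsg.Agent.H21.G648.iso_of_coord θ C₁ C₂⟩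

end Cfsg.Agent.S3366
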