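import Cfsg.Statements.S3376
import Cfsg.Agent.Solv.MinNormal

set_option autoImplicit false
open Cfsg

namespace Cfsg.Agent.S3376

open Equiv

/-- A fixed-point-free permutation of nine points with cube 1 has three 3-cycles. -/
theorem cycleType_three (σ : Perm (Fin 9)) (h3 : σ ^ 3 = 1) (hf : ∀ i, σ i ≠ i) :
    σ.cycleType = Multiset.replicate 3 3 := by
  have h1 := Equiv.Perm.cycleType_of_pow_prime_eq_one (p := 3) h3
  have h2 := σ.sum_cycleType
  have h4 : σ.support = Finset.univ := by
    ext i
    simp [hf i]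
  rw [h4, h1, Multiset.sum_replicate, Finset.card_univ, Fintype.card_fin, smul_eq_mul] at h2
  have h5 : Multiset.card σ.cycleType = 3 := by omega
  rw [h1, h5]

theorem card_centralizer_three (σ : Perm (Fin 9)) (h : σ.cycleType = Multiset.replicate 3 3) :
    Nat.card (Subgroup.centralizer ({σ} : Set (Perm (Fin 9)))) = 162 := by
  rw [Equiv.Perm.nat_card_centralizer, h]
  simp [Multiset.toFinset_replicate]
  decide

/-- Let G be a group of order 162 = 3⁴·2 with Sylow 3-subgroup S and Sylow 2-subgroup T, having an elementary abelian normal subgroup J of order 27, such that Z = Z(S) has order 3, Z centralizes T, and C_S(T) ≠ S. Then G is isomorphic to the centralizer in Sym(9) of a product of three disjoint 3-cycles. -/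
theorem result {G : Type*} [Group G] [Finite G] (hG : Nat.card G = 162)
    (S : Sylow 3 G) (T : Sylow 2 G) (J : Subgroup G) [hJn : J.Normal] (hJcomm : IsMulCommutative J)
    (hJexp : ∀ a ∈ J, a ^ 3 = 1) (hJcard : Nat.card J = 27)
    (Z : Subgroup G) (hZ : Z = (S : Subgroup G) ⊓ Subgroup.centralizer ((S : Subgroup G) : Set G)) (hZcard : Nat.card Z = 3)
    (hZT : Z ≤ Subgroup.centralizer ((T : Subgroup G) : Set G))
    (hST : (S : Subgroup G) ⊓ Subgroup.centralizer ((T : Subgroup G) : Set G) ≠ S) :
    Nonempty (G ≃* Subgroup.centralizer ({Equiv.swap (0 : Fin 9) 1 * Equiv.swap 1 2 * Equiv.swap 3 4 * Equiv.swap 4 5 * Equiv.swap 6 7 * Equiv.swap 7 8} : Set (Equiv.Perm (Fin 9)))) := by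
  classical
  have h3f : Fact (Nat.Prime 3) := ⟨Nat.prime_three⟩
  have hfac3 : (162 : ℕ).factorization 3 = 4 := by
    rw [show (162 : ℕ) = 3 ^ 4 * 2 by norm_num]
    rw [Nat.factorization_mul (by norm_num) (by norm_num), Finsupp.add_apply,
      Nat.prime_three.factorization_pow, Nat.prime_two.factorization]
    simp
  have hfac2 : (162 : ℕ).factorization 2 = 1 := by
    rw [show (162 : ℕ) = 3 ^ 4 * 2 by norm_num]
    rw [Nat.factorization_mul (by norm_num) (by norm_num), Finsupp.add_apply,
      Nat.prime_three.factorization_pow, Nat.prime_two.factorization]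
    simp
  have hScard : Nat.card S = 81 := by
    rw [S.card_eq_multiplicity, hG, hfac3]; norm_num
  have hTcard : Nat.card T = 2 := by
    rw [T.card_eq_multiplicity, hG, hfac2]; norm_num
  have hSidx : (S : Subgroup G).index = 2 := by
    have := Subgroup.card_mul_index (S : Subgroup G)
    rw [hG] at this
    change Nat.card S * _ = _ at this
    rw [hScard] at this
    omega
  have hSn : (S : Subgroup G).Normal := Subgroup.normal_of_index_eq_two hSidx
  have hTn : ¬ (T : Subgroup G).Normal := by
    intro hTn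
    apply hST
    apply le_antisymm inf_le_left
    apply le_inf le_rfl
    have hdis : Disjoint (S : Subgroup G) (T : Subgroup G) :=
      IsPGroup.disjoint_of_ne 3 2 (by norm_num) _ _ S.isPGroup' T.isPGroup'
    intro s hs
    rw [Subgroup.mem_centralizer_iff]
    intro t ht
    have h1 : t * s * t⁻¹ * s⁻¹ ∈ (S : Subgroup G) ⊓ T := by
      constructor
      · exact (S : Subgroup G).mul_mem (hSn.conj_mem s hs t) ((S : Subgroup G).inv_mem hs)
      · have : t * s * t⁻¹ * s⁻¹ = t * (s * t⁻¹ * s⁻¹) := by group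
        rw [this]
        exact (T : Subgroup G).mul_mem ht (hTn.conj_mem _ ((T : Subgroup G).inv_mem ht) s)
    rw [hdis.eq_bot, Subgroup.mem_bot] at h1
    have : t * s = (t * s * t⁻¹ * s⁻¹) * (s * t) := by group
    rw [this, h1, one_mul]
  have hsup : (S : Subgroup G) ⊔ T = ⊤ := by
    apply Subgroup.eq_top_of_card_eq
    apply Nat.dvd_antisymm (Subgroup.card_subgroup_dvd_card _)
    rw [hG]
    have h1 : 81 ∣ Nat.card ((S : Subgroup G) ⊔ T : Subgroup G) := by
      rw [← hScard]; exact Subgroup.card_dvd_of_le le_sup_left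
    have h2 : 2 ∣ Nat.card ((S : Subgroup G) ⊔ T : Subgroup G) := by
      have := Subgroup.card_dvd_of_le (le_sup_right : (T : Subgroup G) ≤ (S : Subgroup G) ⊔ T)
      rwa [hTcard] at this
    exact Nat.Coprime.mul_dvd_of_dvd_of_dvd (by norm_num) h1 h2
  -- Z is central
  have hZc : ∀ z ∈ Z, ∀ g : G, g * z = z * g := by
    intro z hz g
    have h1 : (⊤ : Subgroup G) ≤ Subgroup.centralizer {z} := by
      rw [← hsup, sup_le_iff]
      constructor
      · intro s hs
        rw [Subgroup.mem_centralizer_singleton_iff]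
        rw [hZ] at hz
        exact (Subgroup.mem_centralizer_iff.1 hz.2 s hs)
      · intro t ht
        rw [Subgroup.mem_centralizer_singleton_iff]
        exact Subgroup.mem_centralizer_iff.1 (hZT hz) t ht
    exact Subgroup.mem_centralizer_singleton_iff.1 (h1 (Subgroup.mem_top g))
  -- nontrivial normal subgroups of G inside S contain Z
  have hmeet : ∀ N : Subgroup G, N.Normal → N ≤ S → N ≠ ⊥ → Z ≤ N := by
    intro N hN hNS hN1
    have hnil : Group.IsNilpotent S := S.isPGroup'.isNilpotent
    have h1 : (N.subgroupOf (S : Subgroup G)).Normal := inferInstance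
    have h2 : N.subgroupOf (S : Subgroup G) ≠ ⊥ := by
      intro h
      rw [Subgroup.subgroupOf_eq_bot] at h
      exact hN1 (h.eq_bot_of_le hNS)
    have h3 := Cfsg.Agent.Solv.inf_center_ne_bot_of_nilpotent _ h2
    obtain ⟨⟨⟨x, hxS⟩, hx⟩, hx1⟩ := Subgroup.ne_bot_iff_exists_ne_one.mp h3
    have hx1' : x ≠ 1 := by
      rintro rfl
      exact hx1 rfl
    have hxN : x ∈ N := hx.1
    have hxZ : x ∈ Z := by
      rw [hZ]
      refine ⟨hxS, Subgroup.mem_centralizer_iff.2 ?_⟩
      intro s hs
      exact congrArg Subtype.val (Subgroup.mem_center_iff.1 hx.2 ⟨s, hs⟩)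
    have h4 : Subgroup.zpowers x = Z := by
      apply Subgroup.eq_of_le_of_card_ge (Subgroup.zpowers_le.2 hxZ)
      rw [hZcard, Nat.card_zpowers]
      have h5 : orderOf x ∣ 3 := by
        rw [← hZcard]
        exact Subgroup.orderOf_dvd_natCard Z hxZ
      have h6 : orderOf x ≠ 1 := fun h => hx1' (orderOf_eq_one_iff.1 h)
      rcases (Nat.dvd_prime Nat.prime_three).1 h5 with h | h
      · exact absurd h h6
      · omega
    rw [← h4]
    exact Subgroup.zpowers_le.2 hxN
  have hJS : J ≤ S := by
    have hJp : IsPGroup 3 J := IsPGroup.of_card (n := 3) (by rw [hJcard]; norm_num)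
    have h1 : IsPGroup 3 (J ⊔ (S : Subgroup G) : Subgroup G) := hJp.to_sup_of_normal_left S.isPGroup'
    have h2 := S.is_maximal' h1 le_sup_right
    rw [← h2]
    exact le_sup_left
  have hZJ : Z ≤ J := hmeet J hJn hJS (by
    intro h
    rw [h, Subgroup.card_bot] at hJcard
    omega)
  have hJc : ∀ a ∈ J, ∀ b ∈ J, a * b = b * a := fun a ha b hb =>
    Cfsg.Agent.Solv.comm_of_isMulCommutative hJcomm ha hb
  -- the involution t
  have hTcyc : ∃ t : G, t ≠ 1 ∧ t * t = 1 ∧ ∀ x ∈ T, x = 1 ∨ x = t := by
    rw [Nat.card_eq_two_iff] at hTcard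
    obtain ⟨x, y, hxy, huniv⟩ := hTcard
    have hmem : ∀ g : T, g = x ∨ g = y := by
      intro g
      have : g ∈ ({x, y} : Set _) := by rw [huniv]; trivial
      simpa using this
    have key : ∀ a b : T, a ≠ b → (∀ g : T, g = a ∨ g = b) → a = 1 →
        ∃ t : G, t ≠ 1 ∧ t * t = 1 ∧ ∀ x ∈ T, x = 1 ∨ x = t := by
      rintro a b hab hg rfl
      refine ⟨b, fun h => hab (Subtype.ext h.symm), ?_, ?_⟩
      · rcases hg (b * b) with h | h
        · exact congrArg Subtype.val h
        · exact absurd (mul_eq_left.1 h).symm hab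
      · intro x hx
        rcases hg ⟨x, hx⟩ with h | h
        · exact Or.inl (congrArg Subtype.val h)
        · exact Or.inr (congrArg Subtype.val h)
    rcases hmem 1 with h | h
    · exact key x y hxy hmem h.symm
    · exact key y x hxy.symm (fun g => (hmem g).symm) h.symm
  obtain ⟨t, ht1, htt, hTt⟩ := hTcyc
  have hTz : (T : Subgroup G) = Subgroup.zpowers t := by
    apply le_antisymm
    · intro x hx
      rcases hTt x hx with h | h
      · rw [h]; exact Subgroup.one_mem _
      · rw [h]; exact Subgroup.mem_zpowers t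
    · rw [Subgroup.zpowers_le]
      by_contra htT
      have : (T : Subgroup G) = ⊥ := by
        rw [Subgroup.eq_bot_iff_forall]
        intro x hx
        rcases hTt x hx with h | h
        · exact h
        · rw [h] at hx; exact absurd hx htT
      rw [this, Subgroup.card_bot] at hTcard
      omega
  have htinv : t⁻¹ = t := inv_eq_of_mul_eq_one_left htt
  -- maximal t-invariant subgroup of J avoiding Z
  let Pset : Set (Subgroup G) := {U | U ≤ J ∧ (∀ u ∈ U, t * u * t ∈ U) ∧ U ⊓ Z = ⊥}
  have hPfin : Pset.Finite := Set.toFinite _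
  have hPne : Pset.Nonempty := ⟨⊥, bot_le, by
    intro u hu
    rw [Subgroup.mem_bot] at hu
    rw [hu, mul_one, htt]
    exact Subgroup.one_mem _, bot_inf_eq _⟩
  obtain ⟨U, hU⟩ := hPfin.exists_maximal hPne
  obtain ⟨⟨hUJ, hUt, hUZ⟩, hUmax⟩ := hU
  have hUZJ : ∀ j ∈ J, ∃ u ∈ U, ∃ z ∈ Z, j = u * z := by
    by_contra hcon
    push Not at hcon
    obtain ⟨j, hj, hjn⟩ := hcon
    -- the products u * z form a subgroup
    let W : Subgroup G :=
      { carrier := {w | ∃ u ∈ U, ∃ z ∈ Z, w = u * z}
        mul_mem' := by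
          rintro _ _ ⟨u, hu, z, hz, rfl⟩ ⟨u', hu', z', hz', rfl⟩
          refine ⟨u * u', U.mul_mem hu hu', z * z', Z.mul_mem hz hz', ?_⟩
          have := hZc z hz u'
          calc u * z * (u' * z') = u * (z * u') * z' := by group
            _ = u * (u' * z) * z' := by rw [this]
            _ = u * u' * (z * z') := by group
        one_mem' := ⟨1, U.one_mem, 1, Z.one_mem, by simp⟩
        inv_mem' := by
          rintro _ ⟨u, hu, z, hz, rfl⟩
          refine ⟨u⁻¹, U.inv_mem hu, z⁻¹, Z.inv_mem hz, ?_⟩
          rw [mul_inv_rev]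
          exact (hZc z⁻¹ (Z.inv_mem hz) u⁻¹).symm }
    have hjW : j ∉ W := by
      rintro ⟨u, hu, z, hz, h⟩
      exact hjn u hu z hz h
    have hWJ : W ≤ J := by
      rintro _ ⟨u, hu, z, hz, rfl⟩
      exact J.mul_mem (hUJ hu) (hZJ hz)
    have hjt : t * j * t ∈ J := by
      have := hJn.conj_mem j hj t
      rwa [htinv] at this
    -- an eigenvector outside W
    obtain ⟨e, heJ, heW, het⟩ : ∃ e ∈ J, e ∉ W ∧ (t * e * t = e ∨ t * e * t = e⁻¹) := by
      by_cases h1 : j * (t * j * t) ∈ W
      · refine ⟨j * (t * j * t)⁻¹, J.mul_mem hj (J.inv_mem hjt), ?_, Or.inr ?_⟩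
        · intro h2
          apply hjW
          have h3 := W.mul_mem h1 h2
          have h4 : j * (t * j * t) * (j * (t * j * t)⁻¹) = j⁻¹ := by
            have := hJc j hj _ hjt
            calc j * (t * j * t) * (j * (t * j * t)⁻¹) = j * ((t * j * t) * j) * (t * j * t)⁻¹ := by group
              _ = j * (j * (t * j * t)) * (t * j * t)⁻¹ := by rw [this]
              _ = j * j := by group
              _ = j⁻¹ := by
                apply eq_inv_of_mul_eq_one_left
                rw [← hJexp j hj, pow_succ, pow_two]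
          rw [h4] at h3
          exact inv_mem_iff.1 h3
        · have h5 : t * (t * j * t)⁻¹ * t = j⁻¹ := by
            rw [mul_inv_rev, mul_inv_rev, htinv]
            calc t * (t * (j⁻¹ * t)) * t = (t * t) * j⁻¹ * (t * t) := by group
              _ = j⁻¹ := by rw [htt]; simp
          calc t * (j * (t * j * t)⁻¹) * t = t * j * 1 * (t * j * t)⁻¹ * t := by group
            _ = t * j * (t * t) * (t * j * t)⁻¹ * t := by rw [htt]
            _ = (t * j * t) * (t * (t * j * t)⁻¹ * t) := by group
            _ = (j * (t * j * t)⁻¹)⁻¹ := by rw [h5, mul_inv_rev, inv_inv]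
      · refine ⟨j * (t * j * t), J.mul_mem hj hjt, h1, Or.inl ?_⟩
        have := hJc j hj _ hjt
        calc t * (j * (t * j * t)) * t = (t * j * t) * j * (t * t) := by group
          _ = j * (t * j * t) := by rw [htt, mul_one, this]
    have heinv : ∀ i : ℤ, t * e ^ i * t = e ^ i ∨ t * e ^ i * t = (e ^ i)⁻¹ := by
      intro i
      have h1 : t * e ^ i * t = (t * e * t) ^ i := by
        have := conj_zpow (a := t) (b := e) (i := i)
        rw [htinv] at this
        exact this.symm
      rw [h1]
      rcases het with h | h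
      · left; rw [h]
      · right; rw [h, inv_zpow]
    -- the enlarged subgroup
    let U' : Subgroup G :=
      { carrier := {w | ∃ u ∈ U, ∃ i : ℤ, w = u * e ^ i}
        mul_mem' := by
          rintro _ _ ⟨u, hu, i, rfl⟩ ⟨u', hu', i', rfl⟩
          refine ⟨u * u', U.mul_mem hu hu', i + i', ?_⟩
          have := hJc (e ^ i) (J.zpow_mem heJ i) u' (hUJ hu')
          calc u * e ^ i * (u' * e ^ i') = u * (e ^ i * u') * e ^ i' := by group
            _ = u * (u' * e ^ i) * e ^ i' := by rw [this]
            _ = u * u' * e ^ (i + i') := by rw [zpow_add]; group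
        one_mem' := ⟨1, U.one_mem, 0, by simp⟩
        inv_mem' := by
          rintro _ ⟨u, hu, i, rfl⟩
          refine ⟨u⁻¹, U.inv_mem hu, -i, ?_⟩
          rw [mul_inv_rev, zpow_neg]
          exact hJc _ (J.inv_mem (J.zpow_mem heJ i)) _ (J.inv_mem (hUJ hu)) }
    have hU'P : U' ∈ Pset := by
      refine ⟨?_, ?_, ?_⟩
      · rintro _ ⟨u, hu, i, rfl⟩
        exact J.mul_mem (hUJ hu) (J.zpow_mem heJ i)
      · rintro _ ⟨u, hu, i, rfl⟩
        have h1 : t * (u * e ^ i) * t = (t * u * t) * (t * e ^ i * t) := by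
          calc t * (u * e ^ i) * t = t * u * 1 * e ^ i * t := by group
            _ = t * u * (t * t) * e ^ i * t := by rw [htt]
            _ = (t * u * t) * (t * e ^ i * t) := by group
        rw [h1]
        rcases heinv i with h | h
        · exact ⟨_, hUt u hu, i, by rw [h]⟩
        · exact ⟨_, hUt u hu, -i, by rw [h, zpow_neg]⟩
      · rw [Subgroup.eq_bot_iff_forall]
        rintro x ⟨⟨u, hu, i, rfl⟩, hxZ⟩
        -- e ^ i ∈ W
        have h1 : e ^ i ∈ W := ⟨u⁻¹, U.inv_mem hu, u * e ^ i, hxZ, by group⟩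
        have h3 : e ^ (3 : ℤ) = 1 := by exact_mod_cast hJexp e heJ
        have h2 : (3 : ℤ) ∣ i := by
          by_contra hi
          apply heW
          have hcop : IsCoprime (3 : ℤ) i := Int.prime_three.coprime_iff_not_dvd.2 hi
          obtain ⟨a, b, hab⟩ := hcop
          have : e = (e ^ i) ^ b := by
            calc e = e ^ (a * 3 + b * i) := by rw [hab, zpow_one]
              _ = (e ^ i) ^ b := by
                rw [zpow_add, mul_comm a 3, zpow_mul, h3, one_zpow, one_mul, mul_comm b i, zpow_mul]
          rw [this]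
          exact W.zpow_mem h1 b
        obtain ⟨k, rfl⟩ := h2
        rw [zpow_mul, h3, one_zpow, mul_one] at hxZ ⊢
        have : u ∈ U ⊓ Z := ⟨hu, hxZ⟩
        rw [hUZ, Subgroup.mem_bot] at this
        exact this
    have hle : U ≤ U' := fun u hu => ⟨u, hu, 0, by simp⟩
    have hge := hUmax hU'P hle
    have : e ∈ U := hge ⟨1, U.one_mem, 1, by simp⟩
    exact heW ⟨e, this, 1, Z.one_mem, by simp⟩
  -- U has order 9
  have hUcard : Nat.card U * 3 = 27 := by
    rw [← hZcard, ← Nat.card_prod, ← hJcard]
    apply Nat.card_congr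
    apply Equiv.ofBijective (fun x : U × Z => (⟨x.1 * x.2, J.mul_mem (hUJ x.1.2) (hZJ x.2.2)⟩ : J))
    constructor
    · rintro ⟨⟨u, hu⟩, ⟨z, hz⟩⟩ ⟨⟨u', hu'⟩, ⟨z', hz'⟩⟩ h
      have h1 : u * z = u' * z' := congrArg Subtype.val h
      have h2 : u'⁻¹ * u ∈ U ⊓ Z := by
        refine ⟨U.mul_mem (U.inv_mem hu') hu, ?_⟩
        have : u'⁻¹ * u = z' * z⁻¹ := by
          calc u'⁻¹ * u = u'⁻¹ * (u * z) * z⁻¹ := by group
            _ = u'⁻¹ * (u' * z') * z⁻¹ := by rw [h1]
            _ = z' * z⁻¹ := by group
        rw [this]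
        exact Z.mul_mem hz' (Z.inv_mem hz)
      rw [hUZ, Subgroup.mem_bot] at h2
      have h3 : u = u' := (inv_mul_eq_one.1 h2).symm
      subst h3
      have h4 : z = z' := mul_left_cancel h1
      subst h4
      rfl
    · rintro ⟨j, hj⟩
      obtain ⟨u, hu, z, hz, h⟩ := hUZJ j hj
      exact ⟨(⟨u, hu⟩, ⟨z, hz⟩), Subtype.ext h.symm⟩
  have hUcard9 : Nat.card U = 9 := by omega
  -- the subgroup B = U⟨t⟩
  let B : Subgroup G :=
    { carrier := {w | w ∈ U ∨ w * t ∈ U}
      mul_mem' := by
        rintro a b (ha | ha) (hb | hb)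
        · exact Or.inl (U.mul_mem ha hb)
        · exact Or.inr (by rw [mul_assoc]; exact U.mul_mem ha hb)
        · right
          have h1 : a * b * t = (a * t) * (t * b * t) := by
            calc a * b * t = a * 1 * b * t := by group
              _ = a * (t * t) * b * t := by rw [htt]
              _ = (a * t) * (t * b * t) := by group
          rw [h1]
          exact U.mul_mem ha (hUt b hb)
        · left
          have h1 : a * b = (a * t) * (t * (b * t) * t) := by
            calc a * b = a * 1 * b * 1 := by group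
              _ = a * (t * t) * b * (t * t) := by rw [htt]
              _ = (a * t) * (t * (b * t) * t) := by group
          rw [h1]
          exact U.mul_mem ha (hUt _ hb)
      one_mem' := Or.inl U.one_mem
      inv_mem' := by
        rintro a (ha | ha)
        · exact Or.inl (U.inv_mem ha)
        · right
          have h1 : a⁻¹ * t = t * (a * t)⁻¹ * t := by
            rw [mul_inv_rev, htinv]
            calc a⁻¹ * t = 1 * a⁻¹ * t := by group
              _ = (t * t) * a⁻¹ * t := by rw [htt]
              _ = t * (t * a⁻¹) * t := by group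
          rw [h1]
          exact hUt _ (U.inv_mem ha) }
  have htS : t ∉ (S : Subgroup G) := by
    intro h
    have h1 : orderOf t ∣ 81 := by
      rw [← hScard]; exact Subgroup.orderOf_dvd_natCard _ h
    have h2 : orderOf t = 2 := orderOf_eq_prime (by rw [pow_two, htt]) ht1
    rw [h2] at h1
    omega
  have hBS : B ⊓ S = U := by
    apply le_antisymm
    · rintro b ⟨hb | hb, hbS⟩
      · exact hb
      · exfalso
        apply htS
        have h1 : t = b⁻¹ * (b * t) := by group
        rw [h1]
        exact (S : Subgroup G).mul_mem ((S : Subgroup G).inv_mem hbS) (hJS (hUJ hb))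
    · exact fun u hu => ⟨Or.inl hu, hJS (hUJ hu)⟩
  have hBcard : Nat.card B = 18 := by
    have e : B ≃ U ⊕ U :=
      { toFun := fun b => if h : (b : G) ∈ U then Sum.inl ⟨b, h⟩ else Sum.inr ⟨(b : G) * t, b.2.resolve_left h⟩
        invFun := fun x => x.elim (fun (u : U) => ⟨(u : G), Or.inl u.2⟩) (fun (u : U) => ⟨(u : G) * t, Or.inr (by
          rw [mul_assoc, htt, mul_one]; exact u.2)⟩)
        left_inv := by
          rintro ⟨b, hb⟩
          by_cases h : b ∈ U
          · simp [h]
          · simp [h, mul_assoc, htt]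
        right_inv := by
          rintro (⟨u, hu⟩ | ⟨u, hu⟩)
          · simp [hu]
          · have : u * t ∉ U := by
              intro h
              apply htS
              have h1 : t = u⁻¹ * (u * t) := by group
              rw [h1]
              exact (S : Subgroup G).mul_mem ((S : Subgroup G).inv_mem (hJS (hUJ hu))) (hJS (hUJ h))
            simp [this, mul_assoc, htt] }
    rw [Nat.card_congr e, Nat.card_sum, hUcard9]
  have hBidx : Nat.card (G ⧸ B) = 9 := by
    have h1 := Subgroup.card_mul_index B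
    rw [hBcard, hG] at h1
    change B.index = 9
    omega
  have hBZ : ∀ z ∈ Z, z ∈ B → z = 1 := by
    intro z hz hzB
    have h1 : z ∈ B ⊓ S := ⟨hzB, hJS (hZJ hz)⟩
    rw [hBS] at h1
    have h2 : z ∈ U ⊓ Z := ⟨h1, hz⟩
    rwa [hUZ, Subgroup.mem_bot] at h2
  -- the core of B is trivial
  have hcore : B.normalCore = ⊥ := by
    have h1 : B.normalCore ⊓ S = ⊥ := by
      by_contra hne
      have h2 : (B.normalCore ⊓ (S : Subgroup G)).Normal := inferInstance
      have h3 := hmeet _ h2 inf_le_right hne
      have hZ1 : Z = ⊥ := by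
        rw [Subgroup.eq_bot_iff_forall]
        intro z hz
        exact hBZ z hz (B.normalCore_le (h3 hz).1)
      rw [hZ1, Subgroup.card_bot] at hZcard
      omega
    by_contra hne
    apply hTn
    -- the core has order two
    obtain ⟨⟨x, hx⟩, hx1⟩ := Subgroup.ne_bot_iff_exists_ne_one.mp hne
    have hx1' : x ≠ 1 := fun h => hx1 (Subtype.ext h)
    have hcop : Nat.card B.normalCore ∣ 2 := by
      have h4 : Function.Injective ((QuotientGroup.mk' (S : Subgroup G)).comp B.normalCore.subtype) := by
        rw [← MonoidHom.ker_eq_bot_iff, Subgroup.eq_bot_iff_forall]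
        rintro ⟨y, hy⟩ hyk
        have h5 : y ∈ (S : Subgroup G) := by
          have : (QuotientGroup.mk' (S : Subgroup G)) y = 1 := hyk
          rwa [QuotientGroup.mk'_apply, QuotientGroup.eq_one_iff] at this
        have h6 : y ∈ B.normalCore ⊓ S := ⟨hy, h5⟩
        rw [h1, Subgroup.mem_bot] at h6
        exact Subtype.ext h6
      have h7 := Subgroup.card_dvd_of_injective _ h4
      have h8 : Nat.card (G ⧸ (S : Subgroup G)) = 2 := hSidx
      rwa [h8] at h7
    have hp2 : IsPGroup 2 B.normalCore := by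
      apply IsPGroup.of_card_dvd_pow (n := 1)
      rwa [pow_one]
    have h9 : B.normalCore ≤ T := by
      have h1 : IsPGroup 2 (B.normalCore ⊔ (T : Subgroup G) : Subgroup G) := hp2.to_sup_of_normal_left T.isPGroup'
      have h2 := T.is_maximal' h1 le_sup_right
      rw [← h2]
      exact le_sup_left
    have h10 : B.normalCore = T := by
      apply Subgroup.eq_of_le_of_card_ge h9
      rw [hTcard]
      have : Nontrivial B.normalCore := ⟨⟨⟨x, hx⟩, 1, hx1⟩⟩
      exact Finite.one_lt_card
    rw [← h10]
    infer_instance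
  -- the action on the nine cosets
  let E : (G ⧸ B) ≃ Fin 9 := Finite.equivFinOfCardEq hBidx
  let f : G →* Perm (Fin 9) := (E.permCongrHom : Perm (G ⧸ B) →* Perm (Fin 9)).comp (MulAction.toPermHom G (G ⧸ B))
  have hfinj : Function.Injective f := by
    rw [MonoidHom.coe_comp]
    apply Function.Injective.comp (MulEquiv.injective _)
    rw [← MonoidHom.ker_eq_bot_iff, ← Subgroup.normalCore_eq_ker, hcore]
  -- the central element
  obtain ⟨z, hzZ, hz1⟩ : ∃ z ∈ Z, z ≠ 1 := by
    by_contra h
    push Not at h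
    have hZ1 : Z = ⊥ := (Subgroup.eq_bot_iff_forall _).2 h
    rw [hZ1, Subgroup.card_bot] at hZcard
    omega
  have hz3 : z ^ 3 = 1 := hJexp z (hZJ hzZ)
  have hfz3 : (f z) ^ 3 = 1 := by rw [← map_pow, hz3, map_one]
  have hfzfix : ∀ i, (f z) i ≠ i := by
    intro i hi
    have h1 : E (z • E.symm i) = i := hi
    have h2 : z • E.symm i = E.symm i := by
      rw [← E.injective.eq_iff, h1, Equiv.apply_symm_apply]
    obtain ⟨g, hg⟩ := QuotientGroup.mk_surjective (E.symm i)
    rw [← hg] at h2
    have h3 : ((z * g : G) : G ⧸ B) = (g : G ⧸ B) := h2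
    rw [QuotientGroup.eq] at h3
    have h4 : (z * g)⁻¹ * g = z⁻¹ := by
      rw [← hZc z hzZ g]; group
    rw [h4, inv_mem_iff] at h3
    exact hz1 (hBZ z hzZ h3)
  set c₀ : Perm (Fin 9) := Equiv.swap (0 : Fin 9) 1 * Equiv.swap 1 2 * Equiv.swap 3 4 * Equiv.swap 4 5 * Equiv.swap 6 7 * Equiv.swap 7 8 with hc₀
  have hc3 : c₀ ^ 3 = 1 := by rw [hc₀]; decide
  have hcf : ∀ i, c₀ i ≠ i := by rw [hc₀]; decide
  have hct := cycleType_three c₀ hc3 hcf
  have hft := cycleType_three (f z) hfz3 hfzfix
  have hconj : IsConj (f z) c₀ := Equiv.Perm.isConj_iff_cycleType_eq.2 (hft.trans hct.symm)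
  obtain ⟨w, hw⟩ := isConj_iff.1 hconj
  let F : G →* Subgroup.centralizer ({c₀} : Set (Perm (Fin 9))) :=
    MonoidHom.codRestrict ((MulAut.conj w).toMonoidHom.comp f) _ (by
      intro g
      rw [Subgroup.mem_centralizer_singleton_iff, ← hw]
      simp only [MonoidHom.comp_apply, MulEquiv.coe_toMonoidHom, MulAut.conj_apply]
      have h1 : f g * f z = f z * f g := by rw [← map_mul, ← map_mul, hZc z hzZ g]
      calc w * f g * w⁻¹ * (w * f z * w⁻¹) = w * (f g * f z) * w⁻¹ := by group
        _ = w * (f z * f g) * w⁻¹ := by rw [h1]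
        _ = w * f z * w⁻¹ * (w * f g * w⁻¹) := by group)
  have hFinj : Function.Injective F := by
    intro a b hab
    have h1 : w * f a * w⁻¹ = w * f b * w⁻¹ := congrArg Subtype.val hab
    exact hfinj (by simpa using h1)
  have hbij : Function.Bijective F := by
    apply hFinj.bijective_of_nat_card_le
    rw [card_centralizer_three c₀ hct, hG]
  exact ⟨MulEquiv.ofBijective F hbij⟩

end Cfsg.Agent.S3376
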