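import Cfsg.Statements.S3389

set_option autoImplicit false
open Cfsg

namespace Cfsg.Agent.S3389

open MulAction

/-- If a `p`-subgroup of order `p ^ n` of `G` fixes the point `α`, contains a non-identity element with
fewer than `p` fixed points, and lies in a subgroup `K` of order `p ^ (n+1)`, then `K` fixes `α`. -/
theorem le_stabilizer_of_card {G : Type*} [Group G] [Finite G] {Ω : Type*} [Finite Ω] [MulAction G Ω]
    (k : ℕ) (hfix : ∀ g : G, g ≠ 1 → Nat.card (fixedBy Ω g) ≤ k)
    (p : ℕ) [Fact p.Prime] (hkp : k < p) (α : Ω) (n : ℕ) (P K : Subgroup G) (hP : Nat.card P = p ^ n)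
    (hP1 : P ≠ ⊥) (hPα : P ≤ stabilizer G α) (hK : Nat.card K = p ^ (n + 1)) (hPK : P ≤ K) :
    K ≤ stabilizer G α := by
  have hp : p.Prime := Fact.out
  -- P is normal in K
  have hidx : (P.subgroupOf K).index = p := by
    have h1 : Nat.card (P.subgroupOf K) * (P.subgroupOf K).index = Nat.card K :=
      Subgroup.card_mul_index _
    rw [Nat.card_congr (Subgroup.subgroupOfEquivOfLe hPK).toEquiv, hP, hK, pow_succ] at h1
    exact Nat.eq_of_mul_eq_mul_left (pow_pos hp.pos n) h1
  have hnorm : (P.subgroupOf K).Normal := by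
    apply Subgroup.normal_of_index_eq_minFac_card
    rw [hidx, hK, Nat.Prime.pow_minFac hp (by omega)]
  obtain ⟨g, hgP, hg1⟩ : ∃ g ∈ P, g ≠ 1 := by
    by_contra h
    push Not at h
    exact hP1 ((Subgroup.eq_bot_iff_forall _).2 h)
  -- the K-orbit of α lies in the fixed point set of g
  have horb : orbit K α ⊆ fixedBy Ω g := by
    rintro _ ⟨x, rfl⟩
    rw [mem_fixedBy]
    have hx : (x : G)⁻¹ * g * x ∈ P := by
      have := hnorm.conj_mem ⟨g, hPK hgP⟩ (by rwa [Subgroup.mem_subgroupOf]) x⁻¹
      rw [Subgroup.mem_subgroupOf] at this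
      simpa using this
    have h2 := hPα hx
    rw [mem_stabilizer_iff] at h2
    change g • ((x : G) • α) = (x : G) • α
    calc g • ((x : G) • α) = (x : G) • (((x : G)⁻¹ * g * x) • α) := by
          rw [smul_smul, smul_smul]; congr 1; group
      _ = (x : G) • α := by rw [h2]
  have hcardorb : (orbit K α).ncard ≤ k :=
    le_trans (Set.ncard_le_ncard horb (Set.toFinite _)) (hfix g hg1)
  have hdvd : (orbit K α).ncard ∣ p ^ (n + 1) := by
    rw [← index_stabilizer, ← hK]
    exact Subgroup.index_dvd_card _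
  obtain ⟨j, -, hj⟩ := (Nat.dvd_prime_pow hp).1 hdvd
  have hj0 : j = 0 := by
    by_contra hne
    have : p ^ 1 ≤ p ^ j := Nat.pow_le_pow_right hp.pos (Nat.one_le_iff_ne_zero.2 hne)
    rw [pow_one] at this
    omega
  rw [hj0, pow_zero, Set.ncard_eq_one] at hj
  obtain ⟨a, ha⟩ := hj
  have hα : α = a := by
    have := mem_orbit_self (M := K) α
    rw [ha] at this
    exact this
  intro x hx
  rw [mem_stabilizer_iff]
  have : (⟨x, hx⟩ : K) • α ∈ orbit K α := mem_orbit _ _
  rw [ha, ← hα] at this
  exact this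

/-- Part 3. -/
theorem not_dvd_index {G : Type*} [Group G] [Finite G] {Ω : Type*} [Finite Ω] [MulAction G Ω]
    (k : ℕ) (hfix : ∀ g : G, g ≠ 1 → Nat.card (fixedBy Ω g) ≤ k)
    (p : ℕ) [Fact p.Prime] (hkp : k < p) (α : Ω) (hdvd : p ∣ Nat.card (stabilizer G α)) :
    ¬ p ∣ (stabilizer G α).index := by
  have hp : p.Prime := Fact.out
  intro hidx
  obtain ⟨S⟩ : Nonempty (Sylow p (stabilizer G α)) := inferInstance
  set P : Subgroup G := (S : Subgroup (stabilizer G α)).map (stabilizer G α).subtype with hPdef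
  have hPα : P ≤ stabilizer G α := Subgroup.map_subtype_le _
  have hcardP : Nat.card P = Nat.card S := by
    rw [hPdef, Subgroup.card_subtype]
  have hcardS := S.card_eq_multiplicity
  set n := (Nat.card (stabilizer G α)).factorization p with hn
  have hcardP' : Nat.card P = p ^ n := by rw [hcardP, hcardS]
  have hn0 : n ≠ 0 := by
    intro h0
    have := (Nat.factorization_eq_zero_iff _ _).1 h0
    have hne : Nat.card (stabilizer G α) ≠ 0 := Nat.card_pos.ne'
    tauto
  have hP1 : P ≠ ⊥ := by
    intro h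
    rw [h, Subgroup.card_bot] at hcardP'
    have := Nat.one_lt_pow hn0 hp.one_lt
    omega
  have hdvdG : p ^ (n + 1) ∣ Nat.card G := by
    rw [← Subgroup.card_mul_index (stabilizer G α), pow_succ]
    refine mul_dvd_mul ?_ hidx
    exact Nat.ordProj_dvd _ _
  obtain ⟨K, hK, hPK⟩ := Sylow.exists_subgroup_card_pow_succ hdvdG hcardP'
  have hKα := le_stabilizer_of_card k hfix p hkp α n P K hcardP' hP1 hPα hK hPK
  have h1 : p ^ (n + 1) ∣ Nat.card (stabilizer G α) := by
    rw [← hK]; exact Subgroup.card_dvd_of_le hKα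
  exact Nat.pow_succ_factorization_not_dvd Nat.card_pos.ne' hp h1

theorem center_card_dvd {G : Type*} [Group G] [Finite G] {Ω : Type*} [Finite Ω] [MulAction G Ω] [FaithfulSMul G Ω]
    (htr : IsPretransitive G Ω) (g : G) : Nat.card (Subgroup.center G) ∣ Nat.card (fixedBy Ω g) := by
  classical
  let act : MulAction (Subgroup.center G) (fixedBy Ω g) :=
    { smul := fun z ω => ⟨(z : G) • (ω : Ω), by
        rw [mem_fixedBy, smul_smul, Subgroup.mem_center_iff.1 z.2 g, mul_smul, ω.2]⟩
      one_smul := fun ω => Subtype.ext (one_smul G (ω : Ω))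
      mul_smul := fun a b ω => Subtype.ext (mul_smul (a : G) (b : G) (ω : Ω)) }
  have hfree : ∀ b : fixedBy Ω g, stabilizer (Subgroup.center G) b = ⊥ := by
    intro b
    rw [Subgroup.eq_bot_iff_forall]
    intro z hz
    rw [mem_stabilizer_iff] at hz
    have h1 : (z : G) • (b : Ω) = b := congrArg Subtype.val hz
    ext
    apply FaithfulSMul.eq_of_smul_eq_smul (α := Ω)
    intro ω
    obtain ⟨x, hx⟩ := htr.exists_smul_eq (b : Ω) ω
    rw [← hx, smul_smul, ← Subgroup.mem_center_iff.1 z.2 x, mul_smul, h1]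
    simp
  have e := selfEquivOrbitsQuotientProd hfree
  rw [Nat.card_congr e, Nat.card_prod]
  exact Dvd.intro_left _ rfl

theorem two_dvd {G : Type*} [Group G] [Finite G] {Ω : Type*} [Finite Ω] [MulAction G Ω] [FaithfulSMul G Ω]
    (htr : IsPretransitive G Ω) (hfix : ∀ g : G, g ≠ 1 → Nat.card (fixedBy Ω g) ≤ 2)
    (hex : ∃ g : G, g ≠ 1 ∧ Nat.card (fixedBy Ω g) = 2) : 2 ∣ Nat.card G := by
  by_contra hodd
  obtain ⟨g₀, hg₀, hg₀2⟩ := hex
  -- an element of prime order with exactly two fixed points
  obtain ⟨p, hp, hpd⟩ := Nat.exists_prime_and_dvd (n := orderOf g₀) (by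
    intro h; exact hg₀ (orderOf_eq_one_iff.1 h))
  have : Fact p.Prime := ⟨hp⟩
  obtain ⟨m, hm⟩ := hpd
  have hm0 : m ≠ 0 := by
    rintro rfl
    rw [mul_zero] at hm
    exact (orderOf_pos g₀).ne' hm
  set g := g₀ ^ m with hgdef
  have hgord : orderOf g = p := by
    rw [hgdef, orderOf_pow' _ hm0, hm, Nat.gcd_eq_right (Dvd.intro_left p rfl), Nat.mul_div_cancel _ (Nat.pos_of_ne_zero hm0)]
  have hg1 : g ≠ 1 := by
    intro h; rw [h, orderOf_one] at hgord; exact hp.one_lt.ne hgord
  have hp2 : 2 < p := by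
    rcases hp.eq_two_or_odd with h | h
    · exfalso; apply hodd; rw [← h, ← hgord]; exact orderOf_dvd_natCard g
    · have := hp.two_le; omega
  have hsub : fixedBy Ω g₀ ⊆ fixedBy Ω g := by
    have := fixedBy_subset_fixedBy_zpow Ω g₀ (m : ℤ)
    rwa [zpow_natCast] at this
  have hg2 : Nat.card (fixedBy Ω g) = 2 := by
    apply le_antisymm (hfix g hg1)
    rw [← hg₀2]
    exact Set.ncard_le_ncard hsub (Set.toFinite _)
  obtain ⟨α, β, hαβ, hset⟩ := Set.ncard_eq_two.1 hg2
  have hgα : g • α = α := by
    have : α ∈ fixedBy Ω g := by rw [hset]; simp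
    exact this
  have hgβ : g • β = β := by
    have : β ∈ fixedBy Ω g := by rw [hset]; simp
    exact this
  -- a Sylow p-subgroup of G containing g and contained in the stabilizer of α
  have hpdvd : p ∣ Nat.card (stabilizer G α) := by
    rw [← hgord]
    have : orderOf (⟨g, hgα⟩ : stabilizer G α) = orderOf g := Subgroup.orderOf_mk _ _
    rw [← this]
    exact orderOf_dvd_natCard _
  have hidx := not_dvd_index 2 hfix p hp2 α hpdvd
  have hpg : IsPGroup p (Subgroup.zpowers (⟨g, hgα⟩ : stabilizer G α)) := by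
    apply IsPGroup.of_card (n := 1)
    rw [Nat.card_zpowers, pow_one, ← hgord]
    exact Subgroup.orderOf_mk _ _
  obtain ⟨S, hS⟩ := hpg.exists_le_sylow
  set P : Subgroup G := (S : Subgroup (stabilizer G α)).map (stabilizer G α).subtype with hPdef
  have hPα : P ≤ stabilizer G α := Subgroup.map_subtype_le _
  have hgP : g ∈ P := ⟨⟨g, hgα⟩, hS (Subgroup.mem_zpowers _), rfl⟩
  have hPp : IsPGroup p P := S.isPGroup'.map _
  -- every element of P fixes β
  have hPβ : P ≤ stabilizer G β := by
    -- a central element of order p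
    have : Nontrivial P := ⟨⟨⟨g, hgP⟩, 1, fun h => hg1 (congrArg Subtype.val h)⟩⟩
    have := hPp.center_nontrivial
    obtain ⟨z, hz⟩ := exists_ne (1 : Subgroup.center P)
    have hz1 : ((z : P) : G) ≠ 1 := by
      intro h
      apply hz
      ext
      exact h
    have hzcomm : ∀ x ∈ P, x * ((z : P) : G) = ((z : P) : G) * x := by
      intro x hx
      exact congrArg Subtype.val (Subgroup.mem_center_iff.1 z.2 ⟨x, hx⟩)
    -- z permutes the fixed points of g
    have hzα : ((z : P) : G) • α = α := hPα (z : P).2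
    have hzβ : ((z : P) : G) • β = β := by
      have h1 : ((z : P) : G) • β ∈ fixedBy Ω g := by
        rw [mem_fixedBy, smul_smul, hzcomm g hgP, mul_smul, hgβ]
      rw [hset] at h1
      rcases h1 with h1 | h1
      · exfalso
        apply hαβ
        rw [← hzα] at h1
        exact (smul_left_cancel _ h1).symm
      · exact h1
    have hzset : ({α, β} : Set Ω) = fixedBy Ω ((z : P) : G) := by
      apply Set.eq_of_subset_of_ncard_le
      · rintro ω (rfl | rfl)
        · exact hzα
        · exact hzβ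
      · rw [Set.ncard_pair hαβ]
        exact hfix _ hz1
      · exact Set.toFinite _
    intro x hx
    rw [mem_stabilizer_iff]
    have h1 : x • β ∈ fixedBy Ω ((z : P) : G) := by
      rw [mem_fixedBy, smul_smul, ← hzcomm x hx, mul_smul, hzβ]
    rw [← hzset] at h1
    rcases h1 with h1 | h1
    · exfalso
      apply hαβ
      have h2 : x • α = α := hPα hx
      rw [← h2] at h1
      exact (smul_left_cancel _ h1).symm
    · exact h1
  -- P is a Sylow p-subgroup of G
  have hPcard : Nat.card P = Nat.card S := by rw [hPdef, Subgroup.card_subtype]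
  have hPidx : ¬ p ∣ P.index := by
    rw [hPdef, Subgroup.index_map_subtype]
    intro h
    rcases (Nat.Prime.dvd_mul hp).1 h with h | h
    · exact S.not_dvd_index h
    · exact hidx h
  obtain ⟨x, hx⟩ := htr.exists_smul_eq α β
  -- the conjugate of P by x is contained in the stabilizer of β
  have hPxβ : P.map (MulAut.conj x).toMonoidHom ≤ stabilizer G β := by
    rintro _ ⟨y, hy, rfl⟩
    have h1 : y • α = α := hPα hy
    rw [mem_stabilizer_iff]
    simp only [MulEquiv.coe_toMonoidHom, MulAut.conj_apply]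
    rw [← hx, smul_smul, inv_mul_cancel_right, mul_smul, h1]
  have hsyl : ∀ R : Subgroup G, R ≤ stabilizer G β → IsPGroup p R → ¬ p ∣ R.index →
      ∃ T : Sylow p (stabilizer G β), (T : Subgroup (stabilizer G β)) = R.subgroupOf (stabilizer G β) := by
    intro R hR hRp hRi
    have h1 : IsPGroup p (R.subgroupOf (stabilizer G β)) := hRp.comap_of_injective _ (Subgroup.subtype_injective _)
    have h2 : ¬ p ∣ (R.subgroupOf (stabilizer G β)).index := by
      intro h
      apply hRi
      exact h.trans (Subgroup.relIndex_dvd_index_of_le hR)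
    exact ⟨h1.toSylow h2, rfl⟩
  obtain ⟨T₁, hT₁⟩ := hsyl P hPβ hPp hPidx
  obtain ⟨T₂, hT₂⟩ := hsyl _ hPxβ (hPp.map _) (by
    rw [show (P.map (MulAut.conj x).toMonoidHom).index = P.index from
      Subgroup.index_map_equiv P (MulAut.conj x)]
    exact hPidx)
  obtain ⟨y, hy⟩ := exists_smul_eq (stabilizer G β) T₂ T₁
  -- w = y * x normalizes P and maps α to β
  have hw : ∀ q ∈ P, ((y : G) * x) * q * ((y : G) * x)⁻¹ ∈ P := by
    intro q hq
    have h1 : x * q * x⁻¹ ∈ stabilizer G β := hPxβ ⟨q, hq, rfl⟩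
    have h2 : (⟨x * q * x⁻¹, h1⟩ : stabilizer G β) ∈ T₂ := by
      change _ ∈ (T₂ : Subgroup (stabilizer G β))
      rw [hT₂, Subgroup.mem_subgroupOf]
      exact ⟨q, hq, rfl⟩
    have h3 : y * ⟨x * q * x⁻¹, h1⟩ * y⁻¹ ∈ (T₁ : Subgroup (stabilizer G β)) := by
      rw [← hy]
      exact Subgroup.smul_mem_pointwise_smul _ (MulAut.conj y) _ h2
    rw [hT₁, Subgroup.mem_subgroupOf] at h3
    have h4 : ((y : G) * x) * q * ((y : G) * x)⁻¹ = ((y * ⟨x * q * x⁻¹, h1⟩ * y⁻¹ : stabilizer G β) : G) := by
      simp only [Subgroup.coe_mul, Subgroup.coe_inv]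
      group
    rw [h4]
    exact h3
  set w : G := (y : G) * x with hwdef
  have hwα : w • α = β := by
    rw [hwdef, mul_smul, hx]
    exact y.2
  have hwβ : w • β = α := by
    -- w • β is fixed by P
    have hwinv : w⁻¹ * g * w ∈ P := by
      -- conjugation by w maps P into P, hence onto P
      have hle : P.map (MulAut.conj w).toMonoidHom ≤ P := by
        rintro _ ⟨q, hq, rfl⟩
        exact hw q hq
      have heq : P.map (MulAut.conj w).toMonoidHom = P := by
        apply Subgroup.eq_of_le_of_card_ge hle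
        rw [show Nat.card (P.map (MulAut.conj w).toMonoidHom) = Nat.card P from
          Nat.card_congr (P.equivMapOfInjective _ (MulAut.conj w).injective).toEquiv.symm]
      have h1 : g ∈ P.map (MulAut.conj w).toMonoidHom := by rw [heq]; exact hgP
      obtain ⟨q, hq, hqg⟩ := h1
      have : w⁻¹ * g * w = q := by
        rw [← hqg]
        simp only [MulEquiv.coe_toMonoidHom, MulAut.conj_apply]
        group
      rw [this]
      exact hq
    have h1 : w • β ∈ fixedBy Ω g := by
      rw [mem_fixedBy]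
      have h2 : (w⁻¹ * g * w) • β = β := hPβ hwinv
      calc g • w • β = w • ((w⁻¹ * g * w) • β) := by
            rw [smul_smul, smul_smul]; congr 1; group
        _ = w • β := by rw [h2]
    rw [hset] at h1
    rcases h1 with h1 | h1
    · exact h1
    · exfalso
      apply hαβ
      have h1' : w • β = β := h1
      rw [← hwα] at h1'
      have := smul_left_cancel _ h1'
      rw [hwα] at this
      exact this.symm
  -- hence w has even order
  have hword : ∀ j : ℕ, (w ^ (2 * j)) • α = α ∧ (w ^ (2 * j + 1)) • α = β := by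
    intro j
    induction j with
    | zero => simp [hwα]
    | succ j ih =>
      have h1 : w ^ (2 * (j + 1)) • α = α := by
        rw [show 2 * (j + 1) = (2 * j + 1) + 1 by ring, pow_succ', mul_smul, ih.2, hwβ]
      exact ⟨h1, by rw [pow_succ', mul_smul, h1, hwα]⟩
  apply hodd
  refine dvd_trans ?_ (orderOf_dvd_natCard w)
  by_contra hne
  obtain ⟨j, hj⟩ : ∃ j, orderOf w = 2 * j + 1 := ⟨orderOf w / 2, by omega⟩
  have h1 := (hword j).2
  rw [← hj, pow_orderOf_eq_one, one_smul] at h1
  exact hαβ h1

/-- Let G be a finite group acting faithfully and transitively on a finite set Ω with fixity k ≥ 1: every non-identity element fixes at most k points and some non-identity element fixes exactly k points. Then |Z(G)| divides k; if k = 2 then |G| is even; and for every prime p > k dividing |G| and every point α, either p does not divide |G_α| or G_α contains a Sylow p-subgroup of G. -/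
theorem result {G : Type*} [Group G] [Finite G] {Ω : Type*} [Fintype Ω] [MulAction G Ω] [FaithfulSMul G Ω]
    (htr : MulAction.IsPretransitive G Ω) (k : ℕ) (hk : 1 ≤ k)
    (hfix : ∀ g : G, g ≠ 1 → Nat.card (MulAction.fixedBy Ω g) ≤ k) (hex : ∃ g : G, g ≠ 1 ∧ Nat.card (MulAction.fixedBy Ω g) = k) :
    Nat.card (Subgroup.center G) ∣ k ∧ (k = 2 → 2 ∣ Nat.card G) ∧
      ∀ (p : ℕ), p.Prime → k < p → p ∣ Nat.card G → ∀ α : Ω,
        ¬ p ∣ Nat.card (MulAction.stabilizer G α) ∨ ¬ p ∣ (MulAction.stabilizer G α).index := by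
  refine ⟨?_, ?_, ?_⟩
  · obtain ⟨g, -, hg⟩ := hex
    rw [← hg]
    exact center_card_dvd htr g
  · rintro rfl
    exact two_dvd htr hfix hex
  · intro p hp hkp _ α
    have : Fact p.Prime := ⟨hp⟩
    by_cases h : p ∣ Nat.card (stabilizer G α)
    · exact Or.inr (not_dvd_index k hfix p hkp α h)
    · exact Or.inl h

end Cfsg.Agent.S3389
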