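import Cfsg.Statements.S3391
import Cfsg.Agent.Suzuki.Fixity

set_option autoImplicit false
open Cfsg

namespace Cfsg.Agent.S3391

/-- Let q = 2^{2m+1} ≥ 8 and let G be isomorphic to the Suzuki group Sz(q). If G acts faithfully and transitively on a finite set Ω with fixity 2 (every non-identity element fixes at most two points, and some fixes exactly two), then either |Ω| = q² + 1 and the action is 2-transitive, or |Ω| = q²(q² + 1) and the point stabilizers have order q − 1. -/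
theorem result {G : Type*} [Group G] [Finite G] (F : Type) [Field F] [Fintype F] (m : ℕ) (hm : 1 ≤ m) (hF : Fintype.card F = 2 ^ (2 * m + 1))
    (e : G ≃* ↥(Cfsg.Lie.Sz F (2 ^ (m + 1)))) {Ω : Type*} [Fintype Ω] [MulAction G Ω] [FaithfulSMul G Ω] (htr : MulAction.IsPretransitive G Ω)
    (hfix : ∀ g : G, g ≠ 1 → Nat.card (MulAction.fixedBy Ω g) ≤ 2) (hex : ∃ g : G, g ≠ 1 ∧ Nat.card (MulAction.fixedBy Ω g) = 2) :
    (Fintype.card Ω = Fintype.card F ^ 2 + 1 ∧ MulAction.IsMultiplyPretransitive G Ω 2) ∨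
    (Fintype.card Ω = Fintype.card F ^ 2 * (Fintype.card F ^ 2 + 1) ∧ ∀ α : Ω, Nat.card (MulAction.stabilizer G α) = Fintype.card F - 1) := by
  classical
  have hchar := Cfsg.Agent.Suz.charP_two hF
  obtain ⟨e'⟩ := Cfsg.Agent.Suz.nonempty_lieEquiv hm hF
  let ε : ↥(Cfsg.Sz F m) ≃* G := e'.trans e.symm
  let act : MulAction ↥(Cfsg.Sz F m) Ω := MulAction.compHom Ω ε.toMonoidHom
  have hact : ∀ (g : ↥(Cfsg.Sz F m)) (ω : Ω), g • ω = ε g • ω := fun _ _ => rfl
  have htr' : MulAction.IsPretransitive ↥(Cfsg.Sz F m) Ω := by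
    constructor
    intro a b
    obtain ⟨g, hg⟩ := MulAction.exists_smul_eq G a b
    exact ⟨ε.symm g, by rw [hact, ε.apply_symm_apply, hg]⟩
  have hfb : ∀ g : ↥(Cfsg.Sz F m), MulAction.fixedBy Ω g = MulAction.fixedBy Ω (ε g) := fun g => rfl
  have hfix' : ∀ g : ↥(Cfsg.Sz F m), g ≠ 1 → Nat.card (MulAction.fixedBy Ω g) ≤ 2 := by
    intro g hg
    rw [hfb]
    exact hfix _ (fun h => hg (ε.injective (h.trans (map_one ε).symm)))
  have hex' : ∃ g : ↥(Cfsg.Sz F m), g ≠ 1 ∧ Nat.card (MulAction.fixedBy Ω g) = 2 := by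
    obtain ⟨g, hg, hg2⟩ := hex
    refine ⟨ε.symm g, fun h => hg ?_, ?_⟩
    · rw [← ε.apply_symm_apply g, h, map_one]
    · rw [hfb, ε.apply_symm_apply]; exact hg2
  have hne : Nonempty Ω := by
    obtain ⟨g, -, hg2⟩ := hex
    by_contra h
    rw [not_nonempty_iff] at h
    rw [Nat.card_of_isEmpty] at hg2
    omega
  have hcardG : Nat.card ↥(Cfsg.Sz F m) = (Fintype.card F) ^ 2 * ((Fintype.card F) ^ 2 + 1) * (Fintype.card F - 1) := by
    rw [Cfsg.Agent.Suz.card_Sz hm hF, hF]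
  have hstab : ∀ α : Ω, Nat.card (MulAction.stabilizer G α) =
      Nat.card (MulAction.stabilizer ↥(Cfsg.Sz F m) α) := by
    intro α
    symm
    refine Nat.card_congr (Equiv.subtypeEquiv ε.toEquiv fun g => ?_)
    exact Iff.rfl
  have hindex : ∀ α : Ω, Nat.card (MulAction.stabilizer ↥(Cfsg.Sz F m) α) * Fintype.card Ω =
      Nat.card ↥(Cfsg.Sz F m) := by
    intro α
    rw [← Subgroup.card_mul_index (MulAction.stabilizer ↥(Cfsg.Sz F m) α),
      MulAction.index_stabilizer_of_transitive, ← Nat.card_eq_fintype_card (α := Ω)]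
  have hq8 := Cfsg.Agent.Suz.eight_le hm hF
  rcases Cfsg.Agent.Suz.fixity_two hm hF hfix' hex' with ⟨α, hα⟩ | h
  · left
    have h2t := Cfsg.Agent.Suz.two_transitive (F := F) (m := m) hF
    constructor
    · have h1 := hindex α
      rw [hα] at h1
      have htro : MulAction.IsPretransitive ↥(Cfsg.Sz F m) (Cfsg.suzukiOvoid F m) :=
        MulAction.isPretransitive_of_is_two_pretransitive
      have h2 := Subgroup.card_mul_index (MulAction.stabilizer ↥(Cfsg.Sz F m) (Cfsg.Agent.Suz.oinf F m))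
      rw [MulAction.index_stabilizer_of_transitive, Cfsg.Agent.Suz.card_ovoid, ← h1] at h2
      exact (Nat.eq_of_mul_eq_mul_left Nat.card_pos h2).symm
    · rw [MulAction.is_two_pretransitive_iff] at h2t ⊢
      have key : ∀ g k : ↥(Cfsg.Sz F m), g • α = k • α ↔
          g • Cfsg.Agent.Suz.oinf F m = k • Cfsg.Agent.Suz.oinf F m := by
        intro g k
        have e1 : g • α = k • α ↔ k⁻¹ * g ∈ MulAction.stabilizer ↥(Cfsg.Sz F m) α := by
          rw [MulAction.mem_stabilizer_iff, mul_smul, inv_smul_eq_iff]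
        have e2 : g • Cfsg.Agent.Suz.oinf F m = k • Cfsg.Agent.Suz.oinf F m ↔
            k⁻¹ * g ∈ MulAction.stabilizer ↥(Cfsg.Sz F m) (Cfsg.Agent.Suz.oinf F m) := by
          rw [MulAction.mem_stabilizer_iff, mul_smul, inv_smul_eq_iff]
        rw [e1, e2, hα]
      intro a b c d hab hcd
      obtain ⟨ga, rfl⟩ := MulAction.exists_smul_eq ↥(Cfsg.Sz F m) α a
      obtain ⟨gb, rfl⟩ := MulAction.exists_smul_eq ↥(Cfsg.Sz F m) α b
      obtain ⟨gc, rfl⟩ := MulAction.exists_smul_eq ↥(Cfsg.Sz F m) α c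
      obtain ⟨gd, rfl⟩ := MulAction.exists_smul_eq ↥(Cfsg.Sz F m) α d
      obtain ⟨k, hk1, hk2⟩ := h2t (fun h => hab ((key _ _).2 h)) (fun h => hcd ((key _ _).2 h))
      refine ⟨ε k, ?_, ?_⟩
      · rw [← hact, ← mul_smul]
        rw [← mul_smul] at hk1
        exact (key _ _).2 hk1
      · rw [← hact, ← mul_smul]
        rw [← mul_smul] at hk2
        exact (key _ _).2 hk2
  · right
    have hα : ∀ α : Ω, Nat.card (MulAction.stabilizer ↥(Cfsg.Sz F m) α) = Fintype.card F - 1 := by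
      intro α; rw [h α, hF]
    refine ⟨?_, fun α => by rw [hstab, hα]⟩
    obtain ⟨α⟩ := hne
    have h1 := hindex α
    rw [hα α, hcardG, mul_comm ((Fintype.card F) ^ 2 * _)] at h1
    exact Nat.eq_of_mul_eq_mul_left (by omega) h1

end Cfsg.Agent.S3391
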