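import Cfsg.Statements.S3421
import Cfsg.Agent.JW.Zass
import Cfsg.Agent.S2475
import Cfsg.Agent.S1230
import Cfsg.Agent.H14.SubField
import Cfsg.Agent.ClassBase.RelHom

set_option autoImplicit false
open Cfsg

namespace Cfsg.Agent.S3421

/-- odd case -/
theorem odd_case {G : Type*} [Group G] [Finite G] {F : Type*} [Field F] [Fintype F]
    (hF : 3 < Fintype.card F) (hodd : Odd (Fintype.card F))
    (hs : Set.range (orderOf : G → ℕ) = Set.range (orderOf : Matrix.ProjectiveSpecialLinearGroup (Fin 2) F → ℕ))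
    (hc : Nat.card G = Nat.card (Matrix.ProjectiveSpecialLinearGroup (Fin 2) F)) :
    Nonempty (G ≃* Matrix.ProjectiveSpecialLinearGroup (Fin 2) F) := by
  classical
  obtain ⟨p, hchar⟩ := CharP.exists F
  haveI hp : Fact p.Prime := ⟨CharP.char_is_prime F p⟩
  obtain ⟨n, hpp, hn⟩ := FiniteField.card F p
  have hspec := S2475.result (F := F) p hF
  rw [← hs] at hspec
  set q := Fintype.card F with hq
  have hcard := H14.SubField.card_PSL2_odd (F := F) hodd
  rw [← hc, ← hq] at hcard
  obtain ⟨m, hm⟩ := hodd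
  have hgcd : Nat.gcd 2 (q - 1) = 2 := by
    apply Nat.gcd_eq_left
    exact ⟨m, by omega⟩
  rw [hgcd] at hspec
  have h1 : (q - 1) / 2 = m := by omega
  have h2 : (q + 1) / 2 = m + 1 := by omega
  rw [h1, h2] at hspec
  have hmem : ∀ g : G, orderOf g ∣ p ∨ orderOf g ∣ m ∨ orderOf g ∣ m + 1 := by
    intro g
    have h3 : orderOf g ∈ Set.range (orderOf : G → ℕ) := ⟨g, rfl⟩
    rw [hspec] at h3
    exact h3
  have hp2 : p ≠ 2 := by
    rintro rfl
    have h3 : 2 ∣ q := by rw [hn]; exact dvd_pow_self 2 n.ne_zero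
    omega
  have hpq : p ∣ q := by rw [hn]; exact dvd_pow_self p n.ne_zero
  have hpm : ¬ p ∣ m := by
    intro h3
    have h4 : p ∣ 2 * m := h3.mul_left 2
    have h5 : p ∣ 1 := by
      rw [hm] at hpq
      exact (Nat.dvd_add_right h4).1 hpq
    exact hpp.one_lt.ne' (Nat.dvd_one.1 h5)
  have hpm' : ¬ p ∣ m + 1 := by
    intro h3
    have h4 : p ∣ 2 * (m + 1) := h3.mul_left 2
    have h5 : p ∣ 1 := by
      have h6 : 2 * (m + 1) = q + 1 := by omega
      rw [h6] at h4
      exact (Nat.dvd_add_right hpq).1 h4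
    exact hpp.one_lt.ne' (Nat.dvd_one.1 h5)
  have hordp : ∀ g : G, p ∣ orderOf g → orderOf g = p := by
    intro g hg
    rcases hmem g with h3 | h3 | h3
    · exact Nat.dvd_antisymm h3 hg
    · exact absurd (hg.trans h3) hpm
    · exact absurd (hg.trans h3) hpm'
  have h2p : ∀ g : G, 2 ∣ orderOf g → ¬ orderOf g ∣ p := by
    intro g hg h3
    exact hp2 ((Nat.prime_dvd_prime_iff_eq Nat.prime_two hpp).1 (hg.trans h3)).symm
  have hkey : ∃ E O, JW.Hyp G p q E O := by
    rcases Nat.even_or_odd m with he | ho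
    · refine ⟨m, m + 1, hpp, hp2, by omega, ⟨n, hn⟩, Or.inl ⟨by omega, by omega⟩, he, he.add_one, ?_,
        hordp, ?_⟩
      · have h3 : 2 * Nat.card G = 2 * (q * (2 * m * (m + 1))) := by
          rw [hcard]
          have h4 : q - 1 = 2 * m := by omega
          have h5 : q + 1 = 2 * (m + 1) := by omega
          rw [h4, h5]; ring
        omega
      · intro g hg
        rcases hmem g with h3 | h3 | h3
        · exact absurd h3 (h2p g hg)
        · exact h3
        · exfalso
          have := he.add_one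
          exact (Nat.not_even_iff_odd.2 this) (even_iff_two_dvd.2 (hg.trans h3))
    · refine ⟨m + 1, m, hpp, hp2, by omega, ⟨n, hn⟩, Or.inr ⟨by omega, by omega⟩, ho.add_one, ho, ?_,
        hordp, ?_⟩
      · have h3 : 2 * Nat.card G = 2 * (q * (2 * (m + 1) * m)) := by
          rw [hcard]
          have h4 : q - 1 = 2 * m := by omega
          have h5 : q + 1 = 2 * (m + 1) := by omega
          rw [h4, h5]; ring
        omega
      · intro g hg
        rcases hmem g with h3 | h3 | h3
        · exact absurd h3 (h2p g hg)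
        · exfalso
          exact (Nat.not_even_iff_odd.2 ho) (even_iff_two_dvd.2 (hg.trans h3))
        · exact h3
  obtain ⟨E, O, h⟩ := hkey
  obtain ⟨K, iK, iKt, hK, ⟨e⟩⟩ := h.psl
  rw [Nat.card_eq_fintype_card] at hK
  exact ⟨e.trans (ClassBase.pslCongr (FiniteField.ringEquivOfCardEq (hK.trans hq)))⟩

/-- even case -/
theorem even_case {G : Type*} [Group G] [Finite G] {F : Type*} [Field F] [Fintype F]
    (hF : 3 < Fintype.card F) (heven : Even (Fintype.card F))
    (hs : Set.range (orderOf : G → ℕ) = Set.range (orderOf : Matrix.ProjectiveSpecialLinearGroup (Fin 2) F → ℕ))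
    (hc : Nat.card G = Nat.card (Matrix.ProjectiveSpecialLinearGroup (Fin 2) F)) :
    Nonempty (G ≃* Matrix.ProjectiveSpecialLinearGroup (Fin 2) F) := by
  classical
  obtain ⟨p, hchar⟩ := CharP.exists F
  haveI hp : Fact p.Prime := ⟨CharP.char_is_prime F p⟩
  obtain ⟨n, hpp, hn⟩ := FiniteField.card F p
  have hspec := S2475.result (F := F) p hF
  rw [← hs] at hspec
  set q := Fintype.card F with hq
  have hcard := H14.SubField.card_PSL2_even (F := F) heven
  rw [← hc, ← hq] at hcard
  have hp2 : p = 2 := by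
    have h3 : 2 ∣ p ^ (n : ℕ) := by rw [← hn]; exact even_iff_two_dvd.1 heven
    have h4 := Nat.prime_two.dvd_of_dvd_pow h3
    exact ((Nat.prime_dvd_prime_iff_eq Nat.prime_two hpp).1 h4).symm
  subst hp2
  have hq2 : ∃ m, q = 2 * m := by obtain ⟨m, hm⟩ := heven; exact ⟨m, by omega⟩
  obtain ⟨m, hm⟩ := hq2
  have hgcd : Nat.gcd 2 (q - 1) = 1 := by
    rw [← Nat.coprime_iff_gcd_eq_one, Nat.coprime_two_left]
    exact ⟨m - 1, by omega⟩
  rw [hgcd, Nat.div_one, Nat.div_one] at hspec
  have hmem : ∀ g : G, 2 ∣ orderOf g → orderOf g = 2 := by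
    intro g hg
    have h3 : orderOf g ∈ Set.range (orderOf : G → ℕ) := ⟨g, rfl⟩
    rw [hspec] at h3
    rcases h3 with h3 | h3 | h3
    · exact Nat.dvd_antisymm h3 hg
    · have := hg.trans h3; omega
    · have := hg.trans h3; omega
  -- centralizers of involutions
  have hcent : ∀ t : G, orderOf t = 2 → ∀ c ∈ Subgroup.centralizer ({t} : Set G), c ^ 2 = 1 := by
    intro t ht c hc
    have hcomm : Commute c t := Subgroup.mem_centralizer_singleton_iff.1 hc
    by_cases h3 : 2 ∣ orderOf c
    · rw [← hmem c h3]; exact pow_orderOf_eq_one c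
    · have hcop : (orderOf c).Coprime (orderOf t) := by
        rw [ht]
        exact ((Nat.prime_two.coprime_iff_not_dvd).2 h3).symm
      have h4 := hcomm.orderOf_mul_eq_mul_orderOf_of_coprime hcop
      have h5 := hmem (c * t) (by rw [h4, ht]; exact dvd_mul_left _ _)
      rw [h4, ht] at h5
      have h6 : orderOf c = 1 := by omega
      rw [orderOf_eq_one_iff.1 h6, one_pow]
  have hcomm2 : ∀ H : Subgroup G, (∀ c ∈ H, c ^ 2 = 1) → ∀ a ∈ H, ∀ b ∈ H, a * b = b * a := by
    intro H hH a ha b hb
    have h3 : ∀ c ∈ H, c⁻¹ = c := fun c hc =>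
      inv_eq_of_mul_eq_one_right (by rw [← pow_two]; exact hH c hc)
    have h4 := h3 (a * b) (H.mul_mem ha hb)
    rw [mul_inv_rev, h3 a ha, h3 b hb] at h4
    exact h4.symm
  obtain ⟨T⟩ : Nonempty (Sylow 2 G) := inferInstance
  have hcT : Nat.card T = q := by
    rw [T.card_eq_multiplicity, hcard]
    have h3 : ((q - 1) * (q + 1)).factorization 2 = 0 := by
      apply Nat.factorization_eq_zero_of_not_dvd
      rw [Nat.Prime.dvd_mul Nat.prime_two]
      omega
    have h4 : (q - 1) * (q + 1) ≠ 0 := by
      apply Nat.mul_ne_zero <;> omega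
    rw [Nat.factorization_mul (by omega) h4, Finsupp.add_apply, h3, add_zero, hn,
      Nat.Prime.factorization_pow Nat.prime_two]
    simp
  have hTpow : ∀ c ∈ (T : Subgroup G), c ^ 2 = 1 := by
    intro c hc
    by_cases h3 : c = 1
    · rw [h3, one_pow]
    · obtain ⟨k, hk⟩ := IsPGroup.iff_orderOf.1 T.isPGroup' ⟨c, hc⟩
      have hk' : orderOf c = 2 ^ k := by
        rw [← hk, Subgroup.orderOf_mk]
      have hk0 : k ≠ 0 := by
        rintro rfl
        rw [pow_zero, orderOf_eq_one_iff] at hk'
        exact h3 hk'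
      rw [← hmem c (by rw [hk']; exact dvd_pow_self 2 hk0)]
      exact pow_orderOf_eq_one c
  have hnc : ¬ IsCyclic (T : Subgroup G) := by
    intro h3
    obtain ⟨g, hg⟩ := h3.exists_generator
    have h4 : Nat.card (T : Subgroup G) = orderOf g := (orderOf_eq_card_of_forall_mem_zpowers hg).symm
    have h5 : orderOf g ∣ 2 := orderOf_dvd_of_pow_eq_one (Subtype.ext (hTpow g g.2))
    have h6 := Nat.le_of_dvd (by norm_num) h5
    have h7 : Nat.card (T : Subgroup G) = q := hcT
    omega
  have hnn : ¬ (T : Subgroup G).Normal := by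
    intro hN
    obtain ⟨t, ht, ht1⟩ : ∃ t ∈ (T : Subgroup G), t ≠ 1 := by
      by_contra hc
      push Not at hc
      have h3 : (T : Subgroup G) = ⊥ := (Subgroup.eq_bot_iff_forall _).2 hc
      have h4 : Nat.card (T : Subgroup G) = q := hcT
      rw [h3, Subgroup.card_bot] at h4
      omega
    have hto : orderOf t = 2 := orderOf_eq_prime (hTpow t ht) ht1
    have hcT' : Subgroup.centralizer ({t} : Set G) ≤ (T : Subgroup G) := by
      intro c hc
      have h3 := hcent t hto c hc
      have h4 : IsPGroup 2 (Subgroup.zpowers c) := by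
        have h5 : orderOf c ∣ 2 ^ 1 := by rw [pow_one]; exact orderOf_dvd_of_pow_eq_one h3
        obtain ⟨k, -, hk⟩ := (Nat.dvd_prime_pow Nat.prime_two).1 h5
        exact IsPGroup.of_card (n := k) (by rw [Nat.card_zpowers]; exact hk)
      obtain ⟨Q, hQ⟩ := h4.exists_le_sylow
      obtain ⟨g, hg⟩ := MulAction.exists_smul_eq G T Q
      have h6 : g • T = T := Sylow.smul_eq_of_normal
      rw [h6] at hg
      subst hg
      exact hQ (Subgroup.mem_zpowers c)
    -- the class of `t` is inside `T`
    haveI : Fintype G := Fintype.ofFinite G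
    have h3 : (Subgroup.centralizer ({t} : Set G)).index + 1 ≤ q := by
      rw [← FrobThm.card_filter_mk_eq t]
      have h4 : (insert 1 (Finset.univ.filter (fun y : G => ConjClasses.mk y = ConjClasses.mk t))).card ≤
          (Finset.univ.filter (fun y : G => y ∈ (T : Subgroup G))).card := by
        apply Finset.card_le_card
        intro y hy
        rw [Finset.mem_filter]
        refine ⟨Finset.mem_univ _, ?_⟩
        rw [Finset.mem_insert] at hy
        rcases hy with rfl | hy
        · exact Subgroup.one_mem _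
        · rw [Finset.mem_filter, ConjClasses.mk_eq_mk_iff_isConj] at hy
          obtain ⟨g, hg⟩ := isConj_iff.1 hy.2.symm
          rw [← hg]
          exact hN.conj_mem t ht g
      rw [Finset.card_insert_of_notMem (by
        rw [Finset.mem_filter, ConjClasses.mk_eq_mk_iff_isConj]
        rintro ⟨-, h5⟩
        exact ht1 (isConj_one_right.1 h5))] at h4
      refine h4.trans ?_
      have h5 : (Finset.univ.filter (fun y : G => y ∈ (T : Subgroup G))).card = Nat.card (T : Subgroup G) := by
        rw [← Fintype.card_subtype, ← Nat.card_eq_fintype_card]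
      rw [h5]
      exact hcT.le
    have h4 : Nat.card (Subgroup.centralizer ({t} : Set G)) ≤ q := by
      have h5 := Subgroup.card_le_of_le hcT'
      exact h5.trans hcT.le
    have h5 := Subgroup.index_mul_card (Subgroup.centralizer ({t} : Set G))
    rw [hcard] at h5
    have h6 : (Subgroup.centralizer ({t} : Set G)).index * Nat.card (Subgroup.centralizer ({t} : Set G)) ≤
        (q - 1) * q := Nat.mul_le_mul (by omega) h4
    rw [h5] at h6
    obtain ⟨w, hw⟩ : ∃ w, q = w + 1 := ⟨q - 1, by omega⟩
    rw [hw] at h6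
    simp only [Nat.add_sub_cancel] at h6
    have h7 : w * (w + 1) * (w + 2) ≤ w * (w + 1) * 1 := by
      calc w * (w + 1) * (w + 2) = (w + 1) * (w * (w + 1 + 1)) := by ring
        _ ≤ w * (w + 1) := h6
        _ = w * (w + 1) * 1 := (mul_one _).symm
    have h8 : 0 < w * (w + 1) := Nat.mul_pos (by omega) (by omega)
    have h9 := Nat.le_of_mul_le_mul_left h7 h8
    omega
  obtain ⟨K, iK, iKt, hK, ⟨e⟩⟩ := S1230.result T hnc hnn (fun t ht =>
    ⟨⟨⟨fun a b => Subtype.ext (hcomm2 _ (hcent t ht) a a.2 b b.2)⟩⟩, hcent t ht⟩)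
  exact ⟨e.trans (ClassBase.pslCongr (FiniteField.ringEquivOfCardEq ((hK.trans hcT).trans hq)))⟩

/-- Let F be a finite field with more than 3 elements. A finite group G is isomorphic to PSL(2, F) if and only if G has the same set of element orders and the same order as PSL(2, F). -/
theorem result {G : Type*} [Group G] [Finite G] {F : Type*} [Field F] [Fintype F] (hF : 3 < Fintype.card F) :
    Nonempty (G ≃* Matrix.ProjectiveSpecialLinearGroup (Fin 2) F) ↔
      (Set.range (orderOf : G → ℕ) = Set.range (orderOf : Matrix.ProjectiveSpecialLinearGroup (Fin 2) F → ℕ) ∧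
        Nat.card G = Nat.card (Matrix.ProjectiveSpecialLinearGroup (Fin 2) F)) := by
  constructor
  · rintro ⟨e⟩
    refine ⟨?_, Nat.card_congr e.toEquiv⟩
    ext k
    constructor
    · rintro ⟨g, rfl⟩
      exact ⟨e g, e.orderOf_eq g⟩
    · rintro ⟨g, rfl⟩
      exact ⟨e.symm g, e.symm.orderOf_eq g⟩
  · rintro ⟨hs, hc⟩
    rcases Nat.even_or_odd (Fintype.card F) with he | ho
    · exact even_case hF he hs hc
    · exact odd_case hF ho hs hc

end Cfsg.Agent.S3421
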