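import Cfsg.Statements.S3430
import Cfsg.Agent.Num.ZsigPart4

set_option autoImplicit false
open Cfsg

namespace Cfsg.Agent.S3430

/-- Let q, n ≥ 2 be integers. Unless (n = 2 and q + 1 = 2^s·3^t for some s ≥ 0 and t ≤ 1), or (q = 2 and n ∈ {4, 6, 10, 12, 18}), or (q = 3 and n ∈ {4, 6}), or (q, n) = (5, 6), there is a prime p dividing q^n − 1 but no q^i − 1 with 1 ≤ i < n (a primitive prime divisor), such that p > n + 1 or p² divides q^n − 1. -/
theorem result (q n : ℕ) (hq : 2 ≤ q) (hn : 2 ≤ n)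
    (h1 : ¬ (n = 2 ∧ ∃ s t : ℕ, t ≤ 1 ∧ q + 1 = 2 ^ s * 3 ^ t))
    (h2 : ¬ (q = 2 ∧ (n = 4 ∨ n = 6 ∨ n = 10 ∨ n = 12 ∨ n = 18)))
    (h3 : ¬ (q = 3 ∧ (n = 4 ∨ n = 6))) (h4 : ¬ (q = 5 ∧ n = 6)) :
    ∃ p : ℕ, p.Prime ∧ p ∣ q ^ n - 1 ∧ (∀ i : ℕ, 1 ≤ i → i < n → ¬ p ∣ q ^ i - 1) ∧ (n + 1 < p ∨ p ^ 2 ∣ q ^ n - 1) := by
  rcases Nat.lt_or_ge n 3 with hn3 | hn3
  · obtain rfl : n = 2 := by omega
    have hdvd : q + 1 ∣ q ^ 2 - 1 := ⟨q - 1, by rw [← Nat.sq_sub_sq, one_pow]⟩
    by_cases h5 : ∃ p : ℕ, p.Prime ∧ p ∣ q + 1 ∧ 3 < p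
    · obtain ⟨p, hp, hpq, h3p⟩ := h5
      refine ⟨p, hp, hpq.trans hdvd, fun i hi hi2 hpi => ?_, Or.inl h3p⟩
      obtain rfl : i = 1 := by omega
      rw [pow_one] at hpi
      have : p ∣ (q + 1) - (q - 1) := Nat.dvd_sub hpq hpi
      have h2 := Nat.le_of_dvd (by omega) this
      omega
    · push Not at h5
      obtain ⟨t, v, hv, hqv⟩ := Nat.exists_eq_pow_mul_and_not_dvd (show q + 1 ≠ 0 by omega) 3 (by norm_num)
      have hv0 : v ≠ 0 := by rintro rfl; simp at hv
      have hv2 := Nat.eq_prime_pow_of_unique_prime_dvd (n := v) (p := 2) hv0 (fun {r} hr hrv => by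
        have h6 := h5 r hr (hqv ▸ hrv.mul_left _)
        have := hr.two_le
        have h7 : r ≠ 3 := by rintro rfl; exact hv hrv
        omega)
      have ht : 2 ≤ t := by
        by_contra hcon
        exact h1 ⟨rfl, v.primeFactorsList.length, t, by omega, by rw [hqv]; nth_rewrite 1 [hv2]; ring⟩
      have h9 : 9 ∣ q + 1 := by
        rw [hqv]
        exact ((pow_dvd_pow 3 ht : (3 : ℕ) ^ 2 ∣ 3 ^ t)).mul_right v
      refine ⟨3, Nat.prime_three, (Dvd.dvd.trans (by norm_num) h9).trans hdvd, fun i hi hi2 hpi => ?_,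
        Or.inr (by norm_num; exact h9.trans hdvd)⟩
      obtain rfl : i = 1 := by omega
      rw [pow_one] at hpi
      omega
  · by_cases hex : (q, n) ∈ [(2, 3), (2, 8), (2, 20), (4, 3), (4, 6)]
    · simp only [List.mem_cons, Prod.mk.injEq, List.not_mem_nil, or_false] at hex
      rcases hex with ⟨rfl, rfl⟩ | ⟨rfl, rfl⟩ | ⟨rfl, rfl⟩ | ⟨rfl, rfl⟩ | ⟨rfl, rfl⟩
      · refine ⟨7, by norm_num, by norm_num, fun i hi hi2 => ?_, Or.inl (by norm_num)⟩
        interval_cases i <;> norm_num
      · refine ⟨17, by norm_num, by norm_num, fun i hi hi2 => ?_, Or.inl (by norm_num)⟩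
        interval_cases i <;> norm_num
      · refine ⟨41, by norm_num, by norm_num, fun i hi hi2 => ?_, Or.inl (by norm_num)⟩
        interval_cases i <;> norm_num
      · refine ⟨7, by norm_num, by norm_num, fun i hi hi2 => ?_, Or.inl (by norm_num)⟩
        interval_cases i <;> norm_num
      · refine ⟨13, by norm_num, by norm_num, fun i hi hi2 => ?_, Or.inl (by norm_num)⟩
        interval_cases i <;> norm_num
    · have hgood : Cfsg.Agent.Num.ZsigPart.Good q n := by
        refine Cfsg.Agent.Num.ZsigPart.good hq hn3 ?_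
        simp only [List.mem_cons, Prod.mk.injEq, List.not_mem_nil, or_false] at hex ⊢
        omega
      obtain ⟨m, hm, hcop, hmn⟩ := hgood
      by_contra hcon
      push Not at hcon
      have hprim : ∀ p : ℕ, p.Prime → p ∣ m → p = n + 1 ∧ ¬ p ^ 2 ∣ q ^ n - 1 := by
        intro p hp hpm
        have hfact := Fact.mk hp
        have h4 : ∀ i, 1 ≤ i → i < n → ¬ p ∣ q ^ i - 1 := by
          intro i hi hin hpi
          have := Nat.dvd_gcd hpm hpi
          rw [hcop i hi hin] at this
          exact hp.one_lt.ne' (Nat.dvd_one.mp this)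
        obtain ⟨h5, h6⟩ := hcon p hp (hpm.trans hm) h4
        refine ⟨le_antisymm h5 ?_, h6⟩
        -- the order of `q` mod `p` is `n`
        have h7 : orderOf (q : ZMod p) ∣ n := by
          apply orderOf_dvd_of_pow_eq_one
          rw [← Cfsg.Agent.S2904.dvd_pow_sub_one_iff q n p (by omega)]
          exact hpm.trans hm
        have hpos : 0 < orderOf (q : ZMod p) := Nat.pos_of_dvd_of_pos h7 (by omega)
        have h8 : orderOf (q : ZMod p) = n := by
          refine le_antisymm (Nat.le_of_dvd (by omega) h7) ?_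
          by_contra hlt
          push Not at hlt
          refine h4 _ hpos hlt ?_
          rw [Cfsg.Agent.S2904.dvd_pow_sub_one_iff q _ p (by omega), pow_orderOf_eq_one]
        have h9 : orderOf (q : ZMod p) ∣ p - 1 := by
          apply ZMod.orderOf_dvd_card_sub_one
          intro h0
          have := pow_orderOf_eq_one (q : ZMod p)
          rw [h0, zero_pow (by rw [← h0]; omega)] at this
          exact zero_ne_one this
        rw [h8] at h9
        have := Nat.le_of_dvd (by have := hp.two_le; omega) h9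
        omega
      have hm1 : m ≠ 1 := by omega
      obtain ⟨p, hp, hpm⟩ := Nat.exists_prime_and_dvd hm1
      obtain ⟨hpn, hp2⟩ := hprim p hp hpm
      have hmp := Nat.eq_prime_pow_of_unique_prime_dvd (n := m) (p := p) (by omega) (fun {r} hr hrm => by
        rw [(hprim r hr hrm).1, hpn])
      have hj : m.primeFactorsList.length < 2 := by
        by_contra hj
        apply hp2
        refine Dvd.dvd.trans ?_ hm
        rw [hmp]
        exact pow_dvd_pow p (by omega)
      have hle : m ≤ p := by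
        rw [hmp]
        calc p ^ m.primeFactorsList.length ≤ p ^ 1 := Nat.pow_le_pow_right hp.pos (by omega)
          _ = p := pow_one p
      omega

end Cfsg.Agent.S3430
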