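import Cfsg.Statements.S3504
import Mathlib

set_option autoImplicit false
open Cfsg

namespace Cfsg.Agent.S3504

/-- For n ≥ 5, the fixed-point-free permutations of prime order in the symmetric group of degree n form a single conjugacy class if and only if n is a prime power. -/
theorem result (n : ℕ) (hn : 5 ≤ n) :
    Nat.card {c : ConjClasses (Equiv.Perm (Fin n)) // ∃ g : Equiv.Perm (Fin n), ConjClasses.mk g = c ∧ (orderOf g).Prime ∧ ∀ i : Fin n, g i ≠ i} = 1 ↔ IsPrimePow n := by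
  classical
  -- derangements of prime order `p` exist iff `p ∣ n`, and are conjugate
  have hex : ∀ p : ℕ, p.Prime → p ∣ n → ∃ g : Equiv.Perm (Fin n), orderOf g = p ∧ ∀ i, g i ≠ i := by
    intro p hp hpn
    obtain ⟨k, hk⟩ := hpn
    have hk0 : k ≠ 0 := by rintro rfl; omega
    obtain ⟨g, hg⟩ := (Equiv.Perm.exists_with_cycleType_iff (Fin n) (m := Multiset.replicate k p)).mpr
      ⟨by rw [Multiset.sum_replicate, smul_eq_mul, Fintype.card_fin, hk, mul_comm],
        fun a ha => by rw [Multiset.eq_of_mem_replicate ha]; exact hp.two_le⟩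
    refine ⟨g, ?_, ?_⟩
    · rw [← Equiv.Perm.lcm_cycleType, hg]
      apply Nat.dvd_antisymm
      · apply Multiset.lcm_dvd.mpr
        intro b hb
        rw [Multiset.eq_of_mem_replicate hb]
      · apply Multiset.dvd_lcm
        exact Multiset.mem_replicate.mpr ⟨hk0, rfl⟩
    · intro i hi
      have h1 := Equiv.Perm.sum_cycleType g
      rw [hg, Multiset.sum_replicate, smul_eq_mul, mul_comm, ← hk] at h1
      have h2 : g.support = Finset.univ := by
        rw [← Finset.card_eq_iff_eq_univ, ← h1, Fintype.card_fin]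
      have h3 : i ∈ g.support := by rw [h2]; exact Finset.mem_univ i
      exact (Equiv.Perm.mem_support.mp h3) hi
  have hct : ∀ g : Equiv.Perm (Fin n), (orderOf g).Prime → (∀ i, g i ≠ i) →
      orderOf g ∣ n ∧ g.cycleType = Multiset.replicate (n / orderOf g) (orderOf g) := by
    intro g hg hgi
    obtain ⟨k, hk⟩ := Equiv.Perm.cycleType_prime_order hg
    have h1 := Equiv.Perm.sum_cycleType g
    have h2 : g.support = Finset.univ := by
      ext i
      simp only [Equiv.Perm.mem_support, Finset.mem_univ, iff_true]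
      exact hgi i
    rw [h2, Finset.card_univ, Fintype.card_fin, hk, Multiset.sum_replicate, smul_eq_mul] at h1
    have h3 : n / orderOf g = k + 1 := Nat.div_eq_of_eq_mul_left hg.pos h1.symm
    exact ⟨⟨k + 1, h1.symm.trans (mul_comm _ _)⟩, by rw [h3]; exact hk⟩
  rw [Nat.card_eq_one_iff_unique, isPrimePow_iff_unique_prime_dvd]
  constructor
  · rintro ⟨⟨h1⟩, ⟨⟨c, g, hgc, hg, hgi⟩⟩⟩
    refine ⟨orderOf g, ⟨hg, (hct g hg hgi).1⟩, ?_⟩
    rintro q ⟨hq, hqn⟩
    obtain ⟨k, hk, hki⟩ := hex q hq hqn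
    have h2 := h1 ⟨ConjClasses.mk g, g, rfl, hg, hgi⟩ ⟨ConjClasses.mk k, k, rfl, by rw [hk]; exact hq, hki⟩
    have h3 := ConjClasses.mk_eq_mk_iff_isConj.mp (congrArg Subtype.val h2)
    obtain ⟨c, hc⟩ := isConj_iff.mp h3
    rw [← hk, ← hc, ← MulAut.conj_apply, MulEquiv.orderOf_eq]
  · rintro ⟨p, ⟨hp, hpn⟩, huniq⟩
    obtain ⟨k, hk, hki⟩ := hex p hp hpn
    refine ⟨⟨?_⟩, ⟨⟨ConjClasses.mk k, k, rfl, by rw [hk]; exact hp, hki⟩⟩⟩
    rintro ⟨_, g, rfl, hg, hgi⟩ ⟨_, g', rfl, hg', hgi'⟩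
    apply Subtype.ext
    rw [ConjClasses.mk_eq_mk_iff_isConj, Equiv.Perm.isConj_iff_cycleType_eq]
    obtain ⟨h1, h2⟩ := hct g hg hgi
    obtain ⟨h3, h4⟩ := hct g' hg' hgi'
    have h5 : orderOf g = p := huniq _ ⟨hg, h1⟩
    have h6 : orderOf g' = p := huniq _ ⟨hg', h3⟩
    rw [h2, h4, h5, h6]

end Cfsg.Agent.S3504
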