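import Cfsg.Statements.S3511
import Mathlib

set_option autoImplicit false
open Cfsg

namespace Cfsg.Agent.S3511

/-- Let a finite group G act faithfully on a set Ω. If every element of G of square-free order has a regular cycle (an orbit of the cyclic group it generates with trivial stabilizer), then every element of G has a regular cycle. -/
theorem result {G : Type*} [Group G] [Finite G] {Ω : Type*} [MulAction G Ω] [FaithfulSMul G Ω]
    (h : ∀ g : G, Squarefree (orderOf g) → ∃ ω : Ω, MulAction.stabilizer (Subgroup.zpowers g) ω = ⊥) (g : G) :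
    ∃ ω : Ω, MulAction.stabilizer (Subgroup.zpowers g) ω = ⊥ := by
  classical
  set n := orderOf g with hn
  have hnpos : 0 < n := orderOf_pos g
  set r := UniqueFactorizationMonoid.radical n with hr
  have hrn : r ∣ n := UniqueFactorizationMonoid.radical_dvd_self
  have hsq : Squarefree r := UniqueFactorizationMonoid.squarefree_radical
  have hrpos : 0 < r := Nat.pos_of_dvd_of_pos hrn hnpos
  have hord : orderOf (g ^ (n / r)) = r := by
    rw [orderOf_pow, ← hn, Nat.gcd_eq_right (Nat.div_dvd_of_dvd hrn)]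
    exact Nat.div_div_self hrn hnpos.ne'
  obtain ⟨ω, hω⟩ := h (g ^ (n / r)) (by rw [hord]; exact hsq)
  refine ⟨ω, ?_⟩
  rw [Subgroup.eq_bot_iff_forall]
  rintro ⟨x, hx⟩ hxω
  by_contra hx1
  have hx1' : x ≠ 1 := fun h' => hx1 (Subtype.ext h')
  have hxω' : x • ω = ω := hxω
  -- an element of prime order
  obtain ⟨p, hp, hpx⟩ := Nat.exists_prime_and_dvd (n := orderOf x)
    (fun h' => hx1' (orderOf_eq_one_iff.mp h'))
  have hxpos : 0 < orderOf x := orderOf_pos x
  set m := orderOf x / p with hm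
  have hyo : orderOf (x ^ m) = p := by
    rw [orderOf_pow, hm, Nat.gcd_eq_right (Nat.div_dvd_of_dvd hpx)]
    exact Nat.div_div_self hpx hxpos.ne'
  have hyω : (x ^ m) • ω = ω := by
    have : ∀ j : ℕ, (x ^ j) • ω = ω := by
      intro j
      induction j with
      | zero => rw [pow_zero, one_smul]
      | succ j ih => rw [pow_succ, mul_smul, hxω', ih]
    exact this m
  obtain ⟨k, -, hk⟩ : ∃ k : ℕ, k < n ∧ g ^ k = x ^ m := by
    have h1 : x ^ m ∈ Subgroup.zpowers g := Subgroup.pow_mem _ hx m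
    obtain ⟨k, hk, hkx⟩ := Finset.mem_image.mp
      ((isOfFinOrder_of_finite g).mem_zpowers_iff_mem_range_orderOf.mp h1)
    exact ⟨k, Finset.mem_range.mp hk, hkx⟩
  have hpn : p ∣ n := by
    rw [← hyo, ← hk, hn]
    exact orderOf_pow_dvd k
  have hpr : p ∣ r :=
    (UniqueFactorizationMonoid.dvd_radical_iff_of_irreducible hp.prime.irreducible hnpos.ne').mpr hpn
  have hnk : n ∣ k * p := by
    rw [hn]
    apply orderOf_dvd_of_pow_eq_one
    rw [pow_mul, hk, ← hyo, pow_orderOf_eq_one]
  have hnrk : n / r ∣ k := by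
    obtain ⟨a, ha⟩ := hrn
    obtain ⟨b, hb⟩ := hpr
    have h1 : n / r = a := by rw [ha]; exact Nat.mul_div_cancel_left a hrpos
    rw [h1]
    have h2 : p * (b * a) ∣ p * k := by
      have : p * (b * a) = n := by rw [ha, hb]; ring
      rw [this, mul_comm p k]; exact hnk
    have h3 := Nat.dvd_of_mul_dvd_mul_left hp.pos h2
    exact (dvd_mul_left a b).trans h3
  obtain ⟨c, hc⟩ := hnrk
  have hy : x ^ m ∈ Subgroup.zpowers (g ^ (n / r)) := by
    rw [← hk, hc, pow_mul]
    exact Subgroup.pow_mem _ (Subgroup.mem_zpowers _) c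
  have h1 : (⟨x ^ m, hy⟩ : Subgroup.zpowers (g ^ (n / r))) ∈
      MulAction.stabilizer (Subgroup.zpowers (g ^ (n / r))) ω := hyω
  rw [hω, Subgroup.mem_bot] at h1
  have h2 : x ^ m = 1 := congrArg Subtype.val h1
  rw [h2, orderOf_one] at hyo
  exact hp.one_lt.ne hyo

end Cfsg.Agent.S3511
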