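import Cfsg.Statements.S3514
import Mathlib
import Cfsg.Agent.ExtPrim.RelIdx

set_option autoImplicit false
open Cfsg

namespace Cfsg.Agent.S3514

/-- Let p be a prime, V a finite vector space over the field with p elements, and H a group of linear transformations of V all of whose orbits on V have size coprime to p. (i) Every normal subgroup K of H has all its orbits on V of size coprime to p. (ii) If N is a group of linear transformations of V of order coprime to p that is normalized by H, then the group generated by N and H has all its orbits on V of size coprime to p. -/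
theorem result (p : ℕ) [Fact p.Prime] {V : Type*} [AddCommGroup V] [Module (ZMod p) V] [Finite V]
    (H : Subgroup (V ≃ₗ[ZMod p] V)) (hH : ∀ v : V, ¬ p ∣ Nat.card {u : V | ∃ h ∈ H, h v = u}) :
    (∀ K : Subgroup (V ≃ₗ[ZMod p] V), K ≤ H → H ≤ Subgroup.normalizer (K : Set (V ≃ₗ[ZMod p] V)) →
        ∀ v : V, ¬ p ∣ Nat.card {u : V | ∃ k ∈ K, k v = u}) ∧
    (∀ N : Subgroup (V ≃ₗ[ZMod p] V), ¬ p ∣ Nat.card N → H ≤ Subgroup.normalizer (N : Set (V ≃ₗ[ZMod p] V)) →
        ∀ v : V, ¬ p ∣ Nat.card {u : V | ∃ x ∈ N ⊔ H, x v = u}) := by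
  classical
  have hp : p.Prime := Fact.out
  have : Finite (V ≃ₗ[ZMod p] V) := by
    apply Finite.of_injective (fun f : V ≃ₗ[ZMod p] V => (f : V → V))
    exact DFunLike.coe_injective
  -- orbits
  have horb : ∀ (K : Subgroup (V ≃ₗ[ZMod p] V)) (v : V),
      Nat.card {u : V | ∃ h ∈ K, h v = u} = (MulAction.stabilizer (V ≃ₗ[ZMod p] V) v).relIndex K := by
    intro K v
    have h1 : {u : V | ∃ h ∈ K, h v = u} = MulAction.orbit K v := by
      ext u
      constructor
      · rintro ⟨h, hh, rfl⟩
        exact ⟨⟨h, hh⟩, rfl⟩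
      · rintro ⟨⟨h, hh⟩, rfl⟩
        exact ⟨h, hh, rfl⟩
    rw [h1, Subgroup.relIndex]
    have h2 : (MulAction.stabilizer (V ≃ₗ[ZMod p] V) v).subgroupOf K = MulAction.stabilizer K v := by
      ext x
      rfl
    rw [h2, MulAction.index_stabilizer, Nat.card_coe_set_eq]
  refine ⟨?_, ?_⟩
  · intro K hK hKn v hdvd
    apply hH v
    rw [horb] at hdvd ⊢
    refine hdvd.trans ?_
    set S := MulAction.stabilizer (V ≃ₗ[ZMod p] V) v with hS
    have hn : (K.subgroupOf H).Normal := by
      refine ⟨fun x hx g => ?_⟩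
      rw [Subgroup.mem_subgroupOf] at hx ⊢
      exact (Subgroup.mem_normalizer_iff.mp (hKn g.2) _).mp hx
    have h1 := Cfsg.Agent.ExtPrim.relIndex_sup_normal (K.subgroupOf H) (S.subgroupOf H)
    rw [Subgroup.relIndex_subgroupOf hK] at h1
    rw [← h1]
    exact Subgroup.relIndex_dvd_index_of_le le_sup_right
  · intro N hN hHN v hdvd
    rw [horb] at hdvd
    set S := MulAction.stabilizer (V ≃ₗ[ZMod p] V) v with hS
    set L := N ⊔ H with hL
    have hn : (N.subgroupOf L).Normal := by
      have hLN : L ≤ Subgroup.normalizer (N : Set (V ≃ₗ[ZMod p] V)) :=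
        sup_le Subgroup.le_normalizer hHN
      refine ⟨fun x hx g => ?_⟩
      rw [Subgroup.mem_subgroupOf] at hx ⊢
      exact (Subgroup.mem_normalizer_iff.mp (hLN g.2) _).mp hx
    have htop : N.subgroupOf L ⊔ H.subgroupOf L = ⊤ := by
      rw [← Subgroup.subgroupOf_sup le_sup_left le_sup_right, Subgroup.subgroupOf_self]
    have h1 := Cfsg.Agent.ExtPrim.relIndex_sup_normal (N.subgroupOf L) (H.subgroupOf L)
    rw [htop, Subgroup.relIndex_top_right, Subgroup.relIndex_subgroupOf le_sup_left] at h1
    have h2 : S.relIndex L ∣ S.relIndex H * H.relIndex L := by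
      have h3 : (S ⊓ H).relIndex L = S.relIndex H * H.relIndex L := by
        rw [← Subgroup.relIndex_mul_relIndex (S ⊓ H) H L inf_le_right le_sup_right,
          Subgroup.inf_relIndex_right]
      rw [← h3]
      exact Subgroup.relIndex_dvd_of_le_left L inf_le_left
    rcases (hp.dvd_mul).mp (hdvd.trans h2) with h3 | h3
    · apply hH v
      rw [horb]
      exact h3
    · apply hN
      refine h3.trans ?_
      change (H.subgroupOf L).index ∣ _
      rw [h1]
      exact Subgroup.relIndex_dvd_card H N

end Cfsg.Agent.S3514
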