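import Cfsg.Statements.S3515
import Mathlib
import Cfsg.Agent.ExtPrim.AffClosed

set_option autoImplicit false
open Cfsg

namespace Cfsg.Agent.S3515

/-- Every primitive affine permutation group of degree p² is 3-closed. Let p be a prime and G a group of permutations of the plane V = F_p² consisting of affine maps x ↦ Ax + b, containing all translations, and acting primitively on V. Then any permutation σ of V that agrees on every triple of points with some element of G (σ preserves every G-orbit on ordered triples) already lies in G. -/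
theorem result (p : ℕ) [Fact p.Prime] (G : Subgroup (Equiv.Perm (Fin 2 → ZMod p)))
    (haff : (G : Set (Equiv.Perm (Fin 2 → ZMod p))) ⊆ {τ : Equiv.Perm (Fin 2 → ZMod p) | ∃ (A : (Fin 2 → ZMod p) ≃ₗ[ZMod p] (Fin 2 → ZMod p)) (b : Fin 2 → ZMod p), ∀ x, τ x = A x + b})
    (htrans : ∀ b : Fin 2 → ZMod p, ∃ g ∈ G, ∀ x, g x = x + b) (hprim : MulAction.IsPreprimitive G (Fin 2 → ZMod p))
    (σ : Equiv.Perm (Fin 2 → ZMod p)) (hσ : (∀ t : Fin 3 → (Fin 2 → ZMod p), ∃ g ∈ G, ∀ i, σ (t i) = g (t i))) : σ ∈ G := by
  classical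
  obtain ⟨g, hg, hgt⟩ := hσ ![0, Pi.single 0 1, Pi.single 1 1]
  have h0 : σ 0 = g 0 := hgt 0
  have h1 : σ (Pi.single 0 1) = g (Pi.single 0 1) := hgt 1
  have h2 : σ (Pi.single 1 1) = g (Pi.single 1 1) := hgt 2
  have hσg : σ = g := by
    by_cases hp2 : p = 2
    · have hdec : ∀ x y : Fin 2 → ZMod 2, x ≠ y → x = 0 ∨ x = Pi.single 0 1 ∨ x = Pi.single 1 1 ∨
          y = 0 ∨ y = Pi.single 0 1 ∨ y = Pi.single 1 1 := by decide
      subst hp2
      have key : ∀ x : Fin 2 → ZMod 2, (x = 0 ∨ x = Pi.single 0 1 ∨ x = Pi.single 1 1) → σ x = g x := by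
        rintro x (rfl | rfl | rfl)
        · exact h0
        · exact h1
        · exact h2
      ext x : 1
      by_cases hx : x = 0 ∨ x = Pi.single 0 1 ∨ x = Pi.single 1 1
      · exact key x hx
      · by_contra hne
        have hyx : g.symm (σ x) ≠ x := by
          intro h
          rw [Equiv.symm_apply_eq] at h
          exact hne h
        have h4 := hdec (g.symm (σ x)) x hyx
        have h5 : g.symm (σ x) = 0 ∨ g.symm (σ x) = Pi.single 0 1 ∨ g.symm (σ x) = Pi.single 1 1 := by
          push Not at hx
          rcases h4 with h | h | h | h | h | h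
          · exact Or.inl h
          · exact Or.inr (Or.inl h)
          · exact Or.inr (Or.inr h)
          · exact absurd h hx.1
          · exact absurd h hx.2.1
          · exact absurd h hx.2.2
        have h6 := key _ h5
        rw [Equiv.apply_symm_apply] at h6
        exact hyx (σ.injective h6)
    · have hlines := Cfsg.Agent.ExtPrim.lines_of_closed (G : Set (Equiv.Perm (Fin 2 → ZMod p))) haff σ hσ
      obtain ⟨A, hA⟩ := Cfsg.Agent.ExtPrim.exists_linear_of_lines hp2 (σ : (Fin 2 → ZMod p) → (Fin 2 → ZMod p)) hlines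
      obtain ⟨B, b, hB⟩ := haff hg
      have hb : σ 0 = b := by rw [h0, hB, map_zero, zero_add]
      have hAB : A = (B : (Fin 2 → ZMod p) →ₗ[ZMod p] (Fin 2 → ZMod p)) := by
        apply LinearMap.pi_ext'
        intro i
        apply LinearMap.ext_ring
        fin_cases i
        · rw [hA, hB, hb] at h1
          exact add_right_cancel h1
        · rw [hA, hB, hb] at h2
          exact add_right_cancel h2
      ext x : 1
      rw [hA, hB, hb, hAB]
      rfl
  rw [hσg]
  exact hg

end Cfsg.Agent.S3515
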