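import Cfsg.Statements.S3516
import Mathlib
import Cfsg.Agent.ExtPrim.AffClosed

set_option autoImplicit false
open Cfsg

namespace Cfsg.Agent.S3516

/-- Let p be an odd prime, d ≥ 3, and G a group of affine permutations x ↦ Ax + b of V = F_p^d containing all translations and all maps x ↦ Ax with A of determinant 1. Then the 3-closure of G is the full affine group: a permutation σ of V agrees on every triple of points with some element of G if and only if σ is an affine map. -/
theorem result (p : ℕ) [Fact p.Prime] (hp : p ≠ 2) (d : ℕ) (hd : 3 ≤ d) (G : Subgroup (Equiv.Perm (Fin d → ZMod p)))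
    (haff : (G : Set (Equiv.Perm (Fin d → ZMod p))) ⊆ {τ : Equiv.Perm (Fin d → ZMod p) | ∃ (A : (Fin d → ZMod p) ≃ₗ[ZMod p] (Fin d → ZMod p)) (b : Fin d → ZMod p), ∀ x, τ x = A x + b})
    (htrans : ∀ b : Fin d → ZMod p, ∃ g ∈ G, ∀ x, g x = x + b)
    (hsl : ∀ A : (Fin d → ZMod p) ≃ₗ[ZMod p] (Fin d → ZMod p), LinearMap.det (A : (Fin d → ZMod p) →ₗ[ZMod p] (Fin d → ZMod p)) = 1 → ∃ g ∈ G, ∀ x, g x = A x)
    (σ : Equiv.Perm (Fin d → ZMod p)) :
    (∀ t : Fin 3 → (Fin d → ZMod p), ∃ g ∈ G, ∀ i, σ (t i) = g (t i)) ↔ σ ∈ {τ : Equiv.Perm (Fin d → ZMod p) | ∃ (A : (Fin d → ZMod p) ≃ₗ[ZMod p] (Fin d → ZMod p)) (b : Fin d → ZMod p), ∀ x, τ x = A x + b} := by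
  classical
  constructor
  · intro hσ
    have hlines := Cfsg.Agent.ExtPrim.lines_of_closed (G : Set (Equiv.Perm (Fin d → ZMod p))) haff σ hσ
    obtain ⟨A, hA⟩ := Cfsg.Agent.ExtPrim.exists_linear_of_lines hp (σ : (Fin d → ZMod p) → (Fin d → ZMod p)) hlines
    have hinj : Function.Injective A := by
      intro x y hxy
      apply σ.injective
      rw [hA x, hA y, hxy]
    exact ⟨LinearEquiv.ofInjectiveEndo A hinj, σ 0, hA⟩
  · rintro ⟨A, b, hA⟩ t
    set U : Submodule (ZMod p) (Fin d → ZMod p) := Submodule.span (ZMod p) {t 1 - t 0, t 2 - t 0} with hU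
    have hUtop : U ≠ ⊤ := by
      intro h
      have h1 : Module.finrank (ZMod p) U ≤ 2 := by
        refine (finrank_span_le_card ({t 1 - t 0, t 2 - t 0} : Set (Fin d → ZMod p))).trans ?_
        rw [Set.toFinset_card, ← Nat.card_eq_fintype_card]
        exact (Set.ncard_insert_le _ _).trans (by rw [Set.ncard_singleton])
      rw [h, finrank_top, Module.finrank_fin_fun] at h1
      omega
    have hdet : LinearMap.det (A : (Fin d → ZMod p) →ₗ[ZMod p] (Fin d → ZMod p)) ≠ 0 := (LinearEquiv.isUnit_det' A).ne_zero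
    obtain ⟨B, hBU, hBdet⟩ := Cfsg.Agent.ExtPrim.exists_det_eq U hUtop
      (LinearMap.det (A : (Fin d → ZMod p) →ₗ[ZMod p] (Fin d → ZMod p)))⁻¹ (inv_ne_zero hdet)
    obtain ⟨g, hg, hgA⟩ := hsl (B ≪≫ₗ A) (by
      rw [LinearEquiv.coe_trans, LinearMap.det_comp, hBdet, mul_inv_cancel₀ hdet])
    obtain ⟨k, hk, hkb⟩ := htrans (σ (t 0) - A (B (t 0)))
    refine ⟨k * g, G.mul_mem hk hg, fun i => ?_⟩
    rw [Equiv.Perm.mul_apply, hkb, hgA, LinearEquiv.trans_apply, hA, hA]
    have hu : t i - t 0 ∈ U := by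
      fin_cases i
      · change t 0 - t 0 ∈ U
        rw [sub_self]; exact U.zero_mem
      · exact Submodule.subset_span (by simp)
      · exact Submodule.subset_span (by simp)
    have h2 := hBU _ hu
    rw [map_sub] at h2
    have h3 : A (B (t i)) - A (B (t 0)) = A (t i) - A (t 0) := by
      rw [← map_sub, h2, map_sub]
    calc A (t i) + b = (A (t i) - A (t 0)) + (A (t 0) + b) := by abel
      _ = (A (B (t i)) - A (B (t 0))) + (A (t 0) + b) := by rw [h3]
      _ = A (B (t i)) + (A (t 0) + b - A (B (t 0))) := by abel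

end Cfsg.Agent.S3516
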