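import Cfsg.Statements.S3517
import Mathlib
import Cfsg.Agent.ExtPrim.AffClosed

set_option autoImplicit false
open Cfsg

namespace Cfsg.Agent.S3517

/-- For d ≥ 3, the 3-closure of the affine group AGL_d(2) acting on F_2^d is the full symmetric group: every permutation of F_2^d agrees on every ordered triple of points with some affine map (AGL_d(2) is 3-transitive). -/
theorem result (d : ℕ) (hd : 3 ≤ d) (σ : Equiv.Perm (Fin d → ZMod 2)) (t : Fin 3 → (Fin d → ZMod 2)) :
    ∃ (A : (Fin d → ZMod 2) ≃ₗ[ZMod 2] (Fin d → ZMod 2)) (b : Fin d → ZMod 2), ∀ i, σ (t i) = A (t i) + b := by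
  classical
  -- reduce to a linear statement
  have hlin : ∀ v w v' w' : Fin d → ZMod 2, (v = 0 ↔ v' = 0) → (w = 0 ↔ w' = 0) →
      (v = w ↔ v' = w') → ∃ A : (Fin d → ZMod 2) ≃ₗ[ZMod 2] (Fin d → ZMod 2), A v = v' ∧ A w = w' := by
    have hsingle : ∀ v v' : Fin d → ZMod 2, v ≠ 0 → v' ≠ 0 →
        ∃ A : (Fin d → ZMod 2) ≃ₗ[ZMod 2] (Fin d → ZMod 2), A v = v' := by
      intro v v' hv hv'
      obtain ⟨A, hA⟩ := Cfsg.Agent.ExtPrim.exists_equiv_of_linearIndependent (K := ZMod 2)
        (ι := Unit) (v := fun _ => v) (v' := fun _ => v')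
        (LinearIndependent.of_subsingleton () hv) (LinearIndependent.of_subsingleton () hv')
      exact ⟨A, hA ()⟩
    have hpair : ∀ v w : Fin d → ZMod 2, v ≠ 0 → w ≠ 0 → v ≠ w →
        LinearIndependent (ZMod 2) ![v, w] := by
      intro v w hv hw hvw
      rw [LinearIndependent.pair_iff]
      intro s t hst
      have h01 : ∀ s : ZMod 2, s = 0 ∨ s = 1 := by decide
      rcases h01 s with rfl | rfl <;> rcases h01 t with rfl | rfl
      · exact ⟨rfl, rfl⟩
      · exfalso; apply hw; simpa using hst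
      · exfalso; apply hv; simpa using hst
      · exfalso
        apply hvw
        rw [one_smul, one_smul] at hst
        have h2 : w + w = 0 := by
          ext i
          have : ∀ a : ZMod 2, a + a = 0 := by decide
          exact this (w i)
        exact add_right_cancel (hst.trans h2.symm)
    intro v w v' w' h1 h2 h3
    by_cases hv : v = 0
    · have hv' := h1.mp hv
      by_cases hw : w = 0
      · exact ⟨LinearEquiv.refl _ _, by rw [hv, hv']; rfl, by rw [hw, h2.mp hw]; rfl⟩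
      · obtain ⟨A, hA⟩ := hsingle w w' hw (fun h => hw (h2.mpr h))
        exact ⟨A, by rw [hv, hv', map_zero], hA⟩
    · have hv' : v' ≠ 0 := fun h => hv (h1.mpr h)
      by_cases hw : w = 0
      · obtain ⟨A, hA⟩ := hsingle v v' hv hv'
        exact ⟨A, hA, by rw [hw, h2.mp hw, map_zero]⟩
      · have hw' : w' ≠ 0 := fun h => hw (h2.mpr h)
        by_cases hvw : v = w
        · obtain ⟨A, hA⟩ := hsingle v v' hv hv'
          exact ⟨A, hA, by rw [← hvw, hA, h3.mp hvw]⟩
        · have hvw' : v' ≠ w' := fun h => hvw (h3.mpr h)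
          obtain ⟨A, hA⟩ := Cfsg.Agent.ExtPrim.exists_equiv_of_linearIndependent (K := ZMod 2)
            (hpair v w hv hw hvw) (hpair v' w' hv' hw' hvw')
          exact ⟨A, hA 0, hA 1⟩
  obtain ⟨A, hA1, hA2⟩ := hlin (t 1 - t 0) (t 2 - t 0) (σ (t 1) - σ (t 0)) (σ (t 2) - σ (t 0))
    (by rw [sub_eq_zero, sub_eq_zero, σ.apply_eq_iff_eq])
    (by rw [sub_eq_zero, sub_eq_zero, σ.apply_eq_iff_eq])
    (by rw [sub_left_inj, sub_left_inj, σ.apply_eq_iff_eq])
  rw [map_sub] at hA1 hA2
  refine ⟨A, σ (t 0) - A (t 0), fun i => ?_⟩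
  fin_cases i
  · change σ (t 0) = A (t 0) + (σ (t 0) - A (t 0))
    abel
  · change σ (t 1) = A (t 1) + (σ (t 0) - A (t 0))
    have : σ (t 1) = (σ (t 1) - σ (t 0)) + σ (t 0) := by abel
    rw [this, ← hA1]; abel
  · change σ (t 2) = A (t 2) + (σ (t 0) - A (t 0))
    have : σ (t 2) = (σ (t 2) - σ (t 0)) + σ (t 0) := by abel
    rw [this, ← hA2]; abel

end Cfsg.Agent.S3517
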