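import Cfsg.Statements.S3518


set_option autoImplicit false
set_option linter.style.haveILetI false
open Cfsg

namespace Cfsg.Agent.S3518


section Main

variable {p : ℕ} [hp : Fact p.Prime] (H : Subgroup (ZMod p)ˣ)

theorem psum_eq_zero [Fintype H] {j : ℕ} (h0 : 0 < j) (hj : j < Nat.card H) :
    ∑ h : H, (((h : (ZMod p)ˣ) : ZMod p)) ^ j = 0 := by
  let f : H →* ZMod p :=
    { toFun := fun h => (((h : (ZMod p)ˣ) : ZMod p)) ^ j
      map_one' := by simp
      map_mul' := fun a b => by simp [mul_pow] }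
  apply sum_hom_units_eq_zero f
  intro hf
  obtain ⟨g, hg⟩ := IsCyclic.exists_generator (α := H)
  have h1 : orderOf g = Nat.card H := orderOf_eq_card_of_forall_mem_zpowers hg
  have h2 : g ^ j = 1 := by
    apply Subtype.ext
    apply Units.ext
    have := congrArg (fun φ : H →* ZMod p => φ g) hf
    simpa [f] using this
  have h3 := orderOf_dvd_of_pow_eq_one h2
  rw [h1] at h3
  exact absurd (Nat.le_of_dvd h0 h3) (by omega)

theorem psum_card [Fintype H] :
    ∑ h : H, (((h : (ZMod p)ˣ) : ZMod p)) ^ Nat.card H = (Nat.card H : ZMod p) := by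
  have h1 : ∀ h : H, (((h : (ZMod p)ˣ) : ZMod p)) ^ Nat.card H = 1 := by
    intro h
    have h2 : h ^ Nat.card H = 1 := pow_card_eq_one'
    have h3 := congrArg (fun z : H => (((z : (ZMod p)ˣ)) : ZMod p)) h2
    have e : (((h ^ Nat.card H : H) : (ZMod p)ˣ) : ZMod p) = (((h : (ZMod p)ˣ) : ZMod p)) ^ Nat.card H := by
      rw [Subgroup.coe_pow, Units.val_pow_eq_pow_val]
    rw [← e]
    exact h3
  rw [Finset.sum_congr rfl (fun h _ => h1 h), Finset.sum_const, Finset.card_univ, nsmul_eq_mul,
    mul_one, Nat.card_eq_fintype_card]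

theorem card_sub_lt : Nat.card H < p := by
  have h1 : Nat.card H ≤ Nat.card (ZMod p)ˣ := Subgroup.card_le_card_group H
  rw [Nat.card_eq_fintype_card (α := (ZMod p)ˣ), ZMod.card_units_eq_totient, Nat.totient_prime hp.out] at h1
  have := hp.out.two_le
  omega

open Polynomial in
theorem lemA [Fintype H] {g : (ZMod p)[X]} (h1 : Nat.card H ≤ g.natDegree) (h2 : g.natDegree < p)
    (h3 : ∀ x, ∑ h : H, g.eval (x + ((h : (ZMod p)ˣ) : ZMod p)) = Nat.card H * g.eval x) : False := by
  set m := Nat.card H with hm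
  set k := g.natDegree with hk
  have hm0 : 0 < m := Nat.card_pos
  have hmp : m < p := card_sub_lt H
  have hmF : (m : ZMod p) ≠ 0 := by
    rw [Ne, ZMod.natCast_eq_zero_iff]
    intro h
    exact absurd (Nat.le_of_dvd hm0 h) (by omega)
  set P : (ZMod p)[X] := ∑ h : H, taylor ((h : (ZMod p)ˣ) : ZMod p) g - C (m : ZMod p) * g with hP
  have hP0 : P = 0 := by
    apply Polynomial.eq_zero_of_natDegree_lt_card_of_eval_eq_zero P (f := fun x : ZMod p => x)
      Function.injective_id
    · intro x
      rw [hP, eval_sub, eval_finsetSum, eval_mul, eval_C, ← h3 x, sub_eq_zero]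
      refine Finset.sum_congr rfl fun h _ => ?_
      rw [taylor_eval]
    · rw [ZMod.card p]
      refine lt_of_le_of_lt ?_ h2
      rw [hP]
      refine (natDegree_sub_le _ _).trans (max_le ?_ ?_)
      · refine natDegree_sum_le_of_forall_le _ _ fun h _ => ?_
        rw [natDegree_taylor]
      · exact natDegree_C_mul_le _ _
  have h4 : P.coeff (k - m) = 0 := by rw [hP0, coeff_zero]
  rw [hP, coeff_sub, finset_sum_coeff, coeff_C_mul] at h4
  have h5 : ∀ h : H, (taylor ((h : (ZMod p)ˣ) : ZMod p) g).coeff (k - m)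
      = ∑ i ∈ Finset.range (m + 1), ((i + (k - m)).choose (k - m) * g.coeff (i + (k - m)))
        * (((h : (ZMod p)ˣ) : ZMod p)) ^ i := by
    intro h
    rw [taylor_coeff, eval_eq_sum_range' (n := m + 1)]
    · refine Finset.sum_congr rfl fun i _ => ?_
      rw [hasseDeriv_coeff]
    · have := natDegree_hasseDeriv_le g (k - m)
      rw [← hk] at this
      omega
  rw [Finset.sum_congr rfl (fun h _ => h5 h), Finset.sum_comm] at h4
  simp_rw [← Finset.mul_sum] at h4
  rw [Finset.sum_range_succ, Finset.sum_eq_single 0] at h4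
  · rw [hm, psum_card H, ← hm] at h4
    have h6 : m + (k - m) = k := by omega
    simp only [pow_zero, zero_add, Finset.sum_const, Finset.card_univ, nsmul_eq_mul, mul_one,
      Nat.choose_self, Nat.cast_one, one_mul, h6] at h4
    rw [← Nat.card_eq_fintype_card, ← hm] at h4
    have h7 : (k.choose (k - m) : ZMod p) * g.coeff k * m = 0 := by
      linear_combination h4
    have h8 : (k.choose (k - m) : ZMod p) ≠ 0 := by
      rw [Ne, ZMod.natCast_eq_zero_iff]
      intro h
      have h9 : p ∣ k.factorial := by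
        rw [← Nat.choose_mul_factorial_mul_factorial (show k - m ≤ k by omega)]
        exact Dvd.dvd.mul_right (Dvd.dvd.mul_right h _) _
      rw [hp.out.dvd_factorial] at h9
      omega
    have h10 : g.coeff k ≠ 0 := by
      rw [hk, coeff_natDegree, Ne, leadingCoeff_eq_zero]
      intro h
      rw [hk, h, natDegree_zero] at h1
      omega
    exact (mul_ne_zero (mul_ne_zero h8 h10) hmF) h7
  · intro i hi hi0
    rw [psum_eq_zero H (Nat.pos_of_ne_zero hi0) (Finset.mem_range.1 hi), mul_zero]
  · intro h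
    exact absurd (Finset.mem_range.2 hm0) h

theorem lemB [Fintype H] {σ : ZMod p → ZMod p} (hσi : Function.Injective σ)
    (hσ : ∀ x, ∀ h ∈ H, ∃ h' ∈ H, σ (x + (h : ZMod p)) = σ x + ((h' : (ZMod p)ˣ) : ZMod p)) {k : ℕ}
    (hk : k < Nat.card H) (x : ZMod p) :
    ∑ h : H, (σ (x + ((h : (ZMod p)ˣ) : ZMod p))) ^ k = Nat.card H * (σ x) ^ k := by
  choose φ hφ1 hφ2 using fun h : H => hσ x h h.2
  let ψ : H → H := fun h => ⟨φ h, hφ1 h⟩
  have hψ : Function.Injective ψ := by
    intro a b hab
    have h1 : φ a = φ b := congrArg Subtype.val hab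
    have h2 : σ (x + ((a : (ZMod p)ˣ) : ZMod p)) = σ (x + ((b : (ZMod p)ˣ) : ZMod p)) := by
      rw [hφ2, hφ2, h1]
    have h3 := add_left_cancel (hσi h2)
    exact Subtype.ext (Units.ext h3)
  have hψb : Function.Bijective ψ := Finite.injective_iff_bijective.1 hψ
  have h1 : ∑ h : H, (σ (x + ((h : (ZMod p)ˣ) : ZMod p))) ^ k
      = ∑ h : H, (σ x + (((h : (ZMod p)ˣ)) : ZMod p)) ^ k := by
    rw [← Function.Bijective.sum_comp hψb (fun h : H => (σ x + (((h : (ZMod p)ˣ)) : ZMod p)) ^ k)]
    exact Finset.sum_congr rfl fun h _ => by rw [hφ2]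
  rw [h1]
  simp_rw [add_pow]
  rw [Finset.sum_comm]
  have h2 : ∀ i ∈ Finset.range (k + 1), ∑ h : H, σ x ^ i * (((h : (ZMod p)ˣ)) : ZMod p) ^ (k - i)
      * (k.choose i : ZMod p) = if i = k then Nat.card H * (σ x) ^ k else 0 := by
    intro i hi
    rw [Finset.mem_range] at hi
    split_ifs with h
    · subst h
      simp only [Nat.sub_self, pow_zero, mul_one, Nat.choose_self, Nat.cast_one, Finset.sum_const,
        Finset.card_univ, nsmul_eq_mul, Nat.card_eq_fintype_card]
    · rw [← Finset.sum_mul, ← Finset.mul_sum, psum_eq_zero H (by omega) (by omega), mul_zero, zero_mul]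
  rw [Finset.sum_congr rfl h2, Finset.sum_ite_eq', if_pos (Finset.mem_range.2 (by omega))]

theorem two_card_le (hH : H ≠ ⊤) : 2 * Nat.card H < p := by
  have h1 : Nat.card H * H.index = Nat.card (ZMod p)ˣ := H.card_mul_index
  rw [Nat.card_eq_fintype_card (α := (ZMod p)ˣ), ZMod.card_units_eq_totient,
    Nat.totient_prime hp.out] at h1
  have h2 : H.index ≠ 1 := fun h => hH (Subgroup.index_eq_one.1 h)
  have h3 : H.index ≠ 0 := Subgroup.index_ne_zero_of_finite
  have h4 : 2 ≤ H.index := by omega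
  have h5 := Nat.mul_le_mul_left (Nat.card H) h4
  have := hp.out.two_le
  omega

open Polynomial in
theorem affine_of (hH : H ≠ ⊤) {σ : ZMod p → ZMod p} (hσi : Function.Injective σ)
    (hσ : ∀ x, ∀ h ∈ H, ∃ h' ∈ H, σ (x + (h : ZMod p)) = σ x + ((h' : (ZMod p)ˣ) : ZMod p)) :
    ∃ a b : ZMod p, ∀ x, σ x = a * x + b := by
  classical
  have : Fintype H := Fintype.ofFinite _
  have h2m := two_card_le H hH
  have hm0 : 0 < Nat.card H := Nat.card_pos
  by_cases hm1 : Nat.card H = 1
  · have hbot : H = ⊥ := Subgroup.card_eq_one.1 hm1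
    have h1 : ∀ x, σ (x + 1) = σ x + 1 := by
      intro x
      obtain ⟨h', hh', he⟩ := hσ x 1 H.one_mem
      rw [hbot, Subgroup.mem_bot] at hh'
      rw [hh', Units.val_one] at he
      exact he
    refine ⟨1, σ 0, fun x => ?_⟩
    have h2 : ∀ n : ℕ, σ (n : ZMod p) = n + σ 0 := by
      intro n
      induction n with
      | zero => simp
      | succ n ih => rw [Nat.cast_succ, h1, ih]; ring
    have h3 := h2 x.val
    rw [ZMod.natCast_zmod_val] at h3
    rw [h3, one_mul]
  set f : (ZMod p)[X] := Lagrange.interpolate Finset.univ id σ with hf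
  have hfe : ∀ x, f.eval x = σ x := fun x =>
    Lagrange.eval_interpolate_at_node (v := id) σ (Set.injOn_id _) (Finset.mem_univ x)
  have hdeg : f.natDegree < p := by
    have h1 := Lagrange.degree_interpolate_lt (v := id) (s := (Finset.univ : Finset (ZMod p))) σ
      (Set.injOn_id _)
    rw [Finset.card_univ, ZMod.card p] at h1
    by_cases h0 : f = 0
    · rw [h0, natDegree_zero]; exact hp.out.pos
    · exact (natDegree_lt_iff_degree_lt h0).2 h1
  have hB : ∀ k < Nat.card H, ∀ x, ∑ h : H, (f ^ k).eval (x + ((h : (ZMod p)ˣ) : ZMod p))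
      = Nat.card H * (f ^ k).eval x := by
    intro k hk x
    simp only [eval_pow, hfe]
    exact lemB H hσi hσ hk x
  have hn1 : f.natDegree ≤ 1 := by
    by_contra hcon
    set n := f.natDegree with hn
    have hf1 := hB 1 (by omega)
    rw [pow_one] at hf1
    have hnm : n < Nat.card H := by
      by_contra hc
      exact lemA H (g := f) (by omega) hdeg hf1
    set m := Nat.card H with hm
    set k := (m + n - 1) / n with hk
    have e1 : m + n - 1 = n * k + (m + n - 1) % n := (Nat.div_add_mod _ _).symm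
    have e2 : (m + n - 1) % n < n := Nat.mod_lt _ (by omega)
    have e3 : m ≤ n * k := by omega
    have e4 : n * k ≤ m + n - 1 := Nat.mul_div_le _ _
    have e5 : k < m := by
      by_contra hc
      push Not at hc
      have h1 : n * m ≤ n * k := Nat.mul_le_mul_left n hc
      have h2 : n * m ≤ m + n - 1 := h1.trans e4
      obtain ⟨n', hn'⟩ : ∃ n', n = n' + 2 := ⟨n - 2, by omega⟩
      have h3 : n * m = n' * m + 2 * m := by rw [hn']; ring
      have h4 : n' * 1 ≤ n' * m := Nat.mul_le_mul_left n' (by omega)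
      omega
    have e6 : (f ^ k).natDegree = n * k := by rw [natDegree_pow, mul_comm]
    exact lemA H (g := f ^ k) (by rw [e6]; exact e3) (by rw [e6]; omega) (hB k e5)
  obtain ⟨a, b, hab⟩ := exists_eq_X_add_C_of_natDegree_le_one hn1
  refine ⟨a, b, fun x => ?_⟩
  rw [← hfe x, hab]
  simp

end Main


/-- Closures of subgroups of the one-dimensional affine group. Let p be a prime and G a group of permutations of F_p lying in the affine group AGL₁(p) = {x ↦ ax + b, a ≠ 0} and containing all translations. (1) If G is a proper subgroup of AGL₁(p), then G is 2-closed: a permutation of F_p agreeing on every ordered pair of points with some element of G lies in G. (2) Every permutation of F_p agrees on every ordered pair with some element of AGL₁(p) (the 2-closure of AGL₁(p) is the symmetric group). (3) AGL₁(p) is 3-closed: a permutation agreeing on every ordered triple with some affine map is affine. -/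
theorem result (p : ℕ) [Fact p.Prime] (G : Subgroup (Equiv.Perm (ZMod p))) (hG : G ≤ Cfsg.affineGroup (ZMod p))
    (htrans : ∀ b : ZMod p, ∃ g ∈ G, ∀ x, g x = x + b) :
    (G ≠ Cfsg.affineGroup (ZMod p) → ∀ σ : Equiv.Perm (ZMod p), (∀ t : Fin 2 → ZMod p, ∃ g ∈ G, ∀ i, σ (t i) = g (t i)) → σ ∈ G) ∧
    (∀ σ : Equiv.Perm (ZMod p), (∀ t : Fin 2 → ZMod p, ∃ g ∈ Cfsg.affineGroup (ZMod p), ∀ i, σ (t i) = g (t i))) ∧
    (∀ σ : Equiv.Perm (ZMod p), (∀ t : Fin 3 → ZMod p, ∃ g ∈ Cfsg.affineGroup (ZMod p), ∀ i, σ (t i) = g (t i)) → σ ∈ Cfsg.affineGroup (ZMod p)) := by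
  classical
  have hp : p.Prime := Fact.out
  -- affine maps through two points
  have haff : ∀ a : (ZMod p)ˣ, ∀ b : ZMod p, ∃ g ∈ Cfsg.affineGroup (ZMod p), ∀ x, g x = a * x + b := by
    intro a b
    refine ⟨(Equiv.mulLeft₀ (a : ZMod p) a.ne_zero).trans (Equiv.addRight b), ⟨a, b, fun x => rfl⟩,
      fun x => rfl⟩
  refine ⟨?_, ?_, ?_⟩
  · intro hne σ hσ
    let H : Subgroup (ZMod p)ˣ :=
      { carrier := {a | ∃ g ∈ G, ∀ x, g x = a * x}
        one_mem' := ⟨1, G.one_mem, fun x => by simp⟩
        mul_mem' := by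
          rintro a b ⟨g, hg, hg'⟩ ⟨k, hk, hk'⟩
          refine ⟨g * k, G.mul_mem hg hk, fun x => ?_⟩
          rw [Equiv.Perm.mul_apply, hk', hg', Units.val_mul, mul_assoc]
        inv_mem' := by
          rintro a ⟨g, hg, hg'⟩
          refine ⟨g⁻¹, G.inv_mem hg, fun x => ?_⟩
          apply g.injective
          have e : g (g⁻¹ x) = x := g.apply_symm_apply x
          rw [e, hg', ← mul_assoc, Units.mul_inv, one_mul] }
    have hGmem : ∀ g : Equiv.Perm (ZMod p), g ∈ G ↔ ∃ a ∈ H, ∃ b : ZMod p, ∀ x, g x = a * x + b := by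
      intro g
      constructor
      · intro hg
        obtain ⟨a, b, hab⟩ := hG hg
        obtain ⟨t, ht, ht'⟩ := htrans (-b)
        refine ⟨a, ⟨t * g, G.mul_mem ht hg, fun x => ?_⟩, b, hab⟩
        rw [Equiv.Perm.mul_apply, ht', hab]; ring
      · rintro ⟨a, ⟨k, hk, hk'⟩, b, hb⟩
        obtain ⟨t, ht, ht'⟩ := htrans b
        have : g = t * k := by
          ext x
          rw [Equiv.Perm.mul_apply, ht', hk', hb]
        rw [this]
        exact G.mul_mem ht hk
    have hH : H ≠ ⊤ := by
      intro h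
      apply hne
      apply le_antisymm hG
      intro g hg
      obtain ⟨a, b, hab⟩ := hg
      exact (hGmem g).2 ⟨a, by rw [h]; trivial, b, hab⟩
    have hσH : ∀ x, ∀ h ∈ H, ∃ h' ∈ H, σ (x + (h : ZMod p)) = σ x + ((h' : (ZMod p)ˣ) : ZMod p) := by
      intro x h hh
      obtain ⟨g, hg, hg'⟩ := hσ ![x, x + (h : ZMod p)]
      obtain ⟨a, ha, b, hab⟩ := (hGmem g).1 hg
      have h0 := hg' 0
      have h1 := hg' 1
      simp only [Matrix.cons_val_zero, Matrix.cons_val_one, hab] at h0 h1
      refine ⟨a * h, H.mul_mem ha hh, ?_⟩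
      rw [h1, h0, Units.val_mul]; ring
    obtain ⟨a, b, hab⟩ := affine_of H hH σ.injective hσH
    -- the slope lies in H
    rw [hGmem]
    obtain ⟨h', hh', he⟩ := hσH 0 1 H.one_mem
    refine ⟨h', hh', b, fun x => ?_⟩
    rw [hab, hab] at he
    have : a = h' := by
      rw [Units.val_one] at he
      linear_combination he
    rw [hab, this]
  · intro σ t
    by_cases h : t 0 = t 1
    · obtain ⟨g, hg, hg'⟩ := haff 1 (σ (t 0) - t 0)
      refine ⟨g, hg, fun i => ?_⟩
      have hi : t i = t 0 := by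
        fin_cases i
        · rfl
        · exact h.symm
      rw [hi, hg']; simp
    · have h1 : t 1 - t 0 ≠ 0 := sub_ne_zero.2 (Ne.symm h)
      have h2 : σ (t 1) - σ (t 0) ≠ 0 := sub_ne_zero.2 (fun h' => h (σ.injective h').symm)
      obtain ⟨g, hg, hg'⟩ := haff (Units.mk0 _ (div_ne_zero h2 h1))
        (σ (t 0) - (σ (t 1) - σ (t 0)) / (t 1 - t 0) * t 0)
      refine ⟨g, hg, fun i => ?_⟩
      rw [hg', Units.val_mk0]
      fin_cases i
      · simp
      · simp only [Fin.mk_one]
        field_simp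
        ring
  · intro σ hσ
    have h01 : σ 1 - σ 0 ≠ 0 := by
      intro h
      have := σ.injective (sub_eq_zero.1 h)
      exact one_ne_zero this
    refine ⟨Units.mk0 _ h01, σ 0, fun x => ?_⟩
    obtain ⟨g, ⟨a, b, hab⟩, hg'⟩ := hσ ![0, 1, x]
    have h0 := hg' 0
    have h1 := hg' 1
    have h2 := hg' 2
    simp only [Matrix.cons_val_zero, Matrix.cons_val_one, Matrix.cons_val, hab] at h0 h1 h2
    rw [h2, Units.val_mk0, h1, h0]; ring

end Cfsg.Agent.S3518
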