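import Cfsg.Statements.S3521
import Cfsg.Agent.S0205
import Cfsg.Agent.H71.ExtPrimPerm

set_option autoImplicit false
open Cfsg

namespace Cfsg.Agent.S3521

/-- Let a finite group G that is not solvable act faithfully and primitively on a finite set with p ^ d points (p prime), with a non-trivial abelian normal subgroup acting regularly (affine type) and with non-trivial point stabilizers each acting primitively on every one of its orbits (an insoluble extremely primitive group of affine type). Then p = 2; and if moreover G is not 2-transitive, then a point stabilizer is almost simple (it has a non-abelian simple normal subgroup with trivial centralizer). -/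
theorem result {G : Type*} [Group G] [Finite G] {Ω : Type*} [Fintype Ω] [MulAction G Ω] [FaithfulSMul G Ω] (p d : ℕ) (hp : p.Prime) (hcard : Fintype.card Ω = p ^ d) (hsol : ¬ Group.IsSolvable G)
    (N : Subgroup G) [N.Normal] (hN : N ≠ ⊥) (hNc : IsMulCommutative N) (hNreg : ∀ ω : Ω, MulAction.stabilizer N ω = ⊥)
    (hprim : MulAction.IsPreprimitive G Ω) (hH : ∀ α : Ω, MulAction.stabilizer G α ≠ ⊥) (hep : ∀ (α : Ω) (ω : Ω), MulAction.IsPreprimitive (MulAction.stabilizer G α) (MulAction.orbit (MulAction.stabilizer G α) ω)) (α : Ω) :
    p = 2 ∧ (¬ MulAction.IsMultiplyPretransitive G Ω 2 → ∃ T : Subgroup (MulAction.stabilizer G α), T.Normal ∧ IsSimpleGroup T ∧ ¬ IsMulCommutative T ∧ Subgroup.centralizer (T : Set (MulAction.stabilizer G α)) = ⊥) := by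
  obtain ⟨h1, h2⟩ := Cfsg.Agent.H71.ExtPrim.perm_main (fun K _ _ hK => Cfsg.Agent.S0205.result hK) p d hp
    (by rw [Nat.card_eq_fintype_card, hcard]) hsol N hN hNc hNreg hprim hH hep α
  exact ⟨h1, fun _ => h2⟩

end Cfsg.Agent.S3521
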