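import Cfsg.Statements.S3524
-- import your own Cfsg.Agent.* helpers here

set_option autoImplicit false
open Cfsg

namespace Cfsg.Agent.S3524

/-- A permutation group with a base is closed at one level above the base size. Let G be a group of permutations of a set Ω and suppose some k points α₁, …, α_k are fixed simultaneously only by the identity of G (a base of size k). Then G is (k+1)-closed: a permutation of Ω that agrees on every (k+1)-tuple of points with some element of G belongs to G. -/
theorem result {Ω : Type*} (G : Subgroup (Equiv.Perm Ω)) (k : ℕ) (α : Fin k → Ω)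
    (hbase : ∀ g ∈ G, (∀ i, g (α i) = α i) → g = 1) (σ : Equiv.Perm Ω)
    (hσ : ∀ t : Fin (k + 1) → Ω, ∃ g ∈ G, ∀ i, σ (t i) = g (t i)) : σ ∈ G := by
  classical
  cases isEmpty_or_nonempty Ω with
  | inl h =>
    have : σ = 1 := Equiv.ext fun x => (h.false x).elim
    rw [this]; exact G.one_mem
  | inr h =>
    have key : ∀ x : Ω, ∃ g ∈ G, (∀ i, σ (α i) = g (α i)) ∧ σ x = g x := by
      intro x
      obtain ⟨g, hg, hi⟩ := hσ (Fin.snoc α x)
      refine ⟨g, hg, fun i => ?_, ?_⟩
      · have := hi i.castSucc
        simpa [Fin.snoc_castSucc] using this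
      · have := hi (Fin.last k)
        simpa [Fin.snoc_last] using this
    choose f hf hfa hfx using key
    obtain ⟨x₀⟩ := h
    have hall : ∀ x, f x = f x₀ := by
      intro x
      have h1 := hbase ((f x₀)⁻¹ * f x) (G.mul_mem (G.inv_mem (hf x₀)) (hf x)) (by
        intro i
        rw [Equiv.Perm.mul_apply, ← hfa x i, hfa x₀ i]
        simp)
      exact (inv_mul_eq_one.mp h1).symm
    have : σ = f x₀ := by
      ext x
      rw [hfx x, hall x]
    rw [this]; exact hf x₀

end Cfsg.Agent.S3524
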