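import Cfsg.Statements.S3548
import Cfsg.Agent.H59.Derange2

set_option autoImplicit false
set_option linter.style.haveILetI false
open Cfsg

namespace Cfsg.Agent.S3548

/-- Let G act faithfully and transitively on a finite set with n ≥ 2 points and let D be the subgroup generated by the derangements. Then the index of D in G divides n − 1, and if it equals n − 1 then n is a prime power. -/
theorem result {G Ω : Type*} [Group G] [Finite G] [MulAction G Ω] [FaithfulSMul G Ω] [Finite Ω]
    (htrans : MulAction.IsPretransitive G Ω) (hΩ : 2 ≤ Nat.card Ω) :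
    (Subgroup.closure {g : G | ∀ ω : Ω, g • ω ≠ ω}).index ∣ Nat.card Ω - 1 ∧
    ((Subgroup.closure {g : G | ∀ ω : Ω, g • ω ≠ ω}).index = Nat.card Ω - 1 → IsPrimePow (Nat.card Ω)) := by
  classical
  set D := Subgroup.closure {g : G | ∀ ω : Ω, g • ω ≠ ω} with hD
  have hS : ∀ g : G, (∀ ω : Ω, g • ω ≠ ω) → g ∈ D := fun g hg => Subgroup.subset_closure hg
  haveI : Nonempty Ω := (Nat.card_pos_iff.mp (by omega)).1
  obtain ⟨a⟩ := ‹Nonempty Ω›
  have hdvd : D.index ∣ Nat.card Ω - 1 := by
    have := Cfsg.Agent.H59.index_dvd_card_sub_one htrans D hS a Set.univ trivial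
      (fun _ _ _ _ => trivial)
    rwa [Nat.card_univ] at this
  refine ⟨hdvd, fun heq => ?_⟩
  haveI := htrans
  haveI : Nonempty Ω := ⟨a⟩
  haveI hDn : D.Normal := Cfsg.Agent.H59.closure_derangements_normal G Ω
  obtain ⟨hDt, hone⟩ := Cfsg.Agent.H59.derangement_subgroup htrans D hS
  -- every non-trivial suborbit has length `n - 1`
  have horb : ∀ b : Ω, b ≠ a → Nat.card (MulAction.orbit (MulAction.stabilizer G a) b) =
      Nat.card Ω - 1 ∧ MulAction.orbit (MulAction.stabilizer G a) b = {a}ᶜ := by
    intro b hb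
    have h1 := Cfsg.Agent.H59.index_dvd_suborbit htrans D hS a b hb
    have h2 : MulAction.orbit (MulAction.stabilizer G a) b ⊆ {a}ᶜ := by
      rintro x ⟨⟨k, hk⟩, rfl⟩ hx
      apply hb
      have h' : k • b = a := hx
      rw [MulAction.mem_stabilizer_iff] at hk
      rw [← hk] at h'
      exact smul_left_cancel k h'
    have h3 : ({a}ᶜ : Set Ω).ncard = Nat.card Ω - 1 := by
      rw [Set.ncard_compl, Set.ncard_singleton]
    have h4 : (MulAction.orbit (MulAction.stabilizer G a) b).ncard ≤ ({a}ᶜ : Set Ω).ncard :=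
      Set.ncard_le_ncard h2
    have hpos : 0 < Nat.card (MulAction.orbit (MulAction.stabilizer G a) b) := by
      haveI : Nonempty (MulAction.orbit (MulAction.stabilizer G a) b) :=
        ⟨⟨b, MulAction.mem_orbit_self b⟩⟩
      exact Nat.card_pos
    have h5 := Nat.le_of_dvd hpos h1
    rw [h3] at h4
    rw [← Nat.card_coe_set_eq] at h4
    have h6 : Nat.card (MulAction.orbit (MulAction.stabilizer G a) b) = Nat.card Ω - 1 := by
      omega
    refine ⟨h6, Set.eq_of_subset_of_ncard_le h2 ?_⟩
    rw [h3, ← Nat.card_coe_set_eq, h6]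
  apply Cfsg.Agent.H59.isPrimePow_of_regular_normal D a ?_ hΩ
  · intro b c hb hc
    have h1 := (horb b hb).2
    have h2 : c ∈ MulAction.orbit (MulAction.stabilizer G a) b := by
      rw [h1]; exact hc
    obtain ⟨⟨k, hk⟩, hkc⟩ := h2
    exact ⟨k, hk, hkc⟩
  · rw [eq_bot_iff]
    rintro ⟨d, hd⟩ hda
    rw [Subgroup.mem_bot]
    apply Subtype.ext
    change d = 1
    have hda' : d • a = a := hda
    apply FaithfulSMul.eq_of_smul_eq_smul (α := Ω)
    intro b
    rw [one_smul]
    by_cases hb : b = a
    · rw [hb, hda']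
    -- `G_ab = D_a`
    have h1 : MulAction.stabilizer (MulAction.stabilizer G a) b ≤
        D.subgroupOf (MulAction.stabilizer G a) := by
      intro g hg
      rw [Subgroup.mem_subgroupOf]
      by_contra hcon
      have h4 := hone g hcon
      have h5 : Subsingleton (MulAction.fixedBy Ω (g : G)) := (Nat.card_eq_one_iff_unique.mp h4).1
      have h6 := h5.elim (⟨b, hg⟩ : MulAction.fixedBy Ω (g : G)) ⟨a, g.2⟩
      exact hb (congrArg Subtype.val h6)
    have h2 : (MulAction.stabilizer (MulAction.stabilizer G a) b).index = Nat.card Ω - 1 := by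
      rw [MulAction.index_stabilizer]; exact (horb b hb).1
    have h3 : (D.subgroupOf (MulAction.stabilizer G a)).index = Nat.card Ω - 1 := by
      rw [← heq]; exact Cfsg.Agent.H59.index_eq_relIndex D a
    have h4 : MulAction.stabilizer (MulAction.stabilizer G a) b =
        D.subgroupOf (MulAction.stabilizer G a) := by
      apply Subgroup.eq_of_le_of_card_ge h1
      have c1 := (MulAction.stabilizer (MulAction.stabilizer G a) b).card_mul_index
      have c2 := (D.subgroupOf (MulAction.stabilizer G a)).card_mul_index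
      rw [h2] at c1
      rw [h3, ← c1] at c2
      have hpos : 0 < Nat.card Ω - 1 := by omega
      exact (Nat.eq_of_mul_eq_mul_right hpos c2).le
    have h5 : (⟨d, hda'⟩ : MulAction.stabilizer G a) ∈ D.subgroupOf (MulAction.stabilizer G a) := by
      rw [Subgroup.mem_subgroupOf]; exact hd
    rw [← h4] at h5
    exact h5


end Cfsg.Agent.S3548
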