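import Cfsg.Statements.S3549
import Cfsg.Agent.H59.Derange2

set_option autoImplicit false
set_option linter.style.haveILetI false
open Cfsg

namespace Cfsg.Agent.S3549

open scoped Pointwise

/-- Let G act faithfully, transitively but imprimitively on a finite set with n points, and let D be the subgroup generated by the derangements. Then the index of D in G is at most √n − 1. -/
theorem result {G Ω : Type*} [Group G] [Finite G] [MulAction G Ω] [FaithfulSMul G Ω] [Finite Ω]
    (htrans : MulAction.IsPretransitive G Ω) (himp : ¬ MulAction.IsPreprimitive G Ω) :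
    ((Subgroup.closure {g : G | ∀ ω : Ω, g • ω ≠ ω}).index : ℝ) ≤ Real.sqrt (Nat.card Ω) - 1 := by
  classical
  set D := Subgroup.closure {g : G | ∀ ω : Ω, g • ω ≠ ω} with hD
  have hS : ∀ g : G, (∀ ω : Ω, g • ω ≠ ω) → g ∈ D := fun g hg => Subgroup.subset_closure hg
  haveI := htrans
  obtain ⟨B, hB, hBt⟩ : ∃ B : Set Ω, MulAction.IsBlock G B ∧ ¬ MulAction.IsTrivialBlock B := by
    by_contra hcon
    push Not at hcon
    exact himp ⟨fun {B} hB => hcon B hB⟩
  rw [MulAction.IsTrivialBlock, not_or] at hBt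
  obtain ⟨hB1, hB2⟩ := hBt
  rw [Set.not_subsingleton_iff] at hB1
  obtain ⟨a, ha⟩ := hB1.nonempty
  haveI : Nonempty Ω := ⟨a⟩
  have hinvB : ∀ g : G, g • a = a → ∀ b ∈ B, g • b ∈ B := by
    intro g hga b hb
    have : g • B = B := hB.smul_eq_of_mem ha (by rw [hga]; exact ha)
    rw [← this]; exact Set.smul_mem_smul_set hb
  have h1 := Cfsg.Agent.H59.index_dvd_card_sub_one htrans D hS a B ha hinvB
  have h2 : D.index ∣ Nat.card Ω - 1 := by
    have := Cfsg.Agent.H59.index_dvd_card_sub_one htrans D hS a Set.univ trivial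
      (fun _ _ _ _ => trivial)
    rwa [Nat.card_univ] at this
  have h3 := hB.ncard_block_mul_ncard_orbit_eq ⟨a, ha⟩
  set m := B.ncard with hm
  set k := (MulAction.orbit G B).ncard with hk
  rw [Nat.card_coe_set_eq, ← hm] at h1
  have hm2 : 2 ≤ m := by
    have := Set.one_lt_ncard_iff_nontrivial.mpr hB1
    omega
  have hk2 : 2 ≤ k := by
    by_contra hcon
    have hk0 : k ≠ 0 := by
      intro h0; rw [h0, mul_zero] at h3
      have : 0 < Nat.card Ω := Nat.card_pos
      omega
    have hk1 : k = 1 := by omega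
    rw [hk1, mul_one] at h3
    apply hB2
    apply Set.eq_of_subset_of_ncard_le (Set.subset_univ _)
    rw [Set.ncard_univ, ← h3]
  rw [← h3] at h2 ⊢
  -- `e ∣ k - 1`
  have h4 : D.index ∣ k - 1 := by
    have h5 : m * k - 1 = m * (k - 1) + (m - 1) := by
      obtain ⟨k', hk'⟩ : ∃ k', k = k' + 1 := ⟨k - 1, by omega⟩
      obtain ⟨m', hm'⟩ : ∃ m', m = m' + 1 := ⟨m - 1, by omega⟩
      rw [hk', hm']
      simp only [Nat.add_sub_cancel]
      have : (m' + 1) * (k' + 1) = (m' + 1) * k' + m' + 1 := by ring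
      omega
    rw [h5] at h2
    have h6 : D.index ∣ m * (k - 1) := (Nat.dvd_add_left h1).mp h2
    have h7 : Nat.Coprime D.index m := by
      have : Nat.Coprime (m - 1) m := by
        have h8 : Nat.Coprime m (m - 1) := by
          obtain ⟨m', hm'⟩ : ∃ m', m = m' + 1 := ⟨m - 1, by omega⟩
          rw [hm', Nat.add_sub_cancel]
          simp
        exact h8.symm
      exact Nat.Coprime.coprime_dvd_left h1 this
    exact h7.dvd_of_dvd_mul_left h6
  have h5 := Nat.le_of_dvd (by omega) h1
  have h6 := Nat.le_of_dvd (by omega) h4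
  have h7 : (D.index + 1) ^ 2 ≤ m * k := by
    rw [sq]; exact Nat.mul_le_mul (by omega) (by omega)
  have h8 : ((D.index : ℝ) + 1) ≤ Real.sqrt ((m * k : ℕ) : ℝ) := by
    apply Real.le_sqrt_of_sq_le
    exact_mod_cast h7
  linarith


end Cfsg.Agent.S3549
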