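import Cfsg.Statements.S3560


set_option autoImplicit false
set_option linter.style.haveILetI false
open Cfsg

namespace Cfsg.Agent.S3560

open scoped Pointwise


section Prod

variable {n m : ℕ} {ι : Type*} [Fintype ι] (c : Fin n ≃ (ι → Fin m))

/-- The permutations preserving, for all pairs of points, the number of coordinates where they agree. -/
def isoGroup : Subgroup (Equiv.Perm (Fin n)) where
  carrier := {σ | ∀ x y, Nat.card {i // c (σ x) i = c (σ y) i} = Nat.card {i // c x i = c y i}}
  one_mem' := fun x y => rfl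
  mul_mem' := fun {σ τ} hσ hτ x y => (hσ (τ x) (τ y)).trans (hτ x y)
  inv_mem' := fun {σ} hσ x y => by
    have h := hσ (σ⁻¹ x) (σ⁻¹ y)
    have e1 : ∀ z, σ (σ⁻¹ z) = z := fun z => σ.apply_symm_apply z
    rw [e1, e1] at h
    exact h.symm

theorem mem_isoGroup {σ : Equiv.Perm (Fin n)} : σ ∈ isoGroup c ↔
    ∀ x y, Nat.card {i // c (σ x) i = c (σ y) i} = Nat.card {i // c x i = c y i} := Iff.rfl

/-- The permutation of the points given by `f ↦ (i ↦ τ i (f (π i)))`. -/
def wr (π : Equiv.Perm ι) (τ : ι → Equiv.Perm (Fin m)) : Equiv.Perm (Fin n) where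
  toFun x := c.symm (fun i => τ i (c x (π i)))
  invFun x := c.symm (fun i => (τ (π.symm i)).symm (c x (π.symm i)))
  left_inv x := by
    apply c.injective
    funext i
    simp
  right_inv x := by
    apply c.injective
    funext i
    simp

theorem wr_apply (π : Equiv.Perm ι) (τ : ι → Equiv.Perm (Fin m)) (x : Fin n) (i : ι) :
    c (wr c π τ x) i = τ i (c x (π i)) := by
  simp [wr]

theorem wr_mem (π : Equiv.Perm ι) (τ : ι → Equiv.Perm (Fin m)) : wr c π τ ∈ isoGroup c := by
  intro x y
  refine Nat.card_congr ⟨fun i => ⟨π i, ?_⟩, fun i => ⟨π.symm i, ?_⟩, ?_, ?_⟩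
  · have := i.2
    rw [wr_apply, wr_apply] at this
    exact (τ i).injective this
  · rw [wr_apply, wr_apply, Equiv.apply_symm_apply, i.2]
  · intro i; exact Subtype.ext (by simp)
  · intro i; exact Subtype.ext (by simp)

theorem exists_perm_two {a b a' b' : Fin m} (h : a ≠ b) (h' : a' ≠ b') :
    ∃ τ : Equiv.Perm (Fin m), τ a = a' ∧ τ b = b' := by
  classical
  have h1 : Equiv.swap a a' b ≠ a' := by
    intro h2
    apply h
    have : Equiv.swap a a' b = Equiv.swap a a' a := by rw [h2, Equiv.swap_apply_left]
    exact ((Equiv.swap a a').injective this).symm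
  refine ⟨Equiv.swap (Equiv.swap a a' b) b' * Equiv.swap a a', ?_, ?_⟩
  · rw [Equiv.Perm.mul_apply, Equiv.swap_apply_left]
    exact Equiv.swap_apply_of_ne_of_ne h1.symm h'
  · rw [Equiv.Perm.mul_apply, Equiv.swap_apply_left]

open MulAction in
theorem block_step [DecidableEq ι] {B : Set (Fin n)} (hB : IsBlock (isoGroup c) B)
    (hm : 3 ≤ m) {x y : Fin n} (hx : x ∈ B) (hy : y ∈ B) (hxy : x ≠ y) :
    ∀ w ∈ B, ∀ (k : ι) (v : Fin m), c.symm (Function.update (c w) k v) ∈ B := by
  have hBm := isBlock_iff_smul_eq_of_mem.1 hB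
  -- y and z in B differing only at i
  obtain ⟨i, hi⟩ : ∃ i, c x i ≠ c y i := by
    by_contra hcon
    push Not at hcon
    exact hxy (c.injective (funext hcon))
  obtain ⟨d, hd1, hd2⟩ : ∃ d : Fin m, d ≠ c x i ∧ d ≠ c y i := by
    have hne : ((Finset.univ : Finset (Fin m)) \ {c x i, c y i}).Nonempty := by
      rw [← Finset.card_pos]
      have h1 := Finset.le_card_sdiff ({c x i, c y i} : Finset (Fin m)) Finset.univ
      have h2 : ({c x i, c y i} : Finset (Fin m)).card ≤ 2 := Finset.card_le_two
      rw [Finset.card_univ, Fintype.card_fin] at h1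
      omega
    obtain ⟨d, hd⟩ := hne
    rw [Finset.mem_sdiff] at hd
    have h3 := hd.2
    rw [Finset.mem_insert, Finset.mem_singleton, not_or] at h3
    exact ⟨d, h3.1, h3.2⟩
  set z : Fin n := c.symm (Function.update (c y) i d) with hz
  have hcz : c z = Function.update (c y) i d := by rw [hz, Equiv.apply_symm_apply]
  have hzB : z ∈ B := by
    let g : isoGroup c := ⟨wr c 1 (Function.update (fun _ => 1) i (Equiv.swap (c y i) d)), wr_mem c _ _⟩
    have hgx : g • x = x := by
      apply c.injective
      funext l
      change c (wr c 1 _ x) l = _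
      rw [wr_apply, Equiv.Perm.one_apply]
      by_cases hl : l = i
      · subst hl
        rw [Function.update_self]
        exact Equiv.swap_apply_of_ne_of_ne hi hd1.symm
      · rw [Function.update_of_ne hl, Equiv.Perm.one_apply]
    have hgy : g • y = z := by
      apply c.injective
      funext l
      change c (wr c 1 _ y) l = _
      rw [wr_apply, Equiv.Perm.one_apply, hcz]
      by_cases hl : l = i
      · subst hl
        rw [Function.update_self, Function.update_self, Equiv.swap_apply_left]
      · rw [Function.update_of_ne hl, Function.update_of_ne hl, Equiv.Perm.one_apply]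
    have h1 : g • B = B := hBm hx (by rw [hgx]; exact hx)
    rw [← h1, ← hgy]
    exact Set.smul_mem_smul_set hy
  intro w hw k v
  by_cases hv : v = c w k
  · rw [hv, Function.update_eq_self, Equiv.symm_apply_apply]; exact hw
  -- g maps y to w and z to w'
  let π : Equiv.Perm ι := Equiv.swap i k
  have hπk : π k = i := Equiv.swap_apply_right i k
  obtain ⟨τk, hτ1, hτ2⟩ := exists_perm_two (a := c y i) (b := d) (a' := c w k) (b' := v) hd2.symm
    (fun h => hv h.symm)
  let τ : ι → Equiv.Perm (Fin m) := fun l => if l = k then τk else Equiv.swap (c y (π l)) (c w l)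
  let g : isoGroup c := ⟨wr c π τ, wr_mem c _ _⟩
  have hgy : g • y = w := by
    apply c.injective
    funext l
    change c (wr c π τ y) l = _
    rw [wr_apply]
    by_cases hl : l = k
    · subst hl
      simp only [τ, if_pos, hπk, hτ1]
    · simp only [τ, if_neg hl, Equiv.swap_apply_left]
  have hgz : g • z = c.symm (Function.update (c w) k v) := by
    apply c.injective
    funext l
    change c (wr c π τ z) l = _
    rw [wr_apply, hcz, Equiv.apply_symm_apply]
    by_cases hl : l = k
    · subst hl
      simp only [τ, if_pos, hπk, Function.update_self, hτ2]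
    · have hπl : π l ≠ i := by
        intro h
        apply hl
        exact π.injective (h.trans hπk.symm)
      rw [Function.update_of_ne hl, Function.update_of_ne hπl]
      simp only [τ, if_neg hl, Equiv.swap_apply_left]
  have h1 : g • B = B := hBm hy (by rw [hgy]; exact hw)
  rw [← h1, ← hgz]
  exact Set.smul_mem_smul_set hzB

open MulAction in
theorem iso_primitive (hm : 3 ≤ m) : IsPreprimitive (isoGroup c) (Fin n) := by
  classical
  have htr : IsPretransitive (isoGroup c) (Fin n) := by
    constructor
    intro x y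
    refine ⟨⟨wr c 1 (fun i => Equiv.swap (c x i) (c y i)), wr_mem c _ _⟩, ?_⟩
    apply c.injective
    funext l
    change c (wr c 1 _ x) l = _
    rw [wr_apply, Equiv.Perm.one_apply, Equiv.swap_apply_left]
  refine { toIsPretransitive := htr, isTrivialBlock_of_isBlock := ?_ }
  intro B hB
  by_cases hs : B.Subsingleton
  · exact Or.inl hs
  right
  rw [Set.not_subsingleton_iff] at hs
  obtain ⟨x, hx, y, hy, hxy⟩ := hs
  have hstep := block_step c hB hm hx hy hxy
  apply Set.eq_univ_of_forall
  intro w
  have key : ∀ s : Finset ι, c.symm (fun i => if i ∈ s then c w i else c x i) ∈ B := by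
    intro s
    induction s using Finset.induction_on with
    | empty => simpa using hx
    | insert k s hk ih =>
      have h1 := hstep _ ih k (c w k)
      rw [Equiv.apply_symm_apply] at h1
      have h2 : Function.update (fun i => if i ∈ s then c w i else c x i) k (c w k)
          = fun i => if i ∈ insert k s then c w i else c x i := by
        funext l
        by_cases hl : l = k
        · subst hl
          rw [Function.update_self, if_pos (Finset.mem_insert_self _ _)]
        · rw [Function.update_of_ne hl]
          simp only [Finset.mem_insert, hl, false_or]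
      rwa [h2] at h1
  have := key Finset.univ
  simpa using this

open MulAction in
theorem iso_not_two (hm : 3 ≤ m) (hι : 2 ≤ Fintype.card ι) :
    ¬ IsMultiplyPretransitive (isoGroup c) (Fin n) 2 := by
  classical
  intro h
  rw [is_two_pretransitive_iff] at h
  obtain ⟨i, j, hij⟩ := Fintype.exists_pair_of_one_lt_card (show 1 < Fintype.card ι by omega)
  let a : Fin m := ⟨0, by omega⟩
  let b : Fin m := ⟨1, by omega⟩
  have hab : a ≠ b := by simp [a, b]
  set x : Fin n := c.symm (fun _ => a) with hx
  set y : Fin n := c.symm (fun _ => b) with hy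
  set z : Fin n := c.symm (Function.update (fun _ => a) i b) with hz
  have hxy : x ≠ y := by
    intro h
    have := congrFun (c.symm.injective h) i
    exact hab this
  have hxz : x ≠ z := by
    intro h
    have := congrFun (c.symm.injective h) i
    rw [Function.update_self] at this
    exact hab this
  obtain ⟨g, hg1, hg2⟩ := h hxy hxz
  have h1 := g.2 x y
  have e1 : (g : Equiv.Perm (Fin n)) x = x := hg1
  have e2 : (g : Equiv.Perm (Fin n)) y = z := hg2
  rw [e1, e2] at h1
  have h2 : Nat.card {l // c x l = c y l} = 0 := by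
    rw [Nat.card_eq_zero]
    left
    constructor
    rintro ⟨l, hl⟩
    rw [hx, hy, Equiv.apply_symm_apply, Equiv.apply_symm_apply] at hl
    exact hab hl
  have h3 : 0 < Nat.card {l // c x l = c z l} := by
    have : Nonempty {l // c x l = c z l} := by
      refine ⟨j, ?_⟩
      rw [hx, hz, Equiv.apply_symm_apply, Equiv.apply_symm_apply, Function.update_of_ne hij.symm]
    exact Nat.card_pos
  omega

end Prod


/-- Let K be a finite group isomorphic to a direct product of r ≥ 2 groups all of the same order m ≥ 3. Then K is not a B-group: there is a primitive but not doubly transitive permutation group (on some finite set) containing a regular subgroup isomorphic to K. -/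
theorem result {K : Type*} [Group K] [Finite K] {ι : Type*} [Fintype ι] (F : ι → Type*) [∀ i, Group (F i)]
    (hr : 2 ≤ Fintype.card ι) (m : ℕ) (hm : 3 ≤ m) (hcard : ∀ i, Nat.card (F i) = m) (e : K ≃* (∀ i, F i)) :
    ∃ (n : ℕ) (G R : Subgroup (Equiv.Perm (Fin n))), R ≤ G ∧ Nonempty (↥R ≃* K) ∧
      MulAction.IsPretransitive ↥R (Fin n) ∧ (∀ a : Fin n, MulAction.stabilizer ↥R a = ⊥) ∧
      MulAction.IsPreprimitive ↥G (Fin n) ∧ ¬ MulAction.IsMultiplyPretransitive ↥G (Fin n) 2 := by
  classical
  have hfin : ∀ i, Finite (F i) := fun i => Nat.finite_of_card_ne_zero (by rw [hcard i]; omega)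
  have hε : ∀ i, Nonempty (F i ≃ Fin m) := fun i => by
    have := hfin i
    have h := Finite.equivFin (F i)
    rw [hcard i] at h
    exact ⟨h⟩
  let ε : ∀ i, F i ≃ Fin m := fun i => (hε i).some
  let ψ : K ≃ Fin (Nat.card K) := Finite.equivFin K
  let c : Fin (Nat.card K) ≃ (ι → Fin m) := ψ.symm.trans (e.toEquiv.trans (Equiv.piCongrRight ε))
  have hc : ∀ x i, c x i = ε i (e (ψ.symm x) i) := fun x i => rfl
  let ρ : K →* Equiv.Perm (Fin (Nat.card K)) :=
    (ψ.permCongrHom.toMonoidHom).comp (MulAction.toPermHom K K)
  have hρ : ∀ k x, ρ k x = ψ (k * ψ.symm x) := fun k x => rfl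
  have hρinj : Function.Injective ρ := by
    intro k k' h
    have h1 := congrArg (fun σ : Equiv.Perm (Fin (Nat.card K)) => σ (ψ 1)) h
    simp only [hρ, Equiv.symm_apply_apply, mul_one] at h1
    exact ψ.injective h1
  refine ⟨Nat.card K, isoGroup c, ρ.range, ?_, ⟨(MonoidHom.ofInjective hρinj).symm⟩, ?_, ?_,
    iso_primitive c hm, iso_not_two c hm hr⟩
  · rintro _ ⟨k, rfl⟩ x y
    refine Nat.card_congr (Equiv.subtypeEquivRight fun i => ?_)
    rw [hc, hc, hc, hc, hρ, hρ, Equiv.symm_apply_apply, Equiv.symm_apply_apply, map_mul, map_mul,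
      Pi.mul_apply, Pi.mul_apply]
    rw [(ε i).injective.eq_iff, (ε i).injective.eq_iff, mul_right_inj]
  · constructor
    intro x y
    refine ⟨⟨ρ (ψ.symm y * (ψ.symm x)⁻¹), _, rfl⟩, ?_⟩
    change ρ (ψ.symm y * (ψ.symm x)⁻¹) x = y
    rw [hρ]; simp
  · intro a
    rw [eq_bot_iff]
    rintro ⟨_, k, rfl⟩ hk
    rw [MulAction.mem_stabilizer_iff] at hk
    have h1 : ρ k a = a := hk
    rw [hρ] at h1
    have h2 : k * ψ.symm a = ψ.symm a := by
      apply ψ.injective
      rw [h1, Equiv.apply_symm_apply]
    have h3 : k = 1 := mul_eq_right.1 h2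
    rw [Subgroup.mem_bot]
    exact Subtype.ext (by change ρ k = 1; rw [h3, map_one])

end Cfsg.Agent.S3560
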