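import Cfsg.Statements.S3571
import Cfsg.Agent.H95.DerC

set_option autoImplicit false
open Cfsg

namespace Cfsg.Agent.S3571

open Cfsg.Agent.H95

/-- Let G be an almost simple group whose socle is an alternating group of degree m ≥ 5 (G has a normal subgroup T isomorphic to that alternating group with trivial centralizer), acting faithfully and primitively on a finite set Ω with at least two points, and let r be the largest prime divisor of the number of points. Then G contains an element of order r fixing no point. -/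
theorem result {G Ω : Type*} [Group G] [Finite G] [MulAction G Ω] [FaithfulSMul G Ω] [Finite Ω]
    (T : Subgroup G) (hT : T.Normal) (hTc : Subgroup.centralizer (T : Set G) = ⊥) (m : ℕ) (hm : 5 ≤ m)
    (eT : ↥T ≃* ↥(alternatingGroup (Fin m))) (hprim : MulAction.IsPreprimitive G Ω) (hΩ : 2 ≤ Nat.card Ω)
    (r : ℕ) (hr : r.Prime) (hrd : r ∣ Nat.card Ω) (hmax : ∀ s : ℕ, s.Prime → s ∣ Nat.card Ω → s ≤ r) :
    ∃ g : G, orderOf g = r ∧ ∀ ω : Ω, g • ω ≠ ω := by
  have hnt : Nontrivial Ω := Finite.one_lt_card_iff_nontrivial.1 (by omega)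
  obtain ⟨ω₀⟩ : Nonempty Ω := inferInstance
  -- `T` is not trivial
  have hTne : T ≠ ⊥ := by
    rintro rfl
    have h1 : Nat.card (⊥ : Subgroup G) = Nat.card (alternatingGroup (Fin m)) := Nat.card_congr eT.toEquiv
    have h2 := DerB.card_alt (α := Fin m) (by simp; omega)
    rw [← h1, Subgroup.card_bot, Fintype.card_fin] at h2
    have h3 : Nat.factorial 5 ≤ m.factorial := Nat.factorial_le hm
    have h4 : Nat.factorial 5 = 120 := by decide
    omega
  -- `T` is transitive
  have hfix : MulAction.fixedPoints T Ω ≠ Set.univ := by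
    intro h
    apply hTne
    rw [eq_bot_iff]
    intro t ht
    rw [Subgroup.mem_bot]
    apply FaithfulSMul.eq_of_smul_eq_smul (α := Ω)
    intro ω
    have h1 : ω ∈ MulAction.fixedPoints T Ω := by rw [h]; trivial
    rw [one_smul]
    exact h1 ⟨t, ht⟩
  have hTt : MulAction.IsPretransitive T Ω := MulAction.IsQuasiPreprimitive.isPretransitive_of_normal hfix
  have hGt : MulAction.IsPretransitive G Ω := hprim.toIsPretransitive
  by_cases h6 : m = 6
  · subst h6
    let K : Subgroup (alternatingGroup (Fin 6)) := (MulAction.stabilizer T ω₀).map eT.toMonoidHom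
    have hKi : K.index = Nat.card Ω := by
      have h1 : K.index = (MulAction.stabilizer T ω₀).index := Subgroup.index_map_equiv _ eT
      rw [h1, MulAction.index_stabilizer_of_transitive]
    have hK : K ≠ ⊤ := by
      intro h
      rw [h, Subgroup.index_top] at hKi
      omega
    obtain ⟨g, hgo, hg⟩ := DerC.core6 K hK hr (by rwa [hKi]) (fun s hs hsd => hmax s hs (by rwa [← hKi]))
    refine ⟨(eT.symm g : T), ?_, ?_⟩
    · rw [Subgroup.orderOf_coe, MulEquiv.orderOf_eq, hgo]
    · intro ω hω
      obtain ⟨x, hx⟩ := MulAction.exists_smul_eq T ω ω₀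
      apply hg (eT x)
      refine ⟨x * eT.symm g * x⁻¹, ?_, ?_⟩
      · show x * eT.symm g * x⁻¹ ∈ MulAction.stabilizer T ω₀
        rw [MulAction.mem_stabilizer_iff, ← hx, smul_smul, inv_mul_cancel_right, mul_smul]
        congr 1
      · simp
  · obtain ⟨φ, hφ, hφT⟩ := DerC.exists_embed T hT hTc m hm h6 eT
    have hA : alternatingGroup (Fin m) ≤ φ.range := by
      intro a ha
      refine ⟨(eT.symm ⟨a, ha⟩ : T), ?_⟩
      rw [hφT]; simp
    set H := MulAction.stabilizer G ω₀ with hH
    have hcoat : IsCoatom H := by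
      rw [hH]
      exact MulAction.IsPreprimitive.isCoatom_stabilizer_of_isPreprimitive (G := G) ω₀
    have hHi : H.index = Nat.card Ω := by
      rw [hH, MulAction.index_stabilizer_of_transitive]
    have hAH : ¬ alternatingGroup (Fin m) ≤ H.map φ := by
      intro h
      have hTH : T ≤ H := by
        intro t ht
        have h1 : φ t ∈ alternatingGroup (Fin m) := by
          have := hφT ⟨t, ht⟩
          show φ t ∈ _
          rw [show φ t = (eT ⟨t, ht⟩ : Equiv.Perm (Fin m)) from this]
          exact (eT ⟨t, ht⟩).2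
        obtain ⟨k, hk, hkt⟩ := h h1
        rwa [← hφ hkt]
      obtain ⟨ω, hω⟩ := exists_ne ω₀
      obtain ⟨t, ht⟩ := MulAction.exists_smul_eq T ω₀ ω
      apply hω
      rw [← ht]
      exact hTH t.2
    obtain ⟨g, hgo, hg⟩ := DerB.core (by simpa using hm) φ hφ hA H hcoat hAH hr (by rwa [hHi])
      (fun s hs hsd => hmax s hs (by rwa [← hHi]))
    refine ⟨g, hgo, ?_⟩
    intro ω hω
    obtain ⟨x, hx⟩ := MulAction.exists_smul_eq G ω ω₀
    apply hg x
    rw [hH, MulAction.mem_stabilizer_iff, ← hx, smul_smul, inv_mul_cancel_right, mul_smul, hω]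

end Cfsg.Agent.S3571
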