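import Cfsg.Statements.S3572
import Cfsg.Agent.H93.DB.Main

set_option autoImplicit false
open Cfsg

namespace Cfsg.Agent.S3572

open DihedralGroup Pointwise in
theorem ps_of_regular {G Ω : Type*} [Group G] [Finite G] [MulAction G Ω] [Finite Ω]
    (hprim : MulAction.IsPreprimitive G Ω) (D : Subgroup G) (m : ℕ) [NeZero m] (e : ↥D ≃* DihedralGroup m)
    (hDt : MulAction.IsPretransitive ↥D Ω) (hDs : ∀ a : Ω, MulAction.stabilizer ↥D a = ⊥) (ω₀ : Ω) :
    Cfsg.Agent.H93.DB.PS (fun x y : DihedralGroup m => ∃ g : G, g • ω₀ = ω₀ ∧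
      g • (((e.symm x : ↥D) : G) • ω₀) = ((e.symm y : ↥D) : G) • ω₀) := by
  classical
  -- the bijection
  set φ : DihedralGroup m → Ω := fun d => ((e.symm d : ↥D) : G) • ω₀ with hφ
  have hφinj : Function.Injective φ := by
    intro x y hxy
    have h1 : (e.symm y)⁻¹ * e.symm x ∈ MulAction.stabilizer ↥D ω₀ := by
      rw [MulAction.mem_stabilizer_iff, mul_smul, inv_smul_eq_iff]
      exact hxy
    rw [hDs, Subgroup.mem_bot, inv_mul_eq_one] at h1
    exact (e.symm.injective h1).symm
  have hφsurj : Function.Surjective φ := by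
    intro a
    obtain ⟨d, hd⟩ := hDt.exists_smul_eq ω₀ a
    refine ⟨e d, ?_⟩
    simp only [hφ, MulEquiv.symm_apply_apply]
    exact hd
  have hφmul : ∀ x y, φ (x * y) = ((e.symm x : ↥D) : G) • φ y := by
    intro x y
    simp only [hφ, map_mul, Subgroup.coe_mul, mul_smul]
  have hφ1 : φ 1 = ω₀ := by simp [hφ]
  have hφinv : ∀ x y, ((e.symm x : ↥D) : G)⁻¹ • φ y = φ (x⁻¹ * y) := by
    intro x y
    rw [inv_smul_eq_iff, ← hφmul, mul_inv_cancel_left]
  have hφx : ∀ x, ((e.symm x : ↥D) : G) • ω₀ = φ x := fun x => rfl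
  -- conjugation of stabilizer elements
  have hconj : ∀ (g : G) (k k' u u' : DihedralGroup m), g • φ k = φ k' → g • φ u = φ u' →
      ∃ h : G, h • ω₀ = ω₀ ∧ h • φ (k⁻¹ * u) = φ (k'⁻¹ * u') := by
    intro g k k' u u' h1 h2
    refine ⟨((e.symm k' : ↥D) : G)⁻¹ * g * ((e.symm k : ↥D) : G), ?_, ?_⟩
    · rw [mul_smul, mul_smul, hφx, h1, hφinv, inv_mul_cancel, hφ1]
    · rw [mul_smul, mul_smul, ← hφmul, mul_inv_cancel_left, h2, hφinv]
  refine { equiv := ⟨?_, ?_, ?_⟩, one := ?_, inv := ?_, mul := ?_, prim := ?_ }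
  · intro x
    exact ⟨1, one_smul _ _, one_smul _ _⟩
  · rintro x y ⟨g, h1, h2⟩
    refine ⟨g⁻¹, by rw [inv_smul_eq_iff, h1], by rw [inv_smul_eq_iff, h2]⟩
  · rintro x y z ⟨g, h1, h2⟩ ⟨g', h1', h2'⟩
    refine ⟨g' * g, by rw [mul_smul, h1, h1'], by rw [mul_smul, h2, h2']⟩
  · rintro x ⟨g, h1, h2⟩
    apply hφinj
    rw [hφ1]
    have h3 : g • φ 1 = φ x := h2
    rw [hφ1, h1] at h3
    exact h3.symm
  · rintro x y ⟨g, h1, h2⟩
    obtain ⟨h, h3, h4⟩ := hconj g x y 1 1 h2 (by rw [hφ1]; exact h1)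
    rw [mul_one, mul_one] at h4
    exact ⟨h, h3, h4⟩
  · rintro F H hF hH x x' ⟨g, h1, h2⟩
    -- the permutation induced by `g`
    have hbij : ∀ y, ∃ y', g • φ y = φ y' := fun y => by
      obtain ⟨y', hy'⟩ := hφsurj (g • φ y)
      exact ⟨y', hy'.symm⟩
    choose σ hσ using hbij
    have hσinj : Function.Injective σ := by
      intro a b hab
      apply hφinj
      have h3 : g • φ a = g • φ b := by rw [hσ, hσ, hab]
      exact MulAction.injective g h3
    have hσbij : Function.Bijective σ := Finite.injective_iff_bijective.mp hσinj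
    unfold Cfsg.Agent.H93.DB.conv
    rw [← (Equiv.ofBijective σ hσbij).sum_comp (fun y => F y * H (y⁻¹ * x'))]
    refine Finset.sum_congr rfl (fun y _ => ?_)
    simp only [Equiv.ofBijective_apply]
    have h3 : F y = F (σ y) := hF y (σ y) ⟨g, h1, hσ y⟩
    have h4 : H (y⁻¹ * x) = H ((σ y)⁻¹ * x') := by
      obtain ⟨h, h5, h6⟩ := hconj g y (σ y) x x' (hσ y) h2
      exact hH _ _ ⟨h, h5, h6⟩
    rw [h3, h4]
  · intro K hK
    have hblock : MulAction.IsBlock G (φ '' (K : Set (DihedralGroup m))) := by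
      rw [MulAction.isBlock_iff_smul_eq_of_mem]
      rintro g _ ⟨k, hk, rfl⟩ ⟨k', hk', hkk'⟩
      have hsub : g • (φ '' (K : Set (DihedralGroup m))) ⊆ φ '' (K : Set (DihedralGroup m)) := by
        rintro _ ⟨_, ⟨u, hu, rfl⟩, rfl⟩
        obtain ⟨u', hu'⟩ := hφsurj (g • φ u)
        obtain ⟨h, h5, h6⟩ := hconj g k k' u u' hkk'.symm hu'.symm
        have h7 : k'⁻¹ * u' ∈ K := hK _ _ ⟨h, h5, h6⟩ (mul_mem (inv_mem hk) hu)
        refine ⟨u', ?_, hu'⟩
        have := mul_mem hk' h7
        simpa using this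
      apply Set.Finite.eq_of_subset_of_encard_le' (Set.toFinite _) hsub
      exact le_of_eq (Set.encard_smul_set g _).symm
    rcases hprim.isTrivialBlock_of_isBlock hblock with h1 | h1
    · left
      rw [eq_bot_iff]
      intro k hk
      rw [Subgroup.mem_bot]
      exact hφinj (h1 ⟨k, hk, rfl⟩ ⟨1, one_mem _, rfl⟩)
    · right
      rw [eq_top_iff]
      intro k _
      have : φ k ∈ φ '' (K : Set (DihedralGroup m)) := by rw [h1]; trivial
      obtain ⟨k', hk', h2⟩ := this
      rwa [← hφinj h2]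

/-- A finite primitive permutation group containing a dihedral subgroup that acts regularly (transitively with trivial point stabilizers) is doubly transitive. -/
theorem result {G Ω : Type*} [Group G] [Finite G] [MulAction G Ω] [FaithfulSMul G Ω] [Finite Ω]
    (hprim : MulAction.IsPreprimitive G Ω) (D : Subgroup G) (m : ℕ) (hD : Nonempty (↥D ≃* DihedralGroup m))
    (hDreg : MulAction.IsPretransitive ↥D Ω ∧ ∀ a : Ω, MulAction.stabilizer ↥D a = ⊥) :
    MulAction.IsMultiplyPretransitive G Ω 2 := by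

  classical
  obtain ⟨e⟩ := hD
  obtain ⟨hDt, hDs⟩ := hDreg
  have hm0 : m ≠ 0 := by
    rintro rfl
    have : Finite (DihedralGroup 0) := Finite.of_equiv _ e.toEquiv
    exact not_finite (DihedralGroup 0)
  have : NeZero m := ⟨hm0⟩
  rw [MulAction.is_two_pretransitive_iff]
  intro a b c d hab hcd
  -- the statement about the stabilizer of `c`
  have hps := ps_of_regular hprim D m e hDt hDs c
  have hpt : MulAction.IsPretransitive G Ω := hprim.toIsPretransitive
  obtain ⟨g, hg⟩ := hpt.exists_smul_eq a c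
  have hgb : g • b ≠ c := by
    intro h
    apply hab
    have h' : g • a = g • b := by rw [hg, h]
    exact MulAction.injective g h'
  obtain ⟨x, hx⟩ := hDt.exists_smul_eq c (g • b)
  obtain ⟨y, hy⟩ := hDt.exists_smul_eq c d
  have hx1 : e x ≠ 1 := by
    intro h
    have : x = 1 := e.injective (by rw [h, map_one])
    rw [this, one_smul] at hx
    exact hgb hx.symm
  have hy1 : e y ≠ 1 := by
    intro h
    have : y = 1 := e.injective (by rw [h, map_one])
    rw [this, one_smul] at hy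
    exact hcd hy
  have key : ∃ h : G, h • c = c ∧ h • (g • b) = d := by
    rcases Nat.lt_or_ge m 2 with hm | hm
    · -- order two
      have hm1 : m = 1 := by omega
      subst hm1
      have h2 : e x = e y := by
        revert hx1 hy1
        generalize e x = u
        generalize e y = v
        clear * -
        revert u v
        decide
      have h3 : x = y := e.injective h2
      refine ⟨1, one_smul _ _, ?_⟩
      rw [one_smul, ← hx, ← hy, h3]
    · obtain ⟨h, h1, h2⟩ := hps.main hm (e x) (e y) hx1 hy1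
      refine ⟨h, h1, ?_⟩
      simp only [MulEquiv.symm_apply_apply] at h2
      rw [← hx, ← hy]
      exact h2
  obtain ⟨h, h1, h2⟩ := key
  refine ⟨h * g, ?_, ?_⟩
  · rw [mul_smul, hg, h1]
  · rw [mul_smul, h2]

end Cfsg.Agent.S3572
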