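import Cfsg.Statements.S3573
import Cfsg.Agent.H59.PrimePerm


set_option autoImplicit false
set_option linter.style.haveILetI false
open Cfsg

namespace Cfsg.Agent.S3573


open Equiv.Perm Cfsg.Agent.H59

theorem mod_le_of_fixed (n k r : ℕ) (hr : r.Prime) (hrn : r ≤ n)
    (h : ∀ σ : Equiv.Perm (Fin n), orderOf σ = r → ∃ s : Finset (Fin n), s.card = k ∧ s.image σ = s) :
    k % r ≤ n % r := by
  have hj : 1 ≤ n / r := (Nat.one_le_div_iff hr.pos).2 hrn
  obtain ⟨σ, hσ, hcard⟩ := exists_perm_prime hr hj (Nat.mul_div_le n r)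
  obtain ⟨s, hs, hinv⟩ := h σ hσ
  have h1 := card_modEq_of_inv hr (by rw [← hσ]; exact pow_orderOf_eq_one σ) (image_eq_iff.1 hinv)
  have h2 : (s \ σ.support).card ≤ n % r := by
    have h3 : (s \ σ.support).card ≤ (σ.supportᶜ).card := by
      apply Finset.card_le_card
      intro x hx
      rw [Finset.mem_compl]
      exact (Finset.mem_sdiff.1 hx).2
    rw [Finset.card_compl, hcard, Fintype.card_fin] at h3
    have h4 := Nat.div_add_mod n r
    omega
  have h3 : n % r < r := Nat.mod_lt _ hr.pos
  rw [hs] at h1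
  have h4 : (s \ σ.support).card % r = k % r := h1
  rw [Nat.mod_eq_of_lt (by omega)] at h4
  omega

theorem fixed_of_mod_le (n k r : ℕ) (hr : r.Prime) (hkn : k ≤ n) (h : k % r ≤ n % r)
    (σ : Equiv.Perm (Fin n)) (hσ : orderOf σ = r) :
    ∃ s : Finset (Fin n), s.card = k ∧ s.image σ = s := by
  obtain ⟨j, hj⟩ := dvd_card_support hr (by rw [← hσ]; exact pow_orderOf_eq_one σ)
  have hle : r * j ≤ n := by
    rw [← hj]
    calc σ.support.card ≤ Fintype.card (Fin n) := Finset.card_le_univ _
      _ = n := Fintype.card_fin n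
  have hkk := Nat.div_add_mod k r
  have hnn := Nat.div_add_mod n r
  have hij : r * min j (k / r) ≤ r * j := Nat.mul_le_mul_left r (min_le_left _ _)
  have hik : r * min j (k / r) ≤ r * (k / r) := Nat.mul_le_mul_left r (min_le_right _ _)
  obtain ⟨s, hs, hinv, hcard⟩ := exists_inv_subset hr hσ (min j (k / r)) (by rw [hj]; exact hij)
  have hfix : k - r * min j (k / r) ≤ (σ.supportᶜ).card := by
    rw [Finset.card_compl, hj, Fintype.card_fin]
    rcases le_total j (k / r) with h1 | h1
    · rw [min_eq_left h1]; omega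
    · rw [min_eq_right h1]
      have h2 : j ≤ n / r := by
        rw [Nat.le_div_iff_mul_le hr.pos, mul_comm]; exact hle
      have h3 : r * j ≤ r * (n / r) := Nat.mul_le_mul_left r h2
      omega
  obtain ⟨t, ht, htc⟩ := Finset.exists_subset_card_eq hfix
  refine ⟨s ∪ t, ?_, ?_⟩
  · rw [Finset.card_union_of_disjoint, hcard, htc]
    · omega
    · rw [Finset.disjoint_left]
      intro x hx hxt
      exact (Finset.mem_compl.1 (ht hxt)) (hs hx)
  · rw [image_eq_iff]
    intro x
    rw [Finset.mem_union, Finset.mem_union, hinv]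
    have h5 : σ x ∈ t ↔ x ∈ t := by
      constructor
      · intro hx
        have h6 := Finset.mem_compl.1 (ht hx)
        rw [apply_mem_support, notMem_support] at h6
        rwa [h6] at hx
      · intro hx
        have h6 := Finset.mem_compl.1 (ht hx)
        rw [notMem_support] at h6
        rwa [h6]
    rw [h5]

/-- Let 1 ≤ k with 2k < n and consider the symmetric group of degree n acting on the k-subsets of an n-set. Let r be a prime dividing the number C(n,k) of k-subsets. If r is odd, then every permutation of order r fixes some k-subset if and only if r ≤ k and the remainder of k modulo r is at most the remainder of n modulo r. If r = 2, then every involution fixes some k-subset if and only if k is even or n is odd. -/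
theorem result (n k : ℕ) (hk : 1 ≤ k) (hkn : 2 * k < n) (r : ℕ) (hr : r.Prime) (hrd : r ∣ Nat.choose n k) :
    (r ≠ 2 → ((∀ σ : Equiv.Perm (Fin n), orderOf σ = r → ∃ s : Finset (Fin n), s.card = k ∧ s.image σ = s) ↔
      (r ≤ k ∧ k % r ≤ n % r))) ∧
    (r = 2 → ((∀ σ : Equiv.Perm (Fin n), orderOf σ = 2 → ∃ s : Finset (Fin n), s.card = k ∧ s.image σ = s) ↔
      (Even k ∨ Odd n))) := by

  have hrn : r ≤ n := by
    by_contra hcon
    have h1 : r ∣ n.factorial := by
      rw [← Nat.choose_mul_factorial_mul_factorial (show k ≤ n by omega), mul_assoc]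
      exact hrd.mul_right _
    exact hcon ((hr.dvd_factorial).1 h1)
  have key : (∀ σ : Equiv.Perm (Fin n), orderOf σ = r → ∃ s : Finset (Fin n), s.card = k ∧ s.image σ = s) ↔
      k % r ≤ n % r :=
    ⟨fun h => mod_le_of_fixed n k r hr hrn h, fun h => fixed_of_mod_le n k r hr (by omega) h⟩
  constructor
  · intro _
    rw [key]
    refine ⟨fun h => ⟨?_, h⟩, fun h => h.2⟩
    by_contra hcon
    push Not at hcon
    have : Fact r.Prime := ⟨hr⟩
    have h1 := Choose.choose_modEq_choose_mod_mul_choose_div_nat (n := n) (k := k) (p := r)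
    rw [Nat.mod_eq_of_lt hcon, Nat.div_eq_of_lt hcon, Nat.choose_zero_right, mul_one] at h1
    rw [Nat.mod_eq_of_lt hcon] at h
    have h2 : r ∣ (n % r).choose k := (Nat.modEq_zero_iff_dvd).1 (h1.symm.trans ((Nat.modEq_zero_iff_dvd).2 hrd))
    have h3 : r ∣ (n % r).factorial := by
      rw [← Nat.choose_mul_factorial_mul_factorial h, mul_assoc]
      exact h2.mul_right _
    have h4 := (hr.dvd_factorial).1 h3
    have h5 := Nat.mod_lt n hr.pos
    omega
  · intro h2
    subst h2
    rw [key, Nat.even_iff, Nat.odd_iff]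
    omega


end Cfsg.Agent.S3573
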