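import Cfsg.Statements.S3575
import Cfsg.Agent.H59.UnifPart


set_option autoImplicit false
set_option linter.style.haveILetI false
open Cfsg

namespace Cfsg.Agent.S3575


open Equiv.Perm Cfsg.Agent.H59

/-- `c` is a possible number of cycles of a permutation of order `r` fixing a partition. -/
def Good (a b r c : ℕ) : Prop := ∃ t : ℕ, r * t ≤ b ∧ t * a ≤ c ∧ c ≤ t * a + (b - r * t) * (a / r)

theorem good_iff (a b r c : ℕ) :
    Good a b r c ↔ ∃ t : ℕ, r * t ≤ b ∧ t * a ≤ c ∧ c ≤ b * (a / r) + t * (a % r) := by
  have key : ∀ t, r * t ≤ b → t * a + (b - r * t) * (a / r) = b * (a / r) + t * (a % r) := by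
    intro t ht
    obtain ⟨d, rfl⟩ := Nat.exists_eq_add_of_le ht
    rw [Nat.add_sub_cancel_left]
    have h1 := Nat.div_add_mod a r
    generalize a / r = A at *
    generalize a % r = l at *
    subst h1
    ring
  constructor
  · rintro ⟨t, h1, h2, h3⟩
    exact ⟨t, h1, h2, by rw [← key t h1]; exact h3⟩
  · rintro ⟨t, h1, h2, h3⟩
    exact ⟨t, h1, h2, by rw [key t h1]; exact h3⟩

theorem all_iff (a b r : ℕ) (ha : 2 ≤ a) (hb : 2 ≤ b) (hr : r.Prime) :
    (∀ σ : Equiv.Perm (Fin (a * b)), orderOf σ = r →
        ∃ f : Fin (a * b) → Fin b, (∀ j : Fin b, Nat.card {x : Fin (a * b) // f x = j} = a) ∧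
          ∃ π : Equiv.Perm (Fin b), ∀ x : Fin (a * b), f (σ x) = π (f x)) ↔
      ∀ c, 1 ≤ c → r * c ≤ a * b → Good a b r c := by
  constructor
  · intro h c hc hcab
    obtain ⟨σ, hσ, hσc⟩ := exists_perm_prime hr hc hcab
    obtain ⟨f, hf, π, hπ⟩ := h σ hσ
    exact partition_bounds hr hσ (by omega) hσc f hf π hπ
  · intro h σ hσ
    obtain ⟨c, hc⟩ := dvd_card_support hr (by rw [← hσ]; exact pow_orderOf_eq_one σ)
    have hne : σ ≠ 1 := by
      rintro rfl
      rw [orderOf_one] at hσ
      exact hr.one_lt.ne hσ
    have hc1 : 1 ≤ c := by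
      rcases Nat.eq_zero_or_pos c with rfl | h1
      · rw [mul_zero] at hc
        exact absurd (support_eq_empty_iff.1 (Finset.card_eq_zero.1 hc)) hne
      · exact h1
    have hle : r * c ≤ a * b := by
      rw [← hc]
      calc σ.support.card ≤ Fintype.card (Fin (a * b)) := Finset.card_le_univ _
        _ = a * b := Fintype.card_fin _
    obtain ⟨t, h1, h2, h3⟩ := h c hc1 hle
    exact fixes_partition hr hσ (Fintype.card_fin _) hc h1 h2 h3 (Nat.mul_div_le a r)

theorem good_all_iff (a b r : ℕ) (hb : 2 ≤ b) (hr : 0 < r) :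
    (∀ c, 1 ≤ c → r * c ≤ a * b → Good a b r c) ↔
      ((b % r) * (a % r) < r ∧ (b < r ∨ a % r ≤ (b % r) * (a / r) + 1)) := by
  have hal := Nat.div_add_mod a r
  have hbl := Nat.div_add_mod b r
  have hlr := Nat.mod_lt a hr
  have hkr := Nat.mod_lt b hr
  have hb1 : b < r ↔ b / r = 0 := by
    rw [Nat.div_eq_zero_iff]
    constructor
    · intro h; exact Or.inr h
    · rintro (h | h)
      · omega
      · exact h
  constructor
  · intro h
    rw [hb1]
    generalize a / r = A at *
    generalize hl : a % r = l at *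
    generalize b / r = B at *
    generalize hk : b % r = k at *
    have hgood : ∀ c, 1 ≤ c → r * c ≤ a * b → ∃ t : ℕ, t ≤ B ∧ t * a ≤ c ∧ c ≤ b * A + t * l := by
      intro c h1 h2
      have h3 := h c h1 h2
      rw [good_iff] at h3
      obtain ⟨t, h4, h5, h6⟩ := h3
      have hA : a / r = A := by
        rw [← hal, Nat.mul_add_div hr, Nat.div_eq_of_lt hlr, add_zero]
      rw [hA, hl] at h6
      refine ⟨t, ?_, h5, h6⟩
      by_contra hcon
      have h7 : r * (B + 1) ≤ r * t := Nat.mul_le_mul_left r (by omega)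
      rw [Nat.mul_add] at h7
      omega
    have hab : a * b = r * (b * A + B * l) + k * l := by
      calc a * b = (r * A + l) * b := by rw [hal]
        _ = r * (b * A) + l * b := by ring
        _ = r * (b * A) + l * (r * B + k) := by rw [hbl]
        _ = _ := by ring
    constructor
    · by_contra hcon
      push Not at hcon
      obtain ⟨t, ht, h1, h2⟩ := hgood (b * A + B * l + 1) (by omega) (by
        rw [hab, Nat.mul_add r _ 1]; omega)
      have h3 : t * l ≤ B * l := Nat.mul_le_mul_right l ht
      omega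
    · by_contra hcon
      push Not at hcon
      obtain ⟨hB, hl2⟩ := hcon
      obtain ⟨B', hB'⟩ : ∃ B', B = B' + 1 := ⟨B - 1, by omega⟩
      subst hB'
      have e2 : (B' + 1) * a + k * A = b * A + B' * l + l := by
        rw [← hal, ← hbl]; ring
      have hlt : b * A + B' * l + 1 < (B' + 1) * a := by omega
      obtain ⟨t, ht, h1, h2⟩ := hgood (b * A + B' * l + 1) (by omega) (by
        calc r * (b * A + B' * l + 1) ≤ r * ((B' + 1) * a) := Nat.mul_le_mul_left r hlt.le
          _ = (r * (B' + 1)) * a := by ring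
          _ ≤ b * a := Nat.mul_le_mul_right a (by
            omega)
          _ = a * b := mul_comm _ _)
      rcases Nat.lt_or_ge t (B' + 1) with h3 | h3
      · have h4 : t * l ≤ B' * l := Nat.mul_le_mul_right l (by omega)
        omega
      · have h4 : t = B' + 1 := le_antisymm ht h3
        subst h4
        omega
  · rintro ⟨h1, h2⟩ c hc hcab
    rw [good_iff]
    rw [hb1] at h2
    generalize a / r = A at *
    generalize a % r = l at *
    generalize b / r = B at *
    generalize b % r = k at *
    have hab : a * b = r * (b * A + B * l) + k * l := by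
      calc a * b = (r * A + l) * b := by rw [hal]
        _ = r * (b * A) + l * b := by ring
        _ = r * (b * A) + l * (r * B + k) := by rw [hbl]
        _ = _ := by ring
    have hcle : c ≤ b * A + B * l := by
      by_contra hcon
      have h3 : r * (b * A + B * l + 1) ≤ r * c := Nat.mul_le_mul_left r (by omega)
      rw [Nat.mul_add r _ 1] at h3
      omega
    classical
    have hex : ∃ t, c ≤ b * A + t * l := ⟨B, hcle⟩
    have hmin := Nat.find_spec hex
    have hleB : Nat.find hex ≤ B := Nat.find_min' hex hcle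
    rcases Nat.eq_zero_or_pos (Nat.find hex) with h0 | h0
    · refine ⟨0, by omega, by omega, ?_⟩
      rw [h0] at hmin
      exact hmin
    · obtain ⟨s, hs⟩ : ∃ s, Nat.find hex = s + 1 := ⟨Nat.find hex - 1, by omega⟩
      have hlt := Nat.find_min hex (m := s) (by omega)
      rw [hs] at hmin hleB
      refine ⟨s + 1, ?_, ?_, hmin⟩
      · calc r * (s + 1) ≤ r * B := Nat.mul_le_mul_left r hleB
          _ ≤ b := by omega
      · rcases h2 with h2 | h2
        · omega
        · have h3 : (s + 1) * A * r ≤ B * A * r := Nat.mul_le_mul_right r (Nat.mul_le_mul_right A hleB)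
          have e1 : (s + 1) * a = (s + 1) * A * r + s * l + l := by rw [← hal]; ring
          have e2 : b * A = B * A * r + k * A := by rw [← hbl]; ring
          omega

/-- Let a, b ≥ 2 and consider the symmetric group of degree a·b acting on the partitions of an (a·b)-set into b parts of size a (encoded as maps onto a b-element set all of whose fibres have a elements; a permutation fixes such a partition when it permutes the fibres). Let r be a prime dividing the number (ab)!/((a!)^b·b!) of such partitions, and let ℓ and k be the remainders of a and b modulo r. Then every permutation of order r fixes some such partition if and only if r ≤ a and one of the following holds: ℓ = 0; or k = 0 and ℓ = 1; or ℓ and k are non-zero, k·ℓ < r, and either b < r or (k + r)·ℓ ≤ k·a + r. -/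
theorem result (a b : ℕ) (ha : 2 ≤ a) (hb : 2 ≤ b) (r : ℕ) (hr : r.Prime)
    (hrd : r ∣ (a * b).factorial / (a.factorial ^ b * b.factorial)) :
    (∀ σ : Equiv.Perm (Fin (a * b)), orderOf σ = r →
        ∃ f : Fin (a * b) → Fin b, (∀ j : Fin b, Nat.card {x : Fin (a * b) // f x = j} = a) ∧
          ∃ π : Equiv.Perm (Fin b), ∀ x : Fin (a * b), f (σ x) = π (f x)) ↔
      (r ≤ a ∧ (a % r = 0 ∨ (b % r = 0 ∧ a % r = 1) ∨
        (a % r ≠ 0 ∧ b % r ≠ 0 ∧ (b % r) * (a % r) < r ∧ (b < r ∨ (b % r + r) * (a % r) ≤ (b % r) * a + r)))) := by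

  rw [all_iff a b r ha hb hr, good_all_iff a b r hb hr.pos]
  have hrab : r ≤ a * b := by
    have h1 := Nat.uniformBell_mul_eq b (n := a) (by omega)
    have h2 : (a * b).factorial / (a.factorial ^ b * b.factorial) = b.uniformBell a := by
      rw [mul_comm a b, ← h1, mul_assoc]
      exact Nat.mul_div_cancel _ (Nat.mul_pos (pow_pos (Nat.factorial_pos _) _) (Nat.factorial_pos _))
    rw [h2] at hrd
    have h3 : r ∣ (b * a).factorial := by
      rw [← h1, mul_assoc]
      exact hrd.mul_right _
    rw [mul_comm]
    exact (hr.dvd_factorial).1 h3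
  have hal := Nat.div_add_mod a r
  have hbl := Nat.div_add_mod b r
  have hlr := Nat.mod_lt a hr.pos
  have hkr := Nat.mod_lt b hr.pos
  have hbr : b % r = 0 → ¬ b < r := by
    intro h1 h2
    rw [Nat.mod_eq_of_lt h2] at h1
    omega
  have hstep : (a % r ≤ (b % r) * (a / r) + 1) ↔ ((b % r + r) * (a % r) ≤ (b % r) * a + r) := by
    have hp := hr.pos
    generalize a / r = A at *
    generalize a % r = l at *
    generalize b % r = k at *
    have e1 : k * a + r = k * l + r * (k * A + 1) := by rw [← hal]; ring
    have e2 : (k + r) * l = k * l + r * l := by ring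
    rw [e1, e2, Nat.add_le_add_iff_left, Nat.mul_le_mul_left_iff hp]
  have hra : (b % r) * (a % r) < r ∧ (b < r ∨ a % r ≤ (b % r) * (a / r) + 1) → r ≤ a := by
    rintro ⟨h1, h2⟩
    by_contra hcon
    push Not at hcon
    rw [Nat.mod_eq_of_lt hcon, Nat.div_eq_of_lt hcon, mul_zero, zero_add] at h2
    rcases h2 with h2 | h2
    · rw [Nat.mod_eq_of_lt hcon, Nat.mod_eq_of_lt h2, mul_comm] at h1
      omega
    · omega
  constructor
  · intro h
    refine ⟨hra h, ?_⟩
    obtain ⟨h1, h2⟩ := h
    by_cases hl : a % r = 0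
    · exact Or.inl hl
    · right
      by_cases hk : b % r = 0
      · left
        refine ⟨hk, ?_⟩
        rcases h2 with h2 | h2
        · exact absurd h2 (hbr hk)
        · rw [hk, zero_mul, zero_add] at h2
          omega
      · right
        rw [← hstep]
        exact ⟨hl, hk, h1, h2⟩
  · rintro ⟨_, h | ⟨h1, h2⟩ | ⟨_, _, h1, h2⟩⟩
    · rw [h, mul_zero]
      exact ⟨hr.pos, Or.inr (Nat.zero_le _)⟩
    · rw [h1, h2, zero_mul, zero_mul]
      exact ⟨hr.pos, Or.inr le_rfl⟩
    · rw [← hstep] at h2
      exact ⟨h1, h2⟩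


end Cfsg.Agent.S3575
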