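import Cfsg.Statements.S3592
import Cfsg.Agent.H67.M11.Counts

set_option autoImplicit false
open Cfsg

namespace Cfsg.Agent.S3592

/-- Let M be the Mathieu group M₁₁ (order 7920). If a finite group G has the same order as M and the same set of values of the function 'number of elements of order n' (taken over the element orders n that occur), then G is isomorphic to M. -/
theorem result {G : Type*} [Group G] [Finite G]
    (hcard : Nat.card G = Nat.card ↥Cfsg.Spor.M11)
    (hnse : {c : ℕ | 0 < c ∧ ∃ n : ℕ, c = Nat.card {g : G // orderOf g = n}} =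
      {c : ℕ | 0 < c ∧ ∃ n : ℕ, c = Nat.card {g : ↥Cfsg.Spor.M11 // orderOf g = n}}) :
    Nonempty (G ≃* ↥Cfsg.Spor.M11) := by
  rw [H67.M11.card_spor] at hcard
  haveI := H67.M11.simple_spor
  have hL := H67.M11.exists_loc H67.M11.card_spor
  haveI : IsSimpleGroup G := by
    apply H67.M11.simple_of_count_cases hcard
    intro n _
    by_cases h0 : Nat.card {g : G // orderOf g = n} = 0
    · exact Or.inl h0
    · have hmem : Nat.card {g : G // orderOf g = n} ∈ {c : ℕ | 0 < c ∧ ∃ n : ℕ, c = Nat.card {g : G // orderOf g = n}} :=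
        ⟨Nat.pos_of_ne_zero h0, n, rfl⟩
      rw [hnse] at hmem
      obtain ⟨-, m, hm⟩ := hmem
      rw [hm]
      exact hL.count_cases m
  exact H67.M11.isoM11 hcard

end Cfsg.Agent.S3592
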