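import Cfsg.Statements.S3598
import Cfsg.Agent.H2.PP.Main
import Cfsg.Agent.S3378
import Cfsg.Agent.S0497
import Cfsg.Agent.H75.A5Deg
import Cfsg.Agent.ClassBase.SimpleSmall

set_option autoImplicit false
open Cfsg

namespace Cfsg.Agent.S3598

/-- Let p be a prime and F a field with p² elements. If a finite group G has, for every d, the same number of irreducible complex characters of degree d as PSL(2,F) (the same first column of the character table, with multiplicities), then G is isomorphic to PSL(2,F). -/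
theorem result {F : Type*} [Field F] [Fintype F] (p : ℕ) (hp : p.Prime)
    (hF : Fintype.card F = p ^ 2) {G : Type*} [Group G] [Finite G]
    (h : ∀ d : ℕ, Nat.card {χ : Cfsg.IrrCharacter G // (χ : G → ℂ) 1 = (d : ℂ)} =
      Nat.card {χ : Cfsg.IrrCharacter (Matrix.ProjectiveSpecialLinearGroup (Fin 2) F) // (χ : Matrix.ProjectiveSpecialLinearGroup (Fin 2) F → ℂ) 1 = (d : ℂ)}) :
    Nonempty (G ≃* Matrix.ProjectiveSpecialLinearGroup (Fin 2) F) := by
  classical
  have hc := H2.PP.cnt_eq_of h
  have hc0 := H2.PP.card_eq_of_cnt hc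
  haveI := Fact.mk hp
  rcases hp.eq_two_or_odd with h2 | hodd
  · -- the field with four elements
    subst h2
    have hF4 : Fintype.card F = 4 := by rw [hF]; norm_num
    haveI hsim : IsSimpleGroup (Matrix.ProjectiveSpecialLinearGroup (Fin 2) F) :=
      Matrix.ProjectiveSpecialLinearGroup.rank_two_simple (by rw [Nat.card_eq_fintype_card, hF4])
    have hcP : Nat.card (Matrix.ProjectiveSpecialLinearGroup (Fin 2) F) = 60 := by
      rw [H14.SubField.card_PSL2_even (by rw [hF4]; exact ⟨2, rfl⟩), hF4]
    haveI : CharP F 2 := charP_of_card_eq_prime_pow hF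
    have h20 : (2 : F) = 0 := by
      have := CharP.cast_eq_zero F 2
      exact_mod_cast this
    have h5 : (5 : ℕ) ∈ charDegrees (Matrix.ProjectiveSpecialLinearGroup (Fin 2) F) := by
      have h6 := (H34.Deg.graph_data_group (S := Matrix.ProjectiveSpecialLinearGroup (Fin 2) F) (Or.inl ⟨MulEquiv.refl _⟩)
        (H34.Deg.graph_data_even h20 (by rw [hF4]))).2 (Fintype.card F + 1) (Or.inr (Or.inl rfl))
      rwa [hF4] at h6
    have h6 := H2.PP.cnt_of_mem_charDegrees h5
    rw [← hc] at h6
    obtain ⟨χ, hχ⟩ := H2.PP.exists_of_cnt h6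
    have hG : Nat.card G = 60 := by rw [hc0, hcP]
    have hns := H75.not_solvable_of_five hG χ (by rw [hχ])
    haveI : IsSimpleGroup G := S3378.simple_sixty hG hns
    obtain ⟨e1⟩ := ClassBase.simple_sixty hG
    obtain ⟨e2⟩ := ClassBase.simple_sixty hcP
    exact ⟨e1.trans e2.symm⟩
  · have hFodd : Odd (Fintype.card F) := by rw [hF]; exact (Nat.odd_iff.2 hodd).pow
    obtain ⟨k, ⟨D⟩⟩ := H34.Deg.exists_oddData F hFodd
    have hk := D.hk
    have hpk : 2 * k + 1 = p ^ 2 := by rw [← hk, hF]
    have hk4 : 4 ∣ k := by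
      obtain ⟨m, hm⟩ : ∃ m, p = 2 * m + 1 := ⟨p / 2, by omega⟩
      have h1 : k = 2 * (m * (m + 1)) := by
        rw [hm] at hpk
        have : (2 * m + 1) ^ 2 = 2 * (2 * (m * (m + 1))) + 1 := by ring
        omega
      have h2 : 2 ∣ m * (m + 1) := (Nat.even_mul_succ_self m).two_dvd
      obtain ⟨l, hl⟩ := h2
      exact ⟨l, by rw [h1, hl]; ring⟩
    have hpat := (H2.PP.pat_psl D hk4).transfer hc
    rcases Nat.lt_or_ge p 5 with hp5 | hp5
    · -- `p = 3`
      have hp3 : p = 3 := by
        have := hp.two_le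
        have : p = 2 ∨ p = 3 ∨ p = 4 := by omega
        omega
      subst hp3
      have hF9 : Fintype.card F = 9 := by rw [hF]; norm_num
      haveI hsim : IsSimpleGroup (Matrix.ProjectiveSpecialLinearGroup (Fin 2) F) :=
        Matrix.ProjectiveSpecialLinearGroup.rank_two_simple (by rw [Nat.card_eq_fintype_card, hF9]; norm_num)
      haveI := hpat.simple
      have hk' : k = 4 := by omega
      have hG : Nat.card G = 360 := by rw [hpat.card, hk']
      have hP : Nat.card (Matrix.ProjectiveSpecialLinearGroup (Fin 2) F) = 360 := by rw [← hc0, hG]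
      obtain ⟨e1⟩ := S0497.result hG
      obtain ⟨e2⟩ := S0497.result hP
      exact ⟨e1.trans e2.symm⟩
    · exact hpat.psl hp hp5 hpk hk

end Cfsg.Agent.S3598
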