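import Cfsg.Statements.S3599
import Cfsg.Agent.H73.CritSet2

set_option autoImplicit false
open Cfsg Cfsg.Agent.H73.CritSet

namespace Cfsg.Agent.S3599

/-- A finite group is critical with respect to a set Ω of natural numbers when its set of element orders is Ω while no proper section H/N (H a subgroup, N normal in H, (H, N) ≠ (whole group, 1)) has Ω as its set of element orders. Let s ≥ 1 and let p(j,0), p(j,1) (j < s) be 2s pairwise distinct primes, and let Ω be the set of all products c(0)·…·c(s−1) with each c(j) ∈ {1, p(j,0), p(j,1)}. Then there are 2^s pairwise non-isomorphic finite groups critical with respect to Ω. -/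
theorem result (s : ℕ) (hs : 1 ≤ s) (p : Fin s → Fin 2 → ℕ)
    (hp : ∀ j i, (p j i).Prime) (hinj : ∀ j i j' i', p j i = p j' i' → j = j' ∧ i = i') :
    ∃ (G : Fin (2 ^ s) → Type) (_ : ∀ a, Group (G a)) (_ : ∀ a, Fintype (G a)),
      (∀ a b, a ≠ b → ¬ Nonempty (G a ≃* G b)) ∧
      ∀ a, Set.range (orderOf : (G a) → ℕ) = {m : ℕ | ∃ c : Fin s → ℕ, (∀ j, c j = 1 ∨ c j = p j 0 ∨ c j = p j 1) ∧ m = ∏ j, c j} ∧
      ∀ (H : Subgroup (G a)) (N : Subgroup ↥H) [N.Normal], (H ≠ ⊤ ∨ N ≠ ⊥) → Set.range (orderOf : (↥H ⧸ N) → ℕ) ≠ {m : ℕ | ∃ c : Fin s → ℕ, (∀ j, c j = 1 ∨ c j = p j 0 ∨ c j = p j 1) ∧ m = ∏ j, c j} := by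
  classical
  have hfl : ∀ i : Fin 2, 1 - i ≠ i := by decide
  have hne2 : ∀ j (i : Fin 2), p j i ≠ p j (1 - i) := fun j i h => hfl i (hinj _ _ _ _ h).2.symm
  have hex : ∀ (j : Fin s) (i : Fin 2), ∃ (Y : Type) (_ : Group Y) (_ : Fintype Y),
      T (p j i) (p j (1 - i)) Y ∧
      ∀ (H : Subgroup Y) (N : Subgroup H) [N.Normal], (H ≠ ⊤ ∨ N ≠ ⊥) →
        ¬ ((∃ g : H ⧸ N, orderOf g = p j i) ∧ ∃ g : H ⧸ N, orderOf g = p j (1 - i)) :=
    fun j i => exists_crit (hp j i) (hp j (1 - i)) (hne2 j i)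
  choose Y iG iF hT hcr using hex
  let b : Fin (2 ^ s) ≃ (Fin s → Fin 2) := finFunctionFinEquiv.symm
  have hP : ∀ (a : Fin (2 ^ s)) (j : Fin s), (p j (b a j)).Prime := fun a j => hp _ _
  have hQ : ∀ (a : Fin (2 ^ s)) (j : Fin s), (p j (1 - b a j)).Prime := fun a j => hp _ _
  have hPQ : ∀ (a : Fin (2 ^ s)) (j : Fin s), p j (b a j) ≠ p j (1 - b a j) := fun a j => hne2 _ _
  have hne : ∀ (a : Fin (2 ^ s)) (j k : Fin s), j ≠ k → p j (b a j) ≠ p k (b a k) ∧
      p j (b a j) ≠ p k (1 - b a k) ∧ p j (1 - b a j) ≠ p k (1 - b a k) :=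
    fun a j k hjk => ⟨fun h => hjk (hinj _ _ _ _ h).1, fun h => hjk (hinj _ _ _ _ h).1,
      fun h => hjk (hinj _ _ _ _ h).1⟩
  have hset : ∀ a : Fin (2 ^ s), {m : ℕ | ∃ c : Fin s → ℕ, (∀ j, c j = 1 ∨ c j = p j 0 ∨ c j = p j 1) ∧ m = ∏ j, c j}
      = {m : ℕ | ∃ c : Fin s → ℕ, (∀ j, c j = 1 ∨ c j = p j (b a j) ∨ c j = p j (1 - b a j)) ∧ m = ∏ j, c j} := by
    intro a
    have h : ∀ (j : Fin s) (x : ℕ) (i : Fin 2), (x = 1 ∨ x = p j 0 ∨ x = p j 1) ↔ (x = 1 ∨ x = p j i ∨ x = p j (1 - i)) := by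
      intro j x i
      fin_cases i
      · exact Iff.rfl
      · show _ ↔ (x = 1 ∨ x = p j 1 ∨ x = p j 0)
        tauto
    ext m
    constructor
    · rintro ⟨c, hc, hm⟩
      exact ⟨c, fun j => (h j _ _).mp (hc j), hm⟩
    · rintro ⟨c, hc, hm⟩
      exact ⟨c, fun j => (h j _ _).mpr (hc j), hm⟩
  refine ⟨fun a => ∀ j, Y j (b a j), fun a => inferInstance, fun a => inferInstance, ?_, ?_⟩
  · rintro a a' haa' ⟨f⟩
    have hbb : b a ≠ b a' := fun h => haa' (b.injective h)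
    obtain ⟨j, hj⟩ := Function.ne_iff.mp hbb
    have hj' : b a j = 1 - b a' j := by
      have : ∀ x y : Fin 2, x ≠ y → x = 1 - y := by decide
      exact this _ _ hj
    apply not_mul_Q (fun k => Y k (b a' k)) (fun k => hT k (b a' k)) (hP a') (hQ a') (hPQ a') j
    intro x y hx hy
    have h1 : ∀ z : (∀ k, Y k (b a' k)), z ^ (p j (1 - b a' j)) = 1 → (f.symm z) ^ (p j (b a j)) = 1 := by
      intro z hz
      rw [hj', ← map_pow, hz, map_one]
    have h2 := mul_P (hP a) (hQ a) (hne a) (fun k => Y k (b a k)) (fun k => hT k (b a k)) j (f.symm x) (f.symm y)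
      (h1 x hx) (h1 y hy)
    rw [← map_mul, ← map_pow] at h2
    have h3 := (map_eq_one_iff f.symm f.symm.injective).mp h2
    rw [← hj']
    exact h3
  · intro a
    constructor
    · rw [hset a]
      exact range_ord (hP a) (hQ a) (hne a) (fun k => Y k (b a k)) (fun k => hT k (b a k))
    · intro H N hN hHN
      rw [hset a]
      exact crit (hP a) (hQ a) (hne a) (fun k => Y k (b a k)) (fun k => hT k (b a k)) (fun k => hcr k (b a k)) H N hHN

end Cfsg.Agent.S3599
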