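import Cfsg.Statements.S3619
import Cfsg.Agent.H60.Quasi

set_option autoImplicit false
open Cfsg

namespace Cfsg.Agent.S3619

/-- Let G act faithfully on a finite set in such a way that every non-trivial normal subgroup of G is transitive (G is quasiprimitive). Let Γ be a subset with more than one point and not the whole set, such that the pointwise stabilizer of the complement of Γ acts transitively on Γ (a Jordan set). If that pointwise stabilizer acts primitively on Γ, then G is k-fold transitive where k is one more than the number of points outside Γ (the Jordan set is a trivial one). -/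
theorem result {G Ω : Type*} [Group G] [Finite G] [MulAction G Ω] [FaithfulSMul G Ω] [Finite Ω]
    (hqp : ∀ N : Subgroup G, N.Normal → N ≠ ⊥ → MulAction.IsPretransitive ↥N Ω)
    (Γ : Set Ω) (hΓ1 : 1 < Γ.ncard) (hΓ2 : Γ.ncard < Nat.card Ω)
    (hJ : MulAction.IsPretransitive ↥(fixingSubgroup G Γᶜ) ↥(SubMulAction.ofFixingSubgroup G Γᶜ))
    (hJp : MulAction.IsPreprimitive ↥(fixingSubgroup G Γᶜ) ↥(SubMulAction.ofFixingSubgroup G Γᶜ)) :
    MulAction.IsMultiplyPretransitive G Ω (Nat.card Ω - Γ.ncard + 1) := by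
  have hnt : Γ.Nontrivial := by
    rw [Set.one_lt_ncard] at hΓ1
    obtain ⟨a, ha, b, hb, hab⟩ := hΓ1
    exact ⟨a, ha, b, hb, hab⟩
  have hprim := Cfsg.Agent.H60.preprimitive_of_quasi_of_jordan_primitive hqp Γ hnt hJp
  have hc : Γ.ncard + Γᶜ.ncard = Nat.card Ω := Set.ncard_add_ncard_compl Γ
  obtain ⟨n, hn⟩ : ∃ n, Γᶜ.ncard = n + 1 := ⟨Γᶜ.ncard - 1, by omega⟩
  have hn2 : n + 2 < Nat.card Ω := by omega
  have hmp := hprim.isMultiplyPreprimitive hn hn2 hJp
  have he : Nat.card Ω - Γ.ncard + 1 = n + 2 := by omega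
  rw [he]
  exact hmp.isMultiplyPretransitive

end Cfsg.Agent.S3619
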