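import Cfsg.Statements.S3620

import Cfsg.Agent.H74.Marg6

set_option autoImplicit false
open Cfsg

namespace Cfsg.Agent.S3620

/-- Let G act faithfully on a finite set in such a way that every non-trivial normal subgroup of G is transitive (G is quasiprimitive). Let Γ be a subset with more than one point and fewer than half of the points, such that the pointwise stabilizer of the complement of Γ acts transitively on Γ. Then G induces every even permutation of the set (G is the alternating or the symmetric group). -/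
theorem result {G Ω : Type*} [Group G] [Finite G] [MulAction G Ω] [FaithfulSMul G Ω] [Fintype Ω] [DecidableEq Ω]
    (hqp : ∀ N : Subgroup G, N.Normal → N ≠ ⊥ → MulAction.IsPretransitive ↥N Ω)
    (Γ : Set Ω) (hΓ1 : 1 < Γ.ncard) (hΓ2 : 2 * Γ.ncard < Fintype.card Ω)
    (hJ : MulAction.IsPretransitive ↥(fixingSubgroup G Γᶜ) ↥(SubMulAction.ofFixingSubgroup G Γᶜ)) :
    ∀ σ : Equiv.Perm Ω, Equiv.Perm.sign σ = 1 → ∃ x : G, (MulAction.toPerm x : Equiv.Perm Ω) = σ := by
  classical
  have hJ' : ∀ x ∈ Γ, ∀ y ∈ Γ, ∃ h : G, h • x = y ∧ ∀ z, z ∉ Γ → h • z = z := by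
    intro x hx y hy
    obtain ⟨h, hh⟩ := hJ.exists_smul_eq ⟨x, fun h' => h' hx⟩ ⟨y, fun h' => h' hy⟩
    exact ⟨h, congrArg Subtype.val hh, fun z hz => (mem_fixingSubgroup_iff G).1 h.2 z hz⟩
  obtain ⟨x, hx, y, hy, hxy⟩ := (Set.one_lt_ncard (Set.toFinite Γ)).1 hΓ1
  obtain ⟨h0, hh0, -⟩ := hJ' x hx y hy
  have hh1 : h0 ≠ 1 := by
    rintro rfl
    rw [one_smul] at hh0
    exact hxy hh0
  have htop : (⊤ : Subgroup G) ≠ ⊥ := by
    intro h
    apply hh1
    have : h0 ∈ (⊤ : Subgroup G) := Subgroup.mem_top h0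
    rw [h] at this
    exact this
  have hT := hqp ⊤ inferInstance htop
  have htr : ∀ w : Ω, ∃ g : G, g • x = w := by
    intro w
    obtain ⟨g, hg⟩ := hT.exists_smul_eq x w
    exact ⟨g, hg⟩
  have hst : MulAction.stabilizer G x ≠ ⊤ := by
    intro h
    have h1 : h0 ∈ MulAction.stabilizer G x := by rw [h]; exact Subgroup.mem_top h0
    rw [MulAction.mem_stabilizer_iff, hh0] at h1
    exact hxy h1.symm
  obtain ⟨M, hM, hxM⟩ := (eq_top_or_exists_le_coatom (MulAction.stabilizer G x)).resolve_left hst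
  have := Fintype.ofFinite (G ⧸ M)
  have hnt : Nontrivial (G ⧸ M) := by
    rw [← not_subsingleton_iff_nontrivial]
    intro h
    exact hM.1 (QuotientGroup.subgroup_eq_top_of_subsingleton M h)
  have hprim : MulAction.IsPreprimitive G (G ⧸ M) :=
    (MulAction.isCoatom_stabilizer_iff_preprimitive G ((1 : G) : G ⧸ M)).1 (by
      rw [MulAction.stabilizer_quotient]; exact hM)
  choose f hf using htr
  have hπ : ∀ (g : G) (w : Ω), ((f (g • w) : G) : G ⧸ M) = g • ((f w : G) : G ⧸ M) := by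
    intro g w
    rw [MulAction.Quotient.smul_coe, smul_eq_mul, QuotientGroup.eq]
    apply hxM
    rw [MulAction.mem_stabilizer_iff, mul_smul, mul_smul, hf, inv_smul_eq_iff, hf]
  have hΓe : Γ.toFinset.card = Γ.ncard := by rw [Set.ncard_eq_toFinset_card']
  apply H74.Marg.quasi hqp hprim (Fintype.one_lt_card_iff_nontrivial.2 hnt) (fun w => ((f w : G) : G ⧸ M)) hπ
    (Γ := Γ.toFinset)
  · rw [hΓe]; exact hΓ1
  · rw [hΓe]; exact hΓ2
  · intro a ha b hb
    rw [Set.mem_toFinset] at ha hb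
    obtain ⟨h, h1, h2⟩ := hJ' a ha b hb
    exact ⟨h, h1, fun z hz => h2 z (fun h => hz (Set.mem_toFinset.2 h))⟩

end Cfsg.Agent.S3620
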