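import Cfsg.Statements.S3627
import Cfsg.Agent.J1.Spectrum
import Mathlib.GroupTheory.SpecificGroups.Dihedral

set_option autoImplicit false
open Cfsg

namespace Cfsg.Agent.S3627

open Cfsg.Agent.J1

/-- The proper divisors of `43890`. -/
def L : List ℕ := [1, 2, 3, 5, 6, 7, 10, 11, 14, 15, 19, 21, 22, 30, 33, 35, 38, 42, 55, 57, 66, 70,
  77, 95, 105, 110, 114, 133, 154, 165, 190, 209, 210, 231, 266, 285, 330, 385, 399, 418, 462, 570,
  627, 665, 770, 798, 1045, 1155, 1254, 1330, 1463, 1995, 2090, 2310, 2926, 3135, 3990, 4389, 6270,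
  7315, 8778, 14630, 21945]

def P2 : List ℕ := [1, 2, 3, 5, 6, 7, 10, 11, 14, 15, 19, 21, 22, 30, 33, 35, 38, 42, 55, 57, 66, 70, 77, 95, 105, 110, 114, 133, 165, 190, 209, 285]

theorem lcm_spec2 : ∀ a ∈ spec, ∀ b ∈ spec, Nat.lcm a b ∈ P2 := by
  decide +kernel

theorem lcm_P2 : ∀ a ∈ P2, ∀ b ∈ P2, Nat.lcm a b ∈ L := by
  decide +kernel

theorem lcm_spec : ∀ a ∈ spec, ∀ b ∈ spec, ∀ c ∈ spec, ∀ d ∈ spec,
    Nat.lcm a (Nat.lcm b (Nat.lcm c d)) ∈ L := by
  intro a ha b hb c hc d hd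
  rw [← Nat.lcm_assoc]
  exact lcm_P2 _ (lcm_spec2 a ha b hb) _ (lcm_spec2 c hc d hd)

def wa (n : ℕ) : ℕ := if n % 7 = 0 then 7 else if n % 30 = 0 then 5 else 1
def wb (n : ℕ) : ℕ := if n % 11 = 0 then 11 else if n % 30 = 0 then 5 else 1
def wc (n : ℕ) : ℕ := if n % 19 = 0 then 19 else if n % 30 = 0 then 5 else 1
def wd (n : ℕ) : ℕ := if n % 30 = 0 then 6 else Nat.gcd n 30

theorem spec_lcm : ∀ n ∈ L, wa n ∈ spec ∧ wb n ∈ spec ∧ wc n ∈ spec ∧ wd n ∈ spec ∧
    Nat.lcm (wa n) (Nat.lcm (wb n) (Nat.lcm (wc n) (wd n))) = n := by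
  decide +kernel

theorem range_J4 : Set.range (orderOf : ↥Cfsg.Spor.J1 × ↥Cfsg.Spor.J1 × ↥Cfsg.Spor.J1 × ↥Cfsg.Spor.J1 → ℕ) =
    {n | n ∈ L} := by
  ext n
  rw [Set.mem_range, Set.mem_ofPred_eq]
  constructor
  · rintro ⟨⟨a, b, c, d⟩, rfl⟩
    rw [Prod.orderOf, Prod.orderOf, Prod.orderOf]
    exact lcm_spec _ (orderOf_mem_spec a) _ (orderOf_mem_spec b) _ (orderOf_mem_spec c)
      _ (orderOf_mem_spec d)
  · intro h
    obtain ⟨ha, hb, hc, hd, hn⟩ := spec_lcm n h
    obtain ⟨a, ha'⟩ := exists_of_mem_spec ha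
    obtain ⟨b, hb'⟩ := exists_of_mem_spec hb
    obtain ⟨c, hc'⟩ := exists_of_mem_spec hc
    obtain ⟨d, hd'⟩ := exists_of_mem_spec hd
    refine ⟨(a, b, c, d), ?_⟩
    rw [Prod.orderOf, Prod.orderOf, Prod.orderOf]
    simp only []
    rw [ha', hb', hc', hd', hn]

/-! ### The solvable group -/

/-- Inversion action. -/
def invAct (N : Type) [CommGroup N] : ℤˣ →* MulAut N where
  toFun u := if u = 1 then 1 else MulEquiv.inv N
  map_one' := by simp
  map_mul' := by
    intro u v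
    have h : (-1 : ℤˣ) ≠ 1 := by decide
    have hinv : (MulEquiv.inv N : MulAut N) * MulEquiv.inv N = 1 := by
      ext x
      simp [MulAut.mul_apply]
    rcases Int.units_eq_one_or u with rfl | rfl <;> rcases Int.units_eq_one_or v with rfl | rfl
    · simp
    · simp [h]
    · simp [h]
    · simp [h, hinv]

theorem invAct_neg (N : Type) [CommGroup N] : invAct N (-1) = MulEquiv.inv N := by
  have h : (-1 : ℤˣ) ≠ 1 := by decide
  change (if (-1 : ℤˣ) = 1 then (1 : MulAut N) else MulEquiv.inv N) = _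
  rw [if_neg h]

abbrev V (k : ℕ) := Multiplicative (Fin k → ZMod 3)

abbrev T (k : ℕ) := V k ⋊[invAct (V k)] ℤˣ

theorem V_pow (k : ℕ) (v : V k) : v ^ 3 = 1 := by
  apply Multiplicative.toAdd.injective
  funext i
  change (3 • (Multiplicative.toAdd v)) i = 0
  rw [Pi.smul_apply]
  have : ∀ x : ZMod 3, 3 • x = 0 := by decide
  exact this _

theorem T_order (k : ℕ) (g : T k) : orderOf g ∈ [1, 2, 3] := by
  have h : (-1 : ℤˣ) ≠ 1 := by decide
  obtain ⟨v, u⟩ := g
  rcases Int.units_eq_one_or u with rfl | rfl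
  · have h3 : (⟨v, 1⟩ : T k) ^ 3 = 1 := by
      have : (⟨v, 1⟩ : T k) = SemidirectProduct.inl v := rfl
      rw [this, ← map_pow, V_pow, map_one]
    have h4 := (Nat.dvd_prime (by norm_num)).mp (orderOf_dvd_of_pow_eq_one h3)
    rcases h4 with h4 | h4 <;> rw [h4] <;> decide
  · have h3 : (⟨v, -1⟩ : T k) ^ 2 = 1 := by
      rw [pow_two]
      apply SemidirectProduct.ext
      · change v * (invAct (V k) (-1)) v = 1
        rw [invAct_neg]
        exact mul_inv_cancel v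
      · change (-1 : ℤˣ) * (-1 : ℤˣ) = 1
        decide
    have h4 := (Nat.dvd_prime (by norm_num)).mp (orderOf_dvd_of_pow_eq_one h3)
    rcases h4 with h4 | h4 <;> rw [h4] <;> decide

theorem T_exists (k : ℕ) (hk : 0 < k) : ∀ n ∈ [1, 2, 3], ∃ g : T k, orderOf g = n := by
  intro n hn
  simp only [List.mem_cons, List.not_mem_nil, or_false] at hn
  rcases hn with rfl | rfl | rfl
  · exact ⟨1, orderOf_one⟩
  · refine ⟨⟨1, -1⟩, ?_⟩
    have : Fact (Nat.Prime 2) := ⟨by norm_num⟩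
    apply orderOf_eq_prime
    · rw [pow_two]
      apply SemidirectProduct.ext
      · change (1 : V k) * (invAct (V k) (-1)) 1 = 1
        rw [map_one, mul_one]
      · change (-1 : ℤˣ) * (-1 : ℤˣ) = 1
        decide
    · intro h
      have h1 : (-1 : ℤˣ) = 1 := congrArg SemidirectProduct.right h
      exact absurd h1 (by decide)
  · refine ⟨SemidirectProduct.inl (Multiplicative.ofAdd (fun _ => 1)), ?_⟩
    have h10 : (1 : ZMod 3) ≠ 0 := by decide
    have : Fact (Nat.Prime 3) := ⟨by norm_num⟩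
    apply orderOf_eq_prime
    · rw [← map_pow, V_pow, map_one]
    · intro h
      have h1 := congrArg SemidirectProduct.left h
      exact h10 (congrFun (congrArg Multiplicative.toAdd h1) ⟨0, hk⟩)

theorem D_order (p : ℕ) (hp : p.Prime) (g : DihedralGroup p) : orderOf g ∈ [1, 2, p] := by
  have : NeZero p := ⟨hp.pos.ne'⟩
  rcases g with i | i
  · have h1 : orderOf (DihedralGroup.r i) ∣ p := by
      rw [DihedralGroup.orderOf_r]
      exact Nat.div_dvd_of_dvd (Nat.gcd_dvd_left _ _)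
    rcases (Nat.dvd_prime hp).mp h1 with h | h <;> rw [h] <;> simp
  · rw [DihedralGroup.orderOf_sr]
    simp

theorem D_exists (p : ℕ) (hp : p.Prime) : ∀ n ∈ [1, 2, p], ∃ g : DihedralGroup p, orderOf g = n := by
  intro n hn
  simp only [List.mem_cons, List.not_mem_nil, or_false] at hn
  rcases hn with rfl | rfl | rfl
  · exact ⟨1, orderOf_one⟩
  · exact ⟨DihedralGroup.sr 0, DihedralGroup.orderOf_sr 0⟩
  · exact ⟨DihedralGroup.r 1, DihedralGroup.orderOf_r_one⟩

theorem lcm_H : ∀ a ∈ [1, 2, 3], ∀ b ∈ [1, 2, 5], ∀ c ∈ [1, 2, 7], ∀ d ∈ [1, 2, 11],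
    ∀ e ∈ [1, 2, 19], Nat.lcm a (Nat.lcm b (Nat.lcm c (Nat.lcm d e))) ∈ L := by
  decide +kernel

def w (p n : ℕ) : ℕ := if n % p = 0 then p else if n % 2 = 0 then 2 else 1

theorem H_lcm : ∀ n ∈ L, w 3 n ∈ [1, 2, 3] ∧ w 5 n ∈ [1, 2, 5] ∧ w 7 n ∈ [1, 2, 7] ∧
    w 11 n ∈ [1, 2, 11] ∧ w 19 n ∈ [1, 2, 19] ∧
    Nat.lcm (w 3 n) (Nat.lcm (w 5 n) (Nat.lcm (w 7 n) (Nat.lcm (w 11 n) (w 19 n)))) = n := by
  decide +kernel

abbrev HH (k : ℕ) := T k × DihedralGroup 5 × DihedralGroup 7 × DihedralGroup 11 × DihedralGroup 19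

theorem range_HH (k : ℕ) (hk : 0 < k) : Set.range (orderOf : HH k → ℕ) = {n | n ∈ L} := by
  ext n
  rw [Set.mem_range, Set.mem_ofPred_eq]
  constructor
  · rintro ⟨⟨a, b, c, d, e⟩, rfl⟩
    rw [Prod.orderOf, Prod.orderOf, Prod.orderOf, Prod.orderOf]
    exact lcm_H _ (T_order k a) _ (D_order 5 (by norm_num) b) _ (D_order 7 (by norm_num) c)
      _ (D_order 11 (by norm_num) d) _ (D_order 19 (by norm_num) e)
  · intro h
    obtain ⟨ha, hb, hc, hd, he, hn⟩ := H_lcm n h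
    obtain ⟨a, ha'⟩ := T_exists k hk _ ha
    obtain ⟨b, hb'⟩ := D_exists 5 (by norm_num) _ hb
    obtain ⟨c, hc'⟩ := D_exists 7 (by norm_num) _ hc
    obtain ⟨d, hd'⟩ := D_exists 11 (by norm_num) _ hd
    obtain ⟨e, he'⟩ := D_exists 19 (by norm_num) _ he
    refine ⟨(a, b, c, d, e), ?_⟩
    rw [Prod.orderOf, Prod.orderOf, Prod.orderOf, Prod.orderOf]
    simp only []
    rw [ha', hb', hc', hd', he', hn]

theorem card_HH (N : ℕ) : N < Nat.card (HH (N + 1)) := by
  have h1 : Nat.card (V (N + 1)) = 3 ^ (N + 1) := by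
    rw [Nat.card_eq_fintype_card, Fintype.card_multiplicative, Fintype.card_fun, ZMod.card,
      Fintype.card_fin]
  have h2 : Nat.card (V (N + 1)) ≤ Nat.card (HH (N + 1)) := by
    have hfin : Finite (T (N + 1)) := Finite.of_injective
      (fun g : T (N + 1) => (g.left, g.right)) (by
        intro g g' h
        simp only [Prod.mk.injEq] at h
        exact SemidirectProduct.ext h.1 h.2)
    apply Nat.card_le_card_of_injective
      (fun v : V (N + 1) => ((SemidirectProduct.inl v, 1, 1, 1, 1) : HH (N + 1)))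
    intro v v' h
    exact SemidirectProduct.inl_injective (congrArg Prod.fst h)
  have h3 : N + 1 < 3 ^ (N + 1) := Nat.lt_pow_self (by norm_num)
  omega

/-- Let J be the first Janko group. Then there are finite groups of arbitrarily large order with exactly the same set of element orders as J × J × J × J. -/
theorem result (N : ℕ) : ∃ (H : Type) (_ : Group H) (_ : Fintype H), N < Fintype.card H ∧
      Set.range (orderOf : H → ℕ) = Set.range (orderOf : ↥Cfsg.Spor.J1 × ↥Cfsg.Spor.J1 × ↥Cfsg.Spor.J1 × ↥Cfsg.Spor.J1 → ℕ) := by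
  classical
  have hfin : Finite (T (N + 1)) := Finite.of_injective
    (fun g : T (N + 1) => (g.left, g.right)) (by
      intro g g' h
      simp only [Prod.mk.injEq] at h
      exact SemidirectProduct.ext h.1 h.2)
  let hft : Fintype (HH (N + 1)) := Fintype.ofFinite _
  refine ⟨HH (N + 1), inferInstance, hft, ?_, ?_⟩
  · rw [← Nat.card_eq_fintype_card]
    exact card_HH N
  · rw [range_HH (N + 1) (Nat.succ_pos N), range_J4]

end Cfsg.Agent.S3627
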