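import Cfsg.Statements.S3639
import Cfsg.Agent.H61.PrimeGraphExt
-- import your own Cfsg.Agent.* helpers here

set_option autoImplicit false
open Cfsg

namespace Cfsg.Agent.S3639

open Matrix Cfsg.Lie

/-- The matrix `antidiag(1,1,1,1)`. -/
def JJ (F : Type*) [Field F] : Matrix (Fin 4) (Fin 4) F := !![0, 0, 0, 1; 0, 0, 1, 0; 0, 1, 0, 0; 1, 0, 0, 0]

/-- the form on columns / rows as explicit expressions -/
def colForm {F : Type*} [Field F] (g : Matrix (Fin 4) (Fin 4) F) (i j : Fin 4) : F :=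
  g 0 i * g 3 j + g 1 i * g 2 j + g 2 i * g 1 j + g 3 i * g 0 j

def rowForm {F : Type*} [Field F] (g : Matrix (Fin 4) (Fin 4) F) (i j : Fin 4) : F :=
  g i 0 * g j 3 + g i 1 * g j 2 + g i 2 * g j 1 + g i 3 * g j 0

/-- `g` (a matrix) preserves the form, on columns. -/
def IsSp {F : Type*} [Field F] (g : Matrix (Fin 4) (Fin 4) F) : Prop := gᵀ * JJ F * g = JJ F

theorem colForm_eq {F : Type*} [Field F] (g : Matrix (Fin 4) (Fin 4) F) (i j : Fin 4) :
    (gᵀ * JJ F * g) i j = colForm g i j := by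
  simp only [Matrix.mul_apply, Fin.sum_univ_four, Matrix.transpose_apply, JJ, colForm, Matrix.of_apply,
    Matrix.cons_val', Matrix.cons_val_zero, Matrix.cons_val_one, Matrix.cons_val_fin_one, Matrix.cons_val]
  ring

theorem rowForm_eq {F : Type*} [Field F] (g : Matrix (Fin 4) (Fin 4) F) (i j : Fin 4) :
    (g * JJ F * gᵀ) i j = rowForm g i j := by
  simp only [Matrix.mul_apply, Fin.sum_univ_four, Matrix.transpose_apply, JJ, rowForm, Matrix.of_apply,
    Matrix.cons_val', Matrix.cons_val_zero, Matrix.cons_val_one, Matrix.cons_val_fin_one, Matrix.cons_val]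
  ring

theorem JJ_sq (F : Type*) [Field F] : JJ F * JJ F = 1 := by
  ext i j
  fin_cases i <;> fin_cases j <;> simp [JJ, Matrix.mul_apply, Fin.sum_univ_four]

theorem isSp_transpose {F : Type*} [Field F] {g : Matrix (Fin 4) (Fin 4) F} (h : IsSp g) : g * JJ F * gᵀ = JJ F := by
  have h1 : (JJ F * gᵀ * JJ F) * g = 1 := by
    rw [Matrix.mul_assoc, Matrix.mul_assoc, ← Matrix.mul_assoc gᵀ, h, JJ_sq]
  have h2 : g * (JJ F * gᵀ * JJ F) = 1 := mul_eq_one_comm.mp h1
  calc g * JJ F * gᵀ = (g * (JJ F * gᵀ * JJ F)) * JJ F := by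
        simp only [Matrix.mul_assoc, JJ_sq, Matrix.mul_one]
    _ = JJ F := by rw [h2, Matrix.one_mul]

theorem isSp_mul {F : Type*} [Field F] {g h : Matrix (Fin 4) (Fin 4) F} (hg : IsSp g) (hh : IsSp h) : IsSp (g * h) := by
  unfold IsSp at *
  rw [Matrix.transpose_mul]
  calc hᵀ * gᵀ * JJ F * (g * h) = hᵀ * (gᵀ * JJ F * g) * h := by simp only [Matrix.mul_assoc]
    _ = JJ F := by rw [hg, hh]

/-- 2 × 2 minors -/
def minor {F : Type*} [Field F] (g : Matrix (Fin 4) (Fin 4) F) (k l i j : Fin 4) : F := g k i * g l j - g l i * g k j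

theorem minor_mul {F : Type*} [Field F] (g h : Matrix (Fin 4) (Fin 4) F) (k l i j : Fin 4) :
    minor (g * h) k l i j = minor g k l 0 1 * minor h 0 1 i j + minor g k l 0 2 * minor h 0 2 i j +
      minor g k l 1 3 * minor h 1 3 i j + minor g k l 2 3 * minor h 2 3 i j +
      minor g k l 0 3 * minor h 0 3 i j + minor g k l 1 2 * minor h 1 2 i j := by
  simp only [minor, Matrix.mul_apply, Fin.sum_univ_four]
  ring

theorem star4_apply {F : Type*} [Field F] (g : Matrix (Fin 4) (Fin 4) F) (p r : Fin 4) :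
    star4 g p r = minor g (pairOf p).1 (pairOf p).2 (pairOf r).1 (pairOf r).2 := rfl

theorem star4_mul {F : Type*} [Field F] [CharP F 2] {g h : Matrix (Fin 4) (Fin 4) F} (hg : IsSp g) (hh : IsSp h) :
    star4 (g * h) = star4 g * star4 h := by
  have h2 : (2 : F) = 0 := CharP.cast_eq_zero F 2
  have hg' := isSp_transpose hg
  have hJ : ∀ p : Fin 4, JJ F (pairOf p).1 (pairOf p).2 = 0 := by
    intro p; fin_cases p <;> simp [JJ, pairOf]
  ext p r
  rw [star4_apply, minor_mul, Matrix.mul_apply, Fin.sum_univ_four]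
  simp only [star4_apply]
  have e0 : (pairOf 0 : Fin 4 × Fin 4) = (0, 1) := rfl
  have e1 : (pairOf 1 : Fin 4 × Fin 4) = (0, 2) := rfl
  have e2 : (pairOf 2 : Fin 4 × Fin 4) = (1, 3) := rfl
  have e3 : (pairOf 3 : Fin 4 × Fin 4) = (2, 3) := rfl
  rw [e0, e1, e2, e3]
  have hr : rowForm g (pairOf p).1 (pairOf p).2 = 0 := by rw [← rowForm_eq, hg', hJ]
  have hc : colForm h (pairOf r).1 (pairOf r).2 = 0 := by rw [← colForm_eq, hh, hJ]
  simp only [rowForm, colForm] at hr hc
  generalize (pairOf p).1 = k at *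
  generalize (pairOf p).2 = l at *
  generalize (pairOf r).1 = i at *
  generalize (pairOf r).2 = j at *
  have hr' : minor g k l 1 2 = minor g k l 0 3 := by
    simp only [minor]
    linear_combination hr - (g l 1 * g k 2 + g k 0 * g l 3) * h2
  have hc' : minor h 1 2 i j = minor h 0 3 i j := by
    simp only [minor]
    linear_combination hc - (h 2 i * h 1 j + h 0 i * h 3 j) * h2
  rw [hr', hc']
  linear_combination (minor g k l 0 3 * minor h 0 3 i j) * h2

theorem pairOf_0 : pairOf 0 = ((0 : Fin 4), (1 : Fin 4)) := rfl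
theorem pairOf_1 : pairOf 1 = ((0 : Fin 4), (2 : Fin 4)) := rfl
theorem pairOf_2 : pairOf 2 = ((1 : Fin 4), (3 : Fin 4)) := rfl
theorem pairOf_3 : pairOf 3 = ((2 : Fin 4), (3 : Fin 4)) := rfl

theorem star4_one {F : Type*} [Field F] : star4 (1 : Matrix (Fin 4) (Fin 4) F) = 1 := by
  ext p r
  have e : star4 (1 : Matrix (Fin 4) (Fin 4) F) p r =
      (if (pairOf p).1 = (pairOf r).1 ∧ (pairOf p).2 = (pairOf r).2 then (1 : F) else 0) -
      (if (pairOf p).2 = (pairOf r).1 ∧ (pairOf p).1 = (pairOf r).2 then (1 : F) else 0) := by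
    rw [star4_apply, minor, Matrix.one_apply, Matrix.one_apply, Matrix.one_apply, Matrix.one_apply, ite_and, ite_and,
      ite_mul, ite_mul, one_mul, zero_mul]
    rw [one_mul, zero_mul]
  have h1 : ∀ p r : Fin 4, ((pairOf p).1 = (pairOf r).1 ∧ (pairOf p).2 = (pairOf r).2) ↔ p = r := by decide
  have h2 : ∀ p r : Fin 4, ¬ ((pairOf p).2 = (pairOf r).1 ∧ (pairOf p).1 = (pairOf r).2) := by decide
  rw [e, if_neg (h2 p r), sub_zero, Matrix.one_apply]
  exact if_congr (h1 p r) rfl rfl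

theorem isSp_one {F : Type*} [Field F] : IsSp (1 : Matrix (Fin 4) (Fin 4) F) := by simp [IsSp]

theorem altForm4_single {F : Type*} [Field F] (g : Matrix (Fin 4) (Fin 4) F) (i j : Fin 4) :
    altForm4 (g *ᵥ Pi.single i 1) (g *ᵥ Pi.single j 1) = colForm g i j := by
  rw [Matrix.mulVec_single_one, Matrix.mulVec_single_one]
  rfl

/-- The defining property of the Suzuki groups. -/
def Good {F : Type*} [Field F] (θ : F →+* F) (g : Matrix (Fin 4) (Fin 4) F) : Prop :=
  IsSp g ∧ star4 g = g.map θ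

theorem good_of_mem {F : Type*} [Field F] [CharP F 2] (θ : F →+* F) (e : ℕ) (hθ : ∀ x, θ x = x ^ e)
    (g : GL (Fin 4) F) (hg : g ∈ Sz F e) : Good θ (g : Matrix (Fin 4) (Fin 4) F) := by
  have hθ' : (fun x : F => x ^ e) = θ := by ext x; rw [hθ]
  unfold Sz at hg
  induction hg using Subgroup.closure_induction with
  | mem x hx =>
    obtain ⟨h1, h2⟩ := hx
    refine ⟨?_, by rw [h2, hθ']⟩
    have h3 : ∀ u v, altForm4 ((x : Matrix (Fin 4) (Fin 4) F) *ᵥ u) ((x : Matrix (Fin 4) (Fin 4) F) *ᵥ v) = altForm4 u v := h1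
    ext i j
    rw [colForm_eq, ← altForm4_single, h3]
    have := altForm4_single (1 : Matrix (Fin 4) (Fin 4) F) i j
    rw [Matrix.one_mulVec, Matrix.one_mulVec] at this
    rw [this, ← colForm_eq]
    simp
  | one =>
    refine ⟨isSp_one, ?_⟩
    rw [Units.val_one, star4_one]
    exact (Matrix.map_one θ (map_zero θ) (map_one θ)).symm
  | mul x y _ _ hx hy =>
    refine ⟨isSp_mul hx.1 hy.1, ?_⟩
    rw [Units.val_mul, star4_mul hx.1 hy.1, hx.2, hy.2]
    exact (Matrix.map_mul).symm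
  | inv x _ hx =>
    have e1 : (x : Matrix (Fin 4) (Fin 4) F) * ((x⁻¹ : GL (Fin 4) F) : Matrix (Fin 4) (Fin 4) F) = 1 := by
      rw [← Units.val_mul, mul_inv_cancel, Units.val_one]
    have hinv : IsSp ((x⁻¹ : GL (Fin 4) F) : Matrix (Fin 4) (Fin 4) F) := by
      have hx1 : _ = _ := hx.1
      unfold IsSp
      rw [← hx1]
      have e2 : ((x⁻¹ : GL (Fin 4) F) : Matrix (Fin 4) (Fin 4) F)ᵀ * (x : Matrix (Fin 4) (Fin 4) F)ᵀ = 1 := by
        rw [← Matrix.transpose_mul, e1, Matrix.transpose_one]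
      calc ((x⁻¹ : GL (Fin 4) F) : Matrix (Fin 4) (Fin 4) F)ᵀ * ((x : Matrix (Fin 4) (Fin 4) F)ᵀ * JJ F * (x : Matrix (Fin 4) (Fin 4) F)) *
            ((x⁻¹ : GL (Fin 4) F) : Matrix (Fin 4) (Fin 4) F)
          = (((x⁻¹ : GL (Fin 4) F) : Matrix (Fin 4) (Fin 4) F)ᵀ * (x : Matrix (Fin 4) (Fin 4) F)ᵀ) * JJ F *
              ((x : Matrix (Fin 4) (Fin 4) F) * ((x⁻¹ : GL (Fin 4) F) : Matrix (Fin 4) (Fin 4) F)) := by
            simp only [Matrix.mul_assoc]
        _ = JJ F := by rw [e1, e2, Matrix.one_mul, Matrix.mul_one]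
        _ = _ := hx1.symm
    refine ⟨hinv, ?_⟩
    have e3 : star4 (x : Matrix (Fin 4) (Fin 4) F) * star4 ((x⁻¹ : GL (Fin 4) F) : Matrix (Fin 4) (Fin 4) F) = 1 := by
      rw [← star4_mul hx.1 hinv, e1, star4_one]
    have e4 : (x : Matrix (Fin 4) (Fin 4) F).map θ * ((x⁻¹ : GL (Fin 4) F) : Matrix (Fin 4) (Fin 4) F).map θ = 1 := by
      rw [← Matrix.map_mul, e1]
      exact Matrix.map_one θ (map_zero θ) (map_one θ)
    rw [hx.2] at e3
    have e5 := mul_eq_one_comm.mp e4
    exact (left_inv_eq_right_inv e5 e3).symm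

/-- In a Suzuki group, an element with a nonzero fixed vector has order dividing 4. -/
theorem pow_four_of_fix {F : Type*} [Field F] [CharP F 2] (θ : F →+* F) (g : Matrix (Fin 4) (Fin 4) F)
    (hg : Good θ g) (v : Fin 4 → F) (hv : v ≠ 0) (hgv : g *ᵥ v = v) : g ^ 4 = 1 := by
  have h2 : (2 : F) = 0 := CharP.cast_eq_zero F 2
  obtain ⟨hsp, hst⟩ := hg
  have hsp' := isSp_transpose hsp
  have hcol : ∀ i j, colForm g i j = JJ F i j := fun i j => by rw [← colForm_eq, hsp]
  have hrow : ∀ i j, rowForm g i j = JJ F i j := fun i j => by rw [← rowForm_eq, hsp']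
  -- the inverse
  set g' := JJ F * gᵀ * JJ F with hg'
  have hinv : g' * g = 1 := by
    rw [hg', Matrix.mul_assoc, Matrix.mul_assoc, ← Matrix.mul_assoc gᵀ, hsp, JJ_sq]
  have hinv' : g * g' = 1 := mul_eq_one_comm.mp hinv
  have hg'_apply : ∀ i j, g' i j = g (3 - j) (3 - i) := by
    intro i j
    rw [hg']
    simp only [Matrix.mul_apply, Fin.sum_univ_four, Matrix.transpose_apply, JJ, Matrix.of_apply]
    fin_cases i <;> fin_cases j <;> simp
  set a := g 0 0 + g 3 3 with ha
  set b := g 0 1 + g 2 3 with hb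
  set c := g 0 2 + g 1 3 with hc
  set d := g 1 0 + g 3 2 with hd
  set e := g 2 0 + g 3 1 with he
  set f := g 1 1 + g 2 2 with hf
  have hs : g + g' = !![a, b, c, 0; d, f, 0, c; e, 0, f, b; 0, e, d, a] := by
    ext i j
    rw [Matrix.add_apply, hg'_apply]
    fin_cases i <;> fin_cases j <;> first | exact rfl | exact add_comm _ _ | exact CharTwo.add_self_eq_zero _
  have hss : (g + g') * (g + g') + (a + f) • (g + g') = (a * f + b * d + c * e) • (1 : Matrix (Fin 4) (Fin 4) F) := by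
    rw [hs]
    ext i j
    rw [Matrix.add_apply, Matrix.mul_apply, Fin.sum_univ_four, Matrix.smul_apply, Matrix.smul_apply]
    fin_cases i <;> fin_cases j
    · change a * a + b * d + c * e + 0 * 0 + (a + f) * a = (a * f + b * d + c * e) * 1
      linear_combination (a ^ 2) * h2
    · change a * b + b * f + c * 0 + 0 * e + (a + f) * b = (a * f + b * d + c * e) * 0
      linear_combination (b * (a + f)) * h2
    · change a * c + b * 0 + c * f + 0 * d + (a + f) * c = (a * f + b * d + c * e) * 0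
      linear_combination (c * (a + f)) * h2
    · change a * 0 + b * c + c * b + 0 * a + (a + f) * 0 = (a * f + b * d + c * e) * 0
      linear_combination (b * c) * h2
    · change d * a + f * d + 0 * e + c * 0 + (a + f) * d = (a * f + b * d + c * e) * 0
      linear_combination (d * (a + f)) * h2
    · change d * b + f * f + 0 * 0 + c * e + (a + f) * f = (a * f + b * d + c * e) * 1
      linear_combination (f ^ 2) * h2
    · change d * c + f * 0 + 0 * f + c * d + (a + f) * 0 = (a * f + b * d + c * e) * 0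
      linear_combination (d * c) * h2
    · change d * 0 + f * c + 0 * b + c * a + (a + f) * c = (a * f + b * d + c * e) * 0
      linear_combination (c * (a + f)) * h2
    · change e * a + 0 * d + f * e + b * 0 + (a + f) * e = (a * f + b * d + c * e) * 0
      linear_combination (e * (a + f)) * h2
    · change e * b + 0 * f + f * 0 + b * e + (a + f) * 0 = (a * f + b * d + c * e) * 0
      linear_combination (b * e) * h2
    · change e * c + 0 * 0 + f * f + b * d + (a + f) * f = (a * f + b * d + c * e) * 1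
      linear_combination (f ^ 2) * h2
    · change e * 0 + 0 * c + f * b + b * a + (a + f) * b = (a * f + b * d + c * e) * 0
      linear_combination (b * (a + f)) * h2
    · change 0 * a + e * d + d * e + a * 0 + (a + f) * 0 = (a * f + b * d + c * e) * 0
      linear_combination (d * e) * h2
    · change 0 * b + e * f + d * 0 + a * e + (a + f) * e = (a * f + b * d + c * e) * 0
      linear_combination (e * (a + f)) * h2
    · change 0 * c + e * 0 + d * f + a * d + (a + f) * d = (a * f + b * d + c * e) * 0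
      linear_combination (d * (a + f)) * h2
    · change 0 * 0 + e * c + d * b + a * a + (a + f) * a = (a * f + b * d + c * e) * 1
      linear_combination (a ^ 2) * h2
  -- the trace relation
  have hE : a * f + b * d + c * e = θ (a + f) := by
    have c03 : colForm g 0 3 = 1 := hcol 0 3
    have r03 : rowForm g 0 3 = 1 := hrow 0 3
    have s0 : g 0 0 * g 1 1 - g 1 0 * g 0 1 = θ (g 0 0) := congrFun (congrFun hst 0) 0
    have s1 : g 0 0 * g 2 2 - g 2 0 * g 0 2 = θ (g 1 1) := congrFun (congrFun hst 1) 1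
    have s2 : g 1 1 * g 3 3 - g 3 1 * g 1 3 = θ (g 2 2) := congrFun (congrFun hst 2) 2
    have s3 : g 2 2 * g 3 3 - g 3 2 * g 2 3 = θ (g 3 3) := congrFun (congrFun hst 3) 3
    simp only [colForm, rowForm] at c03 r03
    rw [ha, hb, hc, hd, he, hf, map_add, map_add, map_add]
    linear_combination c03 + r03 + s0 + s1 + s2 + s3 +
      (g 0 1 * g 1 0 + g 2 3 * g 3 2 + g 0 2 * g 2 0 + g 1 3 * g 3 1 + 1 - g 0 0 * g 3 3 - g 0 3 * g 3 0) * h2
  have hsv : (g + g') *ᵥ v = 0 := by
    have h5 : g' *ᵥ v = v := by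
      calc g' *ᵥ v = g' *ᵥ (g *ᵥ v) := by rw [hgv]
        _ = v := by rw [Matrix.mulVec_mulVec, hinv, Matrix.one_mulVec]
    rw [Matrix.add_mulVec, hgv, h5]
    ext i
    exact CharTwo.add_self_eq_zero _
  have hE0 : a * f + b * d + c * e = 0 := by
    have h6 := congrArg (fun M => M *ᵥ v) hss
    simp only [Matrix.add_mulVec, ← Matrix.mulVec_mulVec, Matrix.smul_mulVec, hsv, Matrix.mulVec_zero, smul_zero,
      add_zero, Matrix.one_mulVec] at h6
    exact (smul_eq_zero.mp h6.symm).resolve_right hv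
  have haf : a + f = 0 := by
    rw [hE] at hE0
    exact (map_eq_zero θ).mp hE0
  have hs2 : (g + g') * (g + g') = 0 := by
    rw [haf, hE0, zero_smul, zero_smul, add_zero] at hss
    exact hss
  have h7 : g ^ 4 + 1 = 0 := by
    have h8 : g * g * ((g + g') * (g + g')) = 0 := by rw [hs2, Matrix.mul_zero]
    have h9 : (g + g') * (g + g') = g * g + (1 + 1) + g' * g' := by
      rw [add_mul, mul_add, mul_add, hinv, hinv']; abel
    have h10 : (1 + 1 : Matrix (Fin 4) (Fin 4) F) = 0 := by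
      ext i j
      exact CharTwo.add_self_eq_zero _
    rw [h9, h10, add_zero, mul_add] at h8
    have h11 : g * g * (g' * g') = 1 := by
      rw [Matrix.mul_assoc, ← Matrix.mul_assoc g g' g', hinv', Matrix.one_mul, hinv']
    rw [h11] at h8
    rw [← h8]
    congr 1
    simp only [pow_succ, pow_zero, one_mul, Matrix.mul_assoc]
  have h12 : g ^ 4 = -1 := eq_neg_of_add_eq_zero_left h7
  rw [h12]
  ext i j
  rw [Matrix.neg_apply]
  exact CharTwo.neg_eq _

/-- Let S be the Suzuki group over the field with q = 2^(2m+1) ≥ 8 elements. Then there are finite groups of arbitrarily large order with the same prime graph as S. -/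
theorem result {F : Type*} [Field F] [Fintype F] {m : ℕ} (hm : 1 ≤ m) (hF : Fintype.card F = 2 ^ (2 * m + 1)) (N : ℕ) :
    ∃ (H : Type) (_ : Group H) (_ : Fintype H), N < Fintype.card H ∧ ((∀ r : ℕ, r.Prime → (r ∣ Nat.card ↥(Cfsg.Lie.Sz F (2 ^ (m + 1))) ↔ r ∣ Nat.card H)) ∧
      (∀ r s : ℕ, r.Prime → s.Prime → r ≠ s → ((∃ x : ↥(Cfsg.Lie.Sz F (2 ^ (m + 1))), orderOf x = r * s) ↔ (∃ y : H, orderOf y = r * s)))) := by
  classical
  have hcp : CharP F 2 := by
    obtain ⟨p, hp⟩ := CharP.exists F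
    have hpp : p.Prime := (CharP.char_is_prime_or_zero F p).resolve_right (CharP.char_ne_zero_of_finite F p)
    obtain ⟨n, -, hn⟩ := FiniteField.card F p
    rw [hF] at hn
    have : p ∣ 2 ^ (2 * m + 1) := by rw [hn]; exact dvd_pow_self p n.ne_zero
    have : p = 2 := (Nat.prime_dvd_prime_iff_eq hpp Nat.prime_two).mp (hpp.dvd_of_dvd_pow this)
    rwa [this] at hp
  let θ : F →+* F := iterateFrobenius F 2 (m + 1)
  have hθ : ∀ x, θ x = x ^ (2 ^ (m + 1)) := fun x => by
    simp only [θ, iterateFrobenius_def]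
  have hJdet : (JJ F) * (JJ F) = 1 := JJ_sq F
  let J : GL (Fin 4) F := ⟨JJ F, JJ F, hJdet, hJdet⟩
  have hJmem : J ∈ Cfsg.Lie.Sz F (2 ^ (m + 1)) := by
    apply Subgroup.subset_closure
    refine ⟨?_, ?_⟩
    · intro u v
      change altForm4 (JJ F *ᵥ u) (JJ F *ᵥ v) = altForm4 u v
      simp only [altForm4, JJ, Matrix.mulVec, dotProduct, Fin.sum_univ_four, Matrix.of_apply, Matrix.cons_val',
        Matrix.cons_val_zero, Matrix.cons_val_one, Matrix.cons_val_fin_one, Matrix.cons_val]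
      ring
    · change star4 (JJ F) = (JJ F).map (fun x => x ^ (2 ^ (m + 1)))
      have hz : (0 : F) ^ (2 ^ (m + 1)) = 0 := zero_pow (pow_ne_zero _ two_ne_zero)
      have h1n : (-1 : F) = 1 := CharTwo.neg_eq 1
      ext p r
      rw [star4_apply, Matrix.map_apply]
      fin_cases p <;> fin_cases r <;> simp [minor, pairOf, JJ, hz]
      all_goals exact h1n
  have hJsq : (⟨J, hJmem⟩ : ↥(Cfsg.Lie.Sz F (2 ^ (m + 1)))) ^ 2 = 1 := by
    apply Subtype.ext
    apply Units.ext
    change JJ F ^ 2 = 1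
    rw [pow_two, hJdet]
  have hJne : (⟨J, hJmem⟩ : ↥(Cfsg.Lie.Sz F (2 ^ (m + 1)))) ≠ 1 := by
    intro h
    have h1 : JJ F = 1 := congrArg (fun x : ↥(Cfsg.Lie.Sz F (2 ^ (m + 1))) => ((x : GL (Fin 4) F) : Matrix (Fin 4) (Fin 4) F)) h
    have h2 := congrFun (congrFun h1 0) 0
    simp [JJ] at h2
  have h2card : 2 ∣ Nat.card ↥(Cfsg.Lie.Sz F (2 ^ (m + 1))) := by
    have h5 := orderOf_dvd_natCard (⟨J, hJmem⟩ : ↥(Cfsg.Lie.Sz F (2 ^ (m + 1))))
    rwa [orderOf_eq_prime hJsq hJne] at h5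
  obtain ⟨H, hG, hfin, hN, hsame⟩ := Cfsg.Agent.H61.unbounded_of_matrixRep (G := ↥(Cfsg.Lie.Sz F (2 ^ (m + 1)))) (F := F) 2
    Nat.prime_two ((Units.coeHom (Matrix (Fin 4) (Fin 4) F)).comp (Cfsg.Lie.Sz F (2 ^ (m + 1))).subtype) h2card
    (by
      intro r hr hr2 g hg v hv hgv
      exfalso
      have h3 := pow_four_of_fix θ ((g : GL (Fin 4) F) : Matrix (Fin 4) (Fin 4) F) (good_of_mem θ _ hθ g g.2) v hv hgv
      have h4 : g ^ 4 = 1 := by
        apply Subtype.ext
        apply Units.ext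
        rw [Subgroup.coe_pow, Units.val_pow_eq_pow_val, h3]
        rfl
      have h5 := orderOf_dvd_of_pow_eq_one h4
      rw [hg, show (4 : ℕ) = 2 ^ 2 by norm_num] at h5
      exact hr2 ((Nat.prime_dvd_prime_iff_eq hr Nat.prime_two).mp (hr.dvd_of_dvd_pow h5))) N
  have hft : Fintype H := Fintype.ofFinite H
  refine ⟨H, hG, hft, ?_, hsame⟩
  rw [← Nat.card_eq_fintype_card]
  exact hN

end Cfsg.Agent.S3639
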