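import Cfsg.Statements.S3641
import Mathlib
import Cfsg.Agent.H37.SNC
import Cfsg.Agent.H34.Sharp3PGL

set_option autoImplicit false
open Cfsg

namespace Cfsg.Agent.S3641

/-- Let G be a finite group with trivial centre whose set of Sylow numbers (numbers of Sylow r-subgroups, r over the prime divisors of its order) is exactly {18, 136, 153}. Then G is isomorphic to PSL(2, 17) or to PGL(2, 17). -/
theorem result {G : Type*} [Group G] [Finite G] (hZ : Subgroup.center G = ⊥) (hNS : {c : ℕ | ∃ r : ℕ, r.Prime ∧ r ∣ Nat.card G ∧ c = Nat.card (Sylow r G)} = ({18, 136, 153} : Set ℕ))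
    {F : Type*} [Field F] [Fintype F] (hF : Fintype.card F = 17) :
    Nonempty (G ≃* Matrix.ProjectiveSpecialLinearGroup (Fin 2) F) ∨ Nonempty (G ≃* (GL (Fin 2) F ⧸ Subgroup.center (GL (Fin 2) F))) := by
  classical
  have f2 : Fact (Nat.Prime 2) := ⟨Nat.prime_two⟩
  have f3 : Fact (Nat.Prime 3) := ⟨Nat.prime_three⟩
  have f17 : Fact (Nat.Prime 17) := ⟨by norm_num⟩
  have hval : ∀ r : ℕ, r.Prime → r ∣ Nat.card G →
      Nat.card (Sylow r G) = 18 ∨ Nat.card (Sylow r G) = 136 ∨ Nat.card (Sylow r G) = 153 := by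
    intro r hr hrG
    have h1 : Nat.card (Sylow r G) ∈ {c : ℕ | ∃ r : ℕ, r.Prime ∧ r ∣ Nat.card G ∧ c = Nat.card (Sylow r G)} :=
      ⟨r, hr, hrG, rfl⟩
    rw [hNS] at h1
    simpa using h1
  have hmod : ∀ r : ℕ, r.Prime → Nat.card (Sylow r G) % r = 1 := by
    intro r hr
    have : Fact r.Prime := ⟨hr⟩
    have h1 : Nat.card (Sylow r G) % r = 1 % r := card_sylow_modEq_one r G
    rw [h1, Nat.mod_eq_of_lt hr.one_lt]
  have hdvd : ∀ r : ℕ, r.Prime → Nat.card (Sylow r G) ∣ Nat.card G := by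
    intro r hr
    have : Fact r.Prime := ⟨hr⟩
    obtain ⟨R⟩ : Nonempty (Sylow r G) := inferInstance
    exact R.card_dvd_index.trans (Subgroup.index_dvd_card _)
  -- the prime 17
  have h18 : (18 : ℕ) ∈ {c : ℕ | ∃ r : ℕ, r.Prime ∧ r ∣ Nat.card G ∧ c = Nat.card (Sylow r G)} := by
    rw [hNS]; simp
  obtain ⟨r0, hr0, hr0G, hr0c⟩ := h18
  have hr17 : r0 = 17 := by
    have h1 := hmod r0 hr0
    rw [← hr0c] at h1
    have h2 : r0 ∣ 17 := by
      have h3 := Nat.div_add_mod 18 r0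
      rw [h1] at h3
      exact ⟨18 / r0, by omega⟩
    exact (Nat.prime_dvd_prime_iff_eq hr0 (by norm_num)).1 h2
  rw [hr17] at hr0c hr0G
  have hG18 : 18 ∣ Nat.card G := by
    rw [hr0c]; exact hdvd 17 (by norm_num)
  have hG2 : 2 ∣ Nat.card G := (by norm_num : 2 ∣ 18).trans hG18
  have hG3 : 3 ∣ Nat.card G := (by norm_num : 3 ∣ 18).trans hG18
  have hn2 : Nat.card (Sylow 2 G) = 153 := by
    have h1 := hmod 2 Nat.prime_two
    have h2 := hval 2 Nat.prime_two hG2
    omega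
  have hn3 : Nat.card (Sylow 3 G) = 136 := by
    have h1 := hmod 3 Nat.prime_three
    have h2 := hval 3 Nat.prime_three hG3
    omega
  have hprimes : ∀ r : ℕ, r.Prime → r ∣ Nat.card G → r = 2 ∨ r = 3 ∨ r = 17 ∨
      (r = 5 ∧ Nat.card (Sylow r G) = 136) ∨ (r = 19 ∧ Nat.card (Sylow r G) = 153) := by
    intro r hr hrG
    have h1 := hmod r hr
    have h3 := Nat.div_add_mod (Nat.card (Sylow r G)) r
    rw [h1] at h3
    have h4 : r ∣ Nat.card (Sylow r G) - 1 := ⟨Nat.card (Sylow r G) / r, by omega⟩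
    rcases hval r hr hrG with h2 | h2 | h2
    · rw [h2] at h4
      have h5 : r ∣ 17 := h4
      have := (Nat.prime_dvd_prime_iff_eq hr (by norm_num)).1 h5
      omega
    · rw [h2] at h4 ⊢
      have h5 : r ∣ 3 ^ 3 * 5 := h4
      rcases hr.dvd_mul.1 h5 with h6 | h6
      · have := (Nat.prime_dvd_prime_iff_eq hr Nat.prime_three).1 (hr.dvd_of_dvd_pow h6)
        omega
      · have := (Nat.prime_dvd_prime_iff_eq hr (by norm_num)).1 h6
        omega
    · rw [h2] at h4 ⊢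
      have h5 : r ∣ 2 ^ 3 * 19 := h4
      rcases hr.dvd_mul.1 h5 with h6 | h6
      · have := (Nat.prime_dvd_prime_iff_eq hr Nat.prime_two).1 (hr.dvd_of_dvd_pow h6)
        omega
      · have := (Nat.prime_dvd_prime_iff_eq hr (by norm_num)).1 h6
        omega
  -- the permutation group
  have hX : Nat.card (Sylow 17 G) = 17 + 1 := hr0c.symm
  have hZ3 := Cfsg.Agent.H37.SN.z3_range (G := G) (p := 17) hX
  let φ := MulAction.toPermHom G (Sylow 17 G)
  obtain ⟨Γ, hΓ⟩ : ∃ Γ, Γ = (MulAction.toPermHom G (Sylow 17 G)).range := ⟨_, rfl⟩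
  rw [← hΓ] at hZ3
  let f : G →* Γ := φ.codRestrict Γ (fun g => by rw [hΓ]; exact ⟨g, rfl⟩)
  have hf : Function.Surjective f := by
    rintro ⟨σ, hσ⟩
    have hσ' := hσ
    rw [hΓ] at hσ'
    obtain ⟨g, hg⟩ := hσ'
    exact ⟨g, Subtype.ext hg⟩
  have hfin : Finite (Sylow 17 G) := inferInstance
  let _ : Fintype (Sylow 17 G) := Fintype.ofFinite _
  have hXc : Fintype.card (Sylow 17 G) = 17 + 1 := by rw [← Nat.card_eq_fintype_card]; exact hX
  have hnt : Nontrivial (Sylow 17 G) := Finite.one_lt_card_iff_nontrivial.1 (by rw [hX]; norm_num)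
  obtain ⟨a, b, hab⟩ := exists_pair_ne (Sylow 17 G)
  have hcard := hZ3.card hab
  have hlt := hZ3.stab2_lt hab (by rw [hX]; norm_num)
  rw [hX] at hcard hlt
  have htr : MulAction.IsPretransitive Γ (Sylow 17 G) := by
    constructor
    intro x y
    by_cases hxa : x = a
    · by_cases hya : y = a
      · exact ⟨1, by rw [one_smul, hxa, hya]⟩
      · obtain ⟨g, hg, -⟩ := hZ3.h2 (show x ≠ b by rw [hxa]; exact hab) hya
        exact ⟨g, hg⟩
    · obtain ⟨z, hz⟩ : ∃ z, y ≠ z := by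
        by_cases hya : y = a
        · exact ⟨b, by rw [hya]; exact hab⟩
        · exact ⟨a, hya⟩
      obtain ⟨g, hg, -⟩ := hZ3.h2 hxa hz
      exact ⟨g, hg⟩
  have hS := Cfsg.Agent.S0732.result (α := Sylow 17 G) (p := 17)
    (d := Nat.card (Cfsg.Agent.H37.SN.stab2 Γ a b)) (by norm_num) hXc Γ (by rw [hcard]) (by omega)
  -- the order of the two point stabiliser, an element of order nine, the isomorphism type
  have hmain : (Nat.card (Cfsg.Agent.H37.SN.stab2 Γ a b) = 8 ∨ Nat.card (Cfsg.Agent.H37.SN.stab2 Γ a b) = 16) ∧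
      (∃ x : Γ, orderOf x = 9) ∧ (Nonempty (Γ ≃* Matrix.ProjectiveSpecialLinearGroup (Fin 2) F) ∨
        Nonempty (Γ ≃* (GL (Fin 2) F ⧸ Subgroup.center (GL (Fin 2) F)))) := by
    have hcc : Fintype.card (ZMod 17) = Fintype.card F := by rw [ZMod.card, hF]
    let re : ZMod 17 ≃+* F := FiniteField.ringEquivOfCardEq hcc
    rcases hS with ⟨h1, ⟨ψ⟩⟩ | ⟨h1, ⟨ψ⟩⟩ | ⟨q, hq, h1, -⟩
    · refine ⟨Or.inr h1, ?_, Or.inr ?_⟩
      · obtain ⟨x, hx⟩ := Cfsg.Agent.H37.SN.pgl_nine
        exact ⟨ψ.symm x, by rw [← hx]; exact MulEquiv.orderOf_eq ψ.symm x⟩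
      · obtain ⟨χ⟩ := Cfsg.Agent.H34.pgl_transport re
        exact ⟨ψ.trans χ⟩
    · refine ⟨Or.inl (by omega), ?_, Or.inl ?_⟩
      · obtain ⟨x, hx⟩ := Cfsg.Agent.H37.SN.psl_nine
        exact ⟨ψ.symm x, by rw [← hx]; exact MulEquiv.orderOf_eq ψ.symm x⟩
      · obtain ⟨χ⟩ := Cfsg.Agent.H34.psl_transport re
        exact ⟨ψ.trans χ⟩
    · exfalso
      have h2 : q < 5 := by
        by_contra h3
        have : 2 ^ 5 ≤ 2 ^ q := Nat.pow_le_pow_right (by norm_num) (by omega)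
        omega
      interval_cases q <;> omega
  obtain ⟨hd, ⟨x9, hx9⟩, hiso⟩ := hmain
  have hm2 : Nat.card (Sylow 2 Γ) = 153 := hZ3.card_sylow_two hX hab hd
  have hm3 : Nat.card (Sylow 3 Γ) = 136 := hZ3.card_sylow_three hX hab hd hx9
    (by rw [← hn3]; exact Cfsg.Agent.H37.SN.card_sylow_le f hf 3)
  have hK17 : ∀ R : Sylow 17 G, f.ker ≤ Subgroup.normalizer ((R : Subgroup G) : Set G) := by
    intro R k hk
    have h1 : f k = 1 := hk
    have h2 : φ k = 1 := congrArg Subtype.val h1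
    have h3 : k • R = R := Equiv.ext_iff.1 h2 R
    exact Sylow.smul_eq_iff_mem_normalizer.1 h3
  -- primes 5 and 19 do not occur
  have hno : ∀ r : ℕ, r.Prime → ¬ r ∣ Nat.card Γ → ¬ 17 ≡ 1 [MOD r] → Nat.card (Sylow r G) < 17 ^ 2 →
      ¬ 17 ∣ Nat.card (Sylow r G) := by
    intro r hr hrΓ h17 hlt hdv
    have : Fact r.Prime := ⟨hr⟩
    obtain ⟨P⟩ : Nonempty (Sylow 17 G) := inferInstance
    obtain ⟨T⟩ : Nonempty (Sylow r G) := inferInstance
    refine Cfsg.Agent.H37.SN.not_small P T ?_ hlt hdv h17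
    intro t ht
    apply hK17 P
    rw [MonoidHom.mem_ker]
    obtain ⟨n, hn⟩ := T.2.exists_orderOf_eq_pow ⟨t, ht⟩
    have h1 : orderOf (f t) ∣ r ^ n := by
      have h2 : orderOf t = r ^ n := (Subgroup.orderOf_coe (⟨t, ht⟩ : (T : Subgroup G))).trans hn
      rw [← h2]
      exact orderOf_map_dvd f t
    have h2 : orderOf (f t) ∣ Nat.card Γ := orderOf_dvd_natCard _
    obtain ⟨m, -, hm⟩ := (Nat.dvd_prime_pow hr).1 h1
    rcases Nat.eq_zero_or_pos m with h3 | h3
    · rw [h3, pow_zero] at hm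
      exact orderOf_eq_one_iff.1 hm
    · exfalso
      apply hrΓ
      refine dvd_trans ?_ h2
      rw [hm]
      exact dvd_pow_self r h3.ne'
  have hΓc : Nat.card Γ = 2448 ∨ Nat.card Γ = 4896 := by
    rcases hd with hd | hd
    · left; rw [hcard, hd]
    · right; rw [hcard, hd]
  have hprimes' : ∀ r : ℕ, r.Prime → r ∣ Nat.card G → r = 2 ∨ r = 3 ∨ r = 17 := by
    intro r hr hrG
    rcases hprimes r hr hrG with h1 | h1 | h1 | ⟨h1, h2⟩ | ⟨h1, h2⟩
    · exact Or.inl h1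
    · exact Or.inr (Or.inl h1)
    · exact Or.inr (Or.inr h1)
    · exfalso
      subst h1
      refine hno 5 hr ?_ (by decide) (by rw [h2]; norm_num) (by rw [h2]; norm_num)
      rcases hΓc with h3 | h3 <;> (rw [h3]; norm_num)
    · exfalso
      subst h1
      refine hno 19 hr ?_ (by decide) (by rw [h2]; norm_num) (by rw [h2]; norm_num)
      rcases hΓc with h3 | h3 <;> (rw [h3]; norm_num)
  have hker : f.ker = ⊥ := by
    apply Cfsg.Agent.H37.SN.eq_bot_of_normalizes hZ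
    intro r hr R
    by_cases hrG : r ∣ Nat.card G
    · rcases hprimes' r hr.out hrG with h1 | h1 | h1
      · subst h1
        exact Cfsg.Agent.H37.SN.ker_le_normalizer f hf 2 (by rw [hn2, hm2]) R
      · subst h1
        exact Cfsg.Agent.H37.SN.ker_le_normalizer f hf 3 (by rw [hn3, hm3]) R
      · subst h1
        exact hK17 R
    · have h1 : (R : Subgroup G) = ⊥ := by
        obtain ⟨n, hn⟩ := IsPGroup.iff_card.1 R.2
        have h2 := Subgroup.card_subgroup_dvd_card (R : Subgroup G)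
        rcases Nat.eq_zero_or_pos n with h3 | h3
        · rw [h3, pow_zero] at hn
          exact Subgroup.card_eq_one.1 hn
        · exfalso
          apply hrG
          refine dvd_trans ?_ h2
          rw [hn]
          exact dvd_pow_self r h3.ne'
      intro g _
      rw [Subgroup.mem_normalizer_iff]
      intro y
      have e1 : ∀ z : G, z ∈ (R : Subgroup G) ↔ z = 1 := by
        intro z
        rw [h1, Subgroup.mem_bot]
      rw [e1, e1, conj_eq_one_iff]
  have hinj : Function.Injective f := (MonoidHom.ker_eq_bot_iff f).1 hker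
  let E : G ≃* Γ := MulEquiv.ofBijective f ⟨hinj, hf⟩
  rcases hiso with h1 | h1
  · obtain ⟨ψ⟩ := h1
    exact Or.inl ⟨E.trans ψ⟩
  · obtain ⟨ψ⟩ := h1
    exact Or.inr ⟨E.trans ψ⟩

end Cfsg.Agent.S3641
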