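import Cfsg.Statements.S3660
import Cfsg.Agent.H61.PrimeGraphExt
-- import your own Cfsg.Agent.* helpers here

set_option autoImplicit false
open Cfsg

namespace Cfsg.Agent.S3660

open Matrix in
/-- In characteristic 2 an element of `SL₂` with a fixed vector has square 1. -/
theorem sq_eq_one_of_fix {F : Type*} [Field F] [CharP F 2] (g : SpecialLinearGroup (Fin 2) F) (v : Fin 2 → F)
    (hv : v ≠ 0) (hg : (g : Matrix (Fin 2) (Fin 2) F) *ᵥ v = v) : g ^ 2 = 1 := by
  have h2 : (2 : F) = 0 := CharP.cast_eq_zero F 2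
  have hdet : ((g : Matrix (Fin 2) (Fin 2) F) - 1).det = 0 := by
    rw [← Matrix.exists_mulVec_eq_zero_iff]
    exact ⟨v, hv, by rw [sub_mulVec, one_mulVec, hg, sub_self]⟩
  have hd1 := g.2
  rw [Matrix.det_fin_two] at hdet hd1
  simp only [Matrix.sub_apply, Matrix.one_apply_eq, ne_eq, zero_ne_one, one_ne_zero, not_false_eq_true, Matrix.one_apply_ne, sub_zero] at hdet
  have htr : (g : Matrix (Fin 2) (Fin 2) F) 0 0 + (g : Matrix (Fin 2) (Fin 2) F) 1 1 = 0 := by
    linear_combination hd1 - hdet + h2
  apply Matrix.SpecialLinearGroup.ext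
  intro i j
  rw [pow_two, Matrix.SpecialLinearGroup.coe_mul, Matrix.mul_apply, Fin.sum_univ_two, Matrix.SpecialLinearGroup.coe_one]
  fin_cases i <;> fin_cases j <;> simp
  · linear_combination (g : Matrix (Fin 2) (Fin 2) F) 0 0 * htr - hd1 - h2
  · linear_combination (g : Matrix (Fin 2) (Fin 2) F) 0 1 * htr
  · linear_combination (g : Matrix (Fin 2) (Fin 2) F) 1 0 * htr
  · linear_combination (g : Matrix (Fin 2) (Fin 2) F) 1 1 * htr - hd1 - h2

open Matrix in
theorem center_eq_bot {F : Type*} [Field F] [CharP F 2] : Subgroup.center (SpecialLinearGroup (Fin 2) F) = ⊥ := by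
  have h2 : (2 : F) = 0 := CharP.cast_eq_zero F 2
  rw [eq_bot_iff]
  intro g hg
  rw [Matrix.SpecialLinearGroup.mem_center_iff] at hg
  obtain ⟨r, hr, hrg⟩ := hg
  rw [Fintype.card_fin] at hr
  have hr1 : r = 1 := by
    have : (r - 1) ^ 2 = 0 := by linear_combination hr + (1 - r) * h2
    exact sub_eq_zero.mp (pow_eq_zero_iff (two_ne_zero) |>.mp this)
  rw [Subgroup.mem_bot]
  apply Matrix.SpecialLinearGroup.ext
  intro i j
  rw [← hrg, hr1, map_one, Matrix.SpecialLinearGroup.coe_one]

/-- Groups of unbounded order with the prime graph of `SL₂(F)`, `F` of characteristic 2. -/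
theorem sl_unbounded {F : Type*} [Field F] [Fintype F] [CharP F 2] (N : ℕ) :
    ∃ (H : Type) (_ : Group H) (_ : Finite H), N < Nat.card H ∧
      Cfsg.Agent.H61.SamePrimeGraph (Matrix.SpecialLinearGroup (Fin 2) F) H := by
  classical
  have h2 : (2 : F) = 0 := CharP.cast_eq_zero F 2
  apply Cfsg.Agent.H61.unbounded_of_matrixRep 2 Nat.prime_two
    ((Units.coeHom (Matrix (Fin 2) (Fin 2) F)).comp Matrix.SpecialLinearGroup.toGL)
  · -- 2 divides the order
    let g : Matrix.SpecialLinearGroup (Fin 2) F := ⟨!![1, 1; 0, 1], by simp [Matrix.det_fin_two]⟩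
    have hg2 : g ^ 2 = 1 := by
      apply Matrix.SpecialLinearGroup.ext
      intro i j
      rw [pow_two, Matrix.SpecialLinearGroup.coe_mul, Matrix.mul_apply, Fin.sum_univ_two, Matrix.SpecialLinearGroup.coe_one]
      fin_cases i <;> fin_cases j <;> simp [g]
      linear_combination h2
    have hg1 : g ≠ 1 := by
      intro h
      have : (g : Matrix (Fin 2) (Fin 2) F) 0 1 = (1 : Matrix (Fin 2) (Fin 2) F) 0 1 := by rw [h]; rfl
      simp [g] at this
    have h5 := orderOf_dvd_natCard g
    rwa [orderOf_eq_prime hg2 hg1] at h5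
  · intro r hr hr2 g hg v hv hgv
    exfalso
    have h3 := sq_eq_one_of_fix g v hv hgv
    have h4 := orderOf_dvd_of_pow_eq_one h3
    rw [hg] at h4
    exact hr2 ((Nat.prime_dvd_prime_iff_eq hr Nat.prime_two).mp h4)

/-- The prime graph of a finite group has the prime divisors of its order as vertices, two distinct primes p, q being joined when the group has an element of order pq; two groups have the same prime graph when they have the same prime divisors and the same joined pairs. Let F be a finite field of characteristic 2 with at least 4 elements. Then there are finite groups of arbitrarily large order with the same prime graph as PSL(2,F); in particular PSL(2,F) is not determined by its prime graph. -/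
theorem result {F : Type*} [Field F] [Fintype F] [CharP F 2] (hF : 4 ≤ Fintype.card F) (N : ℕ) :
    ∃ (H : Type) (_ : Group H) (_ : Finite H), N < Nat.card H ∧
      ((∀ p : ℕ, p.Prime → (p ∣ Nat.card (Matrix.ProjectiveSpecialLinearGroup (Fin 2) F) ↔ p ∣ Nat.card H)) ∧
      (∀ p q : ℕ, p.Prime → q.Prime → p ≠ q → ((∃ g : (Matrix.ProjectiveSpecialLinearGroup (Fin 2) F), orderOf g = p * q) ↔ (∃ g : H, orderOf g = p * q)))) := by
  obtain ⟨H, hG, hfin, hN, hsame⟩ := sl_unbounded (F := F) N
  refine ⟨H, hG, hfin, hN, ?_⟩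
  have e : Matrix.ProjectiveSpecialLinearGroup (Fin 2) F ≃* Matrix.SpecialLinearGroup (Fin 2) F :=
    (QuotientGroup.quotientMulEquivOfEq (center_eq_bot (F := F))).trans QuotientGroup.quotientBot
  exact (Cfsg.Agent.H61.SamePrimeGraph.of_mulEquiv e).trans hsame

end Cfsg.Agent.S3660
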