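import Cfsg.Statements.S3662
import Cfsg.Agent.H41.G2Fix

set_option autoImplicit false
open Cfsg

namespace Cfsg.Agent.S3662

open Cfsg.Lie Cfsg.Agent.H41 Cfsg.Agent.H41.G2Six

/-- The prime graph of a finite group has the prime divisors of its order as vertices, two distinct primes p, q being joined when the group has an element of order pq; two groups have the same prime graph when they have the same prime divisors and the same joined pairs. Let F be the field with 4 elements and L the Chevalley group of type G₂ over F. There are finite groups of arbitrarily large order with the same prime graph as L. -/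
theorem result {F : Type*} [Field F] [Fintype F] (hF : Fintype.card F = 4) (N : ℕ) :
    ∃ (H : Type) (_ : Group H) (_ : Finite H), N < Nat.card H ∧
      ((∀ p : ℕ, p.Prime → (p ∣ Nat.card ↥(Cfsg.Lie.chevG2.group F) ↔ p ∣ Nat.card H)) ∧
      (∀ p q : ℕ, p.Prime → q.Prime → p ≠ q → ((∃ g : ↥(Cfsg.Lie.chevG2.group F), orderOf g = p * q) ↔ (∃ g : H, orderOf g = p * q)))) := by
  have hcp := charP_two hF
  obtain ⟨θ, -⟩ := exists_theta (F := F)
  have hfin : Finite (chevG2.SteinbergGroup F) := Finite.of_equiv _ θ.symm.toEquiv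
  have hcard : Nat.card ↥(chevG2.group F) = 251596800 := by
    rw [Cfsg.Agent.S1059.result (q := 4) hF]; norm_num
  have hcard' : Nat.card (chevG2.SteinbergGroup F) = 251596800 := by rw [Nat.card_congr θ.toEquiv, hcard]
  have hv2 : ∀ v : Fin 6 → F, v + v = 0 := fun v => funext fun i => CharTwo.add_self_eq_zero _
  let _ := repAct (F := F)
  obtain ⟨H, i1, i2, h1, h2, h3⟩ := exists_large (G := chevG2.SteinbergGroup F) (V := Fin 6 → F) hv2 N
  have htr : ∀ n : ℕ, (∃ g : ↥(chevG2.group F), orderOf g = n) ↔ ∃ g : chevG2.SteinbergGroup F, orderOf g = n := by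
    intro n
    constructor
    · rintro ⟨g, hg⟩; exact ⟨θ.symm g, (MulEquiv.orderOf_eq θ.symm g).trans hg⟩
    · rintro ⟨g, hg⟩; exact ⟨θ g, (MulEquiv.orderOf_eq θ g).trans hg⟩
  have key : ∀ q : ℕ, q.Prime → 2 ≠ q → (∃ x : chevG2.SteinbergGroup F, orderOf x = q ∧ ∃ w : Fin 6 → F, w ≠ 0 ∧ x • w = w) →
      ∃ g : chevG2.SteinbergGroup F, orderOf g = 2 * q := by
    rintro q hq hq2 ⟨x, hx, w, hw, hxw⟩
    have hd : q ∣ Nat.card (chevG2.SteinbergGroup F) := hx ▸ orderOf_dvd_natCard x
    rw [hcard', show (251596800 : ℕ) = 2 ^ 12 * (3 ^ 3 * (5 ^ 2 * (7 * 13))) by norm_num] at hd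
    rcases hq.dvd_mul.1 hd with h | h
    · exact absurd ((Nat.prime_dvd_prime_iff_eq hq Nat.prime_two).1 (hq.dvd_of_dvd_pow h)).symm hq2
    rcases hq.dvd_mul.1 h with h | h
    · rw [(Nat.prime_dvd_prime_iff_eq hq Nat.prime_three).1 (hq.dvd_of_dvd_pow h)]
      exact exists_six hF
    rcases hq.dvd_mul.1 h with h | h
    · rw [(Nat.prime_dvd_prime_iff_eq hq Nat.prime_five).1 (hq.dvd_of_dvd_pow h)]
      exact exists_ten hF
    exfalso
    apply hw
    rcases hq.dvd_mul.1 h with h | h
    · exact no_fix hF q (Or.inl ((Nat.prime_dvd_prime_iff_eq hq (by norm_num)).1 h)) x hx w hxw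
    · exact no_fix hF q (Or.inr ((Nat.prime_dvd_prime_iff_eq hq (by norm_num)).1 h)) x hx w hxw
  refine ⟨H, i1, i2, h1, ?_, ?_⟩
  · intro p hp
    rw [h2 p hp, hcard, hcard']
    constructor
    · exact Or.inr
    · rintro (rfl | h)
      · norm_num
      · exact h
  · intro p q hp hq hpq
    rw [h3 p q hp hq hpq, htr]
    constructor
    · exact Or.inl
    · rintro (h | ⟨rfl, h⟩ | ⟨rfl, h⟩)
      · exact h
      · exact key q hq hpq h
      · obtain ⟨g, hg⟩ := key p hp hpq.symm h
        exact ⟨g, by rw [hg, mul_comm]⟩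

end Cfsg.Agent.S3662
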