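import Cfsg.Statements.S3663
import Cfsg.Agent.H61.UnitalMod
-- import your own Cfsg.Agent.* helpers here

set_option autoImplicit false
open Cfsg

namespace Cfsg.Agent.S3663

open Cfsg.Agent.H61 Cfsg.Agent.Uni Matrix

theorem card_su {F : Type*} [Field F] [Fintype F] (hF : Fintype.card F = 16) : Nat.card (SU 3 F 4) = 62400 := by
  have h := card_SU (n := 3) (card_sq hF) (by norm_num)
  have e : (∏ i ∈ Finset.range 3, (if Even i then 4 ^ (i + 1) + 1 else 4 ^ (i + 1) - 1)) = 4875 := by decide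
  rw [e] at h
  norm_num at h
  omega

theorem exists_alpha {F : Type*} [Field F] [Fintype F] (hF : Fintype.card F = 16) : ∃ α : F, α ^ 4 = α + 1 := by
  have hcard : Nat.card Fˣ = 15 := by rw [card_units (card_sq hF)]
  obtain ⟨z, hz⟩ := IsCyclic.exists_ofOrder_eq_natCard (α := Fˣ)
  rw [hcard] at hz
  have h2 : (2 : F) = 0 := by
    have : Fact (Nat.Prime 2) := ⟨Nat.prime_two⟩
    have : CharP F 2 := charP_of_card_eq_prime_pow (f := 4) (by rw [hF]; norm_num)
    exact CharP.cast_eq_zero F 2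
  set x : F := (z : F) with hx
  have hx0 : x ≠ 0 := z.ne_zero
  have h15 : x ^ 15 = 1 := by
    rw [hx, ← Units.val_pow_eq_pow_val, ← hz, pow_orderOf_eq_one, Units.val_one]
  have h5 : x ^ 5 ≠ 1 := by
    intro h
    have : z ^ 5 = 1 := by ext; rw [Units.val_pow_eq_pow_val]; exact h
    have := orderOf_dvd_of_pow_eq_one this
    rw [hz] at this
    omega
  have h3 : x ^ 3 ≠ 1 := by
    intro h
    have : z ^ 3 = 1 := by ext; rw [Units.val_pow_eq_pow_val]; exact h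
    have := orderOf_dvd_of_pow_eq_one this
    rw [hz] at this
    omega
  have h1 : x - 1 ≠ 0 := by
    intro h
    apply h3
    rw [sub_eq_zero.mp h, one_pow]
  have ha : x ^ 2 + x + 1 ≠ 0 := by
    intro h
    apply h3
    have : x ^ 3 - 1 = 0 := by
      have : x ^ 3 - 1 = (x - 1) * (x ^ 2 + x + 1) := by ring
      rw [this, h, mul_zero]
    exact sub_eq_zero.mp this
  have hb : x ^ 4 + x ^ 3 + x ^ 2 + x + 1 ≠ 0 := by
    intro h
    apply h5
    have : x ^ 5 - 1 = 0 := by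
      have : x ^ 5 - 1 = (x - 1) * (x ^ 4 + x ^ 3 + x ^ 2 + x + 1) := by ring
      rw [this, h, mul_zero]
    exact sub_eq_zero.mp this
  have hprod : (x - 1) * (x ^ 2 + x + 1) * (x ^ 4 + x ^ 3 + x ^ 2 + x + 1) * ((x ^ 4 + x + 1) * (x ^ 4 + x ^ 3 + 1)) = 0 := by
    linear_combination h15 + (x ^ 14 + x ^ 13 + 2 * x ^ 12 + 2 * x ^ 11 + 2 * x ^ 10 + x ^ 9 + x ^ 8 - x ^ 7 - x ^ 6 - 2 * x ^ 5 - 2 * x ^ 4 - x ^ 3 - x ^ 2 - x + x ^ 7 - x ^ 8 - x ^ 12) * h2
  rcases mul_eq_zero.mp hprod with h | h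
  · exact absurd h (mul_ne_zero (mul_ne_zero h1 ha) hb)
  · rcases mul_eq_zero.mp h with h | h
    · exact ⟨x, by linear_combination h - (x + 1) * h2⟩
    · refine ⟨x⁻¹, ?_⟩
      field_simp
      linear_combination h - (x ^ 4 + x ^ 3) * h2

/-- a norm one element of order 5 and the diagonal element -/
theorem exists_D {F : Type*} [Field F] [Fintype F] (hF : Fintype.card F = 16) :
    ∃ (b : F) (D : SU 3 F 4), b ^ 5 = 1 ∧ b ≠ 1 ∧ mt D = Matrix.diagonal ![b, b, b ^ 3] ∧ orderOf D = 5 := by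
  obtain ⟨ℓ, hℓ, b, hb5, hb⟩ := exists_log hF
  have hb1 : b ≠ 1 := by
    rintro rfl
    apply hb
    have := hℓ 1 1 one_ne_zero one_ne_zero
    rw [mul_one] at this
    have h3 : ℓ 1 + 0 = ℓ 1 + ℓ 1 := by rw [add_zero]; exact this
    exact (add_left_cancel h3).symm
  have hdet : (Matrix.diagonal ![b, b, b ^ 3]).det = 1 := by
    rw [Matrix.det_diagonal, Fin.prod_univ_three]
    change b * b * b ^ 3 = 1
    rw [← hb5]; ring
  have hp : Pres 4 (Matrix.diagonal ![b, b, b ^ 3]) := by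
    apply pres_diagonal
    intro i
    fin_cases i
    · exact hb5
    · exact hb5
    · change (b ^ 3) ^ 5 = 1
      rw [← pow_mul, mul_comm, pow_mul, hb5, one_pow]
  refine ⟨b, mkSU _ hp hdet, hb5, hb1, rfl, ?_⟩
  have : Fact (Nat.Prime 5) := ⟨by norm_num⟩
  apply orderOf_eq_prime
  · apply SU_ext
    change mt (mkSU _ hp hdet ^ 5) = 1
    rw [mt_pow]
    change (Matrix.diagonal ![b, b, b ^ 3]) ^ 5 = 1
    rw [Matrix.diagonal_pow, ← Matrix.diagonal_one]
    congr 1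
    funext i
    fin_cases i
    · exact hb5
    · exact hb5
    · change (b ^ 3) ^ 5 = 1
      rw [← pow_mul, mul_comm, pow_mul, hb5, one_pow]
  · intro h
    apply hb1
    have h1 : mt (mkSU _ hp hdet) = 1 := by rw [h]; rfl
    exact congrFun (congrFun h1 0) 0

theorem exists_order {F : Type*} [Field F] [Fintype F] (hF : Fintype.card F = 16) {r : ℕ} (hr : r = 2 ∨ r = 3) :
    ∃ x : SU 3 F 4, orderOf x = 5 * r := by
  have h2 : (2 : F) = 0 := by
    have : Fact (Nat.Prime 2) := ⟨Nat.prime_two⟩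
    have : CharP F 2 := charP_of_card_eq_prime_pow (f := 4) (by rw [hF]; norm_num)
    exact CharP.cast_eq_zero F 2
  obtain ⟨b, D, hb5, hb1, hD, hDo⟩ := exists_D hF
  have key : ∀ (M : Matrix (Fin 3) (Fin 3) F) (hp : Pres 4 M) (hdet : M.det = 1), M ^ r = 1 → M ≠ 1 →
      M * Matrix.diagonal ![b, b, b ^ 3] = Matrix.diagonal ![b, b, b ^ 3] * M →
      ∃ x : SU 3 F 4, orderOf x = 5 * r := by
    intro M hp hdet hMr hM1 hc
    have hrp : Fact r.Prime := ⟨by rcases hr with rfl | rfl <;> norm_num⟩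
    have ho : orderOf (mkSU M hp hdet) = r := by
      apply orderOf_eq_prime
      · apply SU_ext
        change mt (mkSU M hp hdet ^ r) = 1
        rw [mt_pow]; exact hMr
      · intro h
        apply hM1
        have h1 : mt (mkSU M hp hdet) = 1 := by rw [h]; rfl
        exact h1
    have hcom : Commute D (mkSU M hp hdet) := by
      apply SU_ext
      change mt D * M = M * mt D
      rw [hD]; exact hc.symm
    refine ⟨D * mkSU M hp hdet, ?_⟩
    rw [hcom.orderOf_mul_eq_mul_orderOf_of_coprime, hDo, ho]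
    rw [hDo, ho]
    rcases hr with rfl | rfl <;> decide
  have hpres : ∀ M : Matrix (Fin 3) (Fin 3) F, M.transpose * M.map (fun x => x ^ 4) = 1 → Pres 4 M := by
    intro M hM
    exact (pres_iff_transpose_mul (card_sq hF) M).mpr hM
  rcases hr with rfl | rfl
  · apply key !![0, 1, 0; 1, 0, 0; 0, 0, 1]
    · apply hpres
      ext i j
      fin_cases i <;> fin_cases j <;> simp [Matrix.mul_apply, Fin.sum_univ_three]
    · rw [Matrix.det_fin_three]
      simp
      linear_combination -h2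
    · ext i j
      fin_cases i <;> fin_cases j <;> simp [pow_two, Matrix.mul_apply, Fin.sum_univ_three]
    · intro h
      have := congrFun (congrFun h 0) 0
      simp at this
    · ext i j
      fin_cases i <;> fin_cases j <;> simp [Matrix.mul_apply, Fin.sum_univ_three, Matrix.diagonal]
  · obtain ⟨α, hα⟩ := exists_alpha hF
    have e8 : α ^ 8 = α ^ 2 + 1 := by
      calc α ^ 8 = (α ^ 4) ^ 2 := by ring
        _ = _ := by rw [hα]; linear_combination α * h2
    have e16 : α ^ 16 = α := by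
      calc α ^ 16 = (α ^ 8) ^ 2 := by ring
        _ = α ^ 4 + 2 * α ^ 2 + 1 := by rw [e8]; ring
        _ = _ := by rw [hα]; linear_combination (α ^ 2 + 1) * h2
    apply key !![α, α ^ 2, 0; α ^ 8, α ^ 4, 0; 0, 0, 1]
    · apply hpres
      ext i j
      fin_cases i <;> fin_cases j <;> simp [Matrix.mul_apply, Fin.sum_univ_three]
      · linear_combination (1 * α ^ 36 + 1 * α ^ 33 + 1 * α ^ 32 + 1 * α ^ 30 + 2 * α ^ 29 + 1 * α ^ 28 + 1 * α ^ 27 + 3 * α ^ 26 + 3 * α ^ 25 + 2 * α ^ 24 + 4 * α ^ 23 + 6 * α ^ 22 + 5 * α ^ 21 + 6 * α ^ 20 + 10 * α ^ 19 + 11 * α ^ 18 + 11 * α ^ 17 + 16 * α ^ 16 + 21 * α ^ 15 + 22 * α ^ 14 + 27 * α ^ 13 + 37 * α ^ 12 + 43 * α ^ 11 + 49 * α ^ 10 + 64 * α ^ 9 + 80 * α ^ 8 + 92 * α ^ 7 + 113 * α ^ 6 + 144 * α ^ 5 + 172 * α ^ 4 + 205 * α ^ 3 + 257 * α ^ 2 + 317 * α ^ 1 + 377) * hα + (231 * α ^ 3 + 287 * α ^ 2 + 347 * α ^ 1 + 188) * h2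
      · linear_combination (1 * α ^ 20 + 1 * α ^ 17 + 1 * α ^ 16 + 1 * α ^ 14 + 2 * α ^ 13 + 1 * α ^ 12 + 1 * α ^ 11 + 3 * α ^ 10 + 3 * α ^ 9 + 2 * α ^ 8 + 4 * α ^ 7 + 6 * α ^ 6 + 6 * α ^ 5 + 6 * α ^ 4 + 10 * α ^ 3 + 12 * α ^ 2 + 12 * α ^ 1 + 16) * hα + (11 * α ^ 3 + 12 * α ^ 2 + 14 * α ^ 1 + 8) * h2
      · linear_combination (1 * α ^ 32 + 1 * α ^ 29 + 1 * α ^ 28 + 1 * α ^ 26 + 2 * α ^ 25 + 1 * α ^ 24 + 1 * α ^ 23 + 3 * α ^ 22 + 3 * α ^ 21 + 2 * α ^ 20 + 4 * α ^ 19 + 6 * α ^ 18 + 5 * α ^ 17 + 6 * α ^ 16 + 10 * α ^ 15 + 11 * α ^ 14 + 11 * α ^ 13 + 16 * α ^ 12 + 21 * α ^ 11 + 22 * α ^ 10 + 27 * α ^ 9 + 37 * α ^ 8 + 43 * α ^ 7 + 49 * α ^ 6 + 64 * α ^ 5 + 80 * α ^ 4 + 92 * α ^ 3 + 114 * α ^ 2 + 144 * α ^ 1 + 172) * hα + (103 * α ^ 3 + 129 * α ^ 2 + 158 * α ^ 1 + 86) * h2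
      · linear_combination (1 * α ^ 16 + 1 * α ^ 13 + 1 * α ^ 12 + 1 * α ^ 10 + 2 * α ^ 9 + 1 * α ^ 8 + 1 * α ^ 7 + 4 * α ^ 6 + 3 * α ^ 5 + 2 * α ^ 4 + 5 * α ^ 3 + 7 * α ^ 2 + 5 * α ^ 1 + 7) * hα + (6 * α ^ 3 + 6 * α ^ 2 + 6 * α ^ 1 + 3) * h2
    · rw [Matrix.det_fin_three]
      simp
      linear_combination (- 1 * α ^ 6 - 1 * α ^ 3 - 1 * α ^ 2 + 1 * α ^ 1 - 1) * hα + (- 1 * α ^ 3 - 1) * h2
    · ext i j
      fin_cases i <;> fin_cases j <;> simp [pow_succ, Matrix.mul_apply, Fin.sum_univ_three]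
      · linear_combination (1 * α ^ 10 + 3 * α ^ 7 + 1 * α ^ 6 + 3 * α ^ 4 + 4 * α ^ 3 + 1 * α ^ 2 + 3 * α ^ 1 + 7) * hα + (3 * α ^ 3 + 2 * α ^ 2 + 5 * α ^ 1 + 3) * h2
      · linear_combination (1 * α ^ 8 + 1 * α ^ 6 + 1 * α ^ 5 + 1 * α ^ 4 + 2 * α ^ 3 + 2 * α ^ 2 + 2 * α ^ 1 + 4) * hα + (2 * α ^ 3 + 2 * α ^ 2 + 3 * α ^ 1 + 2) * h2
      · linear_combination (1 * α ^ 14 + 1 * α ^ 12 + 1 * α ^ 11 + 1 * α ^ 10 + 2 * α ^ 9 + 2 * α ^ 8 + 2 * α ^ 7 + 4 * α ^ 6 + 4 * α ^ 5 + 4 * α ^ 4 + 6 * α ^ 3 + 8 * α ^ 2 + 8 * α ^ 1 + 10) * hα + (7 * α ^ 3 + 8 * α ^ 2 + 9 * α ^ 1 + 5) * h2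
      · linear_combination (2 * α ^ 10 + 1 * α ^ 8 + 3 * α ^ 7 + 2 * α ^ 6 + 1 * α ^ 5 + 4 * α ^ 4 + 5 * α ^ 3 + 3 * α ^ 2 + 5 * α ^ 1 + 9) * hα + (4 * α ^ 3 + 4 * α ^ 2 + 7 * α ^ 1 + 4) * h2
    · intro h
      have := congrFun (congrFun h 0) 1
      simp at this
      rw [this] at hα
      simp at hα
    · ext i j
      fin_cases i <;> fin_cases j <;> simp [Matrix.mul_apply, Fin.sum_univ_three, Matrix.diagonal]
      all_goals ring
/-- The prime graph of a finite group has the prime divisors of its order as vertices, two distinct primes p, q being joined when the group has an element of order pq; two groups have the same prime graph when they have the same prime divisors and the same joined pairs. Let F be the field with 16 elements and L = PSU(3,4) realised over F. There are finite groups of arbitrarily large order with the same prime graph as L. -/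
theorem result {F : Type*} [Field F] [Fintype F] (hF : Fintype.card F = 16) (N : ℕ) :
    ∃ (H : Type) (_ : Group H) (_ : Finite H), N < Nat.card H ∧
      ((∀ p : ℕ, p.Prime → (p ∣ Nat.card (Cfsg.PSU 3 F 4) ↔ p ∣ Nat.card H)) ∧
      (∀ p q : ℕ, p.Prime → q.Prime → p ≠ q → ((∃ g : (Cfsg.PSU 3 F 4), orderOf g = p * q) ↔ (∃ g : H, orderOf g = p * q)))) := by
  classical
  have hF' := card_sq hF
  let act : DistribMulAction (SU 3 F 4) (VI hF) := actV hF
  have smul_def : ∀ (g : SU 3 F 4) (f : VI hF), ((g • f : VI hF) : EI F) = actE hF g f.1 := fun _ _ => rfl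
  have hfinX : Finite (XI F) := Subtype.finite
  have hfinV : Finite (VI hF) := inferInstance
  obtain ⟨ℓ, hℓ', b, hb5, hb⟩ := exists_log hF
  have hℓ : IsLog ℓ := ⟨hℓ'⟩
  have h2 : (2 : F) = 0 := by
    have : Fact (Nat.Prime 2) := ⟨Nat.prime_two⟩
    have : CharP F 2 := charP_of_card_eq_prime_pow (f := 4) (by rw [hF]; norm_num)
    exact CharP.cast_eq_zero F 2
  have hb0 : b ≠ 0 := by rintro rfl; simp at hb5
  have hnt : Nontrivial (VI hF) := by
    have hw : Iso (![1, 1, 0] : Fin 3 → F) := ⟨fun h => by simpa using congrFun h 0, by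
      rw [hermForm_def, Fin.sum_univ_three]; simp; linear_combination h2⟩
    have hw' : Iso (![1, 0, 1] : Fin 3 → F) := ⟨fun h => by simpa using congrFun h 0, by
      rw [hermForm_def, Fin.sum_univ_three]; simp; linear_combination h2⟩
    have hu : Iso (![0, 1, 1] : Fin 3 → F) := ⟨fun h => by simpa using congrFun h 1, by
      rw [hermForm_def, Fin.sum_univ_three]; simp; linear_combination h2⟩
    have hv : Iso (![0, 1, b] : Fin 3 → F) := ⟨fun h => by simpa using congrFun h 1, by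
      rw [hermForm_def, Fin.sum_univ_three]; simp; linear_combination h2 + hb5⟩
    refine ⟨⟨⟨genF ℓ ⟨_, hw⟩ ⟨_, hw'⟩, genF_mem hF hℓ _ _⟩, 0, ?_⟩⟩
    intro h
    have h1 := congrFun (congrFun (congrArg Subtype.val h) ⟨_, hu⟩) ⟨_, hv⟩
    have e1 : hermForm 3 F 4 (![1, 1, 0] : Fin 3 → F) ![0, 1, 1] = 1 := by
      rw [hermForm_def, Fin.sum_univ_three]; simp
    have e2 : hermForm 3 F 4 (![1, 1, 0] : Fin 3 → F) ![0, 1, b] = 1 := by
      rw [hermForm_def, Fin.sum_univ_three]; simp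
    have e3 : hermForm 3 F 4 (![1, 0, 1] : Fin 3 → F) ![0, 1, 1] = 1 := by
      rw [hermForm_def, Fin.sum_univ_three]; simp
    have e4 : hermForm 3 F 4 (![1, 0, 1] : Fin 3 → F) ![0, 1, b] = b ^ 4 := by
      rw [hermForm_def, Fin.sum_univ_three]; simp
    have h3 : MM ℓ (![1, 1, 0] : Fin 3 → F) ![0, 1, 1] - MM ℓ (![1, 1, 0] : Fin 3 → F) ![0, 1, b] -
        MM ℓ (![1, 0, 1] : Fin 3 → F) ![0, 1, 1] + MM ℓ (![1, 0, 1] : Fin 3 → F) ![0, 1, b] = 0 := h1
    rw [MM_of_ne (by rw [e1]; exact one_ne_zero), MM_of_ne (by rw [e2]; exact one_ne_zero),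
      MM_of_ne (by rw [e3]; exact one_ne_zero), MM_of_ne (by rw [e4]; exact pow_ne_zero 4 hb0), e1, e2, e3, e4,
      hℓ.pow b hb0] at h3
    have h4 := hℓ' 1 1 one_ne_zero one_ne_zero
    rw [mul_one] at h4
    apply hb
    linear_combination -h3 + h4
  have hmain := unbounded_samePrimeGraph (G := SU 3 F 4) (V := VI hF) 5 (by norm_num)
    (by
      intro a
      apply Subtype.ext
      funext u v
      change (5 • a.1) u v = 0
      have h5 : (5 : ZMod 5) = 0 := rfl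
      simp only [Pi.smul_apply, nsmul_eq_mul]
      push_cast
      rw [h5, zero_mul])
    (by rw [card_su hF]; norm_num)
    (by
      intro r hr hr5 g hg v hv hfix
      have hd : r ∣ 62400 := by
        rw [← card_su hF, ← hg]
        exact orderOf_dvd_natCard g
      have hr' : r = 2 ∨ r = 3 ∨ r = 13 := by
        have h1 : (62400 : ℕ) = 2 ^ 6 * 3 * 5 ^ 2 * 13 := by norm_num
        rw [h1] at hd
        rcases (Nat.Prime.dvd_mul hr).mp hd with h | h
        · rcases (Nat.Prime.dvd_mul hr).mp h with h | h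
          · rcases (Nat.Prime.dvd_mul hr).mp h with h | h
            · left; exact (Nat.prime_dvd_prime_iff_eq hr Nat.prime_two).mp (hr.dvd_of_dvd_pow h)
            · right; left; exact (Nat.prime_dvd_prime_iff_eq hr Nat.prime_three).mp h
          · exact absurd ((Nat.prime_dvd_prime_iff_eq hr (by norm_num : Nat.Prime 5)).mp (hr.dvd_of_dvd_pow h)) hr5
        · right; right; exact (Nat.prime_dvd_prime_iff_eq hr (by norm_num : Nat.Prime 13)).mp h
      rcases hr' with h | h | h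
      · exact exists_order hF (Or.inl h)
      · exact exists_order hF (Or.inr h)
      · exfalso
        apply hv
        apply Subtype.ext
        have hg1 : g ≠ 1 := by
          rintro rfl
          rw [orderOf_one] at hg
          omega
        exact fix13 hF v.1 v.2 g (by rw [← h, ← hg]; exact pow_orderOf_eq_one g) hg1 (congrArg Subtype.val hfix)) N
  have hc : Subgroup.center (SU 3 F 4) = ⊥ := by
    rw [← Subgroup.card_eq_one, card_center_SU hF' (by norm_num)]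
    rfl
  have e : PSU 3 F 4 ≃* SU 3 F 4 := (QuotientGroup.quotientMulEquivOfEq hc).trans QuotientGroup.quotientBot
  obtain ⟨H, hH1, hH2, hH3, hH4⟩ := hmain
  exact ⟨H, hH1, hH2, hH3, (SamePrimeGraph.of_mulEquiv e).trans hH4⟩

end Cfsg.Agent.S3663
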