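import Cfsg.Statements.S3669
import Cfsg.Agent.H75.A5Deg
import Cfsg.Agent.S3378
import Cfsg.Agent.ClassBase.SimpleSmall

set_option autoImplicit false
open Cfsg

namespace Cfsg.Agent.S3669

/-- The character degree graph of a finite group has as vertices the primes dividing some irreducible complex character degree, two distinct primes being joined when their product divides some irreducible character degree; two groups have the same character degree graph when they have the same vertices and the same joined pairs. A finite group of order 60 with the same character degree graph as the alternating group A₅ (whose character degrees are 1, 3, 4, 5, so the graph has vertices 2, 3, 5 and no edges) is isomorphic to A₅. -/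
theorem result {G : Type*} [Group G] [Finite G] (hcard : Nat.card G = 60)
    (hΓ : Cfsg.degreePrimes G = Cfsg.degreePrimes (alternatingGroup (Fin 5)) ∧ Cfsg.degreeGraph G = Cfsg.degreeGraph (alternatingGroup (Fin 5))) : Nonempty (G ≃* alternatingGroup (Fin 5)) := by
  have h5 : (5 : ℕ) ∈ Cfsg.degreePrimes (alternatingGroup (Fin 5)) := by
    obtain ⟨χ, hχ⟩ := Cfsg.Agent.H75.five_dvd_A5
    exact ⟨by norm_num, _, ⟨χ, rfl⟩, by rw [Cfsg.Agent.H75.charDegree_eq_deg]; exact hχ⟩
  rw [← hΓ.1] at h5
  obtain ⟨-, d, ⟨χ, rfl⟩, hd⟩ := h5
  rw [Cfsg.Agent.H75.charDegree_eq_deg] at hd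
  have hns := Cfsg.Agent.H75.not_solvable_of_five hcard χ hd
  have : IsSimpleGroup G := Cfsg.Agent.S3378.simple_sixty hcard hns
  exact Cfsg.Agent.ClassBase.simple_sixty hcard

end Cfsg.Agent.S3669
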