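import Cfsg.Statements.S3678
import Cfsg.Agent.H61.PrimeGraphExt
import Cfsg.Agent.S3660
-- import your own Cfsg.Agent.* helpers here

set_option autoImplicit false
open Cfsg

namespace Cfsg.Agent.S3678

open Matrix

/-- Coefficients of powers of a 2×2 matrix of determinant 1 and trace `t`. -/
def coef {R : Type*} [CommRing R] (t : R) : ℕ → R × R
  | 0 => (0, 1)
  | n + 1 => ((coef t n).1 * t + (coef t n).2, -(coef t n).1)

theorem pow_eq {F : Type*} [CommRing F] (g : Matrix.SpecialLinearGroup (Fin 2) F) (n : ℕ) :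
    (g : Matrix (Fin 2) (Fin 2) F) ^ n = (coef (g : Matrix (Fin 2) (Fin 2) F).trace n).1 • (g : Matrix (Fin 2) (Fin 2) F) +
      (coef (g : Matrix (Fin 2) (Fin 2) F).trace n).2 • (1 : Matrix (Fin 2) (Fin 2) F) := by
  induction n with
  | zero => simp [coef]
  | succ n ih =>
    have hsq : (g : Matrix (Fin 2) (Fin 2) F) * (g : Matrix (Fin 2) (Fin 2) F) =
        (g : Matrix (Fin 2) (Fin 2) F).trace • (g : Matrix (Fin 2) (Fin 2) F) - 1 := by
      have hd := g.2
      rw [Matrix.det_fin_two] at hd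
      ext i j
      rw [Matrix.mul_apply, Fin.sum_univ_two, Matrix.sub_apply, Matrix.smul_apply, Matrix.trace_fin_two, smul_eq_mul]
      fin_cases i <;> fin_cases j <;> simp
      · linear_combination -hd
      · ring
      · ring
      · linear_combination -hd
    rw [pow_succ, ih, add_mul, smul_mul_assoc, hsq, smul_mul_assoc, one_mul]
    simp only [coef]
    module

theorem no_edge {G : Type*} [Group G] (a b c : ℕ) (p q l : ℕ) (hp : p.Prime) (hq : q.Prime) (hl : l.Prime)
    (h : ∀ x : G, x ^ (p ^ a) = 1 ∨ x ^ (q ^ b) = 1 ∨ x ^ (l ^ c) = 1) (r s : ℕ) (hr : r.Prime) (hs : s.Prime)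
    (hrs : r ≠ s) (x : G) (hx : orderOf x = r * s) : False := by
  have key : ∀ (m k : ℕ), m.Prime → x ^ (m ^ k) = 1 → False := by
    intro m k hm hx1
    have h1 := orderOf_dvd_of_pow_eq_one hx1
    rw [hx] at h1
    have h2 : r = m := (Nat.prime_dvd_prime_iff_eq hr hm).mp (hr.dvd_of_dvd_pow ((Dvd.intro _ rfl).trans h1))
    have h3 : s = m := (Nat.prime_dvd_prime_iff_eq hs hm).mp (hs.dvd_of_dvd_pow ((Dvd.intro_left _ rfl).trans h1))
    exact hrs (h2.trans h3.symm)
  rcases h x with h1 | h1 | h1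
  · exact key p a hp h1
  · exact key q b hq h1
  · exact key l c hl h1

theorem prime_dvd_card {G : Type*} [Group G] [Finite G] (a b c : ℕ) (p q l : ℕ) (hp : p.Prime) (hq : q.Prime) (hl : l.Prime)
    (h : ∀ x : G, x ^ (p ^ a) = 1 ∨ x ^ (q ^ b) = 1 ∨ x ^ (l ^ c) = 1)
    (hp' : ∃ x : G, x ^ p = 1 ∧ x ≠ 1) (hq' : ∃ x : G, x ^ q = 1 ∧ x ≠ 1) (hl' : ∃ x : G, x ^ l = 1 ∧ x ≠ 1)
    (r : ℕ) (hr : r.Prime) : r ∣ Nat.card G ↔ (r = p ∨ r = q ∨ r = l) := by
  constructor
  · intro hd
    have : Fact r.Prime := ⟨hr⟩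
    obtain ⟨x, hx⟩ := exists_prime_orderOf_dvd_card' r hd
    have key : ∀ (m k : ℕ), m.Prime → x ^ (m ^ k) = 1 → r = m := by
      intro m k hm hx1
      have h1 := orderOf_dvd_of_pow_eq_one hx1
      rw [hx] at h1
      exact (Nat.prime_dvd_prime_iff_eq hr hm).mp (hr.dvd_of_dvd_pow h1)
    rcases h x with h1 | h1 | h1
    · exact Or.inl (key p a hp h1)
    · exact Or.inr (Or.inl (key q b hq h1))
    · exact Or.inr (Or.inr (key l c hl h1))
  · have key : ∀ m : ℕ, m.Prime → (∃ x : G, x ^ m = 1 ∧ x ≠ 1) → m ∣ Nat.card G := by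
      rintro m hm ⟨x, hx, hx1⟩
      have : Fact m.Prime := ⟨hm⟩
      rw [← orderOf_eq_prime hx hx1]
      exact orderOf_dvd_natCard x
    rintro (rfl | rfl | rfl)
    · exact key _ hp hp'
    · exact key _ hq hq'
    · exact key _ hl hl'

/-- Exponents in `SL₂(8)`. -/
theorem sl8_exp {K : Type*} [Field K] [Fintype K] [CharP K 2] (hK : Fintype.card K = 8)
    (g : Matrix.SpecialLinearGroup (Fin 2) K) : g ^ (2 ^ 1) = 1 ∨ g ^ (3 ^ 2) = 1 ∨ g ^ (7 ^ 1) = 1 := by
  have h2 : (2 : K) = 0 := CharP.cast_eq_zero K 2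
  set t := (g : Matrix (Fin 2) (Fin 2) K).trace with ht
  have key : ∀ n : ℕ, (coef t n).1 = 0 → (coef t n).2 = 1 → g ^ n = 1 := by
    intro n h1 h3
    apply Matrix.SpecialLinearGroup.ext
    intro i j
    rw [Matrix.SpecialLinearGroup.coe_pow, pow_eq, ← ht, h1, h3, zero_smul, one_smul, zero_add,
      Matrix.SpecialLinearGroup.coe_one]
  have ht8 : t ^ 8 = t := by rw [← hK]; exact FiniteField.pow_card t
  have hfac : t * (t - 1) * (t ^ 3 + t + 1) * (t ^ 3 + t ^ 2 + 1) = 0 := by
    linear_combination ht8 + (t^5 - t^4) * h2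
  rcases mul_eq_zero.mp hfac with hfac | hf
  · rcases mul_eq_zero.mp hfac with hfac | hf
    · rcases mul_eq_zero.mp hfac with hf | hf
      · left
        apply key 2 <;> simp only [coef]
        · linear_combination hf
        · linear_combination -h2
      · right; left
        apply key 9 <;> simp only [coef]
        · linear_combination ( (-1) + (-1)*t + (9)*t^2 + (9)*t^3 + (-6)*t^4 + (-6)*t^5 + t^6 + t^7 )* hf
        · linear_combination ( (-1) + (-5)*t + (-5)*t^2 + (5)*t^3 + (5)*t^4 + (-1)*t^5 + (-1)*t^6 )* hf + ( (-1) ) * h2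
    · right; left
      apply key 9 <;> simp only [coef]
      · linear_combination ( (9) + (23)*t + (-1)*t^2 + (-8)*t^3 + t^5 )* hf + ( (-4) + (-16)*t + (-16)*t^2 ) * h2
      · linear_combination ( (-17) + t + (7)*t^2 + (-1)*t^4 )* hf + ( (8) + (10)*t + (-4)*t^2 ) * h2
  · right; right
    apply key 7 <;> simp only [coef]
    · linear_combination ( (3) + (-4)*t + (-1)*t^2 + t^3 )* hf + ( (-2) + (2)*t + (2)*t^2 ) * h2
    · linear_combination ( (3) + t + (-1)*t^2 )* hf + ( (-2) + (-2)*t + (-1)*t^2 ) * h2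

theorem sl8_elems {K : Type*} [Field K] [Fintype K] [CharP K 2] (hK : Fintype.card K = 8) :
    (∃ x : Matrix.SpecialLinearGroup (Fin 2) K, x ^ 2 = 1 ∧ x ≠ 1) ∧
    (∃ x : Matrix.SpecialLinearGroup (Fin 2) K, x ^ 3 = 1 ∧ x ≠ 1) ∧
    (∃ x : Matrix.SpecialLinearGroup (Fin 2) K, x ^ 7 = 1 ∧ x ≠ 1) := by
  classical
  have h2 : (2 : K) = 0 := CharP.cast_eq_zero K 2
  have key : ∀ (g : Matrix.SpecialLinearGroup (Fin 2) K) (n : ℕ), (coef (g : Matrix (Fin 2) (Fin 2) K).trace n).1 = 0 →
      (coef (g : Matrix (Fin 2) (Fin 2) K).trace n).2 = 1 → g ^ n = 1 := by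
    intro g n h1 h3
    apply Matrix.SpecialLinearGroup.ext
    intro i j
    rw [Matrix.SpecialLinearGroup.coe_pow, pow_eq, h1, h3, zero_smul, one_smul, zero_add,
      Matrix.SpecialLinearGroup.coe_one]
  refine ⟨⟨⟨!![1, 1; 0, 1], by simp [Matrix.det_fin_two]⟩, ?_, ?_⟩, ⟨⟨!![0, 1; 1, 1], ?_⟩, ?_, ?_⟩, ?_⟩
  · apply key <;> simp only [coef, Matrix.trace_fin_two, Matrix.of_apply, Matrix.cons_val', Matrix.cons_val_zero,
      Matrix.cons_val_one, Matrix.cons_val_fin_one]
    · linear_combination h2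
    · linear_combination -h2
  · intro h
    have := congrArg (fun x : Matrix.SpecialLinearGroup (Fin 2) K => (x : Matrix (Fin 2) (Fin 2) K) 0 1) h
    simp at this
  · rw [Matrix.det_fin_two]; simp; linear_combination -h2
  · apply key <;> simp only [coef, Matrix.trace_fin_two, Matrix.of_apply, Matrix.cons_val', Matrix.cons_val_zero,
      Matrix.cons_val_one, Matrix.cons_val_fin_one]
    · ring
    · linear_combination -h2
  · intro h
    have := congrArg (fun x : Matrix.SpecialLinearGroup (Fin 2) K => (x : Matrix (Fin 2) (Fin 2) K) 0 1) h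
    simp at this
  · obtain ⟨a, ha⟩ : ∃ a : K, a ∉ ({0, 1} : Finset K) := by
      by_contra h
      push Not at h
      have h3 := Finset.card_le_card (fun x _ => h x : (Finset.univ : Finset K) ⊆ {0, 1})
      rw [Finset.card_univ, hK] at h3
      have := Finset.card_le_two (a := (0 : K)) (b := 1)
      omega
    simp only [Finset.mem_insert, Finset.mem_singleton, not_or] at ha
    have h7 : a ^ 7 = 1 := by
      have := FiniteField.pow_card_sub_one_eq_one a ha.1
      rwa [hK] at this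
    have hdet : (Matrix.diagonal ![a, a⁻¹]).det = 1 := by
      rw [Matrix.det_diagonal, Fin.prod_univ_two]
      change a * a⁻¹ = 1
      exact mul_inv_cancel₀ ha.1
    let g : Matrix.SpecialLinearGroup (Fin 2) K := ⟨Matrix.diagonal ![a, a⁻¹], hdet⟩
    refine ⟨g, ?_, ?_⟩
    · apply Matrix.SpecialLinearGroup.ext
      intro i j
      have h8 : ((g ^ 7 : Matrix.SpecialLinearGroup (Fin 2) K) : Matrix (Fin 2) (Fin 2) K) =
          (Matrix.diagonal ![a, a⁻¹]) ^ 7 := Matrix.SpecialLinearGroup.coe_pow _ _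
      rw [Matrix.SpecialLinearGroup.coe_one]
      refine (congrFun (congrFun h8 i) j).trans ?_
      rw [Matrix.diagonal_pow]
      fin_cases i <;> fin_cases j <;> simp [h7]
    · intro h
      have := congrArg (fun x : Matrix.SpecialLinearGroup (Fin 2) K => (x : Matrix (Fin 2) (Fin 2) K) 0 0) h
      simp [g] at this
      exact ha.2 this

theorem mem_center_of_smul {F : Type*} [Field F] (g : Matrix.SpecialLinearGroup (Fin 2) F) (c : F)
    (h : (g : Matrix (Fin 2) (Fin 2) F) = c • (1 : Matrix (Fin 2) (Fin 2) F)) :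
    g ∈ Subgroup.center (Matrix.SpecialLinearGroup (Fin 2) F) := by
  rw [Matrix.SpecialLinearGroup.mem_center_iff]
  refine ⟨c, ?_, ?_⟩
  · have := g.2
    rw [h, Matrix.det_smul, Matrix.det_one, mul_one] at this
    exact this
  · rw [h, Matrix.scalar_apply, Matrix.smul_one_eq_diagonal]

theorem notMem_center {F : Type*} [Field F] (g : Matrix.SpecialLinearGroup (Fin 2) F)
    (h : (g : Matrix (Fin 2) (Fin 2) F) 0 1 = 1) : g ∉ Subgroup.center (Matrix.SpecialLinearGroup (Fin 2) F) := by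
  intro hg
  rw [Matrix.SpecialLinearGroup.mem_center_iff] at hg
  obtain ⟨r, -, hr⟩ := hg
  rw [← hr] at h
  simp at h

/-- Exponents in `PSL₂(7)`. -/
theorem psl7_exp {F : Type*} [Field F] [Fintype F] (hF : Fintype.card F = 7)
    (x : Matrix.ProjectiveSpecialLinearGroup (Fin 2) F) : x ^ (2 ^ 2) = 1 ∨ x ^ (3 ^ 1) = 1 ∨ x ^ (7 ^ 1) = 1 := by
  have h7 : (7 : F) = 0 := by
    have := FiniteField.cast_card_eq_zero F
    rw [hF] at this
    exact_mod_cast this
  obtain ⟨g, rfl⟩ := QuotientGroup.mk_surjective x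
  set t := (g : Matrix (Fin 2) (Fin 2) F).trace with ht
  have key : ∀ n : ℕ, (coef t n).1 = 0 → (g : Matrix.ProjectiveSpecialLinearGroup (Fin 2) F) ^ n = 1 := by
    intro n h1
    rw [← QuotientGroup.mk_pow, QuotientGroup.eq_one_iff]
    apply mem_center_of_smul _ (coef t n).2
    rw [Matrix.SpecialLinearGroup.coe_pow, pow_eq, ← ht, h1, zero_smul, zero_add]
  have ht7 : t ^ 7 = t := by rw [← hF]; exact FiniteField.pow_card t
  have hfac : t * (t ^ 2 - 1) * (t ^ 2 - 2) * (t ^ 2 - 4) = 0 := by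
    linear_combination ht7 + (-t^5 + 2 * t^3 - t) * h7
  rcases mul_eq_zero.mp hfac with hfac | hf
  · rcases mul_eq_zero.mp hfac with hfac | hf
    · rcases mul_eq_zero.mp hfac with hf | hf
      · left
        have := key 2 (by simp only [coef]; linear_combination hf)
        rw [show (2 ^ 2 : ℕ) = 2 * 2 by norm_num, pow_mul, this, one_pow]
      · right; left
        exact key 3 (by simp only [coef]; linear_combination hf)
    · left
      exact key 4 (by simp only [coef]; linear_combination t * hf)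
  · right; right
    exact key 7 (by simp only [coef]; linear_combination ((2) + (-1)*t^2 + t^4) * hf + h7)

theorem psl7_elems {F : Type*} [Field F] [Fintype F] (hF : Fintype.card F = 7) :
    (∃ x : Matrix.ProjectiveSpecialLinearGroup (Fin 2) F, x ^ 2 = 1 ∧ x ≠ 1) ∧
    (∃ x : Matrix.ProjectiveSpecialLinearGroup (Fin 2) F, x ^ 3 = 1 ∧ x ≠ 1) ∧
    (∃ x : Matrix.ProjectiveSpecialLinearGroup (Fin 2) F, x ^ 7 = 1 ∧ x ≠ 1) := by
  have h7 : (7 : F) = 0 := by
    have := FiniteField.cast_card_eq_zero F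
    rw [hF] at this
    exact_mod_cast this
  have key : ∀ (g : Matrix.SpecialLinearGroup (Fin 2) F) (n : ℕ), (coef (g : Matrix (Fin 2) (Fin 2) F).trace n).1 = 0 →
      (QuotientGroup.mk g : Matrix.ProjectiveSpecialLinearGroup (Fin 2) F) ^ n = 1 := by
    intro g n h1
    rw [← QuotientGroup.mk_pow, QuotientGroup.eq_one_iff]
    apply mem_center_of_smul _ (coef (g : Matrix (Fin 2) (Fin 2) F).trace n).2
    rw [Matrix.SpecialLinearGroup.coe_pow, pow_eq, h1, zero_smul, zero_add]
  have key2 : ∀ (g : Matrix.SpecialLinearGroup (Fin 2) F), (g : Matrix (Fin 2) (Fin 2) F) 0 1 = 1 →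
      (QuotientGroup.mk g : Matrix.ProjectiveSpecialLinearGroup (Fin 2) F) ≠ 1 := by
    intro g hg h
    rw [QuotientGroup.eq_one_iff] at h
    exact notMem_center g hg h
  have d1 : (!![0, 1; -1, 0] : Matrix (Fin 2) (Fin 2) F).det = 1 := by simp [Matrix.det_fin_two]
  have d2 : (!![0, 1; -1, 1] : Matrix (Fin 2) (Fin 2) F).det = 1 := by simp [Matrix.det_fin_two]
  have d3 : (!![1, 1; 0, 1] : Matrix (Fin 2) (Fin 2) F).det = 1 := by simp [Matrix.det_fin_two]
  let g1 : Matrix.SpecialLinearGroup (Fin 2) F := ⟨!![0, 1; -1, 0], d1⟩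
  let g2 : Matrix.SpecialLinearGroup (Fin 2) F := ⟨!![0, 1; -1, 1], d2⟩
  let g3 : Matrix.SpecialLinearGroup (Fin 2) F := ⟨!![1, 1; 0, 1], d3⟩
  refine ⟨⟨QuotientGroup.mk g1, key g1 2 ?_, key2 g1 rfl⟩,
    ⟨QuotientGroup.mk g2, key g2 3 ?_, key2 g2 rfl⟩,
    ⟨QuotientGroup.mk g3, key g3 7 ?_, key2 g3 rfl⟩⟩
  · simp [coef, Matrix.trace_fin_two, g1]
  · simp [coef, Matrix.trace_fin_two, g2]
  · simp only [coef, Matrix.trace_fin_two, Matrix.of_apply, Matrix.cons_val', Matrix.cons_val_zero,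
      Matrix.cons_val_one, Matrix.cons_val_fin_one, g3]
    linear_combination h7

/-- The prime graph of a finite group has the prime divisors of its order as vertices, two distinct primes p, q being joined when the group has an element of order pq; two groups have the same prime graph when they have the same prime divisors and the same joined pairs. Let F be the field with 7 elements. There are finite groups of arbitrarily large order with the same prime graph as PSL(2,F) (the graph on {2, 3, 7} with no edges, which is also the prime graph of PSL(2,8)). -/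
theorem result {F : Type*} [Field F] [Fintype F] (hF : Fintype.card F = 7) (N : ℕ) :
    ∃ (H : Type) (_ : Group H) (_ : Finite H), N < Nat.card H ∧
      ((∀ p : ℕ, p.Prime → (p ∣ Nat.card (Matrix.ProjectiveSpecialLinearGroup (Fin 2) F) ↔ p ∣ Nat.card H)) ∧
      (∀ p q : ℕ, p.Prime → q.Prime → p ≠ q → ((∃ g : (Matrix.ProjectiveSpecialLinearGroup (Fin 2) F), orderOf g = p * q) ↔ (∃ g : H, orderOf g = p * q)))) := by
  classical
  let K := GaloisField 2 3
  have hKf : Fintype K := Fintype.ofFinite K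
  have hK : Fintype.card K = 8 := by
    rw [← Nat.card_eq_fintype_card, GaloisField.card 2 3 (by norm_num)]
    norm_num
  obtain ⟨H, hG, hfin, hN, hsame⟩ := Cfsg.Agent.S3660.sl_unbounded (F := K) N
  refine ⟨H, hG, hfin, hN, ?_⟩
  refine Cfsg.Agent.H61.SamePrimeGraph.trans (B := Matrix.SpecialLinearGroup (Fin 2) K) ⟨?_, ?_⟩ hsame
  · intro r hr
    obtain ⟨a1, a2, a3⟩ := psl7_elems hF
    obtain ⟨b1, b2, b3⟩ := sl8_elems hK
    rw [prime_dvd_card 2 1 1 2 3 7 Nat.prime_two Nat.prime_three (by norm_num) (psl7_exp hF) a1 a2 a3 r hr,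
      prime_dvd_card 1 2 1 2 3 7 Nat.prime_two Nat.prime_three (by norm_num) (sl8_exp hK) b1 b2 b3 r hr]
  · intro r s hr hs hrs
    constructor
    · rintro ⟨x, hx⟩
      exact (no_edge 2 1 1 2 3 7 Nat.prime_two Nat.prime_three (by norm_num) (psl7_exp hF) r s hr hs hrs x hx).elim
    · rintro ⟨x, hx⟩
      exact (no_edge 1 2 1 2 3 7 Nat.prime_two Nat.prime_three (by norm_num) (sl8_exp hK) r s hr hs hrs x hx).elim

end Cfsg.Agent.S3678
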