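import Cfsg.Statements.S3682
import Cfsg.Agent.H94.TWIdx

set_option autoImplicit false
open Cfsg

namespace Cfsg.Agent.S3682

open Cfsg.Agent.H94

/-- Wielandt's bound toward the Sims conjecture. Let a finite group G act faithfully and primitively on a set Ω, let a and b be points, and suppose the orbit of b under the stabilizer of a has length d ≥ 2. Then there are a prime p and a normal p-subgroup P of the stabilizer of a, all of whose elements fix b, such that the index of P in the stabilizer of a divides d! · ((d - 1)!)^d. -/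
theorem result {G Ω : Type*} [Group G] [Finite G] [MulAction G Ω] [FaithfulSMul G Ω] [Finite Ω]
    (hprim : MulAction.IsPreprimitive G Ω) (a b : Ω) (d : ℕ) (hd : Nat.card (MulAction.orbit (MulAction.stabilizer G a) b) = d) (h2 : 2 ≤ d) :
    ∃ p : ℕ, p.Prime ∧ ∃ P : Subgroup (MulAction.stabilizer G a), P.Normal ∧ IsPGroup p P ∧ (∀ g : P, ((g : MulAction.stabilizer G a) : G) • b = b) ∧
      P.index ∣ Nat.factorial d * (Nat.factorial (d - 1)) ^ d := by
  obtain ⟨hT, hi1, hi2, hcard⟩ := Cfsg.Agent.H94.wielandt_setup hprim a b d hd h2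
  set M1 := MulAction.stabilizer G a with hM1
  set M2 := MulAction.stabilizer G b with hM2
  have hb1 := Cfsg.Agent.H94.bound hT d hi1 hi2
  have hb2 : (coreIn M2 (coreIn M1 (M1 ⊓ M2) ⊓ coreIn M2 (M1 ⊓ M2))).relIndex M2 ∣ Nat.factorial d * (Nat.factorial (d - 1)) ^ d := by
    have h3 := Cfsg.Agent.H94.bound hT.symm d (by rw [inf_comm]; exact hi2) (by rw [inf_comm]; exact hi1)
    rw [inf_comm M2 M1, inf_comm (coreIn M2 (M1 ⊓ M2))] at h3
    exact h3
  by_cases hA : coreIn M1 (coreIn M1 (M1 ⊓ M2) ⊓ coreIn M2 (M1 ⊓ M2)) = ⊥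
  · refine ⟨2, Nat.prime_two, ⊥, inferInstance, IsPGroup.of_bot, ?_, ?_⟩
    · intro g
      have : (g : MulAction.stabilizer G a) = 1 := by
        have := g.2
        rwa [Subgroup.mem_bot] at this
      rw [this]; simp
    · rw [Subgroup.index_bot]
      rwa [hA, Subgroup.relIndex_bot_left] at hb1
  by_cases hB : coreIn M2 (coreIn M1 (M1 ⊓ M2) ⊓ coreIn M2 (M1 ⊓ M2)) = ⊥
  · refine ⟨2, Nat.prime_two, ⊥, inferInstance, IsPGroup.of_bot, ?_, ?_⟩
    · intro g
      have : (g : MulAction.stabilizer G a) = 1 := by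
        have := g.2
        rwa [Subgroup.mem_bot] at this
      rw [this]; simp
    · rw [Subgroup.index_bot]
      rw [hB, Subgroup.relIndex_bot_left] at hb2
      rwa [hcard]
  obtain ⟨p, hp, h1, h2', h3, h4⟩ := hT.knapp hA hB
  refine ⟨p, hp, (coreIn M1 (coreIn M1 (M1 ⊓ M2) ⊓ coreIn M2 (M1 ⊓ M2))).subgroupOf M1, ?_, ?_, ?_, hb1⟩
  · exact (Subgroup.normal_subgroupOf_iff_le_normalizer (coreIn_le_left _ _)).mpr (le_normalizer_coreIn _ _)
  · exact h1.comap_subtype
  · intro g
    have h5 : (((g : MulAction.stabilizer G a)) : G) ∈ coreIn M1 (coreIn M1 (M1 ⊓ M2) ⊓ coreIn M2 (M1 ⊓ M2)) := g.2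
    have h6 := (coreIn_le_right _ _) ((coreIn_le_right _ _) h5).1
    exact h6.2

end Cfsg.Agent.S3682
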