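import Cfsg.Statements.S3683
-- import your own Cfsg.Agent.* helpers here

set_option autoImplicit false
open Cfsg

namespace Cfsg.Agent.S3683

/-- Let a finite group G act faithfully and primitively on a set Ω, and suppose the stabilizer of a point a fixes a second point b ≠ a (a suborbit of length 1 other than {a}). Then the stabilizer of a is trivial and G is cyclic of prime order. -/
theorem result {G Ω : Type*} [Group G] [Finite G] [MulAction G Ω] [FaithfulSMul G Ω] [Finite Ω]
    (hprim : MulAction.IsPreprimitive G Ω) (a b : Ω) (hab : a ≠ b) (hfix : ∀ g : G, g • a = a → g • b = b) :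
    MulAction.stabilizer G a = ⊥ ∧ IsCyclic G ∧ (Nat.card G).Prime := by
  have : Nontrivial Ω := ⟨a, b, hab⟩
  have hcoat : IsCoatom (MulAction.stabilizer G a) := MulAction.IsPreprimitive.isCoatom_stabilizer_of_isPreprimitive G a
  have : MulAction.IsPretransitive G Ω := hprim.toIsPretransitive
  obtain ⟨g, hg⟩ := MulAction.exists_smul_eq G a b
  -- stabilizer a ≤ stabilizer b, equal by cardinality
  have hle : MulAction.stabilizer G a ≤ MulAction.stabilizer G b := fun x hx => hfix x hx
  have hmap : MulAction.stabilizer G b = (MulAction.stabilizer G a).map (MulAut.conj g).toMonoidHom := by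
    rw [← hg, MulAction.stabilizer_smul_eq_stabilizer_map_conj]
  have hcard : Nat.card (MulAction.stabilizer G a) = Nat.card (MulAction.stabilizer G b) := by
    rw [hmap]
    exact Nat.card_congr ((MulAction.stabilizer G a).equivMapOfInjective _ (MulAut.conj g).injective).toEquiv
  have heq : MulAction.stabilizer G a = MulAction.stabilizer G b :=
    SetLike.coe_injective (Set.eq_of_subset_of_ncard_le hle (by
      rw [← Nat.card_coe_set_eq, ← Nat.card_coe_set_eq]; exact hcard.ge) (Set.toFinite _))
  have hN : Subgroup.normalizer (MulAction.stabilizer G a : Set G) = ⊤ := by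
    apply hcoat.2
    refine lt_of_le_of_ne Subgroup.le_normalizer ?_
    intro h
    have hgN : g ∈ Subgroup.normalizer (MulAction.stabilizer G a : Set G) := by
      rw [Subgroup.mem_normalizer_iff]
      intro x
      have h1 : g * x * g⁻¹ ∈ MulAction.stabilizer G b ↔ x ∈ MulAction.stabilizer G a := by
        rw [MulAction.mem_stabilizer_iff, MulAction.mem_stabilizer_iff, ← hg, mul_smul, inv_smul_smul, mul_smul,
          smul_left_cancel_iff]
      rw [heq] at h1 ⊢
      exact h1.symm
    rw [← h] at hgN
    rw [MulAction.mem_stabilizer_iff] at hgN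
    exact hab (hgN.symm.trans hg)
  have hnorm : (MulAction.stabilizer G a).Normal := Subgroup.normalizer_eq_top_iff.mp hN
  have hbot : MulAction.stabilizer G a = ⊥ := by
    rw [eq_bot_iff]
    intro x hx
    rw [Subgroup.mem_bot]
    apply FaithfulSMul.eq_of_smul_eq_smul (α := Ω)
    intro c
    obtain ⟨k, rfl⟩ := MulAction.exists_smul_eq G a c
    have : k⁻¹ * x * k ∈ MulAction.stabilizer G a := by
      have := hnorm.conj_mem x hx k⁻¹
      simpa using this
    rw [MulAction.mem_stabilizer_iff, mul_smul, mul_smul, inv_smul_eq_iff] at this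
    rw [this, one_smul]
  refine ⟨hbot, ?_⟩
  rw [hbot] at hcoat
  have hgne : g ≠ 1 := by
    rintro rfl
    exact hab (by simpa using hg)
  have key : ∀ x : G, x ≠ 1 → Subgroup.zpowers x = ⊤ := by
    intro x hx
    apply hcoat.2
    rw [bot_lt_iff_ne_bot, Ne, Subgroup.zpowers_eq_bot]
    exact hx
  have hcyc : IsCyclic G := ⟨g, fun x => by
    have h3 : x ∈ Subgroup.zpowers g := by
      rw [key g hgne]; trivial
    exact Subgroup.mem_zpowers_iff.mp h3⟩
  refine ⟨hcyc, ?_⟩
  have : Nontrivial G := ⟨g, 1, hgne⟩
  obtain ⟨p, hp, hpd⟩ := Nat.exists_prime_and_dvd (n := Nat.card G) (by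
    rw [Ne, Nat.card_eq_one_iff_unique]
    rintro ⟨h, -⟩
    exact not_subsingleton G h)
  have : Fact p.Prime := ⟨hp⟩
  obtain ⟨x, hx⟩ := exists_prime_orderOf_dvd_card' p hpd
  have hx1 : x ≠ 1 := by
    rintro rfl
    rw [orderOf_one] at hx
    exact hp.one_lt.ne hx
  have := key x hx1
  have h2 : Nat.card (Subgroup.zpowers x) = Nat.card G := by
    rw [this]; exact Subgroup.card_top
  rw [Nat.card_zpowers, hx] at h2
  rw [← h2]; exact hp

end Cfsg.Agent.S3683
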