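import Cfsg.Statements.S3684
-- import your own Cfsg.Agent.* helpers here

set_option autoImplicit false
open Cfsg

namespace Cfsg.Agent.S3684

/-- A group generated by two involutions `s,t` is dihedral, provided `s ∉ ⟨st⟩`. -/
theorem dihedral_of_two_involutions {G : Type*} [Group G] [Finite G] (s r : G) (hs : s * s = 1)
    (hsr : s * r * s = r⁻¹) (hns : s ∉ Subgroup.zpowers r) (hgen : Subgroup.closure {s, r} = ⊤) :
    Nonempty (G ≃* DihedralGroup (orderOf r)) := by
  classical
  set n := orderOf r with hn
  let e : ZMod n →+ Additive G :=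
    ZMod.lift n ⟨zmultiplesHom (Additive G) (Additive.ofMul r), by
      rw [zmultiplesHom_apply, ← ofMul_zpow, zpow_natCast, hn, pow_orderOf_eq_one, ofMul_one]⟩
  have he : ∀ k : ℤ, (e (k : ZMod n)).toMul = r ^ k := by
    intro k
    simp only [e]
    rw [ZMod.lift_coe]
    simp
  let E : ZMod n → G := fun i => (e i).toMul
  have hE : ∀ i j, E (i + j) = E i * E j := fun i j => by simp only [E]; rw [map_add]; rfl
  have hEneg : ∀ i, E (-i) = (E i)⁻¹ := fun i => by simp only [E]; rw [map_neg]; rfl
  have hE0 : E 0 = 1 := by simp only [E]; rw [map_zero]; rfl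
  have hEs : ∀ i, s * E i * s = (E i)⁻¹ := by
    intro i
    obtain ⟨k, rfl⟩ := ZMod.intCast_surjective i
    simp only [E]
    rw [he]
    have hconj : ∀ k : ℤ, s * r ^ k * s = (s * r * s) ^ k := by
      intro k
      have hsinv : s = s⁻¹ := eq_inv_of_mul_eq_one_left hs
      have : ∀ x : G, s * x * s = MulAut.conj s x := fun x => by
        rw [MulAut.conj_apply, ← hsinv]
      rw [this, this, map_zpow]
    rw [hconj, hsr, inv_zpow]
  have hsE : ∀ i, E i * s = s * (E i)⁻¹ := by
    intro i
    have := hEs i
    calc E i * s = (s * s) * (E i * s) := by rw [hs, one_mul]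
      _ = s * (s * E i * s) := by group
      _ = s * (E i)⁻¹ := by rw [this]
  let f : DihedralGroup n → G
    | .r i => E i
    | .sr i => s * E i
  let φ : DihedralGroup n →* G := MonoidHom.mk' f (by
    intro x y
    rcases x with i | i <;> rcases y with j | j
    · simp only [DihedralGroup.r_mul_r, f]; exact hE i j
    · simp only [DihedralGroup.r_mul_sr, f]
      rw [← mul_assoc, hsE, mul_assoc, sub_eq_neg_add, hE, hEneg]
    · simp only [DihedralGroup.sr_mul_r, f]; rw [hE, mul_assoc]
    · simp only [DihedralGroup.sr_mul_sr, f]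
      rw [sub_eq_neg_add, hE, hEneg, ← hEs i]
      group)
  have hEz : ∀ i, E i ∈ Subgroup.zpowers r := by
    intro i
    obtain ⟨k, rfl⟩ := ZMod.intCast_surjective i
    simp only [E]
    rw [he]
    exact Subgroup.zpow_mem _ (Subgroup.mem_zpowers r) k
  have hinj : Function.Injective φ := by
    rw [injective_iff_map_eq_one]
    intro x hx
    rcases x with i | i
    · obtain ⟨k, rfl⟩ := ZMod.intCast_surjective i
      have h1 : r ^ k = 1 := by
        rw [← he k]; exact hx
      rw [← DihedralGroup.r_zero]
      congr 1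
      rw [ZMod.intCast_zmod_eq_zero_iff_dvd]
      exact orderOf_dvd_iff_zpow_eq_one.mpr h1
    · exfalso
      apply hns
      have h1 : s * E i = 1 := hx
      rw [mul_eq_one_iff_eq_inv.mp h1]
      exact Subgroup.inv_mem _ (hEz i)
  have hsurj : Function.Surjective φ := by
    rw [← MonoidHom.range_eq_top, eq_top_iff, ← hgen, Subgroup.closure_le]
    intro x hx
    rcases hx with rfl | rfl
    · exact ⟨.sr 0, by change x * E 0 = x; rw [hE0, mul_one]⟩
    · refine ⟨.r 1, ?_⟩
      have := he 1
      rw [Int.cast_one, zpow_one] at this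
      exact this
  exact ⟨(MulEquiv.ofBijective φ ⟨hinj, hsurj⟩).symm⟩

/-- Let a finite group G act faithfully and primitively on a set Ω, and suppose the stabilizer of a point a has an orbit of length 2. Then the stabilizer of a has order 2 and G is isomorphic to the dihedral group of order 2p for some prime p. -/
theorem result {G Ω : Type*} [Group G] [Finite G] [MulAction G Ω] [FaithfulSMul G Ω] [Finite Ω]
    (hprim : MulAction.IsPreprimitive G Ω) (a b : Ω) (h2 : Nat.card (MulAction.orbit (MulAction.stabilizer G a) b) = 2) :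
    Nat.card (MulAction.stabilizer G a) = 2 ∧ ∃ p : ℕ, p.Prime ∧ Nonempty (G ≃* DihedralGroup p) := by
  have : MulAction.IsPretransitive G Ω := hprim.toIsPretransitive
  have hab : a ≠ b := by
    rintro rfl
    have : MulAction.orbit (MulAction.stabilizer G a) a = {a} := by
      ext x
      constructor
      · rintro ⟨g, rfl⟩
        exact g.2
      · rintro rfl
        exact MulAction.mem_orbit_self _
    rw [this] at h2
    simp at h2
  have : Nontrivial Ω := ⟨a, b, hab⟩
  have hcoat : IsCoatom (MulAction.stabilizer G a) := MulAction.IsPreprimitive.isCoatom_stabilizer_of_isPreprimitive G a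
  -- core-free
  have hcore : ∀ N : Subgroup G, N.Normal → N ≤ MulAction.stabilizer G a → N = ⊥ := by
    intro N hN hle
    rw [eq_bot_iff]
    intro x hx
    rw [Subgroup.mem_bot]
    apply FaithfulSMul.eq_of_smul_eq_smul (α := Ω)
    intro c
    obtain ⟨k, rfl⟩ := MulAction.exists_smul_eq G a c
    have : k⁻¹ * x * k ∈ MulAction.stabilizer G a := by
      have := hN.conj_mem x hx k⁻¹
      exact hle (by simpa using this)
    rw [MulAction.mem_stabilizer_iff, mul_smul, mul_smul, inv_smul_eq_iff] at this
    rw [this, one_smul]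
  obtain ⟨g, hg⟩ := MulAction.exists_smul_eq G a b
  have hmap : MulAction.stabilizer G b = (MulAction.stabilizer G a).map (MulAut.conj g).toMonoidHom := by
    rw [← hg, MulAction.stabilizer_smul_eq_stabilizer_map_conj]
  have hcard : Nat.card (MulAction.stabilizer G a) = Nat.card (MulAction.stabilizer G b) := by
    rw [hmap]
    exact Nat.card_congr ((MulAction.stabilizer G a).equivMapOfInjective _ (MulAut.conj g).injective).toEquiv
  set A := MulAction.stabilizer G a with hA
  set B := MulAction.stabilizer G b with hB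
  set D := A ⊓ B with hD
  have hstab : MulAction.stabilizer A b = D.subgroupOf A := by
    ext x
    simp only [MulAction.mem_stabilizer_iff, Subgroup.mem_subgroupOf, hD, Subgroup.mem_inf]
    constructor
    · intro h
      exact ⟨x.2, h⟩
    · intro h
      exact h.2
  have hidxA : (D.subgroupOf A).index = 2 := by
    rw [← hstab, MulAction.index_stabilizer, ← Nat.card_coe_set_eq]
    exact h2
  have hDA : Nat.card D * 2 = Nat.card A := by
    have := Subgroup.card_mul_index (D.subgroupOf A)
    rw [hidxA] at this
    rw [← this]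
    congr 1
    exact (Nat.card_congr (Subgroup.subgroupOfEquivOfLe (inf_le_left : D ≤ A)).toEquiv).symm
  have hidxB : (D.subgroupOf B).index = 2 := by
    have h3 := Subgroup.card_mul_index (D.subgroupOf B)
    have h4 : Nat.card (D.subgroupOf B) = Nat.card D :=
      Nat.card_congr (Subgroup.subgroupOfEquivOfLe (inf_le_right : D ≤ B)).toEquiv
    rw [h4, ← hcard, ← hDA] at h3
    exact Nat.eq_of_mul_eq_mul_left Nat.card_pos h3
  have hnA : (D.subgroupOf A).Normal := Subgroup.normal_of_index_eq_two hidxA
  have hnB : (D.subgroupOf B).Normal := Subgroup.normal_of_index_eq_two hidxB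
  have hAN : A ≤ Subgroup.normalizer (D : Set G) := (Subgroup.normal_subgroupOf_iff_le_normalizer inf_le_left).mp hnA
  have hBN : B ≤ Subgroup.normalizer (D : Set G) := (Subgroup.normal_subgroupOf_iff_le_normalizer inf_le_right).mp hnB
  have hBA : ¬ B ≤ A := by
    intro h
    have h5 : D = B := inf_eq_right.mpr h
    rw [h5, hcard] at hDA
    have : 0 < Nat.card B := Nat.card_pos
    omega
  have hjoin : A ⊔ B = ⊤ := hcoat.2 _ (lt_of_le_of_ne le_sup_left (fun h => hBA (h ▸ le_sup_right)))
  have hDn : D.Normal := by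
    rw [← Subgroup.normalizer_eq_top_iff, eq_top_iff, ← hjoin]
    exact sup_le hAN hBN
  have hDbot : D = ⊥ := hcore D hDn inf_le_left
  have hAcard : Nat.card A = 2 := by
    rw [← hDA, hDbot, Subgroup.card_bot, one_mul]
  refine ⟨hAcard, ?_⟩
  -- generators
  obtain ⟨s, hs⟩ : ∃ s : A, orderOf s = 2 := by
    have : Fact (Nat.Prime 2) := ⟨Nat.prime_two⟩
    exact exists_prime_orderOf_dvd_card' 2 (by rw [hAcard])
  obtain ⟨t, ht⟩ : ∃ t : B, orderOf t = 2 := by
    have : Fact (Nat.Prime 2) := ⟨Nat.prime_two⟩
    exact exists_prime_orderOf_dvd_card' 2 (by rw [← hcard, hAcard])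
  have hsG : orderOf (s : G) = 2 := by rw [Subgroup.orderOf_coe]; exact hs
  have htG : orderOf (t : G) = 2 := by rw [Subgroup.orderOf_coe]; exact ht
  have hsA : Subgroup.zpowers (s : G) = A := by
    apply Subgroup.eq_of_le_of_card_ge
    · rw [Subgroup.zpowers_le]; exact s.2
    · rw [Nat.card_zpowers, hsG, hAcard]
  have htB : Subgroup.zpowers (t : G) = B := by
    apply Subgroup.eq_of_le_of_card_ge
    · rw [Subgroup.zpowers_le]; exact t.2
    · rw [Nat.card_zpowers, htG, ← hcard, hAcard]
  have hss : (s : G) * s = 1 := by rw [← pow_two, ← hsG, pow_orderOf_eq_one]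
  have htt : (t : G) * t = 1 := by rw [← pow_two, ← htG, pow_orderOf_eq_one]
  set r : G := s * t with hr
  have hsr : (s : G) * r * s = r⁻¹ := by
    rw [hr, mul_inv_rev, ← eq_inv_of_mul_eq_one_left hss, ← eq_inv_of_mul_eq_one_left htt, ← mul_assoc, hss, one_mul]
  have hgen : Subgroup.closure {(s : G), r} = ⊤ := by
    have h6 : (s : G) ∈ Subgroup.closure {(s : G), r} := Subgroup.subset_closure (by simp)
    have h7 : r ∈ Subgroup.closure {(s : G), r} := Subgroup.subset_closure (by simp)
    rw [eq_top_iff, ← hjoin]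
    refine sup_le (hsA.symm.le.trans ?_) (htB.symm.le.trans ?_)
    · rw [Subgroup.zpowers_le]; exact h6
    · rw [Subgroup.zpowers_le]
      have : (t : G) = s * r := by rw [hr, ← mul_assoc, hss, one_mul]
      rw [this]
      exact Subgroup.mul_mem _ h6 h7
  have hRn : ∀ k : ℕ, (Subgroup.zpowers (r ^ k)).Normal := by
    intro k
    have hconj : (s : G) * r ^ k * (s : G) = (r ^ k)⁻¹ := by
      have hsinv : (s : G) = (s : G)⁻¹ := eq_inv_of_mul_eq_one_left hss
      have h8 : ∀ x : G, (s : G) * x * s = MulAut.conj (s : G) x := fun x => by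
        rw [MulAut.conj_apply, ← hsinv]
      rw [h8, map_pow, ← h8, hsr, inv_pow]
    rw [← Subgroup.normalizer_eq_top_iff, eq_top_iff, ← hgen, Subgroup.closure_le]
    have hsinv : (s : G)⁻¹ = (s : G) := (eq_inv_of_mul_eq_one_left hss).symm
    rintro x (rfl | rfl)
    · rw [SetLike.mem_coe, Subgroup.mem_normalizer_iff]
      have h9 : ∀ h ∈ Subgroup.zpowers (r ^ k), (s : G) * h * (s : G)⁻¹ ∈ Subgroup.zpowers (r ^ k) := by
        intro h hh
        obtain ⟨m, rfl⟩ := Subgroup.mem_zpowers_iff.mp hh
        rw [← MulAut.conj_apply, map_zpow, MulAut.conj_apply, hsinv, hconj]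
        exact Subgroup.zpow_mem _ (Subgroup.inv_mem _ (Subgroup.mem_zpowers _)) m
      intro h
      refine ⟨h9 h, fun hh => ?_⟩
      have := h9 _ hh
      rw [hsinv] at this
      have h10 : (s : G) * ((s : G) * h * (s : G)) * (s : G) = h := by
        calc (s : G) * ((s : G) * h * (s : G)) * (s : G) = ((s : G) * s) * h * ((s : G) * s) := by group
          _ = h := by rw [hss, one_mul, mul_one]
      rwa [h10] at this
    · rw [SetLike.mem_coe, Subgroup.mem_normalizer_iff]
      intro h
      have hcomm : ∀ h ∈ Subgroup.zpowers (r ^ k), r * h * r⁻¹ = h := by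
        intro h hh
        obtain ⟨m, rfl⟩ := Subgroup.mem_zpowers_iff.mp hh
        have : Commute r ((r ^ k) ^ m) := ((Commute.refl r).pow_right k).zpow_right m
        rw [this.eq, mul_inv_cancel_right]
      constructor
      · intro hh; rw [hcomm h hh]; exact hh
      · intro hh
        have h11 : r⁻¹ * (r * h * r⁻¹) * r = h := by group
        have h12 : ∀ h ∈ Subgroup.zpowers (r ^ k), r⁻¹ * h * r = h := by
          intro h hh
          obtain ⟨m, rfl⟩ := Subgroup.mem_zpowers_iff.mp hh
          have : Commute r⁻¹ ((r ^ k) ^ m) := (((Commute.refl r).pow_right k).zpow_right m).inv_left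
          rw [this.eq, inv_mul_cancel_right]
        rw [← h11, h12 _ hh]; exact hh
  have hns : (s : G) ∉ Subgroup.zpowers r := by
    intro h
    -- then A is normal
    have hcomm : ∀ x : G, x ∈ Subgroup.zpowers r := by
      intro x
      have : (⊤ : Subgroup G) ≤ Subgroup.zpowers r := by
        rw [← hgen, Subgroup.closure_le]
        rintro y (rfl | rfl)
        · exact h
        · exact Subgroup.mem_zpowers _
      exact this trivial
    have hAn : A.Normal := by
      constructor
      intro n hn k
      obtain ⟨i, rfl⟩ := Subgroup.mem_zpowers_iff.mp (hcomm n)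
      obtain ⟨j, rfl⟩ := Subgroup.mem_zpowers_iff.mp (hcomm k)
      have : Commute (r ^ j) (r ^ i) := ((Commute.refl r).zpow_right i).zpow_left j
      rw [this.eq, mul_inv_cancel_right]
      exact hn
    have := hcore A hAn le_rfl
    rw [this, Subgroup.card_bot] at hAcard
    omega
  obtain ⟨φ⟩ := dihedral_of_two_involutions (s : G) r hss hsr hns hgen
  have hcG : Nat.card G = 2 * orderOf r := by
    rw [Nat.card_congr φ.toEquiv, DihedralGroup.nat_card]
  have hcΩ : Nat.card Ω = orderOf r := by
    have h13 := Subgroup.card_mul_index A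
    rw [hcG, hAcard, hA, MulAction.index_stabilizer_of_transitive] at h13
    omega
  have hr1 : orderOf r ≠ 1 := by
    rw [← hcΩ]
    have := Finite.one_lt_card (α := Ω)
    omega
  obtain ⟨p, hp, hpd⟩ := Nat.exists_prime_and_dvd hr1
  have hrpos : 0 < orderOf r := orderOf_pos r
  refine ⟨p, hp, ?_⟩
  suffices h : orderOf r = p by rw [← h]; exact ⟨φ⟩
  by_contra hne
  have hNn := hRn p
  have hrp : r ^ p ≠ 1 := by
    intro h
    have := orderOf_dvd_of_pow_eq_one h
    exact hne (Nat.dvd_antisymm this hpd)
  have hfix : MulAction.fixedPoints (Subgroup.zpowers (r ^ p)) Ω ≠ Set.univ := by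
    intro h
    apply hrp
    apply FaithfulSMul.eq_of_smul_eq_smul (α := Ω)
    intro c
    have : c ∈ MulAction.fixedPoints (Subgroup.zpowers (r ^ p)) Ω := by rw [h]; trivial
    rw [one_smul]
    exact this ⟨r ^ p, Subgroup.mem_zpowers _⟩
  have htr : MulAction.IsPretransitive (Subgroup.zpowers (r ^ p)) Ω :=
    MulAction.IsQuasiPreprimitive.isPretransitive_of_normal hfix
  have hle : Nat.card Ω ≤ Nat.card (Subgroup.zpowers (r ^ p)) := by
    apply Nat.card_le_card_of_surjective (fun x : Subgroup.zpowers (r ^ p) => x • a)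
    intro c
    exact MulAction.exists_smul_eq _ a c
  rw [hcΩ, Nat.card_zpowers, orderOf_pow' r hp.ne_zero, Nat.gcd_eq_right hpd] at hle
  have := Nat.div_lt_self hrpos hp.one_lt
  omega

end Cfsg.Agent.S3684
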