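import Cfsg.Statements.S3687
import Cfsg.Agent.H24.SubAlt6

set_option autoImplicit false
open Cfsg


namespace Cfsg.Agent.S3687

open Cfsg.Agent.H24.SubAlt

/-- Let a finite group G act faithfully and primitively on a set Ω, let a and b be points such that the orbit Δ of b under the stabilizer H of a has d ≥ 6 elements, and suppose that the permutation group induced by H on Δ contains the alternating group of Δ (the image of H in the symmetric group of Δ has index at most 2) while H does not act faithfully on Δ. Then either H induces exactly the alternating group of Δ and H is isomorphic to the direct product of the alternating groups of degrees d and d - 1; or H induces the full symmetric group of Δ and H is isomorphic to one of: the direct product of the symmetric groups of degrees d and d - 1, the direct product of the symmetric group of degree d with the alternating group of degree d - 1, or the subgroup of the direct product of the symmetric groups of degrees d and d - 1 consisting of the pairs of permutations with equal signs. -/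
theorem result {G Ω : Type*} [Group G] [Finite G] [MulAction G Ω] [FaithfulSMul G Ω] [Finite Ω]
    (hprim : MulAction.IsPreprimitive G Ω) (a b : Ω) (d : ℕ) (hd : Nat.card (MulAction.orbit (MulAction.stabilizer G a) b) = d) (h6 : 6 ≤ d)
    (halt : (MulAction.toPermHom (MulAction.stabilizer G a) (MulAction.orbit (MulAction.stabilizer G a) b)).range.index ≤ 2)
    (hunf : ¬ Function.Injective (MulAction.toPermHom (MulAction.stabilizer G a) (MulAction.orbit (MulAction.stabilizer G a) b))) :
    ((MulAction.toPermHom (MulAction.stabilizer G a) (MulAction.orbit (MulAction.stabilizer G a) b)).range.index = 2 ∧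
      Nonempty (MulAction.stabilizer G a ≃* alternatingGroup (Fin d) × alternatingGroup (Fin (d - 1)))) ∨
    ((MulAction.toPermHom (MulAction.stabilizer G a) (MulAction.orbit (MulAction.stabilizer G a) b)).range = ⊤ ∧
      (Nonempty (MulAction.stabilizer G a ≃* Equiv.Perm (Fin d) × Equiv.Perm (Fin (d - 1))) ∨
       Nonempty (MulAction.stabilizer G a ≃* Equiv.Perm (Fin d) × alternatingGroup (Fin (d - 1))) ∨
       Nonempty (MulAction.stabilizer G a ≃* ((Equiv.Perm.sign.comp (MonoidHom.fst (Equiv.Perm (Fin d)) (Equiv.Perm (Fin (d - 1))))) *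
         (Equiv.Perm.sign.comp (MonoidHom.snd (Equiv.Perm (Fin d)) (Equiv.Perm (Fin (d - 1)))))).ker))) := by
  classical
  obtain ⟨n, rfl⟩ : ∃ n, d = n + 1 := ⟨d - 1, by omega⟩
  have hn : 5 ≤ n := by omega
  obtain ⟨hT, hi1, hi2, hcard⟩ := Cfsg.Agent.H94.wielandt_setup hprim a b (n+1) hd (by omega)
  have hpre : MulAction.IsPretransitive G Ω := hprim.toIsPretransitive
  obtain ⟨g, hg⟩ := MulAction.exists_smul_eq G a b
  have hconj : MulAction.stabilizer G b = (MulAction.stabilizer G a).map (MulAut.conj g).toMonoidHom := by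
    rw [← hg]; exact MulAction.stabilizer_smul_eq_stabilizer_map_conj g a
  have hd2 : Nat.card (MulAction.orbit (MulAction.stabilizer G b) a) = n + 1 := by
    rw [← hi2, Subgroup.inf_relIndex_right, Subgroup.relIndex, Subgroup.index_eq_card]
    have h3 : (MulAction.stabilizer G a).subgroupOf (MulAction.stabilizer G b) = MulAction.stabilizer (MulAction.stabilizer G b) a := by
      ext x; rfl
    rw [h3]
    exact Nat.card_congr (MulAction.orbitEquivQuotientStabilizer (MulAction.stabilizer G b) a)
  let e1 : MulAction.orbit (MulAction.stabilizer G a) b ≃ Fin (n+1) := Finite.equivFinOfCardEq hd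
  let e2 : MulAction.orbit (MulAction.stabilizer G b) a ≃ Fin (n+1) := Finite.equivFinOfCardEq hd2
  obtain ⟨s1, hs1⟩ := exists_side a b n (MulAction.stabilizer G a ⊓ MulAction.stabilizer G b) rfl hi1 e1
  obtain ⟨s2, hs2⟩ := exists_side b a n (MulAction.stabilizer G a ⊓ MulAction.stabilizer G b) (inf_comm _ _) hi2 e2
  let T := MulAction.toPermHom (MulAction.stabilizer G a) (MulAction.orbit (MulAction.stabilizer G a) b)
  have hfT : ∀ m, s1.f m = 1 ↔ T m = 1 := by
    intro m
    rw [hs1]
    change e1.permCongrHom (T m) = 1 ↔ _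
    rw [map_eq_one_iff _ (MulEquiv.injective _)]
  have hcr : Nat.card s1.f.range = Nat.card T.range := by
    have : s1.f.range = T.range.map (e1.permCongrHom).toMonoidHom := by
      rw [hs1, MonoidHom.range_comp]
    rw [this]
    exact Nat.card_congr (T.range.equivMapOfInjective _ (MulEquiv.injective e1.permCongrHom)).symm.toEquiv
  have hTi : Nat.card T.range * T.range.index = (n+1).factorial := by
    rw [Subgroup.card_mul_index, Nat.card_congr (e1.permCongrHom).toEquiv, card_perm_fin]
  have a1 : alternatingGroup (Fin (n+1)) ≤ s1.f.range := by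
    apply alt_of_card
    rw [hcr, ← hTi, mul_comm]
    exact Nat.mul_le_mul_right _ halt
  -- the Fitting subgroup
  have hFD : Cfsg.fittingSubgroup ↥(MulAction.stabilizer G a ⊓ MulAction.stabilizer G b) = ⊥ := by
    refine (Cfsg.Agent.S3693.result hprim a b (n+1) hd (by omega) ?_).1
    let E := ((MulAction.stabilizer G b).subgroupOf (MulAction.stabilizer G a)).map T
    let ι : ↥(MulAction.stabilizer G a ⊓ MulAction.stabilizer G b) →* MulAction.stabilizer G a := Subgroup.inclusion inf_le_left
    have hmem : ∀ x, T (ι x) ∈ E := fun x => ⟨ι x, x.2.2, rfl⟩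
    let π : ↥(MulAction.stabilizer G a ⊓ MulAction.stabilizer G b) →* E := (T.comp ι).codRestrict E hmem
    have hsurj : Function.Surjective π := by
      rintro ⟨_, ⟨y, hy, rfl⟩⟩
      exact ⟨⟨y, y.2, hy⟩, rfl⟩
    refine fitting_bot hn π hsurj s1.ψ (fun x => ?_) (s1.alt a1)
    rw [s1.hψ]
    have h1 := s1.hf (ι x)
    rw [hfT] at h1
    rw [show ((x : G) ∈ Cfsg.Agent.H94.coreIn (MulAction.stabilizer G a) (MulAction.stabilizer G a ⊓ MulAction.stabilizer G b)) ↔ T (ι x) = 1 from h1.symm]
    constructor
    · intro h; exact Subtype.ext h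
    · intro h; exact congrArg Subtype.val h
  have hnil : ∀ X : Subgroup G, X ≤ MulAction.stabilizer G a ⊓ MulAction.stabilizer G b →
      MulAction.stabilizer G a ⊓ MulAction.stabilizer G b ≤ Subgroup.normalizer (X : Set G) → Group.IsNilpotent X → X = ⊥ := by
    intro X hX hXn hXnil
    have h1 : (X.subgroupOf (MulAction.stabilizer G a ⊓ MulAction.stabilizer G b)).Normal :=
      (Subgroup.normal_subgroupOf_iff_le_normalizer hX).mpr hXn
    have h2 : Group.IsNilpotent (X.subgroupOf (MulAction.stabilizer G a ⊓ MulAction.stabilizer G b)) :=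
      Group.nilpotent_of_mulEquiv (Subgroup.subgroupOfEquivOfLe hX).symm
    have h3 := Cfsg.Agent.Solv.le_fitting h1 h2
    rw [hFD, le_bot_iff, Subgroup.subgroupOf_eq_bot] at h3
    rw [eq_bot_iff]
    intro x hx
    exact (Subgroup.disjoint_def.mp h3 hx (hX hx) : x = 1) ▸ Subgroup.one_mem _
  have hab : ∀ X : Subgroup G, X ≤ MulAction.stabilizer G a ⊓ MulAction.stabilizer G b →
      MulAction.stabilizer G a ⊓ MulAction.stabilizer G b ≤ Subgroup.normalizer (X : Set G) →
      X ≤ Subgroup.centralizer (X : Set G) → X = ⊥ := by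
    intro X hX hXn hXc
    apply hnil X hX hXn
    letI : CommGroup X := { (inferInstance : Group X) with
      mul_comm := fun x y => Subtype.ext (Subgroup.mem_centralizer_iff.mp (hXc y.2) x x.2) }
    exact CommGroup.isNilpotent
  have hK1 : Cfsg.Agent.H94.coreIn (MulAction.stabilizer G a) (MulAction.stabilizer G a ⊓ MulAction.stabilizer G b) ≠ ⊥ := by
    intro hbot
    apply hunf
    rw [injective_iff_map_eq_one]
    intro m hm
    have h1 : (m : G) ∈ Cfsg.Agent.H94.coreIn (MulAction.stabilizer G a) (MulAction.stabilizer G a ⊓ MulAction.stabilizer G b) :=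
      (s1.hf m).mp ((hfT m).mpr hm)
    rw [hbot, Subgroup.mem_bot] at h1
    exact Subtype.ext h1
  have hd' : Cfsg.Agent.H94.coreIn (MulAction.stabilizer G a)
        (Cfsg.Agent.H94.coreIn (MulAction.stabilizer G a) (MulAction.stabilizer G a ⊓ MulAction.stabilizer G b) ⊓
          Cfsg.Agent.H94.coreIn (MulAction.stabilizer G b) (MulAction.stabilizer G a ⊓ MulAction.stabilizer G b)) = ⊥ ∨
      Cfsg.Agent.H94.coreIn (MulAction.stabilizer G b)
        (Cfsg.Agent.H94.coreIn (MulAction.stabilizer G a) (MulAction.stabilizer G a ⊓ MulAction.stabilizer G b) ⊓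
          Cfsg.Agent.H94.coreIn (MulAction.stabilizer G b) (MulAction.stabilizer G a ⊓ MulAction.stabilizer G b)) = ⊥ := by
    by_contra hcon
    push Not at hcon
    obtain ⟨p, hp, h1, h2', h3, h4⟩ := hT.knapp hcon.1 hcon.2
    have : Fact p.Prime := ⟨hp⟩
    apply hcon.1
    apply hnil
    · exact (Cfsg.Agent.H94.coreIn_le_right _ _).trans (inf_le_left.trans (Cfsg.Agent.H94.coreIn_le_right _ _))
    · exact inf_le_left.trans (Cfsg.Agent.H94.le_normalizer_coreIn _ _)
    · exact h1.isNilpotent
  have hfinal := main hn s1 s2 a1 hT g hconj.symm hab hK1 hd'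
  rcases hfinal with ⟨h1, h2⟩ | ⟨h1, h2⟩
  · left
    refine ⟨?_, h2⟩
    change T.range.index = 2
    rw [hcr] at h1
    rw [← h1, mul_comm 2] at hTi
    exact Nat.eq_of_mul_eq_mul_left Nat.card_pos hTi
  · right
    refine ⟨?_, ?_⟩
    · change T.range = ⊤
      rw [hcr] at h1
      rw [← h1] at hTi
      rw [← Subgroup.index_eq_one]
      exact Nat.eq_of_mul_eq_mul_left Nat.card_pos (hTi.trans (mul_one _).symm)
    · rcases h2 with h2 | h2
      · exact Or.inl h2
      · exact Or.inr (Or.inr h2)

end Cfsg.Agent.S3687
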