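import Cfsg.Statements.S3688
import Cfsg.Agent.H94.TWIdx

set_option autoImplicit false
open Cfsg

namespace Cfsg.Agent.S3688

open Cfsg.Agent.H94

/-- Let a finite group G act faithfully and primitively on a set Ω, let a and b be points such that the orbit of b under the stabilizer H of a has length d ≥ 2, and suppose that H is not strongly constrained: for no prime p does the generalized Fitting subgroup of H coincide with the largest normal p-subgroup of H. Then the order of H divides d! · ((d - 1)!)^d. -/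
theorem result {G Ω : Type*} [Group G] [Finite G] [MulAction G Ω] [FaithfulSMul G Ω] [Finite Ω]
    (hprim : MulAction.IsPreprimitive G Ω) (a b : Ω) (d : ℕ) (hd : Nat.card (MulAction.orbit (MulAction.stabilizer G a) b) = d) (h2 : 2 ≤ d)
    (hnc : ∀ p : ℕ, p.Prime → Cfsg.generalizedFittingSubgroup (MulAction.stabilizer G a) ≠ Cfsg.pCore p (MulAction.stabilizer G a)) :
    Nat.card (MulAction.stabilizer G a) ∣ Nat.factorial d * (Nat.factorial (d - 1)) ^ d := by
  obtain ⟨hT, hi1, hi2, hcard⟩ := Cfsg.Agent.H94.wielandt_setup hprim a b d hd h2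
  set M1 := MulAction.stabilizer G a with hM1
  set M2 := MulAction.stabilizer G b with hM2
  have hb1 := Cfsg.Agent.H94.bound hT d hi1 hi2
  have hb2 : (coreIn M2 (coreIn M1 (M1 ⊓ M2) ⊓ coreIn M2 (M1 ⊓ M2))).relIndex M2 ∣ Nat.factorial d * (Nat.factorial (d - 1)) ^ d := by
    have h3 := Cfsg.Agent.H94.bound hT.symm d (by rw [inf_comm]; exact hi2) (by rw [inf_comm]; exact hi1)
    rw [inf_comm M2 M1, inf_comm (coreIn M2 (M1 ⊓ M2))] at h3
    exact h3
  by_cases hA : coreIn M1 (coreIn M1 (M1 ⊓ M2) ⊓ coreIn M2 (M1 ⊓ M2)) = ⊥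
  · rwa [hA, Subgroup.relIndex_bot_left] at hb1
  by_cases hB : coreIn M2 (coreIn M1 (M1 ⊓ M2) ⊓ coreIn M2 (M1 ⊓ M2)) = ⊥
  · rw [hB, Subgroup.relIndex_bot_left] at hb2
    rwa [hcard]
  obtain ⟨p, hp, h1, h2', h3, h4⟩ := hT.knapp hA hB
  exfalso
  have : Fact p.Prime := ⟨hp⟩
  exact hnc p hp ((FStar.generalizedFitting_eq_pCore_iff).mpr h3)

end Cfsg.Agent.S3688
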