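import Cfsg.Statements.S3696
-- import your own Cfsg.Agent.* helpers here

set_option autoImplicit false
open Cfsg

namespace Cfsg.Agent.S3696

theorem num_ineq1 (m j : ℕ) (hj : 1 ≤ j) (hm : 2 ^ j ≤ m) : m * j ^ j ≤ m ^ j := by
  have h1 : j ≤ 2 ^ (j - 1) := by
    have := Nat.lt_two_pow_self (n := j - 1)
    omega
  have h2 : j ^ j ≤ m ^ (j - 1) := by
    calc j ^ j ≤ (2 ^ (j - 1)) ^ j := Nat.pow_le_pow_left h1 j
      _ = (2 ^ j) ^ (j - 1) := by rw [← pow_mul, ← pow_mul, mul_comm]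
      _ ≤ m ^ (j - 1) := Nat.pow_le_pow_left hm _
  calc m * j ^ j ≤ m * m ^ (j - 1) := Nat.mul_le_mul_left _ h2
    _ = m ^ j := by rw [← pow_succ']; congr 1; omega

theorem num_ineq2 (a b j s : ℕ) (hj : 1 ≤ j) : a ^ j * b ^ s * (j + s) ^ (j + s) ≤ j ^ j * s ^ s * (a + b) ^ (j + s) := by
  rcases Nat.eq_zero_or_pos s with rfl | hs
  · simp only [pow_zero, mul_one, add_zero]
    rw [mul_comm]
    exact Nat.mul_le_mul_left _ (Nat.pow_le_pow_left (Nat.le_add_right a b) _)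
  have key : ((a : ℝ) / j) ^ j * ((b : ℝ) / s) ^ s ≤ (((a : ℝ) + b) / (j + s)) ^ (j + s) := by
    have hj' : (0 : ℝ) < j := by exact_mod_cast hj
    have hs' : (0 : ℝ) < s := by exact_mod_cast hs
    have hjs : (0 : ℝ) < (j : ℝ) + s := by positivity
    have ha : (0 : ℝ) ≤ (a : ℝ) / j := by positivity
    have hb : (0 : ℝ) ≤ (b : ℝ) / s := by positivity
    have h := Real.geom_mean_le_arith_mean2_weighted (w₁ := (j : ℝ) / (j + s)) (w₂ := (s : ℝ) / (j + s))
      (p₁ := (a : ℝ) / j) (p₂ := (b : ℝ) / s) (by positivity) (by positivity) ha hb (by field_simp)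
    have h2 : (j : ℝ) / (j + s) * ((a : ℝ) / j) + (s : ℝ) / (j + s) * ((b : ℝ) / s) = ((a : ℝ) + b) / (j + s) := by
      field_simp
    rw [h2] at h
    have h3 := pow_le_pow_left₀ (by positivity) h (j + s)
    rw [mul_pow, ← Real.rpow_natCast (((a : ℝ) / j) ^ ((j : ℝ) / (j + s))), ← Real.rpow_mul ha,
      ← Real.rpow_natCast (((b : ℝ) / s) ^ ((s : ℝ) / (j + s))), ← Real.rpow_mul hb] at h3
    have e1 : (j : ℝ) / (j + s) * ((j + s : ℕ) : ℝ) = (j : ℝ) := by push_cast; field_simp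
    have e2 : (s : ℝ) / (j + s) * ((j + s : ℕ) : ℝ) = (s : ℝ) := by push_cast; field_simp
    rw [e1, e2, Real.rpow_natCast, Real.rpow_natCast] at h3
    exact h3
  have hj' : (0 : ℝ) < j := by exact_mod_cast hj
  have hs' : (0 : ℝ) < s := by exact_mod_cast hs
  have h4 : (a : ℝ) ^ j * (b : ℝ) ^ s * ((j : ℝ) + s) ^ (j + s) ≤ (j : ℝ) ^ j * (s : ℝ) ^ s * ((a : ℝ) + b) ^ (j + s) := by
    rw [div_pow, div_pow, div_pow, div_mul_div_comm, div_le_div_iff₀ (by positivity) (by positivity)] at key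
    linarith
  exact_mod_cast h4

open Equiv in
/-- The elements of exponent `p` in a commutative subgroup. -/
def Om {Ω : Type*} (p : ℕ) (B : Subgroup (Perm Ω)) (hc : ∀ x ∈ B, ∀ y ∈ B, x * y = y * x) : Subgroup (Perm Ω) where
  carrier := {x | x ∈ B ∧ x ^ p = 1}
  mul_mem' := by
    rintro x y ⟨hx, hx'⟩ ⟨hy, hy'⟩
    refine ⟨B.mul_mem hx hy, ?_⟩
    have : Commute x y := hc x hx y hy
    rw [this.mul_pow, hx', hy', one_mul]
  one_mem' := ⟨B.one_mem, one_pow p⟩
  inv_mem' := by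
    rintro x ⟨hx, hx'⟩
    exact ⟨B.inv_mem hx, by rw [inv_pow, hx', inv_one]⟩

theorem main {Ω : Type*} [Fintype Ω] [DecidableEq Ω] (p : ℕ) (hp : p.Prime) (N : ℕ) :
    ∀ (B : Subgroup (Equiv.Perm Ω)) (hc : ∀ x ∈ B, ∀ y ∈ B, x * y = y * x) (S : Finset Ω) (r : ℕ),
      Nat.card B = N → IsPGroup p B → (∀ b ∈ B, ∀ ω, ω ∉ S → b ω = ω) → Nat.card (Om p B hc) = p ^ r →
      Nat.card B * r ^ r ≤ S.card ^ r := by
  classical
  have : Fact p.Prime := ⟨hp⟩
  induction N using Nat.strong_induction_on with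
  | _ N ih =>
  intro B hc S r hN hB hS hr
  rcases Nat.eq_zero_or_pos r with rfl | hrpos
  · -- B trivial
    have h1 : Nat.card B = 1 := by
      by_contra hne
      obtain ⟨n, hn⟩ := IsPGroup.iff_card.mp hB
      have hn0 : n ≠ 0 := by rintro rfl; exact hne (by rw [hn, pow_zero])
      obtain ⟨x, hx⟩ := exists_prime_orderOf_dvd_card' (G := B) p (by rw [hn]; exact dvd_pow_self p hn0)
      rw [pow_zero, Nat.card_eq_one_iff_unique] at hr
      obtain ⟨hsub, -⟩ := hr
      have h2 : (⟨(x : Equiv.Perm Ω), x.2, by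
          rw [← hx, ← Subgroup.coe_pow, pow_orderOf_eq_one, Subgroup.coe_one]⟩ : Om p B hc) = 1 := Subsingleton.elim _ _
      have h3 : (x : Equiv.Perm Ω) = 1 := congrArg Subtype.val h2
      have h4 : x = 1 := Subtype.ext h3
      rw [h4, orderOf_one] at hx
      exact hp.one_lt.ne hx
    rw [h1]; simp
  -- an element of order p
  have hTB : Om p B hc ≤ B := fun x hx => hx.1
  obtain ⟨z, hz⟩ : ∃ z : Om p B hc, z ≠ 1 := by
    by_contra h
    push Not at h
    have : Nat.card (Om p B hc) = 1 := by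
      rw [Nat.card_eq_one_iff_unique]
      exact ⟨⟨fun a b => by rw [h a, h b]⟩, ⟨1⟩⟩
    rw [this] at hr
    have := Nat.one_lt_pow hrpos.ne' hp.one_lt
    omega
  obtain ⟨ω, hω⟩ : ∃ ω, (z : Equiv.Perm Ω) ω ≠ ω := by
    by_contra h
    push Not at h
    exact hz (Subtype.ext (Equiv.ext h))
  let B' : Subgroup (Equiv.Perm Ω) := B ⊓ MulAction.stabilizer (Equiv.Perm Ω) ω
  have hB'B : B' ≤ B := inf_le_left
  have hc' : ∀ x ∈ B', ∀ y ∈ B', x * y = y * x := fun x hx y hy => hc x (hB'B hx) y (hB'B hy)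
  have hBp' : IsPGroup p B' := hB.to_le hB'B
  -- orbit of B
  let O : Finset Ω := Finset.univ.filter (fun x => x ∈ MulAction.orbit B ω)
  have hOS : O ⊆ S := by
    intro x hx
    simp only [O, Finset.mem_filter, Finset.mem_univ, true_and] at hx
    obtain ⟨b, rfl⟩ := hx
    by_contra h
    have h0 : (b : Equiv.Perm Ω) ω ∉ S := h
    have h1 : (b : Equiv.Perm Ω)⁻¹ ((b : Equiv.Perm Ω) ω) = (b : Equiv.Perm Ω) ω := hS _ (B.inv_mem b.2) _ h0
    have h1' : (b : Equiv.Perm Ω)⁻¹ ((b : Equiv.Perm Ω) ω) = ω := (b : Equiv.Perm Ω).symm_apply_apply ω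
    rw [← h1, h1'] at h0
    exact hω (hS _ (hTB z.2) ω h0)
  have hOcard : Nat.card (MulAction.orbit B ω) = O.card := by
    rw [Nat.card_eq_fintype_card, Fintype.card_subtype]
  have hstab : ∀ C : Subgroup (Equiv.Perm Ω), Nat.card C =
      Nat.card (MulAction.orbit C ω) * Nat.card (C ⊓ MulAction.stabilizer (Equiv.Perm Ω) ω : Subgroup (Equiv.Perm Ω)) := by
    intro C
    have h1 : MulAction.stabilizer C ω = (C ⊓ MulAction.stabilizer (Equiv.Perm Ω) ω).subgroupOf C := by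
      ext x
      simp only [MulAction.mem_stabilizer_iff, Subgroup.mem_subgroupOf, Subgroup.mem_inf]
      exact ⟨fun h => ⟨x.2, h⟩, fun h => h.2⟩
    have h2 : Nat.card (MulAction.stabilizer C ω) = Nat.card (C ⊓ MulAction.stabilizer (Equiv.Perm Ω) ω : Subgroup (Equiv.Perm Ω)) := by
      rw [h1]
      exact Nat.card_congr (Subgroup.subgroupOfEquivOfLe inf_le_left).toEquiv
    rw [← h2, Nat.card_coe_set_eq, ← MulAction.index_stabilizer, mul_comm, Subgroup.card_mul_index]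
  have hBcard : Nat.card B = O.card * Nat.card B' := by
    rw [← hOcard]; exact hstab B
  have hTeq : Om p B' hc' = Om p B hc ⊓ MulAction.stabilizer (Equiv.Perm Ω) ω := by
    ext x
    constructor
    · rintro ⟨⟨h1, h2⟩, h3⟩
      exact ⟨⟨h1, h3⟩, h2⟩
    · rintro ⟨⟨h1, h2⟩, h3⟩
      exact ⟨⟨h1, h3⟩, h2⟩
  have hTcard := hstab (Om p B hc)
  rw [← hTeq, hr] at hTcard
  obtain ⟨s, hs⟩ : ∃ s, Nat.card (Om p B' hc') = p ^ s := by
    have : IsPGroup p (Om p B' hc') := hBp'.to_le (fun x hx => hx.1)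
    exact IsPGroup.iff_card.mp this
  rw [hs] at hTcard
  have hsr : s ≤ r := by
    have : p ^ s ∣ p ^ r := ⟨_, by rw [hTcard, mul_comm]⟩
    exact (Nat.pow_dvd_pow_iff_le_right hp.one_lt).mp this
  have horb : Nat.card (MulAction.orbit (Om p B hc) ω) = p ^ (r - s) := by
    have h1 : p ^ r = p ^ (r - s) * p ^ s := by rw [← pow_add]; congr 1; omega
    rw [h1] at hTcard
    exact (Nat.eq_of_mul_eq_mul_right (pow_pos hp.pos s) hTcard).symm
  have hj : 1 ≤ r - s := by
    by_contra h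
    have h0 : r - s = 0 := by omega
    rw [h0, pow_zero, Nat.card_eq_one_iff_unique] at horb
    obtain ⟨hsub, -⟩ := horb
    have := Subsingleton.elim (⟨(z : Equiv.Perm Ω) ω, ⟨z, rfl⟩⟩ : MulAction.orbit (Om p B hc) ω) ⟨ω, MulAction.mem_orbit_self ω⟩
    exact hω (congrArg Subtype.val this)
  have hm : p ^ (r - s) ≤ O.card := by
    rw [← horb, ← hOcard]
    apply Nat.card_le_card_of_injective
      (fun x : MulAction.orbit (Om p B hc) ω => (⟨x.1, by
        obtain ⟨t, ht⟩ := x.2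
        exact ⟨⟨t, hTB t.2⟩, ht⟩⟩ : MulAction.orbit B ω))
    intro x y h
    have h' := Subtype.mk.inj h
    exact Subtype.ext h'
  have hB'card : Nat.card B' < N := by
    rw [← hN, hBcard]
    have h1 : 1 < O.card := lt_of_lt_of_le (Nat.one_lt_pow (by omega) hp.one_lt) hm
    have h2 : 0 < Nat.card B' := Nat.card_pos
    nlinarith
  have hS' : ∀ b ∈ B', ∀ x, x ∉ S \ O → b x = x := by
    intro b hb x hx
    rw [Finset.mem_sdiff, not_and_not_right] at hx
    by_cases hxS : x ∈ S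
    · have hxO := hx hxS
      simp only [O, Finset.mem_filter, Finset.mem_univ, true_and] at hxO
      obtain ⟨c, rfl⟩ := hxO
      have h1 : b * (c : Equiv.Perm Ω) = c * b := hc b (hB'B hb) c c.2
      have h2 : b ω = ω := hb.2
      change b ((c : Equiv.Perm Ω) ω) = (c : Equiv.Perm Ω) ω
      rw [← Equiv.Perm.mul_apply, h1, Equiv.Perm.mul_apply, h2]
    · exact hS b (hB'B hb) x hxS
  have hind := ih (Nat.card B') hB'card B' hc' (S \ O) s rfl hBp' hS' hs
  rw [Finset.card_sdiff_of_subset hOS] at hind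
  have hmle : O.card ≤ S.card := Finset.card_le_card hOS
  set m := O.card
  set M := S.card
  set j := r - s with hjdef
  have hrjs : r = j + s := by omega
  have hm2 : 2 ^ j ≤ m := le_trans (Nat.pow_le_pow_left hp.two_le j) hm
  have e1 := num_ineq1 m j hj hm2
  have e2 := num_ineq2 m (M - m) j s hj
  rw [show m + (M - m) = M by omega] at e2
  rw [hBcard, hrjs]
  have hpos : 0 < j ^ j * s ^ s := by
    apply Nat.mul_pos (pow_pos (by omega) j)
    rcases Nat.eq_zero_or_pos s with h | h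
    · rw [h]; norm_num
    · exact pow_pos h s
  apply Nat.le_of_mul_le_mul_left _ hpos
  calc j ^ j * s ^ s * (m * Nat.card B' * (j + s) ^ (j + s))
      = (m * j ^ j) * (Nat.card B' * s ^ s) * (j + s) ^ (j + s) := by ring
    _ ≤ m ^ j * (M - m) ^ s * (j + s) ^ (j + s) := Nat.mul_le_mul_right _ (Nat.mul_le_mul e1 hind)
    _ ≤ j ^ j * s ^ s * M ^ (j + s) := e2

/-- Let p be a prime, Ω a finite set with n ≥ p elements, and A an abelian p-subgroup of the symmetric group on Ω whose elements of order dividing p number p^k (so k is the rank of A). Then |A| · k^k ≤ n^k, that is, |A| ≤ (n/k)^k. -/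
theorem result {Ω : Type*} [Fintype Ω] [DecidableEq Ω]
    (p : ℕ) (hp : p.Prime) (hn : p ≤ Fintype.card Ω) (A : Subgroup (Equiv.Perm Ω)) (hA : IsPGroup p A) (hab : IsMulCommutative A)
    (k : ℕ) (hk : Nat.card {x : A // x ^ p = 1} = p ^ k) :
    Nat.card A * k ^ k ≤ Fintype.card Ω ^ k := by
  have hc : ∀ x ∈ A, ∀ y ∈ A, x * y = y * x := by
    intro x hx y hy
    have := hab.is_comm.comm (⟨x, hx⟩ : A) (⟨y, hy⟩ : A)
    exact congrArg Subtype.val this
  have hcard : Nat.card (Om p A hc) = p ^ k := by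
    rw [← hk]
    apply Nat.card_congr
    refine ⟨fun x => ⟨⟨x.1, x.2.1⟩, Subtype.ext x.2.2⟩, fun x => ⟨x.1.1, x.1.2, congrArg Subtype.val x.2⟩, fun x => rfl, fun x => rfl⟩
  have := main p hp _ A hc Finset.univ k rfl hA (fun b _ ω h => absurd (Finset.mem_univ ω) h) hcard
  rwa [Finset.card_univ] at this

end Cfsg.Agent.S3696
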