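import Cfsg.Statements.S3701
import Cfsg.Agent.Tri3.Data
import Cfsg.Agent.Tri3.Main27

set_option autoImplicit false
open Cfsg

namespace Cfsg.Agent.S3701

/-- Let H₀ ≤ Sym(9) be generated by the 3-cycles (1 2 3), (4 5 6), (7 8 9) and the involutions (1 2)(4 5), (1 2)(7 8) (a group of order 108, elementary abelian of order 27 extended by a four-group). Let G be a finite group with a subgroup H ≅ H₀, and T ≤ H of order 27 (a Sylow 3-subgroup of H) with N_G(T) = H and C_G(t) ≤ H for every t ≠ 1 in T. Then G = H. -/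
theorem result {G : Type*} [Group G] [Finite G] (H : Subgroup G)
    (hH : Nonempty (↥H ≃* ↥(Subgroup.closure ({Equiv.swap (0 : Fin 9) 1 * Equiv.swap 1 2, Equiv.swap (3 : Fin 9) 4 * Equiv.swap 4 5, Equiv.swap (6 : Fin 9) 7 * Equiv.swap 7 8,
        Equiv.swap (0 : Fin 9) 1 * Equiv.swap 3 4, Equiv.swap (0 : Fin 9) 1 * Equiv.swap 6 7} : Set (Equiv.Perm (Fin 9))))))
    (T : Subgroup G) (hTH : T ≤ H) (hT : Nat.card T = 27) (hN : Subgroup.normalizer (T : Set G) = H)
    (hC : ∀ t ∈ T, t ≠ 1 → Subgroup.centralizer ({t} : Set G) ≤ H) : H = ⊤ := by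
  obtain ⟨ψ⟩ := hH
  obtain ⟨D⟩ := Tri3.exists_data H ψ
  obtain ⟨hR, hI⟩ := D.range_eq hTH hT
  have E : Tri3.TI H Tri3.sg :=
    { φ := D.φ
      inj := hI
      e := D.e
      memφ := D.memφ
      meme := D.meme
      cj := D.cj
      ex := D.ex
      cube := by decide
      mem_of_cube := by
        intro h hh h3
        obtain ⟨v, hv⟩ := D.mem_range_of_pow hh (by
          have : h ^ 27 = (h ^ 3) ^ 9 := by rw [← pow_mul]
          rw [this, h3, one_pow])
        exact ⟨v.toAdd, hv.symm⟩
      nor := by rw [hR, hN]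
      cen := by
        intro v hv
        apply hC
        · rw [← hR]; exact ⟨_, rfl⟩
        · intro h
          rw [← map_one D.φ] at h
          exact hv (Multiplicative.ofAdd.injective (hI h))
      sg_inj := by decide }
  have h1 := Tri3.card_G E
  have h2 := E.card_H
  rw [Tri3.card_A3, Nat.card_fin] at h2
  exact Subgroup.eq_top_of_card_eq H (by rw [h1, h2])

end Cfsg.Agent.S3701
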