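import Cfsg.Statements.S3703
import Cfsg.Agent.H62.Mazurov2

set_option autoImplicit false
open Cfsg

namespace Cfsg.Agent.S3703

open Subgroup
open scoped Pointwise

/-- Let N be a normal subgroup of the finite group G such that G/N is a Frobenius group with kernel F and cyclic complement H, where the order of F is coprime to that of N and F is not contained in the image of C_G(N) in G/N. Then G has an element of order p·#H for some prime p dividing the order of N. (A standard tool in recognising groups by their element orders.) -/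
theorem result {G : Type*} [Group G] [Finite G] (N : Subgroup G) [N.Normal]
    (Fb Hb : Subgroup (G ⧸ N)) [Fb.Normal] (hHb : Cfsg.IsFrobeniusComplement Hb) (hker : Cfsg.frobeniusKernel Hb = (Fb : Set (G ⧸ N)))
    (hcyc : IsCyclic Hb) (hcop : (Nat.card Fb).Coprime (Nat.card N))
    (hnot : ¬ Fb ≤ (Subgroup.centralizer (N : Set G)).map (QuotientGroup.mk' N)) :
    ∃ p : ℕ, p.Prime ∧ p ∣ Nat.card N ∧ ∃ g : G, orderOf g = p * Nat.card Hb := by
  classical
  set π := QuotientGroup.mk' N with hπ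
  have hπs : Function.Surjective π := QuotientGroup.mk'_surjective N
  have hπN : ∀ x ∈ N, π x = 1 := fun x hx => (QuotientGroup.eq_one_iff x).2 hx
  by_contra hcon
  have hcard : Nat.card Fb = Hb.index := by
    have h1 := Frob.card_frobeniusKernel hHb
    rw [hker] at h1
    exact h1
  have hcopH : (Nat.card Hb).Coprime (Nat.card Fb) := by
    rw [hcard]; exact Frob.coprime_card_index hHb
  have hHF : Hb ≤ normalizer (Fb : Set (G ⧸ N)) := by
    rw [Subgroup.normalizer_eq_top Fb]; exact le_top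
  haveI := hcyc
  have hsolvH : Group.IsSolvable Hb := by
    letI : CommGroup Hb := IsCyclic.commGroup
    infer_instance
  obtain ⟨r, hr, R, hR1, hR2⟩ := H62.exists_invariant_sylow_not_le hHF hcopH (Or.inl hsolvH) hnot
  haveI : Fact r.Prime := ⟨hr⟩
  set Rb := (R : Subgroup Fb).map Fb.subtype with hRb
  have hRbF : Rb ≤ Fb := by rintro _ ⟨x, _, rfl⟩; exact x.2
  have hcopR : (Nat.card N).Coprime (Nat.card Rb) :=
    (Nat.Coprime.coprime_dvd_left (Subgroup.card_dvd_of_le hRbF) hcop).symm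
  have hRbp : IsPGroup r Rb := R.isPGroup'.map _
  obtain ⟨R₀, hR₀map, hR₀card, hR₀sup⟩ := H62.exists_lift_coprime N Rb hcopR
  have hcopR₀ : (Nat.card R₀).Coprime (Nat.card N) := by rw [hR₀card]; exact hcopR.symm
  have hR₀p : IsPGroup r R₀ := by
    obtain ⟨k, hk⟩ := IsPGroup.iff_card.1 hRbp
    exact IsPGroup.of_card (by rw [hR₀card, hk])
  have hsolvR : Group.IsSolvable R₀ := by
    haveI := hR₀p.isNilpotent
    infer_instance
  have hR₀N : R₀ ≤ normalizer (N : Set G) := by
    rw [Subgroup.normalizer_eq_top N]; exact le_top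
  have hπR₀ : ∀ f ∈ R₀, π f ∈ Rb := fun f hf => by
    rw [← hR₀map]; exact ⟨f, hf, rfl⟩
  -- generator of the complement
  obtain ⟨h, hh⟩ := IsCyclic.exists_generator (α := Hb)
  have hordh : orderOf h = Nat.card Hb := orderOf_eq_card_of_forall_mem_zpowers hh
  obtain ⟨x', hx'⟩ := hπs (h : G ⧸ N)
  set n := Nat.card Hb with hn
  have hn0 : 0 < n := Nat.card_pos
  have hordh' : orderOf (h : G ⧸ N) = n := by rw [Subgroup.orderOf_coe, hordh]
  -- adjust x'
  have hconj : MulAut.conj x' • R₀ ≤ N ⊔ R₀ := by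
    rw [hR₀sup]
    intro y hy
    rw [Hall.mem_conj_smul] at hy
    have h1 : π (x'⁻¹ * y * x') ∈ Rb := hπR₀ _ hy
    have h2 := (mem_normalizer_iff.1 (hR1 h.2) _).1 h1
    rw [mem_comap]
    rw [map_mul, map_mul, map_inv, hx'] at h2
    have h3 : (h : G ⧸ N) * ((h : G ⧸ N)⁻¹ * π y * h) * (h : G ⧸ N)⁻¹ = π y := by group
    rw [h3] at h2
    exact h2
  obtain ⟨m, hm, hm'⟩ := Cop.sz_rel hR₀N hconj (Hall.card_conj_smul _ _) hcopR₀.symm (Or.inr hsolvR)
  have hxR : m⁻¹ * x' ∈ normalizer (R₀ : Set G) := by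
    apply Cop.mem_normalizer_of_conj_smul_eq
    rw [map_mul, mul_smul, ← hm', ← mul_smul, ← map_mul, inv_mul_cancel, map_one, one_smul]
  set x := m⁻¹ * x' with hx
  have hπx : π x = h := by
    rw [hx, map_mul, map_inv, hπN m hm, inv_one, one_mul, hx']
  -- a Sylow subgroup of N
  have hnotN : ¬ N ≤ centralizer (R₀ : Set G) := by
    intro h1
    apply hR2
    rw [← hR₀map]
    exact Subgroup.map_mono (Subgroup.le_centralizer_iff.1 h1)
  obtain ⟨p, hp, P, hP1, hP2⟩ := H62.exists_invariant_sylow_not_le hR₀N hcopR₀ (Or.inl hsolvR) hnotN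
  haveI : Fact p.Prime := ⟨hp⟩
  have hxN : x ∈ normalizer (N : Set G) := by
    rw [Subgroup.normalizer_eq_top N]; trivial
  obtain ⟨Q, hQ⟩ := Cop.exists_sylow_conj P hxN
  have hQR : R₀ ≤ normalizer ((Q : Subgroup N).map N.subtype : Set G) := by
    intro a ha
    rw [hQ, Cop.mem_normalizer_conj_smul]
    exact hP1 ((mem_normalizer_iff''.1 hxR a).1 ha)
  obtain ⟨c, hc, hc'⟩ := Cop.exists_centralizer_conj_sylow hR₀N hcopR₀ (Or.inl hsolvR) p P Q hP1 hQR
  have hQ' : (Q : Subgroup N).map N.subtype = MulAut.conj (c : G) • (P : Subgroup N).map N.subtype := by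
    rw [← hc']; exact Cop.map_smul_sylow c P
  set P' := (P : Subgroup N).map N.subtype with hP'
  have hP'N : P' ≤ N := by rintro _ ⟨x, _, rfl⟩; exact x.2
  set x₁ := (c : G)⁻¹ * x with hx₁
  have hx₁P : x₁ ∈ normalizer (P' : Set G) := by
    apply Cop.mem_normalizer_of_conj_smul_eq
    rw [hx₁, map_mul, mul_smul, ← hQ, hQ', ← mul_smul, ← map_mul, inv_mul_cancel, map_one, one_smul]
  have hx₁R : x₁ ∈ normalizer (R₀ : Set G) :=
    mul_mem (inv_mem (centralizer_le_normalizer _ hc)) hxR
  have hπx₁ : π x₁ = h := by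
    rw [hx₁, map_mul, map_inv, hπN c c.2, inv_one, one_mul, hπx]
  -- powers
  have hpow : ∀ y : G, π y = h → y ^ n = 1 := by
    intro y hy
    by_contra hyn
    apply hcon
    exact H62.exists_order_mul N (y := y) (n := n) (by rw [← hπ, hy, hordh']) hyn
  apply hP2
  rw [Subgroup.le_centralizer_iff]
  refine H62.mazurov_core (p := p) (P.isPGroup'.map _) hP1
    (Nat.Coprime.coprime_dvd_right (Subgroup.card_dvd_of_le hP'N) hcopR₀) hn0 hx₁P hx₁R ?_ ?_
  · intro i hi0 hin f hf hcomm
    have h1 : π f ∈ Rb := hπR₀ f hf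
    have h2 := congrArg π hcomm
    rw [map_mul, map_mul, map_pow, hπx₁] at h2
    have h3 : (h : G ⧸ N) ^ i ≠ 1 := by
      intro h4
      have := orderOf_dvd_of_pow_eq_one h4
      rw [hordh'] at this
      exact absurd (Nat.le_of_dvd hi0 this) (by omega)
    have h4 : π f ∈ Hb := by
      apply Frob.mem_of_conj_mem hHb (h := (h : G ⧸ N) ^ i) (pow_mem h.2 i) h3
      rw [← h2, mul_inv_cancel_right]
      exact pow_mem h.2 i
    have h5 : π f = 1 := by
      apply Frob.frobeniusKernel_inter _ h4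
      rw [hker]
      exact hRbF h1
    exact Cop.eq_one_of_mem_of_mem hcopR₀ hf ((QuotientGroup.eq_one_iff f).1 h5)
  · intro w hw
    apply hpow
    rw [map_mul, hπN w (hP'N hw), one_mul, hπx₁]

end Cfsg.Agent.S3703
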