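import Cfsg.Statements.S3709
import Cfsg.Agent.Phan.Main

set_option autoImplicit false
open Cfsg

namespace Cfsg.Agent.S3709

/-- Recognition of unitary groups from a weak Phan system. Let F be a finite field with q² elements, q > 3, and n ≥ 3. Let G be a group with subgroups U_0, …, U_{n−1}, each isomorphic to SU(2, q²), and, for each pair of consecutive indices, a subgroup V_{i,i+1} in which U_i and U_{i+1} form a standard pair (some isomorphism from SU(3, q²), or from its central quotient PSU(3, q²), onto V_{i,i+1} carries the two block-diagonal SU(2, q²) subgroups, or their images, onto U_i and U_{i+1}). Suppose that U_i and U_j commute elementwise whenever the indices differ by at least 2, and that G is generated by the U_i together with the V_{i,i+1}. Then G is a homomorphic image of SU(n+1, q²). (G is not assumed finite.) -/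
theorem result {G : Type*} [Group G] (n : ℕ) (hn : 3 ≤ n)
    (F : Type*) [Field F] [Fintype F] (q : ℕ) (hq : 3 < q) (hF : Fintype.card F = q ^ 2)
    (U : Fin n → Subgroup G) (e : ∀ i, ↥(Cfsg.SU 2 F q) ≃* ↥(U i))
    (V : Fin n → Fin n → Subgroup G)
    (h1 : ∀ i j : Fin n, (i : ℕ) + 2 ≤ j → ∀ x ∈ U i, ∀ y ∈ U j, x * y = y * x)
    (h2 : ∀ i j : Fin n, (i : ℕ) + 1 = j → Cfsg.IsStandardUnitaryPair (V i j) (U i) (U j) F q)
    (hgen : (⨆ i, U i) ⊔ (⨆ (i : Fin n) (j : Fin n) (_ : (i : ℕ) + 1 = j), V i j) = ⊤) :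
    ∃ f : ↥(Cfsg.SU (n + 1) F q) →* G, Function.Surjective f := by
  classical
  have hN : 4 ≤ n + 1 := by omega
  let V' : ℕ → Subgroup G := fun j => if h : j + 1 < n then V ⟨j, by omega⟩ ⟨j + 1, h⟩ else ⊥
  let U' : ℕ → Subgroup G := fun j => if h : j < n then U ⟨j, h⟩ else ⊥
  have hstd : ∀ j, j + 3 ≤ n + 1 → ∃ ψ : Cfsg.Agent.Phan.HH F q (Cfsg.Agent.Phan.iv (n + 1) j 3) →* G,
      Cfsg.Agent.Phan.Std j ψ (V' j) (U' j) (U' (j + 1)) := by
    intro j hj
    have h1 : j < n := by omega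
    have h3 : j + 1 < n := by omega
    simp only [V', U', dif_pos h1, dif_pos h3]
    exact Cfsg.Agent.Phan.std_of_pair hF hj (h2 ⟨j, h1⟩ ⟨j + 1, h3⟩ rfl)
  have hcomm : ∀ i j, i + 2 ≤ j → ∀ x ∈ U' i, ∀ y ∈ U' j, x * y = y * x := by
    intro i j hij x hx y hy
    simp only [U'] at hx hy
    by_cases hj : j < n
    · rw [dif_pos hj] at hy
      rw [dif_pos (show i < n by omega)] at hx
      exact h1 _ _ hij x hx y hy
    · rw [dif_neg hj, Subgroup.mem_bot] at hy
      rw [hy, mul_one, one_mul]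
  obtain ⟨Ψ, hΨ, hΨc⟩ := Cfsg.Agent.Phan.exists_family hF V' U' hstd hcomm
  obtain ⟨f, hf⟩ := Cfsg.Agent.Phan.exists_hom hF hN V' U' Ψ hΨ hΨc hcomm (Or.inl (by omega))
  refine ⟨f, MonoidHom.range_eq_top.1 ?_⟩
  have hV : ∀ j (hj : j + 1 < n), V ⟨j, by omega⟩ ⟨j + 1, hj⟩ ≤ f.range := by
    intro j hj x hx
    have h4 : x ∈ V' j := by simp only [V', dif_pos hj]; exact hx
    exact hf j (by omega) x h4
  have hU : ∀ j, U j ≤ f.range := by
    intro j x hx
    by_cases hj : (j : ℕ) + 1 < n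
    · have h5 := (hΨ j (by omega)).low x
      have h6 : x ∈ U' j := by simp only [U', dif_pos j.2]; exact hx
      obtain ⟨g, _, hg⟩ := h5.1 h6
      have h7 : x ∈ V' j := ((hΨ j (by omega)).range x).2 ⟨g, hg⟩
      exact hf j (by omega) x h7
    · obtain ⟨i, hi⟩ : ∃ i, (j : ℕ) = i + 1 := ⟨(j : ℕ) - 1, by omega⟩
      have h5 := (hΨ i (by omega)).up x
      have h6 : x ∈ U' (i + 1) := by
        simp only [U', dif_pos (show i + 1 < n by omega)]
        have : (⟨i + 1, by omega⟩ : Fin n) = j := Fin.ext hi.symm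
        rw [this]; exact hx
      obtain ⟨g, _, hg⟩ := h5.1 h6
      have h7 : x ∈ V' i := ((hΨ i (by omega)).range x).2 ⟨g, hg⟩
      exact hf i (by omega) x h7
  rw [eq_top_iff, ← hgen]
  refine sup_le (iSup_le hU) (iSup_le fun i => iSup_le fun j => iSup_le fun hij => ?_)
  have h8 : (i : ℕ) + 1 < n := by rw [hij]; exact j.2
  have h9 : j = ⟨(i : ℕ) + 1, h8⟩ := Fin.ext hij.symm
  rw [h9]
  exact hV i h8

end Cfsg.Agent.S3709
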