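import Cfsg.Statements.S3708
import Cfsg.Agent.Phan.Weak
import Cfsg.Agent.S3709

set_option autoImplicit false
open Cfsg

namespace Cfsg.Agent.S3708

/-- Phan's recognition of unitary groups. Let F be a finite field with q² elements, q > 4, and n ≥ 2. Let G be a group generated by subgroups U_0, …, U_{n−1}, each isomorphic to the special unitary group SU(2, q²) (determinant-one isometries of the standard Hermitian form in two variables over F), and let D_i ≤ U_i be cyclic subgroups of order q + 1. Suppose that U_i and U_j commute elementwise whenever the indices differ by at least 2, that the subgroup generated by U_i and U_{i+1} is isomorphic to SU(3, q²) for each i, and that D_i and D_j commute elementwise for all i, j. Then G is a homomorphic image of SU(n+1, q²). (Generation of G by the U_i is part of the hypothesis; G is not assumed finite.) -/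
theorem result {G : Type*} [Group G] (n : ℕ) (hn : 2 ≤ n)
    (F : Type*) [Field F] [Fintype F] (q : ℕ) (hq : 4 < q) (hF : Fintype.card F = q ^ 2)
    (U : Fin n → Subgroup G) (e : ∀ i, ↥(Cfsg.SU 2 F q) ≃* ↥(U i)) (hgen : ⨆ i, U i = ⊤)
    (D : Fin n → Subgroup G) (hD : ∀ i, D i ≤ U i ∧ IsCyclic ↥(D i) ∧ Nat.card ↥(D i) = q + 1)
    (h1 : ∀ i j : Fin n, (i : ℕ) + 2 ≤ j → ∀ x ∈ U i, ∀ y ∈ U j, x * y = y * x)
    (h2 : ∀ i j : Fin n, (i : ℕ) + 1 = j → Nonempty (↥(U i ⊔ U j) ≃* ↥(Cfsg.SU 3 F q)))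
    (h3 : ∀ i j : Fin n, i ≠ j → ∀ x ∈ D i, ∀ y ∈ D j, x * y = y * x) :
    ∃ f : ↥(Cfsg.SU (n + 1) F q) →* G, Function.Surjective f := by
  classical
  have hDne : ∀ i, ∃ d, d ∈ D i ∧ d ≠ 1 ∧ d ^ (q + 1) = 1 := by
    intro i
    have hfin : Finite ↥(D i) := Nat.finite_of_card_ne_zero (by rw [(hD i).2.2]; omega)
    have hnt : Nontrivial ↥(D i) := by
      rw [← Finite.one_lt_card_iff_nontrivial, (hD i).2.2]
      omega
    obtain ⟨d, hd⟩ := exists_ne (1 : ↥(D i))
    refine ⟨d, d.2, fun h => hd (Subtype.ext h), ?_⟩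
    have h4 := pow_card_eq_one' (x := d)
    rw [(hD i).2.2] at h4
    exact congrArg Subtype.val h4
  rcases Nat.lt_or_ge n 3 with hn3 | hn3
  · -- `n = 2`
    obtain rfl : n = 2 := by omega
    obtain ⟨ε⟩ := h2 0 1 rfl
    have htop : U 0 ⊔ U 1 = ⊤ := by
      rw [← hgen]
      apply le_antisymm
      · exact sup_le (le_iSup U 0) (le_iSup U 1)
      · refine iSup_le fun i => ?_
        fin_cases i
        · exact le_sup_left
        · exact le_sup_right
    refine ⟨(U 0 ⊔ U 1).subtype.comp ε.symm.toMonoidHom, ?_⟩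
    intro x
    have hx : x ∈ U 0 ⊔ U 1 := by rw [htop]; trivial
    exact ⟨ε ⟨x, hx⟩, by simp⟩
  · have hstd : ∀ i j : Fin n, (i : ℕ) + 1 = j →
        Cfsg.IsStandardUnitaryPair (U i ⊔ U j) (U i) (U j) F q := by
      intro i j hij
      obtain ⟨ε⟩ := h2 i j hij
      obtain ⟨d1, hd1, h11, h1q⟩ := hDne i
      obtain ⟨d2, hd2, h21, h2q⟩ := hDne j
      have hne : i ≠ j := by
        rintro rfl
        omega
      exact Cfsg.Agent.Phan.std_pair hF (by omega) (e i) (e j) ε ((hD i).1 hd1) ((hD j).1 hd2)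
        h11 h21 h1q h2q (h3 i j hne d1 hd1 d2 hd2)
    refine Cfsg.Agent.S3709.result n hn3 F q (by omega) hF U e (fun i j => U i ⊔ U j) h1 hstd ?_
    rw [eq_top_iff, ← hgen]
    exact le_sup_left

end Cfsg.Agent.S3708
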