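import Cfsg.Statements.S3713
import Cfsg.Agent.H93.SpC.Fnl

set_option autoImplicit false
open Cfsg

namespace Cfsg.Agent.S3713

open Cfsg.Agent.H93.SpC in
/-- extension by one of a map on a join -/
lemma mk_psi {G H : Type*} [Group G] [Group H] {X Y : Subgroup G} {f : G → H} (Ψ : ↥(X ⊔ Y) →* H)
    (h1 : ∀ (g : G) (hg : g ∈ X), Ψ ⟨g, Subgroup.mem_sup_left hg⟩ = f g)
    (h2 : ∀ (g : G) (hg : g ∈ Y), Ψ ⟨g, Subgroup.mem_sup_right hg⟩ = f g) :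
    ∃ ψ : G → H, MulOn (X ⊔ Y) ψ ∧ (∀ g ∈ X, ψ g = f g) ∧ ∀ g ∈ Y, ψ g = f g := by
  classical
  refine ⟨fun g => if h : g ∈ X ⊔ Y then Ψ ⟨g, h⟩ else 1, ?_, ?_, ?_⟩
  · intro a ha b hb
    change (if h : a * b ∈ X ⊔ Y then Ψ ⟨a * b, h⟩ else 1) = (if h : a ∈ X ⊔ Y then Ψ ⟨a, h⟩ else 1) *
      (if h : b ∈ X ⊔ Y then Ψ ⟨b, h⟩ else 1)
    rw [dif_pos (mul_mem ha hb), dif_pos ha, dif_pos hb, ← map_mul]
    rfl
  · intro g hg
    change (if h : g ∈ X ⊔ Y then Ψ ⟨g, h⟩ else 1) = _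
    rw [dif_pos (Subgroup.mem_sup_left hg), h1 g hg]
  · intro g hg
    change (if h : g ∈ X ⊔ Y then Ψ ⟨g, h⟩ else 1) = _
    rw [dif_pos (Subgroup.mem_sup_right hg), h2 g hg]

open Cfsg.Agent.H93.SpC in
lemma psi_symm {G H : Type*} [Group G] [Group H] {X Y : Subgroup G} {f : G → H}
    (h : ∃ ψ : G → H, MulOn (X ⊔ Y) ψ ∧ (∀ g ∈ X, ψ g = f g) ∧ ∀ g ∈ Y, ψ g = f g) :
    ∃ ψ : G → H, MulOn (Y ⊔ X) ψ ∧ (∀ g ∈ Y, ψ g = f g) ∧ ∀ g ∈ X, ψ g = f g := by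
  obtain ⟨ψ, h1, h2, h3⟩ := h
  exact ⟨ψ, by rw [sup_comm]; exact h1, h3, h2⟩

/-- A presentation of the symplectic group as the universal completion of an amalgam of small subgroups. Let F be a field with more than two elements, n ≥ 2, and Sp the group of 2n × 2n matrices over F preserving the standard alternating form, acting on column vectors; write e_k, f_k for the standard basis vectors of the two halves (a hyperbolic basis). For each k let S_k be the subgroup of Sp fixing e_l and f_l for all l ≠ k (a copy of SL(2, F) on the plane of e_k, f_k), and for each i with i + 1 < n let M_i be the subgroup fixing every e_l and fixing f_l for all l other than i, i+1 (an abelian group isomorphic to the additive group of F³). Then Sp is the universal completion of the amalgam formed by the S_k, the M_i and the subgroups generated by two of them: for every group H and homomorphisms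 σ_k : S_k → H, μ_i : M_i → H such that for each pair of these subgroups some homomorphism on the subgroup they generate restricts to the given ones, there is exactly one homomorphism Sp → H restricting to every σ_k and μ_i. -/
theorem result
    (F : Type*) [Field F] (hF : ∃ a : F, a ≠ 0 ∧ a ≠ 1) (n : ℕ) (hn : 2 ≤ n)
    (S M : Fin n → Subgroup ↥(Matrix.symplecticGroup (Fin n) F))
    (hS : ∀ j : Fin n, S j = Subgroup.closure {A : ↥(Matrix.symplecticGroup (Fin n) F) | ∀ k : Fin n, k ≠ j →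
      ((A : ↥(Matrix.symplecticGroup (Fin n) F)) : Matrix (Fin n ⊕ Fin n) (Fin n ⊕ Fin n) F).mulVec (Pi.single (Sum.inl k) (1 : F)) = (Pi.single (Sum.inl k) (1 : F)) ∧ ((A : ↥(Matrix.symplecticGroup (Fin n) F)) : Matrix (Fin n ⊕ Fin n) (Fin n ⊕ Fin n) F).mulVec (Pi.single (Sum.inr k) (1 : F)) = (Pi.single (Sum.inr k) (1 : F))})
    (hM : ∀ i : Fin n, (i : ℕ) + 1 < n → M i = Subgroup.closure {A : ↥(Matrix.symplecticGroup (Fin n) F) |
      (∀ k : Fin n, ((A : ↥(Matrix.symplecticGroup (Fin n) F)) : Matrix (Fin n ⊕ Fin n) (Fin n ⊕ Fin n) F).mulVec (Pi.single (Sum.inl k) (1 : F)) = (Pi.single (Sum.inl k) (1 : F))) ∧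
        ∀ k : Fin n, (k : ℕ) ≠ i → (k : ℕ) ≠ (i : ℕ) + 1 → ((A : ↥(Matrix.symplecticGroup (Fin n) F)) : Matrix (Fin n ⊕ Fin n) (Fin n ⊕ Fin n) F).mulVec (Pi.single (Sum.inr k) (1 : F)) = (Pi.single (Sum.inr k) (1 : F))})
    {H : Type*} [Group H] (σ : ∀ j : Fin n, ↥(S j) →* H) (μ : ∀ i : Fin n, ↥(M i) →* H)
    (hSS : ∀ j l : Fin n, j ≠ l → ∃ Ψ : ↥(S j ⊔ S l) →* H,
      (∀ (g : ↥(Matrix.symplecticGroup (Fin n) F)) (hg : g ∈ S j), Ψ ⟨g, Subgroup.mem_sup_left hg⟩ = σ j ⟨g, hg⟩) ∧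
        (∀ (g : ↥(Matrix.symplecticGroup (Fin n) F)) (hg : g ∈ S l), Ψ ⟨g, Subgroup.mem_sup_right hg⟩ = σ l ⟨g, hg⟩))
    (hMM : ∀ i i' : Fin n, i ≠ i' → (i : ℕ) + 1 < n → (i' : ℕ) + 1 < n → ∃ Ψ : ↥(M i ⊔ M i') →* H,
      (∀ (g : ↥(Matrix.symplecticGroup (Fin n) F)) (hg : g ∈ M i), Ψ ⟨g, Subgroup.mem_sup_left hg⟩ = μ i ⟨g, hg⟩) ∧
        (∀ (g : ↥(Matrix.symplecticGroup (Fin n) F)) (hg : g ∈ M i'), Ψ ⟨g, Subgroup.mem_sup_right hg⟩ = μ i' ⟨g, hg⟩))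
    (hMS : ∀ i j : Fin n, (i : ℕ) + 1 < n → ∃ Ψ : ↥(M i ⊔ S j) →* H,
      (∀ (g : ↥(Matrix.symplecticGroup (Fin n) F)) (hg : g ∈ M i), Ψ ⟨g, Subgroup.mem_sup_left hg⟩ = μ i ⟨g, hg⟩) ∧
        (∀ (g : ↥(Matrix.symplecticGroup (Fin n) F)) (hg : g ∈ S j), Ψ ⟨g, Subgroup.mem_sup_right hg⟩ = σ j ⟨g, hg⟩)) :
    ∃! Φ : ↥(Matrix.symplecticGroup (Fin n) F) →* H,
      (∀ (j : Fin n) (g : ↥(Matrix.symplecticGroup (Fin n) F)) (hg : g ∈ S j), Φ g = σ j ⟨g, hg⟩) ∧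
        (∀ (i : Fin n), (i : ℕ) + 1 < n → ∀ (g : ↥(Matrix.symplecticGroup (Fin n) F)) (hg : g ∈ M i), Φ g = μ i ⟨g, hg⟩) := by

  classical
  obtain ⟨m, rfl⟩ : ∃ m, n = m + 2 := ⟨n - 2, by omega⟩
  have eS : ∀ j, S j = Cfsg.Agent.H93.SpC.Fx F (Cfsg.Agent.H93.SpC.SS j) := by
    intro j
    rw [hS j, ← Subgroup.closure_eq (Cfsg.Agent.H93.SpC.Fx F (Cfsg.Agent.H93.SpC.SS j))]
    congr 1
    ext A
    constructor
    · rintro h (p | p) ⟨h1, h2⟩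
      · exact (h p (fun e => h1 (by rw [e]))).1
      · exact (h p (fun e => h2 (by rw [e]))).2
    · intro h k hk
      exact ⟨h (Sum.inl k) ⟨fun e => hk (Sum.inl.inj e), by simp⟩, h (Sum.inr k) ⟨by simp, fun e => hk (Sum.inr.inj e)⟩⟩
  have eM : ∀ i : Fin (m + 2), (i : ℕ) + 1 < m + 2 → M i = Cfsg.Agent.H93.SpC.Fx F (Cfsg.Agent.H93.SpC.MS (m + 2) i) := by
    intro i hi
    rw [hM i hi, ← Subgroup.closure_eq (Cfsg.Agent.H93.SpC.Fx F (Cfsg.Agent.H93.SpC.MS (m + 2) i))]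
    congr 1
    ext A
    constructor
    · rintro ⟨h1, h2⟩ (p | p) hp
      · exact h1 p
      · exact h2 p (hp p rfl).1 (hp p rfl).2
    · intro h
      refine ⟨fun k => h (Sum.inl k) (by intro k' e; cases e), fun k h1 h2 => h (Sum.inr k) ?_⟩
      intro k' e
      obtain rfl := Sum.inr.inj e
      exact ⟨h1, h2⟩
  -- the glued function
  let f : ↥(Matrix.symplecticGroup (Fin (m + 2)) F) → H := fun g =>
    if h : ∃ j, g ∈ S j then σ h.choose ⟨g, h.choose_spec⟩ else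
      if h : ∃ i : Fin (m + 2), (i : ℕ) + 1 < m + 2 ∧ g ∈ M i then μ h.choose ⟨g, h.choose_spec.2⟩ else 1
  have fS : ∀ (j : Fin (m + 2)) (g : ↥(Matrix.symplecticGroup (Fin (m + 2)) F)) (hg : g ∈ S j), f g = σ j ⟨g, hg⟩ := by
    intro j g hg
    have h : ∃ j, g ∈ S j := ⟨j, hg⟩
    have e1 : f g = σ h.choose ⟨g, h.choose_spec⟩ := dif_pos h
    rw [e1]
    have key : ∀ (l : Fin (m + 2)) (hl : g ∈ S l), σ l ⟨g, hl⟩ = σ j ⟨g, hg⟩ := by
      intro l hl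
      by_cases hlj : l = j
      · subst hlj; rfl
      · obtain ⟨Ψ, h1, h2⟩ := hSS l j hlj
        rw [← h1 g hl, ← h2 g hg]
    exact key _ h.choose_spec
  have fM : ∀ (i : Fin (m + 2)) (_ : (i : ℕ) + 1 < m + 2) (g : ↥(Matrix.symplecticGroup (Fin (m + 2)) F)) (hg : g ∈ M i),
      f g = μ i ⟨g, hg⟩ := by
    intro i hi g hg
    by_cases h : ∃ j, g ∈ S j
    · obtain ⟨j, hj⟩ := h
      obtain ⟨Ψ, h1, h2⟩ := hMS i j hi
      rw [fS j g hj, ← h1 g hg, ← h2 g hj]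
    · have h' : ∃ i : Fin (m + 2), (i : ℕ) + 1 < m + 2 ∧ g ∈ M i := ⟨i, hi, hg⟩
      have e1 : f g = μ h'.choose ⟨g, h'.choose_spec.2⟩ := (dif_neg h).trans (dif_pos h')
      rw [e1]
      have key : ∀ (l : Fin (m + 2)) (_ : (l : ℕ) + 1 < m + 2) (hl : g ∈ M l), μ l ⟨g, hl⟩ = μ i ⟨g, hg⟩ := by
        intro l hl1 hl
        by_cases hlj : l = i
        · subst hlj; rfl
        · obtain ⟨Ψ, h1, h2⟩ := hMM l i hlj hl1 hi
          rw [← h1 g hl, ← h2 g hg]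
      exact key _ h'.choose_spec.1 h'.choose_spec.2
  have A : Cfsg.Agent.H93.SpC.Am (m + 2) f := by
    have self : ∀ (X : Subgroup ↥(Matrix.symplecticGroup (Fin (m + 2)) F)), Cfsg.Agent.H93.SpC.MulOn X f →
        ∃ ψ : ↥(Matrix.symplecticGroup (Fin (m + 2)) F) → H, Cfsg.Agent.H93.SpC.MulOn (X ⊔ X) ψ ∧ (∀ g ∈ X, ψ g = f g) ∧
          ∀ g ∈ X, ψ g = f g := fun X h => ⟨f, by rw [sup_idem]; exact h, fun _ _ => rfl, fun _ _ => rfl⟩
    have mS : ∀ j, Cfsg.Agent.H93.SpC.MulOn (S j) f := by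
      intro j a ha b hb
      rw [fS j a ha, fS j b hb, fS j _ (mul_mem ha hb), ← map_mul]; rfl
    have mM : ∀ i : Fin (m + 2), (i : ℕ) + 1 < m + 2 → Cfsg.Agent.H93.SpC.MulOn (M i) f := by
      intro j hj a ha b hb
      rw [fM j hj a ha, fM j hj b hb, fM j hj _ (mul_mem ha hb), ← map_mul]; rfl
    have pMS : ∀ (i j : Fin (m + 2)), (i : ℕ) + 1 < m + 2 →
        ∃ ψ : ↥(Matrix.symplecticGroup (Fin (m + 2)) F) → H, Cfsg.Agent.H93.SpC.MulOn (M i ⊔ S j) ψ ∧ (∀ g ∈ M i, ψ g = f g) ∧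
          ∀ g ∈ S j, ψ g = f g := by
      intro i j hi
      obtain ⟨Ψ, h1, h2⟩ := hMS i j hi
      exact mk_psi Ψ (fun g hg => by rw [h1 g hg, fM i hi g hg]) (fun g hg => by rw [h2 g hg, fS j g hg])
    rintro _ (⟨j, rfl⟩ | ⟨i, hi, rfl⟩) _ (⟨j', rfl⟩ | ⟨i', hi', rfl⟩)
    · rw [← eS, ← eS]
      by_cases hjj : j = j'
      · subst hjj; exact self _ (mS j)
      · obtain ⟨Ψ, h1, h2⟩ := hSS j j' hjj
        exact mk_psi Ψ (fun g hg => by rw [h1 g hg, fS j g hg]) (fun g hg => by rw [h2 g hg, fS j' g hg])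
    · have e1 := eM ⟨i', by omega⟩ hi'
      change _ = Cfsg.Agent.H93.SpC.Fx F (Cfsg.Agent.H93.SpC.MS (m + 2) i') at e1
      rw [← eS, ← e1]
      exact psi_symm (pMS _ _ hi')
    · have e1 := eM ⟨i, by omega⟩ hi
      change _ = Cfsg.Agent.H93.SpC.Fx F (Cfsg.Agent.H93.SpC.MS (m + 2) i) at e1
      rw [← eS, ← e1]
      exact pMS _ _ hi
    · have e1 := eM ⟨i, by omega⟩ hi
      change _ = Cfsg.Agent.H93.SpC.Fx F (Cfsg.Agent.H93.SpC.MS (m + 2) i) at e1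
      have e2 := eM ⟨i', by omega⟩ hi'
      change _ = Cfsg.Agent.H93.SpC.Fx F (Cfsg.Agent.H93.SpC.MS (m + 2) i') at e2
      rw [← e1, ← e2]
      by_cases hjj : (⟨i, by omega⟩ : Fin (m + 2)) = ⟨i', by omega⟩
      · rw [hjj]; exact self _ (mM _ hi')
      · obtain ⟨Ψ, h1, h2⟩ := hMM _ _ hjj hi hi'
        exact mk_psi Ψ (fun g hg => by rw [h1 g hg, fM _ hi g hg]) (fun g hg => by rw [h2 g hg, fM _ hi' g hg])
  obtain ⟨Φ, hΦ⟩ := Cfsg.Agent.H93.SpC.exists_hom hF (m + 1) f A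
  refine ⟨Φ, ⟨?_, ?_⟩, ?_⟩
  · intro j g hg
    rw [← fS j g hg]
    exact hΦ _ (Cfsg.Agent.H93.SpC.Fx_SS_mem j) g (by rw [← eS]; exact hg)
  · intro i hi g hg
    rw [← fM i hi g hg]
    exact hΦ _ (Cfsg.Agent.H93.SpC.Fx_MS_mem hi) g (by rw [← eM i hi]; exact hg)
  · rintro Φ' ⟨h1, h2⟩
    apply Cfsg.Agent.H93.SpC.hom_unique
    rintro _ (⟨j, rfl⟩ | ⟨i, hi, rfl⟩) g hg
    · rw [hΦ _ (Cfsg.Agent.H93.SpC.Fx_SS_mem j) g hg]
      rw [← eS] at hg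
      rw [fS j g hg, h1 j g hg]
    · rw [hΦ _ (Cfsg.Agent.H93.SpC.Fx_MS_mem hi) g hg]
      have e1 := eM ⟨i, by omega⟩ hi
      change _ = Cfsg.Agent.H93.SpC.Fx F (Cfsg.Agent.H93.SpC.MS (m + 2) i) at e1
      rw [← e1] at hg
      rw [fM _ hi g hg, h2 _ hi g hg]

end Cfsg.Agent.S3713
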