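import Cfsg.Statements.S3727
import Cfsg.Agent.P3.Fin1
import Cfsg.Agent.H10.Aff3
import Cfsg.Agent.H10.PT2
import Cfsg.Agent.H55.M22Id
import Cfsg.Agent.H55.BTF
import Cfsg.Agent.S0243

set_option autoImplicit false
open Cfsg

namespace Cfsg.Agent.S3727

open Cfsg.Agent.P3

theorem card_psl3_four {F : Type*} [Field F] [Fintype F] (h : Fintype.card F = 4) :
    Nat.card (Matrix.ProjectiveSpecialLinearGroup (Fin 3) F) = 20160 := by
  have h := S0243.result h 3 (by norm_num)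
  rw [Fin.prod_univ_three] at h
  have e : (4 ^ 3 - 4 ^ ((0 : Fin 3) : ℕ)) * (4 ^ 3 - 4 ^ ((1 : Fin 3) : ℕ)) * (4 ^ 3 - 4 ^ ((2 : Fin 3) : ℕ)) = 181440 := by
    decide
  rw [e] at h
  have e2 : Nat.gcd 3 (4 - 1) = 3 := by decide
  rw [e2] at h
  omega

theorem card_psl3_two {F : Type*} [Field F] [Fintype F] (h : Fintype.card F = 2) :
    Nat.card (Matrix.ProjectiveSpecialLinearGroup (Fin 3) F) = 168 := by
  have h := S0243.result h 3 (by norm_num)
  rw [Fin.prod_univ_three] at h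
  have e : (2 ^ 3 - 2 ^ ((0 : Fin 3) : ℕ)) * (2 ^ 3 - 2 ^ ((1 : Fin 3) : ℕ)) * (2 ^ 3 - 2 ^ ((2 : Fin 3) : ℕ)) = 168 := by
    decide
  rw [e] at h
  have e2 : Nat.gcd 3 (2 - 1) = 1 := by decide
  rw [e2] at h
  omega

/-- Let a finite group G act faithfully and 2-transitively on a finite set Ω of even size, and suppose the stabilizer of a point a has a normal subgroup N isomorphic to PSL₃(q) with q = 2ⁿ, n ≥ 1. Then N is transitive on the remaining points, and either G has a normal subgroup of order q³ acting regularly on Ω and n is odd, or Ω has 22 points, q = 4, and G is isomorphic to the Mathieu group M₂₂ or has a subgroup of index 2 isomorphic to M₂₂. -/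
theorem result {G Ω : Type*} [Group G] [Finite G] [Fintype Ω] [MulAction G Ω] [FaithfulSMul G Ω]
    (h2 : MulAction.IsMultiplyPretransitive G Ω 2) (hev : Even (Fintype.card Ω)) (a : Ω) (N : Subgroup G)
    (hNle : N ≤ MulAction.stabilizer G a) (hNnormal : ∀ g ∈ MulAction.stabilizer G a, ∀ x ∈ N, g * x * g⁻¹ ∈ N)
    (n : ℕ) (hn : 1 ≤ n)
    (hN : ∃ (F : Type) (_ : Field F) (_ : Fintype F), Fintype.card F = 2 ^ n ∧
      Nonempty (↥N ≃* Matrix.ProjectiveSpecialLinearGroup (Fin 3) F)) :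
    (∀ x y : Ω, x ≠ a → y ≠ a → ∃ g ∈ N, g • x = y) ∧
    ((Odd n ∧ ∃ E : Subgroup G, E.Normal ∧ Nat.card E = (2 ^ n) ^ 3 ∧ (∀ x y : Ω, ∃ r ∈ E, r • x = y) ∧
        ∀ x : Ω, ∀ r ∈ E, r • x = x → r = 1) ∨
     (Fintype.card Ω = 22 ∧ n = 2 ∧ (Cfsg.Spor.IsoM22 G ∨ ∃ H : Subgroup G, H.index = 2 ∧ Cfsg.Spor.IsoM22 ↥H))) := by
  classical
  obtain ⟨K, fK, ftK, hK, ⟨e⟩⟩ := hN
  obtain ⟨Nf, hNa, F, hiso⟩ := exists_fam h2 hev a N hNle hNnormal n hn hK e
  have hcN : ∀ b, Nat.card (Nf b) = Nat.card (Matrix.ProjectiveSpecialLinearGroup (Fin 3) K) := by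
    intro b
    obtain ⟨f⟩ := hiso b
    exact Nat.card_congr (f.trans e).toEquiv
  rcases F.dich_all with hBT | hPT
  · exfalso
    exact H55.bt_false F hBT (fun a b hab => (F.gp_BT hBT).k_cases F hab)
  haveI : Nonempty Ω := ⟨a⟩
  choose! E hE1 hE2 hE3 using hPT
  have D : PD Nf (2 ^ n) E := ⟨hE1, hE2, hE3⟩
  have R := D.gp F
  obtain ⟨b, hb⟩ := F.exists_ne a
  by_cases hkq : (ln Nf (2 ^ n) a b).ncard = 2 ^ n
  · -- affine case
    have hk : ∀ c d : Ω, c ≠ d → (ln Nf (2 ^ n) c d).ncard = 2 ^ n := fun c d hcd => by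
      rw [R.ln_card F hcd (Ne.symm hb), hkq]
    obtain ⟨Pl, A, B, hA, hAE⟩ := D.affS F hk
    obtain ⟨⟨V, hVn, hVc, hVt, hVs⟩, htr⟩ := H10.Aff3.aff_main h2 hA
    refine ⟨fun x y hx hy => ?_, Or.inl ⟨D.odd F hk hn rfl hVn hVc hVt hVs, V, hVn, hVc, hVt, hVs⟩⟩
    obtain ⟨g, hg, hgx⟩ := htr a x y hx hy
    refine ⟨g, ?_, hgx⟩
    have h1 : (⨆ b ∈ {b : Ω | b ≠ a}, A (ln Nf (2 ^ n) a b)) ≤ Nf a := by
      refine iSup₂_le fun c hc => ?_
      rw [hAE a c (Ne.symm hc)]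
      exact (D.e1 a c (Ne.symm hc)).le
    rw [← hNa]; exact h1 hg
  · have hk2 : (ln Nf (2 ^ n) a b).ncard = 2 := (R.k_cases F (Ne.symm hb)).resolve_right hkq
    have hk : ∀ c d : Ω, c ≠ d → (ln Nf (2 ^ n) c d).ncard = 2 := fun c d hcd => by
      rw [R.ln_card F hcd (Ne.symm hb), hk2]
    obtain ⟨hcΩ, hq, htr, hst⟩ := H10.PT2.pt_two F D hk
    have hq4 : 2 ^ n = 4 := by
      rcases hq with h1 | h1
      · exact absurd (hk2.trans h1.symm) hkq
      · exact h1
    have hn2 : n = 2 := by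
      have : (2 : ℕ) ^ n = 2 ^ 2 := by rw [hq4]; norm_num
      exact Nat.pow_right_injective le_rfl this
    obtain ⟨B, hB, hGB⟩ := hst hq4
    have h22 : Fintype.card Ω = 22 := by rw [hcΩ, hq4]; norm_num
    have hNc : Nat.card N = 20160 := by
      rw [← hNa, hcN a]
      exact card_psl3_four (hK.trans hq4)
    refine ⟨fun x y hx hy => by rw [← hNa]; exact htr a x y hx hy, Or.inr ⟨h22, hn2, ?_⟩⟩
    refine H55.m22_ident h22 B hB hGB ?_
    -- the order of `G`
    have h3 : (MulAction.stabilizer G a).index = (MulAction.orbit G a).ncard := MulAction.index_stabilizer G a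
    have h4 : MulAction.orbit G a = Set.univ := by
      rw [Set.eq_univ_iff_forall]
      intro y
      by_cases hya : y = a
      · rw [hya]; exact MulAction.mem_orbit_self a
      · obtain ⟨g, hg, -⟩ := F.tt a b y a (Ne.symm hb) hya
        exact ⟨g, hg⟩
    rw [h4, Set.ncard_univ, Nat.card_eq_fintype_card, h22] at h3
    have h5 := Subgroup.card_mul_index (MulAction.stabilizer G a)
    rw [h3] at h5
    have h6 : Nat.card N ≤ Nat.card (MulAction.stabilizer G a) :=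
      Nat.card_le_card_of_injective _ (Subgroup.inclusion_injective hNle)
    omega

end Cfsg.Agent.S3727
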