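import Cfsg.Statements.S3756
import Cfsg.Agent.H62.W10

set_option autoImplicit false
open Cfsg

namespace Cfsg.Agent.S3756

/-- Let G be a finite group of even order with O₂(G) = 1 such that every 2-local subgroup of G is solvable, of characteristic 2, and has no section isomorphic to the symmetric group of degree 4. Then every maximal 2-local subgroup of G is strongly embedded in G. -/
theorem result {G : Type*} [Group G] [Finite G] (heven : Even (Nat.card G)) (hO : Cfsg.pCore 2 G = ⊥) (hloc : ∀ M : Subgroup G, Cfsg.IsTwoLocal M → Group.IsSolvable M ∧ Cfsg.IsOfCharacteristicTwo ↥M ∧ ¬ Cfsg.Involves (Equiv.Perm (Fin 4)) ↥M) (M : Subgroup G) (hM : Cfsg.IsMaximalTwoLocal M) : Cfsg.IsStronglyEmbedded M := by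
  haveI : Fact (Nat.Prime 2) := ⟨Nat.prime_two⟩
  obtain ⟨Q, hQ, hQ1, hMQ⟩ := hM.1
  have hQM : Q ≤ M := by rw [hMQ]; exact Subgroup.le_normalizer
  have hMtop : M ≠ ⊤ := by
    intro h
    apply hQ1
    rw [eq_bot_iff, ← hO]
    have hQn : Q.Normal := by
      rw [h] at hMQ
      exact Subgroup.normalizer_eq_top_iff.1 hMQ.symm
    exact Agent.Solv.le_pCore hQn hQ
  obtain ⟨P⟩ : Nonempty (Sylow 2 M) := inferInstance
  have hPs := H33.isSyl_of_sylow M P
  have hP1 : (P : Subgroup M) ≠ ⊥ := by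
    intro h
    have h1 := hPs.card_le hQM hQ
    rw [h, Subgroup.map_bot, Subgroup.card_bot, Subgroup.card_le_one_iff_eq_bot] at h1
    exact hQ1 h1
  rw [H80.stronglyEmbedded_iff_normalizer hMtop P hP1]
  intro X hX hX1
  set X' := X.map M.subtype with hX'
  have hX'1 : X' ≠ ⊥ := by
    intro h
    apply hX1
    rwa [hX', Subgroup.map_eq_bot_iff_of_injective _ M.subtype_injective] at h
  have hX'p : IsPGroup 2 X' := (P.2.to_le hX).map _
  obtain ⟨M₁, h1, hXM1⟩ := H62.exists_max (H62.isTwoLocal_of hX'p hX'1)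
  have h2 := H62.uniq_sub hloc (s := 0) (fun M hM S hS _ => H62.max_full hloc hM hS) (Nat.card G) X' hX'p hX'1
    (Nat.zero_le _) (Nat.le_add_right _ _) M M₁ hM h1 (Subgroup.map_subtype_le _)
    (Subgroup.le_normalizer.trans hXM1)
  rw [h2]
  exact hXM1

end Cfsg.Agent.S3756
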