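import Cfsg.Statements.S3771
import Cfsg.Agent.H63.MaxAb

set_option autoImplicit false
open Cfsg

namespace Cfsg.Agent.S3771

/-- Let p be a prime and R a finite p-group of p-rank at most 2 (no elementary abelian subgroup of order p³) in which every element has order dividing p. Then R has order at most p³. -/
theorem result {R : Type*} [Group R] [Finite R] {p : ℕ} [Fact p.Prime] (hR : IsPGroup p R) (hrank : Cfsg.PRankLE p 2 R) (hexp : ∀ x : R, x ^ p = 1) : Nat.card R ≤ p ^ 3 := by
  have hpp : p.Prime := Fact.out
  obtain ⟨A, hAn, hAc, hAcent⟩ := H23.exists_normal_abelian_self_centralizing hR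
  have h1 : Nat.card A ≤ p ^ 2 := hrank A hAc (fun a _ => hexp a)
  obtain ⟨k, hk⟩ := IsPGroup.iff_card.1 (hR.to_subgroup A)
  have hk2 : k ≤ 2 := by
    rw [hk] at h1
    exact (Nat.pow_le_pow_iff_right hpp.one_lt).1 h1
  have hmul := Subgroup.card_mul_index A
  rcases Nat.lt_or_ge k 2 with h | h
  · -- A of order ≤ p is central
    have hZ : A ≤ Subgroup.center R := by
      interval_cases k
      · have : A = ⊥ := Subgroup.card_eq_one.1 (by simpa using hk)
        rw [this]; exact bot_le
      · exact H63.le_center_of_card_eq_prime hR A (by simpa using hk)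
    have hA : A = ⊤ := by
      rw [← hAcent, Subgroup.centralizer_eq_top_iff_subset]
      exact hZ
    rw [← Subgroup.card_top (G := R), ← hA, hk]
    exact Nat.pow_le_pow_right hpp.pos (by omega)
  · have hk' : k = 2 := le_antisymm hk2 h
    subst hk'
    have h2 := H63.index_centralizer_le_of_card_sq hR A hk
    rw [hAcent] at h2
    rw [← hmul, hk]
    calc p ^ 2 * A.index ≤ p ^ 2 * p := Nat.mul_le_mul_left _ h2
      _ = p ^ 3 := by ring

end Cfsg.Agent.S3771
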