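import Cfsg.Statements.S3802
-- (no helper imports)

set_option autoImplicit false
open Cfsg

namespace Cfsg.Agent.S3802

/-- the intersection of the normalizers of all subnormal subgroups -/
def wiel (G : Type*) [Group G] : Subgroup G :=
  ⨅ N : {N : Subgroup G // N.IsSubnormal}, Subgroup.normalizer ((N : Subgroup G) : Set G)

theorem mem_wiel {G : Type*} [Group G] (x : G) :
    x ∈ wiel G ↔ ∀ N : Subgroup G, N.IsSubnormal → x ∈ Subgroup.normalizer (N : Set G) := by
  simp [wiel, Subgroup.mem_iInf]

theorem wiel_map {G : Type*} [Group G] (φ : MulAut G) {x : G} (hx : x ∈ wiel G) : φ x ∈ wiel G := by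
  rw [mem_wiel] at hx ⊢
  intro N hN
  have h1 : (N.map (φ.symm : G →* G)).IsSubnormal := by
    refine Subgroup.IsSubnormal.map ?_ hN
    exact φ.symm.surjective
  have h2 := hx _ h1
  rw [Subgroup.mem_normalizer_iff] at h2 ⊢
  intro y
  have h3 := h2 (φ.symm y)
  constructor
  · intro hy
    have := h3.1 ⟨y, hy, rfl⟩
    obtain ⟨z, hz, hze⟩ := this
    have h4 : z = φ x * y * (φ x)⁻¹ := by
      have := congrArg φ hze
      simpa using this
    rw [← h4]; exact hz
  · intro hy
    have h4 : x * φ.symm y * x⁻¹ ∈ N.map (φ.symm : G →* G) := ⟨_, hy, by simp⟩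
    obtain ⟨z, hz, hze⟩ := h3.2 h4
    have h5 : z = y := φ.symm.injective hze
    rw [← h5]; exact hz

theorem exists_min_normal {G : Type*} [Group G] [Finite G] (E : Subgroup G) (hE : E.Normal) (hE1 : E ≠ ⊥) :
    ∃ F : Subgroup G, F.Normal ∧ F ≠ ⊥ ∧ F ≤ E ∧ ∀ L : Subgroup G, L.Normal → L ≤ F → L ≠ ⊥ → L = F := by
  classical
  have hfin : Set.Finite {F : Subgroup G | F.Normal ∧ F ≠ ⊥ ∧ F ≤ E} := Set.toFinite _
  obtain ⟨F, hF⟩ := hfin.exists_minimal ⟨E, hE, hE1, le_rfl⟩
  refine ⟨F, hF.prop.1, hF.prop.2.1, hF.prop.2.2, ?_⟩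
  intro L hL hLF hL1
  exact le_antisymm hLF (hF.le_of_le ⟨hL, hL1, hLF.trans hF.prop.2.2⟩ hLF)

theorem min_normal_le_wiel (n : ℕ) : ∀ (G : Type*) [Group G] [Finite G], Nat.card G = n →
    ∀ E : Subgroup G, E.Normal → E ≠ ⊥ → (∀ L : Subgroup G, L.Normal → L ≤ E → L ≠ ⊥ → L = E) →
    E ≤ wiel G := by
  induction n using Nat.strong_induction_on with
  | _ n ih =>
    intro G _ _ hcard E hE hE1 hmin x hx
    rw [mem_wiel]
    intro N hN
    rcases hN.lt_normal with rfl | ⟨K, hK, hNK, hKlt⟩
    · rw [Subgroup.mem_normalizer_iff]; simp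
    · have hinf : (E ⊓ K).Normal := Subgroup.normal_inf_normal E K
      by_cases hEK : E ⊓ K = ⊥
      · -- commute
        have hcomm : ∀ y ∈ N, x * y * x⁻¹ = y := by
          intro y hy
          have : Commute x y := Subgroup.commute_of_normal_of_disjoint E K hE hK
            (disjoint_iff.2 hEK) x y hx (hNK hy)
          rw [this.eq]; simp
        have hcomm' : ∀ y : G, x * y * x⁻¹ ∈ N → x * y * x⁻¹ = y := by
          intro y hy
          have h1 := hcomm _ hy
          have h2 : x * y * x⁻¹ = y := by
            have := mul_right_cancel h1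
            exact mul_left_cancel this
          exact h2
        rw [Subgroup.mem_normalizer_iff]
        intro y
        constructor
        · intro hy; rw [hcomm y hy]; exact hy
        · intro hy; rw [hcomm' y hy] at hy; exact hy
      · have hEKE : E ⊓ K = E := hmin _ hinf inf_le_left hEK
        have hEleK : E ≤ K := inf_eq_left.1 hEKE
        have hcardK : Nat.card K < n := by
          rw [← hcard]
          have h1 := Subgroup.card_eq_iff_eq_top K
          have h2 : Nat.card K ≤ Nat.card G := Subgroup.card_le_card_group K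
          rcases h2.lt_or_eq with h3 | h3
          · exact h3
          · exact absurd (h1.1 h3) hKlt.ne
        -- min normal of K inside E
        have hE' : (E.subgroupOf K).Normal := inferInstance
        have hE'1 : E.subgroupOf K ≠ ⊥ := by
          intro h0
          rw [Subgroup.subgroupOf_eq_bot] at h0
          exact hE1 (by rw [← inf_eq_left.2 hEleK]; exact disjoint_iff.1 h0)
        obtain ⟨F, hF, hF1, hFE, hFmin⟩ := exists_min_normal (E.subgroupOf K) hE' hE'1
        have hFw : F ≤ wiel K := ih _ hcardK K rfl F hF hF1 hFmin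
        -- E ⊓ (wiel K).map is normal, nontrivial
        have hL : (E ⊓ (wiel K).map K.subtype).Normal := by
          refine ⟨?_⟩
          rintro y ⟨hyE, z, hz, rfl⟩ g
          refine ⟨hE.conj_mem _ hyE g, MulAut.conjNormal g z, wiel_map _ hz, ?_⟩
          simp
        have hL1 : E ⊓ (wiel K).map K.subtype ≠ ⊥ := by
          intro h0
          apply hF1
          rw [Subgroup.eq_bot_iff_forall]
          intro f hf
          have h1 : (f : G) ∈ E ⊓ (wiel K).map K.subtype :=
            ⟨Subgroup.mem_subgroupOf.1 (hFE hf), ⟨f, hFw hf, rfl⟩⟩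
          rw [h0, Subgroup.mem_bot] at h1
          exact_mod_cast h1
        have hLE := hmin _ hL inf_le_left hL1
        have hx' : x ∈ (wiel K).map K.subtype := by
          rw [← hLE] at hx
          exact hx.2
        obtain ⟨z, hz, rfl⟩ := hx'
        have h1 := (mem_wiel _).1 hz (N.subgroupOf K) hN.subgroupOf
        rw [Subgroup.mem_normalizer_iff] at h1 ⊢
        intro y
        constructor
        · intro hy
          have := (h1 ⟨y, hNK hy⟩).1 (Subgroup.mem_subgroupOf.2 hy)
          exact Subgroup.mem_subgroupOf.1 this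
        · intro hy
          have hyK : y ∈ K := by
            have h2 := hNK hy
            have h3 : y = (K.subtype z)⁻¹ * (K.subtype z * y * (K.subtype z)⁻¹) * K.subtype z := by group
            rw [h3]
            exact K.mul_mem (K.mul_mem (K.inv_mem z.2) h2) z.2
          have := (h1 ⟨y, hyK⟩).2 (Subgroup.mem_subgroupOf.2 hy)
          exact Subgroup.mem_subgroupOf.1 this

theorem corefree_case {G : Type*} [Group G] [Finite G] (M N : Subgroup G) (hM : IsCoatom M)
    (hcore : Subgroup.normalCore M = ⊥) (hN : N.IsSubnormal) (hNM : N ≤ M) :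
    N = ⊥ := by
  have hne : (⊤ : Subgroup G) ≠ ⊥ := by
    intro h
    apply hM.1
    rw [h, eq_bot_iff, ← h]; exact le_top
  obtain ⟨E, hE, hE1, -, hmin⟩ := exists_min_normal (⊤ : Subgroup G) inferInstance hne
  have hEw := min_normal_le_wiel _ G rfl E hE hE1 hmin
  have hEM : ¬ E ≤ M := by
    intro h
    have := (Subgroup.normal_le_normalCore (N := E) (H := M)).2 h
    rw [hcore, le_bot_iff] at this
    exact hE1 this
  have htop : M ⊔ E = ⊤ := hM.2 _ (lt_of_le_of_ne le_sup_left (fun h => hEM (h ▸ le_sup_right)))
  have hle : N ≤ Subgroup.normalCore M := by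
    intro y hy g
    have hg : g ∈ M ⊔ E := htop ▸ Subgroup.mem_top g
    obtain ⟨m, hm, e, he, rfl⟩ := Subgroup.mem_sup_of_normal_right.1 hg
    have h1 := (mem_wiel _).1 (hEw he) N hN
    have h2 := (Subgroup.mem_normalizer_iff.1 h1 y).1 hy
    have h3 := hNM h2
    have h4 := M.mul_mem (M.mul_mem hm h3) (M.inv_mem hm)
    simpa [mul_assoc] using h4
  rw [hcore, le_bot_iff] at hle
  exact hle

/-- Let G be a finite group, M a maximal subgroup of G and N a subnormal subgroup of G contained in M. Then N is contained in every conjugate of M, that is, N lies in the core of M in G. -/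
theorem result {G : Type*} [Group G] [Finite G] (M N : Subgroup G) (hM : IsCoatom M) (hN : N.IsSubnormal) (hNM : N ≤ M) :
    N ≤ Subgroup.normalCore M := by
  have hsurj := QuotientGroup.mk'_surjective (Subgroup.normalCore M)
  have hker : (QuotientGroup.mk' (Subgroup.normalCore M)).ker ≤ M := by
    rw [QuotientGroup.ker_mk']; exact Subgroup.normalCore_le M
  have hMbar : IsCoatom (M.map (QuotientGroup.mk' (Subgroup.normalCore M))) := by
    constructor
    · intro h
      apply hM.1
      have h1 := Subgroup.comap_map_eq_self hker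
      rw [h, Subgroup.comap_top] at h1
      exact h1.symm
    · intro L hL
      have h1 : M < L.comap (QuotientGroup.mk' (Subgroup.normalCore M)) := by
        have h0 := (Subgroup.comap_lt_comap_of_surjective hsurj).2 hL
        rwa [Subgroup.comap_map_eq_self hker] at h0
      have h2 := hM.2 _ h1
      have h3 := Subgroup.map_comap_eq_self_of_surjective hsurj L
      rw [← h3, h2]
      exact Subgroup.map_top_of_surjective _ hsurj
  have hcore : Subgroup.normalCore (M.map (QuotientGroup.mk' (Subgroup.normalCore M))) = ⊥ := by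
    rw [Subgroup.eq_bot_iff_forall]
    intro x hx
    obtain ⟨y, rfl⟩ := hsurj x
    have hy : y ∈ Subgroup.normalCore M := by
      intro g
      have h1 := hx (QuotientGroup.mk' (Subgroup.normalCore M) g)
      rw [← map_mul, ← map_inv, ← map_mul] at h1
      have h2 : g * y * g⁻¹ ∈ (M.map (QuotientGroup.mk' (Subgroup.normalCore M))).comap
          (QuotientGroup.mk' (Subgroup.normalCore M)) := h1
      rwa [Subgroup.comap_map_eq_self hker] at h2
    exact (QuotientGroup.eq_one_iff y).2 hy
  have hN1 := corefree_case _ _ hMbar hcore (hN.quotient (K := Subgroup.normalCore M))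
    (Subgroup.map_mono hNM)
  rw [Subgroup.map_eq_bot_iff, QuotientGroup.ker_mk'] at hN1
  exact hN1

end Cfsg.Agent.S3802
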