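import Cfsg.Statements.S3803
import Cfsg.Agent.H63.Omega
import Cfsg.Agent.H9.DihedralSylow

set_option autoImplicit false
open Cfsg

namespace Cfsg.Agent.S3803

open Subgroup
open scoped commutatorElement

theorem cyc {X : Type*} [Group X] [Finite X] {A : Subgroup X} (hA : Odd (Nat.card A)) {e : X} {m : ℕ}
    (he : orderOf e = 2 ^ m) (hn : A ≤ normalizer (zpowers e : Set X)) : e ∈ centralizer (A : Set X) := by
  rw [mem_centralizer_iff]
  intro a ha
  obtain ⟨k, hk⟩ := mem_zpowers_iff.1 ((mem_normalizer_iff.1 (hn ha) e).1 (mem_zpowers e))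
  have hodd : Odd (orderOf a) := by
    have h1 : orderOf (⟨a, ha⟩ : A) ∣ Nat.card A := orderOf_dvd_natCard _
    rw [orderOf_mk] at h1
    exact Odd.of_dvd_nat hA h1
  have h2 := H9.centralizes_of_cyclic_two he hodd hk.symm
  rwa [mul_inv_eq_iff_eq_mul] at h2

/-- Let P be a 2-subgroup and A a subgroup of odd order of a finite group, with A normalizing P. Let D ≤ P with 1 < |D| < |P|. If every subgroup of P of order |D|, and also every subgroup of P of order 4 in case |D| = 2, is normalized by A, then A centralizes P. -/
theorem result {X : Type*} [Group X] [Finite X] (P A D : Subgroup X) (hP : IsPGroup 2 P) (hA : Odd (Nat.card A))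
    (hAP : A ≤ Subgroup.normalizer (P : Set X)) (hDP : D ≤ P) (hD1 : 1 < Nat.card D) (hD2 : Nat.card D < Nat.card P)
    (hinv : ∀ E : Subgroup X, E ≤ P → (Nat.card E = Nat.card D ∨ (Nat.card D = 2 ∧ Nat.card E = 4)) → A ≤ Subgroup.normalizer (E : Set X)) :
    A ≤ Subgroup.centralizer (P : Set X) := by
  classical
  haveI : Fact (Nat.Prime 2) := ⟨Nat.prime_two⟩
  have hA2 : (Nat.card A).Coprime 2 := Nat.coprime_two_right.2 hA
  have key : ∀ x ∈ P, x ^ 4 = 1 → x ∈ centralizer (A : Set X) := by
    intro x hx hx4
    have hord : orderOf x ∣ 2 ^ 2 := orderOf_dvd_of_pow_eq_one (by rw [← hx4]; norm_num)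
    obtain ⟨m, hm, hxo⟩ := (Nat.dvd_prime_pow Nat.prime_two).1 hord
    have hzP : zpowers x ≤ P := zpowers_le.2 hx
    by_cases hD : Nat.card D = 2
    · interval_cases m
      · rw [pow_zero, orderOf_eq_one_iff] at hxo
        rw [hxo]; exact one_mem _
      · apply cyc hA hxo
        apply hinv _ hzP
        left
        rw [Nat.card_zpowers, hxo, hD, pow_one]
      · apply cyc hA hxo
        apply hinv _ hzP
        right
        exact ⟨hD, by rw [Nat.card_zpowers, hxo]; norm_num⟩
    · obtain ⟨d, hd⟩ := IsPGroup.iff_card.1 (hP.to_le hDP)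
      obtain ⟨n, hn⟩ := IsPGroup.iff_card.1 hP
      have hd2 : 2 ≤ d := by
        by_contra hcon
        have : d ≤ 1 := by omega
        interval_cases d
        · rw [hd] at hD1; norm_num at hD1
        · exact hD (by rw [hd]; norm_num)
      have hdn : d + 1 ≤ n := by
        rw [hd, hn] at hD2
        exact (Nat.pow_lt_pow_iff_right (by norm_num)).1 hD2
      obtain ⟨H, hH, hxH⟩ := Sylow.exists_subgroup_card_pow_prime_le (G := P) 2 (m := d) (n := m)
        (by rw [hn]; exact pow_dvd_pow 2 (by omega)) (zpowers (⟨x, hx⟩ : P))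
        (by rw [Nat.card_zpowers, orderOf_mk, hxo]) (by omega)
      obtain ⟨T, hT, hHT⟩ := Sylow.exists_subgroup_card_pow_prime_le (G := P) 2 (m := d + 1) (n := d)
        (by rw [hn]; exact pow_dvd_pow 2 (by omega)) H hH (by omega)
      have hcardmap : ∀ K : Subgroup P, Nat.card (K.map P.subtype) = Nat.card K := fun K =>
        (Nat.card_congr (K.equivMapOfInjective _ P.subtype_injective).toEquiv).symm
      set T' : Subgroup X := T.map P.subtype with hT'
      set H' : Subgroup X := H.map P.subtype with hH'
      have hH'T' : H' ≤ T' := map_mono hHT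
      have hT'P : T' ≤ P := map_subtype_le T
      have hcT : Nat.card T' = 2 ^ (d + 1) := by rw [hT', hcardmap, hT]
      have hcH : Nat.card H' = 2 ^ d := by rw [hH', hcardmap, hH]
      have hxH' : x ∈ H' := ⟨⟨x, hx⟩, hxH (mem_zpowers _), rfl⟩
      by_cases hcyc : IsCyclic T'
      · -- H' is cyclic
        haveI := hcyc
        have hHc : IsCyclic H' := by
          have : IsCyclic (H'.subgroupOf T') := inferInstance
          exact isCyclic_of_surjective (subgroupOfEquivOfLe hH'T').toMonoidHom
            (subgroupOfEquivOfLe hH'T').surjective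
        obtain ⟨h, hh⟩ := hHc.exists_generator
        have hH'z : H' = zpowers (h : X) := by
          apply le_antisymm
          · intro y hy
            obtain ⟨k, hk⟩ := mem_zpowers_iff.1 (hh ⟨y, hy⟩)
            exact mem_zpowers_iff.2 ⟨k, congrArg Subtype.val hk⟩
          · exact zpowers_le.2 h.2
        have h1 : (h : X) ∈ centralizer (A : Set X) := by
          apply cyc (m := d) hA
          · rw [← Nat.card_zpowers, ← hH'z, hcH]
          · rw [← hH'z]
            exact hinv _ (hH'T'.trans hT'P) (Or.inl (by rw [hcH, hd]))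
        have h2 : H' ≤ centralizer (A : Set X) := by rw [hH'z]; exact zpowers_le.2 h1
        exact h2 hxH'
      · have hTp : IsPGroup 2 T' := hP.to_le hT'P
        -- every coatom of T' is normalized by A
        have hco : ∀ M : Subgroup T', IsCoatom M → M.index = 2 ∧
            A ≤ normalizer ((M.map T'.subtype : Subgroup X) : Set X) := by
          intro M hM
          obtain ⟨h1, h2⟩ := Solv.coatom_of_pGroup hTp M hM
          refine ⟨h2, ?_⟩
          apply hinv _ ((map_subtype_le M).trans hT'P)
          left
          rw [(Nat.card_congr (M.equivMapOfInjective _ T'.subtype_injective).toEquiv).symm, hd]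
          have h3 := M.card_mul_index
          rw [h2, hcT, pow_succ] at h3
          exact Nat.eq_of_mul_eq_mul_right (by norm_num) h3
        -- every element of T' lies in a coatom
        have hel : ∀ t : T', ∃ M : Subgroup T', IsCoatom M ∧ t ∈ M := by
          intro t
          have h1 : zpowers t ≠ ⊤ := by
            intro h
            apply hcyc
            exact ⟨t, fun y => by
              have : y ∈ (⊤ : Subgroup T') := mem_top y
              rw [← h] at this
              exact this⟩
          obtain ⟨M, hM, htM⟩ := (eq_top_or_exists_le_coatom (zpowers t)).resolve_left h1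
          exact ⟨M, hM, htM (mem_zpowers t)⟩
        have hconj : ∀ a ∈ A, ∀ t ∈ T', a * t * a⁻¹ ∈ T' := by
          intro a ha t ht
          obtain ⟨M, hM, htM⟩ := hel ⟨t, ht⟩
          have h1 := (hco M hM).2 ha
          have h2 := (mem_normalizer_iff.1 h1 t).1 ⟨⟨t, ht⟩, htM, rfl⟩
          exact (map_subtype_le M) h2
        have hAT : A ≤ normalizer (T' : Set X) := by
          intro a ha
          rw [mem_normalizer_iff]
          intro t
          refine ⟨fun ht => hconj a ha t ht, fun ht => ?_⟩
          have := hconj a⁻¹ (inv_mem ha) _ ht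
          have h3 : a⁻¹ * (a * t * a⁻¹) * a⁻¹⁻¹ = t := by group
          rwa [h3] at this
        have hcopT : (Nat.card A).Coprime (Nat.card (frattini T')) := by
          obtain ⟨k, hk⟩ := IsPGroup.iff_card.1 (hTp.to_subgroup (frattini T'))
          rw [hk]
          exact Nat.Coprime.pow_right k hA2
        have h1 := Cop.le_centralizer_of_frattini hAT hcopT (by
          intro a ha t ht
          have hat := hconj a ha t ht
          refine ⟨⟨a * t * a⁻¹, hat⟩ * ⟨t, ht⟩⁻¹, ?_, rfl⟩
          rw [frattini, Order.radical, SetLike.mem_coe, mem_iInf]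
          intro M
          rw [mem_iInf]
          intro hM
          obtain ⟨h2, h3⟩ := hco M hM
          rw [mul_mem_iff_of_index_two h2, inv_mem_iff]
          have h4 := mem_normalizer_iff.1 (h3 ha) t
          constructor
          · intro h5
            obtain ⟨w, hw, hw'⟩ := h4.2 ⟨_, h5, rfl⟩
            have : w = ⟨t, ht⟩ := Subtype.ext hw'
            rw [← this]; exact hw
          · intro h5
            obtain ⟨w, hw, hw'⟩ := h4.1 ⟨_, h5, rfl⟩
            have : w = ⟨a * t * a⁻¹, hat⟩ := Subtype.ext hw'
            rw [← this]; exact hw)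
        exact (le_centralizer_iff.1 h1) (hH'T' hxH')
  apply H63.le_centralizer_of_omega A P hP hAP hA2 (fun x hx hx2 => key x hx (by
    rw [show (4 : ℕ) = 2 * 2 by norm_num, pow_mul, hx2, one_pow])) (fun _ => key)

end Cfsg.Agent.S3803
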