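import Cfsg.Statements.S3815
-- (no helper imports)

set_option autoImplicit false
open Cfsg

namespace Cfsg.Agent.S3815

/-- Let G be a finite group, p a prime and d ∈ G an element of order prime to p. If dg has order prime to p for every element g ∈ G of order prime to p, then d ∈ O_{p'}(G). -/
theorem result {G : Type*} [Group G] [Finite G] {p : ℕ} [Fact p.Prime]
    (d : G) (hd : (orderOf d).Coprime p)
    (h : ∀ g : G, (orderOf g).Coprime p → (orderOf (d * g)).Coprime p) :
    d ∈ Cfsg.pPrimeCore p G := by
  classical
  let D : Submonoid G :=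
    { carrier := {d | ∀ g : G, (orderOf g).Coprime p → (orderOf (d * g)).Coprime p}
      one_mem' := by intro g hg; simpa using hg
      mul_mem' := by
        intro a b ha hb g hg
        rw [mul_assoc]
        exact ha _ (hb _ hg) }
  have hpow : ∀ a ∈ D, a⁻¹ ∈ D := by
    intro a ha
    have h1 : a⁻¹ = a ^ (orderOf a - 1) := by
      have hpos : 0 < orderOf a := orderOf_pos a
      rw [inv_eq_iff_mul_eq_one, ← pow_succ', Nat.sub_add_cancel hpos, pow_orderOf_eq_one]
    rw [h1]
    exact D.pow_mem ha _
  let N : Subgroup G := { D with inv_mem' := fun {a} ha => hpow a ha }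
  have hN : N.Normal := by
    refine ⟨fun n hn g => ?_⟩
    show g * n * g⁻¹ ∈ D
    intro y hy
    have h1 : (orderOf (g⁻¹ * y * g)).Coprime p := by
      have : orderOf (g⁻¹ * y * g) = orderOf y := by
        have := orderOf_injective (MulAut.conj g⁻¹).toMonoidHom (MulEquiv.injective _) y
        simpa using this
      rwa [this]
    have h2 := hn _ h1
    have h3 : g * n * g⁻¹ * y = g * (n * (g⁻¹ * y * g)) * g⁻¹ := by group
    have h4 : orderOf (g * (n * (g⁻¹ * y * g)) * g⁻¹) = orderOf (n * (g⁻¹ * y * g)) := by
      have := orderOf_injective (MulAut.conj g).toMonoidHom (MulEquiv.injective _) (n * (g⁻¹ * y * g))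
      simpa using this
    rw [h3, h4]
    exact h2
  have hcard : (Nat.card N).Coprime p := by
    rw [Nat.coprime_comm, Nat.Prime.coprime_iff_not_dvd Fact.out]
    intro hdvd
    obtain ⟨x, hx⟩ := exists_prime_orderOf_dvd_card' p hdvd
    have hxD : (x : G) ∈ D := x.2
    have := hxD 1 (by simp)
    rw [mul_one, Subgroup.orderOf_coe, hx] at this
    have hp : p.Prime := Fact.out
    rw [Nat.coprime_self] at this
    exact hp.one_lt.ne' this
  have hle : N ≤ Cfsg.pPrimeCore p G := le_sSup ⟨hN, hcard⟩
  exact hle h

end Cfsg.Agent.S3815
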