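import Cfsg.Statements.S3816
import Cfsg.Agent.H20.FlavD

set_option autoImplicit false
open Cfsg

namespace Cfsg.Agent.S3816

open Cfsg.Agent.H20

/-- Let p be an odd prime, H a finite solvable group of order prime to p, and x an automorphism of H of order p (so P = ⟨x⟩ has prime order p > 2 and acts coprimely on H). For h ∈ H let [h, P] be the subgroup generated by the commutators h⁻¹·xⁱ(h), and let [H, P] be the subgroup generated by all of these. Then the fixed points of x in [H, P] are generated by the fixed points of x in the subgroups [h, P], h ∈ H. -/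
theorem result {H : Type*} [Group H] [Finite H]
    [Group.IsSolvable H] {p : ℕ} [Fact p.Prime] (hp : p ≠ 2) (hcop : (Nat.card H).Coprime p)
    (x : MulAut H) (hx : orderOf x = p) :
    Subgroup.closure {c : H | ∃ h : H, ∃ i : ℕ, c = h⁻¹ * (x ^ i) h} ⊓ (x : H →* H).eqLocus (MonoidHom.id H) =
      ⨆ h : H, Subgroup.closure {c : H | ∃ i : ℕ, c = h⁻¹ * (x ^ i) h} ⊓ (x : H →* H).eqLocus (MonoidHom.id H) := by
  have hxp : x ^ p = 1 := by rw [← hx]; exact pow_orderOf_eq_one x
  have hcop' : ¬ p ∣ Nat.card H := by
    intro h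
    have h1 := Nat.dvd_gcd h (dvd_refl p)
    rw [hcop] at h1
    exact (Fact.out : p.Prime).one_lt.ne' (Nat.dvd_one.1 h1)
  apply le_antisymm
  · exact Flav.main hp _ x hxp hcop' rfl
  · apply iSup_le
    intro h
    exact inf_le_inf_right _ (Flav.K_le_KK x h)

end Cfsg.Agent.S3816
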