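import Cfsg.Statements.S3818
import Mathlib
import Cfsg.Agent.H53.FlBase

set_option autoImplicit false
open Cfsg

namespace Cfsg.Agent.S3818

/-- Let G be a finite solvable group and P a subgroup of G of prime order p > 3 whose conjugates generate G. Let V be a faithful irreducible representation of G over a field of positive characteristic, finite-dimensional. Then the subspace of V fixed by P has dimension less than half the dimension of V. -/
theorem result {G : Type*} [Group G] [Finite G] [Group.IsSolvable G]
    {p : ℕ} [Fact p.Prime] (hp : 3 < p) (P : Subgroup G) (hP : Nat.card P = p) (hgen : Subgroup.normalClosure (P : Set G) = ⊤)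
    {k : Type*} [Field k] (ℓ : ℕ) [Fact ℓ.Prime] [CharP k ℓ]
    {V : Type*} [AddCommGroup V] [Module k V] [FiniteDimensional k V]
    (ρ : Representation k G V) [ρ.IsIrreducible] (hfaith : Function.Injective ρ) :
    2 * Module.finrank k ↥(⨅ g : ↥P, LinearMap.ker (ρ (g : G) - LinearMap.id)) < Module.finrank k V := by
  classical
  have hpp : p.Prime := Fact.out
  -- irreducibility in terms of submodules
  have hirr : ∀ W : Submodule k V, (∀ g, ∀ v ∈ W, ρ g v ∈ W) → W = ⊥ ∨ W = ⊤ := by
    intro W hW
    let S : Subrepresentation ρ := ⟨W, fun g v hv => hW g v hv⟩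
    rcases IsSimpleOrder.eq_bot_or_eq_top S with h | h
    · left
      exact congrArg Subrepresentation.toSubmodule h
    · right
      exact congrArg Subrepresentation.toSubmodule h
  have hnt : Nontrivial V := by
    by_contra hcon
    rw [not_nontrivial_iff_subsingleton] at hcon
    have h1 : (⊥ : Subrepresentation ρ) = ⊤ := by
      apply Subrepresentation.toSubmodule_injective
      exact Subsingleton.elim _ _
    exact bot_ne_top h1
  have hcyc : IsCyclic P := isCyclic_of_prime_card hP
  obtain ⟨g, hg⟩ := hcyc.exists_generator
  have hx : orderOf (g : G) = p := by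
    rw [Subgroup.orderOf_coe, ← hP]
    exact orderOf_eq_card_of_forall_mem_zpowers hg
  have hPx : P ≤ Subgroup.zpowers (g : G) := by
    intro y hy
    obtain ⟨k', hk'⟩ := Subgroup.mem_zpowers_iff.1 (hg ⟨y, hy⟩)
    rw [Subgroup.mem_zpowers_iff]
    exact ⟨k', congrArg Subtype.val hk'⟩
  have hgen' : Subgroup.normalClosure ({(g : G)} : Set G) = ⊤ := by
    rw [eq_top_iff, ← hgen]
    apply Subgroup.normalClosure_le_normal
    intro y hy
    have h1 : Subgroup.zpowers (g : G) ≤ Subgroup.normalClosure ({(g : G)} : Set G) := by
      rw [Subgroup.zpowers_le]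
      exact Subgroup.subset_normalClosure (Set.mem_singleton _)
    exact h1 (hPx hy)
  have h1 := Cfsg.Agent.H53.Fl.core_irr hpp hp hx hgen' ρ hnt hirr hfaith
  refine lt_of_le_of_lt (Nat.mul_le_mul_left _ ?_) h1
  apply Submodule.finrank_mono
  exact iInf_le (fun h : P => LinearMap.ker (ρ (h : G) - LinearMap.id)) g

end Cfsg.Agent.S3818
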