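import Cfsg.Statements.S3820
-- (no helper imports)

set_option autoImplicit false
open Cfsg

namespace Cfsg.Agent.S3820

/-- conjugating by a product -/
theorem map_conj_mul {G : Type*} [Group G] (H : Subgroup G) (a b : G) :
    H.map (MulAut.conj (a * b)).toMonoidHom =
      (H.map (MulAut.conj b).toMonoidHom).map (MulAut.conj a).toMonoidHom := by
  rw [Subgroup.map_map]
  congr 1
  ext x
  simp [mul_assoc]

/-- Call a subgroup H of G pronormal if H and gHg⁻¹ are conjugate inside ⟨H, gHg⁻¹⟩ for every g ∈ G. Let S ≤ H ≤ G be subgroups of a finite group with S pronormal in G (for instance S a Sylow subgroup). Then H is pronormal in G if and only if H and gHg⁻¹ are conjugate inside ⟨H, gHg⁻¹⟩ for every g ∈ N_G(S). In particular H is pronormal whenever N_G(S) ≤ H. -/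
theorem result {G : Type*} [Group G] [Finite G] (S H : Subgroup G) (hSH : S ≤ H)
    (hS : Cfsg.IsPronormal S) :
    Cfsg.IsPronormal H ↔
      ∀ g ∈ Subgroup.normalizer (S : Set G), ∃ w ∈ H ⊔ H.map (MulAut.conj g).toMonoidHom,
        H.map (MulAut.conj g).toMonoidHom = H.map (MulAut.conj w).toMonoidHom := by
  constructor
  · intro h g _
    exact h g
  · intro h g
    obtain ⟨x, hx, hxS⟩ := hS g
    have hSJ : S ⊔ S.map (MulAut.conj g).toMonoidHom ≤ H ⊔ H.map (MulAut.conj g).toMonoidHom :=
      sup_le_sup hSH (Subgroup.map_mono hSH)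
    have hxJ := hSJ hx
    have hn : x⁻¹ * g ∈ Subgroup.normalizer (S : Set G) := by
      have h1 : S.map (MulAut.conj (x⁻¹ * g)).toMonoidHom = S := by
        rw [map_conj_mul, hxS, ← map_conj_mul]
        simp only [inv_mul_cancel, map_one]
        ext y
        simp
      rw [Subgroup.mem_normalizer_iff]
      intro s
      constructor
      · intro hs
        rw [← h1]
        exact ⟨s, hs, by simp [mul_assoc]⟩
      · intro hs
        have hs' : (x⁻¹ * g) * s * (x⁻¹ * g)⁻¹ ∈ S.map (MulAut.conj (x⁻¹ * g)).toMonoidHom := by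
          rw [h1]; exact hs
        obtain ⟨t, ht, hte⟩ := hs'
        have : t = s := by
          have h2 : (x⁻¹ * g) * t * (x⁻¹ * g)⁻¹ = (x⁻¹ * g) * s * (x⁻¹ * g)⁻¹ := hte
          have h3 := mul_right_cancel h2
          exact mul_left_cancel h3
        rwa [← this]
    obtain ⟨w, hw, hwH⟩ := h _ hn
    have hle : H.map (MulAut.conj (x⁻¹ * g)).toMonoidHom ≤ H ⊔ H.map (MulAut.conj g).toMonoidHom := by
      rw [map_conj_mul]
      rintro _ ⟨y, hy, rfl⟩
      have hy' : y ∈ H ⊔ H.map (MulAut.conj g).toMonoidHom := le_sup_right (a := H) hy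
      have := Subgroup.mul_mem _ (Subgroup.mul_mem _ (Subgroup.inv_mem _ hxJ) hy') hxJ
      simpa using this
    have hwJ : w ∈ H ⊔ H.map (MulAut.conj g).toMonoidHom := (sup_le le_sup_left hle) hw
    refine ⟨x * w, Subgroup.mul_mem _ hxJ hwJ, ?_⟩
    rw [map_conj_mul, ← hwH, ← map_conj_mul]
    congr 2
    simp

end Cfsg.Agent.S3820
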