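import Cfsg.Statements.S3821
import Cfsg.Agent.H64.Basic

set_option autoImplicit false
open Cfsg

namespace Cfsg.Agent.S3821

open Cfsg.Agent.H64

theorem map_subgroupOf {G : Type*} [Group G] (A H : Subgroup G) [A.Normal] (_hHA : H ≤ A) (a : A) :
    (H.subgroupOf A).map (MulAut.conj a).toMonoidHom =
      (H.map (MulAut.conj (a : G)).toMonoidHom).subgroupOf A := by
  ext x
  rw [mem_map_conj, Subgroup.mem_subgroupOf, Subgroup.mem_subgroupOf, mem_map_conj]
  simp

theorem map_le {G : Type*} [Group G] (A H : Subgroup G) [hA : A.Normal] (hHA : H ≤ A) (g : G) :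
    H.map (MulAut.conj g).toMonoidHom ≤ A := by
  intro x hx
  rw [mem_map_conj] at hx
  have := hA.conj_mem _ (hHA hx) g
  simpa [mul_assoc] using this

/-- Let A be a normal subgroup of the finite group G and H a subgroup of A. Then H is pronormal in G (H and gHg⁻¹ conjugate inside ⟨H, gHg⁻¹⟩ for every g ∈ G) if and only if H is pronormal in A and G = A · N_G(H). -/
theorem result {G : Type*} [Group G] [Finite G] (A H : Subgroup G) [A.Normal] (hHA : H ≤ A) :
    Cfsg.IsPronormal H ↔ (Cfsg.IsPronormal (H.subgroupOf A) ∧ A ⊔ Subgroup.normalizer (H : Set G) = ⊤) := by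
  constructor
  · intro h
    refine ⟨?_, ?_⟩
    · intro a
      obtain ⟨x, hx, hx2⟩ := h (a : G)
      have hxA : x ∈ A := (sup_le hHA (map_le A H hHA _)) hx
      refine ⟨⟨x, hxA⟩, ?_, ?_⟩
      · rw [map_subgroupOf A H hHA, ← Subgroup.subgroupOf_sup hHA (map_le A H hHA _),
          Subgroup.mem_subgroupOf]
        exact hx
      · rw [map_subgroupOf A H hHA, map_subgroupOf A H hHA, hx2]
    · rw [eq_top_iff]
      intro g _
      obtain ⟨x, hx, hx2⟩ := h g
      have hxA : x ∈ A := (sup_le hHA (map_le A H hHA _)) hx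
      have h3 := (map_conj_eq_map_conj_iff).1 hx2
      have : g = x * (x⁻¹ * g) := by group
      rw [this]
      exact Subgroup.mul_mem_sup hxA h3
  · rintro ⟨h1, h2⟩ g
    have hg : g ∈ A ⊔ Subgroup.normalizer (H : Set G) := by rw [h2]; trivial
    obtain ⟨a, ha, n, hn, rfl⟩ := Subgroup.mem_sup_of_normal_left.1 hg
    have h3 : H.map (MulAut.conj (a * n)).toMonoidHom = H.map (MulAut.conj a).toMonoidHom := by
      rw [map_conj_mul, map_conj_eq_self_iff.2 hn]
    rw [h3]
    obtain ⟨x, hx, hx2⟩ := h1 ⟨a, ha⟩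
    rw [map_subgroupOf A H hHA, ← Subgroup.subgroupOf_sup hHA (map_le A H hHA _),
          Subgroup.mem_subgroupOf] at hx
    rw [map_subgroupOf A H hHA, map_subgroupOf A H hHA,
      Subgroup.subgroupOf_inj, inf_eq_left.2 (map_le A H hHA _), inf_eq_left.2 (map_le A H hHA _)] at hx2
    exact ⟨x, hx, hx2⟩

end Cfsg.Agent.S3821
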