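import Cfsg.Statements.S3822
import Mathlib
import Cfsg.Agent.H53.FlMC
import Cfsg.Agent.Solv.Core

set_option autoImplicit false
open Cfsg

namespace Cfsg.Agent.S3822

theorem conj_mem_pcore_map {G : Type*} [Group G] (q : ℕ) (V : Subgroup G) {a : G}
    (ha : a ∈ Subgroup.normalizer (V : Set G)) {v : G} (hv : v ∈ (Cfsg.pCore q V).map V.subtype) :
    a * v * a⁻¹ ∈ (Cfsg.pCore q V).map V.subtype := by
  obtain ⟨w, hw, rfl⟩ := hv
  have h1 := Cfsg.Agent.Solv.map_pCore q (V.normalizerMonoidHom ⟨a, ha⟩ : V ≃* V)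
  refine ⟨V.normalizerMonoidHom ⟨a, ha⟩ w, ?_, rfl⟩
  have h2 : (V.normalizerMonoidHom ⟨a, ha⟩ w) ∈ (Cfsg.pCore q V).map ((V.normalizerMonoidHom ⟨a, ha⟩ : V ≃* V) : V →* V) :=
    ⟨w, hw, rfl⟩
  rw [h1] at h2
  exact h2

/-- Let G be a finite group and P a subgroup of prime order p > 3. Consider the solvable subgroups A of G of the form A = ⟨P, aPa⁻¹⟩ for some a ∈ A, and let A be maximal under inclusion among them. Then for every nilpotent subgroup V of G normalized by A, the subgroup F(A)V generated by the Fitting subgroup of A and V is nilpotent. -/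
theorem result {G : Type*} [Group G] [Finite G]
    {p : ℕ} [Fact p.Prime] (hp : 3 < p) (P : Subgroup G) (hP : Nat.card P = p) (A : Subgroup G)
    (hA : Group.IsSolvable ↥A ∧ ∃ a ∈ A, A = P ⊔ P.map (MulAut.conj a).toMonoidHom)
    (hmax : ∀ B : Subgroup G, A ≤ B → Group.IsSolvable ↥B → (∃ b ∈ B, B = P ⊔ P.map (MulAut.conj b).toMonoidHom) → B = A)
    (V : Subgroup G) (hV : Group.IsNilpotent ↥V) (hAV : A ≤ Subgroup.normalizer (V : Set G)) :
    Group.IsNilpotent ↥((Cfsg.fittingSubgroup ↥A).map A.subtype ⊔ V) := by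
  classical
  obtain ⟨hAs, a, haA, hA⟩ := hA
  have hpp : p.Prime := Fact.out
  -- the `q`-parts
  set Fq : Nat.Primes → Subgroup G := fun q => (Cfsg.pCore (q : ℕ) A).map A.subtype with hFq
  set Vq : Nat.Primes → Subgroup G := fun q => (Cfsg.pCore (q : ℕ) V).map V.subtype with hVq
  have hF : (Cfsg.fittingSubgroup ↥A).map A.subtype = ⨆ q, Fq q := by
    rw [Cfsg.Agent.Solv.fitting_eq_iSup_pCore, Subgroup.map_iSup]
  have hV' : V = ⨆ q, Vq q := by
    have hVn : Group.IsNilpotent (⊤ : Subgroup V) := by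
      have e : (⊤ : Subgroup V) ≃* V := Subgroup.topEquiv
      exact Group.nilpotent_of_surjective e.symm.toMonoidHom e.symm.surjective
    have h1 := Cfsg.Agent.Solv.le_iSup_pCore_of_nilpotent (⊤ : Subgroup V)
    have h2 : (⨆ q : Nat.Primes, Cfsg.pCore (q : ℕ) V) = ⊤ := top_le_iff.1 h1
    rw [← Subgroup.map_iSup, h2, ← MonoidHom.range_eq_map, Subgroup.range_subtype]
  have hFA : ∀ q, Fq q ≤ A := fun q => Subgroup.map_subtype_le _
  have hVV : ∀ q, Vq q ≤ V := fun q => Subgroup.map_subtype_le _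
  have hAAn : A ≤ Subgroup.normalizer (A : Set G) := Subgroup.le_normalizer
  have hVVn : V ≤ Subgroup.normalizer (V : Set G) := Subgroup.le_normalizer
  have hFn : ∀ q, ∀ b ∈ A, ∀ k ∈ Fq q, b * k * b⁻¹ ∈ Fq q := fun q b hb k hk => conj_mem_pcore_map _ A (hAAn hb) hk
  have hVn : ∀ q, ∀ b ∈ A, ∀ k ∈ Vq q, b * k * b⁻¹ ∈ Vq q := fun q b hb k hk => conj_mem_pcore_map _ V (hAV hb) hk
  have hVn' : ∀ q, ∀ b ∈ V, ∀ k ∈ Vq q, b * k * b⁻¹ ∈ Vq q := fun q b hb k hk => conj_mem_pcore_map _ V (hVVn hb) hk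
  have hFp : ∀ q : Nat.Primes, IsPGroup q (Fq q) := fun q => (Cfsg.Agent.Solv.pCore_isPGroup (q : ℕ)).map _
  have hVp : ∀ q : Nat.Primes, IsPGroup q (Vq q) := fun q => (Cfsg.Agent.Solv.pCore_isPGroup (q : ℕ)).map _
  have hmc : ∀ q r : Nat.Primes, q ≠ r → ∀ k ∈ Fq q, ∀ w ∈ Vq r, k * w = w * k := by
    intro q r hqr
    exact Cfsg.Agent.H53.Fl.fl_mc hpp hp P hP A hAs haA hA hmax q.2 r.2 (fun h => hqr (Subtype.ext h)) (Fq q) (hFA q)
      (hFp q) (hFn q) _ (Vq r) rfl (hVp r) (hVn r)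
  set T := (Cfsg.fittingSubgroup ↥A).map A.subtype ⊔ V with hT
  have hFT : ∀ q, Fq q ≤ T := fun q => (le_iSup Fq q).trans (by rw [← hF]; exact le_sup_left)
  have hVT : ∀ q, Vq q ≤ T := fun q => (hVV q).trans le_sup_right
  -- `R_q`
  have hFnV : ∀ q, Fq q ≤ Subgroup.normalizer (Vq q : Set G) := fun q =>
    (hFA q).trans (Cfsg.Agent.H53.Fl.le_norm_of_conj (hVn q))
  have hRp : ∀ q : Nat.Primes, IsPGroup q (Fq q ⊔ Vq q : Subgroup G) := by
    intro q
    exact IsPGroup.to_sup_of_normal_right' (hFp q) (hVp q) (hFnV q)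
  have hTn : ∀ q, T ≤ Subgroup.normalizer ((Fq q ⊔ Vq q : Subgroup G) : Set G) := by
    intro q
    rw [hT, hF]
    refine sup_le (iSup_le (fun r => ?_)) ?_
    · apply (hFA r).trans
      refine le_trans (le_inf (Cfsg.Agent.H53.Fl.le_norm_of_conj (hFn q)) (Cfsg.Agent.H53.Fl.le_norm_of_conj (hVn q))) ?_
      exact (Subgroup.normalizer_inf_normalizer_le_normalizer_sup _ _)
    · have h1 : (⨆ r, Vq r) ≤ Subgroup.normalizer ((Fq q ⊔ Vq q : Subgroup G) : Set G) := by
        refine iSup_le (fun r => ?_)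
        by_cases hrq : r = q
        · rw [hrq]
          exact le_sup_right.trans Subgroup.le_normalizer
        · refine le_trans (le_inf (Cfsg.Agent.H53.Fl.le_norm_of_conj (A := Vq r) (W := Fq q) ?_)
            ((hVV r).trans (Cfsg.Agent.H53.Fl.le_norm_of_conj (hVn' q)))) (Subgroup.normalizer_inf_normalizer_le_normalizer_sup _ _)
          intro v hv k hk
          have h2 := hmc q r (fun h => hrq h.symm) k hk v hv
          rw [← h2, mul_inv_cancel_right]
          exact hk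
      rwa [← hV'] at h1
  have hRfit : ∀ q : Nat.Primes, (Fq q ⊔ Vq q).subgroupOf T ≤ Cfsg.fittingSubgroup T := by
    intro q
    have hqf : Fact (q : ℕ).Prime := ⟨q.2⟩
    have h1 : ((Fq q ⊔ Vq q).subgroupOf T).Normal := Subgroup.normal_subgroupOf_of_le_normalizer (hTn q)
    apply Cfsg.Agent.Solv.le_fitting h1
    have h2 : IsPGroup q ((Fq q ⊔ Vq q).subgroupOf T) :=
      (hRp q).of_equiv (Subgroup.subgroupOfEquivOfLe (sup_le (hFT q) (hVT q))).symm
    exact h2.isNilpotent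
  have htop : Cfsg.fittingSubgroup T = ⊤ := by
    apply Subgroup.map_injective T.subtype_injective
    rw [← MonoidHom.range_eq_map, Subgroup.range_subtype]
    apply le_antisymm (Subgroup.map_subtype_le _)
    have h1 : ∀ q, Fq q ⊔ Vq q ≤ (Cfsg.fittingSubgroup T).map T.subtype := by
      intro q
      have h2 := Subgroup.map_mono (f := T.subtype) (hRfit q)
      rwa [Subgroup.map_subgroupOf_eq_of_le (sup_le (hFT q) (hVT q))] at h2
    refine sup_le ?_ ?_
    · rw [hF]
      exact iSup_le (fun q => le_sup_left.trans (h1 q))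
    · have h3 : (⨆ r, Vq r) ≤ (Cfsg.fittingSubgroup T).map T.subtype :=
        iSup_le (fun q => le_sup_right.trans (h1 q))
      rwa [← hV'] at h3
  have h1 := Cfsg.Agent.Solv.fitting_isNilpotent (G := T)
  rw [htop] at h1
  have e : (⊤ : Subgroup T) ≃* T := Subgroup.topEquiv
  exact Group.nilpotent_of_surjective e.toMonoidHom e.surjective

end Cfsg.Agent.S3822
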