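import Cfsg.Statements.S3825
import Mathlib

set_option autoImplicit false
open Cfsg

namespace Cfsg.Agent.S3825

/-- Let U be a subgroup of a finite group H and w an involution of H normalizing U and commuting with exactly two elements of U, the identity and y. If V is a non-cyclic elementary abelian 2-subgroup of U containing y which is normal in U and invariant under w, then V is a Sylow 2-subgroup of U, V has order 4, and U/V is abelian. -/
theorem result {H : Type*} [Group H] [Finite H] (U : Subgroup H) (w : H) (hw : orderOf w = 2)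
    (hwU : w ∈ Subgroup.normalizer (U : Set H)) (y : H) (hy : y ≠ 1) (hyU : y ∈ U)
    (hfix : ∀ u ∈ U, w * u * w⁻¹ = u ↔ (u = 1 ∨ u = y))
    (V : Subgroup H) (hVU : V ≤ U) (hVn : (V.subgroupOf U).Normal) (hVw : ∀ v ∈ V, w * v * w⁻¹ ∈ V)
    (hVe : Cfsg.IsElementaryAbelian 2 V) (hVc : ¬ IsCyclic ↥V) (hyV : y ∈ V) :
    ¬ 2 ∣ V.relIndex U ∧ Nat.card ↥V = 4 ∧ ⁅U, U⁆ ≤ V := by
  have hww : w * w = 1 := by rw [← pow_two, ← hw]; exact pow_orderOf_eq_one w
  have hwinv : w⁻¹ = w := by rw [inv_eq_iff_mul_eq_one]; exact hww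
  obtain ⟨hVab, hV2⟩ := hVe
  have hcomm : ∀ a ∈ V, ∀ b ∈ V, a * b = b * a := by
    intro a ha b hb
    exact congrArg Subtype.val (hVab.is_comm.comm (⟨a, ha⟩ : V) ⟨b, hb⟩)
  have hsq : ∀ a ∈ V, a⁻¹ = a := by
    intro a ha
    rw [inv_eq_iff_mul_eq_one, ← pow_two]; exact hV2 a ha
  -- a commutator with w lying in V is fixed
  have hcfix : ∀ u ∈ U, w * u * w⁻¹ * u⁻¹ ∈ V → (w * u * w⁻¹ * u⁻¹ = 1 ∨ w * u * w⁻¹ * u⁻¹ = y) := by
    intro u hu hc
    rw [← hfix _ (hVU hc)]
    have h1 : w * (w * u * w⁻¹ * u⁻¹) * w⁻¹ = (w * u * w⁻¹ * u⁻¹)⁻¹ := by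
      calc w * (w * u * w⁻¹ * u⁻¹) * w⁻¹ = (w * w) * u * w⁻¹ * u⁻¹ * w⁻¹ := by group
        _ = u * w * u⁻¹ * w⁻¹ := by rw [hww, hwinv]; group
        _ = (w * u * w⁻¹ * u⁻¹)⁻¹ := by group
    rw [h1]
    exact hsq _ hc
  -- the homomorphism f : V → V
  let f : V →* V :=
    { toFun := fun v => ⟨w * v * w⁻¹ * (v : H)⁻¹, V.mul_mem (hVw v v.2) (V.inv_mem v.2)⟩
      map_one' := by ext; simp
      map_mul' := by
        intro a b
        ext
        simp only [Subgroup.coe_mul]
        have e1 : w * ((a : H) * b) * w⁻¹ * ((a : H) * b)⁻¹ = (w * a * w⁻¹) * ((w * b * w⁻¹ * (b : H)⁻¹) * (a : H)⁻¹) := by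
          group
        rw [e1, hcomm _ (V.mul_mem (hVw b b.2) (V.inv_mem b.2)) _ (V.inv_mem a.2)]
        group }
  have hf : ∀ v : V, ((f v : V) : H) = w * v * w⁻¹ * (v : H)⁻¹ := fun v => rfl
  have hker : ∀ v : V, v ∈ f.ker ↔ (v = 1 ∨ v = ⟨y, hyV⟩) := by
    intro v
    rw [MonoidHom.mem_ker, ← Subtype.coe_inj, hf]
    rw [← Subtype.coe_inj, ← Subtype.coe_inj]
    have := hfix v (hVU v.2)
    simp only [Subgroup.coe_one]
    rw [← this]
    exact mul_inv_eq_one
  have hcardker : Nat.card f.ker = 2 := by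
    rw [← SetLike.coe_sort_coe]
    have : (f.ker : Set V) = {1, ⟨y, hyV⟩} := by
      ext v
      rw [SetLike.mem_coe, hker]; simp
    rw [this, Nat.card_coe_set_eq]
    apply Set.ncard_pair
    intro h
    exact hy (congrArg Subtype.val h).symm
  have hrange : ∀ v : V, v ∈ f.range → (v = 1 ∨ v = ⟨y, hyV⟩) := by
    rintro _ ⟨v, rfl⟩
    have := hcfix v (hVU v.2) (f v).2
    rcases this with h | h
    · left; exact Subtype.ext h
    · right; exact Subtype.ext h
  have hrangele : f.range ≤ f.ker := by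
    intro v hv
    rw [hker]; exact hrange v hv
  have hcardrange : Nat.card f.range ∣ 2 := by
    rw [← hcardker]; exact Subgroup.card_dvd_of_le hrangele
  have hcard : Nat.card V = 2 * Nat.card f.range := by
    rw [Subgroup.card_eq_card_quotient_mul_card_subgroup f.ker, hcardker, mul_comm]
    congr 1
    exact Nat.card_congr (QuotientGroup.quotientKerEquivRange f).toEquiv
  have hr2 : Nat.card f.range = 2 := by
    rcases (Nat.dvd_prime Nat.prime_two).1 hcardrange with h | h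
    · exfalso
      apply hVc
      haveI : Fact (Nat.Prime 2) := ⟨Nat.prime_two⟩
      apply isCyclic_of_prime_card (p := 2)
      rw [hcard, h]
    · exact h
  have hV4 : Nat.card V = 4 := by rw [hcard, hr2]
  obtain ⟨v0, hv0⟩ : ∃ v0 : V, (f v0 : H) = y := by
    have : (⟨y, hyV⟩ : V) ∈ f.range := by
      have heq : f.range = f.ker := Subgroup.eq_of_le_of_card_ge hrangele (by rw [hr2, hcardker])
      rw [heq, hker]; right; rfl
    obtain ⟨v0, hv0⟩ := this
    exact ⟨v0, congrArg Subtype.val hv0⟩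
  rw [hf] at hv0
  -- fixed point freeness
  have hfpf : ∀ u ∈ U, w * u * w⁻¹ * u⁻¹ ∈ V → u ∈ V := by
    intro u hu hc
    rcases hcfix u hu hc with h | h
    · have : w * u * w⁻¹ = u := mul_inv_eq_one.1 h
      rcases (hfix u hu).1 this with h | h
      · rw [h]; exact V.one_mem
      · rw [h]; exact hyV
    · have h1 : w * u * w⁻¹ = y * u := by rw [← h]; group
      have h2 : w * (v0 : H) * w⁻¹ = y * v0 := by rw [← hv0]; group
      have h3 : w * ((v0 : H)⁻¹ * u) * w⁻¹ = (v0 : H)⁻¹ * u := by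
        have e : w * ((v0 : H)⁻¹ * u) * w⁻¹ = (w * (v0 : H) * w⁻¹)⁻¹ * (w * u * w⁻¹) := by group
        rw [e, h1, h2]; group
      have h4 : (v0 : H)⁻¹ * u ∈ V := by
        rcases (hfix _ (U.mul_mem (U.inv_mem (hVU v0.2)) hu)).1 h3 with h | h
        · rw [h]; exact V.one_mem
        · rw [h]; exact hyV
      have := V.mul_mem v0.2 h4
      simpa using this
  have hconj : ∀ u ∈ U, w * u * w⁻¹ ∈ U := fun u hu => (Subgroup.mem_normalizer_iff.1 hwU u).1 hu
  let c : U →* U :=
    { toFun := fun u => ⟨w * u * w⁻¹, hconj u u.2⟩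
      map_one' := by ext; simp
      map_mul' := by intro a b; ext; simp [mul_assoc] }
  have hc : ∀ u : U, ((c u : U) : H) = w * u * w⁻¹ := fun u => rfl
  have hcle : V.subgroupOf U ≤ (V.subgroupOf U).comap c := by
    intro u hu
    rw [Subgroup.mem_comap, Subgroup.mem_subgroupOf, hc]
    exact hVw _ (by rwa [Subgroup.mem_subgroupOf] at hu)
  let σ : U ⧸ V.subgroupOf U →* U ⧸ V.subgroupOf U := QuotientGroup.map _ _ c hcle
  have hσ : MonoidHom.FixedPointFree σ := by
    intro q hq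
    obtain ⟨u, rfl⟩ := QuotientGroup.mk_surjective q
    rw [QuotientGroup.map_mk] at hq
    rw [QuotientGroup.eq_one_iff, Subgroup.mem_subgroupOf]
    apply hfpf u u.2
    have h1 : (((c u * u⁻¹ : U)) : U ⧸ V.subgroupOf U) = 1 := by
      rw [QuotientGroup.mk_mul, QuotientGroup.mk_inv, hq, mul_inv_cancel]
    rw [QuotientGroup.eq_one_iff, Subgroup.mem_subgroupOf] at h1
    exact h1
  have hinv : Function.Involutive σ := by
    intro q
    obtain ⟨u, rfl⟩ := QuotientGroup.mk_surjective q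
    rw [QuotientGroup.map_mk, QuotientGroup.map_mk]
    congr 1
    ext
    rw [hc, hc]
    calc w * (w * (u : H) * w⁻¹) * w⁻¹ = (w * w) * u * (w * w)⁻¹ := by group
      _ = u := by rw [hww]; simp
  refine ⟨?_, hV4, ?_⟩
  · have := MonoidHom.FixedPointFree.odd_card_of_involutive hσ hinv
    have h2 : V.relIndex U = Nat.card (U ⧸ V.subgroupOf U) := rfl
    rw [h2]
    intro h
    exact (Nat.not_even_iff_odd.2 this) (even_iff_two_dvd.2 h)
  · rw [Subgroup.commutator_le]
    intro a ha b hb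
    have := MonoidHom.FixedPointFree.commute_all_of_involutive hσ hinv
      ((⟨a, ha⟩ : U) : U ⧸ V.subgroupOf U) ((⟨b, hb⟩ : U) : U ⧸ V.subgroupOf U)
    have h2 : (((⟨a, ha⟩ : U) * (⟨b, hb⟩ : U) * (⟨a, ha⟩ : U)⁻¹ * (⟨b, hb⟩ : U)⁻¹ : U) : U ⧸ V.subgroupOf U) = 1 := by
      simp only [QuotientGroup.mk_mul, QuotientGroup.mk_inv]
      rw [this.eq]; group
    rw [QuotientGroup.eq_one_iff, Subgroup.mem_subgroupOf] at h2
    exact h2

end Cfsg.Agent.S3825
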