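import Cfsg.Statements.S3835
import Cfsg.Agent.H64.Basic
import Cfsg.Agent.ClassBase.SL

set_option autoImplicit false
open Cfsg

namespace Cfsg.Agent.S3835

open Cfsg.Agent.H64

open Matrix

/-! ### `p`-subgroups of symmetric groups of degree less than `p ^ 2` are abelian -/

theorem comm_of_lt_sq {p n : ℕ} [hp : Fact p.Prime] (hn : n < p ^ 2) {P : Subgroup (Equiv.Perm (Fin n))}
    (hP : IsPGroup p P) (g h : P) : g * h = h * g := by
  have key : ∀ x : Fin n, g * h * g⁻¹ * h⁻¹ ∈ MulAction.stabilizer P x := by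
    intro x
    set S := MulAction.stabilizer P x with hS
    have h1 : S.index ≤ n := by
      rw [hS, MulAction.index_stabilizer]
      refine (Set.ncard_le_card _).trans ?_
      rw [Nat.card_eq_fintype_card, Fintype.card_fin]
    obtain ⟨m, hm⟩ := IsPGroup.iff_card.1 hP
    obtain ⟨j, hjm, hj⟩ := (Nat.dvd_prime_pow hp.out).1 (hm ▸ S.index_dvd_card)
    have hj1 : j < 2 := by
      rw [hj] at h1
      exact (Nat.pow_lt_pow_iff_right hp.out.one_lt).1 (h1.trans_lt hn)
    rcases Nat.lt_or_ge j 1 with h0 | h0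
    · have : j = 0 := by omega
      rw [this, pow_zero, Subgroup.index_eq_one] at hj
      rw [hj]; trivial
    · have : j = 1 := by omega
      rw [this, pow_one] at hj
      have hm0 : m ≠ 0 := by omega
      have hSn : S.Normal := by
        apply Subgroup.normal_of_index_eq_minFac_card
        rw [hj, hm, hp.out.pow_minFac hm0]
      have hcard : Nat.card (P ⧸ S) = p := hj
      have hcyc : IsCyclic (P ⧸ S) := isCyclic_of_prime_card hcard
      rw [← QuotientGroup.eq_one_iff]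
      simp only [QuotientGroup.mk_mul, QuotientGroup.mk_inv]
      have hc := (IsCyclic.commGroup (α := P ⧸ S)).mul_comm (g : P ⧸ S) (h : P ⧸ S)
      have hc' : (g : P ⧸ S) * (h : P ⧸ S) = (h : P ⧸ S) * (g : P ⧸ S) := hc
      rw [hc']; group
  have h2 : g * h * g⁻¹ * h⁻¹ = 1 := by
    apply Subtype.ext
    apply Equiv.ext
    intro x
    exact key x
  rw [mul_inv_eq_one, mul_inv_eq_iff_eq_mul] at h2
  exact h2

/-- If the `p`-subgroups of `K` are commutative so are those of a homomorphic image. -/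
theorem comm_of_surjective {p : ℕ} [Fact p.Prime] {K Q : Type*} [Group K] [Finite K] [Group Q] (f : K →* Q)
    (hf : Function.Surjective f) (hK : ∀ P : Subgroup K, IsPGroup p P → ∀ g h : P, g * h = h * g)
    {U : Subgroup Q} (hU : IsPGroup p U) (g h : Q) (hg : g ∈ U) (hh : h ∈ U) : g * h = h * g := by
  obtain ⟨S, hS⟩ := hU.exists_le_sylow
  obtain ⟨P, rfl⟩ := Sylow.mapSurjective_surjective hf p S
  obtain ⟨a, ha, rfl⟩ := hS hg
  obtain ⟨b, hb, rfl⟩ := hS hh
  have := congrArg Subtype.val (hK P P.2 ⟨a, ha⟩ ⟨b, hb⟩)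
  have this' : a * b = b * a := this
  rw [← map_mul, this', map_mul]

/-! ### the Heisenberg group inside `qd p` -/

variable {p : ℕ}

/-- unitriangular matrices -/
def T3 (a b c : ZMod p) : SpecialLinearGroup (Fin 3) (ZMod p) :=
  ⟨!![1, a, c; 0, 1, b; 0, 0, 1], by simp [Matrix.det_fin_three]⟩

theorem T3_mul (a b c a' b' c' : ZMod p) : T3 a b c * T3 a' b' c' = T3 (a + a') (b + b') (c + c' + a * b') := by
  apply Subtype.ext
  rw [Matrix.SpecialLinearGroup.coe_mul]
  simp only [T3]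
  ext i j
  fin_cases i <;> fin_cases j <;> simp [Matrix.mul_apply, Fin.sum_univ_succ] <;> ring

theorem T3_zero : T3 (0 : ZMod p) 0 0 = 1 := by
  apply Subtype.ext
  simp only [T3, Matrix.SpecialLinearGroup.coe_one]
  ext i j
  fin_cases i <;> fin_cases j <;> simp

theorem T3_pow (a b c : ZMod p) (k : ℕ) :
    T3 a b c ^ k = T3 ((k : ZMod p) * a) ((k : ZMod p) * b) ((k : ZMod p) * c + ((k.choose 2 : ℕ) : ZMod p) * (a * b)) := by
  induction k with
  | zero => simp [T3_zero]
  | succ k ih =>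
    rw [pow_succ, ih, T3_mul]
    have h1 : (((k + 1).choose 2 : ℕ) : ZMod p) = (k : ZMod p) + ((k.choose 2 : ℕ) : ZMod p) := by
      rw [Nat.choose_succ_succ' k 1, Nat.choose_one_right]; push_cast; rfl
    rw [h1]
    congr 1 <;> push_cast <;> ring

theorem T3_pow_p [hp : Fact p.Prime] (hp2 : p ≠ 2) (a b c : ZMod p) : T3 a b c ^ p = 1 := by
  rw [T3_pow]
  have h1 : ((p : ℕ) : ZMod p) = 0 := ZMod.natCast_self p
  have h2 : ((p.choose 2 : ℕ) : ZMod p) = 0 := by
    rw [ZMod.natCast_eq_zero_iff]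
    apply hp.out.dvd_choose_self (by norm_num)
    have := hp.out.two_le
    omega
  rw [h1, h2]
  simp [T3_zero]

/-- the Heisenberg group -/
def heis (p : ℕ) : Subgroup (SpecialLinearGroup (Fin 3) (ZMod p)) where
  carrier := {M | ∃ a b c, M = T3 a b c}
  one_mem' := ⟨0, 0, 0, T3_zero.symm⟩
  mul_mem' := by
    rintro _ _ ⟨a, b, c, rfl⟩ ⟨a', b', c', rfl⟩
    exact ⟨_, _, _, T3_mul _ _ _ _ _ _⟩
  inv_mem' := by
    rintro _ ⟨a, b, c, rfl⟩
    refine ⟨-a, -b, a * b - c, ?_⟩
    rw [inv_eq_iff_mul_eq_one, T3_mul, ← T3_zero]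
    congr 1 <;> ring

theorem heis_isPGroup [hp : Fact p.Prime] (hp2 : p ≠ 2) : IsPGroup p (heis p) := by
  rintro ⟨M, a, b, c, rfl⟩
  refine ⟨1, ?_⟩
  apply Subtype.ext
  rw [pow_one]
  exact T3_pow_p hp2 a b c

theorem heis_le_qd : heis p ≤ qd p := by
  rintro _ ⟨a, b, c, rfl⟩
  apply Subgroup.subset_closure
  refine ⟨?_, ?_, ?_⟩ <;> simp [T3]

theorem not_involves [hp : Fact p.Prime] (hp2 : p ≠ 2) {n : ℕ} (hn : n < p ^ 2) :
    ¬ Cfsg.Involves ↥(Cfsg.qd p) ↥(alternatingGroup (Fin n)) := by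
  rintro ⟨K, R, hR, ⟨e⟩⟩
  have hK : ∀ P : Subgroup K, IsPGroup p P → ∀ g h : P, g * h = h * g := by
    intro P hP g h
    have hP' : IsPGroup p ((P.map K.subtype).map (alternatingGroup (Fin n)).subtype) := (hP.map _).map _
    have := congrArg Subtype.val (comm_of_lt_sq hn hP' ⟨((g : K) : alternatingGroup (Fin n)), ⟨_, ⟨_, g.2, rfl⟩, rfl⟩⟩
      ⟨((h : K) : alternatingGroup (Fin n)), ⟨_, ⟨_, h.2, rfl⟩, rfl⟩⟩)
    apply Subtype.ext; apply Subtype.ext; apply Subtype.ext
    exact this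
  have hU : IsPGroup p ((heis p).subgroupOf (qd p)) :=
    IsPGroup.comap_of_injective (heis_isPGroup hp2) (qd p).subtype (qd p).subtype_injective
  have hf : Function.Surjective ((e : (K ⧸ R.subgroupOf K) →* qd p).comp (QuotientGroup.mk' (R.subgroupOf K))) :=
    e.surjective.comp (QuotientGroup.mk'_surjective _)
  have hu : T3 (1 : ZMod p) 0 0 ∈ heis p := ⟨1, 0, 0, rfl⟩
  have hv : T3 (0 : ZMod p) 1 0 ∈ heis p := ⟨0, 1, 0, rfl⟩
  have h1 := comm_of_surjective _ hf hK hU ⟨_, heis_le_qd hu⟩ ⟨_, heis_le_qd hv⟩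
    (by rw [Subgroup.mem_subgroupOf]; exact hu) (by rw [Subgroup.mem_subgroupOf]; exact hv)
  have h2 : T3 (1 : ZMod p) 0 0 * T3 0 1 0 = T3 0 1 0 * T3 1 0 0 := congrArg Subtype.val h1
  rw [T3_mul, T3_mul] at h2
  have h3 := congrArg (fun M : SpecialLinearGroup (Fin 3) (ZMod p) => (M : Matrix (Fin 3) (Fin 3) (ZMod p)) 0 2) h2
  simp [T3] at h3

/-! ### the last row -/

theorem row_of_mem {M : SpecialLinearGroup (Fin 3) (ZMod p)} (hM : M ∈ qd p) :
    (M : Matrix (Fin 3) (Fin 3) (ZMod p)) 2 0 = 0 ∧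
    (M : Matrix (Fin 3) (Fin 3) (ZMod p)) 2 1 = 0 ∧ (M : Matrix (Fin 3) (Fin 3) (ZMod p)) 2 2 = 1 := by
  have key : vecMul ![(0 : ZMod p), 0, 1] (M : Matrix (Fin 3) (Fin 3) (ZMod p)) = ![0, 0, 1] := by
    induction hM using Subgroup.closure_induction with
    | mem M hM =>
      obtain ⟨h1, h2, h3⟩ := hM
      ext j
      fin_cases j <;> simp [Matrix.vecMul, dotProduct, Fin.sum_univ_succ, h1, h2, h3]
    | one => simp
    | mul A B _ _ hA hB =>
      rw [Matrix.SpecialLinearGroup.coe_mul, ← Matrix.vecMul_vecMul, hA, hB]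
    | inv A _ hA =>
      have h1 : (A : Matrix (Fin 3) (Fin 3) (ZMod p)) * ((A⁻¹ : SpecialLinearGroup (Fin 3) (ZMod p)) : Matrix (Fin 3) (Fin 3) (ZMod p)) = 1 := by
        rw [← Matrix.SpecialLinearGroup.coe_mul, mul_inv_cancel, Matrix.SpecialLinearGroup.coe_one]
      calc vecMul ![(0 : ZMod p), 0, 1] ((A⁻¹ : SpecialLinearGroup (Fin 3) (ZMod p)) : Matrix (Fin 3) (Fin 3) (ZMod p))
          = vecMul (vecMul ![(0 : ZMod p), 0, 1] (A : Matrix (Fin 3) (Fin 3) (ZMod p)))
            ((A⁻¹ : SpecialLinearGroup (Fin 3) (ZMod p)) : Matrix (Fin 3) (Fin 3) (ZMod p)) := by rw [hA]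
        _ = ![0, 0, 1] := by rw [Matrix.vecMul_vecMul, h1, Matrix.vecMul_one]
  have h0 := congrFun key 0
  have h1 := congrFun key 1
  have h2 := congrFun key 2
  simp [Matrix.vecMul, dotProduct, Fin.sum_univ_succ] at h0 h1 h2
  exact ⟨h0, h1, h2⟩

/-! ### homomorphisms to `±1` are trivial -/

theorem units_eq_one {X : Type*} [Group X] (hp : p.Prime) (hp2 : p ≠ 2) (χ : X →* ℤˣ) {x : X} (hx : x ^ p = 1) : χ x = 1 := by
  have h1 : (χ x) ^ p = 1 := by rw [← map_pow, hx, map_one]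
  rcases Int.units_eq_one_or (χ x) with h | h
  · exact h
  · rw [h, (hp.odd_of_ne_two hp2).neg_one_pow] at h1
    exact absurd h1 (by decide)

/-- the block embedding of `SL₂` -/
def emb (A : SpecialLinearGroup (Fin 2) (ZMod p)) : SpecialLinearGroup (Fin 3) (ZMod p) :=
  ⟨!![(A : Matrix (Fin 2) (Fin 2) (ZMod p)) 0 0, (A : Matrix (Fin 2) (Fin 2) (ZMod p)) 0 1, 0;
      (A : Matrix (Fin 2) (Fin 2) (ZMod p)) 1 0, (A : Matrix (Fin 2) (Fin 2) (ZMod p)) 1 1, 0; 0, 0, 1], by
    have := A.2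
    rw [Matrix.det_fin_two] at this
    simp [Matrix.det_fin_three]
    exact this⟩

theorem emb_mul (A B : SpecialLinearGroup (Fin 2) (ZMod p)) : emb (A * B) = emb A * emb B := by
  apply Subtype.ext
  rw [Matrix.SpecialLinearGroup.coe_mul]
  simp only [emb]
  ext i j
  fin_cases i <;> fin_cases j <;> simp [Matrix.mul_apply, Fin.sum_univ_succ]

theorem emb_mem (A : SpecialLinearGroup (Fin 2) (ZMod p)) : emb A ∈ qd p := by
  apply Subgroup.subset_closure
  refine ⟨?_, ?_, ?_⟩ <;> simp [emb]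

theorem emb_one : emb (1 : SpecialLinearGroup (Fin 2) (ZMod p)) = 1 := by
  apply Subtype.ext
  rw [Matrix.SpecialLinearGroup.coe_one]
  simp only [emb]
  ext i j
  fin_cases i <;> fin_cases j <;> simp

theorem emb_pow (A : SpecialLinearGroup (Fin 2) (ZMod p)) (k : ℕ) : emb (A ^ k) = emb A ^ k := by
  induction k with
  | zero => rw [pow_zero, pow_zero, emb_one]
  | succ k ih => rw [pow_succ, pow_succ, emb_mul, ih]

theorem transvection_pow {i j : Fin 2} (hij : i ≠ j) (c : ZMod p) (k : ℕ) :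
    (SpecialLinearGroup.transvection hij c) ^ k = SpecialLinearGroup.transvection hij ((k : ZMod p) * c) := by
  induction k with
  | zero =>
    apply Subtype.ext
    rw [pow_zero, Matrix.SpecialLinearGroup.coe_one, SpecialLinearGroup.transvection_coe]
    simp
  | succ k ih =>
    rw [pow_succ, ih]
    apply Subtype.ext
    rw [Matrix.SpecialLinearGroup.coe_mul]
    simp only [SpecialLinearGroup.transvection_coe]
    have h := Matrix.transvection_mul_transvection_same i j hij ((k : ZMod p) * c) c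
    simp only [Matrix.transvection] at h ⊢
    rw [h]
    congr 2
    push_cast
    ring

theorem hom_trivial [hp : Fact p.Prime] (hp2 : p ≠ 2) (χ : qd p →* ℤˣ) (M : qd p) : χ M = 1 := by
  have h1 : ∀ A : SpecialLinearGroup (Fin 2) (ZMod p), χ ⟨emb A, emb_mem A⟩ = 1 := by
    intro A
    refine Cfsg.Agent.ClassBase.transvection_induction (fun A => χ ⟨emb A, emb_mem A⟩ = 1) ?_ ?_ A
    · intro i j hij a
      apply units_eq_one hp.out hp2
      apply Subtype.ext
      change emb _ ^ p = 1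
      rw [← emb_pow, transvection_pow, ZMod.natCast_self, zero_mul]
      have : (SpecialLinearGroup.transvection hij (0 : ZMod p)) = 1 := by
        apply Subtype.ext
        rw [Matrix.SpecialLinearGroup.coe_one, SpecialLinearGroup.transvection_coe]
        simp
      rw [this, emb_one]
    · intro A B hA hB
      have : (⟨emb (A * B), emb_mem (A * B)⟩ : qd p) = ⟨emb A, emb_mem A⟩ * ⟨emb B, emb_mem B⟩ :=
        Subtype.ext (emb_mul A B)
      rw [this, map_mul, hA, hB, one_mul]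
  obtain ⟨r0, r1, r2⟩ := row_of_mem M.2
  have hdet := (M : SpecialLinearGroup (Fin 3) (ZMod p)).2
  set m : Matrix (Fin 3) (Fin 3) (ZMod p) := ((M : SpecialLinearGroup (Fin 3) (ZMod p)) : Matrix (Fin 3) (Fin 3) (ZMod p)) with hm
  have hdet' : m 0 0 * m 1 1 - m 0 1 * m 1 0 = 1 := by
    have h := hdet
    rw [Matrix.det_fin_three] at h
    rw [r0, r1, r2] at h
    linear_combination h
  let A : SpecialLinearGroup (Fin 2) (ZMod p) := ⟨!![m 0 0, m 0 1; m 1 0, m 1 1], by
    rw [Matrix.det_fin_two]; simpa using hdet'⟩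
  have hT : T3 0 (m 1 2) (m 0 2) ∈ qd p := heis_le_qd ⟨_, _, _, rfl⟩
  have hM : M = ⟨T3 0 (m 1 2) (m 0 2), hT⟩ * ⟨emb A, emb_mem A⟩ := by
    apply Subtype.ext
    apply Subtype.ext
    change m = (T3 0 (m 1 2) (m 0 2) * emb A : SpecialLinearGroup (Fin 3) (ZMod p)).1
    have : (T3 0 (m 1 2) (m 0 2) * emb A : SpecialLinearGroup (Fin 3) (ZMod p)).1 = (T3 0 (m 1 2) (m 0 2)).1 * (emb A).1 := rfl
    rw [this]
    ext i j
    fin_cases i <;> fin_cases j <;>
      simp [T3, emb, A, Matrix.mul_apply, Fin.sum_univ_succ, r0, r1, r2]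
  rw [hM, map_mul, h1, mul_one]
  apply units_eq_one hp.out hp2
  apply Subtype.ext
  exact T3_pow_p hp2 _ _ _

/-! ### the action on the affine plane -/

/-- the affine plane -/
abbrev Plane (p : ℕ) := {v : Fin 3 → ZMod p // v 2 = 1}

theorem mulVec_mem {M : SpecialLinearGroup (Fin 3) (ZMod p)} (hM : M ∈ qd p) (v : Plane p) :
    (M.1 *ᵥ v.1) 2 = 1 := by
  obtain ⟨r0, r1, r2⟩ := row_of_mem hM
  have h2 := v.2
  simp [Matrix.mulVec, dotProduct, Fin.sum_univ_succ] at *
  rw [r0, r1, r2, h2]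
  ring

/-- the action -/
def act (p : ℕ) : qd p →* Equiv.Perm (Plane p) where
  toFun M :=
    { toFun := fun v => ⟨M.1.1 *ᵥ v.1, mulVec_mem M.2 v⟩
      invFun := fun v => ⟨M⁻¹.1.1 *ᵥ v.1, mulVec_mem M⁻¹.2 v⟩
      left_inv := by
        intro v
        apply Subtype.ext
        change M⁻¹.1.1 *ᵥ (M.1.1 *ᵥ v.1) = v.1
        rw [Matrix.mulVec_mulVec]
        have : M⁻¹.1.1 * M.1.1 = (M⁻¹ * M).1.1 := rfl
        rw [this, inv_mul_cancel]
        change (1 : Matrix (Fin 3) (Fin 3) (ZMod p)) *ᵥ v.1 = v.1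
        rw [Matrix.one_mulVec]
      right_inv := by
        intro v
        apply Subtype.ext
        change M.1.1 *ᵥ (M⁻¹.1.1 *ᵥ v.1) = v.1
        rw [Matrix.mulVec_mulVec]
        have : M.1.1 * M⁻¹.1.1 = (M * M⁻¹).1.1 := rfl
        rw [this, mul_inv_cancel]
        change (1 : Matrix (Fin 3) (Fin 3) (ZMod p)) *ᵥ v.1 = v.1
        rw [Matrix.one_mulVec] }
  map_one' := by
    ext v : 2
    change (1 : Matrix (Fin 3) (Fin 3) (ZMod p)) *ᵥ v.1 = v.1
    rw [Matrix.one_mulVec]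
  map_mul' := by
    intro M N
    ext v : 2
    change (M.1.1 * N.1.1) *ᵥ v.1 = M.1.1 *ᵥ (N.1.1 *ᵥ v.1)
    rw [Matrix.mulVec_mulVec]

theorem act_injective [Fact p.Prime] : Function.Injective (act p) := by
  rw [injective_iff_map_eq_one]
  intro M hM
  have key : ∀ v : Plane p, M.1.1 *ᵥ v.1 = v.1 := fun v => congrArg Subtype.val (DFunLike.congr_fun hM v)
  have h0 := key ⟨![0, 0, 1], rfl⟩
  have h1 := key ⟨![1, 0, 1], rfl⟩
  have h2 := key ⟨![0, 1, 1], rfl⟩
  have e0 : ∀ i, M.1.1 i 2 = (![0, 0, 1] : Fin 3 → ZMod p) i := by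
    intro i
    have := congrFun h0 i
    simpa [Matrix.mulVec, dotProduct, Fin.sum_univ_succ] using this
  have e1 : ∀ i, M.1.1 i 0 + M.1.1 i 2 = (![1, 0, 1] : Fin 3 → ZMod p) i := by
    intro i
    have := congrFun h1 i
    simpa [Matrix.mulVec, dotProduct, Fin.sum_univ_succ] using this
  have e2 : ∀ i, M.1.1 i 1 + M.1.1 i 2 = (![0, 1, 1] : Fin 3 → ZMod p) i := by
    intro i
    have := congrFun h2 i
    simpa [Matrix.mulVec, dotProduct, Fin.sum_univ_succ] using this
  apply Subtype.ext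
  apply Subtype.ext
  change M.1.1 = (1 : Matrix (Fin 3) (Fin 3) (ZMod p))
  ext i j
  have a0 := e0 i
  have a1 := e1 i
  have a2 := e2 i
  rw [a0] at a1 a2
  fin_cases i <;> fin_cases j <;> simp at a0 a1 a2 ⊢ <;> assumption

theorem card_plane [NeZero p] : Fintype.card (Plane p) = p ^ 2 := by
  have e : Plane p ≃ (ZMod p × ZMod p) :=
    { toFun := fun v => (v.1 0, v.1 1)
      invFun := fun w => ⟨![w.1, w.2, 1], rfl⟩
      left_inv := by
        intro v
        apply Subtype.ext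
        have := v.2
        ext i
        fin_cases i <;> simp [this]
      right_inv := by intro w; rfl }
  rw [Fintype.card_congr e, Fintype.card_prod, ZMod.card, sq]

/-- Let p be an odd prime and n a natural number. The alternating group of degree n has a subgroup isomorphic to Qd(p) (the natural semidirect product of an elementary abelian group of order p² by SL₂(p)) if and only if n ≥ p²; and if n < p² then Qd(p) is not even involved in it. -/
theorem result {p : ℕ} [Fact p.Prime] (hp : p ≠ 2) (n : ℕ) : ((∃ H : Subgroup (alternatingGroup (Fin n)), Nonempty (↥H ≃* ↥(Cfsg.qd p))) ↔ p ^ 2 ≤ n) ∧ (n < p ^ 2 → ¬ Cfsg.Involves ↥(Cfsg.qd p) ↥(alternatingGroup (Fin n))) := by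
  refine ⟨⟨?_, ?_⟩, fun hn => not_involves hp hn⟩
  · rintro ⟨H, ⟨e⟩⟩
    by_contra hn
    rw [not_le] at hn
    apply not_involves hp hn
    refine ⟨H, ⊥, ?_, ⟨?_⟩⟩
    · rw [Subgroup.bot_subgroupOf]; infer_instance
    · exact (QuotientGroup.quotientMulEquivOfEq (Subgroup.bot_subgroupOf H)).trans (QuotientGroup.quotientBot.trans e)
  · intro hn
    haveI : NeZero p := ⟨(Fact.out : p.Prime).ne_zero⟩
    obtain ⟨f⟩ : Nonempty (Plane p ↪ Fin n) := by
      apply Function.Embedding.nonempty_of_card_le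
      rw [card_plane, Fintype.card_fin]; exact hn
    let ρ : qd p →* Equiv.Perm (Fin n) := (Equiv.Perm.viaEmbeddingHom f).comp (act p)
    have hρ : Function.Injective ρ := (Equiv.Perm.viaEmbeddingHom_injective f).comp act_injective
    have hρ' : ∀ M, ρ M ∈ alternatingGroup (Fin n) := fun M => by
      rw [Equiv.Perm.mem_alternatingGroup]
      exact hom_trivial hp (Equiv.Perm.sign.comp ρ) M
    let ρ' : qd p →* alternatingGroup (Fin n) := ρ.codRestrict _ hρ'
    have hρ'' : Function.Injective ρ' := fun a b hab => hρ (congrArg Subtype.val hab)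
    exact ⟨ρ'.range, ⟨(MonoidHom.ofInjective hρ'').symm⟩⟩

end Cfsg.Agent.S3835
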