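import Cfsg.Statements.S3836
import Cfsg.Agent.H64.Basic
import Cfsg.Agent.Solv.Core

set_option autoImplicit false
open Cfsg

namespace Cfsg.Agent.S3836

open Cfsg.Agent.H64

theorem mem_normalizer_map {G : Type*} [Group G] (H : Subgroup G) (P : Subgroup H) (g : H) :
    g ∈ Subgroup.normalizer (P : Set H) ↔ (g : G) ∈ Subgroup.normalizer ((P.map H.subtype : Subgroup G) : Set G) := by
  rw [← map_conj_eq_self_iff, ← map_conj_eq_self_iff]
  have : (P.map H.subtype).map (MulAut.conj (g : G)).toMonoidHom
      = (P.map (MulAut.conj g).toMonoidHom).map H.subtype := by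
    rw [Subgroup.map_map, Subgroup.map_map]
    congr 1
  rw [this]
  exact ((Subgroup.map_injective H.subtype_injective).eq_iff).symm

theorem mem_centralizer_map {G : Type*} [Group G] (H : Subgroup G) (P : Subgroup H) (g : H) :
    g ∈ Subgroup.centralizer (P : Set H) ↔ (g : G) ∈ Subgroup.centralizer ((P.map H.subtype : Subgroup G) : Set G) := by
  rw [Subgroup.mem_centralizer_iff, Subgroup.mem_centralizer_iff]
  constructor
  · rintro h _ ⟨x, hx, rfl⟩
    exact congrArg Subtype.val (h x hx)
  · intro h x hx
    exact Subtype.ext (h x ⟨x, hx, rfl⟩)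

/-- Let G be a finite group that is p-stable in the normalizer form: for every p-subgroup Q and every x ∈ N_G(Q) with [Q, x, x] = 1, the image of x in N_G(Q)/C_G(Q) lies in O_p(N_G(Q)/C_G(Q)). Then every subgroup of G is p-stable in the same sense. -/
theorem result {G : Type*} [Group G] [Finite G] {p : ℕ} [Fact p.Prime] (hst : Cfsg.IsNormalizerPStable p G) (H : Subgroup G) : Cfsg.IsNormalizerPStable p ↥H := by
  intro P hP g hg hcomm
  set P' : Subgroup G := P.map H.subtype with hP'
  have hg' : (g : G) ∈ Subgroup.normalizer (P' : Set G) := (mem_normalizer_map H P g).1 hg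
  have h1 := hst P' (hP.map _) (g : G) hg' (by
    have := congrArg (Subgroup.map H.subtype) hcomm
    rw [Subgroup.map_commutator, Subgroup.map_commutator, MonoidHom.map_zpowers, Subgroup.map_bot] at this
    exact this)
  let α : Subgroup.normalizer (P : Set H) →* Subgroup.normalizer (P' : Set G) :=
    (H.subtype.comp (Subgroup.normalizer (P : Set H)).subtype).codRestrict _
      (fun x => (mem_normalizer_map H P x).1 x.2)
  have hα : ∀ x, ((α x : Subgroup.normalizer (P' : Set G)) : G) = ((x : H) : G) := fun x => rfl
  have hle : (Subgroup.centralizer (P : Set H)).subgroupOf (Subgroup.normalizer (P : Set H)) ≤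
      ((Subgroup.centralizer (P' : Set G)).subgroupOf (Subgroup.normalizer (P' : Set G))).comap α := by
    intro x hx
    rw [Subgroup.mem_comap, Subgroup.mem_subgroupOf, hα, ← mem_centralizer_map]
    rw [Subgroup.mem_subgroupOf] at hx
    exact hx
  let ψ := QuotientGroup.map _ _ α hle
  have hψ : Function.Injective ψ := by
    rw [injective_iff_map_eq_one]
    intro y hy
    obtain ⟨x, rfl⟩ := QuotientGroup.mk_surjective y
    rw [QuotientGroup.map_mk, QuotientGroup.eq_one_iff, Subgroup.mem_subgroupOf, hα, ← mem_centralizer_map] at hy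
    rw [QuotientGroup.eq_one_iff, Subgroup.mem_subgroupOf]
    exact hy
  have h2 : (pCore p (↥(Subgroup.normalizer (P' : Set G)) ⧸
      (Subgroup.centralizer (P' : Set G)).subgroupOf (Subgroup.normalizer (P' : Set G)))).comap ψ ≤
      pCore p _ := by
    apply Solv.le_pCore
    · infer_instance
    · exact IsPGroup.comap_of_injective (Solv.pCore_isPGroup p) ψ hψ
  apply h2
  rw [Subgroup.mem_comap]
  exact h1

end Cfsg.Agent.S3836
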