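import Cfsg.Statements.S3838
import Mathlib
import Cfsg.Agent.H72.Basic
import Cfsg.Agent.Transfer.NPC
import Cfsg.Agent.S0081

set_option autoImplicit false
open Cfsg

namespace Cfsg.Agent.S3838
open Subgroup Cfsg.Agent.H72
open scoped commutatorElement

theorem aux {G : Type*} [Group G] [Finite G] {p : ℕ} [hp : Fact p.Prime] (P : Sylow p G) (Q : Subgroup G)
    [hQn : Q.Normal]
    (h1 : ∀ x ∈ (P : Subgroup G), ∀ y ∈ (P : Subgroup G), x * y * x⁻¹ * y⁻¹ ∈ Q)
    (h2 : Q ≤ (frattini ↥(P : Subgroup G)).map (P : Subgroup G).subtype)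
    (hN : Cfsg.HasNormalPComplement p ↥(normalizer ((P : Subgroup G) : Set G))) :
    Cfsg.HasNormalPComplement p G := by
  have hQP : Q ≤ (P : Subgroup G) := h2.trans (Subgroup.map_subtype_le _)
  set π := QuotientGroup.mk' Q with hπ
  have hsurj : Function.Surjective π := QuotientGroup.mk'_surjective Q
  set Pb : Sylow p (G ⧸ Q) := P.mapSurjective hsurj with hPb
  have hPbc : (Pb : Subgroup (G ⧸ Q)) = (P : Subgroup G).map π := Sylow.coe_mapSurjective hsurj P
  have hmemP : ∀ u : G, π u ∈ (Pb : Subgroup (G ⧸ Q)) ↔ u ∈ (P : Subgroup G) := by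
    intro u
    rw [hPbc]
    constructor
    · rintro ⟨v, hv, hvu⟩
      have h3 : v⁻¹ * u ∈ Q := QuotientGroup.eq.1 hvu
      have h4 := (P : Subgroup G).mul_mem hv (hQP h3)
      rwa [mul_inv_cancel_left] at h4
    · intro hu; exact ⟨u, hu, rfl⟩
  have hburn : normalizer ((Pb : Subgroup (G ⧸ Q)) : Set (G ⧸ Q)) ≤ centralizer ((Pb : Subgroup (G ⧸ Q)) : Set (G ⧸ Q)) := by
    intro gb hgb
    obtain ⟨g, rfl⟩ := hsurj gb
    have hg : g ∈ normalizer ((P : Subgroup G) : Set G) := by
      rw [Subgroup.mem_normalizer_iff] at hgb ⊢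
      intro u
      have h3 := hgb (π u)
      rw [← map_inv, ← map_mul, ← map_mul] at h3
      have h4 := hmemP u
      have h5 := hmemP (g * u * g⁻¹)
      exact (h4.symm.trans h3).trans h5
    obtain ⟨k, m, hm, hkm⟩ := Nat.exists_eq_pow_mul_and_not_dvd (orderOf_pos g).ne' p hp.out.ne_one
    have hcop : Nat.Coprime (p ^ k) m := Nat.Coprime.pow_left k ((Nat.Prime.coprime_iff_not_dvd hp.out).2 hm)
    obtain ⟨s, t, hst⟩ := Nat.isCoprime_iff_coprime.2 hcop
    have hgdec : g = (g ^ (p ^ k)) ^ s * (g ^ m) ^ t := by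
      rw [← zpow_natCast, ← zpow_natCast, ← zpow_mul, ← zpow_mul, ← zpow_add, mul_comm ((p ^ k : ℕ) : ℤ),
        mul_comm (m : ℤ), hst, zpow_one]
    have hm0 : m ≠ 0 := by rintro rfl; simp at hm
    -- the `p'`-part centralizes `P`
    have hb : ∀ u ∈ (P : Subgroup G), g ^ (p ^ k) * u = u * g ^ (p ^ k) := by
      have ho : orderOf (g ^ (p ^ k)) = m := by
        rw [orderOf_pow_of_dvd (pow_pos hp.out.pos k).ne' (by rw [hkm]; exact Dvd.intro _ rfl), hkm]
        exact Nat.mul_div_cancel_left m (pow_pos hp.out.pos k)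
      have hcc : (orderOf (⟨g ^ (p ^ k), Subgroup.pow_mem _ hg _⟩ : normalizer ((P : Subgroup G) : Set G))).Coprime p := by
        rw [Subgroup.orderOf_mk, ho, Nat.coprime_comm]
        exact (Nat.Prime.coprime_iff_not_dvd hp.out).2 hm
      have h3 := Transfer.HasNPC.mem_centralizer hN
        (Q := (P : Subgroup G).subgroupOf (normalizer ((P : Subgroup G) : Set G)))
        (P.isPGroup'.comap_of_injective _ (Subgroup.subtype_injective _))
        (g := ⟨g ^ (p ^ k), Subgroup.pow_mem _ hg _⟩)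
        ((Subgroup.normalizer_eq_top ((P : Subgroup G).subgroupOf (normalizer ((P : Subgroup G) : Set G)))).ge
          (Subgroup.mem_top _)) hcc
      intro u hu
      have h4 := (Subgroup.mem_centralizer_iff.1 h3) ⟨u, Subgroup.le_normalizer hu⟩ hu
      exact (congrArg Subtype.val h4).symm
    have ha : g ^ m ∈ (P : Subgroup G) := by
      apply mem_sylow_of_smul_eq P
      · apply isPGroup_zpowers_of_orderOf
        refine ⟨k, ?_⟩
        rw [orderOf_pow_of_dvd hm0 (by rw [hkm]; exact Dvd.intro_left _ rfl), hkm]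
        exact Nat.mul_div_cancel _ (Nat.pos_of_ne_zero hm0)
      · exact Sylow.smul_eq_iff_mem_normalizer.2 (Subgroup.pow_mem _ hg _)
    rw [Subgroup.mem_centralizer_iff]
    intro ub hub
    obtain ⟨u, rfl⟩ := hsurj ub
    have hu : u ∈ (P : Subgroup G) := (hmemP u).1 hub
    -- `g u g⁻¹ u⁻¹ ∈ Q`
    have h5 : g * u * g⁻¹ * u⁻¹ ∈ Q := by
      have hat : (g ^ m) ^ t ∈ (P : Subgroup G) := (P : Subgroup G).zpow_mem ha t
      have hbt : ∀ v ∈ (P : Subgroup G), (g ^ (p ^ k)) ^ s * v = v * (g ^ (p ^ k)) ^ s := by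
        intro v hv
        exact ((show Commute (g ^ (p ^ k)) v from hb v hv).zpow_left s).eq
      set a := (g ^ m) ^ t with hadef
      set b := (g ^ (p ^ k)) ^ s with hbdef
      have h6 : g * u * g⁻¹ * u⁻¹ = a * u * a⁻¹ * u⁻¹ := by
        rw [hgdec]
        calc b * a * u * (b * a)⁻¹ * u⁻¹ = b * (a * u * a⁻¹) * b⁻¹ * u⁻¹ := by group
          _ = (a * u * a⁻¹) * b * b⁻¹ * u⁻¹ := by
            rw [hbt (a * u * a⁻¹) ((P : Subgroup G).mul_mem ((P : Subgroup G).mul_mem hat hu) ((P : Subgroup G).inv_mem hat))]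
          _ = a * u * a⁻¹ * u⁻¹ := by group
      rw [h6]
      exact h1 a hat u hu
    have h6 : π (g * u * g⁻¹ * u⁻¹) = 1 := (QuotientGroup.eq_one_iff _).2 h5
    simp only [map_mul, map_inv] at h6
    rw [mul_inv_eq_one, mul_inv_eq_iff_eq_mul] at h6
    exact h6.symm
  have hq := Transfer.hasNPC_of_normalizer_le_centralizer Pb hburn
  obtain ⟨Nb, hNb, hNbc, k, hNbi⟩ := Transfer.hasNPC_iff_exists.1 hq
  set L := Nb.comap π with hL
  have hLn : L.Normal := hNb.comap π
  have hLi : L.index = p ^ k := by rw [hL, Subgroup.index_comap_of_surjective _ hsurj, hNbi]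
  have hLP : L ⊓ (P : Subgroup G) ≤ (frattini ↥(P : Subgroup G)).map (P : Subgroup G).subtype := by
    refine le_trans ?_ h2
    rintro x ⟨hxL, hxP⟩
    rw [← QuotientGroup.eq_one_iff]
    have h3 : π x ∈ Nb := hxL
    obtain ⟨j, hj⟩ := (IsPGroup.iff_orderOf.1 Pb.isPGroup') ⟨π x, (hmemP x).2 hxP⟩
    rw [Subgroup.orderOf_mk] at hj
    have h4 : orderOf (π x) ∣ Nat.card Nb := by
      have := orderOf_dvd_natCard (⟨π x, h3⟩ : Nb)
      rwa [Subgroup.orderOf_mk] at this
    have h5 : (p ^ j).Coprime p := by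
      rw [← hj]; exact Nat.Coprime.coprime_dvd_left h4 hNbc
    have h6 : j = 0 := by
      by_contra hj0
      have := Nat.Coprime.coprime_dvd_left (dvd_pow_self p hj0) h5
      exact hp.out.one_lt.ne' (Nat.coprime_self p |>.1 this)
    rw [h6, pow_zero] at hj
    exact orderOf_eq_one_iff.1 hj
  exact Transfer.HasNPC.of_normal_index_pow hLi (S0081.result P L hLP)


/-- Let G be a finite group with Sylow p-subgroup P such that N_G(P) has a normal p-complement. Then N_G(Q) has a normal p-complement for every subgroup Q with [P, P] ≤ Q ≤ Φ(P). -/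
theorem result {G : Type*} [Group G] [Finite G] {p : ℕ} [Fact p.Prime] (P : Sylow p G) (hN : Cfsg.HasNormalPComplement p ↥(Subgroup.normalizer ((P : Subgroup G) : Set G))) (Q : Subgroup G) (h1 : (commutator ↥(P : Subgroup G)).map (P : Subgroup G).subtype ≤ Q) (h2 : Q ≤ (frattini ↥(P : Subgroup G)).map (P : Subgroup G).subtype) : Cfsg.HasNormalPComplement p ↥(Subgroup.normalizer (Q : Set G)) := by
  classical
  set N := Subgroup.normalizer (Q : Set G) with hNdef
  have hcomm : ∀ x ∈ (P : Subgroup G), ∀ y ∈ (P : Subgroup G), x * y * x⁻¹ * y⁻¹ ∈ Q := by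
    intro x hx y hy
    apply h1
    refine ⟨⁅(⟨x, hx⟩ : (P : Subgroup G)), ⟨y, hy⟩⁆, ?_, rfl⟩
    exact Subgroup.commutator_mem_commutator (Subgroup.mem_top _) (Subgroup.mem_top _)
  have hQP : Q ≤ (P : Subgroup G) := h2.trans (Subgroup.map_subtype_le _)
  have hPN : (P : Subgroup G) ≤ N := by
    intro x hx
    rw [hNdef, Subgroup.mem_normalizer_iff]
    have key : ∀ z ∈ (P : Subgroup G), ∀ q ∈ Q, z * q * z⁻¹ ∈ Q := by
      intro z hz q hq
      have h3 := Q.mul_mem (hcomm z hz q (hQP hq)) hq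
      rwa [inv_mul_cancel_right] at h3
    intro q
    constructor
    · intro hq; exact key x hx q hq
    · intro hq
      have h3 := key x⁻¹ ((P : Subgroup G).inv_mem hx) _ hq
      have h4 : x⁻¹ * (x * q * x⁻¹) * x⁻¹⁻¹ = q := by group
      rwa [h4] at h3
  set P' : Sylow p N := P.subtype hPN with hP'
  have hP'c : (P' : Subgroup N) = (P : Subgroup G).subgroupOf N := rfl
  have hQn : (Q.subgroupOf N).Normal := Subgroup.normal_in_normalizer
  refine aux P' (Q.subgroupOf N) ?_ ?_ ?_
  · intro x hx y hy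
    exact hcomm x hx y hy
  · intro q hq
    obtain ⟨w, hw, hwq⟩ := h2 (show (q : G) ∈ Q from hq)
    -- the isomorphism
    let φ : ↥(P : Subgroup G) →* ↥(P' : Subgroup N) :=
      { toFun := fun u => ⟨⟨u, hPN u.2⟩, u.2⟩
        map_one' := rfl
        map_mul' := fun _ _ => rfl }
    have hφ : Function.Surjective φ := fun u => ⟨⟨(u : N), u.2⟩, rfl⟩
    have h3 := frattini_le_comap_frattini_of_surjective hφ hw
    refine ⟨φ w, h3, ?_⟩
    apply Subtype.ext
    exact hwq
  · -- the normalizer of `P'` in `N`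
    refine Transfer.HasNPC.of_injective hN
      { toFun := fun u => ⟨((u : N) : G), ?_⟩
        map_one' := rfl
        map_mul' := fun _ _ => rfl } ?_
    · have h3 := u.2
      rw [Subgroup.mem_normalizer_iff] at h3 ⊢
      intro v
      constructor
      · intro hv
        exact (h3 ⟨v, hPN hv⟩).1 hv
      · intro hv
        have h4 : v ∈ N := by
          have h5 : ((u : N) : G)⁻¹ * (((u : N) : G) * v * ((u : N) : G)⁻¹) * ((u : N) : G) ∈ N :=
            N.mul_mem (N.mul_mem (N.inv_mem (u : N).2) (hPN hv)) (u : N).2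
          have h6 : ((u : N) : G)⁻¹ * (((u : N) : G) * v * ((u : N) : G)⁻¹) * ((u : N) : G) = v := by group
          rwa [h6] at h5
        exact (h3 ⟨v, h4⟩).2 hv
    · intro u v huv
      apply Subtype.ext
      apply Subtype.ext
      have h7 := congrArg (fun w : ↥(normalizer ((P : Subgroup G) : Set G)) => (w : G)) huv
      exact h7

end Cfsg.Agent.S3838
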