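import Mathlib
import Cfsg.Statements.S3857
import Cfsg.Agent.GKS.Solv
-- import your own Cfsg.Agent.* helpers here

set_option autoImplicit false
open Cfsg

namespace Cfsg.Agent.S3857

/-- A finite solvable group whose prime graph (prime divisors of the order, two distinct primes joined when there is an element of order their product) is disconnected is a Frobenius group or a 2-Frobenius group (it has normal subgroups H < K with K a Frobenius group with kernel H and G/H a Frobenius group with kernel K/H). -/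
theorem result {G : Type*} [Group G] [Finite G] (hsol : Group.IsSolvable G)
    (hdisc : (∃ A : Set ℕ, (∃ a ∈ A, a.Prime ∧ a ∣ Nat.card G) ∧ (∃ b ∉ A, b.Prime ∧ b ∣ Nat.card G) ∧
      ∀ a ∈ A, ∀ b ∉ A, a.Prime → b.Prime → a ∣ Nat.card G → b ∣ Nat.card G → ¬ ∃ g : G, orderOf g = a * b)) :
    (∃ C : Subgroup G, Cfsg.IsFrobeniusComplement C) ∨
    (∃ (H K : Subgroup G) (_ : H.Normal), K.Normal ∧ H < K ∧
      (∃ C : Subgroup ↥K, Cfsg.IsFrobeniusComplement C ∧ Cfsg.frobeniusKernel C = (H.subgroupOf K : Set ↥K)) ∧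
      (∃ C : Subgroup (G ⧸ H), Cfsg.IsFrobeniusComplement C ∧ Cfsg.frobeniusKernel C = (K.map (QuotientGroup.mk' H) : Set (G ⧸ H)))) := by
  classical
  obtain ⟨A, ⟨a, haA, pa, haG⟩, ⟨b, hbA, pb, hbG⟩, hd⟩ := hdisc
  haveI := hsol
  have hD : GKS.Disc A G := by
    rintro x hx y hy px py ⟨g, hg⟩
    have h1 : x * y ∣ Nat.card G := by rw [← hg]; exact orderOf_dvd_natCard g
    exact hd x hx y hy px py ((Dvd.intro _ rfl).trans h1) ((Dvd.intro_left _ rfl).trans h1) ⟨g, hg⟩
  haveI : Nontrivial G := by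
    rw [← Finite.one_lt_card_iff_nontrivial]
    exact pa.one_lt.trans_le (Nat.le_of_dvd Nat.card_pos haG)
  rcases GKS.exists_core (G := G) A with h | h
  · exact GKS.main hD h ⟨b, hbA, pb, hbG⟩
  · exact GKS.main hD.symm h ⟨a, fun h' => h' haA, pa, haG⟩

end Cfsg.Agent.S3857
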