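import Cfsg.Statements.S3858
import Cfsg.Agent.H64.Basic

set_option autoImplicit false
open Cfsg

namespace Cfsg.Agent.S3858

open Cfsg.Agent.H64

/-- A Sylow subgroup meeting a simple nonabelian normal subgroup nontrivially is not normal. -/
theorem normalizer_ne_top {G : Type*} [Group G] [Finite G] (T : Subgroup G) [T.Normal] (hT : IsSimpleGroup T)
    (hna : ¬ IsMulCommutative T) {r : ℕ} [Fact r.Prime] (R : Sylow r G) (hR0 : (R : Subgroup G) ⊓ T ≠ ⊥) :
    Subgroup.normalizer ((R : Subgroup G) : Set G) ≠ ⊤ := by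
  intro h
  have hRn : (R : Subgroup G).Normal := Subgroup.normalizer_eq_top_iff.1 h
  have hN : ((R : Subgroup G).subgroupOf T).Normal := Subgroup.normal_subgroupOf
  rcases hT.eq_bot_or_eq_top_of_normal _ hN with h1 | h1
  · rw [Subgroup.subgroupOf_eq_bot] at h1
    exact hR0 (disjoint_iff.1 h1)
  · rw [Subgroup.subgroupOf_eq_top] at h1
    have hp : IsPGroup r T := R.2.to_le h1
    haveI := hp.isNilpotent
    haveI : Nontrivial T := hT.toNontrivial
    have hcen : Nontrivial (Subgroup.center T) := hp.center_nontrivial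
    apply hna
    rcases hT.eq_bot_or_eq_top_of_normal (Subgroup.center T) inferInstance with h2 | h2
    · exact absurd h2 ((Subgroup.nontrivial_iff_ne_bot _).1 hcen)
    · refine ⟨⟨fun a b => ?_⟩⟩
      have : a ∈ Subgroup.center T := by rw [h2]; trivial
      exact (Subgroup.mem_center_iff.1 this b).symm

/-- Let G be a finite group with a normal non-abelian simple subgroup T whose centralizer is trivial (G almost simple with socle T), r a prime and R a Sylow r-subgroup of G meeting T nontrivially. Then R lies in exactly one maximal subgroup of G if and only if G has exactly one conjugacy class of maximal subgroups whose index is prime to r. -/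
theorem result {G : Type*} [Group G] [Finite G] (T : Subgroup G) [T.Normal] (hT : IsSimpleGroup T) (hna : ¬ IsMulCommutative T)
    (hC : Subgroup.centralizer (T : Set G) = ⊥) {r : ℕ} [Fact r.Prime] (R : Sylow r G) (hR0 : (R : Subgroup G) ⊓ T ≠ ⊥) :
    (∃! M : Subgroup G, IsCoatom M ∧ (R : Subgroup G) ≤ M) ↔
      ((∃ M : Subgroup G, IsCoatom M ∧ ¬ r ∣ M.index) ∧
        ∀ M₁ M₂ : Subgroup G, IsCoatom M₁ → ¬ r ∣ M₁.index → IsCoatom M₂ → ¬ r ∣ M₂.index → ∃ g : G, M₂ = M₁.map (MulAut.conj g).toMonoidHom) := by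
  have hidx : ∀ M : Subgroup G, (R : Subgroup G) ≤ M → ¬ r ∣ M.index := fun M hM h =>
    R.not_dvd_index (h.trans (Subgroup.index_dvd_of_le hM))
  constructor
  · rintro ⟨M, ⟨hM, hRM⟩, huniq⟩
    refine ⟨⟨M, hM, hidx M hRM⟩, ?_⟩
    have key : ∀ M' : Subgroup G, IsCoatom M' → ¬ r ∣ M'.index → ∃ g : G, M'.map (MulAut.conj g).toMonoidHom = M := by
      intro M' hM' hi
      obtain ⟨g, hg⟩ := exists_sylow_conj_le R M' hi
      exact ⟨g⁻¹, huniq _ ⟨isCoatom_map_conj hM' _, (map_conj_le_iff).1 hg⟩⟩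
    intro M₁ M₂ h1 h1' h2 h2'
    obtain ⟨a, ha⟩ := key M₁ h1 h1'
    obtain ⟨b, hb⟩ := key M₂ h2 h2'
    refine ⟨b⁻¹ * a, ?_⟩
    rw [map_conj_mul, ha, ← hb, ← map_conj_mul, inv_mul_cancel, map_conj_one]
  · rintro ⟨⟨M, hM, hMi⟩, hconj⟩
    have hN : Subgroup.normalizer ((R : Subgroup G) : Set G) ≠ ⊤ := normalizer_ne_top T hT hna R hR0
    obtain ⟨M₃, hM₃, hNM₃⟩ := (eq_top_or_exists_le_coatom (Subgroup.normalizer ((R : Subgroup G) : Set G))).resolve_left hN
    have hRM₃ : (R : Subgroup G) ≤ M₃ := Subgroup.le_normalizer.trans hNM₃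
    refine ⟨M₃, ⟨hM₃, hRM₃⟩, ?_⟩
    rintro M₁ ⟨hM₁, hRM₁⟩
    obtain ⟨g, hg⟩ := hconj M₃ M₁ hM₃ (hidx _ hRM₃) hM₁ (hidx _ hRM₁)
    -- R ≤ M₁ and R^g ≤ M₁
    have h1 : (R : Subgroup G).map (MulAut.conj g).toMonoidHom ≤ M₁ := by
      rw [hg]; exact map_conj_mono hRM₃ g
    obtain ⟨m, hm, hmR⟩ := exists_mem_map_conj_eq R M₁ g hRM₁ h1
    have h2 : m * g ∈ M₃ := hNM₃ (map_conj_eq_self_iff.1 hmR)
    have h3 : M₁ = M₃.map (MulAut.conj (m * g)).toMonoidHom := by
      rw [map_conj_mul, ← hg, map_conj_eq_self_of_mem hm]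
    rw [h3, map_conj_eq_self_of_mem h2]

end Cfsg.Agent.S3858
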