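import Cfsg.Statements.S3859
import Cfsg.Agent.S3858

set_option autoImplicit false
open Cfsg

namespace Cfsg.Agent.S3859

open Cfsg.Agent.H64

/-- Let G be a finite group with a normal non-abelian simple subgroup T whose centralizer is trivial (G almost simple with socle T), r a prime and R a Sylow r-subgroup of G meeting T nontrivially. If R lies in exactly one maximal subgroup of G, then G/T is an r-group. -/
theorem result {G : Type*} [Group G] [Finite G] (T : Subgroup G) [T.Normal] (hT : IsSimpleGroup T) (hna : ¬ IsMulCommutative T)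
    (hC : Subgroup.centralizer (T : Set G) = ⊥) {r : ℕ} [Fact r.Prime] (R : Sylow r G) (hR0 : (R : Subgroup G) ⊓ T ≠ ⊥)
    (huniq : ∃! M : Subgroup G, IsCoatom M ∧ (R : Subgroup G) ≤ M) : IsPGroup r (G ⧸ T) := by
  obtain ⟨M, ⟨hM, hRM⟩, hu⟩ := huniq
  have hle : ∀ H : Subgroup G, (R : Subgroup G) ≤ H → H ≠ ⊤ → H ≤ M := by
    intro H hRH hH
    obtain ⟨M', hM', hHM'⟩ := (eq_top_or_exists_le_coatom H).resolve_left hH
    rw [← hu M' ⟨hM', hRH.trans hHM'⟩]
    exact hHM'
  by_cases hTR : T ⊔ (R : Subgroup G) = ⊤
  · -- G = T R
    have hsurj : Function.Surjective ((QuotientGroup.mk' T).comp (R : Subgroup G).subtype) := by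
      intro y
      obtain ⟨g, rfl⟩ := QuotientGroup.mk'_surjective T y
      have hg : g ∈ T ⊔ (R : Subgroup G) := by rw [hTR]; trivial
      obtain ⟨t, ht, x, hx, rfl⟩ := Subgroup.mem_sup_of_normal_left.1 hg
      refine ⟨⟨x, hx⟩, ?_⟩
      simp only [MonoidHom.comp_apply, Subgroup.subtype_apply, QuotientGroup.mk'_apply]
      rw [QuotientGroup.mk_mul, (QuotientGroup.eq_one_iff t).2 ht, one_mul]
    exact R.2.of_surjective _ hsurj
  · exfalso
    have hTM : T ≤ M := le_sup_left.trans (hle _ le_sup_right hTR)
    -- the intersection R ∩ T is Sylow in T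
    have hN : Subgroup.normalizer (((R : Subgroup G) ⊓ T : Subgroup G) : Set G) ≠ ⊤ := by
      intro h
      have hRn : ((R : Subgroup G) ⊓ T).Normal := Subgroup.normalizer_eq_top_iff.1 h
      have hN : (((R : Subgroup G) ⊓ T).subgroupOf T).Normal := Subgroup.normal_subgroupOf
      rcases hT.eq_bot_or_eq_top_of_normal _ hN with h1 | h1
      · rw [Subgroup.subgroupOf_eq_bot] at h1
        exact hR0 (by simpa using disjoint_iff.1 h1)
      · rw [Subgroup.subgroupOf_eq_top] at h1
        have hp : IsPGroup r T := R.2.to_le (h1.trans inf_le_left)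
        haveI := hp.isNilpotent
        haveI : Nontrivial T := hT.toNontrivial
        have hcen : Nontrivial (Subgroup.center T) := hp.center_nontrivial
        apply hna
        rcases hT.eq_bot_or_eq_top_of_normal (Subgroup.center T) inferInstance with h2 | h2
        · exact absurd h2 ((Subgroup.nontrivial_iff_ne_bot _).1 hcen)
        · refine ⟨⟨fun a b => ?_⟩⟩
          have : a ∈ Subgroup.center T := by rw [h2]; trivial
          exact (Subgroup.mem_center_iff.1 this b).symm
    have hRN : (R : Subgroup G) ≤ Subgroup.normalizer (((R : Subgroup G) ⊓ T : Subgroup G) : Set G) := by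
      intro x hx
      rw [Subgroup.mem_normalizer_iff]
      intro h
      constructor
      · rintro ⟨h1, h2⟩
        exact ⟨(R : Subgroup G).mul_mem ((R : Subgroup G).mul_mem hx h1) ((R : Subgroup G).inv_mem hx),
          Subgroup.Normal.conj_mem inferInstance _ h2 _⟩
      · rintro ⟨h1, h2⟩
        refine ⟨?_, ?_⟩
        · have := (R : Subgroup G).mul_mem ((R : Subgroup G).mul_mem ((R : Subgroup G).inv_mem hx) h1) hx
          have h5 : x⁻¹ * (x * h * x⁻¹) * x = h := by group
          rw [h5] at this
          exact this
        · have := Subgroup.Normal.conj_mem (H := T) inferInstance _ h2 x⁻¹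
          simpa [mul_assoc] using this
    have hNM := hle _ hRN hN
    have hfr : Subgroup.normalizer (((R : Subgroup G) ⊓ T : Subgroup G) : Set G) ⊔ T = ⊤ := by
      have hSyl : ∃ Q : Sylow r T, (Q : Subgroup T) = (R : Subgroup G).subgroupOf T := by
        obtain ⟨Q, hQ⟩ := (IsPGroup.comap_of_injective R.2 T.subtype T.subtype_injective).exists_le_sylow
        refine ⟨Q, ?_⟩
        have hQp : IsPGroup r ((Q : Subgroup T).map T.subtype) := Q.2.map _
        obtain ⟨S, hS⟩ := hQp.exists_le_sylow
        obtain ⟨g, hg⟩ := MulAction.exists_smul_eq G S R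
        refine (Subgroup.eq_of_le_of_card_ge hQ ?_).symm
        have h1 : Nat.card ((Q : Subgroup T)) = Nat.card ((Q : Subgroup T).map T.subtype) :=
          (Subgroup.card_map_of_injective T.subtype_injective).symm
        have h2 : (((Q : Subgroup T).map T.subtype)).map (MulAut.conj g).toMonoidHom ≤ (R : Subgroup G) ⊓ T := by
          refine le_inf ?_ ?_
          · have : (R : Subgroup G) = (S : Subgroup G).map (MulAut.conj g).toMonoidHom := by
              rw [← hg]; rfl
            rw [this]
            exact map_conj_mono hS g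
          · intro x hx
            rw [mem_map_conj] at hx
            have := (Subgroup.map_subtype_le _) hx
            have := Subgroup.Normal.conj_mem (H := T) inferInstance _ this g
            simpa [mul_assoc] using this
        rw [h1, ← card_map_conj _ g]
        refine (Subgroup.card_le_of_le h2).trans ?_
        have h3 : (R : Subgroup G) ⊓ T = ((R : Subgroup G).subgroupOf T).map T.subtype := by
          rw [Subgroup.subgroupOf_map_subtype]
        rw [h3, Subgroup.card_map_of_injective T.subtype_injective]
        rfl
      obtain ⟨Q, hQ⟩ := hSyl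
      have := Sylow.normalizer_sup_eq_top Q
      rw [hQ, Subgroup.subgroupOf_map_subtype] at this
      exact this
    have : (⊤ : Subgroup G) ≤ M := by rw [← hfr]; exact sup_le hNM hTM
    exact hM.1 (top_le_iff.1 this)

end Cfsg.Agent.S3859
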