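import Cfsg.Statements.S3861
import Cfsg.Agent.H67.OddReal

set_option autoImplicit false
open Cfsg

namespace Cfsg.Agent.S3861
open Subgroup

theorem eq_one_of_odd_real {G : Type*} [Group G] [Finite G] {x g : G} (hg : Odd (orderOf g))
    (hx : Odd (orderOf x)) (h : g * x * g⁻¹ = x⁻¹) : x = 1 := by
  have h1 : Commute (g ^ 2) x := by
    show g ^ 2 * x = x * g ^ 2
    have h2 : g * x = x⁻¹ * g := by rw [← h]; group
    have h3 : g * x⁻¹ = x * g := by
      have h4 : g * x⁻¹ * g⁻¹ = x := by
        have := congrArg (·⁻¹) h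
        simp only [mul_inv_rev, inv_inv] at this
        rw [← mul_assoc] at this
        exact this
      exact mul_inv_eq_iff_eq_mul.1 h4
    calc g ^ 2 * x = g * (g * x) := by rw [pow_two, mul_assoc]
      _ = g * x⁻¹ * g := by rw [h2, mul_assoc]
      _ = x * g ^ 2 := by rw [h3, pow_two, mul_assoc]
  have h5 : Commute g x := by
    obtain ⟨k, hk⟩ := hg
    have h6 : g = (g ^ 2) ^ (k + 1) := by
      rw [← pow_mul]
      have : 2 * (k + 1) = orderOf g + 1 := by omega
      rw [this, pow_succ, pow_orderOf_eq_one, one_mul]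
    rw [h6]
    exact h1.pow_left _
  have h7 : x = x⁻¹ := by
    rw [← h, h5.eq, mul_inv_cancel_right]
  have h8 : x ^ 2 = 1 := by
    rw [pow_two]
    nth_rewrite 2 [h7]
    exact mul_inv_cancel x
  have h9 : orderOf x ∣ 2 := orderOf_dvd_of_pow_eq_one h8
  rcases (Nat.dvd_prime Nat.prime_two).1 h9 with h10 | h10
  · exact orderOf_eq_one_iff.1 h10
  · rw [h10] at hx
    exact absurd hx (by decide)


/-- A finite group G has no non-identity element of odd order that is conjugate to its inverse if and only if the Sylow 2-subgroups of G are normal. -/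
theorem result {G : Type*} [Group G] [Finite G] (P : Sylow 2 G) : (∀ x : G, x ≠ 1 → Odd (orderOf x) → ¬ IsConj x x⁻¹) ↔ (P : Subgroup G).Normal := by
  constructor
  · intro h
    apply H67.sylow_two_normal_of_no_odd_real
    intro x g hx hg
    by_contra hx1
    exact h x hx1 hx (isConj_iff.2 ⟨g, hg⟩)
  · intro hP x hx1 hx hc
    obtain ⟨g, hg⟩ := isConj_iff.1 hc
    apply hx1
    -- the quotient has odd order
    have hodd : Odd (Nat.card (G ⧸ (P : Subgroup G))) := by
      have := P.not_dvd_index
      rw [← Nat.not_even_iff_odd, even_iff_two_dvd]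
      exact this
    have hoddel : ∀ y : G ⧸ (P : Subgroup G), Odd (orderOf y) := fun y =>
      Odd.of_dvd_nat hodd (orderOf_dvd_natCard y)
    have h1 : QuotientGroup.mk' (P : Subgroup G) x = 1 := by
      apply eq_one_of_odd_real (g := QuotientGroup.mk' (P : Subgroup G) g) (hoddel _) (hoddel _)
      rw [← map_mul, ← map_inv, ← map_mul, hg, map_inv]
    have h2 : x ∈ (P : Subgroup G) := (QuotientGroup.eq_one_iff x).1 h1
    obtain ⟨k, hk⟩ := (IsPGroup.iff_orderOf.1 P.isPGroup') ⟨x, h2⟩
    rw [Subgroup.orderOf_mk] at hk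
    rw [hk] at hx
    rcases Nat.eq_zero_or_pos k with h3 | h3
    · rw [h3, pow_zero] at hk
      exact orderOf_eq_one_iff.1 hk
    · exact absurd hx (Nat.not_odd_iff_even.2 (Nat.even_pow.2 ⟨even_two, h3.ne'⟩))

end Cfsg.Agent.S3861
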