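import Cfsg.Statements.S3862
import Cfsg.Agent.Cop.MinAct
import Cfsg.Agent.Extra.Basic
import Cfsg.Agent.BG.Coprime
import Cfsg.Agent.Transfer.Frobenius

set_option autoImplicit false
open Cfsg

namespace Cfsg.Agent.S3862

open scoped commutatorElement in
theorem aux {G : Type*} [Group G] [Finite G] (h : ∀ x : G, (∃ j : ℕ, orderOf x = 2 ^ j) → IsConj x x⁻¹ → x ∈ Subgroup.center G) :
    Cfsg.HasNormalPComplement 2 G := by
  have : Fact (Nat.Prime 2) := ⟨Nat.prime_two⟩
  apply Cfsg.Agent.Transfer.hasNPC_of_frobenius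
  intro Q hQ g hg hg2
  obtain ⟨A, hA⟩ : ∃ A : Subgroup G, A = Subgroup.zpowers g := ⟨_, rfl⟩
  have hAQ : A ≤ Subgroup.normalizer (Q : Set G) := by rw [hA]; exact Subgroup.zpowers_le.2 hg
  have hAcop : (Nat.card A).Coprime 2 := by rw [hA, Nat.card_zpowers]; exact hg2
  have key : A ≤ Subgroup.centralizer (Q : Set G) := by
    rw [Subgroup.le_centralizer_iff, ← Subgroup.commutator_eq_bot_iff_le_centralizer]
    by_contra hnt
    obtain ⟨R, hRQ, hAR, hR, hmin⟩ := Cfsg.Agent.Cop.exists_min (A := A) (B := A) hAQ hnt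
    have hRp : IsPGroup 2 R := hQ.to_le hRQ
    have h2el : ∀ x ∈ R, ∃ j : ℕ, orderOf x = 2 ^ j := by
      intro x hx
      obtain ⟨k, hk⟩ := IsPGroup.iff_orderOf.1 hRp ⟨x, hx⟩
      exact ⟨k, by rw [← hk, Subgroup.orderOf_mk]⟩
    apply hR
    rcases Cfsg.Agent.Cop.min_structure hRp hAR le_rfl Subgroup.le_normalizer hAcop hR hmin with ⟨h3, _⟩ | ⟨h3, _, h5⟩
    · rw [Subgroup.commutator_eq_bot_iff_le_centralizer]
      intro x hx
      have h6 : x ∈ Subgroup.center G := by
        apply h x (h2el x hx)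
        have h7 := h3.2 x hx
        rw [pow_two] at h7
        rw [inv_eq_of_mul_eq_one_left h7]
      exact Subgroup.center_le_centralizer _ h6
    · have hcop := Cfsg.Agent.Cop.coprime_card_of_isPGroup hRp hAcop
      apply Cfsg.Agent.BG.commutator_eq_bot_of_comm_comm hAR hcop
      have hle : ⁅R, A⁆ ≤ Subgroup.center G := by
        rw [Subgroup.commutator_le]
        intro v hv a ha
        -- v² is central in R, fixed by a
        have hv2 : v * v ∈ (Subgroup.center R).map R.subtype := by
          have := Cfsg.Agent.Extra.pow_mem_center_of_isSpecial h3 ⟨v, hv⟩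
          rw [pow_two] at this
          exact ⟨_, this, rfl⟩
        rw [h5] at hv2
        have h6 : a * (v * v) = v * v * a := Subgroup.mem_centralizer_iff.1 (Subgroup.mem_inf.1 hv2).2 a ha
        have hvav : a * v * a⁻¹ ∈ R := (Subgroup.mem_normalizer_iff.1 (hAR ha) v).1 hv
        obtain ⟨w, hw⟩ : ∃ w, w = a * v⁻¹ * a⁻¹ := ⟨_, rfl⟩
        have hwR : w ∈ R := by
          have := R.inv_mem hvav
          rw [hw]
          have h8 : (a * v * a⁻¹)⁻¹ = a * v⁻¹ * a⁻¹ := by group
          rwa [h8] at this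
        have hw2 : w * w = (v * v)⁻¹ := by
          calc w * w = (a * (v * v) * a⁻¹)⁻¹ := by rw [hw]; group
            _ = (v * v * a * a⁻¹)⁻¹ := by rw [h6]
            _ = (v * v)⁻¹ := by group
        have hx : ⁅v, a⁆ = v * w := by rw [commutatorElement_def, hw]; group
        rw [hx]
        apply h _ (h2el _ (R.mul_mem hv hwR))
        rw [isConj_iff]
        refine ⟨v⁻¹, ?_⟩
        calc v⁻¹ * (v * w) * v⁻¹⁻¹ = w⁻¹ * (w * w) * v := by group
          _ = w⁻¹ * (v * v)⁻¹ * v := by rw [hw2]
          _ = (v * w)⁻¹ := by group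
      rw [Subgroup.commutator_eq_bot_iff_le_centralizer]
      exact hle.trans (Subgroup.center_le_centralizer _)
  exact key (by rw [hA]; exact Subgroup.mem_zpowers g)

/-- If every 2-element of the finite group G that is conjugate to its inverse lies in the centre of G, then G has a normal 2-complement. -/
theorem result {G : Type*} [Group G] [Finite G] (h : ∀ x : G, (∃ j : ℕ, orderOf x = 2 ^ j) → IsConj x x⁻¹ → x ∈ Subgroup.center G) : Cfsg.HasNormalPComplement 2 G := by
  exact aux h

end Cfsg.Agent.S3862
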