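import Cfsg.Statements.S3863
import Cfsg.Agent.H64.Real

set_option autoImplicit false
open Cfsg

namespace Cfsg.Agent.S3863

open Cfsg.Agent.H64

/-- Let x be an element of the finite group G that is conjugate to its inverse. Then some 2-element conjugates x to its inverse; if the conjugacy class of x has odd size then x ^ 2 = 1; and x lies in, and is conjugate to its inverse inside, every normal subgroup of odd index. -/
theorem result {G : Type*} [Group G] [Finite G] (x : G) (hx : IsConj x x⁻¹) : (∃ t : G, (∃ j : ℕ, orderOf t = 2 ^ j) ∧ t * x * t⁻¹ = x⁻¹) ∧ (Odd (Subgroup.centralizer ({x} : Set G)).index → x ^ 2 = 1) ∧ ∀ (N : Subgroup G) [N.Normal], Odd N.index → ∃ hxN : x ∈ N, IsConj (⟨x, hxN⟩ : N) (⟨x, hxN⟩ : N)⁻¹ := by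
  refine ⟨exists_two_element_inverting hx, sq_eq_one_of_real_odd_class hx, ?_⟩
  intro N hN hodd
  obtain ⟨t, ⟨j, htj⟩, ht⟩ := exists_two_element_inverting hx
  have htN : t ∈ N := by
    rw [← QuotientGroup.eq_one_iff]
    rw [← orderOf_eq_one_iff]
    have h1 : orderOf (t : G ⧸ N) ∣ 2 ^ j := by rw [← htj]; exact orderOf_map_dvd (QuotientGroup.mk' N) t
    have h2 : orderOf (t : G ⧸ N) ∣ N.index := orderOf_dvd_natCard _
    have h3 : Nat.Coprime (2 ^ j) N.index := Nat.Coprime.pow_left _ ((Nat.coprime_two_left).2 hodd)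
    exact Nat.eq_one_of_dvd_coprimes h3 h1 h2
  have hxN : x ∈ N := by
    rw [← QuotientGroup.eq_one_iff, ← orderOf_eq_one_iff]
    have h0 : (t : G ⧸ N) = 1 := (QuotientGroup.eq_one_iff t).2 htN
    have h1 : (x : G ⧸ N) ^ 2 = 1 := by
      have := congrArg (fun g : G => (g : G ⧸ N)) ht
      simp only [QuotientGroup.mk_mul, QuotientGroup.mk_inv, h0] at this
      rw [one_mul, inv_one, mul_one] at this
      rw [pow_two]
      nth_rewrite 1 [this]
      exact inv_mul_cancel _
    have h1' : orderOf (x : G ⧸ N) ∣ 2 := orderOf_dvd_of_pow_eq_one h1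
    have h2 : orderOf (x : G ⧸ N) ∣ N.index := orderOf_dvd_natCard _
    have h3 : Nat.Coprime 2 N.index := (Nat.coprime_two_left).2 hodd
    exact Nat.eq_one_of_dvd_coprimes h3 h1' h2
  refine ⟨hxN, ?_⟩
  rw [isConj_iff]
  refine ⟨⟨t, htN⟩, ?_⟩
  ext
  simpa using ht

end Cfsg.Agent.S3863
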