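import Cfsg.Statements.S3864
import Cfsg.Agent.H65.Dihed
import Cfsg.Agent.S0111

set_option autoImplicit false
open Cfsg

namespace Cfsg.Agent.S3864


open Subgroup Cfsg.Agent.Transfer Cfsg.Agent.H65.Dihed DihedralGroup
open scoped commutatorElement

theorem exists_index_four {G : Type*} [Group G] (M N : Subgroup G) (hM : M.Normal) (hN : N.Normal)
    (hMi : M.index = 2) (hNi : N.index = 2) (hne : M ≠ N) : ∃ L : Subgroup G, L.Normal ∧ L.index = 4 := by
  refine ⟨M ⊓ N, inferInstance, ?_⟩
  have hsup : M ⊔ N = ⊤ := by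
    by_contra h
    have h1 : (M ⊔ N).index ∣ 2 := hMi ▸ Subgroup.index_dvd_of_le (le_sup_left : M ≤ M ⊔ N)
    rcases (Nat.dvd_prime Nat.prime_two).1 h1 with h2 | h2
    · exact h (Subgroup.index_eq_one.1 h2)
    · have e1 : M.relIndex (M ⊔ N) = 1 := by
        have := relIndex_mul_index (le_sup_left : M ≤ M ⊔ N)
        rw [h2, hMi] at this
        omega
      have e2 : N.relIndex (M ⊔ N) = 1 := by
        have := relIndex_mul_index (le_sup_right : N ≤ M ⊔ N)
        rw [h2, hNi] at this
        omega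
      rw [relIndex_eq_one] at e1 e2
      exact hne (le_antisymm (le_sup_left.trans e2) (le_sup_right.trans e1))
  have h3 : M.relIndex N = 2 := by
    rw [← relIndex_sup_right, sup_comm, hsup, relIndex_top_right, hMi]
  have h4 := relIndex_mul_index (inf_le_right : M ⊓ N ≤ N)
  rw [inf_relIndex_right, h3, hNi] at h4
  exact h4.symm

/-- the map from the dihedral group `D_m` (`m` even) onto a group of order 4. -/
theorem exists_dihedral_index_four (m : ℕ) [NeZero m] (hm : 2 ∣ m) :
    ∃ L : Subgroup (DihedralGroup m), L.Normal ∧ L.index = 4 := by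
  let c := ZMod.castHom hm (ZMod 2)
  let f : DihedralGroup m → Multiplicative (ZMod 2) × Multiplicative (ZMod 2) := fun x =>
    match x with
    | .r i => (Multiplicative.ofAdd (c i), 1)
    | .sr i => (Multiplicative.ofAdd (c i), Multiplicative.ofAdd 1)
  have hneg : ∀ x : ZMod 2, -x = x := by decide
  have h11 : (Multiplicative.ofAdd (1 : ZMod 2)) * Multiplicative.ofAdd 1 = 1 := by decide
  have hf : ∀ x y, f (x * y) = f x * f y := by
    intro x y
    match x, y with
    | .r i, .r j =>
      rw [r_mul_r]; simp only [f, Prod.mk_mul_mk, ← ofAdd_add, map_add, mul_one]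
    | .r i, .sr j =>
      rw [r_mul_sr]; simp only [f, Prod.mk_mul_mk, ← ofAdd_add, map_sub, one_mul]
      rw [sub_eq_add_neg, hneg, add_comm]
    | .sr i, .r j =>
      rw [sr_mul_r]; simp only [f, Prod.mk_mul_mk, ← ofAdd_add, map_add, mul_one]
    | .sr i, .sr j =>
      rw [sr_mul_sr]; simp only [f, Prod.mk_mul_mk, map_sub]
      rw [h11, ← ofAdd_add, sub_eq_add_neg, hneg, add_comm]
  let F : DihedralGroup m →* Multiplicative (ZMod 2) × Multiplicative (ZMod 2) := MonoidHom.mk' f hf
  have hsurj : Function.Surjective F := by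
    rintro ⟨a, b⟩
    obtain ⟨i, hi⟩ := ZMod.ringHom_surjective c (Multiplicative.toAdd a)
    rcases (show ∀ b : Multiplicative (ZMod 2), b = 1 ∨ b = Multiplicative.ofAdd 1 by decide) b with rfl | rfl
    · refine ⟨.r i, ?_⟩
      change (Multiplicative.ofAdd (c i), 1) = _
      rw [hi]; rfl
    · refine ⟨.sr i, ?_⟩
      change (Multiplicative.ofAdd (c i), Multiplicative.ofAdd 1) = _
      rw [hi]; rfl
  refine ⟨F.ker, inferInstance, ?_⟩
  rw [Subgroup.index_ker, MonoidHom.range_eq_top.2 hsurj]
  simp [Nat.card_eq_fintype_card]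

theorem main {G : Type*} [Group G] [Finite G] (P : Sylow 2 G) (m : ℕ) [NeZero m] (hm4 : 4 ∣ m) (k0 : ℕ)
    (hm2 : m = 2 ^ k0) (f : DihedralGroup m →* G) (hf : Function.Injective f) (hr : f.range = P) :
    (Nat.card {C : ConjClasses G // ∃ g : G, ConjClasses.mk g = C ∧ orderOf g = 2} = 1 ∧ ∀ N : Subgroup G, N.Normal → N.index ≠ 2) ∨ (Nat.card {C : ConjClasses G // ∃ g : G, ConjClasses.mk g = C ∧ orderOf g = 2} = 2 ∧ (∃ N : Subgroup G, N.Normal ∧ N.index = 2) ∧ ∀ N : Subgroup G, N.Normal → N.index ≠ 4) ∨ (Nat.card {C : ConjClasses G // ∃ g : G, ConjClasses.mk g = C ∧ orderOf g = 2} = 3 ∧ Cfsg.HasNormalPComplement 2 G) := by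
  classical
  obtain ⟨m', hm'⟩ := hm4
  have hm'0 : m' ≠ 0 := by rintro rfl; exact NeZero.ne m hm'
  have h2m : 2 ∣ m := ⟨2 * m', by omega⟩
  have hfP : ∀ x, f x ∈ (P : Subgroup G) := fun x => hr ▸ ⟨x, rfl⟩
  have hPf : ∀ x ∈ (P : Subgroup G), ∃ y, f y = x := fun x hx => by rw [← hr] at hx; exact hx
  have hcardP : Nat.card P = 2 * m := by
    have h1 : Nat.card f.range = Nat.card (DihedralGroup m) :=
      (Nat.card_congr (MonoidHom.ofInjective hf).toEquiv).symm
    rw [hr, DihedralGroup.nat_card] at h1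
    exact h1
  set z : G := f (r ((2 * m' : ℕ) : ZMod m)) with hz
  set b : G := f (sr 0) with hb
  set c : G := f (sr 1) with hc
  have horf : ∀ x, orderOf (f x) = orderOf x := fun x => orderOf_injective f hf x
  have ho_b : orderOf b = 2 := by rw [hb, horf, orderOf_sr]
  have ho_c : orderOf c = 2 := by rw [hc, horf, orderOf_sr]
  have hz2 : ((2 * m' : ℕ) : ZMod m) + ((2 * m' : ℕ) : ZMod m) = 0 := by
    rw [← Nat.cast_add, ZMod.natCast_eq_zero_iff]
    exact ⟨1, by omega⟩
  have hz0 : ((2 * m' : ℕ) : ZMod m) ≠ 0 := by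
    rw [Ne, ZMod.natCast_eq_zero_iff]
    intro h
    have := Nat.le_of_dvd (by omega) h
    omega
  have ho_z : orderOf z = 2 := by
    rw [hz, horf]
    refine orderOf_eq_prime ?_ ?_
    · rw [r_pow, one_def]
      congr 1
      push_cast at hz2 ⊢
      rw [mul_two]
      exact hz2
    · rw [one_def, Ne, r.injEq]
      exact hz0
  -- every involution in P
  have hinv : ∀ x ∈ (P : Subgroup G), orderOf x = 2 → x = z ∨ ∃ i, x = f (sr i) := by
    intro x hx hxo
    obtain ⟨y, rfl⟩ := hPf x hx
    match y with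
    | .r i =>
      left
      rw [horf] at hxo
      obtain ⟨t, ht, rfl⟩ := r_involution i hxo
      rw [hz]
      have : t = 2 * m' := by omega
      rw [this]
    | .sr i => exact Or.inr ⟨i, rfl⟩
  have hconj : ∀ g : G, orderOf g = 2 → IsConj g z ∨ IsConj g b ∨ IsConj g c := by
    intro g hg
    have h1 : IsPGroup 2 (zpowers g) := IsPGroup.of_card (n := 1) (by rw [Nat.card_zpowers, hg, pow_one])
    obtain ⟨Q, hQ⟩ := h1.exists_le_sylow
    obtain ⟨u, hu⟩ := MulAction.exists_smul_eq G Q P
    have h2 : u * g * u⁻¹ ∈ (P : Subgroup G) := by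
      rw [← hu]
      exact Subgroup.smul_mem_pointwise_smul g (MulAut.conj u) _ (hQ (mem_zpowers g))
    have h3 : orderOf (u * g * u⁻¹) = 2 := by
      have := orderOf_injective (MulAut.conj u).toMonoidHom (MulAut.conj u).injective g
      rw [← hg, ← this]; rfl
    have h4 : IsConj g (u * g * u⁻¹) := isConj_iff.2 ⟨u, rfl⟩
    rcases hinv _ h2 h3 with h5 | ⟨i, hi⟩
    · left; rw [← h5]; exact h4
    · right
      have hkey : ∀ (j k : ZMod m), IsConj (f (sr (j + 2 * k))) (f (sr j)) := by
        intro j k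
        rw [isConj_iff]
        refine ⟨f (r k), ?_⟩
        rw [← map_inv, ← map_mul, ← map_mul, conj_sr]
        congr 2
        ring
      rw [hi] at h4
      rcases two_mul_or i with ⟨k, hk⟩ | ⟨k, hk⟩
      · left
        refine h4.trans ?_
        have := hkey 0 k
        rw [zero_add, ← hk] at this
        exact this
      · right
        refine h4.trans ?_
        have := hkey 1 k
        rw [← hk] at this
        exact this
  set S : Set (ConjClasses G) := {C | ∃ g : G, ConjClasses.mk g = C ∧ orderOf g = 2} with hS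
  have hcS : Nat.card {C : ConjClasses G // ∃ g : G, ConjClasses.mk g = C ∧ orderOf g = 2} = S.ncard := rfl
  rw [hcS]
  have hSeq : S = {ConjClasses.mk z, ConjClasses.mk b, ConjClasses.mk c} := by
    ext C
    constructor
    · rintro ⟨g, rfl, hg⟩
      rcases hconj g hg with h | h | h
      · left; exact ConjClasses.mk_eq_mk_iff_isConj.2 h
      · right; left; exact ConjClasses.mk_eq_mk_iff_isConj.2 h
      · right; right; exact ConjClasses.mk_eq_mk_iff_isConj.2 h
    · rintro (rfl | rfl | rfl)
      · exact ⟨z, rfl, ho_z⟩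
      · exact ⟨b, rfl, ho_b⟩
      · exact ⟨c, rfl, ho_c⟩
  -- the cyclic subgroup
  set a : G := f (r 1) with ha
  have ho_a : orderOf a = m := by rw [ha, horf, orderOf_r_one]
  have haP : zpowers a ≤ (P : Subgroup G) := by rw [zpowers_le]; exact hfP _
  have hai : (zpowers a).relIndex (P : Subgroup G) = 2 := by
    have h1 := Subgroup.relIndex_mul_relIndex ⊥ (zpowers a) (P : Subgroup G) bot_le haP
    rw [relIndex_bot_left, relIndex_bot_left, Nat.card_zpowers, ho_a, hcardP] at h1
    have h2 : m * (zpowers a).relIndex (P : Subgroup G) = m * 2 := by rw [h1, mul_comm]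
    exact Nat.eq_of_mul_eq_mul_left (NeZero.pos m) h2
  have hmema : ∀ x ∈ zpowers a, ∃ i, x = f (r i) := by
    rintro _ ⟨k, rfl⟩
    refine ⟨(k : ZMod m), ?_⟩
    change a ^ k = _
    rw [ha, ← map_zpow, r_one_zpow]
  have hnot : ∀ i, f (sr i) ∉ zpowers a := by
    intro i hi
    obtain ⟨j, hj⟩ := hmema _ hi
    exact absurd (hf hj) (by simp)
  have hT : ∀ i, (∃ M : Subgroup G, M.Normal ∧ M.index = 2 ∧ f (sr i) ∉ M) ∨ IsConj (f (sr i)) z := by
    intro i
    rcases Cfsg.Agent.S0111.result P (zpowers a) haP hai (f (sr i)) (by rw [horf, orderOf_sr]) (hfP _) (hnot i) with h | ⟨g, hg⟩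
    · exact Or.inl h
    · right
      obtain ⟨j, hj⟩ := hmema _ hg
      have h3 : orderOf (g * f (sr i) * g⁻¹) = 2 := by
        have := orderOf_injective (MulAut.conj g).toMonoidHom (MulAut.conj g).injective (f (sr i))
        rw [horf, orderOf_sr] at this
        rw [← this]; rfl
      rcases hinv _ (haP hg) h3 with h4 | ⟨k, hk⟩
      · exact isConj_iff.2 ⟨g, h4⟩
      · rw [hk] at hj
        exact absurd (hf hj) (by simp)
  by_cases hN2 : ∃ N : Subgroup G, N.Normal ∧ N.index = 2
  swap
  · left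
    have hb' : IsConj b z := by
      rcases hT 0 with ⟨M, hM, hMi, _⟩ | h
      · exact absurd ⟨M, hM, hMi⟩ hN2
      · exact h
    have hc' : IsConj c z := by
      rcases hT 1 with ⟨M, hM, hMi, _⟩ | h
      · exact absurd ⟨M, hM, hMi⟩ hN2
      · exact h
    refine ⟨?_, fun N hN hi => hN2 ⟨N, hN, hi⟩⟩
    rw [hSeq, ConjClasses.mk_eq_mk_iff_isConj.2 hb', ConjClasses.mk_eq_mk_iff_isConj.2 hc']
    simp
  by_cases hN4 : ∃ N : Subgroup G, N.Normal ∧ N.index = 4
  · right; right
    obtain ⟨N, hN, hNi⟩ := hN4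
    have hNPC : Cfsg.HasNormalPComplement 2 G := by
      have h4 : Nat.card (G ⧸ N) = 2 ^ 2 := by rw [← Subgroup.index_eq_card, hNi]; norm_num
      have hcomm : ∀ x y : G ⧸ N, x * y = y * x := fun x y => by
        let _ := IsPGroup.commGroupOfCardEqPrimeSq (p := 2) h4
        exact mul_comm x y
      have h2N : f (r 2) ∈ N := by
        have h5 : ⁅b, c⁆ = f (r 2) := by
          rw [commutatorElement_def, hb, hc, ← map_inv, ← map_inv, ← map_mul, ← map_mul, ← map_mul, inv_sr, inv_sr, sr_mul_sr, r_mul_sr, sr_mul_sr]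
          congr 2
          ring
        rw [← h5]
        rw [← QuotientGroup.eq_one_iff, commutatorElement_def]
        change ((b : G ⧸ N) * c * (b : G ⧸ N)⁻¹ * (c : G ⧸ N)⁻¹) = 1
        rw [hcomm (b : G ⧸ N) c]
        group
      have ho2 : orderOf (f (r 2)) * 2 = m := by
        have e : f (r 2) = a ^ 2 := by rw [ha, ← map_pow, r_one_pow]; norm_cast
        rw [e, orderOf_pow' _ (by norm_num), ho_a, Nat.gcd_eq_right h2m]
        exact Nat.div_mul_cancel h2m
      refine hasNPC_of_cyclic (k := 2) P N (by rw [hNi]; norm_num) (hfP (r 2)) h2N ?_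
      rw [hNi, hcardP]
      omega
    refine ⟨?_, hNPC⟩
    have hctrl := HasNPC.controls hNPC P
    have hctrl' : ∀ x y, IsConj (f x) (f y) → ∃ w, w * x * w⁻¹ = y := by
      intro x y h
      obtain ⟨g, hg⟩ := isConj_iff.1 h
      obtain ⟨u, hu, hu2⟩ := hctrl (f x) (hfP x) g (hg ▸ hfP y)
      obtain ⟨w, rfl⟩ := hPf u hu
      refine ⟨w, hf ?_⟩
      rw [map_mul, map_mul, map_inv, hu2, hg]
    have hzc : ∀ w : DihedralGroup m, w * r ((2 * m' : ℕ) : ZMod m) * w⁻¹ = r ((2 * m' : ℕ) : ZMod m) := by
      intro w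
      match w with
      | .r i =>
        rw [r_mul_r, inv_r, r_mul_r]; congr 1; ring
      | .sr i =>
        rw [sr_mul_r, inv_sr, sr_mul_sr]; congr 1
        have : -((2 * m' : ℕ) : ZMod m) = ((2 * m' : ℕ) : ZMod m) := by
          rw [neg_eq_iff_add_eq_zero]; exact hz2
        calc i - (i + ((2 * m' : ℕ) : ZMod m)) = - ((2 * m' : ℕ) : ZMod m) := by ring
          _ = _ := this
    have hzb : ConjClasses.mk z ≠ ConjClasses.mk b := by
      intro h
      obtain ⟨w, hw⟩ := hctrl' _ _ (ConjClasses.mk_eq_mk_iff_isConj.1 h)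
      rw [hzc] at hw
      exact absurd hw (by simp)
    have hzc' : ConjClasses.mk z ≠ ConjClasses.mk c := by
      intro h
      obtain ⟨w, hw⟩ := hctrl' _ _ (ConjClasses.mk_eq_mk_iff_isConj.1 h)
      rw [hzc] at hw
      exact absurd hw (by simp)
    have hodd : ∀ k : ZMod m, (2 * k : ZMod m) ≠ 1 := by
      intro k hk
      have := congrArg (ZMod.castHom h2m (ZMod 2)) hk
      rw [map_mul, map_one, map_ofNat] at this
      have h2 : ∀ x : ZMod 2, 2 * x ≠ 1 := by decide
      exact h2 _ this
    have hbc : ConjClasses.mk b ≠ ConjClasses.mk c := by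
      intro h
      obtain ⟨w, hw⟩ := hctrl' _ _ (ConjClasses.mk_eq_mk_iff_isConj.1 h)
      match w with
      | .r i =>
        rw [conj_sr, sr.injEq] at hw
        exact hodd (-i) (by rw [← hw]; ring)
      | .sr i =>
        rw [sr_mul_sr, inv_sr, r_mul_sr, sr.injEq] at hw
        exact hodd i (by rw [← hw]; ring)
    rw [hSeq]
    rw [Set.ncard_insert_of_notMem (by simp [hzb, hzc']), Set.ncard_pair hbc]
  · right; left
    push Not at hN4
    obtain ⟨N, hN, hNi⟩ := hN2
    have hsub : ∀ M : Subgroup G, M.Normal → M.index = 2 → M = N := by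
      intro M hM hMi
      by_contra hne
      obtain ⟨L, hL, hLi⟩ := exists_index_four M N hM hN hMi hNi hne
      exact hN4 L hL hLi
    have hPN : ¬ (P : Subgroup G) ≤ N := by
      intro h
      have h1 := Subgroup.index_dvd_of_le h
      rw [hNi] at h1
      exact P.not_dvd_index h1
    have hmul : ∀ x y : G, x ∉ N → y ∉ N → x * y ∈ N := by
      intro x y hx hy
      exact (Subgroup.mul_mem_iff_of_index_two hNi).2 (by tauto)
    -- z ∈ N
    have hzN : z ∈ N := by
      have e : z = a ^ m' * a ^ m' := by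
        rw [hz, ha, ← map_pow, ← map_mul, ← pow_add, r_one_pow]
        congr 2
        push_cast
        ring
      rw [e]
      by_cases h : a ^ m' ∈ N
      · exact mul_mem h h
      · exact hmul _ _ h h
    have hbc : b * c = a := by
      rw [hb, hc, ha, ← map_mul, sr_mul_sr]; simp
    have key : ∀ i j : ZMod m, f (sr i) ∈ N → f (sr j) ∉ N →
        IsConj (f (sr i)) z ∧ ¬ IsConj (f (sr j)) z ∧ ¬ IsConj (f (sr j)) (f (sr i)) := by
      intro i j hi hj
      refine ⟨?_, ?_, ?_⟩
      · rcases hT i with ⟨M, hM, hMi, h⟩ | h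
        · rw [hsub M hM hMi] at h
          exact absurd hi h
        · exact h
      · intro h
        obtain ⟨u, hu⟩ := isConj_iff.1 h.symm
        exact hj (hu ▸ hN.conj_mem _ hzN u)
      · intro h
        obtain ⟨u, hu⟩ := isConj_iff.1 h.symm
        exact hj (hu ▸ hN.conj_mem _ hi u)
    refine ⟨?_, ⟨N, hN, hNi⟩, hN4⟩
    by_cases hbN : b ∈ N
    · have hcN : c ∉ N := by
        intro hcN
        apply hPN
        have haN : a ∈ N := by
          rw [← hbc]
          exact mul_mem hbN hcN
        intro x hx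
        obtain ⟨y, rfl⟩ := hPf x hx
        match y with
        | .r i =>
          have : f (r i) = a ^ i.val := by
            rw [ha, ← map_pow, r_one_pow, ZMod.natCast_zmod_val]
          rw [this]; exact pow_mem haN _
        | .sr i =>
          have : f (sr i) = b * a ^ i.val := by
            rw [ha, hb, ← map_pow, r_one_pow, ZMod.natCast_zmod_val, ← map_mul, sr_mul_r, zero_add]
          rw [this]; exact mul_mem hbN (pow_mem haN _)
      obtain ⟨h1, h2, h3⟩ := key 0 1 hbN hcN
      rw [hSeq, ConjClasses.mk_eq_mk_iff_isConj.2 h1, Set.insert_eq_of_mem (by simp)]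
      exact Set.ncard_pair (fun h => h2 (ConjClasses.mk_eq_mk_iff_isConj.1 h.symm))
    · by_cases hcN : c ∈ N
      · obtain ⟨h1, h2, h3⟩ := key 1 0 hcN hbN
        rw [hSeq, ConjClasses.mk_eq_mk_iff_isConj.2 h1, Set.insert_comm, Set.pair_eq_singleton]
        exact Set.ncard_pair (fun h => h2 (ConjClasses.mk_eq_mk_iff_isConj.1 h))
      · exfalso
        have haN : a ∈ N := by
          rw [← hbc]
          exact hmul _ _ hbN hcN
        have hNPC : Cfsg.HasNormalPComplement 2 G := by
          refine hasNPC_of_cyclic (k := 1) P N (by rw [hNi]; norm_num) (hfP (r 1)) haN ?_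
          rw [← ha, ho_a, hNi, hcardP]
          ring
        obtain ⟨K, hK, hKc⟩ := (hasNPC_iff_sylow P).1 hNPC
        obtain ⟨L, hL, hLi⟩ := exists_dihedral_index_four m h2m
        have e1 : G ⧸ K ≃* (P : Subgroup G) := (hKc.symm).QuotientMulEquiv
        have e2 : (P : Subgroup G) ≃* DihedralGroup m :=
          ((MonoidHom.ofInjective hf).trans (MulEquiv.subgroupCongr hr)).symm
        let F : G →* DihedralGroup m := (e1.trans e2).toMonoidHom.comp (QuotientGroup.mk' K)
        have hF : Function.Surjective F := (e1.trans e2).surjective.comp (QuotientGroup.mk'_surjective K)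
        refine hN4 (L.comap F) inferInstance ?_
        rw [Subgroup.index_comap_of_surjective _ hF, hLi]

/-- Let G be a finite group whose Sylow 2-subgroups are dihedral of order 2 ^ n with n ≥ 3, and count the conjugacy classes of involutions of G. Then exactly one of the following holds: there is one class of involutions and no normal subgroup of index 2; there are two classes of involutions, a normal subgroup of index 2 and none of index 4; there are three classes of involutions and G has a normal 2-complement. -/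
theorem result {G : Type*} [Group G] [Finite G] (P : Sylow 2 G) (n : ℕ) (hn : 3 ≤ n) (hdih : Nonempty (↥(P : Subgroup G) ≃* DihedralGroup (2 ^ (n - 1)))) : (Nat.card {C : ConjClasses G // ∃ g : G, ConjClasses.mk g = C ∧ orderOf g = 2} = 1 ∧ ∀ N : Subgroup G, N.Normal → N.index ≠ 2) ∨ (Nat.card {C : ConjClasses G // ∃ g : G, ConjClasses.mk g = C ∧ orderOf g = 2} = 2 ∧ (∃ N : Subgroup G, N.Normal ∧ N.index = 2) ∧ ∀ N : Subgroup G, N.Normal → N.index ≠ 4) ∨ (Nat.card {C : ConjClasses G // ∃ g : G, ConjClasses.mk g = C ∧ orderOf g = 2} = 3 ∧ Cfsg.HasNormalPComplement 2 G) := by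

  obtain ⟨e⟩ := hdih
  obtain ⟨k, rfl⟩ : ∃ k, n = k + 3 := ⟨n - 3, by omega⟩
  have e0 : k + 3 - 1 = k + 2 := by omega
  rw [e0] at e
  have : NeZero (2 ^ (k + 2)) := ⟨by positivity⟩
  refine main P (2 ^ (k + 2)) ⟨2 ^ k, by ring⟩ (k + 2) rfl ((P : Subgroup G).subtype.comp e.symm.toMonoidHom) ?_ ?_
  · exact (Subgroup.subtype_injective _).comp e.symm.injective
  · rw [MonoidHom.range_comp]
    have : e.symm.toMonoidHom.range = ⊤ := MonoidHom.range_eq_top.2 e.symm.surjective
    rw [this, ← MonoidHom.range_eq_map, Subgroup.range_subtype]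

end Cfsg.Agent.S3864
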