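import Cfsg.Statements.S3867
import Cfsg.Agent.H64.Basic

set_option autoImplicit false
open Cfsg

namespace Cfsg.Agent.S3867

open Cfsg.Agent.H64

/-- Let M and N be nontrivial normal subgroups of the finite group G with M ⊓ N trivial, and let p be a prime. Writing n(X) for the number of Sylow p-subgroups of a group X, one has n(G) · n(G/MN) = n(G/M) · n(G/N). -/
theorem result {G : Type*} [Group G] [Finite G] (p : ℕ) [Fact p.Prime] (M N : Subgroup G) [M.Normal] [N.Normal] (hM : M ≠ ⊥) (hN : N ≠ ⊥) (hMN : M ⊓ N = ⊥) : Nat.card (Sylow p G) * Nat.card (Sylow p (G ⧸ (M ⊔ N))) = Nat.card (Sylow p (G ⧸ M)) * Nat.card (Sylow p (G ⧸ N)) := by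
  obtain ⟨P⟩ : Nonempty (Sylow p G) := inferInstance
  rw [card_sylow_quotient P, card_sylow_quotient P, card_sylow_quotient P, Sylow.card_eq_index_normalizer P]
  change (Subgroup.normalizer ((P : Subgroup G) : Set G)).index * _ = _
  set A := Subgroup.normalizer ((P : Subgroup G) : Set G) with hA
  -- M ∩ A = M ∩ (N ⊔ A)
  have key : M ⊓ A = M ⊓ (N ⊔ A) := by
    apply le_antisymm (inf_le_inf_left _ le_sup_right)
    rintro m ⟨hm, hmA⟩
    refine ⟨hm, ?_⟩
    rw [hA, ← normalizer_sup_sylow] at hmA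
    -- the subgroup PN ∩ M is a p-group normalized by P
    set L := ((P : Subgroup G) ⊔ N) ⊓ M with hL
    have hLp : IsPGroup p L := by
      -- L embeds in (P ⊔ N)/N
      have hinj : Function.Injective ((QuotientGroup.mk' N).comp L.subtype) := by
        rw [injective_iff_map_eq_one]
        intro x hx
        have h1 : (x : G) ∈ N := by
          rw [← QuotientGroup.eq_one_iff]; exact hx
        have h2 : (x : G) ∈ M ⊓ N := ⟨x.2.2, h1⟩
        rw [hMN, Subgroup.mem_bot] at h2
        exact Subtype.ext h2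
      have hr : ((QuotientGroup.mk' N).comp L.subtype).range ≤ (P : Subgroup G).map (QuotientGroup.mk' N) := by
        rintro _ ⟨x, rfl⟩
        have hx : (x : G) ∈ (P : Subgroup G) ⊔ N := x.2.1
        obtain ⟨y, hy, z, hz, hyz⟩ := Subgroup.mem_sup_of_normal_right.1 hx
        refine ⟨y, hy, ?_⟩
        simp only [MonoidHom.comp_apply, Subgroup.subtype_apply, QuotientGroup.mk'_apply]
        rw [← hyz, QuotientGroup.mk_mul, (QuotientGroup.eq_one_iff z).2 hz, mul_one]
      have hp : IsPGroup p (((QuotientGroup.mk' N).comp L.subtype).range) := (P.2.map _).to_le hr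
      exact hp.of_equiv (MonoidHom.ofInjective hinj).symm
    have hLnorm : (P : Subgroup G) ≤ Subgroup.normalizer (L : Set G) := by
      intro x hx
      rw [← map_conj_eq_self_iff, hL, Subgroup.map_inf_eq _ _ _ (MulAut.conj x).injective]
      congr 1
      · exact map_conj_eq_self_of_mem (Subgroup.mem_sup_left hx)
      · rw [map_conj_eq_self_iff, Subgroup.normalizer_eq_top]; trivial
    have hLP : L ≤ P := by
      have h1 : IsPGroup p ((P : Subgroup G) ⊔ L : Subgroup G) := IsPGroup.to_sup_of_normal_right' P.2 hLp hLnorm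
      have h2 := P.3 h1 le_sup_left
      rw [← h2]; exact le_sup_right
    show m ∈ Subgroup.normalizer ((P : Subgroup G) : Set G)
    rw [← map_conj_eq_self_iff]
    apply Subgroup.eq_of_le_of_card_ge _ (card_map_conj _ _).ge
    intro y hy
    rw [mem_map_conj] at hy
    -- y = m x m⁻¹ with x ∈ P
    set x := m⁻¹ * y * m with hx
    have hyx : y = (m * x * m⁻¹ * x⁻¹) * x := by rw [hx]; group
    have hmem : m * x * m⁻¹ * x⁻¹ ∈ L := by
      refine ⟨?_, ?_⟩
      · refine Subgroup.mul_mem _ ?_ (Subgroup.inv_mem _ (Subgroup.mem_sup_left hy))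
        have h3 := (Subgroup.mem_normalizer_iff.1 hmA x).1 (Subgroup.mem_sup_left hy)
        exact h3
      · have h4 : x * m⁻¹ * x⁻¹ ∈ M := Subgroup.Normal.conj_mem inferInstance _ (M.inv_mem hm) x
        have : m * x * m⁻¹ * x⁻¹ = m * (x * m⁻¹ * x⁻¹) := by group
        rw [this]
        exact M.mul_mem hm h4
    rw [hyx]
    exact (P : Subgroup G).mul_mem (hLP hmem) hy
  have h1 : A.relIndex (M ⊔ A) = (N ⊔ A).relIndex (M ⊔ (N ⊔ A)) := by
    rw [relIndex_sup_of_normal, relIndex_sup_of_normal, key]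
  have h2 : A.relIndex (M ⊔ A) * (M ⊔ A).index = A.index := Subgroup.relIndex_mul_index le_sup_right
  have h3 : (N ⊔ A).relIndex (M ⊔ (N ⊔ A)) * (M ⊔ (N ⊔ A)).index = (N ⊔ A).index :=
    Subgroup.relIndex_mul_index le_sup_right
  rw [sup_assoc, ← h2, ← h3, h1]
  ring

end Cfsg.Agent.S3867
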