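import Cfsg.Statements.S3895
import Cfsg.Agent.H65.ClassCount

set_option autoImplicit false
open Cfsg

namespace Cfsg.Agent.S3895

open Subgroup Cfsg.Agent.H65

theorem npc_of_kcl {G : Type*} [Group G] [Finite G] (P : Sylow 2 G)
    (h : Nat.card P < 2 * kcl {2} G) : Cfsg.HasNormalPComplement 2 G := by
  by_contra hn
  obtain ⟨P', Q, A, r, hr, hrp, _, hQP, hAN, hA, hAC, hcen⟩ := exists_frobenius_witness hn
  obtain ⟨t1, t2, h1, h2, h3⟩ := count_bound P' Q A hr hQP hAN hA hcen
  have h4 := four_mul_card_le hr hrp (P'.2.to_le hQP) hAN hA hAC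
  have h5 : Nat.card P' = Nat.card P := Nat.card_congr (P'.equiv P).toEquiv
  have h6 : 3 ≤ r := by
    have := hr.two_le
    omega
  have h7 : 3 * t2 ≤ r * t2 := Nat.mul_le_mul_right _ h6
  rw [← h5] at h
  have h8 : Nat.card (P' : Subgroup G) = Nat.card P' := rfl
  omega

/-- Let G be a finite group with Sylow 2-subgroup P, and write k₂(G) for the number of conjugacy classes of G consisting of 2-elements (elements of 2-power order, the identity included). Then k₂(G) > |P|/2 if and only if G has a normal 2-complement and P has more than |P|/2 conjugacy classes. -/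
theorem result {G : Type*} [Group G] [Finite G] (P : Sylow 2 G) :
    Nat.card ↥(P : Subgroup G) < 2 * Nat.card {c : ConjClasses G // ∀ x ∈ c.carrier, ∃ k : ℕ, orderOf x = 2 ^ k} ↔
      Cfsg.HasNormalPComplement 2 G ∧ Nat.card ↥(P : Subgroup G) < 2 * Nat.card (ConjClasses ↥(P : Subgroup G)) := by
  rw [← kcl_singleton Nat.prime_two]
  constructor
  · intro h
    refine ⟨npc_of_kcl P h, lt_of_lt_of_le h ?_⟩
    exact Nat.mul_le_mul_left _ (kcl_le_conjClasses P)
  · rintro ⟨h1, h2⟩
    exact lt_of_lt_of_le h2 (Nat.mul_le_mul_left _ (conjClasses_le_kcl P h1))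

end Cfsg.Agent.S3895
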