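import Cfsg.Statements.S3897
import Cfsg.Agent.H65.ClassCount

set_option autoImplicit false
open Cfsg

namespace Cfsg.Agent.S3897

open Subgroup Cfsg.Agent.H65

theorem npc_of_kcl {G : Type*} [Group G] [Finite G] {p : ℕ} [Fact p.Prime] (hp : p ≠ 2) (P : Sylow p G)
    (h : (p + 1) * Nat.card P < 2 * p * kcl {p} G) : Cfsg.HasNormalPComplement p G := by
  have hpp : p.Prime := Fact.out
  by_contra hn
  obtain ⟨P', Q, A, r, hr, hrp, _, hQP, hAN, hA, hAC, hcen⟩ := exists_frobenius_witness hn
  obtain ⟨t1, t2, h1, h2, h3⟩ := count_bound P' Q A hr hQP hAN hA hcen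
  have h4 : p * Nat.card (Q ⊓ centralizer (A : Set G) : Subgroup G) ≤ Nat.card Q := by
    apply mul_card_le_of_lt (P'.2.to_le hQP)
    refine lt_of_le_of_ne inf_le_left ?_
    intro h
    apply hAC
    intro a ha
    rw [mem_centralizer_iff]
    intro q hq
    have : q ∈ Q ⊓ centralizer (A : Set G) := by rw [h]; exact hq
    have := (mem_inf.mp this).2
    rw [mem_centralizer_iff] at this
    exact (this a ha).symm
  have h5 : Nat.card P' = Nat.card P := Nat.card_congr (P'.equiv P).toEquiv
  have h6 : 2 ≤ r := hr.two_le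
  rw [← h5] at h
  set q := Nat.card Q
  set f := Nat.card (Q ⊓ centralizer (A : Set G) : Subgroup G)
  set n := Nat.card P'
  have h7 : 2 * t2 + f ≤ q := le_trans (by gcongr) h3
  have hp3 : 3 ≤ p := by
    have := hpp.two_le
    omega
  have hqn : q ≤ n := by
    have := Nat.zero_le (p * t1)
    omega
  -- 2 p k ≤ 2 p t1 + 2 p t2 + 2 p f
  have e1 : 2 * p * kcl {p} G ≤ 2 * (p * t1) + p * (2 * t2) + 2 * (p * f) := by
    calc 2 * p * kcl {p} G ≤ 2 * p * (t1 + t2 + f) := Nat.mul_le_mul_left _ h1
      _ = _ := by ring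
  have e2 : p * (2 * t2 + f) ≤ p * q := Nat.mul_le_mul_left _ h7
  have e3 : p * q ≤ p * n := Nat.mul_le_mul_left _ hqn
  nlinarith

theorem comm_of_conjClasses {H : Type*} [Group H] [Finite H] {p : ℕ} [Fact p.Prime]
    (hH : IsPGroup p H) (h : (p + 1) * Nat.card H < 2 * p * Nat.card (ConjClasses H)) :
    IsMulCommutative H := by
  have hpp : p.Prime := Fact.out
  by_contra hna
  obtain ⟨t, h1, h2⟩ := conjClasses_bound hH
  have h3 := sq_mul_card_center_le hH hna
  set z := Nat.card (center H)
  set n := Nat.card H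
  have hp2 := hpp.two_le
  have e1 : 2 * p * Nat.card (ConjClasses H) ≤ 2 * (p * t) + 2 * (p * z) := by
    calc 2 * p * Nat.card (ConjClasses H) ≤ 2 * p * (t + z) := Nat.mul_le_mul_left _ h1
      _ = _ := by ring
  have e4 : 2 * p * z ≤ p ^ 2 * z := by
    apply Nat.mul_le_mul_right
    nlinarith
  nlinarith

/-- Let p be an odd prime and G a finite group with Sylow p-subgroup P, and write k_p(G) for the number of conjugacy classes of G consisting of p-elements (elements of p-power order, the identity included). Then k_p(G) > (p + 1)|P|/(2p) if and only if G has a normal p-complement and P is abelian. -/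
theorem result {G : Type*} [Group G] [Finite G] {p : ℕ} [Fact p.Prime] (hp : p ≠ 2) (P : Sylow p G) :
    (p + 1) * Nat.card ↥(P : Subgroup G) < 2 * p * Nat.card {c : ConjClasses G // ∀ x ∈ c.carrier, ∃ k : ℕ, orderOf x = p ^ k} ↔
      Cfsg.HasNormalPComplement p G ∧ IsMulCommutative ↥(P : Subgroup G) := by
  have hpp : p.Prime := Fact.out
  rw [← kcl_singleton hpp]
  constructor
  · intro h
    refine ⟨npc_of_kcl hp P h, ?_⟩
    apply comm_of_conjClasses P.2
    exact lt_of_lt_of_le h (Nat.mul_le_mul_left _ (kcl_le_conjClasses P))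
  · rintro ⟨h1, h2⟩
    have h3 := conjClasses_le_kcl P h1
    have h4 : Nat.card ↥(P : Subgroup G) ≤ Nat.card (ConjClasses ↥(P : Subgroup G)) := by
      apply Nat.card_le_card_of_injective ConjClasses.mk
      intro x y hxy
      rw [ConjClasses.mk_eq_mk_iff_isConj, isConj_iff] at hxy
      obtain ⟨c, hc⟩ := hxy
      rw [mul_comm' c x] at hc
      simpa using hc
    have h5 : 0 < Nat.card ↥(P : Subgroup G) := Nat.card_pos
    have hp3 := hpp.two_le
    calc (p + 1) * Nat.card ↥(P : Subgroup G) < 2 * p * Nat.card ↥(P : Subgroup G) := by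
          apply Nat.mul_lt_mul_of_pos_right _ h5
          omega
      _ ≤ 2 * p * kcl {p} G := Nat.mul_le_mul_left _ (h4.trans h3)

end Cfsg.Agent.S3897
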