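import Cfsg.Statements.S3898
import Cfsg.Agent.H65.PiCount
import Cfsg.Agent.S3895

set_option autoImplicit false
open Cfsg

namespace Cfsg.Agent.S3898

open Subgroup Cfsg.Agent.H65 Cfsg.Agent.Transfer

/-- classes of `r`-elements pass to a normal subgroup of index prime to `r`. -/
theorem kcl_le_normal {G : Type*} [Group G] [Finite G] {r : ℕ} (hr : r.Prime) (K : Subgroup G)
    [K.Normal] (hK : ¬ r ∣ K.index) : kcl {r} G ≤ kcl {r} K := by
  let f : {c : ConjClasses K // ∀ x ∈ c.carrier, PiEl {r} x} →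
      {c : ConjClasses G // ∀ x ∈ c.carrier, PiEl {r} x} :=
    fun c => ⟨ConjClasses.map K.subtype c.1, by
      obtain ⟨c, hc⟩ := c
      obtain ⟨x, rfl⟩ := ConjClasses.exists_rep c
      change ∀ y ∈ (ConjClasses.mk (x : G)).carrier, PiEl {r} y
      rw [forall_carrier_iff, piEl_singleton_iff hr] at hc ⊢
      obtain ⟨k, hk⟩ := hc
      exact ⟨k, by rw [← hk, orderOf_coe]⟩⟩
  apply Nat.card_le_card_of_surjective f
  rintro ⟨c, hc⟩
  obtain ⟨x, rfl⟩ := ConjClasses.exists_rep c
  rw [forall_carrier_iff, piEl_singleton_iff hr] at hc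
  obtain ⟨k, hk⟩ := hc
  have hxK : x ∈ K := by
    rw [← QuotientGroup.eq_one_iff, ← orderOf_eq_one_iff]
    have h1 : orderOf (QuotientGroup.mk x : G ⧸ K) ∣ r ^ k := hk ▸ orderOf_map_dvd (QuotientGroup.mk' K) x
    have h2 : orderOf (QuotientGroup.mk x : G ⧸ K) ∣ K.index := by
      rw [index_eq_card]; exact orderOf_dvd_natCard _
    have h3 : Nat.Coprime (r ^ k) K.index := Nat.Coprime.pow_left _ ((Nat.Prime.coprime_iff_not_dvd hr).mpr hK)
    exact Nat.eq_one_of_dvd_coprimes h3 h1 h2
  refine ⟨⟨ConjClasses.mk ⟨x, hxK⟩, ?_⟩, ?_⟩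
  · rw [forall_carrier_iff, piEl_singleton_iff hr]
    exact ⟨k, by rw [← hk, Subgroup.orderOf_mk]⟩
  · rfl

/-- An odd-order group with many classes of `r`-elements. -/
theorem odd_case {K : Type*} [Group K] [Finite K] {r : ℕ} [Fact r.Prime] (hr2 : r ≠ 2)
    (hodd : ¬ 2 ∣ Nat.card K) (P : Sylow r K) (h : Nat.card P < 2 * kcl {r} K) :
    Cfsg.HasNormalPComplement r K ∧ IsMulCommutative P := by
  have hr : r.Prime := Fact.out
  have hr3 : 3 ≤ r := by have := hr.two_le; omega
  refine ⟨?_, ?_⟩
  · by_contra hn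
    obtain ⟨P', Q, A, q, hq, hqr, hqK, hQP, hAN, hA, hAC, hcen⟩ := exists_frobenius_witness hn
    obtain ⟨t1, t2, h1, h2, h3⟩ := count_bound P' Q A hq hQP hAN hA hcen
    have h4 : r * Nat.card (Q ⊓ centralizer (A : Set K) : Subgroup K) ≤ Nat.card Q := by
      apply mul_card_le_of_lt (P'.2.to_le hQP)
      refine lt_of_le_of_ne inf_le_left ?_
      intro h
      apply hAC
      intro a ha
      rw [mem_centralizer_iff]
      intro q hq
      have : q ∈ Q ⊓ centralizer (A : Set K) := by rw [h]; exact hq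
      have := (mem_inf.mp this).2
      rw [mem_centralizer_iff] at this
      exact (this a ha).symm
    have h5 : Nat.card P' = Nat.card P := Nat.card_congr (P'.equiv P).toEquiv
    rw [← h5] at h
    have hq2 : q ≠ 2 := by rintro rfl; exact hodd hqK
    have hq3 : 3 ≤ q := by have := hq.two_le; omega
    set m := Nat.card Q
    set f := Nat.card (Q ⊓ centralizer (A : Set K) : Subgroup K)
    set n := Nat.card P'
    have h6 : 3 * t2 ≤ q * t2 := Nat.mul_le_mul_right _ hq3
    rcases Nat.lt_or_ge r 4 with h7 | h7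
    · have hr' : r = 3 := by omega
      subst hr'
      have hq5 : 5 ≤ q := by
        have : q ≠ 4 := by rintro rfl; revert hq; decide
        omega
      have h8 : 5 * t2 ≤ q * t2 := Nat.mul_le_mul_right _ hq5
      omega
    · rcases Nat.lt_or_ge r 6 with h8 | h8
      · have hr' : r = 5 := by
          have : r ≠ 4 := by rintro rfl; revert hr; decide
          omega
        subst hr'
        omega
      · have h9 : 7 ≤ r := by
          have : r ≠ 6 := by rintro rfl; revert hr; decide
          omega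
        have h10 : 7 * t1 ≤ r * t1 := Nat.mul_le_mul_right _ h9
        have h11 : 7 * f ≤ r * f := Nat.mul_le_mul_right _ h9
        omega
  · by_contra hna
    obtain ⟨t, h1, h2⟩ := conjClasses_bound P.2
    have h3 := sq_mul_card_center_le P.2 hna
    have h4 := kcl_le_conjClasses P
    set z := Nat.card (center P)
    set n := Nat.card P
    have h5 : 3 * t ≤ r * t := Nat.mul_le_mul_right _ hr3
    have h6 : 9 * z ≤ r ^ 2 * z := Nat.mul_le_mul_right _ (by nlinarith)
    omega

/-- Let π be a finite set of primes containing 2 and G a finite group. Write k_π(G) for the number of conjugacy classes of G consisting of π-elements (elements all of whose order's prime divisors lie in π) and |G|_π for the π-part of the order of G. If k_π(G) > |G|_π/2, then G has a normal π-complement (a normal subgroup of order prime to π whose index is a π-number) and an abelian Hall subgroup for the set of odd primes in π. -/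
theorem result {G : Type*} [Group G] [Finite G] (π : Finset ℕ) (hπ : ∀ r ∈ π, r.Prime) (h2 : 2 ∈ π)
    (hk : π.prod (fun r => r ^ (Nat.card G).factorization r) < 2 * Nat.card {c : ConjClasses G // ∀ x ∈ c.carrier, ∀ r : ℕ, r.Prime → r ∣ orderOf x → r ∈ π}) :
    (∃ N : Subgroup G, N.Normal ∧ (∀ r : ℕ, r.Prime → r ∣ Nat.card ↥N → r ∉ π) ∧ ∀ r : ℕ, r.Prime → r ∣ N.index → r ∈ π) ∧ ∃ H : Subgroup G, Cfsg.IsPiHall ((↑π : Set ℕ) \ {2}) H ∧ IsMulCommutative ↥H := by
  have hk' : π.prod (fun r => r ^ (Nat.card G).factorization r) < 2 * kcl (π : Set ℕ) G := hk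
  set B := π.prod (fun r => r ^ (Nat.card G).factorization r) with hB
  have hBpos : 0 < B := Finset.prod_pos (fun r hr => pow_pos (hπ r hr).pos _)
  have key : ∀ r ∈ π, r ^ (Nat.card G).factorization r < 2 * kcl {r} G := by
    intro r hr
    have hrp := hπ r hr
    have h1 := kcl_le_mul (G := G) π hπ hr
    rw [← hB] at h1
    set V := r ^ (Nat.card G).factorization r with hV
    have hVpos : 0 < V := pow_pos hrp.pos _
    have e1 : V * B < (2 * kcl {r} G) * B := by
      calc V * B = B * V := by ring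
        _ < (2 * kcl (π : Set ℕ) G) * V := Nat.mul_lt_mul_of_pos_right hk' hVpos
        _ = 2 * (kcl (π : Set ℕ) G * V) := by ring
        _ ≤ 2 * (kcl {r} G * B) := Nat.mul_le_mul_left _ h1
        _ = _ := by ring
    exact lt_of_mul_lt_mul_right e1 (Nat.zero_le _)
  have : Fact (Nat.Prime 2) := ⟨Nat.prime_two⟩
  have hn2 : Cfsg.HasNormalPComplement 2 G := by
    apply S3895.npc_of_kcl (default : Sylow 2 G)
    rw [Sylow.card_eq_multiplicity]
    exact key 2 h2
  obtain ⟨K, hKn, hK2, k, hKi⟩ := hasNPC_iff_exists.mp hn2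
  have hKodd : ¬ 2 ∣ Nat.card K := fun h => by
    have := Nat.Coprime.eq_one_of_dvd (Nat.Coprime.coprime_dvd_left h hK2) dvd_rfl
    omega
  let σ : Finset ℕ := π.erase 2
  have hσ : ∀ r ∈ σ, r.Prime := fun r hr => hπ r (Finset.mem_of_mem_erase hr)
  have keyK : ∀ r ∈ σ, Cfsg.HasNormalPComplement r K ∧ ∀ P : Sylow r K, IsMulCommutative P := by
    intro r hr
    have hrp := hσ r hr
    have : Fact r.Prime := ⟨hrp⟩
    have hr2 : r ≠ 2 := Finset.ne_of_mem_erase hr
    have hri : ¬ r ∣ K.index := by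
      rw [hKi]
      intro h
      exact hr2 ((Nat.prime_dvd_prime_iff_eq hrp Nat.prime_two).mp (hrp.dvd_of_dvd_pow h))
    have h1 : (Nat.card G).factorization r = (Nat.card K).factorization r := by
      rw [← K.card_mul_index, Nat.factorization_mul Nat.card_pos.ne' (by rw [hKi]; positivity)]
      simp [Nat.factorization_eq_zero_of_not_dvd hri]
    have h3 : ∀ P : Sylow r K, Nat.card P < 2 * kcl {r} K := by
      intro P
      rw [P.card_eq_multiplicity, ← h1]
      exact lt_of_lt_of_le (key r (Finset.mem_of_mem_erase hr))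
        (Nat.mul_le_mul_left _ (kcl_le_normal hrp K hri))
    exact ⟨(odd_case hr2 hKodd default (h3 _)).1, fun P => (odd_case hr2 hKodd P (h3 P)).2⟩
  obtain ⟨N, hNc, hN1, hN2, H, hH, hHc⟩ := structure_of_npc σ hσ keyK
  have hcN : Nat.card (N.map K.subtype) = Nat.card N :=
    Nat.card_congr (N.equivMapOfInjective K.subtype K.subtype_injective).symm.toEquiv
  have hcH : Nat.card (H.map K.subtype) = Nat.card H :=
    Nat.card_congr (H.equivMapOfInjective K.subtype K.subtype_injective).symm.toEquiv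
  have hiN : (N.map K.subtype).index = N.index * K.index := by
    rw [index_map_subtype]
  have hiH : (H.map K.subtype).index = H.index * K.index := by
    rw [index_map_subtype]
  have hdvd2 : ∀ r : ℕ, r.Prime → r ∣ K.index → r = 2 := by
    intro r hr h
    rw [hKi] at h
    exact (Nat.prime_dvd_prime_iff_eq hr Nat.prime_two).mp (hr.dvd_of_dvd_pow h)
  refine ⟨⟨N.map K.subtype, inferInstance, ?_, ?_⟩, H.map K.subtype, ⟨?_, ?_⟩, ?_⟩
  · intro r hr hrd hrπ
    rw [hcN] at hrd
    by_cases hr2 : r = 2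
    · subst hr2
      exact hKodd (hrd.trans (Subgroup.card_subgroup_dvd_card N))
    · exact hN1 r hr hrd (Finset.mem_erase.mpr ⟨hr2, hrπ⟩)
  · intro r hr hrd
    rw [hiN] at hrd
    rcases (Nat.Prime.dvd_mul hr).mp hrd with h | h
    · exact Finset.mem_of_mem_erase (hN2 r hr h)
    · rw [hdvd2 r hr h]; exact h2
  · intro r hr hrd
    rw [hcH, ← hH.symm.index_eq_card] at hrd
    have := hN2 r hr hrd
    exact ⟨Finset.mem_of_mem_erase this, Finset.ne_of_mem_erase this⟩
  · rintro r hr ⟨hrπ, hr2⟩ hrd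
    rw [hiH] at hrd
    rcases (Nat.Prime.dvd_mul hr).mp hrd with h | h
    · rw [hH.index_eq_card] at h
      exact hN1 r hr h (Finset.mem_erase.mpr ⟨hr2, hrπ⟩)
    · exact hr2 (hdvd2 r hr h)
  · apply IsMulCommutative.of_comm
    rintro ⟨_, x, hx, rfl⟩ ⟨_, y, hy, rfl⟩
    apply Subtype.ext
    have := mul_comm' (⟨x, hx⟩ : H) ⟨y, hy⟩
    have h9 : x * y = y * x := congrArg Subtype.val this
    change K.subtype x * K.subtype y = K.subtype y * K.subtype x
    rw [← map_mul, ← map_mul, h9]

end Cfsg.Agent.S3898
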