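import Cfsg.Statements.S3899
import Cfsg.Agent.H65.PiCount
import Cfsg.Agent.S3897

set_option autoImplicit false
open Cfsg

namespace Cfsg.Agent.S3899

open Subgroup Cfsg.Agent.H65

/-- Let π be a finite non-empty set of odd primes with smallest member p and G a finite group. Write k_π(G) for the number of conjugacy classes of G consisting of π-elements (elements all of whose order's prime divisors lie in π) and |G|_π for the π-part of the order of G. If k_π(G) > (p + 1)|G|_π/(2p), then G has a normal π-complement (a normal subgroup of order prime to π whose index is a π-number) and an abelian Hall π-subgroup. -/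
theorem result {G : Type*} [Group G] [Finite G] (π : Finset ℕ) (hπ : ∀ r ∈ π, r.Prime) (h2 : 2 ∉ π) (p : ℕ) (hp : p ∈ π)
    (hmin : ∀ r ∈ π, p ≤ r) (hk : (p + 1) * π.prod (fun r => r ^ (Nat.card G).factorization r) < 2 * p * Nat.card {c : ConjClasses G // ∀ x ∈ c.carrier, ∀ r : ℕ, r.Prime → r ∣ orderOf x → r ∈ π}) :
    (∃ N : Subgroup G, N.Normal ∧ (∀ r : ℕ, r.Prime → r ∣ Nat.card ↥N → r ∉ π) ∧ ∀ r : ℕ, r.Prime → r ∣ N.index → r ∈ π) ∧ ∃ H : Subgroup G, Cfsg.IsPiHall (↑π : Set ℕ) H ∧ IsMulCommutative ↥H := by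
  have hk' : (p + 1) * π.prod (fun r => r ^ (Nat.card G).factorization r) < 2 * p * kcl (π : Set ℕ) G := hk
  set B := π.prod (fun r => r ^ (Nat.card G).factorization r) with hB
  have hBpos : 0 < B := Finset.prod_pos (fun r hr => pow_pos (hπ r hr).pos _)
  have hpp : p.Prime := hπ p hp
  have key : ∀ r ∈ π, Cfsg.HasNormalPComplement r G ∧ ∀ P : Sylow r G, IsMulCommutative P := by
    intro r hr
    have hrp := hπ r hr
    have : Fact r.Prime := ⟨hrp⟩
    have hr2 : r ≠ 2 := fun h => h2 (h ▸ hr)
    have h1 := kcl_le_mul (G := G) π hπ hr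
    rw [← hB] at h1
    set V := r ^ (Nat.card G).factorization r with hV
    have hVpos : 0 < V := pow_pos hrp.pos _
    have h3 : (p + 1) * V < 2 * p * kcl {r} G := by
      have e1 : ((p + 1) * V) * B < (2 * p * kcl {r} G) * B := by
        calc ((p + 1) * V) * B = ((p + 1) * B) * V := by ring
          _ < (2 * p * kcl (π : Set ℕ) G) * V := Nat.mul_lt_mul_of_pos_right hk' hVpos
          _ = 2 * p * (kcl (π : Set ℕ) G * V) := by ring
          _ ≤ 2 * p * (kcl {r} G * B) := Nat.mul_le_mul_left _ h1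
          _ = _ := by ring
      exact lt_of_mul_lt_mul_right e1 (Nat.zero_le _)
    have h4 : (r + 1) * V < 2 * r * kcl {r} G := by
      have e2 : ((r + 1) * V) * p < (2 * r * kcl {r} G) * p := by
        calc ((r + 1) * V) * p = (r * p + p) * V := by ring
          _ ≤ (r * p + r) * V := Nat.mul_le_mul_right _ (Nat.add_le_add_left (hmin r hr) _)
          _ = r * ((p + 1) * V) := by ring
          _ < r * (2 * p * kcl {r} G) := Nat.mul_lt_mul_of_pos_left h3 hrp.pos
          _ = _ := by ring
      exact lt_of_mul_lt_mul_right e2 (Nat.zero_le _)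
    have h5 : ∀ P : Sylow r G, (r + 1) * Nat.card P < 2 * r * kcl {r} G := by
      intro P
      rw [P.card_eq_multiplicity]
      exact h4
    refine ⟨S3897.npc_of_kcl hr2 (default : Sylow r G) (h5 _), fun P => ?_⟩
    apply S3897.comm_of_conjClasses P.2
    exact lt_of_lt_of_le (h5 P) (Nat.mul_le_mul_left _ (kcl_le_conjClasses P))
  obtain ⟨N, hNc, hN1, hN2, H, hH, hHc⟩ := structure_of_npc π hπ key
  refine ⟨⟨N, inferInstance, hN1, hN2⟩, H, ⟨?_, ?_⟩, hHc⟩
  · intro r hr hrd
    rw [← hH.symm.index_eq_card] at hrd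
    exact hN2 r hr hrd
  · intro r hr hrπ hrd
    rw [hH.index_eq_card] at hrd
    exact hN1 r hr hrd hrπ

end Cfsg.Agent.S3899
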