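import Cfsg.Statements.S3900
import Cfsg.Agent.H71.LcsVal5
import Cfsg.Agent.H52.Nilp
import Cfsg.Agent.S0199

set_option autoImplicit false
open Cfsg

namespace Cfsg.Agent.S3900

open Subgroup
open scoped commutatorElement
open Cfsg.Agent.H71 Cfsg.Agent.H71.LcsVal
open Cfsg.Agent.H71.TwoMix (PEl)

universe u

theorem two_invol_solv {Q : Type*} [Group Q] [Finite Q] {a b : Q} (ha : a * a = 1) (hb : b * b = 1)
    (h : zpowers a ⊔ zpowers b = ⊤) : Group.IsSolvable Q := by
  have hai : a⁻¹ = a := inv_eq_of_mul_eq_one_left ha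
  have hbi : b⁻¹ = b := inv_eq_of_mul_eq_one_left hb
  have hinv : ∀ c : Q, c * (a * b) * c⁻¹ = (a * b)⁻¹ →
      c ∈ normalizer ((zpowers (a * b) : Subgroup Q) : Set Q) := by
    intro c hc
    apply TwoMix.mem_norm
    intro x hx
    obtain ⟨m, rfl⟩ := mem_zpowers_iff.1 hx
    rw [← conj_zpow, hc]
    exact zpow_mem (inv_mem (mem_zpowers _)) m
  have h1 : a * (a * b) * a⁻¹ = (a * b)⁻¹ := by
    rw [← mul_assoc, ha, one_mul, mul_inv_rev, hbi]
  have h2 : b * (a * b) * b⁻¹ = (a * b)⁻¹ := by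
    rw [mul_inv_rev, hbi, hai, mul_assoc, mul_assoc, hb, mul_one]
  haveI hn : (zpowers (a * b)).Normal := by
    rw [← normalizer_eq_top_iff, eq_top_iff, ← h]
    refine sup_le ?_ ?_
    · rw [zpowers_le]; exact hinv a h1
    · rw [zpowers_le]; exact hinv b h2
  have hs1 : Group.IsSolvable ↥(zpowers (a * b)) := by
    apply Group.isSolvable_of_comm
    rintro ⟨x, hx⟩ ⟨y, hy⟩
    obtain ⟨m, rfl⟩ := mem_zpowers_iff.1 hx
    obtain ⟨n, rfl⟩ := mem_zpowers_iff.1 hy
    apply Subtype.ext
    show (a * b) ^ m * (a * b) ^ n = (a * b) ^ n * (a * b) ^ m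
    rw [← zpow_add, ← zpow_add, add_comm]
  have hs2 : Group.IsSolvable (Q ⧸ zpowers (a * b)) := by
    have hall : ∀ g : Q, QuotientGroup.mk' (zpowers (a * b)) g ∈ zpowers (QuotientGroup.mk' (zpowers (a * b)) a) := by
      intro g
      have h3 : (⊤ : Subgroup Q) ≤
          (zpowers (QuotientGroup.mk' (zpowers (a * b)) a)).comap (QuotientGroup.mk' (zpowers (a * b))) := by
        rw [← h]
        refine sup_le ?_ ?_
        · rw [zpowers_le]; exact mem_zpowers _
        · rw [zpowers_le, mem_comap]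
          have h4 : QuotientGroup.mk' (zpowers (a * b)) b = (QuotientGroup.mk' (zpowers (a * b)) a)⁻¹ := by
            rw [eq_inv_iff_mul_eq_one, ← map_mul]
            have h5 : b * a ∈ zpowers (a * b) := by
              have : b * a = (a * b)⁻¹ := by rw [mul_inv_rev, hai, hbi]
              rw [this]
              exact inv_mem (mem_zpowers _)
            exact (QuotientGroup.eq_one_iff _).2 h5
          rw [h4]
          exact inv_mem (mem_zpowers _)
      exact h3 (mem_top g)
    apply Group.isSolvable_of_comm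
    intro x y
    obtain ⟨g, rfl⟩ := QuotientGroup.mk'_surjective (zpowers (a * b)) x
    obtain ⟨g', rfl⟩ := QuotientGroup.mk'_surjective (zpowers (a * b)) y
    obtain ⟨m, hm⟩ := mem_zpowers_iff.1 (hall g)
    obtain ⟨n, hn⟩ := mem_zpowers_iff.1 (hall g')
    rw [← hm, ← hn, ← zpow_add, ← zpow_add, add_comm]
  haveI := hs1
  haveI := hs2
  exact Group.isSolvable_of_ker_le_range (zpowers (a * b)).subtype (QuotientGroup.mk' (zpowers (a * b))) (by simp)

theorem proper_solv {X : Type*} [Group X] (k : ℕ)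
    (hK : Group.IsNilpotent ↥((⊤ : Subgroup X).lowerCentralSeries k)) : Group.IsSolvable X := by
  haveI := hK
  haveI := quot_lcs_nilpotent (X := X) k
  exact Group.isSolvable_of_ker_le_range ((⊤ : Subgroup X).lowerCentralSeries k).subtype
    (QuotientGroup.mk' ((⊤ : Subgroup X).lowerCentralSeries k)) (by simp)

theorem claimA {G : Type*} [Group G] [Finite G] {k : ℕ} (hPP : PP G k)
    (hns : ¬ Group.IsSolvable (G ⧸ Cfsg.pCore 2 G))
    (hprop : ∀ H : Subgroup G, H ≠ ⊤ → Group.IsNilpotent ((⊤ : Subgroup ↥H).lowerCentralSeries k))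
    {x : G} (hx : x ∈ V (⊤ : Subgroup G) k) (hx2 : PEl 2 x)
    (hxx : (QuotientGroup.mk' (Cfsg.pCore 2 G) x) ^ 2 = 1) : QuotientGroup.mk' (Cfsg.pCore 2 G) x = 1 := by
  haveI : Fact (Nat.Prime 2) := ⟨Nat.prime_two⟩
  obtain ⟨π, hπ⟩ : ∃ π : G →* G ⧸ Cfsg.pCore 2 G, π = QuotientGroup.mk' (Cfsg.pCore 2 G) := ⟨_, rfl⟩
  have hπs : Function.Surjective π := by rw [hπ]; exact QuotientGroup.mk'_surjective _
  rw [← hπ] at hxx ⊢
  by_contra hne
  have hX : IsPGroup 2 ↥(zpowers (π x)) := (pel_map hx2 π).zpowers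
  apply hne
  obtain ⟨N, hNn, hNp, hXN⟩ := Cfsg.Agent.S0199.result (zpowers (π x)) hX (by
    intro g
    obtain ⟨g, rfl⟩ := hπs g
    have hmap : (zpowers (π x)).map (MulAut.conj (π g)).toMonoidHom = zpowers (π (g * x * g⁻¹)) := by
      rw [MonoidHom.map_zpowers]
      congr 1
      show π g * π x * (π g)⁻¹ = π (g * x * g⁻¹)
      rw [map_mul, map_mul, map_inv]
    rw [hmap]
    obtain ⟨H, hH⟩ : ∃ H : Subgroup G, H = (zpowers (π x) ⊔ zpowers (π (g * x * g⁻¹))).comap π := ⟨_, rfl⟩
    have hHt : H ≠ ⊤ := by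
      intro hHt
      apply hns
      have h1 : π x * π x = 1 := by rw [← pow_two]; exact hxx
      have h2 : π (g * x * g⁻¹) * π (g * x * g⁻¹) = 1 := by
        rw [← map_mul]
        have : g * x * g⁻¹ * (g * x * g⁻¹) = g * (x * x) * g⁻¹ := by group
        rw [this, map_mul, map_mul, map_mul, h1, mul_one, ← map_mul, mul_inv_cancel, map_one]
      apply two_invol_solv h1 h2
      rw [hH] at hHt
      rw [← map_comap_eq_self_of_surjective hπs (zpowers (π x) ⊔ zpowers (π (g * x * g⁻¹))), hHt,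
        ← MonoidHom.range_eq_map, MonoidHom.range_eq_top.2 hπs]
    have hKH := hprop H hHt
    have hxH : x ∈ H := by
      rw [hH, mem_comap]
      exact (le_sup_left : zpowers (π x) ≤ _) (mem_zpowers _)
    have hgH : g * x * g⁻¹ ∈ H := by
      rw [hH, mem_comap]
      exact (le_sup_right : zpowers (π (g * x * g⁻¹)) ≤ _) (mem_zpowers _)
    have h3 := mem_core hPP H hKH hx hxH hx2
    have h4 := mem_core hPP H hKH (V_conj' hx g) hgH (hx2.conj g)
    have h5 : IsPGroup 2 ↥(((Cfsg.pCore 2 ↥H).map H.subtype).map π) :=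
      ((Solv.pCore_isPGroup 2).map _).map _
    apply h5.to_le
    refine sup_le ?_ ?_
    · rw [zpowers_le]; exact ⟨x, h3, rfl⟩
    · rw [zpowers_le]; exact ⟨_, h4, rfl⟩)
  have h6 : π x ∈ Cfsg.pCore 2 (G ⧸ Cfsg.pCore 2 G) := Solv.le_pCore hNn hNp (hXN (mem_zpowers _))
  rw [Solv.pCore_quotient_pCore, mem_bot] at h6
  exact h6

theorem back (k : ℕ) : ∀ (n : ℕ) (G : Type u) [Group G] [Finite G], Nat.card G = n → PP G k →
    Group.IsNilpotent ↥((⊤ : Subgroup G).lowerCentralSeries k) := by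
  intro n
  induction n using Nat.strong_induction_on with
  | _ n ih =>
  intro G _ _ hn hPP
  have hprop : ∀ H : Subgroup G, H ≠ ⊤ → Group.IsNilpotent ((⊤ : Subgroup ↥H).lowerCentralSeries k) := by
    intro H hH
    apply ih (Nat.card ↥H) _ ↥H rfl (hPP.subgroup H)
    rw [← hn]
    refine lt_of_le_of_ne (Subgroup.card_le_card_group H) ?_
    intro h
    exact hH ((Subgroup.card_eq_iff_eq_top H).1 h)
  by_cases hG : Group.IsSolvable G
  · exact solv_case hPP hG hprop
  exfalso
  haveI : Fact (Nat.Prime 2) := ⟨Nat.prime_two⟩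
  have hNs : Group.IsSolvable ↥(Cfsg.pCore 2 G) := by
    haveI := (Solv.pCore_isPGroup (G := G) 2).isNilpotent
    infer_instance
  have hns : ¬ Group.IsSolvable (G ⧸ Cfsg.pCore 2 G) := by
    intro h
    apply hG
    haveI := hNs
    haveI := h
    exact Group.isSolvable_of_ker_le_range (Cfsg.pCore 2 G).subtype (QuotientGroup.mk' (Cfsg.pCore 2 G)) (by simp)
  have hA := fun (x : G) (hx : x ∈ V (⊤ : Subgroup G) k) (hx2 : PEl 2 x) => claimA hPP hns hprop hx hx2
  obtain ⟨π, hπ⟩ : ∃ π : G →* G ⧸ Cfsg.pCore 2 G, π = QuotientGroup.mk' (Cfsg.pCore 2 G) := ⟨_, rfl⟩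
  have hπs : Function.Surjective π := by rw [hπ]; exact QuotientGroup.mk'_surjective _
  rw [← hπ] at hA
  apply nons hns
  · -- proper subgroups are solvable
    intro H hH
    have h1 : H.comap π ≠ ⊤ := by
      intro h
      apply hH
      rw [← map_comap_eq_self_of_surjective hπs H, h, ← MonoidHom.range_eq_map, MonoidHom.range_eq_top.2 hπs]
    haveI := proper_solv k (hprop _ h1)
    apply Group.isSolvable_of_surjective (f := (π.comp (H.comap π).subtype).codRestrict H (fun x => x.2))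
    rintro ⟨y, hy⟩
    obtain ⟨g, rfl⟩ := hπs y
    exact ⟨⟨g, hy⟩, rfl⟩
  · exact Solv.pCore_quotient_pCore 2
  · intro E hE g hg hgE e he
    obtain ⟨g0, hg0⟩ := hπs g
    obtain ⟨e0, he0⟩ := hπs e
    obtain ⟨j, hj, hjc⟩ := lift_pprime Nat.prime_two π (n := g0) (by rw [hg0]; exact hg)
    rw [hg0] at hj
    have hEp : IsPGroup 2 ↥(E.comap π) := by
      have h1 : IsPGroup 2 ↥E := by
        intro x
        exact ⟨1, Subtype.ext (by rw [pow_one]; exact hE x x.2)⟩
      apply h1.comap_of_ker_isPGroup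
      rw [hπ, QuotientGroup.ker_mk']
      exact Solv.pCore_isPGroup 2
    have hnorm : ∀ q ∈ E.comap π, g0 ^ j * q * (g0 ^ j)⁻¹ ∈ E.comap π := by
      intro q hq
      rw [mem_comap, map_mul, map_mul, map_inv, hj]
      exact hgE _ hq
    have h2 : it (g0 ^ j) k e0 ∈ E.comap π := it_mem_Q hnorm (by rw [mem_comap, he0]; exact he) k
    have h3 := hA (it (g0 ^ j) k e0) (it_mem (mem_top _) (mem_top _) k) (TwoMix.pel_of_mem hEp h2) (hE _ h2)
    rw [it_map, hj, he0] at h3
    have h4 := engel hgE (fun q hq => by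
      have : orderOf q ∣ 2 := orderOf_dvd_of_pow_eq_one (hE q hq)
      exact Nat.Coprime.coprime_dvd_left this hg.symm) k e he h3
    exact commutatorElement_eq_one_iff_commute.1 h4

/-- A criterion of Baumslag–Wiegold type for a term of the lower central series. Let G be a finite group and k ≥ 0; call an element a left-normed commutator value of length k + 1 when it has the form [[…[x₀, x₁], …], x_k] with k + 1 entries (for k = 0, any element), where [a, b] = aba⁻¹b⁻¹. Then the (k+1)-st term γ_{k+1}(G) of the lower central series (γ₁(G) = G) is nilpotent if and only if for every two such values x, y of coprime orders, either every prime dividing o(x)·o(y) divides o(xy), or o(x)·o(y) ≤ o(xy). -/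
theorem result {G : Type*} [Group G] [Finite G] (k : ℕ) :
    Group.IsNilpotent ↥((⊤ : Subgroup G).lowerCentralSeries k) ↔
      ∀ x y : G, (∃ f : Fin (k + 1) → G, x = ((List.ofFn f).tail).foldl (fun a b => a * b * a⁻¹ * b⁻¹) (f 0)) → (∃ f : Fin (k + 1) → G, y = ((List.ofFn f).tail).foldl (fun a b => a * b * a⁻¹ * b⁻¹) (f 0)) → (orderOf x).Coprime (orderOf y) →
        (∀ r : ℕ, r.Prime → r ∣ orderOf x * orderOf y → r ∣ orderOf (x * y)) ∨ orderOf x * orderOf y ≤ orderOf (x * y) := by
  constructor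
  · intro hK x y hx hy hc
    right
    rw [fold_iff] at hx hy
    have hx' : x ∈ (⊤ : Subgroup G).lowerCentralSeries k := by rw [lcs_eq]; exact subset_closure hx
    have hy' : y ∈ (⊤ : Subgroup G).lowerCentralSeries k := by rw [lcs_eq]; exact subset_closure hy
    have h1 := H52.commute_of_isNilpotent_of_coprime hK (x := ⟨x, hx'⟩) (y := ⟨y, hy'⟩) (by
      rw [← orderOf_coe, ← orderOf_coe]; exact hc)
    have h2 : Commute x y := congrArg Subtype.val h1
    exact (h2.orderOf_mul_eq_mul_orderOf_of_coprime hc).ge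
  · intro h
    apply back k (Nat.card G) G rfl
    intro x hx y hy hc
    exact h x y ((fold_iff k x).2 hx) ((fold_iff k y).2 hy) hc

end Cfsg.Agent.S3900
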