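import Cfsg.Statements.S3903
import Cfsg.Agent.H65.Basic

set_option autoImplicit false
open Cfsg

namespace Cfsg.Agent.S3903

open Subgroup Cfsg.Agent.H65

/-- the centralizer of an element outside `N` is a `p`-group. -/
theorem centralizer_pgroup {G : Type*} [Group G] [Finite G] (N : Subgroup G) {p k : ℕ}
    (h : ∀ x : G, x ∉ N → IsPrimePow (orderOf x)) (hp : p.Prime) {x : G} (hx : x ∉ N)
    (hk : orderOf x = p ^ k) (hk0 : 0 < k) : IsPGroup p (Subgroup.centralizer ({x} : Set G)) := by
  apply isPGroup_of_forall_prime hp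
  rintro q hq ⟨y, hy⟩ hyq
  by_contra hqp
  have hyq' : orderOf y = q := by rw [← hyq, Subgroup.orderOf_mk]
  have hcomm : Commute x y := by
    have := Subgroup.mem_centralizer_singleton_iff.mp hy
    exact this.symm
  have hcop : Nat.Coprime (orderOf x) (orderOf y) := by
    rw [hk, hyq']
    exact Nat.Coprime.pow_left _ ((Nat.coprime_primes hp hq).mpr (Ne.symm hqp))
  have hord := hcomm.orderOf_mul_eq_mul_orderOf_of_coprime hcop
  by_cases hxy : x * y ∈ N
  · -- then x ^ q ∈ N
    have h1 : (x * y) ^ q ∈ N := N.pow_mem hxy q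
    rw [hcomm.mul_pow, ← hyq', pow_orderOf_eq_one, mul_one, hyq'] at h1
    have h2 : Nat.Coprime (orderOf x) q := hyq' ▸ hcop
    obtain ⟨m, hm⟩ := exists_pow_eq_self_of_coprime h2.symm
    rw [← hm] at hx
    exact hx (N.pow_mem h1 m)
  · have h3 := h _ hxy
    rw [hord, hk, hyq'] at h3
    obtain ⟨r, n, hr, hn, hrn⟩ := h3
    have hr' : r.Prime := hr.nat_prime
    have hpr : p ∣ r ^ n := hrn ▸ (Dvd.dvd.mul_right (dvd_pow_self p hk0.ne') q)
    have hqr : q ∣ r ^ n := hrn ▸ (Dvd.intro_left _ rfl)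
    have e1 := (Nat.prime_dvd_prime_iff_eq hp hr').mp (hp.dvd_of_dvd_pow hpr)
    have e2 := (Nat.prime_dvd_prime_iff_eq hq hr').mp (hq.dvd_of_dvd_pow hqr)
    exact hqp (e2.trans e1.symm)

/-- Let N be a proper normal subgroup of the finite group G such that every element x of G outside N has prime power order and has centralizer C_G(x) a maximal subgroup of G. Then N is solvable. -/
theorem result {G : Type*} [Group G] [Finite G] (N : Subgroup G) [N.Normal] (hN : N ≠ ⊤)
    (h : ∀ x : G, x ∉ N → IsPrimePow (orderOf x) ∧ IsCoatom (Subgroup.centralizer ({x} : Set G))) : Group.IsSolvable ↥N := by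
  obtain ⟨x, hx⟩ : ∃ x : G, x ∉ N := by
    by_contra h
    push Not at h
    exact hN ((Subgroup.eq_top_iff' N).mpr h)
  obtain ⟨⟨p, k, hp, hk, hxk⟩, hcx⟩ := h x hx
  have hp : p.Prime := hp.nat_prime
  have : Fact p.Prime := ⟨hp⟩
  have hxp := centralizer_pgroup N (fun x hx => (h x hx).1) hp hx hxk.symm hk
  -- a Sylow subgroup
  obtain ⟨P, hP⟩ := hxp.exists_le_sylow
  rcases eq_or_ne (P : Subgroup G) ⊤ with hPtop | hPtop
  · have : IsPGroup p G := by
      have := P.2
      rw [hPtop] at this
      exact this.of_equiv Subgroup.topEquiv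
    exact solvable_of_pgroup hp (this.to_subgroup N)
  have hPx : (P : Subgroup G) = Subgroup.centralizer ({x} : Set G) := by
    by_contra hne
    exact hPtop (hcx.2 _ (lt_of_le_of_ne hP (Ne.symm hne)))
  have hPc : IsCoatom (P : Subgroup G) := hPx ▸ hcx
  by_cases hNP : N ≤ P
  · exact solvable_of_pgroup hp (P.2.to_le hNP)
  have hsup : N ⊔ P = ⊤ := hPc.2 _ (lt_of_le_of_ne le_sup_right (fun e => hNP (e ▸ le_sup_left)))
  -- G/N is a p-group
  have hGN : IsPGroup p (G ⧸ N) := by
    have h1 : N.index = N.relIndex P := by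
      rw [← relIndex_top_right, ← hsup, relIndex_sup_left]
    have h2 : Nat.card (G ⧸ N) ∣ Nat.card P := by
      rw [← Subgroup.index_eq_card, h1]; exact relIndex_dvd_card _ _
    obtain ⟨n, hn⟩ := IsPGroup.iff_card.mp P.2
    exact IsPGroup.of_card_dvd_pow (n := n) (hn ▸ h2)
  -- elements outside N
  have hout : ∀ y : G, y ∉ N → IsPGroup p (Subgroup.centralizer ({y} : Set G)) := by
    intro y hy
    obtain ⟨⟨r, n, hr, hn, hrn⟩, hcy⟩ := h y hy
    have hr : r.Prime := hr.nat_prime
    have hpy : p ∣ orderOf y := by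
      have h1 : (QuotientGroup.mk y : G ⧸ N) ≠ 1 := by
        rw [Ne, QuotientGroup.eq_one_iff]; exact hy
      have h2 := hGN.dvd_orderOf h1
      exact h2.trans (orderOf_map_dvd (QuotientGroup.mk' N) y)
    have : p = r := by
      rw [← hrn] at hpy
      exact (Nat.prime_dvd_prime_iff_eq hp hr).mp (hp.dvd_of_dvd_pow hpy)
    subst this
    exact centralizer_pgroup N (fun x hx => (h x hx).1) hp hy hrn.symm hn
  have hcoat : ∀ R : Sylow p G, IsCoatom (R : Subgroup G) := by
    intro R
    obtain ⟨g, hg⟩ := MulAction.exists_smul_eq G P R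
    rw [← hg]
    exact isCoatom_smul g hPc
  have hsyl : ∀ y : G, y ∉ N → ∃ R : Sylow p G, (R : Subgroup G) = Subgroup.centralizer ({y} : Set G) := by
    intro y hy
    obtain ⟨R, hR⟩ := (hout y hy).exists_le_sylow
    refine ⟨R, ?_⟩
    by_contra hne
    exact (hcoat R).1 ((h y hy).2.2 _ (lt_of_le_of_ne hR (Ne.symm hne)))
  -- normalizers of p-subgroups not inside N are p-groups
  have hnorm : ∀ D : Subgroup G, IsPGroup p D → ¬ D ≤ N → IsPGroup p (normalizer (D : Set G)) := by
    intro D hD hDN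
    apply isPGroup_of_forall_prime hp
    rintro q hq ⟨w, hw⟩ hwq
    have hwq' : orderOf w = q := by rw [← hwq, Subgroup.orderOf_mk]
    by_contra hqp
    have : Fact q.Prime := ⟨hq⟩
    have hwN : w ∈ N := by
      rw [← QuotientGroup.eq_one_iff]
      by_contra hne
      have h1 := hGN.dvd_orderOf hne
      have h2 : orderOf (QuotientGroup.mk w : G ⧸ N) ∣ q := hwq' ▸ orderOf_map_dvd (QuotientGroup.mk' N) w
      exact hqp ((Nat.prime_dvd_prime_iff_eq hp hq).mp (h1.trans h2)).symm
    obtain ⟨d, hdD, hdN⟩ := SetLike.not_le_iff_exists.mp hDN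
    let X : Set G := {x | x ∈ D ∧ d⁻¹ * x ∈ N}
    have hcard : Nat.card X = Nat.card (D ⊓ N : Subgroup G) := by
      apply Nat.card_congr
      exact
        { toFun := fun x => ⟨d⁻¹ * x, D.mul_mem (D.inv_mem hdD) x.2.1, x.2.2⟩
          invFun := fun y => ⟨d * y, D.mul_mem hdD y.2.1, by
            have := y.2.2
            simpa using this⟩
          left_inv := fun x => by simp
          right_inv := fun y => by simp }
    have hA : IsPGroup q (zpowers w) := by
      apply IsPGroup.of_card (n := 1)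
      rw [Nat.card_zpowers, hwq', pow_one]
    obtain ⟨y, hyX, hy⟩ := exists_conj_fixed (zpowers w) hA X (by
      rintro a ha x ⟨hxD, hxN⟩
      have haN : a ∈ N := (Subgroup.zpowers_le.mpr hwN) ha
      have haD : a ∈ normalizer (D : Set G) := (Subgroup.zpowers_le.mpr hw) ha
      refine ⟨(mem_normalizer_iff.mp haD x).mp hxD, ?_⟩
      have e : d⁻¹ * (a * x * a⁻¹) = d⁻¹ * x * (x⁻¹ * a * x⁻¹⁻¹) * a⁻¹ := by group
      rw [e]
      exact N.mul_mem (N.mul_mem hxN (Subgroup.Normal.conj_mem inferInstance a haN x⁻¹)) (N.inv_mem haN))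
      (by
        rw [hcard]
        obtain ⟨n, hn⟩ := IsPGroup.iff_card.mp (hD.to_inf_left (K := N))
        rw [hn]
        intro hdvd
        exact hqp ((Nat.prime_dvd_prime_iff_eq hq hp).mp (hq.dvd_of_dvd_pow hdvd)))
    have hyN : y ∉ N := by
      intro hyN
      apply hdN
      have := N.mul_mem hyN (N.inv_mem hyX.2)
      simpa using this
    have hwc : w ∈ Subgroup.centralizer ({y} : Set G) := by
      rw [Subgroup.mem_centralizer_singleton_iff]
      have := hy w (mem_zpowers w)
      rw [mul_inv_eq_iff_eq_mul] at this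
      exact this
    have := (hout y hyN).dvd_orderOf (g := ⟨w, hwc⟩) (by
      intro h1
      have : w = 1 := congrArg Subtype.val h1
      rw [this, orderOf_one] at hwq'
      exact hq.one_lt.ne hwq')
    rw [Subgroup.orderOf_mk, hwq'] at this
    exact hqp ((Nat.prime_dvd_prime_iff_eq hp hq).mp this).symm
  -- distinct Sylow subgroups meet inside N
  have hint : ∀ P1 P2 : Sylow p G, P1 ≠ P2 → (P1 : Subgroup G) ⊓ P2 ≤ N := by
    by_contra hcon
    push Not at hcon
    obtain ⟨P1, P2, hne, hle⟩ := hcon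
    let S : Set (Sylow p G × Sylow p G) := {Q | Q.1 ≠ Q.2 ∧ ¬ (Q.1 : Subgroup G) ⊓ Q.2 ≤ N}
    have hS : S.Nonempty := ⟨(P1, P2), hne, hle⟩
    obtain ⟨⟨Q1, Q2⟩, ⟨hQne, hQle⟩, hmax⟩ := Set.exists_max_image S
      (fun Q => Nat.card ((Q.1 : Subgroup G) ⊓ Q.2 : Subgroup G)) (Set.toFinite S) hS
    simp only at hQne hQle hmax
    set D := (Q1 : Subgroup G) ⊓ Q2 with hD
    have hDp : IsPGroup p D := Q1.2.to_inf_left
    have hNp := hnorm D hDp hQle
    obtain ⟨R, hR⟩ := hNp.exists_le_sylow
    have key : ∀ Q : Sylow p G, D < Q → R = Q := by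
      intro Q hDQ
      by_contra hRQ
      have h1 : D < normalizer (D : Set G) ⊓ Q := lt_normalizer_inf Q.2.isNilpotent hDQ
      have h2 : D < (R : Subgroup G) ⊓ Q := lt_of_lt_of_le h1 (inf_le_inf_right _ hR)
      have h3 := hmax (R, Q) ⟨hRQ, fun h => hQle (h2.le.trans h)⟩
      exact absurd h3 (not_le_of_gt (card_lt_card_of_lt h2))
    have e1 : R = Q1 := key Q1 (lt_of_le_of_ne inf_le_left (fun h => by
      have h6 : (Q1 : Subgroup G) ≤ Q2 := by rw [← h]; exact inf_le_right
      exact hQne (Sylow.ext (Q1.3 Q2.2 h6)).symm))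
    have e2 : R = Q2 := key Q2 (lt_of_le_of_ne inf_le_right (fun h => by
      have h6 : (Q2 : Subgroup G) ≤ Q1 := by rw [← h]; exact inf_le_left
      exact hQne (Sylow.ext (Q2.3 Q1.2 h6))))
    exact hQne (e1.symm.trans e2)
  -- P is abelian
  have hcen : ∀ y ∈ (P : Subgroup G), y ∉ N → ∀ u ∈ (P : Subgroup G), y * u = u * y := by
    intro y hyP hyN u hu
    obtain ⟨R, hR⟩ := hsyl y hyN
    have hyR : y ∈ (R : Subgroup G) := by
      rw [hR]; exact Subgroup.mem_centralizer_singleton_iff.mpr rfl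
    have : P = R := by
      by_contra hne
      exact hyN (hint P R hne ⟨hyP, hyR⟩)
    rw [this, hR] at hu
    exact (Subgroup.mem_centralizer_singleton_iff.mp hu).symm
  have hxP : x ∈ (P : Subgroup G) := by
    rw [hPx]; exact Subgroup.mem_centralizer_singleton_iff.mpr rfl
  have hab : ∀ y ∈ (P : Subgroup G), ∀ u ∈ (P : Subgroup G), y * u = u * y := by
    intro y hy u hu
    by_cases hyN : y ∈ N
    · have h1 := hcen (x * y) ((P : Subgroup G).mul_mem hxP hy) (fun h => hx (by
        have := N.mul_mem h (N.inv_mem hyN)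
        simpa using this)) u hu
      have h2 := hcen x hxP hx u hu
      have : x * (y * u) = x * (u * y) := by
        rw [← mul_assoc, h1, ← mul_assoc, ← mul_assoc, h2]
      exact mul_left_cancel this
    · exact hcen y hy hyN u hu
  have hG : Group.IsSolvable G := by
    by_cases hPn : normalizer (P : Set G) = ⊤
    · have : (P : Subgroup G).Normal := normalizer_eq_top_iff.mp hPn
      exact solvable_of_normal_coatom (solvable_of_pgroup hp P.2) hPc
    · have hPP : normalizer (P : Set G) = P := by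
        by_contra hne
        exact hPn (hPc.2 _ (lt_of_le_of_ne le_normalizer (Ne.symm hne)))
      apply solvable_of_coatom_sylow P hPc
      rw [hPP]
      intro y hy
      rw [Subgroup.mem_centralizer_iff]
      intro u hu
      exact hab u hu y hy
  infer_instance

end Cfsg.Agent.S3903
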