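import Cfsg.Statements.S3904
import Cfsg.Agent.H25.MaxCentF

set_option autoImplicit false
open Cfsg

namespace Cfsg.Agent.S3904

/-- Let G be a non-abelian finite group in which the centralizer of every non-central element is a maximal subgroup. Then G/Z(G) is either an elementary abelian p-group for some prime p, or a minimal non-abelian group (non-abelian with all proper subgroups abelian) of order p^a · q for distinct primes p, q with a normal Sylow p-subgroup. -/
theorem result {G : Type*} [Group G] [Finite G] (hna : ¬ IsMulCommutative G)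
    (h : ∀ x : G, x ∉ Subgroup.center G → IsCoatom (Subgroup.centralizer ({x} : Set G))) :
    (∃ p : ℕ, p.Prime ∧ Cfsg.IsElementaryAbelian p (⊤ : Subgroup (G ⧸ Subgroup.center G))) ∨
    (¬ IsMulCommutative (G ⧸ Subgroup.center G) ∧ (∀ H : Subgroup (G ⧸ Subgroup.center G), H ≠ ⊤ → IsMulCommutative ↥H) ∧
      ∃ p q a : ℕ, p.Prime ∧ q.Prime ∧ p ≠ q ∧ Nat.card (G ⧸ Subgroup.center G) = p ^ a * q ∧
        ∀ P : Subgroup (G ⧸ Subgroup.center G), Nat.card ↥P = p ^ a → P.Normal) := by
  have hc : H25.MaxCen (Y := G) (MonoidHom.id G) MulAut.conj :=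
    { inj := fun a b hab => hab
      conj := fun g y => rfl
      max := fun y hy => h y hy }
  by_cases hn : ∀ x : G, x ∉ Subgroup.center G → ∀ (g : G) (y : G), y * x = x * y →
      (MulAut.conj g : MulAut G) y * x = x * (MulAut.conj g : MulAut G) y
  · exact Or.inl (hc.elementary_of_normal hn)
  · right
    push Not at hn
    obtain ⟨x, hx, g, y, hyx, hne⟩ := hn
    have hnn : ¬ ∀ (g : G) (y : G), y * x = x * y →
      (MulAut.conj g : MulAut G) y * x = x * (MulAut.conj g : MulAut G) y := fun hcon => hne (hcon g y hyx)
    obtain ⟨hq, K, p, hp, hKn, hKs, hKe, hKQ⟩ := hc.frobenius_full hx hnn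
    have hQ := hc.frobenius hx hnn
    set π := QuotientGroup.mk' (Subgroup.center G) with hπ
    set Q := (Subgroup.centralizer {x} : Subgroup G).map π with hQdef
    exact H25.minimal_nonabelian Q K p hp hKn hKe hq hQ hKQ (by
      refine ⟨(Frob.isFrobeniusComplement_iff.1 hQ).2.1, ?_⟩
      intro H hH
      have hs := QuotientGroup.mk'_surjective (Subgroup.center G)
      have h1 : H.comap π = ⊤ := by
        apply (h x hx).2
        refine lt_of_le_of_ne ?_ ?_
        · intro c hcx
          exact hH.le ⟨c, hcx, rfl⟩
        · intro heq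
          apply hH.ne
          rw [hQdef, heq, Subgroup.map_comap_eq_self_of_surjective hs]
      rw [eq_top_iff]
      intro v _
      obtain ⟨w, rfl⟩ := hs v
      have : w ∈ H.comap π := h1 ▸ Subgroup.mem_top w
      exact this)

end Cfsg.Agent.S3904
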