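import Cfsg.Statements.S3905
import Cfsg.Agent.H25.MaxCentE

set_option autoImplicit false
open Cfsg

namespace Cfsg.Agent.S3905

/-- Let N be a normal subgroup of the finite group G such that for every element x of N outside the center of N the centralizer C_G(x) is a maximal subgroup of G. Then N/Z(N) is either an elementary abelian p-group for some prime p, or a Frobenius group whose kernel is an elementary abelian normal subgroup and whose complement has prime order. -/
theorem result {G : Type*} [Group G] [Finite G] (N : Subgroup G) [N.Normal]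
    (h : ∀ x : G, x ∈ N → x ∉ Subgroup.centralizer (N : Set G) → IsCoatom (Subgroup.centralizer ({x} : Set G))) :
    (∃ p : ℕ, p.Prime ∧ Cfsg.IsElementaryAbelian p (⊤ : Subgroup (↥N ⧸ Subgroup.center ↥N))) ∨
    (∃ (Q K : Subgroup (↥N ⧸ Subgroup.center ↥N)) (p : ℕ), p.Prime ∧ Cfsg.IsFrobeniusComplement Q ∧ (Nat.card ↥Q).Prime ∧
      K.Normal ∧ (K : Set (↥N ⧸ Subgroup.center ↥N)) = Cfsg.frobeniusKernel Q ∧ Cfsg.IsElementaryAbelian p K) := by
  have hc : H25.MaxCen (Y := ↥N) N.subtype MulAut.conjNormal :=
    { inj := N.subtype_injective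
      conj := fun g y => rfl
      max := by
        intro y hy
        refine h (y : G) y.2 ?_
        intro hcy
        apply hy
        rw [Subgroup.mem_center_iff]
        intro g
        exact Subtype.ext (Subgroup.mem_centralizer_iff.1 hcy g g.2) }
  by_cases hn : ∀ x : N, x ∉ Subgroup.center N → ∀ (g : G) (y : N), y * x = x * y →
      (MulAut.conjNormal g : MulAut N) y * x = x * (MulAut.conjNormal g : MulAut N) y
  · exact Or.inl (hc.elementary_of_normal hn)
  · push Not at hn
    obtain ⟨x, hx, g, y, hyx, hne⟩ := hn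
    have hnn : ¬ ∀ (g : G) (y : N), y * x = x * y →
      (MulAut.conjNormal g : MulAut N) y * x = x * (MulAut.conjNormal g : MulAut N) y := fun hcon => hne (hcon g y hyx)
    obtain ⟨hq, K, p, hp, hKn, hKs, hKe, -⟩ := hc.frobenius_full hx hnn
    exact Or.inr ⟨_, K, p, hp, hc.frobenius hx hnn, hq, hKn, hKs, hKe⟩

end Cfsg.Agent.S3905
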