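import Cfsg.Statements.S3908
import Cfsg.Agent.H65.BProp

set_option autoImplicit false
open Cfsg

namespace Cfsg.Agent.S3908

open Subgroup Cfsg.Agent.H65


/-- Let G be a finite group in which any two abelian subgroups of the same order are conjugate. Then a Sylow 2-subgroup of G is cyclic, elementary abelian or generalized quaternion, and for an odd prime p a Sylow p-subgroup of G is cyclic or has exponent dividing p. -/
theorem result {G : Type*} [Group G] [Finite G] (hB : ∀ A B : Subgroup G, IsMulCommutative ↥A → IsMulCommutative ↥B → Nat.card ↥A = Nat.card ↥B → ∃ g : G, B = A.map (MulAut.conj g).toMonoidHom) :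
    (∀ P : Sylow 2 G, IsCyclic ↥(P : Subgroup G) ∨ Cfsg.IsElementaryAbelian 2 (P : Subgroup G) ∨ ∃ k : ℕ, Nonempty (↥(P : Subgroup G) ≃* QuaternionGroup (2 ^ k))) ∧
    ∀ (p : ℕ) [Fact p.Prime], p ≠ 2 → ∀ P : Sylow p G, IsCyclic ↥(P : Subgroup G) ∨ ∀ x ∈ (P : Subgroup G), x ^ p = 1 := by
  have hB' : BP G := hB
  constructor
  · intro P
    rcases hB'.sylow_cases P with h | ⟨-, h⟩ | h
    · exact Or.inl h
    · exact Or.inr (Or.inr h)
    · right; left
      have hexp : ∀ x ∈ (P : Subgroup G), x ^ 2 = 1 := by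
        intro x hx
        obtain ⟨k, hk⟩ := IsPGroup.iff_orderOf.mp P.2 ⟨x, hx⟩
        rw [Subgroup.orderOf_mk] at hk
        exact h x k hk
      refine ⟨⟨⟨?_⟩⟩, hexp⟩
      rintro ⟨a, ha⟩ ⟨b, hb⟩
      apply Subtype.ext
      show a * b = b * a
      have h1 := hexp a ha
      have h2 := hexp b hb
      have h3 := hexp (a * b) (mul_mem ha hb)
      rw [sq] at h1 h2 h3
      have : (a * b)⁻¹ = a * b := inv_eq_of_mul_eq_one_left h3
      rw [mul_inv_rev, inv_eq_of_mul_eq_one_left h1, inv_eq_of_mul_eq_one_left h2] at this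
      exact this.symm
  · intro p _ hp2 P
    rcases hB'.sylow_cases P with h | ⟨h, -⟩ | h
    · exact Or.inl h
    · exact absurd h hp2
    · right
      intro x hx
      obtain ⟨k, hk⟩ := IsPGroup.iff_orderOf.mp P.2 ⟨x, hx⟩
      rw [Subgroup.orderOf_mk] at hk
      exact h x k hk

end Cfsg.Agent.S3908
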