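import Cfsg.Statements.S3917
import Cfsg.Agent.H65.BProp

set_option autoImplicit false
open Cfsg

namespace Cfsg.Agent.S3917

open Subgroup Cfsg.Agent.H65


/-- Say that a group has self-centralizing non-cyclic subgroups when every non-cyclic subgroup H satisfies C_G(H) ≤ H. A finite abelian group with self-centralizing non-cyclic subgroups is cyclic or elementary abelian of order p² for a prime p. -/
theorem result {G : Type*} [CommGroup G] [Finite G] (hX : (∀ H : Subgroup G, ¬ IsCyclic ↥H → Subgroup.centralizer (H : Set G) ≤ H)) :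
    IsCyclic G ∨ ∃ p : ℕ, p.Prime ∧ Nat.card G = p ^ 2 ∧ Monoid.exponent G = p := by
  by_cases hc : IsCyclic G
  · exact Or.inl hc
  right
  have hcent : ∀ H : Subgroup G, ¬ IsCyclic H → H = ⊤ := by
    intro H hH
    rw [eq_top_iff]
    refine le_trans ?_ (hX H hH)
    intro x _
    rw [mem_centralizer_iff]
    intro y _
    exact mul_comm _ _
  -- some Sylow subgroup is not cyclic
  obtain ⟨p, hp, P, hP⟩ : ∃ p : ℕ, ∃ _ : Fact p.Prime, ∃ P : Sylow p G, ¬ IsCyclic (P : Subgroup G) := by
    by_contra hcon
    push Not at hcon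
    apply hc
    have : IsZGroup G := ⟨fun p hp P => hcon p ⟨hp⟩ P⟩
    infer_instance
  have hPG := hcent P hP
  have hG : IsPGroup p G := by
    have h1 := P.2
    rw [hPG] at h1
    exact h1.of_equiv Subgroup.topEquiv
  rcases pgroup_cases hG with h | ⟨rfl, n, ⟨e⟩⟩ | ⟨E, h1, h2, h3⟩
  · exact absurd h hc
  · exfalso
    apply hc
    rcases Nat.eq_zero_or_pos n with rfl | hn
    · have : IsCyclic (QuaternionGroup (2 ^ 0)) := QuaternionGroup.quaternionGroup_one_isCyclic
      exact isCyclic_of_surjective e.symm e.symm.surjective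
    · exfalso
      have h1 : (QuaternionGroup.a 1 * QuaternionGroup.xa 0 : QuaternionGroup (2 ^ n)) =
        QuaternionGroup.xa 0 * QuaternionGroup.a 1 := by
        apply e.symm.injective
        rw [map_mul, map_mul, mul_comm]
      rw [QuaternionGroup.a_mul_xa, QuaternionGroup.xa_mul_a] at h1
      injection h1 with h2
      have h3 : ((2 : ℕ) : ZMod (2 * 2 ^ n)) = 0 := by
        push_cast
        linear_combination -h2
      rw [ZMod.natCast_eq_zero_iff] at h3
      have h4 := Nat.le_of_dvd (by norm_num) h3
      have h5 : 2 ^ 1 ≤ 2 ^ n := Nat.pow_le_pow_right (by norm_num) hn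
      omega
  · have hE : ¬ IsCyclic E := by
      intro hE
      obtain ⟨g, hg⟩ := hE.exists_generator
      have h4 : orderOf g = p ^ 2 := by
        rw [← h2]
        exact orderOf_eq_card_of_forall_mem_zpowers hg
      have h5 : orderOf g ∣ p := by
        apply orderOf_dvd_of_pow_eq_one
        exact Subtype.ext (h3 g g.2)
      rw [h4] at h5
      have h6 := Nat.le_of_dvd hp.out.pos h5
      have h7 : p < p ^ 2 := by
        rw [sq]
        exact lt_mul_of_one_lt_left hp.out.pos hp.out.one_lt
      omega
    have hEt := hcent E hE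
    refine ⟨p, hp.out, ?_, ?_⟩
    · rw [← h2, hEt, Nat.card_congr (Subgroup.topEquiv (G := G)).toEquiv]
    · have h4 : Monoid.exponent G ∣ p := by
        apply Monoid.exponent_dvd_of_forall_pow_eq_one
        intro g
        exact h3 g (hEt ▸ mem_top g)
      rcases (Nat.dvd_prime hp.out).mp h4 with h5 | h5
      · exfalso
        rw [Monoid.exp_eq_one_iff] at h5
        apply hc
        infer_instance
      · exact h5

end Cfsg.Agent.S3917
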