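import Cfsg.Statements.S3918
import Cfsg.Agent.OddP.NormalSq
import Cfsg.Agent.H23.RankTwoGraph


set_option autoImplicit false
open Cfsg

namespace Cfsg.Agent.S3918


/-- Say that a group has self-centralizing non-cyclic subgroups when every non-cyclic subgroup H satisfies C_G(H) ≤ H. For an odd prime p, a finite non-abelian p-group has self-centralizing non-cyclic subgroups if and only if it has order p³. -/
theorem result {G : Type*} [Group G] [Finite G] {p : ℕ} [Fact p.Prime] (hp : p ≠ 2) (hG : IsPGroup p G) (hna : ¬ IsMulCommutative G) :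
    (∀ H : Subgroup G, ¬ IsCyclic ↥H → Subgroup.centralizer (H : Set G) ≤ H) ↔ Nat.card G = p ^ 3 := by
  have hpp : p.Prime := Fact.out
  constructor
  · intro h
    have hnc : ¬ IsCyclic G := fun hc => hna hc.isMulCommutative
    obtain ⟨N, -, hNn, hNe, hNc⟩ := OddP.exists_sq_of_not_cyclic hp hG ⊤ inferInstance (fun hc => hnc
      (isCyclic_of_surjective (Subgroup.topEquiv (G := G)) (Subgroup.topEquiv (G := G)).surjective))
    have hNnc : ¬ IsCyclic ↥N := by
      intro hc
      obtain ⟨g, hg⟩ := hc.exists_ofOrder_eq_natCard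
      have h1 : g ^ p = 1 := Subtype.ext (hNe.2 g.1 g.2)
      have h2 := Nat.le_of_dvd hpp.pos (orderOf_dvd_of_pow_eq_one h1)
      rw [hg, hNc] at h2
      nlinarith [hpp.two_le]
    have h1 := h N hNnc
    have h2 := H23.card_le_card_inf_centralizer hG hNn hNc ⊤
    rw [Subgroup.card_top, top_inf_eq] at h2
    have h3 : Nat.card ↥(Subgroup.centralizer (N : Set G)) ≤ p ^ 2 := by
      rw [← hNc]; exact Subgroup.card_le_of_le h1
    obtain ⟨n, hn⟩ := (IsPGroup.iff_card).mp hG
    have h4 : Nat.card G ≤ p ^ 3 := by
      calc Nat.card G ≤ _ := h2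
        _ ≤ p ^ 2 * p := Nat.mul_le_mul_right _ h3
        _ = p ^ 3 := by ring
    rw [hn, Nat.pow_le_pow_iff_right hpp.one_lt] at h4
    have h5 : ¬ n ≤ 2 := by
      intro h6
      apply hna
      interval_cases n
      · have := (Nat.card_eq_one_iff_unique.mp (by rw [hn, pow_zero])).1
        exact ⟨⟨fun a b => Subsingleton.elim _ _⟩⟩
      · rw [pow_one] at hn
        exact (isCyclic_of_prime_card hn).isMulCommutative
      · exact IsPGroup.isMulCommutative_of_card_eq_prime_sq hn
    have : n = 3 := by omega
    rw [hn, this]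
  · intro hc H hH
    obtain ⟨k, hk3, hk⟩ := (Nat.dvd_prime_pow hpp).1 (hc ▸ Subgroup.card_subgroup_dvd_card H)
    obtain ⟨j, hj3, hj⟩ := (Nat.dvd_prime_pow hpp).1
      (hc ▸ Subgroup.card_subgroup_dvd_card (Subgroup.centralizer (H : Set G)))
    obtain ⟨i, hi3, hi⟩ := (Nat.dvd_prime_pow hpp).1
      (hc ▸ Subgroup.card_subgroup_dvd_card (Subgroup.center G))
    interval_cases k
    · exact absurd (by
        have := (Nat.card_eq_one_iff_unique.mp (by rw [hk, pow_zero])).1
        exact isCyclic_of_subsingleton) hH
    · rw [pow_one] at hk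
      exact absurd (isCyclic_of_prime_card hk) hH
    · have hHc : IsMulCommutative ↥H := IsPGroup.isMulCommutative_of_card_eq_prime_sq hk
      have hHC : H ≤ Subgroup.centralizer (H : Set G) := by
        intro x hx
        rw [Subgroup.mem_centralizer_iff]
        intro y hy
        exact congrArg Subtype.val (hHc.is_comm.comm ⟨y, hy⟩ ⟨x, hx⟩)
      by_cases hj2 : j ≤ 2
      · refine (Subgroup.eq_of_le_of_card_ge hHC ?_).ge
        rw [hj, hk]; exact Nat.pow_le_pow_right hpp.pos hj2
      · exfalso
        have hj' : j = 3 := by omega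
        subst hj'
        have htop : Subgroup.centralizer (H : Set G) = ⊤ := by
          rw [← Subgroup.card_eq_iff_eq_top, hj, hc]
        have hHZ : H ≤ Subgroup.center G := by
          intro x hx
          rw [Subgroup.mem_center_iff]
          intro g
          have : g ∈ Subgroup.centralizer (H : Set G) := htop ▸ Subgroup.mem_top g
          exact (Subgroup.mem_centralizer_iff.1 this x hx).symm
        have hi2 : 2 ≤ i := by
          have := Subgroup.card_le_of_le hHZ
          rwa [hk, hi, Nat.pow_le_pow_iff_right hpp.one_lt] at this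
        apply hna
        have hidx : (Subgroup.center G).index ∣ p := by
          have h1 := (Subgroup.center G).card_mul_index
          rw [hi, hc] at h1
          have h2 : p ^ 3 = p ^ 2 * p := by ring
          rw [h2] at h1
          have h3 : p ^ 2 * (Subgroup.center G).index ∣ p ^ 2 * p := by
            rw [← h1]; exact Nat.mul_dvd_mul_right (pow_dvd_pow p hi2) _
          exact Nat.dvd_of_mul_dvd_mul_left (pow_pos hpp.pos 2) h3
        have hcyc : IsCyclic (G ⧸ Subgroup.center G) := by
          rcases (Nat.dvd_prime hpp).1 hidx with h1 | h1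
          · have := (Nat.card_eq_one_iff_unique.mp (h1 : Nat.card (G ⧸ Subgroup.center G) = 1)).1
            exact isCyclic_of_subsingleton
          · exact isCyclic_of_prime_card (h1 : Nat.card (G ⧸ Subgroup.center G) = p)
        exact ⟨⟨commutative_of_cyclic_center_quotient (QuotientGroup.mk' (Subgroup.center G))
          (by rw [QuotientGroup.ker_mk'])⟩⟩
    · have : H = ⊤ := by rw [← Subgroup.card_eq_iff_eq_top, hk, hc]
      rw [this]; exact le_top

end Cfsg.Agent.S3918
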