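import Cfsg.Statements.S3919
import Cfsg.Agent.H65.BQuot
import Cfsg.Agent.MaxClass.TwoGroups
import Cfsg.Agent.MaxClass.SelfCent

set_option autoImplicit false
open Cfsg

namespace Cfsg.Agent.S3919

open Subgroup Cfsg.Agent.H65 Group


/-- Say that a group has self-centralizing non-cyclic subgroups when every non-cyclic subgroup H satisfies C_G(H) ≤ H. A finite non-abelian 2-group G of order 2^n has self-centralizing non-cyclic subgroups if and only if G has nilpotency class n − 1 (that is, G is dihedral, semidihedral or generalized quaternion). -/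
theorem result {G : Type*} [Group G] [Finite G] (hna : ¬ IsMulCommutative G) (n : ℕ) (hG : Nat.card G = 2 ^ n) :
    (∀ H : Subgroup G, ¬ IsCyclic ↥H → Subgroup.centralizer (H : Set G) ≤ H) ↔ (⊤ : Subgroup G).lowerCentralSeries (n - 2) ≠ ⊥ := by
  have hp : Fact (Nat.Prime 2) := ⟨Nat.prime_two⟩
  have hP : IsPGroup 2 G := IsPGroup.of_card hG
  have hnil : IsNilpotent G := hP.isNilpotent
  have hn : 3 ≤ n := by
    by_contra hlt
    apply hna
    have : n = 0 ∨ n = 1 ∨ n = 2 := by omega
    rcases this with rfl | rfl | rfl
    · rw [pow_zero] at hG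
      have : Subsingleton G := (Nat.card_eq_one_iff_unique.mp hG).1
      exact ⟨⟨fun a b => Subsingleton.elim _ _⟩⟩
    · rw [pow_one] at hG
      have : IsCyclic G := isCyclic_of_prime_card hG
      exact IsCyclic.isMulCommutative
    · exact IsPGroup.isMulCommutative_of_card_eq_prime_sq hG
  constructor
  · intro hX
    rcases pgroup_cases hP with h | ⟨-, k, ⟨e⟩⟩ | ⟨E, h1, h2, h3⟩
    · exact absurd IsCyclic.isMulCommutative hna
    · have hk : 0 < k := by
        rcases Nat.eq_zero_or_pos k with rfl | hk
        · exfalso
          apply hna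
          have : IsCyclic (QuaternionGroup (2 ^ 0)) := QuaternionGroup.quaternionGroup_one_isCyclic
          have : IsCyclic G := isCyclic_of_surjective e.symm e.symm.surjective
          exact IsCyclic.isMulCommutative
        · exact hk
      have hcard : Nat.card G = 2 ^ (k + 2) := by
        rw [Nat.card_congr e.toEquiv, Nat.card_eq_fintype_card, QuaternionGroup.card, pow_add]
        ring
      have hnk : n = k + 2 := by
        rw [hG] at hcard
        exact Nat.pow_right_injective (le_refl 2) hcard
      refine MaxClass.lcs_ne_bot_of_conj (a := e.symm (QuaternionGroup.a 1))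
        (b := e.symm (QuaternionGroup.xa 0)) (by omega) ?_ (κ := -1) (u := 1) ?_ (by decide) (by norm_num)
      · rw [MulEquiv.orderOf_eq, QuaternionGroup.orderOf_a_one, hnk, ← pow_succ']
        rfl
      · apply e.injective
        rw [map_mul, map_mul, map_inv, map_zpow, e.apply_symm_apply, e.apply_symm_apply]
        rw [mul_inv_eq_iff_eq_mul, zpow_neg_one, eq_inv_mul_iff_mul_eq]
        rw [QuaternionGroup.xa_mul_a, QuaternionGroup.a_mul_xa]
        congr 1
        ring
    · have hE : ¬ IsCyclic E := by
        intro hE
        obtain ⟨g, hg⟩ := hE.exists_generator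
        have h4 : orderOf g = 2 ^ 2 := by
          rw [← h2]
          exact orderOf_eq_card_of_forall_mem_zpowers hg
        have h5 : orderOf g ∣ 2 := by
          apply orderOf_dvd_of_pow_eq_one
          exact Subtype.ext (h3 g g.2)
        rw [h4] at h5
        exact absurd h5 (by decide)
      have h4 := hX E hE
      have h5 : Subgroup.centralizer (E : Set G) = E := by
        apply le_antisymm h4
        intro x hx
        rw [mem_centralizer_iff]
        intro y hy
        exact congrArg Subtype.val (h1.is_comm.comm ⟨y, hy⟩ ⟨x, hx⟩)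
      have h6 := MaxClass.class_of_self_centralizing n (by omega) G hG E h2 h5
      intro h7
      have h8 := Subgroup.lowerCentralSeries_eq_bot_iff_nilpotencyClass_le.1 h7
      omega
  · intro hl H hH
    have hcl : Group.nilpotencyClass G = n - 1 := by
      apply le_antisymm (MaxClass.class_le_of_card (by omega) hG)
      by_contra hlt
      apply hl
      exact Subgroup.lowerCentralSeries_eq_bot_iff_nilpotencyClass_le.2 (by omega)
    have hidx := MaxClass.index_commutator_of_maxClass (by omega) hG hcl
    obtain ⟨a, b, ha, hb, hrel⟩ := MaxClass.structure_of_index_commutator hn hG hidx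
    have hai := MaxClass.index_zpowers_of_orderOf (by omega) hG ha
    have han : (zpowers a).Normal := Subgroup.normal_of_index_eq_two hai
    obtain ⟨κ, u, hu, hκ, hab⟩ : ∃ κ u : ℤ, Odd u ∧ 1 - κ = 2 * u ∧ b * a * b⁻¹ = a ^ κ := by
      rcases hrel with ⟨-, h⟩ | ⟨-, h⟩ | ⟨h4, -, h⟩
      · exact ⟨-1, 1, by decide, by norm_num, by rw [h, zpow_neg_one]⟩
      · exact ⟨-1, 1, by decide, by norm_num, by rw [h, zpow_neg_one]⟩
      · refine ⟨2 ^ (n - 2) - 1, 1 - 2 ^ (n - 3), ?_, ?_, ?_⟩
        · obtain ⟨m, rfl⟩ : ∃ m, n = m + 4 := ⟨n - 4, by omega⟩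
          have : m + 4 - 3 = m + 1 := by omega
          rw [this]
          refine Odd.sub_even (by decide) ?_
          rw [pow_succ]
          exact (by decide : Even (2 : ℤ)).mul_left _
        · obtain ⟨m, rfl⟩ : ∃ m, n = m + 4 := ⟨n - 4, by omega⟩
          have : m + 4 - 3 = m + 1 := by omega
          rw [this]
          have : m + 4 - 2 = m + 2 := by omega
          rw [this]
          ring
        · rw [h, ← zpow_natCast]
          congr 1
          have : 1 ≤ 2 ^ (n - 2) := Nat.one_le_two_pow
          push_cast [this]
          rfl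
    -- all elements outside ⟨a⟩ act in the same way
    have hact : ∀ g : G, g ∉ zpowers a → ∀ x ∈ zpowers a, g * x = x * g → x ^ 2 = 1 := by
      intro g hg x hx hgx
      obtain ⟨i, rfl⟩ := hx
      have h1 : g * b⁻¹ ∈ zpowers a := by
        have := Subgroup.mul_mem_iff_of_index_two hai (a := g) (b := b⁻¹)
        rw [this]
        simp only [inv_mem_iff]
        exact ⟨fun h => absurd h hg, fun h => absurd h hb⟩
      obtain ⟨j, hj⟩ := h1
      have hg2 : g = a ^ j * b := by
        have hj' : a ^ j = g * b⁻¹ := hj
        rw [hj']; group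
      have h2 : g * a * g⁻¹ = a ^ κ := by
        rw [hg2]
        calc a ^ j * b * a * (a ^ j * b)⁻¹ = a ^ j * (b * a * b⁻¹) * (a ^ j)⁻¹ := by group
          _ = a ^ κ := by rw [hab]; group
      have h3 : g * a ^ i * g⁻¹ = a ^ (κ * i) := by
        rw [← conj_zpow, h2, ← zpow_mul]
      have h4 : a ^ i = a ^ (κ * i) := by
        rw [← h3]
        have : g * a ^ i = a ^ i * g := hgx
        rw [this]; group
      have h5 : a ^ ((1 - κ) * i) = 1 := by
        rw [sub_mul, one_mul, zpow_sub, ← h4, mul_inv_cancel]
      rw [hκ, ← orderOf_dvd_iff_zpow_eq_one, ha] at h5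
      show (a ^ i) ^ 2 = 1
      rw [← zpow_natCast, ← zpow_mul, ← orderOf_dvd_iff_zpow_eq_one, ha]
      have h6 : IsCoprime (((2 ^ (n - 1) : ℕ) : ℤ)) u := by
        push_cast
        apply IsCoprime.pow_left
        obtain ⟨l, hl⟩ := hu
        exact ⟨-l, 1, by rw [hl]; ring⟩
      apply h6.dvd_of_dvd_mul_left
      have : u * (i * ((2 : ℕ) : ℤ)) = 2 * u * i := by push_cast; ring
      rw [this]
      exact h5
    -- an element of H outside ⟨a⟩
    obtain ⟨g, hgH, hga⟩ : ∃ g ∈ H, g ∉ zpowers a := by
      by_contra hcon
      push Not at hcon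
      apply hH
      exact isCyclic_of_injective (Subgroup.inclusion (show H ≤ zpowers a from hcon))
        (Subgroup.inclusion_injective _)
    have hmeet : H ⊓ zpowers a ≠ ⊥ := by
      intro hbot
      apply hH
      have hle : H ≤ zpowers g := by
        intro x hx
        by_cases hxa : x ∈ zpowers a
        · have : x ∈ H ⊓ zpowers a := ⟨hx, hxa⟩
          rw [hbot, mem_bot] at this
          rw [this]; exact one_mem _
        · have h1 : x * g⁻¹ ∈ zpowers a := by
            rw [Subgroup.mul_mem_iff_of_index_two hai]
            simp only [inv_mem_iff]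
            exact ⟨fun h => absurd h hxa, fun h => absurd h hga⟩
          have : x * g⁻¹ ∈ H ⊓ zpowers a := ⟨H.mul_mem hx (H.inv_mem hgH), h1⟩
          rw [hbot, mem_bot, mul_inv_eq_one] at this
          rw [this]; exact mem_zpowers g
      exact isCyclic_of_injective (Subgroup.inclusion hle) (Subgroup.inclusion_injective _)
    have key : ∀ y ∈ zpowers a, y ^ 2 = 1 → y ∈ H := by
      intro y hy hy2
      rcases le_or_le_of_cyclic (hP.to_subgroup (zpowers a)) (H := zpowers y) (K := H ⊓ zpowers a)
        (zpowers_le.mpr hy) inf_le_right with h | h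
      · exact (h (mem_zpowers y)).1
      · have h1 : Nat.card (zpowers y) ∣ 2 := by
          rw [Nat.card_zpowers]; exact orderOf_dvd_of_pow_eq_one hy2
        have h2 := Subgroup.card_dvd_of_le h
        have h3 : Nat.card (H ⊓ zpowers a : Subgroup G) ≠ 1 := fun h => hmeet (Subgroup.card_eq_one.mp h)
        have h4 : H ⊓ zpowers a = zpowers y := by
          apply Subgroup.eq_of_le_of_card_ge h
          rcases (Nat.dvd_prime Nat.prime_two).mp (h2.trans h1) with h5 | h5
          · exact absurd h5 h3
          · rw [h5]; exact Nat.le_of_dvd (by norm_num) h1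
        have h5 : y ∈ H ⊓ zpowers a := h4.symm ▸ mem_zpowers y
        exact h5.1
    intro y hy
    have hyg : g * y = y * g := mem_centralizer_iff.mp hy g hgH
    by_cases hya : y ∈ zpowers a
    · exact key y hya (hact g hga y hya hyg)
    · have h1 : y * g⁻¹ ∈ zpowers a := by
        rw [Subgroup.mul_mem_iff_of_index_two hai]
        simp only [inv_mem_iff]
        exact ⟨fun h => absurd h hya, fun h => absurd h hga⟩
      have h2 : y * g⁻¹ ∈ H := by
        apply key _ h1
        apply hact g hga _ h1
        calc g * (y * g⁻¹) = (g * y) * g⁻¹ := by group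
          _ = (y * g) * g⁻¹ := by rw [hyg]
          _ = _ := by group
      have : y = (y * g⁻¹) * g := by group
      rw [this]
      exact mul_mem h2 hgH

end Cfsg.Agent.S3919
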