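import Cfsg.Statements.S3920
import Mathlib.GroupTheory.SpecificGroups.Dihedral

set_option autoImplicit false
open Cfsg

namespace Cfsg.Agent.S3920

open DihedralGroup


/-- Say that a group has self-centralizing non-cyclic subgroups when every non-cyclic subgroup H satisfies C_G(H) ≤ H. For n ≥ 3, the dihedral group of order 2n has self-centralizing non-cyclic subgroups if and only if n is odd or a power of 2. -/
theorem result (n : ℕ) (hn : 3 ≤ n) : (∀ H : Subgroup (DihedralGroup n), ¬ IsCyclic ↥H → Subgroup.centralizer (H : Set (DihedralGroup n)) ≤ H) ↔ (Odd n ∨ ∃ k : ℕ, n = 2 ^ k) := by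
  have hn0 : NeZero n := ⟨by omega⟩
  constructor
  · intro hX
    by_contra hcon
    push Not at hcon
    obtain ⟨hodd, hpow⟩ := hcon
    rw [Nat.not_odd_iff_even] at hodd
    obtain ⟨a, m, hm, hnm⟩ := Nat.exists_eq_two_pow_mul_odd (n := n) (by omega)
    have hm1 : m ≠ 1 := by
      rintro rfl
      exact hpow a (by rw [hnm, mul_one])
    have ha : a ≠ 0 := by
      rintro rfl
      rw [hnm, pow_zero, one_mul] at hodd
      exact (Nat.not_even_iff_odd.mpr hm) hodd
    let H : Subgroup (DihedralGroup n) :=
      { carrier := {g | (∃ i : ZMod n, (m : ZMod n) * i = 0 ∧ g = r i) ∨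
          ∃ i : ZMod n, (m : ZMod n) * i = 0 ∧ g = sr i}
        mul_mem' := by
          rintro x y (⟨i, hi, rfl⟩ | ⟨i, hi, rfl⟩) (⟨j, hj, rfl⟩ | ⟨j, hj, rfl⟩)
          · exact Or.inl ⟨i + j, by rw [mul_add, hi, hj, add_zero], by rw [r_mul_r]⟩
          · exact Or.inr ⟨j - i, by rw [mul_sub, hi, hj, sub_zero], by rw [r_mul_sr]⟩
          · exact Or.inr ⟨i + j, by rw [mul_add, hi, hj, add_zero], by rw [sr_mul_r]⟩
          · exact Or.inl ⟨j - i, by rw [mul_sub, hi, hj, sub_zero], by rw [sr_mul_sr]⟩
        one_mem' := Or.inl ⟨0, mul_zero _, one_def⟩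
        inv_mem' := by
          rintro x (⟨i, hi, rfl⟩ | ⟨i, hi, rfl⟩)
          · exact Or.inl ⟨-i, by rw [mul_neg, hi, neg_zero], by rw [inv_r]⟩
          · exact Or.inr ⟨i, hi, by rw [inv_sr]⟩ }
    have hr : (r ((2 ^ a : ℕ) : ZMod n)) ∈ H := by
      refine Or.inl ⟨_, ?_, rfl⟩
      rw [← Nat.cast_mul, ZMod.natCast_eq_zero_iff, hnm, mul_comm]
    have hs : (sr 0 : DihedralGroup n) ∈ H := Or.inr ⟨0, mul_zero _, rfl⟩
    have hnc : ¬ IsCyclic H := by
      intro hc
      have h1 := (IsCyclic.isMulCommutative (α := H)).is_comm.comm ⟨_, hr⟩ ⟨_, hs⟩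
      have h2 : (r ((2 ^ a : ℕ) : ZMod n) * sr 0 : DihedralGroup n) = sr 0 * r ((2 ^ a : ℕ) : ZMod n) :=
        congrArg Subtype.val h1
      rw [r_mul_sr, sr_mul_r] at h2
      injection h2 with h3
      have h4 : ((2 * 2 ^ a : ℕ) : ZMod n) = 0 := by
        push_cast at h3 ⊢
        linear_combination -h3
      rw [ZMod.natCast_eq_zero_iff, hnm, mul_comm 2] at h4
      have h5 := Nat.dvd_of_mul_dvd_mul_left (by positivity) h4
      rcases (Nat.dvd_prime Nat.prime_two).mp h5 with h6 | h6
      · exact hm1 h6
      · rw [h6] at hm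
        exact absurd hm (by decide)
    have h1 : (r ((2 ^ (a - 1) * m : ℕ) : ZMod n)) ∈ H := by
      apply hX H hnc
      have h2 : ((2 ^ (a - 1) * m : ℕ) : ZMod n) + ((2 ^ (a - 1) * m : ℕ) : ZMod n) = 0 := by
        rw [← Nat.cast_add, ZMod.natCast_eq_zero_iff, hnm]
        obtain ⟨b, rfl⟩ : ∃ b, a = b + 1 := ⟨a - 1, by omega⟩
        rw [Nat.add_sub_cancel, pow_succ]
        exact ⟨1, by ring⟩
      rw [Subgroup.mem_centralizer_iff]
      rintro x (⟨i, hi, rfl⟩ | ⟨i, hi, rfl⟩)
      · rw [r_mul_r, r_mul_r, add_comm]
      · rw [sr_mul_r, r_mul_sr]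
        congr 1
        linear_combination h2
    rcases h1 with ⟨i, hi, h2⟩ | ⟨i, hi, h2⟩
    · injection h2 with h3
      rw [← h3, ← Nat.cast_mul, ZMod.natCast_eq_zero_iff, hnm] at hi
      obtain ⟨b, rfl⟩ : ∃ b, a = b + 1 := ⟨a - 1, by omega⟩
      rw [Nat.add_sub_cancel, pow_succ, show m * (2 ^ b * m) = (2 ^ b * m) * m by ring,
        show 2 ^ b * 2 * m = (2 ^ b * m) * 2 by ring] at hi
      have h5 := Nat.dvd_of_mul_dvd_mul_left (Nat.mul_pos (by positivity) hm.pos) hi
      exact (Nat.not_even_iff_odd.mpr hm) (even_iff_two_dvd.mpr h5)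
    · cases h2
  · intro hn2 H hH
    -- H contains a reflection
    obtain ⟨j, hj⟩ : ∃ j, (sr j : DihedralGroup n) ∈ H := by
      by_contra hcon
      push Not at hcon
      apply hH
      have hle : H ≤ Subgroup.zpowers (r 1 : DihedralGroup n) := by
        intro x hx
        cases x with
        | r i =>
          refine ⟨(i.val : ℤ), ?_⟩
          show (r 1 : DihedralGroup n) ^ (i.val : ℤ) = r i
          rw [zpow_natCast, r_one_pow, ZMod.natCast_zmod_val]
        | sr i => exact absurd hx (hcon i)
      have : IsCyclic (Subgroup.zpowers (r 1 : DihedralGroup n)) := inferInstance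
      exact isCyclic_of_injective (Subgroup.inclusion hle) (Subgroup.inclusion_injective hle)
    -- involutory rotations
    have key : ∀ i : ZMod n, i + i = 0 → (r i : DihedralGroup n) ∈ H := by
      intro i hi
      rcases eq_or_ne i 0 with rfl | hi0
      · exact one_def (n := n) ▸ one_mem H
      have huniq : ∀ i : ZMod n, i + i = 0 → i ≠ 0 → 2 * i.val = n := by
        intro i hi hi0
        have h1 : ((i.val + i.val : ℕ) : ZMod n) = 0 := by
          rw [Nat.cast_add, ZMod.natCast_zmod_val, hi]
        rw [ZMod.natCast_eq_zero_iff] at h1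
        obtain ⟨c, hc⟩ := h1
        have h2 : i.val < n := ZMod.val_lt i
        have h3 : 0 < i.val := by
          rw [Nat.pos_iff_ne_zero, ne_eq, ZMod.val_eq_zero]
          exact hi0
        have h4 : c < 2 := by
          by_contra h
          have : n * 2 ≤ n * c := Nat.mul_le_mul_left n (by omega)
          omega
        have h5 : c ≠ 0 := by
          rintro rfl
          omega
        obtain rfl : c = 1 := by omega
        omega
      have h2i := huniq i hi hi0
      rcases hn2 with hodd | ⟨k, hk⟩
      · exfalso
        exact (Nat.not_even_iff_odd.mpr hodd) ⟨i.val, by omega⟩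
      · -- some rotation in H
        obtain ⟨l, hl, hl0⟩ : ∃ l, (r l : DihedralGroup n) ∈ H ∧ l ≠ 0 := by
          by_contra hcon
          push Not at hcon
          apply hH
          have hle : H ≤ Subgroup.zpowers (sr j : DihedralGroup n) := by
            intro x hx
            cases x with
            | r i =>
              rw [hcon i hx]
              exact one_def (n := n) ▸ one_mem _
            | sr i =>
              have h1 : (sr i * sr j : DihedralGroup n) ∈ H := mul_mem hx hj
              rw [sr_mul_sr] at h1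
              have h2 := hcon _ h1
              have h3 : i = j := by linear_combination -h2
              rw [h3]
              exact Subgroup.mem_zpowers _
          have : IsCyclic (Subgroup.zpowers (sr j : DihedralGroup n)) := inferInstance
          exact isCyclic_of_injective (Subgroup.inclusion hle) (Subgroup.inclusion_injective hle)
        have hrl : (r l : DihedralGroup n) ^ n = 1 := by
          rw [← ZMod.natCast_zmod_val l, ← r_one_pow, ← pow_mul, mul_comm, pow_mul, r_one_pow_n,
            one_pow]
        have hord : orderOf (r l : DihedralGroup n) ∣ 2 ^ k := by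
          rw [← hk]
          exact orderOf_dvd_of_pow_eq_one hrl
        obtain ⟨s, hs, hs2⟩ := (Nat.dvd_prime_pow Nat.prime_two).mp hord
        have hs0 : s ≠ 0 := by
          rintro rfl
          rw [pow_zero, orderOf_eq_one_iff, one_def] at hs2
          injection hs2 with h
          exact hl0 h
        have hmem : (r l : DihedralGroup n) ^ (2 ^ (s - 1)) ∈ H := pow_mem hl _
        have hsq : (r l : DihedralGroup n) ^ (2 ^ (s - 1)) * r l ^ (2 ^ (s - 1)) = 1 := by
          rw [← pow_add, ← two_mul, ← pow_succ', Nat.sub_add_cancel (by omega), ← hs2,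
            pow_orderOf_eq_one]
        have hne : (r l : DihedralGroup n) ^ (2 ^ (s - 1)) ≠ 1 := by
          intro h
          have h1 := orderOf_dvd_of_pow_eq_one h
          rw [hs2] at h1
          have := Nat.pow_dvd_pow_iff_le_right (by norm_num : 1 < 2) |>.mp h1
          omega
        rw [← ZMod.natCast_zmod_val l, ← r_one_pow, ← pow_mul, r_one_pow] at hmem hsq hne
        rw [r_mul_r, one_def] at hsq
        injection hsq with hsq'
        rw [one_def] at hne
        have h3 := huniq _ hsq' (fun h => hne (by rw [h]))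
        have h4 : i.val = (((ZMod.val l * 2 ^ (s - 1) : ℕ) : ZMod n)).val := by omega
        have h5 := ZMod.val_injective n h4
        rw [h5]
        exact hmem
    intro g hg
    rw [Subgroup.mem_centralizer_iff] at hg
    have h1 := hg _ hj
    cases g with
    | r i =>
      rw [sr_mul_r, r_mul_sr] at h1
      injection h1 with h2
      exact key i (by linear_combination h2)
    | sr i =>
      rw [sr_mul_sr, sr_mul_sr] at h1
      injection h1 with h2
      have h3 := key (i - j) (by linear_combination h2)
      have h4 := mul_mem hj h3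
      rw [sr_mul_r] at h4
      have : j + (i - j) = i := by ring
      rwa [this] at h4

end Cfsg.Agent.S3920
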