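import Cfsg.Statements.S3937
import Cfsg.Agent.H2.Subnormal
import Cfsg.Agent.H62.Subnormal
import Cfsg.Agent.H62.PiCore
import Cfsg.Agent.Solv.Core

set_option autoImplicit false
open Cfsg

namespace Cfsg.Agent.S3937

universe u

open Subgroup in
/-- left Engel elements lie in the Fitting subgroup -/
lemma engel_aux (n : ℕ) : ∀ (G : Type u) [Group G] [Finite G], Nat.card G ≤ n → ∀ g : G,
    (∀ x : G, ∃ k : ℕ, (fun a => a * g * a⁻¹ * g⁻¹)^[k] x = 1) → g ∈ Cfsg.fittingSubgroup G := by
  induction n with
  | zero => intro G _ _ h; exact absurd h (by have := Nat.card_pos (α := G); omega)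
  | succ n ih =>
    intro G _ _ hcard g hg
    have hsub : (zpowers g).IsSubnormal := by
      by_contra hns
      -- proper subgroups
      have hprop : ∀ H : Subgroup G, H ≠ ⊤ → zpowers g ≤ H → ((zpowers g).subgroupOf H).IsSubnormal := by
        intro H hH hgH
        have hgm : g ∈ H := hgH (mem_zpowers g)
        have hc : Nat.card H ≤ n := by
          have h1 : Nat.card H < Nat.card G := by
            rcases lt_or_eq_of_le (Nat.le_of_dvd Nat.card_pos (card_subgroup_dvd_card H)) with h | h
            · exact h
            · exact absurd (Subgroup.eq_top_of_card_eq H h) hH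
          omega
        have h2 := ih H hc ⟨g, hgm⟩ (by
          intro x
          obtain ⟨k, hk⟩ := hg x
          refine ⟨k, ?_⟩
          apply Subtype.ext
          have h3 : ∀ k : ℕ, (((fun a : H => a * ⟨g, hgm⟩ * a⁻¹ * ⟨g, hgm⟩⁻¹)^[k] x : H) : G) =
              (fun a : G => a * g * a⁻¹ * g⁻¹)^[k] (x : G) := by
            intro k
            induction k with
            | zero => rfl
            | succ k ihk => rw [Function.iterate_succ_apply', Function.iterate_succ_apply', ← ihk]; rfl
          rw [h3, hk]; rfl)
        refine H62.isSubnormal_of_le_nilpotent (N := Cfsg.fittingSubgroup H) ?_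
          (Subgroup.Normal.isSubnormal inferInstance) Solv.fitting_isNilpotent
        rintro ⟨y, hy⟩ hy'
        obtain ⟨j, rfl⟩ := Subgroup.mem_zpowers_iff.1 (Subgroup.mem_subgroupOf.1 hy')
        exact (Cfsg.fittingSubgroup H).zpow_mem h2 j
      have hAtop : zpowers g ≠ ⊤ := by
        intro h; rw [h] at hns; exact hns IsSubnormal.top
      obtain ⟨M, hM, hAM⟩ := (eq_top_or_exists_le_coatom (zpowers g)).resolve_left hAtop
      have huniq : ∀ K : Subgroup G, IsCoatom K → zpowers g ≤ K → M = K := fun K hK hAK =>
        H2.zipper _ (zpowers g) le_rfl hprop hns M K hM hK hAM hAK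
      have hgM : g ∈ M := hAM (mem_zpowers g)
      -- normalizer
      have hnorm : normalizer (M : Set G) = M := by
        rcases eq_or_ne (normalizer (M : Set G)) ⊤ with h | h
        · exfalso
          apply hns
          have hMn : M.Normal := normalizer_eq_top_iff.1 h
          exact IsSubnormal.trans hAM (hprop M hM.1 hAM) hMn.isSubnormal
        · by_contra hne
          exact h (hM.2 _ (lt_of_le_of_ne le_normalizer (Ne.symm hne)))
      have key : ∀ y : G, y * g * y⁻¹ * g⁻¹ ∈ M → y ∈ M := by
        intro y hy
        have h1 : y * g * y⁻¹ ∈ M := by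
          have := M.mul_mem hy hgM
          simpa using this
        -- K = y⁻¹ M y
        have hK : IsCoatom (M.map (MulAut.conj y⁻¹).toMonoidHom) := by
          have e : M.map (MulAut.conj y⁻¹).toMonoidHom = (MulEquiv.mapSubgroup (MulAut.conj y⁻¹)) M := rfl
          rw [e]
          exact (OrderIso.isCoatom_iff (MulEquiv.mapSubgroup (MulAut.conj y⁻¹)) M).2 hM
        have h2 := huniq _ hK (by
          rw [zpowers_le]
          exact ⟨y * g * y⁻¹, h1, by simp [mul_assoc]⟩)
        rw [← hnorm, Subgroup.mem_normalizer_iff'']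
        intro x
        constructor
        · intro hx
          rw [h2]
          exact ⟨x, hx, by simp⟩
        · intro hx
          rw [h2] at hx
          obtain ⟨z, hz, hz'⟩ := hx
          have : z = x := by
            have h3 : y⁻¹ * z * y = y⁻¹ * x * y := by simpa using hz'
            exact mul_left_cancel (mul_right_cancel h3)
          rw [← this]; exact hz
      have hall : ∀ k : ℕ, ∀ x : G, (fun a => a * g * a⁻¹ * g⁻¹)^[k] x = 1 → x ∈ M := by
        intro k
        induction k with
        | zero => intro x hx; rw [Function.iterate_zero, id] at hx; rw [hx]; exact M.one_mem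
        | succ k ihk =>
          intro x hx
          rw [Function.iterate_succ_apply] at hx
          exact key x (ihk _ hx)
      apply hM.1
      rw [eq_top_iff]
      intro x _
      obtain ⟨k, hk⟩ := hg x
      exact hall k x hk
    have hnz : Group.IsNilpotent (zpowers g) :=
      @CommGroup.isNilpotent (zpowers g) (IsCyclic.commGroup)
    exact H62.le_fitting_of_isSubnormal hsub hnz (mem_zpowers g)

lemma foldl_eq {G : Type*} [Group G] (g : G) : ∀ (n : ℕ) (x : G),
    (List.replicate n g).foldl (fun a b => a * b * a⁻¹ * b⁻¹) x = (fun a => a * g * a⁻¹ * g⁻¹)^[n] x := by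
  intro n
  induction n with
  | zero => intro x; rfl
  | succ n ih => intro x; rw [List.replicate_succ, List.foldl_cons, ih, Function.iterate_succ_apply]


/-- Baer's characterization of the Fitting subgroup: in a finite group G, an element g lies in the Fitting subgroup if and only if g is a left Engel element, that is, for every x there is n with [x, g, g, …, g] = 1 (n entries g, [a, b] = aba⁻¹b⁻¹). -/
theorem result {G : Type*} [Group G] [Finite G] (g : G) :
    g ∈ Cfsg.fittingSubgroup G ↔ ∀ x : G, ∃ n : ℕ, (List.replicate n g).foldl (fun a b => a * b * a⁻¹ * b⁻¹) x = 1 := by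
  constructor
  · intro hg x
    have hnil : Group.IsNilpotent (Cfsg.fittingSubgroup G) := Solv.fitting_isNilpotent
    obtain ⟨n, hn⟩ := Subgroup.nilpotent_iff_lowerCentralSeries.1 hnil
    have h1 : ∀ k : ℕ, ∃ y ∈ (⊤ : Subgroup (Cfsg.fittingSubgroup G)).lowerCentralSeries k,
        (fun a => a * g * a⁻¹ * g⁻¹)^[k + 1] x = (y : G) := by
      intro k
      induction k with
      | zero =>
        refine ⟨⟨x * g * x⁻¹ * g⁻¹, mul_mem ((inferInstance : (Cfsg.fittingSubgroup G).Normal).conj_mem g hg x)
          (inv_mem hg)⟩, ?_, rfl⟩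
        trivial
      | succ k ih =>
        obtain ⟨y, hy, hy'⟩ := ih
        refine ⟨y * ⟨g, hg⟩ * y⁻¹ * ⟨g, hg⟩⁻¹, ?_, ?_⟩
        · rw [Subgroup.lowerCentralSeries_succ]
          exact Subgroup.commutator_mem_commutator hy (Subgroup.mem_top _)
        · rw [Function.iterate_succ_apply', hy']; rfl
    obtain ⟨y, hy, hy'⟩ := h1 n
    refine ⟨n + 1, ?_⟩
    rw [foldl_eq, hy']
    rw [hn, Subgroup.mem_bot] at hy
    rw [hy]; rfl
  · intro h
    apply engel_aux (Nat.card G) G le_rfl g
    intro x
    obtain ⟨n, hn⟩ := h x
    exact ⟨n, by rw [← foldl_eq]; exact hn⟩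

end Cfsg.Agent.S3937
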