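import Cfsg.Statements.S3939
import Cfsg.Agent.H65.Enlarge

set_option autoImplicit false
open Cfsg

namespace Cfsg.Agent.S3939

open Cfsg.Agent.H65 Cfsg.Agent.Transfer
open scoped commutatorElement

theorem closure_nilpotent {G : Type*} [Group G] {n : ℕ} {g : G}
    (hg : g ∈ Subgroup.upperCentralSeries G n) (x : G) :
    Group.IsNilpotent ↥(Subgroup.closure ({x, g} : Set G)) := by
  set S := Subgroup.closure ({x, g} : Set G) with hS
  rw [Subgroup.isNilpotent_iff_lowerCentralSeries]
  have h1 : S ≤ (Subgroup.zpowers ((QuotientGroup.mk' (Subgroup.upperCentralSeries G n)) x)).comap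
        (QuotientGroup.mk' (Subgroup.upperCentralSeries G n)) := by
    rw [hS, Subgroup.closure_le]
    rintro y (rfl | rfl)
    · exact Subgroup.mem_zpowers _
    · change (QuotientGroup.mk' (Subgroup.upperCentralSeries G n)) y ∈ Subgroup.zpowers _
      have : (QuotientGroup.mk' (Subgroup.upperCentralSeries G n)) y = 1 := by
        rw [QuotientGroup.mk'_apply, QuotientGroup.eq_one_iff]; exact hg
      rw [this]
      exact one_mem _
  have h2 : S.lowerCentralSeries 1 ≤ Subgroup.upperCentralSeries G n := by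
    rw [Subgroup.lowerCentralSeries_succ, Subgroup.lowerCentralSeries_zero, Subgroup.commutator_le]
    intro a ha b hb
    rw [← QuotientGroup.eq_one_iff, ← QuotientGroup.mk'_apply, commutatorElement_def, map_mul,
      map_mul, map_mul, map_inv, map_inv]
    obtain ⟨i, hi⟩ := Subgroup.mem_zpowers_iff.mp (h1 ha)
    obtain ⟨j, hj⟩ := Subgroup.mem_zpowers_iff.mp (h1 hb)
    rw [← hi, ← hj]
    group
  have h3 : ∀ k ≤ n, S.lowerCentralSeries (k + 1) ≤ Subgroup.upperCentralSeries G (n - k) := by
    intro k
    induction k with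
    | zero => intro _; exact h2
    | succ k ih =>
      intro hk
      rw [Subgroup.lowerCentralSeries_succ]
      have e : n - k = (n - (k + 1)) + 1 := by omega
      have := ih (by omega)
      rw [e] at this
      exact (Subgroup.commutator_mono this le_top).trans (Subgroup.commutator_upperCentralSeries_top_le G _)
  refine ⟨n + 1, ?_⟩
  have := h3 n le_rfl
  rw [Nat.sub_self, Subgroup.upperCentralSeries_zero] at this
  exact le_bot_iff.mp this

open Subgroup in
/-- `p`-elements commuting with all `p'`-elements lie in the hypercenter. -/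
theorem mem_of_comm {G : Type*} [Group G] [Finite G] {p : ℕ} [Fact p.Prime] (Z : Subgroup G)
    [Z.Normal] (hZ : ∀ n : G, (∀ z : G, ⁅n, z⁆ ∈ Z) → n ∈ Z) {a : G} {k : ℕ}
    (hk : orderOf a = p ^ k) (hcomm : ∀ y : G, (orderOf y).Coprime p → a * y = y * a) : a ∈ Z := by
  have hp : p.Prime := Fact.out
  by_contra haZ
  have haO : ∀ u ∈ Cfsg.pResidual p G, u * a = a * u := by
    have : Cfsg.pResidual p G ≤ centralizer ({a} : Set G) := by
      rw [Cfsg.pResidual, closure_le]
      intro z hz
      rw [SetLike.mem_coe, mem_centralizer_singleton_iff]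
      exact (hcomm z hz).symm
    intro u hu
    exact mem_centralizer_singleton_iff.mp (this hu)
  have hA : IsPGroup p (zpowers a) := by
    apply IsPGroup.of_card (n := k)
    rw [Nat.card_zpowers, hk]
  obtain ⟨P, hP⟩ := hA.exists_le_sylow
  have haP : a ∈ (P : Subgroup G) := hP (mem_zpowers a)
  have hPO : (P : Subgroup G) ⊔ Cfsg.pResidual p G = ⊤ := sylow_sup_pResidual P
  have hNP : normalClosure ({a} : Set G) ≤ P := by
    rw [normalClosure, closure_le]
    intro y hy
    rw [Group.mem_conjugatesOfSet_iff] at hy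
    obtain ⟨b, hb, hby⟩ := hy
    rw [Set.mem_singleton_iff] at hb
    subst hb
    obtain ⟨c, rfl⟩ := isConj_iff.mp hby
    have hc : c ∈ (P : Subgroup G) ⊔ Cfsg.pResidual p G := hPO ▸ mem_top c
    obtain ⟨h, hh, u, hu, rfl⟩ := mem_sup_of_normal_right.mp hc
    have h2 := haO u hu
    have : h * u * b * (h * u)⁻¹ = h * b * h⁻¹ := by
      calc h * u * b * (h * u)⁻¹ = h * (u * b) * u⁻¹ * h⁻¹ := by group
        _ = h * (b * u) * u⁻¹ * h⁻¹ := by rw [h2]
        _ = _ := by group
    rw [SetLike.mem_coe, this]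
    exact mul_mem (mul_mem hh haP) (inv_mem hh)
  have hNO : normalClosure ({a} : Set G) ≤ centralizer (Cfsg.pResidual p G : Set G) := by
    apply normalClosure_le_normal
    rw [Set.singleton_subset_iff, SetLike.mem_coe, mem_centralizer_iff]
    exact haO
  set N := normalClosure ({a} : Set G) with hN
  -- fixed points in the quotient
  let π := QuotientGroup.mk' Z
  let X : Set (G ⧸ Z) := {y | y ∈ N.map π ∧ y ≠ 1}
  have haN : a ∈ N := subset_normalClosure rfl
  have hNp : IsPGroup p N := P.2.to_le hNP
  have hNπ : IsPGroup p (N.map π) := hNp.map π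
  have hcardX : Nat.card X + 1 = Nat.card (N.map π) := by
    have h1 := Set.ncard_sdiff_add_ncard_of_subset (s := ({1} : Set (G ⧸ Z)))
      (t := ((N.map π : Subgroup (G ⧸ Z)) : Set (G ⧸ Z)))
      (Set.singleton_subset_iff.mpr (one_mem _)) (Set.toFinite _)
    rw [Set.ncard_singleton] at h1
    have h2 : X = ((N.map π : Subgroup (G ⧸ Z)) : Set (G ⧸ Z)) \ {1} := by
      ext y; simp [X]
    rw [h2]
    exact h1
  have hne : Nat.card (N.map π) ≠ 1 := by
    intro h
    rw [Subgroup.card_eq_one] at h
    apply haZ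
    have : π a ∈ N.map π := ⟨a, haN, rfl⟩
    rw [h, Subgroup.mem_bot] at this
    exact (QuotientGroup.eq_one_iff a).mp this
  have hpd : p ∣ Nat.card (N.map π) := hNπ.card_eq_or_dvd.resolve_left hne
  have hpX : ¬ p ∣ Nat.card X := by
    intro h
    have h1 : p ∣ 1 := (Nat.dvd_add_right h).mp (hcardX ▸ hpd)
    exact hp.one_lt.ne' (Nat.dvd_one.mp h1)
  have hNn : (N.map π).Normal := by
    have : N.Normal := normalClosure_normal
    exact this.map π (QuotientGroup.mk'_surjective Z)
  obtain ⟨y, ⟨⟨n, hn, rfl⟩, hy1⟩, hyfix⟩ := exists_conj_fixed ((P : Subgroup G).map π) (P.2.map π) X (by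
    rintro b hb y ⟨hy, hy1⟩
    refine ⟨hNn.conj_mem y hy b, fun h => hy1 ?_⟩
    rwa [conj_eq_one_iff] at h) hpX
  apply hy1
  have hnZ : n ∈ Z := by
    apply hZ
    intro z
    rw [← QuotientGroup.eq_one_iff]
    change π ⁅n, z⁆ = 1
    rw [map_commutatorElement, commutatorElement_eq_one_iff_mul_comm]
    have hz : z ∈ (P : Subgroup G) ⊔ Cfsg.pResidual p G := hPO ▸ mem_top z
    obtain ⟨h, hh, u, hu, rfl⟩ := mem_sup_of_normal_right.mp hz
    have e1 := hyfix (π h) ⟨h, hh, rfl⟩
    rw [mul_inv_eq_iff_eq_mul] at e1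
    have e2 : u * n = n * u := mem_centralizer_iff.mp (hNO hn) u hu
    have e3 : π u * π n = π n * π u := by rw [← map_mul, e2, map_mul]
    rw [map_mul, ← mul_assoc, ← e1, mul_assoc, mul_assoc, e3]
  exact (QuotientGroup.eq_one_iff n).mpr hnZ

/-- In a finite group G the set of elements g such that the subgroup generated by g and x is nilpotent for every x ∈ G is exactly the hypercenter of G (the last term of the upper central series). -/
theorem result {G : Type*} [Group G] [Finite G] (g : G) :
    (∀ x : G, Group.IsNilpotent ↥(Subgroup.closure ({x, g} : Set G))) ↔ g ∈ ⨆ n : ℕ, Subgroup.upperCentralSeries G n := by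
  have hmono := Subgroup.upperCentralSeries_mono G
  have hsup : ∀ y : G, y ∈ (⨆ n : ℕ, Subgroup.upperCentralSeries G n) ↔
      ∃ n, y ∈ Subgroup.upperCentralSeries G n := by
    intro y
    exact Subgroup.mem_iSup_of_directed hmono.directed_le
  constructor
  · intro hnil
    obtain ⟨m, hm⟩ := WellFoundedGT.monotone_chain_condition ⟨_, hmono⟩
    have hsucc : ∀ n : G, (∀ z : G, ⁅n, z⁆ ∈ Subgroup.upperCentralSeries G m) →
        n ∈ Subgroup.upperCentralSeries G m := by
      intro n hn
      have h1 : Subgroup.upperCentralSeries G m = Subgroup.upperCentralSeries G (m + 1) :=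
        hm (m + 1) (Nat.le_succ m)
      rw [h1, Subgroup.mem_upperCentralSeries_succ_iff]
      exact hn
    rw [hsup]
    refine ⟨m, ?_⟩
    by_contra hgZ
    obtain ⟨p, A, hp, -, hpg, hA, hAg, hAZ⟩ :=
      exists_prime_part (p := 1) (Subgroup.upperCentralSeries G m) (by simp) hgZ
    have : Fact p.Prime := ⟨hp⟩
    obtain ⟨a, haA, haZ⟩ := SetLike.not_le_iff_exists.mp hAZ
    -- a is a p-element and a power of g
    obtain ⟨k, hk⟩ := IsPGroup.iff_orderOf.mp hA ⟨a, haA⟩
    rw [Subgroup.orderOf_mk] at hk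
    apply haZ
    apply mem_of_comm (Subgroup.upperCentralSeries G m) hsucc hk
    intro y hy
    have hg' : g ∈ Subgroup.closure ({y, g} : Set G) := Subgroup.subset_closure (by simp)
    have ha' : a ∈ Subgroup.closure ({y, g} : Set G) := by
      have h1 : a ∈ Subgroup.zpowers g := hAg haA
      exact (Subgroup.zpowers_le.mpr hg') h1
    have hy' : y ∈ Subgroup.closure ({y, g} : Set G) := Subgroup.subset_closure (by simp)
    have h1 := commute_of_isNilpotent (p := p) (hnil y) (x := ⟨a, ha'⟩) (y := ⟨y, hy'⟩) (k := k)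
      (by apply Subtype.ext; change a ^ p ^ k = 1; rw [← hk, pow_orderOf_eq_one])
      (by rwa [Subgroup.orderOf_mk])
    exact congrArg Subtype.val h1
  · intro hg x
    rw [hsup] at hg
    obtain ⟨n, hn⟩ := hg
    exact closure_nilpotent hn x

end Cfsg.Agent.S3939
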