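import Cfsg.Statements.S3949


set_option autoImplicit false
open Cfsg

namespace Cfsg.Agent.S3949

/-- Let G be a finite group and α an automorphism of G of order 2 such that the elements g·α(g)⁻¹ generate G. Let j be a positive integer such that 2^j divides the order of no element inverted by α. Then the set of values of the j-th iterate of the map c ↦ c·α(c)⁻¹ is exactly the set of elements of odd order inverted by α. -/
theorem result {G : Type*} [Group G] [Finite G] (α : MulAut G) (hα : orderOf α = 2) (hG : Subgroup.closure (Set.range (fun c : G => c * (α c)⁻¹)) = ⊤)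
    (j : ℕ) (hj : ∀ g : G, α g = g⁻¹ → ¬ 2 ^ j ∣ orderOf g) :
    Set.range ((fun c : G => c * (α c)⁻¹)^[j]) = {g : G | Odd (orderOf g) ∧ α g = g⁻¹} := by
  set f : G → G := fun c => c * (α c)⁻¹ with hf
  have hαα : ∀ g, α (α g) = g := by
    intro g
    have : α ^ 2 = 1 := by rw [← hα]; exact pow_orderOf_eq_one α
    rw [sq] at this
    have h2 := congrArg (fun β : MulAut G => β g) this
    simpa using h2
  have hinv : ∀ c, α (f c) = (f c)⁻¹ := by
    intro c
    simp only [hf, map_mul, map_inv, hαα, mul_inv_rev, inv_inv]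
  have hsq : ∀ c, α c = c⁻¹ → f c = c ^ 2 := by
    intro c hc
    simp only [hf, hc, inv_inv, sq]
  have hiter : ∀ k c, α c = c⁻¹ → f^[k] c = c ^ (2 ^ k) := by
    intro k
    induction k with
    | zero => intro c _; simp
    | succ k ih =>
      intro c hc
      rw [Function.iterate_succ_apply, hsq c hc, ih (c ^ 2) (by rw [map_pow, hc, inv_pow]), ← pow_mul]
      congr 1
      ring
  have hj0 : j ≠ 0 := by
    rintro rfl
    exact hj 1 (by simp) (by simp)
  obtain ⟨k, rfl⟩ : ∃ k, j = k + 1 := ⟨j - 1, by omega⟩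
  ext g
  constructor
  · rintro ⟨c, rfl⟩
    rw [Function.iterate_succ_apply, hiter k _ (hinv c)]
    refine ⟨?_, by rw [map_pow, hinv, inv_pow]⟩
    rw [← Nat.not_even_iff_odd, even_iff_two_dvd]
    intro h2
    apply hj _ (hinv c)
    -- 2 ∣ orderOf (u ^ 2^k) → 2^(k+1) ∣ orderOf u
    have hfin : 0 < orderOf (f c) := orderOf_pos _
    obtain ⟨i, m, hm, him⟩ := Nat.exists_eq_pow_mul_and_not_dvd (n := orderOf (f c)) hfin.ne' 2 (by norm_num)
    rcases Nat.lt_or_ge k i with hki | hki
    · rw [him]; exact (pow_dvd_pow 2 hki).mul_right m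
    · exfalso
      apply hm
      refine h2.trans (orderOf_dvd_of_pow_eq_one ?_)
      rw [← pow_mul, show 2 ^ k * m = (2 ^ i * m) * 2 ^ (k - i) by
        rw [mul_right_comm, ← pow_add, Nat.add_sub_cancel' hki], pow_mul, ← him, pow_orderOf_eq_one, one_pow]
  · rintro ⟨hodd, hg⟩
    -- g = u ^ (2^(k+1)) with u in <g>
    have hcop : (orderOf g).Coprime (2 ^ (k + 1)) := Nat.Coprime.pow_right _ (Nat.coprime_two_right.2 hodd)
    obtain ⟨m, hm⟩ := exists_pow_eq_self_of_coprime hcop.symm
    refine ⟨g ^ m, ?_⟩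
    rw [hiter (k + 1) (g ^ m) (by rw [map_pow, hg, inv_pow])]
    rw [← pow_mul, mul_comm, pow_mul]
    exact hm

end Cfsg.Agent.S3949
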