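import Cfsg.Statements.S3972
import Cfsg.Agent.H66.SchurRing

set_option autoImplicit false
open Cfsg

namespace Cfsg.Agent.S3972

open scoped Pointwise

/-- Let `p` be a prime, `m ≥ 2`, and `G` a transitive but not doubly transitive permutation group on `p ^ m` points containing a permutation of order `p ^ m` (necessarily a full cycle). Then `G` is imprimitive, and the normal closure in `G` of the `p ^ (m - 1)`-th power of that permutation is an intransitive normal subgroup. -/
theorem result {Ω : Type*} [Fintype Ω] [DecidableEq Ω] (p m : ℕ) (hp : p.Prime) (hm : 2 ≤ m) (hΩ : Fintype.card Ω = p ^ m) (G : Subgroup (Equiv.Perm Ω)) (htr : MulAction.IsPretransitive G Ω) (h2 : ¬ MulAction.IsMultiplyPretransitive G Ω 2) (g : G) (hg : orderOf g = p ^ m) : ¬ MulAction.IsPreprimitive G Ω ∧ ¬ MulAction.IsPretransitive (Subgroup.normalClosure ({g ^ (p ^ (m - 1))} : Set G)) Ω := by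
  classical
  have hpf := Fact.mk hp
  have hcard : Nat.card Ω = p ^ m := by rw [Nat.card_eq_fintype_card, hΩ]
  have hone : 1 < Nat.card Ω := by rw [hcard]; exact Nat.one_lt_pow (by omega) hp.one_lt
  have hne : Nonempty Ω := (Nat.card_pos_iff.mp (by omega)).1
  -- an orbit of `⟨g⟩` of full size
  have hg1 : g ^ (p ^ (m - 1)) ≠ 1 := by
    intro h
    have h1 := orderOf_dvd_of_pow_eq_one h
    rw [hg] at h1
    have := (Nat.pow_dvd_pow_iff_le_right hp.one_lt).mp h1
    omega
  obtain ⟨ω, hω⟩ : ∃ ω : Ω, (g ^ (p ^ (m - 1))) • ω ≠ ω := by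
    by_contra hcon
    push Not at hcon
    apply hg1
    apply Subtype.ext
    ext ω
    exact hcon ω
  have hper : Function.minimalPeriod (g • ·) ω = p ^ m := by
    have h1 : Function.minimalPeriod (g • ·) ω ∣ p ^ m := by
      apply Function.IsPeriodicPt.minimalPeriod_dvd
      change (g • ·)^[p ^ m] ω = ω
      rw [smul_iterate, ← hg, pow_orderOf_eq_one]
      exact one_smul _ ω
    obtain ⟨k, hk, hk2⟩ := (Nat.dvd_prime_pow hp).mp h1
    rcases Nat.lt_or_ge k m with h | h
    · exfalso
      apply hω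
      have h2 : Function.IsPeriodicPt (g • ·) (p ^ (m - 1)) ω := by
        apply Function.IsPeriodicPt.trans_dvd (Function.isPeriodicPt_minimalPeriod _ _)
        rw [hk2]
        exact pow_dvd_pow p (by omega)
      have h3 : (g • ·)^[p ^ (m - 1)] ω = ω := h2
      rwa [smul_iterate] at h3
    · rw [hk2, le_antisymm hk h]
  have horb : MulAction.orbit (Subgroup.zpowers g) ω = Set.univ := by
    have hfin : Finite (MulAction.orbit (Subgroup.zpowers g) ω) := inferInstance
    have h1 := Nat.card_congr (MulAction.orbitZPowersEquiv g ω)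
    rw [hper, Nat.card_zmod, ← hcard] at h1
    rw [Nat.card_coe_set_eq] at h1
    exact (Set.eq_univ_iff_ncard _).mpr h1
  have htrg : ∀ x y : Ω, ∃ k : ℤ, g ^ k • x = y := by
    have h0 : ∀ x : Ω, ∃ k : ℤ, g ^ k • ω = x := by
      intro x
      have hx : x ∈ MulAction.orbit (Subgroup.zpowers g) ω := by rw [horb]; exact Set.mem_univ x
      obtain ⟨⟨h, hh⟩, hx⟩ := hx
      obtain ⟨k, rfl⟩ := Subgroup.mem_zpowers_iff.mp hh
      exact ⟨k, hx⟩
    intro x y
    obtain ⟨i, hi⟩ := h0 x
    obtain ⟨j, hj⟩ := h0 y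
    refine ⟨j - i, ?_⟩
    rw [← hi, smul_smul, ← zpow_add, sub_add_cancel, hj]
  have hnprim : ¬ MulAction.IsPreprimitive G Ω := by
    intro hprim
    apply h2
    refine Cfsg.Agent.H66.SR.two_transitive g htrg (by omega) ?_ hprim
    rw [hcard]
    exact Nat.Prime.not_prime_pow hm
  refine ⟨hnprim, ?_⟩
  -- a nontrivial block system
  obtain ⟨B, hB, hBt⟩ : ∃ B : Set Ω, MulAction.IsBlock G B ∧ ¬ MulAction.IsTrivialBlock B := by
    by_contra hcon
    push Not at hcon
    exact hnprim ⟨fun {B} hB => hcon B hB⟩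
  rw [MulAction.IsTrivialBlock] at hBt
  push Not at hBt
  obtain ⟨hB1, hB2⟩ := hBt
  -- the block contains a point
  obtain ⟨b, hb, b', hb', hbb⟩ := hB1
  -- the element `g ^ (p ^ (m - 1))` fixes every translate of `B`
  set z := g ^ (p ^ (m - 1)) with hz
  have hfix : ∀ h : G, z • (h • B) = h • B := by
    intro h
    have hblk : MulAction.IsBlock G (h • B) := hB.translate h
    have hx : h • b ∈ h • B := Set.smul_mem_smul_set hb
    have hy : h • b' ∈ h • B := Set.smul_mem_smul_set hb'
    have hxy : h • b ≠ h • b' := fun h1 => hbb (smul_left_cancel h h1)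
    obtain ⟨k, hk⟩ := htrg (h • b) (h • b')
    have h1 : g ^ k • (h • B) = h • B := by
      apply (MulAction.isBlock_iff_smul_eq_of_nonempty.mp hblk)
      exact ⟨h • b', by rw [← hk]; exact Set.smul_mem_smul_set hx, hy⟩
    have h2 := MulAction.zpow_smul_eq_iff_minimalPeriod_dvd.mp h1
    have h3 : Function.minimalPeriod (g • ·) (h • B) ∣ p ^ m := by
      apply MulAction.pow_smul_eq_iff_minimalPeriod_dvd.mp
      rw [← hg, pow_orderOf_eq_one, one_smul]
    obtain ⟨j, hj, hj2⟩ := (Nat.dvd_prime_pow hp).mp h3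
    apply MulAction.pow_smul_eq_iff_minimalPeriod_dvd.mpr
    rw [hj2]
    apply pow_dvd_pow
    by_contra hcon
    have hjm : j = m := by omega
    apply hxy
    rw [hj2, hjm, ← hg] at h2
    rw [← hk, orderOf_dvd_iff_zpow_eq_one.mp h2, one_smul]
  have hker : ∀ x ∈ Subgroup.normalClosure ({z} : Set G), x • B = B := by
    have hle : Subgroup.normalClosure ({z} : Set G) ≤ ⨅ h : G, MulAction.stabilizer G (h • B) := by
      have hnorm : (⨅ h : G, MulAction.stabilizer G (h • B)).Normal := by
        constructor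
        intro n hn g'
        rw [Subgroup.mem_iInf] at hn ⊢
        intro h
        have h1 := hn (g'⁻¹ * h)
        rw [MulAction.mem_stabilizer_iff] at h1 ⊢
        rw [mul_smul, mul_smul, ← mul_smul g'⁻¹ h B, h1, mul_smul, smul_inv_smul]
      apply Subgroup.normalClosure_le_normal
      rw [Set.singleton_subset_iff, SetLike.mem_coe, Subgroup.mem_iInf]
      exact fun h => hfix h
    intro x hx
    have h1 := (Subgroup.mem_iInf.mp (hle hx)) 1
    rw [MulAction.mem_stabilizer_iff, one_smul] at h1
    exact h1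
  intro htr'
  apply hB2
  rw [Set.eq_univ_iff_forall]
  intro ω'
  obtain ⟨⟨x, hx⟩, hx2⟩ := htr'.exists_smul_eq b ω'
  rw [← hker x hx, ← hx2]
  exact Set.smul_mem_smul_set hb

end Cfsg.Agent.S3972
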