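import Cfsg.Statements.S3982
import Cfsg.Agent.H66.Util2
import Cfsg.Agent.SigF.Coprime

set_option autoImplicit false
open Cfsg

namespace Cfsg.Agent.S3982

open Cfsg.Agent.SigF Cfsg.Agent.H66

/-- Let p be an odd prime and G a finite group of even order divisible by p in which the centralizer of every non-identity p-element has odd order. If some nontrivial p-subgroup of G has a normalizer of even order, then the normalizer of every Sylow p-subgroup of G has even order. -/
theorem result {G : Type*} [Group G] [Finite G] (p : ℕ) [Fact p.Prime] (hp2 : p ≠ 2) (hpG : p ∣ Nat.card G) (h2G : 2 ∣ Nat.card G) (hC : ∀ g : G, g ≠ 1 → (∃ k : ℕ, orderOf g = p ^ k) → Odd (Nat.card ↥(Subgroup.centralizer ({g} : Set G)))) (Q : Subgroup G) (hQ : IsPGroup p ↥Q) (hQ1 : Q ≠ ⊥) (hev : Even (Nat.card ↥(Subgroup.normalizer (Q : Set G)))) (P : Sylow p G) : Even (Nat.card ↥(Subgroup.normalizer ((P : Subgroup G) : Set G))) := by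
  have hpp : p.Prime := Fact.out
  have h2f : Fact (Nat.Prime 2) := ⟨Nat.prime_two⟩
  -- the involution
  obtain ⟨y', hy'⟩ := exists_prime_orderOf_dvd_card' (G := Subgroup.normalizer (Q : Set G)) 2
    (even_iff_two_dvd.1 hev)
  set y : G := (y' : G) with hydef
  have hy : orderOf y = 2 := by rw [hydef, Subgroup.orderOf_coe]; exact hy'
  have hyQ : y ∈ Subgroup.normalizer (Q : Set G) := y'.2
  have hyy := sq_eq_one_of_orderOf hy
  have hyi : y⁻¹ = y := inv_eq_of_mul_eq_one_left hyy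
  have hy1 : y ≠ 1 := by
    intro h; rw [h, orderOf_one] at hy; omega
  -- y centralizes no nontrivial p-element
  have hfix : ∀ g : G, (∃ k, g ^ p ^ k = 1) → y * g = g * y → g = 1 := by
    rintro g ⟨k, hk⟩ hg
    by_contra hg1
    obtain ⟨j, _, hj⟩ := (Nat.dvd_prime_pow hpp).1 (orderOf_dvd_of_pow_eq_one hk)
    have h1 := hC g hg1 ⟨j, hj⟩
    have h2 : y ∈ Subgroup.centralizer ({g} : Set G) := Subgroup.mem_centralizer_singleton_iff.2 hg
    have h3 : 2 ∣ Nat.card (Subgroup.centralizer ({g} : Set G)) := by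
      rw [← hy, ← Subgroup.orderOf_mk y h2]
      exact orderOf_dvd_natCard _
    exact (Nat.not_even_iff_odd.2 h1) (even_iff_two_dvd.2 h3)
  -- a maximal y-invariant p-subgroup above Q
  obtain ⟨Q0, hQQ0, hmax⟩ := (Set.toFinite {R : Subgroup G | IsPGroup p R ∧
    y ∈ Subgroup.normalizer (R : Set G)}).exists_le_maximal (a := Q) ⟨hQ, hyQ⟩
  obtain ⟨hQ0, hyQ0⟩ := hmax.prop
  have hQ0ne : Q0 ≠ ⊥ := fun h => hQ1 (le_bot_iff.1 (h ▸ hQQ0))
  -- y inverts Q0
  have hinv : ∀ g ∈ Q0, y * g * y⁻¹ = g⁻¹ := by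
    let φ : Q0 →* Q0 :=
      { toFun := fun g => ⟨y * g * y⁻¹, (Subgroup.mem_normalizer_iff.1 hyQ0 g).1 g.2⟩
        map_one' := by apply Subtype.ext; simp
        map_mul' := by intro a b; apply Subtype.ext; simp [mul_assoc] }
    have hφ : MonoidHom.FixedPointFree φ := by
      intro g hg
      have h1 : y * g * y⁻¹ = g := congrArg Subtype.val hg
      apply Subtype.ext
      apply hfix g
      · obtain ⟨k, hk⟩ := hQ0 g
        exact ⟨k, by simpa using congrArg Subtype.val hk⟩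
      · exact mul_inv_eq_iff_eq_mul.1 h1
    have hφ2 : Function.Involutive φ := by
      intro g
      apply Subtype.ext
      show y * (y * g * y⁻¹) * y⁻¹ = g
      calc y * (y * g * y⁻¹) * y⁻¹ = (y * y) * g * (y⁻¹ * y⁻¹) := by group
        _ = g := by rw [hyi, hyy]; group
    intro g hg
    have h1 := congrFun (hφ.coe_eq_inv_of_involutive hφ2) ⟨g, hg⟩
    exact congrArg Subtype.val h1
  set C : Subgroup G := Subgroup.centralizer (Q0 : Set G) with hCdef
  have hCodd : ¬ 2 ∣ Nat.card C := by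
    obtain ⟨g, hg, hg1⟩ := (Subgroup.ne_bot_iff_exists_ne_one).1 hQ0ne |>.elim (fun a ha => (⟨a.1, a.2, fun h => ha (Subtype.ext h)⟩ : ∃ g, g ∈ Q0 ∧ g ≠ 1))
    obtain ⟨k, hk⟩ := (IsPGroup.iff_orderOf.1 hQ0) ⟨g, hg⟩
    have h1 := hC g hg1 ⟨k, by rw [← hk, Subgroup.orderOf_mk]⟩
    have h2 : C ≤ Subgroup.centralizer ({g} : Set G) := Subgroup.centralizer_le (Set.singleton_subset_iff.2 hg)
    intro h3
    exact (Nat.not_even_iff_odd.2 h1) (even_iff_two_dvd.2 (h3.trans (Subgroup.card_dvd_of_le h2)))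
  have hQ0C : Q0 ≤ C := by
    intro a ha
    rw [hCdef, Subgroup.mem_centralizer_iff]
    intro b hb
    have h1 := hinv (a * b) (Q0.mul_mem ha hb)
    have h2 : y * (a * b) * y⁻¹ = (y * a * y⁻¹) * (y * b * y⁻¹) := by group
    rw [h2, hinv a ha, hinv b hb] at h1
    have h3 := congrArg (fun t => t⁻¹) h1
    simpa using h3
  have hNC : ∀ c ∈ C, ∀ x ∈ Subgroup.normalizer (Q0 : Set G), x * c * x⁻¹ ∈ C := by
    intro c hc x hx
    rw [hCdef, Subgroup.mem_centralizer_iff] at hc ⊢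
    intro q hq
    have h1 := hc (x⁻¹ * q * x) ((Subgroup.mem_normalizer_iff''.1 hx q).1 hq)
    calc q * (x * c * x⁻¹) = x * ((x⁻¹ * q * x) * c) * x⁻¹ := by group
      _ = x * (c * (x⁻¹ * q * x)) * x⁻¹ := by rw [h1]
      _ = x * c * x⁻¹ * q := by group
  have hA : IsPGroup 2 (Subgroup.zpowers y) := isPGroup_zpowers (k := 1) (by rw [pow_one, sq, hyy])
  have hyC : y ∈ Subgroup.normalizer (C : Set G) := by
    apply mem_normalizer_of_conj
    intro c hc
    exact hNC c hc y hyQ0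
  have hAC : Subgroup.zpowers y ≤ Subgroup.normalizer (C : Set G) := by rwa [Subgroup.zpowers_le]
  have hAQ0 : Subgroup.zpowers y ≤ Subgroup.normalizer (Q0 : Set G) := by rwa [Subgroup.zpowers_le]
  -- p-elements of the normalizer of Q0 lie in C
  have hpC : ∀ x ∈ Subgroup.normalizer (Q0 : Set G), (∃ k, x ^ p ^ k = 1) → x ∈ C := by
    rintro x hx ⟨k, hk⟩
    have hcomm : ∀ a ∈ Subgroup.zpowers y, x⁻¹ * (a * x * a⁻¹) ∈ C := by
      have h1 : x⁻¹ * (y * x * y⁻¹) ∈ C := by
        rw [hCdef, Subgroup.mem_centralizer_iff]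
        intro q hq
        -- conj by x⁻¹ y x y⁻¹ fixes q
        have h2 : ∀ q ∈ Q0, (x⁻¹ * (y * x * y⁻¹)) * q * (x⁻¹ * (y * x * y⁻¹))⁻¹ = q := by
          intro q hq
          have e1 : y⁻¹ * q * y = q⁻¹ := by
            have := hinv q hq
            rwa [hyi] at this ⊢
          have e2 : x * (q⁻¹) * x⁻¹ ∈ Q0 := (Subgroup.mem_normalizer_iff.1 hx _).1 (Q0.inv_mem hq)
          have e3 := hinv _ e2
          calc (x⁻¹ * (y * x * y⁻¹)) * q * (x⁻¹ * (y * x * y⁻¹))⁻¹
              = x⁻¹ * (y * (x * (y⁻¹ * q * y) * x⁻¹) * y⁻¹) * x := by group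
            _ = x⁻¹ * (y * (x * q⁻¹ * x⁻¹) * y⁻¹) * x := by rw [e1]
            _ = x⁻¹ * (x * q⁻¹ * x⁻¹)⁻¹ * x := by rw [e3]
            _ = q := by group
        have h3 := h2 q hq
        rw [mul_inv_eq_iff_eq_mul] at h3
        exact h3.symm
      intro a ha
      obtain ⟨i, rfl⟩ := Subgroup.mem_zpowers_iff.1 ha
      rcases Int.even_or_odd' i with ⟨j, hj | hj⟩
      · have : y ^ i = 1 := by
          rw [hj, zpow_mul, zpow_ofNat, sq, hyy, one_zpow]
        rw [this]; simp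
      · have : y ^ i = y := by
          rw [hj, zpow_add, zpow_mul, zpow_ofNat, sq, hyy, one_zpow, one_mul, zpow_one]
        rw [this]; exact h1
    obtain ⟨c, hc1, hc2⟩ := exists_fixed_coset hA hCodd hAC hcomm
    have hcy : y * c = c * y := hc2 y (Subgroup.mem_zpowers y)
    have hcN : c ∈ Subgroup.normalizer (Q0 : Set G) := by
      have h1 : c = x * (x⁻¹ * c) := by group
      rw [h1]
      exact Subgroup.mul_mem _ hx ((Subgroup.centralizer_le_normalizer _) hc1)
    -- order of c is coprime to p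
    have hcop : ¬ p ∣ orderOf c := by
      rintro ⟨m, hm⟩
      have h1 : c ^ m = 1 := by
        apply hfix
        · exact ⟨1, by rw [pow_one, ← pow_mul, mul_comm, ← hm, pow_orderOf_eq_one]⟩
        · exact ((show Commute y c from hcy).pow_right m)
      have h2 := orderOf_dvd_of_pow_eq_one h1
      have h3 : 0 < orderOf c := orderOf_pos c
      have h4 : 0 < m := by
        rcases Nat.eq_zero_or_pos m with h | h
        · rw [h, mul_zero] at hm; omega
        · exact h
      have h5 := Nat.le_of_dvd h4 h2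
      rw [hm] at h5
      have := hpp.two_le
      nlinarith
    -- pass to the automorphism group of Q0
    let F := Subgroup.normalizerMonoidHom Q0
    have hker : ∀ z : Subgroup.normalizer (Q0 : Set G), F z = 1 ↔ (z : G) ∈ C := by
      intro z
      rw [← MonoidHom.mem_ker, Subgroup.normalizerMonoidHom_ker, Subgroup.mem_subgroupOf]
    have hFxc : F ⟨x, hx⟩ = F ⟨c, hcN⟩ := by
      have h1 : F (⟨x, hx⟩⁻¹ * ⟨c, hcN⟩) = 1 := (hker _).2 hc1
      rw [map_mul, map_inv, inv_mul_eq_one] at h1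
      exact h1
    have h6 : orderOf (F ⟨x, hx⟩) ∣ p ^ k := by
      apply orderOf_dvd_of_pow_eq_one
      rw [← map_pow]
      have : (⟨x, hx⟩ : Subgroup.normalizer (Q0 : Set G)) ^ p ^ k = 1 := Subtype.ext hk
      rw [this, map_one]
    have h7 : orderOf (F ⟨x, hx⟩) ∣ orderOf c := by
      rw [hFxc]
      apply orderOf_dvd_of_pow_eq_one
      rw [← map_pow]
      have : (⟨c, hcN⟩ : Subgroup.normalizer (Q0 : Set G)) ^ orderOf c = 1 := Subtype.ext (pow_orderOf_eq_one c)
      rw [this, map_one]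
    have h8 : orderOf (F ⟨x, hx⟩) = 1 :=
      Nat.eq_one_of_dvd_coprimes (Nat.Coprime.pow_left k ((Nat.Prime.coprime_iff_not_dvd hpp).2 hcop)) h6 h7
    exact (hker _).1 (orderOf_eq_one_iff.1 h8)
  -- Q0 is a Sylow subgroup of C
  have hSyl : IsSyl p Q0 C := by
    obtain ⟨Q', hQ', hAQ', hle⟩ := exists_inv_isSyl_ge hA hCodd hAC hQ0 hQ0C hAQ0
    have h1 : Q' = Q0 := by
      apply le_antisymm _ hle
      exact hmax.le_of_ge ⟨hQ'.isPGroup, hAQ' (Subgroup.mem_zpowers y)⟩ hle
    rwa [h1] at hQ'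
  obtain ⟨P', hP'⟩ := hQ0.exists_le_sylow
  have hPQ : (P' : Subgroup G) = Q0 := by
    apply eq_of_inf_normalizer_le P'.isPGroup' hP'
    have h1 : (P' : Subgroup G) ⊓ Subgroup.normalizer (Q0 : Set G) ≤ C := by
      rintro z ⟨hz1, hz2⟩
      apply hpC z hz2
      obtain ⟨k, hk⟩ := P'.isPGroup' ⟨z, hz1⟩
      exact ⟨k, by simpa using congrArg Subtype.val hk⟩
    exact (hSyl.eq_of_le (P'.isPGroup'.to_le inf_le_left) h1 (le_inf hP' Subgroup.le_normalizer)).le
  obtain ⟨g, hg⟩ := MulAction.exists_smul_eq G P' P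
  have hyg : g * y * g⁻¹ ∈ Subgroup.normalizer ((P : Subgroup G) : Set G) := by
    rw [← hg]
    apply mem_normalizer_of_conj
    intro z hz
    have hz' := (mem_conj_smul (P' : Subgroup G) g z).1 hz
    refine (mem_conj_smul (P' : Subgroup G) g _).2 ?_
    rw [hPQ] at hz' ⊢
    rw [show g⁻¹ * (g * y * g⁻¹ * z * (g * y * g⁻¹)⁻¹) * g = y * (g⁻¹ * z * g) * y⁻¹ by group]
    exact (Subgroup.mem_normalizer_iff.1 hyQ0 _).1 hz'
  rw [even_iff_two_dvd]
  have h9 : orderOf (g * y * g⁻¹) = 2 := by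
    have := orderOf_injective (MulAut.conj g).toMonoidHom (MulAut.conj g).injective y
    rw [← hy]
    simpa using this
  rw [← h9, ← Subgroup.orderOf_mk _ hyg]
  exact orderOf_dvd_natCard _

end Cfsg.Agent.S3982
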