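import Cfsg.Statements.S3983
import Cfsg.Agent.H66.Util

set_option autoImplicit false
open scoped Pointwise
open Cfsg

namespace Cfsg.Agent.S3983

/-- Let P be a Sylow p-subgroup of the finite group G that meets each conjugate g P g⁻¹ with g outside N_G(P) trivially, and let U be a subgroup of G of order divisible by p. Then a Sylow p-subgroup Q of U has the same property inside U: Q meets each conjugate u Q u⁻¹ with u ∈ U outside N_U(Q) trivially. -/
theorem result {G : Type*} [Group G] [Finite G] (p : ℕ) [Fact p.Prime] (P : Sylow p G) (hTI : ∀ g : G, g ∉ Subgroup.normalizer ((P : Subgroup G) : Set G) → (P : Subgroup G) ⊓ (MulAut.conj g • (P : Subgroup G)) = ⊥) (U : Subgroup G) (hU : p ∣ Nat.card ↥U) (Q : Sylow p ↥U) : ∀ u : ↥U, u ∉ Subgroup.normalizer ((Q : Subgroup ↥U) : Set ↥U) → (Q : Subgroup ↥U) ⊓ (MulAut.conj u • (Q : Subgroup ↥U)) = ⊥ := by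
  have hT := (Cfsg.Agent.H66.ti_iff _).1 hTI
  rw [Cfsg.Agent.H66.ti_iff]
  -- a conjugate of P containing Q
  have hQp : IsPGroup p ((Q : Subgroup U).map U.subtype) := Q.isPGroup'.map _
  obtain ⟨P', hP'⟩ := hQp.exists_le_sylow
  have hT' := Cfsg.Agent.H66.TI.sylow hT P'
  have hle : ∀ y : U, y ∈ (Q : Subgroup U) → (y : G) ∈ (P' : Subgroup G) := fun y hy =>
    hP' (Subgroup.mem_map_of_mem _ hy)
  have hQeq : (Q : Subgroup U) = (P' : Subgroup G).subgroupOf U := by
    have h8 : IsPGroup p ((P' : Subgroup G).subgroupOf U) := by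
      have := P'.isPGroup'
      exact IsPGroup.comap_of_injective this U.subtype U.subtype_injective
    have h9 : (Q : Subgroup U) ≤ (P' : Subgroup G).subgroupOf U := fun y hy => hle y hy
    exact (Q.is_maximal' h8 h9).symm
  intro u x hx hux hx1
  have h1 : (u : G) ∈ Subgroup.normalizer ((P' : Subgroup G) : Set G) :=
    hT' u x (hle x hx) (by simpa using hle _ hux) (by simpa using hx1)
  apply Cfsg.Agent.H66.mem_normalizer_of_conj
  intro y hy
  rw [hQeq] at hy ⊢
  exact (Subgroup.mem_normalizer_iff.1 h1 y.1).1 hy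

end Cfsg.Agent.S3983
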