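import Cfsg.Statements.S3984
import Cfsg.Agent.H66.Util

set_option autoImplicit false
open scoped Pointwise
open Cfsg

namespace Cfsg.Agent.S3984

/-- Let P be a Sylow p-subgroup of the finite group G that meets each conjugate g P g⁻¹ with g outside N_G(P) trivially, and let N be a normal subgroup of G of order prime to p. Then every Sylow p-subgroup Q of G ⧸ N meets each conjugate x Q x⁻¹ with x outside its normalizer trivially. -/
theorem result {G : Type*} [Group G] [Finite G] (p : ℕ) [Fact p.Prime] (P : Sylow p G) (hTI : ∀ g : G, g ∉ Subgroup.normalizer ((P : Subgroup G) : Set G) → (P : Subgroup G) ⊓ (MulAut.conj g • (P : Subgroup G)) = ⊥) (N : Subgroup G) [N.Normal] (hN : (Nat.card ↥N).Coprime p) (Q : Sylow p (G ⧸ N)) : ∀ x : G ⧸ N, x ∉ Subgroup.normalizer ((Q : Subgroup (G ⧸ N)) : Set (G ⧸ N)) → (Q : Subgroup (G ⧸ N)) ⊓ (MulAut.conj x • (Q : Subgroup (G ⧸ N))) = ⊥ := by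
  have hT := (Cfsg.Agent.H66.ti_iff _).1 hTI
  rw [Cfsg.Agent.H66.ti_iff]
  -- reduce to Q = image of P
  have hsurj : Function.Surjective (QuotientGroup.mk' N) := QuotientGroup.mk'_surjective N
  let P0 : Sylow p (G ⧸ N) := P.mapSurjective hsurj
  have hP0 : (P0 : Subgroup (G ⧸ N)) = (P : Subgroup G).map (QuotientGroup.mk' N) := rfl
  suffices h0 : Cfsg.Agent.H66.TI (P0 : Subgroup (G ⧸ N)) from Cfsg.Agent.H66.TI.sylow h0 Q
  rw [hP0]
  intro x z hz hxz hz1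
  obtain ⟨g, rfl⟩ := hsurj x
  obtain ⟨a, ha, rfl⟩ := hz
  obtain ⟨b, hb, hbz⟩ := hxz
  -- a = n * g b g⁻¹
  have h1 : ∃ n ∈ N, a = n * (g * b * g⁻¹) := by
    refine ⟨a * (g * b * g⁻¹)⁻¹, ?_, by group⟩
    rw [← QuotientGroup.eq_one_iff]
    have h2 : (QuotientGroup.mk' N) b = (QuotientGroup.mk' N) (g⁻¹ * a * g) := by
      rw [hbz]; simp
    have h3 : ((a * (g * b * g⁻¹)⁻¹ : G) : G ⧸ N) = (QuotientGroup.mk' N) a * ((QuotientGroup.mk' N) g * (QuotientGroup.mk' N) b * ((QuotientGroup.mk' N) g)⁻¹)⁻¹ := by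
      simp
    rw [h3, h2]
    simp only [map_mul, map_inv]
    group
  obtain ⟨n, hn, hna⟩ := h1
  -- the subgroup H = (g P g⁻¹) N
  set Pg : Subgroup G := MulAut.conj g • (P : Subgroup G) with hPg
  set H : Subgroup G := Pg ⊔ N with hH
  have hgb : g * b * g⁻¹ ∈ Pg := by
    rw [Cfsg.Agent.H66.mem_conj_smul]
    rw [show g⁻¹ * (g * b * g⁻¹) * g = b by group]
    exact hb
  have haH : a ∈ H := by
    rw [hna]
    exact H.mul_mem (le_sup_right (a := Pg) hn) (le_sup_left (b := N) hgb)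
  -- Pg as a Sylow subgroup of H
  have hPgS : ∃ S : Sylow p G, (S : Subgroup G) = Pg := ⟨g • P, rfl⟩
  obtain ⟨S, hS⟩ := hPgS
  have hSH : (S : Subgroup G) ≤ H := by rw [hS]; exact le_sup_left
  let SH : Sylow p H := S.subtype hSH
  have haP : IsPGroup p (Subgroup.zpowers (⟨a, haH⟩ : H)) := by
    obtain ⟨k, hk⟩ := (IsPGroup.iff_orderOf.1 P.isPGroup') ⟨a, ha⟩
    rw [IsPGroup.iff_card]
    refine ⟨k, ?_⟩
    rw [Nat.card_zpowers, Subgroup.orderOf_mk]
    rw [Subgroup.orderOf_mk] at hk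
    exact hk
  obtain ⟨T, hT2⟩ := haP.exists_le_sylow
  obtain ⟨h, hh⟩ := MulAction.exists_smul_eq H SH T
  have haT : (⟨a, haH⟩ : H) ∈ (T : Subgroup H) := hT2 (Subgroup.mem_zpowers _)
  rw [← hh] at haT
  have haT' : (⟨a, haH⟩ : H) ∈ MulAut.conj h • (SH : Subgroup H) := haT
  rw [Cfsg.Agent.H66.mem_conj_smul] at haT'
  have haT2 : (h : G)⁻¹ * a * (h : G) ∈ (S : Subgroup G) := haT'
  rw [hS] at haT2
  -- h = n' * s
  obtain ⟨s, hs, n', hn', hsn⟩ : ∃ s ∈ Pg, ∃ n' ∈ N, n' * s = (h : G) := by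
    have h8 : (h : G) ∈ Pg ⊔ N := h.2
    rw [Subgroup.mem_sup_of_normal_right] at h8
    obtain ⟨s, hs, n', hn', hsn⟩ := h8
    exact ⟨s, hs, s * n' * s⁻¹, (inferInstance : N.Normal).conj_mem _ hn' s, by rw [← hsn]; group⟩
  have ha2 : n'⁻¹ * a * n' ∈ Pg := by
    rw [← hsn] at haT2
    have h5 : n'⁻¹ * a * n' = s * ((n' * s)⁻¹ * a * (n' * s)) * s⁻¹ := by group
    rw [h5]
    exact Pg.mul_mem (Pg.mul_mem hs haT2) (Pg.inv_mem hs)
  rw [hPg, Cfsg.Agent.H66.mem_conj_smul] at ha2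
  have ha1 : a ≠ 1 := by
    rintro rfl
    exact hz1 (map_one _)
  have h6 : n' * g ∈ Subgroup.normalizer ((P : Subgroup G) : Set G) := by
    apply hT (n' * g) a ha _ ha1
    convert ha2 using 1
    group
  have h7 : (QuotientGroup.mk' N) g = (QuotientGroup.mk' N) (n' * g) := by
    rw [map_mul, show (QuotientGroup.mk' N) n' = 1 from (QuotientGroup.eq_one_iff n').2 hn', one_mul]
  rw [h7]
  apply Cfsg.Agent.H66.mem_normalizer_of_conj
  rintro _ ⟨y, hy, rfl⟩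
  exact ⟨n' * g * y * (n' * g)⁻¹, (Subgroup.mem_normalizer_iff.1 h6 y).1 hy, by simp⟩

end Cfsg.Agent.S3984
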