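import Cfsg.Statements.S3985
import Cfsg.Agent.H66.Util

set_option autoImplicit false
open scoped Pointwise
open Cfsg

namespace Cfsg.Agent.S3985

/-- Let P be a cyclic Sylow p-subgroup of the finite group G. Then P meets each conjugate g P g⁻¹ with g outside N_G(P) trivially if and only if P is weakly self-centralizing: C_G(x) = C_G(P) for every non-identity x ∈ P. -/
theorem result {G : Type*} [Group G] [Finite G] (p : ℕ) [Fact p.Prime] (P : Sylow p G) (hcyc : IsCyclic ↥(P : Subgroup G)) : (∀ g : G, g ∉ Subgroup.normalizer ((P : Subgroup G) : Set G) → (P : Subgroup G) ⊓ (MulAut.conj g • (P : Subgroup G)) = ⊥) ↔ ∀ x : G, x ∈ (P : Subgroup G) → x ≠ 1 → Subgroup.centralizer ({x} : Set G) = Subgroup.centralizer ((P : Subgroup G) : Set G) := by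
  have hpp : p.Prime := Fact.out
  rw [Cfsg.Agent.H66.ti_iff]
  have hcomm : ∀ u ∈ (P : Subgroup G), ∀ v ∈ (P : Subgroup G), u * v = v * u := by
    intro u hu v hv
    have := hcyc.isMulCommutative
    have h1 := IsMulCommutative.is_comm.comm (⟨u, hu⟩ : (P : Subgroup G)) ⟨v, hv⟩
    exact congrArg Subtype.val h1
  constructor
  · intro hT x hx hx1
    apply le_antisymm
    swap
    · exact Subgroup.centralizer_le (Set.singleton_subset_iff.2 hx)
    intro g hg
    have hgx := Subgroup.mem_centralizer_singleton_iff.1 hg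
    have hgN : g ∈ Subgroup.normalizer ((P : Subgroup G) : Set G) := by
      apply hT g x hx _ hx1
      have : g⁻¹ * x * g = x := by rw [mul_assoc, ← hgx, ← mul_assoc]; group
      rw [this]; exact hx
    obtain ⟨a, ha⟩ := hcyc.exists_generator
    have hag : ∀ u ∈ (P : Subgroup G), ∃ i : ℕ, u = (a : G) ^ i := by
      intro u hu
      obtain ⟨i, hi⟩ := (mem_powers_iff_mem_zpowers.2 (ha ⟨u, hu⟩))
      exact ⟨i, by simpa using (congrArg Subtype.val hi).symm⟩
    obtain ⟨n, hn⟩ := (IsPGroup.iff_orderOf.1 P.isPGroup') a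
    have hn' : orderOf (a : G) = p ^ n := by rw [Subgroup.orderOf_coe]; exact hn
    obtain ⟨k, hk⟩ := hag (g * a * g⁻¹) ((Subgroup.mem_normalizer_iff.1 hgN a).1 a.2)
    obtain ⟨i, hi⟩ := hag x hx
    have hconjpow : ∀ j : ℕ, g * (a : G) ^ j * g⁻¹ = (a : G) ^ (k * j) := by
      intro j
      rw [pow_mul, ← hk, conj_pow]
    -- k ≡ 1 mod p
    have hk1 : (p : ℤ) ∣ (k : ℤ) - 1 := by
      by_contra hnd
      have h1 : (a : G) ^ (k * i) = (a : G) ^ i := by
        rw [← hconjpow, ← hi]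
        calc g * x * g⁻¹ = x * g * g⁻¹ := by rw [hgx]
          _ = x := by group
      have h2 : k * i ≡ i [MOD p ^ n] := by rw [← hn']; exact pow_eq_pow_iff_modEq.1 h1
      have h3 : ((p ^ n : ℕ) : ℤ) ∣ (i : ℤ) - ((k * i : ℕ) : ℤ) := (Nat.modEq_iff_dvd).1 h2
      have h4 : ((p : ℤ) ^ n) ∣ ((k : ℤ) - 1) * i := by
        have h5 : ((k : ℤ) - 1) * i = -((i : ℤ) - ((k * i : ℕ) : ℤ)) := by push_cast; ring
        rw [h5, dvd_neg]
        exact_mod_cast h3
      have h5 : IsCoprime ((p : ℤ) ^ n) ((k : ℤ) - 1) := by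
        apply IsCoprime.pow_left
        exact (Prime.coprime_iff_not_dvd (Nat.prime_iff_prime_int.1 hpp)).2 hnd
      have h6 : ((p : ℤ) ^ n) ∣ (i : ℤ) := h5.dvd_of_dvd_mul_left h4
      have h7 : p ^ n ∣ i := by exact_mod_cast h6
      apply hx1
      rw [hi]
      exact orderOf_dvd_iff_pow_eq_one.1 (hn' ▸ h7)
    have hkp : (a : G) ^ (k ^ (p ^ n)) = a := by
      have h1 : ((p : ℤ) ^ (n + 1)) ∣ (k : ℤ) ^ (p ^ n) - 1 ^ (p ^ n) := dvd_sub_pow_of_dvd_sub hk1 n
      rw [one_pow] at h1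
      have h2 : ((p ^ n : ℕ) : ℤ) ∣ ((k ^ (p ^ n) : ℕ) : ℤ) - ((1 : ℕ) : ℤ) := by
        push_cast
        exact (pow_dvd_pow (p : ℤ) (Nat.le_succ n)).trans h1
      have h3 : 1 ≡ k ^ (p ^ n) [MOD p ^ n] := (Nat.modEq_iff_dvd).2 h2
      have h4 : (a : G) ^ (k ^ (p ^ n)) = (a : G) ^ 1 := by
        rw [pow_eq_pow_iff_modEq, hn']; exact h3.symm
      rw [h4, pow_one]
    have hconj : ∀ j : ℕ, g ^ j * a * (g ^ j)⁻¹ = (a : G) ^ (k ^ j) := by
      intro j
      induction j with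
      | zero => simp
      | succ j ih =>
        rw [pow_succ' g, show g * g ^ j * (a : G) * (g * g ^ j)⁻¹ = g * (g ^ j * a * (g ^ j)⁻¹) * g⁻¹ by group, ih,
          hconjpow, pow_succ' k]
    -- the centralizer of a
    have hCa : ∀ h : G, h * a = a * h → h ∈ Subgroup.centralizer ((P : Subgroup G) : Set G) := by
      intro h hh
      rw [Subgroup.mem_centralizer_iff]
      intro u hu
      obtain ⟨j, rfl⟩ := hag u hu
      exact ((show Commute h (a : G) from hh).pow_right j).symm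
    have hg1 : g ^ (p ^ n) ∈ Subgroup.centralizer ((P : Subgroup G) : Set G) := by
      apply hCa
      have := hconj (p ^ n)
      rw [hkp] at this
      exact mul_inv_eq_iff_eq_mul.1 this
    obtain ⟨e, m, hm, hem⟩ := Nat.exists_eq_pow_mul_and_not_dvd (n := orderOf g) (orderOf_pos g).ne' p hpp.ne_one
    have hg2 : g ^ m ∈ Subgroup.centralizer ((P : Subgroup G) : Set G) := by
      have h1 : IsPGroup p (Subgroup.zpowers (g ^ m)) := by
        rw [IsPGroup.iff_card, Nat.card_zpowers]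
        have h2 : orderOf (g ^ m) ∣ p ^ e := by
          apply orderOf_dvd_of_pow_eq_one
          rw [← pow_mul, mul_comm, ← hem, pow_orderOf_eq_one]
        obtain ⟨j, _, hj⟩ := (Nat.dvd_prime_pow hpp).1 h2
        exact ⟨j, hj⟩
      have h2 := IsPGroup.inf_normalizer_sylow h1 P
      have h3 : g ^ m ∈ Subgroup.zpowers (g ^ m) ⊓ (P : Subgroup G) :=
        h2.le ⟨Subgroup.mem_zpowers _, Subgroup.pow_mem _ hgN m⟩
      rw [Subgroup.mem_centralizer_iff]
      intro u hu
      exact hcomm u hu _ h3.2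
    have hcop : (p ^ n).Coprime m := Nat.Coprime.pow_left _ ((Nat.Prime.coprime_iff_not_dvd hpp).2 hm)
    have hb : (1 : ℤ) = (p ^ n : ℕ) * (Nat.gcdA (p ^ n) m) + m * (Nat.gcdB (p ^ n) m) := by
      rw [← Nat.gcd_eq_gcd_ab, hcop]; rfl
    have : g = (g ^ (p ^ n)) ^ (Nat.gcdA (p ^ n) m) * (g ^ m) ^ (Nat.gcdB (p ^ n) m) := by
      rw [← zpow_natCast, ← zpow_natCast g m, ← zpow_mul, ← zpow_mul, ← zpow_add, ← hb, zpow_one]
    rw [this]
    exact Subgroup.mul_mem _ (Subgroup.zpow_mem _ hg1 _) (Subgroup.zpow_mem _ hg2 _)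
  · intro hC g y hy hgy hy1
    have h1 := hC y hy hy1
    -- the conjugate of P by g
    have h2 : ∀ u ∈ (P : Subgroup G), g * u * g⁻¹ ∈ Subgroup.centralizer ((P : Subgroup G) : Set G) := by
      intro u hu
      rw [← h1, Subgroup.mem_centralizer_singleton_iff]
      have h3 := hcomm u hu _ hgy
      calc g * u * g⁻¹ * y = g * (u * (g⁻¹ * y * g)) * g⁻¹ := by group
        _ = g * ((g⁻¹ * y * g) * u) * g⁻¹ := by rw [h3]
        _ = y * (g * u * g⁻¹) := by group
    apply Cfsg.Agent.H66.mem_normalizer_of_conj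
    intro u hu
    have h3 : IsPGroup p (Subgroup.zpowers (g * u * g⁻¹)) := by
      rw [IsPGroup.iff_card, Nat.card_zpowers]
      obtain ⟨k, hk⟩ := (IsPGroup.iff_orderOf.1 P.isPGroup') ⟨u, hu⟩
      rw [Subgroup.orderOf_mk] at hk
      refine ⟨k, ?_⟩
      rw [← hk]
      have := orderOf_injective (MulAut.conj g).toMonoidHom (MulAut.conj g).injective u
      simpa using this
    have h4 := IsPGroup.inf_normalizer_sylow h3 P
    have h5 : g * u * g⁻¹ ∈ Subgroup.zpowers (g * u * g⁻¹) ⊓ (P : Subgroup G) :=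
      h4.le ⟨Subgroup.mem_zpowers _, (Subgroup.centralizer_le_normalizer _) (h2 u hu)⟩
    exact h5.2

end Cfsg.Agent.S3985
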