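import Cfsg.Statements.S3987
import Cfsg.Agent.H66.DirectFactor

set_option autoImplicit false
open Cfsg

namespace Cfsg.Agent.S3987

/-- Let p be a prime and G a finite group. Then some Sylow p-subgroup of G is a direct factor of G (normal with a normal complement) if and only if for every element x of p-power order and every element y whose order is a power of a prime other than p, the conjugacy class of x y has as many elements as the product of the sizes of the classes of x and of y. -/
theorem result {G : Type*} [Group G] [Finite G] (p : ℕ) [Fact p.Prime] : (∃ (P : Sylow p G) (K : Subgroup G), (P : Subgroup G).Normal ∧ K.Normal ∧ (P : Subgroup G) ⊓ K = ⊥ ∧ (P : Subgroup G) ⊔ K = ⊤) ↔ ∀ x y : G, (∃ a : ℕ, orderOf x = p ^ a) → (∃ q b : ℕ, q.Prime ∧ q ≠ p ∧ orderOf y = q ^ b) → (Subgroup.centralizer ({x * y} : Set G)).index = (Subgroup.centralizer ({x} : Set G)).index * (Subgroup.centralizer ({y} : Set G)).index := by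
  have hpp : p.Prime := Fact.out
  have hle : ∀ x y : G, Subgroup.centralizer ({x} : Set G) ⊓ Subgroup.centralizer ({y} : Set G) ≤
      Subgroup.centralizer ({x * y} : Set G) := by
    rintro x y g ⟨h1, h2⟩
    have h1' := Subgroup.mem_centralizer_singleton_iff.1 h1
    have h2' := Subgroup.mem_centralizer_singleton_iff.1 h2
    rw [Subgroup.mem_centralizer_singleton_iff]
    rw [← mul_assoc, h1', mul_assoc, h2', mul_assoc]
  constructor
  · rintro ⟨P, K, hP, hK, hPK, hPK'⟩ x y hx hy
    obtain ⟨h1, h2, h3⟩ := Cfsg.Agent.H66.mem_of_direct_factor p P K hP hK hPK hPK' x y hx hy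
    have hxy : Commute x y := Subgroup.mem_centralizer_iff.1 (h3 h2) x h1
    have hcop : (orderOf x).Coprime (orderOf y) := by
      obtain ⟨a, ha⟩ := hx
      obtain ⟨q, b, hq, hqp, hb⟩ := hy
      rw [ha, hb]
      exact Nat.Coprime.pow _ _ ((Nat.coprime_primes hpp hq).2 hqp.symm)
    have hC : Subgroup.centralizer ({x * y} : Set G) =
        Subgroup.centralizer ({x} : Set G) ⊓ Subgroup.centralizer ({y} : Set G) := by
      refine le_antisymm ?_ (hle x y)
      intro g hg
      have hg' : Commute g (x * y) := Subgroup.mem_centralizer_singleton_iff.1 hg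
      obtain ⟨e, he1, he0⟩ := Nat.chineseRemainder hcop 1 0
      obtain ⟨e', he0', he1'⟩ := Nat.chineseRemainder hcop 0 1
      have h5 : (x * y) ^ e = x := by
        rw [hxy.mul_pow, pow_eq_pow_iff_modEq.2 he1, pow_eq_pow_iff_modEq.2 he0, pow_one, pow_zero, mul_one]
      have h6 : (x * y) ^ e' = y := by
        rw [hxy.mul_pow, pow_eq_pow_iff_modEq.2 he0', pow_eq_pow_iff_modEq.2 he1', pow_one, pow_zero, one_mul]
      refine ⟨Subgroup.mem_centralizer_singleton_iff.2 ?_, Subgroup.mem_centralizer_singleton_iff.2 ?_⟩
      · have := hg'.pow_right e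
        rw [h5] at this; exact this
      · have := hg'.pow_right e'
        rw [h6] at this; exact this
    rw [hC]
    have hKx : K ≤ Subgroup.centralizer ({x} : Set G) := by
      intro v hv
      exact Subgroup.mem_centralizer_singleton_iff.2 (Subgroup.mem_centralizer_iff.1 (h3 hv) x h1).symm
    have hPy : (P : Subgroup G) ≤ Subgroup.centralizer ({y} : Set G) := by
      intro u hu
      exact Subgroup.mem_centralizer_singleton_iff.2 (Subgroup.mem_centralizer_iff.1 (h3 h2) u hu)
    have hcompl : Subgroup.IsComplement' (P : Subgroup G) K := by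
      apply Subgroup.isComplement'_of_disjoint_and_mul_eq_univ
      · rw [disjoint_iff, hPK]
      · rw [← Subgroup.normal_mul, hPK']; rfl
    have hKi : K.index = Nat.card (P : Subgroup G) := hcompl.index_eq_card
    have hcop2 : (Subgroup.centralizer ({x} : Set G)).index.Coprime (Subgroup.centralizer ({y} : Set G)).index := by
      refine Nat.Coprime.coprime_dvd_left (Subgroup.index_dvd_of_le hKx) ?_
      refine Nat.Coprime.coprime_dvd_right (Subgroup.index_dvd_of_le hPy) ?_
      rw [hKi]
      exact P.card_coprime_index
    apply le_antisymm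
    · exact Subgroup.index_inf_le
    · apply Nat.le_of_dvd (Nat.pos_of_ne_zero Subgroup.index_ne_zero_of_finite)
      exact Nat.Coprime.mul_dvd_of_dvd_of_dvd hcop2 (Subgroup.index_dvd_of_le inf_le_left)
        (Subgroup.index_dvd_of_le inf_le_right)
  · intro h
    apply Cfsg.Agent.H66.direct_factor p
    intro x y hx hy
    have h1 := h x y hx hy
    have h2 : (Subgroup.centralizer ({x} : Set G) ⊓ Subgroup.centralizer ({y} : Set G)).index ≤
      (Subgroup.centralizer ({x} : Set G)).index * (Subgroup.centralizer ({y} : Set G)).index := Subgroup.index_inf_le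
    rw [← h1] at h2
    have h3 : Subgroup.centralizer ({x} : Set G) ⊓ Subgroup.centralizer ({y} : Set G) =
        Subgroup.centralizer ({x * y} : Set G) := by
      apply Subgroup.eq_of_le_of_card_ge (hle x y)
      have h4 := Subgroup.card_mul_index (Subgroup.centralizer ({x} : Set G) ⊓ Subgroup.centralizer ({y} : Set G))
      have h5 := Subgroup.card_mul_index (Subgroup.centralizer ({x * y} : Set G))
      have h6 : 0 < (Subgroup.centralizer ({x} : Set G) ⊓ Subgroup.centralizer ({y} : Set G)).index :=
        Nat.pos_of_ne_zero Subgroup.index_ne_zero_of_finite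
      by_contra hlt
      push Not at hlt
      have h7 := Nat.mul_lt_mul_of_lt_of_le hlt h2 (lt_of_lt_of_le h6 h2)
      omega
    have h8 : x * y ∈ Subgroup.centralizer ({x * y} : Set G) := Subgroup.mem_centralizer_singleton_iff.2 rfl
    rw [← h3] at h8
    have h9 := Subgroup.mem_centralizer_singleton_iff.1 h8.1
    -- x * y * x = x * (x * y)
    have h10 : x * (y * x) = x * (x * y) := by rw [← mul_assoc]; exact h9
    exact (mul_left_cancel h10).symm

end Cfsg.Agent.S3987
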