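import Cfsg.Statements.S4009
import Cfsg.Agent.H63.Comm

set_option autoImplicit false
open Cfsg

namespace Cfsg.Agent.S4009


open Subgroup Cfsg.Agent.H63
open scoped commutatorElement

section

variable {G : Type*} [Group G]

/-- lower central series, `ga n = γ_{n+1}` -/
abbrev ga (G : Type*) [Group G] (n : ℕ) : Subgroup G := (⊤ : Subgroup G).lowerCentralSeries n

theorem ga_comm (i j : ℕ) : ⁅ga G i, ga G j⁆ ≤ ga G (i + j + 1) := by
  have h1 : ∀ n, iterComm (⊤ : Subgroup G) n = ga G n := by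
    intro n
    induction n with
    | zero => rfl
    | succ n ih => rw [iterComm_succ, ih]; rfl
  have h := iterComm_commutator_lowerCentralSeries_le (⊤ : Subgroup G) j i
  rw [h1, h1] at h
  exact h

theorem ga_anti {i j : ℕ} (h : i ≤ j) : ga G j ≤ ga G i :=
  Subgroup.lowerCentralSeries_antitone (⊤ : Subgroup G) h

/-- iterated derived subgroups -/
def D : ℕ → Subgroup G → Subgroup G
  | 0, X => X
  | m + 1, X => D m ⁅X, X⁆

theorem D_succ (m : ℕ) : ∀ X : Subgroup G, D (m + 1) X = ⁅D m X, D m X⁆ := by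
  induction m with
  | zero => intro X; rfl
  | succ m ih => intro X; exact ih ⁅X, X⁆

theorem D_top (m : ℕ) : D m (⊤ : Subgroup G) = derivedSeries G m := by
  induction m with
  | zero => rfl
  | succ m ih => rw [D_succ, ih]; rfl

theorem D_le (m : ℕ) : ∀ X : Subgroup G, D m X ≤ X := by
  induction m with
  | zero => intro X; exact le_rfl
  | succ m ih => intro X; exact (ih _).trans (Subgroup.commutator_le_self X)

theorem normal_of_between {v : ℕ} {M : Subgroup G} (h1 : ga G (v + 1) ≤ M) (h2 : M ≤ ga G v) :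
    M.Normal := by
  constructor
  intro x hx g
  have h3 : ⁅x, g⁆ ∈ ga G (v + 1) :=
    Subgroup.commutator_mem_commutator (h2 hx) (Subgroup.mem_top g)
  have h4 : g * x * g⁻¹ = (g * (x⁻¹ * (⁅x, g⁆) * x) * g⁻¹)⁻¹ * (g * (x⁻¹ * (⁅x, g⁆) * x) * g⁻¹) * (g * x * g⁻¹) := by
    group
  have h5 : g * x * g⁻¹ = (⁅x, g⁆)⁻¹ * x := by
    rw [commutatorElement_def]; group
  rw [h5]
  exact M.mul_mem (M.inv_mem (h1 h3)) hx

/-- cyclic image -/
def Cyc (X : Subgroup G) (v : ℕ) : Prop := ∃ z ∈ ga G v, X ≤ zpowers z ⊔ ga G (v + 1)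

theorem zpowers_comm (x : G) : ⁅zpowers x, zpowers x⁆ = ⊥ := by
  rw [Subgroup.commutator_eq_bot_iff_le_centralizer]
  intro a ha
  obtain ⟨m, rfl⟩ := mem_zpowers_iff.mp ha
  rw [Subgroup.mem_centralizer_iff]
  intro b hb
  obtain ⟨n, rfl⟩ := mem_zpowers_iff.mp hb
  exact zpow_mul_comm x n m

theorem comm_of_cyc {X : Subgroup G} {v : ℕ} (h : Cyc X v) : ⁅X, X⁆ ≤ ga G (2 * v + 2) := by
  obtain ⟨z, hz, hX⟩ := h
  refine (Subgroup.commutator_mono hX hX).trans ?_
  have hzv : zpowers z ≤ ga G v := by rw [zpowers_le]; exact hz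
  have e1 : v + (v + 1) + 1 = 2 * v + 2 := by ring
  have e2 : (v + 1) + v + 1 = 2 * v + 2 := by ring
  have h1 : ⁅ga G (v + 1), zpowers z⁆ ≤ ga G (2 * v + 2) := by
    refine (Subgroup.commutator_mono le_rfl hzv).trans ?_
    rw [← e2]; exact ga_comm _ _
  have h2 : ⁅ga G (v + 1), ga G (v + 1)⁆ ≤ ga G (2 * v + 2) := by
    refine (Subgroup.commutator_mono (ga_anti (Nat.le_succ v)) le_rfl).trans ?_
    rw [← e1]; exact ga_comm _ _
  apply sup_commutator_le
  · rw [Subgroup.commutator_comm]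
    apply sup_commutator_le
    · rw [zpowers_comm]; exact bot_le
    · exact h1
  · rw [Subgroup.commutator_comm]
    apply sup_commutator_le
    · rw [Subgroup.commutator_comm]; exact h1
    · exact h2

theorem cyc_comm_of_two {X : Subgroup G} {v : ℕ} {x y : G} (hx : x ∈ ga G v) (hy : y ∈ ga G v)
    (h : X ≤ zpowers y ⊔ (zpowers x ⊔ ga G (v + 1))) : Cyc ⁅X, X⁆ (2 * v + 1) := by
  have e0 : v + v + 1 = 2 * v + 1 := by ring
  have hxy : ⁅x, y⁆ ∈ ga G (2 * v + 1) := by
    rw [← e0]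
    exact ga_comm v v (Subgroup.commutator_mem_commutator hx hy)
  refine ⟨⁅x, y⁆, hxy, ?_⟩
  set R : Subgroup G := zpowers ⁅x, y⁆ ⊔ ga G (2 * v + 1 + 1) with hR
  have hRn : R.Normal := by
    apply normal_of_between (v := 2 * v + 1)
    · exact le_sup_right
    · exact sup_le (by rw [zpowers_le]; exact hxy) (ga_anti (Nat.le_succ _))
  refine (Subgroup.commutator_mono h h).trans ?_
  have hxv : zpowers x ≤ ga G v := by rw [zpowers_le]; exact hx
  have hyv : zpowers y ≤ ga G v := by rw [zpowers_le]; exact hy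
  have e1 : v + (v + 1) + 1 = 2 * v + 1 + 1 := by ring
  have e2 : (v + 1) + v + 1 = 2 * v + 1 + 1 := by ring
  have h1 : ∀ Y : Subgroup G, Y ≤ ga G v → ⁅ga G (v + 1), Y⁆ ≤ R := by
    intro Y hY
    refine (Subgroup.commutator_mono le_rfl hY).trans (le_trans ?_ le_sup_right)
    rw [← e2]; exact ga_comm _ _
  have h2 : ⁅zpowers x, zpowers y⁆ ≤ R := by
    have key : ∀ K : Subgroup G, K ≤ R ↔ K.map (QuotientGroup.mk' R) = ⊥ := by
      intro K
      rw [Subgroup.map_eq_bot_iff, QuotientGroup.ker_mk']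
    rw [key, Subgroup.map_commutator, Subgroup.commutator_eq_bot_iff_le_centralizer,
      MonoidHom.map_zpowers, MonoidHom.map_zpowers, zpowers_le, Subgroup.mem_centralizer_iff]
    intro b hb
    obtain ⟨n, rfl⟩ := mem_zpowers_iff.mp hb
    have h3 : Commute (QuotientGroup.mk' R x) (QuotientGroup.mk' R y) := by
      rw [← commutatorElement_eq_one_iff_commute, ← map_commutatorElement]
      exact (QuotientGroup.eq_one_iff _).mpr (Subgroup.mem_sup_left (mem_zpowers _))
    exact (h3.zpow_right n).eq.symm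
  have h4 : ⁅zpowers y ⊔ (zpowers x ⊔ ga G (v + 1)), zpowers x⁆ ≤ R := by
    apply sup_commutator_le
    · rw [Subgroup.commutator_comm]; exact h2
    · apply sup_commutator_le
      · rw [zpowers_comm]; exact bot_le
      · exact h1 _ hxv
  have h5 : ⁅zpowers y ⊔ (zpowers x ⊔ ga G (v + 1)), zpowers y⁆ ≤ R := by
    apply sup_commutator_le
    · rw [zpowers_comm]; exact bot_le
    · apply sup_commutator_le
      · exact h2
      · exact h1 _ hyv
  have h6 : ⁅zpowers y ⊔ (zpowers x ⊔ ga G (v + 1)), ga G (v + 1)⁆ ≤ R := by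
    rw [Subgroup.commutator_comm]
    exact h1 _ (sup_le hyv (sup_le hxv (ga_anti (Nat.le_succ _))))
  rw [Subgroup.commutator_comm]
  apply sup_commutator_le
  · rw [Subgroup.commutator_comm]; exact h5
  · apply sup_commutator_le
    · rw [Subgroup.commutator_comm]; exact h4
    · rw [Subgroup.commutator_comm]; exact h6

variable [Finite G] {p : ℕ} [hp : Fact p.Prime]

omit hp in
theorem rne (H K : Subgroup G) : H.relIndex K ≠ 0 := Subgroup.index_ne_zero_of_finite

theorem relIndex_step (hG : IsPGroup p G) {M X : Subgroup G} {a : ℕ} (h : M.relIndex X < p ^ (a + 1))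
    (hX : ¬ X ≤ M) : ∃ x ∈ X, (zpowers x ⊔ M).relIndex X < p ^ a := by
  obtain ⟨x, hx, hxM⟩ := Set.not_subset.mp hX
  refine ⟨x, hx, ?_⟩
  have h1 : M ⊓ X < (zpowers x ⊔ M) ⊓ X := by
    refine lt_of_le_of_ne (inf_le_inf_right _ le_sup_right) ?_
    intro h2
    apply hxM
    have : x ∈ (zpowers x ⊔ M) ⊓ X := ⟨Subgroup.mem_sup_left (mem_zpowers x), hx⟩
    rw [← h2] at this
    exact this.1
  have h2 : (M ⊓ X).relIndex ((zpowers x ⊔ M) ⊓ X) * ((zpowers x ⊔ M) ⊓ X).relIndex X =
      (M ⊓ X).relIndex X := Subgroup.relIndex_mul_relIndex _ _ _ h1.le inf_le_right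
  rw [Subgroup.inf_relIndex_right, Subgroup.inf_relIndex_right] at h2
  have h3 : p ≤ (M ⊓ X).relIndex ((zpowers x ⊔ M) ⊓ X) := by
    obtain ⟨j, hj⟩ : ∃ j, (M ⊓ X).relIndex ((zpowers x ⊔ M) ⊓ X) = p ^ j :=
      (hG.to_subgroup ((zpowers x ⊔ M) ⊓ X)).index _
    rw [hj]
    rcases Nat.eq_zero_or_pos j with h0 | h0
    · rw [h0, pow_zero] at hj
      exact absurd (Subgroup.relIndex_eq_one.mp hj) (not_le_of_gt h1)
    · calc p = p ^ 1 := (pow_one p).symm
        _ ≤ p ^ j := Nat.pow_le_pow_right hp.out.pos h0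
  by_contra hc
  push Not at hc
  have : p ^ (a + 1) ≤ M.relIndex X := by
    rw [← h2, pow_succ, mul_comm]
    exact Nat.mul_le_mul h3 hc
  omega

theorem le_of_relIndex_lt (hG : IsPGroup p G) {M X : Subgroup G} (h : M.relIndex X < p ^ 1) :
    X ≤ M := by
  by_contra hX
  obtain ⟨x, -, hx⟩ := relIndex_step hG (a := 0) h hX
  rw [pow_zero] at hx
  have : (zpowers x ⊔ M).relIndex X ≠ 0 := rne _ _
  omega

theorem cyc_of_lt (hG : IsPGroup p G) {X : Subgroup G} {v : ℕ} (hX : X ≤ ga G v)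
    (h : (ga G (v + 1)).relIndex (ga G v) < p ^ 2) : Cyc X v := by
  have h1 : (ga G (v + 1)).relIndex X < p ^ 2 :=
    lt_of_le_of_lt (Subgroup.relIndex_le_of_le_right hX (rne _ _)) h
  by_cases h2 : X ≤ ga G (v + 1)
  · exact ⟨1, (ga G v).one_mem, h2.trans le_sup_right⟩
  · obtain ⟨x, hx, h3⟩ := relIndex_step hG h1 h2
    exact ⟨x, hX hx, le_of_relIndex_lt hG h3⟩

theorem two_of_lt (hG : IsPGroup p G) {X : Subgroup G} {v : ℕ} (hX : X ≤ ga G v)
    (h : (ga G (v + 1)).relIndex (ga G v) < p ^ 3) : Cyc ⁅X, X⁆ (2 * v + 1) := by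
  have h1 : (ga G (v + 1)).relIndex X < p ^ 3 :=
    lt_of_le_of_lt (Subgroup.relIndex_le_of_le_right hX (rne _ _)) h
  have h0 := (ga G v).one_mem
  by_cases h2 : X ≤ ga G (v + 1)
  · exact cyc_comm_of_two h0 h0 (h2.trans (le_sup_right.trans le_sup_right))
  · obtain ⟨x, hx, h3⟩ := relIndex_step hG h1 h2
    by_cases h4 : X ≤ zpowers x ⊔ ga G (v + 1)
    · exact cyc_comm_of_two (hX hx) h0 (h4.trans le_sup_right)
    · obtain ⟨y, hy, h5⟩ := relIndex_step hG h3 h4
      exact cyc_comm_of_two (hX hx) (hX hy) (le_of_relIndex_lt hG h5)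

theorem card_ga (v : ℕ) : (ga G (v + 1)).relIndex (ga G v) * Nat.card (ga G (v + 1)) =
    Nat.card (ga G v) := by
  have h := Subgroup.relIndex_mul_relIndex (⊥ : Subgroup G) _ _ bot_le (ga_anti (G := G) (Nat.le_succ v))
  rw [Subgroup.relIndex_bot_left, Subgroup.relIndex_bot_left, mul_comm] at h
  exact h

theorem chain (hG : IsPGroup p G) (v : ℕ) : ∀ j, ga G (v + j) ≠ ⊥ →
    p ^ j * Nat.card (ga G (v + j)) ≤ Nat.card (ga G v) := by
  haveI : Group.IsNilpotent G := hG.isNilpotent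
  intro j
  induction j with
  | zero => intro _; simp
  | succ j ih =>
    intro hne
    have hne' : ga G (v + j) ≠ ⊥ := by
      intro h0
      apply hne
      have := ga_anti (G := G) (show v + j ≤ v + (j + 1) by omega)
      rw [h0] at this
      exact le_bot_iff.mp this
    have h1 := ih hne'
    have h2 : p * Nat.card (ga G (v + (j + 1))) ≤ Nat.card (ga G (v + j)) := by
      have e := card_ga (G := G) (v + j)
      have h3 : p ^ 1 ≤ (ga G (v + j + 1)).relIndex (ga G (v + j)) := by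
        by_contra hc
        push Not at hc
        have h4 := le_of_relIndex_lt hG hc
        exact hne' (eq_bot_of_le_commutator h4)
      rw [pow_one] at h3
      calc p * Nat.card (ga G (v + (j + 1))) ≤
          (ga G (v + j + 1)).relIndex (ga G (v + j)) * Nat.card (ga G (v + j + 1)) :=
            Nat.mul_le_mul_right _ h3
        _ = _ := e
    calc p ^ (j + 1) * Nat.card (ga G (v + (j + 1))) =
        p ^ j * (p * Nat.card (ga G (v + (j + 1)))) := by ring
      _ ≤ p ^ j * Nat.card (ga G (v + j)) := Nat.mul_le_mul_left _ h2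
      _ ≤ _ := h1

/-- gains -/
def gn : ℕ → ℕ
  | 0 => 0
  | 1 => 1
  | m + 2 => 2 * m + 2

def gn' : ℕ → ℕ
  | 0 => 0
  | m + 1 => 2 ^ m + gn m

theorem gn_le_gn' (m : ℕ) : gn m ≤ gn' m := by
  match m with
  | 0 => exact le_rfl
  | 1 => decide
  | 2 => decide
  | m + 3 =>
    show 2 * (m + 1) + 2 ≤ 2 ^ (m + 2) + (2 * m + 2)
    have : 4 ≤ 2 ^ (m + 2) := by
      calc 4 = 2 ^ 2 := rfl
        _ ≤ 2 ^ (m + 2) := Nat.pow_le_pow_right (by norm_num) (by omega)
    omega

theorem gn_succ_le (m : ℕ) : gn (m + 1) ≤ 2 + gn m := by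
  match m with
  | 0 => decide
  | 1 => decide
  | m + 2 =>
    show 2 * (m + 1) + 2 ≤ 2 + (2 * m + 2)
    omega

theorem gn_succ_le' (m : ℕ) : gn (m + 1) ≤ 1 + gn' m := by
  match m with
  | 0 => decide
  | 1 => decide
  | 2 => decide
  | m + 3 =>
    show 2 * (m + 2) + 2 ≤ 1 + (2 ^ (m + 2) + (2 * m + 2))
    have : 4 ≤ 2 ^ (m + 2) := by
      calc 4 = 2 ^ 2 := rfl
        _ ≤ 2 ^ (m + 2) := Nat.pow_le_pow_right (by norm_num) (by omega)
    omega

theorem main (hG : IsPGroup p G) (m : ℕ) : ∀ (v : ℕ) (X : Subgroup G), X ≤ ga G v → D m X ≠ ⊥ →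
    p ^ ((v + 1) * (2 ^ m - 1) + 1 + gn m) ≤ Nat.card (ga G v) ∧
    (Cyc X v → p ^ ((v + 1) * (2 ^ m - 1) + 1 + gn' m) ≤ Nat.card (ga G v)) := by
  have hp1 : 1 ≤ p := hp.out.pos
  induction m with
  | zero =>
    intro v X hX hD
    have h1 : p ^ 1 ≤ Nat.card (ga G v) := by
      have hne : ga G v ≠ ⊥ := by
        intro h0
        rw [h0] at hX
        exact hD (le_bot_iff.mp hX)
      obtain ⟨j, hj⟩ := IsPGroup.iff_card.mp (hG.to_subgroup (ga G v))
      rw [hj]
      apply Nat.pow_le_pow_right hp1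
      by_contra hc
      have : j = 0 := by omega
      rw [this, pow_zero] at hj
      exact hne (Subgroup.card_eq_one.mp hj)
    simp only [pow_zero, Nat.sub_self, Nat.mul_zero, zero_add, gn, gn', add_zero]
    exact ⟨h1, fun _ => h1⟩
  | succ m ih =>
    intro v X hX hD
    have hD' : D m ⁅X, X⁆ ≠ ⊥ := hD
    have hT : 1 ≤ 2 ^ m := Nat.one_le_two_pow
    obtain ⟨T, hTe⟩ : ∃ T, 2 ^ m = T + 1 := ⟨2 ^ m - 1, by omega⟩
    have hcyc : Cyc X v → p ^ ((v + 1) * (2 ^ (m + 1) - 1) + 1 + gn' (m + 1)) ≤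
        Nat.card (ga G v) := by
      intro hc
      have h1 := comm_of_cyc hc
      obtain ⟨h2, -⟩ := ih (2 * v + 2) ⁅X, X⁆ h1 hD'
      have h3 : ga G (v + (v + 2)) ≠ ⊥ := by
        intro h0
        have e : v + (v + 2) = 2 * v + 2 := by ring
        rw [e] at h0
        rw [h0] at h1
        exact hD' (le_bot_iff.mp ((D_le m _).trans h1))
      have h4 := chain hG v (v + 2) h3
      have e : v + (v + 2) = 2 * v + 2 := by ring
      rw [e] at h4
      refine le_trans ?_ ((Nat.mul_le_mul_left _ h2).trans h4)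
      rw [← pow_add]
      apply Nat.pow_le_pow_right hp1
      show (v + 1) * (2 ^ (m + 1) - 1) + 1 + (2 ^ m + gn m) ≤ _
      rw [pow_succ, hTe]
      have e1 : (T + 1) * 2 - 1 = 2 * T + 1 := by omega
      have e2 : T + 1 - 1 = T := by omega
      rw [e1, e2]
      nlinarith
    refine ⟨?_, hcyc⟩
    by_cases hr3 : (ga G (v + 1)).relIndex (ga G v) < p ^ 3
    · by_cases hr2 : (ga G (v + 1)).relIndex (ga G v) < p ^ 2
      · refine le_trans ?_ (hcyc (cyc_of_lt hG hX hr2))
        apply Nat.pow_le_pow_right hp1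
        have := gn_le_gn' (m + 1)
        omega
      · push Not at hr2
        have h1 := two_of_lt hG hX hr3
        have h0 : ⁅X, X⁆ ≤ ga G (2 * v + 1) := by
          have := (Subgroup.commutator_mono hX hX).trans (ga_comm v v)
          have e : v + v + 1 = 2 * v + 1 := by ring
          rwa [e] at this
        have h2 := (ih (2 * v + 1) ⁅X, X⁆ h0 hD').2 h1
        have e : v + 1 + v = 2 * v + 1 := by ring
        have h3 : ga G (v + 1 + v) ≠ ⊥ := by
          intro h00
          rw [e] at h00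
          rw [h00] at h0
          exact hD' (le_bot_iff.mp ((D_le m _).trans h0))
        have h4 := chain hG (v + 1) v h3
        rw [e] at h4
        have h5 := card_ga (G := G) v
        have h6 : p ^ 2 * (p ^ v * p ^ ((2 * v + 1 + 1) * (2 ^ m - 1) + 1 + gn' m)) ≤
            Nat.card (ga G v) := by
          rw [← h5]
          exact Nat.mul_le_mul hr2 ((Nat.mul_le_mul_left _ h2).trans h4)
        refine le_trans ?_ h6
        rw [← pow_add, ← pow_add]
        apply Nat.pow_le_pow_right hp1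
        have h7 := gn_succ_le' m
        rw [pow_succ, hTe]
        have e1 : (T + 1) * 2 - 1 = 2 * T + 1 := by omega
        have e2 : T + 1 - 1 = T := by omega
        rw [e1, e2]
        nlinarith
    · push Not at hr3
      have h0 : ⁅X, X⁆ ≤ ga G (2 * v + 1) := by
        have := (Subgroup.commutator_mono hX hX).trans (ga_comm v v)
        have e : v + v + 1 = 2 * v + 1 := by ring
        rwa [e] at this
      have h2 := (ih (2 * v + 1) ⁅X, X⁆ h0 hD').1
      have e : v + 1 + v = 2 * v + 1 := by ring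
      have h3 : ga G (v + 1 + v) ≠ ⊥ := by
        intro h00
        rw [e] at h00
        rw [h00] at h0
        exact hD' (le_bot_iff.mp ((D_le m _).trans h0))
      have h4 := chain hG (v + 1) v h3
      rw [e] at h4
      have h5 := card_ga (G := G) v
      have h6 : p ^ 3 * (p ^ v * p ^ ((2 * v + 1 + 1) * (2 ^ m - 1) + 1 + gn m)) ≤
          Nat.card (ga G v) := by
        rw [← h5]
        exact Nat.mul_le_mul hr3 ((Nat.mul_le_mul_left _ h2).trans h4)
      refine le_trans ?_ h6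
      rw [← pow_add, ← pow_add]
      apply Nat.pow_le_pow_right hp1
      have h7 := gn_succ_le m
      rw [pow_succ, hTe]
      have e1 : (T + 1) * 2 - 1 = 2 * T + 1 := by omega
      have e2 : T + 1 - 1 = T := by omega
      rw [e1, e2]
      nlinarith

end

/-- Let P be a finite p-group of order p^n whose derived length is exactly k + 1 (the k-th derived subgroup is nontrivial and the (k+1)-st is trivial). Then n ≥ 2^k + 2k − 2. -/
theorem result {P : Type*} [Group P] [Finite P] (p : ℕ) [Fact p.Prime] (n k : ℕ) (hcard : Nat.card P = p ^ n) (hk : derivedSeries P k ≠ ⊥) (hk' : derivedSeries P (k + 1) = ⊥) : 2 ^ k + 2 * k ≤ n + 2 := by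
  have hG : IsPGroup p P := IsPGroup.of_card hcard
  have hD : D k (⊤ : Subgroup P) ≠ ⊥ := by rw [D_top]; exact hk
  have h1 := (main hG k 0 ⊤ le_rfl hD).1
  have h2 : Nat.card (ga P 0) = p ^ n := by
    show Nat.card (⊤ : Subgroup P) = _
    rw [Subgroup.card_top, hcard]
  rw [h2] at h1
  have h3 := (Nat.pow_le_pow_iff_right (Fact.out : p.Prime).one_lt).mp h1
  have h4 : 1 ≤ 2 ^ k := Nat.one_le_two_pow
  have h5 : 2 * k ≤ gn k + 2 := by
    match k with
    | 0 => decide
    | 1 => decide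
    | m + 2 => show 2 * (m + 2) ≤ 2 * m + 2 + 2; omega
  omega

end Cfsg.Agent.S4009
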