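import Cfsg.Statements.S4013
import Cfsg.Agent.H67.Basic

set_option autoImplicit false
open Cfsg

namespace Cfsg.Agent.S4013

/-- Let G be a finite p-group (p prime) and N < M normal subgroups of G such that for some g ∈ M ∖ N the conjugacy class of g is exactly M ∖ N. Then p = 2 and N has index 2 in M. -/
theorem result {G : Type*} [Group G] [Finite G] (p : ℕ) [Fact p.Prime] (hG : IsPGroup p G) (N M : Subgroup G) [N.Normal] [M.Normal] (hNM : N < M) (g : G) (hgM : g ∈ M) (hgN : g ∉ N) (hcl : {h : G | IsConj g h} = (M : Set G) \ (N : Set G)) : p = 2 ∧ N.relIndex M = 2 := by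
  have hp : p.Prime := Fact.out
  have h1 : {h : G | IsConj g h}.ncard = (Subgroup.centralizer ({g} : Set G)).index :=
    H67.ncard_isConj_eq_index g
  rw [hcl, H67.ncard_diff_eq N M hNM.le] at h1
  obtain ⟨a, ha⟩ := hG.index (Subgroup.centralizer ({g} : Set G))
  rw [ha] at h1
  -- relIndex is a power of p
  have h2 : N.relIndex M ∣ Nat.card G :=
    (Subgroup.relIndex_dvd_card N M).trans (Subgroup.card_subgroup_dvd_card M)
  obtain ⟨n, hn⟩ := IsPGroup.iff_card.mp hG
  rw [hn] at h2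
  obtain ⟨b, -, hb⟩ := (Nat.dvd_prime_pow hp).mp h2
  have h3 : N.relIndex M - 1 ∣ p ^ a := ⟨Nat.card N, by rw [← h1, mul_comm]⟩
  obtain ⟨c, -, hc⟩ := (Nat.dvd_prime_pow hp).mp h3
  have h4 : N.relIndex M ≠ 1 := by
    rw [Ne, Subgroup.relIndex_eq_one]
    exact fun h => hNM.not_ge h
  have hb0 : b ≠ 0 := by
    rintro rfl
    exact h4 (by simpa using hb)
  have hpb : p ∣ N.relIndex M := by rw [hb]; exact dvd_pow_self p hb0
  have hpos : 1 ≤ N.relIndex M := Nat.one_le_iff_ne_zero.mpr (H67.relIndex_ne_zero_of_finite N M)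
  have hc0 : c = 0 := by
    by_contra hc0
    have h5 : p ∣ N.relIndex M - 1 := by rw [hc]; exact dvd_pow_self p hc0
    have h6 : p ∣ 1 := by
      have := Nat.dvd_sub hpb h5
      rwa [Nat.sub_sub_self hpos] at this
    exact hp.one_lt.ne' (Nat.dvd_one.mp h6)
  subst hc0
  have h7 : N.relIndex M = 2 := by
    rw [pow_zero] at hc
    omega
  refine ⟨?_, h7⟩
  rw [h7] at hpb
  exact (Nat.prime_dvd_prime_iff_eq hp Nat.prime_two).mp hpb

end Cfsg.Agent.S4013
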