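import Cfsg.Statements.S4014
import Mathlib.GroupTheory.RegularWreathProduct
import Mathlib.GroupTheory.IndexNormal
-- import your own Cfsg.Agent.* helpers here

set_option autoImplicit false
open Cfsg

namespace Cfsg.Agent.S4014

section aux

open Subgroup RegularWreathProduct
open scoped commutatorElement

/-- in a finite p-group the j-th derived subgroup is contained in every subgroup of index p^j -/
theorem derived_le_of_index {Q : Type*} [Group Q] [Finite Q] {p : ℕ} [hp : Fact p.Prime]
    (hQ : IsPGroup p Q) : ∀ (j : ℕ) (H : Subgroup Q), H.index = p ^ j → derivedSeries Q j ≤ H := by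
  intro j
  induction j with
  | zero =>
    intro H hH
    rw [pow_zero, Subgroup.index_eq_one] at hH
    rw [hH]; exact le_top
  | succ j ih =>
    intro H hH
    obtain ⟨N, hN⟩ := hQ.exists_card_eq
    obtain ⟨h, hh⟩ := (hQ.to_subgroup H).exists_card_eq
    have hmul := H.card_mul_index
    rw [hH, hN, hh, ← pow_add] at hmul
    have hN' : N = h + (j + 1) := (Nat.pow_right_injective hp.out.two_le hmul).symm
    obtain ⟨K, hK, hHK⟩ := Sylow.exists_subgroup_card_pow_prime_le (G := Q) p
      (n := h) (m := h + 1) (by rw [hN, hN']; exact pow_dvd_pow p (by omega)) H hh (by omega)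
    have hKi : K.index = p ^ j := by
      have := K.card_mul_index
      rw [hK, hN, hN'] at this
      have h2 : p ^ (h + (j + 1)) = p ^ (h + 1) * p ^ j := by rw [← pow_add]; congr 1; omega
      rw [h2] at this
      exact Nat.eq_of_mul_eq_mul_left (pow_pos hp.out.pos _) this
    have hrel : H.relIndex K = p := by
      have := H.relIndex_mul_index hHK
      rw [hKi, hH, pow_succ, mul_comm] at this
      exact Nat.eq_of_mul_eq_mul_left (pow_pos hp.out.pos _) this
    have hnorm : (H.subgroupOf K).Normal := by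
      apply Subgroup.normal_of_index_eq_minFac_card
      rw [← Subgroup.relIndex, hrel, hK, Nat.Prime.pow_minFac hp.out (by omega)]
    have hcard : Nat.card (K ⧸ H.subgroupOf K) = p := by
      rw [← Subgroup.index_eq_card, ← Subgroup.relIndex, hrel]
    haveI : IsCyclic (K ⧸ H.subgroupOf K) := isCyclic_of_prime_card hcard
    have hcomm : ∀ a b : K ⧸ H.subgroupOf K, a * b = b * a := by
      intro a b
      letI := IsCyclic.commGroup (α := K ⧸ H.subgroupOf K)
      exact mul_comm a b
    have hKH : ⁅K, K⁆ ≤ H := by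
      rw [Subgroup.commutator_le]
      intro a ha b hb
      have h1 := hcomm (QuotientGroup.mk ⟨a, ha⟩) (QuotientGroup.mk ⟨b, hb⟩)
      have h2 : (QuotientGroup.mk ((⟨a, ha⟩ : K) * (⟨b, hb⟩ : K) * (⟨a, ha⟩ : K)⁻¹ * (⟨b, hb⟩ : K)⁻¹) : K ⧸ H.subgroupOf K) = 1 := by
        simp only [QuotientGroup.mk_mul, QuotientGroup.mk_inv]
        rw [h1]; group
      rw [QuotientGroup.eq_one_iff, Subgroup.mem_subgroupOf] at h2
      simpa [commutatorElement_def] using h2
    rw [derivedSeries_succ]
    exact (Subgroup.commutator_mono (ih K hKi) (ih K hKi)).trans hKH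

/-- evaluation of base elements in the derived series of a wreath product -/
theorem wreath_derived {D Q : Type*} [Group D] [Group Q] [Nontrivial Q] (i : ℕ) :
    ∀ d ∈ derivedSeries D i, ∃ w ∈ derivedSeries (D ≀ᵣ Q) (i + 1), w.right = 1 ∧ w.left 1 = d := by
  classical
  let S : ℕ → Subgroup D := fun i =>
    { carrier := {d | ∃ w ∈ derivedSeries (D ≀ᵣ Q) (i + 1), w.right = 1 ∧ w.left 1 = d}
      one_mem' := ⟨1, one_mem _, rfl, rfl⟩
      mul_mem' := by
        rintro a b ⟨v, hv, hv1, hv2⟩ ⟨w, hw, hw1, hw2⟩
        refine ⟨v * w, mul_mem hv hw, ?_, ?_⟩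
        · rw [RegularWreathProduct.mul_right, hv1, hw1, one_mul]
        · rw [RegularWreathProduct.mul_left, hv1]
          simp [hv2, hw2]
      inv_mem' := by
        rintro a ⟨v, hv, hv1, hv2⟩
        refine ⟨v⁻¹, inv_mem hv, ?_, ?_⟩
        · rw [RegularWreathProduct.inv_right, hv1, inv_one]
        · rw [RegularWreathProduct.inv_left, hv1]
          simp [hv2] }
  suffices h : derivedSeries D i ≤ S i from fun d hd => h hd
  induction i with
  | zero =>
    intro d _
    obtain ⟨q, hq⟩ := exists_ne (1 : Q)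
    let a : D ≀ᵣ Q := ⟨fun x => if x = 1 then d else 1, 1⟩
    let b : D ≀ᵣ Q := ⟨1, q⟩
    refine ⟨⁅a, b⁆, ?_, ?_, ?_⟩
    · rw [derivedSeries_succ]
      exact Subgroup.commutator_mem_commutator (by simp) (by simp)
    · simp [commutatorElement_def, a, b]
    · simp [commutatorElement_def, a, b, hq]
  | succ i ih =>
    rw [derivedSeries_succ, Subgroup.commutator_le]
    intro d1 h1 d2 h2
    obtain ⟨v, hv, hv1, hv2⟩ := ih h1
    obtain ⟨w, hw, hw1, hw2⟩ := ih h2
    refine ⟨⁅v, w⁆, ?_, ?_, ?_⟩
    · rw [derivedSeries_succ]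
      exact Subgroup.commutator_mem_commutator hv hw
    · simp [commutatorElement_def, hv1, hw1]
    · simp [commutatorElement_def, hv1, hw1, hv2, hw2]

theorem iterated_derived (C : Type) [Group C] [Nontrivial C] (k : ℕ) :
    derivedSeries (IteratedWreathProduct C (k + 1)) k ≠ ⊥ := by
  induction k with
  | zero =>
    intro h
    obtain ⟨q, hq⟩ := exists_ne (1 : C)
    have h1 : ((⟨1, q⟩ : (IteratedWreathProduct C 0) ≀ᵣ C) : IteratedWreathProduct C (0 + 1)) ∈
        derivedSeries (IteratedWreathProduct C (0 + 1)) 0 := by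
      rw [derivedSeries_zero]; exact Subgroup.mem_top _
    rw [h] at h1
    have h2 := congrArg (fun w : (IteratedWreathProduct C 0) ≀ᵣ C => w.right) (Subgroup.mem_bot.1 h1)
    exact hq h2
  | succ k ih =>
    intro h
    apply ih
    rw [eq_bot_iff]
    intro d hd
    obtain ⟨w, hw, hw1, hw2⟩ := wreath_derived (D := IteratedWreathProduct C (k + 1)) (Q := C) k d hd
    have h3 : w = 1 := by
      have : w ∈ derivedSeries (IteratedWreathProduct C (k + 1 + 1)) (k + 1) := hw
      rw [h] at this
      exact Subgroup.mem_bot.1 this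
    rw [Subgroup.mem_bot, ← hw2, h3]
    rfl

theorem derived_ne_of_injective {A B : Type*} [Group A] [Group B] (f : A →* B)
    (hf : Function.Injective f) (i : ℕ) (h : derivedSeries A i ≠ ⊥) : derivedSeries B i ≠ ⊥ := by
  intro hb
  apply h
  have h1 := map_derivedSeries_le_derivedSeries f i
  rw [hb, le_bot_iff] at h1
  exact (Subgroup.map_eq_bot_iff_of_injective _ hf).1 h1

end aux


/-- Let p be a prime, n ≥ 1, and P a Sylow p-subgroup of the symmetric group on n letters. Then the derived length of P is exactly k = ⌊log_p n⌋ (the largest k with p^k ≤ n): the k-th derived subgroup of P is trivial and, when k ≥ 1, the (k−1)-st is not. -/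
theorem result (p : ℕ) [Fact p.Prime] (n : ℕ) (hn : 1 ≤ n) (P : Sylow p (Equiv.Perm (Fin n))) : derivedSeries ↥(P : Subgroup (Equiv.Perm (Fin n))) (Nat.log p n) = ⊥ ∧ (1 ≤ Nat.log p n → derivedSeries ↥(P : Subgroup (Equiv.Perm (Fin n))) (Nat.log p n - 1) ≠ ⊥) := by
  have hp : Fact p.Prime := inferInstance
  have hPp : IsPGroup p ↥(P : Subgroup (Equiv.Perm (Fin n))) := P.isPGroup'
  constructor
  · rw [eq_bot_iff]
    intro g hg
    rw [Subgroup.mem_bot]
    apply Subtype.ext
    apply Equiv.ext
    intro x
    have hidx : ∃ j, (MulAction.stabilizer ↥(P : Subgroup (Equiv.Perm (Fin n))) x).index = p ^ j := by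
      exact hPp.index _
    obtain ⟨j, hj⟩ := hidx
    have hle : p ^ j ≤ n := by
      rw [← hj, MulAction.index_stabilizer]
      calc (MulAction.orbit ↥(P : Subgroup (Equiv.Perm (Fin n))) x).ncard
          ≤ (Set.univ : Set (Fin n)).ncard := Set.ncard_le_ncard (Set.subset_univ _)
        _ = n := by simp
    have hjk : j ≤ Nat.log p n := Nat.le_log_of_pow_le hp.out.one_lt hle
    have h1 := derived_le_of_index hPp j _ hj (derivedSeries_antitone _ hjk hg)
    exact h1
  · intro hk
    have hkn : p ^ (Nat.log p n) ≤ n := Nat.pow_log_le_self p (by omega)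
    let α := Fin (p ^ (Nat.log p n))
    let S : Sylow p (Equiv.Perm α) := default
    haveI : Nontrivial (Multiplicative (ZMod p)) := by
      haveI : Fact (1 < p) := ⟨hp.out.one_lt⟩
      infer_instance
    have e : ↥(S : Subgroup (Equiv.Perm α)) ≃* IteratedWreathProduct (Multiplicative (ZMod p)) (Nat.log p n) :=
      Sylow.mulEquivIteratedWreathProduct p (Nat.log p n) α (by simp [α]) (Multiplicative (ZMod p))
        (by simp) S
    have hS : derivedSeries ↥(S : Subgroup (Equiv.Perm α)) (Nat.log p n - 1) ≠ ⊥ := by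
      obtain ⟨k, hk'⟩ : ∃ k, Nat.log p n = k + 1 := ⟨Nat.log p n - 1, by omega⟩
      have h2 := iterated_derived (Multiplicative (ZMod p)) k
      rw [← hk'] at h2
      have h3 : k = Nat.log p n - 1 := by omega
      rw [h3] at h2
      exact derived_ne_of_injective e.symm.toMonoidHom e.symm.injective _ h2
    let ι : α ↪ Fin n := Fin.castLEEmb hkn
    let f : Equiv.Perm α →* Equiv.Perm (Fin n) := Equiv.Perm.viaEmbeddingHom ι
    have hf : Function.Injective f := Equiv.Perm.viaEmbeddingHom_injective ι
    have hR : IsPGroup p ↥((S : Subgroup (Equiv.Perm α)).map f) := S.isPGroup'.map f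
    obtain ⟨T, hT⟩ := hR.exists_le_sylow
    let F : ↥(S : Subgroup (Equiv.Perm α)) →* ↥(T : Subgroup (Equiv.Perm (Fin n))) :=
      (f.comp (S : Subgroup (Equiv.Perm α)).subtype).codRestrict _ (fun x => hT ⟨x, x.2, rfl⟩)
    have hF : Function.Injective F := by
      intro x y hxy
      apply Subtype.ext
      apply hf
      exact congrArg Subtype.val hxy
    have hT2 := derived_ne_of_injective F hF _ hS
    exact derived_ne_of_injective (T.equiv P).toMonoidHom (T.equiv P).injective _ hT2

end Cfsg.Agent.S4014
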