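import Cfsg.Statements.S4020
import Cfsg.Agent.H65.BProp
import Cfsg.Agent.H69.ZStar
import Cfsg.Agent.H69.Quat

set_option autoImplicit false
set_option linter.style.haveILetI false
open Cfsg

namespace Cfsg.Agent.S4020

open Subgroup Cfsg.Agent.H69 Pointwise

section PGroups

variable {P : Type*} [Group P] [Finite P] {p : ℕ} [hp : Fact p.Prime]

/-- non-abelian finite p-group: an element of the second centre -/
theorem exists_second_center (hP : IsPGroup p P)
    (hna : ∃ a b : P, a * b ≠ b * a) :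
    ∃ x : P, x ∉ center P ∧ ∀ g : P, g * x * g⁻¹ * x⁻¹ ∈ center P := by
  have hQ : IsPGroup p (P ⧸ center P) := hP.to_quotient _
  have hnt : Nontrivial (P ⧸ center P) := by
    by_contra h
    rw [not_nontrivial_iff_subsingleton] at h
    obtain ⟨a, b, hab⟩ := hna
    apply hab
    have : a ∈ center P := by
      rw [← QuotientGroup.eq_one_iff]
      exact Subsingleton.elim _ _
    exact (mem_center_iff.mp this b).symm
  have hZ := hQ.center_nontrivial
  obtain ⟨⟨y, hy⟩, hy1⟩ := exists_ne (1 : center (P ⧸ center P))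
  obtain ⟨x, rfl⟩ := QuotientGroup.mk_surjective y
  refine ⟨x, fun hx => hy1 (Subtype.ext ((QuotientGroup.eq_one_iff x).mpr hx)), fun g => ?_⟩
  rw [← QuotientGroup.eq_one_iff]
  have h1 := mem_center_iff.mp hy (QuotientGroup.mk g)
  have : (QuotientGroup.mk (g * x * g⁻¹ * x⁻¹) : P ⧸ center P) =
      (QuotientGroup.mk g * QuotientGroup.mk x) * (QuotientGroup.mk g)⁻¹ * (QuotientGroup.mk x)⁻¹ := rfl
  rw [this, h1]
  group

theorem card_eq_mul_relIndex {B C : Subgroup P} (h : B ≤ C) :
    Nat.card C = Nat.card B * B.relIndex C := by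
  rw [← relIndex_bot_left, ← relIndex_bot_left, relIndex_mul_relIndex _ _ _ bot_le h]

theorem comm_sup_zpowers {B : Subgroup P} (hB : ∀ a ∈ B, ∀ b ∈ B, a * b = b * a) {y : P}
    (hy : ∀ b ∈ B, b * y = y * b) :
    ∀ a ∈ B ⊔ zpowers y, ∀ b ∈ B ⊔ zpowers y, a * b = b * a := by
  have h1 : B ⊔ zpowers y ≤ centralizer (B : Set P) := by
    refine sup_le (fun a ha => mem_centralizer_iff.mpr fun b hb => hB b hb a ha) ?_
    rw [zpowers_le]
    exact mem_centralizer_iff.mpr fun b hb => hy b hb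
  have h2 : B ⊔ zpowers y ≤ centralizer (zpowers y : Set P) := by
    refine sup_le ?_ ?_
    · rw [le_centralizer_iff]
      exact le_trans le_sup_right h1
    · rw [le_centralizer_iff_isMulCommutative]
      infer_instance
  have h3 : B ⊔ zpowers y ≤ centralizer ((B ⊔ zpowers y : Subgroup P) : Set P) := by
    refine sup_le ?_ ?_
    · rw [le_centralizer_iff]; exact h1
    · rw [le_centralizer_iff]; exact h2
  intro a ha b hb
  exact (mem_centralizer_iff.mp (h3 ha) b hb).symm

theorem abelian_cube_of_lt (hP : IsPGroup p P) {B : Subgroup P}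
    (hB : ∀ a ∈ B, ∀ b ∈ B, a * b = b * a) (hcard : p ^ 2 < Nat.card B) :
    ∃ A : Subgroup P, (∀ a ∈ A, ∀ b ∈ A, a * b = b * a) ∧ Nat.card A = p ^ 3 := by
  obtain ⟨k, hk⟩ := IsPGroup.iff_card.mp (hP.to_subgroup B)
  have hk3 : 3 ≤ k := by
    by_contra h
    have : p ^ k ≤ p ^ 2 := Nat.pow_le_pow_right hp.out.pos (by omega)
    omega
  obtain ⟨K, hK⟩ := Sylow.exists_subgroup_card_pow_prime (G := B) p (n := 3)
    (by rw [hk]; exact pow_dvd_pow p hk3)
  refine ⟨K.map B.subtype, ?_, ?_⟩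
  · rintro _ ⟨a, -, rfl⟩ _ ⟨b, -, rfl⟩
    exact hB a a.2 b b.2
  · rw [card_map_of_injective B.subtype_injective, hK]

theorem lt_card_sup {B : Subgroup P} {y : P} (hy : y ∉ B) :
    Nat.card B < Nat.card (B ⊔ zpowers y : Subgroup P) := by
  have h1 : B < B ⊔ zpowers y := by
    refine lt_of_le_of_ne le_sup_left ?_
    intro h
    apply hy
    rw [h]
    exact mem_sup_right (mem_zpowers y)
  exact Set.ncard_lt_ncard (SetLike.coe_ssubset_coe.mpr h1) (Set.toFinite _)

/-- a non-abelian p-group of order at least p⁴ and exponent p has an abelian subgroup of order p³ -/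
theorem exists_abelian_cube (hP : IsPGroup p P) 
    (hna : ∃ a b : P, a * b ≠ b * a) (hcard : p ^ 4 ≤ Nat.card P) :
    ∃ A : Subgroup P, (∀ a ∈ A, ∀ b ∈ A, a * b = b * a) ∧ Nat.card A = p ^ 3 := by
  obtain ⟨x, hxZ, hx⟩ := exists_second_center hP hna
  have hZc : ∀ a ∈ center P, ∀ b ∈ center P, a * b = b * a := fun a _ b hb =>
    mem_center_iff.mp hb a
  have hZx : ∀ b ∈ center P, b * x = x * b := fun b hb => (mem_center_iff.mp hb x).symm
  have hB0 := comm_sup_zpowers hZc hZx
  have hlt0 := lt_card_sup hxZ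
  obtain ⟨k, hk⟩ := IsPGroup.iff_card.mp (hP.to_subgroup (center P))
  by_cases hk2 : 2 ≤ k
  · refine abelian_cube_of_lt hP hB0 (lt_of_le_of_lt ?_ hlt0)
    rw [hk]; exact Nat.pow_le_pow_right hp.out.pos hk2
  -- |Z| = p
  have hntP : Nontrivial P := by
    obtain ⟨a, b, hab⟩ := hna
    exact nontrivial_of_ne _ _ hab
  have hZnt := hP.center_nontrivial
  have hk1 : k = 1 := by
    have h1 : 1 < Nat.card (center P) := Finite.one_lt_card_iff_nontrivial.mpr hZnt
    rcases Nat.eq_zero_or_pos k with h | h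
    · rw [hk, h, pow_zero] at h1; omega
    · omega
  rw [hk1, pow_one] at hk
  -- the centralizer of x is large
  let φ : P →* center P :=
    { toFun := fun g => ⟨g * x * g⁻¹ * x⁻¹, hx g⟩
      map_one' := by apply Subtype.ext; simp
      map_mul' := by
        intro g h
        apply Subtype.ext
        show g * h * x * (g * h)⁻¹ * x⁻¹ = (g * x * g⁻¹ * x⁻¹) * (h * x * h⁻¹ * x⁻¹)
        have h1 := mem_center_iff.mp (hx h) g
        have h2 := mem_center_iff.mp (hx h) (g * x * g⁻¹ * x⁻¹)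
        calc g * h * x * (g * h)⁻¹ * x⁻¹ = (g * (h * x * h⁻¹ * x⁻¹)) * (x * g⁻¹ * x⁻¹) := by group
          _ = ((h * x * h⁻¹ * x⁻¹) * g) * (x * g⁻¹ * x⁻¹) := by rw [h1]
          _ = (h * x * h⁻¹ * x⁻¹) * (g * x * g⁻¹ * x⁻¹) := by group
          _ = (g * x * g⁻¹ * x⁻¹) * (h * x * h⁻¹ * x⁻¹) := by rw [h2] }
  have hker : φ.ker ≤ centralizer ({x} : Set P) := by
    intro g hg
    have h1 : g * x * g⁻¹ * x⁻¹ = 1 := congrArg Subtype.val (show φ g = 1 from hg)
    rw [mem_cent_singleton]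
    calc x * g = (g * x * g⁻¹ * x⁻¹)⁻¹ * (g * x) := by group
      _ = g * x := by rw [h1]; group
  have hCcard : p ^ 3 ≤ Nat.card (centralizer ({x} : Set P)) := by
    have h1 : Nat.card P = Nat.card φ.ker * Nat.card φ.range := by
      rw [← Subgroup.index_ker φ]
      exact (Subgroup.card_mul_index φ.ker).symm
    have h2 : Nat.card φ.range ≤ p := by
      rw [← hk]
      exact Nat.card_le_card_of_injective _ φ.range.subtype_injective
    have h3 : Nat.card φ.ker ≤ Nat.card (centralizer ({x} : Set P)) :=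
      Subgroup.card_le_of_le hker
    have h4 : p ^ 4 ≤ Nat.card (centralizer ({x} : Set P)) * p := by
      calc p ^ 4 ≤ Nat.card P := hcard
        _ = Nat.card φ.ker * Nat.card φ.range := h1
        _ ≤ Nat.card (centralizer ({x} : Set P)) * p := Nat.mul_le_mul h3 h2
    have h5 : p ^ 4 = p ^ 3 * p := by ring
    rw [h5] at h4
    exact Nat.le_of_mul_le_mul_right h4 hp.out.pos
  by_cases hB2 : p ^ 2 < Nat.card (center P ⊔ zpowers x : Subgroup P)
  · exact abelian_cube_of_lt hP hB0 hB2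
  have hB0C : center P ⊔ zpowers x ≤ centralizer ({x} : Set P) := by
    refine sup_le ?_ ?_
    · intro b hb
      rw [mem_cent_singleton]
      exact mem_center_iff.mp hb x
    · rw [zpowers_le, mem_cent_singleton]
  have hlt : center P ⊔ zpowers x < centralizer ({x} : Set P) := by
    refine lt_of_le_of_ne hB0C ?_
    intro h
    rw [← h] at hCcard
    have : p ^ 2 < p ^ 3 := Nat.pow_lt_pow_right hp.out.one_lt (by omega)
    omega
  obtain ⟨y, hyC, hyB⟩ := SetLike.exists_of_lt hlt
  have hyB0 : ∀ b ∈ center P ⊔ zpowers x, b * y = y * b := by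
    intro b hb
    have h1 : center P ⊔ zpowers x ≤ centralizer ({y} : Set P) := by
      refine sup_le ?_ ?_
      · intro b hb
        rw [mem_cent_singleton]
        exact mem_center_iff.mp hb y
      · rw [zpowers_le, mem_cent_singleton]
        exact (mem_cent_singleton.mp hyC).symm
    exact (mem_cent_singleton.mp (h1 hb)).symm
  refine abelian_cube_of_lt hP (comm_sup_zpowers hB0 hyB0) (lt_of_le_of_lt ?_ (lt_card_sup hyB))
  obtain ⟨j, hj⟩ := IsPGroup.iff_card.mp (hP.to_subgroup (center P ⊔ zpowers x))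
  rw [hj]
  apply Nat.pow_le_pow_right hp.out.pos
  by_contra h
  have h1 : p ^ j ≤ p ^ 1 := Nat.pow_le_pow_right hp.out.pos (by omega)
  rw [hk, hj] at hlt0
  rw [pow_one] at h1
  omega

/-- a non-abelian p-group of exponent p and order at least p³ has a non-abelian subgroup of order
p³ -/
theorem exists_nonabelian_cube (hP : IsPGroup p P) (hexp : ∀ x : P, x ^ p = 1)
    (hna : ∃ a b : P, a * b ≠ b * a) (hcard : p ^ 3 ∣ Nat.card P) :
    ∃ A : Subgroup P, (∃ a ∈ A, ∃ b ∈ A, a * b ≠ b * a) ∧ Nat.card A = p ^ 3 := by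
  obtain ⟨x, hxZ, hx⟩ := exists_second_center hP hna
  obtain ⟨y, hxy⟩ : ∃ y, y * x ≠ x * y := by
    by_contra h
    push Not at h
    exact hxZ (mem_center_iff.mpr h)
  set z := y * x * y⁻¹ * x⁻¹ with hz
  have hzc : ∀ g, g * z = z * g := fun g => mem_center_iff.mp (hx y) g
  have hle : ∀ g : P, Nat.card (zpowers g) ≤ p := by
    intro g
    rw [Nat.card_zpowers]
    exact Nat.le_of_dvd hp.out.pos (orderOf_dvd_of_pow_eq_one (hexp g))
  have h1 : zpowers x ≤ normalizer (zpowers z : Set P) := by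
    rw [zpowers_le]
    have : zpowers z ≤ center P := by rw [zpowers_le]; exact hx y
    have hn : (zpowers z).Normal := by
      constructor
      intro a ha g
      have := mem_center_iff.mp (this ha) g
      rw [this]
      simpa using ha
    rw [normalizer_eq_top]; exact mem_top x
  set E := zpowers x ⊔ zpowers z with hE
  have hEcard : Nat.card E ≤ p * p := by
    have h2 := Cop.relIndex_sup_eq h1
    have h3 : Nat.card E = Nat.card (zpowers z) * (zpowers z).relIndex E :=
      card_eq_mul_relIndex (le_sup_right : zpowers z ≤ E)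
    rw [h3, h2]
    refine Nat.mul_le_mul (hle z) (le_trans ?_ (hle x))
    exact Nat.le_of_dvd Nat.card_pos ((zpowers z).relIndex_dvd_card (zpowers x))
  have h2 : zpowers y ≤ normalizer (E : Set P) := by
    rw [zpowers_le]
    have h3 : E ≤ E.comap (MulAut.conj y).toMonoidHom := by
      refine sup_le ?_ ?_
      · rw [zpowers_le]
        show y * x * y⁻¹ ∈ E
        have : y * x * y⁻¹ = z * x := by rw [hz]; group
        rw [this]
        exact mul_mem (mem_sup_right (mem_zpowers z)) (mem_sup_left (mem_zpowers x))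
      · rw [zpowers_le]
        show y * z * y⁻¹ ∈ E
        have : y * z * y⁻¹ = z := by rw [hzc y]; group
        rw [this]
        exact mem_sup_right (mem_zpowers z)
    have h4 : E.map (MulAut.conj y).toMonoidHom = E := by
      apply Subgroup.eq_of_le_of_card_ge
      · rw [map_le_iff_le_comap]; exact h3
      · rw [card_map_of_injective (MulAut.conj y).injective]
    rw [mem_normalizer_iff]
    intro g
    constructor
    · intro hg; exact h3 hg
    · intro hg
      rw [← h4] at hg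
      obtain ⟨g', hg', hgg⟩ := hg
      have : g' = g := (MulAut.conj y).injective hgg
      rwa [← this]
  set H := zpowers y ⊔ E with hH
  have hHcard : Nat.card H ≤ p ^ 3 := by
    have h3 := Cop.relIndex_sup_eq h2
    have h4 : Nat.card H = Nat.card E * E.relIndex H :=
      card_eq_mul_relIndex (le_sup_right : E ≤ H)
    rw [h4, h3]
    calc Nat.card E * E.relIndex (zpowers y) ≤ (p * p) * p :=
          Nat.mul_le_mul hEcard (le_trans
            (Nat.le_of_dvd Nat.card_pos (E.relIndex_dvd_card (zpowers y))) (hle y))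
      _ = p ^ 3 := by ring
  obtain ⟨j, hj⟩ := IsPGroup.iff_card.mp (hP.to_subgroup H)
  have hj3 : j ≤ 3 := by
    by_contra h
    have : p ^ 3 < p ^ j := Nat.pow_lt_pow_right hp.out.one_lt (by omega)
    omega
  obtain ⟨K, hK, hHK⟩ := Sylow.exists_subgroup_card_pow_prime_le p hcard H hj hj3
  exact ⟨K, ⟨y, hHK (mem_sup_left (mem_zpowers y)), x,
    hHK (mem_sup_right (mem_sup_left (mem_zpowers x))), hxy⟩, hK⟩

/-- facts on non-abelian groups of order p³ -/
theorem cube_facts (hcard : Nat.card P = p ^ 3) (hna : ∃ a b : P, a * b ≠ b * a) {z : P}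
    (hz : z ∈ center P) (hz1 : z ≠ 1) :
    center P = zpowers z ∧ ∀ a b : P, a * b * a⁻¹ * b⁻¹ ∈ zpowers z := by
  have hP : IsPGroup p P := IsPGroup.of_card hcard
  obtain ⟨k, hk⟩ := IsPGroup.iff_card.mp (hP.to_subgroup (center P))
  have hidx : Nat.card (center P) * Nat.card (P ⧸ center P) = p ^ 3 := by
    rw [← hcard, mul_comm]; exact (Subgroup.card_eq_card_quotient_mul_card_subgroup _).symm
  have hpP : IsPGroup p (P ⧸ center P) := hP.to_quotient _
  obtain ⟨j, hj⟩ := IsPGroup.iff_card.mp hpP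
  rw [hk, hj, ← pow_add] at hidx
  have hkj : k + j = 3 := Nat.pow_right_injective hp.out.two_le hidx
  have hj2 : 2 ≤ j := by
    by_contra h
    have hcyc : IsCyclic (P ⧸ center P) := by
      have : j = 0 ∨ j = 1 := by omega
      rcases this with h | h
      · rw [h, pow_zero] at hj
        have := (Nat.card_eq_one_iff_unique.mp hj).1
        infer_instance
      · rw [h, pow_one] at hj
        exact isCyclic_of_prime_card hj
    obtain ⟨a, b, hab⟩ := hna
    exact hab (commutative_of_cyclic_center_quotient (QuotientGroup.mk' (center P))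
      (by rw [QuotientGroup.ker_mk']) a b)
  have hk0 : k ≠ 0 := by
    intro h
    rw [h, pow_zero] at hk
    have := (Subgroup.card_eq_one.mp hk)
    rw [this] at hz
    exact hz1 (mem_bot.mp hz)
  have hk1 : k = 1 := by omega
  have hj2' : j = 2 := by omega
  rw [hk1, pow_one] at hk
  rw [hj2'] at hj
  have hle : zpowers z ≤ center P := by rwa [zpowers_le]
  have heq : zpowers z = center P := by
    apply Subgroup.eq_of_le_of_card_ge hle
    have h1 : Nat.card (zpowers z) ∣ p := hk ▸ Subgroup.card_dvd_of_le hle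
    rcases (Nat.dvd_prime hp.out).mp h1 with h2 | h2
    · exfalso
      rw [Nat.card_zpowers, orderOf_eq_one_iff] at h2
      exact hz1 h2
    · rw [h2, hk]
  refine ⟨heq.symm, fun a b => ?_⟩
  rw [heq, ← QuotientGroup.eq_one_iff]
  have h1 := IsPGroup.commutative_of_card_eq_prime_sq hj (QuotientGroup.mk a) (QuotientGroup.mk b)
  have : (QuotientGroup.mk (a * b * a⁻¹ * b⁻¹) : P ⧸ center P) =
      (QuotientGroup.mk a * QuotientGroup.mk b) * (QuotientGroup.mk a)⁻¹ * (QuotientGroup.mk b)⁻¹ :=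
    rfl
  rw [this, h1]
  group

end PGroups

section Main

variable {G : Type*} [Group G] [Finite G] {p : ℕ} [hp : Fact p.Prime]

/-- the key lemma: an element whose square inverts a central element of a Sylow subgroup -/
theorem exists_inverting (hD : ∀ H K : Subgroup G, IsPGroup p H → IsPGroup p K →
      Nat.card H = Nat.card K → ∃ g : G, K = H.map (MulAut.conj g).toMonoidHom)
    (P : Sylow p G) (hcard : Nat.card (P : Subgroup G) = p ^ 3)
    (hexp : ∀ x ∈ (P : Subgroup G), x ^ p = 1)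
    (hna : ∃ a ∈ (P : Subgroup G), ∃ b ∈ (P : Subgroup G), a * b ≠ b * a) :
    ∃ z ∈ (P : Subgroup G), ∃ w : G, z ≠ 1 ∧ w * (w * z * w⁻¹) * w⁻¹ = z⁻¹ ∧
      ∀ N : Subgroup G, N.Normal → (P : Subgroup G) ≤ N → w ∈ N := by
  have horder : ∀ x ∈ (P : Subgroup G), x ≠ 1 → orderOf x = p := fun x hx hx1 =>
    orderOf_eq_prime (hexp x hx) hx1
  -- facts about P
  have hna' : ∃ a b : (P : Subgroup G), a * b ≠ b * a := by
    obtain ⟨a, ha, b, hb, hab⟩ := hna
    exact ⟨⟨a, ha⟩, ⟨b, hb⟩, fun h => hab (congrArg Subtype.val h)⟩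
  have facts : ∀ z ∈ (P : Subgroup G), z ≠ 1 → (∀ g ∈ (P : Subgroup G), g * z = z * g) →
      (∀ s ∈ (P : Subgroup G), (∀ g ∈ (P : Subgroup G), g * s = s * g) → s ∈ zpowers z) ∧
      ∀ a ∈ (P : Subgroup G), ∀ b ∈ (P : Subgroup G), a * b * a⁻¹ * b⁻¹ ∈ zpowers z := by
    intro z hz hz1 hzc
    obtain ⟨h1, h2⟩ := cube_facts (P := (P : Subgroup G)) hcard hna' (z := ⟨z, hz⟩)
      (mem_center_iff.mpr fun g => Subtype.ext (hzc g g.2))
      (fun h => hz1 (congrArg Subtype.val h))
    have hcoe : ∀ s : (P : Subgroup G), s ∈ zpowers (⟨z, hz⟩ : (P : Subgroup G)) →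
        (s : G) ∈ zpowers z := by
      rintro _ ⟨k, rfl⟩
      exact ⟨k, by simp⟩
    constructor
    · intro s hs hsc
      have : (⟨s, hs⟩ : (P : Subgroup G)) ∈ center (P : Subgroup G) :=
        mem_center_iff.mpr fun g => Subtype.ext (hsc g g.2)
      rw [h1] at this
      exact hcoe _ this
    · intro a ha b hb
      exact hcoe _ (h2 ⟨a, ha⟩ ⟨b, hb⟩)
  -- a non-commuting pair
  obtain ⟨x, hx, y, hy, hxy⟩ := hna
  -- a central element
  have hPne : (P : Subgroup G) ≠ ⊥ := by
    intro h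
    rw [h, card_bot] at hcard
    have := Nat.one_lt_pow (n := 3) (by omega) hp.out.one_lt
    omega
  have hnt : Nontrivial (P : Subgroup G) := (Subgroup.nontrivial_iff_ne_bot _).mpr hPne
  have hZnt := P.2.center_nontrivial
  obtain ⟨⟨z₀, hz₀⟩, hz₀1⟩ := exists_ne (1 : center (P : Subgroup G))
  have hz₀1' : (z₀ : G) ≠ 1 := fun h => hz₀1 (Subtype.ext (Subtype.ext h))
  have hz₀c : ∀ g ∈ (P : Subgroup G), g * (z₀ : G) = z₀ * g := fun g hg =>
    congrArg Subtype.val (mem_center_iff.mp hz₀ ⟨g, hg⟩)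
  obtain ⟨-, hcomm₀⟩ := facts z₀ z₀.2 hz₀1' hz₀c
  set z : G := y * x * y⁻¹ * x⁻¹ with hz
  have hzP : z ∈ (P : Subgroup G) := mul_mem (mul_mem (mul_mem hy hx) (inv_mem hy)) (inv_mem hx)
  have hz1 : z ≠ 1 := by
    intro h
    apply hxy
    calc x * y = (y * x * y⁻¹ * x⁻¹)⁻¹ * (y * x) := by group
      _ = y * x := by rw [← hz, h]; group
  have hzc : ∀ g ∈ (P : Subgroup G), g * z = z * g := by
    intro g hg
    obtain ⟨k, hk⟩ := hcomm₀ y hy x hx
    have hk' : z = (z₀ : G) ^ k := hk.symm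
    rw [hk']
    exact ((show Commute g (z₀ : G) from hz₀c g hg).zpow_right k).eq
  have hx1 : x ≠ 1 := by rintro rfl; apply hxy; group
  have hyx : y * x * y⁻¹ = z * x := by rw [hz]; group
  have hxnc : x ∉ zpowers z := by
    rintro ⟨k, hk⟩
    have hk' : z ^ k = x := hk
    apply hxy
    rw [← hk']
    exact (((show Commute y z from hzc y hy).zpow_right k).eq).symm
  -- conjugate ⟨z⟩ to ⟨x⟩
  obtain ⟨g, hg⟩ := hD (zpowers z) (zpowers x)
    (IsPGroup.of_card (n := 1) (by rw [Nat.card_zpowers, horder z hzP hz1, pow_one]))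
    (IsPGroup.of_card (n := 1) (by rw [Nat.card_zpowers, horder x hx hx1, pow_one]))
    (by rw [Nat.card_zpowers, Nat.card_zpowers, horder z hzP hz1, horder x hx hx1])
  obtain ⟨z', hz', hgz⟩ : ∃ z' ∈ zpowers z, g * z' * g⁻¹ = x := by
    have : x ∈ zpowers x := mem_zpowers x
    rw [hg] at this
    obtain ⟨z', h1, h2⟩ := this
    exact ⟨z', h1, h2⟩
  have hz'P : z' ∈ (P : Subgroup G) := (zpowers_le.mpr hzP) hz'
  have hz'c : ∀ g ∈ (P : Subgroup G), g * z' = z' * g := by
    intro a ha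
    obtain ⟨k, rfl⟩ := hz'
    exact ((show Commute a z from hzc a ha).zpow_right k).eq
  have hz'1 : z' ≠ 1 := by
    rintro rfl
    apply hx1
    rw [← hgz]; group
  -- Sylow's theorem in the centralizer of x
  obtain ⟨c, hcx, hcz⟩ : ∃ c : G, c * x * c⁻¹ = x ∧ (c * g)⁻¹ * z * (c * g) ∈ (P : Subgroup G) := by
    set C := centralizer ({x} : Set G) with hC
    have hQC : (g • P : Sylow p G) ≤ C := by
      intro a ha
      rw [Sylow.coe_subgroup_smul, Hall.mem_conj_smul] at ha
      rw [hC, mem_cent_singleton, ← hgz]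
      have h1 := hz'c _ ha
      calc g * z' * g⁻¹ * a = g * (z' * (g⁻¹ * a * g)) * g⁻¹ := by group
        _ = g * ((g⁻¹ * a * g) * z') * g⁻¹ := by rw [← h1]
        _ = a * (g * z' * g⁻¹) := by group
    have hzC : z ∈ C := by
      rw [hC, mem_cent_singleton]; exact hzc x hx
    obtain ⟨R, hR⟩ := (show IsPGroup p (zpowers (⟨z, hzC⟩ : C)) from by
      apply IsPGroup.of_card (n := 1)
      rw [Nat.card_zpowers, Subgroup.orderOf_mk, horder z hzP hz1, pow_one]).exists_le_sylow
    obtain ⟨c, hc⟩ := MulAction.exists_smul_eq C ((g • P).subtype hQC) R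
    refine ⟨c, ?_, ?_⟩
    · have := mem_cent_singleton.mp c.2
      rw [← this]; group
    · have h1 : (⟨z, hzC⟩ : C) ∈ R := hR (mem_zpowers _)
      rw [← hc] at h1
      have h2 : (⟨z, hzC⟩ : C) ∈ (MulAut.conj c) • ((g • P).subtype hQC : Subgroup C) := h1
      rw [Hall.mem_conj_smul] at h2
      have h3 : (c : G)⁻¹ * z * (c : G) ∈ ((g • P : Sylow p G) : Subgroup G) := h2
      rw [Sylow.coe_subgroup_smul, Hall.mem_conj_smul] at h3
      have h4 : ((c : G) * g)⁻¹ * z * ((c : G) * g) = g⁻¹ * ((c : G)⁻¹ * z * (c : G)) * g := by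
        group
      rw [h4]; exact h3
  set h := c * g with hh
  have hhx : h * z' * h⁻¹ = x := by
    rw [hh]
    calc c * g * z' * (c * g)⁻¹ = c * (g * z' * g⁻¹) * c⁻¹ := by group
      _ = x := by rw [hgz, hcx]
  set s := h⁻¹ * z * h with hs
  have hhs : h * s * h⁻¹ = z := by rw [hs]; group
  obtain ⟨hcen', hcomm'⟩ := facts z' hz'P hz'1 hz'c
  -- s is not central in P
  obtain ⟨t, ht, hts⟩ : ∃ t ∈ (P : Subgroup G), t * s ≠ s * t := by
    by_contra hcon
    push Not at hcon
    obtain ⟨k, hk⟩ := hcen' s hcz hcon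
    have hk' : z' ^ k = s := hk
    have hzx : z ∈ zpowers x := by
      refine ⟨k, ?_⟩
      show x ^ k = z
      rw [← hhx, ← hhs, ← hk', ← conj_zpow]
    have hfin : zpowers z = zpowers x := by
      apply Subgroup.eq_of_le_of_card_ge
      · rwa [zpowers_le]
      · rw [Nat.card_zpowers, Nat.card_zpowers, horder z hzP hz1, horder x hx hx1]
    exact hxnc (hfin ▸ mem_zpowers x)
  obtain ⟨t', ht', ht's⟩ : ∃ t' ∈ (P : Subgroup G), t' * s * t'⁻¹ = z'⁻¹ * s := by
    obtain ⟨k, hk⟩ := hcomm' t ht s hcz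
    have hk' : z' ^ k = t * s * t⁻¹ * s⁻¹ := hk
    have hz'o : orderOf z' = p := horder z' hz'P hz'1
    have hkp : ¬ (p : ℤ) ∣ k := by
      intro hdvd
      apply hts
      have : z' ^ k = 1 := by
        rw [← orderOf_dvd_iff_zpow_eq_one, hz'o]; exact hdvd
      rw [this] at hk'
      calc t * s = (t * s * t⁻¹ * s⁻¹) * (s * t) := by group
        _ = s * t := by rw [← hk', one_mul]
    have hpow : ∀ m : ℕ, t ^ m * s * (t ^ m)⁻¹ = z' ^ (m * k) * s := by
      intro m
      induction m with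
      | zero => simp
      | succ m ih =>
        have hcz' : t * z' ^ (m * k) * t⁻¹ = z' ^ (m * k) := by
          have := ((show Commute t z' from hz'c t ht).zpow_right (m * k)).eq
          rw [this]; group
        calc t ^ (m + 1) * s * (t ^ (m + 1))⁻¹ = t * (t ^ m * s * (t ^ m)⁻¹) * t⁻¹ := by
              rw [pow_succ']; group
          _ = t * (z' ^ (m * k) * s) * t⁻¹ := by rw [ih]
          _ = (t * z' ^ (m * k) * t⁻¹) * (t * s * t⁻¹ * s⁻¹) * s := by group
          _ = z' ^ (m * k) * z' ^ k * s := by rw [hcz', ← hk']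
          _ = z' ^ ((m + 1 : ℕ) * k) * s := by rw [← zpow_add]; congr 2; push_cast; ring
    -- choose m with m k ≡ -1 mod p
    obtain ⟨m, hm⟩ : ∃ m : ℕ, (p : ℤ) ∣ m * k + 1 := by
      have hu : ((k : ℤ) : ZMod p) ≠ 0 := by
        intro h0
        exact hkp ((ZMod.intCast_zmod_eq_zero_iff_dvd k p).mp h0)
      refine ⟨(-((k : ℤ) : ZMod p)⁻¹ : ZMod p).val, ?_⟩
      rw [← ZMod.intCast_zmod_eq_zero_iff_dvd]
      push_cast
      rw [ZMod.natCast_zmod_val, neg_mul, inv_mul_cancel₀ hu]
      ring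
    refine ⟨t ^ m, pow_mem ht m, ?_⟩
    rw [hpow m]
    congr 1
    have h1 : z' ^ ((m : ℤ) * k + 1) = 1 := by
      rw [← orderOf_dvd_iff_zpow_eq_one, hz'o]; exact hm
    rw [zpow_add, zpow_one] at h1
    exact eq_inv_of_mul_eq_one_left h1
  -- the two transvections
  set b := h * t' * h⁻¹ with hb
  have hbz : b * z * b⁻¹ = x⁻¹ * z := by
    calc b * z * b⁻¹ = h * (t' * s * t'⁻¹) * h⁻¹ := by rw [hb, hs]; group
      _ = h * (z'⁻¹ * s) * h⁻¹ := by rw [ht's]
      _ = (h * z' * h⁻¹)⁻¹ * (h * s * h⁻¹) := by group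
      _ = x⁻¹ * z := by rw [hhx, hhs]
  have hbx : b * x * b⁻¹ = x := by
    calc b * x * b⁻¹ = h * (t' * z') * t'⁻¹ * h⁻¹ := by rw [hb, ← hhx]; group
      _ = h * (z' * t') * t'⁻¹ * h⁻¹ := by rw [hz'c t' ht']
      _ = h * z' * h⁻¹ := by group
      _ = x := hhx
  have hxz : x * z = z * x := hzc x hx
  have hyz : y * z * y⁻¹ = z := by rw [hzc y hy]; group
  refine ⟨z, hzP, y * b * y, hz1, ?_, ?_⟩
  · have hwz : y * b * y * z * (y * b * y)⁻¹ = x⁻¹ := by
      calc y * b * y * z * (y * b * y)⁻¹ = y * (b * (y * z * y⁻¹) * b⁻¹) * y⁻¹ := by group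
        _ = y * (x⁻¹ * z) * y⁻¹ := by rw [hyz, hbz]
        _ = (y * x * y⁻¹)⁻¹ * (y * z * y⁻¹) := by group
        _ = (z * x)⁻¹ * z := by rw [hyx, hyz]
        _ = x⁻¹ := by group
    have hwx : y * b * y * x * (y * b * y)⁻¹ = z := by
      calc y * b * y * x * (y * b * y)⁻¹ = y * (b * (y * x * y⁻¹) * b⁻¹) * y⁻¹ := by group
        _ = y * (b * (z * x) * b⁻¹) * y⁻¹ := by rw [hyx]
        _ = y * ((b * z * b⁻¹) * (b * x * b⁻¹)) * y⁻¹ := by group
        _ = y * (x⁻¹ * z * x) * y⁻¹ := by rw [hbz, hbx]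
        _ = y * (x⁻¹ * (z * x)) * y⁻¹ := by group
        _ = y * (x⁻¹ * (x * z)) * y⁻¹ := by rw [hxz]
        _ = y * z * y⁻¹ := by group
        _ = z := hyz
    rw [hwz]
    calc y * b * y * x⁻¹ * (y * b * y)⁻¹ = (y * b * y * x * (y * b * y)⁻¹)⁻¹ := by group
      _ = z⁻¹ := by rw [hwx]
  · intro N hN hPN
    have hbN : b ∈ N := by
      rw [hb]; exact hN.conj_mem t' (hPN ht') h
    exact mul_mem (mul_mem (hPN hy) hbN) (hPN hy)

end Main

theorem quat_case {G : Type*} [Group G] [Finite G]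
    (hD : ∀ H K : Subgroup G, IsPGroup 2 H → IsPGroup 2 K →
      Nat.card H = Nat.card K → ∃ g : G, K = H.map (MulAut.conj g).toMonoidHom)
    (P : Subgroup G) {n : ℕ} (e : P ≃* QuaternionGroup (2 ^ n)) :
    IsCyclic P ∨ Nonempty (P ≃* QuaternionGroup 2) := by
  rcases Nat.lt_or_ge n 2 with hn | hn
  · interval_cases n
    · left
      rw [pow_zero] at e
      have := QuaternionGroup.quaternionGroup_one_isCyclic
      exact isCyclic_of_surjective e.symm e.symm.surjective
    · right
      rw [pow_one] at e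
      exact ⟨e⟩
  · exfalso
    have hne : NeZero (2 ^ n) := ⟨by positivity⟩
    have hcard : Nat.card P = 4 * 2 ^ n := by
      rw [Nat.card_congr e.toEquiv, Nat.card_eq_fintype_card, QuaternionGroup.card]
    obtain ⟨g, hg⟩ : ∃ g : P, orderOf g = 8 := by
      refine ⟨e.symm ((QuaternionGroup.a 1) ^ (2 ^ (n - 2))), ?_⟩
      rw [MulEquiv.orderOf_eq, orderOf_pow, QuaternionGroup.orderOf_a_one]
      obtain ⟨m, rfl⟩ : ∃ m, n = m + 2 := ⟨n - 2, by omega⟩
      have h1 : 2 * 2 ^ (m + 2) = 8 * 2 ^ m := by ring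
      rw [show m + 2 - 2 = m from by omega, h1, Nat.gcd_eq_right (Dvd.intro_left 8 rfl)]
      exact Nat.mul_div_cancel _ (by positivity)
    set x : P := e.symm (QuaternionGroup.xa 0) with hx
    have hxo : orderOf x = 4 := by rw [hx, MulEquiv.orderOf_eq, QuaternionGroup.orderOf_xa]
    obtain ⟨K, hK, hxK⟩ := Sylow.exists_subgroup_card_pow_prime_le (G := P) 2 (n := 2) (m := 3)
      (by rw [hcard]; exact ⟨2 ^ (n - 1), by
        obtain ⟨m, rfl⟩ : ∃ m, n = m + 2 := ⟨n - 2, by omega⟩
        rw [show m + 2 - 1 = m + 1 from by omega]; ring⟩)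
      (zpowers x) (by rw [Nat.card_zpowers, hxo]; norm_num) (by omega)
    have hgo : orderOf (g : G) = 8 := by rw [Subgroup.orderOf_coe]; exact hg
    obtain ⟨h, hh⟩ := hD (zpowers (g : G)) (K.map P.subtype)
      (IsPGroup.of_card (n := 3) (by rw [Nat.card_zpowers, hgo]; norm_num))
      (IsPGroup.of_card (n := 3) (by rw [card_map_of_injective P.subtype_injective, hK]))
      (by rw [card_map_of_injective P.subtype_injective, hK, Nat.card_zpowers, hgo]; norm_num)
    have hmem : ∀ j : ℤ, h * (g : G) ^ j * h⁻¹ ∈ K.map P.subtype := by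
      intro j
      rw [hh]
      exact ⟨(g : G) ^ j, ⟨j, rfl⟩, rfl⟩
    have hxm : (x : G) ∈ K.map P.subtype := ⟨x, hxK (mem_zpowers x), rfl⟩
    rw [hh] at hxm
    obtain ⟨_, ⟨j, rfl⟩, hj⟩ := hxm
    have hj' : h * (g : G) ^ j * h⁻¹ = x := hj
    have hx4 : (x : G) ^ 4 = 1 := by
      have : x ^ 4 = 1 := by rw [← hxo, pow_orderOf_eq_one]
      exact congrArg Subtype.val this
    have h1 : (g : G) ^ (j * 4) = 1 := by
      have h2 : h * (g : G) ^ (j * 4) * h⁻¹ = 1 := by
        rw [← hx4, ← hj', conj_pow, zpow_mul]; norm_cast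
      calc (g : G) ^ (j * 4) = h⁻¹ * (h * (g : G) ^ (j * 4) * h⁻¹) * h := by group
        _ = 1 := by rw [h2]; group
    rw [← orderOf_dvd_iff_zpow_eq_one, hgo] at h1
    obtain ⟨i, hi⟩ : (2 : ℤ) ∣ j := by
      obtain ⟨c, hc⟩ := h1
      exact ⟨c, by push_cast at hc; omega⟩
    obtain ⟨k, -, hk⟩ := hmem i
    have hk' : (k : G) = h * (g : G) ^ i * h⁻¹ := hk
    have hxk : x = k * k := by
      apply Subtype.ext
      rw [coe_mul, hk', ← hj', hi]
      calc h * (g : G) ^ (2 * i) * h⁻¹ = h * ((g : G) ^ i * (g : G) ^ i) * h⁻¹ := by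
            rw [← zpow_add]; congr 3; ring
        _ = _ := by group
    have h2 : QuaternionGroup.xa 0 = e k * e k := by
      rw [← map_mul, ← hxk, hx, e.apply_symm_apply]
    cases hek : e k with
    | a i => rw [hek, QuaternionGroup.a_mul_a] at h2; exact absurd h2 (by simp)
    | xa i => rw [hek, QuaternionGroup.xa_mul_xa] at h2; exact absurd h2 (by simp)

/-- the case analysis -/
theorem cases_of {G : Type*} [Group G] [Finite G] {p : ℕ} [hp : Fact p.Prime]
    (hD : ∀ H K : Subgroup G, IsPGroup p H → IsPGroup p K →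
      Nat.card H = Nat.card K → ∃ g : G, K = H.map (MulAut.conj g).toMonoidHom)
    (P : Sylow p G) :
    IsCyclic P ∨ (p = 2 ∧ Nonempty ((P : Subgroup G) ≃* QuaternionGroup 2)) ∨
      ∀ x ∈ (P : Subgroup G), x ^ p = 1 := by
  rcases Cfsg.Agent.H65.pgroup_cases P.2 with h | ⟨hp2, n, ⟨e⟩⟩ | ⟨E, h1, h2, h3⟩
  · exact Or.inl h
  · subst hp2
    rcases quat_case hD (P : Subgroup G) e with h | h
    · exact Or.inl h
    · exact Or.inr (Or.inl ⟨rfl, h⟩)
  · right; right
    intro x hx
    obtain ⟨k, hk⟩ := IsPGroup.iff_orderOf.mp P.2 ⟨x, hx⟩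
    rw [Subgroup.orderOf_mk] at hk
    by_contra hne
    have hk2 : 2 ≤ k := by
      by_contra hk'
      apply hne
      rw [← orderOf_dvd_iff_pow_eq_one, hk]
      calc p ^ k ∣ p ^ 1 := pow_dvd_pow p (by omega)
        _ = p := pow_one p
    have hord : orderOf (x ^ (p ^ (k - 2))) = p ^ 2 := by
      rw [orderOf_pow, hk]
      have : Nat.gcd (p ^ k) (p ^ (k - 2)) = p ^ (k - 2) :=
        Nat.gcd_eq_right (pow_dvd_pow p (by omega))
      rw [this, Nat.pow_div (by omega) hp.out.pos]
      congr 1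
      omega
    obtain ⟨g, hg⟩ := hD (E.map (P : Subgroup G).subtype) (zpowers (x ^ (p ^ (k - 2))))
      (IsPGroup.of_card (n := 2) (by rw [card_map_of_injective (Subgroup.subtype_injective _), h2]))
      (IsPGroup.of_card (n := 2) (by rw [Nat.card_zpowers, hord]))
      (by rw [card_map_of_injective (Subgroup.subtype_injective _), h2, Nat.card_zpowers, hord])
    have h4 : x ^ (p ^ (k - 2)) ∈ zpowers (x ^ (p ^ (k - 2))) := mem_zpowers _
    rw [hg] at h4
    obtain ⟨_, ⟨y, hy, rfl⟩, hy2⟩ := h4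
    have h5 : (x ^ (p ^ (k - 2))) ^ p = 1 := by
      rw [← hy2, ← map_pow, ← map_pow, h3 y hy, map_one, map_one]
    rw [← orderOf_dvd_iff_pow_eq_one, hord] at h5
    have := Nat.le_of_dvd hp.out.pos h5
    have h6 : p < p ^ 2 := by
      rw [sq]
      exact lt_mul_of_one_lt_left hp.out.pos hp.out.one_lt
    omega

theorem isElementaryAbelian_two {G : Type*} [Group G] {P : Subgroup G}
    (h : ∀ x ∈ P, x ^ 2 = 1) : Cfsg.IsElementaryAbelian 2 P := by
  refine ⟨⟨⟨?_⟩⟩, h⟩
  rintro ⟨a, ha⟩ ⟨b, hb⟩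
  apply Subtype.ext
  show a * b = b * a
  have h1 := h a ha
  have h2 := h b hb
  have h3 := h (a * b) (mul_mem ha hb)
  rw [sq] at h1 h2 h3
  have : (a * b)⁻¹ = a * b := inv_eq_of_mul_eq_one_left h3
  rw [mul_inv_rev, inv_eq_of_mul_eq_one_left h1, inv_eq_of_mul_eq_one_left h2] at this
  exact this.symm

theorem commute_mul_self_of_inverts {G : Type*} [Group G] {u z : G}
    (h : u * z * u⁻¹ = z⁻¹) : Commute (u * u) z := by
  show u * u * z = z * (u * u)
  have h' : u * z = z⁻¹ * u := by rw [← h]; group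
  have h'' : u * z⁻¹ = z * u := by
    have : u * z⁻¹ * u⁻¹ = z := by
      calc u * z⁻¹ * u⁻¹ = (u * z * u⁻¹)⁻¹ := by group
        _ = z := by rw [h, inv_inv]
    calc u * z⁻¹ = u * z⁻¹ * u⁻¹ * u := by group
      _ = z * u := by rw [this]
  calc u * u * z = u * (u * z) := by group
    _ = u * z⁻¹ * u := by rw [h']; group
    _ = z * u * u := by rw [h'']
    _ = z * (u * u) := by group

/-- an element of odd order inverting `z` by conjugation forces `z² = 1` -/
theorem sq_eq_one_of_odd {G : Type*} [Group G] {u z : G} (ho : Odd (orderOf u))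
    (h : u * z * u⁻¹ = z⁻¹) : z * z = 1 := by
  have h2 : Commute (u * u) z := commute_mul_self_of_inverts h
  obtain ⟨m, hm⟩ := ho
  have h3 : u = (u * u) ^ (m + 1) := by
    calc u = u ^ (2 * m + 1) * u := by rw [← hm, pow_orderOf_eq_one, one_mul]
      _ = (u * u) ^ (m + 1) := by rw [← pow_two, ← pow_mul, ← pow_succ]; congr 1
  have h4 : Commute u z := by rw [h3]; exact h2.pow_left _
  have h5 : z = z⁻¹ := by
    rw [← h]
    calc z = z * u * u⁻¹ := by group
      _ = u * z * u⁻¹ := by rw [h4.eq]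
  calc z * z = z * z⁻¹ := by rw [← h5]
    _ = 1 := mul_inv_cancel z

/-- Let G be a finite group in which, for every prime p, any two p-subgroups of the same order are conjugate. Then every Sylow subgroup of G is cyclic, elementary abelian, or a quaternion group of order 8. -/
theorem result {G : Type*} [Group G] [Finite G]
    (hD : ∀ p : ℕ, p.Prime → ∀ H K : Subgroup G, IsPGroup p H → IsPGroup p K → Nat.card H = Nat.card K →
      ∃ g : G, K = H.map (MulAut.conj g).toMonoidHom) {p : ℕ} [Fact p.Prime] (P : Sylow p G) :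
    IsCyclic P ∨ Cfsg.IsElementaryAbelian p (P : Subgroup G) ∨ Nonempty ((P : Subgroup G) ≃* QuaternionGroup 2) := by
  have hp : p.Prime := Fact.out
  rcases cases_of (hD p hp) P with h | ⟨-, h⟩ | hexp
  · exact Or.inl h
  · exact Or.inr (Or.inr h)
  by_cases hab : ∀ a ∈ (P : Subgroup G), ∀ b ∈ (P : Subgroup G), a * b = b * a
  · exact Or.inr (Or.inl ⟨⟨⟨fun a b => Subtype.ext (hab a a.2 b b.2)⟩⟩, hexp⟩)
  by_cases hp2 : p = 2
  · subst hp2
    exact Or.inr (Or.inl (isElementaryAbelian_two hexp))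
  exfalso
  push Not at hab
  have hna' : ∃ a b : (P : Subgroup G), a * b ≠ b * a := by
    obtain ⟨a, ha, b, hb, hab⟩ := hab
    exact ⟨⟨a, ha⟩, ⟨b, hb⟩, fun h => hab (congrArg Subtype.val h)⟩
  have hexp' : ∀ x : (P : Subgroup G), x ^ p = 1 := fun x => Subtype.ext (hexp x x.2)
  -- the order is p³
  have hcard : Nat.card (P : Subgroup G) = p ^ 3 := by
    obtain ⟨k, hk⟩ := IsPGroup.iff_card.mp P.2
    have hk3 : 3 ≤ k := by
      by_contra hlt
      obtain ⟨a, b, hab⟩ := hna'
      apply hab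
      have : k = 0 ∨ k = 1 ∨ k = 2 := by omega
      rcases this with h | h | h
      · rw [h, pow_zero] at hk
        have := (Nat.card_eq_one_iff_unique.mp hk).1
        exact Subsingleton.elim _ _
      · rw [h, pow_one] at hk
        have := isCyclic_of_prime_card hk
        letI := IsCyclic.commGroup (α := (P : Subgroup G))
        exact mul_comm a b
      · rw [h] at hk
        exact IsPGroup.commutative_of_card_eq_prime_sq hk a b
    by_contra hne
    have hk4 : 4 ≤ k := by
      rcases Nat.lt_or_ge 3 k with h | h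
      · omega
      · exact absurd (by rw [hk, show k = 3 by omega]) hne
    obtain ⟨A, hA, hAc⟩ := exists_abelian_cube P.2 hna' (by
      rw [hk]; exact Nat.pow_le_pow_right hp.pos hk4)
    obtain ⟨B, ⟨a, ha, b, hb, hab⟩, hBc⟩ := exists_nonabelian_cube P.2 hexp' hna' (by
      rw [hk]; exact pow_dvd_pow p hk3)
    obtain ⟨g, hg⟩ := hD p hp (A.map (P : Subgroup G).subtype) (B.map (P : Subgroup G).subtype)
      (IsPGroup.of_card (n := 3) (by rw [card_map_of_injective (subtype_injective _), hAc]))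
      (IsPGroup.of_card (n := 3) (by rw [card_map_of_injective (subtype_injective _), hBc]))
      (by rw [card_map_of_injective (subtype_injective _), hAc,
        card_map_of_injective (subtype_injective _), hBc])
    have ha' : (a : G) ∈ B.map (P : Subgroup G).subtype := ⟨a, ha, rfl⟩
    have hb' : (b : G) ∈ B.map (P : Subgroup G).subtype := ⟨b, hb, rfl⟩
    rw [hg] at ha' hb'
    obtain ⟨_, ⟨a', ha', rfl⟩, haa⟩ := ha'
    obtain ⟨_, ⟨b', hb', rfl⟩, hbb⟩ := hb'
    apply hab
    apply Subtype.ext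
    rw [coe_mul, coe_mul, ← haa, ← hbb, ← map_mul, ← map_mul, ← map_mul, ← map_mul,
      hA a' ha' b' hb']
  obtain ⟨z, hzP, w, hz1, hw, hwN⟩ := exists_inverting (hD p hp) P hcard hexp hab
  have hzo : orderOf z = p := orderOf_eq_prime (hexp z hzP) hz1
  have hzz : z * z ≠ 1 := by
    intro h
    rw [← pow_two] at h
    have := orderOf_dvd_of_pow_eq_one h
    rw [hzo] at this
    exact hp2 ((Nat.prime_dvd_prime_iff_eq hp Nat.prime_two).mp this)
  have hww : (w * w) * z * (w * w)⁻¹ = z⁻¹ := by rw [← hw]; group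
  -- no normal subgroup of odd order contains P
  have hno : ∀ N : Subgroup G, N.Normal → ¬ 2 ∣ Nat.card N → (P : Subgroup G) ≤ N → False := by
    intro N hN h2 hPN
    have hwm := hwN N hN hPN
    apply hzz
    apply sq_eq_one_of_odd (u := w * w) ?_ hww
    rw [← Nat.not_even_iff_odd, even_iff_two_dvd]
    intro hdvd
    apply h2
    have h3 : orderOf (⟨w * w, mul_mem hwm hwm⟩ : N) ∣ Nat.card N := orderOf_dvd_natCard _
    rw [Subgroup.orderOf_mk] at h3
    exact hdvd.trans h3
  -- Sylow 2-subgroup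
  haveI : Fact (Nat.Prime 2) := ⟨Nat.prime_two⟩
  obtain ⟨T⟩ : Nonempty (Sylow 2 G) := inferInstance
  -- the 2-part of w
  obtain ⟨k, m, hm, hkm⟩ := Nat.exists_eq_two_pow_mul_odd (orderOf_pos w).ne'
  set v := w ^ m with hv
  have hvo : orderOf v = 2 ^ k := by
    rw [hv, orderOf_pow, hkm, Nat.gcd_eq_right (Dvd.intro_left _ rfl)]
    exact Nat.mul_div_cancel _ hm.pos
  have hvz : (v * v) * z * (v * v)⁻¹ = z⁻¹ := by
    obtain ⟨j, hj⟩ := hm
    have h1 : Commute ((w * w) * (w * w)) z := commute_mul_self_of_inverts hww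
    have h2 : v * v = (w * w) * ((w * w) * (w * w)) ^ j := by
      rw [hv, hj]
      simp only [← pow_two, ← pow_mul, ← pow_add]
      congr 1; ring
    rw [h2]
    calc (w * w) * ((w * w) * (w * w)) ^ j * z * ((w * w) * ((w * w) * (w * w)) ^ j)⁻¹
        = (w * w) * (((w * w) * (w * w)) ^ j * z) * (((w * w) * (w * w)) ^ j)⁻¹ * (w * w)⁻¹ := by
          group
      _ = (w * w) * (z * ((w * w) * (w * w)) ^ j) * (((w * w) * (w * w)) ^ j)⁻¹ * (w * w)⁻¹ := by
          rw [(h1.pow_left j).eq]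
      _ = (w * w) * z * (w * w)⁻¹ := by group
      _ = z⁻¹ := hww
  have hvv : v * v ≠ 1 := by
    intro h
    rw [h] at hvz
    apply hzz
    have : z = z⁻¹ := by rw [← hvz]; group
    calc z * z = z * z⁻¹ := by rw [← this]
      _ = 1 := mul_inv_cancel z
  obtain ⟨g, hgT⟩ : ∃ g : G, v ∈ ((g • T : Sylow 2 G) : Subgroup G) := by
    have h1 : IsPGroup 2 (zpowers v) := IsPGroup.of_card (n := k) (by rw [Nat.card_zpowers, hvo])
    obtain ⟨Q, hQ⟩ := h1.exists_le_sylow
    obtain ⟨g, hg⟩ := MulAction.exists_smul_eq G T Q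
    exact ⟨g, by rw [hg]; exact hQ (mem_zpowers v)⟩
  rcases cases_of (hD 2 Nat.prime_two) (g • T) with hcyc | ⟨-, ⟨e⟩⟩ | h2
  · -- cyclic
    by_cases h2G : 2 ∣ Nat.card G
    · have hmin : (Nat.card G).minFac = 2 := (Nat.minFac_eq_two_iff _).mpr h2G
      have hNC := IsCyclic.normalizer_le_centralizer hmin (P := g • T) hcyc
      refine hno (MonoidHom.transferSylow (g • T) hNC).ker inferInstance
        (MonoidHom.not_dvd_card_ker_transferSylow _ hNC) ?_
      intro x hx
      set N := (MonoidHom.transferSylow (g • T) hNC).ker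
      have hidx : N.index = Nat.card ((g • T : Sylow 2 G) : Subgroup G) :=
        (MonoidHom.ker_transferSylow_isComplement' _ hNC).symm.index_eq_card
      obtain ⟨l, hl⟩ := IsPGroup.iff_card.mp (g • T : Sylow 2 G).2
      rw [hl] at hidx
      have h3 : x ^ (2 ^ l) ∈ N := by rw [← hidx]; exact N.pow_index_mem x
      have h4 : x ^ p ∈ N := by rw [hexp x hx]; exact one_mem _
      have hco : Nat.Coprime (2 ^ l) p :=
        Nat.Coprime.pow_left _ ((Nat.coprime_primes Nat.prime_two hp).mpr (Ne.symm hp2))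
      have h5 : (1 : ℤ) = (2 ^ l : ℕ) * Nat.gcdA (2 ^ l) p + p * Nat.gcdB (2 ^ l) p := by
        rw [← Nat.gcd_eq_gcd_ab, hco]; rfl
      have h6 : x = (x ^ (2 ^ l)) ^ Nat.gcdA (2 ^ l) p * (x ^ p) ^ Nat.gcdB (2 ^ l) p := by
        rw [← zpow_natCast, ← zpow_natCast, ← zpow_mul, ← zpow_mul, ← zpow_add, ← h5, zpow_one]
      rw [h6]
      exact mul_mem (zpow_mem h3 _) (zpow_mem h4 _)
    · exact hno ⊤ inferInstance (by rw [card_top]; exact h2G) le_top
  · -- quaternion
    set T' := (g • T : Sylow 2 G) with hT'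
    have hv4 : (v * v) * (v * v) = 1 := by
      have h1 : ∀ q : QuaternionGroup 2, q ^ 4 = 1 := by
        intro q
        rcases q with i | i
        · rw [show (4 : ℕ) = 2 * 2 from rfl, pow_mul, pow_two (QuaternionGroup.a i),
            QuaternionGroup.a_mul_a, pow_two, QuaternionGroup.a_mul_a, QuaternionGroup.one_def]
          congr 1
          revert i; decide
        · exact QuaternionGroup.xa_pow_four i
      have h2 : (⟨v, hgT⟩ : (T' : Subgroup G)) ^ 4 = 1 := by
        rw [← e.symm_apply_apply ⟨v, hgT⟩, ← map_pow, h1, map_one]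
      have h3 : v ^ 4 = 1 := congrArg Subtype.val h2
      calc (v * v) * (v * v) = v ^ 4 := by rw [← pow_two, ← pow_two, ← pow_mul]
        _ = 1 := h3
    have hto : orderOf (v * v) = 2 := by
      apply orderOf_eq_prime _ hvv
      rw [pow_two]; exact hv4
    have huniq : ∀ u ∈ T', orderOf u = 2 → u = v * v := by
      intro u hu huo
      have huu : u * u = 1 := by rw [← pow_two, ← huo, pow_orderOf_eq_one]
      have h1 : ∀ y (hy : y ∈ (T' : Subgroup G)), y * y = 1 → y ≠ 1 →
          e ⟨y, hy⟩ = QuaternionGroup.a ((2 : ℕ) : ZMod (2 * 2)) := by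
        intro y hy hyy hy1
        have h2 : e ⟨y, hy⟩ * e ⟨y, hy⟩ = 1 := by
          rw [← map_mul]
          have : (⟨y, hy⟩ : (T' : Subgroup G)) * ⟨y, hy⟩ = 1 := Subtype.ext hyy
          rw [this, map_one]
        rcases quat_mul_self_eq_one _ h2 with h | h
        · exfalso
          apply hy1
          have : (⟨y, hy⟩ : (T' : Subgroup G)) = 1 := by
            rw [← e.symm_apply_apply ⟨y, hy⟩, h, map_one]
          exact congrArg Subtype.val this
        · exact h
      have hu1 : u ≠ 1 := by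
        rintro rfl; simp at huo
      have h2 := h1 u hu huu hu1
      have h3 := h1 (v * v) (mul_mem hgT hgT) hv4 hvv
      have := e.injective (h2.trans h3.symm)
      exact congrArg Subtype.val this
    have hz := H4.zstar_uniq T' hto huniq z
    have hzN : z ∈ pPrimeCore 2 G := by
      rw [hvz] at hz
      have h1 : z⁻¹ * z⁻¹ ∈ pPrimeCore 2 G := hz
      have hodd : Odd p := hp.odd_of_ne_two hp2
      obtain ⟨j, hj⟩ := hodd
      have h2 : z = ((z⁻¹ * z⁻¹)⁻¹) ^ (j + 1) := by
        have h3 : (z⁻¹ * z⁻¹)⁻¹ = z ^ 2 := by rw [pow_two, mul_inv_rev, inv_inv]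
        rw [h3, ← pow_mul]
        have h4 : 2 * (j + 1) = p + 1 := by omega
        rw [h4, pow_succ, hexp z hzP, one_mul]
      rw [h2]
      exact pow_mem (inv_mem h1) _
    refine hno (pPrimeCore 2 G) inferInstance ?_ ?_
    · intro h2
      have h3 := Solv.pPrimeCore_card_coprime (G := G) 2
      have := Nat.dvd_gcd h2 (dvd_refl 2)
      rw [h3] at this
      omega
    · intro y hy
      by_cases hy1 : y = 1
      · rw [hy1]; exact one_mem _
      have hyo : orderOf y = p := orderOf_eq_prime (hexp y hy) hy1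
      obtain ⟨c, hc⟩ := hD p hp (zpowers z) (zpowers y)
        (IsPGroup.of_card (n := 1) (by rw [Nat.card_zpowers, hzo, pow_one]))
        (IsPGroup.of_card (n := 1) (by rw [Nat.card_zpowers, hyo, pow_one]))
        (by rw [Nat.card_zpowers, Nat.card_zpowers, hzo, hyo])
      have : y ∈ zpowers y := mem_zpowers y
      rw [hc] at this
      obtain ⟨z', ⟨l, rfl⟩, rfl⟩ := this
      exact (Solv.pPrimeCore_normal (G := G) 2).conj_mem _ (zpow_mem hzN l) c
  · -- elementary abelian
    exact hvv (by rw [← pow_two]; exact h2 v hgT)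

end Cfsg.Agent.S4020
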