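import Cfsg.Statements.S4023
import Cfsg.Agent.H67.SameIso

set_option autoImplicit false
open Cfsg

namespace Cfsg.Agent.S4023

/-- Let p be a prime and G a finite group in which any two p-subgroups of the same order are conjugate, with Sylow p-subgroup P. Then P is cyclic, or elementary abelian, or p = 2 and P is a quaternion group of order 8, or p is odd and P is non-abelian of order p³ and exponent p. -/
theorem result {G : Type*} [Group G] [Finite G]
    {p : ℕ} [Fact p.Prime] (hC : ∀ H K : Subgroup G, IsPGroup p H → IsPGroup p K → Nat.card H = Nat.card K →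
      ∃ g : G, K = H.map (MulAut.conj g).toMonoidHom) (P : Sylow p G) :
    IsCyclic P ∨ Cfsg.IsElementaryAbelian p (P : Subgroup G) ∨
      (p = 2 ∧ Nonempty ((P : Subgroup G) ≃* QuaternionGroup 2)) ∨
      (p ≠ 2 ∧ ¬ IsMulCommutative P ∧ Nat.card P = p ^ 3 ∧ Monoid.exponent P = p) := by
  have hI := Cfsg.Agent.H67.same_iso_of_conj hC (P : Subgroup G) P.2
  have hexp : ∀ (h1 : ∀ x : (P : Subgroup G), x ^ p = 1), Nat.card P = p ^ 3 →
      Monoid.exponent (P : Subgroup G) = p := by
    intro h1 h2
    have h3 : Monoid.exponent (P : Subgroup G) ∣ p := Monoid.exponent_dvd_of_forall_pow_eq_one h1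
    rcases (Nat.dvd_prime (Fact.out : p.Prime)).mp h3 with h4 | h4
    · exfalso
      rw [Monoid.exp_eq_one_iff] at h4
      have h5 : Nat.card (P : Subgroup G) = 1 := Nat.card_unique
      have h6 : Nat.card (P : Subgroup G) = p ^ 3 := h2
      rw [h5] at h6
      have := Nat.one_lt_pow (show 3 ≠ 0 by norm_num) (Fact.out : p.Prime).one_lt
      omega
    · exact h4
  rcases Cfsg.Agent.H67.same_iso_classification P.2 hI with h | ⟨h1, h2⟩ | h | ⟨h1, h2, h3, h4⟩
  · exact Or.inl h
  · right; left
    refine ⟨⟨⟨h1⟩⟩, fun a ha => ?_⟩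
    exact congrArg Subtype.val (h2 ⟨a, ha⟩)
  · exact Or.inr (Or.inr (Or.inl h))
  · right; right; right
    exact ⟨h1, fun h => h2 (fun a b => h.is_comm.comm a b), h3, hexp h4 h3⟩

end Cfsg.Agent.S4023
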