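import Cfsg.Statements.S4027
import Cfsg.Agent.H67.OddReal

set_option autoImplicit false
open Cfsg

namespace Cfsg.Agent.S4027

/-- Let G be a finite group in which every element x of odd order satisfies N_G(⟨x⟩) = C_G(x). Then the Sylow 2-subgroups of G are normal. -/
theorem result {G : Type*} [Group G] [Finite G]
    (hirr : ∀ x : G, (∀ r : ℕ, r.Prime → r ∣ orderOf x → r ≠ 2) →
      Subgroup.normalizer ((Subgroup.zpowers x : Subgroup G) : Set G) ≤ Subgroup.centralizer {x}) (P : Sylow 2 G) :
    (P : Subgroup G).Normal := by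
  apply Cfsg.Agent.H67.sylow_two_normal_of_no_odd_real
  intro x g hx hg
  have hgN : g ∈ Subgroup.normalizer ((Subgroup.zpowers x : Subgroup G) : Set G) := by
    rw [Cfsg.Agent.H67.mem_normalizer_zpowers_iff, hg]
    exact inv_mem (Subgroup.mem_zpowers _)
  have h1 := hirr x (fun r hr hrd hr2 => by
    subst hr2
    exact (Nat.not_even_iff_odd.mpr hx) (even_iff_two_dvd.mpr hrd)) hgN
  rw [Subgroup.mem_centralizer_singleton_iff] at h1
  have h2 : g * x * g⁻¹ = x := by rw [h1]; group
  rw [h2] at hg
  have h3 : x ^ 2 = 1 := by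
    rw [pow_two]
    nth_rewrite 1 [hg]
    simp
  have h4 : orderOf x ∣ 2 := orderOf_dvd_of_pow_eq_one h3
  rcases (Nat.dvd_prime Nat.prime_two).mp h4 with h5 | h5
  · exact orderOf_eq_one_iff.mp h5
  · rw [h5] at hx
    exact absurd hx (by decide)

end Cfsg.Agent.S4027
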