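import Cfsg.Statements.S4028
import Cfsg.Agent.H67.Elem

set_option autoImplicit false
open Cfsg

namespace Cfsg.Agent.S4028

/-- Let G be a finite group with Sylow 2-subgroup P. Then N_G(⟨x⟩) = C_G(x) holds for every 2-element x of G if and only if N_P(⟨y⟩) = C_P(y) holds for every y ∈ P (computed inside P). -/
theorem result {G : Type*} [Group G] [Finite G] (P : Sylow 2 G) :
    (∀ x : G, (∀ r : ℕ, r.Prime → r ∣ orderOf x → r = 2) →
      Subgroup.normalizer ((Subgroup.zpowers x : Subgroup G) : Set G) ≤ Subgroup.centralizer {x}) ↔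
    (∀ y : ↥(P : Subgroup G), Subgroup.normalizer ((Subgroup.zpowers y : Subgroup ↥(P : Subgroup G)) : Set ↥(P : Subgroup G)) ≤
        Subgroup.centralizer {y}) := by
  constructor
  · intro h y z hz
    have hy : ∀ r : ℕ, r.Prime → r ∣ orderOf (y : G) → r = 2 := by
      intro r hr hd
      obtain ⟨k, hk⟩ := IsPGroup.iff_orderOf.mp P.2 y
      rw [Subgroup.orderOf_coe, hk] at hd
      exact (Nat.prime_dvd_prime_iff_eq hr Nat.prime_two).mp (hr.dvd_of_dvd_pow hd)
    have hz' : (z : G) ∈ Subgroup.normalizer ((Subgroup.zpowers (y : G) : Subgroup G) : Set G) := by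
      rw [H67.mem_normalizer_zpowers_iff] at hz ⊢
      obtain ⟨k, hk⟩ := hz
      exact ⟨k, by simpa using congrArg Subtype.val hk⟩
    have h1 := h (y : G) hy hz'
    rw [Subgroup.mem_centralizer_singleton_iff] at h1 ⊢
    ext
    simpa using h1
  · intro h x hx g hg
    -- x has order a power of 2
    have hx2 : ∃ k, orderOf x = 2 ^ k := by
      have hpos : orderOf x ≠ 0 := (orderOf_pos x).ne'
      have : (orderOf x).primeFactors ⊆ {2} := by
        intro r hr
        rw [Finset.mem_singleton]
        exact hx r (Nat.prime_of_mem_primeFactors hr) (Nat.dvd_of_mem_primeFactors hr)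
      exact ⟨(orderOf x).factorization 2, by
        conv_lhs => rw [← Nat.prod_factorization_pow_eq_self hpos]
        rw [Nat.prod_factorization_eq_prod_primeFactors]
        rw [Finset.prod_subset this]
        · simp
        · intro r hr hr'
          rw [Finset.mem_singleton] at hr
          subst hr
          rw [Finsupp.notMem_support_iff.mp (by rwa [Nat.support_factorization]), pow_zero]⟩
    obtain ⟨k, hk⟩ := hx2
    set N := Subgroup.normalizer ((Subgroup.zpowers x : Subgroup G) : Set G) with hN
    set C := Subgroup.centralizer ({x} : Set G) with hC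
    have htot : ∃ j, (orderOf x).totient = 2 ^ j := by
      rw [hk]
      cases k with
      | zero => exact ⟨0, by simp⟩
      | succ k => exact ⟨k, by rw [Nat.totient_prime_pow_succ Nat.prime_two]; simp⟩
    obtain ⟨j, hj⟩ := htot
    -- odd order elements of N centralize x
    have hodd : ∀ u ∈ N, Odd (orderOf u) → u ∈ C := by
      intro u hu hou
      have h1 := H67.pow_totient_mem_centralizer hu
      rw [hj] at h1
      have h2 : u ∈ Subgroup.zpowers (u ^ (2 ^ j)) :=
        H67.mem_zpowers_pow_of_coprime (Nat.Coprime.pow_right j (Nat.coprime_two_right.mpr hou))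
      exact (Subgroup.zpowers_le.mpr h1) h2
    -- 2-elements of N centralize x
    have htwo : ∀ u ∈ N, (∃ a, orderOf u = 2 ^ a) → u ∈ C := by
      rintro u hu ⟨a, ha⟩
      have hpx : IsPGroup 2 (Subgroup.zpowers x) := IsPGroup.of_card (n := k) (by rw [Nat.card_zpowers, hk])
      have hpu : IsPGroup 2 (Subgroup.zpowers u) := IsPGroup.of_card (n := a) (by rw [Nat.card_zpowers, ha])
      have hT := IsPGroup.to_sup_of_normal_right' hpu hpx (Subgroup.zpowers_le.mpr hu)
      obtain ⟨Q, hQ⟩ := hT.exists_le_sylow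
      obtain ⟨c, hc⟩ := MulAction.exists_smul_eq G Q P
      have hmem : ∀ z ∈ (Q : Subgroup G), c * z * c⁻¹ ∈ (P : Subgroup G) := by
        intro z hz
        rw [← hc]
        exact Subgroup.smul_mem_pointwise_smul z (MulAut.conj c) (Q : Subgroup G) hz
      have hxQ : c * x * c⁻¹ ∈ (P : Subgroup G) :=
        hmem x (hQ ((le_sup_right : _ ≤ Subgroup.zpowers u ⊔ Subgroup.zpowers x) (Subgroup.mem_zpowers x)))
      have huQ : c * u * c⁻¹ ∈ (P : Subgroup G) :=
        hmem u (hQ ((le_sup_left : _ ≤ Subgroup.zpowers u ⊔ Subgroup.zpowers x) (Subgroup.mem_zpowers u)))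
      have h1 : (⟨c * u * c⁻¹, huQ⟩ : ↥(P : Subgroup G)) ∈ Subgroup.normalizer
          ((Subgroup.zpowers (⟨c * x * c⁻¹, hxQ⟩ : ↥(P : Subgroup G)) : Subgroup ↥(P : Subgroup G)) :
            Set ↥(P : Subgroup G)) := by
        rw [H67.mem_normalizer_zpowers_iff]
        obtain ⟨r, hr⟩ := H67.mem_normalizer_zpowers_iff.mp hu
        simp only at hr
        refine ⟨r, ?_⟩
        ext
        simp only [Subgroup.coe_zpow, Subgroup.coe_mul, Subgroup.coe_inv]
        rw [conj_zpow, hr]
        group
      have h2 := h _ h1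
      rw [Subgroup.mem_centralizer_singleton_iff] at h2
      have h3 := congrArg Subtype.val h2
      simp only [Subgroup.coe_mul] at h3
      rw [hC, Subgroup.mem_centralizer_singleton_iff]
      have h4 : c * (u * x) * c⁻¹ = c * (x * u) * c⁻¹ := by
        calc c * (u * x) * c⁻¹ = c * u * c⁻¹ * (c * x * c⁻¹) := by group
          _ = c * x * c⁻¹ * (c * u * c⁻¹) := h3
          _ = _ := by group
      exact mul_left_cancel (mul_right_cancel h4)
    obtain ⟨a, m, hm, ham⟩ := Nat.exists_eq_two_pow_mul_odd (orderOf_pos g).ne'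
    obtain ⟨i, l, hgil, hi, hl⟩ := H67.exists_decomp g (2 ^ a) m ham (Nat.Coprime.pow_left a (Nat.coprime_two_left.mpr hm))
    rw [hgil]
    exact C.mul_mem (htwo _ (N.pow_mem hg i) ⟨a, hi⟩) (hodd _ (N.pow_mem hg l) (hl ▸ hm))

end Cfsg.Agent.S4028
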