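import Cfsg.Statements.S4029
import Cfsg.Agent.S0160
import Cfsg.Agent.CharBase.Basic
import Cfsg.Agent.Solv.Frattini

set_option autoImplicit false
open Cfsg

namespace Cfsg.Agent.S4029

/-- Elements conjugate to their inverse square to one, if normalizers of cyclic groups centralize. -/
theorem sq_eq_one_of_real_of_irr {P : Type*} [Group P]
    (hirr : ∀ y : P, Subgroup.normalizer ((Subgroup.zpowers y : Subgroup P) : Set P) ≤ Subgroup.centralizer {y})
    (y : P) (hy : IsConj y y⁻¹) : y ^ 2 = 1 := by
  obtain ⟨g, hg⟩ := isConj_iff.mp hy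
  have hz : Subgroup.zpowers (g * y * g⁻¹) = Subgroup.zpowers y := by
    rw [hg, Subgroup.zpowers_inv]
  have hgN : g ∈ Subgroup.normalizer ((Subgroup.zpowers y : Subgroup P) : Set P) := by
    rw [Subgroup.mem_normalizer_iff_map_conj_eq]
    change (Subgroup.zpowers y).map (MulAut.conj g).toMonoidHom = _
    rw [MonoidHom.map_zpowers]
    exact hz
  have hc := hirr y hgN
  rw [Subgroup.mem_centralizer_singleton_iff] at hc
  have h2 : g * y * g⁻¹ = y := by rw [hc]; group
  rw [h2] at hg
  rw [pow_two]
  nth_rewrite 1 [hg]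
  simp

/-- Let P be a finite 2-group in which N_P(⟨y⟩) = C_P(y) for every y ∈ P. If s is the number of conjugacy classes of involutions of P, then #(P/Φ(P)) ≤ s + 1; in particular the subgroup generated by the involutions of P has order at least #(P/Φ(P)). -/
theorem result {P : Type*} [Group P] [Finite P] (hP : IsPGroup 2 P)
    (hirr : ∀ y : P, Subgroup.normalizer ((Subgroup.zpowers y : Subgroup P) : Set P) ≤ Subgroup.centralizer {y}) :
    Nat.card (P ⧸ frattini P) ≤ Nat.card {c : ConjClasses P // ∃ y : P, ConjClasses.mk y = c ∧ orderOf y = 2} + 1 ∧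
    Nat.card (P ⧸ frattini P) ≤ Nat.card (Subgroup.closure {y : P | orderOf y = 2}) := by
  classical
  have hsq : ∀ x : P, x ^ 2 ∈ frattini P := fun x => Cfsg.Agent.Solv.pow_mem_frattini_of_pGroup hP x
  have hQ2 : ∀ q : P ⧸ frattini P, q * q = 1 := by
    intro q
    obtain ⟨x, rfl⟩ := QuotientGroup.mk_surjective q
    rw [← QuotientGroup.mk_mul, ← pow_two]
    exact (QuotientGroup.eq_one_iff _).mpr (hsq x)
  have hQi : ∀ q : P ⧸ frattini P, q⁻¹ = q := fun q => inv_eq_of_mul_eq_one_left (hQ2 q)
  have hQc : ∀ a b : P ⧸ frattini P, a * b = b * a := by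
    intro a b
    have := hQi (a * b)
    rw [mul_inv_rev, hQi, hQi] at this
    exact this.symm
  -- number of real irreducible characters of the quotient
  have h1 : Nat.card {χ : Cfsg.IrrCharacter (P ⧸ frattini P) // ∀ g, ((χ : (P ⧸ frattini P) → ℂ) g).im = 0}
      = Nat.card (P ⧸ frattini P) := by
    rw [Cfsg.Agent.S0160.result]
    refine (Nat.card_eq_of_bijective (fun q : P ⧸ frattini P => (⟨ConjClasses.mk q, ?_⟩ :
      {C : ConjClasses (P ⧸ frattini P) // ∀ g, ConjClasses.mk g = C → IsConj g g⁻¹})) ?_).symm
    · intro g _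
      rw [hQi]
    · constructor
      · intro a b hab
        have := congrArg Subtype.val hab
        simp only at this
        rw [ConjClasses.mk_eq_mk_iff_isConj, isConj_iff] at this
        obtain ⟨c, hc⟩ := this
        rw [hQc c a] at hc
        simpa using hc
      · rintro ⟨C, hC⟩
        obtain ⟨q, rfl⟩ := ConjClasses.exists_rep C
        exact ⟨q, rfl⟩
  have hfin : Finite (Cfsg.IrrCharacter P) := inferInstance
  have h2 : Nat.card {χ : Cfsg.IrrCharacter (P ⧸ frattini P) // ∀ g, ((χ : (P ⧸ frattini P) → ℂ) g).im = 0}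
      ≤ Nat.card {χ : Cfsg.IrrCharacter P // ∀ g, ((χ : P → ℂ) g).im = 0} := by
    refine Nat.card_le_card_of_injective (fun χ => ⟨⟨_, Cfsg.Agent.CharBase.isIrrCharacter_comp_surjective χ.1.2
      (QuotientGroup.mk' (frattini P)) (QuotientGroup.mk'_surjective _)⟩, ?_⟩) ?_
    · intro g
      exact χ.2 _
    · rintro ⟨⟨χ, hχ⟩, hχr⟩ ⟨⟨ψ, hψ⟩, hψr⟩ h
      have h' := congrArg (fun t => (t.1.1 : P → ℂ)) h
      simp only at h'
      have : χ = ψ := by
        funext q
        obtain ⟨x, rfl⟩ := QuotientGroup.mk'_surjective (frattini P) q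
        exact congrFun h' x
      subst this
      rfl
  have h3 := Cfsg.Agent.S0160.result (G := P)
  -- the number of real classes
  set T := {c : ConjClasses P // ∃ y : P, ConjClasses.mk y = c ∧ orderOf y = 2} with hT
  have h4 : Nat.card {C : ConjClasses P // ∀ g : P, ConjClasses.mk g = C → IsConj g g⁻¹} ≤ Nat.card (Option T) := by
    refine Nat.card_le_card_of_injective (fun C => if h : ∃ y : P, ConjClasses.mk y = C.1 ∧ orderOf y = 2 then
      some ⟨C.1, h⟩ else none) ?_
    have key : ∀ C : {C : ConjClasses P // ∀ g : P, ConjClasses.mk g = C → IsConj g g⁻¹},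
        ¬ (∃ y : P, ConjClasses.mk y = C.1 ∧ orderOf y = 2) → C.1 = ConjClasses.mk 1 := by
      rintro ⟨C, hC⟩ hn
      obtain ⟨y, rfl⟩ := ConjClasses.exists_rep C
      have h5 := sq_eq_one_of_real_of_irr hirr y (hC y rfl)
      have h6 : orderOf y ∣ 2 := orderOf_dvd_of_pow_eq_one h5
      rcases (Nat.dvd_prime Nat.prime_two).mp h6 with h7 | h7
      · rw [orderOf_eq_one_iff] at h7
        subst h7
        rfl
      · exact absurd ⟨y, rfl, h7⟩ hn
    intro C D hCD
    simp only at hCD
    split_ifs at hCD with ha hb hb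
    · exact Subtype.ext (congrArg (fun (t : T) => t.1) (Option.some.inj hCD))
    · exact Subtype.ext ((key C ha).trans (key D hb).symm)
  have h5 : Nat.card (Option T) = Nat.card T + 1 := Finite.card_option
  have h6 : Nat.card (Option T) ≤ Nat.card (Subgroup.closure {y : P | orderOf y = 2}) := by
    refine Nat.card_le_card_of_injective (fun o => match o with
      | none => 1
      | some c => ⟨c.2.choose, Subgroup.subset_closure c.2.choose_spec.2⟩) ?_
    intro a b hab
    rcases a with _ | a <;> rcases b with _ | b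
    · rfl
    · exfalso
      have := congrArg Subtype.val hab
      simp only [Subgroup.coe_one] at this
      have h7 := b.2.choose_spec.2
      rw [← this, orderOf_one] at h7
      exact absurd h7 (by norm_num)
    · exfalso
      have := congrArg Subtype.val hab
      simp only [Subgroup.coe_one] at this
      have h7 := a.2.choose_spec.2
      rw [this, orderOf_one] at h7
      exact absurd h7 (by norm_num)
    · have := congrArg Subtype.val hab
      simp only at this
      have h7 := a.2.choose_spec.1
      have h8 := b.2.choose_spec.1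
      rw [this, h8] at h7
      rw [Subtype.ext h7.symm]
  exact ⟨by omega, by omega⟩

end Cfsg.Agent.S4029
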