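import Cfsg.Statements.S4032
import Cfsg.Agent.H67.SZ

set_option autoImplicit false
open Cfsg

namespace Cfsg.Agent.S4032

/-- Let π be a set of primes and G a finite group in which N_G(⟨x⟩) = C_G(x) for every π-element x. If N is a normal subgroup of G whose order is divisible by no prime of π, then G/N has the same property: N_{G/N}(⟨y⟩) = C_{G/N}(y) for every π-element y of G/N. -/
theorem result {G : Type*} [Group G] [Finite G] (π : Set ℕ)
    (hirr : ∀ x : G, (∀ r : ℕ, r.Prime → r ∣ orderOf x → r ∈ π) →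
      Subgroup.normalizer ((Subgroup.zpowers x : Subgroup G) : Set G) ≤ Subgroup.centralizer {x})
    (N : Subgroup G) [N.Normal] (hN : ∀ r : ℕ, r.Prime → r ∣ Nat.card N → r ∉ π) :
    ∀ y : G ⧸ N, (∀ r : ℕ, r.Prime → r ∣ orderOf y → r ∈ π) →
      Subgroup.normalizer ((Subgroup.zpowers y : Subgroup (G ⧸ N)) : Set (G ⧸ N)) ≤ Subgroup.centralizer {y} := by
  intro y hy g hg
  have hcop : (orderOf y).Coprime (Nat.card N) := by
    apply Nat.coprime_of_dvd
    intro r hr h1 h2
    exact hN r hr h2 (hy r hr h1)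
  obtain ⟨x, hx, hxo⟩ := H67.exists_lift_orderOf_eq N y hcop
  obtain ⟨g₀, rfl⟩ := QuotientGroup.mk'_surjective N g
  have h1 : (Nat.card N).Coprime (Nat.card (Subgroup.zpowers x)) := by
    rw [Nat.card_zpowers, hxo]; exact hcop.symm
  have hs : Group.IsSolvable (Subgroup.zpowers x) := inferInstance
  have h2 : QuotientGroup.mk' N g₀ ∈ Subgroup.normalizer
      (((Subgroup.zpowers x).map (QuotientGroup.mk' N) : Subgroup (G ⧸ N)) : Set (G ⧸ N)) := by
    rw [MonoidHom.map_zpowers, hx]
    exact hg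
  obtain ⟨n, hn, h3⟩ := H67.exists_lift_normalizer N _ h1 hs g₀ h2
  have h4 := hirr x (fun r hr hd => hy r hr (hxo ▸ hd)) h3
  rw [Subgroup.mem_centralizer_singleton_iff] at h4 ⊢
  have h5 := congrArg (QuotientGroup.mk' N) h4
  simp only [map_mul, hx] at h5
  have h6 : QuotientGroup.mk' N n = 1 := (QuotientGroup.eq_one_iff n).mpr hn
  simpa [h6] using h5

end Cfsg.Agent.S4032
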