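import Cfsg.Statements.S4036

set_option autoImplicit false
open Cfsg

namespace Cfsg.Agent.S4036

/-- Let P be a finite abelian p-group and K a group of automorphisms of P (a subgroup of Aut P) whose order is divisible by p. If all non-identity elements of K have the same fixed-point subgroup on P, then K has no non-trivial normal subgroup of order prime to p. -/
theorem result {P : Type*} [CommGroup P] [Finite P] {p : ℕ}
    [Fact p.Prime] (hP : IsPGroup p P) (K : Subgroup (MulAut P)) (hK : p ∣ Nat.card K)
    (hfix : ∀ x y : MulAut P, x ∈ K → y ∈ K → x ≠ 1 → y ≠ 1 → ∀ v : P, x v = v ↔ y v = v) :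
    ∀ N : Subgroup ↥K, N.Normal → ¬ p ∣ Nat.card N → N = ⊥ := by
  classical
  intro N hNn hpN
  by_contra hNbot
  have hp : p.Prime := Fact.out
  haveI : Finite (MulAut P) := inferInstance
  haveI : Fintype N := Fintype.ofFinite _
  -- the norm map
  let nrm : P →* P :=
    { toFun := fun v => ∏ n : N, ((n : K) : MulAut P) v
      map_one' := by simp
      map_mul' := fun a b => by simp [Finset.prod_mul_distrib] }
  have hnrm : ∀ v, nrm v = ∏ n : N, ((n : K) : MulAut P) v := fun v => rfl
  have hequiv : ∀ (x : K) (v : P), nrm ((x : MulAut P) v) = (x : MulAut P) (nrm v) := by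
    intro x v
    rw [hnrm, hnrm, map_prod]
    refine Fintype.prod_equiv (MulAut.conjNormal x⁻¹).toEquiv _ _ fun n => ?_
    have : ((MulAut.conjNormal x⁻¹ n : N) : K) = x⁻¹ * n * x := by
      simp [MulAut.conjNormal_apply]
    show _ = (x : MulAut P) ((((MulAut.conjNormal x⁻¹ n : N) : K) : MulAut P) v)
    rw [this]
    simp
  have hinv : ∀ (m : N) (v : P), nrm (((m : K) : MulAut P) v) = nrm v := by
    intro m v
    rw [hnrm, hnrm]
    exact Fintype.prod_equiv (Equiv.mulRight m) _ _ fun n => by simp
  have hfixW : ∀ w : P, nrm w = 1 → (∀ m : N, ((m : K) : MulAut P) w = w) → w = 1 := by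
    intro w hw hm
    rw [hnrm] at hw
    have h1 : w ^ Nat.card N = 1 := by
      rw [← hw, Nat.card_eq_fintype_card]
      simp [hm]
    obtain ⟨k, hk⟩ := hP w
    have h2 : orderOf w ∣ Nat.card N := orderOf_dvd_of_pow_eq_one h1
    have h3 : orderOf w ∣ p ^ k := orderOf_dvd_of_pow_eq_one hk
    have h4 : Nat.Coprime (p ^ k) (Nat.card N) := Nat.Coprime.pow_left k ((Nat.Prime.coprime_iff_not_dvd hp).mpr hpN)
    have h5 : orderOf w = 1 := Nat.eq_one_of_dvd_coprimes h4 h3 h2
    exact orderOf_eq_one_iff.mp h5
  -- a nontrivial element of the kernel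
  obtain ⟨n, hn1⟩ : ∃ n : N, n ≠ 1 := by
    by_contra hcon
    push Not at hcon
    exact hNbot ((Subgroup.eq_bot_iff_forall N).mpr fun x hx => congrArg Subtype.val (hcon ⟨x, hx⟩))
  obtain ⟨v, hv⟩ : ∃ v : P, ((n : K) : MulAut P) v ≠ v := by
    by_contra hcon
    push Not at hcon
    apply hn1
    ext v
    exact hcon v
  -- element of order p
  obtain ⟨x, hx⟩ := exists_prime_orderOf_dvd_card' (G := K) p hK
  have hx1 : (x : MulAut P) ≠ 1 := by
    intro h
    have : x = 1 := by ext1; exact h
    rw [this, orderOf_one] at hx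
    exact hp.one_lt.ne hx
  let S : SubMulAction (Subgroup.zpowers x) P :=
    { carrier := {w | nrm w = 1}
      smul_mem' := fun c w hw => by
        show nrm (((c : K) : MulAut P) w) = 1
        rw [hequiv]
        rw [show nrm w = 1 from hw, map_one] }
  have hpx : IsPGroup p (Subgroup.zpowers x) := IsPGroup.of_card (n := 1) (by rw [Nat.card_zpowers, hx, pow_one])
  have hdvd : p ∣ Nat.card S := by
    have e : Nat.card S = Nat.card nrm.ker := rfl
    rw [e]
    have hker : IsPGroup p nrm.ker := hP.to_subgroup _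
    rcases hker.card_eq_or_dvd with h | h
    · exfalso
      have : nrm.ker = ⊥ := Subgroup.card_eq_one.mp h
      have hmem : ((n : K) : MulAut P) v * v⁻¹ ∈ nrm.ker := by
        rw [MonoidHom.mem_ker, map_mul, hinv, map_inv, mul_inv_cancel]
      rw [this, Subgroup.mem_bot, mul_inv_eq_one] at hmem
      exact hv hmem
    · exact h
  have hone : (⟨1, by show nrm 1 = 1; simp⟩ : S) ∈ MulAction.fixedPoints (Subgroup.zpowers x) S := by
    intro c
    ext
    show ((c : K) : MulAut P) 1 = 1
    simp
  obtain ⟨w, hw, hw1⟩ := hpx.exists_fixed_point_of_prime_dvd_card_of_fixed_point S hdvd hone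
  have hxw : (x : MulAut P) (w : P) = w := by
    have := hw ⟨x, Subgroup.mem_zpowers x⟩
    exact congrArg Subtype.val this
  have hw1' : (w : P) ≠ 1 := by
    intro h
    apply hw1
    ext
    exact h.symm
  apply hw1'
  apply hfixW w w.2
  intro m
  by_cases hm : ((m : K) : MulAut P) = 1
  · rw [hm]; rfl
  · exact (hfix x (m : K) x.2 (m : K).2 hx1 hm w).mp hxw

end Cfsg.Agent.S4036
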