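import Cfsg.Statements.S4040
import Cfsg.Agent.H67.NilOp

set_option autoImplicit false
open Cfsg

namespace Cfsg.Agent.S4040

/-- A finite group possessing a maximal subgroup that is nilpotent of odd order is solvable. -/
theorem result {G : Type*} [Group G] [Finite G]
    (M : Subgroup G) (hmax : IsCoatom M) (hnil : Group.IsNilpotent M) (hodd : Odd (Nat.card M)) :
    Group.IsSolvable G := by
  apply H67.NilTwo.isSolvable_of_nilpotent_coatom M hmax hnil
  have key : ∀ x ∈ M, (∃ k, x ^ 2 ^ k = 1) → x = 1 := by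
    rintro x hx ⟨k, hk⟩
    have h1 : orderOf x ∣ 2 ^ k := orderOf_dvd_of_pow_eq_one hk
    have h2 : orderOf x ∣ Nat.card M := by
      have := orderOf_dvd_natCard (⟨x, hx⟩ : M)
      rwa [Subgroup.orderOf_mk] at this
    have h3 := Nat.dvd_gcd h1 h2
    rw [(Nat.coprime_two_left.2 hodd).pow_left k, Nat.dvd_one, orderOf_eq_one_iff] at h3
    exact h3
  intro x hx y hy z hz h1 _ _
  rw [key x hx h1]
  group

end Cfsg.Agent.S4040
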