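import Cfsg.Statements.S4043
import Cfsg.Agent.H67.SZ

set_option autoImplicit false
open Cfsg

namespace Cfsg.Agent.S4043

open Pointwise in
/-- If `A` complements the normal `p`-subgroup `N` and `K` is a normal `p`-complement of `A`, then
`N ⊔ K` contains every subgroup of order prime to `p`. -/
theorem le_sup_of_complement {G : Type*} [Group G] [Finite G] {p : ℕ} [Fact p.Prime] (N : Subgroup G)
    [N.Normal] (A : Subgroup G) (hA : A.IsComplement' N) (K : Subgroup G) (hKA : K ≤ A)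
    (hKn : A ≤ Subgroup.normalizer (K : Set G)) (hKp : ∃ k, K.relIndex A = p ^ k)
    (H : Subgroup G) (hH : ¬ p ∣ Nat.card H) : H ≤ N ⊔ K := by
  have hp : p.Prime := Fact.out
  have hn : (N ⊔ K).Normal := by
    rw [← Subgroup.normalizer_eq_top_iff, eq_top_iff, ← hA.sup_eq_top]
    apply sup_le
    · intro a ha
      rw [Subgroup.mem_normalizer_iff_map_conj_eq]
      have h1 : K.map (MulAut.conj a : G →* G) = K := Subgroup.mem_normalizer_iff_map_conj_eq.mp (hKn ha)
      have h2 : N.map (MulAut.conj a : G →* G) = N :=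
        Subgroup.mem_normalizer_iff_map_conj_eq.mp (by rw [Subgroup.normalizer_eq_top]; trivial)
      rw [Subgroup.map_sup, h1, h2]
    · exact le_sup_left.trans Subgroup.le_normalizer
  have hidx : ∃ k, (N ⊔ K).index = p ^ k := by
    obtain ⟨k, hk⟩ := hKp
    have h1 : (N ⊔ K).index ∣ p ^ k := by
      rw [← hk]
      have h2 : (N ⊔ K) ⊔ A = ⊤ := by
        rw [eq_top_iff, ← hA.sup_eq_top]
        exact sup_le le_sup_right (le_sup_left.trans le_sup_left)
      have h3 : (N ⊔ K).relIndex ((N ⊔ K) ⊔ A) = (N ⊔ K).relIndex A := Subgroup.relIndex_sup_left A (N ⊔ K)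
      rw [h2, Subgroup.relIndex_top_right] at h3
      rw [h3]
      exact Subgroup.relIndex_dvd_of_le_left A le_sup_right
    obtain ⟨j, -, hj⟩ := (Nat.dvd_prime_pow hp).mp h1
    exact ⟨j, hj⟩
  intro x hx
  rw [← QuotientGroup.eq_one_iff (N := N ⊔ K), ← orderOf_eq_one_iff]
  obtain ⟨k, hk⟩ := hidx
  have h1 : orderOf (x : G ⧸ (N ⊔ K)) ∣ p ^ k := by
    rw [← hk, Subgroup.index_eq_card]; exact orderOf_dvd_natCard _
  have h2 : orderOf (x : G ⧸ (N ⊔ K)) ∣ Nat.card H :=
    (orderOf_map_dvd (QuotientGroup.mk' (N ⊔ K)) x).trans (by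
      have := orderOf_dvd_natCard (⟨x, hx⟩ : H)
      rwa [← Subgroup.orderOf_coe] at this)
  exact Nat.eq_one_of_dvd_coprimes (Nat.Coprime.pow_left k ((Nat.Prime.coprime_iff_not_dvd hp).mpr hH)) h1 h2

/-- data extracted from `HasNormalPComplement p A` in the ambient group -/
theorem exists_complement_data {G : Type*} [Group G] [Finite G] {p : ℕ} [Fact p.Prime]
    (A : Subgroup G) (hA : Cfsg.HasNormalPComplement p A) :
    ∃ K T : Subgroup G, K ≤ A ∧ T ≤ A ∧ A ≤ Subgroup.normalizer (K : Set G) ∧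
      (∃ k, K.relIndex A = p ^ k) ∧ ¬ p ∣ Nat.card K ∧ IsPGroup p T ∧ A ≤ K ⊔ T := by
  obtain ⟨P, K, hKn, hKP⟩ := hA
  refine ⟨K.map A.subtype, (P : Subgroup A).map A.subtype, Subgroup.map_subtype_le K,
    Subgroup.map_subtype_le _, ?_, ?_, ?_, P.2.map _, ?_⟩
  · have := Subgroup.normalizer_eq_top K
    intro a ha
    rw [Subgroup.mem_normalizer_iff]
    intro h
    constructor
    · rintro ⟨k, hk, rfl⟩
      exact ⟨⟨a, ha⟩ * k * ⟨a, ha⟩⁻¹, hKn.conj_mem k hk ⟨a, ha⟩, rfl⟩
    · rintro ⟨k, hk, hk'⟩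
      refine ⟨⟨a, ha⟩⁻¹ * k * ⟨a, ha⟩, ?_, ?_⟩
      · have := hKn.conj_mem k hk ⟨a, ha⟩⁻¹
        rwa [inv_inv] at this
      · have e : A.subtype (⟨a, ha⟩⁻¹ * k * ⟨a, ha⟩) = a⁻¹ * (A.subtype k) * a := rfl
        rw [e, hk']; group
  · obtain ⟨k, hk⟩ := IsPGroup.iff_card.mp P.2
    refine ⟨k, ?_⟩
    have h1 : (K.map A.subtype).relIndex A = K.index := by
      rw [Subgroup.relIndex, Subgroup.subgroupOf, Subgroup.comap_map_eq_self_of_injective A.subtype_injective]
    rw [h1, hKP.symm.index_eq_card]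
    exact hk
  · rw [Subgroup.card_map_of_injective A.subtype_injective, ← hKP.index_eq_card]
    exact P.not_dvd_index
  · intro a ha
    have h1 : (⟨a, ha⟩ : A) ∈ K ⊔ (P : Subgroup A) := by rw [hKP.sup_eq_top]; trivial
    have h2 : a ∈ (K ⊔ (P : Subgroup A)).map A.subtype := ⟨⟨a, ha⟩, h1, rfl⟩
    rwa [Subgroup.map_sup] at h2

/-- Let G be a finite group that is the semidirect product of a normal p-subgroup N by a subgroup A, and also of N by a subgroup A₁, where p is a prime and A and A₁ both have normal p-complements. If C_N(A) = C_N(A₁) = 1, then A₁ is conjugate to A by an element of N. -/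
theorem result {G : Type*} [Group G] [Finite G] {p : ℕ}
    [Fact p.Prime] (N : Subgroup G) [N.Normal] (hN : IsPGroup p N) (A A₁ : Subgroup G)
    (hA : A.IsComplement' N) (hA₁ : A₁.IsComplement' N)
    (hAp : Cfsg.HasNormalPComplement p A) (hA₁p : Cfsg.HasNormalPComplement p A₁)
    (hC : ∀ n : G, n ∈ N → (∀ a : G, a ∈ A → a * n * a⁻¹ = n) → n = 1)
    (hC₁ : ∀ n : G, n ∈ N → (∀ a : G, a ∈ A₁ → a * n * a⁻¹ = n) → n = 1) :
    ∃ n : G, n ∈ N ∧ A₁ = A.map (MulAut.conj n).toMonoidHom := by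
  classical
  have hp : p.Prime := Fact.out
  obtain ⟨K, T, hKA, hTA, hKn, hKp, hKp', hT, hAKT⟩ := exists_complement_data A hAp
  obtain ⟨K₁, T₁, hKA₁, hTA₁, hKn₁, hKp₁, hKp₁', hT₁, hAKT₁⟩ := exists_complement_data A₁ hA₁p
  have hsup : N ⊔ K = N ⊔ K₁ := by
    apply le_antisymm
    · exact sup_le le_sup_left (le_sup_of_complement N A₁ hA₁ K₁ hKA₁ hKn₁ hKp₁ K hKp')
    · exact sup_le le_sup_left (le_sup_of_complement N A hA K hKA hKn hKp K₁ hKp₁')
  obtain ⟨c, hc⟩ := IsPGroup.iff_card.mp hN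
  have hcop : ∀ H : Subgroup G, ¬ p ∣ Nat.card H → (Nat.card N).Coprime (Nat.card H) := by
    intro H hH
    rw [hc]
    exact Nat.Coprime.pow_left c ((Nat.Prime.coprime_iff_not_dvd hp).mpr hH)
  have hNs : Group.IsSolvable N := by
    have := hN.isNilpotent
    infer_instance
  obtain ⟨n, hn, hnK⟩ := H67.conj_of_sup_eq' N K K₁ (hcop K hKp') (hcop K₁ hKp₁') hNs hsup
  refine ⟨n, hn, ?_⟩
  set L := Subgroup.normalizer (K₁ : Set G) with hL
  have hinf : N ⊓ L = ⊥ := by
    by_contra hne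
    have hpg : IsPGroup p (N ⊓ L : Subgroup G) := hN.to_inf_left
    have hcent : ∀ v ∈ N ⊓ L, ∀ k ∈ K₁, k * v * k⁻¹ = v := by
      intro v hv k hk
      have h1 : v⁻¹ * k * v * k⁻¹ ∈ K₁ := by
        apply K₁.mul_mem _ (K₁.inv_mem hk)
        have h2 := (Subgroup.mem_normalizer_iff''.mp hv.2 k).mp hk
        exact h2
      have h2 : v⁻¹ * k * v * k⁻¹ ∈ N := by
        have e : v⁻¹ * k * v * k⁻¹ = v⁻¹ * (k * v * k⁻¹) := by group
        rw [e]
        exact N.mul_mem (N.inv_mem hv.1) (Subgroup.Normal.conj_mem inferInstance v hv.1 k)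
      have h3 : v⁻¹ * k * v * k⁻¹ = 1 := by
        have := (hA₁.disjoint).le_bot (⟨hKA₁ h1, h2⟩ : v⁻¹ * k * v * k⁻¹ ∈ A₁ ⊓ N)
        exact Subgroup.mem_bot.mp this
      have e : v⁻¹ * k * v * k⁻¹ = v⁻¹ * (k * v * k⁻¹) := by group
      rw [e, inv_mul_eq_one] at h3
      exact h3.symm
    have hTn : T₁ ≤ Subgroup.normalizer ((N ⊓ L : Subgroup G) : Set G) := by
      intro t ht
      have htL : t ∈ L := hKn₁ (hTA₁ ht)
      rw [Subgroup.mem_normalizer_iff]
      intro h
      constructor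
      · rintro ⟨h1, h2⟩
        exact ⟨Subgroup.Normal.conj_mem inferInstance h h1 t, L.mul_mem (L.mul_mem htL h2) (L.inv_mem htL)⟩
      · rintro ⟨h1, h2⟩
        constructor
        · have := Subgroup.Normal.conj_mem (H := N) inferInstance _ h1 t⁻¹
          have e : t⁻¹ * (t * h * t⁻¹) * t⁻¹⁻¹ = h := by group
          rwa [e] at this
        · have := L.mul_mem (L.mul_mem (L.inv_mem htL) h2) htL
          have e : t⁻¹ * (t * h * t⁻¹) * t = h := by group
          rwa [e] at this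
    obtain ⟨v, hv, hv1, hvT⟩ := H67.exists_fixed_of_pgroup T₁ (N ⊓ L) hT₁ hpg hne hTn
    apply hv1
    apply hC₁ v hv.1
    intro a ha
    have hcv : K₁ ⊔ T₁ ≤ Subgroup.centralizer ({v} : Set G) := by
      apply sup_le
      · intro k hk
        rw [Subgroup.mem_centralizer_singleton_iff, ← mul_inv_eq_iff_eq_mul]
        exact hcent v hv k hk
      · intro t ht
        rw [Subgroup.mem_centralizer_singleton_iff, ← mul_inv_eq_iff_eq_mul]
        exact hvT t ht
    have := hcv (hAKT₁ ha)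
    rwa [Subgroup.mem_centralizer_singleton_iff, ← mul_inv_eq_iff_eq_mul] at this
  -- L = A₁
  have hcardL : ∀ B : Subgroup G, B ≤ L → B.IsComplement' N → B = L := by
    intro B hBL hB
    apply le_antisymm hBL
    intro l hl
    obtain ⟨⟨b, m⟩, hbm⟩ := (hB : Subgroup.IsComplement _ _).2 l
    have hbm' : (b : G) * m = l := hbm
    have hmL : (m : G) ∈ N ⊓ L := by
      refine ⟨m.2, ?_⟩
      have : (m : G) = (b : G)⁻¹ * l := by rw [← hbm']; group
      rw [this]
      exact L.mul_mem (L.inv_mem (hBL b.2)) hl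
    rw [hinf, Subgroup.mem_bot] at hmL
    rw [← hbm', hmL, mul_one]
    exact b.2
  have h1 : A₁ = L := hcardL A₁ hKn₁ hA₁
  have h2 : A.map (MulAut.conj n).toMonoidHom = L := by
    apply hcardL
    · rintro _ ⟨a, ha, rfl⟩
      rw [hL, Subgroup.mem_normalizer_iff_map_conj_eq]
      have hK : K.map (MulAut.conj n : G →* G) = K₁ := hnK
      rw [← hK, Subgroup.map_map]
      have ha' : K.map (MulAut.conj a : G →* G) = K := Subgroup.mem_normalizer_iff_map_conj_eq.mp (hKn ha)
      conv_rhs => rw [← ha', Subgroup.map_map]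
      congr 1
      ext x
      simp [mul_assoc]
    · have hinv : N.map (MulAut.conj n).toMonoidHom = N :=
        Subgroup.mem_normalizer_iff_map_conj_eq.mp (by rw [Subgroup.normalizer_eq_top]; trivial)
      rw [Subgroup.isComplement'_iff_card_mul_and_disjoint]
      constructor
      · rw [Subgroup.card_map_of_injective (MulAut.conj n).injective]
        exact hA.card_mul_card
      · rw [← hinv]
        exact Subgroup.disjoint_map (MulAut.conj n).injective hA.disjoint
  rw [h2, h1]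

end Cfsg.Agent.S4043
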