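import Cfsg.Statements.S4049
import Cfsg.Agent.H67.OddReal

set_option autoImplicit false
open Cfsg

namespace Cfsg.Agent.S4049

/-- Let G be a finite group such that N_G(H)/C_G(H) has odd order for every nontrivial subgroup H of odd order. Then the Sylow 2-subgroups of G are normal. -/
theorem result {G : Type*} [Group G] [Finite G]
    (hhom : ∀ H : Subgroup G, H ≠ ⊥ → ¬ 2 ∣ Nat.card ↥H →
        ¬ 2 ∣ (Subgroup.centralizer (H : Set G)).relIndex (Subgroup.normalizer (H : Set G))) (P : Sylow 2 G) :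
    (P : Subgroup G).Normal := by
  apply Cfsg.Agent.H67.sylow_two_normal_of_no_odd_real
  intro x g hx hg
  by_contra hx1
  have hodd : ¬ 2 ∣ Nat.card ↥(Subgroup.zpowers x) := by
    rw [Nat.card_zpowers]
    intro h
    exact (Nat.not_even_iff_odd.mpr hx) (even_iff_two_dvd.mpr h)
  have hgN : g ∈ Subgroup.normalizer ((Subgroup.zpowers x : Subgroup G) : Set G) := by
    rw [Cfsg.Agent.H67.mem_normalizer_zpowers_iff, hg]
    exact inv_mem (Subgroup.mem_zpowers _)
  have hxx : x⁻¹ ≠ x := by
    intro h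
    have h3 : x ^ 2 = 1 := by
      rw [pow_two]
      nth_rewrite 1 [← h]
      simp
    have h4 : orderOf x ∣ 2 := orderOf_dvd_of_pow_eq_one h3
    rcases (Nat.dvd_prime Nat.prime_two).mp h4 with h5 | h5
    · exact hx1 (orderOf_eq_one_iff.mp h5)
    · rw [h5] at hx
      exact absurd hx (by decide)
  apply hhom (Subgroup.zpowers x) (by simpa using hx1) hodd
  have hC : ∀ y : G, y ∈ Subgroup.centralizer ((Subgroup.zpowers x : Subgroup G) : Set G) ↔ y * x * y⁻¹ = x := by
    intro y
    rw [Subgroup.zpowers_eq_closure, Subgroup.centralizer_closure, Subgroup.mem_centralizer_singleton_iff]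
    rw [mul_inv_eq_iff_eq_mul]
  let E : Subgroup G :=
    { carrier := {y | y * x * y⁻¹ = x ∨ y * x * y⁻¹ = x⁻¹}
      one_mem' := by simp
      mul_mem' := by
        intro a b ha hb
        have e : a * b * x * (a * b)⁻¹ = a * (b * x * b⁻¹) * a⁻¹ := by group
        have e2 : a * x⁻¹ * a⁻¹ = (a * x * a⁻¹)⁻¹ := by group
        simp only [Set.mem_ofPred_eq] at ha hb ⊢
        rw [e]
        rcases hb with hb | hb <;> rw [hb] <;> rcases ha with ha | ha
        · left; exact ha
        · right; exact ha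
        · right; rw [e2, ha]
        · left; rw [e2, ha, inv_inv]
      inv_mem' := by
        intro a ha
        simp only [Set.mem_ofPred_eq] at ha ⊢
        rcases ha with ha | ha
        · left
          rw [inv_inv]
          calc a⁻¹ * x * a = a⁻¹ * (a * x * a⁻¹) * a := by rw [ha]
            _ = x := by group
        · right
          rw [inv_inv]
          calc a⁻¹ * x * a = (a⁻¹ * x⁻¹ * a)⁻¹ := by group
            _ = (a⁻¹ * (a * x * a⁻¹) * a)⁻¹ := by rw [ha]
            _ = x⁻¹ := by group }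
  have hE : ∀ y, y ∈ E ↔ (y * x * y⁻¹ = x ∨ y * x * y⁻¹ = x⁻¹) := fun y => Iff.rfl
  have h2 : (Subgroup.centralizer ((Subgroup.zpowers x : Subgroup G) : Set G)).relIndex E = 2 := by
    rw [Subgroup.relIndex_eq_two_iff]
    refine ⟨g, (hE g).mpr (Or.inr hg), fun b hb => ?_⟩
    have e : b * g * x * (b * g)⁻¹ = b * (g * x * g⁻¹) * b⁻¹ := by group
    have e2 : b * x⁻¹ * b⁻¹ = (b * x * b⁻¹)⁻¹ := by group
    rw [hC, hC, e, hg, e2]
    rcases (hE b).mp hb with hb | hb
    · rw [hb]
      right
      exact ⟨rfl, hxx⟩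
    · rw [hb, inv_inv]
      left
      exact ⟨rfl, hxx⟩
  have hCE : Subgroup.centralizer ((Subgroup.zpowers x : Subgroup G) : Set G) ≤ E :=
    fun y hy => (hE y).mpr (Or.inl ((hC y).mp hy))
  have hEN : E ≤ Subgroup.normalizer ((Subgroup.zpowers x : Subgroup G) : Set G) := by
    intro y hy
    rw [Cfsg.Agent.H67.mem_normalizer_zpowers_iff]
    rcases (hE y).mp hy with h | h <;> rw [h]
    · exact Subgroup.mem_zpowers _
    · exact inv_mem (Subgroup.mem_zpowers _)
  rw [← Subgroup.relIndex_mul_relIndex _ _ _ hCE hEN, h2]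
  exact dvd_mul_right _ _

end Cfsg.Agent.S4049
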