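import Cfsg.Statements.S4050
import Cfsg.Agent.H67.PiClosed

set_option autoImplicit false
open Cfsg

namespace Cfsg.Agent.S4050

open H67 in
theorem piClosed_of_piNum {X : Type*} [Group X] [Finite X] {π : Set ℕ}
    (h : (∀ q : ℕ, q.Prime → q ∣ Nat.card X → q ∈ π) ∨ (∀ q : ℕ, q.Prime → q ∣ Nat.card X → q ∉ π)) :
    PiClosed π X := by
  rcases h with h | h
  · refine ⟨⊤, fun x => ⟨fun _ p hp hd => h p hp (hd.trans (orderOf_dvd_natCard x)), fun _ => trivial⟩⟩
  · refine ⟨⊥, fun x => ⟨?_, ?_⟩⟩
    · intro hx p hp hd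
      rw [Subgroup.mem_bot] at hx
      rw [hx, orderOf_one] at hd
      exact absurd (Nat.dvd_one.mp hd) hp.one_lt.ne'
    · intro hx
      rw [Subgroup.mem_bot, ← orderOf_eq_one_iff]
      by_contra hne
      obtain ⟨q, hq, hd⟩ := Nat.exists_prime_and_dvd hne
      exact h q hq (hd.trans (orderOf_dvd_natCard x)) (hx q hq hd)

open H67 in
theorem homogeneous_subgroup {G : Type*} [Group G] [Finite G] {π : Set ℕ}
    (h : PiPrimeHomogeneous π G) (M : Subgroup G) : PiPrimeHomogeneous π M := by
  intro H hH hcard p hp hd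
  have h1 : H.map M.subtype ≠ ⊥ := by
    intro h2
    rw [Subgroup.map_eq_bot_iff_of_injective _ M.subtype_injective] at h2
    exact hH h2
  have h2 := h (H.map M.subtype) h1 (by
    intro q hq hqd
    rw [Subgroup.card_map_of_injective M.subtype_injective] at hqd
    exact hcard q hq hqd) p hp
  apply h2
  set C := Subgroup.centralizer ((H.map M.subtype : Subgroup G) : Set G) with hC
  set N := Subgroup.normalizer ((H.map M.subtype : Subgroup G) : Set G) with hN
  have hC' : Subgroup.centralizer (H : Set M) = C.comap M.subtype := by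
    ext x
    rw [Subgroup.mem_comap, hC, Subgroup.mem_centralizer_iff, Subgroup.mem_centralizer_iff]
    constructor
    · rintro hx _ ⟨y, hy, rfl⟩
      exact congrArg Subtype.val (hx y hy)
    · intro hx y hy
      exact Subtype.ext (hx _ ⟨y, hy, rfl⟩)
  have hN' : Subgroup.normalizer (H : Set M) = N.comap M.subtype := by
    ext x
    rw [Subgroup.mem_comap, hN, Subgroup.mem_normalizer_iff_map_conj_eq, Subgroup.mem_normalizer_iff_map_conj_eq]
    have e : (H.map M.subtype).map (MulAut.conj (M.subtype x) : G →* G) =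
        (H.map (MulAut.conj x : M →* M)).map M.subtype := by
      rw [Subgroup.map_map, Subgroup.map_map]
      congr 1
    rw [e]
    constructor
    · intro hx; rw [hx]
    · intro hx; exact Subgroup.map_injective M.subtype_injective hx
  rw [hC', hN', Subgroup.relIndex_comap] at hd
  refine hd.trans ?_
  have h3 : (N.comap M.subtype).map M.subtype = N ⊓ M := Subgroup.subgroupOf_map_subtype N M
  rw [h3]
  have h4 : C.relIndex (N ⊓ M) = (C.subgroupOf N).relIndex (M.subgroupOf N) := by
    rw [Subgroup.subgroupOf, Subgroup.relIndex_comap]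
    have h5 : (M.subgroupOf N).map N.subtype = M ⊓ N := Subgroup.subgroupOf_map_subtype M N
    rw [h5, inf_comm]
  rw [h4]
  exact Subgroup.relIndex_dvd_index_of_normal _ _

/-- Let π be a set of primes and G a finite group. The π-elements of G (elements whose order is divisible only by primes of π) form a subgroup if and only if G is π-separable (it has a chain of normal subgroups from 1 to G with each successive index divisible only by primes in π or only by primes outside π) and N_G(H)/C_G(H) is a π'-group for every nontrivial π'-subgroup H of G. -/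
theorem result {G : Type*} [Group G] [Finite G] (π : Set ℕ)
    (hπ : ∀ p ∈ π, p.Prime) :
    (∃ K : Subgroup G, ∀ x : G, x ∈ K ↔ ∀ p : ℕ, p.Prime → p ∣ orderOf x → p ∈ π) ↔
    ((∃ (n : ℕ) (H : Fin (n + 1) → Subgroup G), H 0 = ⊥ ∧ H (Fin.last n) = ⊤ ∧ Monotone H ∧ (∀ i, (H i).Normal) ∧
      ∀ i : Fin n, (∀ q : ℕ, q.Prime → q ∣ (H i.castSucc).relIndex (H i.succ) → q ∈ π) ∨
        (∀ q : ℕ, q.Prime → q ∣ (H i.castSucc).relIndex (H i.succ) → q ∉ π)) ∧
     (∀ H : Subgroup G, H ≠ ⊥ → (∀ p : ℕ, p.Prime → p ∣ Nat.card ↥H → p ∉ π) →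
        ∀ p : ℕ, p.Prime → p ∣ (Subgroup.centralizer (H : Set G)).relIndex (Subgroup.normalizer (H : Set G)) → p ∉ π)) := by
  constructor
  · rintro ⟨K, hK⟩
    have hsyl : ∀ {X : Type _} [Group X] [Finite X] (p : ℕ) (_ : Fact p.Prime) (P : Sylow p X) (x : X), p ∈ π → x ∈ (P : Subgroup X) →
        H67.PiElem π x := by
      intro X _ _ p hp P x hpπ hx q hq hd
      obtain ⟨k, hk⟩ := IsPGroup.iff_orderOf.mp P.2 ⟨x, hx⟩
      rw [← Subgroup.orderOf_coe] at hk
      have hk' : orderOf x = p ^ k := hk
      rw [hk'] at hd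
      rw [(Nat.prime_dvd_prime_iff_eq hq hp.out).mp (hq.dvd_of_dvd_pow hd)]
      exact hpπ
    have hKn : K.Normal := by
      constructor
      intro x hx g
      rw [hK] at hx ⊢
      intro p hp hd
      exact hx p hp (by rwa [H67.orderOf_conj_eq] at hd)
    have hKcard : ∀ q : ℕ, q.Prime → q ∣ Nat.card K → q ∈ π := by
      intro p hp hd
      have : Fact p.Prime := ⟨hp⟩
      obtain ⟨y, hy⟩ := exists_prime_orderOf_dvd_card' (G := K) p hd
      exact (hK y).mp y.2 p hp (by rw [Subgroup.orderOf_coe, hy])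
    have hKidx : ∀ q : ℕ, q.Prime → q ∣ K.index → q ∉ π := by
      intro q hq hd hqπ
      have : Fact q.Prime := ⟨hq⟩
      have P : Sylow q G := Classical.arbitrary _
      apply P.not_dvd_index
      exact hd.trans (Subgroup.index_dvd_of_le fun x hx => (hK x).mpr (hsyl q this P x hqπ hx))
    refine ⟨⟨2, ![⊥, K, ⊤], rfl, rfl, ?_, ?_, ?_⟩, ?_⟩
    · intro i j hij
      fin_cases i <;> fin_cases j <;> simp at hij ⊢
    · intro i
      fin_cases i
      · exact (inferInstance : (⊥ : Subgroup G).Normal)
      · exact hKn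
      · exact (inferInstance : (⊤ : Subgroup G).Normal)
    · intro i
      fin_cases i
      · left
        intro q hq hd
        have hd' : q ∣ (⊥ : Subgroup G).relIndex K := hd
        rw [Subgroup.relIndex_bot_left] at hd'
        exact hKcard q hq hd'
      · right
        intro q hq hd
        have hd' : q ∣ K.relIndex ⊤ := hd
        rw [Subgroup.relIndex_top_right] at hd'
        exact hKidx q hq hd'
    · intro H hH hcard p hp hd hpπ
      have hfp : Fact p.Prime := ⟨hp⟩
      set N := Subgroup.normalizer (H : Set G) with hN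
      set C := Subgroup.centralizer (H : Set G) with hC
      have P : Sylow p N := Classical.arbitrary _
      apply P.not_dvd_index
      refine hd.trans (Subgroup.index_dvd_of_le ?_)
      intro x hx
      rw [Subgroup.mem_subgroupOf, hC, Subgroup.mem_centralizer_iff]
      intro h hh
      have hxK : (x : G) ∈ K := by
        rw [hK]
        intro q hq hqd
        exact hsyl p hfp P x hpπ hx q hq (by rwa [Subgroup.orderOf_coe] at hqd)
      have h1 : (x : G) * h * (x : G)⁻¹ * h⁻¹ ∈ H :=
        H.mul_mem ((Subgroup.mem_normalizer_iff.mp x.2 h).mp hh) (H.inv_mem hh)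
      have h2 : (x : G) * h * (x : G)⁻¹ * h⁻¹ ∈ K := by
        have e : (x : G) * h * (x : G)⁻¹ * h⁻¹ = x * (h * (x : G)⁻¹ * h⁻¹) := by group
        rw [e]
        exact K.mul_mem hxK (hKn.conj_mem _ (K.inv_mem hxK) h)
      have h3 : (x : G) * h * (x : G)⁻¹ * h⁻¹ = 1 := by
        rw [← orderOf_eq_one_iff]
        by_contra hne
        obtain ⟨q, hq, hqd⟩ := Nat.exists_prime_and_dvd hne
        have h4 : q ∈ π := (hK _).mp h2 q hq hqd
        refine hcard q hq (hqd.trans ?_) h4
        have := orderOf_dvd_natCard (⟨_, h1⟩ : H)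
        rwa [← Subgroup.orderOf_coe] at this
      rw [mul_inv_eq_one, mul_inv_eq_iff_eq_mul] at h3
      exact h3.symm
  · rintro ⟨⟨n, H, h0, hlast, hmono, hnorm, hstep⟩, hhom⟩
    have key : ∀ i : ℕ, ∀ hi : i < n + 1, H67.PiClosed π (H ⟨i, hi⟩) := by
      intro i
      induction i with
      | zero =>
        intro hi
        have e : H ⟨0, hi⟩ = ⊥ := h0
        rw [e]
        apply piClosed_of_piNum
        left
        intro q hq hd
        rw [Subgroup.card_bot] at hd
        exact absurd (Nat.dvd_one.mp hd) hq.one_lt.ne'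
      | succ i ih =>
        intro hi
        have hi' : i < n + 1 := by omega
        have hin : i < n := by omega
        have ih' := ih hi'
        have hle : H ⟨i, hi'⟩ ≤ H ⟨i + 1, hi⟩ := hmono (by simp [Fin.le_def])
        have hst := hstep ⟨i, hin⟩
        have hn1 := hnorm ⟨i, hi'⟩
        have e1 : (H (Fin.castSucc ⟨i, hin⟩)).relIndex (H (Fin.succ ⟨i, hin⟩)) =
            Nat.card (H ⟨i + 1, hi⟩ ⧸ (H ⟨i, hi'⟩).subgroupOf (H ⟨i + 1, hi⟩)) := rfl
        rw [e1] at hst
        refine H67.piClosed_extension π (homogeneous_subgroup hhom (H ⟨i + 1, hi⟩))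
          ((H ⟨i, hi'⟩).subgroupOf (H ⟨i + 1, hi⟩)) ?_ ?_
        · exact H67.piClosed_of_mulEquiv (Subgroup.subgroupOfEquivOfLe hle).symm ih'
        · exact piClosed_of_piNum hst
    have h1 := key n (by omega)
    have e : H ⟨n, by omega⟩ = ⊤ := hlast
    rw [e] at h1
    exact H67.piClosed_of_mulEquiv Subgroup.topEquiv h1

end Cfsg.Agent.S4050
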