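import Cfsg.Statements.S4052
import Cfsg.Agent.H29.DPi
import Cfsg.Agent.S0877
-- import your own Cfsg.Agent.* helpers here

set_option autoImplicit false
open Cfsg

namespace Cfsg.Agent.S4052

/-- Let π be a set of primes and G a finite group whose maximal π-subgroups are pairwise conjugate (so Hall π-subgroups exist, any two are conjugate, and every π-subgroup lies in one of them), and suppose N_G(H)/C_G(H) is a π-group for every nontrivial π-subgroup H. If either 3 does not divide the order of G, or the π'-elements of every proper subgroup of G form a subgroup, then the π'-elements of G form a subgroup. -/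
theorem result {G : Type*} [Group G] [Finite G] (π : Set ℕ)
    (hπ : ∀ p ∈ π, p.Prime) (hD : Cfsg.IsDPiGroup π G) (hhom : (∀ H : Subgroup G, H ≠ ⊥ → (∀ p : ℕ, p.Prime → p ∣ Nat.card ↥H → p ∈ π) →
        ∀ p : ℕ, p.Prime → p ∣ (Subgroup.centralizer (H : Set G)).relIndex (Subgroup.normalizer (H : Set G)) → p ∈ π))
    (hcase : ¬ 3 ∣ Nat.card G ∨ ∀ M : Subgroup G, M ≠ ⊤ →
      ∃ L : Subgroup ↥M, ∀ x : ↥M, x ∈ L ↔ ∀ p : ℕ, p.Prime → p ∣ orderOf x → p ∉ π) :
    (∃ K : Subgroup G, ∀ x : G, x ∈ K ↔ ∀ p : ℕ, p.Prime → p ∣ orderOf x → p ∉ π) := by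
  obtain ⟨H, hH⟩ := H29.DPi.dh_of hD
  have hE := H29.DPi.homE_of hhom
  have hcop : Nat.Coprime (Nat.card H) H.index := by
    rw [Nat.coprime_iff_gcd_eq_one]
    by_contra hne
    obtain ⟨p, hp, hpd⟩ := Nat.exists_prime_and_dvd hne
    exact hH.not_dvd_index hp (hH.pi p hp (hpd.trans (Nat.gcd_dvd_left _ _))) (hpd.trans (Nat.gcd_dvd_right _ _))
  obtain ⟨K, hK, hKH, hKH'⟩ := Cfsg.Agent.S0877.result H hcop
    (fun x hx y hy hxy => H29.DPi.fusion_el _ G π H hH hE x hx rfl y hy hxy)
    (fun E p hp _ hEd => by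
      have hpi : Cfsg.IsPiSubgroup π E := fun q hq hd => hH.pi q hq (hd.trans hEd)
      exact hH.emb E hpi)
  haveI := hK
  have hcomp : Subgroup.IsComplement' K H :=
    Subgroup.isComplement'_of_disjoint_and_mul_eq_univ (disjoint_iff.mpr hKH') (by
      rw [← Subgroup.coe_mul_of_right_le_normalizer_left K H (by rw [Subgroup.normalizer_eq_top_iff.mpr hK]; exact le_top), hKH]
      rfl)
  have hcK : Nat.card K = H.index := by
    have e1 := hcomp.card_mul
    have e2 := H.card_mul_index
    rw [← e2, mul_comm] at e1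
    exact Nat.eq_of_mul_eq_mul_left Nat.card_pos e1
  refine ⟨K, fun x => ⟨?_, ?_⟩⟩
  · intro hx p hp hpd hpπ
    apply hH.not_dvd_index hp hpπ
    rw [← hcK]
    refine hpd.trans ?_
    rw [← Subgroup.orderOf_mk x hx]
    exact orderOf_dvd_natCard _
  · intro hx
    have h1 : orderOf (QuotientGroup.mk x : G ⧸ K) = 1 := by
      by_contra hne
      obtain ⟨p, hp, hpd⟩ := Nat.exists_prime_and_dvd hne
      refine hx p hp (hpd.trans (orderOf_map_dvd (QuotientGroup.mk' K) x)) (hH.pi p hp ?_)
      refine hpd.trans ((orderOf_dvd_natCard _).trans ?_)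
      have e1 := hcomp.card_mul
      have e2 := K.card_mul_index
      rw [← e2] at e1
      have e3 := Nat.eq_of_mul_eq_mul_left Nat.card_pos e1
      rw [e3]
      exact dvd_rfl
    rw [orderOf_eq_one_iff, QuotientGroup.eq_one_iff] at h1
    exact h1

end Cfsg.Agent.S4052
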