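import Cfsg.Statements.S4056
import Cfsg.Agent.H67.ClassTwo
import Cfsg.Agent.Solv.MinNormal

set_option autoImplicit false
open Cfsg

namespace Cfsg.Agent.S4056

open scoped commutatorElement in

/-- In a finite 2-group of nilpotency class at most 2 and exponent dividing 4, the Frattini subgroup lies in the centre and is elementary abelian. -/
theorem result {P : Type*} [Group P] [Finite P] (hP : IsPGroup 2 P)
    (hcl : Group.nilpotencyClass P ≤ 2) (hexp : Monoid.exponent P ∣ 4) :
    frattini P ≤ Subgroup.center P ∧ Cfsg.IsElementaryAbelian 2 (frattini P) := by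
  have : Group.IsNilpotent P := hP.isNilpotent
  have hc : ∀ x y : P, ⁅x, y⁆ ∈ Subgroup.center P := H67.commutatorElement_mem_center hcl
  have h4 : ∀ x : P, x ^ 4 = 1 := fun x => Monoid.exponent_dvd_iff_forall_pow_eq_one.mp hexp x
  have hcomm : ∀ x y : P, ⁅x, y⁆ ^ 2 = 1 := by
    intro x y
    have h := H67.mul_pow_of_central hc y x 4
    rw [h4, h4, h4, one_mul, one_mul] at h
    have e : ⁅x, y⁆ ^ (4 * (4 - 1) / 2) = ⁅x, y⁆ ^ 4 * ⁅x, y⁆ ^ 2 := by
      rw [← pow_add]
    rw [e, h4, one_mul] at h
    exact h.symm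
  have hsq : ∀ x : P, x ^ 2 ∈ Subgroup.center P := by
    intro x
    rw [Subgroup.mem_center_iff]
    intro y
    have h1 := H67.commutatorElement_pow_left hc x y 2
    rw [hcomm] at h1
    exact (commutatorElement_eq_one_iff_mul_comm.mp h1).symm
  let W : Subgroup P :=
    { carrier := {z | z ∈ Subgroup.center P ∧ z ^ 2 = 1}
      one_mem' := ⟨Subgroup.one_mem _, one_pow 2⟩
      mul_mem' := by
        rintro a b ⟨ha, ha2⟩ ⟨hb, hb2⟩
        refine ⟨Subgroup.mul_mem _ ha hb, ?_⟩
        have hab : Commute a b := (Subgroup.mem_center_iff.mp hb a)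
        rw [hab.mul_pow, ha2, hb2, one_mul]
      inv_mem' := by
        rintro a ⟨ha, ha2⟩
        exact ⟨Subgroup.inv_mem _ ha, by rw [inv_pow, ha2, inv_one]⟩ }
  have hWc : W ≤ Subgroup.center P := fun z hz => hz.1
  have hWn : W.Normal := Solv.normal_of_le_center hWc
  have hle : frattini P ≤ W := by
    apply Solv.frattini_le_of_elementary_quotient (p := 2) W
    · rw [commutator_def, Subgroup.commutator_le]
      intro x _ y _
      exact ⟨hc x y, hcomm x y⟩
    · intro x
      exact ⟨hsq x, by rw [← pow_mul]; exact h4 x⟩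
  refine ⟨hle.trans hWc, ?_, fun a ha => (hle ha).2⟩
  constructor
  constructor
  intro a b
  ext
  exact (Subgroup.mem_center_iff.mp (hWc (hle b.2)) a)

end Cfsg.Agent.S4056
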