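import Cfsg.Statements.S4057
import Cfsg.Agent.H94.LeadPos
import Cfsg.Agent.H94.PCentral

set_option autoImplicit false
open Cfsg

namespace Cfsg.Agent.S4057

open Subgroup
open scoped commutatorElement

theorem main {P : Type*} [Group P] [Finite P] {p : ℕ} [hpf : Fact p.Prime]
    (hp : p ≠ 2) (hP : IsPGroup p P) (k : ℕ)
    (hab : ∀ A : Subgroup P, A.Normal → IsMulCommutative A → ∃ S : Finset P, S.card ≤ k ∧ Subgroup.closure (S : Set P) = A)
    (H : Subgroup P) : ∃ S : Finset P, S.card ≤ k * (k + 4) / 4 ∧ Subgroup.closure (S : Set P) = H := by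
  classical
  have hpp := hpf.out
  obtain ⟨B, hBn, hBe, -, hBmax⟩ := OddP.exists_max_elab hp hP (A := (⊥ : Subgroup P)) inferInstance
    (OddP.elab_bot p)
  have hBc : ∀ u ∈ B, ∀ v ∈ B, u * v = v * u := by
    intro u hu v hv
    exact congrArg Subtype.val (hBe.1.is_comm.comm ⟨u, hu⟩ ⟨v, hv⟩)
  obtain ⟨e, he⟩ := OddP.exists_pow_of_pGroup hP B
  -- e ≤ k
  have hek : e ≤ k := by
    obtain ⟨S, hS, hSB⟩ := hab B hBn hBe.1
    let inst : CommGroup B := { (inferInstance : Group B) with mul_comm := hBe.1.is_comm.comm }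
    have h1 : Subgroup.closure ((fun x : B => (x : P)) ⁻¹' (S : Set P)) = ⊤ := by
      have h2 := Subgroup.closure_preimage_eq_top ((S : Set P))
      subst hSB
      exact h2
    have h2 := (Solv.basis_aux (p := p) (Q := B) (fun x => Subtype.ext (hBe.2 x x.2)) he _ h1).2
    refine le_trans h2 (le_trans ?_ hS)
    rw [← Set.ncard_coe_finset]
    refine Set.ncard_le_ncard_of_injOn (fun x : B => (x : P)) (fun x hx => hx) ?_ (Set.toFinite _)
    intro x _ y _ hxy
    exact Subtype.ext hxy
  obtain ⟨b, hb, hbB⟩ := H94.LeadPos.exists_adapted hP B hBn hBc hBe.2 he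
  obtain ⟨S₁, hS₁H, hS₁c, hHle⟩ := H94.LeadPos.gen_mod_centralizer hb hpp H
  rw [hbB] at hHle
  -- the centralizer part
  set H₀ : Subgroup P := H ⊓ centralizer (B : Set P) with hH₀
  have hcen : ∀ z : H₀, z ^ p = 1 → z ∈ center H₀ := by
    intro z hz
    have h1 : (z : P) ^ p = 1 := by exact_mod_cast congrArg Subtype.val hz
    have h2 : (z : P) ∈ B := hBmax z z.2.2 h1
    rw [Subgroup.mem_center_iff]
    intro g
    exact Subtype.ext ((Subgroup.mem_centralizer_iff.1 g.2.2 z h2).symm)
  obtain ⟨S₂, hS₂c, hS₂⟩ := H94.PCentral.pcentral_gen hp _ H₀ (hP.to_subgroup H₀) hcen rfl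
  have hS₂e : S₂.card ≤ e := by
    have h1 : Nat.card {z : H₀ // z ^ p = 1} ≤ Nat.card B := by
      let f : {z : H₀ // z ^ p = 1} → B := fun z =>
        ⟨(z.1 : P), hBmax z.1 z.1.2.2 (by exact_mod_cast congrArg Subtype.val z.2)⟩
      apply Nat.card_le_card_of_injective f
      intro z w hzw
      have h3 : ((z.1 : H₀) : P) = ((w.1 : H₀) : P) := congrArg (fun x : B => (x : P)) hzw
      exact Subtype.ext (Subtype.ext h3)
    rw [he] at h1
    exact (Nat.pow_le_pow_iff_right hpp.one_lt).1 (hS₂c.trans h1)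
  let S₂' : Finset P := S₂.image H₀.subtype
  have hS₂' : closure (S₂' : Set P) = H₀ := by
    rw [Finset.coe_image, ← MonoidHom.map_closure, hS₂, ← MonoidHom.range_eq_map, Subgroup.range_subtype]
  refine ⟨S₁ ∪ S₂', ?_, ?_⟩
  · have h1 : (S₁ ∪ S₂').card ≤ e * e / 4 + e :=
      (Finset.card_union_le _ _).trans (Nat.add_le_add hS₁c (Finset.card_image_le.trans hS₂e))
    refine h1.trans ?_
    have h2 : e * e / 4 + e = (e * (e + 4)) / 4 := by
      rw [mul_add, mul_comm e 4, Nat.add_mul_div_left _ _ (by norm_num)]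
    rw [h2]
    exact Nat.div_le_div_right (Nat.mul_le_mul hek (by omega))
  · set K₀ := closure ((S₁ ∪ S₂' : Finset P) : Set P) with hK₀
    have hK₀e : K₀ = closure (S₁ : Set P) ⊔ H₀ := by
      rw [hK₀, Finset.coe_union, Subgroup.closure_union, hS₂']
    have hK₀H : K₀ ≤ H := by
      rw [hK₀e, sup_le_iff, closure_le]
      exact ⟨hS₁H, inf_le_left⟩
    have hle : H ≤ K₀ ⊔ ⁅H, H⁆ := by
      rw [hK₀e]
      refine hHle.trans ?_
      rw [sup_assoc, sup_comm ⁅H, H⁆, ← sup_assoc]
    have hcommle : ⁅H, H⁆ ≤ H := Subgroup.commutator_le_self H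
    have h1 : K₀.subgroupOf H ⊔ commutator H = ⊤ := by
      apply Subgroup.map_injective H.subtype_injective
      rw [Subgroup.map_sup, Subgroup.subgroupOf_map_subtype, Subgroup.map_subtype_commutator,
        inf_eq_left.2 hK₀H, ← MonoidHom.range_eq_map, Subgroup.range_subtype]
      exact le_antisymm (sup_le hK₀H hcommle) hle
    have h2 : K₀.subgroupOf H ⊔ frattini H = ⊤ := by
      rw [eq_top_iff, ← h1]
      exact sup_le_sup_left (Solv.commutator_le_frattini_of_pGroup (hP.to_subgroup H)) _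
    have h3 : K₀.subgroupOf H = ⊤ := frattini_nongenerating h2
    exact le_antisymm hK₀H (Subgroup.subgroupOf_eq_top.1 h3)

/-- Let p be an odd prime and P a finite p-group in which every normal abelian subgroup can be generated by k elements. Then every subgroup of P can be generated by at most ⌊k(k+4)/4⌋ elements. -/
theorem result {P : Type*} [Group P] [Finite P] {p : ℕ} [Fact p.Prime]
    (hp : p ≠ 2) (hP : IsPGroup p P) (k : ℕ)
    (hab : ∀ A : Subgroup P, A.Normal → IsMulCommutative A → ∃ S : Finset P, S.card ≤ k ∧ Subgroup.closure (S : Set P) = A) :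
    ∀ H : Subgroup P, ∃ S : Finset P, S.card ≤ k * (k + 4) / 4 ∧ Subgroup.closure (S : Set P) = H := by
  intro H
  exact main hp hP k hab H

end Cfsg.Agent.S4057
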