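import Cfsg.Statements.S4058
import Cfsg.Agent.H52.LinMul
import Cfsg.Agent.S0159
import Cfsg.Agent.S0158
import Cfsg.Agent.Solv.Frattini

set_option autoImplicit false
open Cfsg Cfsg.Agent.CharBase
open scoped ComplexConjugate

namespace Cfsg.Agent.S4058

theorem exists_int_indicator {G : Type*} [Group G] [Fintype G] {χ : G → ℂ} (hχ : IsIrrCharacter G χ) :
    ∃ n : ℤ, (Nat.card G : ℂ)⁻¹ * ∑ s : G, χ (s * s) = n := by
  obtain ⟨n, ρ, hρ, rfl⟩ := hχ
  rcases (Cfsg.Agent.S0158.result ρ).1 with h | h | h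
  · exact ⟨0, by rw [h]; simp⟩
  · exact ⟨1, by rw [h]; simp⟩
  · exact ⟨-1, by rw [h]; simp⟩

theorem dvd_sum_of_orbits {L X : Type*} [Group L] [MulAction L X] [Fintype X] (f : X → ℤ) (N : ℤ)
    (hf : ∀ (l : L) (x : X), f (l • x) = f x)
    (h : ∀ x : X, N ∣ (Nat.card (MulAction.orbit L x) : ℤ) * f x) : N ∣ ∑ x, f x := by
  classical
  rw [← Finset.sum_fiberwise Finset.univ (fun x : X => (Quotient.mk (MulAction.orbitRel L X) x)) f]
  refine Finset.dvd_sum fun ω _ => ?_
  induction ω using Quotient.inductionOn with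
  | _ y =>
    have h1 : ∑ x ∈ Finset.univ.filter (fun x : X => Quotient.mk (MulAction.orbitRel L X) x = Quotient.mk (MulAction.orbitRel L X) y), f x
        = ∑ x ∈ Finset.univ.filter (fun x : X => Quotient.mk (MulAction.orbitRel L X) x = Quotient.mk (MulAction.orbitRel L X) y), f y := by
      refine Finset.sum_congr rfl fun x hx => ?_
      have h2 := Quotient.exact (Finset.mem_filter.mp hx).2
      obtain ⟨l, hl⟩ := (MulAction.orbitRel_apply.mp h2)
      rw [← hl]; exact hf l y
    rw [h1, Finset.sum_const, nsmul_eq_mul]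
    have h3 : (Finset.univ.filter (fun x : X => Quotient.mk (MulAction.orbitRel L X) x = Quotient.mk (MulAction.orbitRel L X) y)).card
        = Nat.card (MulAction.orbit L y) := by
      rw [← Set.ncard_coe_finset, ← Nat.card_coe_set_eq]
      congr 2
      ext x
      simp only [Finset.coe_filter, Finset.mem_univ, true_and, Set.mem_setOf_eq]
      rw [Quotient.eq, MulAction.orbitRel_apply]
    rw [h3]
    exact h y

/-- Let G be a finite 2-group with #(G/Φ(G)) ≥ 2^(2k+1). Then the number of elements x of G with x² = 1 is divisible by 2^(k+1). -/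
theorem result {G : Type*} [Group G] [Finite G] (hG : IsPGroup 2 G) (k : ℕ)
    (hgen : 2 ^ (2 * k + 1) ≤ Nat.card (G ⧸ frattini G)) :
    2 ^ (k + 1) ∣ Nat.card {x : G // x ^ 2 = 1} := by
  classical
  have := Fintype.ofFinite G
  have := Fintype.ofFinite (IrrCharacter G)
  have h2 : Fact (Nat.Prime 2) := ⟨Nat.prime_two⟩
  -- the group Λ
  have hcomm : ∀ x y : G ⧸ frattini G, x * y = y * x := by
    have h := Subgroup.Normal.quotient_commutative_iff_commutator_le.mpr
      (Cfsg.Agent.Solv.commutator_le_frattini_of_pGroup hG)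
    intro x y
    exact h.is_comm.comm x y
  letI : CommGroup (G ⧸ frattini G) := { (inferInstance : Group (G ⧸ frattini G)) with mul_comm := hcomm }
  have hsq : ∀ x : G ⧸ frattini G, x * x = 1 := by
    intro x
    obtain ⟨x, rfl⟩ := QuotientGroup.mk_surjective x
    rw [← QuotientGroup.mk_mul, QuotientGroup.eq_one_iff, ← pow_two]
    exact Cfsg.Agent.Solv.pow_mem_frattini_of_pGroup hG x
  let Λ := (G ⧸ frattini G) →* ℂˣ
  have hΛcard : Nat.card Λ = Nat.card (G ⧸ frattini G) := by
    have : NeZero (Monoid.exponent (G ⧸ frattini G)) := ⟨Monoid.exponent_ne_zero_of_finite⟩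
    exact CommGroup.card_monoidHom_of_hasEnoughRootsOfUnity (G ⧸ frattini G) ℂ
  have hΛfin : Finite Λ := Nat.finite_of_card_ne_zero (by rw [hΛcard]; exact Nat.card_pos.ne')
  obtain ⟨m, hm⟩ := IsPGroup.iff_card.mp (hG.to_quotient (frattini G))
  rw [hm] at hgen hΛcard
  have hkm : 2 * k + 1 ≤ m := (Nat.pow_le_pow_iff_right (by norm_num)).mp hgen
  let incl : Λ →* (G →* ℂˣ) :=
    { toFun := fun f => f.comp (QuotientGroup.mk' (frattini G))
      map_one' := by ext; simp
      map_mul' := fun f f' => by ext; rfl }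
  have hincl : Function.Injective incl := by
    intro f f' h
    apply MonoidHom.ext
    intro x
    obtain ⟨x, rfl⟩ := QuotientGroup.mk'_surjective _ x
    exact DFunLike.congr_fun h x
  let act0 := Cfsg.Agent.H52.unitHomAction G
  let act : MulAction Λ (IrrCharacter G) := MulAction.compHom _ incl
  have hact : ∀ (l : Λ) (χ : IrrCharacter G) (g : G),
      ((l • χ : IrrCharacter G) : G → ℂ) g = ((incl l g : ℂˣ) : ℂ) * (χ : G → ℂ) g := fun _ _ _ => rfl
  have hone : ∀ (l : Λ) (g : G), ((incl l (g * g) : ℂˣ) : ℂ) = 1 := by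
    intro l g
    have : incl l (g * g) = 1 := by
      change l (QuotientGroup.mk' _ (g * g)) = 1
      rw [map_mul, hsq, map_one]
    rw [this, Units.val_one]
  choose deg hdeg using fun ψ : IrrCharacter G => exists_nat_degree (irr_isCharacter ψ)
  choose nu hnu using fun ψ : IrrCharacter G => exists_int_indicator (G := G) ψ.2
  have hdeg_act : ∀ (l : Λ) (χ : IrrCharacter G), deg (l • χ) = deg χ := by
    intro l χ
    have h1 := hdeg (l • χ)
    rw [hact, map_one, Units.val_one, one_mul, hdeg χ] at h1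
    exact_mod_cast h1.symm
  have hnu_act : ∀ (l : Λ) (χ : IrrCharacter G), nu (l • χ) = nu χ := by
    intro l χ
    have h1 := hnu (l • χ)
    simp only [hact, hone, one_mul] at h1
    rw [hnu χ] at h1
    exact_mod_cast h1.symm
  have hcount : (Nat.card {x : G // x ^ 2 = 1} : ℤ) = ∑ χ : IrrCharacter G, nu χ * deg χ := by
    have h1 := Cfsg.Agent.S0159.result (G := G)
    rw [finsum_eq_sum_of_fintype] at h1
    have h3 : Nat.card {x : G // x ^ 2 = 1} = Nat.card {s : G // s * s = 1} := by
      simp only [pow_two]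
    rw [h3]
    have h4 : ((Nat.card {s : G // s * s = 1} : ℤ) : ℂ) = ((∑ χ : IrrCharacter G, nu χ * deg χ : ℤ) : ℂ) := by
      push_cast
      rw [h1]
      refine Finset.sum_congr rfl fun χ _ => ?_
      rw [hnu, hdeg]
    exact_mod_cast h4
  have hdvd : ((2 ^ (k + 1) : ℕ) : ℤ) ∣ ∑ χ : IrrCharacter G, nu χ * deg χ := by
    apply dvd_sum_of_orbits (L := Λ)
    · intro l χ
      rw [hdeg_act, hnu_act]
    · intro χ
      -- orbit size
      have h1 : Nat.card (MulAction.orbit Λ χ) * Nat.card (MulAction.stabilizer Λ χ) = 2 ^ m := by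
        rw [← hΛcard, Nat.card_coe_set_eq, ← MulAction.index_stabilizer, mul_comm]
        exact Subgroup.card_mul_index _
      obtain ⟨a, ha⟩ := IsPGroup.iff_card.mp hG
      have h3 : deg χ ∣ 2 ^ a := by rw [← ha]; exact degree_dvd_card χ.2 (hdeg χ)
      obtain ⟨f, -, hf⟩ := (Nat.dvd_prime_pow Nat.prime_two).mp h3
      obtain ⟨s, -, hs⟩ := (Nat.dvd_prime_pow Nat.prime_two).mp (Dvd.intro_left _ h1)
      obtain ⟨j, -, hj⟩ := (Nat.dvd_prime_pow Nat.prime_two).mp (Dvd.intro _ h1)
      have h4 : j + s = m := by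
        rw [hs, hj, ← pow_add] at h1
        exact Nat.pow_right_injective (le_refl 2) h1
      have h5 : Nat.card (MulAction.stabilizer Λ χ) ≤ deg χ ^ 2 := by
        have := Fintype.ofFinite (MulAction.stabilizer Λ χ)
        let S : Finset (G →* ℂˣ) := (Finset.univ : Finset (MulAction.stabilizer Λ χ)).map
          ⟨fun l => incl l.1, fun l l' h => Subtype.ext (hincl h)⟩
        have h6 : S.card = Nat.card (MulAction.stabilizer Λ χ) := by
          rw [Finset.card_map, Finset.card_univ, Nat.card_eq_fintype_card]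
        rw [← h6]
        apply Cfsg.Agent.H52.card_le_sq_of_fix χ.2 (hdeg χ)
        intro l hl g
        obtain ⟨l, -, rfl⟩ := Finset.mem_map.mp hl
        have h7 : (l : Λ) • χ = χ := l.2
        exact congrFun (congrArg Subtype.val h7) g
      have h6 : s ≤ 2 * f := by
        rw [hs, hf, ← pow_mul] at h5
        have := (Nat.pow_le_pow_iff_right (by norm_num)).mp h5
        omega
      rw [hj, hf]
      have h7 : k + 1 ≤ j + f := by omega
      have h8 : ((2 ^ (k + 1) : ℕ) : ℤ) ∣ ((2 ^ j : ℕ) : ℤ) * ((2 ^ f : ℕ) : ℤ) := by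
        rw [← Nat.cast_mul, ← pow_add]
        exact_mod_cast pow_dvd_pow 2 h7
      have h9 : ((2 ^ j : ℕ) : ℤ) * (nu χ * ((2 ^ f : ℕ) : ℤ)) = ((2 ^ j : ℕ) : ℤ) * ((2 ^ f : ℕ) : ℤ) * nu χ := by ring
      rw [h9]
      exact Dvd.dvd.mul_right h8 _
  rw [← hcount] at hdvd
  exact_mod_cast hdvd

end Cfsg.Agent.S4058
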