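import Cfsg.Statements.S4065
import Mathlib.Tactic
import Mathlib.LinearAlgebra.Matrix.ProjectiveSpecialLinearGroup
import Mathlib.LinearAlgebra.Matrix.SpecialLinearGroup

set_option autoImplicit false
open Cfsg

namespace Cfsg.Agent.S4065

open Subgroup

/-- If all centralizers of nontrivial elements are abelian, then all centralizers of elements are TI. -/
theorem ti_of_abelian_centralizers {G : Type*} [Group G]
    (hab : ∀ x : G, x ≠ 1 → ∀ a b : G, x * a = a * x → x * b = b * x → a * b = b * a) (x : G) :
    Cfsg.IsTISubset (Subgroup.centralizer ({x} : Set G) : Set G) := by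
  intro g hg y hy hgy
  have mem : ∀ u v : G, v ∈ (Subgroup.centralizer ({u} : Set G) : Set G) ↔ u * v = v * u := by
    intro u v
    rw [SetLike.mem_coe, mem_centralizer_iff]
    simp
  rw [mem] at hy hgy
  by_contra hy1
  apply hg
  have hx1 : x ≠ 1 := by
    rintro rfl
    apply hg
    have : Subgroup.centralizer ({1} : Set G) = ⊤ := by
      rw [eq_top_iff]; intro v _
      rw [mem_centralizer_iff]; simp
    rw [this, Subgroup.mem_set_normalizer_iff]
    intro h
    simp
  -- centralizers of commuting nontrivial elements coincide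
  have key : ∀ u v : G, u ≠ 1 → v ≠ 1 → u * v = v * u → ∀ w : G, u * w = w * u ↔ v * w = w * v := by
    intro u v hu hv huv w
    constructor
    · intro h
      exact hab u hu v w huv h
    · intro h
      exact hab v hv u w huv.symm h
  have hgy1 : g * y * g⁻¹ ≠ 1 := by
    intro h
    apply hy1
    have : y = g⁻¹ * (g * y * g⁻¹) * g := by group
    rw [this, h]; group
  rw [Subgroup.mem_set_normalizer_iff]
  intro h
  rw [mem, mem, key x y hx1 hy1 hy h, key x _ hx1 hgy1 hgy (g * h * g⁻¹)]
  constructor
  · intro h1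
    calc g * y * g⁻¹ * (g * h * g⁻¹) = g * (y * h) * g⁻¹ := by group
      _ = g * (h * y) * g⁻¹ := by rw [h1]
      _ = _ := by group
  · intro h1
    calc y * h = g⁻¹ * (g * y * g⁻¹ * (g * h * g⁻¹)) * g := by group
      _ = g⁻¹ * (g * h * g⁻¹ * (g * y * g⁻¹)) * g := by rw [h1]
      _ = _ := by group

theorem matrix_comm {F : Type*} [Field F] (A B C : Matrix (Fin 2) (Fin 2) F)
    (hA : ¬ (A 0 1 = 0 ∧ A 1 0 = 0 ∧ A 0 0 = A 1 1)) (hAB : A * B = B * A) (hAC : A * C = C * A) :
    B * C = C * B := by
  have e1 := congrFun (congrFun hAB 0) 0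
  have e2 := congrFun (congrFun hAB 0) 1
  have e3 := congrFun (congrFun hAB 1) 0
  have f1 := congrFun (congrFun hAC 0) 0
  have f2 := congrFun (congrFun hAC 0) 1
  have f3 := congrFun (congrFun hAC 1) 0
  simp only [Matrix.mul_apply, Fin.sum_univ_two] at e1 e2 e3 f1 f2 f3
  have g1 : A 0 1 * B 1 0 = B 0 1 * A 1 0 := by linear_combination e1
  have g2 : B 0 1 * (A 0 0 - A 1 1) = A 0 1 * (B 0 0 - B 1 1) := by linear_combination e2
  have g3 : A 1 0 * (B 0 0 - B 1 1) = B 1 0 * (A 0 0 - A 1 1) := by linear_combination e3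
  have h1 : A 0 1 * C 1 0 = C 0 1 * A 1 0 := by linear_combination f1
  have h2 : C 0 1 * (A 0 0 - A 1 1) = A 0 1 * (C 0 0 - C 1 1) := by linear_combination f2
  have h3 : A 1 0 * (C 0 0 - C 1 1) = C 1 0 * (A 0 0 - A 1 1) := by linear_combination f3
  have key : B 0 1 * C 1 0 = C 0 1 * B 1 0 ∧ B 0 1 * (C 0 0 - C 1 1) = C 0 1 * (B 0 0 - B 1 1) ∧
      B 1 0 * (C 0 0 - C 1 1) = C 1 0 * (B 0 0 - B 1 1) := by
    by_cases hb : A 0 1 = 0
    · by_cases hc : A 1 0 = 0
      · have hd : A 0 0 - A 1 1 ≠ 0 := by
          intro h; exact hA ⟨hb, hc, sub_eq_zero.1 h⟩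
        rw [hb] at g1 g2 h1 h2
        rw [hc] at g3 h3
        have b01 : B 0 1 = 0 := by
          rcases mul_eq_zero.1 (show B 0 1 * (A 0 0 - A 1 1) = 0 by rw [g2]; ring) with h | h
          · exact h
          · exact absurd h hd
        have c01 : C 0 1 = 0 := by
          rcases mul_eq_zero.1 (show C 0 1 * (A 0 0 - A 1 1) = 0 by rw [h2]; ring) with h | h
          · exact h
          · exact absurd h hd
        have b10 : B 1 0 = 0 := by
          rcases mul_eq_zero.1 (show B 1 0 * (A 0 0 - A 1 1) = 0 by rw [← g3]; ring) with h | h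
          · exact h
          · exact absurd h hd
        have c10 : C 1 0 = 0 := by
          rcases mul_eq_zero.1 (show C 1 0 * (A 0 0 - A 1 1) = 0 by rw [← h3]; ring) with h | h
          · exact h
          · exact absurd h hd
        rw [b01, c01, b10, c10]; simp
      · have k1 : B 0 1 * C 1 0 = C 0 1 * B 1 0 := by
          apply mul_left_cancel₀ hc
          linear_combination (-C 1 0) * g1 + B 1 0 * h1
        refine ⟨k1, ?_, ?_⟩
        · apply mul_left_cancel₀ hc
          linear_combination (B 0 1) * h3 - C 0 1 * g3 + (A 0 0 - A 1 1) * k1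
        · apply mul_left_cancel₀ hc
          linear_combination (B 1 0) * h3 - C 1 0 * g3
    · have k1 : B 0 1 * C 1 0 = C 0 1 * B 1 0 := by
        apply mul_left_cancel₀ hb
        linear_combination (B 0 1) * h1 - C 0 1 * g1
      refine ⟨k1, ?_, ?_⟩
      · apply mul_left_cancel₀ hb
        linear_combination C 0 1 * g2 - B 0 1 * h2
      · apply mul_left_cancel₀ hb
        linear_combination C 1 0 * g2 - B 1 0 * h2 - (A 0 0 - A 1 1) * k1
  obtain ⟨k1, k2, k3⟩ := key
  ext i j
  fin_cases i <;> fin_cases j <;> simp only [Matrix.mul_apply, Fin.sum_univ_two, Fin.zero_eta, Fin.mk_one, Fin.isValue]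
  · linear_combination k1
  · linear_combination -k2
  · linear_combination k3
  · linear_combination -k1

/-- Let F be a finite field with 2ⁿ elements, n ≥ 2. In PSL₂(F) the centralizer of every element meets each of its conjugates by elements outside its normalizer trivially. -/
theorem result (n : ℕ) (hn : 2 ≤ n)
    (x : Matrix.ProjectiveSpecialLinearGroup (Fin 2) (GaloisField 2 n)) :
    Cfsg.IsTISubset (Subgroup.centralizer ({x} : Set (Matrix.ProjectiveSpecialLinearGroup (Fin 2) (GaloisField 2 n))) :
      Set (Matrix.ProjectiveSpecialLinearGroup (Fin 2) (GaloisField 2 n))) := by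
  apply ti_of_abelian_centralizers
  have hchar : ∀ z : GaloisField 2 n, z ^ 2 = 1 → z = 1 := by
    intro z hz
    have h2 : (2 : GaloisField 2 n) = 0 := by
      have := CharP.cast_eq_zero (GaloisField 2 n) 2
      simpa using this
    have h3 : (z - 1) ^ 2 = 0 := by
      linear_combination hz + (1 - z) * h2
    exact sub_eq_zero.1 (pow_eq_zero_iff (two_ne_zero)|>.1 h3)
  have hscalar : ∀ A : Matrix.SpecialLinearGroup (Fin 2) (GaloisField 2 n),
      (A 0 1 = 0 ∧ A 1 0 = 0 ∧ A 0 0 = A 1 1) → A = 1 := by
    rintro A ⟨h1, h2, h3⟩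
    have hdet := A.det_coe
    rw [Matrix.det_fin_two] at hdet
    have h4 : A 0 0 = 1 := by
      apply hchar
      rw [h1, h2, ← h3] at hdet
      linear_combination hdet
    ext i j
    fin_cases i <;> fin_cases j <;> simp [h1, h2, h4, ← h3]
  have hcenter : Subgroup.center (Matrix.SpecialLinearGroup (Fin 2) (GaloisField 2 n)) = ⊥ := by
    rw [eq_bot_iff]
    intro A hA
    rw [Matrix.SpecialLinearGroup.mem_center_iff] at hA
    obtain ⟨r, hr, hA⟩ := hA
    rw [Subgroup.mem_bot]
    have hr1 : r = 1 := by
      apply hchar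
      simpa using hr
    ext i j
    rw [← hA, hr1]
    simp
  intro x
  induction x using QuotientGroup.induction_on with
  | _ A =>
    intro hA a b
    induction a using QuotientGroup.induction_on with
    | _ B =>
      induction b using QuotientGroup.induction_on with
      | _ C =>
        intro hAB hAC
        have hinj : ∀ X Y : Matrix.SpecialLinearGroup (Fin 2) (GaloisField 2 n),
            (X : Matrix.SpecialLinearGroup (Fin 2) (GaloisField 2 n) ⧸ Subgroup.center (Matrix.SpecialLinearGroup (Fin 2) (GaloisField 2 n))) = Y → X = Y := by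
          intro X Y h
          have h1 := QuotientGroup.eq.1 h
          rw [hcenter, Subgroup.mem_bot] at h1
          exact (inv_mul_eq_one.1 h1)
        have hAB' : A * B = B * A := hinj _ _ hAB
        have hAC' : A * C = C * A := hinj _ _ hAC
        have hA' : A ≠ 1 := by
          rintro rfl; exact hA rfl
        have : B * C = C * B := by
          apply Subtype.ext
          rw [Matrix.SpecialLinearGroup.coe_mul, Matrix.SpecialLinearGroup.coe_mul]
          apply matrix_comm (A : Matrix (Fin 2) (Fin 2) (GaloisField 2 n))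
          · intro h
            exact hA' (hscalar A h)
          · rw [← Matrix.SpecialLinearGroup.coe_mul, ← Matrix.SpecialLinearGroup.coe_mul, hAB']
          · rw [← Matrix.SpecialLinearGroup.coe_mul, ← Matrix.SpecialLinearGroup.coe_mul, hAC']
        exact congrArg (QuotientGroup.mk (s := Subgroup.center (Matrix.SpecialLinearGroup (Fin 2) (GaloisField 2 n)))) this

end Cfsg.Agent.S4065
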