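import Cfsg.Statements.S4066
import Mathlib.GroupTheory.Sylow
import Mathlib.GroupTheory.Submonoid.Centralizer

set_option autoImplicit false
open Cfsg

namespace Cfsg.Agent.S4066

open Subgroup

/-- Let G be a finite group in which the centralizer of every element meets each of its conjugates by elements outside its normalizer trivially. Then any two distinct Sylow p-subgroups of G, for any prime p, intersect trivially. -/
theorem result {G : Type*} [Group G] [Finite G] (hTI : ∀ x : G, Cfsg.IsTISubset (Subgroup.centralizer ({x} : Set G) : Set G))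
    {p : ℕ} [Fact p.Prime] (P Q : Sylow p G) (hPQ : P ≠ Q) : (P : Subgroup G) ⊓ (Q : Subgroup G) = ⊥ := by
  by_contra hD
  obtain ⟨d, hdD, hd1⟩ : ∃ d ∈ (P : Subgroup G) ⊓ (Q : Subgroup G), d ≠ 1 := by
    rcases Subgroup.bot_or_exists_ne_one ((P : Subgroup G) ⊓ (Q : Subgroup G)) with h | ⟨d, h1, h2⟩
    · exact absurd h hD
    · exact ⟨d, h1, h2⟩
  have hdP : d ∈ (P : Subgroup G) := hdD.1
  have hdQ : d ∈ (Q : Subgroup G) := hdD.2
  -- a nontrivial central element of P
  obtain ⟨z, hzP, hz1, hzc⟩ : ∃ z ∈ (P : Subgroup G), z ≠ 1 ∧ ∀ y ∈ (P : Subgroup G), z * y = y * z := by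
    have hnt : Nontrivial (P : Subgroup G) := ⟨⟨⟨d, hdP⟩, 1, fun h => hd1 (congrArg Subtype.val h)⟩⟩
    have := P.isPGroup'.center_nontrivial
    obtain ⟨⟨⟨z, hzP⟩, hzc⟩, hz1⟩ := exists_ne (1 : center (P : Subgroup G))
    refine ⟨z, hzP, ?_, ?_⟩
    · intro h; apply hz1; ext; exact h
    · intro y hy
      have := (Subgroup.mem_center_iff.1 hzc) ⟨y, hy⟩
      exact (congrArg Subtype.val this).symm
  set C : Subgroup G := centralizer ({z} : Set G) with hC
  have memC : ∀ y : G, y ∈ C ↔ z * y = y * z := by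
    intro y; rw [hC, mem_centralizer_iff]; simp
  have hPC : (P : Subgroup G) ≤ C := fun y hy => (memC y).2 (hzc y hy)
  -- `Q` is conjugate to `P`
  obtain ⟨g, hg⟩ := MulAction.exists_smul_eq G P Q
  have hmem : ∀ x : G, x ∈ (Q : Subgroup G) ↔ g⁻¹ * x * g ∈ (P : Subgroup G) := by
    intro x
    rw [← hg, Sylow.coe_subgroup_smul, Subgroup.mem_pointwise_smul_iff_inv_smul_mem]
    rw [← map_inv, MulAut.smul_def, MulAut.conj_apply]
    simp [mul_assoc]
  have hgN : g ∈ Subgroup.normalizer (C : Set G) := by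
    by_contra hgN
    have h1 : g⁻¹ * d * g ∈ C := hPC ((hmem d).1 hdQ)
    have h2 := hTI z g hgN (g⁻¹ * d * g) h1 (by
      have : g * (g⁻¹ * d * g) * g⁻¹ = d := by group
      rw [this]; exact hPC hdP)
    apply hd1
    have : d = g * (g⁻¹ * d * g) * g⁻¹ := by group
    rw [this, h2]; group
  have hQC : (Q : Subgroup G) ≤ C := by
    intro x hx
    have h1 := hPC ((hmem x).1 hx)
    have h2 := (Subgroup.mem_set_normalizer_iff.1 hgN (g⁻¹ * x * g)).1 h1
    have : g * (g⁻¹ * x * g) * g⁻¹ = x := by group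
    rw [this] at h2; exact h2
  -- every element of `C` commutes with its `C`-conjugates
  have hcomm : ∀ y ∈ C, ∀ c ∈ C, y * (c * y * c⁻¹) = (c * y * c⁻¹) * y := by
    intro y hy c hc
    have hzy : z ∈ centralizer ({y} : Set G) := by
      rw [mem_centralizer_iff]; simpa using ((memC y).1 hy).symm
    have hcN : c ∈ Subgroup.normalizer (centralizer ({y} : Set G) : Set G) := by
      by_contra hcN
      refine hz1 (hTI y c hcN z hzy ?_)
      have : c * z * c⁻¹ = z := by rw [← (memC c).1 hc]; group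
      rw [this]; exact hzy
    have hyy : y ∈ centralizer ({y} : Set G) := by
      rw [mem_centralizer_iff]; simp
    have h2 := (Subgroup.mem_set_normalizer_iff.1 hcN y).1 hyy
    have h3 := mem_centralizer_iff.1 h2 y rfl
    exact h3
  -- `P ≤ Q`
  have hPQ' : (P : Subgroup G) ≤ Q := by
    intro y hy
    have hyC := hPC hy
    let S : Set G := {x | ∃ q ∈ (Q : Subgroup G), x = q * y * q⁻¹}
    have hScomm : ∀ a ∈ S, ∀ b ∈ S, a * b = b * a := by
      rintro a ⟨q, hq, rfl⟩ b ⟨r, hr, rfl⟩
      have h1 := hcomm y hyC (q⁻¹ * r) (mul_mem (inv_mem (hQC hq)) (hQC hr))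
      have h2 : q * (y * (q⁻¹ * r * y * (q⁻¹ * r)⁻¹)) * q⁻¹ = q * ((q⁻¹ * r * y * (q⁻¹ * r)⁻¹) * y) * q⁻¹ := by
        rw [h1]
      calc q * y * q⁻¹ * (r * y * r⁻¹) = q * (y * (q⁻¹ * r * y * (q⁻¹ * r)⁻¹)) * q⁻¹ := by group
        _ = q * ((q⁻¹ * r * y * (q⁻¹ * r)⁻¹) * y) * q⁻¹ := h2
        _ = r * y * r⁻¹ * (q * y * q⁻¹) := by group
    let K : Subgroup G := Subgroup.closure S
    have hKcomm : ∀ a ∈ K, ∀ b ∈ K, a * b = b * a := by
      have := Subgroup.isMulCommutative_closure hScomm
      intro a ha b hb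
      have := this.is_comm.comm (⟨a, ha⟩ : K) ⟨b, hb⟩
      exact congrArg Subtype.val this
    have hKp : IsPGroup p K := by
      rintro ⟨x, hx⟩
      have : ∃ k : ℕ, x ^ p ^ k = 1 := by
        induction hx using Subgroup.closure_induction with
        | mem x hx =>
          obtain ⟨q, hq, rfl⟩ := hx
          obtain ⟨k, hk⟩ := P.isPGroup' ⟨y, hy⟩
          refine ⟨k, ?_⟩
          rw [conj_pow]
          have : y ^ p ^ k = 1 := by simpa using congrArg Subtype.val hk
          rw [this]; group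
        | one => exact ⟨0, by simp⟩
        | mul a b ha hb iha ihb =>
          obtain ⟨k, hk⟩ := iha
          obtain ⟨l, hl⟩ := ihb
          refine ⟨k + l, ?_⟩
          rw [(show Commute a b from hKcomm a ha b hb).mul_pow, pow_add, pow_mul, hk, one_pow, one_mul,
            mul_comm, pow_mul, hl, one_pow]
        | inv a ha iha =>
          obtain ⟨k, hk⟩ := iha
          exact ⟨k, by rw [inv_pow, hk, inv_one]⟩
      obtain ⟨k, hk⟩ := this
      exact ⟨k, by ext; simpa using hk⟩
    have hQN : (Q : Subgroup G) ≤ Subgroup.normalizer (K : Set G) := by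
      intro q hq
      rw [Subgroup.mem_set_normalizer_iff]
      have key : ∀ q ∈ (Q : Subgroup G), ∀ x ∈ K, q * x * q⁻¹ ∈ K := by
        intro q hq x hx
        induction hx using Subgroup.closure_induction with
        | mem x hx =>
          obtain ⟨r, hr, rfl⟩ := hx
          apply Subgroup.subset_closure
          exact ⟨q * r, mul_mem hq hr, by group⟩
        | one => simp
        | mul a b ha hb iha ihb =>
          have : q * (a * b) * q⁻¹ = (q * a * q⁻¹) * (q * b * q⁻¹) := by group
          rw [this]; exact mul_mem iha ihb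
        | inv a ha iha =>
          have : q * a⁻¹ * q⁻¹ = (q * a * q⁻¹)⁻¹ := by group
          rw [this]; exact inv_mem iha
      intro x
      constructor
      · exact key q hq x
      · intro hx
        have := key q⁻¹ (inv_mem hq) _ hx
        have h2 : q⁻¹ * (q * x * q⁻¹) * q⁻¹⁻¹ = x := by group
        rwa [h2] at this
    have hsup : IsPGroup p (K ⊔ Q : Subgroup G) := by
      rw [sup_comm]
      exact IsPGroup.to_sup_of_normal_right' Q.isPGroup' hKp hQN
    have hEq := Q.is_maximal' hsup le_sup_right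
    have hyK : y ∈ K := Subgroup.subset_closure ⟨1, one_mem _, by group⟩
    have : y ∈ K ⊔ (Q : Subgroup G) := (le_sup_left : K ≤ K ⊔ Q) hyK
    rwa [hEq] at this
  exact hPQ (Sylow.ext (P.is_maximal' Q.isPGroup' hPQ').symm)

end Cfsg.Agent.S4066
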