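import Cfsg.Statements.S4067
import Cfsg.Agent.H20.AutOrb

set_option autoImplicit false
open Cfsg

namespace Cfsg.Agent.S4067

open scoped commutatorElement

/-- Let G be a finite non-abelian group and p the least prime dividing its order. Then the automorphism group of G has at most #G/p orbits on G. -/
theorem result {G : Type*} [Group G] [Finite G] (hna : ¬ IsMulCommutative G) :
    Nat.card (MulAction.orbitRel.Quotient (MulAut G) G) ≤ Nat.card G / (Nat.card G).minFac := by
  by_contra hcon
  push Not at hcon
  set p := (Nat.card G).minFac with hp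
  have hne : Nat.card G ≠ 1 := by
    intro h
    apply hna
    have := (Nat.card_eq_one_iff_unique.mp h).1
    exact ⟨⟨fun a b => Subsingleton.elim _ _⟩⟩
  haveI hpf : Fact p.Prime := ⟨Nat.minFac_prime hne⟩
  have hmin : ∀ d, d ∣ Nat.card G → d ≠ 1 → p ≤ d := by
    intro d hd hd1
    have h1 : 2 ≤ d := by
      rcases Nat.lt_or_ge d 2 with h | h
      · interval_cases d
        · rw [Nat.zero_dvd] at hd
          exact absurd hd Nat.card_pos.ne'
        · exact absurd rfl hd1
      · exact h
    exact Nat.minFac_le_of_dvd h1 hd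
  have hpos : 0 < p := hpf.out.pos
  have hp2 : 2 ≤ p := hpf.out.two_le
  -- the number of orbits is too large
  have h1 : Nat.card G < p * Nat.card (MulAction.orbitRel.Quotient (MulAut G) G) := by
    rw [mul_comm]
    exact (Nat.div_lt_iff_lt_mul hpos).mp hcon
  have h2 := Cfsg.Agent.H20.AutOrb.orbits_le_classes (G := G)
  have h3 := Cfsg.Agent.H20.AutOrb.class_bound hmin hpos
  have h4 : Nat.card (commutator G) * (commutator G).index = Nat.card G :=
    (commutator G).card_mul_index
  have hG' : Nat.card (commutator G) ≠ 1 := by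
    intro h
    apply hna
    rw [Subgroup.card_eq_one] at h
    refine ⟨⟨fun a b => ?_⟩⟩
    have h5 : ⁅a, b⁆ ∈ commutator G :=
      Subgroup.commutator_mem_commutator (Subgroup.mem_top a) (Subgroup.mem_top b)
    rw [h, Subgroup.mem_bot, commutatorElement_eq_one_iff_mul_comm] at h5
    exact h5
  have h5 : p ≤ Nat.card (commutator G) := hmin _ (Subgroup.card_subgroup_dvd_card _) hG'
  have h6 : Nat.card (commutator G) ≤ p := by
    by_contra hlt
    push Not at hlt
    set L := (commutator G).index with hL
    set c := Nat.card (commutator G) with hc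
    set k := Nat.card (ConjClasses G) with hk
    set n := Nat.card G with hn
    have h7 : n < p * k := lt_of_lt_of_le h1 (Nat.mul_le_mul_left _ h2)
    have h8 : (p + 1) * L ≤ n := by
      rw [← h4]
      exact Nat.mul_le_mul_right _ hlt
    have h9 : 1 ≤ p ^ 2 := Nat.one_le_pow _ _ hpos
    have h10 : p * n < p ^ 2 * k := by
      rw [pow_two, mul_assoc]
      exact Nat.mul_lt_mul_of_pos_left h7 hpos
    have h11 : p * n < n + (p ^ 2 - 1) * L := lt_of_lt_of_le h10 h3
    have h12 : (p ^ 2 - 1) = (p - 1) * (p + 1) := by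
      obtain ⟨m, hm⟩ : ∃ m, p = m + 1 := ⟨p - 1, by omega⟩
      rw [hm]
      have : (m + 1) ^ 2 = (m + 1 - 1) * (m + 1 + 1) + 1 := by
        rw [Nat.add_sub_cancel]; ring
      omega
    rw [h12, mul_assoc] at h11
    have h13 : (p - 1) * ((p + 1) * L) ≤ (p - 1) * n := Nat.mul_le_mul_left _ h8
    have h14 : n + (p - 1) * n = p * n := by
      obtain ⟨m, hm⟩ : ∃ m, p = m + 1 := ⟨p - 1, by omega⟩
      rw [hm, Nat.add_sub_cancel]; ring
    omega
  obtain ⟨T, hT, hT2⟩ := Cfsg.Agent.H20.AutOrb.exists_T hmin (le_antisymm h6 h5)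
  have h7 := Cfsg.Agent.H20.AutOrb.burnside hmin hp2 T hT hT2
  omega

end Cfsg.Agent.S4067
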