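import Cfsg.Statements.S4068
import Cfsg.Agent.H68.FourOrbits6
import Cfsg.Agent.S3378
import Cfsg.Agent.S0494

set_option autoImplicit false
open Cfsg

namespace Cfsg.Agent.S4068

open Cfsg.Agent.H68.FO

/-- A finite non-solvable group on which its automorphism group has exactly four orbits is isomorphic to the alternating group of degree 5. -/
theorem result {G : Type*} [Group G] [Finite G] (hns : ¬ Group.IsSolvable G)
    (h4 : Nat.card (MulAction.orbitRel.Quotient (MulAut G) G) = 4) : Nonempty (G ≃* alternatingGroup (Fin 5)) := by
  classical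
  -- the order function on orbits
  let φ : MulAction.orbitRel.Quotient (MulAut G) G → ℕ :=
    Quotient.lift (fun g : G => orderOf g) (by
      rintro a b ⟨α, hα⟩
      have hα' : α b = a := hα
      show orderOf a = orderOf b
      rw [← hα']
      exact MulEquiv.orderOf_eq α b)
  have hφ : ∀ g : G, φ (Quotient.mk _ g) = orderOf g := fun g => rfl
  have hfin : Finite (MulAction.orbitRel.Quotient (MulAut G) G) := Nat.finite_of_card_ne_zero (by rw [h4]; norm_num)
  have := Fintype.ofFinite (MulAction.orbitRel.Quotient (MulAut G) G)
  have hcard : Fintype.card (MulAction.orbitRel.Quotient (MulAut G) G) = 4 := by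
    rw [← Nat.card_eq_fintype_card]; exact h4
  -- the number of primes
  have hpf3 : 3 ≤ (Nat.card G).primeFactors.card := by
    by_contra hlt
    push Not at hlt
    exact hns (solvable_of_two (by omega))
  set s : Finset ℕ := insert 1 (Nat.card G).primeFactors with hs
  have hs1 : 1 ∉ (Nat.card G).primeFactors := fun h0 => Nat.not_prime_one (Nat.prime_of_mem_primeFactors h0)
  have hscard : s.card = (Nat.card G).primeFactors.card + 1 := Finset.card_insert_of_notMem hs1
  have hsub : s ⊆ Finset.univ.image φ := by
    intro d hd
    rw [Finset.mem_image]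
    rw [hs, Finset.mem_insert] at hd
    rcases hd with rfl | hd
    · exact ⟨Quotient.mk _ 1, Finset.mem_univ _, by rw [hφ, orderOf_one]⟩
    · have : Fact d.Prime := ⟨Nat.prime_of_mem_primeFactors hd⟩
      obtain ⟨g, hg⟩ := exists_prime_orderOf_dvd_card' d (Nat.dvd_of_mem_primeFactors hd)
      exact ⟨Quotient.mk _ g, Finset.mem_univ _, by rw [hφ, hg]⟩
  have himle : (Finset.univ.image φ).card ≤ 4 := by
    rw [← hcard, ← Finset.card_univ]
    exact Finset.card_image_le
  have hle := Finset.card_le_card hsub
  have h3 : (Nat.card G).primeFactors.card = 3 := by omega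
  have himeq : (Finset.univ.image φ).card = 4 := by omega
  have hseq : s = Finset.univ.image φ := Finset.eq_of_subset_of_card_le hsub (by omega)
  have hinj : Function.Injective φ := by
    have h5 : (Finset.univ.image φ).card = (Finset.univ : Finset (MulAction.orbitRel.Quotient (MulAut G) G)).card := by
      rw [himeq, Finset.card_univ, hcard]
    have h6 := Finset.card_image_iff.1 h5
    rw [Finset.coe_univ, Set.injOn_univ] at h6
    exact h6
  have hPO : PO G := by
    intro g hg
    have h5 : orderOf g ∈ s := by
      rw [hseq]
      exact Finset.mem_image.2 ⟨Quotient.mk _ g, Finset.mem_univ _, hφ g⟩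
    rw [hs, Finset.mem_insert] at h5
    rcases h5 with h5 | h5
    · exact absurd (orderOf_eq_one_iff.1 h5) hg
    · exact Nat.prime_of_mem_primeFactors h5
  have hA : ∀ x y : G, orderOf x = orderOf y → ∃ α : MulAut G, α x = y := by
    intro x y hxy
    have h5 : φ (Quotient.mk _ y) = φ (Quotient.mk _ x) := by rw [hφ, hφ, hxy]
    have h6 := Quotient.exact (hinj h5)
    obtain ⟨α, hα⟩ := h6
    exact ⟨α, hα⟩
  have h60 := card_sixty hPO hA hns h3
  have hsimple : IsSimpleGroup G := Cfsg.Agent.S3378.simple_sixty h60 hns
  exact Cfsg.Agent.S0494.result h60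

end Cfsg.Agent.S4068
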