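import Cfsg.Statements.S4071
import Cfsg.Agent.H68.Basic

set_option autoImplicit false
open Cfsg
open scoped commutatorElement

namespace Cfsg.Agent.S4071

section
variable {G : Type*} [Group G]

/-- helper: `IsMulCommutative` for subgroups. -/
theorem comm_iff (H : Subgroup G) : IsMulCommutative H ↔ ∀ a ∈ H, ∀ b ∈ H, a * b = b * a := by
  rw [isMulCommutative_iff]
  constructor
  · intro h a ha b hb
    exact congrArg Subtype.val (h ⟨a, ha⟩ ⟨b, hb⟩)
  · intro h a b
    exact Subtype.ext (h a a.2 b b.2)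

/-- powers: if `x a x⁻¹ = c a` and `c` commutes with `x`, then `xⁿ a x⁻ⁿ = cⁿ a`. -/
theorem pow_conj {x a c : G} (h1 : x * a * x⁻¹ = c * a) (h2 : x * c * x⁻¹ = c) (n : ℕ) :
    x ^ n * a * (x ^ n)⁻¹ = c ^ n * a := by
  induction n with
  | zero => simp
  | succ n ih =>
    have h3 : x * c ^ n * x⁻¹ = c ^ n := by
      rw [← conj_pow, h2]
    calc x ^ (n + 1) * a * (x ^ (n + 1))⁻¹ = x * (x ^ n * a * (x ^ n)⁻¹) * x⁻¹ := by
          rw [pow_succ']; group
      _ = (x * c ^ n * x⁻¹) * (x * a * x⁻¹) := by rw [ih]; group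
      _ = c ^ (n + 1) * a := by rw [h3, h1, pow_succ]; group

/-- if moreover `x ^ m = 1` and `c` has order prime to `m`, then `c = 1`. -/
theorem eq_one_of_conj {x a c : G} (h1 : x * a * x⁻¹ = c * a) (h2 : x * c * x⁻¹ = c) {m : ℕ}
    (hm : x ^ m = 1) (hc : (orderOf c).Coprime m) : c = 1 := by
  have h3 := pow_conj h1 h2 m
  rw [hm] at h3
  have h4 : c ^ m = 1 := by
    have h5 : a = c ^ m * a := by simpa using h3
    exact mul_eq_right.mp h5.symm
  have h5 : orderOf c ∣ m := orderOf_dvd_of_pow_eq_one h4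
  exact orderOf_eq_one_iff.mp (hc.eq_one_of_dvd h5)

end

variable {G : Type*} [Group G] [Finite G]

theorem backward {x : G} {A : Subgroup G} {p k : ℕ} (hp : p.Prime) (hAn : A.Normal)
    (hAc : ∀ a ∈ A, ∀ b ∈ A, a * b = b * a) (hx : orderOf x = p ^ k)
    (hcompl : (Subgroup.zpowers x).IsComplement' A)
    (hcen : x ^ p ∈ Subgroup.center G)
    (hfpf : ∀ a : G, a ∈ A → a ≠ 1 → x * a * x⁻¹ ≠ a) (H : Subgroup G)
    (hH : ¬ ∀ a ∈ H, ∀ b ∈ H, a * b = b * a) : Subgroup.normalizer (H : Set G) = H := by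
  have hdec : ∀ g : G, ∃ a ∈ A, ∃ z ∈ Subgroup.zpowers x, a * z = g := by
    intro g
    have h1 : g ∈ A ⊔ Subgroup.zpowers x := by
      rw [sup_comm, hcompl.sup_eq_top]; exact Subgroup.mem_top g
    exact Subgroup.mem_sup_of_normal_left.mp h1
  -- `x ∈ H A`
  have hxHA : x ∈ A ⊔ H := by
    by_contra hcon
    apply hH
    have hrep : ∀ h ∈ H, ∃ a ∈ A, ∃ z ∈ Subgroup.center G, a * z = h := by
      intro h hh
      obtain ⟨a, ha, z, ⟨i, hi⟩, rfl⟩ := hdec h
      have hi' : x ^ i = z := hi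
      refine ⟨a, ha, z, ?_, rfl⟩
      have hz : z ∈ A ⊔ H := by
        have : z = a⁻¹ * (a * z) := by group
        rw [this]
        exact mul_mem (Subgroup.mem_sup_left (inv_mem ha)) (Subgroup.mem_sup_right hh)
      by_cases hpi : (p : ℤ) ∣ i
      · obtain ⟨j, rfl⟩ := hpi
        rw [← hi', zpow_mul, zpow_natCast]
        exact zpow_mem hcen j
      · exfalso
        apply hcon
        have hco : IsCoprime i ((p : ℤ) ^ k) := by
          apply IsCoprime.pow_right
          exact ((Nat.prime_iff_prime_int.mp hp).coprime_iff_not_dvd.mpr hpi).symm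
        obtain ⟨u, v, huv⟩ := hco
        have hxx : x = z ^ u := by
          have h5 : x ^ (v * (p : ℤ) ^ k) = 1 := by
            rw [mul_comm, zpow_mul]
            have : x ^ ((p : ℤ) ^ k) = 1 := by
              have h6 := pow_orderOf_eq_one x
              rw [hx] at h6
              exact_mod_cast h6
            rw [this, one_zpow]
          calc x = x ^ (u * i + v * (p : ℤ) ^ k) := by rw [huv, zpow_one]
            _ = x ^ (u * i) := by rw [zpow_add, h5, mul_one]
            _ = z ^ u := by rw [← hi', ← zpow_mul, mul_comm]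
        rw [hxx]
        exact zpow_mem hz u
    intro a ha b hb
    obtain ⟨a1, ha1, z1, hz1, rfl⟩ := hrep a ha
    obtain ⟨a2, ha2, z2, hz2, rfl⟩ := hrep b hb
    rw [Subgroup.mem_center_iff] at hz1 hz2
    calc a1 * z1 * (a2 * z2) = a1 * (z1 * a2) * z2 := by group
      _ = a1 * (a2 * z1) * z2 := by rw [hz1]
      _ = (a1 * a2) * (z1 * z2) := by group
      _ = (a2 * a1) * (z2 * z1) := by rw [hAc a1 ha1 a2 ha2, hz1]
      _ = a2 * (a1 * z2) * z1 := by group
      _ = a2 * (z2 * a1) * z1 := by rw [hz2]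
      _ = a2 * z2 * (a1 * z1) := by group
  -- `h = a₀⁻¹ x ∈ H`
  obtain ⟨a0, ha0, h, hh, hax⟩ := Subgroup.mem_sup_of_normal_left.mp hxHA
  have hact : ∀ a ∈ A, h * a * h⁻¹ = x * a * x⁻¹ := by
    intro a ha
    have h1 : h * a * h⁻¹ ∈ A := hAn.conj_mem a ha h
    rw [← hax]
    calc h * a * h⁻¹ = (h * a * h⁻¹) * a0 * a0⁻¹ := by group
      _ = a0 * (h * a * h⁻¹) * a0⁻¹ := by rw [hAc _ h1 _ ha0]
      _ = a0 * h * a * (a0 * h)⁻¹ := by group
  have htop : A ⊔ H = ⊤ := by
    rw [eq_top_iff]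
    intro g _
    obtain ⟨a, ha, z, hz, rfl⟩ := hdec g
    exact mul_mem (Subgroup.mem_sup_left ha) ((Subgroup.zpowers_le.mpr hxHA) hz)
  -- the commutator map on `A`
  have hinj : ∀ a ∈ A, ∀ b ∈ A, h * a * h⁻¹ * a⁻¹ = h * b * h⁻¹ * b⁻¹ → a = b := by
    intro a ha b hb hab
    by_contra hne
    have h1 : a⁻¹ * b ∈ A := mul_mem (inv_mem ha) hb
    have h2 : a⁻¹ * b ≠ 1 := by
      intro h3
      exact hne (inv_mul_eq_one.mp h3)
    refine hfpf _ h1 h2 ?_
    rw [← hact _ h1]
    have hb' : h * b * h⁻¹ = h * a * h⁻¹ * a⁻¹ * b := by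
      rw [hab]; group
    calc h * (a⁻¹ * b) * h⁻¹ = (h * a * h⁻¹)⁻¹ * (h * b * h⁻¹) := by group
      _ = (h * a * h⁻¹)⁻¹ * (h * a * h⁻¹ * a⁻¹ * b) := by rw [hb']
      _ = a⁻¹ * b := by group
  refine le_antisymm ?_ Subgroup.le_normalizer
  intro n hn
  have hn2 : n ∈ H ⊔ A := by rw [sup_comm, htop]; exact Subgroup.mem_top n
  obtain ⟨h1, hh1, a1, ha1, rfl⟩ := Subgroup.mem_sup_of_normal_right.mp hn2
  have ha1n : a1 ∈ Subgroup.normalizer (H : Set G) := by
    have : a1 = h1⁻¹ * (h1 * a1) := by group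
    rw [this]
    exact mul_mem (inv_mem (Subgroup.le_normalizer hh1)) hn
  have hcomm : h * a1 * h⁻¹ * a1⁻¹ ∈ H ⊓ A := by
    constructor
    · have h2 : a1 * h⁻¹ * a1⁻¹ ∈ H := (Subgroup.mem_normalizer_iff.mp ha1n h⁻¹).mp (inv_mem hh)
      have : h * a1 * h⁻¹ * a1⁻¹ = h * (a1 * h⁻¹ * a1⁻¹) := by group
      rw [this]
      exact mul_mem hh h2
    · exact A.mul_mem (hAn.conj_mem a1 ha1 h) (A.inv_mem ha1)
  let f : (H ⊓ A : Subgroup G) → (H ⊓ A : Subgroup G) := fun b =>
    ⟨h * b * h⁻¹ * (b : G)⁻¹,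
      ⟨H.mul_mem (H.mul_mem (H.mul_mem hh b.2.1) (H.inv_mem hh)) (H.inv_mem b.2.1),
      A.mul_mem (hAn.conj_mem b b.2.2 h) (A.inv_mem b.2.2)⟩⟩
  have hf : Function.Injective f := by
    intro b c hbc
    exact Subtype.ext (hinj b b.2.2 c c.2.2 (congrArg Subtype.val hbc))
  obtain ⟨b, hb⟩ := (Finite.injective_iff_surjective.mp hf) ⟨_, hcomm⟩
  have h3 : (b : G) = a1 := hinj b b.2.2 a1 ha1 (congrArg Subtype.val hb)
  rw [← h3]
  exact H.mul_mem hh1 b.2.1

/-- A finite group that is not perfect has a normal subgroup of prime index. -/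
theorem exists_normal_prime (h : commutator G ≠ ⊤) :
    ∃ M : Subgroup G, M.Normal ∧ M.index.Prime := by
  obtain ⟨M, hM, hle⟩ := (eq_top_or_exists_le_coatom (commutator G)).resolve_left h
  have hn : M.Normal := Subgroup.Normal.of_commutator_le G hle
  have hcomm : ∀ a b : G ⧸ M, a * b = b * a := by
    intro a b
    induction a using QuotientGroup.induction_on with
    | H x =>
    induction b using QuotientGroup.induction_on with
    | H y =>
    rw [← QuotientGroup.mk_mul, ← QuotientGroup.mk_mul, QuotientGroup.eq]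
    apply hle
    have : (x * y)⁻¹ * (y * x) = ⁅y⁻¹, x⁻¹⁆ := by rw [commutatorElement_def]; group
    rw [this]
    exact Subgroup.commutator_mem_commutator (Subgroup.mem_top _) (Subgroup.mem_top _)
  letI : CommGroup (G ⧸ M) := { (inferInstance : Group (G ⧸ M)) with mul_comm := hcomm }
  have hnt : Nontrivial (G ⧸ M) := by
    rw [QuotientGroup.nontrivial_iff]
    exact hM.1
  have hs : IsSimpleGroup (G ⧸ M) := by
    refine ⟨fun H _ => ?_⟩
    have h1 : M ≤ H.comap (QuotientGroup.mk' M) := by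
      intro x hx
      rw [Subgroup.mem_comap]
      have : QuotientGroup.mk' M x = 1 := (QuotientGroup.eq_one_iff x).mpr hx
      rw [this]; exact H.one_mem
    rcases h1.lt_or_eq with h2 | h2
    · right
      have h3 := hM.2 _ h2
      rw [← Subgroup.map_comap_eq_self_of_surjective (QuotientGroup.mk'_surjective M) H, h3]
      exact Subgroup.map_top_of_surjective _ (QuotientGroup.mk'_surjective M)
    · left
      rw [← Subgroup.map_comap_eq_self_of_surjective (QuotientGroup.mk'_surjective M) H, ← h2]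
      rw [Subgroup.map_eq_bot_iff, QuotientGroup.ker_mk']
  refine ⟨M, hn, ?_⟩
  have := IsSimpleGroup.prime_card (α := G ⧸ M)
  rwa [Subgroup.index_eq_card]

theorem eq_top_of_prime_index {M K : Subgroup G} (hM : M.index.Prime) (hMK : M ≤ K) {x : G}
    (hx : x ∈ K) (hxM : x ∉ M) : K = ⊤ := by
  have h1 : M.relIndex K * K.index = M.index := Subgroup.relIndex_mul_index hMK
  have h2 : M.relIndex K ≠ 1 := by
    rw [Ne, Subgroup.relIndex_eq_one]
    exact fun h => hxM (h hx)
  have h3 : M.relIndex K = M.index :=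
    ((Nat.dvd_prime hM).mp (Dvd.intro _ h1)).resolve_left h2
  rw [h3] at h1
  have h4 : K.index = 1 := by
    have := hM.pos
    exact Nat.eq_of_mul_eq_mul_left this (by rw [h1, mul_one])
  exact Subgroup.index_eq_one.mp h4

/-- the `p`-regular part of an abelian subgroup -/
def regPart (M : Subgroup G) (hM : ∀ a ∈ M, ∀ b ∈ M, a * b = b * a) (p : ℕ) : Subgroup G where
  carrier := {m | m ∈ M ∧ (orderOf m).Coprime p}
  mul_mem' := by
    rintro a b ⟨ha, ha2⟩ ⟨hb, hb2⟩
    refine ⟨M.mul_mem ha hb, ?_⟩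
    have h1 : orderOf (a * b) ∣ orderOf a * orderOf b :=
      (Commute.orderOf_mul_dvd_lcm (hM a ha b hb)).trans (Nat.lcm_dvd_mul _ _)
    exact Nat.Coprime.coprime_dvd_left h1 (Nat.Coprime.mul_left ha2 hb2)
  one_mem' := ⟨M.one_mem, by simp⟩
  inv_mem' := by
    rintro a ⟨ha, ha2⟩
    exact ⟨M.inv_mem ha, by rwa [orderOf_inv]⟩

theorem forward [Group.IsSolvable G] (hnn : ¬ Group.IsNilpotent G)
    (hself : ∀ H : Subgroup G, (¬ ∀ a ∈ H, ∀ b ∈ H, a * b = b * a) →
      Subgroup.normalizer (H : Set G) = H) :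
    ∃ (x : G) (A : Subgroup G) (p : ℕ), p.Prime ∧ A.Normal ∧ (∀ a ∈ A, ∀ b ∈ A, a * b = b * a) ∧
      (∃ k : ℕ, orderOf x = p ^ k) ∧
      ¬ p ∣ Nat.card A ∧ (Subgroup.zpowers x).IsComplement' A ∧ x ^ p ∈ Subgroup.center G ∧
      ∀ a : G, a ∈ A → a ≠ 1 → x * a * x⁻¹ ≠ a := by
  have hnt : Nontrivial G := by
    by_contra h
    rw [not_nontrivial_iff_subsingleton] at h
    exact hnn inferInstance
  obtain ⟨M, hMn, hMp⟩ := exists_normal_prime (Group.IsSolvable.commutator_lt_top_of_nontrivial G).ne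
  set p := M.index with hp
  haveI : Fact p.Prime := ⟨hMp⟩
  have hMc : ∀ a ∈ M, ∀ b ∈ M, a * b = b * a := by
    by_contra hcon
    have h1 := hself M hcon
    rw [Subgroup.normalizer_eq_top_iff.mpr hMn] at h1
    rw [← h1, Subgroup.index_top] at hp
    exact hMp.one_lt.ne' hp
  -- the element `x`
  obtain ⟨g, hg⟩ : ∃ g, g ∉ M := by
    by_contra hcon
    push_neg at hcon
    have : M = ⊤ := eq_top_iff.mpr fun g _ => hcon g
    rw [this, Subgroup.index_top] at hp
    exact hMp.one_lt.ne' hp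
  set x := g ^ (ordCompl[p] (orderOf g)) with hxdef
  have hgp : g ^ p ∈ M := M.pow_index_mem g
  have hxM : x ∉ M := by
    intro h
    refine hg (H68.mem_of_pow_mem_of_coprime h hgp ?_)
    exact (Nat.coprime_ordCompl hMp (orderOf_pos g).ne').symm
  have hxk : x ^ (ordProj[p] (orderOf g)) = 1 := by
    rw [hxdef, ← pow_mul, mul_comm, Nat.ordProj_mul_ordCompl_eq_self, pow_orderOf_eq_one]
  obtain ⟨k, -, hk⟩ : ∃ k ≤ (orderOf g).factorization p, orderOf x = p ^ k :=
    (Nat.dvd_prime_pow hMp).mp (orderOf_dvd_of_pow_eq_one hxk)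
  set A := regPart M hMc p with hA
  have hAM : A ≤ M := fun a ha => ha.1
  have hAc : ∀ a ∈ A, ∀ b ∈ A, a * b = b * a := fun a ha b hb => hMc a (hAM ha) b (hAM hb)
  have hAn : A.Normal := by
    constructor
    rintro a ⟨ha, ha2⟩ g
    refine ⟨hMn.conj_mem a ha g, ?_⟩
    have : orderOf (g * a * g⁻¹) = orderOf a :=
      orderOf_injective (MulAut.conj g).toMonoidHom (MulAut.conj g).injective a
    rwa [this]
  have hpA : ¬ p ∣ Nat.card A := by
    intro h
    obtain ⟨a, ha⟩ := exists_prime_orderOf_dvd_card' p h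
    have h1 : (orderOf (a : G)).Coprime p := a.2.2
    rw [Subgroup.orderOf_coe, ha, Nat.coprime_self] at h1
    exact hMp.one_lt.ne' h1
  have hAcop : ∀ a ∈ A, (orderOf a).Coprime (p ^ k) := fun a ha => ha.2.pow_right k
  have hxpk : x ^ (p ^ k) = 1 := by rw [← hk, pow_orderOf_eq_one]
  have hquot : IsPGroup p (G ⧸ A) := by
    intro q
    induction q using QuotientGroup.induction_on with
    | H g =>
    set m := g ^ p with hm
    have hmM : m ∈ M := M.pow_index_mem g
    refine ⟨(orderOf m).factorization p + 1, ?_⟩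
    rw [← QuotientGroup.mk_pow, QuotientGroup.eq_one_iff]
    have h1 : g ^ p ^ ((orderOf m).factorization p + 1) = m ^ (ordProj[p] (orderOf m)) := by
      rw [hm, ← pow_mul]; congr 1; rw [pow_succ']
    rw [h1]
    refine ⟨M.pow_mem hmM _, ?_⟩
    rw [orderOf_pow, Nat.gcd_eq_right (Nat.ordProj_dvd _ _)]
    exact (Nat.coprime_ordCompl hMp (orderOf_pos m).ne').symm
  have hnil : Group.IsNilpotent (G ⧸ A) := hquot.isNilpotent
  -- `x` does not centralize `A`
  have hxA : ¬ ∀ a ∈ A, x * a * x⁻¹ = a := by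
    intro h
    apply hnn
    refine Subgroup.isNilpotent_of_ker_le_center (QuotientGroup.mk' A) ?_
    rw [QuotientGroup.ker_mk']
    intro a ha
    have h1 : Subgroup.centralizer {a} = ⊤ := by
      refine eq_top_of_prime_index (M := M) (x := x) hMp ?_ ?_ hxM
      · intro m hm
        rw [Subgroup.mem_centralizer_singleton_iff]
        exact hMc m hm a (hAM ha)
      · rw [Subgroup.mem_centralizer_singleton_iff]
        have := h a ha
        calc x * a = (x * a * x⁻¹) * x := by group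
          _ = a * x := by rw [this]
    rw [Subgroup.mem_center_iff]
    intro g
    have h2 : g ∈ Subgroup.centralizer {a} := by rw [h1]; exact Subgroup.mem_top g
    rw [Subgroup.mem_centralizer_singleton_iff] at h2
    exact h2
  -- `G = A <x>`
  have htop : A ⊔ Subgroup.zpowers x = ⊤ := by
    by_contra hne
    set H := A ⊔ Subgroup.zpowers x with hH
    have hnc : ¬ ∀ a ∈ H, ∀ b ∈ H, a * b = b * a := by
      intro h
      apply hxA
      intro a ha
      have := h x (Subgroup.mem_sup_right (Subgroup.mem_zpowers x)) a (Subgroup.mem_sup_left ha)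
      rw [this]; group
    have hs := hself H hnc
    have hAH : A ≤ H := le_sup_left
    have hcm : (H.map (QuotientGroup.mk' A)).comap (QuotientGroup.mk' A) = H := by
      rw [Subgroup.comap_map_eq, QuotientGroup.ker_mk']
      exact sup_eq_left.mpr hAH
    have hlt : H.map (QuotientGroup.mk' A) < ⊤ := by
      rw [lt_top_iff_ne_top]
      intro h
      rw [h, Subgroup.comap_top] at hcm
      exact hne hcm.symm
    have h1 := Group.normalizerCondition_of_isNilpotent (G := G ⧸ A) _ hlt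
    have h2 := Subgroup.comap_normalizer_eq_of_surjective (H.map (QuotientGroup.mk' A))
      (QuotientGroup.mk'_surjective A)
    rw [hcm, hs] at h2
    have h3 : Subgroup.normalizer ((H.map (QuotientGroup.mk' A) : Subgroup (G ⧸ A)) : Set (G ⧸ A))
        = H.map (QuotientGroup.mk' A) := by
      rw [← Subgroup.map_comap_eq_self_of_surjective (QuotientGroup.mk'_surjective A)
        (Subgroup.normalizer ((H.map (QuotientGroup.mk' A) : Subgroup (G ⧸ A)) : Set (G ⧸ A))), h2]
    exact h1.ne h3.symm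
  have hdec : ∀ g : G, ∃ a ∈ A, ∃ z ∈ Subgroup.zpowers x, a * z = g := by
    intro g
    have h1 : g ∈ A ⊔ Subgroup.zpowers x := by
      rw [htop]; exact Subgroup.mem_top g
    exact Subgroup.mem_sup_of_normal_left.mp h1
  have hxint : ∀ z ∈ Subgroup.zpowers x, z ∈ A → z = 1 := by
    intro z hz hzA
    have h1 : orderOf z ∣ p ^ k := by
      rw [← hk]; exact orderOf_dvd_of_mem_zpowers hz
    exact orderOf_eq_one_iff.mp ((hAcop z hzA).eq_one_of_dvd h1)
  -- a `φ(a)` that commutes with `x` is trivial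
  have hkey : ∀ a ∈ A, x * (x * a * x⁻¹ * a⁻¹) * x⁻¹ = x * a * x⁻¹ * a⁻¹ →
      x * a * x⁻¹ * a⁻¹ = 1 := by
    intro a ha h
    refine eq_one_of_conj (x := x) (a := a) (m := p ^ k) (by group) h hxpk ?_
    exact hAcop _ (A.mul_mem (hAn.conj_mem a ha x) (A.inv_mem ha))
  refine ⟨x, A, p, hMp, hAn, hAc, ⟨k, hk⟩, hpA, ?_, ?_, ?_⟩
  · apply Subgroup.isComplement'_of_disjoint_and_mul_eq_univ
    · rw [Subgroup.disjoint_def]
      intro z hz hzA
      exact hxint z hz hzA
    · rw [Set.eq_univ_iff_forall]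
      intro g
      obtain ⟨a, ha, z, hz, h⟩ := hdec g⁻¹
      refine ⟨z⁻¹, (Subgroup.zpowers x).inv_mem hz, a⁻¹, A.inv_mem ha, ?_⟩
      show z⁻¹ * a⁻¹ = g
      rw [← mul_inv_rev, h, inv_inv]
  · have hxpM : x ^ p ∈ M := M.pow_index_mem x
    have h1 : Subgroup.centralizer {x ^ p} = ⊤ := by
      refine eq_top_of_prime_index (M := M) (x := x) hMp ?_ ?_ hxM
      · intro m hm
        rw [Subgroup.mem_centralizer_singleton_iff]
        exact hMc m hm _ hxpM
      · rw [Subgroup.mem_centralizer_singleton_iff, ← pow_succ, ← pow_succ']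
    rw [Subgroup.mem_center_iff]
    intro g
    have h2 : g ∈ Subgroup.centralizer {x ^ p} := by rw [h1]; exact Subgroup.mem_top g
    rw [Subgroup.mem_centralizer_singleton_iff] at h2
    exact h2
  · intro c hc hc1 hcx
    apply hc1
    -- the commutator subgroup `D`
    let φ : A →* G :=
      { toFun := fun a => x * a * x⁻¹ * (a : G)⁻¹
        map_one' := by simp
        map_mul' := by
          rintro ⟨a, ha⟩ ⟨b, hb⟩
          have h1 : x * b * x⁻¹ ∈ A := hAn.conj_mem b hb x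
          show x * (a * b) * x⁻¹ * (a * b)⁻¹ = x * a * x⁻¹ * a⁻¹ * (x * b * x⁻¹ * b⁻¹)
          calc x * (a * b) * x⁻¹ * (a * b)⁻¹ = x * a * x⁻¹ * ((x * b * x⁻¹) * (b⁻¹ * a⁻¹)) := by group
            _ = x * a * x⁻¹ * ((b⁻¹ * a⁻¹) * (x * b * x⁻¹)) := by
                rw [hAc _ h1 _ (A.mul_mem (A.inv_mem hb) (A.inv_mem ha))]
            _ = x * a * x⁻¹ * ((a⁻¹ * b⁻¹) * (x * b * x⁻¹)) := by
                rw [hAc _ (A.inv_mem hb) _ (A.inv_mem ha)]
            _ = x * a * x⁻¹ * a⁻¹ * (b⁻¹ * (x * b * x⁻¹)) := by group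
            _ = x * a * x⁻¹ * a⁻¹ * ((x * b * x⁻¹) * b⁻¹) := by
                rw [hAc _ (A.inv_mem hb) _ h1]
            _ = _ := by group }
    have hDA : ∀ d ∈ φ.range, d ∈ A := by
      rintro d ⟨a, rfl⟩
      exact A.mul_mem (hAn.conj_mem a a.2 x) (A.inv_mem a.2)
    have hDx : ∀ z ∈ Subgroup.zpowers x, ∀ d ∈ φ.range, z * d * z⁻¹ ∈ φ.range := by
      rintro z hz d ⟨a, rfl⟩
      refine ⟨⟨z * a * z⁻¹, hAn.conj_mem a a.2 z⟩, ?_⟩
      obtain ⟨i, rfl⟩ := hz
      show x * (x ^ i * a * (x ^ i)⁻¹) * x⁻¹ * (x ^ i * a * (x ^ i)⁻¹)⁻¹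
        = x ^ i * (x * a * x⁻¹ * (a : G)⁻¹) * (x ^ i)⁻¹
      have h1 : x * x ^ i = x ^ i * x := by rw [← zpow_one_add, ← zpow_add_one, add_comm]
      have h2 : (x ^ i)⁻¹ * x⁻¹ = x⁻¹ * (x ^ i)⁻¹ := by rw [← mul_inv_rev, ← mul_inv_rev, h1]
      calc x * (x ^ i * a * (x ^ i)⁻¹) * x⁻¹ * (x ^ i * a * (x ^ i)⁻¹)⁻¹
          = (x * x ^ i) * a * ((x ^ i)⁻¹ * x⁻¹) * (x ^ i * (a : G)⁻¹ * (x ^ i)⁻¹) := by group
        _ = (x ^ i * x) * a * (x⁻¹ * (x ^ i)⁻¹) * (x ^ i * (a : G)⁻¹ * (x ^ i)⁻¹) := by rw [h1, h2]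
        _ = _ := by group
    have hDn : φ.range.Normal := by
      constructor
      intro d hd g
      obtain ⟨a, ha, z, hz, rfl⟩ := hdec g
      have h1 := hDx z hz d hd
      have h2 := hDA _ h1
      have h3 : a * z * d * (a * z)⁻¹ = z * d * z⁻¹ := by
        calc a * z * d * (a * z)⁻¹ = a * (z * d * z⁻¹) * a⁻¹ := by group
          _ = (z * d * z⁻¹) * a * a⁻¹ := by rw [hAc a ha _ h2]
          _ = z * d * z⁻¹ := by group
      rw [h3]; exact h1
    set H := φ.range ⊔ Subgroup.zpowers x with hH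
    have hnc : ¬ ∀ a ∈ H, ∀ b ∈ H, a * b = b * a := by
      intro h
      apply hxA
      intro a ha
      have hd : φ ⟨a, ha⟩ ∈ H := Subgroup.mem_sup_left ⟨⟨a, ha⟩, rfl⟩
      have h1 := h x (Subgroup.mem_sup_right (Subgroup.mem_zpowers x)) _ hd
      have h2 : x * a * x⁻¹ * a⁻¹ = 1 := by
        apply hkey a ha
        have h3 : x * (x * a * x⁻¹ * a⁻¹) = (x * a * x⁻¹ * a⁻¹) * x := h1
        rw [h3]; group
      exact mul_inv_eq_one.mp h2
    have hs := hself H hnc
    have hcH : c ∈ H := by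
      rw [← hs, Subgroup.mem_normalizer_iff]
      have hcH' : ∀ h ∈ H, c * h * c⁻¹ = h := by
        intro h hh
        obtain ⟨d, hd, z, hz, rfl⟩ := Subgroup.mem_sup_of_normal_left.mp hh
        have h1 : c * d = d * c := hAc c hc d (hDA d hd)
        have h2 : c * z = z * c := by
          have h4 : Commute c x := by
            show c * x = x * c
            calc c * x = (x * c * x⁻¹) * x := by rw [hcx]
              _ = x * c := by group
          obtain ⟨i, rfl⟩ := hz
          exact (h4.zpow_right i)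
        calc c * (d * z) * c⁻¹ = (c * d) * z * c⁻¹ := by group
          _ = d * (c * z) * c⁻¹ := by rw [h1]; group
          _ = d * z := by rw [h2]; group
      intro h
      constructor
      · intro hh; rw [hcH' h hh]; exact hh
      · intro hh
        have h5 := hcH' _ hh
        have h6 : c * h * c⁻¹ = h := by
          have : c * (c * h * c⁻¹) * c⁻¹ = c * h * c⁻¹ := h5
          have h7 : c * h * c⁻¹ = h := by
            have h8 := congrArg (fun t => c⁻¹ * t * c) this
            simpa [mul_assoc] using h8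
          exact h7
        rwa [h6] at hh
    obtain ⟨d, hd, z, hz, hdz⟩ := Subgroup.mem_sup_of_normal_left.mp hcH
    have hz1 : z = 1 := by
      apply hxint z hz
      have : z = d⁻¹ * c := by rw [← hdz]; group
      rw [this]
      exact A.mul_mem (A.inv_mem (hDA d hd)) hc
    rw [hz1, mul_one] at hdz
    obtain ⟨⟨a, ha⟩, rfl⟩ := hd
    rw [← hdz]
    apply hkey a ha
    have h9 : x * a * x⁻¹ * a⁻¹ = c := hdz
    rw [h9]
    exact hcx

/-- Let G be a finite solvable non-nilpotent group. Every non-abelian subgroup of G is self-normalizing if and only if G is a semidirect product ⟨x⟩ ⋉ A in which ⟨x⟩ is a p-group for some prime p, A is a normal abelian subgroup of order prime to p, x^p is central in G, and x acts fixed-point-freely on A (no non-identity element of A commutes with x). -/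
theorem result {G : Type*} [Group G] [Finite G]
    [Group.IsSolvable G] (hnn : ¬ Group.IsNilpotent G) :
    (∀ H : Subgroup G, ¬ IsMulCommutative H → Subgroup.normalizer (H : Set G) = H) ↔
    ∃ (x : G) (A : Subgroup G) (p : ℕ), p.Prime ∧ A.Normal ∧ IsMulCommutative A ∧ (∃ k : ℕ, orderOf x = p ^ k) ∧
      ¬ p ∣ Nat.card A ∧ (Subgroup.zpowers x).IsComplement' A ∧ x ^ p ∈ Subgroup.center G ∧
      ∀ a : G, a ∈ A → a ≠ 1 → x * a * x⁻¹ ≠ a := by
  constructor
  · intro h
    obtain ⟨x, A, p, h1, h2, h3, h4, h5, h6, h7, h8⟩ := forward hnn (fun H hH =>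
      h H (fun hc => hH ((comm_iff H).mp hc)))
    exact ⟨x, A, p, h1, h2, (comm_iff A).mpr h3, h4, h5, h6, h7, h8⟩
  · rintro ⟨x, A, p, h1, h2, h3, ⟨k, h4⟩, h5, h6, h7, h8⟩ H hH
    exact backward h1 h2 ((comm_iff A).mp h3) h4 h6 h7 h8 H (fun hc => hH ((comm_iff H).mpr hc))

end Cfsg.Agent.S4071
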