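import Cfsg.Statements.S4072
import Cfsg.Agent.Transfer.Frobenius
import Cfsg.Agent.H91.CoprimeAb

set_option autoImplicit false
open Cfsg

namespace Cfsg.Agent.S4072

open Cfsg.Agent.Transfer
open Subgroup

/-- A finite group in which each nontrivial subgroup is self-normalizing is solvable. -/
theorem solvable_of_selfnorm {X : Type*} [Group X] [Finite X]
    (h : ∀ H : Subgroup X, H ≠ ⊥ → normalizer (H : Set X) = H) : Group.IsSolvable X := by
  classical
  by_cases hX : Nontrivial X
  swap
  · have : Subsingleton X := not_nontrivial_iff_subsingleton.mp hX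
    infer_instance
  obtain ⟨p, hp⟩ : ∃ p, p = (Nat.card X).minFac := ⟨_, rfl⟩
  have hp1 : Nat.card X ≠ 1 := (Finite.one_lt_card).ne'
  haveI : Fact p.Prime := ⟨hp ▸ Nat.minFac_prime hp1⟩
  obtain ⟨x, hx⟩ := exists_prime_orderOf_dvd_card' (G := X) p (hp ▸ Nat.minFac_dvd (Nat.card X))
  have hx1 : x ≠ 1 := by
    rintro rfl
    rw [orderOf_one] at hx
    exact (Fact.out : p.Prime).one_lt.ne hx
  have hZ : IsPGroup p (zpowers x) := IsPGroup.of_card (n := 1) (by rw [Nat.card_zpowers, hx, pow_one])
  have hZne : zpowers x ≠ ⊥ := by simpa [zpowers_eq_bot] using hx1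
  obtain ⟨P, hP⟩ := hZ.exists_le_sylow
  have hPZ : (P : Subgroup X) = zpowers x := by
    by_contra hne
    have hlt : zpowers x < (P : Subgroup X) := lt_of_le_of_ne hP (Ne.symm hne)
    have h1 := lt_normalizer_inf_of_isPGroup P.2 hlt
    rw [h _ hZne] at h1
    exact absurd (inf_le_left : zpowers x ⊓ (P : Subgroup X) ≤ zpowers x) h1.not_ge
  have hnpc : Cfsg.HasNormalPComplement p X := by
    apply hasNPC_of_normalizer_le_centralizer P
    change normalizer ((P : Subgroup X) : Set X) ≤ centralizer ((P : Subgroup X) : Set X)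
    rw [hPZ, h _ hZne]
    intro y hy
    rw [mem_centralizer_iff]
    intro z hz
    obtain ⟨a, rfl⟩ := mem_zpowers_iff.mp hy
    obtain ⟨b, rfl⟩ := mem_zpowers_iff.mp hz
    rw [← zpow_add, ← zpow_add, add_comm]
  rw [hasNPC_iff_exists] at hnpc
  obtain ⟨N, hN, hc, k, hk⟩ := hnpc
  have hNb : N = ⊥ := by
    by_contra hne
    have h1 := h N hne
    rw [normalizer_eq_top] at h1
    rw [← h1] at hc
    have h2 : (Nat.card (⊤ : Subgroup X)) = Nat.card X := card_top
    rw [h2] at hc
    have h3 : p ∣ Nat.card X := hp ▸ Nat.minFac_dvd _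
    exact (Fact.out : p.Prime).one_lt.ne' (Nat.Coprime.eq_one_of_dvd hc.symm h3)
  have hpg : IsPGroup p X := by
    rw [hNb, index_bot] at hk
    exact IsPGroup.of_card hk
  haveI := hpg.isNilpotent
  infer_instance

/-- A finite group in which every non-abelian subgroup is self-normalizing is solvable or simple. -/
theorem result {G : Type*} [Group G] [Finite G] (hS : ∀ H : Subgroup G, ¬ IsMulCommutative H → Subgroup.normalizer (H : Set G) = H) :
    Group.IsSolvable G ∨ IsSimpleGroup G := by
  classical
  by_contra hcon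
  push Not at hcon
  obtain ⟨hns, hnsimp⟩ := hcon
  have hprop : ∀ N : Subgroup G, N.Normal → N ≠ ⊤ → IsMulCommutative N := by
    intro N hN hne
    by_contra hc
    have := hS N hc
    rw [normalizer_eq_top] at this
    exact hne this.symm
  have hsolv_ab : ∀ N : Subgroup G, IsMulCommutative N → Group.IsSolvable N := by
    intro N hN
    exact Group.isSolvable_of_comm (fun a b => mul_comm' a b)
  have hperf : commutator G = ⊤ := by
    by_contra hne
    apply hns
    rw [Group.isSolvable_iff_subgroup_quotient (commutator G)]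
    exact ⟨hsolv_ab _ (hprop _ inferInstance hne), Group.isSolvable_of_comm (fun a b => mul_comm (G := Abelianization G) a b)⟩
  have hnt : Nontrivial G := by
    by_contra h
    have : Subsingleton G := not_nontrivial_iff_subsingleton.mp h
    exact hns inferInstance
  obtain ⟨N, hN, hNb, hNt⟩ : ∃ N : Subgroup G, N.Normal ∧ N ≠ ⊥ ∧ N ≠ ⊤ := by
    by_contra h
    push Not at h
    exact hnsimp ⟨fun N hN => or_iff_not_imp_left.mpr (fun h1 => h N hN h1)⟩
  haveI := hN
  have hNab := hprop N hN hNt
  have hC : centralizer (N : Set G) = ⊤ := by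
    by_contra hne
    have hCab := hprop (centralizer (N : Set G)) inferInstance hne
    apply hns
    rw [Group.isSolvable_iff_subgroup_quotient (centralizer (N : Set G))]
    refine ⟨hsolv_ab _ hCab, ?_⟩
    apply solvable_of_selfnorm
    intro H hH
    have hNC : N ≤ centralizer (N : Set G) := by
      intro x hx
      rw [mem_centralizer_iff]
      intro y hy
      exact congrArg Subtype.val (mul_comm' (⟨y, hy⟩ : N) ⟨x, hx⟩)
    set K := H.comap (QuotientGroup.mk' (centralizer (N : Set G))) with hK
    have hCK : centralizer (N : Set G) ≤ K := by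
      intro x hx
      rw [hK, mem_comap]
      have : (QuotientGroup.mk' (centralizer (N : Set G))) x = 1 := by
        rw [← MonoidHom.mem_ker, QuotientGroup.ker_mk']; exact hx
      rw [this]; exact one_mem _
    have hKn : ¬ IsMulCommutative K := by
      intro hc
      apply hH
      rw [eq_bot_iff]
      intro y hy
      obtain ⟨x, rfl⟩ := QuotientGroup.mk'_surjective _ y
      have hxK : x ∈ K := hy
      have : x ∈ centralizer (N : Set G) := by
        rw [mem_centralizer_iff]
        intro z hz
        exact congrArg Subtype.val (mul_comm' (⟨z, hCK (hNC hz)⟩ : K) ⟨x, hxK⟩)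
      rw [mem_bot, ← MonoidHom.mem_ker, QuotientGroup.ker_mk']
      exact this
    have h1 := hS K hKn
    rw [hK, ← comap_normalizer_eq_of_surjective H (QuotientGroup.mk'_surjective _)] at h1
    exact comap_injective (QuotientGroup.mk'_surjective _) h1
  have hNZ : N ≤ center G := by
    intro x hx
    rw [mem_center_iff]
    intro g
    have : g ∈ centralizer (N : Set G) := by rw [hC]; trivial
    rw [mem_centralizer_iff] at this
    exact (this x hx).symm
  obtain ⟨q, hq⟩ : ∃ q, q = (Nat.card N).minFac := ⟨_, rfl⟩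
  have hN1 : Nat.card N ≠ 1 := by
    intro h; exact hNb (card_eq_one.mp h)
  haveI hqf : Fact q.Prime := ⟨hq ▸ Nat.minFac_prime hN1⟩
  obtain ⟨⟨z, hzN⟩, hz⟩ := exists_prime_orderOf_dvd_card' (G := N) q (hq ▸ Nat.minFac_dvd (Nat.card N))
  have hzo : orderOf z = q := by rw [← hz]; exact (orderOf_mk z hzN).symm
  have hzZ : z ∈ center G := hNZ hzN
  have hzn : ∀ H : Subgroup G, ¬ IsMulCommutative H → z ∈ H := by
    intro H hH
    have h1 := hS H hH
    have : z ∈ normalizer (H : Set G) := by
      apply center_le_normalizer; exact hzZ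
    rwa [h1] at this
  have hnpc : Cfsg.HasNormalPComplement q G := by
    apply hasNPC_of_frobenius
    intro U hU x hx hxo
    by_contra hxc
    have hUab : IsMulCommutative U := by
      by_contra hc
      have h1 := hS U hc
      rw [h1] at hx
      apply hxc
      obtain ⟨k, hk⟩ := hU.exists_card_eq
      have h2 : orderOf x ∣ q ^ k := by
        rw [← hk, ← orderOf_mk x hx]; exact orderOf_dvd_natCard _
      have h3 : orderOf x = 1 := Nat.Coprime.eq_one_of_dvd (hxo.pow_right k) h2
      rw [orderOf_eq_one_iff] at h3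
      rw [h3]; exact one_mem _
    have hcop : (Nat.card (zpowers x)).Coprime (Nat.card U) := by
      obtain ⟨k, hk⟩ := hU.exists_card_eq
      rw [hk, Nat.card_zpowers]
      exact hxo.pow_right k
    have hxn : zpowers x ≤ normalizer (U : Set G) := by rw [zpowers_le]; exact hx
    obtain ⟨d1, d2⟩ := Cfsg.Agent.H91.abelian_decomp (zpowers x) U hxn hcop
    set W := ⁅U, zpowers x⁆ with hW
    have hWU : W ≤ U := by rw [← d2]; exact le_sup_right
    have hWx : zpowers x ≤ normalizer (W : Set G) := by
      rw [hW]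
      exact normalizer_commutator_ge_right _ _
    have hna : ¬ IsMulCommutative (W ⊔ zpowers x : Subgroup G) := by
      intro hc
      apply hxc
      have h1 : U ≤ centralizer (zpowers x : Set G) := by
        conv_lhs => rw [← d2]
        refine sup_le inf_le_right ?_
        intro w hw
        rw [mem_centralizer_iff]
        intro y hy
        exact congrArg Subtype.val (mul_comm' (⟨y, (le_sup_right : zpowers x ≤ W ⊔ zpowers x) hy⟩ : (W ⊔ zpowers x : Subgroup G)) ⟨w, (le_sup_left : W ≤ W ⊔ zpowers x) hw⟩)
      rw [mem_centralizer_iff]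
      intro u hu
      exact (mem_centralizer_iff.mp (h1 hu) x (mem_zpowers x)).symm
    have hzW := hzn _ hna
    rw [← SetLike.mem_coe, Subgroup.coe_mul_of_right_le_normalizer_left W (zpowers x) hWx] at hzW
    obtain ⟨w, hw, y, hy, hwy⟩ := hzW
    simp only at hwy
    have hcz : Commute z y := (mem_center_iff.mp hzZ y).symm
    obtain ⟨n, hn⟩ := hU.exists_card_eq
    have hwq : w ^ (q ^ (n + 1)) = 1 := by
      have h1 : w ^ q ^ n = 1 := by
        rw [← hn]
        have : (⟨w, hWU hw⟩ : U) ^ Nat.card U = 1 := pow_card_eq_one'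
        exact congrArg Subtype.val this
      rw [pow_succ, pow_mul, h1, one_pow]
    have hzq : z ^ (q ^ (n + 1)) = 1 := by
      rw [← orderOf_dvd_iff_pow_eq_one, hzo]
      exact dvd_pow_self q (Nat.succ_ne_zero n)
    have hwe : w = z * y⁻¹ := by rw [← hwy]; group
    have hyq : y ^ (q ^ (n + 1)) = 1 := by
      rw [hwe, hcz.inv_right.mul_pow, hzq, one_mul, inv_pow, inv_eq_one] at hwq
      exact hwq
    have hy1 : y = 1 := by
      rw [← orderOf_eq_one_iff]
      have h1 : orderOf y ∣ q ^ (n + 1) := orderOf_dvd_of_pow_eq_one hyq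
      have h2 : orderOf y ∣ orderOf x := orderOf_dvd_of_mem_zpowers hy
      exact Nat.Coprime.eq_one_of_dvd ((Nat.Coprime.coprime_dvd_left h2 hxo).pow_right _) h1
    have hzw : z = w := by rw [← hwy, hy1, mul_one]
    have hz1 : z ∈ (U ⊓ centralizer (zpowers x : Set G)) ⊓ W := by
      refine ⟨⟨hzw ▸ hWU hw, ?_⟩, hzw ▸ hw⟩
      apply center_le_centralizer; exact hzZ
    rw [d1, mem_bot] at hz1
    rw [hz1, orderOf_one] at hzo
    exact (Fact.out : q.Prime).one_lt.ne hzo
  rw [hasNPC_iff_exists] at hnpc
  obtain ⟨M, hM, hc, k, hk⟩ := hnpc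
  haveI := hM
  have hMt : M = ⊤ := by
    by_contra hne
    have hpg : IsPGroup q (G ⧸ M) := IsPGroup.of_card (n := k) (by rw [← hk]; rfl)
    haveI := hpg.isNilpotent
    haveI : Nontrivial (G ⧸ M) := by
      rw [QuotientGroup.nontrivial_iff]; exact hne
    have h1 := Group.IsSolvable.commutator_lt_top_of_nontrivial (G ⧸ M)
    apply h1.ne
    have h2 : (⊤ : Subgroup (G ⧸ M)) = (⊤ : Subgroup G).map (QuotientGroup.mk' M) :=
      (map_top_of_surjective _ (QuotientGroup.mk'_surjective _)).symm
    rw [_root_.commutator_def, h2, ← map_commutator, ← _root_.commutator_def, hperf]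
  rw [hMt, card_top] at hc
  have h1 : q ∣ Nat.card G := by rw [← hzo]; exact orderOf_dvd_natCard z
  exact (Fact.out : q.Prime).one_lt.ne' (Nat.Coprime.eq_one_of_dvd hc.symm h1)

end Cfsg.Agent.S4072
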