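import Cfsg.Statements.S4073
import Cfsg.Agent.FT.Base
import Cfsg.Agent.H68.SelfNormE

set_option autoImplicit false
open Cfsg

namespace Cfsg.Agent.S4073

/-- Let G be a finite non-abelian simple group. Every non-abelian subgroup of G is self-normalizing if and only if G is isomorphic to PSL₂(2ⁿ) for some n ≥ 2 with 2ⁿ − 1 prime (this includes the alternating group of degree 5 as PSL₂(4)). -/
theorem result {G : Type*} [Group G] [Finite G] [IsSimpleGroup G]
    (hna : ¬ IsMulCommutative G) :
    (∀ H : Subgroup G, ¬ IsMulCommutative H → Subgroup.normalizer (H : Set G) = H) ↔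
    ∃ n : ℕ, 2 ≤ n ∧ (2 ^ n - 1).Prime ∧ Nonempty (G ≃* Matrix.ProjectiveSpecialLinearGroup (Fin 2) (GaloisField 2 n)) := by
  refine H68.SN.classification hna ?_ (fun X hX => Cfsg.Agent.FT.solvable_of_odd hX)
  by_contra h
  have hodd : Odd (Nat.card G) := by
    rw [← Nat.not_even_iff_odd, even_iff_two_dvd]; exact h
  exact hna ⟨⟨(IsSimpleGroup.comm_iff_isSolvable (G := G)).2 (Cfsg.Agent.FT.solvable_of_odd hodd)⟩⟩

end Cfsg.Agent.S4073
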