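import Cfsg.Statements.S4074
import Mathlib.Tactic
import Mathlib.GroupTheory.PGroup

set_option autoImplicit false
open Cfsg

namespace Cfsg.Agent.S4074

open Subgroup DihedralGroup

/-- For n > 2, every non-abelian subgroup of the dihedral group of order 2n is self-normalizing if and only if n = 4 or n is odd. -/
theorem result (n : ℕ) (hn : 2 < n) :
    (∀ H : Subgroup (DihedralGroup n), ¬ IsMulCommutative H → Subgroup.normalizer (H : Set (DihedralGroup n)) = H) ↔
    (n = 4 ∨ Odd n) := by
  have : NeZero n := ⟨by omega⟩
  constructor
  · intro h
    by_contra hcon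
    push Not at hcon
    obtain ⟨hn4, hodd⟩ := hcon
    rw [Nat.not_odd_iff_even] at hodd
    have h2 : 2 ∣ n := hodd.two_dvd
    let c : ZMod n →+* ZMod 2 := ZMod.castHom h2 (ZMod 2)
    have hneg : ∀ x : ZMod 2, -x = x := by decide
    let φ : DihedralGroup n →* Multiplicative (ZMod 2) :=
      { toFun := fun g => match g with
          | r i => Multiplicative.ofAdd (c i)
          | sr i => Multiplicative.ofAdd (c i)
        map_one' := by
          show Multiplicative.ofAdd (c 0) = 1
          rw [map_zero]; rfl
        map_mul' := by
          rintro (i | i) (j | j)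
          · show Multiplicative.ofAdd (c (i + j)) = Multiplicative.ofAdd (c i + c j)
            rw [map_add]
          · show Multiplicative.ofAdd (c (j - i)) = Multiplicative.ofAdd (c i + c j)
            rw [map_sub, sub_eq_add_neg, hneg, add_comm]
          · show Multiplicative.ofAdd (c (i + j)) = Multiplicative.ofAdd (c i + c j)
            rw [map_add]
          · show Multiplicative.ofAdd (c (j - i)) = Multiplicative.ofAdd (c i + c j)
            rw [map_sub, sub_eq_add_neg, hneg, add_comm] }
    have hr2 : (r 2 : DihedralGroup n) ∈ φ.ker := by
      rw [MonoidHom.mem_ker]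
      show Multiplicative.ofAdd (c 2) = 1
      have : c 2 = 0 := by
        rw [map_ofNat]; decide
      rw [this]; rfl
    have hs0 : (sr 0 : DihedralGroup n) ∈ φ.ker := by
      rw [MonoidHom.mem_ker]
      show Multiplicative.ofAdd (c 0) = 1
      rw [map_zero]; rfl
    have hr1 : (r 1 : DihedralGroup n) ∉ φ.ker := by
      rw [MonoidHom.mem_ker]
      show ¬ Multiplicative.ofAdd (c 1) = 1
      rw [map_one]; decide
    have hnc : ¬ IsMulCommutative φ.ker := by
      intro hc
      have h3 := hc.is_comm.comm ⟨_, hr2⟩ ⟨_, hs0⟩
      have h4 : (r 2 : DihedralGroup n) * sr 0 = sr 0 * r 2 := congrArg Subtype.val h3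
      rw [r_mul_sr, sr_mul_r, sr.injEq] at h4
      have h5 : (4 : ZMod n) = 0 := by
        linear_combination -h4
      have h6 : ((4 : ℕ) : ZMod n) = 0 := by exact_mod_cast h5
      rw [ZMod.natCast_eq_zero_iff] at h6
      have := Nat.le_of_dvd (by norm_num) h6
      have h2' := h2
      omega
    have h7 := h _ hnc
    rw [Subgroup.normalizer_eq_top] at h7
    rw [← h7] at hr1
    exact hr1 (mem_top _)
  · rintro (rfl | hodd) H hH
    · -- order 8
      have hHtop : H = ⊤ := by
        by_contra hne
        apply hH
        have hc := Subgroup.card_subgroup_dvd_card H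
        rw [DihedralGroup.nat_card] at hc
        have hlt : Nat.card H < 8 := by
          refine lt_of_le_of_ne (Nat.le_of_dvd (by norm_num) hc) ?_
          intro h8
          apply hne
          apply Subgroup.eq_top_of_card_eq
          rw [h8, DihedralGroup.nat_card]
        have hcases : Nat.card H = 1 ∨ Nat.card H = 2 ∨ Nat.card H = 4 := by
          have hpos : 0 < Nat.card H := Nat.card_pos
          interval_cases hx : Nat.card H <;> simp_all
        rcases hcases with h1 | h1 | h1
        · have := (Nat.card_eq_one_iff_unique.1 h1).1
          exact ⟨⟨fun a b => Subsingleton.elim _ _⟩⟩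
        · have : Fact (Nat.Prime 2) := ⟨Nat.prime_two⟩
          have := isCyclic_of_prime_card h1
          infer_instance
        · have : Fact (Nat.Prime 2) := ⟨Nat.prime_two⟩
          exact IsPGroup.isMulCommutative_of_card_eq_prime_sq (p := 2) (by rw [h1]; norm_num)
      subst hHtop
      exact top_le_iff.1 le_normalizer
    · -- n odd
      have hs : ∃ i : ZMod n, (sr i : DihedralGroup n) ∈ H := by
        by_contra hno
        push Not at hno
        apply hH
        refine ⟨⟨?_⟩⟩
        rintro ⟨a, ha⟩ ⟨b, hb⟩
        rcases a with i | i
        · rcases b with j | j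
          · ext
            show (r i : DihedralGroup n) * r j = r j * r i
            rw [r_mul_r, r_mul_r, add_comm]
          · exact absurd hb (hno j)
        · exact absurd ha (hno i)
      obtain ⟨i, hi⟩ := hs
      obtain ⟨m, hm⟩ := hodd
      have hrot : ∀ k : ZMod n, (r k : DihedralGroup n) ∈ Subgroup.normalizer (H : Set (DihedralGroup n)) →
          (r k : DihedralGroup n) ∈ H := by
        intro k hk
        have h1 := (Subgroup.mem_set_normalizer_iff.1 hk (sr i)).1 hi
        have h2 : (r k : DihedralGroup n) * sr i * (r k)⁻¹ = sr (i - 2 * k) := by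
          rw [inv_r, r_mul_sr, sr_mul_r, sr.injEq]; ring
        rw [h2] at h1
        have h3 := mul_mem h1 hi
        rw [sr_mul_sr] at h3
        have h4 : i - (i - 2 * k) = 2 * k := by ring
        rw [h4] at h3
        have h5 := pow_mem h3 (m + 1)
        rw [r_pow] at h5
        have h6 : 2 * k * ((m + 1 : ℕ) : ZMod n) = k := by
          have : ((2 * m + 1 : ℕ) : ZMod n) = 0 := by rw [← hm]; exact ZMod.natCast_self n
          push_cast at this ⊢
          linear_combination k * this
        rwa [h6] at h5
      apply le_antisymm _ le_normalizer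
      rintro (k | k) hk
      · exact hrot k hk
      · have h1 : (r (i - k) : DihedralGroup n) ∈ Subgroup.normalizer (H : Set (DihedralGroup n)) := by
          have := mul_mem hk (le_normalizer hi)
          rwa [sr_mul_sr] at this
        have h2 := hrot _ h1
        have h3 := mul_mem h2 hi
        rw [r_mul_sr] at h3
        have h4 : i - (i - k) = k := by ring
        rwa [h4] at h3

end Cfsg.Agent.S4074
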