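import Cfsg.Statements.S4075
import Mathlib.GroupTheory.Sylow
import Mathlib.GroupTheory.Nilpotent
import Mathlib.GroupTheory.Index

set_option autoImplicit false
open Cfsg

namespace Cfsg.Agent.S4075

/-- Let G be a finite nilpotent group. Every non-abelian subgroup of G is self-normalizing if and only if G is abelian or G is a minimal non-abelian p-group for some prime p (non-abelian of prime-power order with every proper subgroup abelian). -/
theorem result {G : Type*} [Group G] [Finite G]
    [Group.IsNilpotent G] :
    (∀ H : Subgroup G, ¬ IsMulCommutative H → Subgroup.normalizer (H : Set G) = H) ↔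
    (IsMulCommutative G ∨ (IsPrimePow (Nat.card G) ∧ ¬ IsMulCommutative G ∧ ∀ H : Subgroup G, H ≠ ⊤ → IsMulCommutative H)) := by
  have key : (∀ H : Subgroup G, ¬ IsMulCommutative H → Subgroup.normalizer (H : Set G) = H) ↔
      ∀ H : Subgroup G, H ≠ ⊤ → IsMulCommutative H := by
    constructor
    · intro h H hH
      by_contra hna
      have h1 := h H hna
      have h2 : NormalizerCondition G := Group.normalizerCondition_of_isNilpotent
      have h3 := (normalizerCondition_iff_only_full_group_self_normalizing.1 h2) H h1
      exact hH h3
    · intro h H hna
      have : H = ⊤ := by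
        by_contra hH
        exact hna (h H hH)
      subst this
      exact top_le_iff.1 Subgroup.le_normalizer
  rw [key]
  constructor
  · intro h
    by_cases hc : IsMulCommutative G
    · exact Or.inl hc
    · right
      refine ⟨?_, hc, h⟩
      -- if no Sylow subgroup is everything, all are abelian, and so is `G`
      by_cases hex : ∃ (p : ℕ) (_ : Fact p.Prime) (P : Sylow p G), (P : Subgroup G) = ⊤
      · obtain ⟨p, hp, P, hP⟩ := hex
        have h1 : IsPGroup p G := by
          have h2 := P.isPGroup'
          rw [hP] at h2
          exact h2.of_equiv Subgroup.topEquiv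
        obtain ⟨n, hn⟩ := IsPGroup.iff_card.1 h1
        rw [hn]
        refine hp.out.isPrimePow.pow ?_
        rintro rfl
        rw [pow_zero] at hn
        apply hc
        have := (Nat.card_eq_one_iff_unique.1 hn).1
        exact ⟨⟨fun a b => Subsingleton.elim _ _⟩⟩
      · exfalso
        push Not at hex
        apply hc
        have h1 : ∀ (p : ℕ) [Fact p.Prime] (P : Sylow p G), (P : Subgroup G).Normal := by
          intro p hp P
          infer_instance
        let e := Sylow.directProductOfNormal (G := G) (fun {p hp} P => h1 p P)
        refine ⟨⟨fun a b => ?_⟩⟩
        apply e.symm.injective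
        rw [map_mul, map_mul]
        funext p P
        haveI : Fact (Nat.Prime (p : ℕ)) := ⟨Nat.prime_of_mem_primeFactors p.2⟩
        have h2 := h (P : Subgroup G) (hex p inferInstance P)
        exact h2.is_comm.comm _ _
  · rintro (h | ⟨-, -, h⟩)
    · intro H _
      infer_instance
    · exact h

end Cfsg.Agent.S4075
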