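import Cfsg.Statements.S4080
import Mathlib.Tactic
import Mathlib.LinearAlgebra.Matrix.Charpoly.Coeff
import Mathlib.LinearAlgebra.Matrix.Charpoly.FiniteField
import Mathlib.Algebra.CharP.Lemmas
import Mathlib.Algebra.Module.ZMod
import Mathlib.LinearAlgebra.Matrix.ToLin

set_option autoImplicit false
open Cfsg

namespace Cfsg.Agent.S4080

theorem ring_aux {R : Type*} [Ring R] {p : ℕ} (hpp : p.Prime) (hp : 3 < p) (N B : R)
    (hNB : N * N = (p : R) * B) (hp2 : (p : R) * (p : R) = 0) (h : (N + 1) ^ p = 1) : (p : R) * N = 0 := by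
  have hpN : (p : R) * (N * N) = 0 := by
    rw [hNB, ← mul_assoc, hp2, zero_mul]
  have hN4 : N ^ 4 = 0 := by
    have : N ^ 4 = (N * N) * (N * N) := by noncomm_ring
    rw [this]
    nth_rewrite 1 [hNB]
    rw [(Nat.cast_commute p B).eq, mul_assoc, hpN, mul_zero]
  have hexp := (Commute.one_right N).add_pow p
  rw [h] at hexp
  obtain ⟨k, hk⟩ : ∃ k, p + 1 = k + 2 := ⟨p - 1, by omega⟩
  rw [hk, Finset.sum_range_succ', Finset.sum_range_succ', Finset.sum_eq_zero] at hexp
  · simp only [one_pow, mul_one, pow_zero, zero_add, pow_one, Nat.choose_zero_right, Nat.cast_one,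
      Nat.choose_one_right] at hexp
    rw [right_eq_add] at hexp
    rw [(Nat.cast_commute p N).eq]; exact hexp
  · intro m hm
    rw [Finset.mem_range] at hm
    have e2 : m + 1 + 1 ≤ p := by omega
    rcases Nat.lt_or_ge (m + 1 + 1) p with hlt | hge
    · have h7 : p ∣ Nat.choose p (m + 1 + 1) := hpp.dvd_choose_self (by omega) hlt
      obtain ⟨d, hd⟩ := h7
      rw [hd, Nat.cast_mul, one_pow, mul_one, ← mul_assoc]
      have h9 : N ^ (m + 1 + 1) * (p : R) = 0 := by
        rw [← (Nat.cast_commute p (N ^ (m + 1 + 1))).eq]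
        have : N ^ (m + 1 + 1) = (N * N) * N ^ m := by
          rw [← pow_two, ← pow_add]; congr 1; omega
        rw [this, ← mul_assoc, hpN, zero_mul]
      rw [h9, zero_mul]
    · have h8 : m + 1 + 1 = 4 + (p - 4) := by omega
      rw [h8, pow_add, hN4]; simp

theorem mat_aux {p : ℕ} [Fact p.Prime] (hp : 3 < p) (M : Matrix (Fin 2) (Fin 2) (ZMod (p ^ 2))) (hM : M ^ p = 1) :
    (p : Matrix (Fin 2) (Fin 2) (ZMod (p ^ 2))) * (M - 1) = 0 := by
  have hpp : p.Prime := Fact.out
  have : NeZero (p ^ 2) := ⟨pow_ne_zero _ hpp.ne_zero⟩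
  set N := M - 1 with hN
  have hMN : M = N + 1 := by rw [hN]; abel
  let c : ZMod (p ^ 2) →+* ZMod p := ZMod.castHom (dvd_pow_self p two_ne_zero) (ZMod p)
  set Mb := c.mapMatrix M with hMb
  set Nb := c.mapMatrix N with hNb
  have h1 : Nb ^ p = 0 := by
    have e1 : Nb = Mb - 1 := by
      rw [hNb, hN, map_sub, map_one]
    rw [e1, sub_pow_char_of_commute (p := p) (Commute.one_right Mb), one_pow, hMb, ← map_pow, hM, map_one,
      sub_self]
  have hdet : Nb.det = 0 := by
    have : Nb.det ^ p = 0 := by rw [← Matrix.det_pow, h1, Matrix.det_zero]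
    exact pow_eq_zero_iff hpp.ne_zero |>.1 this
  have htr : Nb.trace = 0 := by
    have h2 : IsNilpotent Nb := ⟨p, h1⟩
    have h3 := Matrix.isNilpotent_trace_of_isNilpotent h2
    exact h3.eq_zero
  have hsq : Nb * Nb = 0 := by
    rw [Matrix.det_fin_two] at hdet
    rw [Matrix.trace_fin_two] at htr
    ext i j
    fin_cases i <;> fin_cases j <;>
      simp only [Matrix.mul_apply, Fin.sum_univ_two, Fin.zero_eta, Fin.mk_one, Fin.isValue, Matrix.zero_apply]
    · linear_combination (Nb 0 0) * htr - hdet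
    · linear_combination (Nb 0 1) * htr
    · linear_combination (Nb 1 0) * htr
    · linear_combination (Nb 1 1) * htr - hdet
  have hker : ∀ z : ZMod (p ^ 2), c z = 0 → ∃ b : ZMod (p ^ 2), z = (p : ZMod (p ^ 2)) * b := by
    intro z hz
    have h2 : ((z.val : ℕ) : ZMod p) = 0 := by
      have : c ((z.val : ℕ) : ZMod (p ^ 2)) = ((z.val : ℕ) : ZMod p) := map_natCast c _
      rw [← this, ZMod.natCast_zmod_val]; exact hz
    rw [ZMod.natCast_eq_zero_iff] at h2
    obtain ⟨d, hd⟩ := h2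
    refine ⟨(d : ZMod (p ^ 2)), ?_⟩
    rw [← ZMod.natCast_zmod_val z, hd]; push_cast; rfl
  have hNsq : ∀ i j, ∃ b : ZMod (p ^ 2), (N * N) i j = (p : ZMod (p ^ 2)) * b := by
    intro i j
    apply hker
    have : c.mapMatrix (N * N) i j = 0 := by
      rw [map_mul, ← hNb, hsq]; rfl
    exact this
  choose B hB using hNsq
  have hpM : (p : Matrix (Fin 2) (Fin 2) (ZMod (p ^ 2))) = (p : ZMod (p ^ 2)) • 1 := by
    rw [← nsmul_one, ← Nat.cast_smul_eq_nsmul (ZMod (p ^ 2))]
  have hpp0 : (p : ZMod (p ^ 2)) * p = 0 := by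
    have := ZMod.natCast_self (p ^ 2)
    push_cast at this
    rw [← this]; ring
  have hNB : N * N = (p : Matrix (Fin 2) (Fin 2) (ZMod (p ^ 2))) * (Matrix.of B) := by
    rw [hpM, Matrix.smul_mul, Matrix.one_mul]
    ext i j; rw [hB]; rfl
  refine ring_aux hpp hp N (Matrix.of B) hNB ?_ (by rw [← hMN]; exact hM)
  rw [hpM, Matrix.smul_mul, Matrix.one_mul, smul_smul, hpp0, zero_smul]

/-- Let p > 3 be a prime and L the direct product of two cyclic groups of order p². Every automorphism of L of order p fixes every element of order p of L. -/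
theorem result {p : ℕ} [Fact p.Prime] (hp : 3 < p)
    (a : MulAut (Multiplicative (ZMod (p ^ 2) × ZMod (p ^ 2)))) (ha : orderOf a = p)
    (x : Multiplicative (ZMod (p ^ 2) × ZMod (p ^ 2))) (hx : orderOf x = p) : a x = x := by
  have hpp : p.Prime := Fact.out
  have : NeZero (p ^ 2) := ⟨pow_ne_zero _ hpp.ne_zero⟩
  let g : (ZMod (p ^ 2) × ZMod (p ^ 2)) →+ (ZMod (p ^ 2) × ZMod (p ^ 2)) :=
    { toFun := fun v => Multiplicative.toAdd (a (Multiplicative.ofAdd v))
      map_zero' := by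
        rw [ofAdd_zero, map_one, toAdd_one]
      map_add' := by
        intro v w
        rw [ofAdd_add, map_mul, toAdd_mul] }
  let f : (ZMod (p ^ 2) × ZMod (p ^ 2)) →ₗ[ZMod (p ^ 2)] (ZMod (p ^ 2) × ZMod (p ^ 2)) := g.toZModLinearMap (p ^ 2)
  have hf : ∀ v, f v = Multiplicative.toAdd (a (Multiplicative.ofAdd v)) := fun v => rfl
  have hfk : ∀ (k : ℕ) v, (f ^ k) v = Multiplicative.toAdd ((a ^ k) (Multiplicative.ofAdd v)) := by
    intro k
    induction k with
    | zero => intro v; simp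
    | succ k ih =>
      intro v
      rw [pow_succ' f k, pow_succ' a k, Module.End.mul_apply, ih, hf, MulAut.mul_apply]
      rfl
  have hfp : f ^ p = 1 := by
    ext1 <;> ext <;> simp [hfk, ← ha, pow_orderOf_eq_one]
  let e := LinearMap.toMatrixAlgEquiv (Module.Basis.finTwoProd (ZMod (p ^ 2)))
  have h1 := mat_aux hp (e f) (by rw [← map_pow, hfp, map_one])
  have h2 : (p : Module.End (ZMod (p ^ 2)) (ZMod (p ^ 2) × ZMod (p ^ 2))) * (f - 1) = 0 := by
    apply e.injective
    rw [map_mul, map_sub, map_one, map_zero, map_natCast]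
    exact h1
  -- `x = p w`
  have h3 : ∀ z : ZMod (p ^ 2), (p : ZMod (p ^ 2)) * z = 0 → ∃ b : ZMod (p ^ 2), z = (p : ZMod (p ^ 2)) * b := by
    intro z hz
    have h4 : ((p * z.val : ℕ) : ZMod (p ^ 2)) = 0 := by
      push_cast
      rw [ZMod.natCast_zmod_val]; exact hz
    rw [ZMod.natCast_eq_zero_iff] at h4
    have h4' : p * p ∣ p * z.val := by rw [← pow_two]; exact h4
    obtain ⟨d, hd⟩ := Nat.dvd_of_mul_dvd_mul_left hpp.pos h4'
    refine ⟨(d : ZMod (p ^ 2)), ?_⟩
    rw [← ZMod.natCast_zmod_val z, hd]; push_cast; rfl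
  set v := Multiplicative.toAdd x with hv
  have h5 : p • v = 0 := by
    rw [hv, ← toAdd_pow, orderOf_dvd_iff_pow_eq_one.1 (dvd_of_eq hx), toAdd_one]
  obtain ⟨b1, hb1⟩ := h3 v.1 (by
    have := congrArg Prod.fst h5
    simpa using this)
  obtain ⟨b2, hb2⟩ := h3 v.2 (by
    have := congrArg Prod.snd h5
    simpa using this)
  have h6 : v = p • ((b1, b2) : ZMod (p ^ 2) × ZMod (p ^ 2)) := by
    ext
    · simp [hb1]
    · simp [hb2]
  have h7 : f v - v = 0 := by
    rw [h6, map_nsmul, ← nsmul_sub]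
    have h8 := LinearMap.congr_fun h2 ((b1, b2) : ZMod (p ^ 2) × ZMod (p ^ 2))
    rw [Module.End.mul_apply] at h8
    simpa using h8
  have h9 : f v = v := sub_eq_zero.1 h7
  rw [hf] at h9
  exact h9

end Cfsg.Agent.S4080
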