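import Cfsg.Statements.S4081
import Cfsg.Agent.H68.ThreeOrbits
import Cfsg.Agent.H68.FourOrbits
import Cfsg.Agent.H49.Core
import Cfsg.Agent.Frob.Complement
import Cfsg.Agent.Solv.Core
import Cfsg.Agent.Solv.MinNormal

set_option autoImplicit false
open Cfsg

namespace Cfsg.Agent.S4081

open Subgroup
open Cfsg.Agent.H68.FO
open Cfsg.Agent.H68.PR

theorem po_of_card {G : Type*} [Group G] [Finite G]
    (h : Nat.card (MulAction.orbitRel.Quotient (MulAut G) G) ≤ (Nat.card G).primeFactors.card + 1) :
    PO G ∧ (∀ x y : G, orderOf x = orderOf y → ∃ α : MulAut G, α x = y) ∧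
      Nat.card (MulAction.orbitRel.Quotient (MulAut G) G) = (Nat.card G).primeFactors.card + 1 := by
  classical
  -- the order function on orbits
  let φ : MulAction.orbitRel.Quotient (MulAut G) G → ℕ :=
    Quotient.lift (fun g : G => orderOf g) (by
      rintro a b ⟨α, hα⟩
      have hα' : α b = a := hα
      show orderOf a = orderOf b
      rw [← hα']
      exact MulEquiv.orderOf_eq α b)
  have hφ : ∀ g : G, φ (Quotient.mk _ g) = orderOf g := fun g => rfl
  have hfin : Finite (MulAction.orbitRel.Quotient (MulAut G) G) := Quotient.finite _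
  have := Fintype.ofFinite (MulAction.orbitRel.Quotient (MulAut G) G)
  set s : Finset ℕ := insert 1 (Nat.card G).primeFactors with hs
  have hs1 : 1 ∉ (Nat.card G).primeFactors := fun h0 => Nat.not_prime_one (Nat.prime_of_mem_primeFactors h0)
  have hscard : s.card = (Nat.card G).primeFactors.card + 1 := Finset.card_insert_of_notMem hs1
  have hsub : s ⊆ Finset.univ.image φ := by
    intro d hd
    rw [Finset.mem_image]
    rw [hs, Finset.mem_insert] at hd
    rcases hd with rfl | hd
    · exact ⟨Quotient.mk _ 1, Finset.mem_univ _, by rw [hφ, orderOf_one]⟩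
    · have : Fact d.Prime := ⟨Nat.prime_of_mem_primeFactors hd⟩
      obtain ⟨g, hg⟩ := exists_prime_orderOf_dvd_card' d (Nat.dvd_of_mem_primeFactors hd)
      exact ⟨Quotient.mk _ g, Finset.mem_univ _, by rw [hφ, hg]⟩
  rw [Nat.card_eq_fintype_card] at h ⊢
  have himle : (Finset.univ.image φ).card ≤ Fintype.card (MulAction.orbitRel.Quotient (MulAut G) G) := by
    rw [← Finset.card_univ]
    exact Finset.card_image_le
  have hle := Finset.card_le_card hsub
  have hseq : s = Finset.univ.image φ := Finset.eq_of_subset_of_card_le hsub (by omega)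
  have hinj : Function.Injective φ := by
    have h5 : (Finset.univ.image φ).card = (Finset.univ : Finset (MulAction.orbitRel.Quotient (MulAut G) G)).card := by
      rw [Finset.card_univ]; omega
    have h6 := Finset.card_image_iff.1 h5
    rw [Finset.coe_univ, Set.injOn_univ] at h6
    exact h6
  refine ⟨?_, ?_, by omega⟩
  · intro g hg
    have h5 : orderOf g ∈ s := by
      rw [hseq]
      exact Finset.mem_image.2 ⟨Quotient.mk _ g, Finset.mem_univ _, hφ g⟩
    rw [hs, Finset.mem_insert] at h5
    rcases h5 with h5 | h5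
    · exact absurd (orderOf_eq_one_iff.1 h5) hg
    · exact Nat.prime_of_mem_primeFactors h5
  · intro x y hxy
    have h5 : φ (Quotient.mk _ y) = φ (Quotient.mk _ x) := by rw [hφ, hφ, hxy]
    have h6 := Quotient.exact (hinj h5)
    obtain ⟨α, hα⟩ := h6
    exact ⟨α, hα⟩

theorem primitive_root_mul {p q : ℕ} [hpF : Fact p.Prime] [hqF : Fact q.Prime] (hpq : p ≠ q)
    {V : Type*} [CommGroup V] [Finite V] [Nontrivial V] (hexp : ∀ v : V, v ^ p = 1)
    (c : MulAut V) (hc : c ^ q = 1) (hc1 : ∃ v, c v ≠ v)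
    (hA : ∀ v w : V, v ≠ 1 → w ≠ 1 → ∃ (A : V ≃* V) (i : ℕ), A v = w ∧ ∀ u, c (A u) = A ((c ^ i) u))
    (hB : ∀ i, 1 ≤ i → i < q → ∃ A : V ≃* V, ∀ u, (c ^ i) (A u) = A (c u)) :
    orderOf (p : ZMod q) = q - 1 := by
  have md : Module (ZMod p) (Additive V) := AddCommGroup.zmodModule (fun v => hexp (Additive.toMul v))
  have hit : ∀ (z : MulAut V) (k : ℕ) (u : V), (z^[k]) u = (z ^ k) u := by
    intro z k
    induction k with
    | zero => intro u; rfl
    | succ k ih => intro u; rw [Function.iterate_succ_apply, ih, pow_succ]; rfl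
  have hpow : ∀ (k : ℕ) (v : Additive V),
      (((MonoidHom.toAdditive c.toMonoidHom).toZModLinearMap p : Module.End (ZMod p) (Additive V)) ^ k) v =
      Additive.ofMul ((c ^ k) (Additive.toMul v)) := by
    intro k v
    rw [toZMod_pow, ← hit]
    rfl
  refine primitive_root hpq ((MonoidHom.toAdditive c.toMonoidHom).toZModLinearMap p : Module.End (ZMod p) (Additive V))
    ?_ ?_ ?_ ?_
  · ext v
    rw [hpow, hc]; rfl
  · intro h0
    obtain ⟨v, hv⟩ := hc1
    apply hv
    have h1 := hpow 1 (Additive.ofMul v)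
    rw [pow_one, h0] at h1
    have h2 : (1 : Module.End (ZMod p) (Additive V)) (Additive.ofMul v) = Additive.ofMul v := rfl
    rw [h2, pow_one] at h1
    exact h1.symm
  · intro v w hv hw
    obtain ⟨A, i, h1, h2⟩ := hA (Additive.toMul v) (Additive.toMul w) (fun h => hv h) (fun h => hw h)
    let A' : Additive V ≃ₗ[ZMod p] Additive V :=
      { (MulEquiv.toAdditive A) with
        map_smul' := fun m x => by
          have := ((MulEquiv.toAdditive A).toAddMonoidHom.toZModLinearMap p).map_smul m x
          exact this }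
    refine ⟨A', i, h1, ?_⟩
    intro u
    rw [hpow]
    exact h2 (Additive.toMul u)
  · intro i hi1 hi2
    obtain ⟨A, h2⟩ := hB i hi1 hi2
    let A' : Additive V ≃ₗ[ZMod p] Additive V :=
      { (MulEquiv.toAdditive A) with
        map_smul' := fun m x => by
          have := ((MulEquiv.toAdditive A).toAddMonoidHom.toZModLinearMap p).map_smul m x
          exact this }
    refine ⟨A', ?_⟩
    intro u
    rw [hpow]
    exact h2 (Additive.toMul u)

/-- restriction of an automorphism to a characteristic subgroup -/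
noncomputable def resAut {G : Type*} [Group G] (P : Subgroup G) [hP : P.Characteristic] (α : MulAut G) : P ≃* P where
  toFun u := ⟨α u, (Subgroup.characteristic_iff_map_eq.1 hP α).le ⟨u, u.2, rfl⟩⟩
  invFun u := ⟨α.symm u, (Subgroup.characteristic_iff_map_eq.1 hP α.symm).le ⟨u, u.2, rfl⟩⟩
  left_inv u := by ext; simp
  right_inv u := by ext; simp
  map_mul' u v := by ext; simp

theorem resAut_coe {G : Type*} [Group G] (P : Subgroup G) [hP : P.Characteristic] (α : MulAut G) (u : P) :
    ((resAut P α u : P) : G) = α u := rfl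

theorem forward {G : Type*} [Group G] [Finite G] (h : PO G)
    (hA : ∀ x y : G, orderOf x = orderOf y → ∃ α : MulAut G, α x = y)
    {p q : ℕ} [hpF : Fact p.Prime] [hqF : Fact q.Prime] (hpq : p ≠ q)
    (hpf : (Nat.card G).primeFactors = {p, q}) (hcore : Cfsg.pCore p G ≠ ⊥) :
    ∃ n : ℕ, 1 ≤ n ∧ Nat.card G = p ^ n * q ∧
      (∀ P : Sylow p G, (P : Subgroup G).Normal ∧ Cfsg.IsElementaryAbelian p (P : Subgroup G)) ∧
      orderOf (p : ZMod q) = q - 1 ∧
      ∀ x y : G, orderOf x = q → orderOf y = p → x * y * x⁻¹ ≠ y := by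
  classical
  have hp : p.Prime := Fact.out
  have hq : q.Prime := Fact.out
  have hord1 : ∀ (ℓ : ℕ), ℓ.Prime → ∀ x : G, orderOf x = ℓ → x ≠ 1 := by
    rintro ℓ hℓ x hx rfl
    rw [orderOf_one] at hx
    exact hℓ.one_lt.ne hx
  set P := Cfsg.pCore p G with hPdef
  have hPchar : P.Characteristic := Cfsg.Agent.H49.pCore_char p
  have hPn : P.Normal := inferInstance
  have hPp : IsPGroup p P := Cfsg.Agent.H49.pCore_isPGroup p
  obtain ⟨z, hzP, hz1⟩ : ∃ z : G, z ∈ P ∧ z ≠ 1 := by
    obtain ⟨z, hz⟩ := Subgroup.ne_bot_iff_exists_ne_one.1 hcore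
    exact ⟨z, z.2, fun h0 => hz (Subtype.ext h0)⟩
  have hzo : orderOf z = p := orderOf_of_mem h hPp hzP hz1
  have hmemP : ∀ y : G, orderOf y = p → y ∈ P := by
    intro y hy
    obtain ⟨α, rfl⟩ := hA z y (hzo.trans hy.symm)
    have := Subgroup.characteristic_iff_map_eq.1 hPchar α
    rw [← this]
    exact ⟨z, hzP, rfl⟩
  have hSyl : ∀ S : Sylow p G, (S : Subgroup G) = P := by
    intro S
    apply le_antisymm
    · intro y hy
      by_cases hy1 : y = 1
      · rw [hy1]; exact one_mem _
      · exact hmemP y (orderOf_of_mem h S.isPGroup' hy hy1)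
    · exact Cfsg.Agent.H49.pCore_le_sylow S
  have hexp : ∀ a : P, a ^ p = 1 := by
    intro a
    by_cases ha : (a : G) = 1
    · have : a = 1 := Subtype.ext ha
      rw [this, one_pow]
    · have h1 := orderOf_of_mem h hPp a.2 ha
      rw [Subgroup.orderOf_coe] at h1
      rw [← h1, pow_orderOf_eq_one]
  -- commutativity
  have hPnt : Nontrivial P := ⟨⟨⟨z, hzP⟩, 1, fun h0 => hz1 (congrArg Subtype.val h0)⟩⟩
  have hab : ∀ a b : P, a * b = b * a := by
    have hc : Nontrivial (center P) := hPp.center_nontrivial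
    obtain ⟨c, hc1⟩ := exists_ne (1 : center P)
    have hc1' : ((c : P) : G) ≠ 1 := fun h0 => hc1 (by ext; exact h0)
    have hco : orderOf ((c : P) : G) = p := orderOf_of_mem h hPp (c : P).2 hc1'
    intro a b
    by_cases ha : (a : G) = 1
    · have : a = 1 := Subtype.ext ha
      rw [this, one_mul, mul_one]
    · obtain ⟨α, hα⟩ := hA ((c : P) : G) a (hco.trans (orderOf_of_mem h hPp a.2 ha).symm)
      have h1 := Subgroup.mem_center_iff.1 c.2 (resAut P α⁻¹ b)
      have h2 := congrArg (resAut P α) h1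
      rw [map_mul, map_mul] at h2
      have h3 : resAut P α (resAut P α⁻¹ b) = b := by
        ext; rw [resAut_coe, resAut_coe]; exact MulAut.apply_inv_self _ _ _
      have h4 : resAut P α c = a := by ext; exact hα
      rw [h3, h4] at h2
      exact h2.symm
  have hfpf : ∀ x y : G, orderOf x = q → orderOf y = p → x * y * x⁻¹ ≠ y := by
    intro x y hx hy hxy
    have hc : Commute x y := by
      show x * y = y * x
      calc x * y = x * y * x⁻¹ * x := by group
        _ = y * x := by rw [hxy]
    have := orderOf_eq_of_commute h (hord1 q hq x hx) (hord1 p hp y hy) hc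
    rw [hx, hy] at this
    exact hpq this.symm
  -- the Sylow q-subgroup
  have hdq : q ∣ Nat.card G := Nat.dvd_of_mem_primeFactors (by rw [hpf]; simp)
  let Q : Sylow q G := default
  have hfpfQ : Cfsg.Agent.Frob.HasFPFModule (Q : Subgroup G) := by
    refine ⟨P, cgH68 hab, inferInstance, hPnt, (MulAut.conjNormal (H := P)).comp (Q : Subgroup G).subtype, ?_⟩
    intro a ha w hw
    by_contra hw1
    have ha1 : (a : G) ≠ 1 := fun h0 => ha (Subtype.ext h0)
    have hw1' : (w : G) ≠ 1 := fun h0 => hw1 (Subtype.ext h0)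
    apply hfpf a w (orderOf_of_mem h Q.isPGroup' a.2 ha1) (orderOf_of_mem h hPp w.2 hw1')
    exact congrArg Subtype.val hw
  have hQcard : Nat.card (Q : Subgroup G) = q := by
    have hdQ : q ∣ Nat.card (Q : Subgroup G) := Q.dvd_card_of_dvd_card hdq
    obtain ⟨x, hx⟩ := exists_prime_orderOf_dvd_card' q hdQ
    have htop : zpowers x = ⊤ := by
      rw [eq_top_iff]
      intro a _
      by_cases ha : a = 1
      · rw [ha]; exact one_mem _
      · have ha1 : (a : G) ≠ 1 := fun h0 => ha (Subtype.ext h0)
        have hao : orderOf a = q := by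
          rw [← Subgroup.orderOf_coe]; exact orderOf_of_mem h Q.isPGroup' a.2 ha1
        have := hfpfQ.unique_subgroup_of_isPGroup Q.isPGroup' (zpowers a) (zpowers x)
          (by rw [Nat.card_zpowers, hao]) (by rw [Nat.card_zpowers, hx])
        rw [← this]; exact mem_zpowers a
    rw [← Subgroup.card_top, ← htop, Nat.card_zpowers, hx]
  obtain ⟨n, hn⟩ := IsPGroup.iff_card.1 hPp
  have hn1 : 1 ≤ n := by
    rcases Nat.eq_zero_or_pos n with h0 | h0
    · rw [h0, pow_zero, Subgroup.card_eq_one] at hn
      exact absurd hn hcore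
    · exact h0
  have hGcard : Nat.card G = p ^ n * q := by
    have h0 := Nat.prod_factorization_pow_eq_self (Nat.card_pos (α := G)).ne'
    rw [Finsupp.prod, Nat.support_factorization, hpf, Finset.prod_pair hpq] at h0
    let S : Sylow p G := default
    have h1 := S.card_eq_multiplicity
    rw [hSyl S, hn] at h1
    have h2 := Q.card_eq_multiplicity
    rw [hQcard] at h2
    rw [← h0, ← h1, ← h2]
  refine ⟨n, hn1, hGcard, ?_, ?_, hfpf⟩
  · intro S
    rw [hSyl S]
    refine ⟨hPn, ⟨⟨hab⟩⟩, ?_⟩
    intro a ha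
    exact congrArg Subtype.val (hexp ⟨a, ha⟩)
  · -- primitive root
    obtain ⟨x, hx⟩ := exists_prime_orderOf_dvd_card' q hdq
    have hx1 := hord1 q hq x hx
    have hcomp : P.IsComplement' (zpowers x) := by
      apply Subgroup.isComplement'_of_coprime
      · rw [hn, Nat.card_zpowers, hx, hGcard]
      · rw [hn, Nat.card_zpowers, hx]
        exact Nat.Coprime.pow_left _ ((Nat.coprime_primes hp hq).2 hpq)
    -- conjugation by any element
    have hconj : ∀ g : G, ∃ i : ℕ, ∀ u : P, g * u * g⁻¹ = x ^ i * u * (x ^ i)⁻¹ := by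
      intro g
      have hg : g ∈ P ⊔ zpowers x := by rw [hcomp.sup_eq_top]; exact Subgroup.mem_top g
      obtain ⟨v, hv, y, hy, rfl⟩ := Subgroup.mem_sup_of_normal_left.1 hg
      rw [← mem_powers_iff_mem_zpowers] at hy
      obtain ⟨i, rfl⟩ := hy
      refine ⟨i, ?_⟩
      intro u
      have h1 : x ^ i * u * (x ^ i)⁻¹ ∈ P := hPn.conj_mem u u.2 _
      have h2 : v * (x ^ i * u * (x ^ i)⁻¹) = (x ^ i * u * (x ^ i)⁻¹) * v :=
        congrArg Subtype.val (hab ⟨v, hv⟩ ⟨_, h1⟩)
      show v * x ^ i * u * (v * x ^ i)⁻¹ = _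
      calc v * x ^ i * u * (v * x ^ i)⁻¹ = v * (x ^ i * u * (x ^ i)⁻¹) * v⁻¹ := by group
        _ = (x ^ i * u * (x ^ i)⁻¹) * v * v⁻¹ := by rw [h2]
        _ = _ := by group
    have hcpow : ∀ (k : ℕ) (u : P), ((((MulAut.conjNormal x : MulAut P) ^ k) u : P) : G) = x ^ k * u * (x ^ k)⁻¹ := by
      intro k u
      rw [← map_pow, MulAut.conjNormal_apply]
    refine @primitive_root_mul p q hpF hqF hpq P (cgH68 hab) _ hPnt hexp (MulAut.conjNormal x : MulAut P) ?_ ?_ ?_ ?_
    · rw [← map_pow, ← hx, pow_orderOf_eq_one, map_one]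
    · refine ⟨⟨z, hzP⟩, ?_⟩
      intro h0
      exact hfpf x z hx hzo (congrArg Subtype.val h0)
    · intro v w hv hw
      have hv1 : (v : G) ≠ 1 := fun h0 => hv (Subtype.ext h0)
      have hw1 : (w : G) ≠ 1 := fun h0 => hw (Subtype.ext h0)
      obtain ⟨α, hα⟩ := hA v w ((orderOf_of_mem h hPp v.2 hv1).trans (orderOf_of_mem h hPp w.2 hw1).symm)
      obtain ⟨i, hi⟩ := hconj (α⁻¹ x)
      refine ⟨resAut P α, i, by ext; exact hα, ?_⟩
      intro u
      ext
      rw [MulAut.conjNormal_apply, resAut_coe, resAut_coe, hcpow, ← hi u, map_mul, map_mul, map_inv,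
        MulAut.apply_inv_self]
    · intro i hi1 hi2
      have hcop : q.Coprime i := Nat.coprime_of_lt_prime (by omega) hi2 hq
      have hxi : orderOf (x ^ i) = q := by
        have hcop' : (orderOf x).Coprime i := by rw [hx]; exact hcop
        rw [hcop'.orderOf_pow, hx]
      obtain ⟨α, hα⟩ := hA x (x ^ i) (hx.trans hxi.symm)
      refine ⟨resAut P α, ?_⟩
      intro u
      ext
      rw [hcpow, resAut_coe, resAut_coe, MulAut.conjNormal_apply, map_mul, map_mul, map_inv, hα]

theorem backward {G : Type*} [Group G] [Finite G]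
    {p q n : ℕ} [hpF : Fact p.Prime] [hqF : Fact q.Prime] (hpq : p ≠ q) (hn1 : 1 ≤ n)
    (hGcard : Nat.card G = p ^ n * q)
    (hPs : ∀ P : Sylow p G, (P : Subgroup G).Normal ∧ Cfsg.IsElementaryAbelian p (P : Subgroup G))
    (hord : orderOf (p : ZMod q) = q - 1)
    (hfpf : ∀ x y : G, orderOf x = q → orderOf y = p → x * y * x⁻¹ ≠ y) :
    Nat.card (MulAction.orbitRel.Quotient (MulAut G) G) = 3 := by
  classical
  have hp : p.Prime := Fact.out
  have hq : q.Prime := Fact.out
  let S : Sylow p G := default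
  set P : Subgroup G := (S : Subgroup G) with hPdef
  have hPn : P.Normal := (hPs S).1
  obtain ⟨⟨⟨hab⟩⟩, hexp'⟩ := (hPs S).2
  have hexp : ∀ a : P, a ^ p = 1 := fun a => Subtype.ext (hexp' a a.2)
  have hPcard : Nat.card P = p ^ n := by
    rw [hPdef, S.card_eq_multiplicity, hGcard, Nat.factorization_mul (pow_ne_zero _ hp.ne_zero) hq.ne_zero,
      Finsupp.add_apply, hp.factorization_pow, hq.factorization, Finsupp.single_eq_same,
      Finsupp.single_eq_of_ne hpq, add_zero]
  have hcomp : ∀ x : G, orderOf x = q → P.IsComplement' (zpowers x) := by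
    intro x hx
    apply Subgroup.isComplement'_of_coprime
    · rw [hPcard, Nat.card_zpowers, hx, hGcard]
    · rw [hPcard, Nat.card_zpowers, hx]
      exact Nat.Coprime.pow_left _ ((Nat.coprime_primes hp hq).2 hpq)
  have hordP : ∀ a ∈ P, a ≠ 1 → orderOf a = p := fun a ha ha1 => orderOf_eq_prime (hexp' a ha) ha1
  have hfpf' : ∀ x : G, orderOf x = q → ∀ v : P, x * v * x⁻¹ = v → v = 1 := by
    intro x hx v hv
    by_contra hv1
    exact hfpf x v hx (hordP v v.2 (fun h0 => hv1 (Subtype.ext h0))) hv
  -- orders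
  have hidx : ¬ p ∣ P.index := S.not_dvd_index
  have hall : ∀ g : G, g ≠ 1 → orderOf g = p ∨ orderOf g = q := by
    intro g hg
    have h0 : orderOf g ≠ 0 := (orderOf_pos g).ne'
    have hd : orderOf g ∣ p ^ n * q := hGcard ▸ orderOf_dvd_natCard g
    by_cases hpg : p ∣ orderOf g
    · by_cases hqg : q ∣ orderOf g
      · exfalso
        have h1 := orderOf_pow_orderOf_div h0 hqg
        have h2 := orderOf_pow_orderOf_div h0 hpg
        apply hfpf _ _ h1 h2
        have hc : Commute (g ^ (orderOf g / q)) (g ^ (orderOf g / p)) :=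
          (Commute.refl g).pow_pow _ _
        rw [hc.eq, mul_inv_cancel_right]
      · left
        have h1 : orderOf g ∣ p ^ n := by
          have : (orderOf g).Coprime q := ((Nat.Prime.coprime_iff_not_dvd hq).2 hqg).symm
          exact this.dvd_of_dvd_mul_right hd
        obtain ⟨k, -, hk⟩ := (Nat.dvd_prime_pow hp).1 h1
        have hgP : g ∈ P := Cfsg.Agent.H68.mem_of_pPow_eq_one_of_coprime_index hp
          (by rw [← hk, pow_orderOf_eq_one]) hidx
        exact hordP g hgP hg
    · right
      have h1 : orderOf g ∣ q := by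
        have : (orderOf g).Coprime (p ^ n) := (Nat.Coprime.pow_left n ((Nat.Prime.coprime_iff_not_dvd hp).2 hpg)).symm
        exact this.dvd_of_dvd_mul_left hd
      rcases (Nat.dvd_prime hq).1 h1 with h2 | h2
      · exact absurd (orderOf_eq_one_iff.1 h2) hg
      · exact h2
  have hmemP : ∀ g : G, orderOf g = p → g ∈ P := fun g hg =>
    Cfsg.Agent.H68.mem_of_pPow_eq_one_of_coprime_index (k := 1) hp (by rw [pow_one, ← hg, pow_orderOf_eq_one]) hidx
  have hdp : p ∣ Nat.card G := by rw [hGcard]; exact dvd_mul_of_dvd_left (dvd_pow_self p (by omega)) _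
  have hdq : q ∣ Nat.card G := by rw [hGcard]; exact dvd_mul_left _ _
  obtain ⟨v0, hv0⟩ := exists_prime_orderOf_dvd_card' p hdp
  obtain ⟨x0, hx0⟩ := exists_prime_orderOf_dvd_card' q hdq
  have hne1 : ∀ (ℓ : ℕ), ℓ.Prime → ∀ x : G, orderOf x = ℓ → x ≠ 1 := by
    rintro ℓ hℓ x hx rfl
    rw [orderOf_one] at hx
    exact hℓ.one_lt.ne hx
  have htr : ∀ x y : G, orderOf x = orderOf y → ∃ α : MulAut G, α x = y := by
    intro x y hxy
    by_cases hx1 : x = 1
    · subst hx1
      rw [orderOf_one] at hxy
      exact ⟨1, by rw [orderOf_eq_one_iff.1 hxy.symm]; rfl⟩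
    · rcases hall x hx1 with hx | hx
      · have hy : orderOf y = p := hxy ▸ hx
        obtain ⟨α, h1, -⟩ := trans_aut hpq hab hexp hord hfpf' hcomp hx0 hx0
          (v := ⟨x, hmemP x hx⟩) (w := ⟨y, hmemP y hy⟩)
          (fun h0 => hne1 p hp x hx (congrArg Subtype.val h0)) (fun h0 => hne1 p hp y hy (congrArg Subtype.val h0))
        exact ⟨α, h1⟩
      · have hy : orderOf y = q := hxy ▸ hx
        obtain ⟨α, -, h1⟩ := trans_aut hpq hab hexp hord hfpf' hcomp hx hy
          (v := ⟨v0, hmemP v0 hv0⟩) (w := ⟨v0, hmemP v0 hv0⟩)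
          (fun h0 => hne1 p hp v0 hv0 (congrArg Subtype.val h0)) (fun h0 => hne1 p hp v0 hv0 (congrArg Subtype.val h0))
        exact ⟨α, h1⟩
  -- count
  let φ : MulAction.orbitRel.Quotient (MulAut G) G → ℕ :=
    Quotient.lift (fun g : G => orderOf g) (by
      rintro a b ⟨α, hα⟩
      have hα' : α b = a := hα
      show orderOf a = orderOf b
      rw [← hα']
      exact MulEquiv.orderOf_eq α b)
  have hφ : ∀ g : G, φ (Quotient.mk _ g) = orderOf g := fun g => rfl
  have hinj : Function.Injective φ := by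
    intro a b
    refine Quotient.inductionOn₂ a b ?_
    intro x y hxy
    obtain ⟨α, hα⟩ := htr y x hxy.symm
    exact Quotient.sound ⟨α, hα⟩
  have hrange : Set.range φ = (({1, p, q} : Finset ℕ) : Set ℕ) := by
    ext d
    simp only [Set.mem_range, Finset.coe_insert, Finset.coe_singleton, Set.mem_insert_iff, Set.mem_singleton_iff]
    constructor
    · rintro ⟨a, rfl⟩
      refine Quotient.inductionOn a ?_
      intro g
      by_cases hg : g = 1
      · left; rw [hφ, hg, orderOf_one]
      · rcases hall g hg with h1 | h1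
        · right; left; exact h1
        · right; right; exact h1
    · rintro (rfl | rfl | rfl)
      · exact ⟨Quotient.mk _ 1, orderOf_one⟩
      · exact ⟨Quotient.mk _ v0, hv0⟩
      · exact ⟨Quotient.mk _ x0, hx0⟩
  have h1 := Nat.card_range_of_injective hinj
  rw [← h1, hrange, Nat.card_coe_set_eq, Set.ncard_coe_finset]
  rw [Finset.card_insert_of_notMem, Finset.card_pair hpq]
  simp only [Finset.mem_insert, Finset.mem_singleton]
  push Not
  exact ⟨hp.one_lt.ne, hq.one_lt.ne⟩

/-- Let G be a finite group whose order is not a prime power. Then the automorphism group of G has exactly three orbits on G if and only if there are distinct primes p, q with #G = pⁿ·q (n ≥ 1) such that G has a normal elementary abelian Sylow p-subgroup P, p is a primitive root modulo q (the multiplicative order of p mod q is q − 1), and every element of order q of G acts on P without non-identity fixed points. -/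
theorem result {G : Type*} [Group G] [Finite G] (hnpp : ¬ IsPrimePow (Nat.card G)) (hnt : Nat.card G ≠ 1) :
    Nat.card (MulAction.orbitRel.Quotient (MulAut G) G) = 3 ↔
    ∃ (p q n : ℕ) (_ : Fact p.Prime) (_ : Fact q.Prime), p ≠ q ∧ 1 ≤ n ∧ Nat.card G = p ^ n * q ∧
      (∀ P : Sylow p G, (P : Subgroup G).Normal ∧ Cfsg.IsElementaryAbelian p (P : Subgroup G)) ∧
      orderOf (p : ZMod q) = q - 1 ∧
      ∀ x y : G, orderOf x = q → orderOf y = p → x * y * x⁻¹ ≠ y := by
  constructor
  · intro h3
    have hpf2 : 2 ≤ (Nat.card G).primeFactors.card := by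
      by_contra hlt
      push Not at hlt
      have h0 := Nat.prod_factorization_pow_eq_self (Nat.card_pos (α := G)).ne'
      rw [Finsupp.prod, Nat.support_factorization] at h0
      have h1 : (Nat.card G).primeFactors.card = 0 ∨ (Nat.card G).primeFactors.card = 1 := by omega
      rcases h1 with h1 | h1
      · rw [Finset.card_eq_zero] at h1
        rw [h1, Finset.prod_empty] at h0
        exact hnt h0.symm
      · obtain ⟨a, ha⟩ := Finset.card_eq_one.1 h1
        have ham : a ∈ (Nat.card G).primeFactors := by rw [ha]; exact Finset.mem_singleton_self a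
        have hap := Nat.prime_of_mem_primeFactors ham
        rw [ha, Finset.prod_singleton] at h0
        apply hnpp
        rw [← h0]
        refine hap.isPrimePow.pow ?_
        have := hap.factorization_pos_of_dvd (Nat.card_pos (α := G)).ne' (Nat.dvd_of_mem_primeFactors ham)
        omega
    obtain ⟨hPO, hA, hc⟩ := po_of_card (G := G) (by omega)
    have hpf : (Nat.card G).primeFactors.card = 2 := by omega
    have hsol : Group.IsSolvable G := solvable_of_two (by omega)
    have hnt' : Nontrivial G := by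
      rw [← Finite.one_lt_card_iff_nontrivial]
      have := Nat.card_pos (α := G)
      omega
    obtain ⟨N, hN, -, hN1, hmin⟩ := Cfsg.Agent.Solv.exists_minimal_normal (⊤ : Subgroup G) inferInstance
      (by intro h0; exact bot_ne_top h0.symm)
    obtain ⟨p, hp, hNp⟩ := Cfsg.Agent.Solv.minimal_normal_isPGroup N inferInstance hN1 hmin
    have hpF : Fact p.Prime := ⟨hp⟩
    have hcore : Cfsg.pCore p G ≠ ⊥ := by
      intro h0
      apply hN1
      rw [eq_bot_iff, ← h0]
      exact Cfsg.Agent.H49.le_pCore hN hNp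
    have hpG : p ∈ (Nat.card G).primeFactors := by
      refine Nat.mem_primeFactors.2 ⟨hp, ?_, Nat.card_pos.ne'⟩
      obtain ⟨k, hk⟩ := IsPGroup.iff_card.1 hNp
      rcases Nat.eq_zero_or_pos k with h0 | h0
      · rw [h0, pow_zero, Subgroup.card_eq_one] at hk
        exact absurd hk hN1
      · exact (dvd_pow_self p h0.ne').trans (hk ▸ Subgroup.card_subgroup_dvd_card N)
    have h4 : ((Nat.card G).primeFactors.erase p).card = 1 := by
      rw [Finset.card_erase_of_mem hpG, hpf]
    obtain ⟨q, hq⟩ := Finset.card_eq_one.1 h4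
    have hqm : q ∈ (Nat.card G).primeFactors.erase p := by rw [hq]; exact Finset.mem_singleton_self q
    rw [Finset.mem_erase] at hqm
    have hqF : Fact q.Prime := ⟨Nat.prime_of_mem_primeFactors hqm.2⟩
    have hpf' : (Nat.card G).primeFactors = {p, q} := by
      rw [← Finset.insert_erase hpG, hq]
    obtain ⟨n, h5⟩ := forward hPO hA hqm.1.symm hpf' hcore
    exact ⟨p, q, n, hpF, hqF, hqm.1.symm, h5⟩
  · rintro ⟨p, q, n, hpF, hqF, hpq, hn1, hG, hPs, hord, hfpf⟩
    exact backward hpq hn1 hG hPs hord hfpf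

end Cfsg.Agent.S4081
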