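import Cfsg.Statements.S4082
import Cfsg.Agent.H65.PCyc
import Cfsg.Agent.MaxClass.Pres
import Cfsg.Agent.H65.BQuot

set_option autoImplicit false
open Cfsg

namespace Cfsg.Agent.S4082


open Subgroup Cfsg.Agent.H65.PCyc Cfsg.Agent.Transfer DihedralGroup

section fwd
variable {G : Type*} [Group G] [Finite G] {p : ℕ} [hp : Fact p.Prime]

theorem not_even_pow (hp2 : p ≠ 2) {k : ℕ} : ¬ 2 ∣ p ^ k := by
  intro h
  exact hp2 ((Nat.prime_dvd_prime_iff_eq Nat.prime_two hp.out).1 (Nat.prime_two.dvd_of_dvd_pow h)).symm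

/-- elements of a `p`-subgroup map to rotations -/
theorem rot (hp2 : p ≠ 2) {H : Type*} [Group H] {m : ℕ} (e : H ≃* DihedralGroup m) {x : H} {k : ℕ}
    (hx : orderOf x = p ^ k) : ∃ i, e x = r i := by
  match h : e x with
  | .r i => exact ⟨i, rfl⟩
  | .sr i =>
    exfalso
    have h1 : orderOf (e x) = orderOf x := MulEquiv.orderOf_eq e x
    rw [h, orderOf_sr, hx] at h1
    exact not_even_pow hp2 (k := k) (by rw [← h1])

theorem inverts (hp2 : p ≠ 2)
    (h : ∀ H : Subgroup G, (∀ S : Sylow p ↥H, (S : Subgroup ↥H).Normal) →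
        (∀ (S : Sylow p ↥H) [(S : Subgroup ↥H).Normal], IsCyclic (↥H ⧸ (S : Subgroup ↥H))) →
        IsCyclic H ∨ (∃ n : ℕ, Nonempty (H ≃* DihedralGroup (p ^ n))))
    {Q : Subgroup G} (hQ : IsPGroup p Q) {x : G} (hx : x ∈ normalizer (Q : Set G))
    (hxC : x ∉ centralizer (Q : Set G)) : orderOf x = 2 ∧ ∀ q ∈ Q, x * q * x⁻¹ = q⁻¹ := by
  obtain ⟨h1, h2⟩ := sylow_sup_zpowers hQ hx
  have hxm : x ∈ Q ⊔ zpowers x := mem_sup_right (mem_zpowers x)
  have hqm : ∀ q ∈ Q, q ∈ Q ⊔ zpowers x := fun q hq => mem_sup_left hq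
  have hcase := h (Q ⊔ zpowers x) h1 h2
  rcases hcase with hc | ⟨n, ⟨e⟩⟩
  · exfalso
    apply hxC
    rw [mem_centralizer_iff]
    intro q hq
    let _ : CommGroup ↥(Q ⊔ zpowers x) := hc.commGroup
    have := mul_comm (⟨q, hqm q hq⟩ : ↥(Q ⊔ zpowers x)) ⟨x, hxm⟩
    exact congrArg Subtype.val this
  · have hrot : ∀ (q : G) (hq : q ∈ Q), ∃ i, e ⟨q, hqm q hq⟩ = r i := by
      intro q hq
      obtain ⟨k, hk⟩ := (IsPGroup.iff_orderOf.1 hQ) ⟨q, hq⟩
      refine rot hp2 e (k := k) ?_
      rw [← hk, ← Subgroup.orderOf_coe, ← Subgroup.orderOf_coe]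
    match hex : e ⟨x, hxm⟩ with
    | .r j =>
      exfalso
      apply hxC
      rw [mem_centralizer_iff]
      intro q hq
      obtain ⟨i, hi⟩ := hrot q hq
      have h3 : e (⟨q, hqm q hq⟩ * ⟨x, hxm⟩) = e (⟨x, hxm⟩ * ⟨q, hqm q hq⟩) := by
        rw [map_mul, map_mul, hi, hex, r_mul_r, r_mul_r, add_comm]
      exact congrArg Subtype.val (e.injective h3)
    | .sr j =>
      refine ⟨?_, ?_⟩
      · have h3 := MulEquiv.orderOf_eq e ⟨x, hxm⟩
        rw [hex, orderOf_sr, ← Subgroup.orderOf_coe] at h3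
        exact h3.symm
      · intro q hq
        obtain ⟨i, hi⟩ := hrot q hq
        have h3 : e (⟨x, hxm⟩ * ⟨q, hqm q hq⟩ * ⟨x, hxm⟩⁻¹) = e (⟨q, hqm q hq⟩⁻¹) := by
          rw [map_mul, map_mul, map_inv, map_inv, hi, hex, sr_mul_r, inv_sr, sr_mul_sr, inv_r]
          congr 1
          ring
        exact congrArg Subtype.val (e.injective h3)

theorem conj_inv_of_orderOf {x c : G} (hx : orderOf x = 2) (hxc : orderOf (x * c) = 2) : x * c * x⁻¹ = c⁻¹ := by
  have h1 : x * x = 1 := by rw [← sq, ← hx, pow_orderOf_eq_one]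
  have h2 : (x * c) * (x * c) = 1 := by rw [← sq, ← hxc, pow_orderOf_eq_one]
  have h3 : x⁻¹ = x := inv_eq_of_mul_eq_one_left h1
  rw [h3, eq_inv_iff_mul_eq_one]
  calc x * c * x * c = (x * c) * (x * c) := by group
    _ = 1 := h2

end fwd

section bwd
variable {H : Type*} [Group H] [Finite H] {p : ℕ} [hp : Fact p.Prime]

/-- the unique subgroup of order `p` -/
theorem unique_order_p {S : Subgroup H} (hS : IsCyclic S) {Q R : Subgroup H} (hQS : Q ≤ S) (hRS : R ≤ S)
    (hQ : Nat.card Q = p) (hR : Nat.card R = p) : Q = R := by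
  have h1 : Q.subgroupOf S = R.subgroupOf S := by
    have e1 : Nat.card (Q.subgroupOf S) = p := by
      rw [← hQ]; exact Nat.card_congr (Subgroup.subgroupOfEquivOfLe hQS).toEquiv
    have e2 : Nat.card (R.subgroupOf S) = p := by
      rw [← hR]; exact Nat.card_congr (Subgroup.subgroupOfEquivOfLe hRS).toEquiv
    apply le_antisymm
    · exact Cfsg.Agent.H65.cyclic_le_of_card_dvd (by rw [e1, e2])
    · exact Cfsg.Agent.H65.cyclic_le_of_card_dvd (by rw [e1, e2])
  have h2 := congrArg (fun X => X.map S.subtype) h1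
  simp only [subgroupOf_map_subtype] at h2
  rwa [inf_of_le_left hQS, inf_of_le_left hRS] at h2

end bwd

section caseB
variable {G : Type*} [Group G] [Finite G] {p : ℕ} [hp : Fact p.Prime]

/-- the condition on subgroups of order `p`. -/
def R (Q : Subgroup G) : Prop :=
  (∀ c ∈ centralizer (Q : Set G), ∀ d ∈ centralizer (Q : Set G), c * d = d * c) ∧
    ∀ x : G, x ∈ normalizer (Q : Set G) → x ∉ centralizer (Q : Set G) →
            orderOf x = 2 ∧ ∀ c : G, c ∈ centralizer (Q : Set G) → x * c * x⁻¹ = c⁻¹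

theorem R_all (P : Sylow p G) (hR : ∀ Q : Subgroup G, Q ≤ P → Nat.card Q = p → R Q) (Q : Subgroup G)
    (hQ : Nat.card Q = p) : R Q := by
  have h1 : IsPGroup p Q := IsPGroup.of_card (n := 1) (by rw [hQ, pow_one])
  obtain ⟨P', hP'⟩ := h1.exists_le_sylow
  obtain ⟨g, hg⟩ := MulAction.exists_smul_eq G P' P
  set Q' : Subgroup G := Q.map (MulAut.conj g).toMonoidHom with hQ'
  have hmem : ∀ x, x ∈ Q → g * x * g⁻¹ ∈ Q' := fun x hx => ⟨x, hx, rfl⟩
  have hmem' : ∀ x, g * x * g⁻¹ ∈ Q' → x ∈ Q := by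
    rintro x ⟨y, hy, hxy⟩
    have e : g * y * g⁻¹ = g * x * g⁻¹ := hxy
    have : y = x := by simpa using e
    rwa [← this]
  have hQP : Q' ≤ P := by
    rintro _ ⟨x, hx, rfl⟩
    rw [← hg]
    exact Subgroup.smul_mem_pointwise_smul x (MulAut.conj g) _ (hP' hx)
  have hc' : Nat.card Q' = p := by
    rw [← hQ]
    exact (Nat.card_congr (Q.equivMapOfInjective _ (MulAut.conj g).injective).toEquiv).symm
  obtain ⟨r1, r2⟩ := hR Q' hQP hc'
  have hcm : ∀ c, c ∈ centralizer (Q : Set G) → g * c * g⁻¹ ∈ centralizer (Q' : Set G) := by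
    intro c hc
    rw [mem_centralizer_iff]
    rintro _ ⟨x, hx, rfl⟩
    have := mem_centralizer_iff.1 hc x hx
    change (g * x * g⁻¹) * (g * c * g⁻¹) = (g * c * g⁻¹) * (g * x * g⁻¹)
    calc _ = g * (x * c) * g⁻¹ := by group
      _ = g * (c * x) * g⁻¹ := by rw [this]
      _ = _ := by group
  have hcm' : ∀ c, g * c * g⁻¹ ∈ centralizer (Q' : Set G) → c ∈ centralizer (Q : Set G) := by
    intro c hc
    rw [mem_centralizer_iff]
    intro x hx
    have := mem_centralizer_iff.1 hc _ (hmem x hx)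
    have e : g * (x * c) * g⁻¹ = g * (c * x) * g⁻¹ := by
      calc _ = (g * x * g⁻¹) * (g * c * g⁻¹) := by group
        _ = (g * c * g⁻¹) * (g * x * g⁻¹) := this
        _ = _ := by group
    simpa using e
  refine ⟨?_, ?_⟩
  · intro c hc d hd
    have := r1 _ (hcm c hc) _ (hcm d hd)
    have e : g * (c * d) * g⁻¹ = g * (d * c) * g⁻¹ := by
      calc _ = (g * c * g⁻¹) * (g * d * g⁻¹) := by group
        _ = (g * d * g⁻¹) * (g * c * g⁻¹) := this
        _ = _ := by group
    simpa using e
  · intro x hx hxC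
    have hxn : g * x * g⁻¹ ∈ normalizer (Q' : Set G) := by
      rw [mem_normalizer_iff]
      intro y
      have e1 : y = g * (g⁻¹ * y * g) * g⁻¹ := by group
      constructor
      · intro hy
        rw [e1] at hy
        have h2 := (mem_normalizer_iff.1 hx _).1 (hmem' _ hy)
        have h3 := hmem _ h2
        have e2 : g * x * g⁻¹ * y * (g * x * g⁻¹)⁻¹ = g * (x * (g⁻¹ * y * g) * x⁻¹) * g⁻¹ := by group
        rw [e2]; exact h3
      · intro hy
        have e2 : g * x * g⁻¹ * y * (g * x * g⁻¹)⁻¹ = g * (x * (g⁻¹ * y * g) * x⁻¹) * g⁻¹ := by group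
        rw [e2] at hy
        have h3 := (mem_normalizer_iff.1 hx _).2 (hmem' _ hy)
        rw [e1]; exact hmem _ h3
    obtain ⟨s1, s2⟩ := r2 _ hxn (fun h => hxC (hcm' x h))
    refine ⟨?_, ?_⟩
    · have := orderOf_injective (MulAut.conj g).toMonoidHom (MulAut.conj g).injective x
      rw [← this]
      exact s1
    · intro c hc
      have := s2 _ (hcm c hc)
      have e : g * (x * c * x⁻¹) * g⁻¹ = g * c⁻¹ * g⁻¹ := by
        calc _ = (g * x * g⁻¹) * (g * c * g⁻¹) * (g * x * g⁻¹)⁻¹ := by group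
          _ = (g * c * g⁻¹)⁻¹ := this
          _ = _ := by group
      simpa using e

theorem isCyclic_pgroup {P : Sylow p G} (hP : IsCyclic P) {S : Subgroup G} (hS : IsPGroup p S) : IsCyclic S := by
  obtain ⟨P', hP'⟩ := hS.exists_le_sylow
  have : IsCyclic P' := isCyclic_of_injective (Sylow.equiv P' P).toMonoidHom (Sylow.equiv P' P).injective
  exact isCyclic_of_injective (Subgroup.inclusion hP') (Subgroup.inclusion_injective hP')

theorem caseB (hp2 : p ≠ 2) (P : Sylow p G) (hP : IsCyclic P) (hR : ∀ Q : Subgroup G, Nat.card Q = p → R Q)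
    (H : Subgroup G) (h1 : ∀ S : Sylow p ↥H, (S : Subgroup ↥H).Normal)
    (h2 : ∀ (S : Sylow p ↥H) [(S : Subgroup ↥H).Normal], IsCyclic (↥H ⧸ (S : Subgroup ↥H))) :
    IsCyclic H ∨ (∃ n : ℕ, Nonempty (H ≃* DihedralGroup (p ^ n))) := by
  have S : Sylow p H := default
  have hSn := h1 S
  have hSc := h2 S
  have hScyc : IsCyclic S := by
    have h3 : IsPGroup p ((S : Subgroup H).map H.subtype) := S.2.map _
    have h4 := isCyclic_pgroup hP h3
    have e := (S : Subgroup H).equivMapOfInjective H.subtype H.subtype_injective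
    exact isCyclic_of_injective e.toMonoidHom e.injective
  have hcop : (Nat.card (S : Subgroup H)).Coprime (S : Subgroup H).index := S.card_coprime_index
  obtain ⟨n, hn⟩ := IsPGroup.iff_card.1 S.2
  have hn' : Nat.card (S : Subgroup H) = p ^ n := hn
  rcases Nat.eq_zero_or_pos n with h0 | h0
  · left
    refine isCyclic_of_central (S : Subgroup H) hScyc ?_ hSc hcop
    intro s hs x
    have : (S : Subgroup H) = ⊥ := by
      rw [← Subgroup.card_eq_one, hn', h0, pow_zero]
    rw [this, mem_bot] at hs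
    subst hs; simp
  -- subgroup of order p
  obtain ⟨Q, hQ⟩ := Sylow.exists_subgroup_card_pow_prime (G := (S : Subgroup H)) p (n := 1) (by
    rw [hn']; exact pow_dvd_pow p h0)
  rw [pow_one] at hQ
  set Q1 : Subgroup H := Q.map (S : Subgroup H).subtype with hQ1
  have hQ1S : Q1 ≤ S := Subgroup.map_subtype_le Q
  have hQ1c : Nat.card Q1 = p := by
    rw [← hQ]
    exact (Nat.card_congr (Q.equivMapOfInjective _ (Subgroup.subtype_injective _)).toEquiv).symm
  have hQ1n : Q1.Normal := by
    refine ⟨fun q hq x => ?_⟩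
    have h3 : Q1.map (MulAut.conj x).toMonoidHom = Q1 := by
      refine unique_order_p (S := (S : Subgroup H)) hScyc ?_ hQ1S ?_ hQ1c
      · rintro _ ⟨y, hy, rfl⟩
        exact hSn.conj_mem y (hQ1S hy) x
      · rw [← hQ1c]
        exact (Nat.card_congr (Q1.equivMapOfInjective _ (MulAut.conj x).injective).toEquiv).symm
    rw [← h3]
    exact ⟨q, hq, rfl⟩
  set Q2 : Subgroup G := Q1.map H.subtype with hQ2
  have hQ2c : Nat.card Q2 = p := by
    rw [← hQ1c]
    exact (Nat.card_congr (Q1.equivMapOfInjective _ (Subgroup.subtype_injective _)).toEquiv).symm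
  have hHN : ∀ x : H, (x : G) ∈ normalizer (Q2 : Set G) := by
    intro x
    have key : ∀ x : H, ∀ y ∈ Q2, (x : G) * y * (x : G)⁻¹ ∈ Q2 := by
      rintro x _ ⟨y, hy, rfl⟩
      exact ⟨x * y * x⁻¹, hQ1n.conj_mem y hy x, by simp⟩
    rw [mem_normalizer_iff]
    intro y
    refine ⟨fun hy => key x y hy, fun hy => ?_⟩
    have := key x⁻¹ _ hy
    have e : ((x⁻¹ : H) : G) * ((x : G) * y * (x : G)⁻¹) * ((x⁻¹ : H) : G)⁻¹ = y := by push_cast; group
    rwa [e] at this
  obtain ⟨r1, r2⟩ := hR Q2 hQ2c
  by_cases hall : ∀ x : H, (x : G) ∈ centralizer (Q2 : Set G)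
  · left
    refine isCyclic_of_central (S : Subgroup H) hScyc ?_ hSc hcop
    intro s _ x
    exact Subtype.ext (r1 s (hall s) x (hall x))
  · right
    push Not at hall
    obtain ⟨x, hx⟩ := hall
    obtain ⟨x1, x2⟩ := r2 x (hHN x) hx
    have hxo : orderOf x = 2 := by rw [← Subgroup.orderOf_coe]; exact x1
    have hScomm : ∀ s ∈ (S : Subgroup H), ∀ t ∈ (S : Subgroup H), s * t = t * s := by
      intro s hs t ht
      let _ : CommGroup (S : Subgroup H) := hScyc.commGroup
      have := mul_comm (⟨s, hs⟩ : (S : Subgroup H)) ⟨t, ht⟩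
      exact congrArg Subtype.val this
    have hSC : ∀ s ∈ (S : Subgroup H), (s : G) ∈ centralizer (Q2 : Set G) := by
      intro s hs
      rw [mem_centralizer_iff]
      rintro _ ⟨y, hy, rfl⟩
      have := hScomm y (hQ1S hy) s hs
      exact congrArg Subtype.val this
    have hxS : x ∉ (S : Subgroup H) := fun h => hx (hSC x h)
    have hcomm : ∀ a b : H, a * b * a⁻¹ * b⁻¹ ∈ (S : Subgroup H) := by
      intro a b
      obtain ⟨g, hg⟩ := hSc
      rw [← QuotientGroup.eq_one_iff]
      change (a : H ⧸ (S : Subgroup H)) * b * (a : H ⧸ (S : Subgroup H))⁻¹ * (b : H ⧸ (S : Subgroup H))⁻¹ = 1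
      obtain ⟨i, hi⟩ := hg (a : H ⧸ (S : Subgroup H))
      obtain ⟨j, hj⟩ := hg (b : H ⧸ (S : Subgroup H))
      rw [← hi, ← hj]
      change g ^ i * g ^ j * (g ^ i)⁻¹ * (g ^ j)⁻¹ = 1
      rw [← zpow_add, add_comm, zpow_add]
      group
    -- elements of `C(Q)` are in `S`
    have hCS : ∀ a : H, (a : G) ∈ centralizer (Q2 : Set G) → a ∈ (S : Subgroup H) := by
      intro a ha
      have h3 := x2 a ha
      have h4 : x * a * x⁻¹ = a⁻¹ := Subtype.ext h3
      have h5 := hcomm x a
      rw [h4] at h5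
      have h6 : ((a : H) : H ⧸ (S : Subgroup H)) ^ 2 = 1 := by
        have : a⁻¹ * a⁻¹ = (a ^ 2)⁻¹ := by group
        rw [this, inv_mem_iff] at h5
        rw [← QuotientGroup.mk_pow, QuotientGroup.eq_one_iff]
        exact h5
      have h7 : ((x : H) : H ⧸ (S : Subgroup H)) ^ 2 = 1 := by
        rw [← QuotientGroup.mk_pow, ← hxo, pow_orderOf_eq_one, QuotientGroup.mk_one]
      have h8 : ((x : H) : H ⧸ (S : Subgroup H)) ≠ 1 := by
        rw [Ne, QuotientGroup.eq_one_iff]; exact hxS
      by_contra h9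
      have h10 : ((a : H) : H ⧸ (S : Subgroup H)) ≠ 1 := by
        rw [Ne, QuotientGroup.eq_one_iff]; exact h9
      have h11 : zpowers ((a : H) : H ⧸ (S : Subgroup H)) = zpowers ((x : H) : H ⧸ (S : Subgroup H)) := by
        have e1 : Nat.card (zpowers ((a : H) : H ⧸ (S : Subgroup H))) = 2 := by
          rw [Nat.card_zpowers]; exact orderOf_eq_prime h6 h10
        have e2 : Nat.card (zpowers ((x : H) : H ⧸ (S : Subgroup H))) = 2 := by
          rw [Nat.card_zpowers]; exact orderOf_eq_prime h7 h8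
        exact le_antisymm (Cfsg.Agent.H65.cyclic_le_of_card_dvd (by rw [e1, e2]))
          (Cfsg.Agent.H65.cyclic_le_of_card_dvd (by rw [e1, e2]))
      have h12 : ((a : H) : H ⧸ (S : Subgroup H)) = ((x : H) : H ⧸ (S : Subgroup H)) := by
        have h13 : ((a : H) : H ⧸ (S : Subgroup H)) ∈ zpowers ((x : H) : H ⧸ (S : Subgroup H)) := by
          rw [← h11]; exact mem_zpowers _
        obtain ⟨k, hk⟩ := h13
        change ((x : H) : H ⧸ (S : Subgroup H)) ^ k = _ at hk
        rcases Int.even_or_odd' k with ⟨j, rfl | rfl⟩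
        · rw [zpow_mul] at hk
          have : ((x : H) : H ⧸ (S : Subgroup H)) ^ (2 : ℤ) = 1 := by exact_mod_cast h7
          rw [this, one_zpow] at hk
          exact absurd hk.symm h10
        · rw [zpow_add, zpow_mul, zpow_one] at hk
          have : ((x : H) : H ⧸ (S : Subgroup H)) ^ (2 : ℤ) = 1 := by exact_mod_cast h7
          rw [this, one_zpow, one_mul] at hk
          exact hk.symm
      rw [QuotientGroup.eq] at h12
      apply hx
      have h13 := hSC _ h12
      have h14 : ((a : G)) * ((a⁻¹ * x : H) : G) ∈ centralizer (Q2 : Set G) := mul_mem ha h13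
      have e : ((a : G)) * ((a⁻¹ * x : H) : G) = x := by push_cast; group
      rwa [e] at h14
    have hor : ∀ a : H, a ∈ (S : Subgroup H) ∨ a * x ∈ (S : Subgroup H) := by
      intro a
      by_cases ha : (a : G) ∈ centralizer (Q2 : Set G)
      · exact Or.inl (hCS a ha)
      · right
        apply hCS
        obtain ⟨_, y2⟩ := r2 a (hHN a) ha
        rw [mem_centralizer_iff]
        intro q hq
        have hqC : q ∈ centralizer (Q2 : Set G) := by
          obtain ⟨y, hy, rfl⟩ := hq
          exact hSC y (hQ1S hy)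
        have e1 := y2 _ (inv_mem hqC)
        have e2 := x2 _ hqC
        push_cast
        have e3 : ((a : G) * x) * q * ((a : G) * x)⁻¹ = q := by
          calc ((a : G) * x) * q * ((a : G) * x)⁻¹ = a * ((x : G) * q * (x : G)⁻¹) * (a : G)⁻¹ := by group
            _ = q := by rw [e2, e1, inv_inv]
        calc q * ((a : G) * x) = (((a : G) * x) * q * ((a : G) * x)⁻¹) * ((a : G) * x) := by rw [e3]
          _ = _ := by group
    have hidx : (S : Subgroup H).index = 2 := by
      rw [Subgroup.index_eq_two_iff_exists_notMem_and]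
      exact ⟨x, hxS, fun b => (hor b).symm⟩
    obtain ⟨⟨s, hs⟩, hs'⟩ := hScyc
    have hso : orderOf s = p ^ n := by
      have := orderOf_eq_card_of_forall_mem_zpowers hs'
      rw [hn, ← Subgroup.orderOf_coe] at this
      exact this
    have hzs : ∀ y ∈ zpowers s, y ∈ (S : Subgroup H) := by
      have : zpowers s ≤ (S : Subgroup H) := by rw [zpowers_le]; exact hs
      exact this
    refine ⟨n, Cfsg.Agent.MaxClass.nonempty_mulEquiv_dihedral (a := s) (b := x) (pow_pos hp.out.pos n) hso
      (fun h => hxS (hzs x h)) (by rw [← hxo]; exact pow_orderOf_eq_one x) ?_ ?_⟩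
    · exact Subtype.ext (x2 s (hSC s hs))
    · rw [← Subgroup.card_mul_index (S : Subgroup H), hidx, hn', mul_comm]

end caseB

/-- Let p be an odd prime and G a finite group with Sylow p-subgroup P. Say that G has restricted p-by-cyclic subgroups when every subgroup H of G whose Sylow p-subgroup is normal in H with cyclic quotient is itself cyclic or dihedral of order 2pⁿ for some n. Then G has restricted p-by-cyclic subgroups if and only if P is cyclic and one of the following holds: (1) N_G(P) = C_G(P); or (2) N_G(P)/C_G(P) has order 2 and, for the subgroup Q of order p of P, the centralizer C_G(Q) is abelian and every element of N_G(Q) outside C_G(Q) is an involution inverting every element of C_G(Q). -/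
theorem result {G : Type*} [Group G] [Finite G] {p : ℕ}
    [Fact p.Prime] (hp : p ≠ 2) (P : Sylow p G) :
    (∀ H : Subgroup G, (∀ S : Sylow p ↥H, (S : Subgroup ↥H).Normal) →
        (∀ (S : Sylow p ↥H) [(S : Subgroup ↥H).Normal], IsCyclic (↥H ⧸ (S : Subgroup ↥H))) →
        IsCyclic H ∨ (∃ n : ℕ, Nonempty (H ≃* DihedralGroup (p ^ n)))) ↔
    (IsCyclic P ∧
      (Subgroup.normalizer ((P : Subgroup G) : Set G) = Subgroup.centralizer ((P : Subgroup G) : Set G) ∨
       ((Subgroup.centralizer ((P : Subgroup G) : Set G)).relIndex (Subgroup.normalizer ((P : Subgroup G) : Set G)) = 2 ∧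
        ∀ Q : Subgroup G, Q ≤ P → Nat.card Q = p →
          IsMulCommutative ↥(Subgroup.centralizer (Q : Set G)) ∧
          ∀ x : G, x ∈ Subgroup.normalizer (Q : Set G) → x ∉ Subgroup.centralizer (Q : Set G) →
            orderOf x = 2 ∧ ∀ c : G, c ∈ Subgroup.centralizer (Q : Set G) → x * c * x⁻¹ = c⁻¹))) := by

  constructor
  · intro h
    have hPc : IsCyclic P := by
      have hsub : Subsingleton ((P : Subgroup G) ⧸ (⊤ : Subgroup (P : Subgroup G))) := QuotientGroup.subsingleton_quotient_top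
      have h0 := sylow_of_quotient_cyclic (H := (P : Subgroup G)) (p := p) ⊤ (P.2.to_subgroup ⊤) isCyclic_of_subsingleton
      rcases h (P : Subgroup G) h0.1 h0.2 with h1 | ⟨n, ⟨e⟩⟩
      · exact h1
      · exfalso
        have h2 := Nat.card_congr e.toEquiv
        rw [DihedralGroup.nat_card] at h2
        obtain ⟨k, hk⟩ := IsPGroup.iff_card.1 P.2
        have hk' : Nat.card (P : Subgroup G) = p ^ k := hk
        rw [hk'] at h2
        exact not_even_pow hp (k := k) ⟨p ^ n, h2⟩
    refine ⟨hPc, ?_⟩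
    have hPcomm : (P : Subgroup G) ≤ centralizer ((P : Subgroup G) : Set G) := by
      intro a ha
      rw [mem_centralizer_iff]
      intro b hb
      let _ : CommGroup (P : Subgroup G) := hPc.commGroup
      have := mul_comm (⟨b, hb⟩ : (P : Subgroup G)) ⟨a, ha⟩
      exact congrArg Subtype.val this
    by_cases hNC : Subgroup.normalizer ((P : Subgroup G) : Set G) = Subgroup.centralizer ((P : Subgroup G) : Set G)
    · exact Or.inl hNC
    right
    obtain ⟨y, hy, hyC⟩ : ∃ y ∈ Subgroup.normalizer ((P : Subgroup G) : Set G), y ∉ Subgroup.centralizer ((P : Subgroup G) : Set G) := by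
      by_contra hcon
      push Not at hcon
      exact hNC (le_antisymm hcon (centralizer_le_normalizer _))
    obtain ⟨y1, y2⟩ := inverts hp h P.2 hy hyC
    refine ⟨?_, ?_⟩
    · rw [relIndex_eq_two_iff]
      refine ⟨y, hy, fun b hb => ?_⟩
      by_cases hbC : b ∈ centralizer ((P : Subgroup G) : Set G)
      · refine Or.inr ⟨hbC, fun hbad => hyC ?_⟩
        have := mul_mem (inv_mem hbC) hbad
        simpa using this
      · refine Or.inl ⟨?_, hbC⟩
        obtain ⟨_, b2⟩ := inverts hp h P.2 hb hbC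
        rw [mem_centralizer_iff]
        intro q hq
        have e3 : (b * y) * q * (b * y)⁻¹ = q := by
          calc (b * y) * q * (b * y)⁻¹ = b * (y * q * y⁻¹) * b⁻¹ := by group
            _ = q := by rw [y2 q hq, b2 _ (inv_mem hq), inv_inv]
        calc q * (b * y) = ((b * y) * q * (b * y)⁻¹) * (b * y) := by rw [e3]
          _ = _ := by group
    · intro Q hQP hQc
      have hQp : IsPGroup p Q := P.2.to_le hQP
      have hconj : ∀ x : G, x ∈ normalizer (Q : Set G) → x ∉ centralizer (Q : Set G) →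
            orderOf x = 2 ∧ ∀ c : G, c ∈ centralizer (Q : Set G) → x * c * x⁻¹ = c⁻¹ := by
        intro x hx hxC
        obtain ⟨h1, _⟩ := inverts hp h hQp hx hxC
        refine ⟨h1, fun c hc => ?_⟩
        have hxc1 : x * c ∈ normalizer (Q : Set G) := mul_mem hx (centralizer_le_normalizer _ hc)
        have hxc2 : x * c ∉ centralizer (Q : Set G) := by
          intro hbad
          apply hxC
          have := mul_mem hbad (inv_mem hc)
          simpa using this
        exact conj_inv_of_orderOf h1 (inverts hp h hQp hxc1 hxc2).1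
      refine ⟨?_, hconj⟩
      -- `y` is in `N(Q)` but not in `C(Q)`
      have hyQ : y ∈ normalizer (Q : Set G) := by
        rw [mem_normalizer_iff]
        intro q
        constructor
        · intro hq
          rw [y2 q (hQP hq)]
          exact inv_mem hq
        · intro hq
          have h1 : q ∈ (P : Subgroup G) := (mem_normalizer_iff.1 hy q).2 (hQP hq)
          rw [y2 q h1] at hq
          simpa using hq
      have hyCQ : y ∉ centralizer (Q : Set G) := by
        intro hbad
        have hQ1 : Q ≠ ⊥ := by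
          rintro rfl
          rw [Subgroup.card_bot] at hQc
          exact (Fact.out : p.Prime).one_lt.ne hQc
        obtain ⟨⟨q, hq⟩, hq1'⟩ := Subgroup.ne_bot_iff_exists_ne_one.1 hQ1
        have hq1 : q ≠ 1 := fun h => hq1' (Subtype.ext h)
        have h1 := y2 q (hQP hq)
        have h2 : y * q * y⁻¹ = q := by rw [← mem_centralizer_iff.1 hbad q hq]; group
        rw [h2] at h1
        have h3 : q ^ 2 = 1 := by rw [sq]; nth_rewrite 1 [h1]; group
        have h4 : orderOf q ∣ 2 := orderOf_dvd_of_pow_eq_one h3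
        obtain ⟨k, hk⟩ := (IsPGroup.iff_orderOf.1 hQp) ⟨q, hq⟩
        rw [← Subgroup.orderOf_coe] at hk
        change orderOf q = p ^ k at hk
        rcases (Nat.dvd_prime Nat.prime_two).1 h4 with h5 | h5
        · exact hq1 (orderOf_eq_one_iff.1 h5)
        · rw [hk] at h5
          exact not_even_pow hp (k := k) (by rw [h5])
      have h5 := (hconj y hyQ hyCQ).2
      refine ⟨⟨fun c d => Subtype.ext ?_⟩⟩
      have e1 := h5 (c * d) (mul_mem c.2 d.2)
      have e2 : y * ((c : G) * d) * y⁻¹ = (y * c * y⁻¹) * (y * d * y⁻¹) := by group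
      rw [e2, h5 c c.2, h5 d d.2] at e1
      have e3 := congrArg (fun z => z⁻¹) e1
      simpa using e3.symm
  · rintro ⟨hPc, hcase⟩ H h1 h2
    rcases hcase with hNC | ⟨_, hR⟩
    · left
      have hNPC : Cfsg.HasNormalPComplement p G := hasNPC_of_normalizer_le_centralizer P hNC.le
      have hNPCH : Cfsg.HasNormalPComplement p H := HasNPC.subgroup hNPC H
      have S : Sylow p H := default
      have hSn := h1 S
      refine isCyclic_of_hasNPC S hSn ?_ (h2 S) hNPCH
      have h3 : IsPGroup p ((S : Subgroup H).map H.subtype) := S.2.map _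
      have h4 := isCyclic_pgroup hPc h3
      have e := (S : Subgroup H).equivMapOfInjective H.subtype H.subtype_injective
      exact isCyclic_of_injective e.toMonoidHom e.injective
    · refine caseB hp P hPc (R_all P ?_) H h1 h2
      intro Q hQP hQc
      obtain ⟨a1, a2⟩ := hR Q hQP hQc
      refine ⟨fun c hc d hd => ?_, a2⟩
      have := a1.is_comm.comm ⟨c, hc⟩ ⟨d, hd⟩
      exact congrArg Subtype.val this

end Cfsg.Agent.S4082
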