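import Cfsg.Statements.S4084
import Mathlib.GroupTheory.Perm.Cycle.Type
import Mathlib.GroupTheory.Index
import Mathlib.Data.ZMod.QuotientGroup

set_option autoImplicit false
open Cfsg

namespace Cfsg.Agent.S4084

theorem half {G H : Type*} [Group G] [Finite G] [Group H] [Finite H] (e : G ≃ H)
    (he : ∀ x y : G, Commute x y ↔ Commute (e x) (e y))
    {p q : ℕ} (hp : p.Prime) (hq : q.Prime) (hpq : p ≠ q)
    (g : G) (hg : orderOf g = p * q) : ∃ h : H, orderOf h = p * q := by
  let CG : Subgroup G := Subgroup.centralizer (Subgroup.centralizer ({g} : Set G) : Set G)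
  let CH : Subgroup H := Subgroup.centralizer (Subgroup.centralizer ({e g} : Set H) : Set H)
  have hmemG : ∀ y : G, y ∈ CG ↔ ∀ w : G, Commute g w → Commute w y := by
    intro y
    simp only [CG, Subgroup.mem_centralizer_iff]
    constructor
    · intro h w hw
      exact h w (by
        simp only [SetLike.mem_coe, Subgroup.mem_centralizer_iff, Set.mem_singleton_iff, forall_eq]
        exact hw)
    · intro h w hw
      simp only [SetLike.mem_coe, Subgroup.mem_centralizer_iff, Set.mem_singleton_iff, forall_eq] at hw
      exact h w hw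
  have hmemH : ∀ y : H, y ∈ CH ↔ ∀ w : H, Commute (e g) w → Commute w y := by
    intro y
    simp only [CH, Subgroup.mem_centralizer_iff]
    constructor
    · intro h w hw
      exact h w (by
        simp only [SetLike.mem_coe, Subgroup.mem_centralizer_iff, Set.mem_singleton_iff, forall_eq]
        exact hw)
    · intro h w hw
      simp only [SetLike.mem_coe, Subgroup.mem_centralizer_iff, Set.mem_singleton_iff, forall_eq] at hw
      exact h w hw
  have hiff : ∀ y : G, y ∈ CG ↔ e y ∈ CH := by
    intro y
    rw [hmemG, hmemH]
    constructor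
    · intro h w hw
      have h1 := h (e.symm w) (by rw [he]; simpa using hw)
      rw [he] at h1
      simpa using h1
    · intro h w hw
      rw [he]
      exact h (e w) ((he _ _).1 hw)
  have hcard : Nat.card CG = Nat.card CH := Nat.card_congr (e.subtypeEquiv hiff)
  have hgC : g ∈ CG := by
    rw [hmemG]; intro w hw; exact hw.symm
  have hdvd : p * q ∣ Nat.card CH := by
    rw [← hcard, ← hg, ← Nat.card_zpowers]
    exact Subgroup.card_dvd_of_le (by
      rw [Subgroup.zpowers_le]; exact hgC)
  haveI : Fact p.Prime := ⟨hp⟩
  haveI : Fact q.Prime := ⟨hq⟩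
  obtain ⟨a, ha⟩ := exists_prime_orderOf_dvd_card' (G := CH) p (dvd_trans (dvd_mul_right _ _) hdvd)
  obtain ⟨b, hb⟩ := exists_prime_orderOf_dvd_card' (G := CH) q (dvd_trans (dvd_mul_left _ _) hdvd)
  have hab : Commute (a : H) (b : H) := by
    have h1 := (hmemH _).1 a.2
    have h2 := (hmemH _).1 b.2
    have h3 : Commute (e g) (b : H) := (h2 (e g) (Commute.refl _))
    exact (h1 _ h3).symm
  refine ⟨a * b, ?_⟩
  rw [hab.orderOf_mul_eq_mul_orderOf_of_coprime]
  · rw [Subgroup.orderOf_coe, Subgroup.orderOf_coe, ha, hb]
  · rw [Subgroup.orderOf_coe, Subgroup.orderOf_coe, ha, hb]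
    exact (Nat.coprime_primes hp hq).2 hpq

/-- Let G and H be finite groups whose commuting graphs are isomorphic: there is a bijection e : G → H with x, y commuting exactly when e(x), e(y) commute. Then G and H have the same prime graph: for distinct primes p, q, G has an element of order pq if and only if H does (and #G = #H, so the prime divisors agree). -/
theorem result {G H : Type*} [Group G] [Finite G] [Group H] [Finite H] (e : G ≃ H)
    (he : ∀ x y : G, Commute x y ↔ Commute (e x) (e y))
    {p q : ℕ} (hp : p.Prime) (hq : q.Prime) (hpq : p ≠ q) :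
    (∃ g : G, orderOf g = p * q) ↔ (∃ h : H, orderOf h = p * q) := by
  constructor
  · rintro ⟨g, hg⟩
    exact half e he hp hq hpq g hg
  · rintro ⟨h, hh⟩
    exact half e.symm (fun x y => by rw [he]; simp) hp hq hpq h hh

end Cfsg.Agent.S4084
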