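import Cfsg.Statements.S4085
import Cfsg.Agent.H50.PAut

set_option autoImplicit false
set_option linter.unusedSectionVars false
set_option linter.style.haveILetI false
open Cfsg

namespace Cfsg.Agent.S4085

open Subgroup

def Cmp {G : Type*} [Group G] (a b : G) : Prop := a ∈ zpowers b ∨ b ∈ zpowers a

theorem Cmp.symm {G : Type*} [Group G] {a b : G} (h : Cmp a b) : Cmp b a := Or.symm h

theorem cmp_comm {G : Type*} [Group G] {a b : G} : Cmp a b ↔ Cmp b a := ⟨Cmp.symm, Cmp.symm⟩

theorem cmp_one {G : Type*} [Group G] (a : G) : Cmp 1 a := Or.inl (one_mem _)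

theorem zpowers_eq_of_mem_of_orderOf_le {G : Type*} [Group G] [Finite G] {a b : G} (h : a ∈ zpowers b)
    (h' : orderOf b ≤ orderOf a) : zpowers a = zpowers b := by
  apply Subgroup.eq_of_le_of_card_ge (zpowers_le.2 h)
  rw [Nat.card_zpowers, Nat.card_zpowers]; exact h'

theorem mem_zpowers_iff_orderOf {G : Type*} [Group G] [Finite G] {x a b : G} (ha : a ∈ zpowers x)
    (hb : b ∈ zpowers x) : a ∈ zpowers b ↔ orderOf a ∣ orderOf b := by
  constructor
  · intro h; exact orderOf_dvd_of_mem_zpowers h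
  · intro h
    have hb0 : 0 < orderOf b := orderOf_pos b
    have ha0 : 0 < orderOf a := orderOf_pos a
    obtain ⟨k, hk⟩ := h
    have hk0 : k ≠ 0 := by rintro rfl; omega
    have h1 : orderOf (b ^ k) = orderOf a := by
      rw [orderOf_pow_of_dvd hk0 (by rw [hk]; exact Dvd.intro_left _ rfl), hk, Nat.mul_div_cancel _ (Nat.pos_of_ne_zero hk0)]
    have h2 : (zpowers a).subgroupOf (zpowers x) = (zpowers (b ^ k)).subgroupOf (zpowers x) := by
      apply H50.eq_of_card_eq_of_cyclic
      rw [Nat.card_congr (subgroupOfEquivOfLe (zpowers_le.2 ha)).toEquiv,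
        Nat.card_congr (subgroupOfEquivOfLe (zpowers_le.2 (pow_mem hb k))).toEquiv, Nat.card_zpowers,
        Nat.card_zpowers, h1]
    have h3 : (⟨a, ha⟩ : zpowers x) ∈ (zpowers (b ^ k)).subgroupOf (zpowers x) := by
      rw [← h2, mem_subgroupOf]; exact mem_zpowers a
    rw [mem_subgroupOf] at h3
    exact (zpowers_le.2 (pow_mem (mem_zpowers b) k)) h3

theorem cmp_iff {G : Type*} [Group G] [Finite G] {x a b : G} (ha : a ∈ zpowers x)
    (hb : b ∈ zpowers x) : Cmp a b ↔ orderOf a ∣ orderOf b ∨ orderOf b ∣ orderOf a := by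
  unfold Cmp
  rw [mem_zpowers_iff_orderOf ha hb, mem_zpowers_iff_orderOf hb ha]

theorem exists_of_dvd {G : Type*} [Group G] [Finite G] (x : G) {d : ℕ} (hd : d ∣ orderOf x) :
    ∃ y ∈ zpowers x, orderOf y = d := by
  obtain ⟨k, hk⟩ := hd
  have h0 : 0 < orderOf x := orderOf_pos x
  have hk0 : k ≠ 0 := by rintro rfl; omega
  refine ⟨x ^ k, pow_mem (mem_zpowers x) k, ?_⟩
  rw [orderOf_pow_of_dvd hk0 (by rw [hk]; exact Dvd.intro_left _ rfl), hk, Nat.mul_div_cancel _ (Nat.pos_of_ne_zero hk0)]

/-- the number of generators -/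
theorem card_generators {G : Type*} [Group G] [Finite G] (x : G) :
    Nat.card {y : G // zpowers y = zpowers x} = (orderOf x).totient := by
  classical
  haveI := Fintype.ofFinite G
  have e : {y : G // zpowers y = zpowers x} ≃ {y : zpowers x // orderOf y = orderOf x} :=
    { toFun := fun y => ⟨⟨y.1, y.2.le (mem_zpowers _)⟩, by
        rw [← Subgroup.orderOf_coe]
        change orderOf (y.1) = _
        rw [← Nat.card_zpowers, y.2, Nat.card_zpowers]⟩
      invFun := fun y => ⟨y.1.1, zpowers_eq_of_mem_of_orderOf_le y.1.2 (by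
        rw [Subgroup.orderOf_coe, y.2])⟩
      left_inv := fun y => rfl
      right_inv := fun y => rfl }
  rw [Nat.card_congr e, Nat.card_eq_fintype_card, Fintype.card_subtype]
  rw [IsCyclic.card_orderOf_eq_totient]
  rw [← Nat.card_eq_fintype_card, Nat.card_zpowers]

/-- number theory -/
theorem exists_incomp {n d p q : ℕ} (hn : n ≠ 0) (hp : p.Prime) (hq : q.Prime) (hpq : p ≠ q) (hpn : p ∣ n)
    (hqn : q ∣ n) (hd : d ∣ n) (hd1 : d ≠ 1) (hdn : d ≠ n) :
    ∃ r, r.Prime ∧ r ∣ n ∧ ¬ d ∣ ordProj[r] n ∧ ¬ ordProj[r] n ∣ d := by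
  by_contra hcon
  push Not at hcon
  have h1 : ∀ r, r.Prime → r ∣ n → ordProj[r] n ∣ d := by
    intro r hr hrn
    by_contra h
    have h2 : d ∣ ordProj[r] n := by
      by_contra h3
      exact h (hcon r hr hrn h3)
    -- another prime
    obtain ⟨r', hr', hr'n, hne⟩ : ∃ r', r'.Prime ∧ r' ∣ n ∧ r' ≠ r := by
      by_cases h3 : p = r
      · exact ⟨q, hq, hqn, fun h4 => hpq (h3.trans h4.symm)⟩
      · exact ⟨p, hp, hpn, h3⟩
    have hcop : (ordProj[r] n).Coprime (ordProj[r'] n) :=
      Nat.Coprime.pow _ _ ((Nat.coprime_primes hr hr').2 hne.symm)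
    have h3 : ¬ d ∣ ordProj[r'] n := by
      intro h4
      exact hd1 (Nat.dvd_one.1 (by rw [← hcop.gcd_eq_one]; exact Nat.dvd_gcd h2 h4))
    have h4 := (hcon r' hr' hr'n h3).trans h2
    have h5 : r' ∣ ordProj[r'] n := dvd_pow_self r' (Nat.Prime.factorization_pos_of_dvd hr' hn hr'n).ne'
    exact hne ((Nat.prime_dvd_prime_iff_eq hr' hr).1 (hr'.dvd_of_dvd_pow (h5.trans h4)))
  apply hdn
  apply Nat.dvd_antisymm hd
  rw [Nat.dvd_iff_prime_pow_dvd_dvd]
  intro r k hr hk
  rcases Nat.eq_zero_or_pos k with rfl | hk0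
  · simp
  · have h2 : r ∣ n := (dvd_pow_self r hk0.ne').trans hk
    exact ((Nat.Prime.pow_dvd_iff_dvd_ordProj hr hn).1 hk).trans (h1 r hr h2)

section Core

variable {G H : Type*} [Group G] [Finite G] [Group H] [Finite H]

/-- the elements of maximal prime power order of `⟨x⟩` -/
noncomputable def X (x : G) (r : ℕ) : G := x ^ (orderOf x / ordProj[r] (orderOf x))

theorem X_mem (x : G) (r : ℕ) : X x r ∈ zpowers x := pow_mem (mem_zpowers x) _

theorem orderOf_X (x : G) (r : ℕ) : orderOf (X x r) = ordProj[r] (orderOf x) := by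
  have hd : ordProj[r] (orderOf x) ∣ orderOf x := Nat.ordProj_dvd _ _
  have h0 : 0 < orderOf x := orderOf_pos x
  obtain ⟨k, hk⟩ := hd
  have hpos : 0 < ordProj[r] (orderOf x) := Nat.pos_of_ne_zero (fun h => by rw [h, zero_mul] at hk; omega)
  have h1 : orderOf x / ordProj[r] (orderOf x) = k := by
    rw [Nat.div_eq_iff_eq_mul_right hpos ⟨k, hk⟩]; exact hk
  have hk0 : k ≠ 0 := by rintro rfl; rw [mul_zero] at hk; omega
  unfold X
  rw [h1, orderOf_pow_of_dvd hk0 (by rw [hk]; exact Dvd.intro_left _ rfl)]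
  exact Nat.div_eq_of_eq_mul_left (Nat.pos_of_ne_zero hk0) hk

theorem X_incomp {x : G} {r r' : ℕ} (hr : r.Prime) (hr' : r'.Prime) (hrn : r ∣ orderOf x) (hrn' : r' ∣ orderOf x)
    (hne : r ≠ r') : ¬ Cmp (X x r) (X x r') := by
  rw [cmp_iff (X_mem x r) (X_mem x r'), orderOf_X, orderOf_X]
  have h0 : orderOf x ≠ 0 := (orderOf_pos x).ne'
  rintro (h | h)
  · have h5 : r ∣ ordProj[r] (orderOf x) := Nat.dvd_ordProj_of_dvd h0 hr hrn
    exact hne ((Nat.prime_dvd_prime_iff_eq hr hr').1 (hr.dvd_of_dvd_pow (h5.trans h)))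
  · have h5 : r' ∣ ordProj[r'] (orderOf x) := Nat.dvd_ordProj_of_dvd h0 hr' hrn'
    exact hne ((Nat.prime_dvd_prime_iff_eq hr' hr).1 (hr'.dvd_of_dvd_pow (h5.trans h))).symm

theorem cmp_gen_iff {x : G} (hmax : ∀ y, x ∈ zpowers y → y ∈ zpowers x) {y z : G} (hy : zpowers y = zpowers x) :
    Cmp z y ↔ z ∈ zpowers x := by
  constructor
  · rintro (h | h)
    · rw [← hy]; exact h
    · apply hmax
      have h1 : zpowers y ≤ zpowers z := zpowers_le.2 h
      rw [hy] at h1
      exact h1 (mem_zpowers x)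
  · intro h
    left; rw [hy]; exact h

/-- elements of `⟨x⟩` comparable with all `X x r` -/
theorem eq_one_or_gen {x : G} {p q : ℕ} (hp : p.Prime) (hq : q.Prime) (hpq : p ≠ q) (hpn : p ∣ orderOf x)
    (hqn : q ∣ orderOf x) {y : G} (hy : y ∈ zpowers x)
    (h : ∀ r, r.Prime → r ∣ orderOf x → Cmp y (X x r)) : y = 1 ∨ zpowers y = zpowers x := by
  by_contra hcon
  push Not at hcon
  have h0 : orderOf x ≠ 0 := (orderOf_pos x).ne'
  obtain ⟨r, hr, hrn, h1, h2⟩ := exists_incomp (d := orderOf y) h0 hp hq hpq hpn hqn (orderOf_dvd_of_mem_zpowers hy)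
    (fun h => hcon.1 (orderOf_eq_one_iff.1 h)) (fun h => hcon.2 (zpowers_eq_of_mem_of_orderOf_le hy h.ge))
  have h3 := h r hr hrn
  rw [cmp_iff hy (X_mem x r), orderOf_X] at h3
  exact h3.elim h1 h2

/-- the neighbourhood of `X x r` determines its order -/
theorem gen_X_of_nbhd {x : G} {p q : ℕ} (hp : p.Prime) (hq : q.Prime) (hpq : p ≠ q) (hpn : p ∣ orderOf x)
    (hqn : q ∣ orderOf x) {r : ℕ} (hr : r.Prime) (hrn : r ∣ orderOf x) {y : G} (hy : y ∈ zpowers x)
    (h : ∀ z ∈ zpowers x, Cmp z y ↔ Cmp z (X x r)) : zpowers y = zpowers (X x r) := by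
  have h0 : orderOf x ≠ 0 := (orderOf_pos x).ne'
  have hyn : orderOf y ∣ orderOf x := orderOf_dvd_of_mem_zpowers hy
  have key : orderOf y = ordProj[r] (orderOf x) := by
    have h1 : Cmp y (X x r) := (h y hy).1 (Or.inl (mem_zpowers y))
    rw [cmp_iff hy (X_mem x r), orderOf_X] at h1
    rcases h1 with h1 | h1
    · by_contra hne
      obtain ⟨r', hr', hr'n, hne'⟩ : ∃ r', r'.Prime ∧ r' ∣ orderOf x ∧ r' ≠ r := by
        by_cases h3 : p = r
        · exact ⟨q, hq, hqn, fun h4 => hpq (h3.trans h4.symm)⟩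
        · exact ⟨p, hp, hpn, h3⟩
      have hcop : (ordProj[r] (orderOf x)).Coprime (ordProj[r'] (orderOf x)) :=
        Nat.Coprime.pow _ _ ((Nat.coprime_primes hr hr').2 hne'.symm)
      have hcop2 : (orderOf y).Coprime (ordProj[r'] (orderOf x)) := Nat.Coprime.coprime_dvd_left h1 hcop
      obtain ⟨u, hu, hou⟩ := exists_of_dvd x (d := orderOf y * ordProj[r'] (orderOf x))
        (hcop2.mul_dvd_of_dvd_of_dvd hyn (Nat.ordProj_dvd _ _))
      have h2 : Cmp u y := by
        rw [cmp_iff hu hy, hou]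
        right; exact Dvd.intro _ rfl
      have h3 := (h u hu).1 h2
      rw [cmp_iff hu (X_mem x r), orderOf_X, hou] at h3
      rcases h3 with h3 | h3
      · have h5 : r' ∣ ordProj[r'] (orderOf x) := Nat.dvd_ordProj_of_dvd h0 hr' hr'n
        exact hne' ((Nat.prime_dvd_prime_iff_eq hr' hr).1
          (hr'.dvd_of_dvd_pow (h5.trans ((Dvd.intro_left _ rfl).trans h3))))
      · exact hne (Nat.dvd_antisymm h1 (hcop.dvd_of_dvd_mul_right h3))
    · by_contra hne
      obtain ⟨k, hk⟩ := h1
      have hk1 : k ≠ 1 := by rintro rfl; rw [mul_one] at hk; exact hne hk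
      obtain ⟨r', hr', hr'k⟩ := Nat.exists_prime_and_dvd hk1
      have hr'r : r' ≠ r := by
        rintro rfl
        have h2 : r' ^ ((orderOf x).factorization r' + 1) ∣ orderOf x := by
          rw [pow_succ]
          exact (mul_dvd_mul_left _ hr'k).trans ((dvd_of_eq hk.symm).trans hyn)
        exact Nat.pow_succ_factorization_not_dvd h0 hr' h2
      obtain ⟨u, hu, hou⟩ := exists_of_dvd x (d := r') ((hr'k.trans (Dvd.intro_left _ hk.symm)).trans hyn)
      have h2 : Cmp u y := by
        rw [cmp_iff hu hy, hou]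
        left; exact hr'k.trans (Dvd.intro_left _ hk.symm)
      have h3 := (h u hu).1 h2
      rw [cmp_iff hu (X_mem x r), orderOf_X, hou] at h3
      rcases h3 with h3 | h3
      · exact hr'r ((Nat.prime_dvd_prime_iff_eq hr' hr).1 (hr'.dvd_of_dvd_pow h3))
      · have h5 : r ∣ ordProj[r] (orderOf x) := Nat.dvd_ordProj_of_dvd h0 hr hrn
        exact hr'r ((Nat.prime_dvd_prime_iff_eq hr hr').1 (h5.trans h3)).symm
  have h4 : y ∈ zpowers (X x r) := by
    rw [mem_zpowers_iff_orderOf hy (X_mem x r), orderOf_X, key]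
  exact zpowers_eq_of_mem_of_orderOf_le h4 (by rw [orderOf_X, key])

theorem core (e : G ≃ H) (he : ∀ x y, Cmp x y ↔ Cmp (e x) (e y)) (he1 : e 1 = 1) (x : G)
    (hmax : ∀ y, x ∈ zpowers y → y ∈ zpowers x) {p q : ℕ} (hp : p.Prime) (hq : q.Prime) (hpq : p ≠ q)
    (hpn : p ∣ orderOf x) (hqn : q ∣ orderOf x) : ∃ v : H, orderOf v = orderOf x := by
  classical
  have h0 : orderOf x ≠ 0 := (orderOf_pos x).ne'
  have hn1 : orderOf x ≠ 1 := fun h => hp.one_lt.ne' (Nat.dvd_one.1 (h ▸ hpn))
  have hgen1 : ∀ x', zpowers x' = zpowers x → x' ≠ 1 := by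
    rintro x' h rfl
    apply hn1
    rw [← Nat.card_zpowers, ← h, Nat.card_zpowers, orderOf_one]
  by_cases hA : ∃ x', zpowers x' = zpowers x ∧ ∀ r, r.Prime → r ∣ orderOf x → e (X x r) ∈ zpowers (e x')
  · obtain ⟨x', hx', hAr⟩ := hA
    -- elements above `w'`
    have hS : ∀ y : G, e x' ∈ zpowers (e y) → zpowers y = zpowers x := by
      intro y hy
      have hyx : y ∈ zpowers x := (cmp_gen_iff hmax hx').1 ((he y x').2 (Or.inr hy))
      rcases eq_one_or_gen hp hq hpq hpn hqn hyx (fun r hr hrn => by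
        rw [he]
        exact Or.inr (zpowers_le.2 hy (hAr r hr hrn))) with h | h
      · exfalso
        rw [h, he1, zpowers_one_eq_bot, mem_bot, ← he1] at hy
        exact hgen1 x' hx' (e.injective hy)
      · exact h
    obtain ⟨v, hv, hvmax⟩ := (Set.toFinite {v : H | e x' ∈ zpowers v}).exists_maximalFor orderOf _
      ⟨e x', mem_zpowers _⟩
    have hv' : e x' ∈ zpowers v := hv
    have hyv : zpowers (e.symm v) = zpowers x := hS _ (by rw [e.apply_symm_apply]; exact hv')
    have hkey : ∀ z : H, z ∈ zpowers v ↔ e.symm z ∈ zpowers x := by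
      intro z
      constructor
      · intro hz
        apply (cmp_gen_iff hmax hyv).1
        rw [he, e.apply_symm_apply, e.apply_symm_apply]
        exact Or.inl hz
      · intro hz
        have h1 : Cmp z (e x') := by
          have := (cmp_gen_iff hmax hx').2 hz
          rwa [he, e.apply_symm_apply] at this
        rcases h1 with h1 | h1
        · exact zpowers_le.2 hv' h1
        · have h2 : zpowers (e.symm z) = zpowers x := hS _ (by rw [e.apply_symm_apply]; exact h1)
          have h3 : Cmp z v := by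
            have := (cmp_gen_iff hmax hyv).2 hz
            rwa [he, e.apply_symm_apply, e.apply_symm_apply] at this
          rcases h3 with h3 | h3
          · exact h3
          · have h4 : orderOf v ≤ orderOf z := Nat.le_of_dvd (orderOf_pos z) (orderOf_dvd_of_mem_zpowers h3)
            have h5 := hvmax h1 h4
            rw [zpowers_eq_of_mem_of_orderOf_le h3 h5]
            exact mem_zpowers z
    refine ⟨v, ?_⟩
    rw [← Nat.card_zpowers, ← Nat.card_zpowers]
    exact Nat.card_congr (e.symm.subtypeEquiv hkey)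
  · exfalso
    push Not at hA
    have hB : ∀ x', zpowers x' = zpowers x → ∀ r, r.Prime → r ∣ orderOf x → e x' ∈ zpowers (e (X x r)) := by
      intro x' hx' r hr hrn
      obtain ⟨r₀, hr₀, hr₀n, hnot⟩ := hA x' hx'
      have hc : ∀ r, Cmp (e (X x r)) (e x') := fun r => by
        rw [← he]; exact (cmp_gen_iff hmax hx').2 (X_mem x r)
      have h1 : e x' ∈ zpowers (e (X x r₀)) := (hc r₀).resolve_left hnot
      by_contra h2
      have h3 : e (X x r) ∈ zpowers (e x') := (hc r).resolve_right h2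
      have h4 : Cmp (X x r) (X x r₀) := by
        rw [he]; exact Or.inl (zpowers_le.2 h1 h3)
      by_cases hrr : r = r₀
      · rw [hrr] at h3; exact hnot h3
      · exact X_incomp hr hr₀ hrn hr₀n hrr h4
    -- Δ'
    let Δ : Set H := {v | e.symm v = 1 ∨ zpowers (e.symm v) = zpowers x}
    obtain ⟨v, hv, hvmax⟩ := (Set.toFinite Δ).exists_maximalFor orderOf _
      ⟨e x, Or.inr (by rw [e.symm_apply_apply])⟩
    have hvx : e x ∈ Δ := Or.inr (by rw [e.symm_apply_apply])
    have hcmpΔ : ∀ a ∈ Δ, ∀ b ∈ Δ, Cmp a b := by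
      intro a ha b hb
      rw [← e.apply_symm_apply a, ← e.apply_symm_apply b, ← he]
      rcases ha with ha | ha
      · rw [ha]; exact cmp_one _
      · rcases hb with hb | hb
        · rw [hb]; exact (cmp_one _).symm
        · apply (cmp_gen_iff hmax hb).2
          rw [← ha]; exact mem_zpowers _
    have hle : ∀ a ∈ Δ, a ∈ zpowers v := by
      intro a ha
      rcases hcmpΔ a ha v hv with h | h
      · exact h
      · have h4 : orderOf v ≤ orderOf a := Nat.le_of_dvd (orderOf_pos a) (orderOf_dvd_of_mem_zpowers h)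
        rw [zpowers_eq_of_mem_of_orderOf_le h (hvmax ha h4)]
        exact mem_zpowers a
    have hv1 : zpowers (e.symm v) = zpowers x := by
      rcases hv with h | h
      · exfalso
        have h1 : v = 1 := by rw [← e.apply_symm_apply v, h, he1]
        have h2 := hle _ hvx
        rw [h1, zpowers_one_eq_bot, mem_bot, ← he1] at h2
        exact hgen1 x rfl (e.injective h2)
      · exact h
    have hge : ∀ z ∈ zpowers v, z ∈ Δ := by
      intro z hz
      have hzx : e.symm z ∈ zpowers x := by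
        apply (cmp_gen_iff hmax hv1).1
        rw [he, e.apply_symm_apply, e.apply_symm_apply]
        exact Or.inl hz
      apply eq_one_or_gen hp hq hpq hpn hqn hzx
      intro r hr hrn
      have h1 := hB _ hv1 r hr hrn
      rw [e.apply_symm_apply] at h1
      rw [he, e.apply_symm_apply]
      exact Or.inl (zpowers_le.2 h1 hz)
    have hΔ : ∀ z, z ∈ zpowers v ↔ z ∈ Δ := fun z => ⟨hge z, hle z⟩
    -- the order of `v`
    have hM : orderOf v = (orderOf x).totient + 1 := by
      rw [← Nat.card_zpowers]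
      have e1 : zpowers v ≃ {y : G // y = 1 ∨ zpowers y = zpowers x} := e.symm.subtypeEquiv hΔ
      rw [Nat.card_congr e1]
      have e2 : {y : G // y = 1 ∨ zpowers y = zpowers x} ≃ {y : G // y = 1} ⊕ {y : G // zpowers y = zpowers x} := by
        apply subtypeOrEquiv
        rw [disjoint_iff]
        ext y
        simp only [Pi.inf_apply, inf_Prop_eq, Pi.bot_apply, Prop.bot_eq_false, iff_false, not_and]
        rintro rfl h
        exact hgen1 1 h rfl
      rw [Nat.card_congr e2, Nat.card_sum, card_generators, add_comm]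
      congr 1
      rw [Nat.card_unique]
    have hM1 : 1 < orderOf v := by
      rw [hM]
      have : 0 < (orderOf x).totient := Nat.totient_pos.2 (orderOf_pos x)
      omega
    -- `orderOf v` is a prime power
    obtain ⟨ℓ, hℓ, hℓM⟩ := Nat.exists_prime_and_dvd hM1.ne'
    have hpow : ∃ s, 0 < s ∧ orderOf v = ℓ ^ s := by
      have h1 : IsPrimePow (orderOf v) := by
        rw [isPrimePow_iff_unique_prime_dvd]
        refine ⟨ℓ, ⟨hℓ, hℓM⟩, ?_⟩
        rintro ℓ' ⟨hℓ', hℓ'M⟩
        obtain ⟨a, ha, hao⟩ := exists_of_dvd v hℓM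
        obtain ⟨b, hb, hbo⟩ := exists_of_dvd v hℓ'M
        have h2 := hcmpΔ a (hge a ha) b (hge b hb)
        rw [cmp_iff ha hb, hao, hbo] at h2
        rcases h2 with h2 | h2
        · exact ((Nat.prime_dvd_prime_iff_eq hℓ hℓ').1 h2).symm
        · exact (Nat.prime_dvd_prime_iff_eq hℓ' hℓ).1 h2
      obtain ⟨ℓ', s, hℓ', hs, hMs⟩ := (isPrimePow_nat_iff _).1 h1
      have h3 : ℓ = ℓ' := (Nat.prime_dvd_prime_iff_eq hℓ hℓ').1 (hℓ.dvd_of_dvd_pow (hMs.symm ▸ hℓM))
      exact ⟨s, hs, by rw [h3, hMs]⟩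
    have hhalf : orderOf v ≤ 2 * (orderOf v).totient := by
      obtain ⟨s, hs, hMs⟩ := hpow
      rw [hMs, Nat.totient_prime_pow hℓ hs]
      obtain ⟨t, rfl⟩ := Nat.exists_eq_succ_of_ne_zero hs.ne'
      rw [Nat.succ_sub_one, pow_succ]
      have h2 := hℓ.two_le
      calc ℓ ^ t * ℓ ≤ ℓ ^ t * (2 * (ℓ - 1)) := Nat.mul_le_mul_left _ (by omega)
        _ = 2 * (ℓ ^ t * (ℓ - 1)) := by ring
    have hbound : ∀ r, r.Prime → r ∣ orderOf x → (orderOf v).totient ≤ (ordProj[r] (orderOf x)).totient := by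
      intro r hr hrn
      have h1 := hB _ hv1 r hr hrn
      rw [e.apply_symm_apply] at h1
      have h2 : (orderOf v).totient ≤ (orderOf (e (X x r))).totient := by
        apply Nat.le_of_dvd (Nat.totient_pos.2 (orderOf_pos _))
        exact Nat.totient_dvd_of_dvd (orderOf_dvd_of_mem_zpowers h1)
      refine h2.trans ?_
      rw [← card_generators, ← orderOf_X, ← card_generators]
      -- injection
      have hinj : ∀ z : H, zpowers z = zpowers (e (X x r)) → zpowers (e.symm z) = zpowers (X x r) := by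
        intro z hz
        have hN : ∀ y : G, Cmp y (e.symm z) ↔ Cmp y (X x r) := by
          intro y
          rw [he, he y (X x r), e.apply_symm_apply]
          have hz1 : z ∈ zpowers (e (X x r)) := by rw [← hz]; exact mem_zpowers z
          have hz2 : e (X x r) ∈ zpowers z := by rw [hz]; exact mem_zpowers _
          constructor
          · rintro (h | h)
            · left; rw [← hz]; exact h
            · right; exact zpowers_le.2 h hz2
          · rintro (h | h)
            · left; rw [hz]; exact h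
            · right; exact zpowers_le.2 h hz1
        have hy : e.symm z ∈ zpowers x := by
          have h3 : Cmp x (X x r) := ((cmp_gen_iff hmax rfl).2 (X_mem x r)).symm
          exact (cmp_gen_iff hmax rfl).1 ((hN x).2 h3).symm
        exact gen_X_of_nbhd hp hq hpq hpn hqn hr hrn hy (fun y _ => hN y)
      exact Nat.card_le_card_of_injective
        (fun z : {z : H // zpowers z = zpowers (e (X x r))} =>
          (⟨e.symm z.1, hinj z.1 z.2⟩ : {y : G // zpowers y = zpowers (X x r)}))
        (fun a b hab => Subtype.ext (e.symm.injective (congrArg Subtype.val hab)))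
    have hcop : (ordProj[p] (orderOf x)).Coprime (ordProj[q] (orderOf x)) :=
      Nat.Coprime.pow _ _ ((Nat.coprime_primes hp hq).2 hpq)
    have h3 : (ordProj[p] (orderOf x)).totient * (ordProj[q] (orderOf x)).totient ≤ (orderOf x).totient := by
      rw [← Nat.totient_mul hcop]
      apply Nat.le_of_dvd (Nat.totient_pos.2 (orderOf_pos _))
      exact Nat.totient_dvd_of_dvd (hcop.mul_dvd_of_dvd_of_dvd (Nat.ordProj_dvd _ _) (Nat.ordProj_dvd _ _))
    have h4 := hbound p hp hpn
    have h5 := hbound q hq hqn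
    set P := (ordProj[p] (orderOf x)).totient with hP
    set Q := (ordProj[q] (orderOf x)).totient with hQ
    have h6 : P * Q + 1 ≤ 2 * P := by omega
    have h7 : P * Q + 1 ≤ 2 * Q := by omega
    have hP1 : P = 1 := by
      have : 0 < P := by
        by_contra h
        have : P = 0 := by omega
        rw [this] at h6; omega
      by_contra h
      have h8 : 2 ≤ P := by omega
      nlinarith
    have hQ1 : Q = 1 := by
      have : 0 < Q := by
        by_contra h
        have : Q = 0 := by omega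
        rw [this] at h7; omega
      by_contra h
      have h8 : 2 ≤ Q := by omega
      nlinarith
    have h9 : ∀ r, r.Prime → r ∣ orderOf x → (ordProj[r] (orderOf x)).totient = 1 → r = 2 := by
      intro r hr hrn h
      have h5 : r ∣ ordProj[r] (orderOf x) := Nat.dvd_ordProj_of_dvd h0 hr hrn
      rcases Nat.totient_eq_one_iff.1 h with h | h
      · rw [h] at h5; exact absurd (Nat.dvd_one.1 h5) hr.one_lt.ne'
      · rw [h] at h5; exact (Nat.prime_dvd_prime_iff_eq hr Nat.prime_two).1 h5
    exact hpq ((h9 p hp hpn (hP ▸ hP1)).trans (h9 q hq hqn (hQ ▸ hQ1)).symm)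

end Core

theorem one_dir {G H : Type*} [Group G] [Finite G] [Group H] [Finite H] (e : G ≃ H)
    (he : ∀ x y, Cmp x y ↔ Cmp (e x) (e y))
    {p q : ℕ} (hp : p.Prime) (hq : q.Prime) (hpq : p ≠ q)
    (h : ∃ g : G, orderOf g = p * q) : ∃ h : H, orderOf h = p * q := by
  classical
  obtain ⟨g, hg⟩ := h
  -- normalise
  obtain ⟨e', he', he'1⟩ : ∃ e' : G ≃ H, (∀ x y, Cmp x y ↔ Cmp (e' x) (e' y)) ∧ e' 1 = 1 := by
    have hdom : ∀ z : H, Cmp (e 1) z := fun z => by
      rw [← e.apply_symm_apply z, ← he]; exact cmp_one _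
    have hsw : ∀ a b : H, Cmp a b ↔ Cmp (Equiv.swap (e 1) 1 a) (Equiv.swap (e 1) 1 b) := by
      have hd : ∀ a : H, (a = e 1 ∨ a = 1) → ∀ z, Cmp a z := by
        rintro a (rfl | rfl) z
        · exact hdom z
        · exact cmp_one z
      have hd' : ∀ a : H, (a = e 1 ∨ a = 1) → (Equiv.swap (e 1) 1 a = e 1 ∨ Equiv.swap (e 1) 1 a = 1) := by
        rintro a (rfl | rfl)
        · right; exact Equiv.swap_apply_left _ _
        · left; exact Equiv.swap_apply_right _ _
      intro a b
      by_cases ha : a = e 1 ∨ a = 1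
      · exact ⟨fun _ => hd _ (hd' a ha) _, fun _ => hd _ ha _⟩
      · by_cases hb : b = e 1 ∨ b = 1
        · exact ⟨fun _ => (hd _ (hd' b hb) _).symm, fun _ => (hd _ hb _).symm⟩
        · push Not at ha hb
          rw [Equiv.swap_apply_of_ne_of_ne ha.1 ha.2, Equiv.swap_apply_of_ne_of_ne hb.1 hb.2]
    refine ⟨e.trans (Equiv.swap (e 1) 1), ?_, ?_⟩
    · intro x y
      rw [he, hsw]; rfl
    · simp
  obtain ⟨x, hx, hxmax⟩ := (Set.toFinite {x : G | g ∈ zpowers x}).exists_maximalFor orderOf _
    ⟨g, mem_zpowers g⟩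
  have hx' : g ∈ zpowers x := hx
  have hmax : ∀ y, x ∈ zpowers y → y ∈ zpowers x := by
    intro y hy
    have h1 : g ∈ zpowers y := zpowers_le.2 hy hx'
    have h2 := hxmax h1 (Nat.le_of_dvd (orderOf_pos y) (orderOf_dvd_of_mem_zpowers hy))
    rw [zpowers_eq_of_mem_of_orderOf_le hy h2]
    exact mem_zpowers y
  have hdvd : p * q ∣ orderOf x := hg ▸ orderOf_dvd_of_mem_zpowers hx'
  obtain ⟨v, hv⟩ := core e' he' he'1 x hmax hp hq hpq ((Dvd.intro _ rfl).trans hdvd) ((Dvd.intro_left _ rfl).trans hdvd)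
  obtain ⟨y, -, hy⟩ := exists_of_dvd v (d := p * q) (by rw [hv]; exact hdvd)
  exact ⟨y, hy⟩

/-- Let G and H be finite groups whose power graphs are isomorphic: there is a bijection e : G → H such that, for all x, y, one of x, y is a power of the other exactly when one of e(x), e(y) is a power of the other. Then G and H have the same prime graph: for distinct primes p, q, G has an element of order pq if and only if H does. -/
theorem result {G H : Type*} [Group G] [Finite G] [Group H] [Finite H] (e : G ≃ H)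
    (he : ∀ x y : G, (x ∈ Subgroup.zpowers y ∨ y ∈ Subgroup.zpowers x) ↔
      (e x ∈ Subgroup.zpowers (e y) ∨ e y ∈ Subgroup.zpowers (e x)))
    {p q : ℕ} (hp : p.Prime) (hq : q.Prime) (hpq : p ≠ q) :
    (∃ g : G, orderOf g = p * q) ↔ (∃ h : H, orderOf h = p * q) := by
  constructor
  · exact one_dir e he hp hq hpq
  · refine one_dir e.symm (fun x y => ?_) hp hq hpq
    have := he (e.symm x) (e.symm y)
    rw [e.apply_symm_apply, e.apply_symm_apply] at this
    exact this.symm

end Cfsg.Agent.S4085
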