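import Cfsg.Statements.S4086
import Cfsg.Agent.H68.Basic

set_option autoImplicit false
open Cfsg

namespace Cfsg.Agent.S4086

/-- For a finite group G the following are equivalent: every non-identity element has prime-power order; whenever two elements generate a cyclic subgroup, one of them is a power of the other (the enhanced power graph of G coincides with its power graph). -/
theorem result {G : Type*} [Group G] [Finite G] :
    (∀ g : G, g ≠ 1 → IsPrimePow (orderOf g)) ↔
    (∀ x y : G, IsCyclic ↥(Subgroup.closure ({x, y} : Set G)) → (x ∈ Subgroup.zpowers y ∨ y ∈ Subgroup.zpowers x)) := by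
  constructor
  · intro h x y hc
    obtain ⟨⟨z, hz⟩, hgen⟩ := hc.exists_generator
    have hxz : x ∈ Subgroup.zpowers z := by
      have := hgen ⟨x, Subgroup.subset_closure (by simp)⟩
      obtain ⟨k, hk⟩ := Subgroup.mem_zpowers_iff.1 this
      exact Subgroup.mem_zpowers_iff.2 ⟨k, by simpa using congrArg Subtype.val hk⟩
    have hyz : y ∈ Subgroup.zpowers z := by
      have := hgen ⟨y, Subgroup.subset_closure (by simp)⟩
      obtain ⟨k, hk⟩ := Subgroup.mem_zpowers_iff.1 this
      exact Subgroup.mem_zpowers_iff.2 ⟨k, by simpa using congrArg Subtype.val hk⟩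
    by_cases hz1 : z = 1
    · subst hz1
      left
      have : x = 1 := by simpa using hxz
      rw [this]; exact Subgroup.one_mem _
    · obtain ⟨p, k, hp, hk, hpk⟩ := h z hz1
      have hp' := hp.nat_prime
      have h1 : orderOf x ∣ p ^ k := hpk ▸ orderOf_dvd_of_mem_zpowers hxz
      have h2 : orderOf y ∣ p ^ k := hpk ▸ orderOf_dvd_of_mem_zpowers hyz
      obtain ⟨i, -, hi⟩ := (Nat.dvd_prime_pow hp').1 h1
      obtain ⟨j, -, hj⟩ := (Nat.dvd_prime_pow hp').1 h2
      rcases le_total i j with hij | hij
      · left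
        exact Cfsg.Agent.H68.mem_zpowers_of_orderOf_dvd' hxz hyz (by rw [hi, hj]; exact pow_dvd_pow _ hij)
      · right
        exact Cfsg.Agent.H68.mem_zpowers_of_orderOf_dvd' hyz hxz (by rw [hi, hj]; exact pow_dvd_pow _ hij)
  · intro h g hg
    have hg1 : orderOf g ≠ 1 := fun h' => hg (orderOf_eq_one_iff.1 h')
    by_contra hnp
    -- pick a prime p dividing the order
    obtain ⟨p, hp, hpd⟩ := Nat.exists_prime_and_dvd hg1
    obtain ⟨k, m, hpm, hkm⟩ := Nat.exists_eq_pow_mul_and_not_dvd (orderOf_pos g).ne' p hp.ne_one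
    have hk : k ≠ 0 := by
      rintro rfl
      rw [pow_zero, one_mul] at hkm
      exact hpm (hkm ▸ hpd)
    have hm1 : m ≠ 1 := by
      rintro rfl
      rw [mul_one] at hkm
      exact hnp ⟨p, k, hp.prime, Nat.pos_of_ne_zero hk, hkm.symm⟩
    have hpk1 : p ^ k ≠ 1 := by
      intro h'
      rcases Nat.pow_eq_one.1 h' with h'' | h''
      · exact hp.ne_one h''
      · exact hk h''
    have hm0 : m ≠ 0 := by
      rintro rfl
      rw [mul_zero] at hkm
      exact (orderOf_pos g).ne' hkm
    have hpk0 : p ^ k ≠ 0 := pow_ne_zero _ hp.ne_zero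
    have hcop : Nat.Coprime (p ^ k) m := Nat.Coprime.pow_left _ ((Nat.Prime.coprime_iff_not_dvd hp).2 hpm)
    have ho1 : orderOf (g ^ m) = p ^ k := by
      rw [orderOf_pow_of_dvd hm0 (by rw [hkm]; exact dvd_mul_left _ _), hkm,
        Nat.mul_div_cancel _ (Nat.pos_of_ne_zero hm0)]
    have ho2 : orderOf (g ^ (p ^ k)) = m := by
      rw [orderOf_pow_of_dvd hpk0 (by rw [hkm]; exact dvd_mul_right _ _), hkm,
        Nat.mul_div_cancel_left _ (Nat.pos_of_ne_zero hpk0)]
    have hcyc : IsCyclic ↥(Subgroup.closure ({g ^ m, g ^ (p ^ k)} : Set G)) := by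
      have hle : Subgroup.closure ({g ^ m, g ^ (p ^ k)} : Set G) ≤ Subgroup.zpowers g := by
        rw [Subgroup.closure_le]
        intro x hx
        rcases hx with rfl | hx
        · exact Subgroup.npow_mem_zpowers _ _
        · rw [Set.mem_singleton_iff] at hx
          rw [hx]
          exact Subgroup.npow_mem_zpowers _ _
      exact isCyclic_of_injective (Subgroup.inclusion hle) (Subgroup.inclusion_injective hle)
    rcases h _ _ hcyc with h' | h'
    · have := orderOf_dvd_of_mem_zpowers h'
      rw [ho1, ho2] at this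
      exact hpk1 (Nat.Coprime.eq_one_of_dvd hcop this)
    · have := orderOf_dvd_of_mem_zpowers h'
      rw [ho1, ho2] at this
      exact hm1 (Nat.Coprime.eq_one_of_dvd hcop.symm this)

end Cfsg.Agent.S4086
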