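import Cfsg.Statements.S4088
import Cfsg.Agent.H68.SubnormCount

set_option autoImplicit false
open Cfsg

namespace Cfsg.Agent.S4088

open Subgroup
open scoped Pointwise

theorem card_fiber {G α : Type*} [Group G] [Finite G] (f : G → α) (N : Subgroup G)
    (hf : ∀ g g', f g = f g' ↔ g⁻¹ * g' ∈ N) (T : α → Prop) :
    Nat.card {g : G // T (f g)} = Nat.card {b : α // (∃ g, b = f g) ∧ T b} * Nat.card N := by
  classical
  rw [← Nat.card_prod]
  have hch : ∀ b : {b : α // (∃ g, b = f g) ∧ T b}, ∃ g, (b : α) = f g := fun b => b.2.1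
  choose c hc using hch
  have hmem : ∀ g : {g : G // T (f g)}, (∃ g', f g.1 = f g') ∧ T (f g.1) := fun g => ⟨⟨g.1, rfl⟩, g.2⟩
  refine Nat.card_congr
    { toFun := fun g => (⟨f g.1, hmem g⟩, ⟨(c ⟨f g.1, hmem g⟩)⁻¹ * g.1, (hf _ _).1 (hc ⟨f g.1, hmem g⟩).symm⟩)
      invFun := fun x => ⟨c x.1 * x.2.1, ?_⟩
      left_inv := ?_
      right_inv := ?_ }
  · have h1 : f (c x.1) = f (c x.1 * x.2.1) := by
      rw [hf]; simp
    rw [← h1, ← hc x.1]
    exact x.1.2.2
  · intro g
    ext
    simp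
  · rintro ⟨b, s⟩
    have h1 : f (c b) = f (c b * s.1) := by
      rw [hf]; simp
    have h2 : f (c b * s.1) = b.1 := by rw [← h1, ← hc b]
    have h3 : (⟨f (c b * s.1), ⟨⟨_, rfl⟩, by rw [h2]; exact b.2.2⟩⟩ : {b : α // (∃ g, b = f g) ∧ T b}) = b :=
      Subtype.ext h2
    ext
    · exact h2
    · simp only [h3]
      simp

theorem map_conj_eq_iff {G : Type*} [Group G] (H : Subgroup G) (g g' : G) :
    H.map (MulAut.conj g).toMonoidHom = H.map (MulAut.conj g').toMonoidHom ↔ g⁻¹ * g' ∈ normalizer (H : Set G) := by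
  rw [Subgroup.mem_set_normalizer_iff]
  constructor
  · intro h x
    constructor
    · intro hx
      have h1 : g' * x * g'⁻¹ ∈ H.map (MulAut.conj g').toMonoidHom := ⟨x, hx, by simp⟩
      rw [← h] at h1
      obtain ⟨y, hy, hy'⟩ := h1
      have h2 : g⁻¹ * g' * x * (g⁻¹ * g')⁻¹ = y := by
        have h3 : g * y * g⁻¹ = g' * x * g'⁻¹ := by simpa using hy'
        calc g⁻¹ * g' * x * (g⁻¹ * g')⁻¹ = g⁻¹ * (g' * x * g'⁻¹) * g := by group
          _ = y := by rw [← h3]; group
      rw [h2]; exact hy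
    · intro hx
      have h1 : g * (g⁻¹ * g' * x * (g⁻¹ * g')⁻¹) * g⁻¹ ∈ H.map (MulAut.conj g).toMonoidHom := ⟨_, hx, by simp⟩
      rw [h] at h1
      obtain ⟨y, hy, hy'⟩ := h1
      have h3 : g' * y * g'⁻¹ = g * (g⁻¹ * g' * x * (g⁻¹ * g')⁻¹) * g⁻¹ := by simpa using hy'
      have h2 : x = y := by
        have : g' * y * g'⁻¹ = g' * x * g'⁻¹ := by rw [h3]; group
        simpa using this.symm
      rw [h2]; exact hy
  · intro h
    ext y
    constructor
    · rintro ⟨x, hx, rfl⟩
      refine ⟨g'⁻¹ * g * x * (g'⁻¹ * g)⁻¹, ?_, ?_⟩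
      · apply (h _).2
        have : g⁻¹ * g' * (g'⁻¹ * g * x * (g'⁻¹ * g)⁻¹) * (g⁻¹ * g')⁻¹ = x := by group
        rw [this]; exact hx
      · simp only [MulEquiv.toMonoidHom_eq_coe, MonoidHom.coe_coe, MulAut.conj_apply]
        group
    · rintro ⟨x, hx, rfl⟩
      refine ⟨g⁻¹ * g' * x * (g⁻¹ * g')⁻¹, (h x).1 hx, ?_⟩
      simp only [MulEquiv.toMonoidHom_eq_coe, MonoidHom.coe_coe, MulAut.conj_apply]
      group

/-- Let G be a finite group, p a prime dividing the order of G, H a p-subgroup of G and P a Sylow p-subgroup of G. Call the subnormalizer of H the set of elements g of G such that H is subnormal in the subgroup generated by H and g. Then the number of elements of the subnormalizer of H equals the number of Sylow p-subgroups of G containing H times the order of N_G(P), and also equals the number of conjugates of H contained in P times the order of N_G(H). -/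
theorem result {G : Type*} [Group G] [Finite G] (p : ℕ) [Fact p.Prime]
    (hp : p ∣ Nat.card G) (H : Subgroup G) (hH : IsPGroup p H) (P : Sylow p G) :
    Nat.card {g : G // ((H).subgroupOf (H ⊔ Subgroup.zpowers g)).IsSubnormal} =
        Nat.card {Q : Sylow p G // H ≤ (Q : Subgroup G)} * Nat.card (Subgroup.normalizer ((P : Subgroup G) : Set G)) ∧
    Nat.card {g : G // ((H).subgroupOf (H ⊔ Subgroup.zpowers g)).IsSubnormal} =
        Nat.card {K : Subgroup G // K ≤ (P : Subgroup G) ∧ ∃ g : G, K = H.map (MulAut.conj g).toMonoidHom} *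
          Nat.card (Subgroup.normalizer (H : Set G)) := by
  have h0 : Nat.card {g : G // ((H).subgroupOf (H ⊔ Subgroup.zpowers g)).IsSubnormal} =
      Nat.card {g : G // ∃ R : Subgroup G, IsPGroup p R ∧ H ≤ R ∧ g ∈ normalizer (R : Set G)} :=
    Nat.card_congr (Equiv.subtypeEquivRight (fun g => Cfsg.Agent.H68.subnormalizer_iff p H hH g))
  have h1 := Cfsg.Agent.H68.card_subnormalizer p H P
  refine ⟨h0.trans h1, ?_⟩
  rw [h0, h1]
  have e1 := card_fiber (fun g : G => H.map (MulAut.conj g).toMonoidHom) (normalizer (H : Set G))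
    (map_conj_eq_iff H) (fun K => K ≤ (P : Subgroup G))
  have e2 := card_fiber (fun g : G => (P : Subgroup G).map (MulAut.conj g).toMonoidHom)
    (normalizer ((P : Subgroup G) : Set G))
    (map_conj_eq_iff (P : Subgroup G)) (fun K => H ≤ K)
  have e3 : Nat.card {g : G // H.map (MulAut.conj g).toMonoidHom ≤ (P : Subgroup G)} =
      Nat.card {g : G // H ≤ (P : Subgroup G).map (MulAut.conj g).toMonoidHom} := by
    refine Nat.card_congr ((Equiv.inv G).subtypeEquiv ?_)
    intro g
    constructor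
    · intro h x hx
      refine ⟨g * x * g⁻¹, h ⟨x, hx, by simp⟩, ?_⟩
      simp only [MulEquiv.toMonoidHom_eq_coe, MonoidHom.coe_coe, MulAut.conj_apply, Equiv.inv_apply]
      group
    · rintro h x ⟨y, hy, rfl⟩
      obtain ⟨z, hz, hz'⟩ := h hy
      have h3 : g⁻¹ * z * g = y := by simpa using hz'
      have : (MulAut.conj g).toMonoidHom y = z := by
        simp only [MulEquiv.toMonoidHom_eq_coe, MonoidHom.coe_coe, MulAut.conj_apply]
        rw [← h3]; group
      rw [this]; exact hz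
  have e4 : Nat.card {K : Subgroup G // K ≤ (P : Subgroup G) ∧ ∃ g : G, K = H.map (MulAut.conj g).toMonoidHom} =
      Nat.card {b : Subgroup G // (∃ g, b = H.map (MulAut.conj g).toMonoidHom) ∧ b ≤ (P : Subgroup G)} :=
    Nat.card_congr (Equiv.subtypeEquivRight (fun K => and_comm))
  have e5 : Nat.card {Q : Sylow p G // H ≤ (Q : Subgroup G)} =
      Nat.card {b : Subgroup G // (∃ g, b = (P : Subgroup G).map (MulAut.conj g).toMonoidHom) ∧ H ≤ b} := by
    refine Nat.card_congr (Equiv.ofBijective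
      (fun Q => ⟨(Q.1 : Subgroup G), ?_, Q.2⟩) ⟨?_, ?_⟩)
    · obtain ⟨g, hg⟩ := MulAction.exists_smul_eq G P Q.1
      refine ⟨g, ?_⟩
      rw [← hg]; rfl
    · intro Q Q' h
      simp only [Subtype.mk.injEq] at h
      exact Subtype.ext (Sylow.ext h)
    · rintro ⟨b, ⟨g, rfl⟩, hb⟩
      exact ⟨⟨g • P, hb⟩, rfl⟩
  rw [e4, e5, ← e1, ← e2, e3]

end Cfsg.Agent.S4088
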