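import Cfsg.Statements.S4089
import Cfsg.Agent.H68.Subnormalizer

set_option autoImplicit false
open Cfsg

namespace Cfsg.Agent.S4089

open Subgroup

/-- Let G be a finite group, p a prime and H a p-subgroup of G. Then the set of elements g of G such that H is subnormal in the subgroup generated by H and g is the union of the normalizers N_G(R) over the subgroups R of G containing H with R = O_p(N_G(R)); and this set does not change when H is replaced by the intersection of all Sylow p-subgroups of G containing H. -/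
theorem result {G : Type*} [Group G] [Finite G] (p : ℕ) [Fact p.Prime]
    (H : Subgroup G) (hH : IsPGroup p H) :
    {g : G | ((H).subgroupOf (H ⊔ Subgroup.zpowers g)).IsSubnormal} =
      {g : G | ∃ R : Subgroup G, H ≤ R ∧ (Cfsg.pCore p (Subgroup.normalizer (R : Set G))).map (Subgroup.normalizer (R : Set G)).subtype = R ∧ g ∈ Subgroup.normalizer (R : Set G)} ∧
    ∀ g : G, (((H).subgroupOf (H ⊔ Subgroup.zpowers g)).IsSubnormal ↔
      (((sInf {K : Subgroup G | ∃ Q : Sylow p G, H ≤ (Q : Subgroup G) ∧ K = (Q : Subgroup G)})).subgroupOf ((sInf {K : Subgroup G | ∃ Q : Sylow p G, H ≤ (Q : Subgroup G) ∧ K = (Q : Subgroup G)}) ⊔ Subgroup.zpowers g)).IsSubnormal) := by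
  -- intersections of the Sylow subgroups containing a `p`-group
  have hI : ∀ R : Subgroup G, IsPGroup p R →
      IsPGroup p ↥(sInf {K : Subgroup G | ∃ Q : Sylow p G, R ≤ (Q : Subgroup G) ∧ K = (Q : Subgroup G)}) := by
    intro R hR
    obtain ⟨Q, hQ⟩ := hR.exists_le_sylow
    exact Q.isPGroup'.to_le (sInf_le ⟨Q, hQ, rfl⟩)
  have hle : ∀ R : Subgroup G,
      R ≤ sInf {K : Subgroup G | ∃ Q : Sylow p G, R ≤ (Q : Subgroup G) ∧ K = (Q : Subgroup G)} := by
    intro R
    apply le_sInf
    rintro K ⟨Q, hQ, rfl⟩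
    exact hQ
  constructor
  · ext g
    constructor
    · intro hg
      exact Cfsg.Agent.H68.exists_radical p H g ((Cfsg.Agent.H68.subnormalizer_iff p H hH g).1 hg)
    · rintro ⟨R, hHR, hR, hg⟩
      apply (Cfsg.Agent.H68.subnormalizer_iff p H hH g).2
      refine ⟨R, ?_, hHR, hg⟩
      rw [← hR]
      exact Cfsg.Agent.H49.isPGroup_pCoreOf p _
  · intro g
    rw [Cfsg.Agent.H68.subnormalizer_iff p H hH g, Cfsg.Agent.H68.subnormalizer_iff p _ (hI H hH) g]
    constructor
    · rintro ⟨R, hR, hHR, hg⟩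
      refine ⟨sInf {K : Subgroup G | ∃ Q : Sylow p G, R ≤ (Q : Subgroup G) ∧ K = (Q : Subgroup G)}, hI R hR, ?_, ?_⟩
      · apply le_sInf
        rintro K ⟨Q, hQ, rfl⟩
        exact sInf_le ⟨Q, hHR.trans hQ, rfl⟩
      · have key : ∀ g ∈ normalizer (R : Set G), ∀ x ∈ sInf {K : Subgroup G | ∃ Q : Sylow p G, R ≤ (Q : Subgroup G) ∧ K = (Q : Subgroup G)},
            g * x * g⁻¹ ∈ sInf {K : Subgroup G | ∃ Q : Sylow p G, R ≤ (Q : Subgroup G) ∧ K = (Q : Subgroup G)} := by
          intro g hg x hx
          rw [Subgroup.mem_sInf] at hx ⊢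
          rintro K ⟨Q, hQ, rfl⟩
          have h1 : R ≤ ((g⁻¹ • Q : Sylow p G) : Subgroup G) := by
            intro y hy
            rw [Sylow.coe_subgroup_smul, Cfsg.Agent.H68.mem_conj_smul_iff, inv_inv]
            exact hQ ((Subgroup.mem_set_normalizer_iff.1 hg y).1 hy)
          have h2 := hx _ ⟨g⁻¹ • Q, h1, rfl⟩
          rw [Sylow.coe_subgroup_smul, Cfsg.Agent.H68.mem_conj_smul_iff, inv_inv] at h2
          exact h2
        rw [Subgroup.mem_set_normalizer_iff]
        intro x
        constructor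
        · exact key g hg x
        · intro hx
          have h3 := key g⁻¹ (inv_mem hg) _ hx
          have h4 : g⁻¹ * (g * x * g⁻¹) * g⁻¹⁻¹ = x := by group
          rwa [h4] at h3
    · rintro ⟨R, hR, hHR, hg⟩
      exact ⟨R, hR, (hle H).trans hHR, hg⟩

end Cfsg.Agent.S4089
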