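import Cfsg.Statements.S4090
import Cfsg.Agent.H68.SubnormCount
import Cfsg.Agent.S4088
import Mathlib

set_option autoImplicit false
open scoped BigOperators
open Cfsg

namespace Cfsg.Agent.S4090

open Subgroup

/-- `|{g : H^g ≤ P}| = |S_G(H)|`. -/
theorem card_subnormalizer_eq {G : Type*} [Group G] [Finite G] (p : ℕ) [Fact p.Prime]
    (H : Subgroup G) (hH : IsPGroup p H) (P : Sylow p G) :
    Nat.card {g : G // ((H).subgroupOf (H ⊔ Subgroup.zpowers g)).IsSubnormal} =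
      Nat.card {g : G // H.map (MulAut.conj g).toMonoidHom ≤ (P : Subgroup G)} := by
  by_cases hp : p ∣ Nat.card G
  · rw [(Cfsg.Agent.S4088.result p hp H hH P).2]
    have e1 := Cfsg.Agent.S4088.card_fiber (fun g : G => H.map (MulAut.conj g).toMonoidHom) (normalizer (H : Set G))
      (Cfsg.Agent.S4088.map_conj_eq_iff H) (fun K => K ≤ (P : Subgroup G))
    rw [e1]
    congr 1
    exact Nat.card_congr (Equiv.subtypeEquivRight (fun K => and_comm))
  · have hH1 : H = ⊥ := by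
      rw [← Subgroup.card_eq_one]
      obtain ⟨n, hn⟩ := IsPGroup.iff_card.1 hH
      rcases Nat.eq_zero_or_pos n with h0 | h0
      · rw [hn, h0, pow_zero]
      · exfalso
        apply hp
        exact (dvd_pow_self p h0.ne').trans (hn ▸ Subgroup.card_subgroup_dvd_card H)
    subst hH1
    refine Nat.card_congr (Equiv.subtypeEquivRight (fun g => ?_))
    constructor
    · intro _
      rw [Subgroup.map_bot]; exact bot_le
    · intro _
      rw [Subgroup.bot_subgroupOf]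
      exact (inferInstance : (⊥ : Subgroup _).Normal).isSubnormal

theorem relIndex_sup_eq {G : Type*} [Group G] [Finite G] (Y B : Subgroup G) [B.Normal] :
    Y.relIndex (Y ⊔ B) = Y.relIndex B := by
  have h1 : B.relIndex (Y ⊔ B) = B.relIndex Y := relIndex_sup_right _ _
  have h2 : Nat.card B * B.relIndex (Y ⊔ B) = Nat.card ↥(Y ⊔ B) := by
    have := Subgroup.card_mul_index (B.subgroupOf (Y ⊔ B))
    rwa [Nat.card_congr (Subgroup.subgroupOfEquivOfLe (le_sup_right : B ≤ Y ⊔ B)).toEquiv] at this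
  have h3 : Nat.card ↥(Y ⊓ B) * B.relIndex Y = Nat.card Y := by
    have := Subgroup.card_mul_index ((Y ⊓ B).subgroupOf Y)
    rw [Nat.card_congr (Subgroup.subgroupOfEquivOfLe (inf_le_left : Y ⊓ B ≤ Y)).toEquiv] at this
    rw [← inf_relIndex_left Y B]; exact this
  have h4 : Nat.card ↥(Y ⊓ B) * Y.relIndex B = Nat.card B := by
    have := Subgroup.card_mul_index ((Y ⊓ B).subgroupOf B)
    rw [Nat.card_congr (Subgroup.subgroupOfEquivOfLe (inf_le_right : Y ⊓ B ≤ B)).toEquiv] at this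
    rw [← inf_relIndex_right Y B]; exact this
  have h5 : Nat.card Y * Y.relIndex (Y ⊔ B) = Nat.card ↥(Y ⊔ B) := by
    have := Subgroup.card_mul_index (Y.subgroupOf (Y ⊔ B))
    rwa [Nat.card_congr (Subgroup.subgroupOfEquivOfLe (le_sup_left : Y ≤ Y ⊔ B)).toEquiv] at this
  rw [← h2, ← h3, ← h4, h1] at h5
  have hpos : 0 < Nat.card ↥(Y ⊓ B) * B.relIndex Y := by
    rw [h3]; exact Nat.card_pos
  apply Nat.eq_of_mul_eq_mul_left hpos
  rw [h5]; ring

theorem relIndex_dvd_index {G : Type*} [Group G] [Finite G] (Y B : Subgroup G) [B.Normal] :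
    Y.relIndex B ∣ Y.index := by
  rw [← relIndex_sup_eq]
  exact relIndex_dvd_index_of_le le_sup_left

theorem le_of_pPow {G : Type*} [Group G] [Finite G] (p : ℕ) [Fact p.Prime] (P : Sylow p G)
    (A B : Subgroup G) [B.Normal] {m : ℕ} (hAB : A.relIndex B = p ^ m) :
    B ≤ (P : Subgroup G) ⊔ A := by
  rw [← relIndex_eq_one]
  have h1 : ((P : Subgroup G) ⊔ A).relIndex B ∣ p ^ m := by
    rw [← hAB]
    exact relIndex_dvd_of_le_left _ le_sup_right
  have h2 : ((P : Subgroup G) ⊔ A).relIndex B ∣ (P : Subgroup G).index :=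
    (relIndex_dvd_index _ _).trans (Subgroup.index_dvd_of_le le_sup_left)
  have h3 : Nat.Coprime (p ^ m) (P : Subgroup G).index := by
    apply Nat.Coprime.pow_left
    rw [Nat.Prime.coprime_iff_not_dvd Fact.out]
    exact P.not_dvd_index
  exact Nat.eq_one_of_dvd_coprimes h3 h1 h2

theorem inf_le_of_coprime {G : Type*} [Group G] [Finite G] (p : ℕ) [Fact p.Prime] (P : Sylow p G)
    (A B : Subgroup G) [A.Normal] (hAB : (A.relIndex B).Coprime p) :
    (P : Subgroup G) ⊓ B ≤ A := by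
  rw [← relIndex_eq_one]
  have h1 : A.relIndex ((P : Subgroup G) ⊓ B) ∣ Nat.card ↥((P : Subgroup G) ⊓ B) := relIndex_dvd_card _ _
  have h3 : IsPGroup p ↥((P : Subgroup G) ⊓ B) := P.isPGroup'.to_le inf_le_left
  obtain ⟨n, hn⟩ := IsPGroup.iff_card.1 h3
  rw [hn] at h1
  have h2 : A.relIndex ((P : Subgroup G) ⊓ B) ∣ A.relIndex B := by
    have : (A.subgroupOf B).relIndex (((P : Subgroup G) ⊓ B).subgroupOf B) ∣ (A.subgroupOf B).index :=
      relIndex_dvd_index_of_normal _ _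
    rwa [Subgroup.relIndex_subgroupOf inf_le_right] at this
  exact Nat.eq_one_of_dvd_coprimes (Nat.Coprime.pow_left n hAB.symm) h1 h2

theorem sup_inf_eq {G : Type*} [Group G] [Finite G] (p : ℕ) [Fact p.Prime] (P : Sylow p G)
    (A B : Subgroup G) [A.Normal] (hle : A ≤ B) (hAB : (A.relIndex B).Coprime p) :
    ((P : Subgroup G) ⊔ A) ⊓ B = A := by
  apply le_antisymm
  · rintro x ⟨hx1, hx2⟩
    obtain ⟨y, hy, a, ha, rfl⟩ := Subgroup.mem_sup_of_normal_right.1 hx1
    have hyB : y ∈ B := by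
      have hx2' : y * a ∈ B := hx2
      have := mul_mem hx2' (inv_mem (hle ha))
      simpa using this
    exact mul_mem (inf_le_of_coprime p P A B hAB ⟨hy, hyB⟩) ha
  · exact le_inf le_sup_right hle

theorem telescope (n : ℕ) : ∀ (T : Fin (n + 1) → ℕ) (F D : Fin n → ℕ)
    (_ : ∀ i : Fin n, T i.castSucc * F i = T i.succ * D i),
    T 0 * ∏ i, F i = T (Fin.last n) * ∏ i, D i := by
  induction n with
  | zero => intro T F D _; simp
  | succ n ih =>
    intro T F D h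
    have h1 := ih (fun i => T i.castSucc) (fun i => F i.castSucc) (fun i => D i.castSucc)
      (fun i => by
        have := h i.castSucc
        rw [← Fin.castSucc_succ] at this
        exact this)
    have h2 := h (Fin.last n)
    rw [Fin.prod_univ_castSucc, Fin.prod_univ_castSucc]
    have h3 : T (Fin.castSucc (0 : Fin (n + 1))) = T 0 := by congr 1
    rw [h3] at h1
    calc T 0 * ((∏ i : Fin n, F i.castSucc) * F (Fin.last n)) =
        (T 0 * ∏ i : Fin n, F i.castSucc) * F (Fin.last n) := by ring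
      _ = (T (Fin.castSucc (Fin.last n)) * F (Fin.last n)) * ∏ i : Fin n, D i.castSucc := by rw [h1]; ring
      _ = _ := by rw [h2, Fin.succ_last]; ring

theorem mem_sup_conj {G : Type*} [Group G] (p : ℕ) [Fact p.Prime] [Finite G] (P : Sylow p G)
    (H A B : Subgroup G) [hA : A.Normal] [hB : B.Normal] (hle : A ≤ B) (hAB : (A.relIndex B).Coprime p)
    (x : G) (hx : ∀ h ∈ H, x * h * x⁻¹ ∈ (P : Subgroup G)) (w : G) (hw : w ∈ B) :
    (∀ h ∈ H, x * w * h * (x * w)⁻¹ ∈ (P : Subgroup G) ⊔ A) ↔ (∀ h ∈ H, h * w * h⁻¹ * w⁻¹ ∈ A) := by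
  constructor
  · intro h1 h hh
    have h2 := mul_mem (h1 h hh) (inv_mem ((le_sup_left : (P : Subgroup G) ≤ (P : Subgroup G) ⊔ A) (hx h hh)))
    have h3 : x * w * h * (x * w)⁻¹ * (x * h * x⁻¹)⁻¹ = x * (w * (h * w⁻¹ * h⁻¹)) * x⁻¹ := by group
    rw [h3] at h2
    have h4 : x * (w * (h * w⁻¹ * h⁻¹)) * x⁻¹ ∈ B :=
      hB.conj_mem _ (mul_mem hw (hB.conj_mem _ (inv_mem hw) _)) _
    have h5 : x * (w * (h * w⁻¹ * h⁻¹)) * x⁻¹ ∈ A := by
      rw [← sup_inf_eq p P A B hle hAB]; exact ⟨h2, h4⟩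
    have h6 := inv_mem (hA.conj_mem _ h5 x⁻¹)
    have h7 : (x⁻¹ * (x * (w * (h * w⁻¹ * h⁻¹)) * x⁻¹) * x⁻¹⁻¹)⁻¹ = h * w * h⁻¹ * w⁻¹ := by group
    rwa [h7] at h6
  · intro h1 h hh
    have h2 : x * w * h * (x * w)⁻¹ = (x * (h * w * h⁻¹ * w⁻¹)⁻¹ * x⁻¹) * (x * h * x⁻¹) := by group
    rw [h2]
    exact mul_mem ((le_sup_right : A ≤ (P : Subgroup G) ⊔ A) (hA.conj_mem _ (inv_mem (h1 h hh)) _))
      ((le_sup_left : (P : Subgroup G) ≤ (P : Subgroup G) ⊔ A) (hx h hh))

theorem exists_conj_le {G : Type*} [Group G] (p : ℕ) [Fact p.Prime] [Finite G] (P : Sylow p G)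
    (K B : Subgroup G) [hB : B.Normal] (hK : IsPGroup p K) (hKB : K ≤ (P : Subgroup G) ⊔ B) :
    ∃ b ∈ B, ∀ k ∈ K, b * k * b⁻¹ ∈ (P : Subgroup G) := by
  set X := (P : Subgroup G) ⊔ B with hX
  let P' : Sylow p X := P.subtype le_sup_left
  obtain ⟨Q, hQ⟩ := (hK.comap_subtype (K := X)).exists_le_sylow
  obtain ⟨x, hx⟩ := MulAction.exists_smul_eq X Q P'
  obtain ⟨y, hy, b, hb, hyb⟩ := Subgroup.mem_sup_of_normal_right.1 x.2
  refine ⟨b, hb, ?_⟩
  intro k hk
  have h1 : (⟨k, hKB hk⟩ : X) ∈ (Q : Subgroup X) := hQ hk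
  have h2 : x * ⟨k, hKB hk⟩ * x⁻¹ ∈ (P' : Subgroup X) := by
    rw [← hx]
    exact Subgroup.smul_mem_pointwise_smul _ _ _ h1
  have h3 : (x : G) * k * (x : G)⁻¹ ∈ (P : Subgroup G) := h2
  rw [← hyb] at h3
  have h4 : b * k * b⁻¹ = y⁻¹ * (y * b * k * (y * b)⁻¹) * y := by group
  rw [h4]
  exact mul_mem (mul_mem (inv_mem hy) h3) hy

theorem mem_sup_conj_iff {G : Type*} [Group G] (P B : Subgroup G) [hB : B.Normal] {u y : G} (hu : u ∈ B) :
    u * y * u⁻¹ ∈ P ⊔ B ↔ y ∈ P ⊔ B := by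
  have hu' : u ∈ P ⊔ B := (le_sup_right : B ≤ P ⊔ B) hu
  constructor
  · intro h
    have := mul_mem (mul_mem (inv_mem hu') h) hu'
    have h2 : u⁻¹ * (u * y * u⁻¹) * u = y := by group
    rwa [h2] at this
  · intro h
    exact mul_mem (mul_mem hu' h) (inv_mem hu')

/-- The number of elements `g` with `g H g⁻¹ ≤ P X`. -/
noncomputable def tc {G : Type*} [Group G] (H P X : Subgroup G) : ℕ :=
  Nat.card {g : G // ∀ h ∈ H, g * h * g⁻¹ ∈ P ⊔ X}

theorem tc_step {G : Type*} [Group G] (p : ℕ) [Fact p.Prime] [Finite G] (P : Sylow p G)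
    (H A B : Subgroup G) (hH : IsPGroup p H) [hA : A.Normal] [hB : B.Normal] (hle : A ≤ B)
    (hAB : (A.relIndex B).Coprime p) :
    tc H P A * Nat.card B = tc H P B * Nat.card {u : G // u ∈ B ∧ ∀ h ∈ H, h * u * h⁻¹ * u⁻¹ ∈ A} := by
  classical
  have := Fintype.ofFinite G
  -- the set of pairs
  have e1 : Nat.card {gu : G × G // gu.2 ∈ B ∧ ∀ h ∈ H, (gu.2 * gu.1) * h * (gu.2 * gu.1)⁻¹ ∈ (P : Subgroup G) ⊔ A} =
      tc H P A * Nat.card B := by
    rw [tc, ← Nat.card_prod]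
    refine Nat.card_congr
      { toFun := fun x => (⟨x.1.2 * x.1.1, x.2.2⟩, ⟨x.1.2, x.2.1⟩)
        invFun := fun y => ⟨(y.2.1⁻¹ * y.1.1, y.2.1), y.2.2, ?_⟩
        left_inv := ?_
        right_inv := ?_ }
    · intro h hh
      have := y.1.2 h hh
      simpa using this
    · intro x
      ext <;> simp
    · intro y
      ext <;> simp
  have e2 : Nat.card {gu : G × G // gu.2 ∈ B ∧ ∀ h ∈ H, (gu.2 * gu.1) * h * (gu.2 * gu.1)⁻¹ ∈ (P : Subgroup G) ⊔ A} =
      tc H P B * Nat.card {u : G // u ∈ B ∧ ∀ h ∈ H, h * u * h⁻¹ * u⁻¹ ∈ A} := by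
    rw [tc, ← Nat.card_prod]
    -- choose for every good `g` an element `b`
    have hch : ∀ g : {g : G // ∀ h ∈ H, g * h * g⁻¹ ∈ (P : Subgroup G) ⊔ B},
        ∃ b ∈ B, ∀ h ∈ H, (b * g.1) * h * (b * g.1)⁻¹ ∈ (P : Subgroup G) := by
      intro g
      obtain ⟨b, hb, hb'⟩ := exists_conj_le p P (H.map (MulAut.conj g.1).toMonoidHom) B (hH.map _) (by
        rintro _ ⟨h, hh, rfl⟩
        exact g.2 h hh)
      refine ⟨b, hb, ?_⟩
      intro h hh
      have := hb' _ ⟨h, hh, rfl⟩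
      have e : b * (MulAut.conj g.1).toMonoidHom h * b⁻¹ = b * g.1 * h * (b * g.1)⁻¹ := by
        simp only [MulEquiv.toMonoidHom_eq_coe, MonoidHom.coe_coe, MulAut.conj_apply]
        group
      rwa [e] at this
    choose b hb hb' using hch
    have hgood : ∀ x : {gu : G × G // gu.2 ∈ B ∧ ∀ h ∈ H, (gu.2 * gu.1) * h * (gu.2 * gu.1)⁻¹ ∈ (P : Subgroup G) ⊔ A},
        ∀ h ∈ H, x.1.1 * h * x.1.1⁻¹ ∈ (P : Subgroup G) ⊔ B := by
      intro x h hh
      have h1 := (sup_le_sup_left hle (P : Subgroup G)) (x.2.2 h hh)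
      have h2 : x.1.2 * x.1.1 * h * (x.1.2 * x.1.1)⁻¹ = x.1.2 * (x.1.1 * h * x.1.1⁻¹) * x.1.2⁻¹ := by group
      rw [h2] at h1
      exact (mem_sup_conj_iff _ _ x.2.1).1 h1
    refine Nat.card_congr
      { toFun := fun x => (⟨x.1.1, hgood x⟩, ⟨(b ⟨x.1.1, hgood x⟩ * x.1.1)⁻¹ * (x.1.2 * x.1.1), ?_, ?_⟩)
        invFun := fun y => ⟨(y.1.1, b y.1 * y.1.1 * y.2.1 * y.1.1⁻¹), ?_, ?_⟩
        left_inv := ?_
        right_inv := ?_ }
    · have h1 : (b ⟨x.1.1, hgood x⟩ * x.1.1)⁻¹ * (x.1.2 * x.1.1) =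
          x.1.1⁻¹ * ((b ⟨x.1.1, hgood x⟩)⁻¹ * x.1.2) * x.1.1⁻¹⁻¹ := by group
      rw [h1]
      exact hB.conj_mem _ (mul_mem (inv_mem (hb _)) x.2.1) _
    · refine (mem_sup_conj p P H A B hle hAB (b ⟨x.1.1, hgood x⟩ * x.1.1) (hb' _) _ ?_).1 ?_
      · have h1 : (b ⟨x.1.1, hgood x⟩ * x.1.1)⁻¹ * (x.1.2 * x.1.1) =
            x.1.1⁻¹ * ((b ⟨x.1.1, hgood x⟩)⁻¹ * x.1.2) * x.1.1⁻¹⁻¹ := by group
        rw [h1]
        exact hB.conj_mem _ (mul_mem (inv_mem (hb _)) x.2.1) _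
      · intro h hh
        have h5 := x.2.2 h hh
        have h6 : (b ⟨x.1.1, hgood x⟩ * x.1.1) * ((b ⟨x.1.1, hgood x⟩ * x.1.1)⁻¹ * (x.1.2 * x.1.1)) = x.1.2 * x.1.1 :=
          mul_inv_cancel_left _ _
        rw [h6]; exact h5
    · show b y.1 * y.1.1 * y.2.1 * y.1.1⁻¹ ∈ B
      have h1 : b y.1 * y.1.1 * y.2.1 * y.1.1⁻¹ = b y.1 * (y.1.1 * y.2.1 * y.1.1⁻¹) := by group
      rw [h1]
      exact mul_mem (hb _) (hB.conj_mem _ y.2.2.1 _)
    · intro h hh
      have h2 := (mem_sup_conj p P H A B hle hAB (b y.1 * y.1.1) (hb' _) y.2.1 y.2.2.1).2 y.2.2.2 h hh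
      have h1 : (b y.1 * y.1.1 * y.2.1 * y.1.1⁻¹) * y.1.1 = b y.1 * y.1.1 * y.2.1 := by group
      show (b y.1 * y.1.1 * y.2.1 * y.1.1⁻¹) * y.1.1 * h * ((b y.1 * y.1.1 * y.2.1 * y.1.1⁻¹) * y.1.1)⁻¹ ∈ _
      rw [h1]; exact h2
    · intro x
      ext
      · rfl
      · simp only
        group
    · rintro ⟨g, u⟩
      ext
      · rfl
      · simp only
        group
  rw [← e1, e2]

theorem dvd_card_cent {G : Type*} [Group G] [Finite G] (H A B : Subgroup G) [hA : A.Normal] (hle : A ≤ B) :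
    Nat.card A ∣ Nat.card {u : G // u ∈ B ∧ ∀ h ∈ H, h * u * h⁻¹ * u⁻¹ ∈ A} := by
  let C : Subgroup G := B ⊓ (centralizer ((H.map (QuotientGroup.mk' A) : Subgroup (G ⧸ A)) : Set (G ⧸ A))).comap
    (QuotientGroup.mk' A)
  have hC : ∀ u, u ∈ C ↔ u ∈ B ∧ ∀ h ∈ H, h * u * h⁻¹ * u⁻¹ ∈ A := by
    intro u
    simp only [C, Subgroup.mem_inf, Subgroup.mem_comap, Subgroup.mem_centralizer_iff, SetLike.mem_coe]
    refine and_congr_right (fun _ => ?_)
    constructor
    · intro h1 h hh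
      have h2 := h1 (QuotientGroup.mk' A h) ⟨h, hh, rfl⟩
      rw [← map_mul, ← map_mul] at h2
      have h3 := QuotientGroup.eq.1 h2
      have h4 := hA.conj_mem _ h3 (h * u)
      have h5 := inv_mem h4
      have h6 : (h * u * ((h * u)⁻¹ * (u * h)) * (h * u)⁻¹)⁻¹ = h * u * h⁻¹ * u⁻¹ := by group
      rwa [h6] at h5
    · rintro h1 _ ⟨h, hh, rfl⟩
      rw [← map_mul, ← map_mul]
      apply QuotientGroup.eq.2
      have h4 := hA.conj_mem _ (inv_mem (h1 h hh)) (h * u)⁻¹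
      have h6 : (h * u)⁻¹ * (h * u * h⁻¹ * u⁻¹)⁻¹ * (h * u)⁻¹⁻¹ = (h * u)⁻¹ * (u * h) := by group
      rwa [h6] at h4
  have hAC : A ≤ C := by
    intro a ha
    rw [hC]
    refine ⟨hle ha, fun h _ => ?_⟩
    exact mul_mem (hA.conj_mem _ ha _) (inv_mem ha)
  have h1 := Subgroup.card_dvd_of_le hAC
  have h2 : Nat.card C = Nat.card {u : G // u ∈ B ∧ ∀ h ∈ H, h * u * h⁻¹ * u⁻¹ ∈ A} :=
    Nat.card_congr (Equiv.subtypeEquivRight hC)
  rwa [h2] at h1

/-- Let G be a finite p-solvable group, H a p-subgroup of G and P a Sylow p-subgroup, and fix a chain of normal subgroups 1 = M₀ ≤ M₁ ≤ ⋯ ≤ Mₙ = G of G each of whose factors is a p-group or a p'-group. Then the number of elements g of G such that H is subnormal in the subgroup generated by H and g equals the order of P times the product, over the factors Mᵢ₊₁/Mᵢ of order prime to p, of the order of the centralizer of H in Mᵢ₊₁/Mᵢ (counted as the number of u ∈ Mᵢ₊₁ with [h, u] ∈ Mᵢ for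 all h ∈ H, divided by the order of Mᵢ). -/
theorem result {G : Type*} [Group G] [Finite G] (p : ℕ) [Fact p.Prime]
    (hG : Cfsg.IsPSolvable p G) (H : Subgroup G) (hH : IsPGroup p H) (P : Sylow p G)
    (n : ℕ) (M : Fin (n + 1) → Subgroup G) (h0 : M 0 = ⊥) (hn : M (Fin.last n) = ⊤) (hmono : Monotone M)
    (hnormal : ∀ i, (M i).Normal)
    (hfac : ∀ i : Fin n, (∃ m : ℕ, (M i.castSucc).relIndex (M i.succ) = p ^ m) ∨ ((M i.castSucc).relIndex (M i.succ)).Coprime p) :
    Nat.card {g : G // ((H).subgroupOf (H ⊔ Subgroup.zpowers g)).IsSubnormal} =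
      Nat.card (P : Subgroup G) *
        ∏ i : Fin n, (if ((M i.castSucc).relIndex (M i.succ)).Coprime p then
          Nat.card {u : G // u ∈ M i.succ ∧ ∀ h ∈ H, h * u * h⁻¹ * u⁻¹ ∈ M i.castSucc} / Nat.card (M i.castSucc)
          else 1) := by
  set F : Fin n → ℕ := fun i => if ((M i.castSucc).relIndex (M i.succ)).Coprime p then
    (M i.castSucc).relIndex (M i.succ) else 1 with hF
  set D : Fin n → ℕ := fun i => if ((M i.castSucc).relIndex (M i.succ)).Coprime p then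
          Nat.card {u : G // u ∈ M i.succ ∧ ∀ h ∈ H, h * u * h⁻¹ * u⁻¹ ∈ M i.castSucc} / Nat.card (M i.castSucc)
          else 1 with hD
  have hle : ∀ i : Fin n, M i.castSucc ≤ M i.succ := fun i => hmono i.castSucc_le_succ
  have hsup : ∀ i : Fin n, ¬ ((M i.castSucc).relIndex (M i.succ)).Coprime p →
      (P : Subgroup G) ⊔ M i.succ = (P : Subgroup G) ⊔ M i.castSucc := by
    intro i hi
    obtain ⟨m, hm⟩ := (hfac i).resolve_right hi
    have := hnormal i.succ
    apply le_antisymm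
    · exact sup_le le_sup_left (le_of_pPow p P _ _ hm)
    · exact sup_le_sup_left (hle i) _
  have hrel : ∀ i : Fin n, Nat.card (M i.castSucc) * (M i.castSucc).relIndex (M i.succ) = Nat.card (M i.succ) := by
    intro i
    have := Subgroup.card_mul_index ((M i.castSucc).subgroupOf (M i.succ))
    rwa [Nat.card_congr (Subgroup.subgroupOfEquivOfLe (hle i)).toEquiv] at this
  -- the two telescopes
  have t1 := telescope n (fun i => tc H P (M i)) F D (by
    intro i
    have := hnormal i.succ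
    have := hnormal i.castSucc
    simp only [hF, hD]
    split_ifs with hi
    · have h1 := tc_step p P H (M i.castSucc) (M i.succ) hH (hle i) hi
      obtain ⟨k, hk⟩ := dvd_card_cent H (M i.castSucc) (M i.succ) (hle i)
      rw [hk] at h1
      rw [hk, Nat.mul_div_cancel_left _ Nat.card_pos]
      rw [← hrel i] at h1
      apply Nat.eq_of_mul_eq_mul_left (Nat.card_pos (α := M i.castSucc))
      linarith
    · simp only [tc]
      rw [hsup i hi])
  have t2 := telescope n (fun i => Nat.card ↥((P : Subgroup G) ⊔ M i)) F (fun _ => 1) (by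
    intro i
    have := hnormal i.succ
    have := hnormal i.castSucc
    simp only [hF]
    split_ifs with hi
    · have h1 := relIndex_sup_eq ((P : Subgroup G) ⊔ M i.castSucc) (M i.succ)
      rw [sup_assoc, sup_eq_right.2 (hle i), ← inf_relIndex_right _ (M i.succ), sup_inf_eq p P _ _ (hle i) hi] at h1
      rw [← h1]
      have hle2 : (P : Subgroup G) ⊔ M i.castSucc ≤ (P : Subgroup G) ⊔ M i.succ := sup_le_sup_left (hle i) _
      have := Subgroup.card_mul_index (((P : Subgroup G) ⊔ M i.castSucc).subgroupOf ((P : Subgroup G) ⊔ M i.succ))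
      rw [Nat.card_congr (Subgroup.subgroupOfEquivOfLe hle2).toEquiv] at this
      rw [mul_one]; exact this
    · rw [hsup i hi])
  simp only [h0, hn, sup_bot_eq, sup_top_eq, Finset.prod_const_one, mul_one] at t2
  have t3 : tc H P (M (Fin.last n)) = Nat.card G := by
    rw [tc, hn, sup_top_eq]
    simp
  have t4 : tc H P (M 0) = Nat.card {g : G // ((H).subgroupOf (H ⊔ Subgroup.zpowers g)).IsSubnormal} := by
    rw [card_subnormalizer_eq p H hH P, tc, h0, sup_bot_eq]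
    refine Nat.card_congr (Equiv.subtypeEquivRight (fun g => ?_))
    constructor
    · rintro h _ ⟨x, hx, rfl⟩
      exact h x hx
    · intro h x hx
      exact h ⟨x, hx, rfl⟩
  rw [t3, t4] at t1
  have t5 : Nat.card (⊤ : Subgroup G) = Nat.card G := Subgroup.card_top
  rw [t5] at t2
  rw [← t2] at t1
  have hFpos : 0 < ∏ i, F i := by
    apply Finset.prod_pos
    intro i _
    simp only [hF]
    split_ifs with hi
    · rcases Nat.eq_zero_or_pos ((M i.castSucc).relIndex (M i.succ)) with h | h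
      · have := hrel i
        rw [h, mul_zero] at this
        exact absurd this.symm (Nat.card_pos).ne'
      · exact h
    · exact one_pos
  apply Nat.eq_of_mul_eq_mul_right hFpos
  rw [t1]; ring

end Cfsg.Agent.S4090
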