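import Cfsg.Statements.S4092
import Cfsg.Agent.H68.PElem
import Mathlib.Data.Set.Card.Arithmetic
import Mathlib.GroupTheory.Nilpotent

set_option autoImplicit false
open Cfsg

namespace Cfsg.Agent.S4092

open Subgroup

theorem exists_mem_normalizer_of_lt {G : Type*} [Group G] [Finite G] {p : ℕ} [Fact p.Prime] {D Q : Subgroup G}
    (hQ : IsPGroup p Q) (h : D < Q) : ∃ x ∈ Q, x ∉ D ∧ x ∈ normalizer (D : Set G) := by
  have : Group.IsNilpotent Q := hQ.isNilpotent
  have h1 : D.subgroupOf Q < ⊤ := by
    rw [lt_top_iff_ne_top, Ne, Subgroup.subgroupOf_eq_top]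
    exact not_le_of_gt h
  have h2 := Group.normalizerCondition_of_isNilpotent (G := Q) _ h1
  obtain ⟨x, hx, hxD⟩ := SetLike.exists_of_lt h2
  refine ⟨x, x.2, hxD, ?_⟩
  rw [Subgroup.mem_set_normalizer_iff]
  rw [Subgroup.mem_set_normalizer_iff] at hx
  intro y
  constructor
  · intro hy
    exact (hx ⟨y, h.le hy⟩).1 hy
  · intro hy
    have h3 : (x : G) * y * (x : G)⁻¹ ∈ Q := h.le hy
    have h4 : y ∈ Q := by
      have : y = (x : G)⁻¹ * (x * y * (x : G)⁻¹) * x := by group
      rw [this]
      exact mul_mem (mul_mem (inv_mem x.2) h3) x.2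
    exact (hx ⟨y, h4⟩).2 hy

/-- Let G be a finite group, p a prime and P a Sylow p-subgroup of G that is not normal in G. Then G has at least p·#P elements of p-power order (the identity included). -/
theorem result {G : Type*} [Group G] [Finite G] (p : ℕ) [Fact p.Prime]
    (P : Sylow p G) (hP : ¬ (P : Subgroup G).Normal) :
    p * Nat.card (P : Subgroup G) ≤ Nat.card {g : G // ∃ k : ℕ, orderOf g = p ^ k} := by
  classical
  have hp : p.Prime := Fact.out
  have hnt : Nontrivial (Sylow p G) := by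
    rw [← not_subsingleton_iff_nontrivial]
    intro h
    exact hP (Sylow.normal_of_subsingleton P)
  obtain ⟨Q0, R0, hQR0⟩ := exists_pair_ne (Sylow p G)
  have : Nonempty {s : Sylow p G × Sylow p G // s.1 ≠ s.2} := ⟨⟨(Q0, R0), hQR0⟩⟩
  obtain ⟨⟨⟨Q, R⟩, hQR⟩, hmax⟩ := Finite.exists_max
    (fun s : {s : Sylow p G × Sylow p G // s.1 ≠ s.2} => Nat.card ↥((s.1.1 : Subgroup G) ⊓ (s.1.2 : Subgroup G)))
  dsimp only at hQR hmax
  have hmax' : ∀ A B : Sylow p G, A ≠ B → Nat.card ↥((A : Subgroup G) ⊓ (B : Subgroup G)) ≤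
      Nat.card ↥((Q : Subgroup G) ⊓ (R : Subgroup G)) := fun A B h => hmax ⟨(A, B), h⟩
  set D : Subgroup G := (Q : Subgroup G) ⊓ (R : Subgroup G) with hD
  set N : Subgroup G := normalizer (D : Set G) with hN
  have hDp : IsPGroup p D := Q.isPGroup'.to_le inf_le_left
  have hDN : D ≤ N := le_normalizer
  have hDltQ : D < Q := by
    refine lt_of_le_of_ne inf_le_left ?_
    intro h
    have h1 : (Q : Subgroup G) ≤ R := by rw [← h]; exact inf_le_right
    exact hQR (Sylow.ext (Q.is_maximal' R.isPGroup' h1).symm)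
  have hDltR : D < R := by
    refine lt_of_le_of_ne inf_le_right ?_
    intro h
    have h1 : (R : Subgroup G) ≤ Q := by rw [← h]; exact inf_le_left
    exact hQR (Sylow.ext (R.is_maximal' Q.isPGroup' h1))
  -- lifting Sylow subgroups of `N`
  choose T hT using fun S : Sylow p N => Sylow.exists_comap_subtype_eq S
  have hTinj : Function.Injective T := by
    intro S S' h
    apply Sylow.ext
    rw [← hT S, ← hT S', h]
  have hDT : ∀ S, D ≤ T S := by
    intro S x hx
    have hn : (D.subgroupOf N).Normal := Subgroup.normal_in_normalizer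
    have h1 : IsPGroup p (D.subgroupOf N) := hDp.comap_subtype
    have h2 := h1.le_sylow_of_normal S
    have h3 : (⟨x, hDN hx⟩ : N) ∈ (S : Subgroup N) := h2 hx
    rw [← hT S] at h3
    exact h3
  have hinter : ∀ S S', S ≠ S' → (T S : Subgroup G) ⊓ (T S' : Subgroup G) = D := by
    intro S S' h
    symm
    apply Subgroup.eq_of_le_of_card_ge (le_inf (hDT S) (hDT S'))
    exact hmax' _ _ (fun h' => h (hTinj h'))
  -- number of Sylow subgroups of `N`
  have hne1 : Nat.card (Sylow p N) ≠ 1 := by
    intro h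
    have hsub : Subsingleton (Sylow p N) := (Nat.card_eq_one_iff_unique.1 h).1
    have key : ∀ A : Sylow p G, D < A → T default = A := by
      intro A hA
      obtain ⟨x, hxA, hxD, hxN⟩ := exists_mem_normalizer_of_lt A.isPGroup' hA
      have h1 : IsPGroup p ((A : Subgroup G).subgroupOf N) := A.isPGroup'.comap_subtype
      obtain ⟨S, hS⟩ := h1.exists_le_sylow
      have hS' : S = default := Subsingleton.elim _ _
      have h2 : (⟨x, hxN⟩ : N) ∈ (S : Subgroup N) := hS hxA
      rw [hS', ← hT default] at h2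
      by_contra hne
      have h3 := hmax' _ _ hne
      have h4 : D < (T default : Subgroup G) ⊓ (A : Subgroup G) := by
        refine lt_of_le_of_ne (le_inf (hDT _) hA.le) ?_
        intro h5
        apply hxD
        rw [h5]
        exact ⟨h2, hxA⟩
      have h5 := Subgroup.eq_of_le_of_card_ge h4.le h3
      exact h4.ne h5
    exact hQR ((key Q hDltQ).symm.trans (key R hDltR))
  have hge : p + 1 ≤ Nat.card (Sylow p N) := by
    have h1 := card_sylow_modEq_one p N
    have hpos : 0 < Nat.card (Sylow p N) := Nat.card_pos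
    have h2 : p ∣ Nat.card (Sylow p N) - 1 := (Nat.modEq_iff_dvd' hpos).1 h1.symm
    have h3 := Nat.le_of_dvd (by omega) h2
    omega
  -- sizes
  have hcardT : ∀ A : Sylow p G, Nat.card (A : Subgroup G) = Nat.card (P : Subgroup G) := by
    intro A
    rw [A.card_eq_multiplicity, P.card_eq_multiplicity]
  have hpD : p * Nat.card D ≤ Nat.card (P : Subgroup G) := by
    rw [← hcardT Q]
    obtain ⟨n, hn⟩ := Q.isPGroup'.index (D.subgroupOf (Q : Subgroup G))
    have hn0 : n ≠ 0 := by
      rintro rfl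
      rw [pow_zero, Subgroup.index_eq_one, Subgroup.subgroupOf_eq_top] at hn
      exact hDltQ.not_ge hn
    have h1 := Subgroup.card_mul_index (D.subgroupOf (Q : Subgroup G))
    rw [hn, Nat.card_congr (Subgroup.subgroupOfEquivOfLe hDltQ.le).toEquiv] at h1
    rw [← h1, mul_comm]
    exact Nat.mul_le_mul_left _ (Nat.le_self_pow hn0 p)
  -- counting
  let E : Set G := {g : G | ∃ k : ℕ, orderOf g = p ^ k}
  have hsubE : ∀ A : Sylow p G, ((A : Subgroup G) : Set G) ⊆ E := by
    intro A x hx
    obtain ⟨k, hk⟩ := IsPGroup.iff_orderOf.1 A.isPGroup' ⟨x, hx⟩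
    exact ⟨k, by rwa [Subgroup.orderOf_mk] at hk⟩
  let U : Sylow p N → Set G := fun S => ((T S : Subgroup G) : Set G) \ (D : Set G)
  have hUdisj : Pairwise (Function.onFun Disjoint U) := by
    intro S S' h
    rw [Function.onFun, Set.disjoint_left]
    rintro x ⟨hx1, hx2⟩ ⟨hx3, -⟩
    apply hx2
    have := hinter S S' h
    rw [SetLike.mem_coe, ← this]
    exact ⟨hx1, hx3⟩
  have hUcard : ∀ S, (U S).ncard = Nat.card (P : Subgroup G) - Nat.card D := by
    intro S
    have h1 : (U S).ncard = ((T S : Subgroup G) : Set G).ncard - (D : Set G).ncard :=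
      Set.ncard_sdiff (hDT S) (Set.toFinite _)
    rw [h1, ← hcardT (T S)]
    rfl
  have hUnion : (⋃ S, U S).ncard = Nat.card (Sylow p N) * (Nat.card (P : Subgroup G) - Nat.card D) := by
    rw [Set.ncard_iUnion_of_finite (fun _ => Set.toFinite _) hUdisj]
    have := Fintype.ofFinite (Sylow p N)
    rw [finsum_eq_sum_of_fintype, Finset.sum_congr rfl (fun S _ => hUcard S), Finset.sum_const,
      smul_eq_mul, Finset.card_univ, ← Nat.card_eq_fintype_card]
  have hdisj2 : Disjoint (⋃ S, U S) (D : Set G) := by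
    rw [Set.disjoint_left]
    intro x hx
    obtain ⟨S, hS⟩ := Set.mem_iUnion.1 hx
    exact hS.2
  have hle : ((⋃ S, U S) ∪ (D : Set G)).ncard ≤ E.ncard := by
    apply Set.ncard_le_ncard _ (Set.toFinite _)
    apply Set.union_subset
    · apply Set.iUnion_subset
      intro S
      exact Set.sdiff_subset.trans (hsubE _)
    · exact fun x hx => hsubE Q (hDltQ.le hx)
  rw [Set.ncard_union_eq hdisj2 (Set.toFinite _) (Set.toFinite _), hUnion] at hle
  have hDc : (D : Set G).ncard = Nat.card D := rfl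
  rw [hDc] at hle
  have hE : Nat.card {g : G // ∃ k : ℕ, orderOf g = p ^ k} = E.ncard := rfl
  rw [hE]
  refine le_trans ?_ hle
  obtain ⟨c, hc⟩ := Nat.exists_eq_add_of_le (show Nat.card D ≤ Nat.card (P : Subgroup G) by
    calc Nat.card D ≤ p * Nat.card D := Nat.le_mul_of_pos_left _ hp.pos
      _ ≤ _ := hpD)
  rw [hc] at hpD ⊢
  have e1 : Nat.card D + c - Nat.card D = c := by omega
  rw [e1]
  calc p * (Nat.card D + c) = p * Nat.card D + p * c := by ring
    _ ≤ (Nat.card D + c) + p * c := Nat.add_le_add_right hpD _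
    _ = (p + 1) * c + Nat.card D := by ring
    _ ≤ Nat.card (Sylow p N) * c + Nat.card D := Nat.add_le_add_right (Nat.mul_le_mul_right _ hge) _

end Cfsg.Agent.S4092
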