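import Cfsg.Statements.S4093
import Cfsg.Agent.H68.PElem
import Mathlib.Data.Set.Card.Arithmetic

set_option autoImplicit false
open scoped BigOperators
open Cfsg

namespace Cfsg.Agent.S4093

/-- Let G be a finite group with a normal subgroup N complementing a Sylow p-subgroup P (a normal p-complement). Then the number of elements of G of p-power order equals the sum over x ∈ P of the index of C_N(x) in N. -/
theorem result {G : Type*} [Group G] [Finite G] (p : ℕ) [Fact p.Prime]
    (P : Sylow p G) (N : Subgroup G) [N.Normal] (hNP : N.IsComplement' (P : Subgroup G)) :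
    Nat.card {g : G // ∃ k : ℕ, orderOf g = p ^ k} =
      ∑ᶠ x : (P : Subgroup G), Nat.card N / Nat.card ↥(N ⊓ Subgroup.centralizer ({(x : G)} : Set G)) := by
  classical
  let O : ↥(P : Subgroup G) → Set G := fun x => {y : G | ∃ u ∈ N, u * (x : G) * u⁻¹ = y}
  have hO : ∀ x, (O x).ncard = Nat.card N / Nat.card ↥(N ⊓ Subgroup.centralizer ({(x : G)} : Set G)) :=
    fun x => Cfsg.Agent.H68.ncard_conj_by_subgroup N x
  have hset : {g : G | ∃ k : ℕ, orderOf g = p ^ k} = ⋃ x, O x := by
    ext g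
    simp only [Set.mem_iUnion]
    constructor
    · intro hg
      obtain ⟨x, hx, u, hu, h⟩ := Cfsg.Agent.H68.exists_conj_mem_of_pElement P N hNP.sup_eq_top hg
      exact ⟨⟨x, hx⟩, u, hu, h⟩
    · rintro ⟨x, u, hu, rfl⟩
      obtain ⟨k, hk⟩ := IsPGroup.iff_orderOf.1 P.isPGroup' x
      refine ⟨k, ?_⟩
      rw [← hk, ← Subgroup.orderOf_coe]
      exact orderOf_injective (MulAut.conj u).toMonoidHom (MulAut.conj u).injective (x : G)
  have hdisj : Pairwise (Function.onFun Disjoint O) := by
    intro x y hxy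
    rw [Function.onFun, Set.disjoint_left]
    rintro g ⟨u, hu, hug⟩ ⟨v, hv, hvg⟩
    apply hxy
    ext
    -- x⁻¹ * y ∈ N ∩ P
    have h1 : (x : G)⁻¹ * y ∈ N := by
      rw [← QuotientGroup.eq]
      have e1 : ((u * (x : G) * u⁻¹ : G) : G ⧸ N) = (x : G) := by
        rw [QuotientGroup.mk_mul, QuotientGroup.mk_mul, QuotientGroup.mk_inv,
          (QuotientGroup.eq_one_iff u).2 hu]; simp
      have e2 : ((v * (y : G) * v⁻¹ : G) : G ⧸ N) = (y : G) := by
        rw [QuotientGroup.mk_mul, QuotientGroup.mk_mul, QuotientGroup.mk_inv,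
          (QuotientGroup.eq_one_iff v).2 hv]; simp
      rw [← e1, ← e2, hug, hvg]
    have h2 : (x : G)⁻¹ * y ∈ (P : Subgroup G) := mul_mem (inv_mem x.2) y.2
    have h3 := hNP.disjoint
    rw [Subgroup.disjoint_def] at h3
    exact inv_mul_eq_one.1 (h3 h1 h2)
  calc Nat.card {g : G // ∃ k : ℕ, orderOf g = p ^ k} = ({g : G | ∃ k : ℕ, orderOf g = p ^ k} : Set G).ncard := rfl
    _ = (⋃ x, O x).ncard := by rw [hset]
    _ = ∑ᶠ x, (O x).ncard := Set.ncard_iUnion_of_finite (fun _ => Set.toFinite _) hdisj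
    _ = _ := finsum_congr fun x => hO x

end Cfsg.Agent.S4093
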