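import Cfsg.Statements.S4100
import Cfsg.Agent.H86.AltRow
import Cfsg.Agent.H86.Alt.TwoE
import Cfsg.Agent.H25.Star5F

set_option autoImplicit false
open Cfsg

namespace Cfsg.Agent.S4100

/-- Let G be a finite group and p a prime other than 3 such that the centralizer of every non-central element of p-power order is solvable. Then every alternating group of degree at least 5 involved in G (as a section) has degree at most p + 4, or at most p + 6 = 8 when p = 2. -/
theorem result {G : Type*} [Group G] [Finite G] (p : ℕ) [Fact p.Prime] (hp3 : p ≠ 3)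
    (h : ∀ x : G, x ∉ Subgroup.center G → (∃ k : ℕ, orderOf x = p ^ k) → Group.IsSolvable (Subgroup.centralizer ({x} : Set G)))
    (d : ℕ) (hd : 5 ≤ d) (hinv : Cfsg.Involves (alternatingGroup (Fin d)) G) :
    d ≤ p + 4 + (if p = 2 then 2 else 0) := by
  refine Cfsg.Agent.H86.finish p hp3 ?_ ?_ ?_ d hinv
  · intro x hx hns
    by_contra hc
    exact hns (h x hc hx)
  · intro V _ _ h2 hne rho
    exact Cfsg.Agent.H86.Alt2.star2 h2 hne rho
  · intro V _ _ h5 hne rho
    exact Cfsg.Agent.H25.Star5.star5 h5 hne rho

end Cfsg.Agent.S4100
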