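import Cfsg.Statements.S4104
import Cfsg.Agent.H69.KPi4

set_option autoImplicit false
open Cfsg Cfsg.Agent.H69 Subgroup

namespace Cfsg.Agent.S4104

/-- Let G be a finite group, π a set of primes with least member p, m the π-part of the order of G and k the number of conjugacy classes of G consisting of π-elements (elements whose order is divisible only by primes in π). If k > m/p, then G has a nilpotent Hall π-subgroup (a nilpotent subgroup of order m) whose derived subgroup has order at most p. -/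
theorem result {G : Type*} [Group G] [Finite G]
    (π : Set ℕ) (hπ : ∀ q ∈ π, q.Prime) (p : ℕ) (hp : p ∈ π) (hmin : ∀ q ∈ π, p ≤ q)
    (m : ℕ) (hm : m ∣ Nat.card G) (hmπ : ∀ q : ℕ, q.Prime → q ∣ m → q ∈ π)
    (hm' : ∀ q ∈ π, ¬ q ∣ Nat.card G / m)
    (k : ℕ) (hk : k = Nat.card {C : ConjClasses G // ∀ q : ℕ, q.Prime → (∃ g : G, ConjClasses.mk g = C ∧ q ∣ orderOf g) → q ∈ π})
    (hmany : m < p * k) :
    ∃ H : Subgroup G, Nat.card H = m ∧ Group.IsNilpotent H ∧ Nat.card (commutator H) ≤ p := by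
  obtain ⟨σ, hσ, hpp, hkk⟩ := convert π m hm hmπ hm' k hk
  have hp2 : 2 ≤ p := (hπ p hp).two_le
  have hσ1 : ∀ s ∈ σ, s.Prime := fun s hs => (hσ s hs).1
  have hmany' : (m : ℚ) < p * kk σ G := by rw [hkk]; exact_mod_cast hmany
  obtain ⟨H, hHn, hH⟩ := hasNH_of_many hp2 σ (fun s hs => ⟨(hσ s hs).1, hmin s (hσ s hs).2⟩) G
    (by rw [hpp]; exact hmany')
  refine ⟨H, by rw [hH, hpp], hHn, ?_⟩
  by_contra hlt
  push Not at hlt
  have h1 := mul_card_conjClasses_le (X := H) hp2 (fun s hs hd => hmin s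
    (hσ s (prime_dvd_hall hσ1 hH hs hd)).2) hlt
  have h2 := kk_le_card_conjClasses hσ1 hH hHn
  rw [hH, hpp] at h1
  have h3 : ((p * Nat.card (ConjClasses H) : ℕ) : ℚ) ≤ m := by exact_mod_cast h1
  push_cast at h3
  have h4 : (p : ℚ) * kk σ G ≤ p * Nat.card (ConjClasses H) :=
    mul_le_mul_of_nonneg_left h2 (by positivity)
  linarith

end Cfsg.Agent.S4104
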