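import Cfsg.Statements.S4105
import Cfsg.Agent.H69.KPi4

set_option autoImplicit false
open Cfsg Cfsg.Agent.H69 Subgroup

namespace Cfsg.Agent.S4105

/-- Let G be a finite group, π a set of primes with least member p, m the π-part of the order of G and k the number of conjugacy classes of G consisting of π-elements. If k > m·(p² + p − 1)/p³, then G has an abelian Hall π-subgroup (an abelian subgroup of order m). -/
theorem result {G : Type*} [Group G] [Finite G]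
    (π : Set ℕ) (hπ : ∀ q ∈ π, q.Prime) (p : ℕ) (hp : p ∈ π) (hmin : ∀ q ∈ π, p ≤ q)
    (m : ℕ) (hm : m ∣ Nat.card G) (hmπ : ∀ q : ℕ, q.Prime → q ∣ m → q ∈ π)
    (hm' : ∀ q ∈ π, ¬ q ∣ Nat.card G / m)
    (k : ℕ) (hk : k = Nat.card {C : ConjClasses G // ∀ q : ℕ, q.Prime → (∃ g : G, ConjClasses.mk g = C ∧ q ∣ orderOf g) → q ∈ π})
    (hmany : m * (p ^ 2 + p - 1) < p ^ 3 * k) :
    ∃ H : Subgroup G, Nat.card H = m ∧ IsMulCommutative H := by
  obtain ⟨σ, hσ, hpp, hkk⟩ := convert π m hm hmπ hm' k hk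
  have hp2 : 2 ≤ p := (hπ p hp).two_le
  have hσ1 : ∀ s ∈ σ, s.Prime := fun s hs => (hσ s hs).1
  have hmany' : (m : ℚ) * (p ^ 2 + p - 1) < p ^ 3 * kk σ G := by
    rw [hkk]
    have h1 : ((m * (p ^ 2 + p - 1) : ℕ) : ℚ) < ((p ^ 3 * k : ℕ) : ℚ) := by exact_mod_cast hmany
    rw [Nat.cast_mul, Nat.cast_sub (by nlinarith)] at h1
    push_cast at h1
    exact h1
  have hp0 : (2 : ℚ) ≤ p := by exact_mod_cast hp2
  have hm0 : (0 : ℚ) ≤ m := by positivity
  have hlt : (m : ℚ) < p * kk σ G := by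
    have h1 : (m : ℚ) * p ^ 2 < (p * kk σ G) * p ^ 2 := by
      calc (m : ℚ) * p ^ 2 ≤ m * (p ^ 2 + p - 1) := mul_le_mul_of_nonneg_left (by linarith) hm0
        _ < p ^ 3 * kk σ G := hmany'
        _ = (p * kk σ G) * p ^ 2 := by ring
    exact lt_of_mul_lt_mul_right h1 (by positivity)
  obtain ⟨H, hHn, hH⟩ := hasNH_of_many hp2 σ (fun s hs => ⟨(hσ s hs).1, hmin s (hσ s hs).2⟩) G
    (by rw [hpp]; exact hlt)
  refine ⟨H, by rw [hH, hpp], ?_⟩
  by_contra hab
  have hprime : ∀ s : ℕ, s.Prime → s ∣ Nat.card H → p ≤ s := fun s hs hd => hmin s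
    (hσ s (prime_dvd_hall hσ1 hH hs hd)).2
  have h1 := kk_le_of_acts hσ1 hH hHn H le_normalizer (a := p ^ 2) (b := p)
    (by positivity) (by omega) hprime (sq_mul_center_le hab hprime)
  rw [hH, hpp] at h1
  push_cast at h1
  have h2 : kk σ G * ((p : ℚ) ^ 2 * p) = p ^ 3 * kk σ G := by ring
  rw [h2] at h1
  linarith

end Cfsg.Agent.S4105
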