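import Cfsg.Statements.S4106
import Cfsg.Agent.H68.PiClasses

set_option autoImplicit false
open Cfsg

namespace Cfsg.Agent.S4106

/-- Let G be a finite group, π a set of primes and m the π-part of the order of G. Then the number of conjugacy classes of G consisting of π-elements (elements whose order is divisible only by primes in π) is at most m. -/
theorem result {G : Type*} [Group G] [Finite G]
    (π : Set ℕ) (hπ : ∀ q ∈ π, q.Prime)
    (m : ℕ) (hm : m ∣ Nat.card G) (hmπ : ∀ q : ℕ, q.Prime → q ∣ m → q ∈ π)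
    (hm' : ∀ q ∈ π, ¬ q ∣ Nat.card G / m) :
    Nat.card {C : ConjClasses G // ∀ q : ℕ, q.Prime → (∃ g : G, ConjClasses.mk g = C ∧ q ∣ orderOf g) → q ∈ π} ≤ m := by
  classical
  let s : Finset ℕ := (Nat.card G).primeFactors.filter (· ∈ π)
  have h1 := Cfsg.Agent.H68.ncard_piClassSet_le s
    (fun q hq => Nat.prime_of_mem_primeFactors (Finset.mem_filter.1 hq).1) G
  have h2 : Cfsg.Agent.H68.piClassSet π G ⊆ Cfsg.Agent.H68.piClassSet (s : Set ℕ) G := by
    intro C hC q hq hex
    rw [Finset.mem_coe, Finset.mem_filter]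
    refine ⟨?_, hC q hq hex⟩
    obtain ⟨g, -, hg⟩ := hex
    exact Nat.mem_primeFactors.2 ⟨hq, hg.trans (orderOf_dvd_natCard g), Nat.card_pos.ne'⟩
  have hm0 : m ≠ 0 := by
    rintro rfl
    rw [zero_dvd_iff] at hm
    exact Nat.card_pos.ne' hm
  have h3 : ∏ q ∈ s, q ^ (Nat.card G).factorization q ∣ m := by
    apply Finset.prod_dvd_of_isRelPrime
    · intro q hq r hr hqr
      rw [Finset.mem_coe, Finset.mem_filter] at hq hr
      show IsRelPrime _ _
      rw [← Nat.coprime_iff_isRelPrime]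
      apply Nat.Coprime.pow
      exact (Nat.coprime_primes (Nat.prime_of_mem_primeFactors hq.1) (Nat.prime_of_mem_primeFactors hr.1)).2 hqr
    · intro q hq
      rw [Finset.mem_filter] at hq
      have hqp := Nat.prime_of_mem_primeFactors hq.1
      have h4 : q ^ (Nat.card G).factorization q ∣ m * (Nat.card G / m) := by
        rw [Nat.mul_div_cancel' hm]
        exact Nat.ordProj_dvd _ _
      exact (Nat.Coprime.pow_left _ ((Nat.Prime.coprime_iff_not_dvd hqp).2 (hm' q hq.2))).dvd_of_dvd_mul_right h4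
  calc Nat.card {C : ConjClasses G // ∀ q : ℕ, q.Prime → (∃ g : G, ConjClasses.mk g = C ∧ q ∣ orderOf g) → q ∈ π}
      = (Cfsg.Agent.H68.piClassSet π G).ncard := rfl
    _ ≤ (Cfsg.Agent.H68.piClassSet (s : Set ℕ) G).ncard := Set.ncard_le_ncard h2 (Set.toFinite _)
    _ ≤ _ := h1
    _ ≤ m := Nat.le_of_dvd (Nat.pos_of_ne_zero hm0) h3

end Cfsg.Agent.S4106
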