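import Cfsg.Statements.S4107
import Cfsg.Agent.H68.Basic
import Mathlib.GroupTheory.Sylow
import Mathlib.GroupTheory.Nilpotent

set_option autoImplicit false
open Cfsg

namespace Cfsg.Agent.S4107

open Subgroup

theorem isPGroup_of_not_le {G : Type*} [Group G] [Finite G] (N : Subgroup G)
    (heq : ∀ x : G, x ∉ N → ∀ n ∈ N, orderOf (x * n) = orderOf x)
    (p : ℕ) [Fact p.Prime] (S : Subgroup G) [S.Normal] (hS : IsPGroup p S) (hSN : ¬ S ≤ N) :
    IsPGroup p N := by
  obtain ⟨y, hyS, hyN⟩ := SetLike.not_le_iff_exists.1 hSN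
  obtain ⟨k, hk⟩ := IsPGroup.iff_orderOf.1 hS ⟨y, hyS⟩
  rw [Subgroup.orderOf_mk] at hk
  rintro ⟨n, hn⟩
  have h1 : orderOf (y * n) = p ^ k := (heq y hyN n hn).trans hk
  have h2 : n ^ p ^ k ∈ S := by
    rw [← QuotientGroup.eq_one_iff, QuotientGroup.mk_pow]
    have h3 : ((y * n : G) : G ⧸ S) ^ p ^ k = 1 := by
      rw [← QuotientGroup.mk_pow, ← h1, pow_orderOf_eq_one]; rfl
    rwa [QuotientGroup.mk_mul, (QuotientGroup.eq_one_iff y).2 hyS, one_mul] at h3
  obtain ⟨l, hl⟩ := hS ⟨_, h2⟩
  refine ⟨k + l, ?_⟩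
  have hl' : (n ^ p ^ k) ^ p ^ l = 1 := by simpa using congrArg Subtype.val hl
  ext
  simpa [pow_add, pow_mul] using hl'

/-- Let G be a finite group and N a proper non-trivial normal subgroup such that for every x outside N all elements of the coset xN have the same order as x. Then N ≤ F(G) or F(G) ≤ N, where F(G) is the Fitting subgroup; and if N is properly contained in F(G) then F(G) has prime-power order. -/
theorem result {G : Type*} [Group G] [Finite G] (N : Subgroup G) [N.Normal] (hN1 : N ≠ ⊥) (hN2 : N ≠ ⊤)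
    (heq : ∀ x : G, x ∉ N → ∀ n ∈ N, orderOf (x * n) = orderOf x) :
    (N ≤ Cfsg.fittingSubgroup G ∨ Cfsg.fittingSubgroup G ≤ N) ∧
    (N < Cfsg.fittingSubgroup G → IsPrimePow (Nat.card (Cfsg.fittingSubgroup G))) := by
  have sylN : ∀ (M : Subgroup G), M.Normal → Group.IsNilpotent M → ∀ (q : ℕ) [Fact q.Prime] (T : Sylow q M),
      ((T : Subgroup M).map M.subtype).Normal := by
    intro M hM hMn q hq T
    have h1 : (T : Subgroup M).Normal := inferInstance
    have h2 : (T : Subgroup M).Characteristic := Sylow.characteristic_of_normal T h1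
    infer_instance
  -- Key: a normal nilpotent subgroup not in `N` gives a prime
  have key : ∀ (M : Subgroup G), M.Normal → Group.IsNilpotent M → ¬ M ≤ N →
      ∃ p : ℕ, p.Prime ∧ IsPGroup p N := by
    intro M hM hMn hMN
    obtain ⟨x, hxM, hxN⟩ := SetLike.not_le_iff_exists.1 hMN
    obtain ⟨m, hm, p, k, hp, hk, hpk⟩ := Cfsg.Agent.H68.exists_pow_notMem_orderOf_prime_pow N _ x rfl hxN
    have : Fact p.Prime := ⟨hp⟩
    refine ⟨p, hp, ?_⟩
    let y : M := ⟨x ^ m, pow_mem hxM m⟩
    have hyp : IsPGroup p (zpowers y) := by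
      apply IsPGroup.of_card (n := k)
      rw [Nat.card_zpowers, Subgroup.orderOf_mk, hpk]
    obtain ⟨T, hT⟩ := hyp.exists_le_sylow
    have := sylN M hM hMn p T
    apply isPGroup_of_not_le N heq p ((T : Subgroup M).map M.subtype) (T.isPGroup'.map _)
    intro hle
    apply hm
    apply hle
    exact ⟨y, hT (mem_zpowers y), rfl⟩
  refine ⟨?_, ?_⟩
  · by_cases h : ∀ M : Subgroup G, M.Normal → Group.IsNilpotent M → M ≤ N
    · right
      exact sSup_le fun M hM => h M hM.1 hM.2
    · left
      push Not at h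
      obtain ⟨M, hM, hMn, hMN⟩ := h
      obtain ⟨p, hp, hpN⟩ := key M hM hMn hMN
      have : Fact p.Prime := ⟨hp⟩
      exact le_sSup ⟨inferInstance, hpN.isNilpotent⟩
  · intro hlt
    obtain ⟨M, hM, hMn, hMN⟩ : ∃ M : Subgroup G, M.Normal ∧ Group.IsNilpotent M ∧ ¬ M ≤ N := by
      by_contra h
      push Not at h
      exact hlt.not_ge (sSup_le fun M hM => h M hM.1 hM.2)
    obtain ⟨p, hp, hpN⟩ := key M hM hMn hMN
    have : Fact p.Prime := ⟨hp⟩
    have hall : ∀ L ∈ {L : Subgroup G | L.Normal ∧ Group.IsNilpotent L}, IsPGroup p L := by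
      rintro L ⟨hL, hLn⟩
      rw [isPGroup_iff_primeFactors_card_subset hp.ne_zero, hp.primeFactors]
      intro q hq
      rw [Finset.mem_singleton]
      by_contra hqp
      have hq' := Nat.prime_of_mem_primeFactors hq
      have hqd := Nat.dvd_of_mem_primeFactors hq
      have : Fact q.Prime := ⟨hq'⟩
      let T : Sylow q L := default
      have hTn := sylN L hL hLn q T
      have hTq : IsPGroup q ((T : Subgroup L).map L.subtype) := T.isPGroup'.map _
      have hT1 : (T : Subgroup L).map L.subtype ≠ ⊥ := by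
        intro h
        rw [Subgroup.map_eq_bot_iff_of_injective _ L.subtype_injective] at h
        exact T.ne_bot_of_dvd_card hqd h
      by_cases hTN : (T : Subgroup L).map L.subtype ≤ N
      · have h1 : IsPGroup p ((T : Subgroup L).map L.subtype) := hpN.to_le hTN
        have := IsPGroup.disjoint_of_ne q p hqp _ _ hTq h1
        exact hT1 (disjoint_self.1 this)
      · have h1 := isPGroup_of_not_le N heq q _ hTq hTN
        have := IsPGroup.disjoint_of_ne q p hqp _ _ h1 hpN
        exact hN1 (disjoint_self.1 this)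
    have hF : IsPGroup p (Cfsg.fittingSubgroup G) := Sylow.sSup_of_normal _ hall fun L hL => hL.1
    obtain ⟨n, hn⟩ := IsPGroup.iff_card.1 hF
    rw [hn]
    refine hp.isPrimePow.pow ?_
    rintro rfl
    rw [pow_zero] at hn
    have h1 := Subgroup.eq_bot_of_card_eq _ hn
    rw [h1] at hlt
    exact not_lt_bot hlt

end Cfsg.Agent.S4107
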