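import Cfsg.Statements.S4108
import Cfsg.Agent.H68.Basic
import Mathlib.GroupTheory.Sylow

set_option autoImplicit false
open Cfsg

namespace Cfsg.Agent.S4108

open Subgroup

open scoped Pointwise in
theorem hconj {G : Type*} [Group G] {H K : Subgroup G} (g x : K) : x ∈ MulAut.conj g • (H.subgroupOf K) ↔
      (g : G)⁻¹ * x * g ∈ H := by
  rw [Cfsg.Agent.H68.mem_conj_smul_iff, Subgroup.mem_subgroupOf]
  simp

/-- Let G be a finite group, p a prime and N a proper non-trivial normal p-subgroup such that for every x outside N all elements of the coset xN have the same order as x. Then every non-trivial subgroup H of G of order prime to p acts fixed-point-freely on N: NH is a Frobenius group with complement H and kernel N. -/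
theorem result {G : Type*} [Group G] [Finite G] (N : Subgroup G) [N.Normal] (hN1 : N ≠ ⊥) (hN2 : N ≠ ⊤)
    (heq : ∀ x : G, x ∉ N → ∀ n ∈ N, orderOf (x * n) = orderOf x)
    (p : ℕ) [Fact p.Prime] (hNp : IsPGroup p N) :
    ∀ H : Subgroup G, H ≠ ⊥ → (Nat.card H).Coprime p →
      Cfsg.IsFrobeniusComplement (H.subgroupOf (N ⊔ H)) ∧ Cfsg.frobeniusKernel (H.subgroupOf (N ⊔ H)) = (N.subgroupOf (N ⊔ H) : Set ↥(N ⊔ H)) := by
  intro H hH1 hcop
  have hpp : p.Prime := Fact.out
  have hHord : ∀ h ∈ H, (orderOf h).Coprime p := by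
    intro h hh
    have : orderOf (⟨h, hh⟩ : H) = orderOf h := Subgroup.orderOf_mk _ _
    rw [← this]
    exact Nat.Coprime.coprime_dvd_left (orderOf_dvd_natCard _) hcop
  have hNord : ∀ n ∈ N, ∃ k : ℕ, orderOf n = p ^ k := by
    intro n hn
    obtain ⟨k, hk⟩ := IsPGroup.iff_orderOf.1 hNp ⟨n, hn⟩
    exact ⟨k, by rwa [Subgroup.orderOf_mk] at hk⟩
  have hdisj : ∀ x, x ∈ N → x ∈ H → x = 1 := by
    intro x hxN hxH
    obtain ⟨k, hk⟩ := hNord x hxN
    have h1 := hHord x hxH
    rw [← orderOf_eq_one_iff]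
    rw [hk] at h1 ⊢
    by_contra hne
    have hk0 : k ≠ 0 := by rintro rfl; exact hne (pow_zero _)
    rw [Nat.coprime_pow_left_iff (Nat.pos_of_ne_zero hk0), Nat.coprime_self] at h1
    exact hpp.ne_one h1
  have hfpf : ∀ h ∈ H, h ≠ 1 → ∀ n ∈ N, h * n = n * h → n = 1 := by
    intro h hh hh1 n hn hc
    have hhN : h ∉ N := fun h' => hh1 (hdisj h h' hh)
    have h1 := heq h hhN n hn
    obtain ⟨k, hk⟩ := hNord n hn
    have hc' : Commute h n := hc
    rw [hc'.orderOf_mul_eq_mul_orderOf_of_coprime (by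
      rw [hk]; exact Nat.Coprime.pow_right _ (hHord h hh))] at h1
    have h2 : orderOf n = 1 := by
      have := orderOf_pos h
      nlinarith
    exact orderOf_eq_one_iff.1 h2
  have hdec : ∀ g ∈ N ⊔ H, ∃ n ∈ N, ∃ h ∈ H, g = n * h := by
    intro g hg
    obtain ⟨n, hn, h, hh, rfl⟩ := Subgroup.mem_sup_of_normal_left.1 hg
    exact ⟨n, hn, h, hh, rfl⟩
  refine ⟨⟨?_, ?_, ?_⟩, ?_⟩
  · intro h
    rw [Subgroup.subgroupOf_eq_bot] at h
    exact hH1 (eq_bot_iff.2 (by
      have := h.le_bot
      intro x hx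
      exact this ⟨hx, (le_sup_right : H ≤ N ⊔ H) hx⟩))
  · intro h
    rw [Subgroup.subgroupOf_eq_top] at h
    apply hN1
    rw [eq_bot_iff]
    intro n hn
    exact Subgroup.mem_bot.2 (hdisj n hn (h ((le_sup_left : N ≤ N ⊔ H) hn)))
  · intro g hg
    rw [eq_bot_iff]
    rintro y ⟨hy1, hy2⟩
    replace hy2 := (hconj g y).1 hy2
    have hyH : (y : G) ∈ H := hy1
    obtain ⟨n, hn, h, hh, hg'⟩ := hdec g g.2
    rw [hg'] at hy2
    -- w = n⁻¹ y n ∈ H
    have hw : n⁻¹ * (y : G) * n ∈ H := by
      have : n⁻¹ * (y : G) * n = h * ((n * h)⁻¹ * y * (n * h)) * h⁻¹ := by group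
      rw [this]
      exact mul_mem (mul_mem hh hy2) (inv_mem hh)
    have hN : (n⁻¹ * (y : G) * n) * (y : G)⁻¹ ∈ N := by
      have : (n⁻¹ * (y : G) * n) * (y : G)⁻¹ = n⁻¹ * ((y : G) * n * (y : G)⁻¹) := by group
      rw [this]
      exact mul_mem (inv_mem hn) (‹N.Normal›.conj_mem n hn _)
    have h1 := hdisj _ hN (mul_mem hw (inv_mem hyH))
    have h2 : n⁻¹ * (y : G) * n = y := by rwa [mul_inv_eq_one] at h1
    have hn1 : n ≠ 1 := by
      rintro rfl
      apply hg
      show (g : G) ∈ H
      rw [hg', one_mul]; exact hh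
    have h3 : (y : G) = 1 := by
      by_contra hy
      apply hn1
      apply hfpf y hyH hy n hn
      calc (y : G) * n = n * (n⁻¹ * y * n) := by group
        _ = n * y := by rw [h2]
    rw [Subgroup.mem_bot]
    ext
    exact h3
  · ext x
    constructor
    · rintro (rfl | hx)
      · exact one_mem _
      · obtain ⟨n, hn, h, hh, hx'⟩ := hdec x x.2
        show (x : G) ∈ N
        by_cases hh1 : h = 1
        · rw [hx', hh1, mul_one]; exact hn
        · exfalso
          obtain ⟨u, hu, hu'⟩ := Cfsg.Agent.H68.exists_conj_of_fpf (N := N) (k := h)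
            (fun u hu hc => hfpf h hh hh1 u hu hc)
            (m := h⁻¹ * n * h) (by simpa using ‹N.Normal›.conj_mem n hn h⁻¹)
          apply hx ⟨u, (le_sup_left : N ≤ N ⊔ H) hu⟩
          refine (hconj _ _).2 ?_
          have : (u⁻¹ * (x : G) * u) = h := by
            rw [hx']
            have h5 : n * h = u * h * u⁻¹ := by rw [hu']; group
            rw [h5]; group
          show u⁻¹ * (x : G) * u ∈ H
          rw [this]; exact hh
    · intro hx
      have hxN : (x : G) ∈ N := hx
      by_cases hx1 : x = 1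
      · exact Or.inl hx1
      · right
        intro g hg
        replace hg := (hconj g x).1 hg
        apply hx1
        have h1 : (g : G)⁻¹ * x * g ∈ N := by
          simpa using ‹N.Normal›.conj_mem x hxN (g : G)⁻¹
        have h2 := hdisj _ h1 hg
        ext
        calc (x : G) = g * ((g : G)⁻¹ * x * g) * (g : G)⁻¹ := by group
          _ = 1 := by rw [h2]; group

end Cfsg.Agent.S4108
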