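import Cfsg.Statements.S4112
import Cfsg.Agent.H68.Basic
import Mathlib.GroupTheory.SchurZassenhaus

set_option autoImplicit false
open Cfsg

namespace Cfsg.Agent.S4112

open Subgroup

theorem part3 {G : Type*} [Group G] [Finite G] (N M : Subgroup G) [N.Normal]
    (hcop : N.index.Coprime (Nat.card M)) : ∃ H : Subgroup G, H ⊔ N = ⊤ ∧ H ⊓ M = ⊥ := by
  obtain ⟨H, hH, hmin⟩ := (wellFounded_lt (α := Subgroup G)).has_min {H | H ⊔ N = ⊤} ⟨⊤, by simp⟩
  have hH' : H ⊔ N = ⊤ := hH
  have hmin' : ∀ K : Subgroup H, K.map H.subtype ⊔ N = ⊤ → K = ⊤ := by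
    intro K hK
    have h1 := hmin (K.map H.subtype) hK
    have h2 : K.map H.subtype ≤ H := Subgroup.map_subtype_le K
    have h3 : K.map H.subtype = H := by
      by_contra h
      exact h1 (lt_of_le_of_ne h2 h)
    have h4 : K.map H.subtype = (⊤ : Subgroup H).map H.subtype := by
      rw [h3, ← MonoidHom.range_eq_map, Subgroup.range_subtype]
    exact Subgroup.map_injective H.subtype_injective h4
  refine ⟨H, hH, ?_⟩
  apply Subgroup.inf_eq_bot_of_coprime
  rw [Nat.coprime_iff_gcd_eq_one]
  by_contra hgcd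
  obtain ⟨p, hp, hpd⟩ := Nat.exists_prime_and_dvd hgcd
  have hpH : p ∣ Nat.card H := hpd.trans (Nat.gcd_dvd_left _ _)
  have hpM : p ∣ Nat.card M := hpd.trans (Nat.gcd_dvd_right _ _)
  have hpN : ¬ p ∣ N.index := by
    intro h
    have := Nat.dvd_gcd h hpM
    rw [Nat.Coprime.gcd_eq_one hcop] at this
    exact hp.one_lt.ne' (Nat.dvd_one.1 this)
  have : Fact p.Prime := ⟨hp⟩
  let P : Sylow p H := default
  have hDidx : ¬ p ∣ (N.subgroupOf H).index := by
    intro h
    exact hpN (h.trans (Subgroup.relIndex_dvd_index_of_normal N H))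
  have hPD : (P : Subgroup H) ≤ N.subgroupOf H := by
    intro y hy
    obtain ⟨k, hk⟩ := P.isPGroup' ⟨y, hy⟩
    have hk' : y ^ p ^ k = 1 := by simpa using congrArg Subtype.val hk
    exact Cfsg.Agent.H68.mem_of_pPow_eq_one_of_coprime_index hp hk' hDidx
  have key : ∀ K : Subgroup H, K ⊔ N.subgroupOf H = ⊤ → K = ⊤ := by
    intro K hK
    apply hmin'
    have h1 : (K ⊔ N.subgroupOf H).map H.subtype = H := by
      rw [hK, ← MonoidHom.range_eq_map, Subgroup.range_subtype]
    rw [Subgroup.map_sup] at h1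
    have h2 : (N.subgroupOf H).map H.subtype ≤ N := by
      rw [Subgroup.subgroupOf_map_subtype]; exact inf_le_left
    rw [← top_le_iff, ← hH', sup_le_iff]
    refine ⟨?_, le_sup_right⟩
    calc H = K.map H.subtype ⊔ (N.subgroupOf H).map H.subtype := h1.symm
      _ ≤ K.map H.subtype ⊔ N := sup_le_sup_left h2 _
  have h1 := key _ (Sylow.normalizer_sup_eq_top' P hPD)
  have hPn : (P : Subgroup H).Normal := Subgroup.normalizer_eq_top_iff.1 h1
  obtain ⟨K, hK⟩ := Subgroup.exists_right_complement'_of_coprime (N := (P : Subgroup H)) P.card_coprime_index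
  have h2 : K = ⊤ := by
    apply key
    rw [← top_le_iff, ← hK.sup_eq_top, sup_comm]
    exact sup_le_sup_left hPD _
  subst h2
  have h3 : (P : Subgroup H) = ⊥ := by
    have := hK.disjoint
    rwa [disjoint_top] at this
  exact P.ne_bot_of_dvd_card hpH h3

/-- Let G be a finite group and M ≤ N non-trivial proper normal subgroups such that for every g outside N the conjugacy class of g is a union of cosets of M (equivalently gm is conjugate to g for every m ∈ M). Then (1) and (2) below are equivalent, and they imply (3): (1) every g outside N acts fixed-point-freely on M, that is C_G(x) ≤ N for every x ∈ M, x ≠ 1; (2) the index of N in G is coprime to the order of M; (3) there is a subgroup H of G with HN = G and H ∩ M = 1. -/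
theorem result {G : Type*} [Group G] [Finite G] (N M : Subgroup G) [N.Normal] [M.Normal] (hMN : M ≤ N) (hM1 : M ≠ ⊥) (hN2 : N ≠ ⊤)
    (hcam : ∀ g : G, g ∉ N → ∀ m ∈ M, ∃ x : G, x * g * x⁻¹ = g * m) :
    ((∀ x ∈ M, x ≠ 1 → Subgroup.centralizer ({x} : Set G) ≤ N) ↔ N.index.Coprime (Nat.card M)) ∧
    ((∀ x ∈ M, x ≠ 1 → Subgroup.centralizer ({x} : Set G) ≤ N) → ∃ H : Subgroup G, H ⊔ N = ⊤ ∧ H ⊓ M = ⊥) := by
  have h12 : (∀ x ∈ M, x ≠ 1 → Subgroup.centralizer ({x} : Set G) ≤ N) → N.index.Coprime (Nat.card M) := by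
    intro h
    rw [Nat.coprime_iff_gcd_eq_one]
    by_contra hgcd
    obtain ⟨p, hp, hpd⟩ := Nat.exists_prime_and_dvd hgcd
    have hpN : p ∣ N.index := hpd.trans (Nat.gcd_dvd_left _ _)
    have hpM : p ∣ Nat.card M := hpd.trans (Nat.gcd_dvd_right _ _)
    have : Fact p.Prime := ⟨hp⟩
    let P : Sylow p G := default
    letI : MulAction (P : Subgroup G) M :=
      MulAction.compHom M ((MulAut.conjNormal (H := M)).comp (P : Subgroup G).subtype)
    have hsmul : ∀ (y : (P : Subgroup G)) (m : M), ((y • m : M) : G) = y * m * (y : G)⁻¹ := by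
      intro y m
      exact MulAut.conjNormal_apply (H := M) (y : G) m
    obtain ⟨b, hb, hb1⟩ := P.isPGroup'.exists_fixed_point_of_prime_dvd_card_of_fixed_point M hpM
      (a := 1) (by
        intro y
        ext
        rw [hsmul]; simp)
    have hb1' : (b : G) ≠ 1 := fun h => hb1 (by ext; exact h.symm)
    have hPN : (P : Subgroup G) ≤ N := by
      intro y hy
      apply h b b.2 hb1'
      rw [mem_centralizer_iff]
      intro a ha
      rw [Set.mem_singleton_iff] at ha
      rw [ha]
      have := congrArg Subtype.val (hb ⟨y, hy⟩)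
      rw [hsmul] at this
      have h2 : y * b * y⁻¹ = b := this
      calc (b : G) * y = (y * b * y⁻¹) * y := by rw [h2]
        _ = y * b := by group
    exact P.not_dvd_index (hpN.trans (Subgroup.index_dvd_of_le hPN))
  have h21 : N.index.Coprime (Nat.card M) → (∀ x ∈ M, x ≠ 1 → Subgroup.centralizer ({x} : Set G) ≤ N) := by
    intro hcop x hx hx1 g hg
    by_contra hgN
    -- replace `x` by a power of prime order `r`
    have ho1 : orderOf x ≠ 1 := fun h => hx1 (orderOf_eq_one_iff.1 h)
    obtain ⟨r, hr, hrx⟩ := Nat.exists_prime_and_dvd ho1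
    obtain ⟨c, hc⟩ := hrx
    have hc0 : c ≠ 0 := by
      rintro rfl; rw [mul_zero] at hc; exact (orderOf_pos x).ne' hc
    have hxr : orderOf (x ^ c) = r := by
      rw [orderOf_pow_of_dvd hc0 (by rw [hc]; exact dvd_mul_left _ _), hc,
        Nat.mul_div_cancel _ (Nat.pos_of_ne_zero hc0)]
    have hrM : r ∣ Nat.card M := by
      rw [← hxr]
      have : orderOf (⟨x ^ c, pow_mem hx c⟩ : M) = orderOf (x ^ c) := Subgroup.orderOf_mk _ _
      rw [← this]
      exact orderOf_dvd_natCard _
    obtain ⟨k, m, hrm, hkm⟩ := Nat.exists_eq_pow_mul_and_not_dvd (orderOf_pos g).ne' r hr.ne_one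
    have hg' : g ^ r ^ k ∉ N := by
      intro h
      apply hgN
      refine Cfsg.Agent.H68.mem_of_pow_mem_of_coprime h (N.pow_index_mem g) ?_
      exact Nat.Coprime.pow_left _ (Nat.Coprime.coprime_dvd_left hrM hcop.symm)
    obtain ⟨y, hy⟩ := hcam _ hg' (x ^ c) (pow_mem hx c)
    have hcomm : Commute g x := by
      rw [mem_centralizer_iff] at hg
      exact (hg x rfl).symm
    have h1 : (g ^ r ^ k * x ^ c) ^ m = 1 := by
      rw [← hy, conj_pow, ← pow_mul, ← hkm, pow_orderOf_eq_one]; group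
    rw [(hcomm.pow_pow _ _).mul_pow, ← pow_mul, ← hkm, pow_orderOf_eq_one, one_mul] at h1
    have h2 := orderOf_dvd_iff_pow_eq_one.2 h1
    rw [hxr] at h2
    exact hrm h2
  exact ⟨⟨h12, h21⟩, fun h => part3 N M (h12 h)⟩

end Cfsg.Agent.S4112
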