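import Cfsg.Statements.S4151
import Cfsg.Agent.H69.CoprimeZ
import Cfsg.Agent.H91.GenCent
import Cfsg.Agent.MaxClass.UniqueOrderP
import Cfsg.Agent.Frob.Complement
import Cfsg.Agent.Transfer.Frobenius

set_option autoImplicit false
set_option linter.style.haveILetI false
set_option linter.unusedSectionVars false
open Cfsg

namespace Cfsg.Agent.S4151

open Subgroup Cfsg.Agent.H69 Pointwise

theorem exists_noncyclic_abelian {P : Type*} [Group P] [Finite P] {q : ℕ} [hq : Fact q.Prime]
    (hP : IsPGroup q P) (hq2 : q ≠ 2) (hnc : ¬ IsCyclic P) :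
    ∃ A : Subgroup P, IsMulCommutative A ∧ ¬ IsCyclic A := by
  by_contra hcon
  push Not at hcon
  refine (MaxClass.cyclic_or_quaternion hP ?_).elim hnc (fun h => hq2 h.1)
  haveI : Nontrivial P := by
    by_contra h
    rw [not_nontrivial_iff_subsingleton] at h
    exact hnc inferInstance
  haveI := hP.center_nontrivial
  obtain ⟨z, hz⟩ : ∃ z : center P, orderOf z = q := by
    apply exists_prime_orderOf_dvd_card' q
    obtain ⟨n, hn⟩ := IsPGroup.iff_card.mp (hP.to_subgroup (center P))
    rw [hn]
    refine dvd_pow_self q ?_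
    rintro rfl
    rw [pow_zero] at hn
    exact (Finite.one_lt_card (α := center P)).ne' hn
  have hz' : orderOf (z : P) = q := by rw [orderOf_coe]; exact hz
  have key : ∀ W : Subgroup P, Nat.card W = q → W = zpowers (z : P) := by
    intro W hW
    set A := zpowers (z : P) ⊔ W with hA
    have hWcyc : IsCyclic W := isCyclic_of_prime_card hW
    have hWcomm : W ≤ centralizer (W : Set P) := by
      intro a ha
      rw [mem_centralizer_iff]
      intro b hb
      have := (IsCyclic.isMulCommutative (α := W)).is_comm.comm ⟨b, hb⟩ ⟨a, ha⟩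
      exact congrArg Subtype.val this
    have hZc : zpowers (z : P) ≤ center P := zpowers_le.mpr z.2
    have hAc : IsMulCommutative A := by
      rw [← le_centralizer_iff_isMulCommutative]
      rw [hA]
      refine sup_le (hZc.trans (center_le_centralizer _)) ?_
      intro w hw
      rw [mem_centralizer_iff]
      intro a ha
      have hle : zpowers (z : P) ⊔ W ≤ centralizer {w} := by
        refine sup_le (hZc.trans (center_le_centralizer _)) ?_
        intro b hb
        rw [mem_centralizer_iff]
        rintro _ rfl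
        exact (mem_centralizer_iff.mp (hWcomm hb) _ hw)
      exact (mem_centralizer_iff.mp (hle ha) w rfl).symm
    haveI := hcon A hAc
    have h1 := Frob.eq_of_card_eq_of_isCyclic (C := A) (W.subgroupOf A)
      ((zpowers (z : P)).subgroupOf A) (by
        rw [Nat.card_congr (subgroupOfEquivOfLe (le_sup_right : W ≤ A)).toEquiv,
          Nat.card_congr (subgroupOfEquivOfLe (le_sup_left : zpowers (z : P) ≤ A)).toEquiv, hW,
          Nat.card_zpowers, hz'])
    have h2 := congrArg (Subgroup.map A.subtype) h1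
    rwa [map_subgroupOf_eq_of_le le_sup_right, map_subgroupOf_eq_of_le le_sup_left] at h2
  intro X Y hX hY
  rw [key X hX, key Y hY]

/-- TI condition -/
theorem ti_mem {G : Type*} [Group G] {H : Subgroup G} (hTI : Cfsg.IsTISubset (H : Set G)) {g x : G}
    (hx : x ∈ H) (hgx : g * x * g⁻¹ ∈ H) (hx1 : x ≠ 1) : g ∈ normalizer (H : Set G) := by
  by_contra h
  exact hx1 (hTI g h x hx hgx)

theorem mem_of_pow_eq_one_of_coprime {G : Type*} [Group G] [Finite G] {H : Subgroup G} {x : G}
    (hx : x ∈ normalizer (H : Set G))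
    (hHall : (Nat.card H).Coprime (H.subgroupOf (Subgroup.normalizer (H : Set G))).index)
    {q k : ℕ} (hqH : q ∣ Nat.card H) (hk : x ^ q ^ k = 1) : x ∈ H := by
  haveI : (H.subgroupOf (normalizer (H : Set G))).Normal := normal_in_normalizer
  set y : normalizer (H : Set G) := ⟨x, hx⟩ with hy
  have h1 : (QuotientGroup.mk y : normalizer (H : Set G) ⧸ H.subgroupOf (normalizer (H : Set G))) ^ (q ^ k) = 1 := by
    rw [← QuotientGroup.mk_pow]
    have : y ^ q ^ k = 1 := Subtype.ext hk
    rw [this]; rfl
  have h2 := orderOf_dvd_of_pow_eq_one h1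
  have h3 := orderOf_dvd_natCard
    (QuotientGroup.mk y : normalizer (H : Set G) ⧸ H.subgroupOf (normalizer (H : Set G)))
  have h4 : (q ^ k).Coprime (H.subgroupOf (normalizer (H : Set G))).index :=
    Nat.Coprime.pow_left _ (Nat.Coprime.coprime_dvd_left hqH hHall)
  have h5 := Nat.Coprime.eq_one_of_dvd (Nat.Coprime.coprime_dvd_left h2 h4) h3
  rw [orderOf_eq_one_iff, QuotientGroup.eq_one_iff, mem_subgroupOf] at h5
  exact h5

theorem hall_of_ti {G : Type*} [Group G] [Finite G] {H : Subgroup G}
    (hTI : Cfsg.IsTISubset (H : Set G))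
    (hHall : (Nat.card H).Coprime (H.subgroupOf (Subgroup.normalizer (H : Set G))).index) :
    (Nat.card H).Coprime H.index := by
  apply Nat.coprime_of_dvd
  intro q hq hqH hqI
  haveI : Fact q.Prime := ⟨hq⟩
  let P : Sylow q H := default
  set S := (P : Subgroup H).map H.subtype with hS
  have hSp : IsPGroup q S := P.2.map _
  have hSH : S ≤ H := map_subtype_le _
  obtain ⟨T, hT⟩ := hSp.exists_le_sylow
  have hSne : S ≠ ⊥ := by
    intro h
    have h1 : (P : Subgroup H) = ⊥ := by
      rwa [hS, map_eq_bot_iff_of_injective _ H.subtype_injective] at h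
    exact P.ne_bot_of_dvd_card hqH h1
  rcases hT.eq_or_lt with h | h
  · -- S Sylow in G
    have h1 : H.index ∣ S.index := index_dvd_of_le hSH
    rw [h] at h1
    exact T.not_dvd_index (hqI.trans h1)
  · have h1 := Transfer.lt_normalizer_inf_of_isPGroup T.2 h
    obtain ⟨t, ht, htS⟩ := SetLike.exists_of_lt h1
    apply htS
    obtain ⟨s, hs1⟩ := (ne_bot_iff_exists_ne_one).mp hSne
    have hs1' : (s : G) ≠ 1 := fun h => hs1 (Subtype.ext h)
    -- normalizer S ⊓ T is inside N(H), hence inside H
    have hTN : normalizer (S : Set G) ⊓ (T : Subgroup G) ≤ normalizer (H : Set G) := by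
      intro x hx
      exact ti_mem hTI (hSH s.2) (hSH ((mem_normalizer_iff.mp hx.1 _).mp s.2)) hs1'
    have hTH : normalizer (S : Set G) ⊓ (T : Subgroup G) ≤ H := by
      intro x hx
      obtain ⟨k, hk⟩ := T.2 ⟨x, hx.2⟩
      exact mem_of_pow_eq_one_of_coprime (hTN hx) hHall hqH (congrArg Subtype.val hk)
    have hp : IsPGroup q ((normalizer (S : Set G) ⊓ (T : Subgroup G)).subgroupOf H) :=
      (T.2.to_le inf_le_right).comap_of_injective H.subtype H.subtype_injective
    have h2 := P.3 hp (by
      intro x hx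
      rw [mem_subgroupOf]
      exact h1.le ⟨x, hx, rfl⟩)
    have h3 : (⟨t, hTH ht⟩ : H) ∈ (P : Subgroup H) := by
      rw [← h2]; exact ht
    exact ⟨_, h3, rfl⟩

theorem card_mul_relIndex' {G : Type*} [Group G] [Finite G] {A B : Subgroup G} (h : A ≤ B) :
    Nat.card A * A.relIndex B = Nat.card B := by
  have := (A.subgroupOf B).card_mul_index
  rwa [Nat.card_congr (Subgroup.subgroupOfEquivOfLe h).toEquiv] at this

theorem chain_step {G : Type*} [Group G] [Finite G] {H : Subgroup G} (hH : H ≠ ⊥)
    (hsep : ∃ (n : ℕ) (M : Fin (n + 1) → Subgroup G), M 0 = ⊥ ∧ M (Fin.last n) = ⊤ ∧ Monotone M ∧ (∀ i, (M i).Normal) ∧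
      ∀ i : Fin n, (∀ q : ℕ, q.Prime → q ∣ (M i.castSucc).relIndex (M i.succ) → q ∣ Nat.card H) ∨
        ((M i.castSucc).relIndex (M i.succ)).Coprime (Nat.card H)) :
    ∃ M L : Subgroup G, M.Normal ∧ L.Normal ∧ M ≤ L ∧ (Nat.card M).Coprime (Nat.card H) ∧
      (∀ q : ℕ, q.Prime → q ∣ M.relIndex L → q ∣ Nat.card H) ∧ M.relIndex L ≠ 1 := by
  obtain ⟨n, M, h0, hn, hmono, hnorm, hfac⟩ := hsep
  by_contra hcon
  push Not at hcon
  have key : ∀ i : Fin (n + 1), (Nat.card (M i)).Coprime (Nat.card H) := by
    intro i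
    induction i using Fin.induction with
    | zero => rw [h0, card_bot]; exact Nat.coprime_one_left _
    | succ i ih =>
      have hle : M i.castSucc ≤ M i.succ := hmono (Fin.castSucc_lt_succ).le
      rw [← card_mul_relIndex' hle]
      refine Nat.Coprime.mul_left ih ?_
      rcases hfac i with h | h
      · rw [hcon _ _ (hnorm _) (hnorm _) hle ih h]
        exact Nat.coprime_one_left _
      · exact h
  have h1 := key (Fin.last n)
  rw [hn] at h1
  have h2 : Nat.card H ∣ Nat.card (⊤ : Subgroup G) := card_dvd_of_le le_top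
  exact hH ((eq_bot_iff_card _).mpr (Nat.Coprime.eq_one_of_dvd h1.symm h2))

theorem pow_card_eq_one_of_mem {G : Type*} [Group G] {H : Subgroup G} {x : G} (hx : x ∈ H) :
    x ^ Nat.card H = 1 := by
  have h : (⟨x, hx⟩ : H) ^ Nat.card H = 1 := pow_card_eq_one'
  exact congrArg Subtype.val h

theorem orderOf_dvd_natCard_of_mem {G : Type*} [Group G] {H : Subgroup G} {x : G} (hx : x ∈ H) :
    orderOf x ∣ Nat.card H := orderOf_dvd_of_pow_eq_one (pow_card_eq_one_of_mem hx)

theorem card_sup_dvd {G : Type*} [Group G] [Finite G] {A K : Subgroup G}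
    (h : K ≤ normalizer (A : Set G)) : Nat.card (A ⊔ K : Subgroup G) ∣ Nat.card A * Nat.card K := by
  rw [sup_comm, ← card_mul_relIndex' (le_sup_right : A ≤ K ⊔ A), Cop.relIndex_sup_eq h]
  exact Nat.mul_dvd_mul_left _ (by
    rw [← card_mul_relIndex' (inf_le_right : A ⊓ K ≤ K), inf_relIndex_right]
    exact dvd_mul_left _ _)

theorem card_sup_eq {G : Type*} [Group G] [Finite G] {A K : Subgroup G}
    (h : K ≤ normalizer (A : Set G)) (hb : A ⊓ K = ⊥) :
    Nat.card (A ⊔ K : Subgroup G) = Nat.card A * Nat.card K := by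
  rw [sup_comm, ← card_mul_relIndex' (le_sup_right : A ≤ K ⊔ A), Cop.relIndex_sup_eq h]
  have e3 := card_mul_relIndex' (A := A ⊓ K) (B := K) inf_le_right
  rw [inf_relIndex_right, hb, card_bot, one_mul] at e3
  rw [e3]

/-- Let G be a finite group and H a non-normal subgroup meeting each of its conjugates by elements outside N_G(H) trivially, with the order of H coprime to its index in N_G(H), such that G is π-separable for π the set of primes dividing the order of H (G has a chain of normal subgroups from 1 to G each of whose factors has order divisible only by primes dividing the order of H or coprime to it). Suppose a Sylow 2-subgroup of H is abelian and Q is a complement of H in N_G(H). Then C_H(Q), the subgroup of elements of H commuting with Q, has order coprime to its index in G and has a normal complement in G. -/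
theorem result {G : Type*} [Group G] [Finite G] (H : Subgroup G)
    (hTI : Cfsg.IsTISubset (H : Set G)) (hnn : ¬ H.Normal)
    (hHall : (Nat.card H).Coprime (H.subgroupOf (Subgroup.normalizer (H : Set G))).index)
    (hsep : ∃ (n : ℕ) (M : Fin (n + 1) → Subgroup G), M 0 = ⊥ ∧ M (Fin.last n) = ⊤ ∧ Monotone M ∧ (∀ i, (M i).Normal) ∧
      ∀ i : Fin n, (∀ q : ℕ, q.Prime → q ∣ (M i.castSucc).relIndex (M i.succ) → q ∣ Nat.card H) ∨
        ((M i.castSucc).relIndex (M i.succ)).Coprime (Nat.card H))
    (h2 : ∀ P : Sylow 2 H, IsMulCommutative (P : Subgroup H))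
    (Q : Subgroup G) (hQ : Q ≤ Subgroup.normalizer (H : Set G)) (hQH : Q ⊓ H = ⊥) (hQH' : Q ⊔ H = Subgroup.normalizer (H : Set G)) :
    (Nat.card ↥(H ⊓ Subgroup.centralizer (Q : Set G))).Coprime (H ⊓ Subgroup.centralizer (Q : Set G)).index ∧
    ∃ N : Subgroup G, N.Normal ∧ N.IsComplement' (H ⊓ Subgroup.centralizer (Q : Set G)) := by
  have hHne : H ≠ ⊥ := by
    rintro rfl; exact hnn inferInstance
  have hHallG := hall_of_ti hTI hHall
  obtain ⟨M, L, hMn, hLn, hML, hMH, hML', hML1⟩ := chain_step hHne hsep
  have hMHbot : M ⊓ H = ⊥ := Cop.inf_eq_bot_of_coprime hMH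
  set H0 : Subgroup G := L ⊓ H with hH0
  -- card of H0
  have hH0card : Nat.card H0 = M.relIndex L := by
    have c1 : Nat.card H0 * H.relIndex L = Nat.card L := by
      have := card_mul_relIndex' (A := H0) (B := L) inf_le_left
      rwa [hH0, inf_comm, inf_relIndex_right, inf_comm] at this
    have c2 := card_mul_relIndex' hML
    have hd : H.relIndex L ∣ H.index := by
      have := relIndex_dvd_relIndex_of_le_normalizer (K := ⊤) (L := L) (S := H) le_top le_top
        (by rw [normalizer_eq_top])
      rwa [relIndex_top_right] at this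
    have hco1 : (Nat.card H0).Coprime (H.relIndex L) :=
      Nat.Coprime.coprime_dvd_left (card_dvd_of_le inf_le_right)
        (Nat.Coprime.coprime_dvd_right hd hHallG)
    have hco2 : (Nat.card H0).Coprime (Nat.card M) :=
      Nat.Coprime.coprime_dvd_left (card_dvd_of_le inf_le_right) hMH.symm
    have hd1 : Nat.card H0 ∣ M.relIndex L := by
      refine hco2.dvd_of_dvd_mul_left ?_
      rw [c2, ← c1]; exact dvd_mul_right _ _
    have hco3 : (M.relIndex L).Coprime (H.relIndex L) := by
      apply Nat.coprime_of_dvd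
      intro q hq h3 h4
      have h5 := hML' q hq h3
      exact hq.one_lt.ne' (Nat.Coprime.eq_one_of_dvd (Nat.Coprime.coprime_dvd_left h5 hHallG)
        (h4.trans hd))
    have hd2 : M.relIndex L ∣ Nat.card H0 := by
      refine hco3.dvd_of_dvd_mul_right ?_
      rw [c1, ← c2]; exact dvd_mul_left _ _
    exact Nat.dvd_antisymm hd1 hd2
  have hH0ne : H0 ≠ ⊥ := by
    intro h; rw [h, card_bot] at hH0card; exact hML1 hH0card.symm
  have hMH0 : M ⊔ H0 = L := by
    have hle : M ⊔ H0 ≤ L := sup_le hML inf_le_left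
    refine (Subgroup.eq_of_le_of_card_ge hle ?_)
    have e1 : M.relIndex (H0 ⊔ M) = M.relIndex H0 :=
      Cop.relIndex_sup_eq (by rw [normalizer_eq_top]; exact le_top)
    have e2 : M.relIndex H0 = Nat.card H0 := by
      have e3 := card_mul_relIndex' (A := M ⊓ H0) (B := H0) inf_le_right
      rw [inf_relIndex_right] at e3
      have e4 : M ⊓ H0 = ⊥ := by
        rw [eq_bot_iff, ← hMHbot]; exact inf_le_inf_left _ inf_le_right
      rw [e4, card_bot, one_mul] at e3
      exact e3
    have e5 := card_mul_relIndex' (le_sup_right : M ≤ H0 ⊔ M)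
    rw [e1, e2, hH0card, card_mul_relIndex' hML, sup_comm] at e5
    exact e5.le
  -- fixed points
  have hfix : ∀ h ∈ H, h ≠ 1 → M ⊓ centralizer {h} ≤ centralizer (H : Set G) := by
    intro h hh hh1 m hm
    have hmN : m ∈ normalizer (H : Set G) := by
      refine ti_mem hTI hh ?_ hh1
      have : h * m = m * h := mem_centralizer_iff.mp hm.2 h rfl
      rw [← this, mul_inv_cancel_right]; exact hh
    rw [mem_centralizer_iff]
    intro k hk
    have h3 : m * k * m⁻¹ * k⁻¹ ∈ M ⊓ H := by
      refine ⟨?_, H.mul_mem ((mem_normalizer_iff.mp hmN k).mp hk) (H.inv_mem hk)⟩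
      have : k * m⁻¹ * k⁻¹ ∈ M := hMn.conj_mem _ (M.inv_mem hm.1) k
      have h4 := mul_mem hm.1 this
      have e : m * k * m⁻¹ * k⁻¹ = m * (k * m⁻¹ * k⁻¹) := by group
      rw [e]; exact h4
    rw [hMHbot, mem_bot] at h3
    rw [mul_inv_eq_one, mul_inv_eq_iff_eq_mul] at h3
    exact h3.symm
  have hnoncyc : ∀ A : Subgroup G, A ≤ H → IsMulCommutative A → IsCyclic A := by
    intro A hAH hAc
    by_contra hA
    have h3 := H91.genCent_eq A M hA (by rw [normalizer_eq_top]; exact le_top)
      (Nat.Coprime.coprime_dvd_left (card_dvd_of_le hAH) hMH.symm)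
    have h4 : M ≤ centralizer (H : Set G) := by
      rw [← h3]
      refine iSup₂_le fun a ha => ?_
      exact hfix a (hAH ha.1) ha.2
    -- H0 is normal
    have hH0n : H0.Normal := by
      constructor
      intro x hx g
      have h5 : g * x * g⁻¹ ∈ M ⊔ H0 := by rw [hMH0]; exact hLn.conj_mem x hx.1 g
      rw [mem_sup_of_normal_left] at h5
      obtain ⟨m, hm, h, hh, hmh⟩ := h5
      have hcomm : Commute m h := (mem_centralizer_iff.mp (h4 hm) h hh.2).symm
      have h6 : (g * x * g⁻¹) ^ Nat.card H = 1 := by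
        rw [conj_pow, pow_card_eq_one_of_mem hx.2]; group
      rw [← hmh, hcomm.mul_pow, pow_card_eq_one_of_mem hh.2, mul_one] at h6
      have h7 := Nat.Coprime.eq_one_of_dvd (Nat.Coprime.coprime_dvd_left
        (orderOf_dvd_of_pow_eq_one h6) hMH.symm)
        (orderOf_dvd_natCard_of_mem hm)
      rw [orderOf_eq_one_iff] at h7
      rw [← hmh, h7, one_mul]
      exact hh
    apply hnn
    obtain ⟨x, hx1⟩ := ne_bot_iff_exists_ne_one.mp hH0ne
    have hx1' : (x : G) ≠ 1 := fun h => hx1 (Subtype.ext h)
    constructor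
    intro y hy g
    have hgN : g ∈ normalizer (H : Set G) :=
      ti_mem hTI x.2.2 (hH0n.conj_mem x x.2 g).2 hx1'
    exact (mem_normalizer_iff.mp hgN y).mp hy
  haveI hZ : IsZGroup H := by
    constructor
    intro q hq P
    haveI : Fact q.Prime := ⟨hq⟩
    by_contra hcyc
    have key : ∃ A : Subgroup (P : Subgroup H), IsMulCommutative A ∧ ¬ IsCyclic A := by
      by_cases hq2 : q = 2
      · subst hq2
        haveI := h2 P
        refine ⟨⊤, ?_, ?_⟩
        · constructor; constructor
          intro a b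
          exact Subtype.ext (mul_comm' a.1 b.1)
        · intro h
          exact hcyc (isCyclic_of_surjective (topEquiv : (⊤ : Subgroup (P : Subgroup H)) ≃* _) topEquiv.surjective)
      · exact exists_noncyclic_abelian P.2 hq2 hcyc
    obtain ⟨A, hAc, hA⟩ := key
    have e1 := (A.equivMapOfInjective (P : Subgroup H).subtype (P : Subgroup H).subtype_injective)
    have e2 := ((A.map (P : Subgroup H).subtype).equivMapOfInjective H.subtype H.subtype_injective)
    apply hA
    have e3 := e1.trans e2
    have hc : IsMulCommutative ((A.map (P : Subgroup H).subtype).map H.subtype) := by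
      constructor; constructor
      intro a b
      apply e3.symm.injective
      rw [map_mul, map_mul]
      exact hAc.is_comm.comm _ _
    haveI := hnoncyc _ (map_subtype_le _) hc
    exact isCyclic_of_surjective e3.symm e3.symm.surjective
  have hsol : Group.IsSolvable H := inferInstance
  have hsol0 : Group.IsSolvable H0 := Cop.isSolvable_of_le inf_le_right hsol
  -- Frattini
  have hfrat : ∀ g : G, ∃ m ∈ M, m⁻¹ * g ∈ normalizer (H : Set G) := by
    intro g
    obtain ⟨m, hm, hmg⟩ := Cop.sz_rel (N := M) (A := H0) (B := MulAut.conj g • H0)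
      (by rw [normalizer_eq_top]; exact le_top)
      (by
        rw [hMH0]
        intro y hy
        rw [Hall.mem_conj_smul] at hy
        have := hLn.conj_mem _ hy.1 g
        have e : g * (g⁻¹ * y * g) * g⁻¹ = y := by group
        rwa [e] at this)
      (Nat.card_congr (Subgroup.equivSMul (MulAut.conj g) H0).toEquiv.symm)
      (Nat.Coprime.coprime_dvd_right (card_dvd_of_le inf_le_right) hMH) (Or.inr hsol0)
    refine ⟨m, hm, ?_⟩
    obtain ⟨x, hx1⟩ := ne_bot_iff_exists_ne_one.mp hH0ne
    have hx1' : (x : G) ≠ 1 := fun h => hx1 (Subtype.ext h)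
    refine ti_mem hTI x.2.2 ?_ hx1'
    have h3 : g * (x : G) * g⁻¹ ∈ MulAut.conj m • H0 := by
      rw [hmg, Hall.mem_conj_smul]
      have e : g⁻¹ * (g * (x : G) * g⁻¹) * g = x := by group
      rw [e]; exact x.2
    rw [Hall.mem_conj_smul] at h3
    have e : m⁻¹ * g * (x : G) * (m⁻¹ * g)⁻¹ = m⁻¹ * (g * (x : G) * g⁻¹) * m := by group
    rw [e]; exact h3.2
  -- Q is coprime to H
  have hcopQH : (Nat.card Q).Coprime (Nat.card H) := by
    have e1 := card_sup_eq (A := H) (K := Q) hQ (by rw [inf_comm]; exact hQH)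
    have e2 := card_mul_relIndex' (le_normalizer : H ≤ normalizer (H : Set G))
    rw [sup_comm, hQH', ← e2] at e1
    have e3 := Nat.eq_of_mul_eq_mul_left (Nat.card_pos) e1
    rw [← e3]
    exact hHall.symm
  have hco := coprime_card_fix_commutator hQ hcopQH
  have hsup := Cop.commutator_sup_centralizer hQ hcopQH (Or.inr hsol)
  have hL1H : ⁅H, Q⁆ ≤ H := le_normalizer_iff_commutator_le_left.1 hQ
  have hHL1 : H ≤ normalizer ((⁅H, Q⁆ : Subgroup G) : Set G) := normalizer_commutator_ge_left H Q
  have hQL1 : Q ≤ normalizer ((⁅H, Q⁆ : Subgroup G) : Set G) := normalizer_commutator_ge_right H Q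
  set C : Subgroup G := H ⊓ centralizer (Q : Set G) with hC
  set L1 : Subgroup G := ⁅H, Q⁆ with hL1
  have hL1C : L1 ⊓ C = ⊥ := Cop.inf_eq_bot_of_coprime hco.symm
  have hCH : C ≤ H := inf_le_left
  have hcardH : Nat.card H = Nat.card L1 * Nat.card C := by
    rw [← card_sup_eq (hCH.trans hHL1) hL1C, hsup]
  have hCrel : C.relIndex H = Nat.card L1 := by
    have := card_mul_relIndex' hCH
    rw [hcardH, mul_comm (Nat.card L1)] at this
    exact Nat.eq_of_mul_eq_mul_left Nat.card_pos this
  refine ⟨?_, ?_⟩
  · rw [← relIndex_mul_index hCH, hCrel]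
    exact Nat.Coprime.mul_right hco
      (Nat.Coprime.coprime_dvd_left (card_dvd_of_le hCH) hHallG)
  · set N : Subgroup G := M ⊔ (L1 ⊔ Q) with hN
    have hMN : M ≤ N := le_sup_left
    have hLN : L1 ≤ N := le_sup_left.trans le_sup_right
    have hQN : Q ≤ N := le_sup_right.trans le_sup_right
    have hHN1 : ∀ h ∈ H, ∀ x ∈ N, h * x * h⁻¹ ∈ N := by
      intro h hh
      have h3 : N ≤ N.comap (MulAut.conj h).toMonoidHom := by
        refine sup_le ?_ (sup_le ?_ ?_)
        · intro x hx
          exact hMN (hMn.conj_mem x hx h)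
        · intro x hx
          exact hLN ((mem_normalizer_iff.mp (hHL1 hh) x).mp hx)
        · intro x hx
          show h * x * h⁻¹ ∈ N
          have e : h * x * h⁻¹ = (h * x * h⁻¹ * x⁻¹) * x := by group
          rw [e]
          exact mul_mem (hLN (commutator_mem_commutator hh hx)) (hQN hx)
      exact fun x hx => h3 hx
    have hHN : H ≤ normalizer (N : Set G) := by
      intro h hh
      rw [mem_normalizer_iff]
      intro x
      constructor
      · exact hHN1 h hh x
      · intro hx
        have := hHN1 h⁻¹ (H.inv_mem hh) _ hx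
        have e : h⁻¹ * (h * x * h⁻¹) * h⁻¹⁻¹ = x := by group
        rwa [e] at this
    have hNN : normalizer (H : Set G) ≤ normalizer (N : Set G) := by
      rw [← hQH']
      exact sup_le (hQN.trans le_normalizer) hHN
    have hnormal : N.Normal := by
      rw [← normalizer_eq_top_iff, eq_top_iff]
      intro g _
      obtain ⟨m, hm, hmg⟩ := hfrat g
      have := mul_mem (le_normalizer (hMN hm)) (hNN hmg)
      rwa [mul_inv_cancel_left] at this
    refine ⟨N, hnormal, ?_⟩
    have hdvd : Nat.card N ∣ Nat.card M * (Nat.card L1 * Nat.card Q) := by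
      refine (card_sup_dvd (by rw [normalizer_eq_top]; exact le_top)).trans ?_
      exact Nat.mul_dvd_mul_left _ (card_sup_dvd hQL1)
    have hcoN : (Nat.card N).Coprime (Nat.card C) := by
      refine Nat.Coprime.coprime_dvd_left hdvd ?_
      refine Nat.Coprime.mul_left ?_ (Nat.Coprime.mul_left hco.symm ?_)
      · exact Nat.Coprime.coprime_dvd_right (card_dvd_of_le hCH) hMH
      · exact Nat.Coprime.coprime_dvd_right (card_dvd_of_le hCH) hcopQH
    have hNC : N ⊔ C = ⊤ := by
      rw [eq_top_iff]
      intro g _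
      obtain ⟨m, hm, hmg⟩ := hfrat g
      have h3 : normalizer (H : Set G) ≤ N ⊔ C := by
        rw [← hQH']
        refine sup_le (hQN.trans le_sup_left) ?_
        rw [← hsup]
        exact sup_le (hLN.trans le_sup_left) le_sup_right
      have := mul_mem ((hMN.trans le_sup_left : M ≤ N ⊔ C) hm) (h3 hmg)
      rwa [mul_inv_cancel_left] at this
    refine isComplement'_of_disjoint_and_mul_eq_univ (disjoint_of_coprime_natCard hcoN) ?_
    rw [← normal_mul, hNC]; rfl

end Cfsg.Agent.S4151
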