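import Cfsg.Statements.S4115
import Cfsg.Agent.S0877
import Cfsg.Agent.S4116
import Cfsg.Agent.S4151
import Cfsg.Agent.H71.FrobConstruct

set_option autoImplicit false
universe u
open Cfsg

namespace Cfsg.Agent.S4115

open Subgroup

universe v

/-- a `C_H(h) = C_K(H)` type action of `H` on an `r`-group `R` gives a fixed-point-free action -/
theorem exists_frobenius {G : Type v} [Group G] [Finite G] (H R : Subgroup G) {r : ℕ} [hr : Fact r.Prime]
    (hR : IsPGroup r R) (hHR : H ≤ normalizer (R : Set G)) (hHb : H ≠ ⊥)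
    (hcop : ¬ r ∣ Nat.card H)
    (hc : ∀ h ∈ H, h ≠ 1 → ∀ x ∈ R, x * h = h * x → x ∈ centralizer (H : Set G))
    (hne : ¬ R ≤ centralizer (H : Set G)) :
    ∃ (F : Type v) (_ : Group F) (_ : Finite F) (C : Subgroup F), Cfsg.IsFrobeniusComplement C ∧ Nonempty (H ≃* C) := by
  set D : Subgroup G := R ⊓ centralizer (H : Set G) with hD
  have hDR : D ≤ R := inf_le_left
  have hDC : ∀ d ∈ D, ∀ h ∈ H, h * d = d * h := fun d hd h hh => mem_centralizer_iff.1 (mem_inf.1 hd).2 h hh
  have hDlt : D < R := lt_of_le_of_ne hDR (fun e => hne (by rw [← e]; exact inf_le_right))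
  -- `N_R(D) > D`
  set W₀ : Subgroup G := R ⊓ normalizer (D : Set G) with hW₀
  have hDW : D ≤ W₀ := le_inf hDR le_normalizer
  obtain ⟨x₀, hx₀R, hx₀N, hx₀D⟩ : ∃ x ∈ R, x ∈ normalizer (D : Set G) ∧ x ∉ D := by
    haveI : Finite R := inferInstance
    haveI := hR.isNilpotent
    have h1 : D.subgroupOf R < ⊤ := by
      rw [lt_top_iff_ne_top]
      intro h
      rw [subgroupOf_eq_top] at h
      exact hDlt.not_ge h
    have h2 := Group.normalizerCondition_of_isNilpotent (D.subgroupOf R) h1
    obtain ⟨⟨x, hxR⟩, hxN, hxD⟩ := SetLike.exists_of_lt h2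
    refine ⟨x, hxR, ?_, fun h => hxD (mem_subgroupOf.2 h)⟩
    rw [mem_normalizer_iff] at hxN ⊢
    intro d
    constructor
    · intro hd
      have := (hxN ⟨d, hDR hd⟩).1 (mem_subgroupOf.2 hd)
      exact mem_subgroupOf.1 this
    · intro hd
      have hdR : d ∈ R := by
        have h3 : d = x⁻¹ * (x * d * x⁻¹) * x := by group
        rw [h3]
        exact mul_mem (mul_mem (inv_mem hxR) (hDR hd)) hxR
      exact mem_subgroupOf.1 ((hxN ⟨d, hdR⟩).2 (mem_subgroupOf.2 hd))
  have hx₀W : x₀ ∈ W₀ := mem_inf.2 ⟨hx₀R, hx₀N⟩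
  have hHND : H ≤ normalizer (D : Set G) := by
    intro h hh
    rw [mem_normalizer_iff]
    intro d
    have key : ∀ e : G, ∀ k ∈ H, e ∈ D → k * e * k⁻¹ = e := by
      intro e k hk he
      rw [hDC e he k hk, mul_inv_cancel_right]
    constructor
    · intro hd; rw [key d h hh hd]; exact hd
    · intro hd
      have := key _ h⁻¹ (inv_mem hh) hd
      have h4 : h⁻¹ * (h * d * h⁻¹) * h⁻¹⁻¹ = d := by group
      rw [h4] at this
      rw [this]; exact hd
  have hHNW : H ≤ normalizer (W₀ : Set G) := by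
    intro h hh
    have h1 := mem_normalizer_iff.1 (hHR hh)
    have h2 := hHND hh
    rw [mem_normalizer_iff]
    intro w
    constructor
    · intro hw
      obtain ⟨hw1, hw2⟩ := mem_inf.1 hw
      exact mem_inf.2 ⟨(h1 w).1 hw1, mul_mem (mul_mem h2 hw2) (inv_mem h2)⟩
    · intro hw
      obtain ⟨hw1, hw2⟩ := mem_inf.1 hw
      refine mem_inf.2 ⟨(h1 w).2 hw1, ?_⟩
      have h3 : w = h⁻¹ * (h * w * h⁻¹) * h := by group
      rw [h3]
      exact mul_mem (mul_mem (inv_mem h2) hw2) h2
  -- the group `X = W₀ H` modulo `D`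
  set X : Subgroup G := W₀ ⊔ H with hX
  have hXD : X ≤ normalizer (D : Set G) := sup_le inf_le_right hHND
  have hXW : X ≤ normalizer (W₀ : Set G) := sup_le le_normalizer hHNW
  have hDX : D ≤ X := hDW.trans le_sup_left
  haveI hDn : (D.subgroupOf X).Normal := (normal_subgroupOf_iff_le_normalizer hDX).2 hXD
  haveI hWn : (W₀.subgroupOf X).Normal := (normal_subgroupOf_iff_le_normalizer le_sup_left).2 hXW
  set W : Subgroup (X ⧸ D.subgroupOf X) := (W₀.subgroupOf X).map (QuotientGroup.mk' (D.subgroupOf X)) with hW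
  haveI hWnn : W.Normal := hWn.map _ (QuotientGroup.mk'_surjective _)
  let φ : H →* MulAut W := (MulAut.conjNormal (H := W)).comp
    ((QuotientGroup.mk' (D.subgroupOf X)).comp (inclusion (le_sup_right : H ≤ X)))
  have hφ : Cfsg.Agent.Frob.IsFPF φ := by
    rintro ⟨h, hh⟩ hh1 ⟨w, hw⟩ hfix
    obtain ⟨⟨w', hw'X⟩, hw'W, rfl⟩ := hw
    have hw'W : w' ∈ W₀ := mem_subgroupOf.1 hw'W
    have hh1' : h ≠ 1 := fun e => hh1 (Subtype.ext e)
    -- `h w' h⁻¹ ∈ w' D`
    have h1 : (QuotientGroup.mk' (D.subgroupOf X)) (⟨h, (le_sup_right : H ≤ X) hh⟩ * ⟨w', hw'X⟩ *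
        ⟨h, (le_sup_right : H ≤ X) hh⟩⁻¹) = (QuotientGroup.mk' (D.subgroupOf X)) ⟨w', hw'X⟩ := by
      have := congrArg Subtype.val hfix
      rw [map_mul, map_mul, map_inv]
      exact this
    have h2 : w'⁻¹ * (h * w' * h⁻¹) ∈ D := by
      have h3 := (QuotientGroup.eq.1 h1.symm)
      rw [mem_subgroupOf] at h3
      exact h3
    -- find a fixed point in the coset
    have h4 : ∀ k : ℕ, w'⁻¹ * (h ^ k * w' * (h ^ k)⁻¹) = (w'⁻¹ * (h * w' * h⁻¹)) ^ k := by
      intro k
      induction k with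
      | zero => simp
      | succ k ih =>
        rw [pow_succ' (w'⁻¹ * (h * w' * h⁻¹)), ← ih]
        have h5 : h * (w'⁻¹ * (h ^ k * w' * (h ^ k)⁻¹)) = (w'⁻¹ * (h ^ k * w' * (h ^ k)⁻¹)) * h := by
          apply hDC _ _ _ hh
          rw [ih]; exact pow_mem h2 k
        have h6 : w'⁻¹ * (h * w' * h⁻¹) * (w'⁻¹ * (h ^ k * w' * (h ^ k)⁻¹)) =
            w'⁻¹ * h * w' * (h⁻¹ * ((w'⁻¹ * (h ^ k * w' * (h ^ k)⁻¹)))) := by group
        have h7 : h⁻¹ * (w'⁻¹ * (h ^ k * w' * (h ^ k)⁻¹)) = (w'⁻¹ * (h ^ k * w' * (h ^ k)⁻¹)) * h⁻¹ :=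
          (show Commute h (w'⁻¹ * (h ^ k * w' * (h ^ k)⁻¹)) from h5).inv_left.eq
        rw [h6, h7, pow_succ' h]
        group
    -- so the commutator `d` satisfies `d ^ |h| = 1`, hence `d = 1`
    have h5 : (w'⁻¹ * (h * w' * h⁻¹)) ^ Nat.card H = 1 := by
      rw [← h4]
      have h6 : h ^ Nat.card H = 1 := by
        have := pow_card_eq_one' (x := (⟨h, hh⟩ : H))
        exact congrArg Subtype.val this
      rw [h6]; group
    have h6 : w'⁻¹ * (h * w' * h⁻¹) = 1 := by
      have hDp : IsPGroup r D := hR.to_le hDR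
      obtain ⟨k, hk⟩ := hDp ⟨_, h2⟩
      have hk' : (w'⁻¹ * (h * w' * h⁻¹)) ^ r ^ k = 1 := congrArg Subtype.val hk
      have h7 := orderOf_dvd_of_pow_eq_one h5
      have h8 := orderOf_dvd_of_pow_eq_one hk'
      have hcop' : Nat.Coprime (Nat.card H) (r ^ k) :=
        Nat.Coprime.pow_right _ ((Nat.Prime.coprime_iff_not_dvd hr.out).2 hcop).symm
      have h9 := Nat.eq_one_of_dvd_coprimes hcop' h7 h8
      exact orderOf_eq_one_iff.1 h9
    have h7 : w' * h = h * w' := by
      rw [inv_mul_eq_one] at h6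
      nth_rewrite 1 [h6]
      rw [inv_mul_cancel_right]
    have h8 : w' ∈ D := mem_inf.2 ⟨(mem_inf.1 hw'W).1, hc h hh hh1' w' (mem_inf.1 hw'W).1 h7⟩
    apply Subtype.ext
    show (QuotientGroup.mk' (D.subgroupOf X)) ⟨w', hw'X⟩ = 1
    rw [QuotientGroup.mk'_apply, QuotientGroup.eq_one_iff]
    exact h8
  haveI : Nontrivial H := (nontrivial_iff_ne_bot _).2 hHb
  haveI : Nontrivial W := by
    rw [nontrivial_iff_ne_bot]
    intro hb
    have h1 : (QuotientGroup.mk' (D.subgroupOf X)) ⟨x₀, (le_sup_left : W₀ ≤ X) hx₀W⟩ ∈ W := ⟨_, mem_subgroupOf.2 hx₀W, rfl⟩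
    rw [hb, mem_bot, QuotientGroup.mk'_apply, QuotientGroup.eq_one_iff] at h1
    exact hx₀D (mem_subgroupOf.1 h1)
  haveI : Finite (W ⋊[φ] H) := by
    haveI : Finite (W × H) := inferInstance
    exact Finite.of_equiv _ SemidirectProduct.equivProd.symm
  refine ⟨W ⋊[φ] H, inferInstance, inferInstance, (SemidirectProduct.inr : H →* W ⋊[φ] H).range,
    Cfsg.Agent.H71.isFrobeniusComplement_inr hφ, ⟨?_⟩⟩
  exact MonoidHom.ofInjective SemidirectProduct.inr_injective

/-- Let G be a finite group and H a subgroup that meets each of its conjugates by elements outside N_G(H) trivially and whose order is coprime to its index in N_G(H). Then H has a normal complement in N_G(H) if and only if H has a normal complement in G. Moreover, if H is not normal in G and has a normal complement in N_G(H), then H is isomorphic to a Frobenius complement of some finite Frobenius group. -/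
theorem result {G : Type u} [Group G] [Finite G] (H : Subgroup G)
    (hTI : Cfsg.IsTISubset (H : Set G)) (hHall : (Nat.card H).Coprime (H.subgroupOf (Subgroup.normalizer (H : Set G))).index) :
    ((∃ K : Subgroup (Subgroup.normalizer (H : Set G)), K.Normal ∧ K.IsComplement' (H.subgroupOf (Subgroup.normalizer (H : Set G)))) ↔
      (∃ N : Subgroup G, N.Normal ∧ N.IsComplement' H)) ∧
    (¬ H.Normal → (∃ K : Subgroup (Subgroup.normalizer (H : Set G)), K.Normal ∧ K.IsComplement' (H.subgroupOf (Subgroup.normalizer (H : Set G)))) →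
      ∃ (F : Type u) (_ : Group F) (_ : Finite F) (C : Subgroup F), Cfsg.IsFrobeniusComplement C ∧ Nonempty (H ≃* C)) := by
  have hHallG := Cfsg.Agent.S4151.hall_of_ti hTI hHall
  -- the first part, hard direction
  have hfirst : (∃ K : Subgroup (Subgroup.normalizer (H : Set G)), K.Normal ∧ K.IsComplement' (H.subgroupOf (Subgroup.normalizer (H : Set G)))) →
      (∃ N : Subgroup G, N.Normal ∧ N.IsComplement' H) := by
    rintro ⟨K, hKn, hK⟩
    haveI hHn : (H.subgroupOf (normalizer (H : Set G))).Normal := normal_in_normalizer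
    obtain ⟨N, hN, hN1, hN2⟩ := Cfsg.Agent.S0877.result H hHallG (by
      intro x hx y hy hxy
      obtain ⟨g, hg⟩ := isConj_iff.1 hxy
      by_cases hx1 : x = 1
      · refine ⟨1, one_mem _, ?_⟩
        rw [hx1] at hg ⊢
        rw [← hg]; group
      · have hgN := Cfsg.Agent.S4151.ti_mem hTI hx (by rw [hg]; exact hy) hx1
        have h1 : (⟨g, hgN⟩ : normalizer (H : Set G)) ∈ (H.subgroupOf (normalizer (H : Set G))) ⊔ K := by
          rw [sup_comm, hK.sup_eq_top]; exact mem_top _
        rw [mem_sup_of_normal_left] at h1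
        obtain ⟨h, hh, k, hk, hhk⟩ := h1
        refine ⟨h, mem_subgroupOf.1 hh, ?_⟩
        have h2 : Commute k ⟨x, le_normalizer hx⟩ :=
          commute_of_normal_of_disjoint _ _ hKn hHn hK.disjoint k _ hk (mem_subgroupOf.2 hx)
        have h3 : (k : G) * x = x * k := congrArg Subtype.val h2.eq
        have h4 : g = (h : G) * (k : G) := (congrArg Subtype.val hhk).symm
        rw [← hg, h4, mul_inv_rev, mul_assoc (h : G) (k : G) x, h3]
        group) (by
      intro E p hp _ hE
      obtain ⟨g, hg⟩ := Cfsg.Agent.S4116.result H hHallG hTI E (fun q hq hqE => hqE.trans hE)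
      refine ⟨g⁻¹, ?_⟩
      rintro _ ⟨e, he, rfl⟩
      obtain ⟨h, hh, hhe⟩ := hg he
      have h1 : e = g * h * g⁻¹ := hhe.symm
      show g⁻¹ * e * g⁻¹⁻¹ ∈ H
      rw [h1]
      have h2 : g⁻¹ * (g * h * g⁻¹) * g⁻¹⁻¹ = h := by group
      rw [h2]; exact hh)
    haveI := hN
    refine ⟨N, hN, isComplement'_of_disjoint_and_mul_eq_univ (disjoint_iff.2 hN2) ?_⟩
    rw [← normal_mul, hN1]; rfl
  refine ⟨⟨hfirst, ?_⟩, ?_⟩
  · rintro ⟨N, hN, hNH⟩
    haveI := hN
    refine ⟨N.subgroupOf (normalizer (H : Set G)), inferInstance, ?_⟩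
    apply isComplement'_of_disjoint_and_mul_eq_univ
    · rw [disjoint_iff, eq_bot_iff]
      rintro x hx
      obtain ⟨h1, h2⟩ := mem_inf.1 hx
      have h3 : (x : G) ∈ N ⊓ H := mem_inf.2 ⟨mem_subgroupOf.1 h1, mem_subgroupOf.1 h2⟩
      rw [disjoint_iff.1 hNH.disjoint, mem_bot] at h3
      rw [mem_bot]
      exact Subtype.ext h3
    · rw [Set.eq_univ_iff_forall]
      intro x
      have h1 : (x : G) ∈ N ⊔ H := by rw [hNH.sup_eq_top]; exact mem_top _
      rw [mem_sup_of_normal_left] at h1
      obtain ⟨n, hn, h, hh, hnh⟩ := h1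
      have hhN : h ∈ normalizer (H : Set G) := le_normalizer hh
      have hnN : n ∈ normalizer (H : Set G) := by
        have h2 : n = x * h⁻¹ := by rw [← hnh]; group
        rw [h2]; exact mul_mem x.2 (inv_mem hhN)
      exact ⟨⟨n, hnN⟩, mem_subgroupOf.2 hn, ⟨h, hhN⟩, mem_subgroupOf.2 hh, Subtype.ext hnh⟩
  · intro hnn hK
    obtain ⟨N, hN, hNH⟩ := hfirst hK
    haveI := hN
    have hHb : H ≠ ⊥ := by
      rintro rfl
      exact hnn inferInstance
    have hidx : N.index = Nat.card H := by
      have h1 := hNH.symm.index_eq_card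
      exact h1
    have hcop : (Nat.card N).Coprime (Nat.card H) := by
      rw [← hNH.index_eq_card]
      exact hHallG.symm
    have hdis : N ⊓ H = ⊥ := disjoint_iff.1 hNH.disjoint
    -- centralizers
    have hc : ∀ h ∈ H, h ≠ 1 → ∀ x ∈ N, x * h = h * x → x ∈ centralizer (H : Set G) := by
      intro h hh hh1 x hx hxh
      have hxN : x ∈ normalizer (H : Set G) := Cfsg.Agent.S4151.ti_mem hTI hh (by
        rw [hxh, mul_inv_cancel_right]; exact hh) hh1
      rw [mem_centralizer_iff]
      intro k hk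
      have h1 : x * k * x⁻¹ ∈ H := (mem_normalizer_iff.1 hxN k).1 hk
      have h2 : x * k * x⁻¹ * k⁻¹ ∈ N ⊓ H := by
        refine mem_inf.2 ⟨?_, mul_mem h1 (inv_mem hk)⟩
        have h3 : x * k * x⁻¹ * k⁻¹ = x * (k * x⁻¹ * k⁻¹) := by group
        rw [h3]
        exact mul_mem hx (hN.conj_mem _ (inv_mem hx) k)
      rw [hdis, mem_bot, mul_inv_eq_one, mul_inv_eq_iff_eq_mul] at h2
      exact h2.symm
    -- invariant Sylow subgroups
    have hinv : ∀ (r : ℕ) [Fact r.Prime], ∃ R : Subgroup G, R ≤ N ∧ IsPGroup r R ∧ H ≤ normalizer (R : Set G) ∧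
        Nat.card R = r ^ (Nat.card N).factorization r := by
      intro r hr
      obtain ⟨R₀⟩ : Nonempty (Sylow r N) := inferInstance
      set R₁ : Subgroup G := (R₀ : Subgroup N).map N.subtype with hR₁
      set M := normalizer (R₁ : Set G) with hM
      have hfr : M ⊔ N = ⊤ := Sylow.normalizer_sup_eq_top R₀
      have hMidx : (N.subgroupOf M).index = Nat.card H := by
        rw [← hidx, ← relIndex_top_right N, ← hfr, relIndex_sup_right M N]
        rfl
      have hMcop : (Nat.card (N.subgroupOf M)).Coprime (N.subgroupOf M).index := by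
        rw [hMidx]
        exact Nat.Coprime.coprime_dvd_left (card_comap_dvd_of_injective N M.subtype (subtype_injective _)) hcop
      obtain ⟨H₁, hH₁⟩ := exists_right_complement'_of_coprime hMcop
      have hH₁c : Nat.card H₁ = Nat.card H := by
        rw [← hMidx]; exact hH₁.symm.index_eq_card.symm
      set H₂ : Subgroup G := H₁.map M.subtype with hH₂
      have hH₂c : Nat.card H₂ = Nat.card H := by
        rw [← hH₁c]
        exact (Nat.card_congr (equivMapOfInjective H₁ _ (subtype_injective _)).toEquiv).symm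
      obtain ⟨g, hg⟩ := Cfsg.Agent.S4116.result H hHallG hTI H₂ (fun q _ hqE => by rwa [hH₂c] at hqE)
      have hgeq : H₂ = H.map (MulAut.conj g).toMonoidHom := by
        apply Subgroup.eq_of_le_of_card_ge hg
        rw [hH₂c]
        exact (Nat.card_congr (equivMapOfInjective H _ (MulAut.conj g).injective).toEquiv).ge
      refine ⟨R₁.map (MulAut.conj g⁻¹).toMonoidHom, ?_, ?_, ?_, ?_⟩
      · rintro _ ⟨x, ⟨x', _, rfl⟩, rfl⟩
        exact hN.conj_mem _ x'.2 g⁻¹
      · exact (R₀.isPGroup'.map _).map _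
      · intro h hh
        have h1 : g * h * g⁻¹ ∈ M := by
          have h2 : g * h * g⁻¹ ∈ H₂ := by
            rw [hgeq]; exact ⟨h, hh, rfl⟩
          obtain ⟨y, _, hy⟩ := h2
          rw [← hy]; exact y.2
        have h3 := mem_normalizer_iff.1 h1
        rw [mem_normalizer_iff]
        have key : ∀ w : G, w ∈ R₁.map (MulAut.conj g⁻¹).toMonoidHom ↔ g * w * g⁻¹ ∈ R₁ := by
          intro w
          constructor
          · rintro ⟨x, hx, rfl⟩
            have : g * (MulAut.conj g⁻¹).toMonoidHom x * g⁻¹ = x := by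
              show g * (g⁻¹ * x * g⁻¹⁻¹) * g⁻¹ = x
              group
            rw [this]; exact hx
          · intro hw
            refine ⟨_, hw, ?_⟩
            show g⁻¹ * (g * w * g⁻¹) * g⁻¹⁻¹ = w
            group
        intro w
        rw [key, key, h3]
        have : g * h * g⁻¹ * (g * w * g⁻¹) * (g * h * g⁻¹)⁻¹ = g * (h * w * h⁻¹) * g⁻¹ := by group
        rw [this]
      · rw [← Sylow.card_eq_multiplicity R₀]
        rw [← Nat.card_congr (equivMapOfInjective R₁ _ (MulAut.conj g⁻¹).injective).toEquiv,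
          ← Nat.card_congr (equivMapOfInjective (R₀ : Subgroup N) _ (subtype_injective _)).toEquiv]
    -- some invariant Sylow subgroup is not centralised
    by_contra hcon
    have hall : ∀ (r : ℕ) [Fact r.Prime], r ∣ Nat.card N → ∃ R : Subgroup G, R ≤ N ∧ R ≤ centralizer (H : Set G) ∧
        Nat.card R = r ^ (Nat.card N).factorization r := by
      intro r hr hrN
      obtain ⟨R, hRN, hRp, hRH, hRc⟩ := hinv r
      refine ⟨R, hRN, ?_, hRc⟩
      by_contra hne
      apply hcon
      refine exists_frobenius H R hRp hRH hHb ?_ ?_ hne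
      · intro hrH
        exact hr.out.one_lt.ne' (Nat.eq_one_of_dvd_coprimes hcop hrN hrH)
      · intro h hh hh1 x hx hxh
        exact hc h hh hh1 x (hRN hx) hxh
    have hNC : N ≤ centralizer (H : Set G) := by
      have h1 : N ⊓ centralizer (H : Set G) = N := by
        apply Subgroup.eq_of_le_of_card_ge inf_le_left
        apply Nat.le_of_dvd Nat.card_pos
        rw [← Nat.factorization_le_iff_dvd Nat.card_pos.ne' Nat.card_pos.ne']
        intro r
        by_cases hr : r.Prime
        · by_cases hrN : r ∣ Nat.card N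
          · haveI := Fact.mk hr
            obtain ⟨R, hRN, hRC, hRc⟩ := hall r hrN
            have h2 : r ^ (Nat.card N).factorization r ∣ Nat.card ↥(N ⊓ centralizer (H : Set G)) := by
              rw [← hRc]
              exact card_dvd_of_le (le_inf hRN hRC)
            exact (hr.pow_dvd_iff_le_factorization Nat.card_pos.ne').1 h2
          · rw [Nat.factorization_eq_zero_of_not_dvd hrN]
            exact Nat.zero_le _
        · rw [Nat.factorization_eq_zero_of_not_prime _ hr]
          exact Nat.zero_le _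
      rw [← h1]; exact inf_le_right
    apply hnn
    rw [← normalizer_eq_top_iff, eq_top_iff, ← hNH.sup_eq_top]
    apply sup_le _ le_normalizer
    intro x hx
    rw [mem_normalizer_iff]
    intro h
    have h1 := mem_centralizer_iff.1 (hNC hx)
    constructor
    · intro hh
      rw [← h1 h hh, mul_inv_cancel_right]; exact hh
    · intro hh
      have h2 := mem_centralizer_iff.1 (hNC (inv_mem hx)) _ hh
      have h3 : x * h * x⁻¹ = h := by
        have h4 : x⁻¹ * (x * h * x⁻¹) = h * x⁻¹ := by group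
        rw [h4] at h2
        exact mul_right_cancel h2
      rwa [h3] at hh

end Cfsg.Agent.S4115
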