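import Cfsg.Statements.S4117
import Cfsg.Agent.Cop.MinAct

set_option autoImplicit false
open Cfsg

namespace Cfsg.Agent.S4117

open Subgroup

variable {G A : Type*} [Group G] [Group A] [MulDistribMulAction A G]

/-- The subgroup `[G, A]`. -/
def NN (G A : Type*) [Group G] [Group A] [MulDistribMulAction A G] : Subgroup G :=
  Subgroup.closure {y : G | ∃ (a : A) (g : G), y = g⁻¹ * a • g}

/-- Elements of order dividing that of `x` in a cyclic group are powers of `x`. -/
theorem mem_zpowers_of_cyclic {P : Type*} [Group P] [Finite P] [IsCyclic P] {x z : P}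
    (h : z ^ orderOf x = 1) : z ∈ zpowers x := by
  classical
  cases nonempty_fintype P
  have h1 := IsCyclic.card_pow_eq_one_le (α := P) (n := orderOf x) (orderOf_pos x)
  have h2 : (zpowers x : Set P).toFinset ⊆ Finset.univ.filter (fun a : P => a ^ orderOf x = 1) := by
    intro y hy
    simp only [Set.mem_toFinset, SetLike.mem_coe] at hy
    obtain ⟨k, rfl⟩ := Subgroup.mem_zpowers_iff.1 hy
    simp only [Finset.mem_filter, Finset.mem_univ, true_and]
    rw [← zpow_natCast, ← zpow_mul, mul_comm, zpow_mul, zpow_natCast, pow_orderOf_eq_one, one_zpow]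
  have h3 : (zpowers x : Set P).toFinset.card = orderOf x := by
    rw [Set.toFinset_card, ← Nat.card_eq_fintype_card]
    exact Nat.card_zpowers x
  have h4 := Finset.eq_of_subset_of_card_le h2 (by rw [h3]; exact h1)
  have h5 : z ∈ (zpowers x : Set P).toFinset := by
    rw [h4]
    simp [h]
  simpa using h5

theorem mem_NN (a : A) (g : G) : g⁻¹ * a • g ∈ NN G A := subset_closure ⟨a, g, rfl⟩

instance NN_normal : (NN G A).Normal := by
  refine ⟨fun n hn h => ?_⟩
  unfold NN at hn
  induction hn using closure_induction with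
  | mem x hx =>
    obtain ⟨a, g, rfl⟩ := hx
    have h1 : (h : G) * (g⁻¹ * a • g) * h⁻¹ = ((g * h⁻¹)⁻¹ * a • (g * h⁻¹)) * (((h⁻¹)⁻¹ * a • h⁻¹))⁻¹ := by
      rw [smul_mul']
      group
    rw [h1]
    exact mul_mem (mem_NN _ _) (inv_mem (mem_NN _ _))
  | one => simp [one_mem]
  | mul x y _ _ hx hy =>
    have : h * (x * y) * h⁻¹ = (h * x * h⁻¹) * (h * y * h⁻¹) := by group
    rw [this]; exact mul_mem hx hy
  | inv x _ hx =>
    have : h * x⁻¹ * h⁻¹ = (h * x * h⁻¹)⁻¹ := by group
    rw [this]; exact inv_mem hx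

/-- The semidirect product. -/
abbrev XX (G A : Type*) [Group G] [Group A] [MulDistribMulAction A G] :=
  G ⋊[MulDistribMulAction.toMulAut A G] A

abbrev KK (G A : Type*) [Group G] [Group A] [MulDistribMulAction A G] : Subgroup (XX G A) :=
  (SemidirectProduct.inl : G →* XX G A).range

abbrev BB (G A : Type*) [Group G] [Group A] [MulDistribMulAction A G] : Subgroup (XX G A) :=
  (SemidirectProduct.inr : A →* XX G A).range

theorem conj_inl (a : A) (g : G) :
    (SemidirectProduct.inr a * SemidirectProduct.inl g * (SemidirectProduct.inr a)⁻¹ : XX G A)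
      = SemidirectProduct.inl (a • g) := by
  have := (SemidirectProduct.inl_aut (φ := MulDistribMulAction.toMulAut A G) a g)
  rw [← map_inv, ← this]
  rfl

theorem normalizes {H : Subgroup G} (hH : ∀ (a : A), ∀ g ∈ H, a • g ∈ H) :
    BB G A ≤ normalizer ((H.map SemidirectProduct.inl : Subgroup (XX G A)) : Set (XX G A)) := by
  have key : ∀ (b : A) (x : XX G A), x ∈ H.map SemidirectProduct.inl →
      SemidirectProduct.inr b * x * (SemidirectProduct.inr b)⁻¹ ∈ H.map (SemidirectProduct.inl : G →* XX G A) := by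
    rintro b _ ⟨g, hg, rfl⟩
    rw [conj_inl]
    exact mem_map_of_mem _ (hH b g hg)
  rintro _ ⟨b, rfl⟩
  rw [mem_normalizer_iff]
  intro x
  refine ⟨fun hx => key b x hx, fun hx => ?_⟩
  have := key b⁻¹ _ hx
  rw [map_inv] at this
  convert this using 1
  group

theorem comm_eq (H : Subgroup G) :
    ⁅H.map (SemidirectProduct.inl : G →* XX G A), BB G A⁆ =
      (closure {y : G | ∃ (a : A) (g : G), g ∈ H ∧ y = g⁻¹ * a • g}).map (SemidirectProduct.inl : G →* XX G A) := by
  rw [Subgroup.commutator_def, MonoidHom.map_closure]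
  congr 1
  ext x
  constructor
  · rintro ⟨_, ⟨g, hg, rfl⟩, _, ⟨a, rfl⟩, rfl⟩
    refine ⟨g * a • g⁻¹, ⟨a, g⁻¹, inv_mem hg, by simp⟩, ?_⟩
    rw [map_mul, ← conj_inl, commutatorElement_def, map_inv]
    group
  · rintro ⟨_, ⟨a, g, hg, rfl⟩, rfl⟩
    refine ⟨_, ⟨g⁻¹, inv_mem hg, rfl⟩, _, ⟨a, rfl⟩, ?_⟩
    rw [map_mul, ← conj_inl, commutatorElement_def, map_inv]
    group

theorem comm_KK : ⁅KK G A, BB G A⁆ = (NN G A).map (SemidirectProduct.inl : G →* XX G A) := by
  have h := comm_eq (G := G) (A := A) ⊤
  rw [← MonoidHom.range_eq_map] at h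
  rw [h]
  congr 2
  simp

theorem mem_cent {g : G} : (SemidirectProduct.inl g : XX G A) ∈ centralizer (BB G A : Set (XX G A)) ↔
    g ∈ MulAction.fixedPoints A G := by
  rw [mem_centralizer_iff, MulAction.mem_fixedPoints]
  constructor
  · intro h a
    have h1 := h _ ⟨a, rfl⟩
    apply SemidirectProduct.inl_injective (φ := MulDistribMulAction.toMulAut A G)
    rw [← conj_inl, h1]
    group
  · rintro h _ ⟨a, rfl⟩
    have h1 := conj_inl a g
    rw [h a] at h1
    rw [← mul_inv_eq_iff_eq_mul]
    exact h1

theorem inl_card (H : Subgroup G) :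
    Nat.card (H.map (SemidirectProduct.inl : G →* XX G A)) = Nat.card H :=
  (Nat.card_congr (H.equivMapOfInjective _ SemidirectProduct.inl_injective).toEquiv).symm

theorem inr_card : Nat.card (BB G A) = Nat.card A :=
  (Nat.card_congr (MonoidHom.ofInjective (f := (SemidirectProduct.inr : A →* XX G A))
    SemidirectProduct.inr_injective).toEquiv).symm

theorem finite_XX [Finite G] [Finite A] : Finite (XX G A) :=
  Finite.of_equiv _ SemidirectProduct.equivProd.symm

section Main

variable [Finite G] [Finite A] [IsZGroup G] (hcop : (Nat.card A).Coprime (Nat.card G))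

theorem kk_map : KK G A = (⊤ : Subgroup G).map SemidirectProduct.inl := MonoidHom.range_eq_map _

include hcop in
theorem factor (g : G) : ∃ n ∈ NN G A, ∃ f ∈ MulAction.fixedPoints A G, g = n * f := by
  haveI := finite_XX (G := G) (A := A)
  have hBK : BB G A ≤ normalizer (KK G A : Set (XX G A)) := by
    rw [kk_map]; exact normalizes (fun _ _ _ => mem_top _)
  have hc : (Nat.card (BB G A)).Coprime (Nat.card (KK G A)) := by
    rw [inr_card, kk_map, inl_card, Subgroup.card_top]; exact hcop
  have hs : Group.IsSolvable (KK G A) := by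
    have : Group.IsSolvable G := inferInstance
    exact solvable_of_surjective (f := (SemidirectProduct.inl : G →* XX G A).rangeRestrict)
      (MonoidHom.rangeRestrict_surjective _)
  obtain ⟨u, hu, c, hc, he⟩ := Cop.exists_eq_mul_of_mem hBK hc (Or.inr hs) (k := SemidirectProduct.inl g) ⟨g, rfl⟩
  rw [comm_KK] at hu
  obtain ⟨n, hn, rfl⟩ := hu
  obtain ⟨⟨f, rfl⟩, hc2⟩ := hc
  refine ⟨n, hn, f, mem_cent.1 hc2, ?_⟩
  rw [← map_mul] at he
  exact SemidirectProduct.inl_injective he

/-- The centralizer of the derived subgroup. -/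
def CC (G : Type*) [Group G] : Subgroup G := centralizer (commutator G : Set G)

theorem NN_le_CC : NN G A ≤ CC G := by
  unfold NN
  rw [closure_le]
  rintro _ ⟨a, g, rfl⟩
  show g⁻¹ * a • g ∈ centralizer (commutator G : Set G)
  rw [mem_centralizer_iff]
  intro z hz
  have hcy : IsCyclic (commutator G) := IsZGroup.isCyclic_commutator G
  obtain ⟨m, hm⟩ := MonoidHom.map_cyclic ((MulAut.conjNormal (H := commutator G) g).toMonoidHom)
  have hm' : ∀ y ∈ commutator G, g * y * g⁻¹ = y ^ m := by
    intro y hy
    have := congrArg (fun t : commutator G => (t : G)) (hm ⟨y, hy⟩)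
    simpa using this
  have ha : ∀ (b : A) (y : G), y ∈ commutator G → b • y ∈ commutator G := by
    intro b y hy
    have h1 : (commutator G).map (MulDistribMulAction.toMulAut A G b).toMonoidHom ≤ commutator G := by
      rw [_root_.commutator_def, map_commutator]
      exact commutator_mono le_top le_top
    exact h1 ⟨y, hy, rfl⟩
  have h2 : (a • g) * z * (a • g)⁻¹ = z ^ m := by
    have h3 := hm' (a⁻¹ • z) (ha _ _ hz)
    have h4 := congrArg (fun t => a • t) h3
    simp only [smul_mul', smul_inv_smul, smul_zpow', smul_inv'] at h4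
    exact h4
  have h5 := hm' z hz
  rw [← h2] at h5
  have h6 : z = g⁻¹ * (a • g) * z * ((a • g)⁻¹ * g) := by
    calc z = g⁻¹ * (g * z * g⁻¹) * g := by group
      _ = _ := by rw [h5]; group
  calc z * (g⁻¹ * a • g) = (g⁻¹ * (a • g) * z * ((a • g)⁻¹ * g)) * (g⁻¹ * a • g) := by rw [← h6]
    _ = g⁻¹ * a • g * z := by group

theorem CC_comm : IsMulCommutative (CC G) := by
  have h1 : ∀ a b : CC G, a * b = b * a := by
    apply commutative_of_cyclic_center_quotient (Abelianization.of.comp (CC G).subtype)
    intro x hx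
    rw [MonoidHom.mem_ker] at hx
    have h2 : (x : G) ∈ commutator G := by
      rw [← Abelianization.ker_of]
      exact hx
    rw [mem_center_iff]
    intro y
    apply Subtype.ext
    exact (mem_centralizer_iff.1 y.2 x h2).symm
  exact ⟨⟨h1⟩⟩

theorem CC_cyclic : IsCyclic (CC G) := by
  haveI := CC_comm (G := G)
  letI : CommGroup (CC G) := { (inferInstance : Group (CC G)) with mul_comm := fun a b => this.is_comm.comm a b }
  have : IsZGroup (CC G) := inferInstance
  have h2 : Group.IsNilpotent (CC G) := inferInstance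
  infer_instance

theorem NN_cyclic : IsCyclic (NN G A) := by
  haveI := CC_cyclic (G := G)
  exact isCyclic_of_injective (Subgroup.inclusion (NN_le_CC (G := G) (A := A))) (Subgroup.inclusion_injective _)

include hcop in
theorem inf_eq {g : G} (hg : g ∈ NN G A) (hf : g ∈ MulAction.fixedPoints A G) : g = 1 := by
  haveI := finite_XX (G := G) (A := A)
  have hBK : BB G A ≤ normalizer (KK G A : Set (XX G A)) := by
    rw [kk_map]; exact normalizes (fun _ _ _ => mem_top _)
  have hc : (Nat.card (BB G A)).Coprime (Nat.card (KK G A)) := by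
    rw [inr_card, kk_map, inl_card, Subgroup.card_top]; exact hcop
  have hs : Group.IsSolvable (KK G A) := by
    have : Group.IsSolvable G := inferInstance
    exact solvable_of_surjective (f := (SemidirectProduct.inl : G →* XX G A).rangeRestrict)
      (MonoidHom.rangeRestrict_surjective _)
  have h1 := Cop.commutator_commutator_eq hBK hc (Or.inr hs)
  have hinv : ∀ (a : A), ∀ g ∈ CC G, a • g ∈ CC G := by
    have ha : ∀ (b : A) (y : G), y ∈ commutator G → b • y ∈ commutator G := by
      intro b y hy
      have h1 : (commutator G).map (MulDistribMulAction.toMulAut A G b).toMonoidHom ≤ commutator G := by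
        rw [_root_.commutator_def, map_commutator]
        exact commutator_mono le_top le_top
      exact h1 ⟨y, hy, rfl⟩
    intro a g hg
    show a • g ∈ centralizer (commutator G : Set G)
    rw [mem_centralizer_iff]
    intro z hz
    have h2 := mem_centralizer_iff.1 hg (a⁻¹ • z) (ha _ _ hz)
    have h4 := congrArg (fun t => a • t) h2
    simpa only [smul_mul', smul_inv_smul] using h4
  haveI := CC_comm (G := G)
  haveI : IsMulCommutative ((CC G).map (SemidirectProduct.inl : G →* XX G A)) := by
    refine ⟨⟨?_⟩⟩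
    rintro ⟨_, x, hx, rfl⟩ ⟨_, y, hy, rfl⟩
    apply Subtype.ext
    show SemidirectProduct.inl x * SemidirectProduct.inl y = SemidirectProduct.inl y * SemidirectProduct.inl x
    rw [← map_mul, ← map_mul]
    congr 1
    exact congrArg Subtype.val (this.is_comm.comm ⟨x, hx⟩ ⟨y, hy⟩)
  have h3 := (H91.abelian_decomp (BB G A) ((CC G).map (SemidirectProduct.inl : G →* XX G A)) (normalizes hinv) (by
    rw [inr_card, inl_card]
    exact hcop.coprime_dvd_right (Subgroup.card_subgroup_dvd_card _))).1
  have h4 : (SemidirectProduct.inl g : XX G A) ∈ ((CC G).map (SemidirectProduct.inl : G →* XX G A) ⊓ centralizer (BB G A : Set (XX G A))) ⊓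
      ⁅(CC G).map (SemidirectProduct.inl : G →* XX G A), BB G A⁆ := by
    refine ⟨⟨⟨g, NN_le_CC hg, rfl⟩, mem_cent.2 hf⟩, ?_⟩
    have h5 : ⁅KK G A, BB G A⁆ ≤ ⁅(CC G).map (SemidirectProduct.inl : G →* XX G A), BB G A⁆ := by
      rw [← h1]
      refine commutator_mono ?_ le_rfl
      rw [comm_KK]
      exact map_mono NN_le_CC
    apply h5
    rw [comm_KK]
    exact ⟨g, hg, rfl⟩
  rw [h3, mem_bot] at h4
  exact SemidirectProduct.inl_injective (h4.trans (map_one _).symm)

end Main

/-- Let A be a finite group acting on the finite group G by automorphisms with the orders of A and G coprime, and suppose every Sylow subgroup of G is cyclic. Then the fixed-point subgroup C_G(A) is a Hall subgroup of G (its order is coprime to its index), the subgroup [G, A] generated by the elements g⁻¹·a(g) is cyclic and normal with [G, A] ∩ C_G(A) = 1 and [G, A]·C_G(A) = G. -/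
theorem result {G A : Type*} [Group G] [Finite G] [Group A] [Finite A]
    [MulDistribMulAction A G] (hcop : (Nat.card A).Coprime (Nat.card G))
    (hcyc : ∀ (p : ℕ) [Fact p.Prime] (P : Sylow p G), IsCyclic (P : Subgroup G)) :
    (Nat.card (MulAction.fixedPoints A G : Set G)).Coprime (Nat.card G / Nat.card (MulAction.fixedPoints A G : Set G)) ∧
    IsCyclic (Subgroup.closure {y : G | ∃ (a : A) (g : G), y = g⁻¹ * a • g}) ∧
    (Subgroup.closure {y : G | ∃ (a : A) (g : G), y = g⁻¹ * a • g}).Normal ∧
    (Subgroup.closure {y : G | ∃ (a : A) (g : G), y = g⁻¹ * a • g} : Set G) ∩ MulAction.fixedPoints A G = {1} ∧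
    Subgroup.closure {y : G | ∃ (a : A) (g : G), y = g⁻¹ * a • g} ⊔ Subgroup.closure (MulAction.fixedPoints A G) = ⊤ := by

  haveI hZ : IsZGroup G := ⟨fun p hp P => by haveI := Fact.mk hp; exact hcyc p P⟩
  have hNF : ∀ g : G, g ∈ NN G A → g ∈ MulAction.fixedPoints A G → g = 1 := fun g => inf_eq hcop
  have hfix : ((FixedPoints.subgroup A G : Subgroup G) : Set G) = MulAction.fixedPoints A G := rfl
  have hcompl : IsComplement' (NN G A) (FixedPoints.subgroup A G) := by
    apply Subgroup.isComplement'_of_disjoint_and_mul_eq_univ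
    · rw [disjoint_iff, eq_bot_iff]
      rintro g ⟨hg, hg'⟩
      exact hNF g hg hg'
    · rw [Set.eq_univ_iff_forall]
      intro g
      obtain ⟨n, hn, f, hf, rfl⟩ := factor hcop g
      exact Set.mul_mem_mul hn hf
  have hcard := hcompl.card_mul
  refine ⟨?_, NN_cyclic, NN_normal, ?_, ?_⟩
  · have h1 : Nat.card (MulAction.fixedPoints A G : Set G) = Nat.card (FixedPoints.subgroup A G) := rfl
    rw [h1, ← hcard, Nat.mul_div_cancel _ Nat.card_pos]
    by_contra hne
    obtain ⟨p, hp, hpF, hpN⟩ := Nat.Prime.not_coprime_iff_dvd.1 hne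
    haveI := Fact.mk hp
    obtain ⟨x, hx⟩ := exists_prime_orderOf_dvd_card' p hpF
    obtain ⟨z, hz⟩ := exists_prime_orderOf_dvd_card' p hpN
    have hx' : orderOf (x : G) = p := by rw [Subgroup.orderOf_coe]; exact hx
    have hz' : orderOf (z : G) = p := by rw [Subgroup.orderOf_coe]; exact hz
    have hxp : IsPGroup p (zpowers (x : G)) := IsPGroup.of_card (n := 1) (by rw [Nat.card_zpowers, hx', pow_one])
    have hzp : IsPGroup p (zpowers (z : G)) := IsPGroup.of_card (n := 1) (by rw [Nat.card_zpowers, hz', pow_one])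
    obtain ⟨P, hP⟩ := hxp.exists_le_sylow
    obtain ⟨Q, hQ⟩ := hzp.exists_le_sylow
    obtain ⟨g, hg⟩ := MulAction.exists_smul_eq G Q P
    have hzP : g * z * g⁻¹ ∈ (P : Subgroup G) := by
      rw [← hg]
      exact ⟨z, hQ (mem_zpowers _), rfl⟩
    haveI := hcyc p P
    have h2 : (⟨g * z * g⁻¹, hzP⟩ : (P : Subgroup G)) ∈ zpowers (⟨(x : G), hP (mem_zpowers _)⟩ : (P : Subgroup G)) := by
      apply mem_zpowers_of_cyclic
      rw [Subgroup.orderOf_mk, hx']
      apply Subtype.ext
      show (g * z * g⁻¹) ^ p = 1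
      rw [conj_pow, ← hz', pow_orderOf_eq_one]
      group
    obtain ⟨k, hk⟩ := mem_zpowers_iff.1 h2
    have hk' : (x : G) ^ k = g * z * g⁻¹ := congrArg Subtype.val hk
    have h3 : g * z * g⁻¹ = 1 := by
      apply hNF
      · exact NN_normal.conj_mem _ z.2 g
      · rw [← hk']
        exact (FixedPoints.subgroup A G).zpow_mem x.2 k
    have h4 : (z : G) = 1 := by simpa using h3
    rw [h4, orderOf_one] at hz'
    exact hp.one_lt.ne hz'
  · apply Set.eq_of_subset_of_subset
    · rintro g ⟨hg, hg'⟩
      exact hNF g hg hg'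
    · rintro g rfl
      refine ⟨one_mem _, fun a => smul_one a⟩
  · rw [← hfix, closure_eq]
    exact hcompl.sup_eq_top

end Cfsg.Agent.S4117
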