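import Cfsg.Statements.S4118
import Cfsg.Agent.H32.TIHall

set_option autoImplicit false
open Cfsg

namespace Cfsg.Agent.S4118

open Subgroup in
theorem card_sup_dvd {G : Type*} [Group G] [Finite G] (O R : Subgroup G) [O.Normal] {n : ℕ}
    (h1 : (Nat.card O).Coprime n) (h2 : (Nat.card R).Coprime n) : (Nat.card (O ⊔ R : Subgroup G)).Coprime n := by
  have h3 : Nat.card (O ⊔ R : Subgroup G) = Nat.card O * O.relIndex R := by
    rw [← relIndex_sup_left (H := R) (K := O), ← relIndex_bot_left (O ⊔ R), ← relIndex_bot_left O,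
      relIndex_mul_relIndex _ _ _ bot_le le_sup_left]
  rw [h3]
  refine Nat.Coprime.mul_left h1 ?_
  exact Nat.Coprime.coprime_dvd_left (relIndex_dvd_card _ _) h2

/-- Let G be a finite group and H a non-normal subgroup meeting each of its conjugates by elements outside N_G(H) trivially, with the order of H coprime to its index in N_G(H); let π be the set of primes dividing the order of H and suppose G is π-separable (it has a chain of normal subgroups from 1 to G each of whose factors has order divisible only by primes in π or coprime to the order of H). Let O be the largest normal subgroup of G of order coprime to the order of H. Then G = O·N_G(H), O·H is normal in G, and G is solvable if and only if O is solvable and H has no subgroup isomorphic to SL₂(5). -/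
theorem result {G : Type*} [Group G] [Finite G] (H : Subgroup G)
    (hTI : Cfsg.IsTISubset (H : Set G)) (hnn : ¬ H.Normal)
    (hHall : (Nat.card H).Coprime (H.subgroupOf (Subgroup.normalizer (H : Set G))).index)
    (hsep : ∃ (n : ℕ) (M : Fin (n + 1) → Subgroup G), M 0 = ⊥ ∧ M (Fin.last n) = ⊤ ∧ Monotone M ∧ (∀ i, (M i).Normal) ∧
      ∀ i : Fin n, (∀ q : ℕ, q.Prime → q ∣ (M i.castSucc).relIndex (M i.succ) → q ∣ Nat.card H) ∨
        ((M i.castSucc).relIndex (M i.succ)).Coprime (Nat.card H))
    (O : Subgroup G) (hO : O = sSup {K : Subgroup G | K.Normal ∧ (Nat.card K).Coprime (Nat.card H)}) :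
    O ⊔ Subgroup.normalizer (H : Set G) = ⊤ ∧ (O ⊔ H).Normal ∧
    (Group.IsSolvable G ↔ Group.IsSolvable O ∧
      ∀ K : Subgroup G, K ≤ H → ¬ Nonempty (K ≃* Matrix.SpecialLinearGroup (Fin 2) (ZMod 5))) := by
  have hO1 := Cfsg.Agent.Solv.coprime_card_sSup (Nat.card H)
    {K : Subgroup G | K.Normal ∧ (Nat.card K).Coprime (Nat.card H)} (fun N hN => hN)
  rw [← hO] at hO1
  obtain ⟨hOn, hOc⟩ := hO1
  have hmax : ∀ K : Subgroup G, K.Normal → (Nat.card K).Coprime (Nat.card H) → K ≤ O := by
    intro K h1 h2
    rw [hO]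
    exact le_sSup ⟨h1, h2⟩
  have hH := H32.TIHall.hall hTI hHall
  have hne : H ≠ ⊥ := by
    rintro rfl
    exact hnn inferInstance
  -- the first assertion
  have h1 : O ⊔ Subgroup.normalizer (H : Set G) = ⊤ := by
    obtain ⟨n, M, hM0, hMn, hmono, hMnor, hfac⟩ := hsep
    have hex : ∃ i : ℕ, ∃ hi : i < n + 1, ¬ (Nat.card (M ⟨i, hi⟩)).Coprime (Nat.card H) := by
      refine ⟨n, Nat.lt_succ_self n, ?_⟩
      have : M ⟨n, Nat.lt_succ_self n⟩ = ⊤ := hMn
      rw [this, Subgroup.card_top]
      intro h
      have h2 := Nat.Coprime.eq_one_of_dvd h.symm (Subgroup.card_subgroup_dvd_card H)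
      exact hne (Subgroup.card_eq_one.mp h2)
    classical
    obtain ⟨hi, hik⟩ := Nat.find_spec hex
    set i := Nat.find hex with hidef
    have hi0 : i ≠ 0 := by
      intro h0
      apply hik
      have : M ⟨i, hi⟩ = ⊥ := by
        rw [← hM0]; congr 1; exact Fin.ext h0
      rw [this, Subgroup.card_bot]
      exact Nat.coprime_one_left _
    obtain ⟨j, hj⟩ := Nat.exists_eq_succ_of_ne_zero hi0
    have hjn : j < n := by omega
    have hjc : (Nat.card (M ⟨j, by omega⟩)).Coprime (Nat.card H) := by
      by_contra hcon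
      exact Nat.find_min hex (m := j) (by omega) ⟨by omega, hcon⟩
    have hA : M (⟨j, hjn⟩ : Fin n).castSucc = M ⟨j, by omega⟩ := rfl
    have hB : M (⟨j, hjn⟩ : Fin n).succ = M ⟨i, hi⟩ := by
      congr 1; exact Fin.ext hj.symm
    haveI hn1 : (M ⟨j, by omega⟩).Normal := hMnor _
    haveI hn2 : (M ⟨i, hi⟩).Normal := hMnor _
    have hle : M ⟨j, by omega⟩ ≤ M ⟨i, hi⟩ := hmono (by
      rw [Fin.le_def]; show j ≤ i; omega)
    have hpi : ∀ q : ℕ, q.Prime → q ∣ (M ⟨j, by omega⟩).relIndex (M ⟨i, hi⟩) → q ∣ Nat.card H := by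
      rcases hfac ⟨j, hjn⟩ with h | h
      · rw [hA, hB] at h; exact h
      · exfalso
        rw [hA, hB] at h
        apply hik
        have h3 : Nat.card (M ⟨i, hi⟩) = Nat.card (M ⟨j, by omega⟩) * (M ⟨j, by omega⟩).relIndex (M ⟨i, hi⟩) := by
          rw [← Subgroup.relIndex_bot_left, ← Subgroup.relIndex_bot_left,
            Subgroup.relIndex_mul_relIndex _ _ _ bot_le hle]
        rw [h3]
        exact Nat.Coprime.mul_left hjc h
    have := H32.TIHall.sup_norm_eq_top hTI hH hle hpi hik
    rw [eq_top_iff, ← this]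
    exact sup_le_sup_right (hmax _ (hMnor _) hjc) _
  have h2 : (O ⊔ H).Normal := H32.TIHall.sup_normal h1
  refine ⟨h1, h2, ?_, ?_⟩
  · intro hs
    refine ⟨inferInstance, ?_⟩
    rintro K - ⟨e⟩
    exact FC.sl5_not_solvable (Group.isSolvable_of_isSolvable_injective (f := e.symm.toMonoidHom) e.symm.injective)
  · rintro ⟨hOs, hK⟩
    have hcen : ¬ O ≤ Subgroup.centralizer (H : Set G) := by
      intro hcon
      apply hnn
      have h3 : Subgroup.normalizer (H : Set G) = ⊤ := by
        rw [eq_top_iff, ← h1, sup_le_iff]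
        exact ⟨hcon.trans (Subgroup.centralizer_le_normalizer _), le_rfl⟩
      exact Subgroup.normalizer_eq_top_iff.mp h3
    have hF := H32.TIHall.exists_fpf hTI hOc hOs hcen
    have hHs : Group.IsSolvable H := by
      by_contra hns
      obtain ⟨e⟩ := FC.K3_iso_of_not_solvable hF hns
      refine hK ((FC.K3 H).map H.subtype) (Subgroup.map_subtype_le _) ⟨?_⟩
      exact ((FC.K3 H).equivMapOfInjective _ H.subtype_injective).symm.trans e
    have hN := H32.TIHall.normalizer_solvable hH hHs hF (by
      intro R hR hRc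
      have hle : R ≤ O := by
        have h3 : (O ⊔ R).Normal := by
          rw [← Subgroup.normalizer_eq_top_iff, eq_top_iff, ← h1, sup_le_iff]
          constructor
          · exact le_sup_left.trans Subgroup.le_normalizer
          · intro g hg
            have h4 := Subgroup.mem_normalizer_iff_map_conj_eq.mp (hR hg)
            have h5 : O.map (MulAut.conj g).toMonoidHom = O :=
              Subgroup.mem_normalizer_iff_map_conj_eq.mp (by
                rw [Subgroup.normalizer_eq_top]; exact Subgroup.mem_top g)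
            apply Subgroup.mem_normalizer_iff_map_conj_eq.mpr
            rw [Subgroup.map_sup]
            exact congrArg₂ _ h5 h4
        exact le_sup_right.trans (hmax _ h3 (card_sup_dvd O R hOc hRc))
      exact Group.isSolvable_of_isSolvable_injective (Subgroup.inclusion_injective hle))
    refine FC.solvable_ext O hOs ?_
    let f : Subgroup.normalizer (H : Set G) →* G ⧸ O := (QuotientGroup.mk' O).comp (Subgroup.subtype _)
    refine Group.isSolvable_of_surjective (f := f) ?_
    intro y
    obtain ⟨g, rfl⟩ := QuotientGroup.mk_surjective y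
    have hg : g ∈ O ⊔ Subgroup.normalizer (H : Set G) := by rw [h1]; exact Subgroup.mem_top g
    obtain ⟨o, ho, m, hm, rfl⟩ := Subgroup.mem_sup_of_normal_left.mp hg
    refine ⟨⟨m, hm⟩, ?_⟩
    show ((m : G) : G ⧸ O) = ((o * m : G) : G ⧸ O)
    rw [QuotientGroup.mk_mul, (QuotientGroup.eq_one_iff o).mpr ho, one_mul]

end Cfsg.Agent.S4118
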