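import Cfsg.Statements.S4127
import Cfsg.Agent.H69.DirectP
import Cfsg.Agent.H69.CoprimeIndex
import Cfsg.Agent.Cop.Basic

set_option autoImplicit false
set_option linter.style.haveILetI false
set_option linter.unusedSectionVars false
open Cfsg

namespace Cfsg.Agent.S4127

open Subgroup Cfsg.Agent.H69

/-- Let G be a finite group, p a prime and p^a the largest power of p dividing the size of any conjugacy class of G. If some element of p-power order has a conjugacy class of size exactly p^a, then G has a normal p-complement. -/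
theorem result {G : Type*} [Group G] [Finite G] (p : ℕ) [Fact p.Prime]
    (a : ℕ) (hmax : ∀ y : G, ¬ p ^ (a + 1) ∣ (Subgroup.centralizer ({y} : Set G)).index)
    (hx : ∃ x : G, (∃ k : ℕ, orderOf x = p ^ k) ∧ (Subgroup.centralizer ({x} : Set G)).index = p ^ a) :
    Cfsg.HasNormalPComplement p G := by
  have hp : p.Prime := Fact.out
  obtain ⟨x, ⟨k, hk⟩, hxa⟩ := hx
  set C : Subgroup G := centralizer ({x} : Set G) with hC
  have hxC : x ∈ C := mem_cent_singleton.mpr rfl
  -- p'-elements of C centralize Sylow subgroups of C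
  have hall : ∀ y : C, (orderOf y).Coprime p → ¬ p ∣ (centralizer ({y} : Set C)).index := by
    intro y hy hdvd
    have hxy : Commute x (y : G) := mem_cent_singleton.mp y.2
    have hco : (orderOf x).Coprime (orderOf (y : G)) := by
      rw [hk, Subgroup.orderOf_coe]; exact Nat.Coprime.pow_left k hy.symm
    have h1 := cent_mul_eq_inf hxy hco
    have h2 : (centralizer ({(y : G)} : Set G)).subgroupOf C = centralizer ({y} : Set C) := by
      ext z
      rw [mem_subgroupOf, mem_cent_singleton, mem_cent_singleton]
      exact ⟨fun h => Subtype.ext h, fun h => congrArg Subtype.val h⟩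
    have h3 : (centralizer ({x * (y : G)} : Set G)).index =
        (centralizer ({y} : Set C)).index * p ^ a := by
      rw [h1, ← h2, ← hxa, inf_comm]
      rw [← relIndex_mul_index (inf_le_right : centralizer ({(y : G)} : Set G) ⊓ C ≤ C),
        inf_relIndex_right]
      rfl
    apply hmax (x * y)
    rw [h3, pow_succ, mul_comm]
    exact Nat.mul_dvd_mul_right hdvd _
  have hCnpc := hasNPC_of_forall hall
  obtain ⟨PC⟩ : Nonempty (Sylow p C) := inferInstance
  have hPCn := sylow_normal_of_forall hall PC
  -- Sylow of G containing x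
  obtain ⟨P, hPx⟩ : ∃ P : Sylow p G, x ∈ (P : Subgroup G) := by
    have : IsPGroup p (zpowers x) := IsPGroup.of_card (n := k) (by rw [Nat.card_zpowers, hk])
    obtain ⟨P, hP⟩ := this.exists_le_sylow
    exact ⟨P, hP (mem_zpowers x)⟩
  set V : Subgroup G := normalClosure {x} with hV
  have hVP : V ≤ (P : Subgroup G) := by
    rw [hV, normalClosure, closure_le]
    intro z hz
    rw [Group.mem_conjugatesOfSet_iff] at hz
    obtain ⟨w, hw, hwz⟩ := hz
    rw [Set.mem_singleton_iff] at hw
    subst hw
    obtain ⟨g, hg⟩ := isConj_iff.mp hwz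
    rw [← hg]
    obtain ⟨u, hu, huc⟩ := exists_mul_of_coprime_index (A := C) (B := (P : Subgroup G)) (by
      rw [hxa]
      exact Nat.Coprime.pow_left a ((Nat.Prime.coprime_iff_not_dvd hp).mpr P.not_dvd_index)) g
    have hc := mem_cent_singleton.mp huc
    have e : g * w * g⁻¹ = u * w * u⁻¹ := by
      calc g * w * g⁻¹ = u * ((u⁻¹ * g) * w) * g⁻¹ := by group
        _ = u * (w * (u⁻¹ * g)) * g⁻¹ := by rw [hc]
        _ = u * w * u⁻¹ := by group
    rw [e]
    exact mul_mem (mul_mem hu hPx) (inv_mem hu)
  have hVp : IsPGroup p V := P.2.to_le hVP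
  have hxV : x ∈ V := subset_normalClosure rfl
  -- H
  set H : Subgroup G := (Cfsg.pResidual p C).map C.subtype with hH
  have hHC : H ≤ C := map_subtype_le _
  have hHcard : (Nat.card H).Coprime p := by
    rw [hH, Cop.card_map_subtype]
    exact Transfer.hasNPC_iff_card_pResidual.mp hCnpc
  have hmemH : ∀ y ∈ C, (orderOf y).Coprime p → y ∈ H := by
    intro y hy hyp
    exact ⟨⟨y, hy⟩, Transfer.mem_pResidual_of_coprime (by rwa [Subgroup.orderOf_mk]), rfl⟩
  have hHp : ∀ y ∈ H, (orderOf y).Coprime p := fun y hy =>
    Transfer.coprime_orderOf_of_coprime_card hHcard hy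
  -- V ∩ C is in PC
  have hVC : V.subgroupOf C ≤ (PC : Subgroup C) := by
    have h1 : IsPGroup p (V.subgroupOf C) := hVp.comap_of_injective C.subtype C.subtype_injective
    obtain ⟨R, hR⟩ := h1.exists_le_sylow
    haveI := Sylow.unique_of_normal PC hPCn
    rwa [Subsingleton.elim R PC] at hR
  have hHV : H ≤ centralizer (V : Set G) := by
    refine Cop.le_centralizer_of_AxB p (P := zpowers x) (Q := H) (U := V)
      (IsPGroup.of_card (n := k) (by rw [Nat.card_zpowers, hk])) hHcard hVp ?_ ?_ ?_ ?_
    · rw [zpowers_le, mem_centralizer_iff]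
      intro h hh
      exact (mem_cent_singleton.mp (hHC hh)).symm
    · rw [normalizer_eq_top]; exact le_top
    · rw [normalizer_eq_top]; exact le_top
    · intro v hv
      have hvC : v ∈ C := mem_cent_singleton.mpr (mem_centralizer_iff.mp hv.2 x (mem_zpowers x))
      have h2 : (⟨v, hvC⟩ : C) ∈ (PC : Subgroup C) := hVC (mem_subgroupOf.mpr hv.1)
      rw [mem_centralizer_iff]
      intro h hh
      have h3 := mem_centralizer_sylow_of_forall hall PC (y := ⟨h, hHC hh⟩)
        (by rw [Subgroup.orderOf_mk]; exact hHp h hh)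
      exact (congrArg Subtype.val (mem_centralizer_iff.mp h3 _ h2)).symm
  have hVCx : centralizer (V : Set G) ≤ C := centralizer_le (by
    intro w hw; rw [Set.mem_singleton_iff] at hw; rw [hw]; exact hxV)
  have hHn : H.Normal := by
    constructor
    intro h hh g
    have h1 : g * h * g⁻¹ ∈ centralizer (V : Set G) := Normal.conj_mem inferInstance h (hHV hh) g
    refine hmemH _ (hVCx h1) ?_
    have : orderOf (g * h * g⁻¹) = orderOf h := (MulAut.conj g).orderOf_eq h
    rw [this]
    exact hHp h hh
  obtain ⟨l, hl⟩ := Transfer.index_pResidual_eq_pow (p := p) (G := C)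
  refine Transfer.hasNPC_of_normal hHn hHcard (k := l + a) ?_
  rw [hH, index_map_subtype, hl, hxa, pow_add]

end Cfsg.Agent.S4127
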