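import Cfsg.Statements.S4134
import Cfsg.Agent.H69.DirectP
import Cfsg.Agent.Frob.Action
import Cfsg.Agent.Cop.Basic
import Cfsg.Agent.H48.Basic
import Cfsg.Agent.H47.Basic
import Cfsg.Agent.Transfer.Frobenius

set_option autoImplicit false
set_option linter.style.haveILetI false
set_option linter.unusedSectionVars false
open Cfsg

namespace Cfsg.Agent.S4134

open Subgroup Cfsg.Agent.H69

/-- second part -/
theorem second {P : Type*} [Group P] [Finite P] {p : ℕ} [Fact p.Prime] (hP : IsPGroup p P)
    (hE : ∀ x y : P, y ∉ center P → centralizer ({x} : Set P) ≤ centralizer ({y} : Set P) →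
      centralizer ({y} : Set P) ≤ centralizer ({x} : Set P)) :
    ∃ A : Subgroup P, A.Normal ∧ IsMulCommutative A ∧ ∀ y : P, y ^ p ∈ A := by
  by_cases hS : ∀ y : P, y ^ p ∈ center P
  · exact ⟨center P, inferInstance, inferInstance, hS⟩
  · push Not at hS
    obtain ⟨s0, hs0⟩ := hS
    -- an element of the second centre
    obtain ⟨u, hu1, hu2, hu3⟩ : ∃ u : P, u ∉ center P ∧ u ^ p ∈ center P ∧
        ∀ g : P, u * g * u⁻¹ * g⁻¹ ∈ center P := by
      haveI : Nontrivial (P ⧸ center P) := by
        refine ⟨QuotientGroup.mk s0, 1, fun h => ?_⟩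
        rw [QuotientGroup.eq_one_iff] at h
        exact hs0 (pow_mem h p)
      have hQ : IsPGroup p (P ⧸ center P) := hP.to_quotient _
      have hne : (⊤ : Subgroup (P ⧸ center P)) ≠ ⊥ := top_ne_bot
      obtain ⟨z, -, hz1, hz2⟩ := H48.exists_central_orderOf_eq (hQ.to_subgroup ⊤) hne
      obtain ⟨u, rfl⟩ := QuotientGroup.mk_surjective z
      refine ⟨u, ?_, ?_, ?_⟩
      · intro h
        rw [(QuotientGroup.eq_one_iff u).mpr h, orderOf_one] at hz1
        exact (Fact.out : p.Prime).one_lt.ne hz1
      · rw [← QuotientGroup.eq_one_iff, QuotientGroup.mk_pow, ← hz1, pow_orderOf_eq_one]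
      · intro g
        have := hz2 (QuotientGroup.mk g) (mem_top _)
        rw [← QuotientGroup.eq_one_iff]
        rw [QuotientGroup.mk_mul, QuotientGroup.mk_mul, QuotientGroup.mk_mul, QuotientGroup.mk_inv,
          QuotientGroup.mk_inv, ← this]
        group
    have key : ∀ s : P, s ^ p ∉ center P → centralizer ({s} : Set P) = centralizer ({u} : Set P) := by
      intro s hs
      have e1 : centralizer ({s ^ p} : Set P) = centralizer ({s} : Set P) :=
        le_antisymm (hE s (s ^ p) hs (cent_pow_le s p)) (cent_pow_le s p)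
      set c := u * s * u⁻¹ * s⁻¹ with hc
      have hcZ : c ∈ center P := hu3 s
      have hcc : ∀ g : P, Commute c g := fun g => (mem_center_iff.mp hcZ g).symm
      have f1 : u * s * u⁻¹ = c * s := by rw [hc]; group
      have f2 : u * s ^ p * u⁻¹ = c ^ p * s ^ p := by
        rw [← conj_pow, f1, (hcc s).mul_pow]
      have f3 : s * u⁻¹ * s⁻¹ = u⁻¹ * c := by rw [hc]; group
      have f4 : c ^ p = 1 := by
        have f5 : s * (u⁻¹) ^ p * s⁻¹ = (u⁻¹) ^ p * c ^ p := by
          rw [← conj_pow, f3, ((hcc u⁻¹).symm).mul_pow]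
        have f6 : s * (u⁻¹) ^ p * s⁻¹ = (u⁻¹) ^ p := by
          have : (u⁻¹) ^ p ∈ center P := by rw [inv_pow]; exact inv_mem hu2
          rw [mem_center_iff.mp this s]; group
        rw [f6] at f5
        exact (mul_left_cancel (a := (u⁻¹) ^ p) (by rw [mul_one]; exact f5)).symm
      have hus : u ∈ centralizer ({s} : Set P) := by
        rw [← e1, mem_cent_singleton]
        rw [f4, one_mul, mul_inv_eq_iff_eq_mul] at f2
        exact f2.symm
      have hsu : Commute s u := mem_cent_singleton.mp hus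
      have g1 : (s * u) ^ p = s ^ p * u ^ p := hsu.mul_pow p
      have hcen : ∀ {z t : P}, z ∈ center P → centralizer ({t * z} : Set P) = centralizer ({t} : Set P) := by
        intro z t hz
        ext w
        rw [mem_cent_singleton, mem_cent_singleton]
        have hzw := mem_center_iff.mp hz w
        constructor
        · intro hh
          have : t * w * z = w * t * z := by
            rw [mul_assoc t w z, hzw, ← mul_assoc, hh, mul_assoc]
          exact mul_right_cancel this
        · intro hh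
          rw [mul_assoc t z w, ← hzw, ← mul_assoc, hh, mul_assoc]
      have g2 : centralizer ({(s * u) ^ p} : Set P) = centralizer ({s} : Set P) := by
        rw [g1, hcen hu2, e1]
      have g3 : (s * u) ^ p ∉ center P := by
        rw [g1]
        intro h
        apply hs
        have := mul_mem h (inv_mem hu2)
        rwa [mul_inv_cancel_right] at this
      have g4 : centralizer ({s * u} : Set P) = centralizer ({s} : Set P) := by
        rw [← g2]
        exact le_antisymm (cent_pow_le _ p) (hE _ _ g3 (cent_pow_le _ p))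
      have g5 : centralizer ({s} : Set P) ≤ centralizer ({u} : Set P) := by
        intro w hw
        have h1 : Commute s w := mem_cent_singleton.mp hw
        rw [← g4] at hw
        have h2 : Commute (s * u) w := mem_cent_singleton.mp hw
        rw [mem_cent_singleton]
        have h3 : Commute (s⁻¹ * (s * u)) w := (h1.inv_left).mul_left h2
        rwa [inv_mul_cancel_left] at h3
      exact le_antisymm g5 (hE s u hu1 g5)
    have hCn : (centralizer ({u} : Set P)).Normal := by
      constructor
      intro c hc g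
      rw [mem_cent_singleton] at hc ⊢
      -- u g = z g u
      have hz := hu3 g
      set z := u * g * u⁻¹ * g⁻¹ with hz'
      have f1 : u * g = z * g * u := by rw [hz']; group
      have f2 : u * g⁻¹ = z⁻¹ * (g⁻¹ * u) := by
        have h1 : g * u = z⁻¹ * u * g := by
          rw [mul_assoc, f1]; group
        have h2 := mem_center_iff.mp (inv_mem hz) g⁻¹
        calc u * g⁻¹ = g⁻¹ * (g * u) * g⁻¹ := by group
          _ = (g⁻¹ * z⁻¹) * (u * g * g⁻¹) := by rw [h1]; group
          _ = _ := by rw [h2]; group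
      calc u * (g * c * g⁻¹) = (u * g) * c * g⁻¹ := by group
        _ = z * g * (u * c) * g⁻¹ := by rw [f1]; group
        _ = z * (g * c) * (u * g⁻¹) := by rw [hc]; group
        _ = (z * (g * c * g⁻¹)) * (g * z⁻¹ * g⁻¹) * u := by rw [f2]; group
        _ = (z * (g * c * g⁻¹)) * z⁻¹ * u := by
          rw [mem_center_iff.mp (inv_mem hz) g]; group
        _ = (g * c * g⁻¹) * u := by
          rw [← mem_center_iff.mp hz (g * c * g⁻¹)]; group
    haveI := hCn
    refine ⟨centralizer ((centralizer ({u} : Set P) : Subgroup P) : Set P), inferInstance, ?_, ?_⟩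
    · have hle : centralizer ((centralizer ({u} : Set P) : Subgroup P) : Set P) ≤
          centralizer ({u} : Set P) := centralizer_le (by
        intro w hw; rw [Set.mem_singleton_iff] at hw; rw [hw]; exact mem_cent_singleton.mpr rfl)
      constructor; constructor
      intro a b
      exact Subtype.ext ((mem_centralizer_iff.mp b.2 a (hle a.2)))
    · intro y
      by_cases hy : y ^ p ∈ center P
      · exact center_le_centralizer _ hy
      · refine pow_mem ?_ p
        rw [mem_centralizer_iff]
        intro c hc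
        rw [← key y hy] at hc
        exact (mem_cent_singleton.mp hc).symm

section First

variable {G : Type*} [Group G] [Finite G] {n : ℕ}

theorem cent_ne_top {x : G} (hx : x ∉ center G) : centralizer ({x} : Set G) ≠ ⊤ :=
  fun h => hx (cent_eq_top_iff.mp h)

theorem not_center_of_le {x y : G} (hy : y ∉ center G)
    (hle : centralizer ({x} : Set G) ≤ centralizer ({y} : Set G)) : x ∉ center G := by
  intro hx
  rw [cent_eq_top_iff.mpr hx, top_le_iff] at hle
  exact cent_ne_top hy hle

/-- F0 -/
theorem cent_eq_of_le (h : ∀ x : G, x ∉ center G → (centralizer ({x} : Set G)).index = n)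
    {x y : G} (hy : y ∉ center G)
    (hle : centralizer ({x} : Set G) ≤ centralizer ({y} : Set G)) :
    centralizer ({x} : Set G) = centralizer ({y} : Set G) := by
  have hx := not_center_of_le hy hle
  have h1 : (centralizer ({x} : Set G)).relIndex (centralizer ({y} : Set G)) = 1 := by
    have h2 := relIndex_mul_index hle
    rw [h x hx, h y hy] at h2
    have hn : 0 < n := by
      rw [← h x hx]; exact Nat.pos_of_ne_zero index_ne_zero_of_finite
    exact Nat.eq_of_mul_eq_mul_right hn (by rw [h2, one_mul])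
  exact le_antisymm hle (relIndex_eq_one.mp h1)

/-- a noncentral element has a noncentral power of prime power order -/
theorem exists_noncentral_pow (N : ℕ) : ∀ g : G, g ∉ center G → orderOf g ≤ N →
    ∃ (r k m : ℕ), r.Prime ∧ r ∣ orderOf g ∧ g ^ m ∉ center G ∧ orderOf (g ^ m) = r ^ k := by
  induction N with
  | zero => intro g _ hN; exact absurd (orderOf_pos g) (by omega)
  | succ N ih =>
    intro g hg hN
    have h1 : orderOf g ≠ 1 := by
      intro h; rw [orderOf_eq_one_iff] at h; rw [h] at hg; exact hg (one_mem _)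
    obtain ⟨r, hr, hrg⟩ := Nat.exists_prime_and_dvd h1
    haveI : Fact r.Prime := ⟨hr⟩
    obtain ⟨a, b, hab, ⟨k, hk⟩, hb⟩ := Transfer.exists_pow_decomp r g (orderOf_pos g).ne'
    by_cases ha : g ^ a ∈ center G
    · have hb' : g ^ b ∉ center G := by
        intro h; apply hg; rw [hab]; exact mul_mem ha h
      have hlt : orderOf (g ^ b) < orderOf g := by
        refine lt_of_le_of_ne (Nat.le_of_dvd (orderOf_pos g) (orderOf_pow_dvd b)) ?_
        intro h
        rw [h] at hb
        exact hr.one_lt.ne' (Nat.Coprime.eq_one_of_dvd hb.symm hrg)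
      obtain ⟨r', k', m', h2, h3, h4, h5⟩ := ih (g ^ b) hb' (by omega)
      exact ⟨r', k', b * m', h2, h3.trans (orderOf_pow_dvd b), by rw [pow_mul]; exact h4,
        by rw [pow_mul]; exact h5⟩
    · exact ⟨r, k, a, hr, hrg, ha, hk⟩

/-- F2 -/
theorem exists_noncentral_mem (h : ∀ x : G, x ∉ center G → (centralizer ({x} : Set G)).index = n)
    {q : ℕ} (hq : q.Prime) {x : G} {k : ℕ} (hx : x ∉ center G) (hxk : orderOf x = q ^ k)
    {y : G} (hy : y ∉ center G) :
    ∃ w ∈ centralizer ({y} : Set G), w ∉ center G ∧ ∃ l, orderOf w = q ^ l := by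
  haveI : Fact q.Prime := ⟨hq⟩
  have hcard : (center G).relIndex (centralizer ({x} : Set G)) =
      (center G).relIndex (centralizer ({y} : Set G)) := by
    have h1 : ∀ z : G, z ∉ center G →
        (center G).relIndex (centralizer ({z} : Set G)) * n = (center G).index := by
      intro z hz
      rw [← h z hz]
      exact relIndex_mul_index (center_le_centralizer _)
    have hn : 0 < n := by
      rw [← h x hx]; exact Nat.pos_of_ne_zero index_ne_zero_of_finite
    exact Nat.eq_of_mul_eq_mul_right hn (by rw [h1 x hx, h1 y hy])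
  -- q divides |C(x) : Z|
  have hqx : q ∣ (center G).relIndex (centralizer ({x} : Set G)) := by
    by_contra hcon
    set D := centralizer ({x} : Set G) with hD
    have hxD : x ∈ D := mem_cent_singleton.mpr rfl
    have h1 : orderOf (QuotientGroup.mk (⟨x, hxD⟩ : D) : D ⧸ (center G).subgroupOf D) ∣ q ^ k := by
      apply orderOf_dvd_of_pow_eq_one
      rw [← QuotientGroup.mk_pow, QuotientGroup.eq_one_iff]
      have : (⟨x, hxD⟩ : D) ^ q ^ k = 1 := by
        apply Subtype.ext
        show x ^ q ^ k = 1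
        rw [← hxk, pow_orderOf_eq_one]
      rw [this]; exact one_mem _
    have h2 := orderOf_dvd_natCard (QuotientGroup.mk (⟨x, hxD⟩ : D) : D ⧸ (center G).subgroupOf D)
    have h3 : (q ^ k).Coprime (Nat.card (D ⧸ (center G).subgroupOf D)) :=
      Nat.Coprime.pow_left k ((Nat.Prime.coprime_iff_not_dvd hq).mpr hcon)
    have h4 := Nat.Coprime.eq_one_of_dvd (Nat.Coprime.coprime_dvd_left h1 h3) h2
    rw [orderOf_eq_one_iff, QuotientGroup.eq_one_iff, mem_subgroupOf] at h4
    exact hx h4
  rw [hcard] at hqx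
  set D := centralizer ({y} : Set G) with hD
  obtain ⟨t, ht⟩ := exists_prime_orderOf_dvd_card' (G := D ⧸ (center G).subgroupOf D) q hqx
  obtain ⟨g, rfl⟩ := QuotientGroup.mk_surjective t
  obtain ⟨a, b, hab, hak, hb⟩ := Transfer.exists_pow_decomp q (g : G) (orderOf_pos _).ne'
  have hbZ : (g : G) ^ b ∈ center G := by
    have h1 : orderOf ((QuotientGroup.mk g : D ⧸ (center G).subgroupOf D) ^ b) ∣ q := by
      rw [← ht]; exact orderOf_pow_dvd b
    have h2 : orderOf ((QuotientGroup.mk g : D ⧸ (center G).subgroupOf D) ^ b) ∣ orderOf ((g : G) ^ b) := by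
      apply orderOf_dvd_of_pow_eq_one
      rw [← QuotientGroup.mk_pow, ← QuotientGroup.mk_pow]
      have : (g ^ b) ^ orderOf ((g : G) ^ b) = 1 := by
        apply Subtype.ext
        show ((g : G) ^ b) ^ orderOf ((g : G) ^ b) = 1
        exact pow_orderOf_eq_one _
      rw [this]; rfl
    have h3 := Nat.Coprime.eq_one_of_dvd (Nat.Coprime.coprime_dvd_left h2 hb) h1
    rw [orderOf_eq_one_iff, ← QuotientGroup.mk_pow, QuotientGroup.eq_one_iff, mem_subgroupOf] at h3
    exact h3
  refine ⟨(g : G) ^ a, pow_mem g.2 a, ?_, hak⟩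
  intro haZ
  have : (g : G) ∈ center G := by rw [hab]; exact mul_mem haZ hbZ
  have h4 : (QuotientGroup.mk g : D ⧸ (center G).subgroupOf D) = 1 := by
    rw [QuotientGroup.eq_one_iff, mem_subgroupOf]; exact this
  rw [h4, orderOf_one] at ht
  exact hq.one_lt.ne ht

/-- F3 -/
theorem cent_comm (h : ∀ x : G, x ∉ center G → (centralizer ({x} : Set G)).index = n)
    {p r : ℕ} (hp : p.Prime) (hr : r.Prime) (hpr : p ≠ r)
    {x : G} {k : ℕ} (hx : x ∉ center G) (hxk : orderOf x = p ^ k)
    {z : G} {l : ℕ} (hz : z ∉ center G) (hzl : orderOf z = r ^ l)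
    {y : G} (hy : y ∉ center G) : ∀ a ∈ centralizer ({y} : Set G),
      ∀ b ∈ centralizer ({y} : Set G), a * b = b * a := by
  obtain ⟨q, j, m, hq, -, hm, hqj⟩ := exists_noncentral_pow (orderOf y) y hy le_rfl
  -- the other prime
  obtain ⟨s, hs, hqs, w, hwC, hwZ, l', hwl⟩ : ∃ s : ℕ, s.Prime ∧ q ≠ s ∧
      ∃ w ∈ centralizer ({y ^ m} : Set G), w ∉ center G ∧ ∃ l, orderOf w = s ^ l := by
    by_cases hqp : q = p
    · obtain ⟨w, h1, h2, h3⟩ := exists_noncentral_mem h hr hz hzl hm
      exact ⟨r, hr, by rw [hqp]; exact hpr, w, h1, h2, h3⟩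
    · obtain ⟨w, h1, h2, h3⟩ := exists_noncentral_mem h hp hx hxk hm
      exact ⟨p, hp, hqp, w, h1, h2, h3⟩
  haveI : Fact q.Prime := ⟨hq⟩
  have hco : (orderOf (y ^ m)).Coprime (orderOf w) := by
    rw [hqj, hwl]; exact Nat.Coprime.pow _ _ ((Nat.coprime_primes hq hs).mpr hqs)
  have hcomm : Commute (y ^ m) w := mem_cent_singleton.mp hwC
  have e1 := cent_eq_of_le h hm (cent_mul_le_left hcomm hco)
  have e2 := cent_eq_of_le h hwZ (cent_mul_le_right hcomm hco)
  have e3 : centralizer ({w} : Set G) = centralizer ({y ^ m} : Set G) := by rw [← e2, e1]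
  have e4 : centralizer ({y} : Set G) = centralizer ({y ^ m} : Set G) :=
    cent_eq_of_le h hm (cent_pow_le y m)
  have key : ∀ t ∈ centralizer ({y ^ m} : Set G),
      centralizer ({y ^ m} : Set G) ≤ centralizer ({t} : Set G) := by
    intro t ht
    obtain ⟨a, b, hab, ⟨k', hk'⟩, hb⟩ := Transfer.exists_pow_decomp q t (orderOf_pos t).ne'
    have ht1 : Commute (y ^ m) t := mem_cent_singleton.mp ht
    have ht2 : Commute w t := by
      rw [← e3] at ht; exact mem_cent_singleton.mp ht
    -- q'-part commutes with the centralizer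
    have f1 : centralizer ({y ^ m} : Set G) ≤ centralizer ({t ^ b} : Set G) := by
      have hc : Commute (y ^ m) (t ^ b) := ht1.pow_right b
      have hco' : (orderOf (y ^ m)).Coprime (orderOf (t ^ b)) := by
        rw [hqj]; exact Nat.Coprime.pow_left _ hb.symm
      rw [← cent_eq_of_le h hm (cent_mul_le_left hc hco')]
      exact cent_mul_le_right hc hco'
    have f2 : centralizer ({y ^ m} : Set G) ≤ centralizer ({t ^ a} : Set G) := by
      rw [← e3]
      have hc : Commute w (t ^ a) := ht2.pow_right a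
      have hco' : (orderOf w).Coprime (orderOf (t ^ a)) := by
        rw [hwl, hk']; exact Nat.Coprime.pow _ _ ((Nat.coprime_primes hs hq).mpr hqs.symm)
      rw [← cent_eq_of_le h hwZ (cent_mul_le_left hc hco')]
      exact cent_mul_le_right hc hco'
    intro c hc
    rw [mem_cent_singleton, hab]
    exact (show Commute (t ^ a) c from mem_cent_singleton.mp (f2 hc)).mul_left
      (show Commute (t ^ b) c from mem_cent_singleton.mp (f1 hc))
  intro a ha b hb
  rw [e4] at ha hb
  exact mem_cent_singleton.mp (key a ha hb)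

theorem conj_mem_cent {u g c : G} (hz : u * g * u⁻¹ * g⁻¹ ∈ center G) (hc : u * c = c * u) :
    u * (g * c * g⁻¹) = (g * c * g⁻¹) * u := by
  set z := u * g * u⁻¹ * g⁻¹ with hz'
  have f1 : u * g = z * g * u := by rw [hz']; group
  have f2 : u * g⁻¹ = z⁻¹ * (g⁻¹ * u) := by
    have h1 : g * u = z⁻¹ * u * g := by
      rw [mul_assoc, f1]; group
    have h2 := mem_center_iff.mp (inv_mem hz) g⁻¹
    calc u * g⁻¹ = g⁻¹ * (g * u) * g⁻¹ := by group
      _ = (g⁻¹ * z⁻¹) * (u * g * g⁻¹) := by rw [h1]; group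
      _ = _ := by rw [h2]; group
  calc u * (g * c * g⁻¹) = (u * g) * c * g⁻¹ := by group
    _ = z * g * (u * c) * g⁻¹ := by rw [f1]; group
    _ = z * (g * c) * (u * g⁻¹) := by rw [hc]; group
    _ = (z * (g * c * g⁻¹)) * (g * z⁻¹ * g⁻¹) * u := by rw [f2]; group
    _ = (z * (g * c * g⁻¹)) * z⁻¹ * u := by
      rw [mem_center_iff.mp (inv_mem hz) g]; group
    _ = (g * c * g⁻¹) * u := by
      rw [← mem_center_iff.mp hz (g * c * g⁻¹)]; group

/-- elements with central commutator and coprime orders commute -/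
theorem commute_of_central_commutator {u g : G} (hz : u * g * u⁻¹ * g⁻¹ ∈ center G)
    (hco : (orderOf u).Coprime (orderOf g)) : u * g = g * u := by
  set z := u * g * u⁻¹ * g⁻¹ with hz'
  have hcc : ∀ t : G, Commute z t := fun t => (mem_center_iff.mp hz t).symm
  have f1 : u * g * u⁻¹ = z * g := by rw [hz']; group
  have h1 : z ^ orderOf g = 1 := by
    have : u * g ^ orderOf g * u⁻¹ = z ^ orderOf g * g ^ orderOf g := by
      rw [← conj_pow, f1, (hcc g).mul_pow]
    rw [pow_orderOf_eq_one, mul_one, mul_one, mul_inv_cancel] at this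
    exact this.symm
  have f2 : g * u⁻¹ * g⁻¹ = u⁻¹ * z := by rw [hz']; group
  have h2 : z ^ orderOf u = 1 := by
    have : g * u⁻¹ ^ orderOf u * g⁻¹ = u⁻¹ ^ orderOf u * z ^ orderOf u := by
      rw [← conj_pow, f2, ((hcc u⁻¹).symm).mul_pow]
    rw [inv_pow, pow_orderOf_eq_one, inv_one, mul_one, mul_inv_cancel, one_mul] at this
    exact this.symm
  have h3 := Nat.Coprime.eq_one_of_dvd
    (Nat.Coprime.coprime_dvd_left (orderOf_dvd_of_pow_eq_one h2) hco) (orderOf_dvd_of_pow_eq_one h1)
  rw [orderOf_eq_one_iff] at h3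
  rw [h3, one_mul, mul_inv_eq_iff_eq_mul] at f1
  exact f1

/-- F5 -/
theorem not_sq_dvd (h : ∀ x : G, x ∉ center G → (centralizer ({x} : Set G)).index = n)
    (hab : ∀ y : G, y ∉ center G → ∀ a ∈ centralizer ({y} : Set G),
      ∀ b ∈ centralizer ({y} : Set G), a * b = b * a)
    {q r : ℕ} (hq : q.Prime) (hr : r.Prime) (hqr : q ≠ r)
    {x : G} {k : ℕ} (hx : x ∉ center G) (hxk : orderOf x = q ^ k)
    {z : G} {l : ℕ} (hz : z ∉ center G) (hzl : orderOf z = r ^ l) : ¬ q ^ 2 ∣ n := by
  haveI : Fact q.Prime := ⟨hq⟩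
  haveI : Fact r.Prime := ⟨hr⟩
  obtain ⟨P, hPx⟩ : ∃ P : Sylow q G, x ∈ (P : Subgroup G) := by
    have : IsPGroup q (zpowers x) := IsPGroup.of_card (n := k) (by rw [Nat.card_zpowers, hxk])
    obtain ⟨P, hP⟩ := this.exists_le_sylow
    exact ⟨P, hP (mem_zpowers x)⟩
  -- Z(P) is central in G
  have hZP : ∀ t ∈ (P : Subgroup G), (∀ g ∈ (P : Subgroup G), g * t = t * g) → t ∈ center G := by
    intro t ht htc
    by_contra htZ
    have h1 : (P : Subgroup G) ≤ centralizer ({t} : Set G) := fun g hg =>
      mem_cent_singleton.mpr (htc g hg).symm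
    have h2 := not_dvd_index_of_sylow_le P h1
    rw [h t htZ] at h2
    have h3 : (P : Subgroup G) ≤ center G := by
      apply sylow_le_center_of_forall_not_dvd
      intro g
      by_cases hg : g ∈ center G
      · rw [cent_eq_top_iff.mpr hg, index_top]
        exact hq.one_lt.ne' ∘ Nat.dvd_one.mp
      · rw [h g hg]; exact h2
    exact htZ (h3 ht)
  obtain ⟨u, huP, hu1, hu2, hu3⟩ : ∃ u ∈ (P : Subgroup G), u ∉ center G ∧ u ^ q ∈ center G ∧
      ∀ g ∈ (P : Subgroup G), u * g * u⁻¹ * g⁻¹ ∈ center G := by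
    set ZP := (center G).subgroupOf (P : Subgroup G) with hZPdef
    haveI : Nontrivial ((P : Subgroup G) ⧸ ZP) := by
      refine ⟨QuotientGroup.mk ⟨x, hPx⟩, 1, fun h => ?_⟩
      rw [QuotientGroup.eq_one_iff, mem_subgroupOf] at h
      exact hx h
    have hQ : IsPGroup q ((P : Subgroup G) ⧸ ZP) := P.2.to_quotient _
    have hne : (⊤ : Subgroup ((P : Subgroup G) ⧸ ZP)) ≠ ⊥ := top_ne_bot
    obtain ⟨z, -, hz1, hz2⟩ := H48.exists_central_orderOf_eq (hQ.to_subgroup ⊤) hne
    obtain ⟨u, rfl⟩ := QuotientGroup.mk_surjective z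
    refine ⟨u, u.2, ?_, ?_, ?_⟩
    · intro h
      rw [(QuotientGroup.eq_one_iff u).mpr (mem_subgroupOf.mpr h), orderOf_one] at hz1
      exact hq.one_lt.ne hz1
    · have : u ^ q ∈ ZP := by
        have e := pow_orderOf_eq_one (QuotientGroup.mk u : (P : Subgroup G) ⧸ ZP)
        rw [hz1] at e
        rw [← QuotientGroup.eq_one_iff, QuotientGroup.mk_pow]
        exact e
      exact this
    · intro g hg
      have := hz2 (QuotientGroup.mk ⟨g, hg⟩) (mem_top _)
      have h3 : u * ⟨g, hg⟩ * u⁻¹ * ⟨g, hg⟩⁻¹ ∈ ZP := by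
        rw [← QuotientGroup.eq_one_iff]
        rw [QuotientGroup.mk_mul, QuotientGroup.mk_mul, QuotientGroup.mk_mul, QuotientGroup.mk_inv,
          QuotientGroup.mk_inv, ← this]
        group
      exact h3
  set C := centralizer ({u} : Set G) with hC
  -- κ
  let κ : (P : Subgroup G) →* center G := MonoidHom.mk' (fun g => ⟨u * g * u⁻¹ * (g : G)⁻¹, hu3 g g.2⟩)
    (by
      intro g g'
      apply Subtype.ext
      show u * ((g : G) * g') * u⁻¹ * ((g : G) * g')⁻¹ =
        (u * g * u⁻¹ * (g : G)⁻¹) * (u * g' * u⁻¹ * (g' : G)⁻¹)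
      have := mem_center_iff.mp (hu3 g' g'.2) (g : G)⁻¹
      calc u * ((g : G) * g') * u⁻¹ * ((g : G) * g')⁻¹
          = (u * g * u⁻¹) * ((u * g' * u⁻¹ * (g' : G)⁻¹) * (g : G)⁻¹) := by group
        _ = _ := by rw [← this]; group)
  have hκ : ∀ g, κ g = ⟨u * g * u⁻¹ * (g : G)⁻¹, hu3 g g.2⟩ := fun g => rfl
  have hκker : κ.ker = C.subgroupOf (P : Subgroup G) := by
    ext g
    rw [MonoidHom.mem_ker, hκ, mem_subgroupOf, hC, mem_cent_singleton]
    constructor
    · intro h1
      have h2 : u * g * u⁻¹ * (g : G)⁻¹ = 1 := congrArg Subtype.val h1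
      rw [mul_inv_eq_one, mul_inv_eq_iff_eq_mul] at h2
      exact h2
    · intro h1
      apply Subtype.ext
      show u * g * u⁻¹ * (g : G)⁻¹ = 1
      rw [h1]; group
  have hκpow : ∀ g, κ g ^ q = 1 := by
    intro g
    have hcc : ∀ t : G, Commute (u * g * u⁻¹ * (g : G)⁻¹) t := fun t =>
      (mem_center_iff.mp (hu3 g g.2) t).symm
    have f2 : (g : G) * u⁻¹ * (g : G)⁻¹ = u⁻¹ * (u * g * u⁻¹ * (g : G)⁻¹) := by group
    have h2 : (g : G) * u⁻¹ ^ q * (g : G)⁻¹ = u⁻¹ ^ q * (u * g * u⁻¹ * (g : G)⁻¹) ^ q := by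
      rw [← conj_pow, f2, ((hcc u⁻¹).symm).mul_pow]
    have h3 : u⁻¹ ^ q ∈ center G := by rw [inv_pow]; exact inv_mem hu2
    rw [mem_center_iff.mp h3 g, mul_inv_cancel_right] at h2
    apply Subtype.ext
    show (u * g * u⁻¹ * (g : G)⁻¹) ^ q = 1
    exact (mul_left_cancel (a := u⁻¹ ^ q) (by rw [mul_one]; exact h2)).symm
  -- R
  let R : Subgroup G :=
    { carrier := {c | c ∈ C ∧ ∃ k, c ^ (r ^ k) = 1}
      mul_mem' := by
        rintro a b ⟨ha, k1, hk1⟩ ⟨hb, k2, hk2⟩
        refine ⟨mul_mem ha hb, k1 + k2, ?_⟩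
        rw [(show Commute a b from hab u hu1 a ha b hb).mul_pow, pow_add, pow_mul, hk1, one_pow,
          one_mul, mul_comm, pow_mul, hk2, one_pow]
      one_mem' := ⟨one_mem _, 0, one_pow _⟩
      inv_mem' := by
        rintro a ⟨ha, k1, hk1⟩
        exact ⟨inv_mem ha, k1, by rw [inv_pow, hk1, inv_one]⟩ }
  have hRC : ∀ c ∈ R, c ∈ C := fun c hc => hc.1
  have hPR : ∀ g ∈ (P : Subgroup G), ∀ c ∈ R, g * c * g⁻¹ ∈ R := by
    rintro g hg c ⟨hc, j, hj⟩
    refine ⟨?_, j, by rw [conj_pow, hj]; group⟩
    rw [hC, mem_cent_singleton]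
    exact conj_mem_cent (hu3 g hg) (mem_cent_singleton.mp hc)
  set π := QuotientGroup.mk' (center G) with hπ
  set W : Subgroup (G ⧸ center G) := R.map π with hW
  have hWN : ∀ g : (P : Subgroup G), π g ∈ normalizer (W : Set (G ⧸ center G)) := by
    have h1 : ∀ g ∈ (P : Subgroup G), ∀ w ∈ W, π g * w * (π g)⁻¹ ∈ W := by
      rintro g hg _ ⟨c, hc, rfl⟩
      exact ⟨g * c * g⁻¹, hPR g hg c hc, by simp⟩
    intro g
    rw [mem_normalizer_iff]
    intro w
    constructor
    · exact h1 g g.2 w
    · intro hw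
      have := h1 (g : G)⁻¹ (inv_mem g.2) _ hw
      rw [map_inv] at this
      have e : (π g)⁻¹ * (π g * w * (π g)⁻¹) * (π g)⁻¹⁻¹ = w := by group
      rwa [e] at this
  let ψ : (P : Subgroup G) →* MulAut W := W.normalizerMonoidHom.comp
    ((π.comp (P : Subgroup G).subtype).codRestrict (normalizer (W : Set (G ⧸ center G))) hWN)
  have hψ : ∀ (g : (P : Subgroup G)) (w : W), ((ψ g w : W) : G ⧸ center G) = π g * w * (π g)⁻¹ :=
    fun g w => rfl
  have hle : κ.ker ≤ ψ.ker := by
    intro g hg
    rw [hκker, mem_subgroupOf] at hg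
    rw [MonoidHom.mem_ker]
    ext w
    rw [hψ, MulAut.one_apply]
    obtain ⟨c, hc, hcw⟩ := w.2
    rw [← hcw, ← map_mul, ← map_inv, ← map_mul, hab u hu1 g hg c (hRC c hc), mul_inv_cancel_right]
  let φ0 : (P : Subgroup G) ⧸ κ.ker →* MulAut W := QuotientGroup.lift κ.ker ψ hle
  let e := QuotientGroup.quotientKerEquivRange κ
  let φ : κ.range →* MulAut W := φ0.comp e.symm.toMonoidHom
  have hφ : ∀ g : (P : Subgroup G), φ ⟨κ g, g, rfl⟩ = ψ g := by
    intro g
    have h1 : e.symm ⟨κ g, g, rfl⟩ = QuotientGroup.mk g := by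
      rw [MulEquiv.symm_apply_eq]
      rfl
    show φ0 (e.symm ⟨κ g, g, rfl⟩) = ψ g
    rw [h1]
    rfl
  letI instW : CommGroup W :=
    { (inferInstance : Group W) with
      mul_comm := by
        rintro ⟨_, c, hc, rfl⟩ ⟨_, c', hc', rfl⟩
        apply Subtype.ext
        show π c * π c' = π c' * π c
        rw [← map_mul, ← map_mul, hab u hu1 c (hRC c hc) c' (hRC c' hc')] }
  haveI : Nontrivial W := by
    obtain ⟨w, hwC, hwZ, j, hwj⟩ := exists_noncentral_mem h hr hz hzl hu1
    refine ⟨⟨π w, w, ⟨hwC, j, by rw [← hwj]; exact pow_orderOf_eq_one w⟩, rfl⟩, 1, ?_⟩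
    intro h1
    have h2 : π w = 1 := congrArg Subtype.val h1
    rw [hπ, QuotientGroup.mk'_apply, QuotientGroup.eq_one_iff] at h2
    exact hwZ h2
  have hfpf : Frob.IsFPF φ := by
    rintro ⟨_, g, rfl⟩ ha w hw
    rw [hφ] at hw
    obtain ⟨c, hc, hcw⟩ := w.2
    have h1 : π g * π c * (π g)⁻¹ = π c := by
      rw [hcw, ← hψ]; exact congrArg Subtype.val hw
    -- commutator central
    have h2 : c * g * c⁻¹ * (g : G)⁻¹ ∈ center G := by
      have h3 : π (c * g * c⁻¹ * (g : G)⁻¹) = 1 := by
        rw [map_mul, map_mul, map_mul, map_inv, map_inv]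
        rw [mul_inv_eq_iff_eq_mul] at h1
        rw [← h1]; group
      rw [hπ, QuotientGroup.mk'_apply, QuotientGroup.eq_one_iff] at h3
      exact h3
    obtain ⟨hcC, j, hj⟩ := hc
    have hco : (orderOf c).Coprime (orderOf (g : G)) := by
      obtain ⟨i, hi⟩ := orderOf_of_mem_isPGroup P.2 g.2
      rw [hi]
      exact Nat.Coprime.coprime_dvd_left (orderOf_dvd_of_pow_eq_one hj)
        (Nat.Coprime.pow _ _ ((Nat.coprime_primes hr hq).mpr hqr.symm))
    have h4 := commute_of_central_commutator h2 hco
    -- c central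
    by_cases hcZ : c ∈ center G
    · apply Subtype.ext
      rw [← hcw]
      show π c = 1
      rw [hπ, QuotientGroup.mk'_apply, QuotientGroup.eq_one_iff]
      exact hcZ
    · exfalso
      apply ha
      have h5 : (g : G) ∈ centralizer ({c} : Set G) := mem_cent_singleton.mpr h4
      have h6 : u ∈ centralizer ({c} : Set G) := mem_cent_singleton.mpr (mem_cent_singleton.mp hcC).symm
      have h7 := hab c hcZ u h6 g h5
      apply Subtype.ext
      show κ g = 1
      have h8 : g ∈ κ.ker := by
        rw [hκker, mem_subgroupOf, hC, mem_cent_singleton]; exact h7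
      exact h8
  letI instK : CommGroup κ.range :=
    { (inferInstance : Group κ.range) with
      mul_comm := by
        rintro ⟨a, ha⟩ ⟨b, hb⟩
        apply Subtype.ext
        apply Subtype.ext
        exact mem_center_iff.mp b.2 (a : G) }
  have hcyc : IsCyclic κ.range := Frob.IsFPF.isCyclic_of_comm (A := κ.range) (W := W) hfpf
  have hcard : Nat.card κ.range ∣ q := by
    obtain ⟨g, hg⟩ := hcyc.exists_generator
    have h1 : orderOf g = Nat.card κ.range := orderOf_eq_card_of_forall_mem_zpowers hg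
    rw [← h1]
    apply orderOf_dvd_of_pow_eq_one
    obtain ⟨_, g', rfl⟩ := g
    apply Subtype.ext
    exact hκpow g'
  have hidx : C.relIndex (P : Subgroup G) ∣ q := by
    rw [relIndex, ← hκker, index_ker]; exact hcard
  intro hq2
  have h1 : n ∣ C.relIndex (P : Subgroup G) * (P : Subgroup G).index := by
    rw [← h u hu1, ← inf_relIndex_right, relIndex_mul_index inf_le_right]
    exact index_dvd_of_le inf_le_left
  have h2 : (q ^ 2).Coprime (P : Subgroup G).index :=
    Nat.Coprime.pow_left 2 ((Nat.Prime.coprime_iff_not_dvd hq).mpr P.not_dvd_index)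
  have h3 := (h2.dvd_of_dvd_mul_right (hq2.trans h1)).trans hidx
  have h4 := Nat.le_of_dvd hq.pos h3
  nlinarith [hq.one_lt]

/-- F6 -/
theorem not_dvd_normalizer_index (h : ∀ x : G, x ∉ center G → (centralizer ({x} : Set G)).index = n)
    {p r : ℕ} (hp : p.Prime) (hr : r.Prime) (hpr : p ≠ r)
    {x : G} {k : ℕ} (hx : x ∉ center G) (hxk : orderOf x = p ^ k)
    {z : G} {l : ℕ} (hz : z ∉ center G) (hzl : orderOf z = r ^ l)
    {y : G} (hy : y ∉ center G) {q : ℕ} (hq : q.Prime) :
    ¬ q ∣ (normalizer (centralizer ({y} : Set G) : Set G)).index := by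
  haveI : Fact q.Prime := ⟨hq⟩
  have hab := fun y hy => cent_comm h hp hr hpr hx hxk hz hzl (y := y) hy
  by_cases hall : ∀ w : G, (∃ j, orderOf w = q ^ j) → w ∈ center G
  · obtain ⟨P⟩ : Nonempty (Sylow q G) := inferInstance
    refine not_dvd_index_of_sylow_le P ?_
    intro w hw
    exact le_normalizer (center_le_centralizer _ (hall w (orderOf_of_mem_isPGroup P.2 hw)))
  · push Not at hall
    obtain ⟨w1, ⟨j1, hj1⟩, hw1⟩ := hall
    have hsq : ¬ q ^ 2 ∣ n := by
      by_cases hqp : q = p
      · exact not_sq_dvd h hab hq hr (by rw [hqp]; exact hpr) hw1 hj1 hz hzl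
      · exact not_sq_dvd h hab hq hp hqp hw1 hj1 hx hxk
    set C := centralizer ({y} : Set G) with hC
    obtain ⟨w, hwC, hwZ, j, hwj⟩ := exists_noncentral_mem h hq hw1 hj1 hy
    have hw' : IsPGroup q (zpowers (⟨w, hwC⟩ : C)) :=
      IsPGroup.of_card (n := j) (by rw [Nat.card_zpowers, Subgroup.orderOf_mk, hwj])
    obtain ⟨D0, hD0⟩ := hw'.exists_le_sylow
    set D : Subgroup G := (D0 : Subgroup C).map C.subtype with hD
    have hDC : D ≤ C := map_subtype_le _
    have hwD : w ∈ D := ⟨⟨w, hwC⟩, hD0 (mem_zpowers _), rfl⟩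
    have hDp : IsPGroup q D := D0.2.map _
    obtain ⟨P, hDP⟩ := hDp.exists_le_sylow
    have hCD : centralizer (D : Set G) = C := by
      apply le_antisymm
      · intro g hg
        have h1 : g ∈ centralizer ({w} : Set G) :=
          mem_cent_singleton.mpr (mem_centralizer_iff.mp hg w hwD)
        have h2 : centralizer ({y} : Set G) = centralizer ({w} : Set G) := by
          apply cent_eq_of_le h hwZ
          intro c hc
          exact mem_cent_singleton.mpr (hab y hy w hwC c hc)
        rw [hC, h2]; exact h1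
      · intro g hg
        rw [mem_centralizer_iff]
        intro d hd
        exact hab y hy d (hDC hd) g hg
    have hPD : (P : Subgroup G) ≤ normalizer (D : Set G) := by
      have e1 : D.relIndex (P : Subgroup G) * (P : Subgroup G).index = (D0 : Subgroup C).index * n := by
        rw [relIndex_mul_index hDP, hD, index_map_subtype, ← h y hy]
      obtain ⟨m, hm⟩ := IsPGroup.iff_card.mp P.2
      have e2 : D.relIndex (P : Subgroup G) ∣ q ^ m := by rw [← hm]; exact relIndex_dvd_card _ _
      obtain ⟨i, -, hi⟩ := (Nat.dvd_prime_pow hq).mp e2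
      have e3 : q ^ i ∣ n := by
        have : (q ^ i).Coprime (D0 : Subgroup C).index :=
          Nat.Coprime.pow_left i ((Nat.Prime.coprime_iff_not_dvd hq).mpr D0.not_dvd_index)
        refine this.dvd_of_dvd_mul_left ?_
        rw [← e1, hi]; exact dvd_mul_right _ _
      have hi2 : i < 2 := by
        by_contra hcon
        push Not at hcon
        exact hsq ((pow_dvd_pow q hcon).trans e3)
      rcases hDP.eq_or_lt with h1 | h1
      · rw [← h1]; exact le_normalizer
      · have h2 := Transfer.lt_normalizer_inf_of_isPGroup P.2 h1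
        have h3 : D.relIndex (normalizer (D : Set G) ⊓ (P : Subgroup G)) *
            (normalizer (D : Set G) ⊓ (P : Subgroup G)).relIndex (P : Subgroup G) = q ^ i := by
          rw [relIndex_mul_relIndex _ _ _ h2.le inf_le_right, hi]
        have h4 : D.relIndex (normalizer (D : Set G) ⊓ (P : Subgroup G)) ≠ 1 := by
          intro h5; exact h2.not_ge (relIndex_eq_one.mp h5)
        have h5 : (normalizer (D : Set G) ⊓ (P : Subgroup G)).relIndex (P : Subgroup G) = 1 := by
          interval_cases i
          · rw [pow_zero] at h3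
            exact absurd (Nat.eq_one_of_mul_eq_one_right h3) h4
          · rw [pow_one] at h3
            rcases (Nat.dvd_prime hq).mp (Dvd.intro _ h3) with h6 | h6
            · exact absurd h6 h4
            · rw [h6] at h3
              exact Nat.eq_of_mul_eq_mul_left hq.pos (by rw [h3, mul_one])
        exact (relIndex_eq_one.mp h5).trans inf_le_left
    refine not_dvd_index_of_sylow_le P ?_
    have := hPD.trans (H47.normalizer_le_normalizer_centralizer D)
    rwa [hCD] at this

/-- the star property -/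
theorem star (h : ∀ x : G, x ∉ center G → (centralizer ({x} : Set G)).index = n)
    (hex : ∃ x : G, x ∉ center G) :
    ∃ p : ℕ, p.Prime ∧ ∀ g : G, (orderOf g).Coprime p → g ∈ center G := by
  by_contra hcon
  push Not at hcon
  obtain ⟨x0, hx0⟩ := hex
  obtain ⟨p, k, m, hp, -, hx, hxk⟩ := exists_noncentral_pow (orderOf x0) x0 hx0 le_rfl
  obtain ⟨g, hgp, hg⟩ := hcon p hp
  obtain ⟨r, l, m', hr, hrg, hz, hzl⟩ := exists_noncentral_pow (orderOf g) g hg le_rfl
  have hpr : p ≠ r := by
    rintro rfl
    exact hp.one_lt.ne' (Nat.Coprime.eq_one_of_dvd hgp.symm hrg)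
  set x := x0 ^ m with hxdef
  set z := g ^ m' with hzdef
  have hab := fun y hy => cent_comm h hp hr hpr hx hxk hz hzl (y := y) hy
  have hnormal : ∀ y : G, y ∉ center G → (centralizer ({y} : Set G)).Normal := by
    intro y hy
    rw [← normalizer_eq_top_iff, ← index_eq_one]
    by_contra h1
    obtain ⟨q, hq, hqd⟩ := Nat.exists_prime_and_dvd h1
    exact not_dvd_normalizer_index h hp hr hpr hx hxk hz hzl hy hq hqd
  -- another centralizer
  obtain ⟨y, hyx⟩ : ∃ y : G, y ∉ centralizer ({x} : Set G) := by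
    by_contra hcon
    push Not at hcon
    exact cent_ne_top hx ((eq_top_iff' _).mpr hcon)
  have hyZ : y ∉ center G := fun h1 => hyx (center_le_centralizer _ h1)
  obtain ⟨w, hwy, hwZ, j, hwj⟩ := exists_noncentral_mem h hr hz hzl hyZ
  -- [x, w] central
  have hint : ∀ t : G, t ∈ centralizer ({x} : Set G) → t ∈ centralizer ({y} : Set G) → t ∈ center G := by
    intro t ht1 ht2
    by_contra ht
    have e1 : centralizer ({x} : Set G) = centralizer ({t} : Set G) := by
      apply cent_eq_of_le h ht
      intro c hc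
      exact mem_cent_singleton.mpr (hab x hx t ht1 c hc)
    have e2 : centralizer ({y} : Set G) = centralizer ({t} : Set G) := by
      apply cent_eq_of_le h ht
      intro c hc
      exact mem_cent_singleton.mpr (hab y hyZ t ht2 c hc)
    apply hyx
    rw [e1, ← e2]
    exact mem_cent_singleton.mpr rfl
  have hxx : x ∈ centralizer ({x} : Set G) := mem_cent_singleton.mpr rfl
  have hc : x * w * x⁻¹ * w⁻¹ ∈ center G := by
    apply hint
    · have h1 := (hnormal x hx).conj_mem _ (inv_mem hxx) w
      have e : x * w * x⁻¹ * w⁻¹ = x * (w * x⁻¹ * w⁻¹) := by group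
      rw [e]; exact mul_mem hxx h1
    · exact mul_mem ((hnormal y hyZ).conj_mem _ hwy x) (inv_mem hwy)
  have hco : (orderOf x).Coprime (orderOf w) := by
    rw [hxk, hwj]; exact Nat.Coprime.pow _ _ ((Nat.coprime_primes hp hr).mpr hpr)
  have h1 := commute_of_central_commutator hc hco
  exact hwZ (hint w (mem_cent_singleton.mpr h1) hwy)

end First

/-- Let G be a finite group whose conjugacy classes have exactly two sizes, 1 and n > 1. Then n is a power of a prime p and G is the direct product of a p-group and an abelian group of order prime to p: its Sylow p-subgroup P is normal with an abelian normal complement centralizing it; moreover P has an abelian normal subgroup A with P/A of exponent dividing p. -/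
theorem result {G : Type*} [Group G] [Finite G] (n : ℕ) (hn : 1 < n)
    (h : ∀ x : G, (Subgroup.centralizer ({x} : Set G)).index = 1 ∨ (Subgroup.centralizer ({x} : Set G)).index = n) (hex : ∃ x : G, (Subgroup.centralizer ({x} : Set G)).index = n) :
    ∃ (p : ℕ) (_ : Fact p.Prime) (a : ℕ), n = p ^ a ∧ ∀ P : Sylow p G, (P : Subgroup G).Normal ∧
      (∃ N : Subgroup G, N.Normal ∧ N.IsComplement' (P : Subgroup G) ∧ IsMulCommutative N ∧
        ∀ x ∈ N, ∀ y ∈ (P : Subgroup G), x * y = y * x) ∧
      ∃ A : Subgroup (P : Subgroup G), A.Normal ∧ IsMulCommutative A ∧ ∀ y : (P : Subgroup G), y ^ p ∈ A := by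
  have h' : ∀ x : G, x ∉ center G → (centralizer ({x} : Set G)).index = n := by
    intro x hx
    refine (h x).resolve_left fun h1 => ?_
    rw [index_eq_one] at h1
    exact cent_ne_top hx h1
  have hex' : ∃ x : G, x ∉ center G := by
    obtain ⟨x, hx⟩ := hex
    refine ⟨x, fun h1 => ?_⟩
    rw [cent_eq_top_iff.mpr h1, index_top] at hx
    omega
  obtain ⟨p, hp, hstar⟩ := star h' hex'
  haveI : Fact p.Prime := ⟨hp⟩
  refine ⟨p, ⟨hp⟩, n.primeFactorsList.length, ?_, ?_⟩
  · refine Nat.eq_prime_pow_of_unique_prime_dvd (by omega) ?_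
    intro q hq hqn
    by_contra hqp
    haveI : Fact q.Prime := ⟨hq⟩
    obtain ⟨x, hx⟩ := hex'
    obtain ⟨Q⟩ : Nonempty (Sylow q G) := inferInstance
    have h1 : (Q : Subgroup G) ≤ centralizer ({x} : Set G) := by
      intro w hw
      obtain ⟨j, hj⟩ := orderOf_of_mem_isPGroup Q.2 hw
      exact center_le_centralizer _ (hstar w (by
        rw [hj]; exact Nat.Coprime.pow_left _ ((Nat.coprime_primes hq hp).mpr hqp)))
    have h2 := not_dvd_index_of_sylow_le Q h1
    rw [h' x hx] at h2
    exact h2 hqn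
  · intro P
    have hall : ∀ y : G, (orderOf y).Coprime p → ¬ p ∣ (centralizer ({y} : Set G)).index := by
      intro y hy
      rw [cent_eq_top_iff.mpr (hstar y hy), index_top]
      exact fun h1 => hp.one_lt.ne' (Nat.dvd_one.mp h1)
    obtain ⟨N, hNn, hNc⟩ := (Transfer.hasNPC_iff_sylow P).mp (hasNPC_of_forall hall)
    have hNZ : N ≤ center G := by
      intro y hy
      exact hstar y ((Transfer.mem_complement_iff P N hNc y).mp hy)
    refine ⟨sylow_normal_of_forall hall P, ⟨N, hNn, hNc, ?_, ?_⟩, ?_⟩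
    · constructor; constructor
      intro a b
      exact Subtype.ext (mem_center_iff.mp (hNZ b.2) a)
    · intro x hx y _
      exact (mem_center_iff.mp (hNZ hx) y).symm
    · refine second P.2 ?_
      intro x y hy hle
      have hyG : (y : G) ∉ center G := by
        intro h1
        apply hy
        rw [mem_center_iff]
        intro g
        exact Subtype.ext (mem_center_iff.mp h1 g)
      have hleG : centralizer ({(x : G)} : Set G) ≤ centralizer ({(y : G)} : Set G) := by
        intro g hg
        obtain ⟨⟨⟨c, hc⟩, t⟩, hct⟩ := (isComplement_iff_existsUnique.mp hNc g).exists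
        have hct' : c * (t : G) = g := hct
        have hcZ := mem_center_iff.mp (hNZ hc)
        have ht : t ∈ centralizer ({x} : Set (P : Subgroup G)) := by
          rw [mem_cent_singleton]
          apply Subtype.ext
          show (x : G) * t = t * x
          have h1 := mem_cent_singleton.mp hg
          rw [← hct', ← mul_assoc, hcZ, mul_assoc, mul_assoc] at h1
          exact mul_left_cancel h1
        have h2 : (y : G) * t = t * y := congrArg Subtype.val (mem_cent_singleton.mp (hle ht))
        rw [mem_cent_singleton, ← hct', ← mul_assoc, hcZ, mul_assoc, mul_assoc, h2]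
      have heq := cent_eq_of_le h' hyG hleG
      intro t ht
      rw [mem_cent_singleton] at ht ⊢
      have h3 : (t : G) ∈ centralizer ({(y : G)} : Set G) :=
        mem_cent_singleton.mpr (congrArg Subtype.val ht)
      rw [← heq] at h3
      exact Subtype.ext (mem_cent_singleton.mp h3)

end Cfsg.Agent.S4134
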