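import Cfsg.Statements.S4135
import Cfsg.Agent.H4.TwoSize
import Cfsg.Agent.H69.Basic
import Cfsg.Agent.H47.Basic
import Cfsg.Agent.Transfer.Frobenius
import Cfsg.Agent.Transfer.Residual

set_option autoImplicit false
set_option linter.style.haveILetI false
set_option linter.unusedSectionVars false
open Cfsg

namespace Cfsg.Agent.S4135

open Subgroup Cfsg.Agent.H69 Cfsg.Agent.H4.TwoSize

section base

variable {G : Type*} [Group G] [Finite G] {N : Subgroup G} {m : ℕ}

theorem cent_ne_top {x : G} (hx : x ∉ center G) : centralizer ({x} : Set G) ≠ ⊤ :=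
  fun h => hx (cent_eq_top_iff.mp h)

theorem cent_eq (h : ∀ x ∈ N, x ∉ center G → (centralizer ({x} : Set G)).index = m)
    {x y : G} (hxN : x ∈ N) (hyN : y ∈ N) (hy : y ∉ center G)
    (hle : centralizer ({x} : Set G) ≤ centralizer ({y} : Set G)) :
    centralizer ({x} : Set G) = centralizer ({y} : Set G) := by
  have hx : x ∉ center G := by
    intro hx
    rw [cent_eq_top_iff.mpr hx, top_le_iff] at hle
    exact cent_ne_top hy hle
  have h1 : (centralizer ({x} : Set G)).relIndex (centralizer ({y} : Set G)) = 1 := by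
    have h2 := relIndex_mul_index hle
    rw [h x hxN hx, h y hyN hy] at h2
    have hn : 0 < m := by
      rw [← h x hxN hx]; exact Nat.pos_of_ne_zero index_ne_zero_of_finite
    exact Nat.eq_of_mul_eq_mul_right hn (by rw [h2, one_mul])
  exact le_antisymm hle (relIndex_eq_one.mp h1)

theorem cent_le (h : ∀ x ∈ N, x ∉ center G → (centralizer ({x} : Set G)).index = m)
    {x y : G} (hxN : x ∈ N) (hyN : y ∈ N) (hx : x ∉ center G) (hc : Commute x y)
    (hco : (orderOf x).Coprime (orderOf y)) :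
    centralizer ({x} : Set G) ≤ centralizer ({y} : Set G) := by
  rw [← cent_eq h (mul_mem hxN hyN) hxN hx (cent_mul_le_left hc hco)]
  exact cent_mul_le_right hc hco

theorem mem_of_rpow {r : ℕ} [Fact r.Prime] [N.Normal] (R : Sylow r G)
    (hRN : (R : Subgroup G) ≤ N) {x : G} {k : ℕ} (hx : orderOf x = r ^ k) : x ∈ N := by
  have : IsPGroup r (zpowers x) := IsPGroup.of_card (n := k) (by rw [Nat.card_zpowers, hx])
  obtain ⟨P, hP⟩ := this.exists_le_sylow
  obtain ⟨g, hg⟩ := MulAction.exists_smul_eq G R P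
  have h1 : x ∈ (P : Subgroup G) := hP (mem_zpowers x)
  rw [← hg, Sylow.smul_def, Sylow.pointwise_smul_def,
    Subgroup.mem_pointwise_smul_iff_inv_smul_mem] at h1
  have h2 : g⁻¹ * x * g⁻¹⁻¹ ∈ N := by
    have := hRN h1
    rwa [← map_inv, MulAut.smul_def, MulAut.conj_apply] at this
  have h3 := Normal.conj_mem ‹N.Normal› _ h2 g
  have e : g * (g⁻¹ * x * g⁻¹⁻¹) * g⁻¹ = x := by group
  rwa [e] at h3

theorem exists_noncentral_mem
    {q : ℕ} (hq : q.Prime) {x : G} {k : ℕ} (hx : x ∉ center G) (hxk : orderOf x = q ^ k)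
    {y : G} (hxy : (centralizer ({x} : Set G)).index = (centralizer ({y} : Set G)).index) :
    ∃ w ∈ centralizer ({y} : Set G), w ∉ center G ∧ ∃ l, orderOf w = q ^ l := by
  haveI : Fact q.Prime := ⟨hq⟩
  have hcard : (center G).relIndex (centralizer ({x} : Set G)) =
      (center G).relIndex (centralizer ({y} : Set G)) := by
    have h1 : ∀ z : G,
        (center G).relIndex (centralizer ({z} : Set G)) * (centralizer ({z} : Set G)).index
          = (center G).index := by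
      intro z
      exact relIndex_mul_index (center_le_centralizer _)
    have hn : 0 < (centralizer ({x} : Set G)).index := Nat.pos_of_ne_zero index_ne_zero_of_finite
    exact Nat.eq_of_mul_eq_mul_right hn (by rw [h1 x, hxy, h1 y])
  -- q divides |C(x) : Z|
  have hqx : q ∣ (center G).relIndex (centralizer ({x} : Set G)) := by
    by_contra hcon
    set D := centralizer ({x} : Set G) with hD
    have hxD : x ∈ D := mem_cent_singleton.mpr rfl
    have h1 : orderOf (QuotientGroup.mk (⟨x, hxD⟩ : D) : D ⧸ (center G).subgroupOf D) ∣ q ^ k := by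
      apply orderOf_dvd_of_pow_eq_one
      rw [← QuotientGroup.mk_pow, QuotientGroup.eq_one_iff]
      have : (⟨x, hxD⟩ : D) ^ q ^ k = 1 := by
        apply Subtype.ext
        show x ^ q ^ k = 1
        rw [← hxk, pow_orderOf_eq_one]
      rw [this]; exact one_mem _
    have h2 := orderOf_dvd_natCard (QuotientGroup.mk (⟨x, hxD⟩ : D) : D ⧸ (center G).subgroupOf D)
    have h3 : (q ^ k).Coprime (Nat.card (D ⧸ (center G).subgroupOf D)) :=
      Nat.Coprime.pow_left k ((Nat.Prime.coprime_iff_not_dvd hq).mpr hcon)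
    have h4 := Nat.Coprime.eq_one_of_dvd (Nat.Coprime.coprime_dvd_left h1 h3) h2
    rw [orderOf_eq_one_iff, QuotientGroup.eq_one_iff, mem_subgroupOf] at h4
    exact hx h4
  rw [hcard] at hqx
  set D := centralizer ({y} : Set G) with hD
  obtain ⟨t, ht⟩ := exists_prime_orderOf_dvd_card' (G := D ⧸ (center G).subgroupOf D) q hqx
  obtain ⟨g, rfl⟩ := QuotientGroup.mk_surjective t
  obtain ⟨a, b, hab, hak, hb⟩ := Transfer.exists_pow_decomp q (g : G) (orderOf_pos _).ne'
  have hbZ : (g : G) ^ b ∈ center G := by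
    have h1 : orderOf ((QuotientGroup.mk g : D ⧸ (center G).subgroupOf D) ^ b) ∣ q := by
      rw [← ht]; exact orderOf_pow_dvd b
    have h2 : orderOf ((QuotientGroup.mk g : D ⧸ (center G).subgroupOf D) ^ b) ∣ orderOf ((g : G) ^ b) := by
      apply orderOf_dvd_of_pow_eq_one
      rw [← QuotientGroup.mk_pow, ← QuotientGroup.mk_pow]
      have : (g ^ b) ^ orderOf ((g : G) ^ b) = 1 := by
        apply Subtype.ext
        show ((g : G) ^ b) ^ orderOf ((g : G) ^ b) = 1
        exact pow_orderOf_eq_one _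
      rw [this]; rfl
    have h3 := Nat.Coprime.eq_one_of_dvd (Nat.Coprime.coprime_dvd_left h2 hb) h1
    rw [orderOf_eq_one_iff, ← QuotientGroup.mk_pow, QuotientGroup.eq_one_iff, mem_subgroupOf] at h3
    exact h3
  refine ⟨(g : G) ^ a, pow_mem g.2 a, ?_, hak⟩
  intro haZ
  have : (g : G) ∈ center G := by rw [hab]; exact mul_mem haZ hbZ
  have h4 : (QuotientGroup.mk g : D ⧸ (center G).subgroupOf D) = 1 := by
    rw [QuotientGroup.eq_one_iff, mem_subgroupOf]; exact this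
  rw [h4, orderOf_one] at ht
  exact hq.one_lt.ne ht

/-- a noncentral element has a noncentral power of prime power order -/
theorem exists_noncentral_pow (n : ℕ) : ∀ g : G, g ∉ center G → orderOf g ≤ n →
    ∃ (r k m : ℕ), r.Prime ∧ r ∣ orderOf g ∧ g ^ m ∉ center G ∧ orderOf (g ^ m) = r ^ k := by
  induction n with
  | zero => intro g _ hN; exact absurd (orderOf_pos g) (by omega)
  | succ n ih =>
    intro g hg hN
    have h1 : orderOf g ≠ 1 := by
      intro h; rw [orderOf_eq_one_iff] at h; rw [h] at hg; exact hg (one_mem _)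
    obtain ⟨r, hr, hrg⟩ := Nat.exists_prime_and_dvd h1
    haveI : Fact r.Prime := ⟨hr⟩
    obtain ⟨a, b, hab, ⟨k, hk⟩, hb⟩ := Transfer.exists_pow_decomp r g (orderOf_pos g).ne'
    by_cases ha : g ^ a ∈ center G
    · have hb' : g ^ b ∉ center G := by
        intro h; apply hg; rw [hab]; exact mul_mem ha h
      have hlt : orderOf (g ^ b) < orderOf g := by
        refine lt_of_le_of_ne (Nat.le_of_dvd (orderOf_pos g) (orderOf_pow_dvd b)) ?_
        intro h
        rw [h] at hb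
        exact hr.one_lt.ne' (Nat.Coprime.eq_one_of_dvd hb.symm hrg)
      obtain ⟨r', k', m', h2, h3, h4, h5⟩ := ih (g ^ b) hb' (by omega)
      exact ⟨r', k', b * m', h2, h3.trans (orderOf_pow_dvd b), by rw [pow_mul]; exact h4,
        by rw [pow_mul]; exact h5⟩
    · exact ⟨r, k, a, hr, hrg, ha, hk⟩

/-- conjugation into a Sylow subgroup of a normal subgroup -/
theorem conj_sylow {q : ℕ} [Fact q.Prime] [N.Normal] (Q : Sylow q N) (g : G) :
    ∃ n : N, ∀ x : N, x ∈ Q → ∃ y : N, y ∈ Q ∧ (x : G) = n * (g * y * g⁻¹) * (n : G)⁻¹ := by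
  obtain ⟨n, hn⟩ := MulAction.exists_smul_eq N ((MulAut.conjNormal g : MulAut N) • Q) Q
  refine ⟨n, fun x hx => ?_⟩
  have h1 : x ∈ (Q : Subgroup N) := hx
  rw [← hn, Sylow.smul_def, Sylow.pointwise_smul_def,
    Subgroup.mem_pointwise_smul_iff_inv_smul_mem, Sylow.pointwise_smul_def,
    Subgroup.mem_pointwise_smul_iff_inv_smul_mem] at h1
  refine ⟨_, h1, ?_⟩
  rw [← map_inv, ← map_inv, MulAut.smul_def, MulAut.smul_def, MulAut.conjNormal_apply,
    MulAut.conj_apply]
  push_cast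
  group

/-- conjugates into the centralizer of an element of a Sylow subgroup of `N` -/
theorem conj_comm {q : ℕ} [Fact q.Prime] [N.Normal] (Q : Sylow q N) (Qs : Sylow q G)
    (hQs : ∀ x : N, x ∈ Q → (x : G) ∈ Qs) {x : G} (hx : ¬ q ∣ (centralizer ({x} : Set G)).index) :
    ∃ n : N, ∀ y : N, y ∈ Q → Commute (n⁻¹ * x * n : G) y := by
  obtain ⟨P, hP⟩ := exists_sylow_le_of_not_dvd_index hx
  obtain ⟨g, hg⟩ := MulAction.exists_smul_eq G Qs P
  obtain ⟨n, hn⟩ := conj_sylow Q g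
  refine ⟨n⁻¹, fun y hy => ?_⟩
  obtain ⟨z, hz, hyz⟩ := hn y hy
  have h1 : g * z * g⁻¹ ∈ (P : Subgroup G) := by
    rw [← hg, Sylow.smul_def, Sylow.pointwise_smul_def,
      Subgroup.mem_pointwise_smul_iff_inv_smul_mem, ← map_inv, MulAut.smul_def, MulAut.conj_apply]
    have := hQs z hz
    have e : g⁻¹ * (g * z * g⁻¹) * g⁻¹⁻¹ = z := by group
    rw [e]; exact this
  have h2 := mem_cent_singleton.mp (hP h1)
  show (((n⁻¹ : N) : G)⁻¹ * x * (n⁻¹ : N)) * y = y * (((n⁻¹ : N) : G)⁻¹ * x * (n⁻¹ : N))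
  rw [hyz]
  push_cast
  obtain ⟨c, hc⟩ : ∃ c : G, c = g * z * g⁻¹ := ⟨_, rfl⟩
  rw [← hc] at h2 ⊢
  calc (((n : G)⁻¹)⁻¹ * x * (n : G)⁻¹) * (n * c * (n : G)⁻¹) = n * (x * c) * (n : G)⁻¹ := by group
    _ = n * (c * x) * (n : G)⁻¹ := by rw [h2]
    _ = _ := by group

theorem case1 {r : ℕ} [Fact r.Prime] [N.Normal] (R : Sylow r G)
    (hRN : (R : Subgroup G) ≤ N) (hR : ¬ (R : Subgroup G) ≤ center G)
    (h : ∀ x ∈ N, x ∉ center G → (centralizer ({x} : Set G)).index = m) (hrm : ¬ r ∣ m) :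
    Group.IsNilpotent N := by
  have hr : r.Prime := Fact.out
  set RN : Sylow r N := R.subtype hRN with hRNdef
  have hmemR : ∀ x : N, x ∈ RN ↔ (x : G) ∈ R := fun x => Iff.rfl
  -- N centralizes R
  have h1 : (centralizer ((R : Subgroup G) : Set G)).subgroupOf N = ⊤ := by
    apply eq_top_of_forall_conj_mem
    intro x
    have hx : ¬ r ∣ (centralizer ({(x : G)} : Set G)).index := by
      by_cases hxc : (x : G) ∈ center G
      · rw [cent_eq_top_iff.mpr hxc, index_top]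
        exact hr.one_lt.ne' ∘ Nat.dvd_one.mp
      · rw [h x x.2 hxc]; exact hrm
    obtain ⟨n, hn⟩ := conj_comm RN R (fun x hx => (hmemR x).mp hx) hx
    refine ⟨n⁻¹, ?_⟩
    rw [mem_subgroupOf, mem_centralizer_iff]
    intro y hy
    have := hn ⟨y, hRN hy⟩ hy
    push_cast
    rw [inv_inv]
    exact this.eq.symm
  have h2 : ∀ x ∈ N, ∀ y ∈ (R : Subgroup G), y * x = x * y := by
    intro x hx y hy
    have : (⟨x, hx⟩ : N) ∈ (centralizer ((R : Subgroup G) : Set G)).subgroupOf N := by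
      rw [h1]; exact mem_top _
    exact mem_centralizer_iff.mp (mem_subgroupOf.mp this) y hy
  obtain ⟨z, hzR, hzZ⟩ := SetLike.not_le_iff_exists.mp hR
  obtain ⟨l, hl⟩ := orderOf_of_mem_isPGroup R.2 hzR
  -- N is commutative
  have h3 : ∀ x ∈ N, ∀ y ∈ N, x * y = y * x := by
    intro x hx y hy
    obtain ⟨a, b, hab, ⟨k, hk⟩, hb⟩ := Transfer.exists_pow_decomp r x (orderOf_pos x).ne'
    have hxa : x ^ a ∈ R := by
      have : IsPGroup r (zpowers (⟨x ^ a, pow_mem hx a⟩ : N)) :=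
        IsPGroup.of_card (n := k) (by rw [Nat.card_zpowers, Subgroup.orderOf_mk, hk])
      obtain ⟨P, hP⟩ := this.exists_le_sylow
      obtain ⟨n, hn⟩ := MulAction.exists_smul_eq N RN P
      have h4 : (⟨x ^ a, pow_mem hx a⟩ : N) ∈ (P : Subgroup N) := hP (mem_zpowers _)
      rw [← hn, Sylow.smul_def, Sylow.pointwise_smul_def,
        Subgroup.mem_pointwise_smul_iff_inv_smul_mem, ← map_inv, MulAut.smul_def,
        MulAut.conj_apply] at h4
      have h5 : ((n : G)⁻¹ * x ^ a * n) ∈ (R : Subgroup G) := by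
        have := (hmemR _).mp h4
        push_cast at this
        rwa [inv_inv] at this
      have h6 := h2 n n.2 _ h5
      have h7 : ((n : G)⁻¹ * x ^ a * n) = x ^ a := by
        have : (n : G) * ((n : G)⁻¹ * x ^ a * n) = x ^ a * n := by group
        rw [← h6] at this
        exact mul_right_cancel this
      rw [h7] at h5; exact h5
    have hxb : x ^ b * y = y * x ^ b := by
      by_cases hbZ : x ^ b ∈ center G
      · exact (mem_center_iff.mp hbZ y).symm
      · have hc : Commute z (x ^ b) := h2 _ (pow_mem hx b) z hzR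
        have h8 := cent_le h (hRN hzR) (pow_mem hx b) hzZ hc
          (by rw [hl]; exact Nat.Coprime.pow_left _ hb.symm)
        exact mem_cent_singleton.mp (h8 (mem_cent_singleton.mpr (h2 y hy z hzR)))
    have hxa' : x ^ a * y = y * x ^ a := h2 y hy _ hxa
    rw [hab]
    exact ((show Commute (x ^ a) y from hxa').mul_left (show Commute (x ^ b) y from hxb)).eq
  letI : CommGroup N := { (inferInstance : Group N) with
    mul_comm := fun a b => Subtype.ext (h3 a a.2 b b.2) }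
  exact (CommGroup.isNilpotent : Group.IsNilpotent N)

theorem case2a {r : ℕ} [Fact r.Prime]
    (h : ∀ x ∈ N, (orderOf x).Coprime r → x ∈ center G) :
    Group.IsNilpotent N := by
  have h1 : IsPGroup r (N ⧸ center N) := by
    intro q
    obtain ⟨x, rfl⟩ := QuotientGroup.mk_surjective q
    obtain ⟨a, b, hab, ⟨k, hk⟩, hb⟩ := Transfer.exists_pow_decomp r (x : G) (orderOf_pos _).ne'
    refine ⟨k, ?_⟩
    rw [← QuotientGroup.mk_pow, QuotientGroup.eq_one_iff]
    have h2 : (x : G) ^ b ∈ center G := h _ (pow_mem x.2 b) hb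
    have h3 : (x : G) ^ r ^ k = ((x : G) ^ b) ^ r ^ k := by
      have hc : Commute ((x : G) ^ a) ((x : G) ^ b) := (Commute.refl (x : G)).pow_pow a b
      conv_lhs => rw [hab]
      rw [hc.mul_pow, ← hk, pow_orderOf_eq_one, one_mul]
    rw [mem_center_iff]
    intro y
    apply Subtype.ext
    show (y : G) * (x : G) ^ r ^ k = (x : G) ^ r ^ k * y
    rw [h3]
    exact mem_center_iff.mp (pow_mem h2 _) y
  exact Group.of_quotient_center_nilpotent h1.isNilpotent

theorem exists_abs.{u} {G : Type u} [Group G] (B : Subgroup G) (hB : ∀ a ∈ B, ∀ b ∈ B, a * b = b * a) :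
    ∃ (X : Type u) (_ : CommGroup X) (ι : X →* G) (cj : normalizer (B : Set G) →* MulAut X),
      Function.Injective ι ∧ (∀ g, g ∈ B ↔ ∃ x, ι x = g) ∧
      ∀ (g : normalizer (B : Set G)) (x : X), ι (cj g x) = g * ι x * (g : G)⁻¹ := by
  letI : CommGroup B := { (inferInstance : Group B) with
    mul_comm := fun a b => Subtype.ext (hB a a.2 b b.2) }
  exact ⟨B, inferInstance, B.subtype, B.normalizerMonoidHom, B.subtype_injective,
    fun g => ⟨fun h => ⟨⟨g, h⟩, rfl⟩, fun ⟨x, hx⟩ => hx ▸ x.2⟩, fun g x => rfl⟩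

theorem case2b {r : ℕ} [Fact r.Prime] [N.Normal] (R : Sylow r G)
    (hRN : (R : Subgroup G) ≤ N) (hR : ¬ (R : Subgroup G) ≤ center G)
    (h : ∀ x ∈ N, x ∉ center G → (centralizer ({x} : Set G)).index = m) (hrm : r ∣ m)
    {y : G} (hyN : y ∈ N) (hyr : (orderOf y).Coprime r) (hyZ : y ∉ center G) : False := by
  have hr : r.Prime := Fact.out
  obtain ⟨z, hzR, hzZ⟩ := SetLike.not_le_iff_exists.mp hR
  obtain ⟨l, hl⟩ := orderOf_of_mem_isPGroup R.2 hzR
  obtain ⟨w, hwC, hwZ, lw, hlw⟩ := exists_noncentral_mem hr hzZ hl (y := y)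
    (by rw [h z (hRN hzR) hzZ, h y hyN hyZ])
  have hwN : w ∈ N := mem_of_rpow R hRN hlw
  obtain ⟨C, hC⟩ : ∃ C, C = centralizer ({y} : Set G) := ⟨_, rfl⟩
  have hyw : Commute y w := mem_cent_singleton.mp hwC
  rw [← hC] at hwC
  have hCidx : C.index = m := by rw [hC]; exact h y hyN hyZ
  have hCw : centralizer ({w} : Set G) = C := by
    rw [hC]
    have h1 := cent_le h hyN hwN hyZ hyw (by rw [hlw]; exact Nat.Coprime.pow_right _ hyr)
    exact (cent_eq h hyN hwN hwZ h1).symm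
  -- S2
  have hS2 : ∀ b ∈ C, b ∈ N → C ≤ centralizer ({b} : Set G) := by
    intro b hbC hbN
    obtain ⟨a, c, hab, ⟨k, hk⟩, hb⟩ := Transfer.exists_pow_decomp r b (orderOf_pos b).ne'
    have h1 : C ≤ centralizer ({b ^ a} : Set G) := by
      rw [hC] at hbC ⊢
      have hyb : Commute y b := mem_cent_singleton.mp hbC
      exact cent_le h hyN (pow_mem hbN a) hyZ (hyb.pow_right a)
        (by rw [hk]; exact Nat.Coprime.pow_right _ hyr)
    have h2 : C ≤ centralizer ({b ^ c} : Set G) := by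
      rw [← hCw] at hbC ⊢
      have hyb : Commute w b := mem_cent_singleton.mp hbC
      exact cent_le h hwN (pow_mem hbN c) hwZ (hyb.pow_right c)
        (by rw [hlw]; exact Nat.Coprime.pow_left _ hb.symm)
    intro t ht
    rw [mem_cent_singleton, hab]
    exact ((show Commute (b ^ a) t from mem_cent_singleton.mp (h1 ht)).mul_left
      (show Commute (b ^ c) t from mem_cent_singleton.mp (h2 ht))).eq
  have hS2' : ∀ b ∈ C, b ∈ N → b ∉ center G → centralizer ({b} : Set G) = C := by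
    intro b hbC hbN hbZ
    have := hS2 b hbC hbN
    rw [hC] at this ⊢
    exact (cent_eq h hyN hbN hbZ this).symm
  obtain ⟨B, hB⟩ : ∃ B, B = C ⊓ N := ⟨_, rfl⟩
  have hBC : ∀ a ∈ B, a ∈ C := fun a ha => by rw [hB] at ha; exact ha.1
  have hBN : ∀ a ∈ B, a ∈ N := fun a ha => by rw [hB] at ha; exact ha.2
  have hBc : ∀ a ∈ B, ∀ c ∈ C, a * c = c * a := fun a ha c hc =>
    mem_cent_singleton.mp (hS2 a (hBC a ha) (hBN a ha) hc)
  have hyC : y ∈ C := by rw [hC]; exact mem_cent_singleton.mpr rfl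
  have hyB : y ∈ B := by rw [hB]; exact ⟨hyC, hyN⟩
  have hwB : w ∈ B := by rw [hB]; exact ⟨hwC, hwN⟩
  have hcD : ∀ D : Subgroup G, D ≤ B → (∃ d ∈ D, d ∉ center G) →
      centralizer (D : Set G) = C := by
    rintro D hD ⟨d, hdD, hdZ⟩
    apply le_antisymm
    · rw [← hS2' d (hBC d (hD hdD)) (hBN d (hD hdD)) hdZ]
      exact centralizer_le (by simpa using hdD)
    · intro c hc
      rw [mem_centralizer_iff]
      intro a ha
      exact hBc a (hD ha) c hc
  have hnD : ∀ D : Subgroup G, D ≤ B → (∃ d ∈ D, d ∉ center G) →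
      normalizer (D : Set G) ≤ normalizer (B : Set G) := by
    intro D hD hd
    rw [hB]
    refine H47.le_normalizer_inf ?_ ?_
    · have := H47.normalizer_le_normalizer_centralizer D
      rwa [hcD D hD hd] at this
    · rw [normalizer_eq_top N]; exact le_top
  obtain ⟨X, instX, ι, cj, hι, hιB, hcj⟩ := exists_abs B (fun a ha b hb => hBc a ha b (hBC b hb))
  haveI : Finite X := Finite.of_injective ι hι
  have hιm : ∀ x, ι x ∈ B := fun x => (hιB _).mpr ⟨x, rfl⟩
  obtain ⟨Z0, hZ0⟩ : ∃ Z0 : Subgroup X, Z0 = (center G).comap ι := ⟨_, rfl⟩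
  have hZ0m : ∀ x, x ∈ Z0 ↔ ι x ∈ center G := fun x => by rw [hZ0]; rfl
  obtain ⟨H, hH⟩ : ∃ H : Subgroup (MulAut X), H = (N.subgroupOf (normalizer (B : Set G))).map cj :=
    ⟨_, rfl⟩
  have hHm : ∀ α, α ∈ H ↔ ∃ g : normalizer (B : Set G), (g : G) ∈ N ∧ cj g = α := by
    intro α
    rw [hH, mem_map]
    rfl
  have hcj1 : ∀ g : normalizer (B : Set G), (g : G) ∈ C → cj g = 1 := by
    intro g hg
    apply MulEquiv.ext
    intro x
    apply hι
    rw [hcj, ← hBc _ (hιm x) _ hg, mul_inv_cancel_right]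
    rfl
  have hcj2 : ∀ (g : normalizer (B : Set G)) (x : X), x ∉ Z0 → cj g x = x → (g : G) ∈ C := by
    intro g x hx hgx
    have h1 := hcj g x
    rw [hgx] at h1
    rw [← hS2' (ι x) (hBC _ (hιm x)) (hBN _ (hιm x)) (fun hh => hx ((hZ0m x).mpr hh)),
      mem_cent_singleton]
    rw [eq_mul_inv_iff_mul_eq] at h1
    exact h1
  have hfix : ∀ α ∈ H, ∀ x ∈ Z0, α x = x := by
    intro α hα x hx
    obtain ⟨g, hg, rfl⟩ := (hHm α).mp hα
    apply hι
    rw [hcj, mem_center_iff.mp ((hZ0m x).mp hx) g, mul_inv_cancel_right]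
  have hsemi : ∀ α ∈ H, α ≠ 1 → ∀ x, α x = x → x ∈ Z0 := by
    intro α hα hα1 x hx
    obtain ⟨g, hg, rfl⟩ := (hHm α).mp hα
    by_contra hxZ
    exact hα1 (hcj1 g (hcj2 g x hxZ hx))
  obtain ⟨w0, hw0⟩ := (hιB w).mp hwB
  obtain ⟨y0, hy0⟩ := (hιB y).mp hyB
  have hw0Z : w0 ∉ Z0 := fun hh => hwZ (by rw [← hw0]; exact (hZ0m w0).mp hh)
  have hy0Z : y0 ∉ Z0 := fun hh => hyZ (by rw [← hy0]; exact (hZ0m y0).mp hh)
  have hw0k : w0 ^ (r ^ lw) = 1 := by
    apply hι
    rw [map_pow, hw0, ← hlw, pow_orderOf_eq_one, map_one]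
  have hy0k : y0 ^ (orderOf y) = 1 := by
    apply hι
    rw [map_pow, hy0, pow_orderOf_eq_one, map_one]
  -- S3
  have hrH : r ∣ Nat.card H := by
    obtain ⟨S, hwS⟩ : ∃ S : Sylow r C, (⟨w, hwC⟩ : C) ∈ (S : Subgroup C) := by
      have : IsPGroup r (zpowers (⟨w, hwC⟩ : C)) :=
        IsPGroup.of_card (n := lw) (by rw [Nat.card_zpowers, Subgroup.orderOf_mk, hlw])
      obtain ⟨P, hP⟩ := this.exists_le_sylow
      exact ⟨P, hP (mem_zpowers _)⟩
    obtain ⟨R0, hR0⟩ : ∃ R0 : Subgroup G, R0 = (S : Subgroup C).map C.subtype := ⟨_, rfl⟩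
    have hR0p : IsPGroup r R0 := by rw [hR0]; exact S.2.map _
    have hwR0 : w ∈ R0 := by rw [hR0]; exact ⟨_, hwS, rfl⟩
    have hR0C : R0 ≤ C := by rw [hR0]; exact map_subtype_le _
    have hR0B : R0 ≤ B := by
      intro x hx
      obtain ⟨j, hj⟩ := orderOf_of_mem_isPGroup hR0p hx
      rw [hB]
      exact ⟨hR0C hx, mem_of_rpow R hRN hj⟩
    obtain ⟨R1, hR1⟩ := hR0p.exists_le_sylow
    have hmax : ∀ d ∈ (R1 : Subgroup G), d ∈ C → d ∈ R0 := by
      intro d hd hdC
      have h1 : (S : Subgroup C) ≤ (R1 : Subgroup G).subgroupOf C := by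
        intro x hx
        rw [mem_subgroupOf]
        apply hR1
        rw [hR0]
        exact ⟨x, hx, rfl⟩
      have h2 : IsPGroup r ((R1 : Subgroup G).subgroupOf C) :=
        R1.2.comap_of_injective _ C.subtype_injective
      have h3 := S.3 h2 h1
      have h4 : (⟨d, hdC⟩ : C) ∈ (R1 : Subgroup G).subgroupOf C := hd
      rw [h3] at h4
      rw [hR0]
      exact ⟨_, h4, rfl⟩
    have hlt : R0 < (R1 : Subgroup G) := by
      refine lt_of_le_of_ne hR1 ?_
      intro he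
      have h1 : (R1 : Subgroup G) ≤ C := by rw [← he]; exact hR0C
      have h2 := not_dvd_index_of_sylow_le R1 h1
      rw [hCidx] at h2
      exact h2 hrm
    obtain ⟨d, hd, hdR0⟩ := SetLike.exists_of_lt (Transfer.lt_normalizer_inf_of_isPGroup R1.2 hlt)
    have hdC : d ∉ C := fun hh => hdR0 (hmax d hd.2 hh)
    obtain ⟨j, hj⟩ := orderOf_of_mem_isPGroup R1.2 hd.2
    have hdN : d ∈ N := mem_of_rpow R hRN hj
    have hdB : d ∈ normalizer (B : Set G) := hnD R0 hR0B ⟨w, hwR0, hwZ⟩ hd.1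
    obtain ⟨δ, hδ⟩ : ∃ δ : MulAut X, δ = cj ⟨d, hdB⟩ := ⟨_, rfl⟩
    have hδH : δ ∈ H := (hHm δ).mpr ⟨_, hdN, hδ.symm⟩
    have hδ1 : δ ≠ 1 := by
      intro hh
      apply hdC
      refine hcj2 ⟨d, hdB⟩ w0 hw0Z ?_
      rw [← hδ, hh]; rfl
    have hδk : δ ^ r ^ j = 1 := by
      rw [hδ, ← map_pow]
      have : (⟨d, hdB⟩ : normalizer (B : Set G)) ^ r ^ j = 1 := by
        apply Subtype.ext
        show d ^ r ^ j = 1
        rw [← hj, pow_orderOf_eq_one]
      rw [this, map_one]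
    have h1 : orderOf (⟨δ, hδH⟩ : H) ∣ r ^ j := by
      apply orderOf_dvd_of_pow_eq_one
      exact Subtype.ext hδk
    obtain ⟨i, -, hi⟩ := (Nat.dvd_prime_pow hr).mp h1
    have hi0 : i ≠ 0 := by
      rintro rfl
      rw [pow_zero, orderOf_eq_one_iff] at hi
      exact hδ1 (congrArg Subtype.val hi)
    exact (dvd_pow_self r hi0).trans (hi ▸ orderOf_dvd_natCard _)
  have hHr : IsPGroup r H := isPGroup_of_semi H Z0 hfix hsemi hw0Z hw0k hyr hy0Z hy0k hrH
  -- S4
  obtain ⟨q, k, j, hq, hqy, hy1Z, hy1k⟩ := exists_noncentral_pow (orderOf y) y hyZ le_rfl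
  haveI : Fact q.Prime := ⟨hq⟩
  have hqr : q ≠ r := by
    rintro rfl
    exact hq.one_lt.ne' (Nat.Coprime.eq_one_of_dvd hyr.symm hqy)
  have hcoqr : ∀ a b, (q ^ a).Coprime (r ^ b) := fun a b =>
    Nat.Coprime.pow a b ((Nat.coprime_primes hq hr).mpr hqr)
  obtain ⟨y1, hy1⟩ : ∃ y1, y1 = y ^ j := ⟨_, rfl⟩
  rw [← hy1] at hy1Z hy1k
  have hy1B : y1 ∈ B := by rw [hy1]; exact pow_mem hyB j
  have hy1N := hBN _ hy1B
  obtain ⟨Q, hyQ⟩ : ∃ Q : Sylow q N, (⟨y1, hy1N⟩ : N) ∈ (Q : Subgroup N) := by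
    have : IsPGroup q (zpowers (⟨y1, hy1N⟩ : N)) :=
      IsPGroup.of_card (n := k) (by rw [Nat.card_zpowers, Subgroup.orderOf_mk, hy1k])
    obtain ⟨P, hP⟩ := this.exists_le_sylow
    exact ⟨P, hP (mem_zpowers _)⟩
  obtain ⟨Q0, hQ0⟩ : ∃ Q0 : Subgroup G, Q0 = (Q : Subgroup N).map N.subtype := ⟨_, rfl⟩
  have hQ0q : IsPGroup q Q0 := by rw [hQ0]; exact Q.2.map _
  have hQ0N : Q0 ≤ N := by rw [hQ0]; exact map_subtype_le _
  have hy1Q0 : y1 ∈ Q0 := by rw [hQ0]; exact ⟨_, hyQ, rfl⟩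
  have hQ0B : Q0 ≤ B := by
    by_contra hcon
    have hlt : Q0 ⊓ B < Q0 := lt_of_le_of_ne inf_le_left (fun he => hcon (he ▸ inf_le_right))
    obtain ⟨x, hx, hxD⟩ := SetLike.exists_of_lt (Transfer.lt_normalizer_inf_of_isPGroup hQ0q hlt)
    have hxB : x ∈ normalizer (B : Set G) := hnD _ inf_le_right ⟨y1, ⟨hy1Q0, hy1B⟩, hy1Z⟩ hx.1
    have hxN : x ∈ N := hQ0N hx.2
    have hαH : cj ⟨x, hxB⟩ ∈ H := (hHm _).mpr ⟨_, hxN, rfl⟩
    obtain ⟨a, ha⟩ := orderOf_of_mem_isPGroup hHr hαH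
    obtain ⟨b, hb⟩ := orderOf_of_mem_isPGroup hQ0q hx.2
    have h1 : orderOf (cj ⟨x, hxB⟩) ∣ q ^ b := by
      apply orderOf_dvd_of_pow_eq_one
      rw [← map_pow]
      have : (⟨x, hxB⟩ : normalizer (B : Set G)) ^ q ^ b = 1 := by
        apply Subtype.ext
        show x ^ q ^ b = 1
        rw [← hb, pow_orderOf_eq_one]
      rw [this, map_one]
    have h2 : orderOf (cj ⟨x, hxB⟩) = 1 := by
      have h3 : orderOf (cj ⟨x, hxB⟩) ∣ r ^ a := by rw [ha]
      exact Nat.Coprime.eq_one_of_dvd (Nat.Coprime.coprime_dvd_left h1 (hcoqr b a)) h3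
    rw [orderOf_eq_one_iff] at h2
    have hxC : x ∈ C := hcj2 ⟨x, hxB⟩ y0 hy0Z (by rw [h2]; rfl)
    exact hxD ⟨hx.2, by rw [hB]; exact ⟨hxC, hxN⟩⟩
  obtain ⟨Qs, hQs⟩ := hQ0q.exists_le_sylow
  have hmaxQ : ∀ d ∈ (Qs : Subgroup G), d ∈ N → d ∈ Q0 := by
    intro d hd hdN
    have h1 : (Q : Subgroup N) ≤ (Qs : Subgroup G).subgroupOf N := by
      intro x hx
      rw [mem_subgroupOf]
      apply hQs
      rw [hQ0]
      exact ⟨x, hx, rfl⟩
    have h2 : IsPGroup q ((Qs : Subgroup G).subgroupOf N) :=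
      Qs.2.comap_of_injective _ N.subtype_injective
    have h3 := Q.3 h2 h1
    have h4 : (⟨d, hdN⟩ : N) ∈ (Qs : Subgroup G).subgroupOf N := hd
    rw [h3] at h4
    rw [hQ0]
    exact ⟨_, h4, rfl⟩
  have hQeq : Q0 = (Qs : Subgroup G) ⊓ N :=
    le_antisymm (le_inf hQs hQ0N) (fun d hd => hmaxQ d hd.1 hd.2)
  have hQsB : (Qs : Subgroup G) ≤ normalizer (B : Set G) := by
    refine le_trans ?_ (hnD Q0 hQ0B ⟨y1, hy1Q0, hy1Z⟩)
    rw [hQeq]
    refine H47.le_normalizer_inf le_normalizer ?_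
    rw [normalizer_eq_top N]; exact le_top
  obtain ⟨α0, hα0H, hα01⟩ : ∃ α ∈ H, α ≠ 1 := by
    by_contra hcon
    push Not at hcon
    have : H = ⊥ := by rw [eq_bot_iff]; intro x hx; rw [mem_bot]; exact hcon x hx
    rw [this, card_bot] at hrH
    exact hr.one_lt.ne' (Nat.dvd_one.mp hrH)
  have hnuZ : ∀ x, nu H x ∈ Z0 := by
    intro x
    refine hsemi α0 hα0H hα01 _ ?_
    rw [← nu_comm (fun β hβ => mul_mem (mul_mem hα0H hβ) (inv_mem hα0H)), nu_smul hα0H]
  have hqm : ¬ q ∣ m := by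
    obtain ⟨T, hT⟩ : ∃ T : Subgroup X, T = pt X (q ^ k) ⊓ (nu H).ker := ⟨_, rfl⟩
    have hTm : ∀ x, x ∈ T ↔ x ^ q ^ k = 1 ∧ nu H x = 1 := by
      intro x
      rw [hT, mem_inf, mem_pt, MonoidHom.mem_ker]
    have hTne : T ≠ ⊥ := by
      intro hbot
      obtain ⟨V, hV⟩ : ∃ V : Subgroup X, V = pt X (q ^ k) := ⟨_, rfl⟩
      have hVm : ∀ x, x ∈ V ↔ x ^ q ^ k = 1 := by intro x; rw [hV, mem_pt]
      have hcard : Nat.card V ≤ Nat.card ↥(V ⊓ Z0) := by
        let f : V → ↥(V ⊓ Z0) := fun v => ⟨nu H v, by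
          refine mem_inf.mpr ⟨?_, hnuZ _⟩
          rw [hVm, ← map_pow, (hVm _).mp v.2, map_one]⟩
        refine Nat.card_le_card_of_injective f ?_
        intro a b hab
        have h1 : nu H a = nu H b := congrArg Subtype.val hab
        have h2 : (a : X) * (b : X)⁻¹ ∈ T := by
          rw [hTm]
          refine ⟨(hVm _).mp (mul_mem a.2 (inv_mem b.2)), ?_⟩
          rw [map_mul, map_inv, h1, mul_inv_cancel]
        rw [hbot, mem_bot, mul_inv_eq_one] at h2
        exact Subtype.ext h2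
      have heq : V ⊓ Z0 = V := eq_of_le_of_card_ge inf_le_left hcard
      obtain ⟨y2, hy2⟩ := (hιB y1).mp hy1B
      have h3 : y2 ∈ V := by
        rw [hVm]
        apply hι
        rw [map_pow, hy2, ← hy1k, pow_orderOf_eq_one, map_one]
      rw [← heq] at h3
      apply hy1Z
      rw [← hy2]
      exact (hZ0m y2).mp h3.2
    have hT0q : IsPGroup q (T.map ι) := by
      rintro ⟨x, t, ht, rfl⟩
      refine ⟨k, ?_⟩
      apply Subtype.ext
      show (ι t) ^ q ^ k = 1
      rw [← map_pow, ((hTm t).mp ht).1, map_one]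
    have hT0ne : T.map ι ≠ ⊥ := by
      intro hh
      rw [Subgroup.map_eq_bot_iff_of_injective _ hι] at hh
      exact hTne hh
    obtain ⟨t, htT, ht1, htc⟩ := exists_fixed_of_isPGroup Qs.2 hT0q hT0ne (by
      rintro g hg _ ⟨x, hx, rfl⟩
      refine ⟨cj ⟨g, hQsB hg⟩ x, ?_, hcj _ _⟩
      rw [SetLike.mem_coe, hTm] at hx ⊢
      refine ⟨by rw [← map_pow, hx.1, map_one], ?_⟩
      rw [nu_comm, hx.2, map_one]
      intro β hβ
      obtain ⟨n, hn, rfl⟩ := (hHm β).mp hβ
      refine (hHm _).mpr ⟨⟨g, hQsB hg⟩ * n * ⟨g, hQsB hg⟩⁻¹, ?_, by rw [map_mul, map_mul, map_inv]⟩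
      exact Normal.conj_mem ‹N.Normal› _ hn g)
    obtain ⟨t0, ht0, rfl⟩ := htT
    have ht0' := (hTm t0).mp ht0
    have htZ : ι t0 ∉ center G := by
      intro hh
      apply ht1
      have h1 : t0 ∈ Z0 := (hZ0m t0).mpr hh
      have h2 := nu_fixed (K := H) (x := t0) (fun α hα => hfix α hα t0 h1)
      rw [ht0'.2] at h2
      obtain ⟨c, hc⟩ := IsPGroup.iff_card.mp hHr
      rw [hc] at h2
      rw [eq_one_of_pow ht0'.1 h2.symm (hcoqr k c), map_one]
    have h3 : (Qs : Subgroup G) ≤ centralizer ({ι t0} : Set G) := fun g hg =>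
      mem_cent_singleton.mpr (htc g hg).symm
    have h4 := not_dvd_index_of_sylow_le Qs h3
    rwa [h (ι t0) (hBN _ (hιm t0)) htZ] at h4
  -- S5
  have hNB : B.subgroupOf N = ⊤ := by
    apply eq_top_of_forall_conj_mem
    intro x
    have hx : ¬ q ∣ (centralizer ({(x : G)} : Set G)).index := by
      by_cases hxc : (x : G) ∈ center G
      · rw [cent_eq_top_iff.mpr hxc, index_top]
        exact hq.one_lt.ne' ∘ Nat.dvd_one.mp
      · rw [h x x.2 hxc]; exact hqm
    obtain ⟨n, hn⟩ := conj_comm Q Qs (fun x hx => hQs (by rw [hQ0]; exact ⟨x, hx, rfl⟩)) hx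
    refine ⟨n⁻¹, ?_⟩
    have h1 := hn _ hyQ
    have h2 : ((n : G)⁻¹ * x * n) ∈ centralizer ({y1} : Set G) := mem_cent_singleton.mpr h1.eq.symm
    rw [hS2' y1 (hBC _ hy1B) hy1N hy1Z] at h2
    rw [mem_subgroupOf, hB]
    refine ⟨?_, (n⁻¹ * x * n⁻¹⁻¹ : N).2⟩
    push_cast
    rw [inv_inv]
    exact h2
  have hRC : (R : Subgroup G) ≤ C := by
    intro x hx
    have : (⟨x, hRN hx⟩ : N) ∈ B.subgroupOf N := by rw [hNB]; exact mem_top _
    exact hBC _ (mem_subgroupOf.mp this)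
  have h5 := not_dvd_index_of_sylow_le R hRC
  rw [hCidx] at h5
  exact h5 hrm

end base

/-- Let G be a finite group, r a prime and R a Sylow r-subgroup of G that is not central, N a normal subgroup of G containing R, and m a natural number such that every element of N has a conjugacy class in G of size 1 or m. Then N is nilpotent. -/
theorem result {G : Type*} [Group G] [Finite G] (r : ℕ) [Fact r.Prime]
    (R : Sylow r G) (hR : ¬ (R : Subgroup G) ≤ Subgroup.center G) (N : Subgroup G) [N.Normal] (hRN : (R : Subgroup G) ≤ N)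
    (m : ℕ) (h : ∀ x ∈ N, (Subgroup.centralizer ({x} : Set G)).index = 1 ∨ (Subgroup.centralizer ({x} : Set G)).index = m) : Group.IsNilpotent N := by
  have h' : ∀ x ∈ N, x ∉ center G → (centralizer ({x} : Set G)).index = m := by
    intro x hx hxZ
    rcases h x hx with h1 | h1
    · exact absurd (Subgroup.index_eq_one.mp h1) (cent_ne_top hxZ)
    · exact h1
  by_cases hrm : r ∣ m
  · by_cases hc : ∀ x ∈ N, (orderOf x).Coprime r → x ∈ center G
    · exact case2a hc
    · push Not at hc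
      obtain ⟨y, hyN, hyr, hyZ⟩ := hc
      exact (case2b R hRN hR h' hrm hyN hyr hyZ).elim
  · exact case1 R hRN hR h' hrm

end Cfsg.Agent.S4135
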