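import Cfsg.Statements.S4139
import Cfsg.Agent.H65.Hyper
import Cfsg.Agent.H67.Basic

set_option autoImplicit false
open Cfsg

namespace Cfsg.Agent.S4139


open Subgroup Cfsg.Agent.H65.Hyper

/-- Two groups with the same numbers of classes of each size: a bijection preserving class sizes. -/
theorem exists_equiv {G H : Type*} [Group G] [Finite G] [Group H] [Finite H]
    (h : ∀ k : ℕ, Nat.card {C : ConjClasses G // Nat.card C.carrier = k} = Nat.card {C : ConjClasses H // Nat.card C.carrier = k}) :
    ∃ E : G ≃ H, ∀ x, (centralizer ({E x} : Set H)).index = (centralizer ({x} : Set G)).index := by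
  have h1 : ∀ k : ℕ, Nonempty ({C : ConjClasses G // Nat.card C.carrier = k} ≃ {C : ConjClasses H // Nat.card C.carrier = k}) :=
    fun k => Finite.card_eq.1 (h k)
  let e1 := fun k => (h1 k).some
  let e : ConjClasses G ≃ ConjClasses H := Equiv.ofFiberEquiv e1
  have he : ∀ C, Nat.card (e C).carrier = Nat.card C.carrier := fun C => Equiv.ofFiberEquiv_map e1 C
  have h2 : ∀ c : ConjClasses H, Nonempty ({x : G // e (ConjClasses.mk x) = c} ≃ {y : H // ConjClasses.mk y = c}) := by
    intro c
    apply Finite.card_eq.1
    have h3 : Nat.card {x : G // e (ConjClasses.mk x) = c} = Nat.card (e.symm c).carrier := by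
      apply Nat.card_congr
      apply Equiv.subtypeEquivRight
      intro x
      rw [ConjClasses.mem_carrier_iff_mk_eq, Equiv.apply_eq_iff_eq_symm_apply]
    have h4 : Nat.card {y : H // ConjClasses.mk y = c} = Nat.card c.carrier := by
      apply Nat.card_congr
      apply Equiv.subtypeEquivRight
      intro x
      rw [ConjClasses.mem_carrier_iff_mk_eq]
    rw [h3, h4, ← he, Equiv.apply_symm_apply]
  let e2 := fun c => (h2 c).some
  let E : G ≃ H := Equiv.ofFiberEquiv e2
  have hE : ∀ x, ConjClasses.mk (E x) = e (ConjClasses.mk x) := fun x => Equiv.ofFiberEquiv_map e2 x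
  refine ⟨E, fun x => ?_⟩
  have h5 := Cfsg.Agent.H67.ncard_carrier_eq_index x
  have h6 := Cfsg.Agent.H67.ncard_carrier_eq_index (E x)
  rw [← h5, ← h6, hE]
  exact he _


/-- Let G and H be finite groups such that for every natural number k, G and H have the same number of conjugacy classes of size k. If H is nilpotent then G is nilpotent. -/
theorem result {G H : Type*} [Group G] [Finite G] [Group H] [Finite H]
    (hH : Group.IsNilpotent H)
    (h : ∀ k : ℕ, Nat.card {C : ConjClasses G // Nat.card C.carrier = k} = Nat.card {C : ConjClasses H // Nat.card C.carrier = k}) :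
    Group.IsNilpotent G := by
  obtain ⟨E, hE⟩ := exists_equiv h
  apply isNilpotent_of_dvd
  intro p hp
  have h1 : Nat.card G = Nat.card H := Nat.card_congr E
  have h2 : Nat.card (Y p G) = Nat.card (Y p H) := by
    apply Nat.card_congr
    refine E.subtypeEquiv fun x => ?_
    change (∃ k, _ = p ^ k) ↔ (∃ k, _ = p ^ k)
    rw [hE]
  rw [h1, h2]
  exact dvd_card_Y_of_nilpotent hH hp

end Cfsg.Agent.S4139
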