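import Cfsg.Statements.S4142
import Cfsg.Agent.H69.Orbit

set_option autoImplicit false
open Cfsg

namespace Cfsg.Agent.S4142

open Subgroup Cfsg.Agent.H69

theorem card_comap_mk {G : Type*} [Group G] [Finite G] (N : Subgroup G) [N.Normal]
    (H : Subgroup (G ⧸ N)) :
    Nat.card (H.comap (QuotientGroup.mk' N)) = Nat.card N * Nat.card H := by
  have h1 := (H.comap (QuotientGroup.mk' N)).card_mul_index
  rw [index_comap_of_surjective _ (QuotientGroup.mk'_surjective N)] at h1
  have h2 := H.card_mul_index
  have h3 := N.card_mul_index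
  have h4 : Nat.card (G ⧸ N) = N.index := rfl
  have h5 : 0 < H.index := Nat.pos_of_ne_zero Subgroup.index_ne_zero_of_finite
  apply Nat.eq_of_mul_eq_mul_right h5
  rw [h1, mul_assoc, h2, h4, h3]

theorem key {G : Type*} [Group G] [Finite G] (N : Subgroup G) [N.Normal] (g : G) :
    (∀ n ∈ N, ∃ x : G, x * g * x⁻¹ = g * n) ↔
      Nat.card (Subgroup.centralizer ({g} : Set G)) =
        Nat.card (Subgroup.centralizer ({(QuotientGroup.mk g : G ⧸ N)} : Set (G ⧸ N))) := by
  classical
  set K := (centralizer ({(QuotientGroup.mk g : G ⧸ N)} : Set (G ⧸ N))).comap (QuotientGroup.mk' N) with hK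
  have hKmem : ∀ x : G, x ∈ K ↔ g⁻¹ * (x * g * x⁻¹) ∈ N := by
    intro x
    rw [hK, mem_comap, mem_cent_singleton, ← QuotientGroup.eq_one_iff]
    simp only [QuotientGroup.mk'_apply, QuotientGroup.mk_mul, QuotientGroup.mk_inv]
    constructor
    · intro h
      have : (x : G ⧸ N) * g * (x : G ⧸ N)⁻¹ = g := by rw [← h]; group
      rw [this]; group
    · intro h
      have : (x : G ⧸ N) * g * (x : G ⧸ N)⁻¹ = g := by
        have := congrArg (fun t => (g : G ⧸ N) * t) h
        simpa using this
      calc (g : G ⧸ N) * x = (x * g * (x : G ⧸ N)⁻¹) * x := by rw [this]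
        _ = x * g := by group
  have hCK : centralizer ({g} : Set G) ≤ K := by
    intro x hx
    rw [mem_cent_singleton] at hx
    rw [hKmem, ← hx]
    have : g⁻¹ * (g * x * x⁻¹) = 1 := by group
    rw [this]; exact N.one_mem
  have hcardK : Nat.card K = Nat.card N * Nat.card (centralizer ({(QuotientGroup.mk g : G ⧸ N)} : Set (G ⧸ N))) :=
    card_comap_mk N _
  have horb := card_conj_orbit K g
  have hrel : Nat.card (centralizer ({g} : Set G)) * (centralizer ({g} : Set G)).relIndex K = Nat.card K := by
    have := ((centralizer ({g} : Set G)).subgroupOf K).card_mul_index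
    rw [Nat.card_congr (Subgroup.subgroupOfEquivOfLe hCK).toEquiv] at this
    exact this
  -- injection of the orbit into N
  let f : {y : G // ∃ x ∈ K, y = x * g * x⁻¹} → N := fun y => ⟨g⁻¹ * y.1, by
    obtain ⟨x, hx, h⟩ := y.2
    rw [h]; exact (hKmem x).mp hx⟩
  have hf : Function.Injective f := by
    intro a b hab
    have := congrArg Subtype.val hab
    exact Subtype.ext (mul_left_cancel this)
  have hle : Nat.card {y : G // ∃ x ∈ K, y = x * g * x⁻¹} ≤ Nat.card N :=
    Nat.card_le_card_of_injective f hf
  have hCpos : 0 < Nat.card (centralizer ({g} : Set G)) := Nat.card_pos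
  have hNpos : 0 < Nat.card N := Nat.card_pos
  constructor
  · intro h
    have hsurj : Function.Surjective f := by
      rintro ⟨n, hn⟩
      obtain ⟨x, hx⟩ := h n hn
      refine ⟨⟨x * g * x⁻¹, x, ?_, rfl⟩, Subtype.ext ?_⟩
      · rw [hKmem, hx]
        have : g⁻¹ * (g * n) = n := by group
        rw [this]; exact hn
      · show g⁻¹ * (x * g * x⁻¹) = n
        rw [hx]; group
    have heq : Nat.card {y : G // ∃ x ∈ K, y = x * g * x⁻¹} = Nat.card N :=
      Nat.card_congr (Equiv.ofBijective f ⟨hf, hsurj⟩)
    rw [heq] at horb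
    rw [← horb, hcardK, mul_comm] at hrel
    exact Nat.eq_of_mul_eq_mul_left hNpos hrel
  · intro h n hn
    have heq : (centralizer ({g} : Set G)).relIndex K = Nat.card N := by
      rw [hcardK, ← h, mul_comm (Nat.card N)] at hrel
      exact Nat.eq_of_mul_eq_mul_left hCpos hrel
    rw [heq] at horb
    have hbij : Function.Bijective f := by
      have : Fintype {y : G // ∃ x ∈ K, y = x * g * x⁻¹} := Fintype.ofFinite _
      have : Fintype N := Fintype.ofFinite _
      rw [Fintype.bijective_iff_injective_and_card]
      refine ⟨hf, ?_⟩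
      rw [← Nat.card_eq_fintype_card, ← Nat.card_eq_fintype_card, horb]
    obtain ⟨⟨y, x, hx, hy⟩, hxy⟩ := hbij.2 ⟨n, hn⟩
    refine ⟨x, ?_⟩
    have := congrArg Subtype.val hxy
    have h2 : g⁻¹ * y = n := this
    rw [← hy, ← h2]; group

/-- Let G be a finite group and N a normal subgroup. Then the conjugacy class of every element g outside N is a union of cosets of N (gn is conjugate to g for all n ∈ N) if and only if for every g outside N the centralizer of g in G has the same order as the centralizer of gN in G/N. -/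
theorem result {G : Type*} [Group G] [Finite G] (N : Subgroup G) [N.Normal] :
    (∀ g : G, g ∉ N → ∀ n ∈ N, ∃ x : G, x * g * x⁻¹ = g * n) ↔
      ∀ g : G, g ∉ N → Nat.card (Subgroup.centralizer ({g} : Set G)) =
        Nat.card (Subgroup.centralizer ({(QuotientGroup.mk g : G ⧸ N)} : Set (G ⧸ N))) :=
  forall_congr' fun g => imp_congr_right fun _ => key N g

end Cfsg.Agent.S4142
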