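import Cfsg.Statements.S4145
import Cfsg.Agent.H69.CoprimeZ
import Cfsg.Agent.H69.PChain
import Cfsg.Agent.H47.Basic
import Cfsg.Agent.H48.Basic
import Cfsg.Agent.BG.Core

set_option autoImplicit false
set_option linter.style.haveILetI false
set_option linter.unusedSectionVars false
open Cfsg

namespace Cfsg.Agent.S4145

open Subgroup Cfsg.Agent.H69 Pointwise

variable {G : Type*} [Group G] [Finite G] {p : ℕ} [Fact p.Prime]

theorem mem_sylow_of_normalizer (P : Sylow p G) {z : G} {k : ℕ} (hz : orderOf z = p ^ k)
    (hzP : z ∈ normalizer ((P : Subgroup G) : Set G)) : z ∈ (P : Subgroup G) := by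
  have h1 : IsPGroup p (zpowers z) := IsPGroup.of_card (n := k) (by rw [Nat.card_zpowers, hz])
  have h2 := h1.inf_normalizer_sylow P
  have h3 : z ∈ zpowers z ⊓ normalizer (P : Set G) := ⟨mem_zpowers z, hzP⟩
  rw [h2] at h3
  exact h3.2

/-- an element normalizing a cyclic Sylow subgroup and acting trivially modulo a proper subgroup
centralizes it -/
theorem centralizes_of_commutator (P : Sylow p G) (hP : IsCyclic (P : Subgroup G)) {D : Subgroup G}
    (hD : D < (P : Subgroup G)) {y : G} (hy : y ∈ normalizer ((P : Subgroup G) : Set G))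
    (hyD : ∀ g ∈ (P : Subgroup G), ∀ w ∈ zpowers y, w * g * w⁻¹ * g⁻¹ ∈ D) :
    y ∈ centralizer ((P : Subgroup G) : Set G) := by
  have hPab : (P : Subgroup G) ≤ centralizer ((P : Subgroup G) : Set G) := by
    rw [le_centralizer_iff_isMulCommutative]; exact IsCyclic.isMulCommutative
  obtain ⟨a, b, hab, ⟨k, hk⟩, hb⟩ := Transfer.exists_pow_decomp p y (orderOf_pos y).ne'
  rw [hab]
  refine mul_mem (hPab (mem_sylow_of_normalizer P hk (pow_mem hy a))) ?_
  -- the p'-part
  set A := zpowers (y ^ b) with hA
  have hAP : A ≤ normalizer ((P : Subgroup G) : Set G) := zpowers_le.mpr (pow_mem hy b)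
  obtain ⟨m, hm⟩ := IsPGroup.iff_card.mp P.2
  have hcop : (Nat.card (P : Subgroup G)).Coprime (Nat.card A) := by
    rw [hm, Nat.card_zpowers]
    exact Nat.Coprime.pow_left m hb.symm
  haveI := hP
  rcases P.2.commutator_eq_bot_or_commutator_eq_self hAP hcop with h | h
  · exact (commutator_eq_bot_iff_le_centralizer.mp h) (mem_zpowers _)
  · exfalso
    have h1 : ⁅A, (P : Subgroup G)⁆ ≤ D := by
      rw [commutator_le]
      intro w hw g hg
      exact hyD g hg w ((zpowers_le.mpr (pow_mem (mem_zpowers y) b)) hw)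
    rw [h] at h1
    exact hD.not_ge h1

/-- Let G be a finite group with a cyclic Sylow p-subgroup and H a normal subgroup such that p divides both the order of H and the index of H. Then H has a normal p-complement and G is p-solvable. -/
theorem result {G : Type*} [Group G] [Finite G] (p : ℕ) [Fact p.Prime]
    (P : Sylow p G) (hP : IsCyclic (P : Subgroup G)) (H : Subgroup G) [H.Normal] (h1 : p ∣ Nat.card H) (h2 : p ∣ H.index) :
    Cfsg.HasNormalPComplement p H ∧ Cfsg.IsPSolvable p G := by
  have hp : p.Prime := Fact.out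
  have hPab : (P : Subgroup G) ≤ centralizer ((P : Subgroup G) : Set G) := by
    rw [le_centralizer_iff_isMulCommutative]; exact IsCyclic.isMulCommutative
  set D : Subgroup G := (P : Subgroup G) ⊓ H with hD
  have hDP : D < (P : Subgroup G) := by
    refine lt_of_le_of_ne inf_le_left fun h => ?_
    have h3 : (P : Subgroup G) ≤ H := by rw [← h]; exact inf_le_right
    exact P.not_dvd_index (h2.trans (index_dvd_of_le h3))
  -- the Sylow subgroup of H
  obtain ⟨P₁, hP₁⟩ : ∃ P₁ : Sylow p H, (P₁ : Subgroup H).map H.subtype = D := by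
    have hidx : ¬ p ∣ ((P : Subgroup G).subgroupOf H).index := by
      intro h
      have h3 := relIndex_dvd_relIndex_of_le_normalizer (K := ⊤) (L := H) (S := (P : Subgroup G))
        le_top le_top (by rw [normalizer_eq_top])
      rw [relIndex_top_right] at h3
      exact P.not_dvd_index (h.trans h3)
    have hp' : IsPGroup p ((P : Subgroup G).subgroupOf H) :=
      P.2.comap_of_injective H.subtype H.subtype_injective
    exact ⟨hp'.toSylow hidx, by rw [hD]; exact subgroupOf_map_subtype _ _⟩
  have hDne : D ≠ ⊥ := by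
    intro h
    rw [h, map_eq_bot_iff_of_injective _ H.subtype_injective] at hP₁
    exact P₁.ne_bot_of_dvd_card h1 hP₁
  have hPC : (P : Subgroup G) ≤ centralizer (D : Set G) :=
    hPab.trans (centralizer_le inf_le_left)
  -- key 1
  have key1 : ∀ x ∈ H, x ∈ normalizer (D : Set G) → x ∈ centralizer (D : Set G) := by
    intro x hxH hxD
    set CH : Subgroup G := centralizer (D : Set G) ⊓ H with hCH
    have hPCH : (P : Subgroup G) ≤ normalizer (CH : Set G) := by
      refine hPC.trans ?_
      intro c hc
      rw [mem_normalizer_iff]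
      intro z
      have e1 : c * z * c⁻¹ ∈ centralizer (D : Set G) ↔ z ∈ centralizer (D : Set G) := by
        constructor
        · intro h
          have := mul_mem (mul_mem (inv_mem hc) h) hc
          have e : c⁻¹ * (c * z * c⁻¹) * c = z := by group
          rwa [e] at this
        · intro h; exact mul_mem (mul_mem hc h) (inv_mem hc)
      have e2 : c * z * c⁻¹ ∈ H ↔ z ∈ H := by
        constructor
        · intro h
          have := (inferInstance : H.Normal).conj_mem _ h c⁻¹
          have e : c⁻¹ * (c * z * c⁻¹) * c⁻¹⁻¹ = z := by group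
          rwa [e] at this
        · intro h; exact (inferInstance : H.Normal).conj_mem _ h c
      exact ⟨fun h => ⟨e1.mpr h.1, e2.mpr h.2⟩, fun h => ⟨e1.mp h.1, e2.mp h.2⟩⟩
    have hxP : ((x • P : Sylow p G) : Subgroup G) ≤ CH ⊔ (P : Subgroup G) := by
      intro z hz
      rw [Sylow.coe_subgroup_smul, Hall.mem_conj_smul] at hz
      set g := x⁻¹ * z * x with hg
      have e : z = (x * g * x⁻¹ * g⁻¹) * g := by rw [hg]; group
      rw [e]
      refine mul_mem (mem_sup_left (mem_inf.mpr ⟨?_, ?_⟩)) (mem_sup_right hz)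
      · refine mul_mem ?_ (inv_mem (hPC hz))
        rw [mem_centralizer_iff]
        intro d hd
        have hd' : x⁻¹ * d * x ∈ D := by
          have := (mem_normalizer_iff.mp (inv_mem hxD) d).mp hd
          rwa [inv_inv] at this
        have h3 := mem_centralizer_iff.mp (hPC hz) _ hd'
        calc d * (x * g * x⁻¹) = x * ((x⁻¹ * d * x) * g) * x⁻¹ := by group
          _ = x * (g * (x⁻¹ * d * x)) * x⁻¹ := by rw [h3]
          _ = x * g * x⁻¹ * d := by group
      · have h3 := (inferInstance : H.Normal).conj_mem _ (inv_mem hxH) g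
        have e' : x * g * x⁻¹ * g⁻¹ = x * (g * x⁻¹ * g⁻¹) := by group
        rw [e']; exact mul_mem hxH h3
    obtain ⟨c, hc, hcP⟩ := H48.sylow_conj_in P (x • P) le_sup_right hxP
    rw [sup_comm, H47.mem_sup_of_le_normalizer' hPCH] at hc
    obtain ⟨h, hh, g, hg, rfl⟩ := hc
    have hgP : g • P = P := by
      rw [Sylow.smul_eq_iff_mem_normalizer]
      exact le_normalizer hg
    rw [mul_smul, hgP] at hcP
    have hyP : (h⁻¹ * x) • P = P := by rw [mul_smul, ← hcP, inv_smul_smul]
    have hyN : h⁻¹ * x ∈ normalizer ((P : Subgroup G) : Set G) :=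
      Sylow.smul_eq_iff_mem_normalizer.mp hyP
    have hyH : h⁻¹ * x ∈ H := mul_mem (inv_mem hh.2) hxH
    have hyC : h⁻¹ * x ∈ centralizer ((P : Subgroup G) : Set G) := by
      refine centralizes_of_commutator P hP hDP hyN ?_
      intro g hg w hw
      have hwH : w ∈ H := (zpowers_le.mpr hyH) hw
      have hwN : w ∈ normalizer ((P : Subgroup G) : Set G) := (zpowers_le.mpr hyN) hw
      refine mem_inf.mpr ⟨mul_mem ((mem_normalizer_iff.mp hwN g).mp hg) (inv_mem hg), ?_⟩
      have e' : w * g * w⁻¹ * g⁻¹ = w * (g * w⁻¹ * g⁻¹) := by group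
      rw [e']
      exact mul_mem hwH ((inferInstance : H.Normal).conj_mem _ (inv_mem hwH) g)
    have := mul_mem hh.1 ((centralizer_le (inf_le_left : D ≤ (P : Subgroup G))) hyC)
    rwa [mul_inv_cancel_left] at this
  have hH : Cfsg.HasNormalPComplement p H := by
    refine Transfer.hasNPC_of_normalizer_le_centralizer P₁ ?_
    intro x hx
    have hxD : (x : G) ∈ normalizer (D : Set G) := by
      rw [← hP₁, mem_normalizer_iff]
      intro z
      constructor
      · rintro ⟨w, hw, rfl⟩
        exact ⟨x * w * x⁻¹, (mem_normalizer_iff.mp hx w).mp hw, by simp⟩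
      · rintro ⟨w, hw, hwz⟩
        refine ⟨x⁻¹ * w * x, ?_, ?_⟩
        · have := (mem_normalizer_iff.mp (inv_mem hx) w).mp hw
          rwa [inv_inv] at this
        · simp only [subtype_apply, coe_mul, coe_inv] at hwz ⊢
          rw [hwz]; group
    have h3 := key1 x x.2 hxD
    rw [mem_centralizer_iff]
    intro w hw
    have hwD : (w : G) ∈ D := by rw [← hP₁]; exact ⟨w, hw, rfl⟩
    exact Subtype.ext (mem_centralizer_iff.mp h3 w hwD)
  refine ⟨hH, ?_⟩
  set C : Subgroup G := centralizer (D : Set G) with hC
  have hCD : C ≤ normalizer (D : Set G) := centralizer_le_normalizer _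
  -- key 2
  have hCnpc : Cfsg.HasNormalPComplement p C := by
    refine Transfer.hasNPC_of_normalizer_le_centralizer (P.subtype hPC) ?_
    intro x hx
    have hxP : (x : G) ∈ normalizer ((P : Subgroup G) : Set G) := by
      rw [mem_normalizer_iff]
      intro z
      constructor
      · intro hz
        have := (mem_normalizer_iff.mp hx ⟨z, hPC hz⟩).mp (by exact hz)
        exact this
      · intro hz
        have h3 := (mem_normalizer_iff.mp (inv_mem hx) ⟨_, hPC hz⟩).mp (by exact hz)
        have h4 : (x : G)⁻¹ * (x * z * (x : G)⁻¹) * (x : G)⁻¹⁻¹ ∈ (P : Subgroup G) := h3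
        have e : (x : G)⁻¹ * (x * z * (x : G)⁻¹) * (x : G)⁻¹⁻¹ = z := by group
        rwa [e] at h4
    have hxC : (x : G) ∈ centralizer ((P : Subgroup G) : Set G) := by
      obtain ⟨a, b, hab, ⟨k, hk⟩, hb⟩ := Transfer.exists_pow_decomp p (x : G) (orderOf_pos _).ne'
      rw [hab]
      refine mul_mem (hPab (mem_sylow_of_normalizer P hk (pow_mem hxP a))) ?_
      set A := zpowers ((x : G) ^ b) with hA
      have hAP : A ≤ normalizer ((P : Subgroup G) : Set G) := zpowers_le.mpr (pow_mem hxP b)
      have hAC : A ≤ C := zpowers_le.mpr (pow_mem x.2 b)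
      obtain ⟨m, hm⟩ := IsPGroup.iff_card.mp P.2
      have hcop : (Nat.card A).Coprime (Nat.card (P : Subgroup G)) := by
        rw [hm, Nat.card_zpowers]
        exact Nat.Coprime.pow_right m hb
      obtain ⟨u, hu1⟩ := ne_bot_iff_exists_ne_one.mp hDne
      have hu1' : (u : G) ≠ 1 := fun h => hu1 (Subtype.ext h)
      refine le_centralizer_of_cyclic hP P.2 hAP hcop (hDP.le u.2) hu1' ?_ (mem_zpowers _)
      rw [mem_centralizer_iff]
      intro w hw
      exact (mem_centralizer_iff.mp (hAC hw) u u.2).symm
    rw [mem_centralizer_iff]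
    intro w hw
    exact Subtype.ext (mem_centralizer_iff.mp hxC w hw)
  -- Frattini
  have hfrat : normalizer (D : Set G) ⊔ H = ⊤ := by
    rw [← hP₁]; exact P₁.normalizer_sup_eq_top
  -- K
  set K : Subgroup G := (Cfsg.pResidual p H).map H.subtype with hK
  have hKn : K.Normal := inferInstance
  have hKH : K ≤ H := map_subtype_le _
  have hKcard : (Nat.card K).Coprime p := by
    rw [hK, Cop.card_map_subtype]
    exact Transfer.hasNPC_iff_card_pResidual.mp hH
  have hKidx : ∃ m, K.relIndex H = p ^ m := by
    obtain ⟨m, hm⟩ := Transfer.index_pResidual_eq_pow (p := p) (G := H)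
    refine ⟨m, ?_⟩
    rw [← hm, relIndex, hK, subgroupOf, comap_map_eq_self_of_injective H.subtype_injective]
  -- E
  set E : Subgroup G := (Cfsg.pResidual p C).map C.subtype with hE
  have hEcard : (Nat.card E).Coprime p := by
    rw [hE, Cop.card_map_subtype]
    exact Transfer.hasNPC_iff_card_pResidual.mp hCnpc
  have hCN : normalizer (D : Set G) ≤ normalizer (C : Set G) :=
    H47.normalizer_le_normalizer_centralizer D
  have hEN : normalizer (D : Set G) ≤ normalizer (E : Set G) :=
    hCN.trans (BG.normalizer_le_normalizer_map_char C (Cfsg.pResidual p C))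
  have hnormal : ∀ X : Subgroup G, normalizer (D : Set G) ≤ normalizer (X : Set G) →
      (H ⊔ X).Normal := by
    intro X hX
    rw [← normalizer_eq_top_iff, eq_top_iff, ← hfrat]
    refine sup_le (H47.le_normalizer_sup (by rw [normalizer_eq_top (H := H)]; exact le_top) hX) ?_
    exact le_sup_left.trans le_normalizer
  have hEC : C ≤ (P : Subgroup G) ⊔ E := by
    have h3 := Transfer.sylow_sup_pResidual (P.subtype hPC)
    have h4 := congrArg (Subgroup.map C.subtype) h3
    rw [Subgroup.map_sup, ← MonoidHom.range_eq_map, range_subtype, Sylow.coe_subtype,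
      map_subgroupOf_eq_of_le hPC] at h4
    exact h4.ge
  have c1 : PChain p K := (PChain.bot p).step bot_le hKn (Or.inr (by rw [relIndex_bot_left]; exact hKcard))
  have c2 : PChain p H := c1.step hKH inferInstance (Or.inl hKidx)
  have c3 : PChain p (H ⊔ E) := c2.step le_sup_left (hnormal E hEN) (Or.inr (by
    rw [sup_comm, relIndex_sup_right]
    exact Nat.Coprime.coprime_dvd_left (relIndex_dvd_card _ _) hEcard))
  haveI hn3 : (H ⊔ E).Normal := hnormal E hEN
  have c4 : PChain p (H ⊔ C) := c3.step (sup_le_sup_left (map_subtype_le _) H) (hnormal C hCN) (Or.inl (by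
    have h3 : H ⊔ C = (P : Subgroup G) ⊔ (H ⊔ E) := by
      apply le_antisymm
      · refine sup_le (le_sup_left.trans le_sup_right) (hEC.trans ?_)
        exact sup_le le_sup_left (le_sup_right.trans le_sup_right)
      · exact sup_le (hPC.trans le_sup_right) (sup_le_sup_left (map_subtype_le _) H)
    rw [h3, relIndex_sup_right]
    obtain ⟨m, hm⟩ := IsPGroup.iff_card.mp P.2
    have h4 : (H ⊔ E).relIndex (P : Subgroup G) ∣ p ^ m := by rw [← hm]; exact relIndex_dvd_card _ _
    obtain ⟨l, -, hl⟩ := (Nat.dvd_prime_pow hp).mp h4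
    exact ⟨l, hl⟩))
  have c5 : PChain p (⊤ : Subgroup G) := c4.step le_top inferInstance (Or.inr (by
    rw [relIndex_top_right]
    refine Nat.Coprime.coprime_dvd_left (index_dvd_of_le (hPC.trans le_sup_right)) ?_
    exact ((Nat.Prime.coprime_iff_not_dvd hp).mpr P.not_dvd_index).symm))
  exact c5.isPSolvable

end Cfsg.Agent.S4145
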