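import Cfsg.Statements.S4149
import Cfsg.Agent.H69.ClassCount

set_option autoImplicit false
open Cfsg

namespace Cfsg.Agent.S4149

open Subgroup Cfsg.Agent.H69

/-- Let G be a finite group that has a normal p-complement for at most one prime p dividing its order, and let σ be a natural number such that every conjugacy class size of G has at most σ distinct prime divisors. Then the number of primes dividing at least one conjugacy class size of G is at most 2σ. -/
theorem result {G : Type*} [Group G] [Finite G] (σ : ℕ)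
    (hσ : ∀ x : G, ((Subgroup.centralizer ({x} : Set G)).index).primeFactors.card ≤ σ)
    (hnil : ∀ p q : ℕ, p.Prime → q.Prime → p ∣ Nat.card G → q ∣ Nat.card G →
      Cfsg.HasNormalPComplement p G → Cfsg.HasNormalPComplement q G → p = q) :
    Nat.card {p : ℕ | p.Prime ∧ ∃ x : G, p ∣ (Subgroup.centralizer ({x} : Set G)).index} ≤ 2 * σ := by
  classical
  have : Fintype G := Fintype.ofFinite G
  -- the finset of primes
  set ρ : Finset ℕ := (Nat.card G).primeFactors.filter
    (fun p => ∃ x : G, p ∣ (centralizer ({x} : Set G)).index) with hρ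
  have hset : {p : ℕ | p.Prime ∧ ∃ x : G, p ∣ (centralizer ({x} : Set G)).index} = (ρ : Set ℕ) := by
    ext p
    simp only [Set.mem_ofPred_eq, hρ, Finset.coe_filter, Nat.mem_primeFactors]
    constructor
    · rintro ⟨hp, x, hx⟩
      exact ⟨⟨hp, hx.trans (Subgroup.index_dvd_card _), Nat.card_pos.ne'⟩, x, hx⟩
    · rintro ⟨⟨hp, -, -⟩, hx⟩
      exact ⟨hp, hx⟩
  rw [hset, Nat.card_coe_set_eq, Set.ncard_coe_finset]
  -- counting function
  set f : ℕ → ℕ := fun p => (Finset.univ.filter fun g : G => p ∣ (centralizer ({g} : Set G)).index).card with hf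
  have hsum : ∑ g : G, ((centralizer ({g} : Set G)).index).primeFactors.card = ∑ p ∈ ρ, f p := by
    have h1 : ∀ g : G, ((centralizer ({g} : Set G)).index).primeFactors =
        ρ.filter (fun p => p ∣ (centralizer ({g} : Set G)).index) := by
      intro g
      ext p
      simp only [hρ, Finset.mem_filter, Nat.mem_primeFactors]
      constructor
      · rintro ⟨hp, hd, h0⟩
        exact ⟨⟨⟨hp, hd.trans (Subgroup.index_dvd_card _), Nat.card_pos.ne'⟩, g, hd⟩, hd⟩
      · rintro ⟨⟨⟨hp, -, -⟩, -⟩, hd⟩
        exact ⟨hp, hd, Subgroup.index_ne_zero_of_finite⟩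
    calc ∑ g : G, ((centralizer ({g} : Set G)).index).primeFactors.card
        = ∑ g : G, ∑ p ∈ ρ, if p ∣ (centralizer ({g} : Set G)).index then 1 else 0 := by
          refine Finset.sum_congr rfl fun g _ => ?_
          rw [h1 g, Finset.card_filter]
      _ = ∑ p ∈ ρ, ∑ g : G, if p ∣ (centralizer ({g} : Set G)).index then 1 else 0 := Finset.sum_comm
      _ = ∑ p ∈ ρ, f p := by
          refine Finset.sum_congr rfl fun p _ => ?_
          rw [hf]; exact (Finset.card_filter _ _).symm
  have hle : ∑ p ∈ ρ, f p ≤ Fintype.card G * σ := by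
    rw [← hsum]
    calc ∑ g : G, ((centralizer ({g} : Set G)).index).primeFactors.card ≤ ∑ _g : G, σ :=
          Finset.sum_le_sum fun g _ => hσ g
      _ = Fintype.card G * σ := by simp [Finset.sum_const, Finset.card_univ]
  -- bounds for each prime
  have hhalf : ∀ p ∈ ρ, ¬ Cfsg.HasNormalPComplement p G → Fintype.card G ≤ 2 * f p := by
    intro p hp hnp
    rw [hρ, Finset.mem_filter, Nat.mem_primeFactors] at hp
    have : Fact p.Prime := ⟨hp.1.1⟩
    rcases normalPComplement_or_card (G := G) (p := p) with h1 | h1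
    · exact absurd h1 hnp
    rw [Nat.card_eq_fintype_card, Nat.card_eq_fintype_card, Fintype.card_subtype] at h1
    have h2 := Finset.card_filter_add_card_filter_not (s := (Finset.univ : Finset G))
      (fun g : G => p ∣ (centralizer ({g} : Set G)).index)
    rw [Finset.card_univ] at h2
    simp only [hf]
    omega
  have hone : ∀ p ∈ ρ, 1 ≤ f p := by
    intro p hp
    rw [hρ, Finset.mem_filter] at hp
    obtain ⟨x, hx⟩ := hp.2
    rw [Nat.one_le_iff_ne_zero, ← Nat.pos_iff_ne_zero]
    exact Finset.card_pos.mpr ⟨x, by rw [Finset.mem_filter]; exact ⟨Finset.mem_univ _, hx⟩⟩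
  set E : Finset ℕ := ρ.filter (fun p => Cfsg.HasNormalPComplement p G) with hE
  have hEcard : E.card ≤ 1 := by
    rw [Finset.card_le_one]
    intro p hp q hq
    rw [hE, Finset.mem_filter, hρ, Finset.mem_filter, Nat.mem_primeFactors] at hp hq
    exact hnil p q hp.1.1.1 hq.1.1.1 hp.1.1.2.1 hq.1.1.2.1 hp.2 hq.2
  have hGpos : 0 < Fintype.card G := Fintype.card_pos
  have hsplit := Finset.sum_filter_add_sum_filter_not ρ (fun p => Cfsg.HasNormalPComplement p G) f
  have hcsplit := Finset.card_filter_add_card_filter_not (s := ρ) (fun p => Cfsg.HasNormalPComplement p G)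
  have hE1 : E.card ≤ ∑ p ∈ E, f p := by
    calc E.card = ∑ _p ∈ E, 1 := by simp
      _ ≤ ∑ p ∈ E, f p := Finset.sum_le_sum fun p hp => hone p (Finset.filter_subset _ _ hp)
  have hE2 : (ρ.filter (fun p => ¬ Cfsg.HasNormalPComplement p G)).card * Fintype.card G ≤
      2 * ∑ p ∈ ρ.filter (fun p => ¬ Cfsg.HasNormalPComplement p G), f p := by
    rw [Finset.mul_sum]
    calc (ρ.filter (fun p => ¬ Cfsg.HasNormalPComplement p G)).card * Fintype.card G
        = ∑ _p ∈ ρ.filter (fun p => ¬ Cfsg.HasNormalPComplement p G), Fintype.card G := by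
          rw [Finset.sum_const, smul_eq_mul]
      _ ≤ _ := Finset.sum_le_sum fun p hp => by
          rw [Finset.mem_filter] at hp
          exact hhalf p hp.1 hp.2
  rw [← hE] at hsplit hcsplit
  set m := (ρ.filter (fun p => ¬ Cfsg.HasNormalPComplement p G)).card with hm
  set s1 := ∑ p ∈ E, f p
  set s2 := ∑ p ∈ ρ.filter (fun p => ¬ Cfsg.HasNormalPComplement p G), f p
  -- 2 * (s1 + s2) ≤ 2 σ |G|
  have hfin : m * Fintype.card G + 2 * E.card ≤ 2 * σ * Fintype.card G := by
    have : s1 + s2 ≤ Fintype.card G * σ := by rw [hsplit]; exact hle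
    nlinarith
  rw [← hcsplit]
  rcases Nat.lt_or_ge E.card 1 with h0 | h1
  · have : E.card = 0 := by omega
    rw [this, zero_add]
    rw [this, mul_zero, add_zero] at hfin
    exact Nat.le_of_mul_le_mul_right hfin hGpos
  · have hE1' : E.card = 1 := le_antisymm hEcard h1
    rw [hE1'] at hfin ⊢
    have hlt : m * Fintype.card G < 2 * σ * Fintype.card G := by omega
    have := Nat.lt_of_mul_lt_mul_right hlt
    omega

end Cfsg.Agent.S4149
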