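import Cfsg.Statements.S4152
import Cfsg.Agent.BG.PiHall

set_option autoImplicit false
open Cfsg

namespace Cfsg.Agent.S4152

open Subgroup

/-- Burnside counting for a conjugation invariant predicate -/
lemma burn {G : Type*} [Group G] [Finite G] (P : G → Prop) (hP : ∀ g x, P x → P (g * x * g⁻¹)) :
    Nat.card {p : G × G // P p.1 ∧ p.1 * p.2 = p.2 * p.1} =
      Nat.card {C : ConjClasses G // ∃ x, ConjClasses.mk x = C ∧ P x} * Nat.card G := by
  classical
  let α := {x : G // P x}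
  let act : MulAction G α :=
    { smul := fun g x => ⟨g * x.1 * g⁻¹, hP g x.1 x.2⟩
      one_smul := fun x => Subtype.ext (by change 1 * x.1 * 1⁻¹ = x.1; simp)
      mul_smul := fun g h x => Subtype.ext (by
        change (g * h) * x.1 * (g * h)⁻¹ = g * (h * x.1 * h⁻¹) * g⁻¹
        simp [mul_assoc]) }
  have := Fintype.ofFinite G
  have : Finite α := inferInstance
  have := Fintype.ofFinite α
  have : ∀ g : G, Fintype (MulAction.fixedBy α g) := fun g => Fintype.ofFinite _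
  have : Fintype (MulAction.orbitRel.Quotient G α) := Fintype.ofFinite _
  have hB := MulAction.sum_card_fixedBy_eq_card_orbits_mul_card_group G α
  have e1 : {p : G × G // P p.1 ∧ p.1 * p.2 = p.2 * p.1} ≃ Σ y : G, MulAction.fixedBy α y :=
    { toFun := fun p => ⟨p.1.2, ⟨⟨p.1.1, p.2.1⟩, by
        apply Subtype.ext
        change p.1.2 * p.1.1 * p.1.2⁻¹ = p.1.1
        rw [← p.2.2, mul_inv_cancel_right]⟩⟩
      invFun := fun q => ⟨(q.2.1.1, q.1), q.2.1.2, by
        have h := congrArg Subtype.val q.2.2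
        change q.1 * q.2.1.1 * q.1⁻¹ = q.2.1.1 at h
        rw [mul_inv_eq_iff_eq_mul] at h
        exact h.symm⟩
      left_inv := fun p => rfl
      right_inv := fun q => rfl }
  have hbij : Function.Bijective (Quotient.lift (fun x : α =>
      (⟨ConjClasses.mk x.1, x.1, rfl, x.2⟩ : {C : ConjClasses G // ∃ x, ConjClasses.mk x = C ∧ P x}))
      (by
        rintro x y ⟨g, hg⟩
        apply Subtype.ext
        change ConjClasses.mk x.1 = ConjClasses.mk y.1
        rw [ConjClasses.mk_eq_mk_iff_isConj]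
        apply IsConj.symm
        rw [isConj_iff]
        exact ⟨g, congrArg Subtype.val hg⟩) : MulAction.orbitRel.Quotient G α → _) := by
    constructor
    · intro q r
      induction q using Quotient.inductionOn with
      | _ x => induction r using Quotient.inductionOn with
        | _ y =>
          intro h
          have h1 : ConjClasses.mk x.1 = ConjClasses.mk y.1 := congrArg Subtype.val h
          rw [ConjClasses.mk_eq_mk_iff_isConj] at h1
          obtain ⟨g, hg⟩ := isConj_iff.1 h1.symm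
          exact Quotient.sound ⟨g, Subtype.ext hg⟩
    · rintro ⟨C, x, rfl, hx⟩
      exact ⟨Quotient.mk _ ⟨x, hx⟩, rfl⟩
  rw [Nat.card_congr e1, Nat.card_sigma, ← Nat.card_congr (Equiv.ofBijective _ hbij)]
  simp only [Nat.card_eq_fintype_card]
  exact hB

lemma piEl_iff {H : Type*} [Group H] (π : Set ℕ) {n : ℕ} (hn : n ≠ 0) (x : H) (hx : x ^ n = 1) :
    (∀ q : ℕ, q.Prime → q ∣ orderOf x → q ∈ π) ↔ x ^ (BG.piPart π n) = 1 := by
  have hdvd : orderOf x ∣ n := orderOf_dvd_of_pow_eq_one hx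
  have hmul := BG.piPart_mul π hn
  constructor
  · intro h
    rw [← orderOf_dvd_iff_pow_eq_one]
    have hc : (orderOf x).Coprime (BG.piPart πᶜ n) := by
      apply Nat.Coprime.symm
      rw [Nat.coprime_iff_gcd_eq_one] 
      by_contra hne
      obtain ⟨q, hq, hqd⟩ := Nat.exists_prime_and_dvd hne
      have h1 := BG.prime_dvd_piPart hq (hqd.trans (Nat.gcd_dvd_left _ _))
      exact h1.1 (h q hq (hqd.trans (Nat.gcd_dvd_right _ _)))
    rw [← hmul] at hdvd
    exact hc.dvd_of_dvd_mul_right hdvd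
  · intro h q hq hqd
    exact (BG.prime_dvd_piPart hq (hqd.trans (orderOf_dvd_of_pow_eq_one h))).1

lemma class_iff {H : Type*} [Group H] [Finite H] (π : Set ℕ) {n : ℕ} (hn : n ≠ 0)
    (hx : ∀ x : H, x ^ n = 1) (C : ConjClasses H) :
    (∀ q : ℕ, q.Prime → (∃ g : H, ConjClasses.mk g = C ∧ q ∣ orderOf g) → q ∈ π) ↔
      ∃ x, ConjClasses.mk x = C ∧ x ^ (BG.piPart π n) = 1 := by
  obtain ⟨x, rfl⟩ := C.exists_rep
  constructor
  · intro h
    exact ⟨x, rfl, (piEl_iff π hn x (hx x)).1 fun q hq hqd => h q hq ⟨x, rfl, hqd⟩⟩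
  · rintro ⟨y, hy, hya⟩ q hq ⟨g, hg, hqd⟩
    apply (piEl_iff π hn y (hx y)).2 hya q hq
    have : IsConj g y := ConjClasses.mk_eq_mk_iff_isConj.1 (hg.trans hy.symm)
    obtain ⟨c, hc⟩ := isConj_iff.1 this
    have h2 : orderOf y = orderOf g := by
      rw [← hc]
      exact MulEquiv.orderOf_eq (MulAut.conj c) g
    rw [h2]; exact hqd


/-- Let G be a finite group, N a normal subgroup and π a set of primes. Then the number of conjugacy classes of π-elements of G (elements whose order is divisible only by primes in π) is at most the number of conjugacy classes of π-elements of N (under conjugation by N) times the number of conjugacy classes of π-elements of G/N. -/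
theorem result {G : Type*} [Group G] [Finite G] (N : Subgroup G) [N.Normal] (π : Set ℕ) :
    Nat.card {C : ConjClasses G // ∀ q : ℕ, q.Prime → (∃ g : G, ConjClasses.mk g = C ∧ q ∣ orderOf g) → q ∈ π} ≤ Nat.card {C : ConjClasses N // ∀ q : ℕ, q.Prime → (∃ g : N, ConjClasses.mk g = C ∧ q ∣ orderOf g) → q ∈ π} * Nat.card {C : ConjClasses (G ⧸ N) // ∀ q : ℕ, q.Prime → (∃ g : (G ⧸ N), ConjClasses.mk g = C ∧ q ∣ orderOf g) → q ∈ π} := by
  classical
  set n := Nat.card G with hn_def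
  have hn : n ≠ 0 := Nat.card_pos.ne'
  set a := BG.piPart π n with ha
  set b := BG.piPart πᶜ n with hb
  have hab : a * b = n := BG.piPart_mul π hn
  have hcop : a.Coprime b := BG.piPart_coprime π n
  have hxG : ∀ x : G, x ^ n = 1 := fun x => pow_card_eq_one'
  have hxN : ∀ x : N, x ^ n = 1 := fun x => Subtype.ext (hxG x)
  have hxQ : ∀ x : G ⧸ N, x ^ n = 1 := by
    intro x
    induction x using QuotientGroup.induction_on with
    | _ x => rw [← QuotientGroup.mk_pow, hxG]; rfl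
  -- the exponents
  obtain ⟨s, hs1, hs2⟩ := Nat.chineseRemainder hcop 1 0
  obtain ⟨t, ht1, ht2⟩ := Nat.chineseRemainder hcop 0 1
  have hbs : b ∣ s := (Nat.modEq_zero_iff_dvd).1 hs2
  have hat : a ∣ t := (Nat.modEq_zero_iff_dvd).1 ht1
  have hpow : ∀ x : G, ∀ i j : ℕ, i ≡ j [MOD n] → x ^ i = x ^ j := by
    intro x i j hij
    apply pow_eq_pow_iff_modEq.2
    exact hij.of_dvd (orderOf_dvd_of_pow_eq_one (hxG x))
  have hpow' : ∀ x : G, x ^ a = 1 → ∀ i j : ℕ, i ≡ j [MOD a] → x ^ i = x ^ j := by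
    intro x hx i j hij
    apply pow_eq_pow_iff_modEq.2
    exact hij.of_dvd (orderOf_dvd_of_pow_eq_one hx)
  have hmod : ∀ i j : ℕ, i ≡ j [MOD a] → i ≡ j [MOD b] → i ≡ j [MOD n] := by
    intro i j h1 h2
    rw [← hab]
    exact (Nat.modEq_and_modEq_iff_modEq_mul hcop).1 ⟨h1, h2⟩
  have hst : ∀ x : G, x ^ t * x ^ s = x := by
    intro x
    rw [← pow_add]
    conv_rhs => rw [← pow_one x]
    apply hpow
    apply hmod
    · exact ht1.add hs1
    · exact ht2.add hs2
  have hst0 : ∀ x : G, (x ^ t) ^ s = 1 := by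
    intro x
    rw [← pow_mul, ← pow_zero x]
    apply hpow
    apply hmod
    · simpa using ht1.mul_right s
    · simpa using hs2.mul_left t
  have htt : ∀ x : G, (x ^ t) ^ t = x ^ t := by
    intro x
    rw [← pow_mul]
    apply hpow
    apply hmod
    · exact (by simpa using ht1.mul_right t : t * t ≡ 0 [MOD a]).trans ht1.symm
    · simpa using ht2.mul_right t
  -- the three counting formulas
  have kG : Nat.card {C : ConjClasses G // ∀ q : ℕ, q.Prime → (∃ g : G, ConjClasses.mk g = C ∧ q ∣ orderOf g) → q ∈ π} * Nat.card G =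
      Nat.card {p : G × G // p.1 ^ a = 1 ∧ p.1 * p.2 = p.2 * p.1} := by
    rw [burn (fun x : G => x ^ a = 1) (by
      intro g x hx
      change (g * x * g⁻¹) ^ a = 1
      rw [conj_pow, hx]; simp)]
    congr 1
    exact Nat.card_congr (Equiv.subtypeEquivRight fun C => class_iff π hn hxG C)
  have kN : Nat.card {C : ConjClasses N // ∀ q : ℕ, q.Prime → (∃ g : N, ConjClasses.mk g = C ∧ q ∣ orderOf g) → q ∈ π} * Nat.card N =
      Nat.card {p : N × N // p.1 ^ a = 1 ∧ p.1 * p.2 = p.2 * p.1} := by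
    rw [burn (fun x : N => x ^ a = 1) (by
      intro g x hx
      change (g * x * g⁻¹) ^ a = 1
      rw [conj_pow, hx]; simp)]
    congr 1
    exact Nat.card_congr (Equiv.subtypeEquivRight fun C => class_iff π hn hxN C)
  have kQ : Nat.card {C : ConjClasses (G ⧸ N) // ∀ q : ℕ, q.Prime → (∃ g : (G ⧸ N), ConjClasses.mk g = C ∧ q ∣ orderOf g) → q ∈ π} * Nat.card (G ⧸ N) =
      Nat.card {p : (G ⧸ N) × (G ⧸ N) // p.1 ^ a = 1 ∧ p.1 * p.2 = p.2 * p.1} := by
    rw [burn (fun x : G ⧸ N => x ^ a = 1) (by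
      intro g x hx
      change (g * x * g⁻¹) ^ a = 1
      rw [conj_pow, hx]; simp)]
    congr 1
    exact Nat.card_congr (Equiv.subtypeEquivRight fun C => class_iff π hn hxQ C)
  -- fibres
  have key : Nat.card {p : G × G // p.1 ^ a = 1 ∧ p.1 * p.2 = p.2 * p.1} ≤
      Nat.card {p : (G ⧸ N) × (G ⧸ N) // p.1 ^ a = 1 ∧ p.1 * p.2 = p.2 * p.1} *
      Nat.card {p : N × N // p.1 ^ a = 1 ∧ p.1 * p.2 = p.2 * p.1} := by
    let f : {p : G × G // p.1 ^ a = 1 ∧ p.1 * p.2 = p.2 * p.1} →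
        {p : (G ⧸ N) × (G ⧸ N) // p.1 ^ a = 1 ∧ p.1 * p.2 = p.2 * p.1} := fun p =>
      ⟨((p.1.1 : G ⧸ N), (p.1.2 : G ⧸ N)), by rw [← QuotientGroup.mk_pow, p.2.1]; rfl, by
        rw [← QuotientGroup.mk_mul, p.2.2]; rfl⟩
    have hfib : ∀ c, Nat.card {p // f p = c} ≤
        Nat.card {p : N × N // p.1 ^ a = 1 ∧ p.1 * p.2 = p.2 * p.1} := by
      rintro ⟨⟨g, h⟩, hga, hgh⟩
      -- step 1
      have hg1 : ∀ x : G, (x : G ⧸ N) = g → ∀ m ∈ N, ((x * m : G) : G ⧸ N) = g := by
        intro x hx m hm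
        rw [QuotientGroup.mk_mul, hx, (QuotientGroup.eq_one_iff m).2 hm, mul_one]
      let Y : G → G := fun x => if hx : ∃ y : G, (y : G ⧸ N) = h ∧ x * y = y * x then hx.choose else 1
      have hY : ∀ x y : G, (y : G ⧸ N) = h → x * y = y * x →
          ((Y x : G) : G ⧸ N) = h ∧ x * Y x = Y x * x := by
        intro x y h1 h2
        have hx : ∃ y : G, (y : G ⧸ N) = h ∧ x * y = y * x := ⟨y, h1, h2⟩
        have : Y x = hx.choose := dif_pos hx
        rw [this]
        exact hx.choose_spec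
      let W : G → G := fun z => if hx : ∃ w : G, (w : G ⧸ N) = g ∧ z * w = w * z then hx.choose else 1
      have hW : ∀ z w : G, (w : G ⧸ N) = g → z * w = w * z →
          ((W z : G) : G ⧸ N) = g ∧ z * W z = W z * z := by
        intro x y h1 h2
        have hx : ∃ y : G, (y : G ⧸ N) = g ∧ x * y = y * x := ⟨y, h1, h2⟩
        have : W x = hx.choose := dif_pos hx
        rw [this]
        exact hx.choose_spec
      have s1 : Nat.card {p // f p = ⟨(g, h), hga, hgh⟩} ≤
          Nat.card {p : G × G // (p.1 : G ⧸ N) = g ∧ p.1 ^ a = 1 ∧ p.2 ∈ N ∧ p.1 * p.2 = p.2 * p.1} := by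
        have hf1 : ∀ p : {p // f p = ⟨(g, h), hga, hgh⟩}, (p.1.1.1 : G ⧸ N) = g ∧ (p.1.1.2 : G ⧸ N) = h := by
          intro p
          have := congrArg Subtype.val p.2
          exact ⟨congrArg Prod.fst this, congrArg Prod.snd this⟩
        apply Nat.card_le_card_of_injective (fun p : {p // f p = ⟨(g, h), hga, hgh⟩} =>
          (⟨(p.1.1.1, (Y p.1.1.1)⁻¹ * p.1.1.2), (hf1 p).1, p.1.2.1, by
            obtain ⟨h1, h2⟩ := hY p.1.1.1 p.1.1.2 (hf1 p).2 p.1.2.2
            rw [← QuotientGroup.eq_one_iff, QuotientGroup.mk_mul, QuotientGroup.mk_inv, h1, (hf1 p).2,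
              inv_mul_cancel], by
            obtain ⟨h1, h2⟩ := hY p.1.1.1 p.1.1.2 (hf1 p).2 p.1.2.2
            have h3 : Commute p.1.1.1 (Y p.1.1.1) := h2
            have h4 : Commute p.1.1.1 p.1.1.2 := p.1.2.2
            exact h3.inv_right.mul_right h4⟩ :
            {p : G × G // (p.1 : G ⧸ N) = g ∧ p.1 ^ a = 1 ∧ p.2 ∈ N ∧ p.1 * p.2 = p.2 * p.1}))
        intro p q hpq
        have h1 : (p.1.1.1, (Y p.1.1.1)⁻¹ * p.1.1.2) = (q.1.1.1, (Y q.1.1.1)⁻¹ * q.1.1.2) :=
          congrArg Subtype.val hpq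
        have h2 : p.1.1.1 = q.1.1.1 := (Prod.ext_iff.1 h1).1
        have h3 : (Y p.1.1.1)⁻¹ * p.1.1.2 = (Y q.1.1.1)⁻¹ * q.1.1.2 := (Prod.ext_iff.1 h1).2
        rw [h2] at h3
        exact Subtype.ext (Subtype.ext (Prod.ext h2 (mul_left_cancel h3)))
      have s2 : Nat.card {p : G × G // (p.1 : G ⧸ N) = g ∧ p.1 ^ a = 1 ∧ p.2 ∈ N ∧ p.1 * p.2 = p.2 * p.1} ≤
          Nat.card {p : G × G // (p.1 : G ⧸ N) = g ∧ p.2 ^ a = 1 ∧ p.2 ∈ N ∧ p.1 * p.2 = p.2 * p.1} := by
        apply Nat.card_le_card_of_injective (fun p : {p : G × G // (p.1 : G ⧸ N) = g ∧ p.1 ^ a = 1 ∧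
            p.2 ∈ N ∧ p.1 * p.2 = p.2 * p.1} =>
          (⟨(p.1.1 * p.1.2 ^ t, p.1.2 ^ s), hg1 _ p.2.1 _ (N.pow_mem p.2.2.2.1 t), by
            obtain ⟨k, hk⟩ := hbs
            rw [← pow_mul, hk, show b * k * a = n * k by rw [← hab]; ring, pow_mul, hxG, one_pow],
            N.pow_mem p.2.2.2.1 s, by
            have h4 : Commute p.1.1 p.1.2 := p.2.2.2.2
            exact ((h4.pow_right s).mul_left ((Commute.refl p.1.2).pow_pow t s))⟩ :
            {p : G × G // (p.1 : G ⧸ N) = g ∧ p.2 ^ a = 1 ∧ p.2 ∈ N ∧ p.1 * p.2 = p.2 * p.1}))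
        have hrec : ∀ x y : G, x ^ a = 1 → x * y = y * x → (x * y ^ t) ^ s = x ∧ (x * y ^ t) ^ t * y ^ s = y := by
          intro x y hx hxy
          have hc : Commute x (y ^ t) := (show Commute x y from hxy).pow_right t
          constructor
          · rw [hc.mul_pow, hst0, mul_one]
            conv_rhs => rw [← pow_one x]
            exact hpow' x hx _ _ hs1
          · rw [hc.mul_pow, htt]
            rw [show x ^ t = 1 by rw [← pow_zero x]; exact hpow' x hx _ _ ht1, one_mul, hst]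
        intro p q hpq
        have h1 := congrArg Subtype.val hpq
        have h2 : p.1.1 * p.1.2 ^ t = q.1.1 * q.1.2 ^ t := congrArg Prod.fst h1
        have h3 : p.1.2 ^ s = q.1.2 ^ s := congrArg Prod.snd h1
        obtain ⟨h4, h5⟩ := hrec p.1.1 p.1.2 p.2.2.1 p.2.2.2.2
        obtain ⟨h6, h7⟩ := hrec q.1.1 q.1.2 q.2.2.1 q.2.2.2.2
        refine Subtype.ext (Prod.ext ?_ ?_)
        · rw [← h4, ← h6, h2]
        · rw [← h5, ← h7, h2, h3]
      have s3 : Nat.card {p : G × G // (p.1 : G ⧸ N) = g ∧ p.2 ^ a = 1 ∧ p.2 ∈ N ∧ p.1 * p.2 = p.2 * p.1} ≤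
          Nat.card {p : N × N // p.1 ^ a = 1 ∧ p.1 * p.2 = p.2 * p.1} := by
        apply Nat.card_le_card_of_injective (fun p : {p : G × G // (p.1 : G ⧸ N) = g ∧ p.2 ^ a = 1 ∧
            p.2 ∈ N ∧ p.1 * p.2 = p.2 * p.1} =>
          (⟨(⟨p.1.2, p.2.2.2.1⟩, ⟨(W p.1.2)⁻¹ * p.1.1, by
            obtain ⟨h1, h2⟩ := hW p.1.2 p.1.1 p.2.1 p.2.2.2.2.symm
            rw [← QuotientGroup.eq_one_iff, QuotientGroup.mk_mul, QuotientGroup.mk_inv, h1, p.2.1,
              inv_mul_cancel]⟩), Subtype.ext p.2.2.1, by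
            obtain ⟨h1, h2⟩ := hW p.1.2 p.1.1 p.2.1 p.2.2.2.2.symm
            have h3 : Commute p.1.2 (W p.1.2) := h2
            have h4 : Commute p.1.2 p.1.1 := p.2.2.2.2.symm
            exact Subtype.ext (h3.inv_right.mul_right h4)⟩ :
            {p : N × N // p.1 ^ a = 1 ∧ p.1 * p.2 = p.2 * p.1}))
        intro p q hpq
        have h1 := congrArg Subtype.val hpq
        have h2 : p.1.2 = q.1.2 := congrArg Subtype.val (congrArg Prod.fst h1)
        have h3 : (W p.1.2)⁻¹ * p.1.1 = (W q.1.2)⁻¹ * q.1.1 := congrArg Subtype.val (congrArg Prod.snd h1)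
        rw [h2] at h3
        exact Subtype.ext (Prod.ext (mul_left_cancel h3) h2)
      exact s1.trans (s2.trans s3)
    have := Fintype.ofFinite {p : (G ⧸ N) × (G ⧸ N) // p.1 ^ a = 1 ∧ p.1 * p.2 = p.2 * p.1}
    rw [← Nat.card_congr (Equiv.sigmaFiberEquiv f), Nat.card_sigma]
    refine (Finset.sum_le_card_nsmul _ _ _ fun c _ => hfib c).trans ?_
    rw [Finset.card_univ, smul_eq_mul, Nat.card_eq_fintype_card (α := {p : (G ⧸ N) × (G ⧸ N) // p.1 ^ a = 1 ∧ p.1 * p.2 = p.2 * p.1})]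
  rw [← kG, ← kN, ← kQ] at key
  have hcard : Nat.card (G ⧸ N) * Nat.card N = Nat.card G := (Subgroup.card_eq_card_quotient_mul_card_subgroup N).symm
  have hpos : 0 < Nat.card G := Nat.card_pos
  refine Nat.le_of_mul_le_mul_right (key.trans (le_of_eq ?_)) hpos
  rw [← hcard]; ring

end Cfsg.Agent.S4152
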