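import Cfsg.Statements.S4153
import Cfsg.Agent.H69.Basic

set_option autoImplicit false
set_option linter.style.haveILetI false
open Cfsg

namespace Cfsg.Agent.S4153

open Subgroup Cfsg.Agent.H69

variable {G : Type*} [Group G] [Finite G] (p : ℕ) [Fact p.Prime] (N : Subgroup G) [N.Normal]

/-- lifting a `p`-element of the quotient to a `p`-element. -/
theorem exists_lift (q : G ⧸ N) (hq : ∃ k : ℕ, orderOf q = p ^ k) :
    ∃ g : G, (QuotientGroup.mk g : G ⧸ N) = q ∧ ∃ k : ℕ, orderOf g = p ^ k := by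
  obtain ⟨k, hk⟩ := hq
  obtain ⟨x, rfl⟩ := QuotientGroup.mk_surjective q
  obtain ⟨a, m, hm, hx⟩ := Nat.exists_eq_pow_mul_and_not_dvd (orderOf_pos x).ne' p (Fact.out : p.Prime).ne_one
  have hco : Nat.Coprime (p ^ a) m := Nat.Coprime.pow_left _ (((Fact.out : p.Prime).coprime_iff_not_dvd).mpr hm)
  obtain ⟨j, hj1, hj2⟩ := Nat.chineseRemainder hco 1 0
  refine ⟨x ^ j, ?_, ?_⟩
  · have hdvd : orderOf (QuotientGroup.mk x : G ⧸ N) ∣ orderOf x := orderOf_map_dvd (QuotientGroup.mk' N) x
    have hdvd2 : orderOf (QuotientGroup.mk x : G ⧸ N) ∣ p ^ a := by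
      rw [hk] at hdvd ⊢
      rw [hx] at hdvd
      have hc2 : Nat.Coprime (p ^ k) m := Nat.Coprime.pow_left _ (((Fact.out : p.Prime).coprime_iff_not_dvd).mpr hm)
      exact hc2.dvd_of_dvd_mul_right hdvd
    have h1 : (QuotientGroup.mk x : G ⧸ N) ^ j = (QuotientGroup.mk x : G ⧸ N) ^ 1 :=
      pow_eq_pow_iff_modEq.mpr (Nat.ModEq.of_dvd hdvd2 hj1)
    rw [QuotientGroup.mk_pow, h1, pow_one]
  · have h1 : (x ^ j) ^ (p ^ a) = 1 := by
      rw [← pow_mul, ← orderOf_dvd_iff_pow_eq_one, hx, mul_comm]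
      exact Nat.mul_dvd_mul ((Nat.modEq_zero_iff_dvd).mp hj2) dvd_rfl
    obtain ⟨b, -, hb⟩ := (Nat.dvd_prime_pow (Fact.out : p.Prime)).mp (orderOf_dvd_of_pow_eq_one h1)
    exact ⟨b, hb⟩

omit [Finite G] [Fact p.Prime] in
theorem exists_sylow_mem {g : G} (hg : ∃ k : ℕ, orderOf g = p ^ k) :
    ∃ P : Sylow p G, g ∈ P := by
  obtain ⟨k, hk⟩ := hg
  have : IsPGroup p (zpowers g) := IsPGroup.of_card (n := k) (by rw [Nat.card_zpowers, hk])
  obtain ⟨P, hP⟩ := this.exists_le_sylow
  exact ⟨P, hP (mem_zpowers g)⟩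

theorem card_sylow_inf (P : Sylow p G) :
    Nat.card ((P : Subgroup G) ⊓ N : Subgroup G) = p ^ (Nat.card N).factorization p := by
  have hprime : p.Prime := Fact.out
  -- card P = card (P ⊓ N) * card (P.map mk')
  have h1 : Nat.card ((P : Subgroup G) ⊓ N : Subgroup G) * Nat.card ((P : Subgroup G).map (QuotientGroup.mk' N)) =
      Nat.card (P : Subgroup G) := by
    have h2 := (N.subgroupOf (P : Subgroup G)).card_mul_index
    have h3 : Nat.card (N.subgroupOf (P : Subgroup G)) = Nat.card ((P : Subgroup G) ⊓ N : Subgroup G) := by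
      rw [← Subgroup.card_map_of_injective (Subgroup.subtype_injective (P : Subgroup G)),
        subgroupOf_map_subtype, inf_comm]
    have h4 : (N.subgroupOf (P : Subgroup G)).index = Nat.card ((P : Subgroup G).map (QuotientGroup.mk' N)) := by
      rw [← relIndex_ker, QuotientGroup.ker_mk']; rfl
    rw [h3, h4] at h2
    exact h2
  have hN : Nat.card G = Nat.card N * Nat.card (G ⧸ N) := by
    rw [← N.card_mul_index]; rfl
  have hfac : (Nat.card G).factorization p = (Nat.card N).factorization p + (Nat.card (G ⧸ N)).factorization p := by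
    rw [hN, Nat.factorization_mul Nat.card_pos.ne' Nat.card_pos.ne']; rfl
  have hP := P.card_eq_multiplicity
  -- bounds
  obtain ⟨a, ha⟩ := (P.2.to_le (inf_le_left : (P : Subgroup G) ⊓ N ≤ P)).exists_card_eq
  obtain ⟨b, hb⟩ := (P.2.map (QuotientGroup.mk' N)).exists_card_eq
  rw [ha, hb, hP, ← pow_add] at h1
  have hab := Nat.pow_right_injective hprime.two_le h1
  have ha' : a ≤ (Nat.card N).factorization p := by
    apply (hprime.pow_dvd_iff_le_factorization Nat.card_pos.ne').mp
    rw [← ha]; exact Subgroup.card_dvd_of_le inf_le_right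
  have hb' : b ≤ (Nat.card (G ⧸ N)).factorization p := by
    apply (hprime.pow_dvd_iff_le_factorization Nat.card_pos.ne').mp
    rw [← hb]; exact Subgroup.card_subgroup_dvd_card _
  rw [ha]
  congr 1
  omega

/-- Let G be a finite group, p a prime, N a normal subgroup, P a Sylow p-subgroup of G and P̄ a Sylow p-subgroup of G/N. Count the elements of p-power order, the identity included. Then (number of such elements of G/N)/#P̄ ≤ (number of such elements of G)/#P, stated as a cross-multiplied inequality, with equality when N is central. -/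
theorem result {G : Type*} [Group G] [Finite G] (p : ℕ) [Fact p.Prime] (N : Subgroup G) [N.Normal]
    (P : Sylow p G) (Pbar : Sylow p (G ⧸ N)) :
    Nat.card {g : (G ⧸ N) // ∃ k : ℕ, orderOf g = p ^ k} * Nat.card (P : Subgroup G) ≤ Nat.card {g : G // ∃ k : ℕ, orderOf g = p ^ k} * Nat.card (Pbar : Subgroup (G ⧸ N)) ∧
    (N ≤ Subgroup.center G → Nat.card {g : (G ⧸ N) // ∃ k : ℕ, orderOf g = p ^ k} * Nat.card (P : Subgroup G) = Nat.card {g : G // ∃ k : ℕ, orderOf g = p ^ k} * Nat.card (Pbar : Subgroup (G ⧸ N))) := by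
  classical
  have hprime : p.Prime := Fact.out
  have : Fintype G := Fintype.ofFinite G
  have : Fintype (G ⧸ N) := Fintype.ofFinite _
  have hN : Nat.card G = Nat.card N * Nat.card (G ⧸ N) := by
    rw [← N.card_mul_index]; rfl
  have hfac : (Nat.card G).factorization p = (Nat.card N).factorization p + (Nat.card (G ⧸ N)).factorization p := by
    rw [hN, Nat.factorization_mul Nat.card_pos.ne' Nat.card_pos.ne']; rfl
  rw [P.card_eq_multiplicity, Pbar.card_eq_multiplicity, hfac, pow_add]
  set S : Finset G := Finset.univ.filter (fun g => ∃ k : ℕ, orderOf g = p ^ k) with hS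
  set T : Finset (G ⧸ N) := Finset.univ.filter (fun g => ∃ k : ℕ, orderOf g = p ^ k) with hT
  have hcS : Nat.card {g : G // ∃ k : ℕ, orderOf g = p ^ k} = S.card := by
    rw [Nat.card_eq_fintype_card, Fintype.card_subtype]
  have hcT : Nat.card {g : (G ⧸ N) // ∃ k : ℕ, orderOf g = p ^ k} = T.card := by
    rw [Nat.card_eq_fintype_card, Fintype.card_subtype]
  rw [hcS, hcT]
  have hmap : ∀ g ∈ S, (QuotientGroup.mk g : G ⧸ N) ∈ T := by
    intro g hg
    rw [hS, Finset.mem_filter] at hg
    obtain ⟨k, hk⟩ := hg.2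
    rw [hT, Finset.mem_filter]
    refine ⟨Finset.mem_univ _, ?_⟩
    have hdvd : orderOf (QuotientGroup.mk g : G ⧸ N) ∣ p ^ k := by
      rw [← hk]; exact orderOf_map_dvd (QuotientGroup.mk' N) g
    obtain ⟨b, -, hb⟩ := (Nat.dvd_prime_pow hprime).mp hdvd
    exact ⟨b, hb⟩
  have hfib := Finset.card_eq_sum_card_fiberwise hmap
  set c := p ^ (Nat.card N).factorization p with hc
  -- for each q, the coset piece
  have hpiece : ∀ q ∈ T, ∃ (g : G) (P₀ : Sylow p G), (QuotientGroup.mk g : G ⧸ N) = q ∧ g ∈ P₀ := by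
    intro q hq
    rw [hT, Finset.mem_filter] at hq
    obtain ⟨g, hg, hgk⟩ := exists_lift p N q hq.2
    obtain ⟨P₀, hP₀⟩ := exists_sylow_mem p hgk
    exact ⟨g, P₀, hg, hP₀⟩
  have himg : ∀ (g : G) (P₀ : Sylow p G), ((Finset.univ.filter (fun n : G => n ∈ (P₀ : Subgroup G) ⊓ N)).image (fun n => g * n)).card = c := by
    intro g P₀
    rw [Finset.card_image_of_injective _ (mul_right_injective g), hc, ← card_sylow_inf p N P₀,
      Nat.card_eq_fintype_card, Fintype.card_subtype]
  have hlow : ∀ q ∈ T, c ≤ (S.filter (fun g => (QuotientGroup.mk g : G ⧸ N) = q)).card := by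
    intro q hq
    obtain ⟨g, P₀, hg, hgP⟩ := hpiece q hq
    rw [← himg g P₀]
    apply Finset.card_le_card
    intro y hy
    rw [Finset.mem_image] at hy
    obtain ⟨n, hn, rfl⟩ := hy
    rw [Finset.mem_filter, mem_inf] at hn
    rw [Finset.mem_filter, hS, Finset.mem_filter]
    refine ⟨⟨Finset.mem_univ _, ?_⟩, ?_⟩
    · exact orderOf_of_mem_isPGroup P₀.2 (P₀.1.mul_mem hgP hn.2.1)
    · rw [← hg, QuotientGroup.eq]
      have : (g * n)⁻¹ * g = n⁻¹ := by group
      rw [this]
      exact N.inv_mem hn.2.2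
  have h1 : T.card * c ≤ S.card := by
    rw [hfib, ← smul_eq_mul]
    exact Finset.card_nsmul_le_sum _ _ _ hlow
  constructor
  · nlinarith [Nat.zero_le (p ^ (Nat.card (G ⧸ N)).factorization p)]
  · intro hcen
    have hup : ∀ q ∈ T, (S.filter (fun g => (QuotientGroup.mk g : G ⧸ N) = q)).card ≤ c := by
      intro q hq
      obtain ⟨g, P₀, hg, hgP⟩ := hpiece q hq
      rw [← himg g P₀]
      apply Finset.card_le_card
      intro y hy
      rw [Finset.mem_filter, hS, Finset.mem_filter] at hy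
      obtain ⟨⟨-, k, hk⟩, hyq⟩ := hy
      rw [Finset.mem_image]
      have hnN : g⁻¹ * y ∈ N := by
        rw [← QuotientGroup.eq, hg, hyq]
      refine ⟨g⁻¹ * y, ?_, by group⟩
      rw [Finset.mem_filter, mem_inf]
      refine ⟨Finset.mem_univ _, ?_, hnN⟩
      -- n := g⁻¹ y is a central p-element
      have hncen := hcen hnN
      have hcomm : Commute g⁻¹ y := by
        have h1 := Subgroup.mem_center_iff.mp hncen g
        -- g * (g⁻¹ y) = (g⁻¹ y) * g
        have h2 : y = g⁻¹ * y * g := by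
          calc y = g * (g⁻¹ * y) := by group
            _ = g⁻¹ * y * g := h1
        show g⁻¹ * y = y * g⁻¹
        calc g⁻¹ * y = (g⁻¹ * y * g) * g⁻¹ := by group
          _ = y * g⁻¹ := by rw [← h2]
      obtain ⟨l, hl⟩ := orderOf_of_mem_isPGroup P₀.2 hgP
      have hnp : (g⁻¹ * y) ^ (p ^ (l + k)) = 1 := by
        rw [hcomm.mul_pow, inv_pow, pow_add, pow_mul, ← hl, pow_orderOf_eq_one, one_pow, inv_one,
          one_mul, mul_comm, pow_mul, ← hk, pow_orderOf_eq_one, one_pow]
      have hZ : IsPGroup p (zpowers (g⁻¹ * y)) := by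
        obtain ⟨b, -, hb⟩ := (Nat.dvd_prime_pow hprime).mp (orderOf_dvd_of_pow_eq_one hnp)
        exact IsPGroup.of_card (n := b) (by rw [Nat.card_zpowers, hb])
      have hnormal : (zpowers (g⁻¹ * y)).Normal := by
        constructor
        intro z hz t
        have hz2 : z ∈ center G := (zpowers_le.mpr hncen) hz
        have : t * z * t⁻¹ = z := by
          rw [Subgroup.mem_center_iff.mp hz2 t]; group
        rw [this]; exact hz
      exact (hZ.le_sylow_of_normal P₀) (mem_zpowers _)
    have h2 : S.card ≤ T.card * c := by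
      rw [hfib, ← smul_eq_mul]
      exact Finset.sum_le_card_nsmul _ _ _ hup
    have h3 : S.card = T.card * c := le_antisymm h2 h1
    rw [h3]; ring

end Cfsg.Agent.S4153
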