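import Cfsg.Statements.S4154

set_option autoImplicit false
open Cfsg

namespace Cfsg.Agent.S4154

open Subgroup

/-- Let G be a finite group and α an automorphism of G such that every element of G is the product of an element fixed by α and an element of the form g⁻¹α(g). If N is a normal α-invariant subgroup, then the automorphism ᾱ induced on G/N has the same property, and every coset fixed by ᾱ contains an element fixed by α (so the fixed points of ᾱ are the images of the fixed points of α). -/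
theorem result {G : Type*} [Group G] [Finite G] (α : MulAut G)
    (hccp : ∀ x : G, ∃ c g : G, α c = c ∧ x = c * (g⁻¹ * α g))
    (N : Subgroup G) [N.Normal] (hN : ∀ n ∈ N, α n ∈ N) :
    (∀ x : G, ∃ c g : G, c⁻¹ * α c ∈ N ∧ x⁻¹ * (c * (g⁻¹ * α g)) ∈ N) ∧
    (∀ x : G, x⁻¹ * α x ∈ N → ∃ c : G, α c = c ∧ c⁻¹ * x ∈ N) := by
  constructor
  · intro x
    obtain ⟨c, g, hc, hx⟩ := hccp x
    refine ⟨c, g, ?_, ?_⟩
    · rw [hc, inv_mul_cancel]; exact N.one_mem
    · rw [← hx, inv_mul_cancel]; exact N.one_mem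
  · -- the two subgroups
    have hNn : N.Normal := inferInstance
    let C : Subgroup G :=
      { carrier := {c | α c = c}
        mul_mem' := fun {a b} ha hb => by
          show α (a * b) = a * b
          rw [map_mul, show α a = a from ha, show α b = b from hb]
        one_mem' := map_one α
        inv_mem' := fun {a} ha => by
          show α a⁻¹ = a⁻¹
          rw [map_inv, show α a = a from ha] }
    let D : Subgroup G :=
      { carrier := {x | x⁻¹ * α x ∈ N}
        mul_mem' := fun {a b} ha hb => by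
          show (a * b)⁻¹ * α (a * b) ∈ N
          have h1 : b⁻¹ * (a⁻¹ * α a) * b⁻¹⁻¹ ∈ N := hNn.conj_mem _ ha b⁻¹
          have h2 : (a * b)⁻¹ * α (a * b) = (b⁻¹ * (a⁻¹ * α a) * b⁻¹⁻¹) * (b⁻¹ * α b) := by
            rw [map_mul]; group
          rw [h2]; exact N.mul_mem h1 hb
        one_mem' := by
          show (1 : G)⁻¹ * α 1 ∈ N
          rw [map_one]; simp
        inv_mem' := fun {a} ha => by
          show a⁻¹⁻¹ * α a⁻¹ ∈ N
          have h1 : a * (a⁻¹ * α a)⁻¹ * a⁻¹ ∈ N := hNn.conj_mem _ (N.inv_mem ha) a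
          have h2 : a⁻¹⁻¹ * α a⁻¹ = a * (a⁻¹ * α a)⁻¹ * a⁻¹ := by
            rw [map_inv]; group
          rw [h2]; exact h1 }
    have hCD : C ≤ D := by
      intro c hc
      show c⁻¹ * α c ∈ N
      rw [show α c = c from hc, inv_mul_cancel]; exact N.one_mem
    have hND : N ≤ D := by
      intro n hn
      exact N.mul_mem (N.inv_mem hn) (hN n hn)
    have hle : C ⊔ N ≤ D := sup_le hCD hND
    -- surjection of cosets
    let f : G ⧸ D → G ⧸ (C ⊔ N) := fun q => Quotient.liftOn' q
      (fun u => (QuotientGroup.mk (α u * u⁻¹) : G ⧸ (C ⊔ N))) (by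
        intro a b hab
        rw [QuotientGroup.leftRel_apply] at hab
        show (QuotientGroup.mk (α a * a⁻¹) : G ⧸ (C ⊔ N)) = QuotientGroup.mk (α b * b⁻¹)
        rw [QuotientGroup.eq]
        -- (α a a⁻¹)⁻¹ (α b b⁻¹) = a (α a)⁻¹ α b b⁻¹
        set d := a⁻¹ * b with hd
        have hb : b = a * d := by rw [hd]; group
        have h1 : (α a * a⁻¹)⁻¹ * (α b * b⁻¹) = (a * d) * (d⁻¹ * α d) * (a * d)⁻¹ := by
          rw [hb, map_mul]; group
        rw [h1]
        exact (le_sup_right : N ≤ C ⊔ N) (hNn.conj_mem _ hab _))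
    have hf : Function.Surjective f := by
      intro q
      refine Quotient.inductionOn' q fun x => ?_
      obtain ⟨c, g, hc, hx⟩ := hccp x⁻¹
      refine ⟨QuotientGroup.mk g⁻¹, ?_⟩
      show (QuotientGroup.mk (α g⁻¹ * g⁻¹⁻¹) : G ⧸ (C ⊔ N)) = QuotientGroup.mk x
      rw [QuotientGroup.eq]
      have h1 : x = (α g)⁻¹ * g * c⁻¹ := by
        rw [← inv_inv x, hx]; group
      have h2 : (α g⁻¹ * g⁻¹⁻¹)⁻¹ * x = c⁻¹ := by
        rw [h1, map_inv]; group
      rw [h2]
      exact (le_sup_left : C ≤ C ⊔ N) (C.inv_mem hc)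
    have hcard : (C ⊔ N).index ≤ D.index := Nat.card_le_card_of_surjective f hf
    have heq : C ⊔ N = D := by
      refine le_antisymm hle ?_
      have h1 := relIndex_mul_index hle
      have h2 : 0 < D.index := Nat.pos_of_ne_zero Subgroup.index_ne_zero_of_finite
      have h3 : (C ⊔ N).relIndex D = 1 := by
        have h4 : (C ⊔ N).relIndex D ≠ 0 := by rw [relIndex]; exact Subgroup.index_ne_zero_of_finite
        nlinarith [Nat.pos_of_ne_zero h4]
      exact relIndex_eq_one.mp h3
    intro x hx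
    have hxD : x ∈ C ⊔ N := by rw [heq]; exact hx
    obtain ⟨c, hc, n, hn, rfl⟩ := Subgroup.mem_sup_of_normal_right.mp hxD
    exact ⟨c, hc, by rw [inv_mul_cancel_left]; exact hn⟩

end Cfsg.Agent.S4154
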