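import Cfsg.Statements.S4155
import Cfsg.Agent.H65.BProp
import Cfsg.Agent.Frob.Action
import Cfsg.Agent.Solv.MinNormal

set_option autoImplicit false
open Cfsg

namespace Cfsg.Agent.S4155


open Subgroup

variable {G : Type*} [Group G] [Finite G]

theorem key {N : Subgroup G} (heq : ∀ x : G, x ∉ N → ∀ n ∈ N, orderOf (x * n) = orderOf x)
    {r : ℕ} (hr : r.Prime) {x w : G} (hw : w ∈ N) (hw1 : w ≠ 1) (hwr : w ^ r = 1)
    (hc : Commute x w) : ∃ k, x ^ (r ^ k) ∈ N := by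
  have : Fact r.Prime := ⟨hr⟩
  by_contra hcon
  push Not at hcon
  obtain ⟨k, m, hm, hkm⟩ := Nat.exists_eq_pow_mul_and_not_dvd (orderOf_pos x).ne' r hr.ne_one
  have h0 : 0 < r ^ k := pow_pos hr.pos k
  have h1 : orderOf (x ^ (r ^ k)) = m := by
    rw [orderOf_pow_of_dvd h0.ne' ⟨m, hkm⟩, hkm, Nat.mul_div_cancel_left _ h0]
  have h2 : orderOf w = r := orderOf_eq_prime hwr hw1
  have h3 : orderOf (x ^ (r ^ k) * w) = m * r := by
    rw [(hc.pow_left _).orderOf_mul_eq_mul_orderOf_of_coprime, h1, h2]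
    rw [h1, h2]
    exact ((Nat.Prime.coprime_iff_not_dvd hr).2 hm).symm
  have h4 := heq _ (hcon k) w hw
  rw [h3, h1] at h4
  have hm0 : 0 < m := by rw [← h1]; exact orderOf_pos _
  have := hr.two_le
  nlinarith

/-- elements of prime power order outside `N` -/
theorem exists_pelem {N : Subgroup G} [N.Normal] {x : G} (hx : x ∉ N) :
    ∃ q k m : ℕ, q.Prime ∧ (x ^ m) ^ (q ^ k) = 1 ∧ x ^ m ∉ N := by
  have h1 : (QuotientGroup.mk x : G ⧸ N) ≠ 1 := by
    rw [Ne, QuotientGroup.eq_one_iff]; exact hx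
  have h2 : orderOf (QuotientGroup.mk x : G ⧸ N) ≠ 1 := by rwa [Ne, orderOf_eq_one_iff]
  obtain ⟨q, hq, hqd⟩ := Nat.exists_prime_and_dvd h2
  obtain ⟨k, m, hm, hkm⟩ := Nat.exists_eq_pow_mul_and_not_dvd (orderOf_pos x).ne' q hq.ne_one
  refine ⟨q, k, m, hq, ?_, fun h => hm ?_⟩
  · rw [← pow_mul, mul_comm, ← hkm, pow_orderOf_eq_one]
  · refine hqd.trans (orderOf_dvd_of_pow_eq_one ?_)
    rw [← QuotientGroup.mk_pow, QuotientGroup.eq_one_iff]
    exact h

/-- central elements of exponent `r` -/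
def W (N : Subgroup G) (r : ℕ) : Subgroup G where
  carrier := {z | z ∈ N ∧ (∀ n ∈ N, z * n = n * z) ∧ z ^ r = 1}
  one_mem' := ⟨N.one_mem, by simp, one_pow r⟩
  mul_mem' := by
    rintro a b ⟨ha, ha', har⟩ ⟨hb, hb', hbr⟩
    refine ⟨N.mul_mem ha hb, fun n hn => ?_, ?_⟩
    · rw [mul_assoc, hb' n hn, ← mul_assoc, ha' n hn, mul_assoc]
    · have : Commute a b := ha' b hb
      rw [this.mul_pow, har, hbr, one_mul]
  inv_mem' := by
    rintro a ⟨ha, ha', har⟩
    refine ⟨N.inv_mem ha, fun n hn => ?_, ?_⟩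
    · have : Commute a n := ha' n hn
      exact this.inv_left
    · rw [inv_pow, har, inv_one]

instance W_normal (N : Subgroup G) [N.Normal] (r : ℕ) : (W N r).Normal := by
  constructor
  rintro z ⟨hz, hz', hzr⟩ g
  refine ⟨Normal.conj_mem inferInstance z hz g, fun n hn => ?_, ?_⟩
  · have h1 : g⁻¹ * n * g ∈ N := by
      have := Normal.conj_mem (inferInstance : N.Normal) n hn g⁻¹
      simpa using this
    have h2 := hz' _ h1
    have h3 : g * (z * (g⁻¹ * n * g)) * g⁻¹ = g * (g⁻¹ * n * g * z) * g⁻¹ := by rw [h2]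
    calc g * z * g⁻¹ * n = g * (z * (g⁻¹ * n * g)) * g⁻¹ := by group
      _ = g * (g⁻¹ * n * g * z) * g⁻¹ := h3
      _ = n * (g * z * g⁻¹) := by group
  · have : (g * z * g⁻¹) ^ r = g * z ^ r * g⁻¹ := by simp
    rw [this, hzr]; group

theorem W_ne_bot {N : Subgroup G} (hnil : Group.IsNilpotent N) {r : ℕ} (hr : r.Prime)
    (hd : r ∣ Nat.card N) : ∃ w ∈ W N r, w ≠ 1 := by
  have : Fact r.Prime := ⟨hr⟩
  obtain P : Sylow r N := default
  have htfae := (Group.isNilpotent_of_finite_tfae (G := N)).out 0 3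
  have hPn : (P : Subgroup N).Normal := (htfae.1 hnil) r ⟨hr⟩ P
  have hPne : (P : Subgroup N) ≠ ⊥ := by
    intro h
    exact P.ne_bot_of_dvd_card hd h
  have h1 := Cfsg.Agent.Solv.inf_center_ne_bot_of_nilpotent (P : Subgroup N) hPne
  have h2 : IsPGroup r ↥((P : Subgroup N) ⊓ center N) := P.isPGroup'.to_le inf_le_left
  have h3 : r ∣ Nat.card ↥((P : Subgroup N) ⊓ center N) := by
    rcases h2.card_eq_or_dvd with h | h
    · exact absurd (Subgroup.card_eq_one.1 h) h1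
    · exact h
  obtain ⟨z, hz⟩ := exists_prime_orderOf_dvd_card' r h3
  have hzC : (z : N) ∈ center N := (mem_inf.1 z.2).2
  have hz' : orderOf ((z : N) : G) = r := by rw [orderOf_coe, orderOf_coe, hz]
  refine ⟨((z : N) : G), ⟨(z : N).2, fun n hn => ?_, ?_⟩, ?_⟩
  · have := (mem_center_iff.1 hzC) ⟨n, hn⟩
    exact (congrArg Subtype.val this).symm
  · have := pow_orderOf_eq_one ((z : N) : G)
    rwa [hz'] at this
  · intro h
    rw [h, orderOf_one] at hz'
    exact hr.one_lt.ne hz'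

theorem exists_other {n : ℕ} (hn : n ≠ 1) (hn0 : n ≠ 0) (h : ¬ IsPrimePow n) (q : ℕ) (hq : q.Prime) :
    ∃ r, r.Prime ∧ r ∣ n ∧ r ≠ q := by
  by_contra hcon
  push Not at hcon
  have h1 := Nat.eq_prime_pow_of_unique_prime_dvd hn0 (fun {d} hd hdn => hcon d hd hdn)
  apply h
  rw [h1]
  have h2 : n.primeFactorsList.length ≠ 0 := by
    intro h0
    rw [h0, pow_zero] at h1
    exact hn h1
  exact hq.isPrimePow.pow h2

theorem fit_le {N : Subgroup G} [N.Normal] (hN1 : N ≠ ⊥)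
    (heq : ∀ x : G, x ∉ N → ∀ n ∈ N, orderOf (x * n) = orderOf x)
    (hnil : Group.IsNilpotent N) (hnpp : ¬ IsPrimePow (Nat.card N)) (K : Subgroup G) [K.Normal]
    (hK : Group.IsNilpotent K) : K ≤ N := by
  intro x hxK
  by_contra hx
  obtain ⟨q, k, m, hq, hy1, hyN⟩ := exists_pelem hx
  have hyK : x ^ m ∈ K := pow_mem hxK m
  set y := x ^ m with hy
  have : Fact q.Prime := ⟨hq⟩
  obtain ⟨r, hr, hrd, hrq⟩ := exists_other (fun h => hN1 (Subgroup.card_eq_one.1 h)) Nat.card_pos.ne' hnpp q hq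
  obtain ⟨w, hwW, hw1⟩ := W_ne_bot hnil hr hrd
  -- the Sylow subgroup of K
  have h1 : IsPGroup q (zpowers (⟨y, hyK⟩ : K)) := by
    have : orderOf (⟨y, hyK⟩ : K) ∣ q ^ k := orderOf_dvd_of_pow_eq_one (Subtype.ext hy1)
    rw [← Nat.card_zpowers] at this
    obtain ⟨j, -, hj⟩ := (Nat.dvd_prime_pow hq).1 this
    exact IsPGroup.of_card hj
  obtain ⟨P, hP⟩ := h1.exists_le_sylow
  have htfae := (Group.isNilpotent_of_finite_tfae (G := K)).out 0 3
  have hPn : (P : Subgroup K).Normal := (htfae.1 hK) q ⟨hq⟩ P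
  have hPc : (P : Subgroup K).Characteristic := P.characteristic_of_normal hPn
  have hQn : ((P : Subgroup K).map K.subtype).Normal := inferInstance
  set Q := (P : Subgroup K).map K.subtype with hQ
  have hyQ : y ∈ Q := ⟨⟨y, hyK⟩, hP (mem_zpowers _), rfl⟩
  have hQp : IsPGroup q Q := P.isPGroup'.map _
  have hdis : Disjoint Q (W N r) := by
    rw [disjoint_iff, eq_bot_iff]
    rintro z ⟨hzQ, hzW⟩
    obtain ⟨j, hj⟩ := hQp ⟨z, hzQ⟩
    have hj' : z ^ (q ^ j) = 1 := congrArg Subtype.val hj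
    have h2 := hzW.2.2
    have h3 : orderOf z ∣ Nat.gcd (q ^ j) r :=
      Nat.dvd_gcd (orderOf_dvd_of_pow_eq_one hj') (orderOf_dvd_of_pow_eq_one h2)
    have h4 : Nat.Coprime (q ^ j) r := Nat.Coprime.pow_left _ ((Nat.coprime_primes hq hr).2 hrq.symm)
    rw [h4] at h3
    exact orderOf_eq_one_iff.1 (Nat.dvd_one.1 h3)
  have hc : Commute y w := commute_of_normal_of_disjoint Q (W N r) hQn inferInstance hdis y w hyQ hwW
  obtain ⟨l, hl⟩ := key heq hr hwW.1 hw1 hwW.2.2 hc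
  apply hyN
  have hco : Nat.Coprime (q ^ k) (r ^ l) := Nat.Coprime.pow _ _ ((Nat.coprime_primes hq hr).2 hrq.symm)
  have h5 : zpowers (y ^ r ^ l) = zpowers y := by
    refine le_antisymm (by simp) ?_
    rw [zpowers_le]
    have h6 : (orderOf y).Coprime (r ^ l) := hco.coprime_dvd_left (orderOf_dvd_of_pow_eq_one hy1)
    obtain ⟨j, hj⟩ := exists_pow_eq_self_of_coprime h6.symm
    exact ⟨j, by simpa using hj⟩
  have h7 : zpowers (y ^ r ^ l) ≤ N := by rw [zpowers_le]; exact hl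
  rw [h5, zpowers_le] at h7
  exact h7

theorem fpf {N : Subgroup G} [N.Normal]
    (heq : ∀ x : G, x ∉ N → ∀ n ∈ N, orderOf (x * n) = orderOf x)
    (hnil : Group.IsNilpotent N) {r q : ℕ} (hr : r.Prime) (hq : q.Prime) (hrq : r ≠ q)
    (hrd : r ∣ Nat.card N) (E : Subgroup (G ⧸ N)) (hE : ∀ y ∈ E, y ^ q = 1) (hEc : Nat.card E = q ^ 2) : False := by
  obtain ⟨w, hwW, hw1⟩ := W_ne_bot hnil hr hrd
  have hker : ∀ n ∈ N, (MulAut.conjNormal (H := W N r)) n = 1 := by
    intro n hn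
    ext z
    rw [MulAut.conjNormal_apply]
    have := z.2.2.1 n hn
    rw [MulAut.one_apply, ← this, mul_inv_cancel_right]
  let φ : G ⧸ N →* MulAut (W N r) := QuotientGroup.lift N (MulAut.conjNormal (H := W N r)) hker
  let _ : CommGroup (W N r) := { (inferInstance : Group (W N r)) with
    mul_comm := fun a b => Subtype.ext (a.2.2.1 b b.2.1) }
  have : Nontrivial (W N r) := ⟨⟨⟨w, hwW⟩, 1, fun h => hw1 (congrArg Subtype.val h)⟩⟩
  let ψ : E →* MulAut (W N r) := φ.comp E.subtype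
  have hψ : Frob.IsFPF ψ := by
    intro a ha v hv
    by_contra hv1
    obtain ⟨x, hx⟩ := QuotientGroup.mk_surjective (a : G ⧸ N)
    have h1 : x * v * x⁻¹ = v := by
      have : φ (QuotientGroup.mk x) v = v := by rw [hx]; exact hv
      have h2 := congrArg Subtype.val this
      exact h2
    have hc : Commute x v := by
      have : x * v * x⁻¹ * x = v * x := by rw [h1]
      rw [inv_mul_cancel_right] at this
      exact this
    obtain ⟨k, hk⟩ := key heq hr v.2.1 (fun h => hv1 (Subtype.ext h)) v.2.2.2 hc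
    have h3 : (a : G ⧸ N) ^ (r ^ k) = 1 := by
      rw [← hx, ← QuotientGroup.mk_pow, QuotientGroup.eq_one_iff]; exact hk
    have h4 := hE a a.2
    have h5 : orderOf (a : G ⧸ N) ∣ Nat.gcd (r ^ k) q :=
      Nat.dvd_gcd (orderOf_dvd_of_pow_eq_one h3) (orderOf_dvd_of_pow_eq_one h4)
    rw [Nat.Coprime.pow_left _ ((Nat.coprime_primes hr hq).2 hrq)] at h5
    exact ha (Subtype.ext (orderOf_eq_one_iff.1 (Nat.dvd_one.1 h5)))
  have hcyc : IsCyclic E := hψ.isCyclic_of_card_eq_mul hq hq (by rw [hEc, sq])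
  obtain ⟨g, hg⟩ := hcyc.exists_generator
  have h6 : orderOf g = q ^ 2 := by rw [orderOf_eq_card_of_forall_mem_zpowers hg, hEc]
  have h7 : g ^ q = 1 := Subtype.ext (hE g g.2)
  have h8 := Nat.le_of_dvd hq.pos (orderOf_dvd_of_pow_eq_one h7)
  rw [h6] at h8
  have := hq.two_le
  nlinarith


/-- Let G be a finite group and N a proper non-trivial normal nilpotent subgroup whose order is not a prime power, such that for every x outside N all elements of the coset xN have the same order as x. Then N is the Fitting subgroup of G, and for every prime q every Sylow q-subgroup of G/N is cyclic or generalized quaternion. -/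
theorem result {G : Type*} [Group G] [Finite G] (N : Subgroup G) [N.Normal] (hN1 : N ≠ ⊥) (hN2 : N ≠ ⊤)
    (heq : ∀ x : G, x ∉ N → ∀ n ∈ N, orderOf (x * n) = orderOf x)
    (hnil : Group.IsNilpotent N) (hnpp : ¬ IsPrimePow (Nat.card N)) :
    N = Cfsg.fittingSubgroup G ∧
    ∀ (q : ℕ) [Fact q.Prime] (Q : Sylow q (G ⧸ N)), IsCyclic (Q : Subgroup (G ⧸ N)) ∨ ∃ n : ℕ, Nonempty ((Q : Subgroup (G ⧸ N)) ≃* QuaternionGroup (2 ^ n)) := by
  constructor
  · apply le_antisymm
    · exact le_sSup ⟨inferInstance, hnil⟩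
    · refine sSup_le ?_
      rintro K ⟨hK1, hK2⟩
      exact fit_le hN1 heq hnil hnpp K hK2
  · intro q hqf Q
    obtain ⟨r, hr, hrd, hrq⟩ := exists_other (fun h => hN1 (Subgroup.card_eq_one.1 h)) Nat.card_pos.ne' hnpp q hqf.out
    rcases Cfsg.Agent.H65.pgroup_cases Q.isPGroup' with h | ⟨-, h⟩ | ⟨E, -, hEc, hE⟩
    · exact Or.inl h
    · exact Or.inr h
    · exfalso
      refine fpf heq hnil hr hqf.out hrq hrd (E.map (Q : Subgroup (G ⧸ N)).subtype) ?_ ?_
      · rintro _ ⟨y, hy, rfl⟩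
        exact congrArg Subtype.val (hE y hy)
      · rw [Subgroup.card_map_of_injective (Q : Subgroup (G ⧸ N)).subtype_injective, hEc]

end Cfsg.Agent.S4155
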