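import Cfsg.Statements.S4156
import Mathlib.GroupTheory.SpecificGroups.Alternating.Simple

set_option autoImplicit false
set_option linter.style.haveILetI false
open Cfsg

namespace Cfsg.Agent.S4156

section
variable (n : ℕ) (F : Type*) [Field F]

/-- extend a vector by minus its sum -/
def ext0 : (Fin n → F) →ₗ[F] (Fin (n + 1) → F) where
  toFun x := Fin.cons (-∑ i, x i) x
  map_add' x y := by
    ext i
    refine Fin.cases ?_ (fun i => ?_) i
    · simp [Finset.sum_add_distrib]; ring
    · simp
  map_smul' c x := by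
    ext i
    refine Fin.cases ?_ (fun i => ?_) i
    · simp [Finset.mul_sum]
    · simp

/-- forget coordinate `0` -/
def res0 : (Fin (n + 1) → F) →ₗ[F] (Fin n → F) where
  toFun y := fun i => y i.succ
  map_add' _ _ := rfl
  map_smul' _ _ := rfl

/-- permutation action -/
def perm0 (σ : Equiv.Perm (Fin (n + 1))) : (Fin (n + 1) → F) →ₗ[F] (Fin (n + 1) → F) where
  toFun y := fun i => y (σ⁻¹ i)
  map_add' _ _ := rfl
  map_smul' _ _ := rfl

theorem sum_ext0 (x : Fin n → F) : ∑ i, ext0 n F x i = 0 := by
  rw [Fin.sum_univ_succ]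
  simp [ext0]

theorem ext0_res0 (y : Fin (n + 1) → F) (hy : ∑ i, y i = 0) : ext0 n F (res0 n F y) = y := by
  rw [Fin.sum_univ_succ] at hy
  ext i
  refine Fin.cases ?_ (fun i => ?_) i
  · simp only [ext0, res0, LinearMap.coe_mk, AddHom.coe_mk, Fin.cons_zero]
    exact (eq_neg_of_add_eq_zero_left hy).symm
  · simp [ext0, res0]

theorem sum_perm0 (σ : Equiv.Perm (Fin (n + 1))) (y : Fin (n + 1) → F) :
    ∑ i, perm0 n F σ y i = ∑ i, y i := Equiv.sum_comp σ⁻¹ y

/-- the representation on the sum zero hyperplane -/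
def hypRep : Equiv.Perm (Fin (n + 1)) →* Module.End F (Fin n → F) where
  toFun σ := res0 n F ∘ₗ perm0 n F σ ∘ₗ ext0 n F
  map_one' := by
    ext x i
    simp [res0, perm0, ext0]
  map_mul' σ τ := by
    apply LinearMap.ext
    intro x
    show res0 n F (perm0 n F (σ * τ) (ext0 n F x)) =
      res0 n F (perm0 n F σ (ext0 n F (res0 n F (perm0 n F τ (ext0 n F x)))))
    rw [ext0_res0 n F _ (by rw [sum_perm0, sum_ext0])]
    ext i
    simp [res0, perm0, mul_inv_rev]

theorem hypRep_apply (σ : Equiv.Perm (Fin (n + 1))) (x : Fin n → F) :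
    hypRep n F σ x = res0 n F (perm0 n F σ (ext0 n F x)) := rfl

/-- matrices -/
noncomputable def hypMat : Equiv.Perm (Fin (n + 1)) →* Matrix (Fin n) (Fin n) F :=
  (LinearMap.toMatrixAlgEquiv' : Module.End F (Fin n → F) ≃ₐ[F] Matrix (Fin n) (Fin n) F).toMulEquiv.toMonoidHom.comp
    (hypRep n F)

end

theorem hom_comm_eq_one {G A : Type*} [Group G] [IsSimpleGroup G] [CommGroup A]
    (hnc : ∃ x y : G, x * y ≠ y * x) (f : G →* A) (g : G) : f g = 1 := by
  rcases IsSimpleGroup.eq_bot_or_eq_top_of_normal f.ker inferInstance with h | h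
  · exfalso
    obtain ⟨x, y, hxy⟩ := hnc
    apply hxy
    rw [MonoidHom.ker_eq_bot_iff] at h
    apply h
    rw [map_mul, map_mul, mul_comm]
  · rw [← MonoidHom.mem_ker, h]; trivial

theorem quot_center_injective {G X : Type*} [Group G] [IsSimpleGroup G] [Group X]
    (hnc : ∃ x y : G, x * y ≠ y * x) (f : G →* X) (hf : Function.Injective f) :
    Function.Injective ((QuotientGroup.mk' (Subgroup.center X)).comp f) := by
  rw [← MonoidHom.ker_eq_bot_iff]
  rcases IsSimpleGroup.eq_bot_or_eq_top_of_normal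
    ((QuotientGroup.mk' (Subgroup.center X)).comp f).ker inferInstance with h | h
  · exact h
  · exfalso
    obtain ⟨x, y, hxy⟩ := hnc
    apply hxy
    apply hf
    have hx : f x ∈ Subgroup.center X := by
      have : x ∈ ((QuotientGroup.mk' (Subgroup.center X)).comp f).ker := by rw [h]; trivial
      rwa [MonoidHom.mem_ker, MonoidHom.comp_apply, QuotientGroup.mk'_apply,
        QuotientGroup.eq_one_iff] at this
    rw [map_mul, map_mul, Subgroup.mem_center_iff.mp hx (f y)]

theorem hypMat_injective (n : ℕ) (hn : 2 ≤ n) (F : Type*) [Field F] :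
    Function.Injective (hypMat n F) := by
  rw [injective_iff_map_eq_one]
  intro σ hσ
  have h1 : hypRep n F σ = 1 := by
    have h2 : LinearMap.toMatrixAlgEquiv' (hypRep n F σ) = (1 : Matrix (Fin n) (Fin n) F) := hσ
    rw [← map_one (LinearMap.toMatrixAlgEquiv' : Module.End F (Fin n → F) ≃ₐ[F] Matrix (Fin n) (Fin n) F)] at h2
    exact LinearMap.toMatrixAlgEquiv'.injective h2
  have h3 : ∀ x : Fin n → F, ∀ i, ext0 n F x (σ⁻¹ i) = ext0 n F x i := by
    intro x i
    have h4 : perm0 n F σ (ext0 n F x) = ext0 n F x := by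
      rw [← ext0_res0 n F (perm0 n F σ (ext0 n F x)) (by rw [sum_perm0, sum_ext0]),
        ← hypRep_apply, h1]
      rfl
    exact congrFun h4 i
  -- every index i : σ⁻¹ i = i
  have h5 : ∀ i : Fin n, σ⁻¹ i.succ = i.succ ∨ σ⁻¹ i.succ = 0 := by
    intro i
    have h6 := h3 (Pi.single i 1) i.succ
    rcases Fin.eq_zero_or_eq_succ (σ⁻¹ i.succ) with h7 | ⟨j, h7⟩
    · exact Or.inr h7
    · left
      rw [h7] at h6
      simp only [ext0, LinearMap.coe_mk, AddHom.coe_mk, Fin.cons_succ, Pi.single_eq_same] at h6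
      rw [h7]
      congr 1
      by_contra hne
      rw [Pi.single_eq_of_ne hne] at h6
      exact zero_ne_one h6
  have h8 : ∀ i : Fin n, σ⁻¹ i.succ = i.succ := by
    intro i
    refine (h5 i).resolve_right fun h0 => ?_
    haveI : Nontrivial (Fin n) := Fin.nontrivial_iff_two_le.mpr hn
    obtain ⟨j, hj⟩ := exists_ne i
    have h6 := h3 (Pi.single j 1) i.succ
    rw [h0] at h6
    simp only [ext0, LinearMap.coe_mk, AddHom.coe_mk, Fin.cons_succ, Fin.cons_zero,
      Finset.sum_pi_single', Finset.mem_univ, if_true] at h6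
    rw [Pi.single_eq_of_ne hj.symm] at h6
    exact one_ne_zero (neg_eq_zero.mp h6)
  have h9 : σ⁻¹ = 1 := by
    ext i
    rw [Equiv.Perm.one_apply]
    congr 1
    refine Fin.cases ?_ (fun i => h8 i) i
    rcases Fin.eq_zero_or_eq_succ (σ⁻¹ 0) with h7 | ⟨j, h7⟩
    · exact h7
    · exfalso
      rw [← h8 j] at h7
      exact absurd (σ⁻¹.injective h7) (Fin.succ_ne_zero j).symm
  exact inv_eq_one.mp h9

/-- Let n ≥ 5 and F a finite field. Then the projective special linear group PSL_n(F) contains a subgroup isomorphic to the alternating group of degree n + 1. -/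
theorem result (n : ℕ) (hn : 5 ≤ n) (F : Type*) [Field F] [Finite F] :
    ∃ f : alternatingGroup (Fin (n + 1)) →* Matrix.ProjectiveSpecialLinearGroup (Fin n) F, Function.Injective f := by
  haveI hs : IsSimpleGroup (alternatingGroup (Fin (n + 1))) :=
    alternatingGroup.isSimpleGroup (by rw [Nat.card_eq_fintype_card, Fintype.card_fin]; omega)
  have hnc : ∃ x y : alternatingGroup (Fin (n + 1)), x * y ≠ y * x := by
    by_contra hcon
    push Not at hcon
    have h1 : Subgroup.center (alternatingGroup (Fin (n + 1))) = ⊤ := by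
      rw [Subgroup.eq_top_iff']
      intro x
      exact Subgroup.mem_center_iff.mpr fun y => hcon y x
    rw [alternatingGroup.center_eq_bot
      (by rw [Nat.card_eq_fintype_card, Fintype.card_fin]; omega)] at h1
    exact bot_ne_top h1
  let f0 : alternatingGroup (Fin (n + 1)) →* Matrix (Fin n) (Fin n) F :=
    (hypMat n F).comp (alternatingGroup (Fin (n + 1))).subtype
  have hdet : ∀ g, (f0 g).det = 1 := by
    intro g
    have h1 := hom_comm_eq_one hnc (MonoidHom.toHomUnits (Matrix.detMonoidHom.comp f0)) g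
    have h2 := congrArg Units.val h1
    exact h2
  let f : alternatingGroup (Fin (n + 1)) →* Matrix.SpecialLinearGroup (Fin n) F :=
    { toFun := fun g => ⟨f0 g, hdet g⟩
      map_one' := Subtype.ext (map_one f0)
      map_mul' := fun x y => Subtype.ext (map_mul f0 x y) }
  have hf : Function.Injective f := by
    intro x y hxy
    have h1 : f0 x = f0 y := congrArg Subtype.val hxy
    exact Subtype.ext (hypMat_injective n (by omega) F h1)
  exact ⟨_, quot_center_injective hnc f hf⟩

end Cfsg.Agent.S4156
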