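import Cfsg.Statements.S4157
import Cfsg.Agent.H70.Enum3

set_option autoImplicit false
open Cfsg

namespace Cfsg.Agent.S4157

open Cfsg.Agent

/-- Let G be a finite p-group of order p^m that is not cyclic and, when p = 2, not of maximal class (nilpotency class m − 1). Then for every 1 ≤ k < m the number of subgroups of G of order p^k is congruent to 1 + p modulo p². -/
theorem result {G : Type*} [Group G] [Finite G] {p : ℕ} [Fact p.Prime] (m : ℕ)
    (hG : Nat.card G = p ^ m) (hnc : ¬ IsCyclic G) (h2 : p = 2 → Group.nilpotencyClass G ≠ m - 1)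
    (k : ℕ) (hk1 : 1 ≤ k) (hk2 : k < m) :
    Nat.card {H : Subgroup G // Nat.card H = p ^ k} ≡ 1 + p [MOD p ^ 2] := by
  have hp : Fact p.Prime := inferInstance
  change H70.ns p k G ≡ 1 + p [MOD p ^ 2]
  by_cases hp2 : p = 2
  · subst hp2
    apply (H70.kulakoff_two m G hG hnc).1 _ k hk1 hk2
    intro hidx
    apply h2 rfl
    by_cases hm3 : 3 ≤ m
    · exact MaxClass.maxClass_of_index_commutator hm3 hG hidx
    · have hm2 : m = 2 := by omega
      subst hm2
      have hcomm : ∀ x y : G, x * y = y * x := H70.comm_of_card_four (by rw [hG]; norm_num)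
      have hnil : Group.IsNilpotent G := (IsPGroup.of_card hG).isNilpotent
      let inst : CommGroup G := { (inferInstance : Group G) with mul_comm := hcomm }
      have h3 : Group.nilpotencyClass G ≤ 1 := CommGroup.nilpotencyClass_le_one
      have h4 : Group.nilpotencyClass G ≠ 0 := by
        intro h5
        rw [Group.nilpotencyClass_zero_iff_subsingleton] at h5
        have : Nat.card G = 1 := Nat.card_unique
        rw [hG] at this
        norm_num at this
      omega
  · exact H70.kulakoff hp2 m G hG hnc k hk1 hk2

end Cfsg.Agent.S4157
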