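import Cfsg.Statements.S4159
import Cfsg.Agent.FT.Real
import Cfsg.Agent.FT.Base
import Cfsg.Agent.H67.OddReal

set_option autoImplicit false
open Cfsg

namespace Cfsg.Agent.S4159

/-- a 2-element inverting an element of odd order gives a subgroup with two coprime class sizes -/
theorem key {G : Type*} [Group G] [Finite G] {x s : G} (hx : Odd (orderOf x))
    (hs : ∃ k : ℕ, orderOf s = 2 ^ k) (h : s * x * s⁻¹ = x⁻¹) (hx1 : x ≠ 1) :
    ∃ (H : Subgroup G) (a b : H), 1 < (Subgroup.centralizer ({a} : Set H)).index ∧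
      1 < (Subgroup.centralizer ({b} : Set H)).index ∧
      ((Subgroup.centralizer ({a} : Set H)).index).Coprime (Subgroup.centralizer ({b} : Set H)).index := by
  classical
  have hne : x ≠ x⁻¹ := by
    intro h1
    have h2 : x ^ 2 = 1 := by
      rw [pow_two]
      nth_rewrite 2 [h1]
      exact mul_inv_cancel x
    have h3 := orderOf_dvd_of_pow_eq_one h2
    rcases (Nat.dvd_prime Nat.prime_two).1 h3 with h4 | h4
    · exact hx1 (orderOf_eq_one_iff.1 h4)
    · rw [h4] at hx
      exact absurd hx (by decide)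
  have hsx : s * x ≠ x * s := by
    intro h1
    apply hne
    rw [← h, h1, mul_inv_cancel_right]
  have hsN : Subgroup.zpowers s ≤ Subgroup.normalizer ((Subgroup.zpowers x : Subgroup G) : Set G) := by
    rw [Subgroup.zpowers_le, Cfsg.Agent.H67.mem_normalizer_zpowers_iff, h]
    exact inv_mem (Subgroup.mem_zpowers _)
  have hH : Subgroup.zpowers x ⊔ Subgroup.zpowers s ≤
      Subgroup.normalizer ((Subgroup.zpowers x : Subgroup G) : Set G) :=
    sup_le Subgroup.le_normalizer hsN
  have hxH : x ∈ Subgroup.zpowers x ⊔ Subgroup.zpowers s := le_sup_left (a := Subgroup.zpowers x) (Subgroup.mem_zpowers x)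
  have hsH : s ∈ Subgroup.zpowers x ⊔ Subgroup.zpowers s := le_sup_right (b := Subgroup.zpowers s) (Subgroup.mem_zpowers s)
  set H := Subgroup.zpowers x ⊔ Subgroup.zpowers s with hHdef
  have hnorm : ((Subgroup.zpowers x).subgroupOf H).Normal := Subgroup.normal_subgroupOf_of_le_normalizer hH
  -- the index of `⟨x⟩` in `H` divides `|s|`
  have hi1 : (Subgroup.zpowers x).relIndex H ∣ orderOf s := by
    have h1 : (Subgroup.zpowers x).relIndex H = (Subgroup.zpowers x).relIndex (Subgroup.zpowers s) := by
      have h2 := Subgroup.relIndex_sup_right ((Subgroup.zpowers s).subgroupOf H) ((Subgroup.zpowers x).subgroupOf H)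
      have h3 : (Subgroup.zpowers s).subgroupOf H ⊔ (Subgroup.zpowers x).subgroupOf H = ⊤ := by
        rw [← Subgroup.subgroupOf_sup (le_sup_right) (le_sup_left), Subgroup.subgroupOf_eq_top]
        exact (sup_comm _ _).le
      rw [h3, Subgroup.relIndex_top_right] at h2
      rw [Subgroup.relIndex, h2, Subgroup.relIndex_subgroupOf le_sup_right]
    rw [h1, ← Nat.card_zpowers]
    exact Subgroup.relIndex_dvd_card _ _
  -- the index of `⟨s⟩` in `H` divides `|x|`
  have hi2 : (Subgroup.zpowers s).relIndex H ∣ orderOf x := by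
    have e1 : Nat.card (Subgroup.zpowers x) * (Subgroup.zpowers x).relIndex H = Nat.card H := by
      have := Subgroup.relIndex_mul_relIndex ⊥ (Subgroup.zpowers x) H bot_le le_sup_left
      rwa [Subgroup.relIndex_bot_left, Subgroup.relIndex_bot_left] at this
    have e2 : Nat.card (Subgroup.zpowers s) * (Subgroup.zpowers s).relIndex H = Nat.card H := by
      have := Subgroup.relIndex_mul_relIndex ⊥ (Subgroup.zpowers s) H bot_le le_sup_right
      rwa [Subgroup.relIndex_bot_left, Subgroup.relIndex_bot_left] at this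
    rw [Nat.card_zpowers] at e1 e2
    have e3 : orderOf s * (Subgroup.zpowers s).relIndex H ∣ orderOf s * orderOf x := by
      rw [e2, ← e1, mul_comm (orderOf s)]
      exact Nat.mul_dvd_mul_left _ hi1
    exact Nat.dvd_of_mul_dvd_mul_left (orderOf_pos s) e3
  refine ⟨H, ⟨x, hxH⟩, ⟨s, hsH⟩, ?_, ?_, ?_⟩
  · rcases Nat.lt_or_ge 1 (Subgroup.centralizer ({(⟨x, hxH⟩ : H)} : Set H)).index with h1 | h1
    · exact h1
    · exfalso
      have h2 : (Subgroup.centralizer ({(⟨x, hxH⟩ : H)} : Set H)).index ≠ 0 := Subgroup.index_ne_zero_of_finite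
      have h3 : (Subgroup.centralizer ({(⟨x, hxH⟩ : H)} : Set H)).index = 1 := by omega
      rw [Subgroup.index_eq_one] at h3
      have h4 : (⟨s, hsH⟩ : H) ∈ Subgroup.centralizer ({(⟨x, hxH⟩ : H)} : Set H) := by rw [h3]; trivial
      rw [Subgroup.mem_centralizer_singleton_iff] at h4
      have h5 := congrArg Subtype.val h4
      simp only [Subgroup.coe_mul] at h5
      exact hsx h5
  · rcases Nat.lt_or_ge 1 (Subgroup.centralizer ({(⟨s, hsH⟩ : H)} : Set H)).index with h1 | h1
    · exact h1
    · exfalso
      have h2 : (Subgroup.centralizer ({(⟨s, hsH⟩ : H)} : Set H)).index ≠ 0 := Subgroup.index_ne_zero_of_finite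
      have h3 : (Subgroup.centralizer ({(⟨s, hsH⟩ : H)} : Set H)).index = 1 := by omega
      rw [Subgroup.index_eq_one] at h3
      have h4 : (⟨x, hxH⟩ : H) ∈ Subgroup.centralizer ({(⟨s, hsH⟩ : H)} : Set H) := by rw [h3]; trivial
      rw [Subgroup.mem_centralizer_singleton_iff] at h4
      have h5 := congrArg Subtype.val h4
      simp only [Subgroup.coe_mul] at h5
      exact hsx h5.symm
  · have j1 : (Subgroup.centralizer ({(⟨x, hxH⟩ : H)} : Set H)).index ∣ orderOf s := by
      refine dvd_trans (Subgroup.index_dvd_of_le ?_) hi1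
      intro y hy
      rw [Subgroup.mem_subgroupOf, Subgroup.mem_zpowers_iff] at hy
      obtain ⟨n, hn⟩ := hy
      rw [Subgroup.mem_centralizer_singleton_iff]
      apply Subtype.ext
      simp only [Subgroup.coe_mul]
      rw [← hn]
      exact (Commute.zpow_self x n).eq
    have j2 : (Subgroup.centralizer ({(⟨s, hsH⟩ : H)} : Set H)).index ∣ orderOf x := by
      refine dvd_trans (Subgroup.index_dvd_of_le ?_) hi2
      intro y hy
      rw [Subgroup.mem_subgroupOf, Subgroup.mem_zpowers_iff] at hy
      obtain ⟨n, hn⟩ := hy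
      rw [Subgroup.mem_centralizer_singleton_iff]
      apply Subtype.ext
      simp only [Subgroup.coe_mul]
      rw [← hn]
      exact (Commute.zpow_self s n).eq
    obtain ⟨k, hk⟩ := hs
    rw [hk] at j1
    have : (2 ^ k).Coprime (orderOf x) := Nat.Coprime.pow_left _ (Odd.coprime_two_left hx)
    exact Nat.Coprime.of_dvd j1 j2 this

/-- Let G be a finite group such that in every subgroup H of G, any two conjugacy classes of H of size greater than 1 have non-coprime sizes. Then G is solvable. -/
theorem result {G : Type*} [Group G] [Finite G]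
    (h : ∀ (H : Subgroup G) (x y : H), 1 < (Subgroup.centralizer ({x} : Set H)).index → 1 < (Subgroup.centralizer ({y} : Set H)).index →
      ¬ ((Subgroup.centralizer ({x} : Set H)).index).Coprime (Subgroup.centralizer ({y} : Set H)).index) : Group.IsSolvable G := by
  have hreal : ∀ x g : G, Odd (orderOf x) → g * x * g⁻¹ = x⁻¹ → x = 1 := by
    intro x g hx hg
    by_contra hne
    obtain ⟨s, hs, hsx⟩ := Cfsg.Agent.FT.exists_two_inverting (isConj_iff.2 ⟨g, hg⟩)
    obtain ⟨H, a, b, h1, h2, h3⟩ := key hx hs hsx hne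
    exact h H a b h1 h2 h3
  have : Fact (Nat.Prime 2) := ⟨Nat.prime_two⟩
  obtain ⟨P⟩ : Nonempty (Sylow 2 G) := inferInstance
  have hP := Cfsg.Agent.H67.sylow_two_normal_of_no_odd_real hreal P
  have h1 : Group.IsSolvable (P : Subgroup G) := by
    have := P.2.isNilpotent
    infer_instance
  have h2 : Group.IsSolvable (G ⧸ (P : Subgroup G)) := by
    apply Cfsg.Agent.FT.solvable_of_odd
    rw [← Subgroup.index_eq_card]
    have := P.not_dvd_index
    exact Nat.not_even_iff_odd.1 (fun h' => this h'.two_dvd)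
  exact (Group.isSolvable_iff_subgroup_quotient (P : Subgroup G)).2 ⟨h1, h2⟩

end Cfsg.Agent.S4159
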