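import Cfsg.Statements.S4160
import Cfsg.Agent.H69.ClassCount

set_option autoImplicit false
open Cfsg

namespace Cfsg.Agent.S4160

open Subgroup Cfsg.Agent.H69

/-- Let G be a finite group and p ≠ q primes each dividing the size of some conjugacy class of G, such that no conjugacy class size is divisible by pq. Then G has a normal p-complement or a normal q-complement. -/
theorem result {G : Type*} [Group G] [Finite G] (p q : ℕ) (hp : p.Prime) (hq : q.Prime) (hpq : p ≠ q)
    (hp' : ∃ x : G, p ∣ (Subgroup.centralizer ({x} : Set G)).index) (hq' : ∃ x : G, q ∣ (Subgroup.centralizer ({x} : Set G)).index) (h : ∀ x : G, ¬ p * q ∣ (Subgroup.centralizer ({x} : Set G)).index) :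
    Cfsg.HasNormalPComplement p G ∨ Cfsg.HasNormalPComplement q G := by
  have : Fact p.Prime := ⟨hp⟩
  have : Fact q.Prime := ⟨hq⟩
  rcases normalPComplement_or_card (G := G) (p := p) with h1 | h1
  · exact Or.inl h1
  rcases normalPComplement_or_card (G := G) (p := q) with h2 | h2
  · exact Or.inr h2
  exfalso
  classical
  have : Fintype G := Fintype.ofFinite G
  rw [Nat.card_eq_fintype_card, Nat.card_eq_fintype_card, Fintype.card_subtype] at h1 h2
  have hcop : Nat.Coprime p q := (Nat.coprime_primes hp hq).mpr hpq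
  have hunion : (Finset.univ.filter fun g : G => ¬ p ∣ (centralizer ({g} : Set G)).index) ∪
      (Finset.univ.filter fun g : G => ¬ q ∣ (centralizer ({g} : Set G)).index) = Finset.univ := by
    rw [Finset.eq_univ_iff_forall]
    intro g
    rw [Finset.mem_union, Finset.mem_filter, Finset.mem_filter]
    by_contra hcon
    push Not at hcon
    exact h g (hcop.mul_dvd_of_dvd_of_dvd (hcon.1 (Finset.mem_univ g)) (hcon.2 (Finset.mem_univ g)))
  have hinter : 1 ≤ ((Finset.univ.filter fun g : G => ¬ p ∣ (centralizer ({g} : Set G)).index) ∩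
      (Finset.univ.filter fun g : G => ¬ q ∣ (centralizer ({g} : Set G)).index)).card := by
    rw [Nat.one_le_iff_ne_zero, ← Nat.pos_iff_ne_zero, Finset.card_pos]
    refine ⟨1, ?_⟩
    rw [Finset.mem_inter, Finset.mem_filter, Finset.mem_filter, cent_one, index_top]
    exact ⟨⟨Finset.mem_univ _, hp.one_lt.ne' ∘ Nat.dvd_one.mp⟩,
      ⟨Finset.mem_univ _, hq.one_lt.ne' ∘ Nat.dvd_one.mp⟩⟩
  have hc := Finset.card_union_add_card_inter
    (Finset.univ.filter fun g : G => ¬ p ∣ (centralizer ({g} : Set G)).index)
    (Finset.univ.filter fun g : G => ¬ q ∣ (centralizer ({g} : Set G)).index)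
  rw [hunion, Finset.card_univ] at hc
  omega

end Cfsg.Agent.S4160
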