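import Cfsg.Statements.S4161
import Cfsg.Agent.H41.ClassGraph3

set_option autoImplicit false
open Cfsg

namespace Cfsg.Agent.S4161

open Cfsg.Agent.H72 (Cx)
open Cfsg.Agent.H41.ClassGraph in
/-- Far apart vertices force solvability: the one-good-prime case. -/
theorem solvable_of {G : Type*} [Group G] [Finite G] {p r : ℕ} (hp : p.Prime) (hr : r.Prime)
    (hpr : p ≠ r) (hvp : ∃ x : G, p ∣ (Cx x).index)
    (h1 : ∀ x : G, ¬ p * r ∣ (Cx x).index)
    (h2 : ∀ t : ℕ, t.Prime → t ≠ p → t ≠ r →
      (∀ x : G, ¬ p * t ∣ (Cx x).index) ∨ (∀ y : G, ¬ t * r ∣ (Cx y).index))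
    (hDp : DD G p) (hDr : ¬ DD G r) : Group.IsSolvable G := by
  have : Fact p.Prime := ⟨hp⟩
  have : Fact r.Prime := ⟨hr⟩
  apply case_one hDp hvp
  intro x hx
  rw [inA_iff] at hx
  push Not at hx
  -- every prime divisor of the class size is good
  have h3 : ∀ t : ℕ, t.Prime → t ∣ (Cx x).index → ¬ t ∣ Nat.card (commutator G) := by
    intro t ht htx
    have : Fact t.Prime := ⟨ht⟩
    by_cases hDt : DD G t
    · exact hDt.not_dvd
    exfalso
    have htp : t ≠ p := fun h => hDt (h ▸ hDp)
    have h4 : p * t ∣ (Cx x).index :=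
      (((Nat.coprime_primes hp ht).2 (Ne.symm htp)).mul_dvd_of_dvd_of_dvd hx htx)
    by_cases htr : t = r
    · subst htr
      exact h1 x h4
    rcases h2 t ht htp htr with h5 | h5
    · exact h5 x h4
    · rcases dd_or_dd (G := G) (p := t) (r := r) (fun y => by
        rw [inA_iff, inA_iff]
        by_contra hcon
        push Not at hcon
        exact h5 y (((Nat.coprime_primes ht hr).2 htr).mul_dvd_of_dvd_of_dvd hcon.1 hcon.2)) with h | h
      · exact hDt h
      · exact hDr h
  rw [← Subgroup.relIndex_eq_one]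
  by_contra hne
  obtain ⟨t, ht, htd⟩ := Nat.exists_prime_and_dvd hne
  exact h3 t ht (htd.trans (relIndex_dvd_of_normal _ _)) (htd.trans (Subgroup.relIndex_dvd_card _ _))

/-- Let G be a finite non-solvable group and p ≠ q primes each dividing the size of some conjugacy class of G. Then either some class size is divisible by pq, or there is a prime r, different from p and q, such that some class size is divisible by pr and some class size is divisible by rq. -/
theorem result {G : Type*} [Group G] [Finite G] (hG : ¬ Group.IsSolvable G)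
    (p q : ℕ) (hp : p.Prime) (hq : q.Prime) (hpq : p ≠ q) (hp' : ∃ x : G, p ∣ (Subgroup.centralizer ({x} : Set G)).index) (hq' : ∃ x : G, q ∣ (Subgroup.centralizer ({x} : Set G)).index) :
    (∃ x : G, p * q ∣ (Subgroup.centralizer ({x} : Set G)).index) ∨ ∃ r : ℕ, r.Prime ∧ r ≠ p ∧ r ≠ q ∧ (∃ x : G, p * r ∣ (Subgroup.centralizer ({x} : Set G)).index) ∧ (∃ y : G, r * q ∣ (Subgroup.centralizer ({y} : Set G)).index) := by
  by_contra hcon
  push Not at hcon
  obtain ⟨h1, h2⟩ := hcon
  have : Fact p.Prime := ⟨hp⟩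
  have : Fact q.Prime := ⟨hq⟩
  have hcov : ∀ x : G, H41.ClassGraph.InA p x ∨ H41.ClassGraph.InA q x := by
    intro x
    rw [H41.ClassGraph.inA_iff, H41.ClassGraph.inA_iff]
    by_contra hcon
    push Not at hcon
    exact h1 x (((Nat.coprime_primes hp hq).2 hpq).mul_dvd_of_dvd_of_dvd hcon.1 hcon.2)
  have h2' : ∀ t : ℕ, t.Prime → t ≠ p → t ≠ q →
      (∀ x : G, ¬ p * t ∣ (H72.Cx x).index) ∨ (∀ y : G, ¬ t * q ∣ (H72.Cx y).index) := by
    intro t ht htp htq
    by_cases hex : ∃ x : G, p * t ∣ (H72.Cx x).index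
    · right
      exact h2 t ht htp htq hex
    · left
      push Not at hex
      exact hex
  by_cases hDp : H41.ClassGraph.DD G p
  · by_cases hDq : H41.ClassGraph.DD G q
    · refine H41.ClassGraph.not_far (p := p) (r := q) ⟨?_, hcov, ?_, ?_⟩ hDp hDq
      · intro x y hx hy
        rw [H41.ClassGraph.inA_iff] at hx hy
        push Not at hx hy
        apply Nat.Coprime.symm
        apply Nat.Coprime.symm
        by_contra hne
        obtain ⟨t, ht, htx, hty⟩ := Nat.Prime.not_coprime_iff_dvd.1 hne
        by_cases htp : t = p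
        · subst htp
          exact h1 y (((Nat.coprime_primes hp hq).2 hpq).mul_dvd_of_dvd_of_dvd hty hy)
        by_cases htq : t = q
        · subst htq
          exact h1 x (((Nat.coprime_primes hp hq).2 hpq).mul_dvd_of_dvd_of_dvd hx htx)
        exact h2 t ht htp htq ⟨x, ((Nat.coprime_primes hp ht).2 (Ne.symm htp)).mul_dvd_of_dvd_of_dvd hx htx⟩
          y (((Nat.coprime_primes ht hq).2 htq).mul_dvd_of_dvd_of_dvd hty hy)
      · obtain ⟨y, hy⟩ := hq'
        exact ⟨y, fun h => H41.ClassGraph.inA_iff.1 h hy⟩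
      · obtain ⟨x, hx⟩ := hp'
        exact ⟨x, fun h => H41.ClassGraph.inA_iff.1 h hx⟩
    · exact hG (solvable_of hp hq hpq hp' h1 h2' hDp hDq)
  · have hDq : H41.ClassGraph.DD G q := (H41.ClassGraph.dd_or_dd hcov).resolve_left hDp
    refine hG (solvable_of hq hp hpq.symm hq' (fun x hx => h1 x (by rwa [mul_comm] at hx)) ?_ hDq hDp)
    intro t ht htq htp
    rcases h2' t ht htp htq with h | h
    · right
      intro y hy
      exact h y (by rwa [mul_comm] at hy)
    · left
      intro y hy
      exact h y (by rwa [mul_comm] at hy)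

end Cfsg.Agent.S4161
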