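import Cfsg.Statements.S4163
import Cfsg.Agent.H69.Orbit

set_option autoImplicit false
open Cfsg

namespace Cfsg.Agent.S4163

open Subgroup Cfsg.Agent.H69

/-- Isaacs: for `x` of minimal nontrivial class size, `[A, x] ≤ Z(G)`. -/
theorem key {G : Type*} [Group G] [Finite G]
    (A : Subgroup G) [A.Normal] (hA : IsMulCommutative A)
    (m : ℕ)
    (hmin : ∀ x : G, 1 < (Subgroup.centralizer ({x} : Set G)).index → m ≤ (Subgroup.centralizer ({x} : Set G)).index)
    (x : G) (hx : (centralizer ({x} : Set G)).index = m) (a : G) (ha : a ∈ A) :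
    a * x * a⁻¹ * x⁻¹ ∈ center G := by
  classical
  by_contra hc
  have hcomm : ∀ u ∈ A, ∀ v ∈ A, u * v = v * u := by
    intro u hu v hv
    have := hA.is_comm.comm ⟨u, hu⟩ ⟨v, hv⟩
    exact congrArg Subtype.val this
  set C := centralizer ({x} : Set G) with hC
  set c := a * x * a⁻¹ * x⁻¹ with hcdef
  have hcA : c ∈ A := by
    have h1 : x * a⁻¹ * x⁻¹ ∈ A := Normal.conj_mem inferInstance _ (A.inv_mem ha) x
    have : c = a * (x * a⁻¹ * x⁻¹) := by rw [hcdef]; group
    rw [this]; exact A.mul_mem ha h1
  have hc1 : 1 < (centralizer ({c} : Set G)).index := by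
    have h0 : (centralizer ({c} : Set G)).index ≠ 0 := Subgroup.index_ne_zero_of_finite
    have h1 : (centralizer ({c} : Set G)).index ≠ 1 := by
      rw [Ne, Subgroup.index_eq_one, cent_eq_top_iff]
      exact hc
    omega
  have hmc := hmin c hc1
  -- the orbit of x under A
  set O : Set G := {y : G | ∃ g ∈ A, y = g * x * g⁻¹} with hO
  have hOcard : Nat.card O = C.relIndex A := card_conj_orbit A x
  set T : Subgroup G := A ⊔ C with hT
  set S : Set G := {s : G | s ≠ 1 ∧ s * x ∈ O} with hS
  have hScard : Nat.card S + 1 ≤ Nat.card O := by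
    have : Nat.card (Option S) ≤ Nat.card O := by
      refine Nat.card_le_card_of_injective (fun o : Option S => match o with
        | none => (⟨x, 1, A.one_mem, by simp⟩ : O)
        | some s => ⟨(s : G) * x, s.2.2⟩) ?_
      intro u v huv
      match u, v with
      | none, none => rfl
      | none, some s =>
        exfalso
        have h := congrArg Subtype.val huv
        simp only [] at h
        exact s.2.1 (by simpa using h)
      | some s, none =>
        exfalso
        have h := congrArg Subtype.val huv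
        simp only [] at h
        exact s.2.1 (by simpa using h)
      | some s, some t =>
        have h := congrArg Subtype.val huv
        simp only [mul_left_inj] at h
        rw [Subtype.ext h]
    rwa [Finite.card_option] at this
  have hle : (centralizer ({c} : Set G)).relIndex T ≤ Nat.card S := by
    apply relIndex_cent_le
    intro g hg
    obtain ⟨α, hα, γ, hγ, rfl⟩ := Subgroup.mem_sup_of_normal_left.mp hg
    rw [hC, mem_cent_singleton] at hγ
    have hγa : γ * a * γ⁻¹ ∈ A := Normal.conj_mem inferInstance _ ha γ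
    have hγx : γ * x⁻¹ * γ⁻¹ = x⁻¹ := by
      have : γ * x * γ⁻¹ = x := by rw [← hγ]; group
      calc γ * x⁻¹ * γ⁻¹ = (γ * x * γ⁻¹)⁻¹ := by group
        _ = x⁻¹ := by rw [this]
    have hγx' : γ * x * γ⁻¹ = x := by rw [← hγ]; group
    have h1 : γ * c * γ⁻¹ = (γ * a * γ⁻¹) * x * (γ * a * γ⁻¹)⁻¹ * x⁻¹ := by
      calc γ * c * γ⁻¹ = (γ * a * γ⁻¹) * (γ * x * γ⁻¹) * (γ * a * γ⁻¹)⁻¹ * (γ * x⁻¹ * γ⁻¹) := by
            rw [hcdef]; group
        _ = _ := by rw [hγx, hγx']
    have h2 : γ * c * γ⁻¹ ∈ A := Normal.conj_mem inferInstance _ hcA γ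
    have h3 : α * γ * c * (α * γ)⁻¹ = γ * c * γ⁻¹ := by
      calc α * γ * c * (α * γ)⁻¹ = α * (γ * c * γ⁻¹) * α⁻¹ := by group
        _ = (γ * c * γ⁻¹) * α * α⁻¹ := by rw [hcomm α hα _ h2]
        _ = _ := by group
    rw [h3]
    refine ⟨?_, ?_⟩
    · intro h
      have : c = 1 := by
        calc c = γ⁻¹ * (γ * c * γ⁻¹) * γ := by group
          _ = 1 := by rw [h]; group
      exact hc (this ▸ (center G).one_mem)
    · refine ⟨γ * a * γ⁻¹, hγa, ?_⟩
      rw [h1]; group
  -- index computation
  have hTC : C ≤ T := le_sup_right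
  have hm1 : C.relIndex T * T.index = m := by rw [relIndex_mul_index hTC, hx]
  have hm2 : C.relIndex A ≤ C.relIndex T :=
    relIndex_le_of_le_right le_sup_left (by rw [relIndex]; exact Subgroup.index_ne_zero_of_finite)
  have hc2 : (centralizer ({c} : Set G)).index ≤ (centralizer ({c} : Set G)).relIndex T * T.index := by
    calc (centralizer ({c} : Set G)).index ≤ (centralizer ({c} : Set G) ⊓ T).index :=
          Nat.le_of_dvd (Nat.pos_of_ne_zero Subgroup.index_ne_zero_of_finite)
            (Subgroup.index_dvd_of_le inf_le_left)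
      _ = (centralizer ({c} : Set G) ⊓ T).relIndex T * T.index := (relIndex_mul_index inf_le_right).symm
      _ = _ := by rw [inf_relIndex_right]
  have hT0 : 0 < T.index := Nat.pos_of_ne_zero Subgroup.index_ne_zero_of_finite
  have h5 : (centralizer ({c} : Set G)).relIndex T + 1 ≤ C.relIndex T := by omega
  have h6 : ((centralizer ({c} : Set G)).relIndex T + 1) * T.index ≤ C.relIndex T * T.index :=
    Nat.mul_le_mul_right _ h5
  nlinarith

/-- General form: the subgroup generated by the elements of class size `1` or `m`. -/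
theorem main {G : Type*} [Group G] [Finite G]
    (A : Subgroup G) [A.Normal] (hA : IsMulCommutative A) (hCA : Subgroup.centralizer (A : Set G) = A)
    (m : ℕ)
    (hmin : ∀ x : G, 1 < (Subgroup.centralizer ({x} : Set G)).index → m ≤ (Subgroup.centralizer ({x} : Set G)).index) :
    (Subgroup.closure {x : G | (Subgroup.centralizer ({x} : Set G)).index = 1 ∨ (Subgroup.centralizer ({x} : Set G)).index = m}).lowerCentralSeries 3 = ⊥ := by
  set M := Subgroup.closure {x : G | (Subgroup.centralizer ({x} : Set G)).index = 1 ∨ (Subgroup.centralizer ({x} : Set G)).index = m} with hM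
  -- M commutes with A modulo the centre
  have hMK : M ≤ (centralizer ((A.map (QuotientGroup.mk' (center G)) : Subgroup (G ⧸ center G)) : Set (G ⧸ center G))).comap
      (QuotientGroup.mk' (center G)) := by
    rw [hM, closure_le]
    intro x hx
    rw [SetLike.mem_coe, mem_comap, mem_centralizer_iff]
    rintro _ ⟨a, ha, rfl⟩
    have hcen : a * x * a⁻¹ * x⁻¹ ∈ center G := by
      rcases hx with h1 | h1
      · rw [Subgroup.index_eq_one, cent_eq_top_iff] at h1
        have : a * x * a⁻¹ * x⁻¹ = 1 := by
          rw [Subgroup.mem_center_iff.mp h1 a]; group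
        rw [this]; exact one_mem _
      · exact key A hA m hmin x h1 a ha
    rw [← map_mul, ← map_mul]
    have : a * x = a * x * a⁻¹ * x⁻¹ * (x * a) := by group
    rw [this, map_mul]
    have h1 : (QuotientGroup.mk' (center G)) (a * x * a⁻¹ * x⁻¹) = 1 := by
      rw [QuotientGroup.mk'_apply, QuotientGroup.eq_one_iff]; exact hcen
    rw [h1, one_mul]
  have hAM : ⁅A, M⁆ ≤ center G := by
    rw [commutator_le]
    intro a ha x hx
    have h1 := hMK hx
    rw [mem_comap, mem_centralizer_iff] at h1
    have h2 := h1 (QuotientGroup.mk' (center G) a) ⟨a, ha, rfl⟩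
    rw [← QuotientGroup.eq_one_iff]
    rw [commutatorElement_def]
    change (QuotientGroup.mk' (center G)) (a * x * a⁻¹ * x⁻¹) = 1
    rw [map_mul, map_mul, map_mul, h2, map_inv, map_inv]
    group
  have hcenter : ∀ H : Subgroup G, ⁅center G, H⁆ = ⊥ := by
    intro H
    rw [commutator_eq_bot_iff_le_centralizer]
    intro z hz
    rw [mem_centralizer_iff]
    intro h _
    exact (Subgroup.mem_center_iff.mp hz h)
  have h1 : ⁅⁅A, M⁆, M⁆ = ⊥ := by
    rw [eq_bot_iff, ← hcenter M]
    exact commutator_mono hAM le_rfl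
  have h2 : ⁅⁅M, A⁆, M⁆ = ⊥ := by rw [commutator_comm M A]; exact h1
  have h3 : ⁅⁅M, M⁆, A⁆ = ⊥ := commutator_commutator_eq_bot_of_rotate h2 h1
  have h4 : ⁅M, M⁆ ≤ A := by
    rw [← hCA]
    exact commutator_eq_bot_iff_le_centralizer.mp h3
  have h5 : ⁅⁅M, M⁆, M⁆ ≤ center G := (commutator_mono h4 le_rfl).trans hAM
  rw [eq_bot_iff, ← hcenter M]
  show ⁅⁅⁅M, M⁆, M⁆, M⁆ ≤ _
  exact commutator_mono h5 le_rfl

/-- Let G be a finite group with a normal abelian subgroup A satisfying C_G(A) = A. Suppose some conjugacy class of G has size greater than 1, let m be the smallest such size, and let M be the subgroup generated by the elements whose class has size 1 or m. Then M is nilpotent of class at most 3. -/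
theorem result {G : Type*} [Group G] [Finite G]
    (A : Subgroup G) [A.Normal] (hA : IsMulCommutative A) (hCA : Subgroup.centralizer (A : Set G) = A)
    (m : ℕ) (hm1 : 1 < m) (hm : ∃ x : G, (Subgroup.centralizer ({x} : Set G)).index = m) (hmin : ∀ x : G, 1 < (Subgroup.centralizer ({x} : Set G)).index → m ≤ (Subgroup.centralizer ({x} : Set G)).index) :
    Subgroup.upperCentralSeries ↥(Subgroup.closure {x : G | (Subgroup.centralizer ({x} : Set G)).index = 1 ∨ (Subgroup.centralizer ({x} : Set G)).index = m}) 3 = ⊤ := by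
  rw [← lowerCentralSeries_eq_bot_iff_upperCentralSeries_eq_top, ← map_subtype_inj, Subgroup.map_bot,
    top_subtype_lowerCentralSeries]
  exact main A hA hCA m hmin

end Cfsg.Agent.S4163
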