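import Cfsg.Statements.S4168
import Mathlib.GroupTheory.Transfer
import Mathlib.GroupTheory.Perm.Cycle.Type

set_option autoImplicit false
open Cfsg

namespace Cfsg.Agent.S4168

/-- Let L be a finite quasisimple group (perfect with L/Z(L) simple). Then every prime dividing the order of the centre Z(L) also divides the order of L/Z(L). -/
theorem result {L : Type*} [Group L] [Finite L] (hL : Cfsg.IsQuasisimple L)
    (p : ℕ) (hp : p.Prime) (hdiv : p ∣ Nat.card (Subgroup.center L)) : p ∣ (Subgroup.center L).index := by
  by_contra hnd
  have : Fact p.Prime := ⟨hp⟩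
  obtain ⟨z, hz⟩ := exists_prime_orderOf_dvd_card' p hdiv
  have hperf : commutator L = ⊤ := hL.1.commutator_eq_top
  have hker : commutator L ≤ (MonoidHom.transferCenterPow L).ker := by
    rw [commutator_def, Subgroup.commutator_le]
    intro a _ b _
    rw [MonoidHom.mem_ker, map_commutatorElement, commutatorElement_eq_one_iff_mul_comm]
    exact Subtype.ext (((MonoidHom.transferCenterPow L b).2.comm _).symm)
  have h1 : MonoidHom.transferCenterPow L (z : L) = 1 := by
    have : (z : L) ∈ (MonoidHom.transferCenterPow L).ker := hker (by rw [hperf]; trivial)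
    exact this
  have h2 : (z : L) ^ (Subgroup.center L).index = 1 := by
    have := congrArg (Subtype.val) h1
    simpa using this
  have h3 : orderOf (z : L) ∣ (Subgroup.center L).index := orderOf_dvd_of_pow_eq_one h2
  rw [Subgroup.orderOf_coe, hz] at h3
  exact hnd h3

end Cfsg.Agent.S4168
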