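import Cfsg.Statements.S4170
import Mathlib.GroupTheory.Perm.Cycle.Type
import Mathlib.GroupTheory.Index
import Mathlib.Data.ZMod.QuotientGroup

set_option autoImplicit false
open scoped Pointwise
open Cfsg

namespace Cfsg.Agent.S4170

/-- Let p be an odd prime and G a nontrivial group of permutations of a finite set Ω that is generated by its elements of p-power order. Then Ω has two disjoint nonempty subsets Δ₁ and Δ₂ such that the index in G of the subgroup of elements mapping Δ₁ onto Δ₁ and Δ₂ onto Δ₂ (and hence also the complement of their union onto itself) is divisible by p. -/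
theorem result {Ω : Type*} [Fintype Ω] (p : ℕ) [Fact p.Prime] (hp : p ≠ 2) (G : Subgroup (Equiv.Perm Ω)) (hG : G ≠ ⊥) (hgen : Subgroup.closure {g : G | ∃ k : ℕ, orderOf g = p ^ k} = ⊤) :
    ∃ Δ₁ Δ₂ : Set Ω, Δ₁.Nonempty ∧ Δ₂.Nonempty ∧ Disjoint Δ₁ Δ₂ ∧ p ∣ (MulAction.stabilizer G Δ₁ ⊓ MulAction.stabilizer G Δ₂).index := by
  classical
  have hpp : p.Prime := Fact.out
  have hex : ∃ g : G, (∃ k : ℕ, orderOf g = p ^ k) ∧ g ≠ 1 := by
    by_contra hcon
    push Not at hcon
    have h1 : Subgroup.closure {g : G | ∃ k : ℕ, orderOf g = p ^ k} ≤ ⊥ := by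
      rw [Subgroup.closure_le]
      intro g hg
      exact Subgroup.mem_bot.2 (hcon g hg)
    rw [hgen] at h1
    apply hG
    rw [Subgroup.eq_bot_iff_forall]
    intro x hx
    have := h1 (Subgroup.mem_top (⟨x, hx⟩ : G))
    exact congrArg Subtype.val (Subgroup.mem_bot.1 this)
  obtain ⟨g, ⟨k, hk⟩, hg1⟩ := hex
  have hdvd : p ∣ orderOf g := by
    rw [hk]
    rcases Nat.eq_zero_or_pos k with h0 | h0
    · subst h0
      exact absurd (orderOf_eq_one_iff.1 (by simpa using hk)) hg1
    · exact dvd_pow_self p h0.ne'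
  have hcard : p ∣ Nat.card G := hdvd.trans (orderOf_dvd_natCard g)
  obtain ⟨x, hx⟩ := exists_prime_orderOf_dvd_card' (G := G) p hcard
  have hx1 : x ≠ 1 := by
    intro h
    rw [h, orderOf_one] at hx
    exact hpp.one_lt.ne hx
  obtain ⟨a, ha⟩ : ∃ a : Ω, x • a ≠ a := by
    by_contra hcon
    push Not at hcon
    apply hx1
    apply Subtype.ext
    ext a
    exact hcon a
  -- the orbit
  set Δ : Set Ω := MulAction.orbit (Subgroup.zpowers x) a with hΔ
  have haΔ : a ∈ Δ := MulAction.mem_orbit_self a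
  have hxaΔ : x • a ∈ Δ := ⟨⟨x, Subgroup.mem_zpowers x⟩, rfl⟩
  have hcardΔ : Δ.ncard = p := by
    have h1 : (MulAction.stabilizer (Subgroup.zpowers x) a).index = Δ.ncard :=
      MulAction.index_stabilizer (Subgroup.zpowers x) a
    have h2 : Δ.ncard ∣ p := by
      rw [← h1]
      have := (MulAction.stabilizer (Subgroup.zpowers x) a).index_dvd_card
      rwa [Nat.card_zpowers, hx] at this
    rcases (Nat.dvd_prime hpp).1 h2 with h3 | h3
    · exfalso
      rw [Set.ncard_eq_one] at h3
      obtain ⟨b, hb⟩ := h3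
      rw [hb] at haΔ hxaΔ
      rw [Set.mem_singleton_iff] at haΔ hxaΔ
      exact ha (hxaΔ.trans haΔ.symm)
    · exact h3
  have hxΔ : x ∈ MulAction.stabilizer G Δ := by
    rw [MulAction.mem_stabilizer_iff]
    have := MulAction.smul_orbit (⟨x, Subgroup.mem_zpowers x⟩ : Subgroup.zpowers x) a
    exact this
  refine ⟨{a}, Δ \ {a}, Set.singleton_nonempty a, ⟨x • a, hxaΔ, ha⟩, Set.disjoint_sdiff_right, ?_⟩
  have hS : MulAction.stabilizer G ({a} : Set Ω) ⊓ MulAction.stabilizer G (Δ \ {a}) ≤
      MulAction.stabilizer G Δ := by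
    intro y hy
    obtain ⟨h1, h2⟩ := Subgroup.mem_inf.1 hy
    rw [MulAction.mem_stabilizer_iff] at h1 h2 ⊢
    have h3 : Δ = {a} ∪ (Δ \ {a}) := by
      rw [Set.union_sdiff_cancel (Set.singleton_subset_iff.2 haΔ)]
    rw [h3, Set.smul_set_union, h1, h2]
  have hS2 : MulAction.stabilizer G ({a} : Set Ω) ⊓ MulAction.stabilizer G (Δ \ {a}) =
      MulAction.stabilizer G a ⊓ MulAction.stabilizer G Δ := by
    apply le_antisymm
    · intro y hy
      refine Subgroup.mem_inf.2 ⟨?_, hS hy⟩
      have h1 := (Subgroup.mem_inf.1 hy).1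
      rw [MulAction.mem_stabilizer_iff] at h1 ⊢
      rw [Set.smul_set_singleton, Set.singleton_eq_singleton_iff] at h1
      exact h1
    · intro y hy
      obtain ⟨h1, h2⟩ := Subgroup.mem_inf.1 hy
      rw [MulAction.mem_stabilizer_iff] at h1 h2
      refine Subgroup.mem_inf.2 ⟨?_, ?_⟩
      · rw [MulAction.mem_stabilizer_iff, Set.smul_set_singleton, h1]
      · rw [MulAction.mem_stabilizer_iff, Set.smul_set_sdiff, Set.smul_set_singleton, h1, h2]
  have hrel : (MulAction.stabilizer G a).relIndex (MulAction.stabilizer G Δ) = p := by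
    have h1 : (MulAction.stabilizer (MulAction.stabilizer G Δ) a).index =
        (MulAction.orbit (MulAction.stabilizer G Δ) a).ncard :=
      MulAction.index_stabilizer _ a
    have h2 : MulAction.stabilizer (MulAction.stabilizer G Δ) a =
        (MulAction.stabilizer G a).subgroupOf (MulAction.stabilizer G Δ) := by
      ext y
      rw [Subgroup.mem_subgroupOf]
      rfl
    have h3 : MulAction.orbit (MulAction.stabilizer G Δ) a = Δ := by
      apply Set.Subset.antisymm
      · rintro b ⟨y, rfl⟩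
        have hy := MulAction.mem_stabilizer_iff.1 y.2
        change (y : G) • a ∈ Δ
        have h5 : (y : G) • a ∈ (y : G) • Δ := Set.smul_mem_smul_set haΔ
        rwa [hy] at h5
      · rintro b ⟨⟨y, hy⟩, rfl⟩
        exact ⟨⟨y, (Subgroup.zpowers_le.2 hxΔ) hy⟩, rfl⟩
    rw [Subgroup.relIndex, ← h2, h1, h3, hcardΔ]
  rw [hS2]
  have h4 : (MulAction.stabilizer G a ⊓ MulAction.stabilizer G Δ).relIndex (MulAction.stabilizer G Δ) *
      (MulAction.stabilizer G Δ).index =
      (MulAction.stabilizer G a ⊓ MulAction.stabilizer G Δ).index :=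
    Subgroup.relIndex_mul_index inf_le_right
  rw [← h4, Subgroup.inf_relIndex_right, hrel]
  exact dvd_mul_right p _

end Cfsg.Agent.S4170
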