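import Cfsg.Statements.S4176
import Cfsg.Agent.H69.CoprimeIndex

set_option autoImplicit false
set_option linter.style.haveILetI false
set_option linter.unusedSectionVars false
open Cfsg

namespace Cfsg.Agent.S4176

open Subgroup Cfsg.Agent.H69

section
variable {k V H : Type*} [Field k] [AddCommGroup V] [Module k V] [Group H] [Finite H]

/-- vectors fixed by a subgroup -/
def fixedBy (ρ : Representation k H V) (M : Subgroup H) : Submodule k V where
  carrier := {v | ∀ m ∈ M, ρ m v = v}
  add_mem' := fun {x y} hx hy m hm => by rw [map_add, hx m hm, hy m hm]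
  zero_mem' := fun m _ => map_zero _
  smul_mem' := fun c x hx m hm => by rw [map_smul, hx m hm]

theorem mem_fixedBy (ρ : Representation k H V) (M : Subgroup H) (v : V) :
    v ∈ fixedBy ρ M ↔ ∀ m ∈ M, ρ m v = v := Iff.rfl

theorem fixedBy_map (ρ : Representation k H V) (M : Subgroup H) [M.Normal] (h : H) {v : V}
    (hv : v ∈ fixedBy ρ M) : ρ h v ∈ fixedBy ρ M := by
  intro m hm
  have h1 : h⁻¹ * m * h⁻¹⁻¹ ∈ M := Normal.conj_mem inferInstance m hm h⁻¹
  have h2 : ρ m (ρ h v) = ρ (h * (h⁻¹ * m * h⁻¹⁻¹)) v := by
    rw [← Module.End.mul_apply, ← map_mul]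
    congr 2; group
  rw [h2, map_mul, Module.End.mul_apply, hv _ h1]

noncomputable instance instFintypeQ (M B : Subgroup H) : Fintype (B ⧸ M.subgroupOf B) := Fintype.ofFinite _

/-- sum over coset representatives of `M` in `B` -/
noncomputable def cosetSum (ρ : Representation k H V) (M B : Subgroup H) : V →ₗ[k] V :=
  ∑ q : B ⧸ M.subgroupOf B, ρ (q.out : H)

theorem rho_eq (ρ : Representation k H V) (M B : Subgroup H) {v : V} (hv : v ∈ fixedBy ρ M)
    {x y : B} (hxy : (QuotientGroup.mk x : B ⧸ M.subgroupOf B) = QuotientGroup.mk y) :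
    ρ (x : H) v = ρ (y : H) v := by
  rw [QuotientGroup.eq, mem_subgroupOf] at hxy
  have h1 : (y : H) = (x : H) * ((x⁻¹ * y : B) : H) := by push_cast; group
  rw [h1, map_mul, Module.End.mul_apply, hv _ hxy]

theorem cosetSum_apply (ρ : Representation k H V) (M B : Subgroup H) {v : V}
    (hv : v ∈ fixedBy ρ M) (t : (B ⧸ M.subgroupOf B) → B)
    (σ : (B ⧸ M.subgroupOf B) ≃ (B ⧸ M.subgroupOf B))
    (h : ∀ q, (QuotientGroup.mk (t q) : B ⧸ M.subgroupOf B) = σ q) :
    ∑ q, ρ (t q : H) v = cosetSum ρ M B v := by
  have h1 : cosetSum ρ M B v = ∑ q, ρ (((σ q).out : B) : H) v := by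
    rw [cosetSum, LinearMap.sum_apply]
    exact (Equiv.sum_comp σ (fun q => ρ ((q.out : B) : H) v)).symm
  rw [h1]
  refine Finset.sum_congr rfl fun q _ => ?_
  apply rho_eq ρ M B hv
  rw [h q, QuotientGroup.out_eq']

theorem rho_cosetSum (ρ : Representation k H V) (M B : Subgroup H) [M.Normal] {v : V}
    (hv : v ∈ fixedBy ρ M) {g : H} (hg : g ∈ B) : ρ g (cosetSum ρ M B v) = cosetSum ρ M B v := by
  have h1 := cosetSum_apply ρ M B hv (fun q => ⟨g, hg⟩ * q.out)
    (Equiv.mulLeft (QuotientGroup.mk ⟨g, hg⟩))
    (fun q => by rw [QuotientGroup.mk_mul, QuotientGroup.out_eq']; rfl)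
  calc ρ g (cosetSum ρ M B v) = ∑ q : B ⧸ M.subgroupOf B, ρ g (ρ (q.out : H) v) := by
        rw [cosetSum, LinearMap.sum_apply, map_sum]
    _ = ∑ q : B ⧸ M.subgroupOf B, ρ (((⟨g, hg⟩ : B) * q.out : B) : H) v := by
        refine Finset.sum_congr rfl fun q _ => ?_
        rw [Subgroup.coe_mul, map_mul, Module.End.mul_apply]
    _ = cosetSum ρ M B v := h1

theorem cosetSum_rho (ρ : Representation k H V) (M B : Subgroup H) [M.Normal] {v : V}
    (hv : v ∈ fixedBy ρ M) {g : H} (hg : g ∈ B) : cosetSum ρ M B (ρ g v) = cosetSum ρ M B v := by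
  have h1 := cosetSum_apply ρ M B hv (fun q => q.out * ⟨g, hg⟩)
    (Equiv.mulRight (QuotientGroup.mk ⟨g, hg⟩))
    (fun q => by rw [QuotientGroup.mk_mul, QuotientGroup.out_eq']; rfl)
  calc cosetSum ρ M B (ρ g v) = ∑ q : B ⧸ M.subgroupOf B, ρ (q.out : H) (ρ g v) := by
        rw [cosetSum, LinearMap.sum_apply]
    _ = ∑ q : B ⧸ M.subgroupOf B, ρ ((q.out * (⟨g, hg⟩ : B) : B) : H) v := by
        refine Finset.sum_congr rfl fun q _ => ?_
        rw [Subgroup.coe_mul, map_mul, Module.End.mul_apply]
    _ = cosetSum ρ M B v := h1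

theorem cosetSum_comm (ρ : Representation k H V) (M B : Subgroup H) [M.Normal] [B.Normal] {v : V}
    (hv : v ∈ fixedBy ρ M) (h : H) : ρ h (cosetSum ρ M B v) = cosetSum ρ M B (ρ h v) := by
  have hmap : (M.subgroupOf B).map ((MulAut.conjNormal h : MulAut B) : B →* B) = M.subgroupOf B := by
    ext x
    constructor
    · rintro ⟨y, hy, rfl⟩
      rw [SetLike.mem_coe, mem_subgroupOf] at hy
      rw [mem_subgroupOf]
      show ((MulAut.conjNormal h y : B) : H) ∈ M
      rw [MulAut.conjNormal_apply]
      exact Normal.conj_mem inferInstance _ hy h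
    · intro hx
      rw [mem_subgroupOf] at hx
      refine ⟨(MulAut.conjNormal h).symm x, ?_, ?_⟩
      · rw [SetLike.mem_coe, mem_subgroupOf]
        have h1 : (((MulAut.conjNormal h).symm x : B) : H) = h⁻¹ * x * h := by
          rw [MulAut.conjNormal_symm_apply]
        rw [h1]
        have := (inferInstance : M.Normal).conj_mem _ hx h⁻¹
        simpa using this
      · exact (MulAut.conjNormal h).apply_symm_apply x
  rw [← cosetSum_apply ρ M B (fixedBy_map ρ M h hv) (fun q => MulAut.conjNormal h q.out)
    (QuotientGroup.congr (M.subgroupOf B) (M.subgroupOf B) (MulAut.conjNormal h) hmap).toEquiv ?_]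
  · rw [cosetSum, LinearMap.sum_apply, map_sum]
    refine Finset.sum_congr rfl fun q _ => ?_
    rw [← Module.End.mul_apply, ← map_mul, ← Module.End.mul_apply, ← map_mul,
      MulAut.conjNormal_apply]
    congr 2; group
  · intro q
    conv_rhs => rw [← QuotientGroup.out_eq' q]
    rfl

theorem cosetSum_fixed (ρ : Representation k H V) (M B : Subgroup H) {v : V}
    (hv : v ∈ fixedBy ρ B) : cosetSum ρ M B v = (M.relIndex B : k) • v := by
  rw [cosetSum, LinearMap.sum_apply]
  calc ∑ q : B ⧸ M.subgroupOf B, ρ (q.out : H) v = ∑ _q : B ⧸ M.subgroupOf B, v :=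
        Finset.sum_congr rfl fun q _ => hv _ q.out.2
    _ = _ := by
      rw [Finset.sum_const, Finset.card_univ, ← Nat.card_eq_fintype_card, Nat.cast_smul_eq_nsmul]
      rfl

theorem repStab_conj_index (ρ : Representation k H V) (a : V) (h : H) :
    (repStab ρ (ρ h a)).index = (repStab ρ a).index := by
  have h1 : repStab ρ (ρ h a) = (repStab ρ a).map (MulAut.conj h).toMonoidHom := by
    ext x
    rw [mem_repStab, mem_map]
    constructor
    · intro hx
      refine ⟨h⁻¹ * x * h, ?_, ?_⟩
      · rw [mem_repStab, map_mul, map_mul, Module.End.mul_apply, Module.End.mul_apply, hx]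
        exact ρ.inv_self_apply h a
      · simp [MulAut.conj_apply, mul_assoc]
    · rintro ⟨y, hy, rfl⟩
      rw [mem_repStab] at hy
      show ρ (h * y * h⁻¹) (ρ h a) = ρ h a
      rw [← Module.End.mul_apply, ← map_mul]
      have : h * y * h⁻¹ * h = h * y := by group
      rw [this, map_mul, Module.End.mul_apply, hy]
  rw [h1]
  exact Subgroup.index_map_equiv _ (MulAut.conj h)

/-- `K` normal: `|K : K ∩ S|` divides `|H : S|`. -/
theorem relIndex_dvd_index_of_normal' (S K : Subgroup H) [K.Normal] : S.relIndex K ∣ S.index := by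
  -- |S ⊔ K : S| = |K : S ⊓ K|
  have h1 : K.relIndex (S ⊔ K) = K.relIndex S := relIndex_sup_right S K
  have c1 : Nat.card K * K.relIndex (S ⊔ K) = Nat.card (S ⊔ K : Subgroup H) := by
    have := (K.subgroupOf (S ⊔ K)).card_mul_index
    rwa [Nat.card_congr (Subgroup.subgroupOfEquivOfLe (le_sup_right : K ≤ S ⊔ K)).toEquiv] at this
  have c2 : Nat.card S * S.relIndex (S ⊔ K) = Nat.card (S ⊔ K : Subgroup H) := by
    have := (S.subgroupOf (S ⊔ K)).card_mul_index
    rwa [Nat.card_congr (Subgroup.subgroupOfEquivOfLe (le_sup_left : S ≤ S ⊔ K)).toEquiv] at this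
  have c3 : Nat.card (S ⊓ K : Subgroup H) * K.relIndex S = Nat.card S := by
    have := ((S ⊓ K).subgroupOf S).card_mul_index
    rw [Nat.card_congr (Subgroup.subgroupOfEquivOfLe (inf_le_left : S ⊓ K ≤ S)).toEquiv] at this
    rw [← inf_relIndex_right K S, inf_comm K S]
    exact this
  have c4 : Nat.card (S ⊓ K : Subgroup H) * S.relIndex K = Nat.card K := by
    have := ((S ⊓ K).subgroupOf K).card_mul_index
    rw [Nat.card_congr (Subgroup.subgroupOfEquivOfLe (inf_le_right : S ⊓ K ≤ K)).toEquiv] at this
    rw [← inf_relIndex_right]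
    exact this
  have hpos1 : 0 < Nat.card (S ⊓ K : Subgroup H) := Nat.card_pos
  have hpos2 : 0 < Nat.card S := Nat.card_pos
  have h2 : S.relIndex (S ⊔ K) = S.relIndex K := by
    have e1 : Nat.card S * S.relIndex (S ⊔ K) = Nat.card S * S.relIndex K := by
      rw [c2, ← c1, h1, ← c4, ← c3]; ring
    exact Nat.eq_of_mul_eq_mul_left hpos2 e1
  rw [← h2]
  exact relIndex_dvd_index_of_le le_sup_left

end

/-- Let k be a field of prime characteristic p, H a finite p-soluble group and ρ a k-linear representation of H on V. Let a be a vector that is fixed by some Sylow p-subgroup of H and whose H-orbit spans V. Then the space of H-fixed vectors has dimension at most 1, and every vector b whose H-orbit has size coprime to the size of the orbit of a is fixed by H. -/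
theorem result {k V H : Type*} [Field k] (p : ℕ) [Fact p.Prime] [CharP k p] [AddCommGroup V] [Module k V]
    [Group H] [Finite H] (hsol : Cfsg.IsPSolvable p H) (ρ : Representation k H V) (a : V)
    (hfix : ∃ P : Sylow p H, ∀ x : H, x ∈ (P : Subgroup H) → ρ x a = a)
    (hspan : Submodule.span k {u : V | ∃ h : H, ρ h a = u} = ⊤) :
    Module.finrank k ρ.invariants ≤ 1 ∧
    ∀ b : V, (Nat.card {u : V | ∃ h : H, ρ h a = u}).Coprime (Nat.card {u : V | ∃ h : H, ρ h b = u}) → ∀ h : H, ρ h b = b := by
  classical
  have hprime : p.Prime := Fact.out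
  obtain ⟨P, hP⟩ := hfix
  obtain ⟨n, N, hN0, hNn, hmono, hnormal, hfac⟩ := hsol
  -- the inductive claim
  have claim : ∀ i : Fin (n + 1), ∃ a' : V, (∀ x ∈ (P : Subgroup H), ρ x a' = a') ∧
      repStab ρ a ≤ repStab ρ a' ∧ a' ∈ fixedBy ρ (N i) ∧
      fixedBy ρ (N i) ≤ Submodule.span k {u : V | ∃ h : H, ρ h a' = u} ∧
      ∀ b : V, (repStab ρ a).index.Coprime (repStab ρ b).index → b ∈ fixedBy ρ (N i) := by
    intro i
    induction i using Fin.induction with
    | zero =>
      refine ⟨a, hP, le_rfl, ?_, ?_, ?_⟩
      · intro m hm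
        rw [hN0, mem_bot] at hm
        rw [hm, map_one]; rfl
      · rw [hspan]; exact le_top
      · intro b _ m hm
        rw [hN0, mem_bot] at hm
        rw [hm, map_one]; rfl
    | succ i ih =>
      obtain ⟨a', hPa', hsa', hfa', hspa', hb'⟩ := ih
      haveI hnM : (N i.castSucc).Normal := hnormal _
      haveI hnB : (N i.succ).Normal := hnormal _
      have hle : N i.castSucc ≤ N i.succ := hmono (Fin.castSucc_lt_succ).le
      set M := N i.castSucc with hM
      set B := N i.succ with hB
      rcases hfac i with ⟨m, hm⟩ | hcop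
      · -- p-factor
        have hdvd1 : (repStab ρ a').relIndex B ∣ p ^ m := by
          rw [← hm]
          exact relIndex_dvd_of_le_left B (fun x hx => hfa' x hx)
        have hdvd2 : (repStab ρ a').relIndex B ∣ (P : Subgroup H).index :=
          (relIndex_dvd_index_of_normal' _ B).trans (Subgroup.index_dvd_of_le fun x hx => hPa' x hx)
        have hone : (repStab ρ a').relIndex B = 1 := by
          obtain ⟨l, -, hl⟩ := (Nat.dvd_prime_pow hprime).mp hdvd1
          rcases l with _ | l
          · rw [hl, pow_zero]
          · exfalso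
            rw [hl] at hdvd2
            exact P.not_dvd_index ((dvd_pow_self p (Nat.succ_ne_zero l)).trans hdvd2)
        have hBa' : B ≤ repStab ρ a' := relIndex_eq_one.mp hone
        have hBspan : ∀ v ∈ Submodule.span k {u : V | ∃ h : H, ρ h a' = u}, v ∈ fixedBy ρ B := by
          intro v hv
          refine (Submodule.span_le.mpr ?_) hv
          rintro _ ⟨h, rfl⟩
          exact fixedBy_map ρ B h (fun x hx => hBa' hx)
        refine ⟨a', hPa', hsa', fun x hx => hBa' hx, ?_, ?_⟩
        · intro v hv
          exact hspa' (fun x hx => hv x (hle hx))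
        · intro b hb
          exact hBspan b (hspa' (hb' b hb))
      · -- p'-factor
        have hr : (M.relIndex B : k) ≠ 0 := by
          intro h0
          rw [CharP.cast_eq_zero_iff k p] at h0
          exact hprime.one_lt.ne' (Nat.Coprime.eq_one_of_dvd hcop.symm h0)
        have hMB : ∀ {v : V}, v ∈ fixedBy ρ B → v ∈ fixedBy ρ M := fun hv x hx => hv x (hle hx)
        have hspW : ∀ w ∈ Submodule.span k {u : V | ∃ h : H, ρ h a' = u},
            cosetSum ρ M B w ∈ Submodule.span k {u : V | ∃ h : H, ρ h (cosetSum ρ M B a') = u} := by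
          have h1 : Submodule.span k {u : V | ∃ h : H, ρ h a' = u} ≤
              (Submodule.span k {u : V | ∃ h : H, ρ h (cosetSum ρ M B a') = u}).comap
                (cosetSum ρ M B) := by
            rw [Submodule.span_le]
            rintro _ ⟨h, rfl⟩
            show cosetSum ρ M B (ρ h a') ∈ Submodule.span k {u : V | ∃ h : H, ρ h (cosetSum ρ M B a') = u}
            rw [← cosetSum_comm ρ M B hfa']
            exact Submodule.subset_span ⟨h, rfl⟩
          exact fun w hw => h1 hw
        have hfspan : ∀ w ∈ Submodule.span k {u : V | ∃ h : H, ρ h a' = u}, w ∈ fixedBy ρ M := by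
          have h1 : Submodule.span k {u : V | ∃ h : H, ρ h a' = u} ≤ fixedBy ρ M := by
            rw [Submodule.span_le]
            rintro _ ⟨h, rfl⟩
            exact fixedBy_map ρ M h hfa'
          exact fun w hw => h1 hw
        refine ⟨cosetSum ρ M B a', ?_, ?_, ?_, ?_, ?_⟩
        · intro x hx
          rw [cosetSum_comm ρ M B hfa', hPa' x hx]
        · intro x hx
          rw [mem_repStab, cosetSum_comm ρ M B hfa', hsa' hx]
        · intro x hx
          exact rho_cosetSum ρ M B hfa' hx
        · intro v hv
          have h1 := hspW v (hspa' (hMB hv))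
          rw [cosetSum_fixed ρ M B hv] at h1
          have h2 := Submodule.smul_mem _ ((M.relIndex B : k)⁻¹) h1
          rwa [smul_smul, inv_mul_cancel₀ hr, one_smul] at h2
        · intro b hb
          have hbM : b ∈ fixedBy ρ M := hb' b hb
          have hbspan := hspa' hbM
          set C : Subgroup H := repStab ρ b ⊓ B with hC
          have hMC : M ≤ C := fun x hx => ⟨hbM x hx, hle hx⟩
          -- T is invariant under B on the span
          have hT : ∀ g ∈ B, ∀ w ∈ Submodule.span k {u : V | ∃ h : H, ρ h a' = u},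
              cosetSum ρ M C (ρ g w) = cosetSum ρ M C w := by
            intro g hg w hw
            induction hw using Submodule.span_induction with
            | mem x hx =>
              obtain ⟨h, rfl⟩ := hx
              have hd1 : ((repStab ρ (ρ h a')).subgroupOf B).index ∣ (repStab ρ a).index := by
                refine (relIndex_dvd_index_of_normal' (repStab ρ (ρ h a')) B).trans ?_
                rw [repStab_conj_index]
                exact Subgroup.index_dvd_of_le hsa'
              have hd2 : ((repStab ρ b).subgroupOf B).index ∣ (repStab ρ b).index :=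
                relIndex_dvd_index_of_normal' (repStab ρ b) B
              have hco : ((repStab ρ (ρ h a')).subgroupOf B).index.Coprime
                  ((repStab ρ b).subgroupOf B).index :=
                Nat.Coprime.coprime_dvd_left hd1 (Nat.Coprime.coprime_dvd_right hd2 hb)
              obtain ⟨x, hx1, hx2⟩ := exists_mul_of_coprime_index hco (⟨g, hg⟩ : B)
              rw [mem_subgroupOf] at hx1 hx2
              have hg' : g = (x : H) * ((x⁻¹ * ⟨g, hg⟩ : B) : H) := by push_cast; group
              rw [hg', map_mul, Module.End.mul_apply, (mem_repStab _ _ _).mp hx2]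
              exact cosetSum_rho ρ M C (fixedBy_map ρ M h hfa') ⟨hx1, x.2⟩
            | zero => rw [map_zero]
            | add x y _ _ hx hy => rw [map_add, map_add, map_add, hx, hy]
            | smul c x _ hx => rw [map_smul, map_smul, map_smul, hx]
          have h1 : cosetSum ρ M C (cosetSum ρ M B b) =
              (M.relIndex B : k) • cosetSum ρ M C b := by
            calc cosetSum ρ M C (cosetSum ρ M B b)
                = ∑ q : B ⧸ M.subgroupOf B, cosetSum ρ M C (ρ (q.out : H) b) := by
                  conv_lhs => rw [cosetSum.eq_def ρ M B, LinearMap.sum_apply, map_sum]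
              _ = ∑ _q : B ⧸ M.subgroupOf B, cosetSum ρ M C b :=
                  Finset.sum_congr rfl fun q _ => hT _ q.out.2 b hbspan
              _ = _ := by
                rw [Finset.sum_const, Finset.card_univ, ← Nat.card_eq_fintype_card,
                  Nat.cast_smul_eq_nsmul]
                rfl
          have h2 : cosetSum ρ M C b = (M.relIndex C : k) • b :=
            cosetSum_fixed ρ M C (fun x hx => hx.1)
          have h3 : cosetSum ρ M C (cosetSum ρ M B b) = (M.relIndex C : k) • cosetSum ρ M B b :=
            cosetSum_fixed ρ M C (fun x hx => rho_cosetSum ρ M B hbM hx.2)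
          have hrC : (M.relIndex C : k) ≠ 0 := by
            intro h0
            apply hr
            have h4 : M.relIndex C ∣ M.relIndex B := by
              rw [← relIndex_mul_relIndex M C B hMC inf_le_right]
              exact dvd_mul_right _ _
            obtain ⟨c, hc⟩ := h4
            rw [hc, Nat.cast_mul, h0, zero_mul]
          have h5 : cosetSum ρ M B b = (M.relIndex B : k) • b := by
            have h6 : (M.relIndex C : k) • cosetSum ρ M B b =
                (M.relIndex C : k) • ((M.relIndex B : k) • b) := by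
              rw [← h3, h1, h2, smul_comm]
            have h7 := congrArg (fun w => (M.relIndex C : k)⁻¹ • w) h6
            simpa only [smul_smul, inv_mul_cancel₀ hrC, one_smul, ← mul_assoc, one_mul] using h7
          have h8 : b = (M.relIndex B : k)⁻¹ • cosetSum ρ M B b := by
            rw [h5, smul_smul, inv_mul_cancel₀ hr, one_smul]
          rw [h8]
          exact Submodule.smul_mem _ _ (fun x hx => rho_cosetSum ρ M B hbM hx)
  obtain ⟨c, -, -, hfc, hspc, hbc⟩ := claim (Fin.last n)
  rw [hNn] at hfc hspc hbc
  constructor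
  · have hcinv : c ∈ ρ.invariants := by
      rw [Representation.mem_invariants]
      exact fun g => hfc g (mem_top g)
    have hspan1 : Submodule.span k {u : V | ∃ h : H, ρ h c = u} ≤ Submodule.span k {c} := by
      rw [Submodule.span_le]
      rintro _ ⟨h, rfl⟩
      rw [hfc h (mem_top h)]
      exact Submodule.mem_span_singleton_self c
    refine finrank_le_one (⟨c, hcinv⟩ : ρ.invariants) ?_
    rintro ⟨w, hw⟩
    rw [Representation.mem_invariants] at hw
    obtain ⟨t, ht⟩ := Submodule.mem_span_singleton.mp (hspan1 (hspc (fun x _ => hw x)))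
    exact ⟨t, Subtype.ext ht⟩
  · intro b hb h
    rw [card_rep_orbit, card_rep_orbit] at hb
    exact hbc b hb h (mem_top h)

end Cfsg.Agent.S4176
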