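import Cfsg.Statements.S4177
import Cfsg.Agent.H69.CoprimeIndex

set_option autoImplicit false
set_option linter.style.haveILetI false
open Cfsg

namespace Cfsg.Agent.S4177

open Subgroup Cfsg.Agent.H69

/-- Let k be a field whose characteristic does not divide the order of the finite group H (for instance a field of characteristic zero), and ρ a k-linear representation of H on V. Let a be a vector whose H-orbit spans V. Then the space of H-fixed vectors has dimension at most 1, and every vector b whose H-orbit has size coprime to the size of the orbit of a is fixed by H. -/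
theorem result {k V H : Type*} [Field k] [AddCommGroup V] [Module k V] [Group H] [Finite H]
    (hchar : ¬ ringChar k ∣ Nat.card H) (ρ : Representation k H V) (a : V)
    (hspan : Submodule.span k {u : V | ∃ h : H, ρ h a = u} = ⊤) :
    Module.finrank k ρ.invariants ≤ 1 ∧
    ∀ b : V, (Nat.card {u : V | ∃ h : H, ρ h a = u}).Coprime (Nat.card {u : V | ∃ h : H, ρ h b = u}) → ∀ h : H, ρ h b = b := by
  classical
  haveI : Fintype H := Fintype.ofFinite H
  have hH : (Nat.card H : k) ≠ 0 := by
    intro h
    exact hchar ((ringChar.spec k (Nat.card H)).mp h)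
  -- sum over H
  set S : V →ₗ[k] V := ∑ h : H, ρ h with hS
  have hSfix : ∀ (g : H) (v : V), ρ g (S v) = S v := by
    intro g v
    simp only [hS, LinearMap.sum_apply, map_sum]
    calc ∑ h : H, ρ g (ρ h v) = ∑ h : H, ρ (g * h) v := by
          refine Finset.sum_congr rfl fun h _ => ?_
          rw [map_mul, Module.End.mul_apply]
      _ = ∑ h : H, ρ h v := Equiv.sum_comp (Equiv.mulLeft g) (fun h => ρ h v)
  have hSinv : ∀ (g : H) (v : V), S (ρ g v) = S v := by
    intro g v
    simp only [hS, LinearMap.sum_apply]
    calc ∑ h : H, ρ h (ρ g v) = ∑ h : H, ρ (h * g) v := by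
          refine Finset.sum_congr rfl fun h _ => ?_
          rw [map_mul, Module.End.mul_apply]
      _ = ∑ h : H, ρ h v := Equiv.sum_comp (Equiv.mulRight g) (fun h => ρ h v)
  constructor
  · -- invariants ≤ span {S a}
    have hle : ρ.invariants ≤ Submodule.span k {S a} := by
      intro v hv
      have hv' : ∀ g : H, ρ g v = v := hv
      have h1 : S v = (Nat.card H : k) • v := by
        simp only [hS, LinearMap.sum_apply, hv']
        rw [Finset.sum_const, Finset.card_univ, Nat.card_eq_fintype_card, Nat.cast_smul_eq_nsmul]
      have h2 : ∀ w : V, S w ∈ Submodule.span k {S a} := by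
        intro w
        have hw : w ∈ Submodule.span k {u : V | ∃ h : H, ρ h a = u} := by rw [hspan]; trivial
        induction hw using Submodule.span_induction with
        | mem x hx =>
          obtain ⟨h, rfl⟩ := hx
          rw [hSinv]
          exact Submodule.mem_span_singleton_self _
        | zero => rw [map_zero]; exact Submodule.zero_mem _
        | add x y _ _ hx hy => rw [map_add]; exact Submodule.add_mem _ hx hy
        | smul c x _ hx => rw [map_smul]; exact Submodule.smul_mem _ _ hx
      have h3 : v = (Nat.card H : k)⁻¹ • S v := by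
        rw [h1, smul_smul, inv_mul_cancel₀ hH, one_smul]
      rw [h3]
      exact Submodule.smul_mem _ _ (h2 v)
    refine (Submodule.finrank_mono hle).trans ?_
    exact (finrank_span_le_card _).trans (by simp)
  · intro b hco
    rw [card_rep_orbit, card_rep_orbit] at hco
    -- T = sum over the stabilizer of b
    set B := repStab ρ b with hB
    set T : V →ₗ[k] V := ∑ x : B, ρ (x : H) with hT
    have hTB : ∀ (x : B) (v : V), T (ρ (x : H) v) = T v := by
      intro x v
      simp only [hT, LinearMap.sum_apply]
      calc ∑ y : B, ρ (y : H) (ρ (x : H) v) = ∑ y : B, ρ ((y * x : B) : H) v := by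
            refine Finset.sum_congr rfl fun y _ => ?_
            rw [Subgroup.coe_mul, map_mul, Module.End.mul_apply]
        _ = ∑ y : B, ρ (y : H) v := Equiv.sum_comp (Equiv.mulRight x) (fun y : B => ρ (y : H) v)
    have hTa : ∀ h : H, T (ρ h a) = T a := by
      intro h
      obtain ⟨x, hx, hxh⟩ := exists_mul_of_coprime_index hco h
      have h1 : ρ h a = ρ x a := ((repStab_key ρ a x h).mp hxh).symm
      rw [h1]
      exact hTB ⟨x, hx⟩ a
    have hTinv : ∀ (h : H) (v : V), T (ρ h v) = T v := by
      intro h v
      have hv : v ∈ Submodule.span k {u : V | ∃ h : H, ρ h a = u} := by rw [hspan]; trivial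
      induction hv using Submodule.span_induction with
      | mem x hx =>
        obtain ⟨g, rfl⟩ := hx
        have h6 : ρ h (ρ g a) = ρ (h * g) a := by rw [map_mul, Module.End.mul_apply]
        rw [h6, hTa, hTa]
      | zero => rw [map_zero]
      | add x y _ _ hx hy => rw [map_add, map_add, map_add, hx, hy]
      | smul c x _ hx => rw [map_smul, map_smul, map_smul, hx]
    have hTfix : ∀ v : V, (∀ g : H, g ∈ B → ρ g v = v) → T v = (Nat.card B : k) • v := by
      intro v hv
      simp only [hT, LinearMap.sum_apply]
      calc ∑ x : B, ρ (x : H) v = ∑ _x : B, v := Finset.sum_congr rfl fun x _ => hv x x.2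
        _ = _ := by rw [Finset.sum_const, Finset.card_univ, Nat.card_eq_fintype_card, Nat.cast_smul_eq_nsmul]
    have hBne : (Nat.card B : k) ≠ 0 := by
      intro h
      apply hH
      rw [← B.card_mul_index, Nat.cast_mul, h, zero_mul]
    have h1 : T (S b) = (Nat.card H : k) • T b := by
      simp only [hS, LinearMap.sum_apply, map_sum, hTinv]
      rw [Finset.sum_const, Finset.card_univ, Nat.card_eq_fintype_card, Nat.cast_smul_eq_nsmul]
    have h2 : T (S b) = (Nat.card B : k) • S b := hTfix _ fun g _ => hSfix g b
    have h3 : T b = (Nat.card B : k) • b := hTfix _ fun g hg => hg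
    have h4 : S b = (Nat.card H : k) • b := by
      rw [h2, h3, smul_smul, mul_comm, ← smul_smul] at h1
      exact smul_right_injective V hBne h1
    have h5 : b = (Nat.card H : k)⁻¹ • S b := by
      rw [h4, smul_smul, inv_mul_cancel₀ hH, one_smul]
    intro h
    rw [h5, map_smul, hSfix]

end Cfsg.Agent.S4177
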