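import Cfsg.Statements.S4178

set_option autoImplicit false
set_option linter.style.haveILetI false
open Cfsg

namespace Cfsg.Agent.S4178

open Subgroup

theorem index_le_of_map {H : Type*} [Group H] [Finite H] (R : Subgroup H) {X : Type*} [Finite X]
    (φ : H → X) (hφ : ∀ h h' : H, φ h = φ h' → h⁻¹ * h' ∈ R) : R.index ≤ Nat.card X := by
  refine Nat.card_le_card_of_injective (fun q : H ⧸ R => φ q.out) ?_
  intro q q' hqq
  have h1 := hφ _ _ hqq
  rw [← QuotientGroup.out_eq' q, ← QuotientGroup.out_eq' q']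
  exact QuotientGroup.eq.mpr h1

variable {F V : Type*} [Field F] [Fintype F] [AddCommGroup V] [Module F V] [FiniteDimensional F V]

omit [Fintype F] in
theorem exists_fixed (g : V ≃ₗ[F] V) (W : Submodule F V) (hW : ∀ w ∈ W, g w ∈ W) (v : V)
    (hv : v ∉ W) (hgv : g v - v ∈ W) : ∃ u : V, u ≠ 0 ∧ g u = u := by
  set U : Submodule F V := W ⊔ Submodule.span F {v} with hU
  have hlt : W < U := by
    refine lt_of_le_of_ne le_sup_left ?_
    intro h
    apply hv
    rw [h]
    exact (le_sup_right : Submodule.span F {v} ≤ U) (Submodule.mem_span_singleton_self v)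
  have hmaps : ∀ u ∈ U, g u - u ∈ W := by
    intro u hu
    obtain ⟨w, hw, z, hz, rfl⟩ := Submodule.mem_sup.mp hu
    obtain ⟨c, rfl⟩ := Submodule.mem_span_singleton.mp hz
    have h1 : g (w + c • v) - (w + c • v) = (g w - w) + c • (g v - v) := by
      rw [map_add, map_smul, smul_sub]; abel
    rw [h1]
    exact W.add_mem (W.sub_mem (hW w hw) hw) (W.smul_mem c hgv)
  let f : U →ₗ[F] W := LinearMap.codRestrict W
    (((g : V →ₗ[F] V) - LinearMap.id).comp U.subtype) (fun u => by
      show (g : V →ₗ[F] V) (u : V) - (u : V) ∈ W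
      exact hmaps u u.2)
  have hker : LinearMap.ker f ≠ ⊥ := LinearMap.ker_ne_bot_of_finrank_lt (Submodule.finrank_lt_finrank_of_lt hlt)
  obtain ⟨u, hu, hu0⟩ := Submodule.exists_mem_ne_zero_of_ne_bot hker
  refine ⟨(u : V), fun h => hu0 (Subtype.ext h), ?_⟩
  have h2 := congrArg Subtype.val (LinearMap.mem_ker.mp hu)
  have h3 : g (u : V) - (u : V) = 0 := h2
  exact sub_eq_zero.mp h3

/-- Let F be a finite field with q elements, V a non-zero finite-dimensional F-space of dimension d, H a group of invertible linear maps of V, and R the subgroup of H generated by the elements of H that fix some non-zero vector (have eigenvalue 1). Then the index of R in H is at most q^d − 1; and if H leaves invariant some proper non-zero subspace, the index is at most q^(d/2) − 1. -/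
theorem result {F V : Type*} [Field F] [Fintype F] [AddCommGroup V] [Module F V] [FiniteDimensional F V] [Nontrivial V]
    (H : Subgroup (V ≃ₗ[F] V)) :
    (Subgroup.closure {h : ↥H | ∃ v : V, v ≠ 0 ∧ (h : V ≃ₗ[F] V) v = v}).index ≤ Fintype.card F ^ Module.finrank F V - 1 ∧
    ((∃ W : Submodule F V, W ≠ ⊥ ∧ W ≠ ⊤ ∧ ∀ h ∈ H, ∀ w ∈ W, h w ∈ W) →
      ((Subgroup.closure {h : ↥H | ∃ v : V, v ≠ 0 ∧ (h : V ≃ₗ[F] V) v = v}).index : ℝ) ≤ Real.sqrt ((Fintype.card F : ℝ) ^ Module.finrank F V) - 1) := by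
  classical
  haveI : Finite V := Module.finite_of_finite F
  haveI : Finite (V ≃ₗ[F] V) := by
    apply Finite.of_injective (fun g : V ≃ₗ[F] V => (g : V → V))
    intro a b hab
    exact LinearEquiv.ext (fun v => congrFun hab v)
  set R := Subgroup.closure {h : ↥H | ∃ v : V, v ≠ 0 ∧ (h : V ≃ₗ[F] V) v = v} with hR
  have hRmem : ∀ h h' : H, ∀ v : V, v ≠ 0 → (h : V ≃ₗ[F] V) v = (h' : V ≃ₗ[F] V) v → h⁻¹ * h' ∈ R := by
    intro h h' v hv heq
    apply Subgroup.subset_closure
    refine ⟨v, hv, ?_⟩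
    show (h : V ≃ₗ[F] V)⁻¹ ((h' : V ≃ₗ[F] V) v) = v
    rw [← heq]
    exact LinearEquiv.symm_apply_apply _ v
  have hcardne : ∀ (U : Type _) [AddCommGroup U] [Module F U] [FiniteDimensional F U],
      Nat.card {u : U // u ≠ 0} = Fintype.card F ^ Module.finrank F U - 1 := by
    intro U _ _ _
    haveI : Finite U := Module.finite_of_finite F
    haveI : Fintype U := Fintype.ofFinite U
    rw [Nat.card_eq_fintype_card, Fintype.card_subtype_compl, Fintype.card_subtype_eq,
      Module.card_eq_pow_finrank (K := F) (V := U)]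
  constructor
  · obtain ⟨v, hv⟩ := exists_ne (0 : V)
    rw [← hcardne V]
    refine index_le_of_map R (fun h => (⟨(h : V ≃ₗ[F] V) v, ?_⟩ : {u : V // u ≠ 0})) ?_
    · intro h0
      exact hv ((LinearEquiv.map_eq_zero_iff _).mp h0)
    · intro h h' heq
      exact hRmem h h' v hv (congrArg Subtype.val heq)
  · rintro ⟨W, hWbot, hWtop, hW⟩
    have hq1 : 1 ≤ Fintype.card F := Fintype.card_pos
    have hbound : ∀ k : ℕ, 2 * k ≤ Module.finrank F V → R.index ≤ Fintype.card F ^ k - 1 →
        (R.index : ℝ) ≤ Real.sqrt ((Fintype.card F : ℝ) ^ Module.finrank F V) - 1 := by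
      intro k hk hle
      have h1 : 1 ≤ Fintype.card F ^ k := Nat.one_le_pow _ _ hq1
      have h2 : (R.index : ℝ) ≤ (Fintype.card F : ℝ) ^ k - 1 := by
        have : R.index + 1 ≤ Fintype.card F ^ k := by omega
        have h3 : ((R.index + 1 : ℕ) : ℝ) ≤ ((Fintype.card F ^ k : ℕ) : ℝ) := Nat.cast_le.mpr this
        push_cast at h3
        linarith
      refine h2.trans ?_
      have h3 : (Fintype.card F : ℝ) ^ k ≤ Real.sqrt ((Fintype.card F : ℝ) ^ Module.finrank F V) := by
        apply Real.le_sqrt_of_sq_le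
        rw [← pow_mul]
        apply pow_le_pow_right₀
        · exact_mod_cast hq1
        · omega
      linarith
    have hdim : Module.finrank F (V ⧸ W) + Module.finrank F W = Module.finrank F V :=
      Submodule.finrank_quotient_add_finrank W
    rcases Nat.le_total (Module.finrank F W) (Module.finrank F (V ⧸ W)) with hle | hle
    · obtain ⟨w, hw, hw0⟩ := Submodule.exists_mem_ne_zero_of_ne_bot hWbot
      refine hbound (Module.finrank F W) (by omega) ?_
      rw [← hcardne W]
      refine index_le_of_map R (fun h => (⟨⟨(h : V ≃ₗ[F] V) w, hW h h.2 w hw⟩, ?_⟩ : {u : W // u ≠ 0})) ?_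
      · intro h0
        exact hw0 ((LinearEquiv.map_eq_zero_iff _).mp (congrArg Subtype.val h0))
      · intro h h' heq
        exact hRmem h h' w hw0 (congrArg (fun t => ((t : W) : V)) (congrArg Subtype.val heq))
    · obtain ⟨v, -, hv⟩ := SetLike.exists_of_lt (lt_top_iff_ne_top.mpr hWtop)
      haveI : Finite (V ⧸ W) := Module.finite_of_finite F
      refine hbound (Module.finrank F (V ⧸ W)) (by omega) ?_
      rw [← hcardne (V ⧸ W)]
      refine index_le_of_map R (fun h => (⟨W.mkQ ((h : V ≃ₗ[F] V) v), ?_⟩ : {u : V ⧸ W // u ≠ 0})) ?_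
      · intro h0
        rw [Submodule.mkQ_apply, Submodule.Quotient.mk_eq_zero] at h0
        apply hv
        have h1 := hW (h⁻¹ : H) (h⁻¹ : H).2 _ h0
        have h2 : ((h⁻¹ : H) : V ≃ₗ[F] V) ((h : V ≃ₗ[F] V) v) = v := LinearEquiv.symm_apply_apply _ v
        rw [h2] at h1
        exact h1
      · intro h h' heq
        have h1 : W.mkQ ((h : V ≃ₗ[F] V) v) = W.mkQ ((h' : V ≃ₗ[F] V) v) := congrArg Subtype.val heq
        rw [Submodule.mkQ_apply, Submodule.mkQ_apply, Submodule.Quotient.eq] at h1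
        apply Subgroup.subset_closure
        have h3 : ((h⁻¹ * h' : H) : V ≃ₗ[F] V) v - v ∈ W := by
          have h4 := hW (h⁻¹ : H) (h⁻¹ : H).2 _ (W.neg_mem h1)
          have h5 : ((h⁻¹ : H) : V ≃ₗ[F] V) (-((h : V ≃ₗ[F] V) v - (h' : V ≃ₗ[F] V) v)) =
              ((h⁻¹ * h' : H) : V ≃ₗ[F] V) v - v := by
            rw [neg_sub, map_sub]
            have h2 : ((h⁻¹ : H) : V ≃ₗ[F] V) ((h : V ≃ₗ[F] V) v) = v := LinearEquiv.symm_apply_apply _ v
            rw [h2]
            rfl
          rw [h5] at h4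
          exact h4
        exact exists_fixed _ W (hW _ (h⁻¹ * h').2) v hv h3

end Cfsg.Agent.S4178
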