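import Cfsg.Statements.S4182
import Cfsg.Agent.H69.Basic

set_option autoImplicit false
set_option linter.style.haveILetI false
set_option linter.unusedSectionVars false
open Cfsg

namespace Cfsg.Agent.S4182

open Subgroup
open scoped Pointwise

/-- generated by `p`-elements -/
def PGen {G : Type*} [Group G] (p : ℕ) (U : Subgroup G) : Prop :=
  ∃ S : Set G, (∀ g ∈ S, ∃ k : ℕ, orderOf g = p ^ k) ∧ U = closure S

theorem pgen_conj {G : Type*} [Group G] {p : ℕ} {U : Subgroup G} (g : G) (h : PGen p U) :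
    PGen p (MulAut.conj g • U) := by
  obtain ⟨S, hS, rfl⟩ := h
  refine ⟨(MulAut.conj g) '' S, ?_, ?_⟩
  · rintro _ ⟨s, hs, rfl⟩
    obtain ⟨k, hk⟩ := hS s hs
    exact ⟨k, by rw [← hk]; exact MulEquiv.orderOf_eq (MulAut.conj g) s⟩
  · exact MonoidHom.map_closure (MulAut.conj g).toMonoidHom S

theorem main (p : ℕ) [hp : Fact p.Prime] : ∀ (n : ℕ) {G : Type*} [Group G] [Finite G],
    Nat.card G = n → closure {g : G | ∃ k : ℕ, orderOf g = p ^ k} = ⊤ →
    ∀ 𝒦 : Finset (Subgroup G), (∀ K ∈ 𝒦, K ≠ ⊤) →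
      (∀ g : G, (∃ k : ℕ, orderOf g = p ^ k) → ∃ K ∈ 𝒦, g ∈ K) → p + 1 ≤ 𝒦.card := by
  classical
  intro n
  induction n using Nat.strong_induction_on with
  | _ n ih =>
  intro G _ _ hn hgen 𝒦 hprop hcov
  by_contra hlt
  have hcard : 𝒦.card ≤ p := by omega
  have hprime : p.Prime := hp.out
  -- Claim A
  have claimA : ∀ U : Subgroup G, PGen p U → U ≠ ⊤ → ∃ K ∈ 𝒦, U ≤ K := by
    intro U hU hUtop
    by_contra hno
    push Not at hno
    obtain ⟨S, hS, rfl⟩ := hU
    have hlt' : Nat.card (closure S) < n := by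
      rw [← hn]
      have h1 := (closure S).card_mul_index
      have h2 : (closure S).index ≠ 1 := by rwa [Ne, Subgroup.index_eq_one]
      have h3 : (closure S).index ≠ 0 := Subgroup.index_ne_zero_of_finite
      have h4 : 0 < Nat.card (closure S) := Nat.card_pos
      rw [← h1]
      have : 2 ≤ (closure S).index := by omega
      nlinarith
    have := ih _ hlt' (G := closure S) rfl ?_ (𝒦.image (fun K => K.subgroupOf (closure S))) ?_ ?_
    · exact hlt (this.trans Finset.card_image_le)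
    · rw [eq_top_iff, ← closure_closure_coe_preimage (k := S)]
      apply Subgroup.closure_mono
      intro g hg
      obtain ⟨k, hk⟩ := hS g hg
      exact ⟨k, by rw [← hk, Subgroup.orderOf_coe]⟩
    · intro K' hK'
      obtain ⟨K, hK, rfl⟩ := Finset.mem_image.mp hK'
      rw [Ne, subgroupOf_eq_top]
      exact hno K hK
    · intro g ⟨k, hk⟩
      obtain ⟨K, hK, hgK⟩ := hcov (g : G) ⟨k, by rw [Subgroup.orderOf_coe, hk]⟩
      exact ⟨K.subgroupOf (closure S), Finset.mem_image_of_mem _ hK, hgK⟩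
  -- the set of maximal proper p-generated subgroups
  set ℳ : Set (Subgroup G) := {M | Maximal (fun U => PGen p U ∧ U ≠ ⊤) M} with hℳ
  have hmem : ∀ {M : Subgroup G}, M ∈ ℳ → Maximal (fun U => PGen p U ∧ U ≠ ⊤) M := fun h => h
  have hex : ∀ U : Subgroup G, PGen p U → U ≠ ⊤ → ∃ M ∈ ℳ, U ≤ M := by
    intro U h1 h2
    obtain ⟨M, hM, hmax⟩ := (Set.toFinite {U : Subgroup G | PGen p U ∧ U ≠ ⊤}).exists_le_maximal
      (show U ∈ {U : Subgroup G | PGen p U ∧ U ≠ ⊤} from ⟨h1, h2⟩)
    exact ⟨M, hmax, hM⟩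
  -- L(K)
  let L : Subgroup G → Subgroup G := fun K => closure {g | g ∈ K ∧ ∃ k : ℕ, orderOf g = p ^ k}
  have hLK : ∀ K, L K ≤ K := fun K => (closure_le K).mpr fun g hg => hg.1
  have hLpg : ∀ K, PGen p (L K) := fun K => ⟨_, fun g hg => hg.2, rfl⟩
  have hℳsub : ℳ ⊆ (𝒦.image L : Finset (Subgroup G)) := by
    intro M hM
    obtain ⟨K, hK, hMK⟩ := claimA M (hmem hM).prop.1 (hmem hM).prop.2
    have hLtop : L K ≠ ⊤ := fun h => hprop K hK (top_le_iff.mp (h ▸ hLK K))
    have hML : M ≤ L K := by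
      obtain ⟨S, hS, hMS⟩ := (hmem hM).prop.1
      rw [hMS, closure_le]
      intro s hs
      exact subset_closure ⟨hMK (hMS ▸ subset_closure hs), hS s hs⟩
    have : L K ≤ M := (hmem hM).le_of_ge ⟨hLpg K, hLtop⟩ hML
    rw [Finset.coe_image]
    exact ⟨K, hK, le_antisymm this hML⟩
  have hℳcard : ℳ.ncard ≤ p := by
    refine le_trans ?_ hcard
    refine le_trans (Set.ncard_le_ncard hℳsub (Finset.finite_toSet _)) ?_
    rw [Set.ncard_coe_finset]
    exact Finset.card_image_le
  have hℳconj : ∀ (g : G) (M : Subgroup G), M ∈ ℳ → MulAut.conj g • M ∈ ℳ := by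
    intro g M hM
    refine ⟨⟨pgen_conj g (hmem hM).prop.1, ?_⟩, ?_⟩
    · intro h
      apply (hmem hM).prop.2
      rw [eq_top_iff, ← Subgroup.pointwise_smul_le_pointwise_smul_iff (a := MulAut.conj g), h]
      exact le_top
    · intro U hU hle
      have h1 : MulAut.conj g⁻¹ • U ≠ ⊤ := by
        intro h
        apply hU.2
        rw [eq_top_iff, ← Subgroup.pointwise_smul_le_pointwise_smul_iff (a := MulAut.conj g⁻¹), h]
        exact le_top
      have h2 : M ≤ MulAut.conj g⁻¹ • U := by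
        rw [map_inv, Subgroup.subset_pointwise_smul_iff, inv_inv]
        exact hle
      have h3 := (hmem hM).le_of_ge ⟨pgen_conj g⁻¹ hU.1, h1⟩ h2
      rw [map_inv, Subgroup.pointwise_smul_subset_iff, inv_inv] at h3
      exact h3
  -- each p-element normalizes each member of ℳ
  have hnorm : ∀ (x : G), (∃ k : ℕ, orderOf x = p ^ k) → ∀ M ∈ ℳ, MulAut.conj x • M = M := by
    intro x ⟨k, hk⟩ M hM
    by_contra hne
    -- the member containing x
    obtain ⟨K, hK, hxK⟩ := hcov x ⟨k, hk⟩
    have hLtop : L K ≠ ⊤ := fun h => hprop K hK (top_le_iff.mp (h ▸ hLK K))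
    obtain ⟨M₀, hM₀, hLM₀⟩ := hex (L K) (hLpg K) hLtop
    have hxM₀ : x ∈ M₀ := hLM₀ (subset_closure ⟨hxK, k, hk⟩)
    let Z := zpowers x
    have hZ : IsPGroup p Z := IsPGroup.of_card (n := k) (by rw [Nat.card_zpowers, hk])
    letI act : MulAction Z (Subgroup G) := MulAction.compHom (Subgroup G) ((MulAut.conj (G := G)).comp Z.subtype)
    have hdef : ∀ (z : Z) (U : Subgroup G), z • U = MulAut.conj (z : G) • U := fun _ _ => rfl
    obtain ⟨m, hm⟩ := hZ.card_orbit M
    have hm1 : p ≤ Nat.card (MulAction.orbit Z M) := by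
      rcases m with _ | m
      · exfalso
        rw [pow_zero] at hm
        have hsub := (Nat.card_eq_one_iff_unique.mp hm).1
        have h1 : (⟨M, MulAction.mem_orbit_self M⟩ : MulAction.orbit Z M) =
            ⟨(⟨x, mem_zpowers x⟩ : Z) • M, MulAction.mem_orbit M _⟩ := Subsingleton.elim _ _
        exact hne (congrArg Subtype.val h1).symm
      · rw [hm]; exact Nat.le_self_pow (Nat.succ_ne_zero m) p
    have hsub : insert M₀ (MulAction.orbit Z M) ⊆ ℳ := by
      rw [Set.insert_subset_iff]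
      refine ⟨hM₀, ?_⟩
      rintro _ ⟨z, rfl⟩
      exact hℳconj z M hM
    have hnotin : M₀ ∉ MulAction.orbit Z M := by
      rintro ⟨z, hz⟩
      have hz' : MulAut.conj (z : G) • M = M₀ := hz
      -- z ∈ M₀ so z⁻¹ M₀ z = M₀
      have hzM₀ : (z : G) ∈ M₀ := (zpowers_le.mpr hxM₀) z.2
      have h1 : MulAut.conj (z : G)⁻¹ • M₀ = M₀ := Subgroup.conj_smul_eq_self_of_mem (M₀.inv_mem hzM₀)
      have h2 : M = M₀ := by
        rw [← h1, ← hz', smul_smul, ← map_mul]; simp
      apply hne
      rw [h2]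
      exact Subgroup.conj_smul_eq_self_of_mem hxM₀
    have h1 := Set.ncard_le_ncard hsub (Set.toFinite _)
    rw [Set.ncard_insert_of_notMem hnotin (Set.toFinite _), ← Nat.card_coe_set_eq] at h1
    omega
  -- members of ℳ are normal
  have hnormal : ∀ M ∈ ℳ, M.Normal := by
    intro M hM
    rw [← Subgroup.normalizer_eq_top_iff, eq_top_iff, ← hgen, closure_le]
    intro x hx
    have h1 := hnorm x hx M hM
    rw [SetLike.mem_coe, Subgroup.mem_normalizer_iff]
    intro h
    constructor
    · intro hh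
      rw [← h1]
      exact Subgroup.smul_mem_pointwise_smul h (MulAut.conj x) M hh
    · intro hh
      rw [← h1] at hh
      obtain ⟨y, hy, hxy⟩ := hh
      have : y = h := by
        have h2 : x * y * x⁻¹ = x * h * x⁻¹ := hxy
        simpa using h2
      rw [← this]; exact hy
  -- final contradiction
  by_cases hpg : IsPGroup p G
  · -- counting in a p-group
    haveI : Fintype G := Fintype.ofFinite G
    have hKcard : ∀ K ∈ 𝒦, p * Nat.card K ≤ Fintype.card G := by
      intro K hK
      have h1 := K.card_mul_index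
      rw [Nat.card_eq_fintype_card (α := G)] at h1
      obtain ⟨m, hm⟩ := hpg.index K
      have hm0 : m ≠ 0 := by
        rintro rfl
        rw [pow_zero] at hm
        exact hprop K hK (Subgroup.index_eq_one.mp hm)
      have h2 : p ≤ K.index := by rw [hm]; exact Nat.le_self_pow hm0 p
      rw [← h1, mul_comm]
      exact Nat.mul_le_mul_left _ h2
    have hcover : (Finset.univ : Finset G) ⊆ {1} ∪ 𝒦.biUnion (fun K => Finset.univ.filter (fun g => g ∈ K ∧ g ≠ 1)) := by
      intro g _
      rw [Finset.mem_union, Finset.mem_singleton, Finset.mem_biUnion]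
      by_cases hg1 : g = 1
      · exact Or.inl hg1
      · right
        obtain ⟨k, hk⟩ := (IsPGroup.iff_orderOf.mp hpg) g
        obtain ⟨K, hK, hgK⟩ := hcov g ⟨k, hk⟩
        exact ⟨K, hK, by rw [Finset.mem_filter]; exact ⟨Finset.mem_univ _, hgK, hg1⟩⟩
    have h1 := Finset.card_le_card hcover
    rw [Finset.card_univ] at h1
    have h2 : (𝒦.biUnion (fun K => Finset.univ.filter (fun g => g ∈ K ∧ g ≠ 1))).card ≤
        ∑ K ∈ 𝒦, (Finset.univ.filter (fun g : G => g ∈ K ∧ g ≠ 1)).card := Finset.card_biUnion_le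
    have h3 : ∀ K ∈ 𝒦, p * (Finset.univ.filter (fun g : G => g ∈ K ∧ g ≠ 1)).card + p ≤ Fintype.card G := by
      intro K hK
      have h4 : (Finset.univ.filter (fun g : G => g ∈ K ∧ g ≠ 1)).card + 1 ≤ Nat.card K := by
        have h5 : insert (1 : G) (Finset.univ.filter (fun g : G => g ∈ K ∧ g ≠ 1)) ⊆ Finset.univ.filter (fun g : G => g ∈ K) := by
          intro g hg
          rw [Finset.mem_insert, Finset.mem_filter] at hg
          rw [Finset.mem_filter]
          refine ⟨Finset.mem_univ _, ?_⟩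
          rcases hg with rfl | hg
          · exact K.one_mem
          · exact hg.2.1
        have h6 := Finset.card_le_card h5
        rw [Finset.card_insert_of_notMem (by simp)] at h6
        rw [Nat.card_eq_fintype_card, Fintype.card_subtype]
        exact h6
      have := hKcard K hK
      nlinarith
    have h5 : p * ∑ K ∈ 𝒦, (Finset.univ.filter (fun g : G => g ∈ K ∧ g ≠ 1)).card + p * 𝒦.card ≤ 𝒦.card * Fintype.card G := by
      have : ∑ K ∈ 𝒦, (p * (Finset.univ.filter (fun g : G => g ∈ K ∧ g ≠ 1)).card + p) ≤ ∑ _K ∈ 𝒦, Fintype.card G :=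
        Finset.sum_le_sum h3
      rw [Finset.sum_add_distrib, ← Finset.mul_sum, Finset.sum_const, Finset.sum_const, smul_eq_mul, smul_eq_mul] at this
      linarith
    have h6 : ({1} ∪ 𝒦.biUnion (fun K => Finset.univ.filter (fun g : G => g ∈ K ∧ g ≠ 1))).card ≤
        1 + ∑ K ∈ 𝒦, (Finset.univ.filter (fun g : G => g ∈ K ∧ g ≠ 1)).card := by
      refine (Finset.card_union_le _ _).trans ?_
      rw [Finset.card_singleton]
      exact Nat.add_le_add_left h2 1
    have h7 : Fintype.card G ≤ 1 + ∑ K ∈ 𝒦, (Finset.univ.filter (fun g : G => g ∈ K ∧ g ≠ 1)).card := h1.trans h6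
    have hne : 0 < 𝒦.card := by
      obtain ⟨K, hK, -⟩ := hcov 1 ⟨0, by simp⟩
      exact Finset.card_pos.mpr ⟨K, hK⟩
    have hGp : p ≤ Fintype.card G := by
      obtain ⟨K, hK⟩ := Finset.card_pos.mp hne
      have h8 := h3 K hK
      omega
    have hp2 := hprime.two_le
    set s := ∑ K ∈ 𝒦, (Finset.univ.filter (fun g : G => g ∈ K ∧ g ≠ 1)).card
    -- p |G| ≤ p + p s ≤ p + c (|G| - p), c ≤ p
    obtain ⟨d, hd⟩ := Nat.exists_eq_add_of_le hGp
    rw [hd] at h5 h7
    have h8 : p * s ≤ 𝒦.card * d := by nlinarith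
    have h9 : 𝒦.card * d ≤ p * d := Nat.mul_le_mul_right _ hcard
    have h10 : s ≤ d := Nat.le_of_mul_le_mul_left (h8.trans h9) hprime.pos
    omega
  · obtain ⟨P⟩ : Nonempty (Sylow p G) := inferInstance
    have hPtop : (P : Subgroup G) ≠ ⊤ := by
      intro h
      apply hpg
      have := P.2
      rw [h] at this
      exact this.of_equiv Subgroup.topEquiv
    have hPpg : PGen p (P : Subgroup G) := ⟨(P : Set G), fun g hg => Cfsg.Agent.H69.orderOf_of_mem_isPGroup P.2 hg, (closure_eq _).symm⟩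
    obtain ⟨M, hM, hPM⟩ := hex _ hPpg hPtop
    have hMn := hnormal M hM
    apply (hmem hM).prop.2
    rw [eq_top_iff, ← hgen, closure_le]
    intro x ⟨k, hk⟩
    have hZ : IsPGroup p (zpowers x) := IsPGroup.of_card (n := k) (by rw [Nat.card_zpowers, hk])
    obtain ⟨Q, hQ⟩ := hZ.exists_le_sylow
    obtain ⟨g, hg⟩ := MulAction.exists_smul_eq G P Q
    have hx : x ∈ Q := hQ (mem_zpowers x)
    rw [← hg] at hx
    obtain ⟨y, hy, rfl⟩ := (show x ∈ MulAut.conj g • (P : Subgroup G) from hx)
    exact hMn.conj_mem y (hPM hy) g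

/-- Let p be a prime and G a finite group generated by its p-elements. If a finite family of proper subgroups of G covers the set of p-elements of G (every element of p-power order lies in one of them), then the family has at least p + 1 members. -/
theorem result {G : Type*} [Group G] [Finite G] (p : ℕ) [Fact p.Prime] (hgen : Subgroup.closure {g : G | ∃ k : ℕ, orderOf g = p ^ k} = ⊤)
    {ι : Type*} [Fintype ι] (K : ι → Subgroup G) (hK : ∀ i, K i ≠ ⊤)
    (hcov : ∀ g : G, (∃ k : ℕ, orderOf g = p ^ k) → ∃ i, g ∈ K i) :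
    p + 1 ≤ Fintype.card ι := by
  classical
  have := main p (Nat.card G) rfl hgen (Finset.univ.image K) ?_ ?_
  · exact this.trans (Finset.card_image_le.trans (by rw [Finset.card_univ]))
  · intro U hU
    obtain ⟨i, -, rfl⟩ := Finset.mem_image.mp hU
    exact hK i
  · intro g hg
    obtain ⟨i, hi⟩ := hcov g hg
    exact ⟨K i, Finset.mem_image_of_mem _ (Finset.mem_univ _), hi⟩

end Cfsg.Agent.S4182
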