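import Cfsg.Statements.S4184
import Cfsg.Agent.H69.Basic

set_option autoImplicit false
set_option linter.style.haveILetI false
open Cfsg

namespace Cfsg.Agent.S4184

open Subgroup Cfsg.Agent.H69

/-- `s` contains the full `A`-part of `m`. -/
def Full (m : ℕ) (A : Set ℕ) (s : ℕ) : Prop :=
  ∀ q : ℕ, q.Prime → q ∣ m → q ∈ A → m.factorization q ≤ s.factorization q

theorem full_both {m s : ℕ} {A : Set ℕ} (hs : s ≠ 0) (hm : m ≠ 0) (h1 : Full m A s)
    (h2 : Full m Aᶜ s) : m ∣ s := by
  rw [← Nat.factorization_le_iff_dvd hm hs]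
  intro q
  by_cases hq : q.Prime
  · by_cases hqm : q ∣ m
    · by_cases hA : q ∈ A
      · exact h1 q hq hqm hA
      · exact h2 q hq hqm hA
    · rw [Nat.factorization_eq_zero_of_not_dvd hqm]; exact Nat.zero_le _
  · rw [Nat.factorization_eq_zero_of_not_prime m hq]; exact Nat.zero_le _

theorem full_mono {m s t : ℕ} {A : Set ℕ} (ht : t ≠ 0) (hst : s ∣ t) (h : Full m A s) :
    Full m A t := fun q hq hqm hA =>
  (h q hq hqm hA).trans ((Nat.factorization_le_iff_dvd
    (fun h0 => ht (by rw [h0] at hst; exact zero_dvd_iff.mp hst)) ht).mpr hst q)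

/-- in `M`, elements whose order is divisible by a prime of `A` have full `Aᶜ`-part. -/
theorem full_of_prime_dvd {M : Type*} [Group M] [Finite M] {A : Set ℕ}
    (hdisc : ∀ a ∈ A, ∀ b ∉ A, a.Prime → b.Prime → a ∣ Nat.card M → b ∣ Nat.card M →
      ¬ ∃ x : M, orderOf x = a * b) {x : M} {p : ℕ} (hp : p.Prime) (hpA : p ∈ A)
    (hpx : p ∣ orderOf x) : Full (Nat.card M) Aᶜ (centralizer ({x} : Set M)).index := by
  intro q hq hqM hqA
  have hpM : p ∣ Nat.card M := hpx.trans (orderOf_dvd_natCard x)
  -- no element of order q in the centralizer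
  have hq' : ¬ q ∣ Nat.card (centralizer ({x} : Set M)) := by
    intro hqd
    haveI : Fact q.Prime := ⟨hq⟩
    obtain ⟨w, hw⟩ := exists_prime_orderOf_dvd_card' q hqd
    have hwx : Commute (w : M) x := ((mem_cent_singleton.mp w.2).symm : _ = _)
    have hox : orderOf (x ^ (orderOf x / p)) = p :=
      orderOf_pow_orderOf_div (orderOf_pos x).ne' hpx
    have hne : p ≠ q := fun h => hqA (h ▸ hpA)
    have hco : Nat.Coprime p q := (Nat.coprime_primes hp hq).mpr hne
    refine hdisc p hpA q hqA hp hq hpM hqM ⟨x ^ (orderOf x / p) * (w : M), ?_⟩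
    have hcomm : Commute (x ^ (orderOf x / p)) (w : M) := (hwx.symm).pow_left _
    rw [hcomm.orderOf_mul_eq_mul_orderOf_of_coprime]
    · rw [hox, Subgroup.orderOf_coe, hw]
    · rw [hox, Subgroup.orderOf_coe, hw]; exact hco
  have := index_factorization_add (centralizer ({x} : Set M)) q
  rw [Nat.factorization_eq_zero_of_not_dvd hq', zero_add] at this
  exact this.ge

theorem claim1 {M : Type*} [Group M] [Finite M] {A : Set ℕ}
    (hdisc : ∀ a ∈ A, ∀ b ∉ A, a.Prime → b.Prime → a ∣ Nat.card M → b ∣ Nat.card M →
      ¬ ∃ x : M, orderOf x = a * b) {x : M} (hx : x ≠ 1) :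
    Full (Nat.card M) A (centralizer ({x} : Set M)).index ∨
      Full (Nat.card M) Aᶜ (centralizer ({x} : Set M)).index := by
  have hox : orderOf x ≠ 1 := fun h => hx (orderOf_eq_one_iff.mp h)
  obtain ⟨p, hp, hpx⟩ := Nat.exists_prime_and_dvd hox
  by_cases hpA : p ∈ A
  · right
    exact full_of_prime_dvd hdisc hp hpA hpx
  · left
    have := full_of_prime_dvd (A := Aᶜ) (M := M) (x := x) (p := p) ?_ hp hpA hpx
    · rwa [compl_compl] at this
    · intro a ha b hb ha' hb' haM hbM hex
      rw [Set.mem_compl_iff, not_not] at hb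
      obtain ⟨y, hy⟩ := hex
      exact hdisc b hb a ha hb' ha' hbM haM ⟨y, by rw [hy, mul_comm]⟩

/-- The main local step. `m = |M|`. -/
theorem key {G : Type*} [Group G] [Finite G] {m : ℕ} (hm : m ≠ 0) {A : Set ℕ}
    (hdvd : ∀ g : G, (centralizer ({g} : Set G)).index ∣ m)
    (hne : ∀ g : G, (centralizer ({g} : Set G)).index ≠ m)
    (hfull : ∀ g : G, g ≠ 1 → Full m A (centralizer ({g} : Set G)).index ∨
      Full m Aᶜ (centralizer ({g} : Set G)).index)
    {q : ℕ} (hq : q.Prime) (hqA : q ∉ A) (hqm : q ∣ m) (hqG : q ∣ Nat.card G)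
    {p : ℕ} (hp : p.Prime) (hpA : p ∈ A) (hpm : p ∣ m) :
    (Nat.card G).factorization p ≤ m.factorization p := by
  by_contra hlt
  push Not at hlt
  haveI : Fact q.Prime := ⟨hq⟩
  haveI : Fact p.Prime := ⟨hp⟩
  have hpq : p ≠ q := fun h => hqA (h ▸ hpA)
  have hb1 : 1 ≤ m.factorization p := (hp.dvd_iff_one_le_factorization hm).mp hpm
  have hq1 : 1 ≤ m.factorization q := (hq.dvd_iff_one_le_factorization hm).mp hqm
  -- contradiction principle
  have hnot : ∀ g : G, Full m A (centralizer ({g} : Set G)).index →
      ¬ Full m Aᶜ (centralizer ({g} : Set G)).index := by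
    intro g h1 h2
    have := full_both (Subgroup.index_ne_zero_of_finite) hm h1 h2
    exact hne g (Nat.dvd_antisymm (hdvd g) this)
  obtain ⟨Q⟩ : Nonempty (Sylow q G) := inferInstance
  obtain ⟨y, hyQ, hy1, hyc⟩ := exists_central_of_isPGroup Q.2 (sylow_ne_bot_of_dvd Q hqG)
  have hQy : (Q : Subgroup G) ≤ centralizer ({y} : Set G) := by
    intro x hx
    rw [mem_cent_singleton]
    exact (hyc x hx).symm
  have hfy : Full m A (centralizer ({y} : Set G)).index := by
    rcases hfull y hy1 with h | h
    · exact h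
    · exfalso
      have := h q hq hqm hqA
      rw [factorization_index_eq_zero_of_sylow_le Q hQy] at this
      omega
  -- general fact on p-elements centralizing y
  have hpel : ∀ w : G, w ≠ 1 → (∃ k, orderOf w = p ^ k) → w ∈ centralizer ({y} : Set G) →
      Full m A (centralizer ({w} : Set G)).index := by
    intro w hw1 ⟨k, hk⟩ hwy
    obtain ⟨l, hl⟩ := orderOf_of_mem_isPGroup Q.2 hyQ
    have hcomm : Commute w y := (mem_cent_singleton.mp hwy).symm
    have hco : (orderOf w).Coprime (orderOf y) := by
      rw [hk, hl]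
      exact Nat.Coprime.pow _ _ ((Nat.coprime_primes hp hq).mpr hpq)
    rcases hfull w hw1 with h | h
    · exact h
    · exfalso
      have h1 := cent_index_dvd_of_le (cent_mul_le_left hcomm hco)
      have h2 := cent_index_dvd_of_le (cent_mul_le_right hcomm hco)
      exact hnot (w * y) (full_mono Subgroup.index_ne_zero_of_finite h2 hfy)
        (full_mono Subgroup.index_ne_zero_of_finite h1 h)
  -- Sylow p-subgroup of the centralizer of y
  have hcy := index_factorization_add (centralizer ({y} : Set G)) p
  have hcy1 : (centralizer ({y} : Set G)).index.factorization p ≤ m.factorization p :=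
    (Nat.factorization_le_iff_dvd Subgroup.index_ne_zero_of_finite hm).mpr (hdvd y) p
  obtain ⟨S⟩ : Nonempty (Sylow p (centralizer ({y} : Set G))) := inferInstance
  set T : Subgroup G := (S : Subgroup (centralizer ({y} : Set G))).map (centralizer ({y} : Set G)).subtype
    with hT
  have hTp : IsPGroup p T := S.2.map _
  have hTcard : Nat.card T = p ^ (Nat.card (centralizer ({y} : Set G))).factorization p := by
    rw [hT, Subgroup.card_map_of_injective (Subgroup.subtype_injective _), S.card_eq_multiplicity]
  have hTle : T ≤ centralizer ({y} : Set G) := Subgroup.map_subtype_le _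
  have hTne : T ≠ ⊥ := by
    intro hbot
    rw [hbot, Subgroup.card_bot] at hTcard
    have : 1 ≤ (Nat.card (centralizer ({y} : Set G))).factorization p := by omega
    have h2 := Nat.one_lt_pow (by omega : (Nat.card (centralizer ({y} : Set G))).factorization p ≠ 0) hp.one_lt
    omega
  obtain ⟨u, huT, hu1, huc⟩ := exists_central_of_isPGroup hTp hTne
  have hfu : Full m A (centralizer ({u} : Set G)).index :=
    hpel u hu1 (orderOf_of_mem_isPGroup hTp huT) (hTle huT)
  obtain ⟨P, hTP⟩ := hTp.exists_le_sylow
  have hPne : (P : Subgroup G) ≠ ⊥ := fun h => hTne (le_bot_iff.mp (h ▸ hTP))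
  obtain ⟨z, hzP, hz1, hzc⟩ := exists_central_of_isPGroup P.2 hPne
  have hPz : (P : Subgroup G) ≤ centralizer ({z} : Set G) := by
    intro x hx
    rw [mem_cent_singleton]
    exact (hzc x hx).symm
  have hzT : z ∉ T := by
    intro hzT
    have := hpel z hz1 (orderOf_of_mem_isPGroup hTp hzT) (hTle hzT) p hp hpm hpA
    rw [factorization_index_eq_zero_of_sylow_le P hPz] at this
    omega
  -- the bigger p-group
  set U : Subgroup G := T ⊔ zpowers z with hU
  have hUP : U ≤ (P : Subgroup G) := sup_le hTP (by rwa [zpowers_le])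
  have hUu : U ≤ centralizer ({u} : Set G) := by
    refine sup_le ?_ ?_
    · intro x hx
      rw [mem_cent_singleton]
      exact (huc x hx).symm
    · rw [zpowers_le, mem_cent_singleton]
      exact hzc u (hTP huT)
  have hUp : IsPGroup p U := P.2.to_le hUP
  have hlt2 : T < U := by
    refine lt_of_le_of_ne le_sup_left ?_
    intro h
    apply hzT
    rw [h]
    exact (le_sup_right : zpowers z ≤ U) (mem_zpowers z)
  obtain ⟨n, hn⟩ := hUp.exists_card_eq
  have hcardlt : Nat.card T < Nat.card U := by
    have h1 : Nat.card T ≤ Nat.card U := Subgroup.card_le_of_le hlt2.le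
    rcases h1.lt_or_eq with h | h
    · exact h
    · exact absurd (Subgroup.eq_of_le_of_card_ge hlt2.le h.ge) hlt2.ne
  rw [hTcard, hn] at hcardlt
  have hn2 := (Nat.pow_lt_pow_iff_right hp.one_lt).mp hcardlt
  have hdvd2 : p ^ n ∣ Nat.card (centralizer ({u} : Set G)) := by
    rw [← hn]; exact Subgroup.card_dvd_of_le hUu
  have hn3 : n ≤ (Nat.card (centralizer ({u} : Set G))).factorization p :=
    (hp.pow_dvd_iff_le_factorization Nat.card_pos.ne').mp hdvd2
  have hcu := index_factorization_add (centralizer ({u} : Set G)) p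
  have h3 := hfu p hp hpm hpA
  omega

/-- Let G and M be finite groups with trivial centres and the same set of conjugacy class sizes, and suppose the prime graph of M is disconnected: the prime divisors of #M split into two non-empty parts such that M has no element of order pq with p in one part and q in the other. Then #G = #M. -/
theorem result {G M : Type*}
    [Group G] [Finite G] [Group M] [Finite M] (hZG : Subgroup.center G = ⊥) (hZM : Subgroup.center M = ⊥)
    (h : Set.range (fun g : G => (Subgroup.centralizer ({g} : Set G)).index) = Set.range (fun g : M => (Subgroup.centralizer ({g} : Set M)).index))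
    (hdisc : ∃ A : Set ℕ, (∃ a ∈ A, a.Prime ∧ a ∣ Nat.card M) ∧ (∃ b ∉ A, b.Prime ∧ b ∣ Nat.card M) ∧
      ∀ a ∈ A, ∀ b ∉ A, a.Prime → b.Prime → a ∣ Nat.card M → b ∣ Nat.card M → ¬ ∃ x : M, orderOf x = a * b) :
    Nat.card G = Nat.card M := by
  obtain ⟨A, ⟨a, haA, ha, haM⟩, ⟨b, hbA, hb, hbM⟩, hdisc⟩ := hdisc
  have hm : Nat.card M ≠ 0 := Nat.card_pos.ne'
  -- transfer of class sizes
  have hGM : ∀ g : G, ∃ x : M, (centralizer ({x} : Set M)).index = (centralizer ({g} : Set G)).index := by
    intro g
    have : (centralizer ({g} : Set G)).index ∈ Set.range (fun g : G => (centralizer ({g} : Set G)).index) := ⟨g, rfl⟩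
    rw [h] at this
    exact this
  have hMG : ∀ x : M, ∃ g : G, (centralizer ({g} : Set G)).index = (centralizer ({x} : Set M)).index := by
    intro x
    have : (centralizer ({x} : Set M)).index ∈ Set.range (fun g : M => (centralizer ({g} : Set M)).index) := ⟨x, rfl⟩
    rw [← h] at this
    exact this
  have hdvd : ∀ g : G, (centralizer ({g} : Set G)).index ∣ Nat.card M := by
    intro g
    obtain ⟨x, hx⟩ := hGM g
    rw [← hx]
    exact Subgroup.index_dvd_card _
  have hcardM : 1 < Nat.card M := (ha.one_lt).trans_le (Nat.le_of_dvd Nat.card_pos haM)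
  have hne : ∀ g : G, (centralizer ({g} : Set G)).index ≠ Nat.card M := by
    intro g hg
    obtain ⟨x, hx⟩ := hGM g
    rw [← hx] at hg
    have h1 : Nat.card (centralizer ({x} : Set M)) = 1 := by
      have := (centralizer ({x} : Set M)).card_mul_index
      rw [hg] at this
      exact Nat.eq_of_mul_eq_mul_right Nat.card_pos (this.trans (one_mul _).symm)
    have h2 : centralizer ({x} : Set M) = ⊥ := Subgroup.card_eq_one.mp h1
    have h3 : x ∈ centralizer ({x} : Set M) := by rw [mem_cent_singleton]
    rw [h2, mem_bot] at h3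
    rw [h3, cent_one] at h2
    have h4 : Nat.card M = 1 := by
      rw [← Subgroup.card_top (G := M), h2, Subgroup.card_bot]
    omega
  have hcent1 : ∀ g : G, g ≠ 1 → (centralizer ({g} : Set G)).index ≠ 1 := by
    intro g hg h1
    rw [Subgroup.index_eq_one, cent_eq_top_iff, hZG, mem_bot] at h1
    exact hg h1
  have hfull : ∀ g : G, g ≠ 1 → Full (Nat.card M) A (centralizer ({g} : Set G)).index ∨
      Full (Nat.card M) Aᶜ (centralizer ({g} : Set G)).index := by
    intro g hg
    obtain ⟨x, hx⟩ := hGM g
    rw [← hx]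
    apply claim1 hdisc
    rintro rfl
    rw [cent_one, Subgroup.index_top] at hx
    exact hcent1 g hg hx.symm
  -- |M| divides |G| prime by prime
  have hMle : ∀ p : ℕ, p.Prime → p ∣ Nat.card M →
      (Nat.card M).factorization p ≤ (Nat.card G).factorization p := by
    intro p hp hpM
    have hex : ∃ x : M, Full (Nat.card M) {p} (centralizer ({x} : Set M)).index := by
      by_cases hpA : p ∈ A
      · haveI : Fact b.Prime := ⟨hb⟩
        obtain ⟨x, hx⟩ := exists_prime_orderOf_dvd_card' b hbM
        refine ⟨x, ?_⟩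
        have := full_of_prime_dvd (A := Aᶜ) (M := M) (x := x) (p := b) ?_ hb hbA (by rw [hx])
        · rw [compl_compl] at this
          intro q hq hqM hqp
          rw [Set.mem_singleton_iff] at hqp
          subst hqp
          exact this q hq hqM hpA
        · intro a' ha' b' hb' ha'' hb'' haM hbM hex
          rw [Set.mem_compl_iff, not_not] at hb'
          obtain ⟨y, hy⟩ := hex
          exact hdisc b' hb' a' ha' hb'' ha'' hbM haM ⟨y, by rw [hy, mul_comm]⟩
      · haveI : Fact a.Prime := ⟨ha⟩
        obtain ⟨x, hx⟩ := exists_prime_orderOf_dvd_card' a haM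
        refine ⟨x, ?_⟩
        have := full_of_prime_dvd (A := A) (M := M) (x := x) (p := a) hdisc ha haA (by rw [hx])
        intro q hq hqM hqp
        rw [Set.mem_singleton_iff] at hqp
        subst hqp
        exact this q hq hqM hpA
    obtain ⟨x, hx⟩ := hex
    obtain ⟨g, hg⟩ := hMG x
    have h1 := hx p hp hpM rfl
    rw [← hg] at h1
    have h2 := index_factorization_add (centralizer ({g} : Set G)) p
    omega
  have hdvdG : ∀ p : ℕ, p.Prime → p ∣ Nat.card M → p ∣ Nat.card G := by
    intro p hp hpM
    have h1 := hMle p hp hpM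
    have h2 := (hp.dvd_iff_one_le_factorization hm).mp hpM
    exact (hp.dvd_iff_one_le_factorization Nat.card_pos.ne').mpr (h2.trans h1)
  -- equality
  refine Nat.eq_of_factorization_eq Nat.card_pos.ne' hm ?_
  intro p
  by_cases hp : p.Prime
  swap
  · rw [Nat.factorization_eq_zero_of_not_prime _ hp, Nat.factorization_eq_zero_of_not_prime _ hp]
  by_cases hpM : p ∣ Nat.card M
  · refine le_antisymm ?_ (hMle p hp hpM)
    by_cases hpA : p ∈ A
    · exact key hm hdvd hne hfull hb hbA hbM (hdvdG b hb hbM) hp hpA hpM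
    · refine key (A := Aᶜ) hm hdvd hne ?_ ha (by simpa using haA) haM (hdvdG a ha haM) hp hpA hpM
      intro g hg
      rw [compl_compl]
      exact (hfull g hg).symm
  · rw [Nat.factorization_eq_zero_of_not_dvd hpM]
    by_contra hne0
    haveI : Fact p.Prime := ⟨hp⟩
    have hpG : p ∣ Nat.card G := (hp.dvd_iff_one_le_factorization Nat.card_pos.ne').mpr (by omega)
    obtain ⟨P⟩ : Nonempty (Sylow p G) := inferInstance
    have hcen := sylow_le_center_of_forall_not_dvd
      (fun g hd => hpM (hd.trans (hdvd g))) P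
    rw [hZG, le_bot_iff] at hcen
    exact sylow_ne_bot_of_dvd P hpG hcen

end Cfsg.Agent.S4184
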