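import Cfsg.Statements.S4186
-- import your own Cfsg.Agent.* helpers here

set_option autoImplicit false
open Cfsg

namespace Cfsg.Agent.S4186

/-- Let T and X be subgroups of a group with T a finite 2-group normalizing X but not centralizing it. Then some element of T inverts some non-identity element of X under conjugation. -/
theorem result {G : Type*} [Group G] (T X : Subgroup G) [Finite ↥T] (hT : IsPGroup 2 ↥T) (hTN : T ≤ Subgroup.normalizer (X : Set G)) (hTC : ¬ T ≤ Subgroup.centralizer (X : Set G)) : ∃ t ∈ T, ∃ x ∈ X, x ≠ 1 ∧ t * x * t⁻¹ = x⁻¹ := by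
  have key : ∀ n : ℕ, ∀ t ∈ T, t ^ (2 ^ n) = 1 → t ∉ Subgroup.centralizer (X : Set G) →
      ∃ s ∈ T, s ∉ Subgroup.centralizer (X : Set G) ∧ s ^ 2 ∈ Subgroup.centralizer (X : Set G) := by
    intro n
    induction n with
    | zero =>
      intro t _ h1 h2
      exfalso
      apply h2
      have : t = 1 := by simpa using h1
      rw [this]
      exact one_mem _
    | succ n ih =>
      intro t ht h1 h2
      by_cases h3 : t ^ 2 ∈ Subgroup.centralizer (X : Set G)
      · exact ⟨t, ht, h2, h3⟩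
      · refine ih (t ^ 2) (pow_mem ht 2) ?_ h3
        rw [← pow_mul, ← pow_succ']
        exact h1
  obtain ⟨t, ht, htc⟩ := SetLike.not_le_iff_exists.mp hTC
  obtain ⟨n, hn⟩ := hT ⟨t, ht⟩
  have hn' : t ^ (2 ^ n) = 1 := by
    have := congrArg Subtype.val hn
    simpa using this
  obtain ⟨s, hs, hsc, hs2⟩ := key n t ht hn' htc
  have hsc' : ∃ x ∈ X, x * s ≠ s * x := by
    by_contra hcon
    push Not at hcon
    exact hsc (Subgroup.mem_centralizer_iff.mpr hcon)
  obtain ⟨x, hx, hxs⟩ := hsc'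
  have hsX : s * x * s⁻¹ ∈ X := ((Subgroup.mem_normalizer_iff.mp (hTN hs)) x).mp hx
  refine ⟨s, hs, x⁻¹ * (s * x * s⁻¹), mul_mem (inv_mem hx) hsX, ?_, ?_⟩
  · intro h
    apply hxs
    have h1 : s * x * s⁻¹ = x := by
      have := inv_mul_eq_one.mp h
      exact this.symm
    calc x * s = (s * x * s⁻¹) * s := by rw [h1]
      _ = s * x := by group
  · have h2 := Subgroup.mem_centralizer_iff.mp hs2 x hx
    have h3 : s * (s * x * s⁻¹) * s⁻¹ = x := by
      calc s * (s * x * s⁻¹) * s⁻¹ = (s ^ 2 * x) * (s ^ 2)⁻¹ := by rw [pow_two]; group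
        _ = (x * s ^ 2) * (s ^ 2)⁻¹ := by rw [h2]
        _ = x := by group
    calc s * (x⁻¹ * (s * x * s⁻¹)) * s⁻¹ = s * x⁻¹ * s⁻¹ * (s * (s * x * s⁻¹) * s⁻¹) := by group
      _ = s * x⁻¹ * s⁻¹ * x := by rw [h3]
      _ = (x⁻¹ * (s * x * s⁻¹))⁻¹ := by group

end Cfsg.Agent.S4186
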