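import Cfsg.Statements.S4187
import Cfsg.Agent.H70.RealGraph
import Cfsg.Agent.FT.Base

set_option autoImplicit false
open Cfsg

namespace Cfsg.Agent.S4187

section
variable {G : Type*} [Group G] [Finite G]

theorem solv_quot (N : Subgroup G) [N.Normal] (h1 : Group.IsSolvable N)
    (h2 : Group.IsSolvable (G ⧸ N)) : Group.IsSolvable G := by
  haveI := h1
  haveI := h2
  exact Group.isSolvable_of_ker_le_range N.subtype (QuotientGroup.mk' N) (by simp)

theorem solv_rel (N C : Subgroup G) [hN : N.Normal] (hNC : N ≤ C) (h1 : Group.IsSolvable N)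
    (h2 : Group.IsSolvable (C ⧸ N.subgroupOf C)) : Group.IsSolvable C := by
  apply solv_quot (N.subgroupOf C) _ h2
  haveI := h1
  exact Group.isSolvable_of_isSolvable_injective (f := (Subgroup.subgroupOfEquivOfLe hNC).toMonoidHom)
    (Subgroup.subgroupOfEquivOfLe hNC).injective

theorem solv_two (N : Subgroup G) (h : IsPGroup 2 N) : Group.IsSolvable N := by
  haveI : Fact (Nat.Prime 2) := ⟨Nat.prime_two⟩
  haveI := h.isNilpotent
  infer_instance

theorem solv_of_sylow_le (M : Subgroup G) [M.Normal] (P : Sylow 2 G) (hP : P ≤ M)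
    (hM : Group.IsSolvable M) : Group.IsSolvable G := by
  haveI : Fact (Nat.Prime 2) := ⟨Nat.prime_two⟩
  apply solv_quot M hM
  apply Cfsg.Agent.FT.solvable_of_odd
  rw [← Nat.not_even_iff_odd, even_iff_two_dvd, ← Subgroup.index_eq_card]
  intro hd
  exact P.not_dvd_index (hd.trans (Subgroup.index_dvd_of_le hP))

open Subgroup Cfsg.Agent.H70 in
theorem aux_core {π₁ π₂ : Set ℕ} (hd : Disjoint π₁ π₂)
    (h2 : 2 ∉ π₂)
    (hdich : ∀ x g : G, g * x * g⁻¹ = x⁻¹ →
      PiN π₁ (centralizer ({x} : Set G)).index ∨ PiN π₂ (centralizer ({x} : Set G)).index)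
    {x₂ g₂ : G} (hx₂ : g₂ * x₂ * g₂⁻¹ = x₂⁻¹)
    (hn : ¬ PiN π₁ (centralizer ({x₂} : Set G)).index) : Group.IsSolvable G := by
  haveI : Fact (Nat.Prime 2) := ⟨Nat.prime_two⟩
  by_cases hP : ∀ P : Sylow 2 G, (P : Subgroup G).Normal
  · let P : Sylow 2 G := default
    haveI := hP P
    exact solv_of_sylow_le P P le_rfl (solv_two _ P.2)
  have hR : RHyp G π₁ π₂ := ⟨hd, h2, hdich⟩
  have hy : PiN π₂ (centralizer ({x₂} : Set G)).index := (hdich _ _ hx₂).resolve_left hn
  have hyc : x₂ ∉ center G := by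
    intro hc
    apply hn
    intro p hp hpd
    rw [Cfsg.Agent.H72.Cx_index_eq_one_iff.2 hc] at hpd
    exact absurd (Nat.dvd_one.1 hpd) hp.one_lt.ne'
  have hb : ∃ b g : G, Odd (orderOf b) ∧ b ≠ 1 ∧ g * b * g⁻¹ = b⁻¹ := by
    by_contra hcon
    push Not at hcon
    apply hP
    intro P
    apply Cfsg.Agent.H67.sylow_two_normal_of_no_odd_real
    intro x g hx hg
    by_contra hx1
    exact hcon x g hx hx1 hg
  rcases hR.struct hx₂ hy hyc hb with ⟨A, P, hAn, hAc, -, hAP⟩ |
    ⟨O, N, C, hOn, hOp, hNn, hCn, hON, hNC, hN2, -, hab, hidx⟩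
  · apply solv_of_sylow_le (A ⊔ (P : Subgroup G)) P le_sup_right
    apply solv_rel A _ le_sup_left
    · exact Group.isSolvable_of_comm fun a b => Subtype.ext (hAc a a.2 b b.2)
    · have h1 : IsPGroup 2 ((A ⊔ (P : Subgroup G) : Subgroup G) ⧸
          A.subgroupOf (A ⊔ (P : Subgroup G))) := by
        have h3 : Nat.card ((A ⊔ (P : Subgroup G) : Subgroup G) ⧸
            A.subgroupOf (A ⊔ (P : Subgroup G))) = A.relIndex (P : Subgroup G) := by
          rw [← relIndex_sup_left]; rfl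
        obtain ⟨n, hn⟩ := P.2.exists_card_eq
        have h4 : A.relIndex (P : Subgroup G) ∣ Nat.card (P : Subgroup G) := relIndex_dvd_card _ _
        rw [hn] at h4
        obtain ⟨m, -, hm⟩ := (Nat.dvd_prime_pow Nat.prime_two).1 h4
        exact IsPGroup.of_card (h3.trans hm)
      haveI := h1.isNilpotent
      infer_instance
  · apply solv_quot C
    · apply solv_rel N C hNC
      · apply solv_rel O N hON (solv_two O hOp)
        apply Cfsg.Agent.FT.solvable_of_odd
        rw [← Nat.not_even_iff_odd, even_iff_two_dvd]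
        intro hd
        obtain ⟨q, hq⟩ := exists_prime_orderOf_dvd_card' (G := N ⧸ O.subgroupOf N) 2 hd
        obtain ⟨n, rfl⟩ := QuotientGroup.mk'_surjective (O.subgroupOf N) q
        obtain ⟨i, j, hij, ⟨k, hk⟩, hj⟩ := exists_two_odd n
        have h3 : n ^ i ∈ O.subgroupOf N := by
          rw [mem_subgroupOf]
          exact hN2 _ (n ^ i).2 ⟨k, congrArg Subtype.val hk⟩
        have h4 : QuotientGroup.mk' (O.subgroupOf N) n =
            QuotientGroup.mk' (O.subgroupOf N) (n ^ j) := by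
          conv_lhs => rw [hij]
          rw [map_mul]
          have h5 : QuotientGroup.mk' (O.subgroupOf N) (n ^ i) = 1 := by
            rw [QuotientGroup.mk'_apply, QuotientGroup.eq_one_iff]; exact h3
          rw [h5, one_mul]
        rw [h4] at hq
        have h5 := orderOf_map_dvd (QuotientGroup.mk' (O.subgroupOf N)) (n ^ j)
        rw [hq] at h5
        rw [← Nat.not_even_iff_odd, even_iff_two_dvd] at hj
        exact hj h5
      · apply Cfsg.Agent.FT.solvable_of_odd
        rw [← Nat.not_even_iff_odd, even_iff_two_dvd]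
        intro hd
        exact h2 (hidx 2 Nat.prime_two hd)
    · apply Group.isSolvable_of_comm
      intro a b
      obtain ⟨a, rfl⟩ := QuotientGroup.mk'_surjective C a
      obtain ⟨b, rfl⟩ := QuotientGroup.mk'_surjective C b
      have h6 := hab a b
      rw [← QuotientGroup.eq_one_iff, ← QuotientGroup.mk'_apply, map_mul, map_mul, map_mul,
        map_inv, map_inv, mul_inv_eq_one, mul_inv_eq_iff_eq_mul] at h6
      exact h6

end

/-- Let G be a finite group. Call an element real when it is conjugate to its inverse, and consider the graph whose vertices are the primes dividing the size of some conjugacy class of real elements, two distinct primes being adjacent when their product divides such a class size. If this graph is disconnected — its vertex set splits into two non-empty parts such that no real class size is divisible by a prime from each part — then G is solvable. -/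
theorem result {G : Type*} [Group G] [Finite G] (π₁ π₂ : Set ℕ) (h₁ : π₁.Nonempty) (h₂ : π₂.Nonempty) (hcover : ∀ q : ℕ, q.Prime → (∃ n ∈ {n : ℕ | ∃ x : G, IsConj x x⁻¹ ∧ (Subgroup.centralizer ({x} : Set G)).index = n}, q ∣ n) → q ∈ π₁ ∨ q ∈ π₂) (hsub : ∀ q ∈ π₁ ∪ π₂, q.Prime ∧ ∃ n ∈ {n : ℕ | ∃ x : G, IsConj x x⁻¹ ∧ (Subgroup.centralizer ({x} : Set G)).index = n}, q ∣ n) (hdisj : Disjoint π₁ π₂) (hnoedge : ∀ a ∈ π₁, ∀ b ∈ π₂, ∀ n ∈ {n : ℕ | ∃ x : G, IsConj x x⁻¹ ∧ (Subgroup.centralizer ({x} : Set G)).index = n}, ¬ (a ∣ n ∧ b ∣ n)) : Group.IsSolvable G := by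
  have hdich : ∀ x g : G, g * x * g⁻¹ = x⁻¹ →
      H70.PiN π₁ (Subgroup.centralizer ({x} : Set G)).index ∨
      H70.PiN π₂ (Subgroup.centralizer ({x} : Set G)).index := by
    intro x g hg
    by_contra hcon
    push Not at hcon
    obtain ⟨c1, c2⟩ := hcon
    simp only [H70.PiN] at c1 c2
    push Not at c1 c2
    obtain ⟨p, hp, hpd, hp1⟩ := c1
    obtain ⟨q, hq, hqd, hq2⟩ := c2
    have hmem : (Subgroup.centralizer ({x} : Set G)).index ∈ {n : ℕ | ∃ x : G, IsConj x x⁻¹ ∧ (Subgroup.centralizer ({x} : Set G)).index = n} :=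
      ⟨x, isConj_iff.2 ⟨g, hg⟩, rfl⟩
    have hp2 : p ∈ π₂ := (hcover p hp ⟨_, hmem, hpd⟩).resolve_left hp1
    have hq1 : q ∈ π₁ := (hcover q hq ⟨_, hmem, hqd⟩).resolve_right hq2
    exact hnoedge q hq1 p hp2 _ hmem ⟨hqd, hpd⟩
  obtain ⟨a, ha⟩ := h₁
  obtain ⟨b, hb⟩ := h₂
  obtain ⟨hap, _, ⟨x₁, hx₁, rfl⟩, had⟩ := hsub a (Or.inl ha)
  obtain ⟨hbp, _, ⟨x₂, hx₂, rfl⟩, hbd⟩ := hsub b (Or.inr hb)
  obtain ⟨g₁, hg₁⟩ := isConj_iff.1 hx₁
  obtain ⟨g₂, hg₂⟩ := isConj_iff.1 hx₂
  have hN1 : ¬ H70.PiN π₂ (Subgroup.centralizer ({x₁} : Set G)).index := fun hc =>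
    Set.disjoint_left.1 hdisj ha (hc a hap had)
  have hN2 : ¬ H70.PiN π₁ (Subgroup.centralizer ({x₂} : Set G)).index := fun hc =>
    Set.disjoint_left.1 hdisj (hc b hbp hbd) hb
  by_cases h2 : 2 ∈ π₂
  · have h21 : 2 ∉ π₁ := fun hc => Set.disjoint_left.1 hdisj hc h2
    exact aux_core hdisj.symm h21 (fun x g hg => (hdich x g hg).symm) hg₁ hN1
  · exact aux_core hdisj h2 hdich hg₂ hN2

end Cfsg.Agent.S4187
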