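import Cfsg.Statements.S4188
import Cfsg.Agent.Frob.Action
import Cfsg.Agent.H23.PGroupNormal
import Cfsg.Agent.Solv.MinNormal
import Cfsg.Agent.Solv.Frattini

set_option autoImplicit false
open Cfsg

namespace Cfsg.Agent.S4188

open Cfsg.Agent
open scoped commutatorElement

theorem frat_index_le {P : Type*} [Group P] [Finite P] (hP : IsPGroup 2 P) (K : Subgroup P)
    [K.Normal] :
    (frattini P).index ≤ (frattini (P ⧸ K)).index * (frattini K).index := by
  haveI : Fact (Nat.Prime 2) := ⟨Nat.prime_two⟩
  have h1 : (frattini P).relIndex (K ⊔ frattini P) * (K ⊔ frattini P).index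
      = (frattini P).index := Subgroup.relIndex_mul_index le_sup_right
  have h2 : (frattini P).relIndex (K ⊔ frattini P) = (frattini P).relIndex K := by
    rw [sup_comm]
    exact Subgroup.relIndex_sup_left _ _
  have h3 : frattini K ≤ (frattini P).subgroupOf K := by
    apply Solv.frattini_le_of_elementary_quotient (p := 2)
    · rw [commutator_def, Subgroup.commutator_le]
      intro a _ b _
      have := Solv.commutator_le_frattini_of_pGroup hP
      apply this
      rw [commutator_def]
      exact Subgroup.commutator_mem_commutator (Subgroup.mem_top _) (Subgroup.mem_top _)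
    · intro x
      exact Solv.pow_mem_frattini_of_pGroup hP (x : P)
  have h4 : (frattini P).relIndex K ≤ (frattini K).index := by
    have := Subgroup.index_dvd_of_le h3
    exact Nat.le_of_dvd (Nat.pos_of_ne_zero Subgroup.index_ne_zero_of_finite) this
  have h5 : frattini (P ⧸ K) ≤ (K ⊔ frattini P).map (QuotientGroup.mk' K) := by
    haveI : (K ⊔ frattini P).Normal := Subgroup.sup_normal _ _
    haveI : ((K ⊔ frattini P).map (QuotientGroup.mk' K)).Normal :=
      Subgroup.Normal.map inferInstance _ (QuotientGroup.mk'_surjective _)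
    apply Solv.frattini_le_of_elementary_quotient (p := 2)
    · rw [commutator_def, Subgroup.commutator_le]
      intro a _ b _
      obtain ⟨a, rfl⟩ := QuotientGroup.mk'_surjective K a
      obtain ⟨b, rfl⟩ := QuotientGroup.mk'_surjective K b
      refine ⟨⁅a, b⁆, ?_, map_commutatorElement _ _ _⟩
      apply (le_sup_right : frattini P ≤ K ⊔ frattini P)
      apply Solv.commutator_le_frattini_of_pGroup hP
      rw [commutator_def]
      exact Subgroup.commutator_mem_commutator (Subgroup.mem_top _) (Subgroup.mem_top _)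
    · intro x
      obtain ⟨a, rfl⟩ := QuotientGroup.mk'_surjective K x
      refine ⟨a ^ 2, ?_, map_pow _ _ _⟩
      exact (le_sup_right : frattini P ≤ K ⊔ frattini P) (Solv.pow_mem_frattini_of_pGroup hP a)
  have h6 : (K ⊔ frattini P).index ≤ (frattini (P ⧸ K)).index := by
    have h7 := Subgroup.index_dvd_of_le h5
    have h8 : ((K ⊔ frattini P).map (QuotientGroup.mk' K)).index = (K ⊔ frattini P).index := by
      rw [Subgroup.index_map, QuotientGroup.ker_mk', sup_comm (K ⊔ frattini P) K, ← sup_assoc,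
        sup_idem, MonoidHom.range_eq_top.mpr (QuotientGroup.mk'_surjective _), Subgroup.index_top,
        mul_one]
    rw [h8] at h7
    exact Nat.le_of_dvd (Nat.pos_of_ne_zero Subgroup.index_ne_zero_of_finite) h7
  rw [← h1, h2, mul_comm]
  exact Nat.mul_le_mul h6 h4

theorem frat_index_le_card {P : Type*} [Group P] [Finite P] :
    (frattini P).index ≤ Nat.card P := by
  exact Nat.le_of_dvd Nat.card_pos (Subgroup.index_dvd_card _)

theorem frat_index_cyclic {A : Type*} [Group A] [Finite A] [hc : IsCyclic A] (hA : IsPGroup 2 A) :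
    (frattini A).index ≤ 2 := by
  haveI : Fact (Nat.Prime 2) := ⟨Nat.prime_two⟩
  obtain ⟨a, ha⟩ := hc.exists_generator
  obtain ⟨n, hn⟩ := hA.index (frattini A)
  have h1 : Subgroup.closure ({a} : Set A) = ⊤ := by
    rw [← Subgroup.zpowers_eq_closure, Subgroup.eq_top_iff']
    exact ha
  have h2 := (Solv.burnside_basis hA hn {a} h1).2
  rw [Set.ncard_singleton] at h2
  rw [hn]
  calc 2 ^ n ≤ 2 ^ 1 := Nat.pow_le_pow_right (by norm_num) h2
    _ = 2 := by norm_num

section act

variable {V : Type*} [CommGroup V] {P : Type*} [Group P]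

theorem act_mul (φ : P →* MulAut V) (a b : P) (v : V) : φ (a * b) v = φ a (φ b v) := by
  rw [map_mul]; rfl

theorem act_one (φ : P →* MulAut V) (v : V) : φ 1 v = v := by
  rw [map_one]; rfl

theorem act_inv_self (φ : P →* MulAut V) (a : P) (v : V) : φ a⁻¹ (φ a v) = v := by
  rw [← act_mul, inv_mul_cancel, act_one]

theorem act_self_inv (φ : P →* MulAut V) (a : P) (v : V) : φ a (φ a⁻¹ v) = v := by
  rw [← act_mul, mul_inv_cancel, act_one]

/-- restriction to an invariant subgroup -/
def res (φ : P →* MulAut V) (U : Subgroup V) (hU : ∀ g : P, ∀ u ∈ U, φ g u ∈ U) :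
    P →* MulAut U where
  toFun g :=
    { toFun := fun u => ⟨φ g u, hU g u u.2⟩
      invFun := fun u => ⟨φ g⁻¹ u, hU g⁻¹ u u.2⟩
      left_inv := fun u => Subtype.ext (act_inv_self φ g u)
      right_inv := fun u => Subtype.ext (act_self_inv φ g u)
      map_mul' := fun u v => Subtype.ext (map_mul (φ g) (u : V) (v : V)) }
  map_one' := by
    ext u
    exact act_one φ u
  map_mul' := fun a b => by
    ext u
    exact act_mul φ a b u

theorem res_apply (φ : P →* MulAut V) (U : Subgroup V) (hU : ∀ g : P, ∀ u ∈ U, φ g u ∈ U)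
    (g : P) (u : U) : ((res φ U hU g u : U) : V) = φ g u := rfl

/-- action on the quotient by an invariant subgroup -/
def quo (φ : P →* MulAut V) (U : Subgroup V) (hU : ∀ g : P, ∀ u ∈ U, φ g u ∈ U) :
    P →* MulAut (V ⧸ U) where
  toFun g :=
    { toFun := QuotientGroup.map U U (φ g).toMonoidHom (fun u hu => hU g u hu)
      invFun := QuotientGroup.map U U (φ g⁻¹).toMonoidHom (fun u hu => hU g⁻¹ u hu)
      left_inv := fun u => by
        induction u using QuotientGroup.induction_on with
        | H v => exact congrArg (QuotientGroup.mk) (act_inv_self φ g v)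
      right_inv := fun u => by
        induction u using QuotientGroup.induction_on with
        | H v => exact congrArg (QuotientGroup.mk) (act_self_inv φ g v)
      map_mul' := fun u v => map_mul _ u v }
  map_one' := by
    ext u
    induction u using QuotientGroup.induction_on with
    | H v => exact congrArg (QuotientGroup.mk) (act_one φ v)
  map_mul' := fun a b => by
    ext u
    induction u using QuotientGroup.induction_on with
    | H v => exact congrArg (QuotientGroup.mk) (act_mul φ a b v)

theorem quo_apply (φ : P →* MulAut V) (U : Subgroup V) (hU : ∀ g : P, ∀ u ∈ U, φ g u ∈ U)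
    (g : P) (v : V) : quo φ U hU g (v : V ⧸ U) = ((φ g v : V) : V ⧸ U) := rfl

/-- coprime trick: an element of 2-power order acting trivially on `U` and on `V ⧸ U` is trivial -/
theorem eq_of_triv_triv [Finite V] (hV : Odd (Nat.card V)) (hP : IsPGroup 2 P)
    (φ : P →* MulAut V) (U : Subgroup V) (g : P) (h1 : ∀ u ∈ U, φ g u = u)
    (h2 : ∀ v : V, v⁻¹ * φ g v ∈ U) (v : V) : φ g v = v := by
  set u := v⁻¹ * φ g v with hu
  have h3 : φ g v = v * u := by rw [hu]; group
  have h4 : ∀ k : ℕ, φ (g ^ k) v = v * u ^ k := by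
    intro k
    induction k with
    | zero => rw [pow_zero, pow_zero, mul_one, act_one]
    | succ k ih =>
      rw [pow_succ', act_mul, ih, map_mul, map_pow, h1 u (h2 v), h3, mul_assoc, ← pow_succ']
  obtain ⟨m, hm⟩ := hP g
  have h5 := h4 (2 ^ m)
  rw [hm, act_one] at h5
  have h6 : u ^ (2 ^ m) = 1 := by
    have := h5.symm
    rwa [mul_eq_left] at this
  have h7 : u = 1 := by
    have h8 : orderOf u ∣ 2 ^ m := orderOf_dvd_of_pow_eq_one h6
    have h9 : orderOf u ∣ Nat.card V := orderOf_dvd_natCard u
    have h10 : Nat.Coprime (2 ^ m) (Nat.card V) := by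
      apply Nat.Coprime.pow_left
      rw [Nat.coprime_two_left]
      exact hV
    have h11 : orderOf u = 1 := Nat.eq_one_of_dvd_coprimes h10 h8 h9
    exact orderOf_eq_one_iff.mp h11
  rw [h3, h7, mul_one]

theorem eq_one_of_inv_eq [Finite V] (hV : Odd (Nat.card V)) (v : V) (h : v⁻¹ = v) : v = 1 := by
  have h1 : v ^ 2 = 1 := by
    rw [pow_two]
    nth_rewrite 1 [← h]
    exact inv_mul_cancel v
  have h8 : orderOf v ∣ 2 := orderOf_dvd_of_pow_eq_one h1
  have h9 : orderOf v ∣ Nat.card V := orderOf_dvd_natCard v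
  have h10 : Nat.Coprime 2 (Nat.card V) := by
    rw [Nat.coprime_two_left]
    exact hV
  exact orderOf_eq_one_iff.mp (Nat.eq_one_of_dvd_coprimes h10 h8 h9)

end act

/-- the fixed points of `g` -/
def fix {V : Type*} [CommGroup V] {P : Type*} [Group P] (φ : P →* MulAut V) (g : P) :
    Subgroup V where
  carrier := {v | φ g v = v}
  mul_mem' := by
    intro a b ha hb
    simp only [Set.mem_setOf_eq] at ha hb ⊢
    rw [map_mul, ha, hb]
  one_mem' := map_one _
  inv_mem' := by
    intro a ha
    simp only [Set.mem_setOf_eq] at ha ⊢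
    rw [map_inv, ha]

/-- reducible case -/
theorem red_case {V : Type*} {P : Type*} [CommGroup V] [Finite V] [Group P] [Finite P]
    (φ : P →* MulAut V) (hφ : Function.Injective φ) (hP : IsPGroup 2 P) (hodd : Odd (Nat.card V))
    (U : Subgroup V) (hU : ∀ g : P, ∀ u ∈ U, φ g u ∈ U) (a b : ℕ)
    (ha : Nat.card U = a) (hb : U.index = b) 
    (ih1 : 2 * Nat.card (P ⧸ (res φ U hU).ker) + 1 ≤ a ^ 2 ∧
      (frattini (P ⧸ (res φ U hU).ker)).index + 1 ≤ a)
    (ih2 : ∀ ψ : (res φ U hU).ker →* MulAut (V ⧸ U), Function.Injective ψ → 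
      2 * Nat.card ((res φ U hU).ker) + 1 ≤ b ^ 2 ∧
      (frattini ((res φ U hU).ker)).index + 1 ≤ b) :
    2 * Nat.card P + 1 ≤ (a * b) ^ 2 ∧ (frattini P).index + 1 ≤ a * b := by
  set K := (res φ U hU).ker with hK
  have hinj : Function.Injective ((quo φ U hU).comp K.subtype) := by
    rw [injective_iff_map_eq_one]
    intro g hg
    have h1 : ∀ u ∈ U, φ (g : P) u = u := by
      intro u hu
      have h2 : res φ U hU (g : P) = 1 := g.2
      have h3 := congrArg (fun e : MulAut U => ((e ⟨u, hu⟩ : U) : V)) h2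
      exact h3
    have h2 : ∀ v : V, v⁻¹ * φ (g : P) v ∈ U := by
      intro v
      rw [← QuotientGroup.eq]
      have h3 := congrArg (fun e : MulAut (V ⧸ U) => e (v : V ⧸ U)) hg
      exact h3.symm
    have h3 := eq_of_triv_triv hodd hP φ U (g : P) h1 h2
    have h4 : φ (g : P) = φ 1 := by
      ext v
      rw [h3 v, act_one]
    exact Subtype.ext (hφ h4)
  obtain ⟨h1, h2⟩ := ih2 _ hinj
  obtain ⟨h3, h4⟩ := ih1
  have h5 := frat_index_le hP K
  have h6 : Nat.card P = Nat.card (P ⧸ K) * Nat.card K := Subgroup.card_eq_card_quotient_mul_card_subgroup K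
  have h7 : 0 < Nat.card (P ⧸ K) := Nat.card_pos
  have h8 : 0 < Nat.card K := Nat.card_pos
  have h9 : 0 < (frattini K).index := Nat.pos_of_ne_zero Subgroup.index_ne_zero_of_finite
  have h10 : 0 < (frattini (P ⧸ K)).index := Nat.pos_of_ne_zero Subgroup.index_ne_zero_of_finite
  constructor
  · rw [h6]
    have h11 : (2 * Nat.card (P ⧸ K)) * (2 * Nat.card K) + (2 * Nat.card (P ⧸ K)) + (2 * Nat.card K) + 1 
        = (2 * Nat.card (P ⧸ K) + 1) * (2 * Nat.card K + 1) := by ring
    have h12 : (2 * Nat.card (P ⧸ K) + 1) * (2 * Nat.card K + 1) ≤ a ^ 2 * b ^ 2 := Nat.mul_le_mul h3 h1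
    rw [mul_pow]
    have h13 : 0 < Nat.card (P ⧸ K) * Nat.card K := Nat.mul_pos h7 h8
    nlinarith
  · have h12 : ((frattini (P ⧸ K)).index + 1) * ((frattini K).index + 1) ≤ a * b :=
      Nat.mul_le_mul h4 h2
    nlinarith

universe u₁ u₂

section irr

variable {V : Type u₁} {P : Type u₂} [CommGroup V] [Finite V] [Group P] [Finite P]
  (φ : P →* MulAut V) (hφ : Function.Injective φ) (hP : IsPGroup 2 P) (hodd : Odd (Nat.card V))
  (hirr : ∀ U : Subgroup V, (∀ g : P, ∀ u ∈ U, φ g u ∈ U) → U = ⊥ ∨ U = ⊤)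

include hφ hirr in
omit [Finite V] [Finite P] in
theorem central_inv (e : P) (hc : ∀ g : P, g * e = e * g) (h2 : e * e = 1) (h1 : e ≠ 1) (v : V) :
    φ e v = v⁻¹ := by
  have hinv : ∀ g : P, ∀ u ∈ fix φ e, φ g u ∈ fix φ e := by
    intro g u hu
    change φ e (φ g u) = φ g u
    rw [← act_mul, ← hc, act_mul]
    exact congrArg _ hu
  rcases hirr _ hinv with h | h
  · have h3 : v * φ e v ∈ fix φ e := by
      change φ e (v * φ e v) = v * φ e v
      rw [map_mul, ← act_mul, h2, act_one, mul_comm]
    rw [h, Subgroup.mem_bot] at h3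
    exact (inv_eq_of_mul_eq_one_right h3).symm
  · exfalso
    apply h1
    apply hφ
    ext w
    have h3 : w ∈ fix φ e := by rw [h]; exact Subgroup.mem_top _
    rw [act_one]
    exact h3

include hφ hP hodd in
theorem irr_a (n : ℕ) (hn : Nat.card V = n) (hn1 : 1 < n) (z : P) (hz1 : z ≠ 1) (hz2 : z * z = 1) 
    (hzc : ∀ g : P, g * z = z * g) (hz : ∀ v, φ z v = v⁻¹)
    (hcyc : ∀ B : Subgroup P, B.Normal → IsMulCommutative B → IsCyclic B) :
    2 * Nat.card P + 1 ≤ n ^ 2 ∧ (frattini P).index + 1 ≤ n := by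
  have : Fact (Nat.Prime 2) := ⟨Nat.prime_two⟩
  obtain ⟨A, hAn, hAc, hA⟩ := H23.exists_normal_abelian_self_centralizing hP
  have hAcyc : IsCyclic A := hcyc A hAn hAc
  have hzA : z ∈ A := by
    rw [← hA, Subgroup.mem_centralizer_iff]
    intro g _
    exact hzc g
  have hfree : ∀ a ∈ A, a ≠ 1 → ∀ v : V, φ a v = v → v = 1 := by
    intro a haA ha1 v hv
    obtain ⟨k, hk⟩ := hP.exists_card_eq
    obtain ⟨k, hk⟩ := (IsPGroup.iff_orderOf.mp hP) a
    have hk0 : k ≠ 0 := by
      rintro rfl
      rw [pow_zero] at hk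
      exact ha1 (orderOf_eq_one_iff.mp hk)
    obtain ⟨m, rfl⟩ : ∃ m, k = m + 1 := ⟨k - 1, by omega⟩
    have hw2 : (a ^ (2 ^ m)) ^ 2 = 1 := by
      rw [← pow_mul, ← pow_succ, ← hk, pow_orderOf_eq_one]
    have hw1 : a ^ (2 ^ m) ≠ 1 := by
      intro h
      have h1 := orderOf_dvd_of_pow_eq_one h
      rw [hk] at h1
      have h2 := Nat.le_of_dvd (by positivity) h1
      have h3 : 2 ^ (m + 1) = 2 * 2 ^ m := by ring
      have h4 : 0 < 2 ^ m := by positivity
      omega
    have hwz : a ^ (2 ^ m) = z := by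
      by_contra hne
      classical
      have : Fintype A := Fintype.ofFinite A
      have h1 := IsCyclic.card_pow_eq_one_le (α := A) (n := 2) (by norm_num)
      have h2 : ({1, ⟨z, hzA⟩, ⟨a ^ (2 ^ m), A.pow_mem haA _⟩} : Finset A) ⊆
          Finset.univ.filter (fun x : A => x ^ 2 = 1) := by
        intro x hx
        rw [Finset.mem_filter]
        refine ⟨Finset.mem_univ _, ?_⟩
        simp only [Finset.mem_insert, Finset.mem_singleton] at hx
        rcases hx with rfl | rfl | rfl
        · exact one_pow _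
        · exact Subtype.ext (by simpa [pow_two] using hz2)
        · exact Subtype.ext (by simpa using hw2)
      have h3 := (Finset.card_le_card h2).trans h1
      rw [Finset.card_insert_of_notMem, Finset.card_insert_of_notMem, Finset.card_singleton] at h3
      · omega
      · rw [Finset.mem_singleton]
        intro h
        exact hne (congrArg Subtype.val h).symm
      · rw [Finset.mem_insert, Finset.mem_singleton]
        rintro (h | h)
        · exact hz1 (congrArg Subtype.val h).symm
        · exact hw1 (congrArg Subtype.val h).symm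
    have hpow : ∀ j : ℕ, φ (a ^ j) v = v := by
      intro j
      induction j with
      | zero => rw [pow_zero, act_one]
      | succ j ih => rw [pow_succ, act_mul, hv, ih]
    have h1 := hpow (2 ^ m)
    rw [hwz, hz] at h1
    exact eq_one_of_inv_eq hodd v h1
  -- |A| ≤ n - 1
  have hAn1 : Nat.card A + 1 ≤ n := by
    obtain ⟨v0, hv0⟩ : ∃ v0 : V, v0 ≠ 1 := by
      have : Nontrivial V := by
        rw [← Finite.one_lt_card_iff_nontrivial, hn]
        exact hn1
      exact exists_ne 1
    let f : Option A → V := fun o => match o with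
      | none => 1
      | some a => φ (a : P) v0
    have hf : Function.Injective f := by
      intro x y hxy
      match x, y with
      | none, none => rfl
      | none, some b => 
        exfalso
        have h1 : φ (b : P) v0 = 1 := hxy.symm
        have h2 : φ (b : P) v0 = φ (b : P) 1 := by rw [h1, map_one]
        exact hv0 ((φ (b : P)).injective h2)
      | some a, none => 
        exfalso
        have h1 : φ (a : P) v0 = 1 := hxy
        have h2 : φ (a : P) v0 = φ (a : P) 1 := by rw [h1, map_one]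
        exact hv0 ((φ (a : P)).injective h2)
      | some a, some b =>
        have h1 : φ (a : P) v0 = φ (b : P) v0 := hxy
        have h2 : φ ((b : P)⁻¹ * a) v0 = v0 := by
          rw [act_mul, h1, act_inv_self]
        by_contra hne
        have h3 : (b : P)⁻¹ * a ≠ 1 := by
          intro h
          apply hne
          rw [inv_mul_eq_one] at h
          rw [Subtype.ext h]
        exact hv0 (hfree _ (A.mul_mem (A.inv_mem b.2) a.2) h3 v0 h2)
    have := Nat.card_le_card_of_injective f hf
    rwa [Finite.card_option, hn] at this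
  -- index
  have hidx : 2 * A.index ≤ Nat.card A := by
    have hker : (MulAut.conjNormal : P →* MulAut A).ker = A := by
      refine Eq.trans ?_ hA
      ext g
      rw [MonoidHom.mem_ker, Subgroup.mem_centralizer_iff]
      constructor
      · intro h x hx
        have h1 := congrArg (fun e : MulAut A => ((e ⟨x, hx⟩ : A) : P)) h
        simp only [MulAut.conjNormal_apply, MulAut.one_apply] at h1
        rw [mul_inv_eq_iff_eq_mul] at h1
        exact h1.symm
      · intro h
        ext x
        rw [MulAut.conjNormal_apply, MulAut.one_apply, mul_inv_eq_iff_eq_mul]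
        exact (h _ x.2).symm
    have h1 : A.index = Nat.card (MulAut.conjNormal : P →* MulAut A).range := by
      rw [← Subgroup.index_ker, hker]
    have h2 : Nat.card (MulAut.conjNormal : P →* MulAut A).range ∣ Nat.card (MulAut A) :=
      Subgroup.card_subgroup_dvd_card _
    have h3 : Nat.card (MulAut A) = Nat.totient (Nat.card A) := IsCyclic.card_mulAut A
    obtain ⟨k, hk⟩ := (hP.to_subgroup A).exists_card_eq
    have hk0 : k ≠ 0 := by
      rintro rfl
      rw [pow_zero] at hk
      have : z = 1 := by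
        have h := Subgroup.card_eq_one.mp hk
        rw [h] at hzA
        exact hzA
      exact hz1 this
    obtain ⟨m, rfl⟩ : ∃ m, k = m + 1 := ⟨k - 1, by omega⟩
    rw [h3, hk, Nat.totient_prime_pow_succ Nat.prime_two, ← h1] at h2
    have h4 := Nat.le_of_dvd (by positivity) h2
    rw [hk]
    calc 2 * A.index ≤ 2 * (2 ^ m * (2 - 1)) := Nat.mul_le_mul_left _ h4
      _ = 2 ^ (m + 1) := by ring
  have hf : (frattini P).index ≤ A.index * 2 := by
    have h1 := frat_index_le hP A
    have h2 : (frattini (P ⧸ A)).index ≤ A.index := frat_index_le_card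
    have h3 := frat_index_cyclic (A := A) (hP.to_subgroup A)
    exact h1.trans (Nat.mul_le_mul h2 h3)
  have hcard : Nat.card P = Nat.card A * A.index := (Subgroup.card_mul_index A).symm
  constructor
  · rw [hcard]
    have h1 : Nat.card A * (2 * A.index) ≤ Nat.card A * Nat.card A := Nat.mul_le_mul_left _ hidx
    nlinarith
  · omega

include hφ hP hodd hirr in
theorem irr_b (n : ℕ) (hn : Nat.card V = n) (hn1 : 1 < n) (z : P) (hz1 : z ≠ 1) (hz2 : z * z = 1) 
    (hzc : ∀ g : P, g * z = z * g) (hz : ∀ v, φ z v = v⁻¹)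
    (B : Subgroup P) (hBn : B.Normal) (hBc : IsMulCommutative B) (hB : ¬ IsCyclic B)
    (ih : ∀ u : ℕ, u < n → ∀ (U : Subgroup V) (Q : Type u₂) [Group Q] [Finite Q] (ψ : Q →* MulAut U),
      Function.Injective ψ → IsPGroup 2 Q → Nat.card U = u → Odd u → 1 < u →
      2 * Nat.card Q + 1 ≤ u ^ 2 ∧ (frattini Q).index + 1 ≤ u) :
    2 * Nat.card P + 1 ≤ n ^ 2 ∧ (frattini P).index + 1 ≤ n := by
  have : Fact (Nat.Prime 2) := ⟨Nat.prime_two⟩
  -- the element e
  obtain ⟨e, he2, he1, hez, hconj⟩ : ∃ e : P, e * e = 1 ∧ e ≠ 1 ∧ e ≠ z ∧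
      ∀ g : P, g * e = e * g ∨ g * e = e * z * g := by
    -- Ω₁(B)
    let Ω : Subgroup P :=
      { carrier := {b | b ∈ B ∧ b * b = 1}
        mul_mem' := by
          rintro a b ⟨ha, ha2⟩ ⟨hb, hb2⟩
          refine ⟨B.mul_mem ha hb, ?_⟩
          have hab : a * b = b * a := congrArg Subtype.val (hBc.is_comm.comm (⟨a, ha⟩ : B) ⟨b, hb⟩)
          calc a * b * (a * b) = a * (b * a) * b := by group
            _ = a * (a * b) * b := by rw [hab]
            _ = (a * a) * (b * b) := by group
            _ = 1 := by rw [ha2, hb2, one_mul]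
        one_mem' := ⟨B.one_mem, one_mul 1⟩
        inv_mem' := by
          rintro a ⟨ha, ha2⟩
          exact ⟨B.inv_mem ha, by rw [← mul_inv_rev, ha2, inv_one]⟩ }
    have hΩ : ∀ b, b ∈ Ω ↔ b ∈ B ∧ b * b = 1 := fun b => Iff.rfl
    have hΩn : Ω.Normal := by
      constructor
      intro b hb g
      rw [hΩ] at hb ⊢
      refine ⟨hBn.conj_mem b hb.1 g, ?_⟩
      calc g * b * g⁻¹ * (g * b * g⁻¹) = g * (b * b) * g⁻¹ := by group
        _ = 1 := by rw [hb.2]; group
    have hΩz : ¬ Ω ≤ Subgroup.zpowers z := by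
      intro hle
      apply hB
      have hzp : ∀ x ∈ Subgroup.zpowers z, x = 1 ∨ x = z := by
        intro x hx
        obtain ⟨k, rfl⟩ := Subgroup.mem_zpowers_iff.mp hx
        rcases Int.even_or_odd k with ⟨m, rfl⟩ | ⟨m, rfl⟩
        · left
          rw [← two_mul, zpow_mul, zpow_two, hz2, one_zpow]
        · right
          rw [zpow_add, zpow_mul, zpow_two, hz2, one_zpow, one_mul, zpow_one]
      have hBp := hP.to_subgroup B
      have : ∀ (C : Subgroup B), Nat.card C = 2 * 2 → IsCyclic C := by
        intro C hC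
        by_contra hnc
        have hexp : ∀ c : C, c * c = 1 := by
          intro c
          have h1 : orderOf c ∣ 2 ^ 2 := by
            have := orderOf_dvd_natCard c
            rw [hC] at this
            exact this
          have h2 : orderOf c ≠ 4 := by
            intro h4
            apply hnc
            apply isCyclic_of_orderOf_eq_card c
            rw [hC, h4]
          rw [Nat.dvd_prime_pow Nat.prime_two] at h1
          obtain ⟨k, hk, hk2⟩ := h1
          have h3 : orderOf c ∣ 2 := by
            interval_cases k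
            · rw [hk2]; norm_num
            · rw [hk2]; norm_num
            · exact absurd hk2 h2
          rw [← pow_two]
          exact orderOf_dvd_iff_pow_eq_one.mp h3
        have hsub : ∀ c : C, ((c : B) : P) = 1 ∨ ((c : B) : P) = z := by
          intro c
          apply hzp
          apply hle
          rw [hΩ]
          refine ⟨(c : B).2, ?_⟩
          have := congrArg (fun x : C => ((x : B) : P)) (hexp c)
          exact this
        have hle2 : Nat.card C ≤ 2 := by
          classical
          let f : C → Bool := fun c => decide (((c : B) : P) = 1)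
          have hf : Function.Injective f := by
            intro x y hxy
            apply Subtype.ext
            apply Subtype.ext
            have hxy' : (((x : B) : P) = 1) ↔ (((y : B) : P) = 1) := by
              simpa [f] using hxy
            rcases hsub x with hx | hx
            · rw [hx, hxy'.mp hx]
            · rcases hsub y with hy | hy
              · rw [hy, hxy'.mpr hy]
              · rw [hx, hy]
          have := Nat.card_le_card_of_injective f hf
          simpa using this
        omega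
      let inst : CommGroup B := { (inferInstance : Group B) with mul_comm := hBc.is_comm.comm }
      apply Frob.isCyclic_of_comm_of_sq
      intro p hp C hC
      by_cases hp2 : p = 2
      · subst hp2
        exact this C hC
      · exfalso
        obtain ⟨k, hk⟩ := (IsPGroup.iff_card.mp (hBp.to_subgroup C))
        rw [hC] at hk
        have h1 : p ∣ 2 ^ k := by rw [← hk]; exact dvd_mul_right _ _
        exact hp2 ((Nat.prime_dvd_prime_iff_eq hp Nat.prime_two).mp (hp.dvd_of_dvd_pow h1))
    have hzn : (Subgroup.zpowers z).Normal := by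
      constructor
      intro x hx g
      have h1 : g * x * g⁻¹ = x := by
        obtain ⟨k, rfl⟩ := Subgroup.mem_zpowers_iff.mp hx
        have h2 : Commute g z := hzc g
        rw [(h2.zpow_right k).eq, mul_assoc, mul_inv_cancel, mul_one]
      rw [h1]; exact hx
    have hN : (Ω.map (QuotientGroup.mk' (Subgroup.zpowers z))).Normal :=
      hΩn.map _ (QuotientGroup.mk'_surjective _)
    have hN1 : Ω.map (QuotientGroup.mk' (Subgroup.zpowers z)) ≠ ⊥ := by
      intro h
      rw [Subgroup.map_eq_bot_iff, QuotientGroup.ker_mk'] at h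
      exact hΩz h
    have hnil : Group.IsNilpotent (P ⧸ Subgroup.zpowers z) := (hP.to_quotient _).isNilpotent
    have h1 := Solv.inf_center_ne_bot_of_nilpotent _ hN1
    obtain ⟨⟨x, hx⟩, hx1⟩ := Subgroup.ne_bot_iff_exists_ne_one.mp h1
    obtain ⟨⟨e, heΩ, rfl⟩, hec⟩ := Subgroup.mem_inf.mp hx
    have hez : e ∉ Subgroup.zpowers z := by
      intro h
      apply hx1
      apply Subtype.ext
      exact (QuotientGroup.eq_one_iff e).mpr h
    refine ⟨e, heΩ.2, ?_, ?_, ?_⟩
    · rintro rfl
      exact hez (Subgroup.one_mem _)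
    · rintro rfl
      exact hez (Subgroup.mem_zpowers _)
    · intro g
      have h2 := Subgroup.mem_center_iff.mp hec (QuotientGroup.mk' _ g)
      rw [← map_mul, ← map_mul] at h2
      have h3 : (e * g)⁻¹ * (g * e) ∈ Subgroup.zpowers z := QuotientGroup.eq.mp h2.symm
      obtain ⟨k, hk⟩ := Subgroup.mem_zpowers_iff.mp h3
      rw [eq_inv_mul_iff_mul_eq] at hk
      rcases Int.even_or_odd k with ⟨m, rfl⟩ | ⟨m, rfl⟩
      · left
        rw [← hk, ← two_mul, zpow_mul, zpow_two, hz2, one_zpow, mul_one]
      · right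
        rw [← hk, zpow_add, zpow_mul, zpow_two, hz2, one_zpow, one_mul, zpow_one, mul_assoc,
          hzc g, mul_assoc]
  have hzz : z * e = e * z := (hzc e).symm
  obtain ⟨g₀, hg₀⟩ : ∃ g₀ : P, g₀ * e = e * z * g₀ := by
    by_contra hcon
    push Not at hcon
    have hec : ∀ g : P, g * e = e * g := fun g => (hconj g).resolve_right (hcon g)
    have h1 : ∀ v, φ e v = v⁻¹ := central_inv φ hφ hirr e hec he2 he1
    apply hez
    apply hφ
    ext v
    rw [h1, hz]
  have hg₀' : g₀ * (e * z) = e * g₀ := by
    rw [← mul_assoc, hg₀, mul_assoc, hzc g₀]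
    rw [mul_assoc e z, ← mul_assoc z z, hz2, one_mul]
  have hne : e ≠ e * z := by
    intro h
    exact hz1 (mul_eq_left.mp h.symm)
  set M := Subgroup.centralizer ({e} : Set P) with hM
  have hMmem : ∀ g : P, g ∈ M ↔ g * e = e * g := by
    intro g
    rw [hM, Subgroup.mem_centralizer_singleton_iff]
  have hMidx : M.index = 2 := by
    rw [Subgroup.index_eq_two_iff]
    refine ⟨g₀, fun b => ?_⟩
    rw [hMmem, hMmem]
    rcases hconj b with h | h
    · right
      refine ⟨h, ?_⟩
      intro h'
      rw [mul_assoc, hg₀, ← mul_assoc, ← mul_assoc, h, mul_assoc e b z, hzc b, ← mul_assoc,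
        ← mul_assoc] at h'
      exact hne (mul_right_cancel (mul_right_cancel h')).symm
    · left
      constructor
      · rw [mul_assoc, hg₀, ← mul_assoc, ← mul_assoc, h, mul_assoc (e * z) b z, hzc b,
          mul_assoc e z, ← mul_assoc z z, hz2, one_mul, mul_assoc]
      · intro h'
        rw [h] at h'
        exact hne (mul_right_cancel h').symm
  have hezc : ∀ g ∈ M, g * (e * z) = (e * z) * g := by
    intro g hg
    rw [hMmem] at hg
    rw [← mul_assoc, hg, mul_assoc, hzc, mul_assoc]
  set U₁ := fix φ e with hU₁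
  set U₂ := fix φ (e * z) with hU₂
  have hinv1 : ∀ g : M, ∀ u ∈ U₁, (φ.comp M.subtype) g u ∈ U₁ := by
    intro g u hu
    change φ e (φ (g : P) u) = φ (g : P) u
    rw [← act_mul, ← (hMmem g).mp g.2, act_mul]
    exact congrArg _ hu
  have hinv2 : ∀ g : M, ∀ u ∈ U₂, (φ.comp M.subtype) g u ∈ U₂ := by
    intro g u hu
    change φ (e * z) (φ (g : P) u) = φ (g : P) u
    rw [← act_mul, ← hezc g g.2, act_mul]
    exact congrArg _ hu
  have h12 : ∀ u ∈ U₁, φ g₀ u ∈ U₂ := by
    intro u hu
    change φ (e * z) (φ g₀ u) = φ g₀ u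
    rw [← act_mul, ← hg₀, act_mul]
    exact congrArg _ hu
  have h21 : ∀ u ∈ U₂, φ g₀ u ∈ U₁ := by
    intro u hu
    change φ e (φ g₀ u) = φ g₀ u
    rw [← act_mul, ← hg₀', act_mul]
    exact congrArg _ hu
  have h21' : ∀ u ∈ U₂, φ g₀⁻¹ u ∈ U₁ := by
    intro u hu
    change φ e (φ g₀⁻¹ u) = φ g₀⁻¹ u
    have h1 : e * g₀⁻¹ = g₀⁻¹ * (e * z) := by
      rw [eq_inv_mul_iff_mul_eq, ← mul_assoc, hg₀, mul_assoc, mul_inv_cancel, mul_one]
    rw [← act_mul, h1, act_mul]
    exact congrArg _ hu
  have hcard12 : Nat.card U₂ = Nat.card U₁ := by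
    apply le_antisymm
    · exact Nat.card_le_card_of_injective (fun u : U₂ => (⟨φ g₀ u, h21 u u.2⟩ : U₁))
        (fun u v huv => Subtype.ext ((φ g₀).injective (congrArg Subtype.val huv)))
    · exact Nat.card_le_card_of_injective (fun u : U₁ => (⟨φ g₀ u, h12 u u.2⟩ : U₂))
        (fun u v huv => Subtype.ext ((φ g₀).injective (congrArg Subtype.val huv)))
  have hdis : Disjoint U₁ U₂ := by
    rw [Subgroup.disjoint_def]
    intro v hv1 hv2
    have h1 : φ e v = v := hv1
    have h2 : φ (e * z) v = v := hv2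
    rw [act_mul, hz, map_inv, h1] at h2
    exact eq_one_of_inv_eq hodd v h2
  have hsup : U₁ ⊔ U₂ = ⊤ := by
    rw [Subgroup.eq_top_iff']
    intro v
    have h1 : v * φ e v ∈ U₁ := by
      change φ e (v * φ e v) = v * φ e v
      rw [map_mul, ← act_mul, he2, act_one, mul_comm]
    have h2 : v * (φ e v)⁻¹ ∈ U₂ := by
      change φ (e * z) (v * (φ e v)⁻¹) = v * (φ e v)⁻¹
      rw [act_mul, hz, map_inv, map_mul, map_inv, ← act_mul, he2, act_one, mul_inv, inv_inv, mul_comm]
    have h3 : v ^ 2 ∈ U₁ ⊔ U₂ := by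
      have h4 : v ^ 2 = (v * φ e v) * (v * (φ e v)⁻¹) := by
        rw [pow_two]
        have : (v * φ e v) * (v * (φ e v)⁻¹) = v * v * (φ e v * (φ e v)⁻¹) := by
          rw [mul_mul_mul_comm]
        rw [this, mul_inv_cancel, mul_one]
      rw [h4]
      exact Subgroup.mul_mem_sup h1 h2
    obtain ⟨k, hk⟩ := hodd
    have h5 : v = (v ^ 2) ^ (k + 1) * (v ^ (Nat.card V))⁻¹ := by
      rw [eq_mul_inv_iff_mul_eq, ← pow_mul, hk, ← pow_succ']
      congr 1
    rw [h5, pow_card_eq_one', inv_one, mul_one]
    exact Subgroup.pow_mem _ h3 _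
  set u := Nat.card U₁ with hu
  have hnu : n = u * u := by
    have h1 := Frob.card_sup_of_disjoint_comm U₁ U₂ hdis
    rw [hsup, Subgroup.card_top, hn, hcard12] at h1
    exact h1
  have hu1 : 1 < u := by
    by_contra h
    interval_cases u <;> omega
  have hun : u < n := by
    rw [hnu]; nlinarith
  have huodd : Odd u := by
    rw [hn, hnu] at hodd
    exact (Nat.odd_mul.mp hodd).1
  -- kernels
  set K := (res (φ.comp M.subtype) U₁ hinv1).ker with hK
  have hKfix : ∀ k ∈ K, ∀ v ∈ U₁, φ (k : P) v = v := by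
    intro k hk v hv
    have h3 := congrArg (fun e : MulAut U₁ => ((e ⟨v, hv⟩ : U₁) : V)) hk
    exact h3
  obtain ⟨ih1, ih1'⟩ := ih u hun U₁ (M ⧸ K) (QuotientGroup.kerLift (res (φ.comp M.subtype) U₁ hinv1))
    (QuotientGroup.kerLift_injective _) ((hP.to_subgroup M).to_quotient K) rfl huodd hu1
  have htriv : ∀ x : P, (∀ v ∈ U₁, φ x v = v) → (∀ v ∈ U₂, φ x v = v) → x = 1 := by
    intro x h1 h2
    apply hφ
    ext v
    rw [act_one]
    have hv : v ∈ U₁ ⊔ U₂ := by rw [hsup]; exact Subgroup.mem_top _
    obtain ⟨a, ha, b, hb, rfl⟩ := Subgroup.mem_sup.mp hv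
    rw [map_mul, h1 a ha, h2 b hb]
  have hKinj : Function.Injective ((res (φ.comp M.subtype) U₂ hinv2).comp K.subtype) := by
    rw [injective_iff_map_eq_one]
    intro x hx
    have h1 : (x : M) = 1 := by
      apply Subtype.ext
      apply htriv
      · exact hKfix x x.2
      · intro v hv
        have h3 := congrArg (fun e : MulAut U₂ => ((e ⟨v, hv⟩ : U₂) : V)) hx
        exact h3
    exact Subtype.ext h1
  obtain ⟨ih2, ih2'⟩ := ih u hun U₂ K ((res (φ.comp M.subtype) U₂ hinv2).comp K.subtype)
    hKinj ((hP.to_subgroup M).to_subgroup K) hcard12 huodd hu1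
  have hPcard : Nat.card P = 2 * (Nat.card (M ⧸ K) * Nat.card K) := by
    rw [← Subgroup.card_mul_index M, hMidx, mul_comm, Subgroup.card_eq_card_quotient_mul_card_subgroup K]
  have hKΦ : Nat.card K ≤ Nat.card (frattini P) := by
    have hcm : ∀ x : K, ((x : M) : P)⁻¹ * (g₀ * x * g₀⁻¹) ∈ frattini P := by
      intro x
      apply Solv.commutator_le_frattini_of_pGroup hP
      have h1 : ((x : M) : P)⁻¹ * (g₀ * x * g₀⁻¹) = ⁅((x : M) : P)⁻¹, g₀⁆ := by
        rw [commutatorElement_def]; group
      rw [h1, commutator_def]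
      exact Subgroup.commutator_mem_commutator (Subgroup.mem_top _) (Subgroup.mem_top _)
    apply Nat.card_le_card_of_injective
      (fun x : K => (⟨((x : M) : P)⁻¹ * (g₀ * x * g₀⁻¹), hcm x⟩ : frattini P))
    intro x y hxy
    have h1 : ((x : M) : P)⁻¹ * (g₀ * x * g₀⁻¹) = ((y : M) : P)⁻¹ * (g₀ * y * g₀⁻¹) :=
      congrArg Subtype.val hxy
    have h2 : ((y : M) : P) * ((x : M) : P)⁻¹ = g₀ * (((y : M) : P) * ((x : M) : P)⁻¹) * g₀⁻¹ := by
      have h3 : ((y : M) : P) * ((x : M) : P)⁻¹ = (g₀ * y * g₀⁻¹) * (g₀ * x * g₀⁻¹)⁻¹ := by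
        rw [eq_mul_inv_iff_mul_eq, mul_assoc, h1, ← mul_assoc, mul_inv_cancel, one_mul]
      exact h3.trans (by group)
    have h4 : ((y : M) : P) * ((x : M) : P)⁻¹ = 1 := by
      apply htriv
      · exact hKfix (y * x⁻¹) (K.mul_mem y.2 (K.inv_mem x.2))
      · intro v hv
        rw [h2, act_mul, act_mul]
        have h5 : φ (((y : M) : P) * ((x : M) : P)⁻¹) (φ g₀⁻¹ v) = φ g₀⁻¹ v :=
          hKfix (y * x⁻¹) (K.mul_mem y.2 (K.inv_mem x.2)) _ (h21' v hv)
        rw [h5, act_self_inv]
    rw [mul_inv_eq_one] at h4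
    exact Subtype.ext (Subtype.ext h4.symm)
  have hfi : (frattini P).index ≤ 2 * Nat.card (M ⧸ K) := by
    have h1 : Nat.card (frattini P) * (frattini P).index = 2 * (Nat.card (M ⧸ K) * Nat.card K) := by
      rw [← hPcard, Subgroup.card_mul_index]
    have h2 : Nat.card K * (frattini P).index ≤ Nat.card K * (2 * Nat.card (M ⧸ K)) := by
      calc Nat.card K * (frattini P).index ≤ Nat.card (frattini P) * (frattini P).index :=
            Nat.mul_le_mul_right _ hKΦ
        _ = Nat.card K * (2 * Nat.card (M ⧸ K)) := by rw [h1]; ring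
    exact Nat.le_of_mul_le_mul_left h2 Nat.card_pos
  constructor
  · rw [hPcard, hnu]
    have h1 : (2 * Nat.card (M ⧸ K) + 1) * (2 * Nat.card K + 1) ≤ u ^ 2 * u ^ 2 :=
      Nat.mul_le_mul ih1 ih2
    have h2 : 0 < Nat.card (M ⧸ K) := Nat.card_pos
    have h3 : 0 < Nat.card K := Nat.card_pos
    nlinarith
  · rw [hnu]
    nlinarith

end irr

theorem main (n : ℕ) : ∀ (V : Type u₁) (P : Type u₂) [CommGroup V] [Finite V] [Group P] [Finite P]
    (φ : P →* MulAut V), Function.Injective φ → IsPGroup 2 P → Nat.card V = n → Odd n → 1 < n →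
      2 * Nat.card P + 1 ≤ n ^ 2 ∧ (frattini P).index + 1 ≤ n := by
  induction n using Nat.strong_induction_on with
  | _ n ih =>
  intro V P _ _ _ _ φ hφ hP hn hodd hn1
  have : Fact (Nat.Prime 2) := ⟨Nat.prime_two⟩
  have hoddV : Odd (Nat.card V) := by rw [hn]; exact hodd
  by_cases hirr : ∀ U : Subgroup V, (∀ g : P, ∀ u ∈ U, φ g u ∈ U) → U = ⊥ ∨ U = ⊤
  · -- irreducible
    rcases subsingleton_or_nontrivial P with hsub | hnt
    · have h1 : Nat.card P = 1 := Nat.card_unique
      have h2 : (frattini P).index ≤ 1 := by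
        rw [← h1]; exact frat_index_le_card
      rw [h1]
      constructor
      · nlinarith
      · omega
    · have hnt' : Nontrivial (Subgroup.center P) := hP.center_nontrivial
      obtain ⟨k, hk⟩ := IsPGroup.iff_card.mp (hP.to_subgroup (Subgroup.center P))
      have hdvd : 2 ∣ Nat.card (Subgroup.center P) := by
        rw [hk]
        apply dvd_pow_self
        rintro rfl
        rw [pow_zero] at hk
        have := Finite.one_lt_card (α := Subgroup.center P)
        omega
      obtain ⟨⟨z, hzc⟩, hz⟩ := exists_prime_orderOf_dvd_card' 2 hdvd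
      rw [Subgroup.orderOf_mk] at hz
      have hz1 : z ≠ 1 := by
        rintro rfl
        rw [orderOf_one] at hz
        omega
      have hz2 : z * z = 1 := by
        rw [← pow_two, ← hz, pow_orderOf_eq_one]
      have hzc' : ∀ g : P, g * z = z * g := Subgroup.mem_center_iff.mp hzc
      have hzinv := central_inv φ hφ hirr z hzc' hz2 hz1
      by_cases hcyc : ∀ B : Subgroup P, B.Normal → IsMulCommutative B → IsCyclic B
      · exact irr_a φ hφ hP hoddV n hn hn1 z hz1 hz2 hzc' hzinv hcyc
      · push Not at hcyc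
        obtain ⟨B, hBn, hBc, hB⟩ := hcyc
        refine irr_b φ hφ hP hoddV hirr n hn hn1 z hz1 hz2 hzc' hzinv B hBn hBc hB ?_
        intro u hu U Q _ _ ψ hψ hQ hU huo hu1
        exact ih u hu U Q ψ hψ hQ hU huo hu1
  · push Not at hirr
    obtain ⟨U, hU, hU1, hU2⟩ := hirr
    have hcard : Nat.card U * U.index = n := by rw [Subgroup.card_mul_index, hn]
    have ha1 : 1 < Nat.card U := by
      have h1 : Nat.card U ≠ 1 := fun h => hU1 (Subgroup.card_eq_one.mp h)
      have h2 : 0 < Nat.card U := Nat.card_pos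
      omega
    have hb1 : 1 < U.index := by
      have h1 : U.index ≠ 1 := fun h => hU2 (Subgroup.index_eq_one.mp h)
      have h2 : 0 < U.index := Nat.pos_of_ne_zero Subgroup.index_ne_zero_of_finite
      omega
    have ho := hodd
    rw [← hcard] at ho
    obtain ⟨ho1, ho2⟩ := Nat.odd_mul.mp ho
    have h1 := ih (Nat.card U) (by nlinarith) U (P ⧸ (res φ U hU).ker)
      (QuotientGroup.kerLift (res φ U hU)) (QuotientGroup.kerLift_injective _)
      (hP.to_quotient _) rfl ho1 ha1
    have h2 := red_case φ hφ hP hoddV U hU (Nat.card U) U.index rfl rfl h1 (by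
      intro ψ hψ
      exact ih U.index (by nlinarith) (V ⧸ U) (res φ U hU).ker ψ hψ (hP.to_subgroup _) rfl ho2 hb1)
    rwa [hcard] at h2

/-- Let G be a finite group that is the semidirect product of a normal abelian subgroup N of odd order by a 2-subgroup P, and suppose N is the unique minimal normal subgroup of G. Then the index of the Frattini subgroup of P in P is at most #N − 1. -/
theorem result {G : Type*} [Group G] [Finite G] (N P : Subgroup G) (hN : N.Normal) (hNab : IsMulCommutative ↥N) (hNodd : Odd (Nat.card ↥N)) (hP : IsPGroup 2 ↥P) (hdisj : N ⊓ P = ⊥) (hprod : N ⊔ P = ⊤) (hmin : N ≠ ⊥ ∧ ∀ M : Subgroup G, M.Normal → M ≠ ⊥ → N ≤ M) : (frattini ↥P).index ≤ Nat.card ↥N - 1 := by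
  have : Fact (Nat.Prime 2) := ⟨Nat.prime_two⟩
  obtain ⟨hN1, hmin⟩ := hmin
  let φ : P →* MulAut N := (MulAut.conjNormal : G →* MulAut N).comp P.subtype
  have hφapp : ∀ (g : P) (x : N), ((φ g x : N) : G) = (g : G) * x * (g : G)⁻¹ := fun g x => rfl
  have hφ : Function.Injective φ := by
    rw [injective_iff_map_eq_one]
    by_contra hcon
    push Not at hcon
    obtain ⟨g, hg, hg1⟩ := hcon
    set K : Subgroup G := P ⊓ Subgroup.centralizer (N : Set G) with hK
    have hgK : (g : G) ∈ K := by
      refine ⟨g.2, ?_⟩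
      change (g : G) ∈ Subgroup.centralizer (N : Set G)
      rw [Subgroup.mem_centralizer_iff]
      intro x hx
      have h1 := congrArg (fun e : MulAut N => ((e ⟨x, hx⟩ : N) : G)) hg
      have h2 : (g : G) * x * (g : G)⁻¹ = x := h1
      rw [mul_inv_eq_iff_eq_mul] at h2
      exact h2.symm
    have hK1 : K ≠ ⊥ := by
      intro h
      rw [h, Subgroup.mem_bot] at hgK
      exact hg1 (Subtype.ext hgK)
    have hKn : K.Normal := by
      constructor
      intro k hk g
      have hg : g ∈ N ⊔ P := by rw [hprod]; exact Subgroup.mem_top _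
      obtain ⟨n, hn, p, hp, rfl⟩ := Subgroup.mem_sup_of_normal_left.mp hg
      have hCn : (Subgroup.centralizer (N : Set G)).Normal := inferInstance
      have h1 : p * k * p⁻¹ ∈ K :=
        ⟨P.mul_mem (P.mul_mem hp hk.1) (P.inv_mem hp), hCn.conj_mem k hk.2 p⟩
      have h2 : n * (p * k * p⁻¹) * n⁻¹ = p * k * p⁻¹ := by
        rw [(Subgroup.mem_centralizer_iff.mp h1.2 n hn), mul_assoc, mul_inv_cancel, mul_one]
      have h3 : n * p * k * (n * p)⁻¹ = n * (p * k * p⁻¹) * n⁻¹ := by group
      rw [h3, h2]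
      exact h1
    apply hN1
    rw [eq_bot_iff, ← hdisj]
    exact le_inf le_rfl ((hmin K hKn hK1).trans inf_le_left)
  let inst : CommGroup N := { (inferInstance : Group N) with mul_comm := hNab.is_comm.comm }
  have hcard1 : 1 < Nat.card N := by
    have h1 : Nat.card N ≠ 1 := fun h => hN1 (Subgroup.card_eq_one.mp h)
    have h2 : 0 < Nat.card N := Nat.card_pos
    omega
  have h := (main (Nat.card N) N P φ hφ hP rfl hNodd hcard1).2
  omega

end Cfsg.Agent.S4188
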