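import Cfsg.Statements.S4192
import Cfsg.Agent.H70.RealGraph

set_option autoImplicit false
open Cfsg

namespace Cfsg.Agent.S4192

open Subgroup Cfsg.Agent.H70 in
theorem aux_core {G : Type*} [Group G] [Finite G] {π₁ π₂ : Set ℕ} (hd : Disjoint π₁ π₂)
    (h2 : 2 ∉ π₂)
    (hdich : ∀ x g : G, g * x * g⁻¹ = x⁻¹ →
      PiN π₁ (centralizer ({x} : Set G)).index ∨ PiN π₂ (centralizer ({x} : Set G)).index)
    {x₂ g₂ : G} (hx₂ : g₂ * x₂ * g₂⁻¹ = x₂⁻¹)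
    (hn : ¬ PiN π₁ (centralizer ({x₂} : Set G)).index)
    (hP : ¬ ∀ P : Sylow 2 G, (P : Subgroup G).Normal) :
    (∀ x g : twoGen G, g * x * g⁻¹ = x⁻¹ → Odd (centralizer ({x} : Set (twoGen G))).index ∨
      ∃ j : ℕ, (centralizer ({x} : Set (twoGen G))).index = 2 ^ j) ∧
    (∃ x g : twoGen G, g * x * g⁻¹ = x⁻¹ ∧ 2 ∣ (centralizer ({x} : Set (twoGen G))).index) ∧
    (∃ x g : twoGen G, g * x * g⁻¹ = x⁻¹ ∧ ∃ q : ℕ, q.Prime ∧ q ≠ 2 ∧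
      q ∣ (centralizer ({x} : Set (twoGen G))).index) := by
  have hR : RHyp G π₁ π₂ := ⟨hd, h2, hdich⟩
  have hy : PiN π₂ (centralizer ({x₂} : Set G)).index := (hdich _ _ hx₂).resolve_left hn
  have hyc : x₂ ∉ center G := by
    intro hc
    apply hn
    intro p hp hpd
    rw [Cfsg.Agent.H72.Cx_index_eq_one_iff.2 hc] at hpd
    exact absurd (Nat.dvd_one.1 hpd) hp.one_lt.ne'
  apply hR.twoGen_graph hx₂ hy hyc
  by_contra hcon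
  push Not at hcon
  apply hP
  intro P
  apply Cfsg.Agent.H67.sylow_two_normal_of_no_odd_real
  intro x g hx hg
  by_contra hx1
  exact hcon x g hx hx1 hg

open Subgroup Cfsg.Agent.H70 in
theorem aux_graph {K : Type*} [Group K] [Finite K]
    (h1 : ∀ x g : K, g * x * g⁻¹ = x⁻¹ → Odd (centralizer ({x} : Set K)).index ∨
      ∃ j : ℕ, (centralizer ({x} : Set K)).index = 2 ^ j)
    (h2 : ∃ x g : K, g * x * g⁻¹ = x⁻¹ ∧ 2 ∣ (centralizer ({x} : Set K)).index)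
    (h3 : ∃ x g : K, g * x * g⁻¹ = x⁻¹ ∧ ∃ q : ℕ, q.Prime ∧ q ≠ 2 ∧
      q ∣ (centralizer ({x} : Set K)).index) :
    (∃ π₁ π₂ : Set ℕ, π₁.Nonempty ∧ π₂.Nonempty ∧ Disjoint π₁ π₂ ∧ (∀ q ∈ π₁ ∪ π₂, q.Prime ∧ ∃ n ∈ {n : ℕ | ∃ x : K, IsConj x x⁻¹ ∧ (Subgroup.centralizer ({x} : Set K)).index = n}, q ∣ n) ∧ (∀ q : ℕ, q.Prime → (∃ n ∈ {n : ℕ | ∃ x : K, IsConj x x⁻¹ ∧ (Subgroup.centralizer ({x} : Set K)).index = n}, q ∣ n) → q ∈ π₁ ∨ q ∈ π₂) ∧ ∀ a ∈ π₁, ∀ b ∈ π₂, ∀ n ∈ {n : ℕ | ∃ x : K, IsConj x x⁻¹ ∧ (Subgroup.centralizer ({x} : Set K)).index = n}, ¬ (a ∣ n ∧ b ∣ n)) ∧ ∀ n ∈ {n : ℕ | ∃ x : K, IsConj x x⁻¹ ∧ (Subgroup.centralizer ({x} : Set K)).index = n}, Odd n ∨ ∃ j : ℕ, n = 2 ^ j := by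
  have h1' : ∀ n ∈ {n : ℕ | ∃ x : K, IsConj x x⁻¹ ∧ (Subgroup.centralizer ({x} : Set K)).index = n}, Odd n ∨ ∃ j : ℕ, n = 2 ^ j := by
    rintro n ⟨x, hx, rfl⟩
    obtain ⟨g, hg⟩ := isConj_iff.1 hx
    exact h1 x g hg
  refine ⟨⟨{2}, {q | q.Prime ∧ q ≠ 2 ∧ ∃ n ∈ {n : ℕ | ∃ x : K, IsConj x x⁻¹ ∧ (Subgroup.centralizer ({x} : Set K)).index = n}, q ∣ n}, ?_, ?_, ?_, ?_, ?_, ?_⟩, h1'⟩
  · exact ⟨2, rfl⟩
  · obtain ⟨x, g, hg, q, hq, hq2, hqd⟩ := h3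
    exact ⟨q, hq, hq2, _, ⟨x, isConj_iff.2 ⟨g, hg⟩, rfl⟩, hqd⟩
  · rw [Set.disjoint_left]
    rintro q rfl ⟨-, h, -⟩
    exact h rfl
  · rintro q (rfl | ⟨hq, -, hq2⟩)
    · obtain ⟨x, g, hg, hd⟩ := h2
      exact ⟨Nat.prime_two, _, ⟨x, isConj_iff.2 ⟨g, hg⟩, rfl⟩, hd⟩
    · exact ⟨hq, hq2⟩
  · intro q hq hq2
    by_cases h : q = 2
    · exact Or.inl h
    · exact Or.inr ⟨hq, h, hq2⟩
  · rintro a rfl b ⟨hb, hb2, -⟩ n hn ⟨hn1, hn2⟩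
    rcases h1' n hn with ho | ⟨j, rfl⟩
    · rw [← Nat.not_even_iff_odd, even_iff_two_dvd] at ho
      exact ho hn1
    · exact hb2 ((Nat.prime_dvd_prime_iff_eq hb Nat.prime_two).1 (hb.dvd_of_dvd_pow hn2))

/-- Let G be a finite group; call an element real when it is conjugate to its inverse, and say that the real-class-size graph of a group is disconnected when the primes dividing its real class sizes split into two non-empty disjoint parts with no real class size divisible by a prime from each part. If the real-class-size graph of G is disconnected, then some real class size of G is even, and either the Sylow 2-subgroups of G are normal, or the subgroup K generated by the 2-elements of G (the smallest normal subgroup of odd index) again has a disconnected real-class-size graph and every real class size of K is odd or a power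 of 2. -/
theorem result {G : Type*} [Group G] [Finite G] (h : (∃ π₁ π₂ : Set ℕ, π₁.Nonempty ∧ π₂.Nonempty ∧ Disjoint π₁ π₂ ∧ (∀ q ∈ π₁ ∪ π₂, q.Prime ∧ ∃ n ∈ {n : ℕ | ∃ x : G, IsConj x x⁻¹ ∧ (Subgroup.centralizer ({x} : Set G)).index = n}, q ∣ n) ∧ (∀ q : ℕ, q.Prime → (∃ n ∈ {n : ℕ | ∃ x : G, IsConj x x⁻¹ ∧ (Subgroup.centralizer ({x} : Set G)).index = n}, q ∣ n) → q ∈ π₁ ∨ q ∈ π₂) ∧ ∀ a ∈ π₁, ∀ b ∈ π₂, ∀ n ∈ {n : ℕ | ∃ x : G, IsConj x x⁻¹ ∧ (Subgroup.centralizer ({x} : Set G)).index = n}, ¬ (a ∣ n ∧ b ∣ n))) : (∃ n ∈ {n : ℕ | ∃ x : G, IsConj x x⁻¹ ∧ (Subgroup.centralizer ({x} : Set G)).index = n}, 2 ∣ n) ∧ ((∀ P : Sylow 2 G, (P : Subgroup G).Normal) ∨ ((∃ π₁ π₂ : Set ℕ, π₁.Nonempty ∧ π₂.Nonempty ∧ Disjoint π₁ π₂ ∧ (∀ q ∈ π₁ ∪ π₂, q.Prime ∧ ∃ n ∈ {n : ℕ | ∃ x : ↥(Subgroup.closure {g : G | ∃ k : ℕ, orderOf g = 2 ^ k}), IsConj x x⁻¹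 ∧ (Subgroup.centralizer ({x} : Set ↥(Subgroup.closure {g : G | ∃ k : ℕ, orderOf g = 2 ^ k}))).index = n}, q ∣ n) ∧ (∀ q : ℕ, q.Prime → (∃ n ∈ {n : ℕ | ∃ x : ↥(Subgroup.closure {g : G | ∃ k : ℕ, orderOf g = 2 ^ k}), IsConj x x⁻¹ ∧ (Subgroup.centralizer ({x} : Set ↥(Subgroup.closure {g : G | ∃ k : ℕ, orderOf g = 2 ^ k}))).index = n}, q ∣ n) → q ∈ π₁ ∨ q ∈ π₂) ∧ ∀ a ∈ π₁, ∀ b ∈ π₂, ∀ n ∈ {n : ℕ | ∃ x : ↥(Subgroup.closure {g : G | ∃ k : ℕ, orderOf g = 2 ^ k}), IsConj x x⁻¹ ∧ (Subgroup.centralizer ({x} : Set ↥(Subgroup.closure {g : G | ∃ k : ℕ, orderOf g = 2 ^ k}))).index = n}, ¬ (a ∣ n ∧ b ∣ n)) ∧ ∀ n ∈ {n : ℕ | ∃ x : ↥(Subgroup.closure {g : G | ∃ k : ℕ, orderOf g = 2 ^ k}), IsConj x x⁻¹ ∧ (Subgroup.centralizer ({x} : Set ↥(Subgroup.closure {g : G | ∃ k : ℕ, orderOf g = 2 ^ k}))).index = n}, Odd n ∨ ∃ j : ℕ, n = 2 ^ j)) := by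
  obtain ⟨π₁, π₂, hn₁, hn₂, hdisj, hsub, hcover, hnoedge⟩ := h
  have hdich : ∀ x g : G, g * x * g⁻¹ = x⁻¹ →
      H70.PiN π₁ (Subgroup.centralizer ({x} : Set G)).index ∨
      H70.PiN π₂ (Subgroup.centralizer ({x} : Set G)).index := by
    intro x g hg
    by_contra hcon
    push Not at hcon
    obtain ⟨c1, c2⟩ := hcon
    simp only [H70.PiN] at c1 c2
    push Not at c1 c2
    obtain ⟨p, hp, hpd, hp1⟩ := c1
    obtain ⟨q, hq, hqd, hq2⟩ := c2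
    have hmem : (Subgroup.centralizer ({x} : Set G)).index ∈ {n : ℕ | ∃ x : G, IsConj x x⁻¹ ∧ (Subgroup.centralizer ({x} : Set G)).index = n} :=
      ⟨x, isConj_iff.2 ⟨g, hg⟩, rfl⟩
    have hp2 : p ∈ π₂ := (hcover p hp ⟨_, hmem, hpd⟩).resolve_left hp1
    have hq1 : q ∈ π₁ := (hcover q hq ⟨_, hmem, hqd⟩).resolve_right hq2
    exact hnoedge q hq1 p hp2 _ hmem ⟨hqd, hpd⟩
  obtain ⟨a, ha⟩ := hn₁
  obtain ⟨b, hb⟩ := hn₂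
  obtain ⟨hap, _, ⟨x₁, hx₁, rfl⟩, had⟩ := hsub a (Or.inl ha)
  obtain ⟨hbp, _, ⟨x₂, hx₂, rfl⟩, hbd⟩ := hsub b (Or.inr hb)
  obtain ⟨g₁, hg₁⟩ := isConj_iff.1 hx₁
  obtain ⟨g₂, hg₂⟩ := isConj_iff.1 hx₂
  have hN1 : ¬ H70.PiN π₂ (Subgroup.centralizer ({x₁} : Set G)).index := fun hc =>
    Set.disjoint_left.1 hdisj ha (hc a hap had)
  have hN2 : ¬ H70.PiN π₁ (Subgroup.centralizer ({x₂} : Set G)).index := fun hc =>
    Set.disjoint_left.1 hdisj (hc b hbp hbd) hb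
  constructor
  · obtain ⟨x, g, hg, hd⟩ := H70.exists_even_class hdisj hdich hg₁ hg₂ hN1 hN2
    exact ⟨_, ⟨x, isConj_iff.2 ⟨g, hg⟩, rfl⟩, hd⟩
  · by_cases hP : ∀ P : Sylow 2 G, (P : Subgroup G).Normal
    · exact Or.inl hP
    right
    by_cases h2 : 2 ∈ π₂
    · have h21 : 2 ∉ π₁ := fun hc => Set.disjoint_left.1 hdisj hc h2
      obtain ⟨k1, k2, k3⟩ := aux_core hdisj.symm h21 (fun x g hg => (hdich x g hg).symm) hg₁ hN1 hP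
      exact aux_graph k1 k2 k3
    · obtain ⟨k1, k2, k3⟩ := aux_core hdisj h2 hdich hg₂ hN2 hP
      exact aux_graph k1 k2 k3

end Cfsg.Agent.S4192
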