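import Cfsg.Statements.S4193
import Cfsg.Agent.FT.Real

set_option autoImplicit false
open Cfsg

namespace Cfsg.Agent.S4193

open Cfsg.Agent Subgroup

theorem solvable_of_normal_odd {G : Type*} [Group G] [Finite G] (N : Subgroup G) [N.Normal]
    (hN : Group.IsSolvable N) (hQ : Group.IsSolvable (G ⧸ N)) : Group.IsSolvable G :=
  (Group.isSolvable_iff_subgroup_quotient N).2 ⟨hN, hQ⟩

/-- Let G be a finite group in which the conjugacy classes of all non-central real elements (elements conjugate to their inverses) have sizes with the same 2-part, and suppose G has a Sylow 2-subgroup S such that every element of S that is conjugate in S to its inverse lies in the centre of S. Then G is solvable and the subgroup generated by the 2-elements of G (the smallest normal subgroup of odd index) has a normal 2-complement. -/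
theorem result {G : Type*} [Group G] [Finite G] (a : ℕ) (h : ∀ x : G, IsConj x x⁻¹ → x ∉ Subgroup.center G → ((Subgroup.centralizer ({x} : Set G)).index).factorization 2 = a) (S : Sylow 2 G) (hS : ∀ s : ↥(S : Subgroup G), IsConj s s⁻¹ → s ∈ Subgroup.center ↥(S : Subgroup G)) : Group.IsSolvable G ∧ Cfsg.HasNormalPComplement 2 ↥(Subgroup.closure {g : G | ∃ k : ℕ, orderOf g = 2 ^ k}) := by
  have h2p : Fact (Nat.Prime 2) := ⟨Nat.prime_two⟩
  by_cases hodd : ∀ x g : G, Odd (orderOf x) → g * x * g⁻¹ = x⁻¹ → x = 1
  · have hSn := H67.sylow_two_normal_of_no_odd_real hodd S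
    have hodd2 : ¬ 2 ∣ Nat.card (G ⧸ (S : Subgroup G)) := by
      rw [← Subgroup.index_eq_card]
      exact S.not_dvd_index
    refine ⟨solvable_of_normal_odd (S : Subgroup G) ?_ (FT.solvable_of_odd ?_), ?_⟩
    · have := S.2.isNilpotent
      infer_instance
    · rw [← Nat.not_even_iff_odd, even_iff_two_dvd]
      exact hodd2
    · apply Transfer.HasNPC.of_le (Transfer.hasNPC_of_isPGroup S.2)
      rw [closure_le]
      rintro x ⟨k, hk⟩
      rw [SetLike.mem_coe, ← QuotientGroup.eq_one_iff, ← orderOf_eq_one_iff, ← Nat.dvd_one]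
      have h1 : orderOf (x : G ⧸ (S : Subgroup G)) ∣ 2 ^ k := by
        rw [← hk]; exact orderOf_map_dvd (QuotientGroup.mk' (S : Subgroup G)) x
      have h3 : (2 ^ k).Coprime (Nat.card (G ⧸ (S : Subgroup G))) :=
        Nat.Coprime.pow_left k ((Nat.Prime.coprime_iff_not_dvd Nat.prime_two).2 hodd2)
      rw [← h3.gcd_eq_one]
      exact Nat.dvd_gcd h1 (orderOf_dvd_natCard _)
  · push Not at hodd
    obtain ⟨x, g, hx, hg, hx1⟩ := hodd
    have hreal : IsConj x x⁻¹ := isConj_iff.2 ⟨g, hg⟩
    have hne : x ≠ x⁻¹ := by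
      intro h1
      apply hx1
      have h3 : x ^ 2 = 1 := by rw [pow_two]; nth_rewrite 2 [h1]; exact mul_inv_cancel x
      have h4 := orderOf_dvd_of_pow_eq_one h3
      rcases (Nat.dvd_prime Nat.prime_two).1 h4 with h5 | h5
      · exact orderOf_eq_one_iff.1 h5
      · rw [h5] at hx; exact absurd hx (by decide)
    have hxc : x ∉ Subgroup.center G := by
      intro h1
      apply hne
      rw [← hg, mem_center_iff.1 h1 g, mul_inv_cancel_right]
    have ha := h x hreal hxc
    have ha1 : a ≠ 0 := by
      rw [← ha]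
      have h1 := FT.two_dvd_index_of_real hreal hne
      exact (Nat.prime_two.factorization_pos_of_dvd FiniteIndex.index_ne_zero h1).ne'
    have hnpc : Cfsg.HasNormalPComplement 2 G := by
      apply FT.two_nilpotent_of_real
      intro u hu hur
      by_contra huc
      obtain ⟨t, g, ht, hgS, hgt⟩ := FT.exists_conj_real hu hur S
      have h1 : (⟨t * u * t⁻¹, ht⟩ : (S : Subgroup G)) ∈ Subgroup.center ↥(S : Subgroup G) := by
        apply hS
        rw [isConj_iff]
        exact ⟨⟨g, hgS⟩, Subtype.ext hgt⟩
      have h2 : (S : Subgroup G) ≤ Subgroup.centralizer ({t * u * t⁻¹} : Set G) := by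
        intro s hs
        rw [mem_centralizer_singleton_iff]
        exact congrArg Subtype.val (mem_center_iff.1 h1 ⟨s, hs⟩)
      have h3 : ¬ 2 ∣ (Subgroup.centralizer ({t * u * t⁻¹} : Set G)).index := by
        intro h3
        exact S.not_dvd_index (h3.trans (Subgroup.index_dvd_of_le h2))
      have h4 : IsConj (t * u * t⁻¹) (t * u * t⁻¹)⁻¹ := isConj_iff.2 ⟨g, hgt⟩
      have h5 : t * u * t⁻¹ ∉ Subgroup.center G := by
        intro h5
        apply huc
        have h6 : t * u * t⁻¹ = u := by
          have h7 := mem_center_iff.1 h5 t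
          have h8 : t * (t * u * t⁻¹) = t * u := by rw [h7]; group
          exact mul_left_cancel h8
        rwa [h6] at h5
      have h6 := h _ h4 h5
      rw [Nat.factorization_eq_zero_of_not_dvd h3] at h6
      exact ha1 h6.symm
    refine ⟨?_, Transfer.HasNPC.subgroup hnpc _⟩
    obtain ⟨N, hN, hNc, k, hk⟩ := Transfer.hasNPC_iff_exists.1 hnpc
    have hNodd : Odd (Nat.card N) := by
      rw [← Nat.not_even_iff_odd, even_iff_two_dvd]
      exact (Nat.Prime.coprime_iff_not_dvd Nat.prime_two).1 hNc.symm
    apply solvable_of_normal_odd N (FT.solvable_of_odd hNodd)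
    have h1 : IsPGroup 2 (G ⧸ N) := IsPGroup.of_card (by rw [← Subgroup.index_eq_card, hk])
    have := h1.isNilpotent
    infer_instance

end Cfsg.Agent.S4193
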