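import Cfsg.Statements.S4194
import Cfsg.Agent.Fus.TwoCenGroup

set_option autoImplicit false
open Cfsg

namespace Cfsg.Agent.S4194

/-- A finite group G has commutative Sylow 2-subgroups if and only if every 2-element of G (element of order a power of 2) is 2-central, that is, its centralizer contains a Sylow 2-subgroup of G. -/
theorem result {G : Type*} [Group G] [Finite G] (P : Sylow 2 G) :
    IsMulCommutative (P : Subgroup G) ↔ ∀ x : G, (∃ k : ℕ, orderOf x = 2 ^ k) → (∃ Q : Sylow 2 G, (Q : Subgroup G) ≤ Subgroup.centralizer ({x} : Set G)) := by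
  constructor
  · intro hP x hx
    obtain ⟨k, hk⟩ := hx
    haveI := Fact.mk Nat.prime_two
    have h1 : IsPGroup 2 (Subgroup.zpowers x) := IsPGroup.iff_card.2 ⟨k, by rw [Nat.card_zpowers, hk]⟩
    obtain ⟨Q, hQ⟩ := h1.exists_le_sylow
    refine ⟨Q, ?_⟩
    intro y hy
    rw [Subgroup.mem_centralizer_singleton_iff]
    have hxQ : x ∈ (Q : Subgroup G) := hQ (Subgroup.mem_zpowers x)
    have e := (Sylow.equiv P Q)
    have hcomm : (⟨y, hy⟩ : (Q : Subgroup G)) * ⟨x, hxQ⟩ = ⟨x, hxQ⟩ * ⟨y, hy⟩ := by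
      apply e.symm.injective
      rw [map_mul, map_mul]
      exact hP.is_comm.comm _ _
    exact congrArg Subtype.val hcomm
  · intro h
    exact ⟨⟨fun a b => Subtype.ext (Cfsg.Agent.TwoCen.sylow_abelian h P a a.2 b b.2)⟩⟩

end Cfsg.Agent.S4194
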