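import Cfsg.Statements.S4195
-- import your own Cfsg.Agent.* helpers here

set_option autoImplicit false
open Cfsg

namespace Cfsg.Agent.S4195

/-- Let x be a non-identity element of a finite group G whose centralizer contains a Sylow 2-subgroup of G. If x is conjugate to its inverse, then x has order 2. -/
theorem result {G : Type*} [Group G] [Finite G] (x : G) (hx : x ≠ 1) (P : Sylow 2 G) (hP : (P : Subgroup G) ≤ Subgroup.centralizer ({x} : Set G)) (hreal : IsConj x x⁻¹) : orderOf x = 2 := by
  classical
  by_contra hne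
  have hx2 : x ^ 2 ≠ 1 := fun h => hne (orderOf_eq_prime h hx)
  -- the group of elements g with g x g⁻¹ ∈ {x, x⁻¹}
  obtain ⟨c, hc⟩ := isConj_iff.mp hreal
  let N : Subgroup G :=
    { carrier := {g : G | g * x * g⁻¹ = x ∨ g * x * g⁻¹ = x⁻¹}
      one_mem' := by simp
      mul_mem' := by
        intro a b ha hb
        have e : ∀ y : G, a * b * y * (a * b)⁻¹ = a * (b * y * b⁻¹) * a⁻¹ := by intro y; group
        have ei : a * x⁻¹ * a⁻¹ = (a * x * a⁻¹)⁻¹ := by group
        simp only [Set.mem_setOf_eq] at *
        rw [e x]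
        rcases hb with hb | hb <;> rw [hb]
        · exact ha
        · rw [ei]
          rcases ha with ha | ha <;> rw [ha] <;> simp
      inv_mem' := by
        intro a ha
        simp only [Set.mem_setOf_eq] at *
        rcases ha with ha | ha
        · left
          calc a⁻¹ * x * a⁻¹⁻¹ = a⁻¹ * (a * x * a⁻¹) * a := by rw [ha]; group
            _ = x := by group
        · right
          calc a⁻¹ * x * a⁻¹⁻¹ = a⁻¹ * (x⁻¹)⁻¹ * a := by group
            _ = a⁻¹ * (a * x * a⁻¹)⁻¹ * a := by rw [ha]
            _ = x⁻¹ := by group }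
  have hCN : Subgroup.centralizer ({x} : Set G) ≤ N := by
    intro g hg
    left
    have := Subgroup.mem_centralizer_singleton_iff.mp hg
    rw [this]; group
  have h2 : (Subgroup.centralizer ({x} : Set G)).relIndex N = 2 := by
    rw [Subgroup.relIndex_eq_two_iff]
    refine ⟨c, Or.inr hc, ?_⟩
    intro b hb
    have hxx : x ≠ x⁻¹ := by
      intro h
      apply hx2
      rw [pow_two]
      nth_rewrite 2 [h]
      group
    have e : b * c * x * (b * c)⁻¹ = b * (c * x * c⁻¹) * b⁻¹ := by group
    have ei : b * x⁻¹ * b⁻¹ = (b * x * b⁻¹)⁻¹ := by group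
    rw [Subgroup.mem_centralizer_singleton_iff, Subgroup.mem_centralizer_singleton_iff]
    have f1 : ∀ g : G, g * x = x * g ↔ g * x * g⁻¹ = x := by
      intro g; exact (mul_inv_eq_iff_eq_mul).symm
    rw [f1, f1, e, hc, ei]
    rcases hb with hb | hb
    · rw [hb]
      right
      exact ⟨rfl, fun h => hxx h.symm⟩
    · rw [hb]
      left
      exact ⟨by simp, fun h => hxx h.symm⟩
  have hodd : ¬ 2 ∣ (P : Subgroup G).index := P.not_dvd_index
  apply hodd
  have h3 := Subgroup.relIndex_mul_index hCN
  have h4 : (Subgroup.centralizer ({x} : Set G)).index ∣ (P : Subgroup G).index :=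
    Subgroup.index_dvd_of_le hP
  exact dvd_trans ⟨_, by rw [← h3, h2]⟩ h4

end Cfsg.Agent.S4195
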