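import Cfsg.Statements.S4196
import Cfsg.Agent.S4195

set_option autoImplicit false
open Cfsg

namespace Cfsg.Agent.S4196

open scoped Pointwise in
theorem sylow_conj_mem {G : Type*} [Group G] {p : ℕ} (P Q : Sylow p G) (g : G) (hg : g • P = Q)
    (y : G) (hy : y ∈ (Q : Subgroup G)) : ∃ z ∈ (P : Subgroup G), y = g * z * g⁻¹ := by
  rw [← hg] at hy
  have : y ∈ MulAut.conj g • (P : Subgroup G) := hy
  rw [Subgroup.mem_pointwise_smul_iff_inv_smul_mem] at this
  refine ⟨_, this, ?_⟩
  simp [mul_assoc]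

/-- A finite group G has elementary abelian Sylow 2-subgroups (commutative with every element squaring to the identity) if and only if every 2-element of G has a Sylow 2-subgroup in its centralizer and is conjugate to its inverse. -/
theorem result {G : Type*} [Group G] [Finite G] (P : Sylow 2 G) :
    (IsMulCommutative (P : Subgroup G) ∧ ∀ x ∈ (P : Subgroup G), x ^ 2 = 1) ↔
      ∀ x : G, (∃ k : ℕ, orderOf x = 2 ^ k) → (∃ Q : Sylow 2 G, (Q : Subgroup G) ≤ Subgroup.centralizer ({x} : Set G)) ∧ IsConj x x⁻¹ := by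
  classical
  constructor
  · rintro ⟨hab, h2⟩ x ⟨k, hk⟩
    -- x lies in some Sylow 2-subgroup
    have hz : IsPGroup 2 (Subgroup.zpowers x) := by
      rw [IsPGroup.iff_card, Nat.card_zpowers]
      exact ⟨k, hk⟩
    obtain ⟨Q, hQ⟩ := hz.exists_le_sylow
    obtain ⟨g, hg⟩ := MulAction.exists_smul_eq G P Q
    have hxQ : x ∈ (Q : Subgroup G) := hQ (Subgroup.mem_zpowers x)
    have hQe : ∀ y ∈ (Q : Subgroup G), ∃ z ∈ (P : Subgroup G), y = g * z * g⁻¹ :=
      sylow_conj_mem P Q g hg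
    obtain ⟨z, hzP, hxz⟩ := hQe x hxQ
    have hx2 : x ^ 2 = 1 := by
      have := h2 z hzP
      rw [hxz, conj_pow, this]; simp
    refine ⟨⟨Q, ?_⟩, ?_⟩
    · intro y hy
      rw [Subgroup.mem_centralizer_singleton_iff]
      obtain ⟨w, hw, rfl⟩ := hQe y hy
      have hc : w * z = z * w := by
        have := hab.is_comm.comm (⟨w, hw⟩ : (P : Subgroup G)) ⟨z, hzP⟩
        exact congrArg Subtype.val this
      rw [hxz]
      calc g * w * g⁻¹ * (g * z * g⁻¹) = g * (w * z) * g⁻¹ := by group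
        _ = g * (z * w) * g⁻¹ := by rw [hc]
        _ = g * z * g⁻¹ * (g * w * g⁻¹) := by group
    · have : x⁻¹ = x := by
        rw [inv_eq_iff_mul_eq_one, ← pow_two, hx2]
      rw [this]
  · intro h
    have h2 : ∀ x ∈ (P : Subgroup G), x ^ 2 = 1 := by
      intro x hx
      by_cases h1 : x = 1
      · simp [h1]
      have hk : ∃ k : ℕ, orderOf x = 2 ^ k := by
        obtain ⟨k, hk⟩ := (IsPGroup.iff_orderOf.mp P.isPGroup') ⟨x, hx⟩
        exact ⟨k, by rw [← hk, Subgroup.orderOf_mk]⟩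
      obtain ⟨⟨Q, hQ⟩, hr⟩ := h x hk
      have := Cfsg.Agent.S4195.result x h1 Q hQ hr
      rw [← this]; exact pow_orderOf_eq_one x
    refine ⟨⟨⟨?_⟩⟩, h2⟩
    rintro ⟨a, ha⟩ ⟨b, hb⟩
    apply Subtype.ext
    have e1 := h2 a ha
    have e2 := h2 b hb
    have e3 := h2 (a * b) (mul_mem ha hb)
    show a * b = b * a
    rw [pow_two] at e1 e2 e3
    calc a * b = a * (a * b * (a * b)) * b := by rw [e3]; group
      _ = (a * a) * (b * a) * (b * b) := by group
      _ = b * a := by rw [e1, e2]; group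

end Cfsg.Agent.S4196
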