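import Cfsg.Statements.S4201
import Mathlib
import Cfsg.Agent.H70.ClassNumber

set_option autoImplicit false
open Cfsg

namespace Cfsg.Agent.S4201

/-- If N is a normal subgroup of the finite group X then k(X) ≤ k(N)·k(X ⧸ N), where k denotes the number of conjugacy classes. -/
theorem result {X : Type*} [Group X] [Finite X] (N : Subgroup X) [N.Normal] : Nat.card (ConjClasses X) ≤ Nat.card (ConjClasses N) * Nat.card (ConjClasses (X ⧸ N)) := by
  classical
  have : Fintype X := Fintype.ofFinite X
  have : Fintype (X ⧸ N) := Fintype.ofFinite _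
  have hX := Cfsg.Agent.H70.card_commuting_eq_sum (X := X)
  have hN := Cfsg.Agent.H70.card_commuting_eq_sum (X := N)
  have hQ := Cfsg.Agent.H70.card_commuting_eq_sum (X := X ⧸ N)
  -- pointwise bound
  have hle : ∀ x : X, Nat.card {y : X // Commute x y} ≤
      Nat.card {z : X ⧸ N // Commute (x : X ⧸ N) z} * Nat.card {n : N // Commute x (n : X)} := by
    intro x
    -- fibres of C_X(x) → C_{X/N}(xN)
    let f : {y : X // Commute x y} → {z : X ⧸ N // Commute (x : X ⧸ N) z} := fun y =>
      ⟨(y.1 : X ⧸ N), by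
        have := congrArg (fun g : X => (g : X ⧸ N)) y.2.eq
        exact this⟩
    have hfib : ∀ z, Nat.card {y : {y : X // Commute x y} // f y = z} ≤ Nat.card {n : N // Commute x (n : X)} := by
      intro z
      by_cases hz : ∃ y0, f y0 = z
      · obtain ⟨y0, hy0⟩ := hz
        refine Nat.card_le_card_of_injective (fun y => (⟨⟨y0.1⁻¹ * y.1.1, ?_⟩, ?_⟩ : {n : N // Commute x (n : X)})) ?_
        · have h1 : f y0 = f y.1 := by rw [hy0, y.2]
          have h2 := congrArg Subtype.val h1
          exact QuotientGroup.eq.mp h2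
        · exact (y0.2.inv_right).mul_right y.1.2
        · intro a b hab
          have h1 := congrArg (fun q : {n : N // Commute x (n : X)} => ((q.1 : N) : X)) hab
          have h2 : a.1.1 = b.1.1 := mul_left_cancel h1
          exact Subtype.ext (Subtype.ext h2)
      · have : IsEmpty {y : {y : X // Commute x y} // f y = z} := ⟨fun y => hz ⟨y.1, y.2⟩⟩
        simp
    have h1 : Nat.card {y : X // Commute x y} = ∑ z, Nat.card {y : {y : X // Commute x y} // f y = z} := by
      rw [← Nat.card_sigma]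
      exact Nat.card_congr (Equiv.sigmaFiberEquiv f).symm
    rw [h1]
    refine le_trans (Finset.sum_le_card_nsmul _ _ _ (fun z _ => hfib z)) ?_
    rw [smul_eq_mul, Finset.card_univ, Nat.card_eq_fintype_card (α := {z : X ⧸ N // Commute (x : X ⧸ N) z})]
  -- sum over a coset
  have hcoset : ∀ q : X ⧸ N, ∑ x : {x : X // (x : X ⧸ N) = q}, Nat.card {n : N // Commute x.1 (n : X)} ≤
      Nat.card (ConjClasses N) * Nat.card N := by
    intro q
    rw [hN]
    have h1 : ∑ x : {x : X // (x : X ⧸ N) = q}, Nat.card {n : N // Commute x.1 (n : X)} =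
        ∑ n : N, Nat.card {x : {x : X // (x : X ⧸ N) = q} // Commute x.1 (n : X)} := by
      rw [← Nat.card_sigma, ← Nat.card_sigma]
      apply Nat.card_congr
      exact ⟨fun p => ⟨p.2.1, ⟨p.1, p.2.2⟩⟩, fun p => ⟨p.2.1, ⟨p.1, p.2.2⟩⟩, fun p => rfl, fun p => rfl⟩
    rw [h1]
    refine Finset.sum_le_sum fun n _ => ?_
    by_cases hz : Nonempty {x : {x : X // (x : X ⧸ N) = q} // Commute x.1 (n : X)}
    · obtain ⟨x0⟩ := hz
      refine Nat.card_le_card_of_injective (fun x => (⟨⟨x0.1.1⁻¹ * x.1.1, ?_⟩, ?_⟩ : {y : N // Commute n y})) ?_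
      · have h1 : (x0.1.1 : X ⧸ N) = (x.1.1 : X ⧸ N) := by rw [x0.1.2, x.1.2]
        exact QuotientGroup.eq.mp h1
      · apply Subtype.ext
        exact (((x0.2.symm).inv_right).mul_right x.2.symm).eq
      · intro a b hab
        have h1 := congrArg (fun q : {y : N // Commute n y} => ((q.1 : N) : X)) hab
        have h2 : a.1.1 = b.1.1 := mul_left_cancel h1
        exact Subtype.ext (Subtype.ext h2)
    · rw [not_nonempty_iff] at hz
      simp
  have hsum : ∑ x : X, Nat.card {z : X ⧸ N // Commute (x : X ⧸ N) z} * Nat.card {n : N // Commute x (n : X)} ≤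
      (Nat.card (ConjClasses N) * Nat.card N) * (Nat.card (ConjClasses (X ⧸ N)) * Nat.card (X ⧸ N)) := by
    rw [hQ, Finset.mul_sum]
    have e : ∑ x : X, Nat.card {z : X ⧸ N // Commute (x : X ⧸ N) z} * Nat.card {n : N // Commute x (n : X)} =
        ∑ q : X ⧸ N, ∑ x : {x : X // (x : X ⧸ N) = q}, Nat.card {z : X ⧸ N // Commute (x.1 : X ⧸ N) z} * Nat.card {n : N // Commute x.1 (n : X)} := by
      exact (Fintype.sum_fiberwise (fun x : X => (x : X ⧸ N)) _).symm
    rw [e]
    refine Finset.sum_le_sum fun q _ => ?_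
    have e2 : ∀ x : {x : X // (x : X ⧸ N) = q}, Nat.card {z : X ⧸ N // Commute (x.1 : X ⧸ N) z} * Nat.card {n : N // Commute x.1 (n : X)} =
        Nat.card {z : X ⧸ N // Commute q z} * Nat.card {n : N // Commute x.1 (n : X)} := by
      intro x; rw [x.2]
    rw [Finset.sum_congr rfl (fun x _ => e2 x), ← Finset.mul_sum, mul_comm]
    exact Nat.mul_le_mul_right _ (hcoset q)
  have hfin : Nat.card (ConjClasses X) * Nat.card X ≤
      (Nat.card (ConjClasses N) * Nat.card N) * (Nat.card (ConjClasses (X ⧸ N)) * Nat.card (X ⧸ N)) := by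
    rw [hX]
    exact le_trans (Finset.sum_le_sum fun x _ => hle x) hsum
  have hc : Nat.card X = Nat.card (X ⧸ N) * Nat.card N := Subgroup.card_eq_card_quotient_mul_card_subgroup N
  rw [hc] at hfin
  apply Nat.le_of_mul_le_mul_right _ (Nat.mul_pos (Nat.card_pos (α := X ⧸ N)) (Nat.card_pos (α := N)))
  calc _ ≤ _ := hfin
    _ = _ := by ring

end Cfsg.Agent.S4201
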