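import Cfsg.Statements.S4230
import Mathlib

set_option autoImplicit false
open Cfsg

namespace Cfsg.Agent.S4230

/-- Let p be an odd prime, q a natural number not divisible by p, and e the multiplicative order of q modulo p. For a natural number f, p divides the value at q of the f-th cyclotomic polynomial if and only if f = e·p^j for some j ≥ 0. -/
theorem result (p q f : ℕ) (hp : p.Prime) (hp2 : p ≠ 2) (hpq : ¬ p ∣ q) :
    ((p : ℤ) ∣ (Polynomial.cyclotomic f ℤ).eval (q : ℤ)) ↔ ∃ j : ℕ, f = orderOf (q : ZMod p) * p ^ j := by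
  haveI : Fact p.Prime := ⟨hp⟩
  have hq0 : (q : ZMod p) ≠ 0 := by
    rw [Ne, ZMod.natCast_eq_zero_iff]; exact hpq
  have hepos : 0 < orderOf (q : ZMod p) := by
    rw [orderOf_pos_iff]
    exact isOfFinOrder_iff_pow_eq_one.mpr ⟨p - 1, Nat.sub_pos_of_lt hp.one_lt, ZMod.pow_card_sub_one_eq_one hq0⟩
  have hedvd : orderOf (q : ZMod p) ∣ p - 1 := orderOf_dvd_of_pow_eq_one (ZMod.pow_card_sub_one_eq_one hq0)
  have hpe : ¬ p ∣ orderOf (q : ZMod p) := by
    intro h
    have h1 := Nat.le_of_dvd (Nat.sub_pos_of_lt hp.one_lt) (dvd_trans h hedvd)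
    have := hp.one_lt
    omega
  rcases Nat.eq_zero_or_pos f with hf | hf
  · subst hf
    simp only [Polynomial.cyclotomic_zero, Polynomial.eval_one]
    constructor
    · intro h
      exfalso
      have : (p : ℤ) ∣ ((1 : ℕ) : ℤ) := by simpa using h
      rw [Int.natCast_dvd_natCast] at this
      exact hp.one_lt.ne' (Nat.dvd_one.mp this)
    · rintro ⟨j, hj⟩
      exfalso
      have : 0 < orderOf (q : ZMod p) * p ^ j := Nat.mul_pos hepos (pow_pos hp.pos j)
      omega
  · obtain ⟨k, m, hm, hfm⟩ := Nat.exists_eq_pow_mul_and_not_dvd hf.ne' p hp.one_lt.ne'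
    have hm0 : (m : ZMod p) ≠ 0 := by rw [Ne, ZMod.natCast_eq_zero_iff]; exact hm
    haveI : NeZero (m : ZMod p) := ⟨hm0⟩
    have h1 : ((p : ℤ) ∣ (Polynomial.cyclotomic f ℤ).eval (q : ℤ)) ↔
        (Polynomial.cyclotomic f (ZMod p)).IsRoot (q : ZMod p) := by
      rw [Polynomial.IsRoot.def, ← ZMod.intCast_zmod_eq_zero_iff_dvd]
      rw [← Polynomial.map_cyclotomic_int f (ZMod p), Polynomial.eval_map]
      rw [show ((q : ZMod p)) = Int.castRingHom (ZMod p) (q : ℤ) by simp, Polynomial.eval₂_at_apply]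
      simp
    rw [h1, hfm, Polynomial.isRoot_cyclotomic_prime_pow_mul_iff_of_charP]
    constructor
    · intro h
      refine ⟨k, ?_⟩
      rw [h.eq_orderOf, mul_comm]
    · rintro ⟨j, hj⟩
      have h2 : m = orderOf (q : ZMod p) := by
        have ha : m ∣ orderOf (q : ZMod p) * p ^ j := ⟨p ^ k, by rw [← hj, mul_comm]⟩
        have hb : orderOf (q : ZMod p) ∣ m * p ^ k := ⟨p ^ j, by rw [← hj, mul_comm]⟩
        apply Nat.dvd_antisymm
        · exact Nat.Coprime.dvd_of_dvd_mul_right (Nat.Coprime.pow_right _ ((Nat.Prime.coprime_iff_not_dvd hp).mpr hm).symm) ha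
        · exact Nat.Coprime.dvd_of_dvd_mul_right (Nat.Coprime.pow_right _ ((Nat.Prime.coprime_iff_not_dvd hp).mpr hpe).symm) hb
      rw [h2]
      exact IsPrimitiveRoot.orderOf _

end Cfsg.Agent.S4230
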