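import Cfsg.Statements.S4236
import Mathlib
import Cfsg.Agent.Solv.Frattini

set_option autoImplicit false
open Cfsg

namespace Cfsg.Agent.S4236

open Subgroup MulAction

theorem card_sylow_quotient {G : Type*} [Group G] [Finite G] (p : ℕ) [Fact p.Prime] (K : Subgroup G)
    [K.Normal] (hK : ∀ P : Sylow p G, K ≤ normalizer (P : Set G)) :
    Nat.card (Sylow p (G ⧸ K)) = Nat.card (Sylow p G) := by
  symm
  have hsurj := QuotientGroup.mk'_surjective K
  apply Nat.card_congr
  refine Equiv.ofBijective (Sylow.mapSurjective hsurj) ⟨?_, Sylow.mapSurjective_surjective hsurj p⟩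
  intro P Q hPQ
  have h1 : (P : Subgroup G).map (QuotientGroup.mk' K) = (Q : Subgroup G).map (QuotientGroup.mk' K) :=
    congrArg (fun R : Sylow p (G ⧸ K) => (R : Subgroup (G ⧸ K))) hPQ
  have h2 : (P : Subgroup G) ≤ normalizer (Q : Set G) := by
    have h3 : (P : Subgroup G) ≤ (Q : Subgroup G) ⊔ K := by
      have h4 := congrArg (Subgroup.comap (QuotientGroup.mk' K)) h1
      rw [comap_map_eq, comap_map_eq, QuotientGroup.ker_mk'] at h4
      rw [← h4]; exact le_sup_left
    exact h3.trans (sup_le le_normalizer (hK Q))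
  have h3 := P.isPGroup'.inf_normalizer_sylow Q
  rw [inf_eq_left.mpr h2] at h3
  have h4 : (P : Subgroup G) ≤ Q := by rw [h3]; exact inf_le_right
  exact Sylow.ext (P.3 Q.2 h4).symm

theorem card_sylow_normal {G : Type*} [Group G] [Finite G] (p : ℕ) [Fact p.Prime] (N : Subgroup G)
    [N.Normal] (hN : ¬ p ∣ N.index) :
    Nat.card (Sylow p N) = Nat.card (Sylow p G) := by
  symm
  have hle : ∀ P : Sylow p G, (P : Subgroup G) ≤ N := by
    intro P x hx
    rw [← QuotientGroup.eq_one_iff, ← orderOf_eq_one_iff]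
    obtain ⟨k, hk⟩ := P.isPGroup' ⟨x, hx⟩
    have h1 : x ^ p ^ k = 1 := congrArg Subtype.val hk
    have h2 : orderOf (x : G ⧸ N) ∣ p ^ k := by
      apply orderOf_dvd_of_pow_eq_one
      rw [← QuotientGroup.mk_pow, h1]; rfl
    have h3 : orderOf (x : G ⧸ N) ∣ N.index := by
      rw [index_eq_card]; exact orderOf_dvd_natCard _
    exact Nat.eq_one_of_dvd_coprimes
      (Nat.Coprime.pow_left k ((Nat.Prime.coprime_iff_not_dvd Fact.out).mpr hN)) h2 h3
  apply Nat.card_congr
  refine Equiv.ofBijective (fun P => P.subtype (hle P)) ⟨?_, ?_⟩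
  · intro P Q h
    exact Sylow.subtype_injective h
  · intro R
    have hp : IsPGroup p ((R : Subgroup N).map N.subtype) := R.2.map _
    have hi : ¬ p ∣ ((R : Subgroup N).map N.subtype).index := by
      rw [index_map_subtype]
      exact Nat.Prime.not_dvd_mul Fact.out R.not_dvd_index hN
    refine ⟨hp.toSylow hi, ?_⟩
    apply Sylow.ext
    rw [Sylow.coe_subtype]
    change ((R : Subgroup N).map N.subtype).subgroupOf N = R
    rw [subgroupOf, comap_map_eq_self_of_injective N.subtype_injective]

section Main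

variable {G : Type*} [Group G] [Finite G] (h35 : Nat.card (Sylow 17 G) = 35)
  (hfaith : ∀ g : G, (∀ P : Sylow 17 G, g • P = P) → g = 1)

local instance fact17 : Fact (Nat.Prime 17) := ⟨by norm_num⟩

omit [Finite G] in
/-- an element normalizing `P` permutes the orbits. -/
theorem smul_orbit (P Q Q' : Sylow 17 G) (y : G) (hy : y ∈ normalizer (P : Set G))
    (h : Q' ∈ orbit (P : Subgroup G) Q) : y • Q' ∈ orbit (P : Subgroup G) (y • Q) := by
  obtain ⟨⟨a, ha⟩, rfl⟩ := h
  refine ⟨⟨y * a * y⁻¹, ((mem_normalizer_iff).mp hy a).mp ha⟩, ?_⟩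
  change (y * a * y⁻¹) • (y • Q) = y • (a • Q)
  rw [smul_smul, smul_smul]
  congr 1
  group

omit [Finite G] in
theorem smul_ne (P Q : Sylow 17 G) (y : G) (hy : y ∈ normalizer (P : Set G)) (h : Q ≠ P) : y • Q ≠ P := by
  intro h1
  apply h
  have h2 : y • P = P := Sylow.smul_eq_iff_mem_normalizer.mpr hy
  rw [← h2] at h1
  exact smul_left_cancel y h1

include h35

/-- orbits of a Sylow subgroup on the others have size 17. -/
theorem card_orbit (P Q : Sylow 17 G) (hPQ : Q ≠ P) : Nat.card (orbit (P : Subgroup G) Q) = 17 := by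
  obtain ⟨n, hn⟩ := P.isPGroup'.card_orbit Q
  have h1 : n ≠ 0 := by
    rintro rfl
    rw [pow_zero] at hn
    apply hPQ
    have h2 : Q ∈ fixedPoints (P : Subgroup G) (Sylow 17 G) := by
      rw [← subsingleton_orbit_iff_mem_fixedPoints, ← Set.subsingleton_coe]
      exact (Nat.card_eq_one_iff_unique.mp hn).1
    rw [P.isPGroup'.sylow_mem_fixedPoints_iff] at h2
    exact Sylow.ext (P.3 Q.2 h2)
  have h2 : Nat.card (orbit (P : Subgroup G) Q) ≤ 35 := by
    rw [← h35]
    exact Nat.card_le_card_of_injective _ Subtype.val_injective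
  have h3 : n < 2 := by
    by_contra h4
    push Not at h4
    have h5 : 17 ^ 2 ≤ 17 ^ n := Nat.pow_le_pow_right (by norm_num) h4
    omega
  have h4 : n = 1 := by omega
  rw [hn, h4, pow_one]

/-- two orbits -/
theorem two_orbits (P Q₁ Q₂ Q : Sylow 17 G) (h1 : Q₁ ≠ P) (h2 : Q₂ ≠ P) (h3 : Q ≠ P)
    (h12 : Q₂ ∉ orbit (P : Subgroup G) Q₁) :
    Q ∈ orbit (P : Subgroup G) Q₁ ∨ Q ∈ orbit (P : Subgroup G) Q₂ := by
  by_contra hcon
  push Not at hcon
  obtain ⟨h4, h5⟩ := hcon
  have c1 : (orbit (P : Subgroup G) Q₁).ncard = 17 := card_orbit h35 P Q₁ h1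
  have c2 : (orbit (P : Subgroup G) Q₂).ncard = 17 := card_orbit h35 P Q₂ h2
  have c3 : (orbit (P : Subgroup G) Q).ncard = 17 := card_orbit h35 P Q h3
  have hdis : ∀ A B : Sylow 17 G, B ∉ orbit (P : Subgroup G) A →
      Disjoint (orbit (P : Subgroup G) A) (orbit (P : Subgroup G) B) := by
    intro A B hAB
    rcases orbit.eq_or_disjoint (G := (P : Subgroup G)) A B with h | h
    · exfalso; apply hAB; rw [h]; exact mem_orbit_self B
    · exact h
  have d12 := hdis Q₁ Q₂ h12
  have d13 := hdis Q₁ Q h4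
  have d23 := hdis Q₂ Q h5
  have c4 : (orbit (P : Subgroup G) Q₁ ∪ orbit (P : Subgroup G) Q₂).ncard = 34 := by
    rw [Set.ncard_union_eq d12 (Set.toFinite _) (Set.toFinite _), c1, c2]
  have c5 : ((orbit (P : Subgroup G) Q₁ ∪ orbit (P : Subgroup G) Q₂) ∪ orbit (P : Subgroup G) Q).ncard = 51 := by
    rw [Set.ncard_union_eq (Set.disjoint_union_left.mpr ⟨d13, d23⟩) (Set.toFinite _) (Set.toFinite _), c4, c3]
  have c6 := Set.ncard_le_ncard (Set.subset_univ ((orbit (P : Subgroup G) Q₁ ∪ orbit (P : Subgroup G) Q₂) ∪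
    orbit (P : Subgroup G) Q)) (Set.toFinite _)
  rw [c5, Set.ncard_univ, h35] at c6
  omega

/-- elements of odd order in the normalizer fix each orbit -/
theorem orbit_fixed_of_odd (P Q : Sylow 17 G) (y : G) (hy : y ∈ normalizer (P : Set G))
    (hodd : Odd (orderOf y)) (h : Q ≠ P) : y • Q ∈ orbit (P : Subgroup G) Q := by
  by_contra hcon
  have hyQ := smul_ne P Q y hy h
  -- `y² Q` lies in the orbit of `Q`
  have key : ∀ A : Sylow 17 G, A ≠ P → A ∈ orbit (P : Subgroup G) Q → y • y • A ∈ orbit (P : Subgroup G) Q := by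
    intro A hA hAQ
    have h1 : y • A ∈ orbit (P : Subgroup G) (y • Q) := smul_orbit P Q A y hy hAQ
    have h2 : y • y • A ≠ P := smul_ne P _ y hy (smul_ne P A y hy hA)
    rcases two_orbits h35 P Q (y • Q) (y • y • A) h hyQ h2 hcon with h3 | h3
    · exact h3
    · exfalso
      -- then `y A ∈ orbit Q`
      have h4 : y⁻¹ • (y • y • A) ∈ orbit (P : Subgroup G) (y⁻¹ • (y • Q)) :=
        smul_orbit P (y • Q) _ y⁻¹ (inv_mem hy) h3
      rw [inv_smul_smul, inv_smul_smul] at h4
      have h5 : orbit (P : Subgroup G) (y • Q) = orbit (P : Subgroup G) Q := by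
        rw [← orbit_eq_iff.mpr h1, orbit_eq_iff.mpr h4]
      exact hcon (h5 ▸ mem_orbit_self _)
  have key2 : ∀ k : ℕ, (y ^ 2) ^ k • Q ∈ orbit (P : Subgroup G) Q ∧ (y ^ 2) ^ k • Q ≠ P := by
    intro k
    induction k with
    | zero => rw [pow_zero, one_smul]; exact ⟨mem_orbit_self Q, h⟩
    | succ k ih =>
      have h1 : (y ^ 2) ^ (k + 1) • Q = y • y • ((y ^ 2) ^ k • Q) := by
        rw [pow_succ', mul_smul]
        nth_rewrite 1 [pow_two]
        rw [mul_smul]
      rw [h1]
      exact ⟨key _ ih.2 ih.1, smul_ne P _ y hy (smul_ne P _ y hy ih.2)⟩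
  obtain ⟨l, hl⟩ := hodd
  apply hcon
  have h1 : (y ^ 2) ^ (l + 1) = y := by
    rw [← pow_mul, show 2 * (l + 1) = orderOf y + 1 by rw [hl]; ring, pow_succ, pow_orderOf_eq_one,
      one_mul]
  have h2 := (key2 (l + 1)).1
  rwa [h1] at h2

/-- an element of prime order `≠ 17` fixing an orbit has a fixed point there, and the number of
fixed points is congruent to 17. -/
theorem card_fixed_modEq (P Q : Sylow 17 G) (y : G) (hy : y ∈ normalizer (P : Set G)) {r : ℕ}
    (hr : r.Prime) (hyr : y ^ r = 1) (h : Q ≠ P) (hyQ : y • Q ∈ orbit (P : Subgroup G) Q) :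
    Nat.card {A : Sylow 17 G // A ∈ orbit (P : Subgroup G) Q ∧ y • A = A} ≡ 17 [MOD r] := by
  classical
  haveI := Fact.mk hr
  haveI : Fintype (Sylow 17 G) := Fintype.ofFinite _
  have hinv : ∀ A : Sylow 17 G, A ∈ orbit (P : Subgroup G) Q → y • A ∈ orbit (P : Subgroup G) Q := by
    intro A hA
    have h1 := smul_orbit P Q A y hy hA
    rwa [orbit_eq_iff.mpr hyQ] at h1
  let f : Function.End {A : Sylow 17 G // A ∈ orbit (P : Subgroup G) Q} := fun A => ⟨y • A.1, hinv A.1 A.2⟩
  have hf : ∀ (k : ℕ) (A : {A : Sylow 17 G // A ∈ orbit (P : Subgroup G) Q}),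
      ((f ^ k : Function.End _) A).1 = y ^ k • A.1 := by
    intro k
    induction k with
    | zero => intro A; rw [pow_zero, pow_zero, one_smul]; rfl
    | succ k ih =>
      intro A
      rw [pow_succ', pow_succ']
      change y • ((f ^ k : Function.End _) A).1 = _
      rw [ih, mul_smul]
  have hf1 : f ^ r ^ 1 = 1 := by
    funext A
    apply Subtype.ext
    rw [hf, pow_one, hyr, one_smul]
    rfl
  have h1 := Equiv.Perm.card_fixedPoints_modEq hf1
  have h2 : Fintype.card {A : Sylow 17 G // A ∈ orbit (P : Subgroup G) Q} = 17 := by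
    rw [← Nat.card_eq_fintype_card]
    exact card_orbit h35 P Q h
  rw [h2] at h1
  refine Nat.ModEq.symm ?_
  refine h1.trans ?_
  have h3 : Fintype.card (Function.fixedPoints f) =
      Nat.card {A : Sylow 17 G // A ∈ orbit (P : Subgroup G) Q ∧ y • A = A} := by
    rw [← Nat.card_eq_fintype_card]
    apply Nat.card_congr
    exact
      { toFun := fun A => ⟨A.1.1, A.1.2, congrArg Subtype.val A.2⟩
        invFun := fun A => ⟨⟨A.1, A.2.1⟩, Subtype.ext A.2.2⟩
        left_inv := fun A => rfl
        right_inv := fun A => rfl }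
  rw [h3]

include hfaith

/-- `P` is elementary abelian. -/
theorem comm_P (P : Sylow 17 G) :
    (∀ x ∈ (P : Subgroup G), ∀ y ∈ (P : Subgroup G), x * y = y * x) := by
  have hstab : ∀ Q : Sylow 17 G, Q ≠ P → commutator (P : Subgroup G) ≤ stabilizer (P : Subgroup G) Q := by
    intro Q hQ
    have h1 : (stabilizer (P : Subgroup G) Q).index = 17 := by
      rw [index_stabilizer]
      exact card_orbit h35 P Q hQ
    haveI : (stabilizer (P : Subgroup G) Q).Normal := by
      apply normal_of_index_eq_minFac_card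
      rw [h1]
      obtain ⟨n, hn⟩ := IsPGroup.iff_card.mp P.isPGroup'
      rw [hn]
      have hn0 : n ≠ 0 := by
        rintro rfl
        rw [pow_zero] at hn
        have h2 := (stabilizer (P : Subgroup G) Q).index_dvd_card
        rw [h1, hn] at h2
        norm_num at h2
      rw [Nat.pow_minFac hn0]
      norm_num
    exact Solv.commutator_le_of_index_prime _ h1
  intro x hx y hy
  have h1 : x * y * x⁻¹ * y⁻¹ = 1 := by
    apply hfaith
    intro Q
    have h2 : (⟨x, hx⟩ : (P : Subgroup G)) * ⟨y, hy⟩ * (⟨x, hx⟩ : (P : Subgroup G))⁻¹ *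
        (⟨y, hy⟩ : (P : Subgroup G))⁻¹ ∈ commutator (P : Subgroup G) :=
      Subgroup.commutator_mem_commutator (mem_top _) (mem_top _)
    by_cases hQ : Q = P
    · rw [hQ, Sylow.smul_eq_iff_mem_normalizer]
      exact le_normalizer (mul_mem (mul_mem (mul_mem hx hy) (inv_mem hx)) (inv_mem hy))
    · exact hstab Q hQ h2
  rw [mul_inv_eq_one, mul_inv_eq_iff_eq_mul] at h1
  exact h1

/-- fixing all orbits pointwise gives the identity -/
theorem eq_one_of_fix (P : Sylow 17 G) (y : G) (hy : y ∈ normalizer (P : Set G))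
    (h : ∀ Q : Sylow 17 G, Q ≠ P → y • Q = Q) : y = 1 := by
  apply hfaith
  intro Q
  by_cases hQ : Q = P
  · rw [hQ]; exact Sylow.smul_eq_iff_mem_normalizer.mpr hy
  · exact h Q hQ

/-- no elements of order 3 in the normalizer. -/
theorem no_three (P : Sylow 17 G) (y : G) (hy : y ∈ normalizer (P : Set G)) (hy3 : y ^ 3 = 1) : y = 1 := by
  apply eq_one_of_fix h35 hfaith P y hy
  intro Q hQ
  have hodd : Odd (orderOf y) := by
    have h1 := orderOf_dvd_of_pow_eq_one hy3
    exact Odd.of_dvd_nat (by decide) h1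
  have hyQ := orbit_fixed_of_odd h35 P Q y hy hodd hQ
  have hmod := card_fixed_modEq h35 P Q y hy Nat.prime_three hy3 hQ hyQ
  -- a fixed point
  obtain ⟨A, hA, hyA⟩ : ∃ A : Sylow 17 G, A ∈ orbit (P : Subgroup G) Q ∧ y • A = A := by
    by_contra hcon
    push Not at hcon
    have h1 : Nat.card {A : Sylow 17 G // A ∈ orbit (P : Subgroup G) Q ∧ y • A = A} = 0 := by
      rw [Nat.card_eq_zero]
      left
      exact ⟨fun A => hcon A.1 A.2.1 A.2.2⟩
    rw [h1] at hmod
    exact absurd hmod (by decide)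
  have hcomm := comm_P h35 hfaith P
  have hAP : A ≠ P := by
    intro h
    rw [h] at hA
    obtain ⟨⟨a, ha⟩, haQ⟩ := hA
    have h1 : a • Q = P := haQ
    have h2 : a • P = P := Sylow.smul_eq_iff_mem_normalizer.mpr (le_normalizer ha)
    rw [← h2] at h1
    exact hQ (smul_left_cancel a h1)
  let φ : (P : Subgroup G) →* (P : Subgroup G) :=
    { toFun := fun x => ⟨(x : G)⁻¹ * (y * x * y⁻¹), mul_mem (inv_mem x.2) ((mem_normalizer_iff.mp hy x).mp x.2)⟩
      map_one' := by apply Subtype.ext; simp
      map_mul' := by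
        intro a b
        apply Subtype.ext
        change ((a : G) * b)⁻¹ * (y * (a * b) * y⁻¹) = (a : G)⁻¹ * (y * a * y⁻¹) * ((b : G)⁻¹ * (y * b * y⁻¹))
        have h1 : (y * a * y⁻¹) ∈ (P : Subgroup G) := (mem_normalizer_iff.mp hy a).mp a.2
        have h2 := hcomm _ (inv_mem b.2) _ (mul_mem (inv_mem a.2) h1)
        calc ((a : G) * b)⁻¹ * (y * (a * b) * y⁻¹) = ((b : G)⁻¹ * ((a : G)⁻¹ * (y * a * y⁻¹))) * (y * b * y⁻¹) := by group
          _ = (((a : G)⁻¹ * (y * a * y⁻¹)) * (b : G)⁻¹) * (y * b * y⁻¹) := by rw [h2]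
          _ = _ := by group }
  have hφ : ∀ x : (P : Subgroup G), ((φ x : (P : Subgroup G)) : G) = (x : G)⁻¹ * (y * x * y⁻¹) := fun x => rfl
  set S := stabilizer (P : Subgroup G) A with hS
  have hSi : S.index = 17 := by
    rw [hS, index_stabilizer]
    exact card_orbit h35 P A hAP
  have hF : ∀ x : (P : Subgroup G), x ∈ S.comap φ ↔ y • (x : G) • A = (x : G) • A := by
    intro x
    rw [mem_comap, hS, mem_stabilizer_iff]
    change ((x : G)⁻¹ * (y * x * y⁻¹)) • A = A ↔ _
    rw [mul_smul, inv_smul_eq_iff, mul_smul, mul_smul]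
    have h1 : y⁻¹ • A = A := by rw [inv_smul_eq_iff, hyA]
    rw [h1]
  have hSF : S ≤ S.comap φ := by
    intro x hx
    rw [hF]
    have h1 : (x : G) • A = A := hx
    rw [h1, hyA]
  -- the index of F is 1 or 17
  have hFi : (S.comap φ).index ∣ 17 := (index_dvd_of_le hSF).trans (dvd_of_eq hSi)
  have hQA : orbit (P : Subgroup G) Q = orbit (P : Subgroup G) A := (orbit_eq_iff.mpr hA).symm
  rcases (Nat.dvd_prime (by norm_num : Nat.Prime 17)).mp hFi with h1 | h1
  · rw [index_eq_one] at h1
    have h2 : Q ∈ orbit (P : Subgroup G) A := hQA ▸ mem_orbit_self Q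
    obtain ⟨x, rfl⟩ := h2
    have h3 : x ∈ S.comap φ := by rw [h1]; exact mem_top x
    exact (hF x).mp h3
  · exfalso
    have h2 : S.comap φ = S := by
      symm
      apply Subgroup.eq_of_le_of_card_ge hSF
      have h3 := (S.comap φ).card_mul_index
      have h4 := S.card_mul_index
      rw [h1, ← h4, hSi] at h3
      exact (Nat.eq_of_mul_eq_mul_right (by norm_num) h3).le
    have h3 : Nat.card {B : Sylow 17 G // B ∈ orbit (P : Subgroup G) Q ∧ y • B = B} = 1 := by
      rw [Nat.card_eq_one_iff_unique]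
      refine ⟨⟨?_⟩, ⟨⟨A, hA, hyA⟩⟩⟩
      have h4 : ∀ B : Sylow 17 G, B ∈ orbit (P : Subgroup G) Q → y • B = B → B = A := by
        intro B hB hyB
        rw [hQA] at hB
        obtain ⟨x, rfl⟩ := hB
        have h5 : x ∈ S.comap φ := (hF x).mpr hyB
        rw [h2] at h5
        exact h5
      rintro ⟨B, hB1, hB2⟩ ⟨B', hB1', hB2'⟩
      apply Subtype.ext
      change B = B'
      rw [h4 B hB1 hB2, h4 B' hB1' hB2']
    rw [h3] at hmod
    exact absurd hmod (by decide)

omit hfaith in
theorem card_eq (P : Sylow 17 G) : Nat.card G = 35 * Nat.card (normalizer (P : Set G)) := by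
  have h1 := (normalizer (P : Set G)).card_mul_index
  have h2 := P.card_eq_index_normalizer
  rw [h35] at h2
  rw [← h1, ← h2, mul_comm]

omit hfaith in
theorem mem_of_smul (Q : Sylow 17 G) (x : G) (P : Sylow 17 G) (hx : x ∈ (P : Subgroup G)) :
    x • Q = Q ↔ x ∈ (Q : Subgroup G) := by
  rw [Sylow.smul_eq_iff_mem_normalizer]
  constructor
  · intro h
    have h1 : IsPGroup 17 (zpowers x) := P.isPGroup'.to_le (by rw [zpowers_le]; exact hx)
    have h2 := h1.inf_normalizer_sylow Q
    have h3 : x ∈ zpowers x ⊓ normalizer (Q : Set G) := ⟨mem_zpowers x, h⟩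
    rw [h2] at h3
    exact h3.2
  · intro h
    exact le_normalizer h

/-- trivial intersections -/
theorem ti (P Q : Sylow 17 G) (hPQ : Q ≠ P) (x : G) (hxP : x ∈ (P : Subgroup G))
    (hxQ : x ∈ (Q : Subgroup G)) : x = 1 := by
  classical
  by_contra hx1
  haveI : Fintype (Sylow 17 G) := Fintype.ofFinite _
  -- the number of Sylow subgroups containing `x`
  have hf : Nat.card {R : Sylow 17 G // x ∈ (R : Subgroup G)} = 18 := by
    have hfix : Nat.card (fixedPoints (zpowers x) (Sylow 17 G)) =
        Nat.card {R : Sylow 17 G // x ∈ (R : Subgroup G)} := by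
      apply Nat.card_congr
      apply Equiv.subtypeEquivRight
      intro R
      rw [Subgroup.sylow_mem_fixedPoints_iff, zpowers_le, ← Sylow.smul_eq_iff_mem_normalizer,
        mem_of_smul h35 R x P hxP]
    have hp : IsPGroup 17 (zpowers x) := P.isPGroup'.to_le (by rw [zpowers_le]; exact hxP)
    have h1 := hp.card_modEq_card_fixedPoints (α := Sylow 17 G)
    rw [hfix, h35] at h1
    have h2 : Nat.card {R : Sylow 17 G // x ∈ (R : Subgroup G)} ≤ 35 := by
      rw [← h35]; exact Nat.card_le_card_of_injective _ Subtype.val_injective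
    have h3 : Nat.card {R : Sylow 17 G // x ∈ (R : Subgroup G)} ≠ 35 := by
      intro h
      apply hx1
      apply hfaith
      intro R
      rw [mem_of_smul h35 R x P hxP]
      by_contra hR
      have h4 : Nat.card {R : Sylow 17 G // x ∈ (R : Subgroup G)} < Nat.card (Sylow 17 G) := by
        rw [Nat.card_eq_fintype_card, Nat.card_eq_fintype_card]
        exact Fintype.card_subtype_lt hR
      rw [h, h35] at h4
      exact lt_irrefl _ h4
    have h4 : 1 < Nat.card {R : Sylow 17 G // x ∈ (R : Subgroup G)} := by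
      rw [Finite.one_lt_card_iff_nontrivial]
      exact ⟨⟨P, hxP⟩, ⟨Q, hxQ⟩, fun h => hPQ (congrArg Subtype.val h).symm⟩
    have h5 : (35 : ℕ) % 17 = Nat.card {R : Sylow 17 G // x ∈ (R : Subgroup G)} % 17 := h1
    omega
  -- the centralizer of `x`
  set C := centralizer ({x} : Set G) with hC
  have hle : ∀ R : Sylow 17 G, x ∈ (R : Subgroup G) → (R : Subgroup G) ≤ C := by
    intro R hR z hz
    rw [hC, mem_centralizer_singleton_iff]
    exact comm_P h35 hfaith R z hz x hR
  have hcard : Nat.card (Sylow 17 C) = 18 := by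
    rw [← hf]
    symm
    apply Nat.card_congr
    refine Equiv.ofBijective (fun R => R.1.subtype (hle R.1 R.2)) ⟨?_, ?_⟩
    · intro R R' h
      exact Subtype.ext (Sylow.subtype_injective h)
    · intro R
      obtain ⟨c, hc⟩ := exists_smul_eq C (P.subtype (hle P hxP)) R
      have hx : x ∈ ((((c : G) • P : Sylow 17 G)) : Subgroup G) := by
        rw [Sylow.coe_subgroup_smul, Subgroup.mem_pointwise_smul_iff_inv_smul_mem, ← map_inv]
        change (c : G)⁻¹ * x * (c : G)⁻¹⁻¹ ∈ (P : Subgroup G)
        have h1 := mem_centralizer_singleton_iff.mp (inv_mem c.2)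
        change (c : G)⁻¹ * x = x * (c : G)⁻¹ at h1
        rw [h1, mul_inv_cancel_right]
        exact hxP
      refine ⟨⟨(c : G) • P, hx⟩, ?_⟩
      rw [← hc]
      exact (Sylow.smul_subtype (hle P hxP) c).symm
  have h18 : 18 ∣ Nat.card G := by
    rw [← hcard]
    exact (Sylow.card_dvd_index (default : Sylow 17 C)).trans ((index_dvd_card _).trans (card_subgroup_dvd_card C))
  rw [card_eq h35 P] at h18
  have h3 : 3 ∣ Nat.card (normalizer (P : Set G)) := by
    have h4 : 9 ∣ 35 * Nat.card (normalizer (P : Set G)) := Dvd.dvd.trans (by norm_num) h18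
    have h5 : 9 ∣ Nat.card (normalizer (P : Set G)) := Nat.Coprime.dvd_of_dvd_mul_left (by norm_num) h4
    exact Dvd.dvd.trans (by norm_num) h5
  haveI : Fact (Nat.Prime 3) := ⟨Nat.prime_three⟩
  obtain ⟨y, hy⟩ := exists_prime_orderOf_dvd_card' (G := normalizer (P : Set G)) 3 h3
  have h4 : (y : G) ^ 3 = 1 := by
    have := pow_orderOf_eq_one y
    rw [hy] at this
    exact congrArg Subtype.val this
  have h5 := no_three h35 hfaith P y y.2 h4
  have h6 : y = 1 := Subtype.ext h5
  rw [h6, orderOf_one] at hy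
  norm_num at hy

/-- the order of `P` -/
theorem card_P (P : Sylow 17 G) : Nat.card P = 17 := by
  obtain ⟨Q, hQ⟩ : ∃ Q : Sylow 17 G, Q ≠ P := by
    by_contra hcon
    push Not at hcon
    have : Nat.card (Sylow 17 G) = 1 := by
      rw [Nat.card_eq_one_iff_unique]
      exact ⟨⟨fun a b => by rw [hcon a, hcon b]⟩, ⟨P⟩⟩
    rw [h35] at this
    norm_num at this
  have h1 := card_orbit h35 P Q hQ
  have h2 : stabilizer (P : Subgroup G) Q = ⊥ := by
    rw [eq_bot_iff]
    intro x hx
    have h3 : (x : G) • Q = Q := hx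
    rw [mem_of_smul h35 Q x P x.2] at h3
    exact Subtype.ext (ti h35 hfaith P Q hQ x x.2 h3)
  have h3 : (stabilizer (P : Subgroup G) Q).index = 17 := by
    rw [index_stabilizer]; exact h1
  rw [h2, index_bot] at h3
  exact h3


/-- elements of the centralizer fixing a point of an orbit fix the orbit. -/
theorem fix_orbit_of_centralizer (P A Q : Sylow 17 G) (y : G) (hy : y ∈ centralizer ((P : Subgroup G) : Set G))
    (hA : y • A = A) (hQ : Q ∈ orbit (P : Subgroup G) A) : y • Q = Q := by
  obtain ⟨⟨a, ha⟩, rfl⟩ := hQ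
  change y • (a • A) = a • A
  rw [smul_smul, ← mem_centralizer_iff.mp hy a ha, mul_smul, hA]

theorem no_prime (hN : ∀ N : Subgroup G, N.Normal → ¬ 17 ∣ N.index → N = ⊤) (P : Sylow 17 G) (y : G)
    (hy : y ∈ centralizer ((P : Subgroup G) : Set G)) (r : ℕ) (hr : r.Prime) (hyr : orderOf y = r) :
    r = 17 := by
  classical
  haveI : Fintype (Sylow 17 G) := Fintype.ofFinite _
  by_contra hr17
  have hyN : y ∈ normalizer (P : Set G) := centralizer_le_normalizer _ hy
  have hyr' : y ^ r = 1 := hyr ▸ pow_orderOf_eq_one y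
  have hy1 : y ≠ 1 := by
    rintro rfl
    rw [orderOf_one] at hyr
    exact hr.one_lt.ne hyr
  -- if the orbit of `Q` is preserved then it is fixed pointwise
  have hfix : ∀ Q : Sylow 17 G, Q ≠ P → y • Q ∈ orbit (P : Subgroup G) Q → y • Q = Q := by
    intro Q hQ hyQ
    have hmod := card_fixed_modEq h35 P Q y hyN hr hyr' hQ hyQ
    obtain ⟨A, hA, hyA⟩ : ∃ A : Sylow 17 G, A ∈ orbit (P : Subgroup G) Q ∧ y • A = A := by
      by_contra hcon
      push Not at hcon
      have h1 : Nat.card {A : Sylow 17 G // A ∈ orbit (P : Subgroup G) Q ∧ y • A = A} = 0 := by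
        rw [Nat.card_eq_zero]
        left
        exact ⟨fun A => hcon A.1 A.2.1 A.2.2⟩
      rw [h1] at hmod
      have h2 := (Nat.modEq_zero_iff_dvd).mp hmod.symm
      exact hr17 ((Nat.prime_dvd_prime_iff_eq hr (by norm_num)).mp h2)
    have hQA : Q ∈ orbit (P : Subgroup G) A := by
      rw [orbit_eq_iff.mpr hA]; exact mem_orbit_self Q
    exact fix_orbit_of_centralizer h35 hfaith P A Q y hy hyA hQA
  have hswap : ∃ Q : Sylow 17 G, Q ≠ P ∧ y • Q ∉ orbit (P : Subgroup G) Q := by
    by_contra hcon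
    push Not at hcon
    exact hy1 (eq_one_of_fix h35 hfaith P y hyN (fun Q hQ => hfix Q hQ (hcon Q hQ)))
  obtain ⟨Q, hQ, hyQ⟩ := hswap
  have hr2 : r = 2 := by
    by_contra hne
    have hodd : Odd (orderOf y) := by rw [hyr]; exact hr.odd_of_ne_two hne
    exact hyQ (orbit_fixed_of_odd h35 P Q y hyN hodd hQ)
  subst hr2
  -- no fixed points besides `P`
  have hnofix : ∀ A : Sylow 17 G, A ≠ P → y • A ≠ A := by
    intro A hA hyA
    -- `A` lies in the orbit of `Q` or of `y Q`
    rcases two_orbits h35 P Q (y • Q) A hQ (smul_ne P Q y hyN hQ) hA hyQ with h | h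
    · have h1 : Q ∈ orbit (P : Subgroup G) A := by
        rw [orbit_eq_iff.mpr h]; exact mem_orbit_self Q
      have h2 := fix_orbit_of_centralizer h35 hfaith P A Q y hy hyA h1
      apply hyQ
      rw [h2]; exact mem_orbit_self Q
    · have h1 : y • Q ∈ orbit (P : Subgroup G) A := by
        rw [orbit_eq_iff.mpr h]; exact mem_orbit_self _
      have h2 := fix_orbit_of_centralizer h35 hfaith P A (y • Q) y hy hyA h1
      apply hyQ
      have h3 : y • Q = Q := smul_left_cancel y h2
      rw [h3]; exact mem_orbit_self Q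
  -- the sign
  let sg : G →* ℤˣ := (Equiv.Perm.sign (α := Sylow 17 G)).comp (MulAction.toPermHom G (Sylow 17 G))
  have hsg : sg y = -1 := by
    change Equiv.Perm.sign (MulAction.toPermHom G (Sylow 17 G) y) = -1
    have h1 : (MulAction.toPermHom G (Sylow 17 G) y) ^ 2 = 1 := by
      rw [← map_pow, hyr', map_one]
    rw [Equiv.Perm.sign_of_pow_two_eq_one h1, ← Nat.card_eq_fintype_card, h35]
    have h2 : Fintype.card (Function.fixedPoints (MulAction.toPermHom G (Sylow 17 G) y)) = 1 := by
      rw [← Nat.card_eq_fintype_card, Nat.card_eq_one_iff_unique]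
      have h3 : ∀ A : Function.fixedPoints (MulAction.toPermHom G (Sylow 17 G) y), A.1 = P := by
        rintro ⟨A, hA⟩
        by_contra hne
        exact hnofix A hne hA
      refine ⟨⟨fun A B => Subtype.ext (by rw [h3 A, h3 B])⟩, ⟨⟨P, ?_⟩⟩⟩
      exact Sylow.smul_eq_iff_mem_normalizer.mpr hyN
    rw [h2]
    decide
  have h1 : ¬ 17 ∣ sg.ker.index := by
    rw [index_ker]
    intro h
    have h2 : Nat.card sg.range ≤ 2 := by
      have : Nat.card sg.range ≤ Nat.card ℤˣ := Subgroup.card_le_card_group _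
      have h3 : Nat.card ℤˣ = 2 := by simp
      omega
    have h3 := Nat.le_of_dvd Nat.card_pos h
    omega
  have h2 := hN sg.ker inferInstance h1
  have h3 : y ∈ sg.ker := by rw [h2]; trivial
  rw [MonoidHom.mem_ker, hsg] at h3
  exact absurd h3 (by decide)

theorem centralizer_le (hN : ∀ N : Subgroup G, N.Normal → ¬ 17 ∣ N.index → N = ⊤) (P : Sylow 17 G) :
    centralizer ((P : Subgroup G) : Set G) ≤ P := by
  have h1 : IsPGroup 17 (centralizer ((P : Subgroup G) : Set G)) := by
    rw [IsPGroup.iff_card]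
    refine ⟨_, Nat.eq_prime_pow_of_unique_prime_dvd Nat.card_pos.ne' ?_⟩
    intro r hr hrd
    haveI := Fact.mk hr
    obtain ⟨y, hy⟩ := exists_prime_orderOf_dvd_card' (G := centralizer ((P : Subgroup G) : Set G)) r hrd
    exact no_prime h35 hfaith hN P y y.2 r hr (by rw [Subgroup.orderOf_coe, hy])
  have h2 := h1.inf_normalizer_sylow P
  have h3 : centralizer ((P : Subgroup G) : Set G) ⊓ normalizer (P : Set G) =
      centralizer ((P : Subgroup G) : Set G) := inf_eq_left.mpr (centralizer_le_normalizer _)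
  rw [h3] at h2
  rw [h2]
  exact inf_le_right

theorem final (hN : ∀ N : Subgroup G, N.Normal → ¬ 17 ∣ N.index → N = ⊤) : False := by
  classical
  have P : Sylow 17 G := default
  have hP17 : Nat.card (P : Subgroup G) = 17 := card_P h35 hfaith P
  have hcent := centralizer_le h35 hfaith hN P
  have hcomm := comm_P h35 hfaith P
  have hcentP : centralizer ((P : Subgroup G) : Set G) = (P : Subgroup G) := by
    apply le_antisymm hcent
    intro x hx
    rw [mem_centralizer_iff]
    intro y hy
    exact hcomm y hy x hx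
  set f := (P : Subgroup G).normalizerMonoidHom with hf
  have hker : f.ker = (P : Subgroup G).subgroupOf (normalizer ((P : Subgroup G) : Set G)) := by
    rw [hf, normalizerMonoidHom_ker, hcentP]
  have hkerc : Nat.card f.ker = 17 := by
    rw [hker]
    exact (Nat.card_congr (subgroupOfEquivOfLe le_normalizer).toEquiv).trans hP17
  haveI : IsCyclic (P : Subgroup G) := isCyclic_of_prime_card (p := 17) hP17
  have hAutc : Nat.card (MulAut (P : Subgroup G)) = 16 := by
    rw [IsCyclic.card_mulAut, hP17]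
    decide
  haveI hAutcyc : IsCyclic (MulAut (P : Subgroup G)) := by
    have h1 : IsCyclic (ZMod (Nat.card (P : Subgroup G)))ˣ := by
      rw [hP17]; infer_instance
    exact (IsCyclic.mulAutMulEquiv (P : Subgroup G)).isCyclic.mpr h1
  have hNc : Nat.card (normalizer ((P : Subgroup G) : Set G)) = 17 * Nat.card f.range := by
    rw [← f.ker.card_mul_index, hkerc, index_ker]
  have hrange : Nat.card f.range ∣ 16 := hAutc ▸ Subgroup.card_subgroup_dvd_card f.range
  have hGc := card_eq h35 P
  -- the order of `G` is odd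
  have hodd : ¬ 2 ∣ Nat.card G := by
    intro h2G
    haveI : Fact (Nat.Prime 2) := ⟨Nat.prime_two⟩
    have T₀ : Sylow 2 (normalizer ((P : Subgroup G) : Set G)) := default
    have hT : IsPGroup 2 ((T₀ : Subgroup (normalizer ((P : Subgroup G) : Set G))).map
      (normalizer ((P : Subgroup G) : Set G)).subtype) := T₀.2.map _
    have hTi : ¬ 2 ∣ ((T₀ : Subgroup (normalizer ((P : Subgroup G) : Set G))).map
        (normalizer ((P : Subgroup G) : Set G)).subtype).index := by
      rw [index_map_subtype]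
      apply Nat.Prime.not_dvd_mul Nat.prime_two T₀.not_dvd_index
      have h1 := P.card_eq_index_normalizer
      rw [h35] at h1
      intro h2
      have h3 : 2 ∣ 35 := by rw [h1]; exact h2
      norm_num at h3
    set T := hT.toSylow hTi with hTdef
    have hTcyc : IsCyclic T := by
      let g : T →* MulAut (P : Subgroup G) := f.comp (inclusion (by
        rintro _ ⟨x, -, rfl⟩; exact x.2))
      have hg : Function.Injective g := by
        rw [injective_iff_map_eq_one]
        intro x hx
        have h1 : (inclusion (by rintro _ ⟨x, -, rfl⟩; exact x.2) x :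
            normalizer ((P : Subgroup G) : Set G)) ∈ f.ker := hx
        rw [hker, mem_subgroupOf] at h1
        have h2 : (x : G) ∈ (P : Subgroup G) := h1
        have h3 : orderOf (x : G) ∣ 17 := by
          have := orderOf_dvd_natCard (⟨(x : G), h2⟩ : (P : Subgroup G))
          rw [Subgroup.orderOf_mk] at this
          exact this.trans (dvd_of_eq hP17)
        obtain ⟨k, hk⟩ := (IsPGroup.iff_orderOf.mp T.2) x
        rw [Subgroup.orderOf_coe, hk] at h3
        have h4 : 2 ^ k = 1 := Nat.eq_one_of_dvd_coprimes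
          (Nat.Coprime.pow_left k (by norm_num : Nat.Coprime 2 17)) dvd_rfl h3
        rw [h4] at hk
        exact orderOf_eq_one_iff.mp hk
      exact isCyclic_of_injective g hg
    have hmin : (Nat.card G).minFac = 2 := by
      rw [Nat.minFac_eq_two_iff]; exact h2G
    have hcompl := IsCyclic.isComplement' hmin hTcyc
    set N := (MonoidHom.transferSylow T (hTcyc.normalizer_le_centralizer hmin)).ker with hNdef
    have h1 : N.index = Nat.card T := hcompl.symm.index_eq_card
    have h2 : ¬ 17 ∣ N.index := by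
      rw [h1]
      obtain ⟨k, hk⟩ := IsPGroup.iff_card.mp T.2
      intro h
      have h3 : 17 ∣ 2 ^ k := hk ▸ h
      have h4 := (Nat.Prime.dvd_of_dvd_pow (by norm_num) h3)
      norm_num at h4
    have h3 := hN N inferInstance h2
    rw [h3, index_top] at h1
    have h4 : 2 ∣ Nat.card T := by
      have h5 := (T : Subgroup G).card_mul_index
      rw [← h5] at h2G
      rcases (Nat.Prime.dvd_mul Nat.prime_two).mp h2G with h | h
      · exact h
      · exact absurd h T.not_dvd_index
    rw [← h1] at h4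
    norm_num at h4
  have hr1 : Nat.card f.range = 1 := by
    obtain ⟨k, _, hk⟩ := (Nat.dvd_prime_pow Nat.prime_two).mp (show Nat.card f.range ∣ 2 ^ 4 from hrange)
    rcases Nat.eq_zero_or_pos k with h | h
    · rw [hk, h, pow_zero]
    · exfalso
      apply hodd
      rw [hGc]
      apply Dvd.dvd.mul_left
      rw [show Nat.card (normalizer (P : Set G)) = 17 * Nat.card f.range from hNc, hk]
      exact (dvd_pow_self 2 h.ne').mul_left 17
  have hG : Nat.card G = 595 := by
    rw [hGc, show Nat.card (normalizer (P : Set G)) = 17 * Nat.card f.range from hNc, hr1]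
  -- the Sylow 5-subgroup is normal
  haveI : Fact (Nat.Prime 5) := ⟨by norm_num⟩
  have R : Sylow 5 G := default
  have hRc : Nat.card (R : Subgroup G) = 5 := by
    obtain ⟨k, hk⟩ := IsPGroup.iff_card.mp R.2
    have h1 := (R : Subgroup G).card_mul_index
    have h2 := R.not_dvd_index
    rw [hG] at h1
    have hk' : Nat.card (R : Subgroup G) = 5 ^ k := hk
    rw [hk'] at h1 ⊢
    rcases k with _ | _ | k
    · exfalso; apply h2; rw [pow_zero, one_mul] at h1; rw [h1]; norm_num
    · norm_num
    · exfalso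
      have h3 : 25 ∣ 595 := by
        rw [← h1, show k + 1 + 1 = 2 + k by ring, pow_add, mul_assoc]
        exact Dvd.intro _ rfl
      norm_num at h3
  have hRi : (R : Subgroup G).index = 119 := by
    have h1 := (R : Subgroup G).card_mul_index
    rw [hRc, hG] at h1
    omega
  have hn5 : Nat.card (Sylow 5 G) = 1 := by
    have h1 := R.card_dvd_index
    have h2 := card_sylow_modEq_one 5 G
    rw [hRi] at h1
    have h3 : Nat.card (Sylow 5 G) ∈ Nat.divisors 119 := Nat.mem_divisors.mpr ⟨h1, by norm_num⟩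
    have h4 : Nat.divisors 119 = {1, 7, 17, 119} := by decide
    rw [h4] at h3
    simp only [Finset.mem_insert, Finset.mem_singleton] at h3
    rcases h3 with h | h | h | h
    · exact h
    · rw [h] at h2; exact absurd h2 (by decide)
    · rw [h] at h2; exact absurd h2 (by decide)
    · rw [h] at h2; exact absurd h2 (by decide)
  haveI : Subsingleton (Sylow 5 G) := (Nat.card_eq_one_iff_unique.mp hn5).1
  haveI hRn : (R : Subgroup G).Normal := by
    rw [← normalizer_eq_top_iff, eq_top_iff]
    intro g _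
    have := Sylow.smul_eq_iff_mem_normalizer.mp (Subsingleton.elim (g • R) R)
    exact this
  -- `P` centralizes `R`
  letI actR : MulAction (P : Subgroup G) (R : Subgroup G) :=
    MulAction.compHom (R : Subgroup G) ((MulAut.conjNormal (H := (R : Subgroup G))).comp (P : Subgroup G).subtype)
  have hact : ∀ (x : (P : Subgroup G)) (z : (R : Subgroup G)), ((x • z : (R : Subgroup G)) : G) = x * z * (x : G)⁻¹ :=
    fun x z => rfl
  have h1 := P.2.card_modEq_card_fixedPoints (α := (R : Subgroup G))
  have h2 : Nat.card (fixedPoints (P : Subgroup G) (R : Subgroup G)) ≤ 5 := by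
    exact (Nat.card_le_card_of_injective _ Subtype.val_injective).trans hRc.le
  rw [hRc] at h1
  have h3 : Nat.card (fixedPoints (P : Subgroup G) (R : Subgroup G)) = 5 := by
    have h4 : 5 % 17 = Nat.card (fixedPoints (P : Subgroup G) (R : Subgroup G)) % 17 := h1
    omega
  have h4 : (R : Subgroup G) ≤ P := by
    rw [← hcentP]
    intro z hz
    rw [mem_centralizer_iff]
    intro x hx
    have h5 : (⟨z, hz⟩ : (R : Subgroup G)) ∈ fixedPoints (P : Subgroup G) (R : Subgroup G) := by
      have h6 : fixedPoints (P : Subgroup G) (R : Subgroup G) = Set.univ := by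
        apply Set.eq_of_subset_of_ncard_le (Set.subset_univ _) _ (Set.toFinite _)
        rw [Set.ncard_univ, hRc]
        exact h3.ge
      rw [h6]; trivial
    have h6 := congrArg Subtype.val (h5 ⟨x, hx⟩)
    rw [hact] at h6
    exact mul_inv_eq_iff_eq_mul.mp h6
  have h5 := Subgroup.card_dvd_of_le h4
  rw [hRc, hP17] at h5
  norm_num at h5

end Main

theorem main (n : ℕ) : ∀ {G : Type*} [Group G] [Finite G], Nat.card G = n → Nat.card (Sylow 17 G) ≠ 35 := by
  induction n using Nat.strong_induction_on with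
  | _ n ih =>
  intro G _ _ hn h35
  haveI : Fact (Nat.Prime 17) := ⟨by norm_num⟩
  refine final h35 ?_ ?_
  · -- faithful
    let K : Subgroup G := (MulAction.toPermHom G (Sylow 17 G)).ker
    have hKmem : ∀ g : G, g ∈ K ↔ ∀ P : Sylow 17 G, g • P = P := by
      intro g
      change (MulAction.toPermHom G (Sylow 17 G)) g = 1 ↔ _
      rw [Equiv.ext_iff]
      rfl
    have hK : K = ⊥ := by
      by_contra hK
      have h1 : Nat.card (G ⧸ K) < n := by
        rw [← hn, ← K.card_mul_index, index_eq_card]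
        exact lt_mul_of_one_lt_left Nat.card_pos ((one_lt_card_iff_ne_bot K).mpr hK)
      refine ih _ h1 (G := G ⧸ K) rfl ?_
      rw [card_sylow_quotient 17 K, h35]
      intro P g hg
      exact Sylow.smul_eq_iff_mem_normalizer.mp ((hKmem g).mp hg P)
    intro g hg
    have h1 : g ∈ K := (hKmem g).mpr hg
    rw [hK] at h1
    exact h1
  · intro N hN hNi
    by_contra hNt
    have h1 : Nat.card N < n := by
      rw [← hn]
      apply lt_of_le_of_ne (Subgroup.card_le_card_group N)
      intro h
      exact hNt (Subgroup.eq_top_of_card_eq N h)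
    refine ih _ h1 (G := N) rfl ?_
    rw [card_sylow_normal 17 N hNi, h35]

/-- No finite group has exactly 35 Sylow 17-subgroups. -/
theorem result {G : Type*} [Group G] [Finite G] : Nat.card (Sylow 17 G) ≠ 35 := by
  exact main _ rfl

end Cfsg.Agent.S4236
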