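import Cfsg.Statements.S4237
import Cfsg.Agent.H70.Enum2

set_option autoImplicit false
open Cfsg

namespace Cfsg.Agent.S4237

open Cfsg.Agent

/-- Let G be a finite group, p a prime and a a natural number such that p^(a+1) divides the order of G. Then the number of subgroups of G of order p^a is congruent to 1 or to 1 + p modulo p². -/
theorem result {G : Type*} [Group G] [Finite G] (p a : ℕ) (hp : p.Prime) (hdvd : p ^ (a + 1) ∣ Nat.card G) :
    Nat.card {H : Subgroup G // Nat.card H = p ^ a} ≡ 1 [MOD p ^ 2] ∨
      Nat.card {H : Subgroup G // Nat.card H = p ^ a} ≡ 1 + p [MOD p ^ 2] := by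
  have hpf : Fact p.Prime := ⟨hp⟩
  obtain ⟨P⟩ : Nonempty (Sylow p G) := inferInstance
  obtain ⟨n, hn⟩ := IsPGroup.iff_card.mp P.isPGroup'
  have han : a < n := by
    have h1 := (Sylow.card_eq_multiplicity P)
    rw [hn] at h1
    have h2 : p ^ (a + 1) ∣ p ^ n := by
      rw [h1]
      exact (hp.pow_dvd_iff_dvd_ordProj Nat.card_pos.ne').mp hdvd
    exact (Nat.pow_dvd_pow_iff_le_right hp.one_lt).mp h2
  have h1 := H70.ns_modEq_sylow P a n hn han
  change H70.ns p a G ≡ 1 [MOD p ^ 2] ∨ H70.ns p a G ≡ 1 + p [MOD p ^ 2]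
  by_cases hp2 : p = 2
  · subst hp2
    have h2 : H70.ns 2 a G ≡ 1 [MOD 2] := S3975.result 2 a hp ((pow_dvd_pow 2 (Nat.le_succ a)).trans hdvd)
    have h3 : H70.ns 2 a G % 2 = 1 := h2
    have h4 : H70.ns 2 a G % 4 = 1 ∨ H70.ns 2 a G % 4 = 3 := by omega
    rcases h4 with h4 | h4
    · left; exact h4
    · right; exact h4
  · by_cases hc : IsCyclic P
    · left
      rw [H70.ns_cyclic hn a han.le] at h1
      exact h1
    · by_cases ha : a = 0
      · left
        subst ha
        have h2 : H70.ns p 0 P = 1 := by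
          unfold H70.ns
          rw [Nat.card_eq_one_iff_unique]
          constructor
          · constructor
            rintro ⟨H, hH⟩ ⟨K, hK⟩
            apply Subtype.ext
            rw [pow_zero, Subgroup.card_eq_one] at hH hK
            exact hH.trans hK.symm
          · exact ⟨⟨⊥, by simp⟩⟩
        rw [h2] at h1
        exact h1
      · right
        exact h1.trans (H70.kulakoff hp2 n P hn hc a (by omega) han)

end Cfsg.Agent.S4237
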