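import Cfsg.Statements.S4238
import Mathlib
import Cfsg.Agent.H70.Nil

set_option autoImplicit false
open Cfsg

namespace Cfsg.Agent.S4238

open Subgroup Cfsg.Agent.H70
open scoped commutatorElement

/-- Coprime action: an automorphism of order prime to `p` acting trivially on `D` and modulo `D`. -/
theorem coprime_central {G : Type*} [Group G] [Finite G] {p : ℕ} [Fact p.Prime] {Q D : Subgroup G}
    (hQ : IsPGroup p Q) (hDQ : D ≤ Q) {a : G} (ha : (orderOf a).Coprime p)
    (haD : ∀ d ∈ D, a * d = d * a) (haQ : ∀ x ∈ Q, a * x * a⁻¹ * x⁻¹ ∈ D) :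
    ∀ x ∈ Q, a * x = x * a := by
  intro x hx
  obtain ⟨d, hd, hdx⟩ : ∃ d ∈ D, a * x * a⁻¹ = d * x := ⟨_, haQ x hx, by group⟩
  have hn : ∀ n : ℕ, a ^ n * x * (a ^ n)⁻¹ = d ^ n * x := by
    intro n
    induction n with
    | zero => simp
    | succ n ih =>
      have hc : a * d ^ n = d ^ n * a := (Commute.pow_right (haD d hd : Commute a d) n).eq
      calc a ^ (n + 1) * x * (a ^ (n + 1))⁻¹ = a * (a ^ n * x * (a ^ n)⁻¹) * a⁻¹ := by
            rw [pow_succ']; group
        _ = a * (d ^ n * x) * a⁻¹ := by rw [ih]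
        _ = (a * d ^ n) * x * a⁻¹ := by group
        _ = (d ^ n * a) * x * a⁻¹ := by rw [hc]
        _ = d ^ n * (a * x * a⁻¹) := by group
        _ = d ^ n * (d * x) := by rw [hdx]
        _ = d ^ (n + 1) * x := by rw [pow_succ]; group
  have h1 := hn (orderOf a)
  rw [pow_orderOf_eq_one] at h1
  have h2 : d ^ orderOf a = 1 := by
    have : x = d ^ orderOf a * x := by simpa using h1
    exact (right_eq_mul.mp this)
  have h3 : d = 1 := by
    obtain ⟨k, hk⟩ := IsPGroup.iff_orderOf.mp hQ ⟨d, hDQ hd⟩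
    rw [Subgroup.orderOf_mk] at hk
    have h4 := orderOf_dvd_of_pow_eq_one h2
    rw [← orderOf_eq_one_iff]
    have h5 : (orderOf d).Coprime (orderOf a) := by rw [hk]; exact (ha.symm).pow_left k
    exact Nat.Coprime.eq_one_of_dvd h5 h4
  rw [h3, one_mul] at hdx
  calc a * x = a * x * a⁻¹ * a := by group
    _ = x * a := by rw [hdx]

theorem no_exponent_element {K : Type*} [Group K] [Finite K] {p : ℕ} [Fact p.Prime] (V : Subgroup K)
    [hVn : V.Normal] (hVp : IsPGroup p V) (hVc : ∀ x ∈ V, ∀ y ∈ V, x * y = y * x)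
    (hcent : ∀ x : K, (∀ v ∈ V, x * v = v * x) → x ∈ V)
    (hirr : ∀ W : Subgroup K, W ≤ V → W.Normal → W = ⊥ ∨ W = V) (hVne : V ≠ ⊥)
    (hidx : V.index ≠ 1) (hcop : (V.index).Coprime p) (a : K) (ha : V.index ∣ orderOf a) :
    Cfsg.pPrimeCore p K = ⊥ ∧ ¬ ∃ k : K, orderOf k = Monoid.exponent K := by
  have hp : p.Prime := Fact.out
  constructor
  · rw [Cfsg.pPrimeCore, sSup_eq_bot]
    rintro R ⟨hR, hRc⟩
    have hd : R ⊓ V = ⊥ := by
      apply disjoint_iff.mp
      apply disjoint_of_coprime_natCard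
      obtain ⟨n, hn⟩ := IsPGroup.iff_card.mp hVp
      rw [hn]; exact hRc.pow_right n
    rw [eq_bot_iff]
    intro r hr
    rw [← hd]
    refine ⟨hr, hcent r ?_⟩
    intro v hv
    exact (Subgroup.commute_of_normal_of_disjoint R V hR hVn (disjoint_iff.mpr hd) r v hr hv).eq
  · rintro ⟨k, hk⟩
    have hpV : p ∣ Nat.card V := by
      obtain ⟨n, hn⟩ := IsPGroup.iff_card.mp hVp
      rw [hn]
      apply dvd_pow_self
      rintro rfl
      apply hVne
      rw [← Subgroup.card_eq_one, hn, pow_zero]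
    have hpk : p ∣ orderOf k := by
      obtain ⟨⟨v, hv⟩, hvo⟩ := exists_prime_orderOf_dvd_card' p hpV
      rw [Subgroup.orderOf_mk] at hvo
      rw [hk, ← hvo]; exact Monoid.order_dvd_exponent v
    have hmk : V.index ∣ orderOf k := by
      rw [hk]; exact dvd_trans ha (Monoid.order_dvd_exponent a)
    have hupp : ∃ u : K, u ∈ V ∧ u ≠ 1 ∧ k * u = u * k := by
      refine ⟨k ^ (orderOf k / p), ?_, ?_, ?_⟩
      · have hu : orderOf (k ^ (orderOf k / p)) = p := orderOf_pow_orderOf_div (orderOf_pos k).ne' hpk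
        have h2 := V.pow_index_mem (k ^ (orderOf k / p))
        have h5 : k ^ (orderOf k / p) ∈ zpowers ((k ^ (orderOf k / p)) ^ V.index) := by
          rw [mem_zpowers_pow_iff, hu]
          exact hcop
        exact (zpowers_le.mpr h2) h5
      · intro h
        have hu : orderOf (k ^ (orderOf k / p)) = p := orderOf_pow_orderOf_div (orderOf_pos k).ne' hpk
        rw [h, orderOf_one] at hu
        exact hp.one_lt.ne hu
      · exact (Commute.self_pow k _).eq
    obtain ⟨u, huV, hu1, huk⟩ := hupp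
    have htop : V ⊔ zpowers k = ⊤ := by
      have h1 : V.relIndex (V ⊔ zpowers k) = V.relIndex (zpowers k) := relIndex_sup_left (zpowers k) V
      have h2 : Nat.card (V.subgroupOf (zpowers k)) * V.relIndex (zpowers k) = orderOf k := by
        rw [← Nat.card_zpowers]; exact (V.subgroupOf (zpowers k)).card_mul_index
      have h3 : V.index.Coprime (Nat.card (V.subgroupOf (zpowers k))) := by
        have : IsPGroup p (V.subgroupOf (zpowers k)) :=
          hVp.comap_of_injective _ (Subgroup.subtype_injective _)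
        obtain ⟨n, hn⟩ := IsPGroup.iff_card.mp this
        rw [hn]; exact hcop.pow_right n
      have h4 : V.index ∣ V.relIndex (zpowers k) := by
        rw [← h2] at hmk
        exact h3.dvd_of_dvd_mul_left hmk
      rw [← h1] at h4
      have h5 := V.relIndex_mul_index (K := V ⊔ zpowers k) le_sup_left
      have h6 : (V ⊔ zpowers k).index = 1 := by
        have hpos : 0 < V.index := Nat.pos_of_ne_zero V.index_ne_zero_of_finite
        obtain ⟨c, hc⟩ := h4
        rw [hc] at h5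
        have h7 : V.index * (c * (V ⊔ zpowers k).index) = V.index * 1 := by
          rw [mul_one, ← mul_assoc]; exact h5
        have h8 := Nat.eq_of_mul_eq_mul_left hpos h7
        exact Nat.eq_one_of_mul_eq_one_left h8
      exact index_eq_one.mp h6
    have hWc : ∀ w ∈ V, k * w = w * k → ∀ x : K, x * w = w * x := by
      intro w hw hkw x
      have hx : x ∈ V ⊔ zpowers k := by rw [htop]; trivial
      rw [mem_sup_of_normal_left] at hx
      obtain ⟨v, hv, _, ⟨j, rfl⟩, rfl⟩ := hx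
      have h1 : k ^ j * w = w * k ^ j := ((show Commute k w from hkw).zpow_left j).eq
      have h2 := hVc v hv w hw
      simp only
      calc v * k ^ j * w = v * (k ^ j * w) := by group
        _ = v * w * k ^ j := by rw [h1]; group
        _ = w * (v * k ^ j) := by rw [h2]; group
    have hWn : (V ⊓ centralizer ({k} : Set K)).Normal := by
      constructor
      rintro w ⟨hw1, hw2⟩ g
      have h1 := hWc w hw1 (mem_centralizer_singleton_iff.mp hw2).symm g
      rw [h1]
      simpa using ⟨hw1, hw2⟩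
    rcases hirr _ inf_le_left hWn with h | h
    · apply hu1
      have : u ∈ V ⊓ centralizer ({k} : Set K) := ⟨huV, mem_centralizer_singleton_iff.mpr huk.symm⟩
      rw [h] at this
      exact mem_bot.mp this
    · apply hidx
      rw [index_eq_one, eq_top_iff]
      intro x _
      apply hcent
      intro v hv
      have hv2 : v ∈ V ⊓ centralizer ({k} : Set K) := by rw [h]; exact hv
      exact hWc v hv (mem_centralizer_singleton_iff.mp hv2.2).symm x

theorem key {G : Type*} [Group G] [Finite G] {p : ℕ} [Fact p.Prime]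
    (H : ∀ (H : Subgroup G) (N : Subgroup H) [N.Normal], Cfsg.pPrimeCore p (H ⧸ N) = ⊥ →
        ∃ k : H ⧸ N, orderOf k = Monoid.exponent (H ⧸ N)) (g : G) (hg : (orderOf g).Coprime p) (n : ℕ) :
    ∀ Q : Subgroup G, Nat.card Q = n → IsPGroup p Q → g ∈ normalizer (Q : Set G) →
      g ∈ centralizer (Q : Set G) := by
  induction n using Nat.strong_induction_on with
  | _ n ih =>
  intro Q hQn hQ hgQ
  by_contra hcon
  have hsmall : ∀ Q1 : Subgroup G, Q1 ≤ Q → Q1 ≠ Q → g ∈ normalizer (Q1 : Set G) →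
      g ∈ centralizer (Q1 : Set G) := by
    intro Q1 h1 h2 h3
    refine ih (Nat.card Q1) ?_ Q1 rfl (hQ.to_le h1) h3
    rw [← hQn]
    refine lt_of_le_of_ne (Nat.le_of_dvd Nat.card_pos (card_dvd_of_le h1)) ?_
    intro h4
    exact h2 (Subgroup.eq_of_le_of_card_ge h1 h4.ge)
  -- the fixed points
  set D : Subgroup G := Q ⊓ centralizer ({g} : Set G) with hD
  have hDQ : D ≤ Q := inf_le_left
  have hDg : ∀ d ∈ D, g * d = d * g := fun d hd => (mem_centralizer_singleton_iff.mp hd.2).symm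
  have hle : ∀ Q1 : Subgroup G, Q1 ≤ Q → Q1 ≠ Q → g ∈ normalizer (Q1 : Set G) → Q1 ≤ D := by
    intro Q1 h1 h2 h3 x hx
    refine ⟨h1 hx, ?_⟩
    exact mem_centralizer_singleton_iff.mpr ((mem_centralizer_iff.mp (hsmall Q1 h1 h2 h3)) x hx)
  have hQne : Q ≠ ⊥ := by
    rintro rfl
    apply hcon
    rw [mem_centralizer_iff]
    intro x hx
    have : x = 1 := by simpa using hx
    rw [this]; simp
  have hconjnorm : ∀ X N : Subgroup G, (∀ x ∈ X, ∀ n ∈ N, x * n * x⁻¹ ∈ N) → X ≤ normalizer (N : Set G) := by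
    intro X N h x hx
    rw [mem_normalizer_iff]
    intro n
    refine ⟨h x hx n, fun hn => ?_⟩
    have := h x⁻¹ (inv_mem hx) _ hn
    simpa [mul_assoc] using this
  have hAQ : ∀ a ∈ zpowers g, ∀ x ∈ Q, a * x * a⁻¹ ∈ Q := by
    intro a ha x hx
    have h1 : zpowers g ≤ normalizer (Q : Set G) := zpowers_le.mpr hgQ
    exact ((mem_normalizer_iff.mp (h1 ha)) x).mp hx
  have hcomm : ⁅Q, Q⁆ ≤ D := by
    apply hle
    · exact Subgroup.commutator_le_self Q
    · have : Group.IsNilpotent Q := hQ.isNilpotent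
      have hnt : Nontrivial Q := (Subgroup.nontrivial_iff_ne_bot Q).mpr hQne
      have h1 : commutator Q < ⊤ := Group.IsSolvable.commutator_lt_top_of_nontrivial Q
      intro h2
      apply h1.ne
      rw [← Subgroup.map_subtype_commutator] at h2
      rw [eq_top_iff]
      rintro ⟨x, hx⟩ _
      rw [← h2] at hx
      obtain ⟨y, hy, hyx⟩ := hx
      have : y = ⟨x, h2 ▸ hyx ▸ (⟨y, hy, rfl⟩ : (y : G) ∈ (commutator Q).map Q.subtype)⟩ := Subtype.ext hyx
      rw [this] at hy
      exact hy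
    · have h1 : zpowers g ≤ normalizer (Q : Set G) := zpowers_le.mpr hgQ
      have h2 : zpowers g ≤ normalizer ((⁅Q, Q⁆ : Subgroup G) : Set G) := by
        apply hconjnorm
        intro a ha n hn
        have h3 : (⁅Q, Q⁆ : Subgroup G).map (MulAut.conj a).toMonoidHom ≤ ⁅Q, Q⁆ := by
          rw [Subgroup.map_commutator]
          have h4 : Q.map (MulAut.conj a).toMonoidHom ≤ Q := by
            rintro _ ⟨x, hx, rfl⟩
            exact hAQ a ha x hx
          exact Subgroup.commutator_mono h4 h4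
        exact h3 ⟨n, hn, rfl⟩
      exact h2 (mem_zpowers g)
  set A := zpowers g with hA
  have hAab : ∀ a ∈ A, ∀ b ∈ A, a * b = b * a := by
    rintro _ ⟨i, rfl⟩ _ ⟨j, rfl⟩
    exact ((Commute.refl g).zpow_zpow i j).eq
  have hAD : ∀ a ∈ A, ∀ d ∈ D, a * d = d * a := by
    rintro _ ⟨i, rfl⟩ d hd
    exact ((show Commute g d from hDg d hd).zpow_left i).eq
  have hQD : ∀ x ∈ Q, ∀ d ∈ D, x * d * x⁻¹ ∈ D := by
    intro x hx d hd
    have h1 : ⁅x, d⁆ ∈ D := hcomm (commutator_mem_commutator hx (hDQ hd))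
    have h2 : x * d * x⁻¹ = ⁅x, d⁆ * d := by rw [commutatorElement_def]; group
    rw [h2]; exact mul_mem h1 hd
  set A0 := A ⊓ centralizer (Q : Set G) with hA0
  have hA0Q : ∀ a ∈ A0, ∀ x ∈ Q, a * x = x * a := fun a ha x hx => ((mem_centralizer_iff.mp ha.2) x hx).symm
  set N' := D ⊔ A0 with hN'
  have hN'mem : ∀ x ∈ N', ∃ d ∈ D, ∃ a ∈ A0, x = d * a := by
    intro x hx
    refine exists_mul_of_mem_sup ?_ hx
    apply hconjnorm
    intro a ha d hd
    rw [hAD a ha.1 d hd]; simpa using hd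
  have hdisj : ∀ x, x ∈ Q → x ∈ A → x = 1 := by
    intro x hx hxA
    have h1 : Disjoint Q A := by
      apply disjoint_of_coprime_natCard
      obtain ⟨k, hk⟩ := IsPGroup.iff_card.mp hQ
      rw [hk, hA, Nat.card_zpowers]
      exact (hg.symm).pow_left k
    have h2 : x ∈ Q ⊓ A := ⟨hx, hxA⟩
    rw [disjoint_iff.mp h1] at h2
    exact mem_bot.mp h2
  have hN'Q : ∀ x ∈ N', x ∈ Q → x ∈ D := by
    intro x hx hxQ
    obtain ⟨d, hd, a, ha, rfl⟩ := hN'mem x hx
    have h1 : a ∈ Q := by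
      have := mul_mem (inv_mem (hDQ hd)) hxQ
      simpa using this
    rw [hdisj a h1 ha.1, mul_one]; exact hd
  set HH := Q ⊔ A with hHH
  have hQH : Q ≤ HH := le_sup_left
  have hAH : A ≤ HH := le_sup_right
  have hN'H : N' ≤ HH := sup_le (le_trans hDQ hQH) (le_trans inf_le_left hAH)
  have hHmem : ∀ x ∈ HH, ∃ y ∈ Q, ∃ a ∈ A, x = y * a := by
    intro x hx
    exact exists_mul_of_mem_sup (zpowers_le.mpr hgQ) hx
  have hHN' : HH ≤ normalizer (N' : Set G) := by
    refine sup_le ?_ ?_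
    · apply hconjnorm
      intro x hx n hn
      obtain ⟨d, hd, a, ha, rfl⟩ := hN'mem n hn
      have : x * (d * a) * x⁻¹ = (x * d * x⁻¹) * a := by
        calc x * (d * a) * x⁻¹ = x * d * (a * x⁻¹) := by group
          _ = x * d * (x⁻¹ * a) := by rw [hA0Q a ha x⁻¹ (inv_mem hx)]
          _ = _ := by group
      rw [this]
      exact mul_mem (le_sup_left (a := D) (hQD x hx d hd)) (le_sup_right (b := A0) ha)
    · apply hconjnorm
      intro x hx n hn
      obtain ⟨d, hd, a, ha, rfl⟩ := hN'mem n hn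
      have : x * (d * a) * x⁻¹ = d * a := by
        calc x * (d * a) * x⁻¹ = (x * d) * (a * x⁻¹) := by group
          _ = (d * x) * (x⁻¹ * a) := by rw [hAD x hx d hd, hAab a ha.1 x⁻¹ (inv_mem hx)]
          _ = _ := by group
      rw [this]; exact hn
  have hNn : (N'.subgroupOf HH).Normal := Subgroup.normal_subgroupOf_of_le_normalizer hHN'
  have hQn' : (Q.subgroupOf HH).Normal := Subgroup.normal_subgroupOf_of_le_normalizer
    (sup_le le_normalizer (zpowers_le.mpr hgQ))
  let π : HH →* HH ⧸ (N'.subgroupOf HH) := QuotientGroup.mk' _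
  have hπs : Function.Surjective π := QuotientGroup.mk'_surjective _
  have hπ1 : ∀ h : HH, π h = 1 ↔ (h : G) ∈ N' := by
    intro h
    change ((h : HH) : HH ⧸ (N'.subgroupOf HH)) = 1 ↔ _
    rw [QuotientGroup.eq_one_iff, mem_subgroupOf]
  let V : Subgroup (HH ⧸ (N'.subgroupOf HH)) := (Q.subgroupOf HH).map π
  have hVmem : ∀ x : G, ∀ hx : x ∈ Q, π ⟨x, hQH hx⟩ ∈ V := fun x hx => ⟨⟨x, hQH hx⟩, hx, rfl⟩
  have hVc : ∀ x ∈ V, ∀ y ∈ V, x * y = y * x := by
    rintro _ ⟨x, hx, rfl⟩ _ ⟨y, hy, rfl⟩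
    have h1 : π (x * y * (y * x)⁻¹) = 1 := by
      rw [hπ1]
      have h2 : ⁅(x : G), (y : G)⁆ ∈ D := hcomm (commutator_mem_commutator hx hy)
      have h3 : ((x * y * (y * x)⁻¹ : HH) : G) = ⁅(x : G), (y : G)⁆ := by
        rw [commutatorElement_def]; simp only [coe_mul, coe_inv]; group
      rw [h3]; exact le_sup_left (a := D) h2
    rw [map_mul, map_inv, mul_inv_eq_one, map_mul, map_mul] at h1
    exact h1
  -- elements of A commuting with V centralize Q
  have hAV : ∀ a, ∀ ha : a ∈ A, (∀ v ∈ V, π ⟨a, hAH ha⟩ * v = v * π ⟨a, hAH ha⟩) → a ∈ A0 := by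
    intro a ha h
    refine ⟨ha, ?_⟩
    change a ∈ centralizer (Q : Set G)
    rw [mem_centralizer_iff]
    intro x hx
    have h1 : ∀ x ∈ Q, a * x * a⁻¹ * x⁻¹ ∈ D := by
      intro x hx
      apply hN'Q
      · have h2 := h _ (hVmem x hx)
        have h3 : π (⟨a, hAH ha⟩ * ⟨x, hQH hx⟩ * (⟨a, hAH ha⟩ : HH)⁻¹ * (⟨x, hQH hx⟩ : HH)⁻¹) = 1 := by
          rw [map_mul, map_mul, map_mul, map_inv, map_inv, h2]; group
        rw [hπ1] at h3
        exact h3
      · exact mul_mem (hAQ a ha x hx) (inv_mem hx)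
    have h4 : (orderOf a).Coprime p := by
      refine Nat.Coprime.coprime_dvd_left ?_ hg
      have h5 := Subgroup.card_dvd_of_le (zpowers_le.mpr ha)
      rwa [hA, Nat.card_zpowers, Nat.card_zpowers] at h5
    exact (coprime_central hQ hDQ h4 (hAD a ha) h1 x hx).symm
  have hgA : g ∈ A := mem_zpowers g
  have hgV : ¬ (∀ v ∈ V, π ⟨g, hAH hgA⟩ * v = v * π ⟨g, hAH hgA⟩) := fun h => hcon (hAV g hgA h).2
  have hVtop : V ⊔ zpowers (π ⟨g, hAH hgA⟩) = ⊤ := by
    rw [eq_top_iff]
    intro y _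
    obtain ⟨⟨h, hh⟩, rfl⟩ := hπs y
    obtain ⟨x, hx, a, ⟨i, rfl⟩, rfl⟩ := hHmem h hh
    have : (⟨x * g ^ i, hh⟩ : HH) = ⟨x, hQH hx⟩ * (⟨g, hAH hgA⟩ : HH) ^ i := by
      apply Subtype.ext; simp
    rw [this, map_mul, map_zpow]
    exact mul_mem_sup (hVmem x hx) (zpow_mem (mem_zpowers _) i)
  have hVn : V.Normal := hQn'.map π hπs
  have hidxdvd : V.index ∣ orderOf (π ⟨g, hAH hgA⟩) := by
    have h1 : V.relIndex (V ⊔ zpowers (π ⟨g, hAH hgA⟩)) = V.relIndex (zpowers (π ⟨g, hAH hgA⟩)) :=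
      relIndex_sup_left _ V
    rw [hVtop, relIndex_top_right] at h1
    rw [h1, ← Nat.card_zpowers]
    exact V.relIndex_dvd_card _
  have hidxcop : V.index.Coprime p := by
    refine Nat.Coprime.coprime_dvd_left ?_ hg
    refine dvd_trans hidxdvd ?_
    have := orderOf_map_dvd π ⟨g, hAH hgA⟩
    rwa [Subgroup.orderOf_mk] at this
  have hVp : IsPGroup p V := (hQ.comap_of_injective _ (Subgroup.subtype_injective _)).map π
  have hmain := no_exponent_element V hVp hVc ?_ ?_ ?_ ?_ hidxcop (π ⟨g, hAH hgA⟩) hidxdvd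
  · exact hmain.2 (H HH (N'.subgroupOf HH) hmain.1)
  · -- centralizer
    intro y hy
    obtain ⟨⟨h, hh⟩, rfl⟩ := hπs y
    obtain ⟨x, hx, a, ha, rfl⟩ := hHmem h hh
    have e : (⟨x * a, hh⟩ : HH) = ⟨x, hQH hx⟩ * ⟨a, hAH ha⟩ := rfl
    have h1 : a ∈ A0 := by
      apply hAV a ha
      intro v hv
      have h2 := hy v hv
      rw [e, map_mul] at h2
      have h3 := hVc _ (hVmem x hx) v hv
      have h4 : π ⟨x, hQH hx⟩ * (π ⟨a, hAH ha⟩ * v) = π ⟨x, hQH hx⟩ * (v * π ⟨a, hAH ha⟩) := by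
        rw [← mul_assoc, h2, ← mul_assoc, ← h3, mul_assoc]
      exact mul_left_cancel h4
    have h5 : π ⟨a, hAH ha⟩ = 1 := by
      rw [hπ1]; exact le_sup_right (b := A0) h1
    rw [e, map_mul, h5, mul_one]
    exact hVmem x hx
  · -- irreducibility
    intro W hWV hWn
    set Q1 : Subgroup G := (W.comap π).map HH.subtype ⊓ Q with hQ1
    have hQ1mem : ∀ x (hx : x ∈ Q), x ∈ Q1 ↔ π ⟨x, hQH hx⟩ ∈ W := by
      intro x hx
      constructor
      · rintro ⟨⟨⟨y, hy⟩, hyW, hyx⟩, _⟩
        have : (⟨y, hy⟩ : HH) = ⟨x, hQH hx⟩ := Subtype.ext hyx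
        rw [← this]; exact hyW
      · intro h
        exact ⟨⟨⟨x, hQH hx⟩, h, rfl⟩, hx⟩
    by_cases hQ1Q : Q1 = Q
    · right
      apply le_antisymm hWV
      rintro _ ⟨⟨x, hxH⟩, hx, rfl⟩
      have hx' : x ∈ Q1 := by rw [hQ1Q]; exact hx
      exact (hQ1mem x hx).mp hx'
    · left
      have h1 : Q1 ≤ D := by
        apply hle Q1 inf_le_right hQ1Q
        have h2 : A ≤ normalizer (Q1 : Set G) := by
          apply hconjnorm
          intro a ha x hx
          have hxQ : x ∈ Q := hx.2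
          have hx2 := (hQ1mem x hxQ).mp hx
          rw [hQ1mem _ (hAQ a ha x hxQ)]
          have h3 := hWn.conj_mem _ hx2 (π ⟨a, hAH ha⟩)
          have e : (⟨a * x * a⁻¹, hQH (hAQ a ha x hxQ)⟩ : HH) = ⟨a, hAH ha⟩ * ⟨x, hQH hxQ⟩ * (⟨a, hAH ha⟩ : HH)⁻¹ := rfl
          rw [e, map_mul, map_mul, map_inv]
          exact h3
        exact h2 hgA
      rw [eq_bot_iff]
      intro w hw
      obtain ⟨⟨x, hxH⟩, hx, rfl⟩ := hWV hw
      have h2 : x ∈ Q1 := (hQ1mem x hx).mpr hw
      rw [mem_bot, hπ1]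
      exact le_sup_left (a := D) (h1 h2)
  · intro h
    apply hgV
    intro v hv
    rw [h] at hv
    rw [mem_bot.mp hv]; simp
  · intro h
    apply hgV
    intro v hv
    have h1 : V = ⊤ := index_eq_one.mp h
    exact hVc _ (by rw [h1]; trivial) v hv

/-- Let G be a finite group and p a prime. Then G has a normal p-complement if and only if every section K = H/N of G (N a normal subgroup of a subgroup H) whose largest normal subgroup of order prime to p is trivial contains an element whose order equals the exponent of K. -/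
theorem result {G : Type*} [Group G] [Finite G] (p : ℕ) [Fact p.Prime] :
    Cfsg.HasNormalPComplement p G ↔
      ∀ (H : Subgroup G) (N : Subgroup H) [N.Normal], Cfsg.pPrimeCore p (H ⧸ N) = ⊥ →
        ∃ k : H ⧸ N, orderOf k = Monoid.exponent (H ⧸ N) := by
  constructor
  · intro hG H N _ hcore
    have h1 := Cfsg.Agent.Transfer.HasNPC.quotient (Cfsg.Agent.Transfer.HasNPC.subgroup hG H) N
    obtain ⟨M, hM, hMc, k, hk⟩ := Cfsg.Agent.Transfer.hasNPC_iff_exists.mp h1
    have hM1 : M = ⊥ := by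
      rw [eq_bot_iff, ← hcore]
      exact le_sSup ⟨hM, hMc⟩
    rw [hM1, index_bot] at hk
    have hp : p.Prime := Fact.out
    obtain ⟨g, hg⟩ := hp.exists_orderOf_eq_pow_factorization_exponent (H ⧸ N)
    refine ⟨g, ?_⟩
    have h2 : Monoid.exponent (H ⧸ N) ∣ p ^ k := by
      rw [← hk]; exact Group.exponent_dvd_nat_card
    obtain ⟨j, _, hj⟩ := (Nat.dvd_prime_pow hp).mp h2
    rw [hg, hj, hp.factorization_pow]
    simp
  · intro H
    apply Cfsg.Agent.Transfer.hasNPC_of_frobenius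
    intro Q hQ g hgQ hg
    exact key H g hg _ Q rfl hQ hgQ

end Cfsg.Agent.S4238
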