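import Cfsg.Statements.S4240
import Cfsg.Agent.H32.MaxNilp

set_option autoImplicit false
open Cfsg

namespace Cfsg.Agent.S4240

/-- Let a finite group A act by automorphisms on a finite group G of order coprime to that of A. Suppose every maximal A-invariant proper subgroup of G is nilpotent while G is not. Then G is solvable, the order of G has the form p^a·q^b for two distinct primes p and q, and G has a normal A-invariant Sylow subgroup for some prime dividing its order. -/
theorem result {A G : Type*} [Group A] [Group G] [Finite A] [Finite G] [MulDistribMulAction A G]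
    (hcop : (Nat.card A).Coprime (Nat.card G))
    (hmax : ∀ H : Subgroup G, H ≠ ⊤ → (∀ a : A, ∀ x ∈ H, a • x ∈ H) →
      (∀ K : Subgroup G, H < K → (∀ a : A, ∀ x ∈ K, a • x ∈ K) → K = ⊤) → Group.IsNilpotent H)
    (hG : ¬ Group.IsNilpotent G) :
    Group.IsSolvable G ∧
      (∃ p q a b : ℕ, p.Prime ∧ q.Prime ∧ p ≠ q ∧ Nat.card G = p ^ a * q ^ b) ∧
      ∃ (p : ℕ) (P : Sylow p G), p.Prime ∧ p ∣ Nat.card G ∧ (P : Subgroup G).Normal ∧ (∀ a : A, ∀ x ∈ (P : Subgroup G), a • x ∈ (P : Subgroup G)) := by
  classical
  let φ : A →* MulAut G := MulDistribMulAction.toMulAut A G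
  let X := G ⋊[φ] A
  haveI : Finite X := Finite.of_equiv _ (SemidirectProduct.equivProd (φ := φ)).symm
  let il : G →* X := SemidirectProduct.inl
  let ir : A →* X := SemidirectProduct.inr
  have hil : Function.Injective il := SemidirectProduct.inl_injective
  have hir : Function.Injective ir := SemidirectProduct.inr_injective
  have haut : ∀ (a : A) (g : G), il (a • g) = ir a * il g * (ir a)⁻¹ := by
    intro a g
    have := SemidirectProduct.inl_aut (φ := φ) a g
    rw [map_inv] at this
    exact this
  haveI hKn : il.range.Normal := by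
    have : il.range = (SemidirectProduct.rightHom (φ := φ)).ker := SemidirectProduct.range_inl_eq_ker_rightHom
    rw [this]; infer_instance
  have hcardK : Nat.card il.range = Nat.card G := (Nat.card_congr (MonoidHom.ofInjective hil).toEquiv).symm
  have hcardA : Nat.card ir.range = Nat.card A := (Nat.card_congr (MonoidHom.ofInjective hir).toEquiv).symm
  have hinv : ∀ H : Subgroup G, (∀ a : A, ∀ x ∈ H, a • x ∈ H) ↔
      ir.range ≤ Subgroup.normalizer ((H.map il : Subgroup X) : Set X) := by
    intro H
    constructor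
    · rintro h _ ⟨a, rfl⟩
      have key : ∀ b : A, ∀ x ∈ H.map il, ir b * x * (ir b)⁻¹ ∈ H.map il := by
        rintro b _ ⟨x, hx, rfl⟩
        exact ⟨b • x, h b x hx, haut b x⟩
      rw [Subgroup.mem_normalizer_iff]
      intro x
      refine ⟨key a x, fun hx => ?_⟩
      have := key a⁻¹ _ hx
      have e : ir a⁻¹ * (ir a * x * (ir a)⁻¹) * (ir a⁻¹)⁻¹ = x := by
        simp [mul_assoc]
      rwa [e] at this
    · intro h a x hx
      have h1 := (Subgroup.mem_normalizer_iff.1 (h ⟨a, rfl⟩) (il x)).1 ⟨x, hx, rfl⟩
      rw [← haut] at h1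
      obtain ⟨y, hy, hyx⟩ := h1
      rwa [← hil hyx]
  -- every proper invariant subgroup is nilpotent
  have hprop : ∀ H : Subgroup G, H ≠ ⊤ → (∀ a : A, ∀ x ∈ H, a • x ∈ H) → Group.IsNilpotent H := by
    intro H hH hHA
    obtain ⟨M, hHM, hM⟩ := (Set.toFinite {M : Subgroup G | M ≠ ⊤ ∧ ∀ a : A, ∀ x ∈ M, a • x ∈ M}).exists_le_maximal
      (a := H) ⟨hH, hHA⟩
    have hMnil := hmax M hM.prop.1 hM.prop.2 (by
      intro K hMK hK
      by_contra hKt
      have := hM.2 (y := K) ⟨hKt, hK⟩ hMK.le
      exact hMK.not_ge this)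
    haveI := hMnil
    exact SigF.isNilpotent_of_injective (Subgroup.inclusion hHM) (Subgroup.inclusion_injective hHM)
  have hnilX : ∀ H : Subgroup X, H ≤ il.range → H ≠ il.range →
      ir.range ≤ Subgroup.normalizer (H : Set X) → Group.IsNilpotent H := by
    intro H hH hne hHA
    have e : (H.comap il).map il = H := by
      rw [Subgroup.map_comap_eq, inf_eq_right.2 hH]
    have h1 : Group.IsNilpotent (H.comap il) := by
      apply hprop
      · intro h
        apply hne
        rw [← e, h, ← MonoidHom.range_eq_map]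
      · rw [hinv, e]; exact hHA
    rw [← e]
    haveI := h1
    exact Group.nilpotent_of_surjective (il.subgroupMap (H.comap il)) (MonoidHom.subgroupMap_surjective il _)
  have hKnil : ¬ Group.IsNilpotent il.range := by
    intro h
    apply hG
    haveI := h
    exact (Group.isNilpotent_congr (MonoidHom.ofInjective hil)).2 h
  obtain ⟨h1, ⟨p, q, a, b, hp, hq, hpq, hc⟩, r, P, hr, hrd, hPn, hPA⟩ :=
    H32.MaxNilp.struct (X := X) (K := il.range) (A := ir.range) (by rw [hcardA, hcardK]; exact hcop) hnilX hKnil
  haveI : Fact r.Prime := ⟨hr⟩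
  let e : G ≃* il.range := MonoidHom.ofInjective hil
  refine ⟨?_, ⟨p, q, a, b, hp, hq, hpq, by rw [← hcardK, hc]⟩, r, ?_⟩
  · haveI := h1
    exact Group.isSolvable_of_isSolvable_injective (f := e.toMonoidHom) e.injective
  · have hcom : ((P : Subgroup il.range).comap e.toMonoidHom).map il = (P : Subgroup il.range).map il.range.subtype := by
      ext x
      constructor
      · rintro ⟨g, hg, rfl⟩
        exact ⟨e g, hg, rfl⟩
      · rintro ⟨y, hy, rfl⟩
        refine ⟨e.symm y, ?_, ?_⟩
        · change e (e.symm y) ∈ P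
          rw [e.apply_symm_apply]; exact hy
        · exact congrArg Subtype.val (e.apply_symm_apply y)
    refine ⟨P.comapOfInjective e.toMonoidHom e.injective (by
      have h5 : e.toMonoidHom.range = ⊤ := MonoidHom.range_eq_top.2 e.surjective
      rw [h5]; exact le_top), hr, by rwa [← hcardK], ?_, ?_⟩
    · exact Subgroup.Normal.comap hPn _
    · change ∀ a : A, ∀ x ∈ (P : Subgroup il.range).comap e.toMonoidHom, a • x ∈ (P : Subgroup il.range).comap e.toMonoidHom
      rw [hinv, hcom]
      exact hPA

end Cfsg.Agent.S4240
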