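import Cfsg.Statements.S4242
import Mathlib
import Cfsg.Agent.H70.Nil

set_option autoImplicit false
open Cfsg

namespace Cfsg.Agent.S4242

open Subgroup Cfsg.Agent.H70

theorem forward {G : Type*} [Group G] [Finite G] (p : ℕ) (hp : p.Prime) (hpG : p ∣ Nat.card G)
    (H : ∀ M : Subgroup G, IsCoatom M → p ∣ Nat.card M → Group.IsNilpotent M)
    (h1 : ¬ Group.IsNilpotent G) (h2 : ¬ Cfsg.IsMinimalNonNilpotent G) :
    ∃ Z K : Subgroup G, Z.Normal ∧ K.Normal ∧ Z ⊓ K = ⊥ ∧ Z ⊔ K = ⊤ ∧ Nat.card Z = p ∧
          Cfsg.IsMinimalNonNilpotent K ∧ ¬ p ∣ Nat.card K := by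
  classical
  have hpf : Fact p.Prime := ⟨hp⟩
  have hcp : ∀ n : ℕ, ¬ p ∣ n ↔ n.Coprime p := fun n => by
    rw [Nat.coprime_comm]; exact (Nat.Prime.coprime_iff_not_dvd hp).symm
  -- a non-nilpotent maximal subgroup
  have h3 : ∃ K : Subgroup G, IsCoatom K ∧ ¬ Group.IsNilpotent K := by
    unfold Cfsg.IsMinimalNonNilpotent at h2
    push Not at h2
    obtain ⟨L, hL, hLn⟩ := h2 h1
    obtain ⟨M, hM, hLM⟩ := (eq_top_or_exists_le_coatom L).resolve_left hL
    exact ⟨M, hM, fun h => hLn (nilpotent_of_le hLM h)⟩
  obtain ⟨K, hK, hKn⟩ := h3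
  have hpK : ¬ p ∣ Nat.card K := fun h => hKn (H K hK h)
  -- normal p-complement
  have hnpc : Cfsg.HasNormalPComplement p G := by
    apply Cfsg.Agent.Transfer.hasNPC_of_frobenius
    intro Q hQ g hg hgp
    by_cases hQ1 : Q = ⊥
    · subst hQ1
      rw [mem_centralizer_iff]
      intro x hx
      have : x = 1 := by simpa using hx
      rw [this]; simp
    have hpQ : p ∣ Nat.card Q := by
      obtain ⟨n, hn⟩ := IsPGroup.iff_card.mp hQ
      rw [hn]
      apply dvd_pow_self
      rintro rfl
      apply hQ1
      rw [← Subgroup.card_eq_one, hn, pow_zero]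
    by_cases hN : normalizer (Q : Set G) = ⊤
    · have hQn : Q.Normal := normalizer_eq_top_iff.mp hN
      have hne : zpowers g ⊔ Q ≠ ⊤ := by
        intro htop
        -- then G/Q is cyclic and K embeds in it
        apply hKn
        have hcyc : IsCyclic (G ⧸ Q) := by
          refine ⟨⟨(g : G ⧸ Q), ?_⟩⟩
          intro y
          induction y using QuotientGroup.induction_on with
          | H y =>
            have hy : y ∈ zpowers g ⊔ Q := by rw [htop]; trivial
            rw [mem_sup_of_normal_right] at hy
            obtain ⟨a, ⟨m, rfl⟩, b, hb, rfl⟩ := hy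
            refine ⟨m, ?_⟩
            simp only
            rw [← QuotientGroup.mk_zpow, QuotientGroup.eq]
            simpa using hb
        have hinj : Function.Injective ((QuotientGroup.mk' Q).comp K.subtype) := by
          rw [injective_iff_map_eq_one]
          rintro ⟨x, hx⟩ hx1
          have hxQ : x ∈ Q := (QuotientGroup.eq_one_iff x).mp hx1
          have hd : Disjoint K Q := by
            apply disjoint_of_coprime_natCard
            obtain ⟨n, hn⟩ := IsPGroup.iff_card.mp hQ
            rw [hn]
            exact ((hcp _).mp hpK).pow_right n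
          have : x ∈ K ⊓ Q := ⟨hx, hxQ⟩
          rw [disjoint_iff.mp hd] at this
          exact Subtype.ext (mem_bot.mp this)
        have hcomm : Group.IsNilpotent (G ⧸ Q) := by
          let _ := IsCyclic.commGroup (α := G ⧸ Q)
          infer_instance
        exact nilpotent_of_injective _ hinj hcomm
      have hnil := nilpotent_of_coatoms H hne (dvd_trans hpQ (card_dvd_of_le le_sup_right))
      exact commute_of_le_nilpotent hnil hQ le_sup_right (le_sup_left (a := zpowers g) (mem_zpowers g)) hgp
    · have hnil := nilpotent_of_coatoms H hN (dvd_trans hpQ (card_dvd_of_le le_normalizer))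
      exact commute_of_le_nilpotent hnil hQ le_normalizer hg hgp
  let P : Sylow p G := default
  obtain ⟨N, hN, hNP⟩ := (Cfsg.Agent.Transfer.hasNPC_iff_sylow P).mp hnpc
  have hmem := Cfsg.Agent.Transfer.mem_complement_iff P N hNP
  have hNne : N ≠ ⊤ := by
    intro h
    obtain ⟨x, hx⟩ := exists_prime_orderOf_dvd_card' p hpG
    have h3 : x ∈ N := by rw [h]; trivial
    rw [hmem, hx] at h3
    rw [Nat.coprime_self] at h3
    exact hp.one_lt.ne' h3
  have hKN : K = N := by
    have hle : K ≤ N := by
      intro x hx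
      rw [hmem]
      refine Nat.Coprime.coprime_dvd_left ?_ ((hcp _).mp hpK)
      have := orderOf_dvd_natCard (⟨x, hx⟩ : K)
      rwa [Subgroup.orderOf_mk] at this
    exact (hK.le_iff.mp hle).resolve_left hNne |>.symm
  subst hKN
  -- for any x of order p, ⟨x⟩K = G and ⟨x⟩ is a Sylow p-subgroup
  have hx1 : ∀ x : G, orderOf x = p → x ∉ K := by
    intro x hx h
    rw [hmem, hx, Nat.coprime_self] at h
    exact hp.one_lt.ne' h
  have hidx : K.index = p := by
    obtain ⟨x, hx⟩ := exists_prime_orderOf_dvd_card' p hpG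
    have htop : K ⊔ zpowers x = ⊤ :=
      hK.2 _ (lt_of_le_of_ne le_sup_left (fun h => hx1 x hx (h ▸ le_sup_right (a := K) (mem_zpowers x))))
    have h5 : K.relIndex (K ⊔ zpowers x) = K.relIndex (zpowers x) := relIndex_sup_left (zpowers x) K
    rw [htop, relIndex_top_right] at h5
    have h6 := K.relIndex_dvd_card (zpowers x)
    rw [← h5, Nat.card_zpowers, hx] at h6
    rcases (Nat.dvd_prime hp).mp h6 with h7 | h7
    · exact absurd (index_eq_one.mp h7) hNne
    · exact h7
  have hPcard : Nat.card (P : Subgroup G) = p := by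
    rw [← hNP.symm.index_eq_card, hidx]
  have hfac : (Nat.card G).factorization p = 1 := by
    have h := P.card_eq_multiplicity
    rw [hPcard] at h
    exact (Nat.pow_right_injective hp.two_le (by simpa using h)).symm
  -- subgroups normalized by a group of order p
  have hPK : ∀ (L Z : Subgroup G), L ≤ K → L ≠ K → Nat.card Z = p → Z ≤ normalizer (L : Set G) →
      Group.IsNilpotent (L ⊔ Z : Subgroup G) := by
    intro L Z hL hLne hZ hZL
    refine nilpotent_of_coatoms H ?_ (dvd_trans (by rw [hZ]) (card_dvd_of_le le_sup_right))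
    intro htop
    apply hLne
    refine le_antisymm hL ?_
    intro k hk
    have hk1 : k ∈ L ⊔ Z := by rw [htop]; trivial
    obtain ⟨l, hl, y, hy, rfl⟩ := exists_mul_of_mem_sup hZL hk1
    have hyK : y ∈ K := by
      have := mul_mem (inv_mem (hL hl)) hk
      simpa using this
    have hy1 : y = 1 := by
      have h8 : Disjoint K Z := by
        apply disjoint_of_coprime_natCard
        rw [hZ]; exact (hcp _).mp hpK
      have : y ∈ K ⊓ Z := ⟨hyK, hy⟩
      rw [disjoint_iff.mp h8] at this
      exact mem_bot.mp this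
    rw [hy1, mul_one]; exact hl
  -- P centralizes K
  have hcent : (K : Subgroup G) ≤ centralizer ((P : Subgroup G) : Set G) := by
    have hdvd : Nat.card K ∣ Nat.card (K ⊓ centralizer ((P : Subgroup G) : Set G) : Subgroup G) := by
      rw [Nat.dvd_iff_prime_pow_dvd_dvd]
      intro q k hq hqk
      rcases Nat.eq_zero_or_pos k with rfl | hk
      · simp
      have hqf : Fact q.Prime := ⟨hq⟩
      have hqK : q ∣ Nat.card K := dvd_trans (dvd_pow_self q hk.ne') hqk
      have hqp : q ≠ p := by rintro rfl; exact hpK hqK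
      let R : Sylow q K := default
      set R' : Subgroup G := (R : Subgroup K).map K.subtype with hR'
      have hR'K : R' ≤ K := by
        rintro _ ⟨x, _, rfl⟩; exact x.2
      have hfr : normalizer (R' : Set G) ⊔ K = ⊤ := Sylow.normalizer_sup_eq_top R
      have hpN : p ∣ Nat.card (normalizer (R' : Set G)) := by
        have h5 := relIndex_sup_right (normalizer (R' : Set G)) K
        rw [hfr, relIndex_top_right, hidx] at h5
        rw [h5]; exact K.relIndex_dvd_card _
      obtain ⟨⟨x, hxN⟩, hx⟩ := exists_prime_orderOf_dvd_card' p hpN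
      rw [Subgroup.orderOf_mk] at hx
      have hR'card : Nat.card R' = Nat.card (R : Subgroup K) :=
        Nat.card_congr ((R : Subgroup K).equivMapOfInjective _ (Subgroup.subtype_injective _)).symm.toEquiv
      have hR'p : IsPGroup q R' := R.2.map _
      have hR'ne : R' ≠ K := by
        intro h
        apply hKn
        have : IsPGroup q K := h ▸ hR'p
        exact this.isNilpotent
      have hnil := hPK R' (zpowers x) hR'K hR'ne (by rw [Nat.card_zpowers, hx])
        (by rw [zpowers_le]; exact hxN)
      have hxR : x ∈ centralizer (R' : Set G) :=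
        commute_of_le_nilpotent hnil hR'p le_sup_left
          (le_sup_right (a := R') (mem_zpowers x)) (by rw [hx]; exact (Nat.coprime_primes hp hq).mpr hqp.symm)
      -- conjugate into P
      have hsyl : Nat.card (zpowers x) = p ^ (Nat.card G).factorization p := by
        rw [hfac, Nat.card_zpowers, hx, pow_one]
      obtain ⟨g, hg⟩ := MulAction.exists_smul_eq G (Sylow.ofCard (zpowers x) hsyl) P
      have hconj : ∀ y, y ∈ (P : Subgroup G) ↔ g⁻¹ * y * g ∈ zpowers x := by
        intro y
        rw [← hg]
        exact sylow_smul_mem_iff (Sylow.ofCard (zpowers x) hsyl) g y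
      have hle : R'.map (MulAut.conj g).toMonoidHom ≤ K ⊓ centralizer ((P : Subgroup G) : Set G) := by
        rintro _ ⟨r, hr, rfl⟩
        refine ⟨?_, ?_⟩
        · exact hN.conj_mem r (hR'K hr) g
        · change g * r * g⁻¹ ∈ centralizer ((P : Subgroup G) : Set G)
          rw [mem_centralizer_iff]
          intro y hy
          obtain ⟨m, hm⟩ := (hconj y).mp hy
          have hxr : Commute x r := (mem_centralizer_iff.mp hxR r hr).symm
          have hxm : x ^ m * r = r * x ^ m := (hxr.zpow_left m).eq
          have hy' : y = g * x ^ m * g⁻¹ := by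
            have : x ^ m = g⁻¹ * y * g := hm
            rw [this]; group
          rw [hy']
          calc g * x ^ m * g⁻¹ * (g * r * g⁻¹) = g * (x ^ m * r) * g⁻¹ := by group
            _ = g * (r * x ^ m) * g⁻¹ := by rw [hxm]
            _ = g * r * g⁻¹ * (g * x ^ m * g⁻¹) := by group
      have hcardle := card_dvd_of_le hle
      rw [Nat.card_congr (R'.equivMapOfInjective _ (MulAut.conj g).injective).symm.toEquiv, hR'card] at hcardle
      refine dvd_trans ?_ hcardle
      rw [R.card_eq_multiplicity]
      exact (Nat.pow_dvd_pow_iff_le_right hq.one_lt).mpr ((hq.pow_dvd_iff_le_factorization Nat.card_pos.ne').mp hqk)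
    have hle : Nat.card K ≤ Nat.card (K ⊓ centralizer ((P : Subgroup G) : Set G) : Subgroup G) :=
      Nat.le_of_dvd Nat.card_pos hdvd
    have := Subgroup.eq_of_le_of_card_ge (inf_le_left (a := K) (b := centralizer ((P : Subgroup G) : Set G))) hle
    rw [← this]; exact inf_le_right
  have hsup : K ⊔ (P : Subgroup G) = ⊤ := hNP.sup_eq_top
  have hPnormal : (P : Subgroup G).Normal := by
    rw [← normalizer_eq_top_iff, eq_top_iff, ← hsup, sup_le_iff]
    refine ⟨?_, le_normalizer⟩
    exact le_trans hcent (centralizer_le_normalizer _)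
  refine ⟨P, K, hPnormal, hN, ?_, ?_, hPcard, ⟨hKn, ?_⟩, hpK⟩
  · rw [inf_comm]; exact disjoint_iff.mp hNP.disjoint
  · rw [sup_comm]; exact hsup
  · intro L hL
    have h5 := hPK (L.map K.subtype) P (by rintro _ ⟨x, _, rfl⟩; exact x.2) (by
      intro h
      apply hL
      rw [eq_top_iff]
      rintro ⟨x, hx⟩ _
      have : x ∈ L.map K.subtype := by rw [h]; exact hx
      obtain ⟨y, hy, hyx⟩ := this
      have : y = ⟨x, hx⟩ := Subtype.ext hyx
      rwa [← this]) hPcard (by
        refine le_trans ?_ (centralizer_le_normalizer _)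
        rw [← le_centralizer_iff]
        refine le_trans ?_ hcent
        rintro _ ⟨x, _, rfl⟩; exact x.2)
    have h6 : Group.IsNilpotent (L.map K.subtype) := nilpotent_of_le le_sup_left h5
    exact nilpotent_of_injective (L.equivMapOfInjective _ K.subtype_injective).toMonoidHom
      (L.equivMapOfInjective _ K.subtype_injective).injective h6

theorem backward {G : Type*} [Group G] [Finite G] (p : ℕ) (hp : p.Prime)
    (Z K : Subgroup G) (hZ : Z.Normal) (hK : K.Normal) (hd : Z ⊓ K = ⊥) (hs : Z ⊔ K = ⊤)
    (hZp : Nat.card Z = p) (hmin : Cfsg.IsMinimalNonNilpotent K) (hpK : ¬ p ∣ Nat.card K)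
    (M : Subgroup G) (hM : M ≠ ⊤) (hpM : p ∣ Nat.card M) : Group.IsNilpotent M := by
  have hpf : Fact p.Prime := ⟨hp⟩
  have hcard : Nat.card G = p * Nat.card K := by
    have h1 : Z.IsComplement' K := isComplement'_of_disjoint_and_mul_eq_univ (disjoint_iff.mpr hd) (by
      rw [← Subgroup.normal_mul, hs]; simp)
    rw [← h1.card_mul_card, hZp]
  -- Z ≤ M
  have hZM : Z ≤ M := by
    obtain ⟨⟨x, hxM⟩, hx⟩ := exists_prime_orderOf_dvd_card' p hpM
    rw [Subgroup.orderOf_mk] at hx
    have hxZ : x ∈ Z := by
      have h2 : x ^ Nat.card K ∈ Z := by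
        have h3 : Z.index = Nat.card K := by
          have := Z.card_mul_index
          rw [hZp, hcard] at this
          exact Nat.eq_of_mul_eq_mul_left hp.pos this
        rw [← h3]
        exact Z.pow_index_mem x
      have h4 : (orderOf x).Coprime (Nat.card K) := by
        rw [hx]; exact (Nat.Prime.coprime_iff_not_dvd hp).mpr hpK
      have h5 : x ∈ zpowers (x ^ Nat.card K) := by
        rw [mem_zpowers_pow_iff]
        exact h4.symm
      exact (zpowers_le.mpr h2) h5
    have h6 : zpowers x = Z := by
      apply Subgroup.eq_of_le_of_card_ge (zpowers_le.mpr hxZ)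
      rw [hZp, Nat.card_zpowers, hx]
    rw [← h6]; exact zpowers_le.mpr hxM
  -- Z is central
  have hZc : Z ≤ center G := by
    intro z hz
    rw [mem_center_iff]
    intro g
    have hg : g ∈ Z ⊔ K := by rw [hs]; trivial
    rw [mem_sup_of_normal_left] at hg
    obtain ⟨y, hy, k, hk, rfl⟩ := hg
    have h1 : IsCyclic Z := isCyclic_of_prime_card hZp
    have h2 : y * z = z * y := by
      let _ := IsCyclic.commGroup (α := Z)
      have := mul_comm (⟨y, hy⟩ : Z) ⟨z, hz⟩
      exact congrArg Subtype.val this
    have h3 : k * z = z * k := by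
      have := Subgroup.commute_of_normal_of_disjoint Z K hZ hK (disjoint_iff.mpr hd) z k hz hk
      exact this.symm.eq
    calc y * k * z = y * (k * z) := by group
      _ = y * z * k := by rw [h3]; group
      _ = z * (y * k) := by rw [h2]; group
  -- M/Z is isomorphic to a proper subgroup of K
  let φ : K →* G ⧸ Z := (QuotientGroup.mk' Z).comp K.subtype
  have hφi : Function.Injective φ := by
    rw [injective_iff_map_eq_one]
    rintro ⟨x, hx⟩ hx1
    have hxQ : x ∈ Z := (QuotientGroup.eq_one_iff x).mp hx1
    have : x ∈ Z ⊓ K := ⟨hxQ, hx⟩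
    rw [hd] at this
    exact Subtype.ext (mem_bot.mp this)
  have hφs : Function.Surjective φ := by
    intro y
    induction y using QuotientGroup.induction_on with
    | H g =>
      have hg : g ∈ Z ⊔ K := by rw [hs]; trivial
      rw [sup_comm, mem_sup_of_normal_right] at hg
      obtain ⟨k, hk, z, hz, rfl⟩ := hg
      refine ⟨⟨k, hk⟩, ?_⟩
      change ((k : G) : G ⧸ Z) = _
      rw [QuotientGroup.eq]
      simpa using hz
  let f : M →* G ⧸ Z := (QuotientGroup.mk' Z).comp M.subtype
  have hker : f.ker ≤ center M := by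
    rintro ⟨x, hx⟩ hx1
    have hxZ : x ∈ Z := (QuotientGroup.eq_one_iff x).mp (MonoidHom.mem_ker.mp hx1)
    rw [mem_center_iff]
    rintro ⟨y, hy⟩
    exact Subtype.ext (mem_center_iff.mp (hZc hxZ) y)
  have hrange : f.range ≠ ⊤ := by
    intro h
    apply hM
    rw [eq_top_iff]
    intro g _
    have : (g : G ⧸ Z) ∈ f.range := by rw [h]; trivial
    obtain ⟨⟨m, hm⟩, hmg⟩ := this
    change ((m : G) : G ⧸ Z) = _ at hmg
    rw [QuotientGroup.eq] at hmg
    have := mul_mem hm (hZM hmg)
    simpa using this
  have hnil : Group.IsNilpotent f.range := by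
    have h1 : f.range.comap φ ≠ ⊤ := by
      intro h
      apply hrange
      rw [eq_top_iff]
      intro y _
      obtain ⟨k, rfl⟩ := hφs y
      have : k ∈ f.range.comap φ := by rw [h]; trivial
      exact this
    have h2 := hmin.2 _ h1
    have h3 : (f.range.comap φ).map φ = f.range := Subgroup.map_comap_eq_self_of_surjective hφs _
    have e := (f.range.comap φ).equivMapOfInjective φ hφi
    rw [← h3]
    exact nilpotent_of_injective e.symm.toMonoidHom e.symm.injective h2
  exact Subgroup.isNilpotent_of_ker_le_center f.rangeRestrict (by rw [MonoidHom.ker_rangeRestrict]; exact hker)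

/-- Let G be a finite group and p a prime dividing its order. Every maximal subgroup of G of order divisible by p is nilpotent if and only if G is nilpotent, or G is a minimal non-nilpotent group, or G is the internal direct product of a normal subgroup of order p and a normal minimal non-nilpotent subgroup of order prime to p. -/
theorem result {G : Type*} [Group G] [Finite G] (p : ℕ) (hp : p.Prime) (hpG : p ∣ Nat.card G) :
    (∀ M : Subgroup G, IsCoatom M → p ∣ Nat.card M → Group.IsNilpotent M) ↔
      (Group.IsNilpotent G ∨ Cfsg.IsMinimalNonNilpotent G ∨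
        ∃ Z K : Subgroup G, Z.Normal ∧ K.Normal ∧ Z ⊓ K = ⊥ ∧ Z ⊔ K = ⊤ ∧ Nat.card Z = p ∧
          Cfsg.IsMinimalNonNilpotent K ∧ ¬ p ∣ Nat.card K) := by
  constructor
  · intro H
    by_cases h1 : Group.IsNilpotent G
    · exact Or.inl h1
    by_cases h2 : Cfsg.IsMinimalNonNilpotent G
    · exact Or.inr (Or.inl h2)
    exact Or.inr (Or.inr (forward p hp hpG H h1 h2))
  · rintro (h | h | ⟨Z, K, hZ, hK, hd, hs, hZp, hmin, hpK⟩) M hM hpM
    · infer_instance
    · exact h.2 M hM.1
    · exact backward p hp Z K hZ hK hd hs hZp hmin hpK M hM.1 hpM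

end Cfsg.Agent.S4242
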