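import Cfsg.Statements.S4244
-- import your own Cfsg.Agent.* helpers here

set_option autoImplicit false
open Cfsg

namespace Cfsg.Agent.S4244

/-- Let H be a subnormal subgroup of a finite group G. Then for every subgroup K of G the index of H ∩ K in H divides the index of K in G. -/
theorem result {G : Type*} [Group G] [Finite G] (H : Subgroup G) (hH : H.IsSubnormal) (K : Subgroup G) :
    (H ⊓ K).relIndex H ∣ K.index := by
  classical
  have aux : ∀ (B : Type _) [Group B] [Finite B] (A' K' : Subgroup B) [A'.Normal],
      K'.relIndex A' ∣ K'.index := by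
    intro B _ _ A' K' _
    have h1 : (A' ⊓ K').relIndex A' * A'.relIndex (A' ⊔ K') = (A' ⊓ K').relIndex (A' ⊔ K') :=
      Subgroup.relIndex_mul_relIndex _ _ _ inf_le_left le_sup_left
    have h2 : (A' ⊓ K').relIndex K' * K'.relIndex (A' ⊔ K') = (A' ⊓ K').relIndex (A' ⊔ K') :=
      Subgroup.relIndex_mul_relIndex _ _ _ inf_le_right le_sup_right
    rw [Subgroup.relIndex_sup_left, Subgroup.inf_relIndex_left] at h1
    rw [Subgroup.inf_relIndex_right] at h2
    have h3 : A'.relIndex K' ≠ 0 := (A'.subgroupOf K').index_ne_zero_of_finite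
    have h4 : K'.relIndex A' = K'.relIndex (A' ⊔ K') := by
      apply mul_left_cancel₀ h3
      rw [h2, ← h1, mul_comm]
    rw [h4]
    exact Subgroup.relIndex_dvd_index_of_le le_sup_right
  have key : ∀ L : Subgroup G, L.IsSubnormal → (K.relIndex L) ∣ K.index := by
    intro L hL
    induction hL with
    | top => simp
    | step A B hAB hB hN ih =>
      refine dvd_trans ?_ ih
      have := aux ↥B (A.subgroupOf B) (K.subgroupOf B)
      rw [Subgroup.relIndex_subgroupOf hAB] at this
      exact this
  have h1 := key H hH
  rwa [Subgroup.inf_relIndex_left]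

end Cfsg.Agent.S4244
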