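import Cfsg.Statements.S4249
import Cfsg.Agent.H71.Split2

set_option autoImplicit false
open Cfsg

namespace Cfsg.Agent.S4249

/-- Let G be a finite group and p a prime such that G is not a p-group, and suppose the Hughes subgroup H_p(G), generated by all elements g with g^p ≠ 1, is a proper subgroup. Then H_p(G) is nilpotent and has index p in G. -/
theorem result {G : Type*} [Group G] [Finite G] (p : ℕ) (hp : p.Prime) (hG : ¬ IsPGroup p G)
    (hH : Subgroup.closure {g : G | g ^ p ≠ 1} ≠ ⊤) :
    Group.IsNilpotent (Subgroup.closure {g : G | g ^ p ≠ 1}) ∧ (Subgroup.closure {g : G | g ^ p ≠ 1}).index = p := by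
  haveI : Fact p.Prime := ⟨hp⟩
  set H : Subgroup G := Subgroup.closure {g : G | g ^ p ≠ 1} with hHdef
  have hHn : H.Normal := by
    constructor
    intro x hx g
    have h1 : H ≤ H.comap (MulAut.conj g).toMonoidHom := by
      rw [hHdef, Subgroup.closure_le]
      intro y hy
      apply Subgroup.subset_closure
      change (g * y * g⁻¹) ^ p ≠ 1
      rw [conj_pow]
      intro h2
      apply hy
      have h3 : y ^ p = g⁻¹ * (g * y ^ p * g⁻¹) * g := by group
      rw [h3, h2]; group
    exact h1 hx
  have hsp : ∀ x : G, x ∉ H → x ^ p = 1 := by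
    intro x hx
    by_contra h
    exact hx (Subgroup.subset_closure h)
  exact ⟨Cfsg.Agent.H71.Split.isNilpotent_main _ G H hHn rfl hH hsp,
    Cfsg.Agent.H71.Split.index_main hG hH hsp⟩

end Cfsg.Agent.S4249
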