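import Cfsg.Statements.S4250
import Mathlib.GroupTheory.Focal
import Cfsg.Agent.H51.AlperinP

set_option autoImplicit false
open Cfsg

namespace Cfsg.Agent.S4250


open Subgroup Cfsg.Agent.Alperin
open scoped commutatorElement

theorem aux {G : Type*} [Group G] [Finite G] {p : ℕ} [Fact p.Prime] {P : Sylow p G} {A : Set G} {g : G}
    (h : Cfsg.Agent.H51.PChain P A g) (R : Subgroup G)
    (h1 : ⁅(P : Subgroup G), normalizer ((P : Subgroup G) : Set G)⁆ ≤ R)
    (h2 : ∀ Q : Sylow p G, Tame P Q → ∀ x ∈ nInf P Q, (∃ k : ℕ, orderOf x = p ^ k) →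
      ⁅(P : Subgroup G) ⊓ (Q : Subgroup G), zpowers x⁆ ≤ R) :
    ∀ a ∈ A, a⁻¹ * (g⁻¹ * a * g) ∈ R := by
  induction h with
  | nil A => intro a _; simp [R.one_mem]
  | cons A Q x g ht hx hp hA h ih =>
    intro a ha
    have haD := hA ha
    have h3 : a⁻¹ * (x⁻¹ * a * x) ∈ R := by
      have e : a⁻¹ * (x⁻¹ * a * x) = ⁅a⁻¹, x⁻¹⁆ := by rw [commutatorElement_def]; group
      rw [e]
      rcases hp with hp | hp
      · refine h1 (commutator_mem_commutator (inv_mem haD.1) (inv_mem ?_))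
        have := hx
        rw [nInf, hp, inf_idem] at this
        exact this
      · exact h2 Q ht x hx hp (commutator_mem_commutator (inv_mem haD) (inv_mem (mem_zpowers x)))
    have h4 := ih (x⁻¹ * a * x) ⟨a, ha, rfl⟩
    have e : a⁻¹ * ((x * g)⁻¹ * a * (x * g)) = (a⁻¹ * (x⁻¹ * a * x)) * ((x⁻¹ * a * x)⁻¹ * (g⁻¹ * (x⁻¹ * a * x) * g)) := by
      group
    rw [e]
    exact R.mul_mem h3 h4

theorem commutator_le_left_of_normalizer {G : Type*} [Group G] {H K : Subgroup G}
    (h : K ≤ normalizer (H : Set G)) : ⁅H, K⁆ ≤ H := by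
  rw [commutator_le]
  intro a ha b hb
  rw [commutatorElement_def]
  have h1 : b * a⁻¹ * b⁻¹ ∈ H := (mem_normalizer_iff.1 (h hb) _).1 (inv_mem ha)
  have e : a * b * a⁻¹ * b⁻¹ = a * (b * a⁻¹ * b⁻¹) := by group
  rw [e]
  exact mul_mem ha h1

/-- Let P be a Sylow p-subgroup of a finite group G. Call an intersection H = P ∩ Q with a Sylow p-subgroup Q tame when N_P(H) and N_Q(H) are Sylow p-subgroups of N_G(H). Then P ∩ G′ is generated by [P, N_G(P)] together with the commutator subgroups [P ∩ Q, ⟨x⟩] for all tame intersections P ∩ Q and all p-elements x of N_G(P ∩ Q). -/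
theorem result {G : Type*} [Group G] [Finite G] (p : ℕ) [Fact p.Prime] (P : Sylow p G) :
    (P : Subgroup G) ⊓ commutator G =
      ⁅(P : Subgroup G), Subgroup.normalizer ((P : Subgroup G) : Set G)⁆ ⊔
        ⨆ (Q : Sylow p G) (_ : (¬ p ∣ ((P : Subgroup G) ⊓ Subgroup.normalizer (((P : Subgroup G) ⊓ (Q : Subgroup G) : Subgroup G) : Set G)).relIndex (Subgroup.normalizer (((P : Subgroup G) ⊓ (Q : Subgroup G) : Subgroup G) : Set G)) ∧ ¬ p ∣ ((Q : Subgroup G) ⊓ Subgroup.normalizer (((P : Subgroup G) ⊓ (Q : Subgroup G) : Subgroup G) : Set G)).relIndex (Subgroup.normalizer (((P : Subgroup G) ⊓ (Q : Subgroup G) : Subgroup G) : Set G))))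
          (x : G) (_ : x ∈ Subgroup.normalizer (((P : Subgroup G) ⊓ (Q : Subgroup G) : Subgroup G) : Set G) ∧ ∃ k : ℕ, orderOf x = p ^ k),
          ⁅(P : Subgroup G) ⊓ (Q : Subgroup G), Subgroup.zpowers x⁆ := by

  apply le_antisymm
  · have h0 := commutator_inf_eq_focalSubgroup (G := G) P
    rw [inf_comm, h0, focalSubgroup_def, closure_le]
    rintro g ⟨hg, x, hx, u, rfl⟩
    have h1 : u * x⁻¹ * u⁻¹ ∈ (P : Subgroup G) := by
      have : u * x⁻¹ * u⁻¹ = x⁻¹ * ⁅x, u⁆ := by rw [commutatorElement_def]; group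
      rw [this]
      exact mul_mem (inv_mem hx) hg
    have hch := Cfsg.Agent.H51.alperin_pchain P {x⁻¹} u⁻¹ (by
      rintro a rfl
      exact inv_mem hx) (by
      rintro _ ⟨a, ha, rfl⟩
      rw [Set.mem_singleton_iff] at ha
      subst ha
      change u⁻¹⁻¹ * x⁻¹ * u⁻¹ ∈ (P : Subgroup G)
      rw [inv_inv]
      exact h1)
    have h2 := aux hch (⁅(P : Subgroup G), Subgroup.normalizer ((P : Subgroup G) : Set G)⁆ ⊔
        ⨆ (Q : Sylow p G) (_ : (¬ p ∣ ((P : Subgroup G) ⊓ Subgroup.normalizer (((P : Subgroup G) ⊓ (Q : Subgroup G) : Subgroup G) : Set G)).relIndex (Subgroup.normalizer (((P : Subgroup G) ⊓ (Q : Subgroup G) : Subgroup G) : Set G)) ∧ ¬ p ∣ ((Q : Subgroup G) ⊓ Subgroup.normalizer (((P : Subgroup G) ⊓ (Q : Subgroup G) : Subgroup G) : Set G)).relIndex (Subgroup.normalizer (((P : Subgroup G) ⊓ (Q : Subgroup G) : Subgroup G) : Set G))))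
          (x : G) (_ : x ∈ Subgroup.normalizer (((P : Subgroup G) ⊓ (Q : Subgroup G) : Subgroup G) : Set G) ∧ ∃ k : ℕ, orderOf x = p ^ k),
          ⁅(P : Subgroup G) ⊓ (Q : Subgroup G), Subgroup.zpowers x⁆) le_sup_left (by
      intro Q ht y hy hk
      refine le_trans ?_ le_sup_right
      refine le_iSup_of_le Q (le_iSup_of_le ht (le_iSup_of_le y (le_iSup_of_le ⟨hy, hk⟩ le_rfl)))) x⁻¹ (by simp)
    have e : (x⁻¹)⁻¹ * (u⁻¹⁻¹ * x⁻¹ * u⁻¹) = ⁅x, u⁆ := by rw [commutatorElement_def]; group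
    rw [e] at h2
    exact h2
  · refine le_inf ?_ ?_
    · refine sup_le ?_ (iSup_le fun Q => iSup_le fun ht => iSup_le fun x => iSup_le fun hx => ?_)
      · exact commutator_le_left_of_normalizer le_rfl
      · refine le_trans (commutator_le_left_of_normalizer ?_) inf_le_left
        rw [zpowers_le]
        exact hx.1
    · refine sup_le (commutator_mono le_top le_top) (iSup_le fun Q => iSup_le fun ht => iSup_le fun x => iSup_le fun hx => ?_)
      exact commutator_mono le_top le_top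

end Cfsg.Agent.S4250
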