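import Cfsg.Statements.S4251
import Cfsg.Agent.Transfer.Fusion
import Cfsg.Agent.Alperin.Basic

set_option autoImplicit false
open Cfsg

namespace Cfsg.Agent.S4251


open Subgroup Cfsg.Agent.Alperin

theorem step {G : Type*} [Group G] [Finite G] {p : ℕ} [Fact p.Prime] (P Q : Sylow p G) (ht : Tame P Q)
    (h : IsPGroup p (nInf P Q ⧸ (centralizer (((P : Subgroup G) ⊓ (Q : Subgroup G) : Subgroup G) : Set G)).subgroupOf (nInf P Q)))
    {x : G} (hx : x ∈ nInf P Q) :
    ∃ u ∈ (P : Subgroup G), ∀ a ∈ (P : Subgroup G) ⊓ (Q : Subgroup G), u⁻¹ * a * u = x⁻¹ * a * x := by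
  set D : Subgroup G := (P : Subgroup G) ⊓ (Q : Subgroup G) with hD
  set N := nInf P Q with hN
  set C : Subgroup N := (centralizer (D : Set G)).subgroupOf N with hC
  have hCn : C.Normal := Subgroup.normal_subgroupOf_centralizer_normalizer _
  set S : Subgroup N := (P : Subgroup G).subgroupOf N with hS
  have hSi : ¬ p ∣ S.index := by
    have := ht.1
    rw [relIndex, inf_subgroupOf_right] at this
    exact this
  have htop : C ⊔ S = ⊤ := by
    rw [← Subgroup.index_eq_one]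
    have h1 : (C ⊔ S).index ∣ S.index := Subgroup.index_dvd_of_le le_sup_right
    have h2 : (C ⊔ S).index ∣ C.index := Subgroup.index_dvd_of_le le_sup_left
    obtain ⟨k, hk⟩ := (IsPGroup.iff_card.1 h)
    have h3 : C.index = p ^ k := hk
    rw [h3] at h2
    obtain ⟨j, _, hj⟩ := (Nat.dvd_prime_pow (Fact.out : p.Prime)).1 h2
    rcases Nat.eq_zero_or_pos j with h0 | h0
    · rw [hj, h0, pow_zero]
    · exact absurd ((dvd_pow_self p h0.ne').trans (hj ▸ h1)) hSi
  have hx' : (⟨x, hx⟩ : N) ∈ C ⊔ S := by rw [htop]; trivial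
  rw [mem_sup_of_normal_left] at hx'
  obtain ⟨c, hc, s, hs, hcs⟩ := hx'
  have hcs' : (c : G) * s = x := congrArg Subtype.val hcs
  refine ⟨s, mem_subgroupOf.1 hs, fun a ha => ?_⟩
  have hc1 : (c : G) ∈ centralizer (D : Set G) := mem_subgroupOf.1 hc
  have hc2 : a * c = c * a := mem_centralizer_iff.1 hc1 a ha
  rw [← hcs']
  have : (c : G)⁻¹ * a * c = a := by rw [mul_assoc, hc2]; group
  calc (s : G)⁻¹ * a * s = (s : G)⁻¹ * ((c : G)⁻¹ * a * c) * s := by rw [this]
    _ = _ := by group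

theorem aux {G : Type*} [Group G] [Finite G] {p : ℕ} [Fact p.Prime] {P : Sylow p G} {A : Set G} {g : G}
    (h : Chain P A g)
    (hs : ∀ Q : Sylow p G, Tame P Q → ∀ x ∈ nInf P Q,
      ∃ u ∈ (P : Subgroup G), ∀ a ∈ (P : Subgroup G) ⊓ (Q : Subgroup G), u⁻¹ * a * u = x⁻¹ * a * x) :
    ∃ u ∈ (P : Subgroup G), ∀ a ∈ A, u⁻¹ * a * u = g⁻¹ * a * g := by
  induction h with
  | nil A => exact ⟨1, one_mem _, fun a _ => by simp⟩
  | cons A Q x g ht hx hA h ih =>
    obtain ⟨u, hu, h1⟩ := hs Q ht x hx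
    obtain ⟨v, hv, h2⟩ := ih
    refine ⟨u * v, mul_mem hu hv, fun a ha => ?_⟩
    have h3 := h1 a (hA ha)
    have h4 := h2 (x⁻¹ * a * x) ⟨a, ha, rfl⟩
    calc (u * v)⁻¹ * a * (u * v) = v⁻¹ * (u⁻¹ * a * u) * v := by group
      _ = g⁻¹ * (x⁻¹ * a * x) * g := by rw [h3, h4]
      _ = _ := by group

/-- Let P be a Sylow p-subgroup of a finite group G. Call an intersection H = P ∩ Q with a Sylow p-subgroup Q tame when N_P(H) and N_Q(H) are Sylow p-subgroups of N_G(H). If N_G(H)/C_G(H) is a p-group for every nontrivial tame intersection H = P ∩ Q, then G has a normal p-complement. -/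
theorem result {G : Type*} [Group G] [Finite G] (p : ℕ) [Fact p.Prime] (P : Sylow p G)
    (h : ∀ Q : Sylow p G, (P : Subgroup G) ⊓ (Q : Subgroup G) ≠ ⊥ → (¬ p ∣ ((P : Subgroup G) ⊓ Subgroup.normalizer (((P : Subgroup G) ⊓ (Q : Subgroup G) : Subgroup G) : Set G)).relIndex (Subgroup.normalizer (((P : Subgroup G) ⊓ (Q : Subgroup G) : Subgroup G) : Set G)) ∧ ¬ p ∣ ((Q : Subgroup G) ⊓ Subgroup.normalizer (((P : Subgroup G) ⊓ (Q : Subgroup G) : Subgroup G) : Set G)).relIndex (Subgroup.normalizer (((P : Subgroup G) ⊓ (Q : Subgroup G) : Subgroup G) : Set G))) →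
      IsPGroup p (Subgroup.normalizer (((P : Subgroup G) ⊓ (Q : Subgroup G) : Subgroup G) : Set G) ⧸
        (Subgroup.centralizer (((P : Subgroup G) ⊓ (Q : Subgroup G) : Subgroup G) : Set G)).subgroupOf
          (Subgroup.normalizer (((P : Subgroup G) ⊓ (Q : Subgroup G) : Subgroup G) : Set G)))) :
    Cfsg.HasNormalPComplement p G := by

  refine Cfsg.Agent.Transfer.hasNPC_of_controls_own_fusion (P := P) ?_
  rintro x hx y hy ⟨g, rfl⟩
  have hch := alperin_chain P {x} g⁻¹ (by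
      rintro a rfl
      exact hx) (by
      rintro _ ⟨a, ha, rfl⟩
      rw [Set.mem_singleton_iff] at ha
      subst ha
      rw [SetLike.mem_coe]
      simpa only [inv_inv] using hy)
  obtain ⟨u, hu, h1⟩ := aux hch (by
    intro Q ht y hy
    by_cases hb : (P : Subgroup G) ⊓ (Q : Subgroup G) = ⊥
    · refine ⟨1, one_mem _, fun a ha => ?_⟩
      rw [hb, mem_bot] at ha
      subst ha
      simp
    · exact step P Q ht (h Q hb ht) hy)
  refine ⟨u⁻¹, inv_mem hu, ?_⟩
  have := h1 x (by simp)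
  simpa using this

end Cfsg.Agent.S4251
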