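import Cfsg.Statements.S4260
-- import your own Cfsg.Agent.* helpers here

set_option autoImplicit false
open Cfsg

namespace Cfsg.Agent.S4260

/-- Let H be a Hall subgroup of a finite group G (the order of H is coprime to its index) such that x^[G : H] lies in H for every x in G. Then H is normal in G. -/
theorem result {G : Type*} [Group G] [Finite G] (H : Subgroup G) (hHall : (Nat.card H).Coprime H.index)
    (hexp : ∀ x : G, x ^ H.index ∈ H) : H.Normal := by
  classical
  have key : ∀ x : G, x ^ Nat.card H = 1 → x ∈ H := by
    intro x hx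
    have hcop : Nat.Coprime (orderOf x) H.index :=
      Nat.Coprime.coprime_dvd_left (orderOf_dvd_of_pow_eq_one hx) hHall
    obtain ⟨m, hm⟩ := exists_pow_eq_self_of_coprime hcop.symm
    rw [← hm]
    exact Subgroup.pow_mem _ (hexp x) m
  refine ⟨fun n hn g => key _ ?_⟩
  have h1 : n ^ Nat.card H = 1 := by
    have h : (⟨n, hn⟩ : H) ^ Nat.card H = 1 := pow_card_eq_one'
    have h2 := congrArg Subtype.val h
    rwa [SubmonoidClass.coe_pow, OneMemClass.coe_one] at h2
  rw [conj_pow, h1]; simp

end Cfsg.Agent.S4260
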