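import Cfsg.Statements.S4261
import Cfsg.Agent.Solv.MinNormal
import Cfsg.Agent.Solv.Frattini
import Cfsg.Agent.Transfer.Residual

set_option autoImplicit false
open Cfsg

namespace Cfsg.Agent.S4261

/-- Let M be a maximal subgroup of a finite solvable group G such that x^[G : M] lies in M for every x in G. Then M is normal in G. -/
theorem result {G : Type*} [Group G] [Finite G] (hG : Group.IsSolvable G) (M : Subgroup G) (hM : IsCoatom M)
    (hexp : ∀ x : G, x ^ M.index ∈ M) : M.Normal := by
  have hpp := Cfsg.Agent.Solv.index_coatom_isPrimePow M hM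
  obtain ⟨q, k, hq, hk0, hk⟩ := hpp
  have hqp : q.Prime := hq.nat_prime
  haveI : Fact q.Prime := ⟨hqp⟩
  have hle : Cfsg.pResidual q G ≤ M := by
    rw [Cfsg.pResidual, Subgroup.closure_le]
    intro x hx
    have hx' : (orderOf x).Coprime q := hx
    have hcop : Nat.Coprime M.index (orderOf x) := by
      rw [← hk]; exact (hx'.pow_right k).symm
    obtain ⟨m, hm⟩ := exists_pow_eq_self_of_coprime hcop
    rw [SetLike.mem_coe, ← hm]
    exact M.pow_mem (hexp x) m
  set R := Cfsg.pResidual q G with hR
  have hpg : IsPGroup q (G ⧸ R) := Cfsg.Agent.Transfer.isPGroup_quotient_pResidual (p := q) (G := G)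
  have hker : (QuotientGroup.mk' R).ker ≤ M := by rw [QuotientGroup.ker_mk']; exact hle
  have hMm : (M.map (QuotientGroup.mk' R)).comap (QuotientGroup.mk' R) = M := by
    rw [Subgroup.comap_map_eq, sup_eq_left.mpr hker]
  have hco : IsCoatom (M.map (QuotientGroup.mk' R)) := by
    refine ⟨fun h => hM.1 ?_, fun K hK => ?_⟩
    · rw [← hMm, h, Subgroup.comap_top]
    · have h1 : M < K.comap (QuotientGroup.mk' R) := by
        rw [← hMm]
        exact (Subgroup.comap_lt_comap_of_surjective (QuotientGroup.mk'_surjective R)).mpr hK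
      have h2 := hM.2 _ h1
      rw [← Subgroup.map_comap_eq_self_of_surjective (QuotientGroup.mk'_surjective R) K, h2]
      exact Subgroup.map_top_of_surjective _ (QuotientGroup.mk'_surjective R)
  have hn := (Cfsg.Agent.Solv.coatom_of_pGroup hpg _ hco).1
  rw [← hMm]
  exact hn.comap _

end Cfsg.Agent.S4261
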