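import Cfsg.Statements.S4263
import Cfsg.Agent.Solv.Core

set_option autoImplicit false
open Cfsg

namespace Cfsg.Agent.S4263

theorem pow_index_mem_of_nilpotent {N : Type*} [Group N] [Finite N] [Group.IsNilpotent N] :
    ∀ (n : ℕ) (K : Subgroup N), K.index = n → ∀ y : N, y ^ K.index ∈ K := by
  intro n
  induction n using Nat.strong_induction_on with
  | _ n ih =>
    intro K hK y
    by_cases htop : K = ⊤
    · rw [htop]; exact Subgroup.mem_top _
    · have hlt : K < Subgroup.normalizer (K : Set N) :=
        Group.normalizerCondition_of_isNilpotent K (lt_top_iff_ne_top.mpr htop)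
      set L := Subgroup.normalizer (K : Set N) with hL
      have hmul : K.relIndex L * L.index = K.index := Subgroup.relIndex_mul_index hlt.le
      have hLlt : L.index < n := by
        rw [← hK, ← hmul]
        have h1 : K.relIndex L ≠ 1 := fun h => hlt.not_ge (Subgroup.relIndex_eq_one.mp h)
        have h0 : K.relIndex L ≠ 0 := by
          intro h0
          have := Subgroup.index_ne_zero_of_finite (H := K)
          rw [← hmul, h0, zero_mul] at this
          exact this rfl
        have h2 : L.index ≠ 0 := Subgroup.index_ne_zero_of_finite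
        have : 2 ≤ K.relIndex L := by omega
        nlinarith [Nat.pos_of_ne_zero h2]
      have h1 := ih _ hLlt L rfl y
      have h2 : (⟨y ^ L.index, h1⟩ : L) ^ (K.subgroupOf L).index ∈ K.subgroupOf L :=
        Subgroup.pow_index_mem _ _
      rw [Subgroup.mem_subgroupOf] at h2
      rw [← hmul, mul_comm, pow_mul]
      exact h2

theorem relIndex_normal_dvd {G : Type*} [Group G] [Finite G] (F H : Subgroup G) [F.Normal] :
    H.relIndex F ∣ H.index := by
  have h1 : H.relIndex (H ⊔ F) * (H ⊔ F).index = H.index := Subgroup.relIndex_mul_index le_sup_left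
  have h2 : H.relIndex F = H.relIndex (H ⊔ F) := by
    have h3 := Cfsg.Agent.Solv.mul_card_sup_of_normal H F
    have h4 : Nat.card H * H.relIndex (H ⊔ F) = Nat.card (H ⊔ F : Subgroup G) := by
      rw [← Subgroup.relIndex_bot_left (H ⊔ F), ← Subgroup.relIndex_bot_left H,
        Subgroup.relIndex_mul_relIndex _ _ _ bot_le le_sup_left]
    have h5 : Nat.card (H ⊓ F : Subgroup G) * H.relIndex F = Nat.card F := by
      rw [← Subgroup.relIndex_bot_left (H ⊓ F), ← Subgroup.relIndex_bot_left F,
        ← Subgroup.inf_relIndex_right H F, Subgroup.relIndex_mul_relIndex _ _ _ bot_le inf_le_right]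
    have p1 : 0 < Nat.card H := Nat.card_pos
    have p2 : 0 < Nat.card (H ⊓ F : Subgroup G) := Nat.card_pos
    have h6 : (Nat.card H * Nat.card (H ⊓ F : Subgroup G)) * H.relIndex F
        = (Nat.card H * Nat.card (H ⊓ F : Subgroup G)) * H.relIndex (H ⊔ F) := by
      calc _ = Nat.card H * Nat.card F := by rw [mul_assoc, h5]
        _ = Nat.card (H ⊔ F : Subgroup G) * Nat.card (H ⊓ F : Subgroup G) := h3.symm
        _ = _ := by rw [← h4]; ring
    exact Nat.eq_of_mul_eq_mul_left (Nat.mul_pos p1 p2) h6
  rw [h2, ← h1]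
  exact Dvd.intro _ rfl


/-- Let G be a finite group. An element x lies in the Fitting subgroup F(G) if and only if, for every subgroup H of G, the power x^[G : H] lies in H. -/
theorem result {G : Type*} [Group G] [Finite G] (x : G) :
    x ∈ Cfsg.fittingSubgroup G ↔ ∀ H : Subgroup G, x ^ H.index ∈ H := by
  classical
  have hFn : (Cfsg.fittingSubgroup G).Normal := Subgroup.sSup_normal _ (fun _ h => h.1)
  constructor
  · intro hx H
    have hnil : Group.IsNilpotent (Cfsg.fittingSubgroup G) := Cfsg.Agent.Solv.fitting_isNilpotent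
    obtain ⟨c, hc⟩ := relIndex_normal_dvd (Cfsg.fittingSubgroup G) H
    have h1 := pow_index_mem_of_nilpotent _ (H.subgroupOf (Cfsg.fittingSubgroup G)) rfl ⟨x, hx⟩
    rw [Subgroup.mem_subgroupOf] at h1
    rw [hc, pow_mul]
    exact H.pow_mem h1 c
  · intro h
    set F := Cfsg.fittingSubgroup G with hF
    rw [← QuotientGroup.eq_one_iff, ← orderOf_eq_one_iff]
    by_contra hd
    obtain ⟨p, hp, hpd⟩ := Nat.exists_prime_and_dvd hd
    haveI : Fact p.Prime := ⟨hp⟩
    set n := orderOf x with hn
    have hn0 : n ≠ 0 := (orderOf_pos x).ne'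
    set m := ordCompl[p] n with hm
    have hmem : x ^ m ∈ Cfsg.pCore p G := by
      rw [Cfsg.Agent.Solv.pCore_eq_iInf_sylow, Subgroup.mem_iInf]
      intro P
      have hord : orderOf (x ^ m) = ordProj[p] n := by
        rw [orderOf_pow' x (by
          intro h0
          exact (Nat.ordCompl_pos p hn0).ne' h0)]
        rw [← hn, Nat.gcd_eq_right (Nat.ordCompl_dvd n p)]
        exact Nat.div_eq_of_eq_mul_left (Nat.ordCompl_pos p hn0) (Nat.ordProj_mul_ordCompl_eq_self n p).symm
      have hcop : Nat.Coprime (P : Subgroup G).index (orderOf (x ^ m)) := by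
        rw [hord]
        apply Nat.Coprime.pow_right
        rw [Nat.coprime_comm, Nat.Prime.coprime_iff_not_dvd hp]
        exact P.not_dvd_index
      obtain ⟨k, hk⟩ := exists_pow_eq_self_of_coprime hcop
      rw [← hk]
      apply Subgroup.pow_mem
      rw [← pow_mul, mul_comm, pow_mul]
      exact Subgroup.pow_mem _ (h P) m
    have hmemF : x ^ m ∈ F := Cfsg.Agent.Solv.pCore_le_fitting p hmem
    have h1 : ((x : G ⧸ F)) ^ m = 1 := by
      rw [← QuotientGroup.mk_pow, QuotientGroup.eq_one_iff]; exact hmemF
    have h2 : p ∣ m := hpd.trans (orderOf_dvd_of_pow_eq_one h1)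
    exact Nat.not_dvd_ordCompl hp hn0 h2

end Cfsg.Agent.S4263
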