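import Cfsg.Statements.S4303
import Cfsg.Agent.H65.SylowNum
import Cfsg.Agent.H65.Basic
import Cfsg.Agent.Transfer.Fusion

set_option autoImplicit false
universe u
open Cfsg

namespace Cfsg.Agent.S4303


open Subgroup Cfsg.Agent.H65.SylowNum

/-- The property of the numbers in the list. -/
def Good (p : ℕ) (m : ℕ) : Prop := (IsPrimePow m ∧ m % p = 1) ∨
        ∃ (S : Type u) (_ : Group S) (_ : Finite S), IsSimpleGroup S ∧ m = Nat.card (Sylow p S)

def HasList (p : ℕ) (n : ℕ) : Prop := ∃ l : List ℕ, l.prod = n ∧ ∀ m ∈ l, Good.{u} p m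

theorem HasList.mul {p n m : ℕ} (h1 : HasList.{u} p n) (h2 : HasList.{u} p m) : HasList.{u} p (n * m) := by
  obtain ⟨l1, e1, g1⟩ := h1
  obtain ⟨l2, e2, g2⟩ := h2
  refine ⟨l1 ++ l2, by rw [List.prod_append, e1, e2], fun m hm => ?_⟩
  rcases List.mem_append.1 hm with h | h
  · exact g1 m h
  · exact g2 m h

theorem main (p : ℕ) [hp : Fact p.Prime] (n : ℕ) : ∀ (G : Type u) [Group G] [Finite G], Nat.card G = n →
    HasList.{u} p (Nat.card (Sylow p G)) := by
  induction n using Nat.strong_induction_on with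
  | _ n ih =>
  intro G _ _ hn
  have P : Sylow p G := default
  by_cases hs : IsSimpleGroup G
  · exact ⟨[Nat.card (Sylow p G)], by simp, fun m hm => by
      rw [List.mem_singleton] at hm
      exact Or.inr ⟨G, inferInstance, inferInstance, hs, hm⟩⟩
  by_cases ht : Nontrivial G
  swap
  · rw [not_nontrivial_iff_subsingleton] at ht
    refine ⟨[], ?_, by simp⟩
    rw [P.card_eq_index_normalizer]
    have : normalizer (P : Set G) = ⊤ := Subsingleton.elim _ _
    rw [Subgroup.index_eq_one.2 this, List.prod_nil]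
  obtain ⟨K, hKn, hK1, hK2⟩ : ∃ K : Subgroup G, K.Normal ∧ K ≠ ⊥ ∧ K ≠ ⊤ := by
    by_contra h
    push Not at h
    exact hs ⟨fun K hK => by
      by_cases h1 : K = ⊥
      · exact Or.inl h1
      · exact Or.inr (h K hK h1)⟩
  have hlt : ∀ M : Subgroup G, M ≠ ⊤ → Nat.card M < n := by
    intro M hM
    rw [← hn]
    have := Cfsg.Agent.H65.card_lt_card_of_lt (lt_top_iff_ne_top.2 hM)
    rwa [Subgroup.card_top] at this
  have hqlt : ∀ M : Subgroup G, M ≠ ⊥ → Nat.card (G ⧸ M) < n := by
    intro M hM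
    rw [← hn, Subgroup.card_eq_card_quotient_mul_card_subgroup M]
    have h1 : 1 < Nat.card M := by
      rw [Subgroup.one_lt_card_iff_ne_bot]; exact hM
    have h2 : 0 < Nat.card (G ⧸ M) := Nat.card_pos
    nlinarith
  have hPK : ¬ p ∣ (P : Subgroup G).relIndex K := by
    have := (Cfsg.Agent.Transfer.sylowInf P K).not_dvd_index
    rwa [Cfsg.Agent.Transfer.sylowInf_coe] at this
  by_cases hQn : ((P : Subgroup G) ⊓ K : Subgroup G).Normal
  swap
  · have h1 : normalizer ((((P : Subgroup G) ⊓ K : Subgroup G)) : Set G) ≠ ⊤ := by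
      intro h; exact hQn (Subgroup.normalizer_eq_top_iff.1 h)
    have h2 := card_sylow_of_normalizer_le P (M := normalizer ((((P : Subgroup G) ⊓ K : Subgroup G)) : Set G)) normalizer_le_normalizer_inf
    rw [h2, ← card_sylow_normal P K hPK]
    exact (ih _ (hlt _ h1) _ rfl).mul (ih _ (hlt K hK2) K rfl)
  by_cases hQ : ((P : Subgroup G) ⊓ K : Subgroup G) = ⊥
  swap
  · have h1 := card_sylow_quotient P ((P : Subgroup G) ⊓ K)
    have h2 : (P : Subgroup G) ⊔ ((P : Subgroup G) ⊓ K) = P := sup_eq_left.2 inf_le_left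
    rw [h2] at h1
    have h3 : Nat.card (Sylow p G) = Nat.card (Sylow p (G ⧸ ((P : Subgroup G) ⊓ K))) := by
      rw [h1, P.card_eq_index_normalizer]
      rfl
    rw [h3]
    exact ih _ (hqlt _ hQ) _ rfl
  -- now `K` is a `p'`-group
  by_cases hT : ((P : Subgroup G) ⊔ K : Subgroup G).Normal
  swap
  · have h1 : normalizer ((((P : Subgroup G) ⊔ K : Subgroup G)) : Set G) ≠ ⊤ := by
      intro h; exact hT (Subgroup.normalizer_eq_top_iff.1 h)
    have h2 := card_sylow_of_normalizer_le P (M := normalizer ((((P : Subgroup G) ⊔ K : Subgroup G)) : Set G)) normalizer_le_normalizer_sup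
    rw [h2, ← card_sylow_quotient P K]
    exact (ih _ (hlt _ h1) _ rfl).mul (ih _ (hqlt K hK1) _ rfl)
  by_cases hTt : ((P : Subgroup G) ⊔ K : Subgroup G) = ⊤
  swap
  · rw [card_sylow_of_normal_ge P (T := (P : Subgroup G) ⊔ K) le_sup_left]
    exact ih _ (hlt _ hTt) _ rfl
  -- `G = P K`
  have hKp : ¬ p ∣ Nat.card K := by
    have h1 : (P : Subgroup G).relIndex K = Nat.card K := by
      rw [← inf_relIndex_right, hQ, relIndex_bot_left]
    rwa [h1] at hPK
  have hPN : (P : Subgroup G) ≤ normalizer (K : Set G) := by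
    rw [Subgroup.normalizer_eq_top_iff.2 hKn]; exact le_top
  obtain ⟨l, hl, hg⟩ := exists_list (A := (P : Subgroup G)) (K := K) P.2 hKp hPN
  refine ⟨l, ?_, fun m hm => Or.inl (hg m hm)⟩
  rw [hl, P.card_eq_index_normalizer]
  have h5 : K ⊔ normalizer ((P : Subgroup G) : Set G) = ⊤ := by
    rw [eq_top_iff, ← hTt]
    exact sup_le (le_normalizer.trans le_sup_right) le_sup_left
  have h6 : (normalizer (P : Set G)).index = (normalizer ((P : Subgroup G) : Set G)).relIndex K :=
    Cfsg.Agent.H1.index_eq_relIndex_of_sup_eq_top K _ h5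
  rw [h6, ← inf_relIndex_right (normalizer ((P : Subgroup G) : Set G)) K]
  congr 1
  apply le_antisymm
  · exact le_inf (inf_le_right.trans (centralizer_le_normalizer _)) inf_le_left
  · rintro x ⟨hx1, hx2⟩
    refine ⟨hx2, ?_⟩
    change x ∈ centralizer ((P : Subgroup G) : Set G)
    rw [mem_centralizer_iff]
    intro a ha
    have h7 : x * a * x⁻¹ * a⁻¹ ∈ (P : Subgroup G) ⊓ K := by
      refine mem_inf.2 ⟨mul_mem ((mem_normalizer_iff.1 hx1 a).1 ha) (inv_mem ha), ?_⟩
      have e : x * a * x⁻¹ * a⁻¹ = x * (a * x⁻¹ * a⁻¹) := by group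
      rw [e]
      exact mul_mem hx2 (hKn.conj_mem _ (inv_mem hx2) a)
    rw [hQ, mem_bot, mul_inv_eq_one, mul_inv_eq_iff_eq_mul] at h7
    exact h7.symm

/-- For a finite group `G` and a prime `p`, the number of Sylow `p`-subgroups of `G` is a product of natural numbers each of which is either a prime power congruent to 1 modulo `p` or the number of Sylow `p`-subgroups of some finite simple group. -/
theorem result {G : Type u} [Group G] [Finite G]
    (p : ℕ) [Fact p.Prime] :
    ∃ l : List ℕ, l.prod = Nat.card (Sylow p G) ∧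
      ∀ m ∈ l, (IsPrimePow m ∧ m % p = 1) ∨
        ∃ (S : Type u) (_ : Group S) (_ : Finite S), IsSimpleGroup S ∧ m = Nat.card (Sylow p S) := by

  obtain ⟨l, h1, h2⟩ := main p (Nat.card G) G rfl
  exact ⟨l, h1, h2⟩

end Cfsg.Agent.S4303
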