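import Cfsg.Statements.S4330
import Cfsg.Agent.BSV.Main
import Cfsg.Agent.H49.Core

set_option autoImplicit false
open Pointwise
open Cfsg

namespace Cfsg.Agent.S4330

/-- Let G be a finite solvable group, p an odd prime and A a p-subgroup of G such that every conjugacy class of G contains an element g for which A is subnormal in the subgroup generated by A and its conjugate by g. Then A is contained in O_p(G). (The hypothesis that p is odd is needed.) -/
theorem result {G : Type*} [Group G] [Finite G]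
    (hG : Group.IsSolvable G) (p : ℕ) [Fact p.Prime] (hp : p ≠ 2) (A : Subgroup G) (hA : IsPGroup p A)
    (h : ∀ c : G, ∃ g : G, IsConj c g ∧ (A.subgroupOf (A ⊔ MulAut.conj g • A)).IsSubnormal) :
    A ≤ Cfsg.pCore p G := by
  intro a ha
  refine Cfsg.Agent.BSV.main hp _ G hG rfl a fun c => ?_
  obtain ⟨g, hcg, hsub⟩ := h c
  refine ⟨g, hcg, ?_⟩
  obtain ⟨X, hX⟩ : ∃ X : Subgroup G, X = A ⊔ MulAut.conj g • A := ⟨_, rfl⟩
  rw [← hX] at hsub
  have hAX : A ≤ X := by rw [hX]; exact le_sup_left
  have hBX : MulAut.conj g • A ≤ X := by rw [hX]; exact le_sup_right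
  have h1 : A.subgroupOf X ≤ Cfsg.pCore p X :=
    Cfsg.Agent.H49.le_pCore_of_isSubnormal hsub (hA.comap_subtype)
  have hB : IsPGroup p (MulAut.conj g • A : Subgroup G) := hA.map _
  have h2 : IsPGroup p X := by
    have h3 : IsPGroup p (Cfsg.pCore p X ⊔ (MulAut.conj g • A).subgroupOf X : Subgroup X) :=
      IsPGroup.to_sup_of_normal_left (Cfsg.Agent.Solv.pCore_isPGroup p) (hB.comap_subtype)
    have h4 : (Cfsg.pCore p X ⊔ (MulAut.conj g • A).subgroupOf X : Subgroup X) = ⊤ := by
      rw [eq_top_iff]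
      have h5 : (⊤ : Subgroup X) ≤ A.subgroupOf X ⊔ (MulAut.conj g • A).subgroupOf X := by
        rw [← Subgroup.subgroupOf_sup hAX hBX, ← hX, Subgroup.subgroupOf_self]
      exact h5.trans (sup_le_sup_right h1 _)
    rw [h4] at h3
    exact h3.of_equiv Subgroup.topEquiv
  refine h2.to_le ?_
  rw [Subgroup.closure_le]
  rintro x (rfl | rfl)
  · exact hAX ha
  · exact hBX (Subgroup.smul_mem_pointwise_smul a (MulAut.conj g) A ha)

end Cfsg.Agent.S4330
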