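import Cfsg.Statements.S4331
import Cfsg.Agent.H72.Basic
import Cfsg.Agent.H62.Subnormal

set_option autoImplicit false
open Cfsg

namespace Cfsg.Agent.S4331

open Subgroup SemidirectProduct

section general

variable {V : Type} [CommGroup V] [Finite V] (D : Subgroup (MulAut V))

/-- The group `V ⋊ D`. -/
abbrev Gp := V ⋊[D.subtype] D

instance gpFinite : Finite (Gp D) := Finite.of_equiv _ (SemidirectProduct.equivProd (φ := D.subtype)).symm

theorem main (hD : IsPGroup 2 D) (a : D) (ha : a ^ 2 = 1) (v₀ : V) (hv₀ : (a : MulAut V) v₀ ≠ v₀)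
    (h1 : ∀ v : V, ∃ u : V, (a : MulAut V) u = u ∧ ∃ d : D, (d : MulAut V) u = v)
    (h2 : ∀ d : D, d ≠ 1 → (∃ w : V, w ≠ 1 ∧ (d : MulAut V) w = w) → ∃ h : D, h * a * h⁻¹ = d)
    (h3 : ∀ v : V, v ^ 3 = 1) :
    ∃ (G : Type) (_ : Group G) (_ : Finite G) (A : Subgroup G), Group.IsSolvable G ∧ Nat.card A = 2 ∧
      (∀ c : G, ∃ g : G, IsConj c g ∧ (A.subgroupOf (A ⊔ Subgroup.zpowers g)).IsSubnormal) ∧
      ¬ A ≤ Cfsg.pCore 2 G := by
  have hfact : Fact (Nat.Prime 2) := ⟨Nat.prime_two⟩
  refine ⟨Gp D, inferInstance, inferInstance, Subgroup.zpowers (inr a), ?_, ?_, ?_, ?_⟩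
  · have hDs : Group.IsSolvable D := by
      have := hD.isNilpotent
      infer_instance
    exact Group.isSolvable_of_ker_le_range (inl (φ := D.subtype)) rightHom
      (le_of_eq range_inl_eq_ker_rightHom.symm)
  · rw [Nat.card_zpowers]
    have ha1 : a ≠ 1 := by
      rintro rfl
      exact hv₀ rfl
    apply orderOf_eq_prime
    · rw [← map_pow, ha, map_one]
    · intro h
      apply ha1
      exact inr_injective (h.trans (map_one _).symm)
  · -- it is enough to conjugate into `D` or into the centralizer of `a`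
    have key : ∀ g : Gp D, (g ∈ (inr (φ := D.subtype)).range ∨ g * inr a = inr a * g) →
        ((Subgroup.zpowers (inr a : Gp D)).subgroupOf (Subgroup.zpowers (inr a) ⊔ Subgroup.zpowers g)).IsSubnormal := by
      rintro g (hg | hg)
      · have hle : Subgroup.zpowers (inr a : Gp D) ⊔ Subgroup.zpowers g ≤ (inr (φ := D.subtype)).range := by
          rw [sup_le_iff, Subgroup.zpowers_le, Subgroup.zpowers_le]
          exact ⟨⟨a, rfl⟩, hg⟩
        have hp : IsPGroup 2 (inr (φ := D.subtype)).range := by
          have := hD.of_equiv (MonoidHom.ofInjective (f := inr (φ := D.subtype)) inr_injective)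
          exact this
        have hp' : IsPGroup 2 ↥(Subgroup.zpowers (inr a : Gp D) ⊔ Subgroup.zpowers g) := hp.to_le hle
        have := hp'.isNilpotent
        exact H62.isSubnormal_of_nilpotent _
      · apply Subgroup.Normal.isSubnormal
        rw [Subgroup.normal_subgroupOf_iff_le_normalizer le_sup_left]
        refine sup_le Subgroup.le_normalizer ?_
        rw [Subgroup.zpowers_le, Subgroup.mem_normalizer_iff]
        have hc : ∀ u ∈ Subgroup.zpowers (inr a : Gp D), g * u * g⁻¹ = u := by
          rintro _ ⟨i, rfl⟩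
          have : Commute g ((inr a : Gp D) ^ i) := (show Commute g (inr a) from hg).zpow_right i
          show g * (inr a : Gp D) ^ i * g⁻¹ = (inr a : Gp D) ^ i
          rw [this.eq, mul_inv_cancel_right]
        have hc' : ∀ u ∈ Subgroup.zpowers (inr a : Gp D), g⁻¹ * u * g = u := by
          intro u hu
          conv_lhs => rw [← hc u hu]
          group
        intro u
        constructor
        · intro hu; rw [hc u hu]; exact hu
        · intro hu
          have := hc' _ hu
          have e : g⁻¹ * (g * u * g⁻¹) * g = u := by group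
          rw [e] at this
          rw [this]; exact hu
    intro c
    suffices h : ∃ g : Gp D, IsConj c g ∧ (g ∈ (inr (φ := D.subtype)).range ∨ g * inr a = inr a * g) by
      obtain ⟨g, hg, hg'⟩ := h
      exact ⟨g, hg, key g hg'⟩
    have hDapp : ∀ (d : D) (w : V), (inl ((d : MulAut V) w) : Gp D) = inr d * inl w * inr d⁻¹ := fun d w => inl_aut d w
    have hsw : ∀ (d : D) (w : V), (inr d : Gp D) * inl w = inl ((d : MulAut V) w) * inr d := by
      intro d w
      rw [hDapp d w, map_inv inr d]; group
    by_cases hfix : ∃ w : V, w ≠ 1 ∧ (c.right : MulAut V) w = w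
    · by_cases hc1 : c.right = 1
      · -- c = inl v
        obtain ⟨u, hu, d, hd⟩ := h1 c.left
        refine ⟨inl u, ?_, Or.inr ?_⟩
        · apply IsConj.symm
          rw [isConj_iff]
          refine ⟨inr d, ?_⟩
          rw [← map_inv, ← hDapp, hd]
          ext
          · rfl
          · simp [hc1]
        · have := hDapp a u
          rw [hu] at this
          rw [eq_comm, ← mul_inv_eq_iff_eq_mul, ← map_inv]
          exact this.symm
      · obtain ⟨h, hh⟩ := h2 c.right hc1 hfix
        -- conjugate the right part to `a`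
        set v : V := ((h⁻¹ : D) : MulAut V) c.left with hv
        have hc' : IsConj c (inl v * inr a) := by
          rw [isConj_iff]
          refine ⟨inr h⁻¹, ?_⟩
          have e1 : c = inl c.left * inr c.right := (inl_left_mul_inr_right c).symm
          have e2 : (inl v : Gp D) = inr h⁻¹ * inl c.left * inr h⁻¹⁻¹ := hDapp h⁻¹ c.left
          rw [e2]
          have e3 : (inr a : Gp D) = inr h⁻¹ * inr c.right * inr h := by
            rw [← map_mul, ← map_mul, ← hh]; congr 1; group
          rw [e3]
          conv_lhs => rw [e1]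
          simp only [map_inv, inv_inv]
          group
        -- v = u * w * a(w)⁻¹ with u fixed by a
        set w := v⁻¹ with hw
        -- v = w ^ 2
        have hvw : v = w ^ 2 := by
          have := h3 w
          have e : w ^ 3 = w ^ 2 * w := pow_succ w 2
          rw [e, mul_eq_one_iff_eq_inv] at this
          rw [this, hw, inv_inv]
        set u := w * (a : MulAut V) w with hu
        have haa : ∀ x : V, (a : MulAut V) ((a : MulAut V) x) = x := by
          intro x
          have : ((a ^ 2 : D) : MulAut V) x = x := by rw [ha]; rfl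
          rw [pow_two] at this
          exact this
        have hua : (a : MulAut V) u = u := by
          rw [hu, map_mul, haa, mul_comm]
        refine ⟨inl u * inr a, hc'.trans ?_, Or.inr ?_⟩
        · rw [isConj_iff]
          refine ⟨inl w⁻¹, ?_⟩
          have e1 : (inr a : Gp D) * inl w = inl ((a : MulAut V) w) * inr a := hsw a w
          calc (inl w⁻¹ : Gp D) * (inl v * inr a) * (inl w⁻¹)⁻¹ = inl w⁻¹ * inl v * (inr a * inl w) := by
                rw [map_inv, inv_inv]; group
            _ = inl w⁻¹ * inl v * (inl ((a : MulAut V) w) * inr a) := by rw [e1]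
            _ = inl (w⁻¹ * v * (a : MulAut V) w) * inr a := by rw [map_mul, map_mul]; group
            _ = inl u * inr a := by
                rw [hvw, hu]; congr 2; rw [pow_two]; group
        · have e1 : (inr a : Gp D) * inl u = inl u * inr a := by
            have := hsw a u
            rwa [hua] at this
          rw [mul_assoc, ← mul_assoc (inr a : Gp D) (inl u) (inr a), e1, mul_assoc]
    · -- no fixed points: conjugate into D
      push Not at hfix
      have hinj : Function.Injective (fun w : V => w * ((c.right : MulAut V) w)⁻¹) := by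
        intro x y hxy
        by_contra hne
        apply hfix (x * y⁻¹)
        · intro h; exact hne (mul_inv_eq_one.1 h)
        · have hxy' : x * ((c.right : MulAut V) x)⁻¹ = y * ((c.right : MulAut V) y)⁻¹ := hxy
          rw [map_mul, map_inv, ← div_eq_mul_inv, ← div_eq_mul_inv]
          rw [← div_eq_mul_inv, ← div_eq_mul_inv, div_eq_div_iff_mul_eq_mul] at hxy'
          rw [div_eq_div_iff_mul_eq_mul, mul_comm, ← hxy', mul_comm]
      obtain ⟨w, hw⟩ := Finite.surjective_of_injective hinj c.left
      refine ⟨inr c.right, ?_, Or.inl ⟨_, rfl⟩⟩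
      apply IsConj.symm
      rw [isConj_iff]
      refine ⟨inl w, ?_⟩
      have e1 : (inr c.right : Gp D) * inl w⁻¹ = inl ((c.right : MulAut V) w⁻¹) * inr c.right := hsw _ _
      have hw' : w * ((c.right : MulAut V) w)⁻¹ = c.left := hw
      calc (inl w : Gp D) * inr c.right * (inl w)⁻¹ = inl w * (inr c.right * inl w⁻¹) := by
            rw [map_inv]; group
        _ = inl w * (inl ((c.right : MulAut V) w⁻¹) * inr c.right) := by rw [e1]
        _ = inl c.left * inr c.right := by
            rw [← mul_assoc, ← map_mul, map_inv, hw']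
        _ = c := inl_left_mul_inr_right c
  · intro hle
    have hp : IsPGroup 2 (Cfsg.pCore 2 (Gp D)) := Sylow.sSup_of_normal _ (fun H hH => hH.2) (fun H hH => hH.1)
    have hn : (Cfsg.pCore 2 (Gp D)).Normal := Subgroup.sSup_normal _ (fun H hH => hH.1)
    have hmem : (inr a : Gp D) ∈ Cfsg.pCore 2 (Gp D) := hle (Subgroup.mem_zpowers _)
    have hm2 : (inl v₀ : Gp D) * inr a * (inl v₀)⁻¹ * (inr a)⁻¹ ∈ Cfsg.pCore 2 (Gp D) :=
      mul_mem (hn.conj_mem _ hmem _) (inv_mem hmem)
    have e : (inl v₀ : Gp D) * inr a * (inl v₀)⁻¹ * (inr a)⁻¹ = inl (v₀ * ((a : MulAut V) v₀)⁻¹) := by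
      have e1 : (inl ((a : MulAut V) v₀) : Gp D) = inr a * inl v₀ * inr a⁻¹ := inl_aut a v₀
      rw [map_mul, map_inv inl ((a : MulAut V) v₀), e1, map_inv inr a]
      group
    rw [e] at hm2
    obtain ⟨k, hk⟩ := hp ⟨_, hm2⟩
    have hk' : (inl (v₀ * ((a : MulAut V) v₀)⁻¹) : Gp D) ^ 2 ^ k = 1 := congrArg Subtype.val hk
    rw [← map_pow] at hk'
    have hk'' : (v₀ * ((a : MulAut V) v₀)⁻¹) ^ 2 ^ k = 1 := inl_injective (hk'.trans (map_one _).symm)
    have h3' := h3 (v₀ * ((a : MulAut V) v₀)⁻¹)
    have ho : orderOf (v₀ * ((a : MulAut V) v₀)⁻¹) ∣ 1 := by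
      have := Nat.dvd_gcd (orderOf_dvd_of_pow_eq_one hk'') (orderOf_dvd_of_pow_eq_one h3')
      have hg : Nat.gcd (2 ^ k) 3 = 1 := Nat.Coprime.pow_left k (by norm_num)
      rwa [hg] at this
    rw [Nat.dvd_one, orderOf_eq_one_iff, mul_inv_eq_one] at ho
    exact hv₀ ho.symm

end general


/-- There is a finite solvable group G with a subgroup A of order 2 such that every conjugacy class of G contains an element g for which A is subnormal in the subgroup generated by A and g, and yet A is not contained in O_2(G). (So the corresponding criteria for odd primes fail at the prime 2, even for solvable groups.) -/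
theorem result :
    ∃ (G : Type) (_ : Group G) (_ : Finite G) (A : Subgroup G), Group.IsSolvable G ∧ Nat.card A = 2 ∧
      (∀ c : G, ∃ g : G, IsConj c g ∧ (A.subgroupOf (A ⊔ Subgroup.zpowers g)).IsSubnormal) ∧
      ¬ A ≤ Cfsg.pCore 2 G := by
  have hfact3 : Fact (Nat.Prime 3) := ⟨Nat.prime_three⟩
  let K := GaloisField 3 2
  have hcard : Nat.card K = 9 := GaloisField.card 3 2 (by norm_num)
  have hKfin : Finite K := Nat.finite_of_card_ne_zero (by rw [hcard]; norm_num)
  have : Fintype K := Fintype.ofFinite K
  have hchar : CharP K 3 := inferInstance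
  have hp9 : ∀ x : K, x ^ 9 = x := by
    intro x
    have := FiniteField.pow_card x
    rwa [← Nat.card_eq_fintype_card, hcard] at this
  have hp8 : ∀ x : K, x ≠ 0 → x ^ 8 = 1 := by
    intro x hx
    have := hp9 x
    have e : x ^ 9 = x ^ 8 * x := pow_succ x 8
    rw [e] at this
    exact mul_right_cancel₀ hx (by rw [this, one_mul])
  have hadd3 : ∀ x y : K, (x + y) ^ 3 = x ^ 3 + y ^ 3 := fun x y => add_pow_char x y 3
  -- the group D of semilinear maps of `K` over itself
  let V := Multiplicative K
  let f : MulAut V → K → K := fun d x => Multiplicative.toAdd (d (Multiplicative.ofAdd x))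
  have hf : ∀ d x, f d x = Multiplicative.toAdd (d (Multiplicative.ofAdd x)) := fun d x => rfl
  have hf1 : ∀ x, f 1 x = x := fun x => rfl
  have hfm : ∀ d e x, f (d * e) x = f d (f e x) := fun d e x => rfl
  have hfext : ∀ d e, (∀ x, f d x = f e x) → d = e := by
    intro d e h
    ext x
    exact congrArg Multiplicative.ofAdd (h (Multiplicative.toAdd x))
  let P : MulAut V → Prop := fun d => ∃ α : K, α ≠ 0 ∧ ((∀ x, f d x = α * x) ∨ (∀ x, f d x = α * x ^ 3))
  have hP1 : P 1 := ⟨1, one_ne_zero, Or.inl fun x => by rw [hf1, one_mul]⟩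
  have hPm : ∀ d e, P d → P e → P (d * e) := by
    rintro d e ⟨α, hα, h⟩ ⟨β, hβ, h'⟩
    rcases h with h | h <;> rcases h' with h' | h'
    · exact ⟨α * β, mul_ne_zero hα hβ, Or.inl fun x => by rw [hfm, h, h']; ring⟩
    · exact ⟨α * β, mul_ne_zero hα hβ, Or.inr fun x => by rw [hfm, h, h']; ring⟩
    · exact ⟨α * β ^ 3, mul_ne_zero hα (pow_ne_zero _ hβ), Or.inr fun x => by rw [hfm, h, h']; ring⟩
    · refine ⟨α * β ^ 3, mul_ne_zero hα (pow_ne_zero _ hβ), Or.inl fun x => ?_⟩
      rw [hfm, h, h']
      have : (β * x ^ 3) ^ 3 = β ^ 3 * x ^ 9 := by ring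
      rw [this, hp9]; ring
  have hPow : ∀ d, P d → d ^ 8 = 1 := by
    have hL : ∀ (d : MulAut V) (α : K), (∀ x, f d x = α * x) → ∀ n x, f (d ^ n) x = α ^ n * x := by
      intro d α h n
      induction n with
      | zero => intro x; rw [pow_zero, hf1, pow_zero, one_mul]
      | succ n ih => intro x; rw [pow_succ, hfm, h, ih, pow_succ]; ring
    rintro d ⟨α, hα, h | h⟩
    · apply hfext
      intro x
      rw [hL d α h, hp8 α hα, one_mul, hf1]
    · have h2 : ∀ x, f (d ^ 2) x = α ^ 4 * x := by
        intro x
        rw [pow_two, hfm, h, h]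
        have : (α * x ^ 3) ^ 3 = α ^ 3 * x ^ 9 := by ring
        rw [this, hp9]; ring
      apply hfext
      intro x
      have e : d ^ 8 = (d ^ 2) ^ 4 := by rw [← pow_mul]
      rw [e, hL (d ^ 2) (α ^ 4) h2, hf1]
      have : (α ^ 4) ^ 4 = (α ^ 8) ^ 2 := by ring
      rw [this, hp8 α hα, one_pow, one_mul]
  have hPp : ∀ d, P d → ∀ n : ℕ, P (d ^ n) := by
    intro d hd n
    induction n with
    | zero => rw [pow_zero]; exact hP1
    | succ n ih => rw [pow_succ]; exact hPm _ _ ih hd
  let D : Subgroup (MulAut V) :=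
    { carrier := {d | P d}
      mul_mem' := fun {d e} hd he => hPm d e hd he
      one_mem' := hP1
      inv_mem' := by
        intro d hd
        have : d⁻¹ = d ^ 7 := by
          rw [inv_eq_iff_mul_eq_one, ← pow_succ']
          exact hPow d hd
        rw [this]
        exact hPp d hd 7 }
  have hDmem : ∀ d, d ∈ D ↔ P d := fun d => Iff.rfl
  -- the Frobenius
  let a : MulAut V :=
    { toFun := fun v => Multiplicative.ofAdd ((Multiplicative.toAdd v) ^ 3)
      invFun := fun v => Multiplicative.ofAdd ((Multiplicative.toAdd v) ^ 3)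
      left_inv := by
        intro v
        have : ((Multiplicative.toAdd v) ^ 3) ^ 3 = Multiplicative.toAdd v := by
          rw [← pow_mul]; exact hp9 _
        exact congrArg Multiplicative.ofAdd this
      right_inv := by
        intro v
        have : ((Multiplicative.toAdd v) ^ 3) ^ 3 = Multiplicative.toAdd v := by
          rw [← pow_mul]; exact hp9 _
        exact congrArg Multiplicative.ofAdd this
      map_mul' := by
        intro v w
        exact congrArg Multiplicative.ofAdd (hadd3 (Multiplicative.toAdd v) (Multiplicative.toAdd w)) }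
  have hfa : ∀ x, f a x = x ^ 3 := fun x => rfl
  have haD : a ∈ D := ⟨1, one_ne_zero, Or.inr fun x => by rw [hfa, one_mul]⟩
  -- multiplications
  let m : ∀ β : K, β ≠ 0 → MulAut V := fun β hβ =>
    { toFun := fun v => Multiplicative.ofAdd (β * Multiplicative.toAdd v)
      invFun := fun v => Multiplicative.ofAdd (β⁻¹ * Multiplicative.toAdd v)
      left_inv := by
        intro v
        exact congrArg Multiplicative.ofAdd (inv_mul_cancel_left₀ hβ (Multiplicative.toAdd v))
      right_inv := by
        intro v
        exact congrArg Multiplicative.ofAdd (mul_inv_cancel_left₀ hβ (Multiplicative.toAdd v))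
      map_mul' := by
        intro v w
        exact congrArg Multiplicative.ofAdd (mul_add β (Multiplicative.toAdd v) (Multiplicative.toAdd w)) }
  have hfmul : ∀ β hβ x, f (m β hβ) x = β * x := fun β hβ x => rfl
  have hmD : ∀ β hβ, m β hβ ∈ D := fun β hβ => ⟨β, hβ, Or.inl fun x => hfmul β hβ x⟩
  -- an element not fixed by Frobenius
  obtain ⟨x₀, hx₀⟩ : ∃ x : K, x ^ 3 ≠ x := by
    obtain ⟨g, hg⟩ := IsCyclic.exists_generator (α := Kˣ)
    refine ⟨(g : K), ?_⟩
    intro h
    have ho : orderOf g = 8 := by
      rw [orderOf_eq_card_of_forall_mem_zpowers hg, Nat.card_units, hcard]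
    have h2 : g ^ 2 = 1 := by
      apply Units.ext
      have hne : (g : K) ≠ 0 := g.ne_zero
      have e : (g : K) ^ 3 = (g : K) ^ 2 * g := pow_succ _ 2
      rw [e] at h
      have := mul_right_cancel₀ hne (h.trans (one_mul _).symm)
      simpa using this
    have := orderOf_dvd_of_pow_eq_one h2
    rw [ho] at this
    exact absurd (Nat.le_of_dvd (by norm_num) this) (by norm_num)
  have hVfin : Finite V := hKfin
  apply main D ?_ ⟨a, haD⟩ ?_ (Multiplicative.ofAdd x₀) ?_ ?_ ?_ ?_
  · rintro ⟨d, hd⟩
    exact ⟨3, Subtype.ext (hPow d hd)⟩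
  · apply Subtype.ext
    apply hfext
    intro x
    show f (a ^ 2) x = f 1 x
    rw [pow_two, hfm, hfa, hfa, hf1, ← pow_mul, hp9]
  · intro h
    exact hx₀ (congrArg Multiplicative.toAdd h)
  · intro v
    by_cases hv : Multiplicative.toAdd v = 0
    · refine ⟨1, map_one _, 1, ?_⟩
      have : v = 1 := hv
      rw [this]; rfl
    · refine ⟨Multiplicative.ofAdd 1, ?_, ⟨m _ hv, hmD _ hv⟩, ?_⟩
      · exact congrArg Multiplicative.ofAdd (one_pow 3 : (1 : K) ^ 3 = 1)
      · exact congrArg Multiplicative.ofAdd (mul_one (Multiplicative.toAdd v))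
  · rintro ⟨d, hd⟩ hd1 ⟨w, hw1, hw⟩
    have hw0 : Multiplicative.toAdd w ≠ 0 := hw1
    have hfw : f d (Multiplicative.toAdd w) = Multiplicative.toAdd w := congrArg Multiplicative.toAdd hw
    obtain ⟨α, hα, h | h⟩ := hd
    · exfalso
      apply hd1
      rw [h] at hfw
      have hα1 : α = 1 := mul_right_cancel₀ hw0 (hfw.trans (one_mul _).symm)
      apply Subtype.ext
      apply hfext
      intro x
      rw [h, hα1, one_mul]; rfl
    · refine ⟨⟨m _ hw0, hmD _ hw0⟩, ?_⟩
      rw [mul_inv_eq_iff_eq_mul]
      apply Subtype.ext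
      apply hfext
      intro x
      show f (m _ hw0 * a) x = f (d * m _ hw0) x
      rw [hfm, hfm, hfa, hfmul _ hw0, hfmul _ hw0, h]
      rw [h] at hfw
      have e : α * (Multiplicative.toAdd w * x) ^ 3 = (α * Multiplicative.toAdd w ^ 3) * x ^ 3 := by ring
      rw [e, hfw]
  · intro v
    have : (3 : ℕ) • Multiplicative.toAdd v = 0 := by
      rw [nsmul_eq_mul]
      have h3 : ((3 : ℕ) : K) = 0 := CharP.cast_eq_zero K 3
      rw [h3, zero_mul]
    exact this

end Cfsg.Agent.S4331
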