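import Cfsg.Statements.S4332
import Cfsg.Agent.H72.PermNormal

set_option autoImplicit false
open Pointwise
open Cfsg

namespace Cfsg.Agent.S4332

open Equiv Equiv.Perm Finset

theorem conj_swap {α : Type*} [DecidableEq α] (c : Perm α) (x y z : α) :
    c * (swap x y * swap x z) * c⁻¹ = swap (c x) (c y) * swap (c x) (c z) := by
  have h1 := Equiv.mul_swap_eq_swap_mul c x y
  have h2 := Equiv.mul_swap_eq_swap_mul c x z
  calc c * (swap x y * swap x z) * c⁻¹ = (c * swap x y) * swap x z * c⁻¹ := by group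
    _ = swap (c x) (c y) * (c * swap x z) * c⁻¹ := by rw [h1]; group
    _ = swap (c x) (c y) * swap (c x) (c z) := by rw [h2]; group

/-- For every permutation of eight points some 3-cycle commutes with its conjugate. -/
theorem exists_threeCycle (c : Perm (Fin 8)) :
    ∃ τ : Perm (Fin 8), τ.IsThreeCycle ∧ Commute τ (c * τ * c⁻¹) := by
  classical
  -- disjoint case
  have hdisj : ∀ x y z : Fin 8, x ≠ y → x ≠ z → y ≠ z → x ≠ c x → x ≠ c y → x ≠ c z → y ≠ c x → y ≠ c y →
      y ≠ c z → z ≠ c x → z ≠ c y → z ≠ c z → ∃ τ : Perm (Fin 8), τ.IsThreeCycle ∧ Commute τ (c * τ * c⁻¹) := by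
    intro x y z hxy hxz hyz h1 h2 h3 h4 h5 h6 h7 h8 h9
    refine ⟨swap x y * swap x z, isThreeCycle_swap_mul_swap_same hxy hxz hyz, ?_⟩
    rw [conj_swap]
    apply Equiv.Perm.Disjoint.commute
    have hd : ∀ a b a' b' : Fin 8, a ≠ a' → a ≠ b' → b ≠ a' → b ≠ b' → Equiv.Perm.Disjoint (swap a b) (swap a' b') := by
      intro a b a' b' e1 e2 e3 e4 u
      by_cases hu1 : u = a
      · subst hu1; right; exact swap_apply_of_ne_of_ne e1 e2
      · by_cases hu2 : u = b
        · subst hu2; right; exact swap_apply_of_ne_of_ne e3 e4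
        · left; exact swap_apply_of_ne_of_ne hu1 hu2
    apply Equiv.Perm.Disjoint.mul_left <;> apply Equiv.Perm.Disjoint.mul_right <;> apply hd <;> assumption
  set F : Finset (Fin 8) := univ.filter (fun x => c x = x) with hF
  set M : Finset (Fin 8) := univ.filter (fun x => c x ≠ x) with hM
  have hFM : F.card + M.card = 8 := by
    have := Finset.card_filter_add_card_filter_not (s := (univ : Finset (Fin 8))) (fun x => c x = x)
    simpa using this
  have hmemF : ∀ x, x ∈ F ↔ c x = x := fun x => by simp [hF]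
  have hmemM : ∀ x, x ∈ M ↔ c x ≠ x := fun x => by simp [hM]
  by_cases hF3 : 3 ≤ F.card
  · -- three fixed points
    obtain ⟨T, hTF, hT⟩ := Finset.exists_subset_card_eq hF3
    obtain ⟨x, y, z, hxy, hxz, hyz, rfl⟩ := Finset.card_eq_three.1 hT
    have hx : c x = x := (hmemF x).1 (hTF (by simp))
    have hy : c y = y := (hmemF y).1 (hTF (by simp))
    have hz : c z = z := (hmemF z).1 (hTF (by simp))
    refine ⟨swap x y * swap x z, isThreeCycle_swap_mul_swap_same hxy hxz hyz, ?_⟩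
    rw [conj_swap, hx, hy, hz]
  by_cases hM7 : 7 ≤ M.card
  · -- greedy choice
    have hc3 : ∀ u v w : Fin 8, ({u, v, w} : Finset (Fin 8)).card ≤ 3 := fun u v w => Finset.card_le_three
    obtain ⟨x, hx⟩ : M.Nonempty := by rw [← Finset.card_pos]; omega
    obtain ⟨y, hy⟩ : (M \ {x, c x, c⁻¹ x}).Nonempty := by
      rw [← Finset.card_pos]
      have := Finset.le_card_sdiff {x, c x, c⁻¹ x} M
      have := hc3 x (c x) (c⁻¹ x)
      omega
    obtain ⟨z, hz⟩ : (M \ ({x, c x, c⁻¹ x} ∪ {y, c y, c⁻¹ y})).Nonempty := by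
      rw [← Finset.card_pos]
      have h1 := Finset.le_card_sdiff ({x, c x, c⁻¹ x} ∪ {y, c y, c⁻¹ y}) M
      have h2 := hc3 x (c x) (c⁻¹ x)
      have h3 := hc3 y (c y) (c⁻¹ y)
      have h4 := Finset.card_union_le ({x, c x, c⁻¹ x} : Finset (Fin 8)) {y, c y, c⁻¹ y}
      omega
    simp only [Finset.mem_sdiff, Finset.mem_insert, Finset.mem_singleton, not_or, Finset.mem_union, hmemM] at hx hy hz
    obtain ⟨hy0, hy1, hy2, hy3⟩ := hy
    obtain ⟨hz0, ⟨hz1, hz2, hz3⟩, hz4, hz5, hz6⟩ := hz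
    have hinv : ∀ u v : Fin 8, u ≠ c⁻¹ v → v ≠ c u := by
      rintro u v h rfl
      exact h (c.symm_apply_apply u).symm
    exact hdisj x y z (Ne.symm hy1) (Ne.symm hz1) (Ne.symm hz4) (Ne.symm hx) (hinv _ _ hy3) (hinv _ _ hz3) hy2 (Ne.symm hy0)
      (hinv _ _ hz6) hz2 hz5 (Ne.symm hz0)
  -- exactly two fixed points
  have hMc : M.card = 6 := by omega
  have hFc : F.card = 2 := by omega
  obtain ⟨f, hf⟩ : F.Nonempty := by rw [← Finset.card_pos]; omega
  rw [hmemF] at hf
  by_cases h2 : ∃ x, c x ≠ x ∧ c (c x) = x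
  · obtain ⟨x, hx, hxx⟩ := h2
    have hxf : x ≠ f := by rintro rfl; exact hx hf
    have hcxf : c x ≠ f := by
      intro h
      apply hxf
      apply c.injective
      rw [h, hf]
    refine ⟨swap x (c x) * swap x f, isThreeCycle_swap_mul_swap_same (Ne.symm hx) hxf hcxf, ?_⟩
    rw [conj_swap, hxx, hf]
    have e : swap (c x) x * swap (c x) f = (swap x (c x) * swap x f)⁻¹ := by
      rw [Equiv.mul_swap_eq_swap_mul, swap_apply_left, swap_apply_of_ne_of_ne (Ne.symm hcxf) (Ne.symm hxf),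
        mul_inv_rev, swap_inv, swap_inv, swap_comm (c x) x]
    rw [e]
    exact (Commute.refl _).inv_right
  by_cases h3 : ∃ x, c x ≠ x ∧ c (c (c x)) = x
  · obtain ⟨x, hx, hxx⟩ := h3
    have hx2 : c (c x) ≠ x := fun h => h2 ⟨x, hx, h⟩
    have hx3 : c (c x) ≠ c x := fun h => hx (c.injective h)
    refine ⟨swap x (c x) * swap x (c (c x)), isThreeCycle_swap_mul_swap_same (Ne.symm hx) (Ne.symm hx2) (Ne.symm hx3), ?_⟩
    rw [conj_swap, hxx]
    have e : swap (c x) (c (c x)) * swap (c x) x = swap x (c x) * swap x (c (c x)) := by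
      rw [Equiv.mul_swap_eq_swap_mul (swap x (c x)), swap_apply_left, swap_apply_of_ne_of_ne hx2 hx3,
        swap_comm (c x) x]
    rw [e]
  · push Not at h2 h3
    obtain ⟨x, hx⟩ : M.Nonempty := by rw [← Finset.card_pos]; omega
    rw [hmemM] at hx
    have hx2 := h2 x hx
    have hx3 := h3 x hx
    obtain ⟨z, hz⟩ : (M \ {x, c x, c (c x), c (c (c x)), c⁻¹ x}).Nonempty := by
      rw [← Finset.card_pos]
      have := Finset.le_card_sdiff {x, c x, c (c x), c (c (c x)), c⁻¹ x} M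
      have h5 : ({x, c x, c (c x), c (c (c x)), c⁻¹ x} : Finset (Fin 8)).card ≤ 5 := Finset.card_le_five
      omega
    simp only [Finset.mem_sdiff, Finset.mem_insert, Finset.mem_singleton, not_or, hmemM] at hz
    obtain ⟨hz0, hz1, hz2, hz3, hz4, hz5⟩ := hz
    have hcc : c (c x) ≠ c x := fun h => hx (c.injective h)
    have hccc : c (c (c x)) ≠ c (c x) := fun h => hcc (c.injective h)
    refine hdisj x (c (c x)) z (Ne.symm hx2) (Ne.symm hz1) (Ne.symm hz3) (Ne.symm hx) (Ne.symm hx3) ?_ hcc (Ne.symm hccc) ?_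
      hz2 hz4 (Ne.symm hz0)
    · rintro h
      apply hz5
      rw [h]
      exact (c.symm_apply_apply z).symm
    · intro h
      exact hz2 (c.injective h).symm


/-- In the symmetric group of degree 8, let A be the subgroup generated by a 3-cycle. Then every conjugacy class contains an element g for which A is subnormal in the subgroup generated by A and its conjugate by g, although O_3 of the symmetric group of degree 8 is trivial. -/
theorem result
    (σ : Equiv.Perm (Fin 8)) (hσ : σ.IsThreeCycle) :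
    (∀ c : Equiv.Perm (Fin 8), ∃ g : Equiv.Perm (Fin 8), IsConj c g ∧
      ((Subgroup.zpowers σ).subgroupOf (Subgroup.zpowers σ ⊔ MulAut.conj g • Subgroup.zpowers σ)).IsSubnormal) ∧
    Cfsg.pCore 3 (Equiv.Perm (Fin 8)) = ⊥ := by
  constructor
  · intro c
    obtain ⟨τ, hτ, hc⟩ := exists_threeCycle c
    have hconj : IsConj τ σ := by
      rw [Equiv.Perm.isConj_iff_cycleType_eq, hτ.cycleType, hσ.cycleType]
    obtain ⟨h, hh⟩ := isConj_iff.1 hconj
    refine ⟨h * c * h⁻¹, isConj_iff.2 ⟨h, rfl⟩, ?_⟩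
    set g := h * c * h⁻¹ with hg
    have hcom : Commute σ (g * σ * g⁻¹) := by
      have e1 : g * σ * g⁻¹ = h * (c * τ * c⁻¹) * h⁻¹ := by rw [hg, ← hh]; group
      rw [e1, ← hh]
      show h * τ * h⁻¹ * (h * (c * τ * c⁻¹) * h⁻¹) = h * (c * τ * c⁻¹) * h⁻¹ * (h * τ * h⁻¹)
      have e2 : h * τ * h⁻¹ * (h * (c * τ * c⁻¹) * h⁻¹) = h * (τ * (c * τ * c⁻¹)) * h⁻¹ := by group
      have e3 : h * (c * τ * c⁻¹) * h⁻¹ * (h * τ * h⁻¹) = h * ((c * τ * c⁻¹) * τ) * h⁻¹ := by group
      rw [e2, e3, hc.eq]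
    apply Subgroup.Normal.isSubnormal
    rw [Subgroup.normal_subgroupOf_iff_le_normalizer le_sup_left]
    refine sup_le Subgroup.le_normalizer ?_
    rintro u ⟨v, hv, rfl⟩
    -- u commutes with σ
    have huσ : Commute (g * v * g⁻¹) σ := by
      obtain ⟨i, rfl⟩ := hv
      have e1 : g * (fun i : ℤ => σ ^ i) i * g⁻¹ = (g * σ * g⁻¹) ^ i := (conj_zpow).symm
      rw [e1]
      exact (hcom.symm).zpow_left i
    show g * v * g⁻¹ ∈ _
    rw [Subgroup.mem_normalizer_iff]
    have hfix : ∀ w ∈ Subgroup.zpowers σ, (g * v * g⁻¹) * w * (g * v * g⁻¹)⁻¹ = w := by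
      rintro _ ⟨i, rfl⟩
      have := (huσ.zpow_right i).eq
      show (g * v * g⁻¹) * σ ^ i * (g * v * g⁻¹)⁻¹ = σ ^ i
      rw [this]; group
    intro w
    constructor
    · intro hw; rw [hfix w hw]; exact hw
    · intro hw
      have e2 := hfix _ hw
      have e3 : (g * v * g⁻¹) * w * (g * v * g⁻¹)⁻¹ = w := by
        have := mul_right_cancel e2
        exact mul_left_cancel this
      rw [← e3]; exact hw
  · rw [eq_bot_iff, Cfsg.pCore]
    apply sSup_le
    rintro N ⟨hN, hNp⟩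
    by_contra hb
    have hb' : N ≠ ⊥ := fun h => hb (le_of_eq h)
    have h1 := H72.card_dvd_card_of_normal_perm N hb'
    have : Fact (Nat.Prime 3) := ⟨Nat.prime_three⟩
    obtain ⟨k, hk⟩ := IsPGroup.iff_card.1 hNp
    rw [Nat.card_fin, hk] at h1
    have h2 : 2 ∣ 3 ^ k := (by norm_num : 2 ∣ 8).trans h1
    have h3 := Nat.prime_two.dvd_of_dvd_pow h2
    omega

end Cfsg.Agent.S4332
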