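import Cfsg.Statements.S4334
import Cfsg.Agent.H72.Basic
import Cfsg.Agent.Transfer.Frobenius

set_option autoImplicit false
open Cfsg

namespace Cfsg.Agent.S4334

open Subgroup

/-- conjugate subgroup -/
abbrev cj {G : Type*} [Group G] (g : G) (K : Subgroup G) : Subgroup G := K.map (MulAut.conj g).toMonoidHom

theorem mem_cj {G : Type*} [Group G] {g x : G} {K : Subgroup G} : x ∈ cj g K ↔ g⁻¹ * x * g ∈ K := by
  constructor
  · rintro ⟨u, hu, rfl⟩
    have h1 : g⁻¹ * (g * u * g⁻¹) * g = u := by group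
    show g⁻¹ * (g * u * g⁻¹) * g ∈ K
    rw [h1]; exact hu
  · intro h
    refine ⟨g⁻¹ * x * g, h, ?_⟩
    show g * (g⁻¹ * x * g) * g⁻¹ = x
    group

theorem cj_cj {G : Type*} [Group G] (g h : G) (K : Subgroup G) : cj g (cj h K) = cj (g * h) K := by
  ext x
  rw [mem_cj, mem_cj, mem_cj]
  have : h⁻¹ * (g⁻¹ * x * g) * h = (g * h)⁻¹ * x * (g * h) := by group
  rw [this]

theorem cj_one {G : Type*} [Group G] (K : Subgroup G) : cj 1 K = K := by
  ext x; rw [mem_cj]; simp

theorem cj_mono {G : Type*} [Group G] (g : G) {H K : Subgroup G} (h : H ≤ K) : cj g H ≤ cj g K :=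
  Subgroup.map_mono h

theorem card_cj {G : Type*} [Group G] (g : G) (K : Subgroup G) : Nat.card (cj g K) = Nat.card K :=
  Subgroup.card_map_of_injective (MulAut.conj g).injective

theorem isPi_cj {G : Type*} [Group G] {π : Set ℕ} (g : G) {K : Subgroup G} (h : Cfsg.IsPiSubgroup π K) :
    Cfsg.IsPiSubgroup π (cj g K) := by
  intro p hp hd
  rw [card_cj] at hd
  exact h p hp hd

theorem isPi_mono {G : Type*} [Group G] [Finite G] {π : Set ℕ} {H K : Subgroup G} (hHK : H ≤ K)
    (h : Cfsg.IsPiSubgroup π K) : Cfsg.IsPiSubgroup π H :=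
  fun p hp hd => h p hp (hd.trans (Subgroup.card_dvd_of_le hHK))

theorem exists_maximal {G : Type*} [Group G] [Finite G] {π : Set ℕ} {K : Subgroup G}
    (h : Cfsg.IsPiSubgroup π K) : ∃ M : Subgroup G, K ≤ M ∧ Maximal (Cfsg.IsPiSubgroup π) M := by
  have hfin : {L : Subgroup G | K ≤ L ∧ Cfsg.IsPiSubgroup π L}.Finite := Set.toFinite _
  obtain ⟨M, hM⟩ := hfin.exists_maximal ⟨K, le_rfl, h⟩
  refine ⟨M, hM.prop.1, hM.prop.2, ?_⟩
  intro L hL hML
  exact hM.le_of_ge ⟨hM.prop.1.trans hML, hL⟩ hML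

section

variable {G : Type*} [Group G] [Finite G] {Hs Ht : Subgroup G}

omit [Finite G] in
theorem card_sup_dvd (hcomm : ∀ a ∈ Hs, ∀ b ∈ Ht, a * b = b * a) :
    Nat.card ↥(Hs ⊔ Ht) ∣ Nat.card Hs * Nat.card Ht := by
  have hc : ∀ (a : Hs) (b : Ht), Commute (Hs.subtype a) (Ht.subtype b) := fun a b => hcomm a a.2 b b.2
  have h1 := Subgroup.card_range_dvd (MonoidHom.noncommCoprod Hs.subtype Ht.subtype hc)
  rw [MonoidHom.noncommCoprod_range, Subgroup.range_subtype, Subgroup.range_subtype, Nat.card_prod] at h1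
  exact h1

theorem relIndex_left_dvd (hcomm : ∀ a ∈ Hs, ∀ b ∈ Ht, a * b = b * a) :
    Hs.relIndex (Hs ⊔ Ht) ∣ Nat.card Ht := by
  have h1 := card_sup_dvd hcomm
  have h2 : Nat.card Hs * Hs.relIndex (Hs ⊔ Ht) = Nat.card ↥(Hs ⊔ Ht) := by
    have := Subgroup.card_mul_index (Hs.subgroupOf (Hs ⊔ Ht))
    rw [Nat.card_congr (Subgroup.subgroupOfEquivOfLe (le_sup_left : Hs ≤ Hs ⊔ Ht)).toEquiv] at this
    exact this
  rw [← h2] at h1
  exact Nat.dvd_of_mul_dvd_mul_left Nat.card_pos h1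

theorem relIndex_right_dvd (hcomm : ∀ a ∈ Hs, ∀ b ∈ Ht, a * b = b * a) :
    Ht.relIndex (Hs ⊔ Ht) ∣ Nat.card Hs := by
  have := relIndex_left_dvd (Hs := Ht) (Ht := Hs) (fun a ha b hb => (hcomm b hb a ha).symm)
  rwa [sup_comm] at this

end

theorem mem_of_coprime_pow {G : Type*} [Group G] {C : Subgroup G} {g : G} {m : ℕ}
    (h : g ^ m ∈ C) (hc : m.Coprime (orderOf g)) : g ∈ C := by
  obtain ⟨k, hk⟩ := exists_pow_eq_self_of_coprime hc
  rw [← hk]; exact C.pow_mem h k

theorem main {G : Type*} [Group G] [Finite G]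
    (σ τ π : Set ℕ) (hπ : π = σ ∪ τ) (hd : Disjoint σ τ) (H Hs Ht : Subgroup G) (hH : Cfsg.IsPiHall π H)
    (hs : Cfsg.IsPiSubgroup σ Hs) (ht : Cfsg.IsPiSubgroup τ Ht) (hsn : Group.IsNilpotent Hs)
    (hjoin : Hs ⊔ Ht = H) (hcomm : ∀ a ∈ Hs, ∀ b ∈ Ht, a * b = b * a) (hD : Cfsg.IsDPiGroup τ G) :
    ∀ n : ℕ, ∀ K : Subgroup G, Nat.card K = n → Cfsg.IsPiSubgroup π K → ∃ g : G, K ≤ cj g H := by
  have hsH : Hs ≤ H := by rw [← hjoin]; exact le_sup_left
  have htH : Ht ≤ H := by rw [← hjoin]; exact le_sup_right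
  -- Sylow subgroups inside Hs and Ht
  have hσ : ∀ p : ℕ, p.Prime → p ∈ σ → ¬ p ∣ Hs.index := by
    intro p hp hpσ hdv
    rw [← Subgroup.relIndex_mul_index hsH] at hdv
    rcases hp.dvd_mul.1 hdv with h | h
    · have h1 : Hs.relIndex H ∣ Nat.card Ht := by rw [← hjoin]; exact relIndex_left_dvd hcomm
      exact Set.disjoint_left.1 hd hpσ (ht p hp (h.trans h1))
    · exact hH.2 p hp (by rw [hπ]; exact Or.inl hpσ) h
  have hτ : ∀ p : ℕ, p.Prime → p ∈ τ → ¬ p ∣ Ht.index := by
    intro p hp hpτ hdv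
    rw [← Subgroup.relIndex_mul_index htH] at hdv
    rcases hp.dvd_mul.1 hdv with h | h
    · have h1 : Ht.relIndex H ∣ Nat.card Hs := by rw [← hjoin]; exact relIndex_right_dvd hcomm
      exact Set.disjoint_left.1 hd (hs p hp (h.trans h1)) hpτ
    · exact hH.2 p hp (by rw [hπ]; exact Or.inr hpτ) h
  -- in the nilpotent group Hs elements of coprime order commute
  have hnil : ∀ (p : ℕ) [Fact p.Prime] (x y : G), x ∈ Hs → y ∈ Hs → (∃ k : ℕ, orderOf x = p ^ k) →
      (orderOf y).Coprime p → x * y = y * x := by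
    intro p _ x y hx hy hxo hyo
    obtain ⟨k, hk⟩ := hxo
    have := Transfer.commute_of_isNilpotent hsn (p := p) (x := ⟨x, hx⟩) (y := ⟨y, hy⟩) (k := k)
      (by rw [← hk]; apply Subtype.ext; exact pow_orderOf_eq_one x) (by rw [Subgroup.orderOf_mk]; exact hyo)
    exact congrArg Subtype.val this
  -- Step 2: centralizers of p-subgroups contain Sylow q-subgroups
  have step2 : ∀ p : ℕ, p.Prime → p ∈ σ → ∀ q : ℕ, q.Prime → q ∈ π → q ≠ p → ∀ U : Subgroup G,
      IsPGroup p U → ¬ q ∣ (Subgroup.centralizer (U : Set G)).index := by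
    intro p hp hpσ q hq hqπ hqp U hU
    have : Fact p.Prime := ⟨hp⟩
    have : Fact q.Prime := ⟨hq⟩
    obtain ⟨P, hP⟩ := H72.exists_sylow_le_of_not_dvd_index Hs (hσ p hp hpσ)
    obtain ⟨P₁, hP₁⟩ := hU.exists_le_sylow
    obtain ⟨g, rfl⟩ := MulAction.exists_smul_eq G P P₁
    -- a Sylow q-subgroup centralizing P
    obtain ⟨Q, hQ⟩ : ∃ Q : Sylow q G, ∀ a ∈ Q, ∀ b ∈ P, a * b = b * a := by
      rw [hπ] at hqπ
      rcases hqπ with hqσ | hqτ
      · obtain ⟨Q, hQ⟩ := H72.exists_sylow_le_of_not_dvd_index Hs (hσ q hq hqσ)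
        refine ⟨Q, fun a ha b hb => ?_⟩
        have hao := H72.exists_orderOf_of_mem_sylow Q ha
        obtain ⟨k, hk⟩ := H72.exists_orderOf_of_mem_sylow P hb
        exact hnil q a b (hQ ha) (hP hb) hao (by
          rw [hk]; exact Nat.Coprime.pow_left k ((Nat.coprime_primes hp hq).2 (Ne.symm hqp)))
      · obtain ⟨Q, hQ⟩ := H72.exists_sylow_le_of_not_dvd_index Ht (hτ q hq hqτ)
        exact ⟨Q, fun a ha b hb => (hcomm b (hP hb) a (hQ ha)).symm⟩
    apply H72.not_dvd_index_of_sylow_le (g • Q)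
    intro x hx
    have hx' : g⁻¹ * x * g ∈ Q := (H72.mem_smul_sylow_iff Q g x).1 hx
    rw [Subgroup.mem_centralizer_iff]
    intro u hu
    have hu' : g⁻¹ * u * g ∈ P := (H72.mem_smul_sylow_iff P g u).1 (hP₁ hu)
    have h1 := hQ _ hx' _ hu'
    calc u * x = g * ((g⁻¹ * u * g) * (g⁻¹ * x * g)) * g⁻¹ := by group
      _ = g * ((g⁻¹ * x * g) * (g⁻¹ * u * g)) * g⁻¹ := by rw [h1]
      _ = x * u := by group
  -- Step 3: π-subgroups are p-nilpotent for p ∈ σ
  have step3 : ∀ p : ℕ, p.Prime → p ∈ σ → ∀ K : Subgroup G, Cfsg.IsPiSubgroup π K →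
      Cfsg.HasNormalPComplement p K := by
    intro p hp hpσ K hK
    have : Fact p.Prime := ⟨hp⟩
    apply Transfer.hasNPC_of_frobenius
    intro Q hQ g hg hgo
    set U : Subgroup G := Q.map K.subtype with hU
    have hUp : IsPGroup p U := hQ.map _
    set N := Subgroup.normalizer (U : Set G) with hN
    set C := Subgroup.centralizer (U : Set G) with hC
    have hgN : (g : G) ∈ N := by
      rw [hN, Subgroup.mem_normalizer_iff]
      intro u
      constructor
      · rintro ⟨v, hv, rfl⟩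
        exact ⟨g * v * g⁻¹, (Subgroup.mem_normalizer_iff.1 hg v).1 hv, rfl⟩
      · rintro ⟨v, hv, hvu⟩
        have h1 : u = (g : G)⁻¹ * v * g := by
          have : (v : G) = g * u * (g : G)⁻¹ := hvu
          rw [this]; group
        refine ⟨g⁻¹ * v * g, ?_, h1.symm⟩
        apply (Subgroup.mem_normalizer_iff.1 hg _).2
        have h2 : g * (g⁻¹ * v * g) * g⁻¹ = v := by group
        rw [h2]; exact hv
    have hCN : C ≤ N := Subgroup.centralizer_le_normalizer _
    have hCn : (C.subgroupOf N).Normal := by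
      refine ⟨?_⟩
      rintro ⟨c, hcN⟩ hc ⟨n, hn⟩
      rw [Subgroup.mem_subgroupOf] at hc ⊢
      show n * c * n⁻¹ ∈ C
      rw [hC, Subgroup.mem_centralizer_iff] at hc ⊢
      intro u hu
      have h1 : n⁻¹ * u * n ∈ U := by
        rw [Subgroup.mem_normalizer_iff] at hn
        apply (hn _).2
        have h2 : n * (n⁻¹ * u * n) * n⁻¹ = u := by group
        rw [h2]; exact hu
      have h3 := hc _ h1
      calc u * (n * c * n⁻¹) = n * ((n⁻¹ * u * n) * c) * n⁻¹ := by group
        _ = n * (c * (n⁻¹ * u * n)) * n⁻¹ := by rw [h3]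
        _ = n * c * n⁻¹ * u := by group
    have hpow := Subgroup.pow_index_mem (C.subgroupOf N) ⟨(g : G), hgN⟩
    have hmem : (⟨(g : G), hgN⟩ : N) ∈ C.subgroupOf N := by
      apply mem_of_coprime_pow hpow
      rw [Subgroup.orderOf_mk]
      apply Nat.coprime_of_dvd
      intro q hq hqi hqo
      have hqK : q ∣ Nat.card K := by
        refine hqo.trans ?_
        rw [Subgroup.orderOf_coe]; exact orderOf_dvd_natCard g
      have hqπ := hK q hq hqK
      have hqp : q ≠ p := by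
        rintro rfl
        rw [Subgroup.orderOf_coe] at hqo
        exact hq.one_lt.ne' (Nat.dvd_one.1 (by
          have := Nat.dvd_gcd hqo (dvd_refl q)
          rwa [hgo] at this))
      apply step2 p hp hpσ q hq hqπ hqp U hUp
      exact hqi.trans (Subgroup.relIndex_dvd_index_of_le hCN)
    rw [Subgroup.mem_subgroupOf] at hmem
    rw [Subgroup.mem_centralizer_iff]
    intro u hu
    apply Subtype.ext
    exact Subgroup.mem_centralizer_iff.1 hmem u ⟨u, hu, rfl⟩
  -- Step 4: the induction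
  intro n
  induction n using Nat.strong_induction_on with
  | _ n ih =>
  intro K hKn hK
  by_cases hex : ∃ p : ℕ, p.Prime ∧ p ∈ σ ∧ p ∣ Nat.card K
  · obtain ⟨p, hp, hpσ, hpK⟩ := hex
    have : Fact p.Prime := ⟨hp⟩
    obtain ⟨N, hNn, hNp, k, hNk⟩ := Transfer.hasNPC_iff_exists.1 (step3 p hp hpσ K hK)
    set N' : Subgroup G := N.map K.subtype with hN'
    have hN'K : N' ≤ K := Subgroup.map_subtype_le N
    have hcardN' : Nat.card N' = Nat.card N := Subgroup.card_map_of_injective Subtype.coe_injective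
    have hlt : Nat.card N' < n := by
      rw [← hKn]
      apply lt_of_le_of_ne (Nat.le_of_dvd Nat.card_pos (Subgroup.card_dvd_of_le hN'K))
      intro h
      rw [← h, hcardN'] at hpK
      exact hp.one_lt.ne' (Nat.dvd_one.1 (by
          have := Nat.dvd_gcd hpK (dvd_refl p)
          rwa [hNp] at this))
    obtain ⟨g, hg⟩ := ih _ hlt N' rfl (isPi_mono hN'K hK)
    -- conjugate
    set K₁ := cj g⁻¹ K with hK₁
    set N₁ := cj g⁻¹ N' with hN₁
    have hN₁H : N₁ ≤ H := by
      have := cj_mono g⁻¹ hg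
      rwa [cj_cj, inv_mul_cancel, cj_one] at this
    have hN₁p : (Nat.card N₁).Coprime p := by rw [hN₁, card_cj, hcardN']; exact hNp
    -- the Sylow p-subgroup P of G inside Hs centralizes N₁
    obtain ⟨P, hP⟩ := H72.exists_sylow_le_of_not_dvd_index Hs (hσ p hp hpσ)
    have hPc : ∀ a ∈ P, ∀ b ∈ N₁, a * b = b * a := by
      intro a ha b hb
      have hbH := hN₁H hb
      have hmem : b ∈ Hs ⊔ Ht := by rw [hjoin]; exact hbH
      obtain ⟨s, hss, t, htt, rfl⟩ : ∃ s ∈ Hs, ∃ t ∈ Ht, s * t = b := by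
        have hc : ∀ (a : Hs) (b : Ht), Commute (Hs.subtype a) (Ht.subtype b) := fun a b => hcomm a a.2 b b.2
        have h1 : b ∈ (MonoidHom.noncommCoprod Hs.subtype Ht.subtype hc).range := by
          rw [MonoidHom.noncommCoprod_range, Subgroup.range_subtype, Subgroup.range_subtype]; exact hmem
        obtain ⟨⟨s, t⟩, hst⟩ := h1
        exact ⟨s, s.2, t, t.2, hst⟩
      have hst : Commute s t := hcomm s hss t htt
      -- order of s is prime to p
      have hso : (orderOf s).Coprime p := by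
        have hcop : (orderOf s).Coprime (orderOf t) := by
          apply Nat.coprime_of_dvd
          intro q hq h1 h2
          have h3 : q ∈ σ := hs q hq (h1.trans (by rw [← Subgroup.orderOf_mk s hss]; exact orderOf_dvd_natCard _))
          have h4 : q ∈ τ := ht q hq (h2.trans (by rw [← Subgroup.orderOf_mk t htt]; exact orderOf_dvd_natCard _))
          exact Set.disjoint_left.1 hd h3 h4
        have h5 := hst.orderOf_mul_eq_mul_orderOf_of_coprime hcop
        have h6 : orderOf (s * t) ∣ Nat.card N₁ := by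
          rw [← Subgroup.orderOf_mk (s * t) hb]; exact orderOf_dvd_natCard _
        rw [h5] at h6
        exact Nat.Coprime.coprime_dvd_left ((Dvd.intro _ rfl).trans h6) hN₁p
      have h7 : a * s = s * a := hnil p a s (hP ha) hss (H72.exists_orderOf_of_mem_sylow P ha) hso
      have h8 : a * t = t * a := hcomm a (hP ha) t htt
      rw [← mul_assoc, h7, mul_assoc, h8, mul_assoc]
    set M := Subgroup.normalizer (N₁ : Set G) with hM
    have hPM : (P : Subgroup G) ≤ M := by
      intro a ha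
      rw [hM, Subgroup.mem_normalizer_iff]
      have hfix : ∀ b ∈ N₁, a * b * a⁻¹ = b := fun b hb => by rw [hPc a ha b hb, mul_inv_cancel_right]
      intro b
      constructor
      · intro hb; rw [hfix b hb]; exact hb
      · intro hb
        have h1 := hPc a ha _ hb
        have h2 : a * b * a⁻¹ = b := by
          have h3 : a * (a * b * a⁻¹) = a * b := by rw [h1]; group
          exact mul_left_cancel h3
        rw [← h2]; exact hb
    have hN'norm : ∀ x ∈ K, ∀ y ∈ N', x * y * x⁻¹ ∈ N' := by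
      rintro x hx _ ⟨y, hy, rfl⟩
      exact ⟨⟨x, hx⟩ * y * ⟨x, hx⟩⁻¹, hNn.conj_mem y hy ⟨x, hx⟩, rfl⟩
    have hN₁norm : ∀ x ∈ K₁, ∀ y ∈ N₁, x * y * x⁻¹ ∈ N₁ := by
      intro x hx y hy
      rw [hK₁, mem_cj] at hx
      rw [hN₁, mem_cj] at hy ⊢
      have := hN'norm _ hx _ hy
      have e : (g⁻¹)⁻¹ * x * g⁻¹ * ((g⁻¹)⁻¹ * y * g⁻¹) * ((g⁻¹)⁻¹ * x * g⁻¹)⁻¹ = (g⁻¹)⁻¹ * (x * y * x⁻¹) * g⁻¹ := by
        group
      rwa [e] at this
    have hK₁M : K₁ ≤ M := by
      intro x hx
      rw [hM, Subgroup.mem_normalizer_iff]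
      intro y
      constructor
      · exact hN₁norm x hx y
      · intro h
        have := hN₁norm x⁻¹ (K₁.inv_mem hx) _ h
        have e : x⁻¹ * (x * y * x⁻¹) * x⁻¹⁻¹ = y := by group
        rwa [e] at this
    -- a Sylow p-subgroup of K₁
    obtain ⟨R⟩ : Nonempty (Sylow p K₁) := inferInstance
    set R' : Subgroup G := (R : Subgroup K₁).map K₁.subtype with hR'
    have hR'K : R' ≤ K₁ := Subgroup.map_subtype_le _
    have hR'p : IsPGroup p R' := R.isPGroup'.map _
    have hR'M : IsPGroup p (R'.subgroupOf M) := hR'p.comap_of_injective M.subtype Subtype.coe_injective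
    obtain ⟨T, hT⟩ := hR'M.exists_le_sylow
    obtain ⟨m, hm⟩ := MulAction.exists_smul_eq M T (P.subtype hPM)
    have hR'P : cj (m : G) R' ≤ P := by
      intro x hx
      rw [mem_cj] at hx
      have hxM : (m : G)⁻¹ * x * m ∈ M := hK₁M (hR'K hx)
      have h1 : (⟨(m : G)⁻¹ * x * m, hxM⟩ : M) ∈ T := hT (by rw [Subgroup.mem_subgroupOf]; exact hx)
      have hxM' : x ∈ M := by
        have := M.mul_mem (M.mul_mem m.2 hxM) (M.inv_mem m.2)
        have e : (m : G) * ((m : G)⁻¹ * x * m) * (m : G)⁻¹ = x := by group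
        rwa [e] at this
      have h2 : (⟨x, hxM'⟩ : M) ∈ m • T := by
        rw [H72.mem_smul_sylow_iff]; exact h1
      rw [hm] at h2
      exact h2
    -- K₁ = N₁ R'
    have hK₁eq : K₁ ≤ N₁ ⊔ R' := by
      have hN₁K₁ : N₁ ≤ K₁ := cj_mono _ hN'K
      have h1 : N₁ ⊔ R' ≤ K₁ := sup_le hN₁K₁ hR'K
      have hidx : (N₁.relIndex K₁) = p ^ k := by
        have e1 : Nat.card N₁ * N₁.relIndex K₁ = Nat.card K₁ := by
          have := Subgroup.card_mul_index (N₁.subgroupOf K₁)
          rw [Nat.card_congr (Subgroup.subgroupOfEquivOfLe hN₁K₁).toEquiv] at this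
          exact this
        have e2 := Subgroup.card_mul_index N
        rw [hNk] at e2
        rw [hN₁, hK₁, card_cj, card_cj, hcardN', ← e2] at e1
        exact Nat.eq_of_mul_eq_mul_left Nat.card_pos e1
      have hr1 : (N₁ ⊔ R').relIndex K₁ ∣ p ^ k := by
        rw [← hidx]; exact Subgroup.relIndex_dvd_of_le_left K₁ le_sup_left
      have hr2 : ¬ p ∣ (N₁ ⊔ R').relIndex K₁ := by
        intro h
        have h3 : (N₁ ⊔ R').relIndex K₁ ∣ R'.relIndex K₁ := Subgroup.relIndex_dvd_of_le_left K₁ le_sup_right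
        have h4 : R'.relIndex K₁ = (R : Subgroup K₁).index := by
          rw [hR']
          show ((((R : Subgroup K₁).map K₁.subtype)).subgroupOf K₁).index = _
          rw [Subgroup.subgroupOf, Subgroup.comap_map_eq_self_of_injective Subtype.coe_injective]
        rw [h4] at h3
        exact R.not_dvd_index (h.trans h3)
      obtain ⟨j, _, hj⟩ := (Nat.dvd_prime_pow hp).1 hr1
      rcases Nat.eq_zero_or_pos j with h0 | h0
      · rw [h0, pow_zero] at hj
        exact Subgroup.relIndex_eq_one.1 hj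
      · exact absurd (by rw [hj]; exact dvd_pow_self p h0.ne') hr2
    refine ⟨g * (m : G)⁻¹, ?_⟩
    have hmN₁ : cj (m : G) N₁ ≤ N₁ := by
      intro x hx
      rw [mem_cj] at hx
      have := (Subgroup.mem_normalizer_iff.1 m.2 _).1 hx
      have e : (m : G) * ((m : G)⁻¹ * x * m) * (m : G)⁻¹ = x := by group
      rwa [e] at this
    have hmK₁ : cj (m : G) K₁ ≤ H := by
      refine (cj_mono _ hK₁eq).trans ?_
      have hsup : cj (m : G) (N₁ ⊔ R') = cj (m : G) N₁ ⊔ cj (m : G) R' := Subgroup.map_sup _ _ _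
      rw [hsup]
      exact sup_le (hmN₁.trans hN₁H) (hR'P.trans (hP.trans hsH))
    have hfin := cj_mono (g * (m : G)⁻¹) hmK₁
    rw [hK₁, cj_cj, cj_cj] at hfin
    have e : g * (m : G)⁻¹ * m * g⁻¹ = 1 := by group
    rwa [e, cj_one] at hfin
  · -- K is a τ-group
    push Not at hex
    have hKτ : Cfsg.IsPiSubgroup τ K := by
      intro p hp hpK
      have := hK p hp hpK
      rw [hπ] at this
      rcases this with h | h
      · exact absurd hpK (hex p hp h)
      · exact h
    obtain ⟨M, hKM, hM⟩ := exists_maximal hKτ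
    have hHt : Maximal (Cfsg.IsPiSubgroup τ) Ht := by
      refine ⟨ht, ?_⟩
      intro L hL hHL
      rw [← Subgroup.relIndex_eq_one]
      by_contra hne
      obtain ⟨q, hq, hqd⟩ := Nat.exists_prime_and_dvd hne
      have h1 : q ∈ τ := hL q hq (hqd.trans (Subgroup.relIndex_dvd_card _ _))
      exact hτ q hq h1 (hqd.trans (Subgroup.relIndex_dvd_index_of_le hHL))
    obtain ⟨g, hg⟩ := hD Ht M hHt hM
    refine ⟨g, hKM.trans ?_⟩
    rw [hg]
    exact cj_mono g htH


/-- Let σ and τ be disjoint sets of primes with union π. Suppose a finite group G has a Hall π-subgroup H which is the direct product of a nilpotent σ-subgroup and a τ-subgroup (two elementwise-commuting subgroups generating H), and that the maximal τ-subgroups of G are pairwise conjugate. Then the maximal π-subgroups of G are pairwise conjugate. -/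
theorem result {G : Type*} [Group G] [Finite G]
    (σ τ π : Set ℕ) (hπ : π = σ ∪ τ) (hd : Disjoint σ τ) (H Hs Ht : Subgroup G) (hH : Cfsg.IsPiHall π H)
    (hs : Cfsg.IsPiSubgroup σ Hs) (ht : Cfsg.IsPiSubgroup τ Ht) (hsn : Group.IsNilpotent Hs)
    (hjoin : Hs ⊔ Ht = H) (hcomm : ∀ a ∈ Hs, ∀ b ∈ Ht, a * b = b * a) (hD : Cfsg.IsDPiGroup τ G) :
    Cfsg.IsDPiGroup π G := by
  have hmain := main σ τ π hπ hd H Hs Ht hH hs ht hsn hjoin hcomm hD
  have hHπ : Cfsg.IsPiSubgroup π H := hH.1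
  have key : ∀ L : Subgroup G, Maximal (Cfsg.IsPiSubgroup π) L → ∃ g : G, L = cj g H := by
    intro L hL
    obtain ⟨g, hg⟩ := hmain _ L rfl hL.prop
    exact ⟨g, le_antisymm hg (hL.le_of_ge (isPi_cj g hHπ) hg)⟩
  intro L₁ L₂ h₁ h₂
  obtain ⟨g₁, rfl⟩ := key L₁ h₁
  obtain ⟨g₂, rfl⟩ := key L₂ h₂
  refine ⟨g₂ * g₁⁻¹, ?_⟩
  have : cj (g₂ * g₁⁻¹) (cj g₁ H) = cj g₂ H := by rw [cj_cj]; congr 1; group
  exact this.symm

end Cfsg.Agent.S4334
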