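import Cfsg.Statements.S4337
import Cfsg.Agent.H72.SmallSolvable

set_option autoImplicit false
open Cfsg

namespace Cfsg.Agent.S4337

open Equiv.Perm in
/-- Permutations generated by elements with support in `S` move only points of `S`. -/
theorem closure_fix {α : Type*} (S : Finset α) (X : Set (Equiv.Perm α)) (hX : ∀ σ ∈ X, ∀ x, x ∉ S → σ x = x) :
    ∀ σ ∈ Subgroup.closure X, ∀ x, x ∉ S → σ x = x := by
  intro σ hσ
  induction hσ using Subgroup.closure_induction with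
  | mem σ hσ => exact hX σ hσ
  | one => intro x _; rfl
  | mul σ τ _ _ h1 h2 => intro x hx; rw [Equiv.Perm.mul_apply, h2 x hx, h1 x hx]
  | inv σ _ h =>
    intro x hx
    rw [Equiv.Perm.inv_eq_iff_eq]
    exact (h x hx).symm

theorem closure_commute {G : Type*} [Group G] (a : G) (X : Set G) (h : ∀ x ∈ X, a * x = x * a) :
    ∀ u ∈ Subgroup.closure ({a} : Set G), ∀ v ∈ Subgroup.closure X, u * v = v * u := by
  intro u hu v hv
  have h1 : Subgroup.closure X ≤ Subgroup.centralizer {a} := by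
    rw [Subgroup.closure_le]
    intro x hx
    rw [SetLike.mem_coe, Subgroup.mem_centralizer_singleton_iff]
    exact (h x hx).symm
  have h2 : Subgroup.closure ({a} : Set G) ≤ Subgroup.centralizer {v} := by
    rw [Subgroup.closure_le, Set.singleton_subset_iff, SetLike.mem_coe, Subgroup.mem_centralizer_singleton_iff]
    exact (Subgroup.mem_centralizer_singleton_iff.1 (h1 hv)).symm
  exact Subgroup.mem_centralizer_singleton_iff.1 (h2 hu)

/-- If `a` commutes with `b` and `c` which move at most four points, the group is solvable. -/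
theorem case_commute {α : Type*} (a b c : Equiv.Perm α) (S : Finset α) (hS : S.card ≤ 4)
    (hb : ∀ x, x ∉ S → b x = x) (hc : ∀ x, x ∉ S → c x = x) (hab : a * b = b * a) (hac : a * c = c * a) :
    Group.IsSolvable (Subgroup.closure ({a, b, c} : Set (Equiv.Perm α))) := by
  have h1 : Subgroup.closure ({a, b, c} : Set (Equiv.Perm α)) =
      Subgroup.closure {a} ⊔ Subgroup.closure {b, c} := by
    rw [← Subgroup.closure_union]; rfl
  rw [h1]
  apply H72.isSolvable_sup_of_commute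
  · rw [← Subgroup.zpowers_eq_closure]
    exact Group.isSolvable_of_comm (fun x y => by
      obtain ⟨_, i, rfl⟩ := x
      obtain ⟨_, j, rfl⟩ := y
      exact Subtype.ext (((Commute.refl a).zpow_zpow i j)))
  · apply H72.isSolvable_of_support_le S hS
    apply closure_fix
    rintro σ (rfl | rfl)
    · exact hb
    · exact hc
  · apply closure_commute
    rintro x (rfl | rfl)
    · exact hab
    · exact hac


/-- In a finite symmetric group, any three transpositions generate a solvable subgroup. -/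
theorem result (n : ℕ) (a b c : Equiv.Perm (Fin n))
    (ha : a.IsSwap) (hb : b.IsSwap) (hc : c.IsSwap) :
    Group.IsSolvable (Subgroup.closure ({a, b, c} : Set (Equiv.Perm (Fin n)))) := by
  obtain ⟨a₁, a₂, ha', rfl⟩ := ha
  obtain ⟨b₁, b₂, hb', rfl⟩ := hb
  obtain ⟨c₁, c₂, hc', rfl⟩ := hc
  have hfix : ∀ (x₁ x₂ : Fin n) (S : Finset (Fin n)), x₁ ∈ S → x₂ ∈ S → ∀ x, x ∉ S → Equiv.swap x₁ x₂ x = x := by
    intro x₁ x₂ S h1 h2 x hx
    apply Equiv.swap_apply_of_ne_of_ne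
    · rintro rfl; exact hx h1
    · rintro rfl; exact hx h2
  have hcom : ∀ x₁ x₂ y₁ y₂ : Fin n, x₁ ≠ y₁ → x₁ ≠ y₂ → x₂ ≠ y₁ → x₂ ≠ y₂ →
      Equiv.swap x₁ x₂ * Equiv.swap y₁ y₂ = Equiv.swap y₁ y₂ * Equiv.swap x₁ x₂ := by
    intro x₁ x₂ y₁ y₂ h1 h2 h3 h4
    apply Equiv.Perm.Disjoint.commute
    intro x
    by_cases e1 : x = x₁
    · subst e1; right; exact Equiv.swap_apply_of_ne_of_ne h1 h2
    · by_cases e2 : x = x₂
      · subst e2; right; exact Equiv.swap_apply_of_ne_of_ne h3 h4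
      · left; exact Equiv.swap_apply_of_ne_of_ne e1 e2
  have hcard4 : ∀ x y z w : Fin n, ({x, y, z, w} : Finset (Fin n)).card ≤ 4 := fun x y z w => Finset.card_le_four
  by_cases hA : a₁ ≠ b₁ ∧ a₁ ≠ b₂ ∧ a₂ ≠ b₁ ∧ a₂ ≠ b₂ ∧ a₁ ≠ c₁ ∧ a₁ ≠ c₂ ∧ a₂ ≠ c₁ ∧ a₂ ≠ c₂
  · obtain ⟨h1, h2, h3, h4, h5, h6, h7, h8⟩ := hA
    apply case_commute _ _ _ {b₁, b₂, c₁, c₂} (hcard4 _ _ _ _)
    · exact hfix _ _ _ (by simp) (by simp)
    · exact hfix _ _ _ (by simp) (by simp)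
    · exact hcom _ _ _ _ h1 h2 h3 h4
    · exact hcom _ _ _ _ h5 h6 h7 h8
  by_cases hB : b₁ ≠ a₁ ∧ b₁ ≠ a₂ ∧ b₂ ≠ a₁ ∧ b₂ ≠ a₂ ∧ b₁ ≠ c₁ ∧ b₁ ≠ c₂ ∧ b₂ ≠ c₁ ∧ b₂ ≠ c₂
  · obtain ⟨h1, h2, h3, h4, h5, h6, h7, h8⟩ := hB
    rw [Set.insert_comm]
    apply case_commute _ _ _ {a₁, a₂, c₁, c₂} (hcard4 _ _ _ _)
    · exact hfix _ _ _ (by simp) (by simp)
    · exact hfix _ _ _ (by simp) (by simp)
    · exact hcom _ _ _ _ h1 h2 h3 h4
    · exact hcom _ _ _ _ h5 h6 h7 h8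
  by_cases hC : c₁ ≠ a₁ ∧ c₁ ≠ a₂ ∧ c₂ ≠ a₁ ∧ c₂ ≠ a₂ ∧ c₁ ≠ b₁ ∧ c₁ ≠ b₂ ∧ c₂ ≠ b₁ ∧ c₂ ≠ b₂
  · obtain ⟨h1, h2, h3, h4, h5, h6, h7, h8⟩ := hC
    have hset : ({Equiv.swap a₁ a₂, Equiv.swap b₁ b₂, Equiv.swap c₁ c₂} : Set (Equiv.Perm (Fin n))) =
        {Equiv.swap c₁ c₂, Equiv.swap a₁ a₂, Equiv.swap b₁ b₂} := by
      ext x
      simp only [Set.mem_insert_iff, Set.mem_singleton_iff]
      constructor
      · rintro (h | h | h)
        · exact Or.inr (Or.inl h)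
        · exact Or.inr (Or.inr h)
        · exact Or.inl h
      · rintro (h | h | h)
        · exact Or.inr (Or.inr h)
        · exact Or.inl h
        · exact Or.inr (Or.inl h)
    rw [hset]
    apply case_commute _ _ _ {a₁, a₂, b₁, b₂} (hcard4 _ _ _ _)
    · exact hfix _ _ _ (by simp) (by simp)
    · exact hfix _ _ _ (by simp) (by simp)
    · exact hcom _ _ _ _ h1 h2 h3 h4
    · exact hcom _ _ _ _ h5 h6 h7 h8
  -- connected case: at most four points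
  have hS : ({a₁, a₂, b₁, b₂, c₁, c₂} : Finset (Fin n)).card ≤ 4 := by
    -- each transposition meets another one
    have key : ∀ X Y Z : Finset (Fin n), X.card ≤ 2 → Y.card ≤ 2 → Z.card ≤ 2 → (X ∩ Y).Nonempty →
        (Z ∩ (X ∪ Y)).Nonempty → (X ∪ Y ∪ Z).card ≤ 4 := by
      intro X Y Z hX hY hZ h1 h2
      have e1 := Finset.card_union_add_card_inter X Y
      have e2 := Finset.card_union_add_card_inter (X ∪ Y) Z
      rw [Finset.inter_comm] at h2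
      have p1 := Finset.card_pos.2 h1
      have p2 := Finset.card_pos.2 h2
      omega
    have h2 : ∀ x y : Fin n, ({x, y} : Finset (Fin n)).card ≤ 2 := fun x y => Finset.card_le_two
    have hA' : (({a₁, a₂} : Finset (Fin n)) ∩ {b₁, b₂}).Nonempty ∨ (({a₁, a₂} : Finset (Fin n)) ∩ {c₁, c₂}).Nonempty := by
      by_contra hcon
      apply hA
      simp only [Finset.not_nonempty_iff_eq_empty, not_or, Finset.eq_empty_iff_forall_notMem, Finset.mem_inter,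
        Finset.mem_insert, Finset.mem_singleton] at hcon
      obtain ⟨u1, u2⟩ := hcon
      refine ⟨?_, ?_, ?_, ?_, ?_, ?_, ?_, ?_⟩ <;> rintro rfl
      · exact u1 a₁ ⟨Or.inl rfl, Or.inl rfl⟩
      · exact u1 a₁ ⟨Or.inl rfl, Or.inr rfl⟩
      · exact u1 a₂ ⟨Or.inr rfl, Or.inl rfl⟩
      · exact u1 a₂ ⟨Or.inr rfl, Or.inr rfl⟩
      · exact u2 a₁ ⟨Or.inl rfl, Or.inl rfl⟩
      · exact u2 a₁ ⟨Or.inl rfl, Or.inr rfl⟩
      · exact u2 a₂ ⟨Or.inr rfl, Or.inl rfl⟩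
      · exact u2 a₂ ⟨Or.inr rfl, Or.inr rfl⟩
    have hC' : (({c₁, c₂} : Finset (Fin n)) ∩ ({a₁, a₂} ∪ {b₁, b₂})).Nonempty := by
      by_contra hcon
      apply hC
      simp only [Finset.not_nonempty_iff_eq_empty, Finset.eq_empty_iff_forall_notMem, Finset.mem_inter,
        Finset.mem_insert, Finset.mem_singleton, Finset.mem_union] at hcon
      refine ⟨?_, ?_, ?_, ?_, ?_, ?_, ?_, ?_⟩ <;> rintro rfl
      · exact hcon c₁ ⟨Or.inl rfl, Or.inl (Or.inl rfl)⟩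
      · exact hcon c₁ ⟨Or.inl rfl, Or.inl (Or.inr rfl)⟩
      · exact hcon c₂ ⟨Or.inr rfl, Or.inl (Or.inl rfl)⟩
      · exact hcon c₂ ⟨Or.inr rfl, Or.inl (Or.inr rfl)⟩
      · exact hcon c₁ ⟨Or.inl rfl, Or.inr (Or.inl rfl)⟩
      · exact hcon c₁ ⟨Or.inl rfl, Or.inr (Or.inr rfl)⟩
      · exact hcon c₂ ⟨Or.inr rfl, Or.inr (Or.inl rfl)⟩
      · exact hcon c₂ ⟨Or.inr rfl, Or.inr (Or.inr rfl)⟩
    have hB' : (({b₁, b₂} : Finset (Fin n)) ∩ ({a₁, a₂} ∪ {c₁, c₂})).Nonempty := by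
      by_contra hcon
      apply hB
      simp only [Finset.not_nonempty_iff_eq_empty, Finset.eq_empty_iff_forall_notMem, Finset.mem_inter,
        Finset.mem_insert, Finset.mem_singleton, Finset.mem_union] at hcon
      refine ⟨?_, ?_, ?_, ?_, ?_, ?_, ?_, ?_⟩ <;> rintro rfl
      · exact hcon b₁ ⟨Or.inl rfl, Or.inl (Or.inl rfl)⟩
      · exact hcon b₁ ⟨Or.inl rfl, Or.inl (Or.inr rfl)⟩
      · exact hcon b₂ ⟨Or.inr rfl, Or.inl (Or.inl rfl)⟩
      · exact hcon b₂ ⟨Or.inr rfl, Or.inl (Or.inr rfl)⟩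
      · exact hcon b₁ ⟨Or.inl rfl, Or.inr (Or.inl rfl)⟩
      · exact hcon b₁ ⟨Or.inl rfl, Or.inr (Or.inr rfl)⟩
      · exact hcon b₂ ⟨Or.inr rfl, Or.inr (Or.inl rfl)⟩
      · exact hcon b₂ ⟨Or.inr rfl, Or.inr (Or.inr rfl)⟩
    have hsub1 : ({a₁, a₂, b₁, b₂, c₁, c₂} : Finset (Fin n)) ⊆ {a₁, a₂} ∪ {b₁, b₂} ∪ {c₁, c₂} := by
      intro x hx
      simp only [Finset.mem_insert, Finset.mem_singleton] at hx
      rcases hx with rfl | rfl | rfl | rfl | rfl | rfl <;> simp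
    have hsub2 : ({a₁, a₂, b₁, b₂, c₁, c₂} : Finset (Fin n)) ⊆ {a₁, a₂} ∪ {c₁, c₂} ∪ {b₁, b₂} := by
      intro x hx
      simp only [Finset.mem_insert, Finset.mem_singleton] at hx
      rcases hx with rfl | rfl | rfl | rfl | rfl | rfl <;> simp
    rcases hA' with h | h
    · exact (Finset.card_le_card hsub1).trans (key _ _ _ (h2 _ _) (h2 _ _) (h2 _ _) h hC')
    · exact (Finset.card_le_card hsub2).trans (key _ _ _ (h2 _ _) (h2 _ _) (h2 _ _) h hB')
  apply H72.isSolvable_of_support_le _ hS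
  apply closure_fix
  rintro σ (rfl | rfl | rfl)
  · exact hfix _ _ _ (by simp) (by simp)
  · exact hfix _ _ _ (by simp) (by simp)
  · exact hfix _ _ _ (by simp) (by simp)

end Cfsg.Agent.S4337
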