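import Cfsg.Statements.S4341
import Cfsg.Agent.H72.SylowCount

set_option autoImplicit false
open Cfsg

namespace Cfsg.Agent.S4341

/-- Let K be a normal subgroup of a finite group G, p a prime and P a Sylow p-subgroup of G; let N be the normalizer of P ∩ K inside the subgroup PK. Then the number of Sylow p-subgroups of G equals the product of the numbers of Sylow p-subgroups of G/K, of K, and of N/(P ∩ K). (The normality of P ∩ K in N, which always holds, is assumed as a hypothesis so that the quotient can be formed.) -/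
theorem result {G : Type*} [Group G] [Finite G]
    (p : ℕ) [Fact p.Prime] (K : Subgroup G) [K.Normal] (P : Sylow p G) (N : Subgroup G)
    (hN : N = ((P : Subgroup G) ⊔ K) ⊓ Subgroup.normalizer (((P : Subgroup G) ⊓ K : Subgroup G) : Set G))
    [hn : (((P : Subgroup G) ⊓ K).subgroupOf N).Normal] :
    Nat.card (Sylow p G) =
      Nat.card (Sylow p (G ⧸ K)) * Nat.card (Sylow p K) * Nat.card (Sylow p (N ⧸ ((P : Subgroup G) ⊓ K).subgroupOf N)) := by
  rw [H72.card_sylow_eq_quotient_mul K P, mul_assoc]
  congr 1
  set L : Subgroup G := (P : Subgroup G) ⊔ K with hL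
  have hPL : (P : Subgroup G) ≤ L := le_sup_left
  have hKL : K ≤ L := le_sup_right
  rw [H72.card_sylow_eq_mul_normalizer (K.subgroupOf L) (P.subtype hPL)]
  congr 1
  · exact H72.card_sylow_congr (Subgroup.subgroupOfEquivOfLe hKL)
  · have hD : IsPGroup p (((P : Subgroup G) ⊓ K).subgroupOf N) := by
      have h1 : IsPGroup p ↥((P : Subgroup G) ⊓ K) := P.isPGroup'.to_le inf_le_left
      exact h1.comap_of_injective N.subtype Subtype.coe_injective
    rw [H72.card_sylow_quotient_pGroup _ hD]
    have hNL : N ≤ L := by rw [hN]; exact inf_le_left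
    have hNe : Subgroup.normalizer ((((P.subtype hPL : Sylow p L) : Subgroup L) ⊓ K.subgroupOf L : Subgroup L) : Set L)
        = N.subgroupOf L := by
      ext x
      rw [Subgroup.mem_subgroupOf, hN, Subgroup.mem_inf, Subgroup.mem_normalizer_iff, Subgroup.mem_normalizer_iff]
      constructor
      · intro h
        refine ⟨x.2, ?_⟩
        intro u
        constructor
        · intro hu
          exact (h ⟨u, hPL hu.1⟩).1 ⟨hu.1, hu.2⟩
        · intro hu
          have huL : u ∈ L := by
            have h1 : (x : G) * u * (x : G)⁻¹ ∈ L := hPL hu.1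
            have h2 := L.mul_mem (L.mul_mem (L.inv_mem x.2) h1) x.2
            have h3 : (x : G)⁻¹ * ((x : G) * u * (x : G)⁻¹) * x = u := by group
            rwa [h3] at h2
          exact (h ⟨u, huL⟩).2 ⟨hu.1, hu.2⟩
      · rintro ⟨_, h⟩ ⟨u, hu⟩
        exact ⟨fun h1 => (h u).1 ⟨h1.1, h1.2⟩, fun h1 => (h u).2 ⟨h1.1, h1.2⟩⟩
    rw [hNe]
    exact H72.card_sylow_congr (Subgroup.subgroupOfEquivOfLe hNL)

end Cfsg.Agent.S4341
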