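import Cfsg.Statements.S4343
import Cfsg.Agent.H91.Brodkey

set_option autoImplicit false
open Cfsg

namespace Cfsg.Agent.S4343

open scoped Pointwise

private theorem comm_of_small {P X : Type*} [Group P] [Finite P] [MulAction P X] [Finite X] {p : ℕ} [hp : Fact p.Prime]
    (hP : IsPGroup p P) (hX : Nat.card X < p ^ 2) (x y : P) (Q : X) : (x * y * x⁻¹ * y⁻¹) • Q = Q := by
  classical
  set O := MulAction.orbit P Q with hO
  have hfO : Finite O := inferInstance
  -- the size of the orbit
  have hcard : Nat.card O ≤ p := by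
    obtain ⟨k, hk⟩ := hP.card_orbit Q
    rw [← hO] at hk
    have hle : Nat.card O ≤ Nat.card X := Nat.card_le_card_of_injective _ Subtype.val_injective
    rw [hk] at hle ⊢
    have h1 : p ^ k < p ^ 2 := lt_of_le_of_lt hle hX
    have h2 : k < 2 := (Nat.pow_lt_pow_iff_right hp.out.one_lt).1 h1
    calc p ^ k ≤ p ^ 1 := Nat.pow_le_pow_right hp.out.pos (by omega)
      _ = p := pow_one p
  set f : P →* Equiv.Perm O := MulAction.toPermHom P O with hf
  have hR : IsPGroup p f.range := hP.of_surjective f.rangeRestrict f.rangeRestrict_surjective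
  obtain ⟨k, hk⟩ := hR.exists_card_eq
  have hdvd : p ^ k ∣ p.factorial := by
    rw [← hk]
    refine (Subgroup.card_subgroup_dvd_card f.range).trans ?_
    rw [Nat.card_perm]
    exact Nat.factorial_dvd_factorial hcard
  have hk1 : k ≤ 1 := by
    by_contra hlt
    push Not at hlt
    have h1 : p ^ 2 ∣ p.factorial := (Nat.pow_dvd_pow p hlt).trans hdvd
    rw [← Nat.mul_factorial_pred hp.out.pos.ne', sq] at h1
    have h2 : p ∣ (p - 1).factorial := Nat.dvd_of_mul_dvd_mul_left hp.out.pos h1
    rw [hp.out.dvd_factorial] at h2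
    have := hp.out.pos
    omega
  have hcomm : ∀ a b : f.range, a * b = b * a := by
    have hle : Nat.card f.range ≤ p := by
      rw [hk]
      calc p ^ k ≤ p ^ 1 := Nat.pow_le_pow_right hp.out.pos hk1
        _ = p := pow_one p
    have hk' : k = 0 ∨ k = 1 := by omega
    rcases hk' with h0 | h0
    · rw [h0, pow_zero] at hk
      have : Subsingleton f.range := (Nat.card_eq_one_iff_unique.1 hk).1
      intro a b; exact Subsingleton.elim _ _
    · rw [h0, pow_one] at hk
      have : IsCyclic f.range := isCyclic_of_prime_card hk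
      have := IsCyclic.commGroup (α := f.range)
      intro a b
      exact (IsCyclic.isMulCommutative (α := f.range)).is_comm.comm a b
  have h1 : f (x * y * x⁻¹ * y⁻¹) = 1 := by
    have h2 := congrArg Subtype.val (hcomm ⟨f x, x, rfl⟩ ⟨f y, y, rfl⟩)
    have h3 : f x * f y = f y * f x := h2
    rw [map_mul, map_mul, map_mul, map_inv, map_inv, h3]
    group
  have h2 : f (x * y * x⁻¹ * y⁻¹) ⟨Q, MulAction.mem_orbit_self Q⟩ = ⟨Q, MulAction.mem_orbit_self Q⟩ := by
    rw [h1]; rfl
  exact congrArg Subtype.val h2


/-- Let S be a finite non-abelian simple group and p a prime dividing its order. If S has fewer than p² Sylow p-subgroups, then its Sylow p-subgroups have order p. -/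
theorem result {S : Type*} [Group S] [Finite S]
    [IsSimpleGroup S] (hS : ¬ IsMulCommutative S) (p : ℕ) [Fact p.Prime] (hp : p ∣ Nat.card S)
    (hn : Nat.card (Sylow p S) < p ^ 2) (P : Sylow p S) : Nat.card P = p := by
  have hpr : p.Prime := Fact.out
  have hnotp : ¬ IsPGroup p S := by
    intro h
    have : Group.IsNilpotent S := h.isNilpotent
    have hc : Subgroup.center S = ⊤ := by
      have hnt : Nontrivial S := inferInstance
      rcases (inferInstance : (Subgroup.center S).Normal).eq_bot_or_eq_top with h0 | h0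
      · exfalso
        exact (Group.IsNilpotent.center_ne_bot (G := S)) h0
      · exact h0
    apply hS
    refine ⟨⟨fun a b => ?_⟩⟩
    have : a ∈ Subgroup.center S := hc ▸ Subgroup.mem_top a
    exact ((Subgroup.mem_center_iff.1 this) b).symm
  have hPne : (P : Subgroup S) ≠ ⊥ := by
    intro h0
    have := P.card_eq_multiplicity
    rw [h0, Subgroup.card_bot] at this
    have h1 : (Nat.card S).factorization p ≠ 0 := by
      rw [← Nat.pos_iff_ne_zero]
      exact hpr.factorization_pos_of_dvd Nat.card_pos.ne' hp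
    have h2 : 1 < p ^ (Nat.card S).factorization p := Nat.one_lt_pow h1 hpr.one_lt
    omega
  have hPnn : ¬ (P : Subgroup S).Normal := by
    intro h
    rcases h.eq_bot_or_eq_top with h0 | h0
    · exact hPne h0
    · apply hnotp
      have := P.isPGroup'
      rw [h0] at this
      exact this.of_equiv Subgroup.topEquiv
  -- faithful
  have hfaith : ∀ x : S, (∀ Q : Sylow p S, x • Q = Q) → x = 1 := by
    set K := (MulAction.toPermHom S (Sylow p S)).ker with hK
    have hKb : K = ⊥ := by
      rcases (inferInstance : K.Normal).eq_bot_or_eq_top with h0 | h0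
      · exact h0
      · exfalso
        apply hPnn
        rw [← Subgroup.normalizer_eq_top_iff, eq_top_iff]
        intro x _
        have hx : x ∈ K := h0 ▸ Subgroup.mem_top x
        exact Sylow.smul_eq_iff_mem_normalizer.1 (congrFun (congrArg DFunLike.coe (MonoidHom.mem_ker.1 hx)) P)
    intro x hx
    have : x ∈ K := by
      rw [hK, MonoidHom.mem_ker]
      ext Q : 1
      exact hx Q
    rwa [hKb, Subgroup.mem_bot] at this
  have hPc : IsMulCommutative P := by
    refine ⟨⟨fun x y => ?_⟩⟩
    have h1 : ∀ Q : Sylow p S, ((x * y * x⁻¹ * y⁻¹ : P) : S) • Q = Q := fun Q => comm_of_small P.isPGroup' hn x y Q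
    have h2 := hfaith _ h1
    have h3 : x * y * x⁻¹ * y⁻¹ = 1 := Subtype.ext h2
    calc x * y = (x * y * x⁻¹ * y⁻¹) * (y * x) := by group
      _ = y * x := by rw [h3, one_mul]
  have hcore : Cfsg.pCore p S = ⊥ := by
    have hN : (Cfsg.pCore p S).Normal := inferInstance
    rcases hN.eq_bot_or_eq_top with h0 | h0
    · exact h0
    · exfalso
      apply hnotp
      have := Cfsg.Agent.Solv.pCore_isPGroup (G := S) p
      rw [h0] at this
      exact this.of_equiv Subgroup.topEquiv
  obtain ⟨g, hg⟩ := Cfsg.Agent.H91.exists_conj_inf_eq_bot p P hPc hcore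
  have hinj : Function.Injective (fun x : P => (x : S) • (g • P)) := by
    intro x y hxy
    have h1 : (x : S) • (g • P) = (y : S) • (g • P) := hxy
    have h2 : ((y : S)⁻¹ * x) • (g • P) = g • P := by
      rw [mul_smul, h1, inv_smul_smul]
    rw [Sylow.smul_eq_iff_mem_normalizer] at h2
    have h3 : (y : S)⁻¹ * x ∈ (P : Subgroup S) ⊓ Subgroup.normalizer ((g • P : Sylow p S) : Set S) :=
      ⟨(P : Subgroup S).mul_mem ((P : Subgroup S).inv_mem y.2) x.2, h2⟩
    rw [IsPGroup.inf_normalizer_sylow P.isPGroup', Sylow.coe_subgroup_smul, hg, Subgroup.mem_bot] at h3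
    exact Subtype.ext (inv_mul_eq_one.1 h3).symm
  have hlt : Nat.card P < p ^ 2 := lt_of_le_of_lt (Nat.card_le_card_of_injective _ hinj) hn
  obtain ⟨k, hk⟩ := P.isPGroup'.exists_card_eq
  rw [hk] at hlt ⊢
  have h1 : k < 2 := (Nat.pow_lt_pow_iff_right hpr.one_lt).1 hlt
  have h2 : k ≠ 0 := by
    rintro rfl
    rw [pow_zero, Subgroup.card_eq_one] at hk
    exact hPne hk
  have : k = 1 := by omega
  rw [this, pow_one]

end Cfsg.Agent.S4343
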