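import Cfsg.Statements.S4344
import Cfsg.Agent.H72.Basic

set_option autoImplicit false
open Cfsg

namespace Cfsg.Agent.S4344

/-- Let S be a finite non-abelian simple group, M a maximal subgroup of S and C a cyclic normal subgroup of M. If a Sylow p-subgroup P of S (for a prime p dividing the order of S) is contained in C, then the number of Sylow p-subgroups of S equals the index of M. -/
theorem result {S : Type*} [Group S] [Finite S]
    [IsSimpleGroup S] (hS : ¬ IsMulCommutative S) (p : ℕ) [Fact p.Prime] (hp : p ∣ Nat.card S)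
    (M : Subgroup S) (hM : IsCoatom M) (C : Subgroup S) (hCM : C ≤ M) (hCn : (C.subgroupOf M).Normal)
    (hC : IsCyclic C) (P : Sylow p S) (hP : (P : Subgroup S) ≤ C) :
    Nat.card (Sylow p S) = M.index := by
  have hComm : ∀ a ∈ C, ∀ b ∈ C, a * b = b * a := by
    intro a ha b hb
    have := hC.commGroup.mul_comm (⟨a, ha⟩ : C) ⟨b, hb⟩
    exact congrArg (fun t : C => (t : S)) this
  have hMN : M ≤ Subgroup.normalizer (P : Set S) := by
    intro m hm
    rw [← Sylow.smul_eq_iff_mem_normalizer]
    have hmP : ((m • P : Sylow p S) : Subgroup S) ≤ C := by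
      rintro u ⟨v, hv, rfl⟩
      have hv' : v ∈ C := hP hv
      have := hCn.conj_mem ⟨v, hCM hv'⟩ (Subgroup.mem_subgroupOf.2 hv') ⟨m, hm⟩
      exact Subgroup.mem_subgroupOf.1 this
    obtain ⟨l, hl⟩ := MulAction.exists_smul_eq C (P.subtype hP) ((m • P).subtype hmP)
    rw [Sylow.smul_subtype] at hl
    have hl' : (l : S) • P = m • P := Sylow.subtype_injective hl
    rw [← hl', Sylow.smul_eq_iff_mem_normalizer]
    show (l : S) ∈ Subgroup.normalizer ((P : Subgroup S) : Set S)
    rw [Subgroup.mem_normalizer_iff]
    intro u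
    constructor
    · intro hu
      rw [hComm l l.2 u (hP hu)]; simpa using hu
    · intro hu
      have h1 := hComm l l.2 _ (hP hu)
      have h2 : (l : S) * u * (l : S)⁻¹ = u := by
        have h3 : (l : S) * ((l : S) * u * (l : S)⁻¹) * (l : S)⁻¹ = (l : S) * u * (l : S)⁻¹ := by
          rw [h1]; group
        have h4 : (l : S) * ((l : S) * u * (l : S)⁻¹) * (l : S)⁻¹ = (l : S) * u * (l : S)⁻¹ := h3
        have h5 : (l : S) * u * (l : S)⁻¹ = u := by
          have h6 := mul_right_cancel h4
          exact mul_left_cancel h6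
        exact h5
      rw [← h2]; exact hu
  have hPbot : (P : Subgroup S) ≠ ⊥ := P.ne_bot_of_dvd_card hp
  have hNtop : Subgroup.normalizer (P : Set S) ≠ ⊤ := by
    intro h
    have hn : (P : Subgroup S).Normal := Subgroup.normalizer_eq_top_iff.1 h
    rcases hn.eq_bot_or_eq_top with h1 | h1
    · exact hPbot h1
    · apply hS
      refine ⟨⟨fun a b => ?_⟩⟩
      have : ∀ u : S, u ∈ C := fun u => hP (by rw [h1]; exact Subgroup.mem_top u)
      exact hComm a (this a) b (this b)
  have hMeq : Subgroup.normalizer (P : Set S) = M := by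
    rcases hMN.lt_or_eq with h | h
    · exact absurd (hM.2 _ h) hNtop
    · exact h.symm
  rw [P.card_eq_index_normalizer, hMeq]

end Cfsg.Agent.S4344
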