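import Cfsg.Statements.S4345
import Cfsg.Agent.H72.SylowCount
import Cfsg.Agent.Hall.Hall

set_option autoImplicit false
open Cfsg

namespace Cfsg.Agent.S4345

universe u

theorem aux (p : ℕ) [Fact p.Prime] (n : ℕ) : ∀ (G : Type u) [Group G] [Finite G], Group.IsSolvable G →
    Nat.card G = n → ∀ ℓ : ℕ, ℓ.Prime → ℓ ^ (Nat.card (Sylow p G)).factorization ℓ ≡ 1 [MOD p] := by
  induction n using Nat.strong_induction_on with
  | _ n ih =>
  intro G _ _ hG hn ℓ hℓ
  rcases subsingleton_or_nontrivial G with hs | hnt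
  · have : Nat.card (Sylow p G) = 1 := by
      have : Subsingleton (Sylow p G) := ⟨fun P Q => Sylow.ext (Subsingleton.elim _ _)⟩
      exact Nat.card_eq_one_iff_unique.2 ⟨this, inferInstance⟩
    rw [this, Nat.factorization_one]; rfl
  · obtain ⟨q, A, hq, hAn, hAb, hAc, hAp, -⟩ := Hall.exists_normal_elementary (G := G)
    obtain ⟨P⟩ : Nonempty (Sylow p G) := inferInstance
    rw [H72.card_sylow_eq_quotient_mul A P]
    have hlt : Nat.card (G ⧸ A) < n := by
      rw [← hn, ← A.card_mul_index]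
      have h1 : 1 < Nat.card A := (Subgroup.one_lt_card_iff_ne_bot A).2 hAb
      have h2 : 0 < A.index := Nat.pos_of_ne_zero Subgroup.index_ne_zero_of_finite
      have h3 : Nat.card (G ⧸ A) = A.index := rfl
      rw [h3]; nlinarith
    have h1 := ih _ hlt (G ⧸ A) inferInstance rfl ℓ hℓ
    have hPL : (P : Subgroup G) ≤ (P : Subgroup G) ⊔ A := le_sup_left
    obtain ⟨b, hb⟩ : ∃ b, Nat.card (Sylow p ↥((P : Subgroup G) ⊔ A)) = q ^ b := by
      have hfact : Fact q.Prime := ⟨hq⟩
      obtain ⟨k, hk⟩ := IsPGroup.iff_card.1 hAp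
      have h2 : Nat.card (Sylow p ↥((P : Subgroup G) ⊔ A)) ∣ q ^ k := by
        refine ((P.subtype hPL).card_dvd_index).trans ?_
        rw [Sylow.coe_subtype]
        show (P : Subgroup G).relIndex ((P : Subgroup G) ⊔ A) ∣ q ^ k
        rw [H72.relIndex_sup_eq_relIndex, ← hk]
        exact Subgroup.relIndex_dvd_card _ _
      obtain ⟨b, _, hb⟩ := (Nat.dvd_prime_pow hq).1 h2
      exact ⟨b, hb⟩
    have h3 : q ^ b ≡ 1 [MOD p] := by
      rw [← hb]; exact card_sylow_modEq_one p _
    have hne1 : Nat.card (Sylow p (G ⧸ A)) ≠ 0 := Nat.card_pos.ne'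
    have hne2 : q ^ b ≠ 0 := (pow_pos hq.pos b).ne'
    rw [hb, Nat.factorization_mul hne1 hne2, Finsupp.add_apply, pow_add]
    have h4 : ℓ ^ (q ^ b).factorization ℓ ≡ 1 [MOD p] := by
      rw [hq.factorization_pow]
      by_cases hlq : q = ℓ
      · subst hlq
        rw [Finsupp.single_eq_same]; exact h3
      · rw [Finsupp.single_eq_of_ne (Ne.symm hlq)]; rfl
    simpa using h1.mul h4


/-- Let G be a finite solvable group and p, ℓ primes. Then the largest power of ℓ dividing the number of Sylow p-subgroups of G is congruent to 1 modulo p. -/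
theorem result {G : Type*} [Group G] [Finite G]
    (hG : Group.IsSolvable G) (p ℓ : ℕ) [Fact p.Prime] (hℓ : ℓ.Prime) :
    ℓ ^ (Nat.card (Sylow p G)).factorization ℓ ≡ 1 [MOD p] := by
  exact aux p _ G hG rfl ℓ hℓ

end Cfsg.Agent.S4345
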