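import Cfsg.Statements.S4346
import Cfsg.Agent.FT.Syl22C

set_option autoImplicit false
open Cfsg

namespace Cfsg.Agent.S4346

open Subgroup Cfsg.Agent.Syl22

universe u

theorem aux (n : ℕ) : ∀ {G : Type u} [Group G] [Finite G], Nat.card G = n → Nat.card (Sylow 3 G) ≠ 22 := by
  induction n using Nat.strong_induction_on with
  | _ n ih =>
  intro G _ _ hn h22
  apply faithful_false h22
  by_contra hf
  push Not at hf
  obtain ⟨g, hg, hg1⟩ := hf
  set K : Subgroup G := (MulAction.toPermHom G (Sylow 3 G)).ker with hK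
  have hKmem : ∀ x : G, x ∈ K ↔ ∀ R : Sylow 3 G, x • R = R := by
    intro x
    rw [hK, MonoidHom.mem_ker]
    constructor
    · intro h R
      exact congrArg (fun φ : Equiv.Perm (Sylow 3 G) => φ R) h
    · intro h
      exact Equiv.ext h
  have hKbot : K ≠ ⊥ := by
    intro h
    apply hg1
    have : g ∈ K := (hKmem g).2 hg
    rwa [h, mem_bot] at this
  have hlt : Nat.card (G ⧸ K) < n := by
    rw [← hn, card_eq_card_quotient_mul_card_subgroup K]
    exact lt_mul_of_one_lt_right Nat.card_pos ((one_lt_card_iff_ne_bot K).2 hKbot)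
  apply ih _ hlt (G := G ⧸ K) rfl
  rw [← h22]
  symm
  apply Nat.card_congr
  apply Equiv.ofBijective (Sylow.mapSurjective (QuotientGroup.mk'_surjective K))
  constructor
  · intro P Q hPQ
    have h1 : (P : Subgroup G).map (QuotientGroup.mk' K) = (Q : Subgroup G).map (QuotientGroup.mk' K) :=
      congrArg (fun R : Sylow 3 (G ⧸ K) => (R : Subgroup (G ⧸ K))) hPQ
    have h2 : (Q : Subgroup G) ≤ (P : Subgroup G) ⊔ K := by
      have h3 := le_comap_map (QuotientGroup.mk' K) (Q : Subgroup G)
      rw [← h1, comap_map_eq, QuotientGroup.ker_mk'] at h3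
      exact h3
    have h3 : (P : Subgroup G) ⊔ K ≤ normalizer ((P : Subgroup G) : Set G) := by
      apply sup_le le_normalizer
      intro x hx
      exact Sylow.smul_eq_iff_mem_normalizer.1 ((hKmem x).1 hx P)
    have h4 : (Q : Subgroup G) ≤ (P : Subgroup G) := by
      intro x hx
      exact mem_of_mem_normalizer hx (h3 (h2 hx))
    exact Sylow.ext (Q.3 P.2 h4)
  · exact Sylow.mapSurjective_surjective (QuotientGroup.mk'_surjective K) 3

/-- No finite group has exactly 22 Sylow 3-subgroups. -/
theorem result {G : Type*} [Group G] [Finite G] : Nat.card (Sylow 3 G) ≠ 22 := aux _ rfl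

end Cfsg.Agent.S4346
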