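import Cfsg.Statements.S4354
import Cfsg.Agent.H72.Basic

set_option autoImplicit false
open Cfsg

namespace Cfsg.Agent.S4354

open Subgroup in
/-- The heart: if all `p`-elements have class size prime to `p`, and a normal subgroup `N` and the quotient
`G ⧸ N` have abelian Sylow `p`-subgroups, then so does `G`. -/
theorem main {G : Type*} [Group G] [Finite G] (p : ℕ) [Fact p.Prime]
    (h : ∀ x : G, (∃ k : ℕ, orderOf x = p ^ k) → ¬ p ∣ (Subgroup.centralizer ({x} : Set G)).index)
    (N : Subgroup G) [N.Normal]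
    (hN : ∀ Q : Sylow p N, IsMulCommutative Q) (hGN : ∀ Q : Sylow p (G ⧸ N), IsMulCommutative Q)
    (P : Sylow p G) : IsMulCommutative P := by
  -- every element of P is a product of an element of P centralizing P and an element of P ⊓ N
  have key : ∀ x ∈ P, ∃ z ∈ P, (∀ u ∈ P, u * z = z * u) ∧ ∃ y ∈ (P : Subgroup G) ⊓ N, x = z * y := by
    intro x hx
    have hxo := H72.exists_orderOf_of_mem_sylow P hx
    obtain ⟨P₁, hP₁⟩ := H72.exists_sylow_le_of_not_dvd_index _ (h x hxo)
    obtain ⟨g, hg⟩ := MulAction.exists_smul_eq G P P₁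
    -- x lies in P₁
    have hxP₁ : x ∈ P₁ := by
      apply H72.mem_sylow_of_smul_eq P₁ (H72.isPGroup_zpowers_of_orderOf hxo)
      rw [Sylow.smul_eq_iff_mem_normalizer]
      show x ∈ Subgroup.normalizer ((P₁ : Subgroup G) : Set G)
      rw [Subgroup.mem_normalizer_iff]
      intro u
      constructor
      · intro hu
        have := Subgroup.mem_centralizer_singleton_iff.1 (hP₁ hu)
        rw [← this]; simpa using hu
      · intro hu
        have h1 := Subgroup.mem_centralizer_singleton_iff.1 (hP₁ hu)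
        have h2 : u = x * u * x⁻¹ := by
          have h3 : x * u * x⁻¹ * x = x * (x * u * x⁻¹) := h1
          have h4 : x * u = x * (x * u * x⁻¹) := by simpa using h3
          exact mul_left_cancel h4
        rw [h2]; exact hu
    -- conjugate back
    set z := g⁻¹ * x * g with hz
    have hzP : z ∈ P := by
      have : x ∈ g • P := by rw [hg]; exact hxP₁
      rw [← SetLike.mem_coe, Sylow.coe_smul, Set.mem_smul_set_iff_inv_smul_mem] at this
      have h5 : (MulAut.conj g)⁻¹ • x = z := by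
        rw [← map_inv]; simp [hz, MulAut.smul_def, MulAut.conj_apply]
      rw [h5] at this
      exact this
    have hzc : ∀ u ∈ P, u * z = z * u := by
      intro u hu
      have hgu : g * u * g⁻¹ ∈ P₁ := by
        rw [← hg, ← SetLike.mem_coe, Sylow.coe_smul]
        exact ⟨u, hu, by simp [MulAut.smul_def, MulAut.conj_apply]⟩
      have h6 := Subgroup.mem_centralizer_singleton_iff.1 (hP₁ hgu)
      rw [hz]
      calc u * (g⁻¹ * x * g) = g⁻¹ * (g * u * g⁻¹ * x) * g := by group
        _ = g⁻¹ * (x * (g * u * g⁻¹)) * g := by rw [h6]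
        _ = g⁻¹ * x * g * u := by group
    -- pass to the quotient
    set f := QuotientGroup.mk' N with hf
    have hfs : Function.Surjective f := QuotientGroup.mk'_surjective N
    set Pb : Sylow p (G ⧸ N) := P.mapSurjective hfs with hPb
    have : IsMulCommutative ↥(Pb : Subgroup (G ⧸ N)) := hGN Pb
    have hxb : f x ∈ Pb := by
      rw [← SetLike.mem_coe]
      exact ⟨x, hx, rfl⟩
    have hzb : (f g)⁻¹ * f x * f g ∈ Pb := by
      rw [← map_inv, ← map_mul, ← map_mul]
      rw [← SetLike.mem_coe]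
      exact ⟨z, hzP, rfl⟩
    obtain ⟨nb, hnb, hnx⟩ := Sylow.conj_eq_normalizer_conj_of_mem Pb (f x) (f g) hxb hzb
    obtain ⟨n, rfl⟩ := hfs nb
    -- n • P ≤ P ⊔ N
    have hle : ((n • P : Sylow p G) : Subgroup G) ≤ (P : Subgroup G) ⊔ N := by
      intro v hv
      obtain ⟨u, hu, huv⟩ := hv
      have hfv : f v ∈ Pb := by
        have h7 := (Subgroup.mem_normalizer_iff.1 hnb (f u)).1 (by
          exact ⟨u, hu, rfl⟩)
        have h8 : f v = f n * f u * (f n)⁻¹ := by
          rw [← huv]; simp [MulAut.smul_def, MulAut.conj_apply]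
        rw [h8]; exact h7
      obtain ⟨w, hw, hwv⟩ := hfv
      have h9 : w⁻¹ * v ∈ N := by
        rw [← QuotientGroup.eq]; exact hwv
      rw [Subgroup.mem_sup_of_normal_right]
      exact ⟨w, hw, w⁻¹ * v, h9, by group⟩
    obtain ⟨m, hm, hmP⟩ := H72.exists_mem_smul_eq P (n • P) N hle
    rw [smul_smul] at hmP
    set n' := m * n with hn'
    have hfn' : f n' = f n := by
      rw [hn', map_mul]
      have : f m = 1 := (QuotientGroup.eq_one_iff m).2 hm
      rw [this, one_mul]
    have hn'mem : n' ∈ Subgroup.normalizer (P : Set G) := Sylow.smul_eq_iff_mem_normalizer.1 hmP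
    -- x ≡ n z n⁻¹
    set z' := n' * z * n'⁻¹ with hz'
    have hz'P : z' ∈ P := (Subgroup.mem_normalizer_iff.1 hn'mem z).1 hzP
    have hz'c : ∀ u ∈ P, u * z' = z' * u := by
      intro u hu
      have hu' : n'⁻¹ * u * n' ∈ P := by
        have := (Subgroup.mem_normalizer_iff.1 hn'mem (n'⁻¹ * u * n')).2 (by
          have : n' * (n'⁻¹ * u * n') * n'⁻¹ = u := by group
          rw [this]; exact hu)
        exact this
      have h10 := hzc _ hu'
      rw [hz']
      calc u * (n' * z * n'⁻¹) = n' * ((n'⁻¹ * u * n') * z) * n'⁻¹ := by group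
        _ = n' * (z * (n'⁻¹ * u * n')) * n'⁻¹ := by rw [h10]
        _ = n' * z * n'⁻¹ * u := by group
    have hfx : f z' = f x := by
      have e1 : f z = (f g)⁻¹ * f x * f g := by rw [hz, map_mul, map_mul, map_inv]
      rw [hz', map_mul, map_mul, map_inv, hfn', e1, hnx]; group
    have hy : z'⁻¹ * x ∈ N := by
      rw [← QuotientGroup.eq]; exact hfx
    exact ⟨z', hz'P, hz'c, z'⁻¹ * x, ⟨(P : Subgroup G).mul_mem ((P : Subgroup G).inv_mem hz'P) hx, hy⟩, by group⟩
  -- elements of P ⊓ N commute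
  have hcomm : ∀ a ∈ (P : Subgroup G) ⊓ N, ∀ b ∈ (P : Subgroup G) ⊓ N, a * b = b * a := by
    intro a ha b hb
    have hR : IsPGroup p ↥((P : Subgroup G).subgroupOf N) := by
      apply P.isPGroup'.comap_of_injective N.subtype Subtype.coe_injective
    obtain ⟨Q, hQ⟩ := hR.exists_le_sylow
    have hc := hN Q
    have ha' : (⟨a, ha.2⟩ : N) ∈ Q := hQ (by rw [Subgroup.mem_subgroupOf]; exact ha.1)
    have hb' : (⟨b, hb.2⟩ : N) ∈ Q := hQ (by rw [Subgroup.mem_subgroupOf]; exact hb.1)
    have := hc.is_comm.comm ⟨_, ha'⟩ ⟨_, hb'⟩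
    have h2 := congrArg (fun t : Q => ((t : N) : G)) this
    simpa using h2
  refine ⟨⟨?_⟩⟩
  rintro ⟨a, ha⟩ ⟨b, hb⟩
  obtain ⟨z, hz, hzc, y, hy, rfl⟩ := key a ha
  obtain ⟨w, hw, hwc, v, hv, rfl⟩ := key b hb
  apply Subtype.ext
  show z * y * (w * v) = w * v * (z * y)
  have e1 : y * w = w * y := hwc y hy.1
  have e2 : v * z = z * v := hzc v hv.1
  have e3 : y * v = v * y := hcomm y hy v hv
  have e4 : z * w = w * z := hwc z hz
  calc z * y * (w * v) = z * (y * w) * v := by group
    _ = z * (w * y) * v := by rw [e1]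
    _ = (z * w) * (y * v) := by group
    _ = (w * z) * (v * y) := by rw [e4, e3]
    _ = w * (z * v) * y := by group
    _ = w * (v * z) * y := by rw [e2]
    _ = w * v * (z * y) := by group


/-- Let G be a finite group and p a prime such that the Sylow p-subgroups of G are non-abelian while every element of p-power order has conjugacy class size prime to p, and suppose no nontrivial proper normal subgroup N of G has this property and no quotient G/N by such an N has it. Then G is simple. -/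
theorem result {G : Type*} [Group G] [Finite G]
    (p : ℕ) [Fact p.Prime] (h : ((∃ P : Sylow p G, ¬ IsMulCommutative P) ∧ ∀ x : G, (∃ k : ℕ, orderOf x = p ^ k) → ¬ p ∣ (Subgroup.centralizer ({x} : Set G)).index))
    (hmin : ∀ (N : Subgroup G) [N.Normal], N ≠ ⊥ → N ≠ ⊤ →
      ¬ ((∃ P : Sylow p N, ¬ IsMulCommutative P) ∧ ∀ x : N, (∃ k : ℕ, orderOf x = p ^ k) → ¬ p ∣ (Subgroup.centralizer ({x} : Set N)).index) ∧
      ¬ ((∃ P : Sylow p (G ⧸ N), ¬ IsMulCommutative P) ∧ ∀ x : (G ⧸ N), (∃ k : ℕ, orderOf x = p ^ k) → ¬ p ∣ (Subgroup.centralizer ({x} : Set (G ⧸ N))).index)) :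
    IsSimpleGroup G := by
  obtain ⟨⟨P, hP⟩, hcl⟩ := h
  have hnt : Nontrivial G := by
    by_contra hn
    rw [not_nontrivial_iff_subsingleton] at hn
    exact hP ⟨⟨fun a b => Subsingleton.elim _ _⟩⟩
  refine { toNontrivial := hnt, eq_bot_or_eq_top_of_normal := ?_ }
  intro N hNn
  by_contra hcon
  push Not at hcon
  obtain ⟨hb, ht⟩ := hcon
  obtain ⟨h1, h2⟩ := hmin N hb ht
  apply hP
  apply main p hcl N
  · -- Sylow subgroups of N are abelian
    intro Q
    by_contra hQ
    apply h1
    refine ⟨⟨Q, hQ⟩, ?_⟩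
    rintro x ⟨k, hk⟩ hd
    obtain ⟨P₁, hP₁⟩ := H72.exists_sylow_le_of_not_dvd_index _ (hcl (x : G) ⟨k, by rw [← hk, Subgroup.orderOf_coe]⟩)
    -- P₁ ⊓ N is a Sylow subgroup of N
    have h3 : ¬ p ∣ ((P₁ : Subgroup G).subgroupOf N).index := by
      intro hd'
      exact P₁.not_dvd_index (hd'.trans (H72.relIndex_dvd_index_of_normal_right (P₁ : Subgroup G) N))
    apply h3
    refine hd.trans (Subgroup.index_dvd_of_le ?_)
    intro u hu
    rw [Subgroup.mem_centralizer_singleton_iff]
    have := Subgroup.mem_centralizer_singleton_iff.1 (hP₁ hu)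
    exact Subtype.ext this
  · intro Q
    by_contra hQ
    apply h2
    refine ⟨⟨Q, hQ⟩, ?_⟩
    intro x hx hd
    have hfs : Function.Surjective (QuotientGroup.mk' N) := QuotientGroup.mk'_surjective N
    obtain ⟨Q₁, hQ₁⟩ := (H72.isPGroup_zpowers_of_orderOf hx).exists_le_sylow
    obtain ⟨P₂, hP₂⟩ := Sylow.mapSurjective_surjective hfs p Q₁
    have hxQ : x ∈ Q₁ := hQ₁ (Subgroup.mem_zpowers x)
    rw [← hP₂] at hxQ
    obtain ⟨y, hy, hyx⟩ := hxQ
    have hyo := H72.exists_orderOf_of_mem_sylow P₂ hy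
    apply hcl y hyo
    refine (hd.trans ?_).trans (Subgroup.index_map_dvd (Subgroup.centralizer ({y} : Set G)) hfs)
    apply Subgroup.index_dvd_of_le
    rintro _ ⟨u, hu, rfl⟩
    rw [Subgroup.mem_centralizer_singleton_iff, ← hyx]
    have := Subgroup.mem_centralizer_singleton_iff.1 hu
    show QuotientGroup.mk' N u * QuotientGroup.mk' N y = QuotientGroup.mk' N y * QuotientGroup.mk' N u
    rw [← map_mul, this, map_mul]

end Cfsg.Agent.S4354
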