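import Cfsg.Statements.S4355
import Cfsg.Agent.Fus.CamHer
import Cfsg.Agent.Fus.Group

set_option autoImplicit false
open Cfsg

namespace Cfsg.Agent.S4355

/-- If every element of 2-power order of a finite group has a conjugacy class of odd size, then the Sylow 2-subgroups of the group are abelian. -/
theorem result {G : Type*} [Group G] [Finite G]
    (h : ∀ x : G, (∃ k : ℕ, orderOf x = 2 ^ k) → ¬ 2 ∣ (Subgroup.centralizer ({x} : Set G)).index) (P : Sylow 2 G) :
    IsMulCommutative P := by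
  have : Fact (Nat.Prime 2) := ⟨Nat.prime_two⟩
  have hsat := Fus.group_saturated P
  have h1 : (P : Subgroup G) ≤ Fus.zc (P : Subgroup G) := by
    refine Fus.abelian_of_central P.2 hsat fun x hx => ?_
    have hxP := P.2 ⟨x, hx⟩
    obtain ⟨k, hk⟩ := hxP
    have hk' : x ^ 2 ^ k = 1 := congrArg Subtype.val hk
    have hord : ∃ k : ℕ, orderOf x = 2 ^ k := by
      obtain ⟨j, -, hj⟩ := (Nat.dvd_prime_pow Nat.prime_two).mp (orderOf_dvd_of_pow_eq_one hk')
      exact ⟨j, hj⟩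
    have hodd := h x hord
    obtain ⟨R, hR, -⟩ := Fus.exists_sylIn_ge (p := 2) (K := ⊥) (L := Subgroup.centralizer ({x} : Set G)) bot_le
      (IsPGroup.of_bot)
    have hR' : Fus.SylIn 2 R ⊤ := by
      refine ⟨le_top, hR.2.1, ?_⟩
      rw [Subgroup.relIndex_top_right]
      intro hd
      have h2 := Subgroup.relIndex_mul_index hR.1
      rw [← h2] at hd
      rcases (Nat.prime_two.dvd_mul).mp hd with h3 | h3
      · exact hR.2.2 h3
      · exact hodd h3
    obtain ⟨l, -, hl⟩ := hR'.exists_conj (K := (P : Subgroup G)) le_top P.2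
    have hc : ∀ y ∈ (P : Subgroup G), y * (l⁻¹ * x * l) = (l⁻¹ * x * l) * y := by
      intro y hy
      have h2 := Subgroup.mem_centralizer_singleton_iff.mp (hR.1 (hl y hy))
      calc y * (l⁻¹ * x * l) = l⁻¹ * (l * y * l⁻¹ * x) * l := by group
        _ = l⁻¹ * (x * (l * y * l⁻¹)) * l := by rw [h2]
        _ = (l⁻¹ * x * l) * y := by group
    have hz : l⁻¹ * x * l ∈ (P : Subgroup G) := by
      have hp : IsPGroup 2 (Subgroup.zpowers (l⁻¹ * x * l)) := by
        rintro ⟨_, j, rfl⟩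
        refine ⟨k, Subtype.ext ?_⟩
        show ((l⁻¹ * x * l) ^ j) ^ 2 ^ k = 1
        have h3 : (l⁻¹ * x * l) ^ 2 ^ k = 1 := by
          have h4 : (l⁻¹ * x * l⁻¹⁻¹) ^ 2 ^ k = l⁻¹ * x ^ 2 ^ k * l⁻¹⁻¹ := conj_pow
          rw [inv_inv] at h4
          rw [h4, hk', mul_one, inv_mul_cancel]
        rw [← zpow_natCast, ← zpow_mul, mul_comm, zpow_mul, zpow_natCast, h3, one_zpow]
      have h5 : l⁻¹ * x * l ∈ Subgroup.normalizer ((P : Subgroup G) : Set G) := by
        rw [Subgroup.mem_normalizer_iff]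
        intro y
        constructor
        · intro hy
          rw [← hc y hy, mul_inv_cancel_right]; exact hy
        · intro hy
          have h6 := hc _ hy
          have h7 : (l⁻¹ * x * l) * y * (l⁻¹ * x * l)⁻¹ = y := by
            have h8 : (l⁻¹ * x * l) * y = (l⁻¹ * x * l) * ((l⁻¹ * x * l) * y * (l⁻¹ * x * l)⁻¹) := by
              rw [← h6]; group
            exact (mul_left_cancel h8).symm
          rwa [h7] at hy
      have h6 := IsPGroup.inf_normalizer_sylow hp P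
      have h7 : l⁻¹ * x * l ∈ Subgroup.zpowers (l⁻¹ * x * l) ⊓ Subgroup.normalizer ((P : Subgroup G) : Set G) :=
        ⟨Subgroup.mem_zpowers _, h5⟩
      have h8 : l⁻¹ * x * l ∈ Subgroup.zpowers (l⁻¹ * x * l) ⊓ (P : Subgroup G) := h6 ▸ h7
      exact h8.2
    refine ⟨l⁻¹ * x * l, ⟨hz, fun y hy => hc y hy⟩, ?_⟩
    rw [Fus.isConjElt_iff]
    refine ⟨fun y => l⁻¹ * y * l⁻¹⁻¹, ?_, by rw [inv_inv]⟩
    rw [Fus.isMap_group]
    refine ⟨Subgroup.zpowers_le.mpr hx, ?_, l⁻¹, fun y _ => rfl⟩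
    rintro _ ⟨j, rfl⟩
    show l⁻¹ * x ^ j * l⁻¹⁻¹ ∈ (P : Subgroup G)
    rw [← conj_zpow, inv_inv]
    exact Subgroup.zpow_mem _ hz j
  exact ⟨⟨fun x y => Subtype.ext ((Fus.mem_zc.mp (h1 y.2)).2 x x.2)⟩⟩

end Cfsg.Agent.S4355
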