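import Cfsg.Statements.S4359
import Cfsg.Agent.H20.GIsoC

set_option autoImplicit false
open Pointwise
open Cfsg

namespace Cfsg.Agent.S4359

open Cfsg.Agent.H20.GIso

/-- Let P be a subgroup of a finite group G and g an element such that P ∩ g⁻¹Pg is a normal subgroup of prime index p in g⁻¹Pg. Let n ≥ 1 and let K be the subgroup generated by P and its conjugates g⁻ⁱPgⁱ for i ≤ n. Suppose that g normalizes no non-identity normal subgroup of P and that P meets the center of K trivially. Then the order of P is pᵗ for some t with 1 ≤ t ≤ 3n and t ≠ 3n - 1. -/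
theorem result {G : Type*} [Group G] [Finite G]
    (P : Subgroup G) (g : G) (p : ℕ) (hp : p.Prime)
    (hN : ((P ⊓ MulAut.conj g⁻¹ • P).subgroupOf (MulAut.conj g⁻¹ • P)).Normal)
    (hidx : (P ⊓ MulAut.conj g⁻¹ • P).relIndex (MulAut.conj g⁻¹ • P) = p)
    (n : ℕ) (hn : 1 ≤ n) (K : Subgroup G) (hK : K = ⨆ i ∈ Finset.range (n + 1), MulAut.conj (g ^ i)⁻¹ • P)
    (h1 : ∀ Q : Subgroup G, Q ≤ P → (Q.subgroupOf P).Normal → MulAut.conj g • Q = Q → Q = ⊥)
    (h2 : P ⊓ (Subgroup.center K).map K.subtype = ⊥) :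
    ∃ t : ℕ, Nat.card P = p ^ t ∧ 1 ≤ t ∧ t ≤ 3 * n ∧ t ≠ 3 * n - 1 := by
  haveI : Fact p.Prime := ⟨hp⟩
  have hcg : ∀ (a : G) (X : Subgroup G), MulAut.conj a⁻¹ • X = cg a X := fun a X => rfl
  rw [hcg] at hN hidx
  obtain ⟨x, t, ht, hGS, hP⟩ := exists_GS hN hidx (by
    intro Q hQ hQn hQg
    apply h1 Q hQ hQn
    have h3 : MulAut.conj g • Q = cg g⁻¹ Q := by rw [← hcg, inv_inv]
    rw [h3]
    conv_lhs => rw [← hQg]
    exact cg_inv_cg g Q)
  have hKS : K = Sg g x 0 (t + n) := by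
    have hi : ∀ i, MulAut.conj (g ^ i)⁻¹ • P = Sg g x i (t + i) := by
      intro i
      have h3 := Sg_conj g x 0 t i
      rw [zero_add, hP] at h3
      exact h3
    rw [hK]
    simp only [hi]
    apply le_antisymm
    · apply iSup₂_le
      intro i hi
      rw [Finset.mem_range] at hi
      exact Sg_mono g x (by omega) (by omega)
    · conv_lhs => rw [Sg]
      rw [Subgroup.closure_le]
      rintro y ⟨j, -, hj, rfl⟩
      rcases Nat.lt_or_ge j t with h | h
      · exact (le_iSup₂_of_le 0 (Finset.mem_range.2 (by omega)) le_rfl :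
          Sg g x 0 (t + 0) ≤ _) (mem_Sg g x (by omega) (by omega))
      · exact (le_iSup₂_of_le (j - t + 1) (Finset.mem_range.2 (by omega)) le_rfl :
          Sg g x (j - t + 1) (t + (j - t + 1)) ≤ _) (mem_Sg g x (by omega) (by omega))
  have hb := bound hGS ht (n := n) (by
    intro z hz hzc
    have hzP : z ∈ P := by rw [← hP]; exact hz
    have hzK : z ∈ K := by rw [hKS]; exact Sg_mono g x le_rfl (by omega) hz
    have h3 : z ∈ P ⊓ (Subgroup.center K).map K.subtype := by
      refine Subgroup.mem_inf.2 ⟨hzP, ⟨⟨z, hzK⟩, ?_, rfl⟩⟩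
      rw [SetLike.mem_coe, Subgroup.mem_center_iff]
      intro w
      apply Subtype.ext
      have hw : (w : G) ∈ Sg g x 0 (t + n) := by rw [← hKS]; exact w.2
      exact (hzc w hw).symm
    rw [h2] at h3
    exact Subgroup.mem_bot.1 h3)
  refine ⟨t, ?_, ht, hb.1, hb.2⟩
  rw [← hP, hGS.card t le_rfl]

end Cfsg.Agent.S4359
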