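import Cfsg.Statements.S4364
import Cfsg.Agent.H72.Kazarin

set_option autoImplicit false
open Cfsg

namespace Cfsg.Agent.S4364
open Cfsg.Agent.H72 Subgroup

/-- Let G be a finite group, p a prime and x an element whose conjugacy class has p-power size. Then for any two conjugates y and z of x, the commutator y z y⁻¹ z⁻¹ lies in O_p(G), the largest normal p-subgroup of G. -/
theorem result {G : Type*} [Group G] [Finite G] (p : ℕ) [Fact p.Prime]
    (x : G) (hx : ∃ a : ℕ, (Subgroup.centralizer ({x} : Set G)).index = p ^ a) (g h : G) :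
    (g * x * g⁻¹) * (h * x * h⁻¹) * (g * x * g⁻¹)⁻¹ * (h * x * h⁻¹)⁻¹ ∈ Cfsg.pCore p G := by
  classical
  obtain ⟨a, ha⟩ := hx
  set O := Cfsg.pCore p G with hO
  have hp : p.Prime := Fact.out
  set π := QuotientGroup.mk' O with hπ
  have hsurj : Function.Surjective π := QuotientGroup.mk'_surjective O
  have hidx : ∃ b, (Subgroup.centralizer ({π x} : Set (G ⧸ O))).index = p ^ b := by
    have h1 : (Subgroup.centralizer ({π x} : Set (G ⧸ O))).index ∣ p ^ a := by
      rw [← ha, ← Subgroup.index_comap_of_surjective _ hsurj]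
      apply Subgroup.index_dvd_of_le
      intro c hc
      rw [Subgroup.mem_centralizer_singleton_iff] at hc
      rw [Subgroup.mem_comap, Subgroup.mem_centralizer_singleton_iff, ← map_mul, ← map_mul, hc]
    obtain ⟨b, -, hb⟩ := (Nat.dvd_prime_pow hp).1 h1
    exact ⟨b, hb⟩
  have hcomm := commute_of_pCore_eq_bot (G := G ⧸ O) (p := p) (Solv.pCore_quotient_pCore p) (π x) hidx (π g) (π h)
  rw [← QuotientGroup.eq_one_iff]
  show π _ = 1
  simp only [map_mul, map_inv]
  rw [hcomm]
  group

end Cfsg.Agent.S4364
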