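import Cfsg.Statements.S4365
-- import your own Cfsg.Agent.* helpers here

set_option autoImplicit false
open Cfsg

namespace Cfsg.Agent.S4365

open Finset in
/-- For commuting automorphisms `g`, `h` of order dividing `p` of an abelian group: the product of the norms of `v`
with respect to `g * h ^ j` (`j < p`) is `v ^ p` times conjugates of the norm of `v` with respect to `h`. -/
theorem norm_identity {V : Type*} [CommGroup V] {p : ℕ} [Fact p.Prime] (g h : MulAut V)
    (hh : h ^ p = 1) (hc : Commute g h) (v : V) :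
    (∏ j ∈ range p, ∏ i ∈ range p, ((g * h ^ j) ^ i) v) =
      v ^ p * ∏ i ∈ (range p).erase 0, (g ^ i) (∏ j ∈ range p, (h ^ j) v) := by
  have hp : p.Prime := Fact.out
  rw [Finset.prod_comm]
  rw [← Finset.mul_prod_erase (range p) _ (mem_range.2 hp.pos)]
  congr 1
  · simp
  · apply Finset.prod_congr rfl
    intro i hi
    rw [mem_erase, mem_range] at hi
    have h1 : ∀ j, ((g * h ^ j) ^ i) v = (g ^ i) ((h ^ (j * i)) v) := by
      intro j
      rw [(hc.pow_right j).mul_pow, ← pow_mul]; rfl
    simp only [h1]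
    rw [← map_prod]
    congr 1
    have h2 : ∀ j, (h ^ (j * i)) v = (h ^ ((j * i) % p)) v := by
      intro j
      conv_lhs => rw [← Nat.mod_add_div (j * i) p, pow_add, pow_mul, hh, one_pow, mul_one]
    simp only [h2]
    have hinj : Set.InjOn (fun j => j * i % p) (range p : Set ℕ) := by
      intro a ha b hb hab
      have ha' : a < p := by simpa using ha
      have hb' : b < p := by simpa using hb
      have hab' : a * i ≡ b * i [MOD p] := hab
      have hcop : Nat.gcd p i = 1 := (Nat.Prime.coprime_iff_not_dvd hp).2 (fun hd =>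
        absurd (Nat.le_of_dvd (Nat.pos_of_ne_zero hi.1) hd) (not_le.2 hi.2))
      have := Nat.ModEq.cancel_right_of_coprime hcop hab'
      exact (Nat.mod_eq_of_lt ha').symm.trans ((show a % p = b % p from this).trans (Nat.mod_eq_of_lt hb'))
    have himg : (range p).image (fun j => j * i % p) = range p := by
      apply Finset.eq_of_subset_of_card_le
      · intro x hx
        rw [mem_image] at hx
        obtain ⟨a, _, rfl⟩ := hx
        exact mem_range.2 (Nat.mod_lt _ hp.pos)
      · rw [Finset.card_image_of_injOn hinj]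
    conv_rhs => rw [← himg]
    rw [Finset.prod_image hinj]

/-- The norm of `v` under `g` is fixed by `g`, if `g ^ p` fixes `v`. -/
theorem norm_fixed {V : Type*} [CommGroup V] {p : ℕ} (g : MulAut V) (v : V) (hg : (g ^ p) v = v) :
    g (∏ i ∈ Finset.range p, (g ^ i) v) = ∏ i ∈ Finset.range p, (g ^ i) v := by
  rw [map_prod]
  have h1 : ∀ i, g ((g ^ i) v) = (g ^ (i + 1)) v := by
    intro i; rw [pow_succ']; rfl
  simp only [h1]
  have h2 := Finset.prod_range_succ (fun i => (g ^ i) v) p
  rw [Finset.prod_range_succ' (fun i => (g ^ i) v) p] at h2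
  rw [hg] at h2
  simpa using h2


/-- Let P be a finite p-group whose conjugacy class sizes are exactly 1 and pᵃ for some a ≥ 1. Then every element of P has its p-th power in the center of P (P/Z(P) has exponent p). -/
theorem result {P : Type*} [Group P] [Finite P] (p : ℕ) [Fact p.Prime]
    (hP : IsPGroup p P) (a : ℕ) (ha : 1 ≤ a)
    (hcs : {k : ℕ | ∃ x : P, (Subgroup.centralizer ({x} : Set P)).index = k} = {1, p ^ a}) (x : P) :
    x ^ p ∈ Subgroup.center P := by
  have hp : p.Prime := Fact.out
  -- notation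
  have hmemC : ∀ {x u : P}, u ∈ Subgroup.centralizer ({x} : Set P) ↔ u * x = x * u :=
    Subgroup.mem_centralizer_singleton_iff
  have hidx : ∀ x : P, (Subgroup.centralizer ({x} : Set P)).index = 1 ∨
      (Subgroup.centralizer ({x} : Set P)).index = p ^ a := by
    intro x
    have : (Subgroup.centralizer ({x} : Set P)).index ∈
        {k : ℕ | ∃ x : P, (Subgroup.centralizer ({x} : Set P)).index = k} := ⟨x, rfl⟩
    rw [hcs] at this
    simpa using this
  have hcen : ∀ x : P, (Subgroup.centralizer ({x} : Set P)).index = 1 ↔ x ∈ Subgroup.center P := by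
    intro x
    rw [Subgroup.index_eq_one, Subgroup.mem_center_iff]
    constructor
    · intro h g
      have : g ∈ Subgroup.centralizer ({x} : Set P) := by rw [h]; exact Subgroup.mem_top g
      exact hmemC.1 this
    · intro h
      rw [eq_top_iff]
      intro g _
      exact hmemC.2 (h g)
  have hidx' : ∀ x : P, x ∉ Subgroup.center P → (Subgroup.centralizer ({x} : Set P)).index = p ^ a := by
    intro x hx
    rcases hidx x with h | h
    · exact absurd ((hcen x).1 h) hx
    · exact h
  -- comparable centralizers of noncentral elements are equal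
  have hCeq : ∀ u v : P, u ∉ Subgroup.center P → v ∉ Subgroup.center P →
      Subgroup.centralizer ({u} : Set P) ≤ Subgroup.centralizer ({v} : Set P) →
      Subgroup.centralizer ({u} : Set P) = Subgroup.centralizer ({v} : Set P) := by
    intro u v hu hv h
    apply Subgroup.eq_of_le_of_card_ge h
    have h1 := Subgroup.card_mul_index (Subgroup.centralizer ({u} : Set P))
    have h2 := Subgroup.card_mul_index (Subgroup.centralizer ({v} : Set P))
    rw [hidx' u hu] at h1
    rw [hidx' v hv] at h2
    have h3 := h1.trans h2.symm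
    exact le_of_eq (Nat.eq_of_mul_eq_mul_right (pow_pos hp.pos a) h3).symm
  by_contra hx
  rcases Nat.lt_or_ge 1 a with ha2 | ha1
  swap
  · -- a = 1
    have ha' : a = 1 := le_antisymm ha1 ha
    subst ha'
    apply hx
    rw [Subgroup.mem_center_iff]
    intro y
    rcases hidx y with h | h
    · have := (hcen y).1 h
      rw [Subgroup.mem_center_iff] at this
      exact (this (x ^ p)).symm
    · have hnt : Nat.card P ≠ 1 := by
        intro h1
        have := Subgroup.index_dvd_card (Subgroup.centralizer ({y} : Set P))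
        rw [h, h1, pow_one] at this
        exact hp.one_lt.ne' (Nat.dvd_one.1 this)
      obtain ⟨n, hn⟩ := IsPGroup.iff_card.1 hP
      have hn0 : n ≠ 0 := by rintro rfl; exact hnt (by rw [hn, pow_zero])
      have hnorm : (Subgroup.centralizer ({y} : Set P)).Normal := by
        apply Subgroup.normal_of_index_eq_minFac_card
        rw [h, hn, hp.pow_minFac hn0, pow_one]
      have := Subgroup.pow_index_mem (Subgroup.centralizer ({y} : Set P)) x
      rw [h, pow_one] at this
      exact (hmemC.1 this).symm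
  -- a ≥ 2
  -- an element w, central mod Z, of order p mod Z
  have hQ : IsPGroup p (P ⧸ Subgroup.center P) := hP.to_quotient _
  have hntQ : Nontrivial (P ⧸ Subgroup.center P) := by
    refine ⟨⟨(QuotientGroup.mk' _ (x ^ p)), 1, ?_⟩⟩
    intro h
    exact hx ((QuotientGroup.eq_one_iff _).1 h)
  obtain ⟨wb, hwbc, hwbo⟩ : ∃ wb ∈ Subgroup.center (P ⧸ Subgroup.center P), orderOf wb = p := by
    have := hQ.center_nontrivial
    have hd : p ∣ Nat.card (Subgroup.center (P ⧸ Subgroup.center P)) := by
      obtain ⟨n, hn⟩ := IsPGroup.iff_card.1 (hQ.to_subgroup (Subgroup.center (P ⧸ Subgroup.center P)))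
      have : n ≠ 0 := by
        rintro rfl
        rw [pow_zero] at hn
        have h1 := Finite.one_lt_card_iff_nontrivial.2 this
        omega
      rw [hn]; exact dvd_pow_self p this
    obtain ⟨c, hc⟩ := exists_prime_orderOf_dvd_card' p hd
    exact ⟨c, c.2, by rw [Subgroup.orderOf_coe, hc]⟩
  obtain ⟨w, rfl⟩ := QuotientGroup.mk'_surjective _ wb
  have hwZ : w ∉ Subgroup.center P := by
    intro h
    have h1 : QuotientGroup.mk' (Subgroup.center P) w = 1 := (QuotientGroup.eq_one_iff _).2 h
    rw [h1, orderOf_one] at hwbo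
    exact hp.one_lt.ne hwbo
  have hwcomm : ∀ g : P, ∃ z ∈ Subgroup.center P, g * w = w * g * z := by
    intro g
    rw [Subgroup.mem_center_iff] at hwbc
    have h1 := hwbc (QuotientGroup.mk' (Subgroup.center P) g)
    rw [← map_mul, ← map_mul] at h1
    have h2 : (w * g)⁻¹ * (g * w) ∈ Subgroup.center P := QuotientGroup.eq.1 h1.symm
    exact ⟨_, h2, by group⟩
  -- if u^p is not central then C(u) = C(w)
  have hstep : ∀ u : P, u ^ p ∉ Subgroup.center P →
      Subgroup.centralizer ({u} : Set P) = Subgroup.centralizer ({w} : Set P) := by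
    intro u hu
    have huZ : u ∉ Subgroup.center P := fun h => hu (pow_mem h p)
    have h1 : (QuotientGroup.mk' (Subgroup.center P) ((u * w) ^ p)) = QuotientGroup.mk' (Subgroup.center P) (u ^ p) := by
      rw [map_pow, map_mul]
      have hcm : Commute (QuotientGroup.mk' (Subgroup.center P) u) (QuotientGroup.mk' (Subgroup.center P) w) :=
        Subgroup.mem_center_iff.1 hwbc _
      rw [hcm.mul_pow, ← hwbo, pow_orderOf_eq_one, mul_one, map_pow]
    have h2 : (u ^ p)⁻¹ * (u * w) ^ p ∈ Subgroup.center P := QuotientGroup.eq.1 h1.symm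
    have huwp : (u * w) ^ p ∉ Subgroup.center P := by
      intro h
      apply hu
      have h3 := mul_mem h (inv_mem h2)
      have h4 : (u * w) ^ p * ((u ^ p)⁻¹ * (u * w) ^ p)⁻¹ = u ^ p := by group
      rwa [h4] at h3
    have huw : u * w ∉ Subgroup.center P := fun h => huwp (pow_mem h p)
    have hle1 : Subgroup.centralizer ({u} : Set P) ≤ Subgroup.centralizer ({u ^ p} : Set P) := by
      intro g hg
      rw [hmemC] at hg ⊢
      exact (show Commute g u from hg).pow_right p
    have hle2 : Subgroup.centralizer ({u * w} : Set P) ≤ Subgroup.centralizer ({u ^ p} : Set P) := by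
      intro g hg
      rw [hmemC] at hg ⊢
      have h5 : Commute g ((u * w) ^ p) := (show Commute g (u * w) from hg).pow_right p
      have h6 : Commute g (((u ^ p)⁻¹ * (u * w) ^ p)⁻¹) := by
        have := Subgroup.mem_center_iff.1 (inv_mem h2) g
        exact this
      have h7 := h5.mul_right h6
      have h4 : (u * w) ^ p * ((u ^ p)⁻¹ * (u * w) ^ p)⁻¹ = u ^ p := by group
      rw [h4] at h7
      exact h7
    have e1 := hCeq u (u ^ p) huZ hu hle1
    have e2 := hCeq (u * w) (u ^ p) huw hu hle2
    apply hCeq u w huZ hwZ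
    intro g hg
    have hg1 : g ∈ Subgroup.centralizer ({u * w} : Set P) := by rw [e2, ← e1]; exact hg
    rw [hmemC] at hg hg1 ⊢
    have h8 : Commute g (u⁻¹ * (u * w)) := (show Commute g u from hg).inv_right.mul_right hg1
    rw [inv_mul_cancel_left] at h8
    exact h8
  set C := Subgroup.centralizer ({w} : Set P) with hC
  have hZC : Subgroup.center P ≤ C := by
    intro z hz
    rw [hC, hmemC]
    exact (Subgroup.mem_center_iff.1 hz w).symm
  have hCn : C.Normal := by
    refine ⟨?_⟩
    intro u hu g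
    rw [hC, hmemC] at hu ⊢
    obtain ⟨z, hz, hgz⟩ := hwcomm g⁻¹
    -- g⁻¹ w = w g⁻¹ z
    have hz' := Subgroup.mem_center_iff.1 hz
    have h1 : g⁻¹ * w * g = w * z := by
      rw [hgz, mul_assoc (w * g⁻¹) z g, ← hz' g]; group
    have h2 : u * (w * z) = (w * z) * u := by
      rw [← mul_assoc, hu, mul_assoc, hz' u, mul_assoc]
    calc g * u * g⁻¹ * w = g * (u * (g⁻¹ * w * g)) * g⁻¹ := by group
      _ = g * (u * (w * z)) * g⁻¹ := by rw [h1]
      _ = g * ((w * z) * u) * g⁻¹ := by rw [h2]
      _ = g * ((g⁻¹ * w * g) * u) * g⁻¹ := by rw [h1]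
      _ = w * (g * u * g⁻¹) := by group
  have hCidx : C.index = p ^ a := hidx' w hwZ
  have hpow : ∀ y : P, y ∉ C → y ^ p ∈ Subgroup.center P := by
    intro y hy
    by_contra h
    apply hy
    rw [← hstep y h, hmemC]
  -- the abelian normal subgroup V
  set V : Subgroup P := Subgroup.centralizer (C : Set P) with hV
  have hVn : V.Normal := Subgroup.normal_centralizer
  have hwC : w ∈ C := by rw [hC, hmemC]
  have hVC : V ≤ C := by
    intro v hv
    rw [hC, hmemC]
    exact (Subgroup.mem_centralizer_iff.1 hv w hwC).symm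
  have hVcomm : ∀ u v : V, u * v = v * u := by
    intro u v
    apply Subtype.ext
    exact Subgroup.mem_centralizer_iff.1 v.2 u (hVC u.2)
  let _ : CommGroup V := { (inferInstance : Group V) with mul_comm := hVcomm }
  have hxC : Subgroup.centralizer ({x} : Set P) = C := hstep x hx
  have hxV : x ∈ V := by
    rw [hV, Subgroup.mem_centralizer_iff]
    intro c hc
    rw [SetLike.mem_coe, ← hxC, hmemC] at hc
    exact hc
  -- elements of V not commuting with something outside C
  have hVfix : ∀ v ∈ V, ∀ y : P, y ∉ C → y * v = v * y → v ∈ Subgroup.center P := by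
    intro v hv y hy hyv
    by_contra hvZ
    apply hy
    have h1 : C ≤ Subgroup.centralizer ({v} : Set P) := by
      intro c hc
      rw [hmemC]
      exact Subgroup.mem_centralizer_iff.1 hv c hc
    rw [hC, hCeq w v hwZ hvZ h1, hmemC]
    exact hyv
  let φ : P →* MulAut V := MulAut.conjNormal
  have hφ : ∀ (g : P) (v : V), ((φ g v : V) : P) = g * v * g⁻¹ := fun g v => MulAut.conjNormal_apply g v
  have hφC : ∀ c ∈ C, φ c = 1 := by
    intro c hc
    ext v
    rw [hφ]
    have := Subgroup.mem_centralizer_iff.1 v.2 c hc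
    rw [this]; simp
  -- norms are central
  have hnorm : ∀ (y : P) (v : V), y ∉ C →
      ((∏ i ∈ Finset.range p, ((φ y) ^ i) v : V) : P) ∈ Subgroup.center P := by
    intro y v hy
    apply hVfix _ (Subtype.mem _) y hy
    have h1 := norm_fixed (p := p) (φ y) v (by
      rw [← map_pow, hφC _ (hZC (hpow y hy))]; rfl)
    have h2 := congrArg (fun t : V => (t : P)) h1
    simp only [hφ] at h2
    rw [mul_inv_eq_iff_eq_mul] at h2
    exact h2
  -- choose y₂ central mod C and y₁ outside ⟨y₂⟩C
  have hR : IsPGroup p (P ⧸ C) := hP.to_quotient _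
  have hcardR : Nat.card (P ⧸ C) = p ^ a := hCidx
  have hntR : Nontrivial (P ⧸ C) := by
    rw [← Finite.one_lt_card_iff_nontrivial, hcardR]
    exact Nat.one_lt_pow (by omega) hp.one_lt
  have hcR := hR.center_nontrivial
  obtain ⟨⟨y₂b, hy₂c⟩, hy₂ne⟩ := exists_ne (1 : Subgroup.center (P ⧸ C))
  obtain ⟨y₂, rfl⟩ := QuotientGroup.mk'_surjective _ y₂b
  have hy₂C : y₂ ∉ C := by
    intro h
    apply hy₂ne
    apply Subtype.ext
    exact (QuotientGroup.eq_one_iff _).2 h
  obtain ⟨y₁b, hy₁b⟩ : ∃ y : P ⧸ C, y ∉ Subgroup.zpowers (QuotientGroup.mk' C y₂) := by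
    by_contra hcon
    push Not at hcon
    have h1 : Nat.card (Subgroup.zpowers (QuotientGroup.mk' C y₂)) = p ^ a := by
      rw [← hcardR]
      have : Subgroup.zpowers (QuotientGroup.mk' C y₂) = ⊤ := by
        rw [eq_top_iff]; intro y _; exact hcon y
      rw [this]; exact Subgroup.card_top
    rw [Nat.card_zpowers] at h1
    have h2 : (QuotientGroup.mk' C y₂) ^ p = 1 := by
      rw [← map_pow]
      exact (QuotientGroup.eq_one_iff _).2 (hZC (hpow y₂ hy₂C))
    have h3 := orderOf_dvd_of_pow_eq_one h2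
    rw [h1] at h3
    have h4 := Nat.le_of_dvd hp.pos h3
    have h5 : p ^ 1 < p ^ a := Nat.pow_lt_pow_right hp.one_lt ha2
    rw [pow_one] at h5
    omega
  obtain ⟨y₁, rfl⟩ := QuotientGroup.mk'_surjective _ y₁b
  have hy₁₂ : ∀ j : ℕ, y₁ * y₂ ^ j ∉ C := by
    intro j hj
    apply hy₁b
    have h1 : QuotientGroup.mk' C (y₁ * y₂ ^ j) = 1 := (QuotientGroup.eq_one_iff _).2 hj
    rw [map_mul, map_pow, mul_eq_one_iff_eq_inv] at h1
    rw [h1]
    exact inv_mem (pow_mem (Subgroup.mem_zpowers _) j)
  have hcom : Commute (φ y₁) (φ y₂) := by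
    have h1 : (y₂ * y₁)⁻¹ * (y₁ * y₂) ∈ C := by
      rw [← QuotientGroup.eq]
      have := Subgroup.mem_center_iff.1 hy₂c (QuotientGroup.mk' C y₁)
      exact this.symm
    have h2 := hφC _ h1
    rw [map_mul, map_inv, inv_mul_eq_one] at h2
    show φ y₁ * φ y₂ = φ y₂ * φ y₁
    rw [← map_mul, ← map_mul]; exact h2.symm
  have hy₂p : (φ y₂) ^ p = 1 := by
    rw [← map_pow]; exact hφC _ (hZC (hpow y₂ hy₂C))
  have hid := norm_identity (φ y₁) (φ y₂) hy₂p hcom ⟨x, hxV⟩
  -- read the identity in the quotient by the centre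
  let ψ : V →* P ⧸ Subgroup.center P := (QuotientGroup.mk' (Subgroup.center P)).comp V.subtype
  have hψ : ∀ v : V, (v : P) ∈ Subgroup.center P → ψ v = 1 := fun v hv => (QuotientGroup.eq_one_iff _).2 hv
  have hψ' : ∀ v : V, ψ v = 1 → (v : P) ∈ Subgroup.center P := fun v hv => (QuotientGroup.eq_one_iff _).1 hv
  have hL : ((∏ j ∈ Finset.range p, ∏ i ∈ Finset.range p, ((φ y₁ * φ y₂ ^ j) ^ i) (⟨x, hxV⟩ : V) : V) : P) ∈
      Subgroup.center P := by
    have : ∀ s : Finset ℕ, ((∏ j ∈ s, ∏ i ∈ Finset.range p, ((φ y₁ * φ y₂ ^ j) ^ i) (⟨x, hxV⟩ : V) : V) : P) ∈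
      Subgroup.center P := by
      intro s
      induction s using Finset.induction_on with
      | empty => simp [one_mem]
      | insert j s hj ih =>
        rw [Finset.prod_insert hj]
        refine mul_mem ?_ ih
        have := hnorm (y₁ * y₂ ^ j) ⟨x, hxV⟩ (hy₁₂ j)
        rw [map_mul, map_pow] at this
        exact this
    exact this _
  have hR' : ((∏ i ∈ (Finset.range p).erase 0, ((φ y₁) ^ i)
      (∏ j ∈ Finset.range p, ((φ y₂) ^ j) (⟨x, hxV⟩ : V)) : V) : P) ∈ Subgroup.center P := by
    have : ∀ s : Finset ℕ, ((∏ i ∈ s, ((φ y₁) ^ i)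
      (∏ j ∈ Finset.range p, ((φ y₂) ^ j) (⟨x, hxV⟩ : V)) : V) : P) ∈ Subgroup.center P := by
      intro s
      induction s using Finset.induction_on with
      | empty => simp [one_mem]
      | insert j s hj ih =>
        rw [Finset.prod_insert hj]
        refine mul_mem ?_ ih
        rw [← map_pow, hφ]
        have h1 := hnorm y₂ ⟨x, hxV⟩ hy₂C
        have h2 := Subgroup.mem_center_iff.1 h1 (y₁ ^ j)
        rw [h2]
        simpa using h1
    exact this _
  apply hx
  have h1 : ((⟨x, hxV⟩ : V) ^ p : V) = (∏ j ∈ Finset.range p, ∏ i ∈ Finset.range p, ((φ y₁ * φ y₂ ^ j) ^ i) (⟨x, hxV⟩ : V)) *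
      (∏ i ∈ (Finset.range p).erase 0, ((φ y₁) ^ i) (∏ j ∈ Finset.range p, ((φ y₂) ^ j) (⟨x, hxV⟩ : V)))⁻¹ := by
    rw [hid, mul_assoc, mul_inv_cancel, mul_one]
  have h2 := congrArg (fun t : V => (t : P)) h1
  have h3 : (((⟨x, hxV⟩ : V) ^ p : V) : P) = x ^ p := rfl
  rw [← h3, h1]
  exact mul_mem hL (inv_mem hR')

end Cfsg.Agent.S4365
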