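import Cfsg.Statements.S4370
import Cfsg.Agent.MaxClass.UniqueOrderP
import Cfsg.Agent.Transfer.Frobenius
import Cfsg.Agent.H63.PG
import Cfsg.Agent.Frob.Complement

set_option autoImplicit false
open Cfsg

namespace Cfsg.Agent.S4370

open Subgroup
open Cfsg.Agent

theorem quaternion_centralizer {n : ℕ} [NeZero n] (q : QuaternionGroup n) (hq : q ∉ center (QuaternionGroup n)) :
    IsCyclic (centralizer ({q} : Set (QuaternionGroup n))) := by
  match q with
  | .a i =>
    have hi : i + i ≠ 0 := by
      intro hi
      apply hq
      rw [mem_center_iff]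
      rintro (j | j)
      · rw [QuaternionGroup.a_mul_a, QuaternionGroup.a_mul_a, add_comm]
      · rw [QuaternionGroup.xa_mul_a, QuaternionGroup.a_mul_xa]
        congr 1
        rw [eq_sub_iff_add_eq, add_assoc, hi, add_zero]
    refine (isCyclic_iff_exists_zpowers_eq_top).2 ⟨⟨.a 1, ?_⟩, ?_⟩
    · rw [mem_centralizer_singleton_iff, QuaternionGroup.a_mul_a, QuaternionGroup.a_mul_a, add_comm]
    · rw [eq_top_iff]
      rintro ⟨g, hg⟩ -
      rw [mem_centralizer_singleton_iff] at hg
      match g with
      | .a j =>
        refine ⟨(j.val : ℤ), ?_⟩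
        apply Subtype.ext
        show (QuaternionGroup.a 1) ^ ((j.val : ℤ)) = QuaternionGroup.a j
        rw [zpow_natCast, QuaternionGroup.a_one_pow, ZMod.natCast_zmod_val]
      | .xa j =>
        exfalso
        rw [QuaternionGroup.xa_mul_a, QuaternionGroup.a_mul_xa] at hg
        injection hg with hg
        rw [eq_sub_iff_add_eq, add_assoc] at hg
        exact hi (by simpa using hg)
  | .xa i =>
    refine (isCyclic_iff_exists_zpowers_eq_top).2 ⟨⟨.xa i, mem_centralizer_singleton_iff.2 rfl⟩, ?_⟩
    rw [eq_top_iff]
    rintro ⟨g, hg⟩ -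
    rw [mem_centralizer_singleton_iff] at hg
    have key : ∀ j : ZMod (2 * n), j + j = 0 → j = 0 ∨ j = n := by
      intro j hj
      have h1 : ((2 * j.val : ℕ) : ZMod (2 * n)) = 0 := by
        rw [Nat.cast_mul, ZMod.natCast_zmod_val, Nat.cast_two]
        linear_combination hj
      rw [ZMod.natCast_eq_zero_iff] at h1
      obtain ⟨c, hc⟩ := Nat.dvd_of_mul_dvd_mul_left (by norm_num) h1
      have h2 := ZMod.val_lt j
      rw [hc] at h2
      have hn : 0 < n := Nat.pos_of_ne_zero (NeZero.ne n)
      have hc2 : c < 2 := by
        by_contra h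
        push Not at h
        nlinarith
      interval_cases c
      · left; rw [mul_zero] at hc; rwa [ZMod.val_eq_zero] at hc
      · right
        rw [mul_one] at hc
        rw [← ZMod.natCast_zmod_val j, hc]
    match g with
    | .a j =>
      rw [QuaternionGroup.a_mul_xa, QuaternionGroup.xa_mul_a] at hg
      injection hg with hg
      have hj : j + j = 0 := by
        have : i - j = i + j := hg
        linear_combination -this
      rcases key j hj with rfl | rfl
      · refine ⟨0, ?_⟩
        apply Subtype.ext
        show (QuaternionGroup.xa i) ^ (0 : ℤ) = QuaternionGroup.a 0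
        rw [zpow_zero]; rfl
      · refine ⟨2, ?_⟩
        apply Subtype.ext
        show (QuaternionGroup.xa i) ^ (2 : ℤ) = QuaternionGroup.a n
        rw [zpow_ofNat, pow_two, QuaternionGroup.xa_mul_xa]
        congr 1; ring
    | .xa j =>
      rw [QuaternionGroup.xa_mul_xa, QuaternionGroup.xa_mul_xa] at hg
      injection hg with hg
      have hj : (i - j) + (i - j) = 0 := by linear_combination hg
      rcases key _ hj with h | h
      · refine ⟨1, ?_⟩
        apply Subtype.ext
        show (QuaternionGroup.xa i) ^ (1 : ℤ) = QuaternionGroup.xa j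
        rw [zpow_one]; congr 1; linear_combination h
      · refine ⟨3, ?_⟩
        apply Subtype.ext
        show (QuaternionGroup.xa i) ^ (3 : ℤ) = QuaternionGroup.xa j
        have : (3 : ℤ) = 2 + 1 := by norm_num
        rw [this, zpow_add, zpow_one, zpow_ofNat, pow_two, QuaternionGroup.xa_mul_xa, QuaternionGroup.a_mul_xa]
        congr 1; linear_combination h

theorem mem_zpowers_of_cyclic {C : Type*} [Group C] [Finite C] [IsCyclic C] {x y : C} {p : ℕ}
    (hx : orderOf x = p) (hy : orderOf y = p) : y ∈ zpowers x := by
  have := Frob.eq_of_card_eq_of_isCyclic (zpowers x) (zpowers y) (by rw [Nat.card_zpowers, Nat.card_zpowers, hx, hy])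
  rw [this]; exact mem_zpowers y

theorem exists_nonabelian_sylow {Q : Type*} [Group Q] [Finite Q] (hnil : Group.IsNilpotent Q)
    (h : ∀ (p : ℕ) [Fact p.Prime] (P : Sylow p Q), ∀ a ∈ P, ∀ b ∈ P, a * b = b * a) :
    ∀ a b : Q, a * b = b * a := by
  obtain ⟨e⟩ := ((Group.isNilpotent_of_finite_tfae (G := Q)).out 0 4).mp hnil
  intro a b
  apply e.symm.injective
  rw [map_mul, map_mul]
  funext p P
  have : Fact (p : ℕ).Prime := Fact.mk (Nat.prime_of_mem_primeFactors p.2)
  apply Subtype.ext
  exact h p P _ (e.symm a p P).2 _ (e.symm b p P).2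

/-- Let G be a finite non-abelian nilpotent group. Then the centralizer of every non-central element of G is cyclic if and only if G is isomorphic to the direct product of a generalized quaternion group and a cyclic group of odd order. -/
theorem result {G : Type*} [Group G] [Finite G] (hG : Group.IsNilpotent G)
    (hna : ¬ IsMulCommutative G) :
    (∀ x : G, x ∉ Subgroup.center G → IsCyclic (Subgroup.centralizer ({x} : Set G))) ↔
      ∃ (k m : ℕ), 1 ≤ k ∧ Odd m ∧ Nonempty (G ≃* QuaternionGroup (2 ^ k) × Multiplicative (ZMod m)) := by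
  constructor
  · intro hcyc
    -- a nonabelian Sylow subgroup
    obtain ⟨p, hp, P, a, ha, b, hb, hab⟩ : ∃ (p : ℕ) (_ : Fact p.Prime) (P : Sylow p G), ∃ a ∈ P, ∃ b ∈ P, a * b ≠ b * a := by
      by_contra h
      push Not at h
      exact hna ⟨⟨exists_nonabelian_sylow hG (fun p hp P a ha b hb => h p hp P a ha b hb)⟩⟩
    have haZ : a ∉ center G := fun h => hab (mem_center_iff.1 h b).symm
    have hCa := hcyc a haZ
    -- complement
    obtain ⟨P', N, hN, hNP'⟩ := Transfer.hasNPC_of_isNilpotent (p := p) hG
    have hPn : ∀ Q : Sylow p G, (Q : Subgroup G).Normal := fun Q => inferInstance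
    have hPP' : P' = P := by
      obtain ⟨g, hg⟩ := MulAction.exists_smul_eq G P' P
      rw [← hg, Sylow.smul_eq_of_normal]
    subst hPP'
    have hPN : ∀ x ∈ (P' : Subgroup G), ∀ y ∈ N, Commute x y :=
      fun x hx y hy => Subgroup.commute_of_normal_of_disjoint _ _ (hPn P') hN hNP'.symm.disjoint x y hx hy
    have hNa : N ≤ centralizer {a} := fun y hy => mem_centralizer_singleton_iff.2 (hPN a ha y hy).symm
    have hNc : IsCyclic N := Subgroup.isCyclic_of_le hNa
    have haN1 : (a : G) ≠ 1 := by rintro rfl; exact hab (by rw [one_mul, mul_one])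
    -- an element of order p in the centre of P
    have hPnt : Nontrivial P' := ⟨⟨a, ha⟩, 1, fun h => haN1 (congrArg Subtype.val h)⟩
    have hPp : IsPGroup p P' := P'.2
    have hcn := hPp.center_nontrivial
    obtain ⟨z, hz⟩ : ∃ z : center P', orderOf z = p := by
      apply exists_prime_orderOf_dvd_card'
      rcases (hPp.to_subgroup (center P')).card_eq_or_dvd with h | h
      · exfalso
        rw [Subgroup.card_eq_one] at h
        exact (Subgroup.nontrivial_iff_ne_bot _).1 hcn h
      · exact h
    have hzo : orderOf ((z : P') : G) = p := by rw [Subgroup.orderOf_coe, Subgroup.orderOf_coe, hz]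
    have hzc : ∀ x ∈ (P' : Subgroup G), x * ((z : P') : G) = ((z : P') : G) * x := fun x hx =>
      congrArg Subtype.val (mem_center_iff.1 z.2 ⟨x, hx⟩)
    have huniq : ∀ y ∈ (P' : Subgroup G), orderOf y = p → y ∈ zpowers ((z : P') : G) := by
      intro y hy hyo
      have key : ∀ c : G, IsCyclic (centralizer {c}) → c ∈ (P' : Subgroup G) → y * c = c * y → y ∈ zpowers ((z : P') : G) := by
        intro c hc hcP hyc
        have h1 := mem_zpowers_of_cyclic (C := centralizer {c}) (x := ⟨((z : P') : G), mem_centralizer_singleton_iff.2 (hzc c hcP).symm⟩)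
          (y := ⟨y, mem_centralizer_singleton_iff.2 hyc⟩) (p := p) (by rw [Subgroup.orderOf_mk, hzo]) (by rw [Subgroup.orderOf_mk, hyo])
        obtain ⟨i, hi⟩ := mem_zpowers_iff.1 h1
        exact ⟨i, congrArg Subtype.val hi⟩
      by_cases hyZ : y ∈ center G
      · exact key a hCa ha ((mem_center_iff.1 hyZ a).symm)
      · exact key y (hcyc y hyZ) hy rfl
    have hPnc : ¬ IsCyclic P' := fun h => hab (congrArg Subtype.val (h.isMulCommutative.is_comm.comm (⟨a, ha⟩ : P') ⟨b, hb⟩))
    have hq := MaxClass.cyclic_or_quaternion hPp (fun H K hH hK => by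
      have key : ∀ L : Subgroup P', Nat.card L = p → L = zpowers (z : P') := by
        intro L hL
        obtain ⟨l, hl⟩ := exists_prime_orderOf_dvd_card' (G := L) p (by rw [hL])
        have hlo : orderOf ((l : P') : G) = p := by rw [Subgroup.orderOf_coe, Subgroup.orderOf_coe, hl]
        obtain ⟨i, hi⟩ := mem_zpowers_iff.1 (huniq _ (l : P').2 hlo)
        have h1 : (l : P') ∈ zpowers (z : P') := ⟨i, Subtype.ext hi⟩
        have h2 : zpowers (l : P') = L := by
          apply Subgroup.eq_of_le_of_card_ge (zpowers_le.2 l.2)
          rw [hL, Nat.card_zpowers, Subgroup.orderOf_coe, hl]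
        rw [← h2]
        apply Subgroup.eq_of_le_of_card_ge (zpowers_le.2 h1)
        rw [Nat.card_zpowers, Nat.card_zpowers, Subgroup.orderOf_coe, Subgroup.orderOf_coe, hz, hl]
      rw [key H hH, key K hK])
    rcases hq with h | ⟨rfl, n, ⟨e⟩⟩
    · exact absurd h hPnc
    · have hn : n ≠ 0 := by
        rintro rfl
        apply hPnc
        have : IsCyclic (QuaternionGroup (2 ^ 0)) := QuaternionGroup.quaternionGroup_one_isCyclic
        exact isCyclic_of_injective e.toMonoidHom e.injective
      refine ⟨n, Nat.card N, by omega, ?_, ?_⟩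
      · have h1 : N.index = Nat.card (P' : Subgroup G) := hNP'.symm.index_eq_card
        have h2 : (P' : Subgroup G).index = Nat.card N := hNP'.index_eq_card
        have h3 := P'.not_dvd_index
        rw [h2] at h3
        rwa [← Nat.not_even_iff_odd, even_iff_two_dvd]
      · have hm : Nat.card (Multiplicative (ZMod (Nat.card N))) = Nat.card N := by
          rw [Nat.card_congr Multiplicative.toAdd, Nat.card_zmod]
        have eN : N ≃* Multiplicative (ZMod (Nat.card N)) := mulEquivOfCyclicCardEq hm.symm
        let f : P' × N →* G := MonoidHom.noncommCoprod (P' : Subgroup G).subtype N.subtype (fun x y => hPN x x.2 y y.2)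
        have hf : Function.Bijective f := by
          constructor
          · rw [injective_iff_map_eq_one]
            rintro ⟨x, y⟩ hxy
            have h5 : (x : G) * y = 1 := hxy
            have h6 : (x : G) ∈ N := by rw [eq_inv_of_mul_eq_one_left h5]; exact inv_mem y.2
            have h7 : (x : G) = 1 := by
              have := (disjoint_iff_inf_le.1 hNP'.disjoint) ⟨h6, x.2⟩
              exact this
            rw [h7, one_mul] at h5
            exact Prod.ext (Subtype.ext h7) (Subtype.ext h5)
          · intro g
            have h1 : g ∈ (P' : Subgroup G) ⊔ N := by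
              rw [hNP'.symm.sup_eq_top]; trivial
            rw [mem_sup_of_normal_left] at h1
            obtain ⟨x, hx, y, hy, rfl⟩ := h1
            exact ⟨(⟨x, hx⟩, ⟨y, hy⟩), rfl⟩
        exact ⟨(MulEquiv.ofBijective f hf).symm.trans (e.prodCongr eN)⟩
  · rintro ⟨k, m, hk, hm, ⟨e⟩⟩ x hx
    have hm0 : m ≠ 0 := by rintro rfl; exact absurd hm (by decide)
    have : NeZero m := ⟨hm0⟩
    set q := (e x).1 with hq
    have hqc : q ∉ center (QuaternionGroup (2 ^ k)) := by
      intro hqc
      apply hx
      rw [mem_center_iff]
      intro g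
      apply e.injective
      rw [map_mul, map_mul]
      refine Prod.ext ?_ (mul_comm _ _)
      exact mem_center_iff.1 hqc _
    have h1 := quaternion_centralizer q hqc
    let f : centralizer ({x} : Set G) →* centralizer ({q} : Set (QuaternionGroup (2 ^ k))) × Multiplicative (ZMod m) :=
      { toFun := fun g => (⟨(e g).1, by
          rw [mem_centralizer_singleton_iff]
          have := mem_centralizer_singleton_iff.1 g.2
          have h3 := congrArg (fun t => (e t).1) this
          simpa using h3⟩, (e g).2)
        map_one' := by ext <;> simp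
        map_mul' := fun a b => by ext <;> simp }
    have hf : Function.Injective f := by
      intro a b h
      have h3 := congrArg (fun t => (t.1 : QuaternionGroup (2 ^ k))) h
      have h4 := congrArg Prod.snd h
      exact Subtype.ext (e.injective (Prod.ext h3 h4))
    have hcop : (Nat.card (centralizer ({q} : Set (QuaternionGroup (2 ^ k))))).Coprime (Nat.card (Multiplicative (ZMod m))) := by
      have h3 : Nat.card (centralizer ({q} : Set (QuaternionGroup (2 ^ k)))) ∣ 2 ^ (k + 2) := by
        have h4 := Subgroup.card_subgroup_dvd_card (centralizer ({q} : Set (QuaternionGroup (2 ^ k))))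
        have h5 : Nat.card (QuaternionGroup (2 ^ k)) = 2 ^ (k + 2) := by
          rw [Nat.card_eq_fintype_card, QuaternionGroup.card]; ring
        rwa [h5] at h4
      have h6 : Nat.card (Multiplicative (ZMod m)) = m := by
        rw [Nat.card_congr Multiplicative.toAdd, Nat.card_zmod]
      rw [h6]
      exact Nat.Coprime.coprime_dvd_left h3 (Nat.Coprime.pow_left _ (Nat.coprime_two_left.2 hm))
    have h7 : IsCyclic (centralizer ({q} : Set (QuaternionGroup (2 ^ k))) × Multiplicative (ZMod m)) := by
      rw [Group.isCyclic_prod_iff]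
      exact ⟨h1, inferInstance, hcop⟩
    exact isCyclic_of_injective f hf

end Cfsg.Agent.S4370
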