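import Cfsg.Statements.S4377

set_option autoImplicit false
open Cfsg

namespace Cfsg.Agent.S4377

theorem sum_divisors {G : Type*} [Group G] [Finite G] (n : ℕ) (hn : n ≠ 0) :
    ∑ d ∈ n.divisors, Nat.card {g : G // orderOf g = d} = Nat.card {g : G // g ^ n = 1} := by
  classical
  cases nonempty_fintype G
  have h := sum_card_orderOf_eq_card_pow_eq_one (G := G) hn
  simp only [Nat.card_eq_fintype_card, Fintype.card_subtype]
  convert h

/-- Two finite groups have the same number of elements of each order if and only if, for every n, they have the same number of elements g with gⁿ = 1. -/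
theorem result {G H : Type*} [Group G] [Finite G] [Group H] [Finite H] :
    (∀ n : ℕ, Nat.card {g : G // orderOf g = n} = Nat.card {h : H // orderOf h = n}) ↔
      ∀ n : ℕ, Nat.card {g : G // g ^ n = 1} = Nat.card {h : H // h ^ n = 1} := by
  constructor
  · intro h
    have key : ∀ n : ℕ, n ≠ 0 → Nat.card {g : G // g ^ n = 1} = Nat.card {h : H // h ^ n = 1} := by
      intro n hn
      rw [← sum_divisors n hn, ← sum_divisors n hn]
      exact Finset.sum_congr rfl fun d _ => h d
    intro n
    rcases Nat.eq_zero_or_pos n with rfl | hn
    · have h1 := key (Nat.card G * Nat.card H) (Nat.mul_ne_zero Nat.card_pos.ne' Nat.card_pos.ne')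
      have e1 : Nat.card {g : G // g ^ (Nat.card G * Nat.card H) = 1} = Nat.card {g : G // g ^ 0 = 1} := by
        apply Nat.card_congr
        apply Equiv.subtypeEquivRight
        intro g
        simp [pow_mul]
      have e2 : Nat.card {g : H // g ^ (Nat.card G * Nat.card H) = 1} = Nat.card {g : H // g ^ 0 = 1} := by
        apply Nat.card_congr
        apply Equiv.subtypeEquivRight
        intro g
        simp [mul_comm (Nat.card G), pow_mul]
      rw [← e1, ← e2, h1]
    · exact key n hn.ne'
  · intro h n
    induction n using Nat.strong_induction_on with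
    | _ n ih =>
      rcases Nat.eq_zero_or_pos n with rfl | hn
      · haveI h1 : IsEmpty {g : G // orderOf g = 0} := ⟨fun g => (orderOf_pos g.1).ne' g.2⟩
        haveI h2 : IsEmpty {g : H // orderOf g = 0} := ⟨fun g => (orderOf_pos g.1).ne' g.2⟩
        rw [Nat.card_of_isEmpty, Nat.card_of_isEmpty]
      · have h1 := sum_divisors (G := G) n hn.ne'
        have h2 := sum_divisors (G := H) n hn.ne'
        rw [h n, ← h2, ← Nat.insert_self_properDivisors hn.ne',
          Finset.sum_insert (by simp), Finset.sum_insert (by simp)] at h1
        have h3 : ∑ d ∈ n.properDivisors, Nat.card {g : G // orderOf g = d} =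
            ∑ d ∈ n.properDivisors, Nat.card {g : H // orderOf g = d} :=
          Finset.sum_congr rfl fun d hd => ih d (Nat.mem_properDivisors.mp hd).2
        omega

end Cfsg.Agent.S4377
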