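import Cfsg.Statements.S4376
import Cfsg.Agent.S4377
import Cfsg.Agent.H73.OTBase
import Cfsg.Agent.H73.OTAGL
import Cfsg.Agent.H73.OTL27

set_option autoImplicit false
open Cfsg

namespace Cfsg.Agent.S4376

open Cfsg.Agent.H73.OT

/-- parity sign -/
def pm {m : ℕ} (i : ZMod m) : ℤˣ := if i.val % 2 = 0 then 1 else -1

abbrev D8 := DihedralGroup 4
abbrev C4 := Multiplicative (ZMod 4)
abbrev C2 := Multiplicative (ZMod 2)

def d1 : D8 →* ℤˣ where
  toFun
    | .r i => pm i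
    | .sr i => -pm i
  map_one' := by decide
  map_mul' := by decide

def d2 : D8 →* ℤˣ where
  toFun
    | .r i => pm i
    | .sr i => pm i
  map_one' := by decide
  map_mul' := by decide

def d3 : D8 →* ℤˣ where
  toFun
    | .r _ => 1
    | .sr _ => -1
  map_one' := by decide
  map_mul' := by decide

def c4 : C4 →* ℤˣ where
  toFun i := pm i.toAdd
  map_one' := by decide
  map_mul' := by decide

def c2 : C2 →* ℤˣ where
  toFun i := pm i.toAdd
  map_one' := by decide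
  map_mul' := by decide

abbrev K42 := C4 × C2
def f1 : K42 →* ℤˣ := c2.comp (MonoidHom.snd C4 C2)
def f2 : K42 →* ℤˣ := c4.comp (MonoidHom.fst C4 C2)
def f3 : K42 →* ℤˣ := f1 * f2
abbrev K22 := C2 × C2
def e1 : K22 →* ℤˣ := c2.comp (MonoidHom.fst C2 C2)

/-- the non-solvable side (besides `GL₃(2)`) -/
abbrev H1 := SG PUnit ![1] ![]
abbrev H2 := SG D8 ![] ![]
abbrev H3 := SG D8 ![] ![d1]
abbrev H4 := SG D8 ![d1, d3] ![]
abbrev H5 := SG K22 ![] ![e1, e1]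
abbrev H6 := SG D8 ![d1, d1] ![d2]
abbrev H7 := SG K42 ![f2, f2] ![f1, f3]
/-- the solvable side (besides `AΓL(1,8)`) -/
abbrev G1 := SG D8 ![d1] ![]
abbrev G2 := SG D8 ![] ![d3]
abbrev G3 := SG D8 ![d1, d1] ![]
abbrev G4 := SG C4 ![c4, c4] ![c4]
abbrev G5 := SG D8 ![d1, d3] ![d3]
abbrev G6 := SG D8 ![] ![d1, d1, d3]

def divs : List ℕ := [1, 2, 3, 4, 6, 7, 12, 14, 21, 28, 42, 84]

/-- table lookup -/
def tb (l : List ℕ) (d : ℕ) : ℕ := ((divs.zip l).lookup d).getD 0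

def tL := tb [1, 22, 57, 64, 78, 49, 120, 70, 105, 112, 126, 168]
def tA := tb [1, 8, 57, 8, 120, 49, 120, 56, 105, 56, 168, 168]
def tH1 := tb [1, 1, 3, 1, 3, 1, 3, 1, 3, 1, 3, 3]
def tH2 := tb [1, 6, 1, 8, 6, 1, 8, 6, 1, 8, 6, 8]
def tH3 := tb [1, 18, 1, 32, 18, 7, 32, 42, 7, 56, 42, 56]
def tH4 := tb [1, 26, 9, 32, 54, 1, 72, 26, 9, 32, 54, 72]
def tH5 := tb [1, 100, 1, 100, 100, 49, 100, 196, 49, 196, 196, 196]
def tH6 := tb [1, 34, 9, 160, 162, 7, 288, 154, 63, 280, 378, 504]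
def tH7 := tb [1, 100, 9, 352, 900, 49, 1152, 196, 441, 1960, 1764, 3528]
def tG1 := tb [1, 10, 3, 16, 18, 1, 24, 10, 3, 16, 18, 24]
def tG2 := tb [1, 30, 1, 32, 30, 7, 32, 42, 7, 56, 42, 56]
def tG3 := tb [1, 22, 9, 40, 54, 1, 72, 22, 9, 40, 54, 72]
def tG4 := tb [1, 2, 9, 128, 18, 7, 144, 14, 63, 140, 126, 252]
def tG5 := tb [1, 170, 9, 176, 270, 7, 288, 182, 63, 224, 378, 504]
def tG6 := tb [1, 702, 1, 800, 702, 343, 800, 2058, 343, 2744, 2058, 2744]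

theorem H1_F : ∀ d ∈ divs, SG.F (K := PUnit) ![1] ![] d = tH1 d := by decide +kernel
theorem H1_cnt (d : ℕ) (hd : d ∈ divs) : cnt H1 d = tH1 d := (SG.cnt_eq d).trans (H1_F d hd)
theorem H2_F : ∀ d ∈ divs, SG.F (K := D8) ![] ![] d = tH2 d := by decide +kernel
theorem H2_cnt (d : ℕ) (hd : d ∈ divs) : cnt H2 d = tH2 d := (SG.cnt_eq d).trans (H2_F d hd)
theorem H3_F : ∀ d ∈ divs, SG.F (K := D8) ![] ![d1] d = tH3 d := by decide +kernel
theorem H3_cnt (d : ℕ) (hd : d ∈ divs) : cnt H3 d = tH3 d := (SG.cnt_eq d).trans (H3_F d hd)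
theorem H4_F : ∀ d ∈ divs, SG.F (K := D8) ![d1, d3] ![] d = tH4 d := by decide +kernel
theorem H4_cnt (d : ℕ) (hd : d ∈ divs) : cnt H4 d = tH4 d := (SG.cnt_eq d).trans (H4_F d hd)
theorem H5_F : ∀ d ∈ divs, SG.F (K := K22) ![] ![e1, e1] d = tH5 d := by decide +kernel
theorem H5_cnt (d : ℕ) (hd : d ∈ divs) : cnt H5 d = tH5 d := (SG.cnt_eq d).trans (H5_F d hd)
theorem H6_F : ∀ d ∈ divs, SG.F (K := D8) ![d1, d1] ![d2] d = tH6 d := by decide +kernel
theorem H6_cnt (d : ℕ) (hd : d ∈ divs) : cnt H6 d = tH6 d := (SG.cnt_eq d).trans (H6_F d hd)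
theorem H7_F : ∀ d ∈ divs, SG.F (K := K42) ![f2, f2] ![f1, f3] d = tH7 d := by decide +kernel
theorem H7_cnt (d : ℕ) (hd : d ∈ divs) : cnt H7 d = tH7 d := (SG.cnt_eq d).trans (H7_F d hd)
theorem G1_F : ∀ d ∈ divs, SG.F (K := D8) ![d1] ![] d = tG1 d := by decide +kernel
theorem G1_cnt (d : ℕ) (hd : d ∈ divs) : cnt G1 d = tG1 d := (SG.cnt_eq d).trans (G1_F d hd)
theorem G2_F : ∀ d ∈ divs, SG.F (K := D8) ![] ![d3] d = tG2 d := by decide +kernel
theorem G2_cnt (d : ℕ) (hd : d ∈ divs) : cnt G2 d = tG2 d := (SG.cnt_eq d).trans (G2_F d hd)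
theorem G3_F : ∀ d ∈ divs, SG.F (K := D8) ![d1, d1] ![] d = tG3 d := by decide +kernel
theorem G3_cnt (d : ℕ) (hd : d ∈ divs) : cnt G3 d = tG3 d := (SG.cnt_eq d).trans (G3_F d hd)
theorem G4_F : ∀ d ∈ divs, SG.F (K := C4) ![c4, c4] ![c4] d = tG4 d := by decide +kernel
theorem G4_cnt (d : ℕ) (hd : d ∈ divs) : cnt G4 d = tG4 d := (SG.cnt_eq d).trans (G4_F d hd)
theorem G5_F : ∀ d ∈ divs, SG.F (K := D8) ![d1, d3] ![d3] d = tG5 d := by decide +kernel
theorem G5_cnt (d : ℕ) (hd : d ∈ divs) : cnt G5 d = tG5 d := (SG.cnt_eq d).trans (G5_F d hd)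
theorem G6_F : ∀ d ∈ divs, SG.F (K := D8) ![] ![d1, d1, d3] d = tG6 d := by decide +kernel
theorem G6_cnt (d : ℕ) (hd : d ∈ divs) : cnt G6 d = tG6 d := (SG.cnt_eq d).trans (G6_F d hd)

theorem L_cnt (d : ℕ) (hd : d ∈ divs) : cnt L27 d = tL d := by
  simp only [divs, List.mem_cons, List.not_mem_nil, or_false] at hd
  rcases hd with rfl | rfl | rfl | rfl | rfl | rfl | rfl | rfl | rfl | rfl | rfl | rfl
  · exact L27.cnt1
  · exact L27.cnt2
  · exact L27.cnt3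
  · exact L27.cnt4
  · exact L27.cnt6
  · exact L27.cnt7
  · exact L27.cnt12
  · exact L27.cnt14
  · exact L27.cnt21
  · exact L27.cnt28
  · exact L27.cnt42
  · exact L27.cnt84

theorem A_cnt (d : ℕ) (hd : d ∈ divs) : cnt AG d = tA d := by
  simp only [divs, List.mem_cons, List.not_mem_nil, or_false] at hd
  rcases hd with rfl | rfl | rfl | rfl | rfl | rfl | rfl | rfl | rfl | rfl | rfl | rfl
  · exact AG.cnt1
  · exact AG.cnt2
  · exact AG.cnt3
  · rw [AG.cnt_red]; exact AG.cnt2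
  · exact AG.cnt6
  · exact AG.cnt7
  · rw [AG.cnt_red]; exact AG.cnt6
  · exact AG.cnt14
  · exact AG.cnt21
  · rw [AG.cnt_red]; exact AG.cnt14
  · exact AG.cnt42
  · rw [AG.cnt_red]; exact AG.cnt42

theorem mem_divs (n : ℕ) : n.gcd 84 ∈ divs := by
  have h1 : n.gcd 84 ∣ 84 := Nat.gcd_dvd_right n 84
  have h2 : n.gcd 84 ∈ Nat.divisors 84 := Nat.mem_divisors.mpr ⟨h1, by norm_num⟩
  have h3 : ∀ d ∈ Nat.divisors 84, d ∈ divs := by decide +kernel
  exact h3 _ h2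

/-- the solvable group -/
abbrev GG := G1 × G2 × G2 × G3 × AG × G4 × G5 × G6
/-- the non-solvable group -/
abbrev HH := L27 × H1 × H2 × H3 × H3 × H4 × H5 × H6 × H7

theorem numeric : ∀ d ∈ divs,
    tG1 d * (tG2 d * (tG2 d * (tG3 d * (tA d * (tG4 d * (tG5 d * tG6 d)))))) =
    tL d * (tH1 d * (tH2 d * (tH3 d * (tH3 d * (tH4 d * (tH5 d * (tH6 d * tH7 d))))))) := by
  decide +kernel

theorem cnt_prod84 {X Y : Type} [Group X] [Group Y] (hX : ∀ x : X, x ^ 84 = 1) (hY : ∀ y : Y, y ^ 84 = 1) :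
    ∀ z : X × Y, z ^ 84 = 1 := fun z => Prod.ext (hX z.1) (hY z.2)

theorem GG84 : ∀ x : GG, x ^ 84 = 1 :=
  cnt_prod84 (SG.pow84 (by decide +kernel)) <| cnt_prod84 (SG.pow84 (by decide +kernel)) <|
  cnt_prod84 (SG.pow84 (by decide +kernel)) <| cnt_prod84 (SG.pow84 (by decide +kernel)) <|
  cnt_prod84 AG.pow84 <| cnt_prod84 (SG.pow84 (by decide +kernel)) <|
  cnt_prod84 (SG.pow84 (by decide +kernel)) (SG.pow84 (by decide +kernel))

theorem HH84 : ∀ x : HH, x ^ 84 = 1 :=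
  cnt_prod84 L27.pow84 <| cnt_prod84 (SG.pow84 (by decide +kernel)) <|
  cnt_prod84 (SG.pow84 (by decide +kernel)) <| cnt_prod84 (SG.pow84 (by decide +kernel)) <|
  cnt_prod84 (SG.pow84 (by decide +kernel)) <| cnt_prod84 (SG.pow84 (by decide +kernel)) <|
  cnt_prod84 (SG.pow84 (by decide +kernel)) <| cnt_prod84 (SG.pow84 (by decide +kernel)) (SG.pow84 (by decide +kernel))

theorem cnt_eq (n : ℕ) : cnt GG n = cnt HH n := by
  rw [cnt_gcd GG 84 GG84 n, cnt_gcd HH 84 HH84 n]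
  have hd := mem_divs n
  set d := n.gcd 84
  simp only [cnt_prod]
  rw [G1_cnt d hd, G2_cnt d hd, G3_cnt d hd, A_cnt d hd, G4_cnt d hd, G5_cnt d hd, G6_cnt d hd,
    L_cnt d hd, H1_cnt d hd, H2_cnt d hd, H3_cnt d hd, H4_cnt d hd, H5_cnt d hd, H6_cnt d hd,
    H7_cnt d hd]
  exact numeric d hd

theorem solv2 {K : Type} [Group K] [Finite K] (h : ∀ k : K, k ^ 4 = 1) : Group.IsSolvable K := by
  have hp : IsPGroup 2 K := fun k => ⟨2, by simpa using h k⟩
  have := hp.isNilpotent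
  infer_instance

instance solvD8 : Group.IsSolvable D8 := solv2 (by decide)

/-- There are finite groups G and H having the same number of elements of each order (the same order type) with G solvable and H not solvable. -/
theorem result :
    ∃ (G : Type) (_ : Group G) (_ : Finite G) (H : Type) (_ : Group H) (_ : Finite H),
      Group.IsSolvable G ∧ ¬ Group.IsSolvable H ∧ ∀ n : ℕ, Nat.card {g : G // orderOf g = n} = Nat.card {h : H // orderOf h = n} := by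
  have hG1 : Group.IsSolvable G1 := SG.solvable
  have hG2 : Group.IsSolvable G2 := SG.solvable
  have hG3 : Group.IsSolvable G3 := SG.solvable
  have hG4 : Group.IsSolvable G4 := SG.solvable
  have hG5 : Group.IsSolvable G5 := SG.solvable
  have hG6 : Group.IsSolvable G6 := SG.solvable
  have hA : Group.IsSolvable AG := AG.solvable
  refine ⟨GG, inferInstance, inferInstance, HH, inferInstance, inferInstance, inferInstance, ?_, ?_⟩
  · intro h
    apply L27.not_solvable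
    exact Group.isSolvable_of_surjective (f := MonoidHom.fst L27 (H1 × H2 × H3 × H3 × H4 × H5 × H6 × H7))
      (fun x => ⟨(x, 1), rfl⟩)
  · exact Cfsg.Agent.S4377.result.mpr (fun n => cnt_eq n)

end Cfsg.Agent.S4376
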