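import Cfsg.Statements.S4381
import Cfsg.Agent.H73.Maschke
import Cfsg.Agent.H73.ExtCop
import Cfsg.Agent.Solv.Frattini

set_option autoImplicit false
open Pointwise
open Cfsg

namespace Cfsg.Agent.S4381

open Subgroup
open Cfsg.Agent.H73
open scoped commutatorElement

/-- maximal invariant subgroups -/
def MaxInv (A : Type*) {G : Type*} [Group A] [Group G] [MulDistribMulAction A G] (M : Subgroup G) : Prop :=
  M ≠ ⊤ ∧ (∀ a : A, ∀ x ∈ M, a • x ∈ M) ∧ ∀ L : Subgroup G, M < L → (∀ a : A, ∀ x ∈ L, a • x ∈ L) → L = ⊤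

variable {A G : Type*} [Group A] [Finite A] [Group G] [Finite G] [MulDistribMulAction A G]

omit [Finite A] [Finite G] in
theorem char_inv (C : Subgroup G) [hC : C.Characteristic] (a : A) (x : G) (hx : x ∈ C) : a • x ∈ C := by
  have h := hC.fixed (MulDistribMulAction.toMulEquiv G a)
  have h1 : x ∈ C.comap (MulDistribMulAction.toMulEquiv G a).toMonoidHom := by rw [h]; exact hx
  exact h1

omit [Finite A] in
theorem exists_max_inv (L : Subgroup G) (hL : L ≠ ⊤) (hLi : ∀ a : A, ∀ x ∈ L, a • x ∈ L) :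
    ∃ M : Subgroup G, MaxInv A M ∧ L ≤ M := by
  classical
  have hfin : ({M : Subgroup G | M ≠ ⊤ ∧ (∀ a : A, ∀ x ∈ M, a • x ∈ M) ∧ L ≤ M} : Set (Subgroup G)).Finite :=
    Set.toFinite _
  obtain ⟨M, hM, hmax⟩ := hfin.exists_maximal ⟨L, hL, hLi, le_rfl⟩
  refine ⟨M, ⟨hM.1, hM.2.1, fun K hMK hK => ?_⟩, hM.2.2⟩
  by_contra hKt
  exact absurd (hmax ⟨hKt, hK, hM.2.2.trans hMK.le⟩ hMK.le) (not_le_of_gt hMK)

omit [Finite A] in
theorem frattini_le_max (M : Subgroup G) (hM : MaxInv A M) : frattini G ≤ M := by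
  by_contra h
  have h1 : M < M ⊔ frattini G := lt_of_le_of_ne le_sup_left (fun h2 => h (by rw [h2]; exact le_sup_right))
  have h3 := hM.2.2 _ h1 (by
    intro a x hx
    rw [mem_sup_of_normal_right] at hx
    obtain ⟨y, hy, z, hz, rfl⟩ := hx
    rw [smul_mul']
    exact mul_mem (mem_sup_left (hM.2.1 a y hy)) (mem_sup_right (char_inv _ a z hz)))
  exact hM.1 (frattini_nongenerating h3)

omit [Finite A] in
theorem part2 (h : ∀ L : Subgroup G, frattini G < L → (∀ a : A, ∀ x ∈ L, a • x ∈ L) → L = ⊤) (M : Subgroup G) :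
    MaxInv A M ↔ (M = frattini G ∧ M ≠ ⊤) := by
  constructor
  · intro hM
    refine ⟨?_, hM.1⟩
    by_contra hne
    exact hM.1 (h M (lt_of_le_of_ne (frattini_le_max M hM) (Ne.symm hne)) hM.2.1)
  · rintro ⟨rfl, hM⟩
    exact ⟨hM, fun a x hx => char_inv _ a x hx, fun L hL hLi => h L hL hLi⟩

/-- Let the finite group A act by automorphisms on the finite group G with the orders of A and G coprime, and assume that A or G is solvable. Call a proper A-invariant subgroup of G maximal A-invariant when no A-invariant subgroup lies strictly between it and G. Then all maximal A-invariant subgroups of G are conjugate under elements of the fixed-point subgroup C_G(A) if and only if G is a p-group for some prime p and A leaves invariant no subgroup strictly between the Frattini subgroup of G and G. In that case, if G is nontrivial, the Frattini subgroup is the only maximal A-invariant subgroup (a trivial G has none). -/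
theorem result {A G : Type*} [Group A] [Finite A]
    [Group G] [Finite G] [MulDistribMulAction A G] (hcop : (Nat.card A).Coprime (Nat.card G)) (hsol : Group.IsSolvable A ∨ Group.IsSolvable G) :
    ((∀ M N : Subgroup G, (M ≠ ⊤ ∧ (∀ a : A, ∀ x ∈ M, a • x ∈ M) ∧ ∀ L : Subgroup G, M < L → (∀ a : A, ∀ x ∈ L, a • x ∈ L) → L = ⊤) → (N ≠ ⊤ ∧ (∀ a : A, ∀ x ∈ N, a • x ∈ N) ∧ ∀ L : Subgroup G, N < L → (∀ a : A, ∀ x ∈ L, a • x ∈ L) → L = ⊤) →
        ∃ c : G, (∀ a : A, a • c = c) ∧ N = MulAut.conj c • M) ↔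
      ((∃ p : ℕ, p.Prime ∧ IsPGroup p G) ∧ ∀ L : Subgroup G, frattini G < L → (∀ a : A, ∀ x ∈ L, a • x ∈ L) → L = ⊤)) ∧
    (((∃ p : ℕ, p.Prime ∧ IsPGroup p G) ∧ ∀ L : Subgroup G, frattini G < L → (∀ a : A, ∀ x ∈ L, a • x ∈ L) → L = ⊤) →
      ∀ M : Subgroup G, (M ≠ ⊤ ∧ (∀ a : A, ∀ x ∈ M, a • x ∈ M) ∧ ∀ L : Subgroup G, M < L → (∀ a : A, ∀ x ∈ L, a • x ∈ L) → L = ⊤) ↔ (M = frattini G ∧ M ≠ ⊤)) := by
  refine ⟨⟨?_, ?_⟩, ?_⟩
  · intro hall
    by_cases hG : Subsingleton G
    · refine ⟨⟨2, Nat.prime_two, fun g => ⟨0, Subsingleton.elim _ _⟩⟩, fun L _ _ => Subsingleton.elim _ _⟩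
    have hnt : Nontrivial G := not_subsingleton_iff_nontrivial.1 hG
    have hbt : (⊥ : Subgroup G) ≠ ⊤ := bot_ne_top
    obtain ⟨M, hM, -⟩ := exists_max_inv (A := A) (⊥ : Subgroup G) hbt (by
      rintro a x hx
      rw [mem_bot] at hx ⊢
      rw [hx, smul_one])
    have hp : ∃ p : ℕ, p.Prime ∧ IsPGroup p G := by
      by_contra hnp
      push Not at hnp
      -- every prime power dividing |G| divides |M|
      have hdvd : Nat.card G ∣ Nat.card M := by
        rw [← Nat.factorization_le_iff_dvd Nat.card_pos.ne' Nat.card_pos.ne']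
        intro p
        by_cases hpp : p.Prime
        · have hf : Fact p.Prime := ⟨hpp⟩
          obtain ⟨P, hP⟩ := ExtCop.exists_inv_sylow hcop hsol p
          have hPt : (P : Subgroup G) ≠ ⊤ := by
            intro h
            apply hnp p hpp
            have := P.2
            rw [h] at this
            exact this.of_equiv Subgroup.topEquiv
          obtain ⟨N, hN, hPN⟩ := exists_max_inv (A := A) (P : Subgroup G) hPt hP
          obtain ⟨c, -, hc⟩ := hall M N hM hN
          have hcard : Nat.card N = Nat.card M := by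
            rw [hc]
            exact (Nat.card_congr (Subgroup.equivSMul (MulAut.conj c) M).toEquiv).symm
          rw [← hcard]
          have h1 : Nat.card P ∣ Nat.card N := Subgroup.card_dvd_of_le hPN
          rw [P.card_eq_multiplicity] at h1
          exact (hpp.pow_dvd_iff_le_factorization Nat.card_pos.ne').1 h1
        · rw [Nat.factorization_eq_zero_of_not_prime _ hpp]
          exact Nat.zero_le _
      exact hM.1 (Subgroup.eq_top_of_card_eq M (Nat.dvd_antisymm (Subgroup.card_subgroup_dvd_card M) hdvd))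
    refine ⟨hp, ?_⟩
    obtain ⟨p, hpp, hGp⟩ := hp
    have hf : Fact p.Prime := ⟨hpp⟩
    intro L hL hLi
    by_contra hLt
    have hpA : ¬ p ∣ Nat.card A := by
      intro h
      have h1 : p ∣ Nat.card G := by
        obtain ⟨n, hn⟩ := IsPGroup.iff_card.1 hGp
        have hn0 : n ≠ 0 := by
          rintro rfl
          rw [pow_zero] at hn
          exact absurd (Finite.one_lt_card (α := G)) (by rw [hn]; exact lt_irrefl 1)
        rw [hn]; exact dvd_pow_self p hn0
      exact hpp.one_lt.ne' (Nat.Coprime.eq_one_of_dvd (Nat.Coprime.coprime_dvd_left h hcop) h1)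
    obtain ⟨K, hNK, hKi, hLK, hLK'⟩ := Maschke.exists_inv_compl_rel (A := A) (frattini G)
      (fun a x hx => char_inv _ a x hx)
      (Cfsg.Agent.Solv.commutator_le_frattini_of_pGroup hGp)
      (fun g => Cfsg.Agent.Solv.pow_mem_frattini_of_pGroup hGp g) hpA L hL.le hLi
    have hKt : K ≠ ⊤ := by
      rintro rfl
      rw [inf_top_eq] at hLK
      exact hL.ne hLK.symm
    -- uniqueness of the maximal invariant subgroup
    have huniq : ∀ N : Subgroup G, MaxInv A N → N = M := by
      intro N hN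
      obtain ⟨c, -, hc⟩ := hall M N hM hN
      have hMn : M.Normal := by
        refine ⟨fun n hn g => ?_⟩
        have h1 : g * n * g⁻¹ = ⁅g, n⁆ * n := by rw [commutatorElement_def]; group
        rw [h1]
        exact mul_mem (frattini_le_max M hM (Cfsg.Agent.Solv.commutator_le_frattini_of_pGroup hGp
          (commutator_mem_commutator (mem_top _) (mem_top _)))) hn
      rw [hc]
      exact Subgroup.Normal.conj_smul_eq_self c M
    obtain ⟨N1, hN1, hLN1⟩ := exists_max_inv (A := A) L hLt hLi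
    obtain ⟨N2, hN2, hKN2⟩ := exists_max_inv (A := A) K hKt hKi
    rw [huniq N1 hN1] at hLN1
    rw [huniq N2 hN2] at hKN2
    have := sup_le hLN1 hKN2
    rw [hLK', top_le_iff] at this
    exact hM.1 this
  · rintro ⟨-, h⟩ M N hM hN
    have h1 := (part2 h M).1 hM
    have h2 := (part2 h N).1 hN
    refine ⟨1, fun a => smul_one a, ?_⟩
    rw [h1.1, h2.1, map_one, one_smul]
  · rintro ⟨-, h⟩ M
    exact part2 h M

end Cfsg.Agent.S4381
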