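import Cfsg.Statements.S4387

set_option autoImplicit false
open Pointwise
open Cfsg

namespace Cfsg.Agent.S4387

/-- Let G be a non-trivial finite group in which any two maximal subgroups are conjugate. Then G is cyclic of prime-power order. -/
theorem result {G : Type*} [Group G] [Finite G] [Nontrivial G]
    (h : ∀ M N : Subgroup G, IsCoatom M → IsCoatom N → ∃ g : G, N = MulAut.conj g • M) :
    IsCyclic G ∧ IsPrimePow (Nat.card G) := by
  obtain ⟨M, hM, -⟩ := (eq_top_or_exists_le_coatom (⊥ : Subgroup G)).resolve_left bot_ne_top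
  -- G is a p-group
  have hp : ∃ p : ℕ, p.Prime ∧ IsPGroup p G := by
    by_contra hcon
    push Not at hcon
    apply hM.1
    apply Subgroup.eq_top_of_card_eq
    apply Nat.dvd_antisymm (Subgroup.card_subgroup_dvd_card M)
    rw [Nat.dvd_iff_prime_pow_dvd_dvd]
    intro p k hp hpk
    haveI := Fact.mk hp
    obtain ⟨P⟩ : Nonempty (Sylow p G) := inferInstance
    have hPne : (P : Subgroup G) ≠ ⊤ := by
      intro htop
      apply hcon p hp
      have := P.isPGroup'
      rw [htop] at this
      exact this.of_equiv Subgroup.topEquiv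
    obtain ⟨N, hN, hPN⟩ := (eq_top_or_exists_le_coatom (P : Subgroup G)).resolve_left hPne
    obtain ⟨g, hg⟩ := h M N hM hN
    have hcard : Nat.card N = Nat.card M := by
      rw [hg]
      exact Nat.card_congr (Subgroup.equivSMul (MulAut.conj g) M).symm.toEquiv
    rw [← hcard]
    have h1 : Nat.card P ∣ Nat.card N := Subgroup.card_dvd_of_le hPN
    have h2 : p ^ k ∣ Nat.card P := by
      rw [P.card_eq_multiplicity]
      exact pow_dvd_pow p ((hp.pow_dvd_iff_le_factorization Nat.card_pos.ne').mp hpk)
    exact h2.trans h1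
  obtain ⟨p, hp, hpG⟩ := hp
  haveI := Fact.mk hp
  have hnil := hpG.isNilpotent
  have hnorm : ∀ N : Subgroup G, IsCoatom N → N.Normal := fun N hN =>
    Subgroup.NormalizerCondition.normal_of_coatom N (Group.normalizerCondition_of_isNilpotent) hN
  have huniq : ∀ N : Subgroup G, IsCoatom N → N = M := by
    intro N hN
    obtain ⟨g, hg⟩ := h M N hM hN
    have := hnorm M hM
    rw [hg]
    exact Subgroup.Normal.conj_smul_eq_self g M
  constructor
  · obtain ⟨x, hx⟩ : ∃ x : G, x ∉ M := by
      by_contra hcon
      push Not at hcon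
      exact hM.1 (eq_top_iff.mpr fun y _ => hcon y)
    refine ⟨x, fun y => ?_⟩
    rcases eq_top_or_exists_le_coatom (Subgroup.zpowers x) with htop | ⟨N, hN, hxN⟩
    · have : y ∈ Subgroup.zpowers x := by rw [htop]; trivial
      exact this
    · exact absurd (huniq N hN ▸ hxN (Subgroup.mem_zpowers x)) hx
  · obtain ⟨n, hn⟩ := IsPGroup.iff_card.mp hpG
    rw [hn]
    have : n ≠ 0 := by
      rintro rfl
      have h1 := Finite.one_lt_card (α := G)
      rw [hn, pow_zero] at h1
      exact lt_irrefl _ h1
    exact hp.isPrimePow.pow this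

end Cfsg.Agent.S4387
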