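import Cfsg.Statements.S4396
import Cfsg.Agent.H14.FF7
-- import your own Cfsg.Agent.* helpers here

set_option autoImplicit false
open Cfsg
open scoped Pointwise

namespace Cfsg.Agent.S4396

/-- Let the finite group A act faithfully and linearly on a finite-dimensional vector space V over a field k, and suppose A is a Frobenius group with nilpotent kernel F (every Frobenius kernel is nilpotent) and complement H such that F fixes no nonzero vector. Then V is free as a module for H: there is a subspace W with V the direct sum of the translates hW, h ∈ H. (No assumption on the characteristic of k.) -/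
theorem result {k V A : Type*} [Field k] [AddCommGroup V] [Module k V] [FiniteDimensional k V] [Group A] [Finite A] [DecidableEq A]
    (ρ : Representation k A V) (hρ : Function.Injective ρ)
    (Fk Hc : Subgroup A) [Fk.Normal] (hHc : Cfsg.IsFrobeniusComplement Hc) (hker : Cfsg.frobeniusKernel Hc = (Fk : Set A)) (hnil : Group.IsNilpotent ↥Fk)
    (hCF : ∀ v : V, (∀ f ∈ Fk, ρ f v = v) → v = 0) :
    ∃ W : Submodule k V, DirectSum.IsInternal (fun h : ↥Hc => W.map (ρ (h : A))) := by
  classical
  have hfr : ∀ h : Hc, h ≠ 1 → ∀ z : Fk, (h : A) * z * (h : A)⁻¹ = z → z = 1 := by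
    intro h hh z hz
    by_contra hz1
    obtain ⟨-, -, htriv⟩ := hHc
    have h1 : (z : A) ∈ Cfsg.frobeniusKernel Hc := by rw [hker]; exact z.2
    rcases h1 with h1 | h1
    · exact hz1 (Subtype.ext h1)
    · have hzH : (z : A) ∉ Hc := by
        intro hzH
        apply h1 1
        rw [map_one, one_smul]
        exact hzH
      have h2 := htriv (z : A) hzH
      apply hh
      apply Subtype.ext
      have h3 : (h : A) ∈ Hc ⊓ (MulAut.conj (z : A) • Hc) := by
        refine Subgroup.mem_inf.2 ⟨h.2, ?_⟩
        rw [Subgroup.mem_pointwise_smul_iff_inv_smul_mem]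
        have h4 : (MulAut.conj (z : A))⁻¹ • (h : A) = h := by
          rw [← map_inv, MulAut.smul_def, MulAut.conj_apply, inv_inv]
          have h5 : (h : A) * z = z * h := mul_inv_eq_iff_eq_mul.1 hz
          rw [mul_assoc, h5, inv_mul_cancel_left]
        rw [h4]
        exact h.2
      rw [h2, Subgroup.mem_bot] at h3
      exact h3
  obtain ⟨W, hW1, hW2⟩ := Cfsg.Agent.H14.FF.PU_general (ρ.comp Hc.subtype) (ρ.comp Fk.subtype)
    ((MulAut.conjNormal : A →* MulAut Fk).comp Hc.subtype)
    (by
      intro h z v
      change ρ (h : A) (ρ (z : A) v) = ρ ((MulAut.conjNormal (h : A) z : Fk) : A) (ρ (h : A) v)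
      rw [MulAut.conjNormal_apply, ← Module.End.mul_apply, ← Module.End.mul_apply, ← map_mul, ← map_mul]
      congr 2
      group)
    (by
      intro h hh z hz
      apply hfr h hh z
      have h1 := congrArg (fun z : Fk => (z : A)) hz
      beta_reduce at h1
      rw [MonoidHom.comp_apply, MulAut.conjNormal_apply] at h1
      exact h1)
    (by
      intro v hv
      exact hCF v fun f hf => hv ⟨f, hf⟩)
  refine ⟨W, ?_⟩
  have hinj : ∀ h : A, Function.Injective (ρ h) := by
    intro h v w hvw
    have : ρ h⁻¹ (ρ h v) = ρ h⁻¹ (ρ h w) := by rw [hvw]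
    rw [← Module.End.mul_apply, ← Module.End.mul_apply, ← map_mul, inv_mul_cancel, map_one] at this
    exact this
  have hsurj : Function.Surjective (DirectSum.coeLinearMap (fun h : ↥Hc => W.map (ρ (h : A)))) := by
    rw [← LinearMap.range_eq_top, DirectSum.range_coeLinearMap]
    exact hW1
  have hfr2 : Module.finrank k (DirectSum Hc (fun h : ↥Hc => W.map (ρ (h : A)))) = Module.finrank k V := by
    have i0 : Fintype Hc := Fintype.ofFinite _
    rw [Module.finrank_directSum, finrank_top] at *
    rw [← hW2, Nat.card_eq_fintype_card, ← Finset.card_univ, ← smul_eq_mul, ← Finset.sum_const]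
    refine Finset.sum_congr rfl fun h _ => ?_
    exact (Submodule.equivMapOfInjective (ρ (h : A)) (hinj h) W).finrank_eq.symm
  exact ⟨(LinearMap.injective_iff_surjective_of_finrank_eq_finrank hfr2).2 hsurj, hsurj⟩

end Cfsg.Agent.S4396
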