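import Cfsg.Statements.S4398
import Cfsg.Agent.H73.Sec
import Cfsg.Agent.H73.PBasic
import Cfsg.Agent.S4399

set_option autoImplicit false
open Cfsg

namespace Cfsg.Agent.S4398

open Subgroup
open Cfsg.Agent.H73
open scoped commutatorElement

universe u

theorem index_centralizer_le {S : Type u} [Group S] [Finite S] (a : S) :
    (centralizer ({a} : Set S)).index ≤ Nat.card (commutator S) := by
  let f : S ⧸ centralizer ({a} : Set S) → commutator S := fun q =>
    ⟨⁅Quotient.out q, a⁆, Subgroup.commutator_mem_commutator (mem_top _) (mem_top _)⟩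
  refine Nat.card_le_card_of_injective f ?_
  intro q r h
  have h1 : ⁅Quotient.out q, a⁆ = ⁅Quotient.out r, a⁆ := congrArg Subtype.val h
  rw [commutatorElement_def, commutatorElement_def] at h1
  have h2 := mul_right_cancel h1
  rw [← QuotientGroup.out_eq' q, ← QuotientGroup.out_eq' r, QuotientGroup.eq,
    mem_centralizer_singleton_iff]
  have h3 : (Quotient.out q) * a * (Quotient.out q)⁻¹ = (Quotient.out r) * a * (Quotient.out r)⁻¹ := h2
  have h4 : a * ((Quotient.out q)⁻¹ * Quotient.out r) = (Quotient.out q)⁻¹ * Quotient.out r * a := by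
    have : a = (Quotient.out q)⁻¹ * ((Quotient.out r) * a * (Quotient.out r)⁻¹) * (Quotient.out q) := by
      rw [← h3]; group
    calc a * ((Quotient.out q)⁻¹ * Quotient.out r)
        = (Quotient.out q)⁻¹ * ((Quotient.out r) * a * (Quotient.out r)⁻¹) * (Quotient.out q) * ((Quotient.out q)⁻¹ * Quotient.out r) := by
          rw [← this]
      _ = _ := by group
  exact h4.symm

theorem card_lt {S : Type u} [Group S] [Finite S] {A B : Subgroup S} (h : A < B) :
    Nat.card A < Nat.card B := by
  refine lt_of_le_of_ne (Nat.le_of_dvd Nat.card_pos (Subgroup.card_dvd_of_le h.le)) ?_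
  intro h1
  exact h.ne (Subgroup.eq_of_le_of_card_ge h.le h1.ge)

/-- The case of a nonabelian subgroup of order 8 and index 2. -/
theorem order16 {S : Type u} [Group S] [Finite S] (h2 : IsPGroup 2 S) (hr : Cfsg.SectionalPRankLE 2 2 S)
    (M : Subgroup S) (hM8 : Nat.card M = 8) (hMi : M.index = 2) (hMc : (commutator M).index = 4) :
    (commutator S).index = 4 := by
  have hf : Fact (Nat.Prime 2) := ⟨Nat.prime_two⟩
  have hMn : M.Normal := Subgroup.normal_of_index_eq_two hMi
  have hMp : IsPGroup 2 M := h2.to_subgroup M
  have hS : Nat.card S = 16 := by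
    rw [← M.card_mul_index, hM8, hMi]
  have hM' : Nat.card (commutator M) = 2 := by
    have := (commutator M).card_mul_index
    rw [hMc, hM8] at this; omega
  have hna : ¬ IsMulCommutative M := by
    intro h
    have : commutator M = ⊥ := by
      rw [commutator_eq_bot_iff_center_eq_top, eq_top_iff]
      intro x _
      rw [mem_center_iff]
      intro y
      exact h.is_comm.comm y x
    rw [this, card_bot] at hM'
    omega
  obtain ⟨a, b, hab⟩ : ∃ a b : M, a * b ≠ b * a := by
    by_contra h
    push Not at h
    exact hna ⟨⟨h⟩⟩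
  set Z : Subgroup S := (commutator M).map M.subtype with hZ
  have hZn : Z.Normal := inferInstance
  have hZc : Nat.card Z = 2 := by
    rw [hZ, Subgroup.card_map_of_injective M.subtype_injective, hM']
  have hZS : Z ≤ commutator S := by
    rw [hZ, commutator_def, Subgroup.map_commutator]
    exact Subgroup.commutator_mono le_top le_top
  have hZcen : Z ≤ center S := H63.le_center_of_card_eq_prime (p := 2) h2 Z hZc
  have hSna : ¬ IsMulCommutative S := fun h => hab (Subtype.ext (h.is_comm.comm _ _))
  by_contra hidx
  have hidxdvd : (commutator S).index ∣ 8 := by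
    have h1 := (commutator S).card_mul_index
    have h3 : 2 ∣ Nat.card (commutator S) := by
      rw [← hZc]; exact Subgroup.card_dvd_of_le hZS
    obtain ⟨k, hk⟩ := h3
    rw [hS, hk] at h1
    exact ⟨k, by nlinarith⟩
  have hidxge : 4 ≤ (commutator S).index := by
    have h1 := PBasic.sq_le_index_frattini h2 hSna
    have h3 : (frattini S).index ≤ (commutator S).index :=
      Nat.le_of_dvd (Nat.pos_of_ne_zero Subgroup.index_ne_zero_of_finite)
        (Subgroup.index_dvd_of_le (Cfsg.Agent.Solv.commutator_le_frattini_of_pGroup h2))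
    omega
  have hidx8 : (commutator S).index = 8 := by
    have : (commutator S).index ∈ Nat.divisors 8 := Nat.mem_divisors.2 ⟨hidxdvd, by norm_num⟩
    have h3 : Nat.divisors 8 = {1, 2, 4, 8} := by decide
    rw [h3] at this
    simp only [Finset.mem_insert, Finset.mem_singleton] at this
    omega
  have hS' : Nat.card (commutator S) = 2 := by
    have h1 := (commutator S).card_mul_index
    rw [hidx8, hS] at h1; omega
  have hSZ : commutator S = Z := (Subgroup.eq_of_le_of_card_ge hZS (by rw [hS', hZc])).symm
  -- the centralizers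
  set A : Subgroup S := centralizer ({(a : S)} : Set S) ⊓ centralizer ({(b : S)} : Set S) with hA
  have hAi : A.index ≤ 4 := by
    have h1 := Subgroup.index_inf_le (H := centralizer ({(a : S)} : Set S)) (K := centralizer ({(b : S)} : Set S))
    have h3 := index_centralizer_le (a : S)
    have h4 := index_centralizer_le (b : S)
    rw [hS'] at h3 h4
    calc A.index ≤ _ := h1
      _ ≤ 2 * 2 := Nat.mul_le_mul h3 h4
  have hA4 : 4 ≤ Nat.card A := by
    have h1 := A.card_mul_index
    rw [hS] at h1
    nlinarith
  have hZA : Z ≤ A := hZcen.trans (le_inf (Subgroup.center_le_centralizer _) (Subgroup.center_le_centralizer _))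
  -- A ∩ M
  have hAM : Nat.card (A ⊓ M : Subgroup S) ≤ 2 := by
    have haM : (a : S) ∈ centralizer ({(a : S)} : Set S) ⊓ M := ⟨mem_centralizer_singleton_iff.2 rfl, a.2⟩
    have hbM : (b : S) ∈ centralizer ({(b : S)} : Set S) ⊓ M := ⟨mem_centralizer_singleton_iff.2 rfl, b.2⟩
    have hbA : (b : S) ∉ centralizer ({(a : S)} : Set S) := by
      rw [mem_centralizer_singleton_iff]
      intro h
      exact hab (Subtype.ext h.symm)
    have haB : (a : S) ∉ centralizer ({(b : S)} : Set S) := by
      rw [mem_centralizer_singleton_iff]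
      intro h
      exact hab (Subtype.ext h)
    set CA := centralizer ({(a : S)} : Set S) ⊓ M with hCA
    have h1 : A ⊓ M < CA := by
      refine lt_of_le_of_ne (inf_le_inf_right M inf_le_left) ?_
      intro h
      have : (a : S) ∈ A ⊓ M := by rw [h]; exact haM
      exact haB this.1.2
    have h3 : CA < M := by
      refine lt_of_le_of_ne inf_le_right ?_
      intro h
      have : (b : S) ∈ CA := by rw [h]; exact b.2
      exact hbA this.1
    have h4 : Nat.card CA ∣ 8 := by rw [← hM8]; exact Subgroup.card_dvd_of_le h3.le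
    have h5 : Nat.card CA < 8 := by rw [← hM8]; exact card_lt h3 
    have h6 : Nat.card (A ⊓ M : Subgroup S) ∣ Nat.card CA := Subgroup.card_dvd_of_le h1.le
    have h7 : Nat.card (A ⊓ M : Subgroup S) < Nat.card CA := card_lt h1
    have h8 : Nat.card CA ≤ 4 := by
      have : Nat.card CA ∈ Nat.divisors 8 := Nat.mem_divisors.2 ⟨h4, by norm_num⟩
      have h3 : Nat.divisors 8 = {1, 2, 4, 8} := by decide
      rw [h3] at this
      simp only [Finset.mem_insert, Finset.mem_singleton] at this
      omega
    obtain ⟨k, hk⟩ := h6
    have hpos : 0 < Nat.card (A ⊓ M : Subgroup S) := Nat.card_pos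
    rw [hk] at h7 h8
    have hk2 : 2 ≤ k := by
      by_contra hk
      have : k ≤ 1 := by omega
      nlinarith
    nlinarith
  have hAMZ : A ⊓ M = Z := by
    symm
    apply Subgroup.eq_of_le_of_card_ge (le_inf hZA (Subgroup.map_subtype_le _))
    rw [hZc]; exact hAM
  obtain ⟨c, hcA, hcM⟩ : ∃ c ∈ A, c ∉ M := by
    by_contra h
    push Not at h
    have : A ⊓ M = A := inf_eq_left.2 h
    rw [this] at hAM
    omega
  have hc2 : c ^ 2 ∈ Z := by
    rw [← hAMZ]
    refine ⟨A.pow_mem hcA 2, ?_⟩
    have := M.pow_index_mem c
    rwa [hMi] at this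
  have hcomm : ∀ x y : S, x * y * x⁻¹ * y⁻¹ ∈ Z := by
    intro x y
    rw [← hSZ]
    exact Subgroup.commutator_mem_commutator (mem_top x) (mem_top y)
  have hm2 : ∀ m ∈ M, m ^ 2 ∈ Z := by
    intro m hm
    have h1 := Cfsg.Agent.Solv.pow_mem_frattini_of_pGroup hMp ⟨m, hm⟩
    have h3 : commutator M = frattini M := by
      apply Subgroup.eq_of_le_of_card_ge (Cfsg.Agent.Solv.commutator_le_frattini_of_pGroup hMp)
      have h4 := PBasic.sq_le_index_frattini hMp hna
      have h5 := (frattini M).card_mul_index
      rw [hM8] at h5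
      rw [hM']
      nlinarith
    rw [← h3] at h1
    exact ⟨_, h1, rfl⟩
  have hrel := Sec.relIndex_le hr ⊤ Z le_top (fun x _ y _ => hcomm x y) ?_
  · rw [relIndex_top_right] at hrel
    have h1 := Z.card_mul_index
    rw [hZc, hS] at h1
    omega
  · intro x _
    by_cases hx : x ∈ M
    · exact hm2 x hx
    · have h1 : x * c ∈ M := (Subgroup.mul_mem_iff_of_index_two hMi).2 (by tauto)
      have h3 := hm2 _ h1
      have h4 : x ^ 2 = (x * c) ^ 2 * ((c⁻¹ * x⁻¹ * c * x)) * (x⁻¹ * (c ^ 2)⁻¹ * x) := by
        rw [pow_two, pow_two, pow_two]; group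
      rw [h4]
      have h5 := hcomm c⁻¹ x⁻¹
      rw [inv_inv, inv_inv] at h5
      refine mul_mem (mul_mem h3 h5) ?_
      have := hZn.conj_mem _ (inv_mem hc2) x⁻¹
      rwa [inv_inv] at this

theorem index_commutator_of_surjective {G H : Type*} [Group G] [Group H] [Finite G]
    (f : G →* H) (hf : Function.Surjective f) (hk : f.ker ≤ commutator G) :
    (commutator H).index = (commutator G).index := by
  have h1 : commutator H = (commutator G).map f := by
    rw [commutator_def, commutator_def, Subgroup.map_commutator,
      Subgroup.map_top_of_surjective _ hf]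
  rw [h1, Subgroup.index_map_eq _ hf hk]

/-- The main induction. -/
theorem main (n : ℕ) : ∀ (S : Type u) [Group S] [Finite S], Nat.card S = n → IsPGroup 2 S →
    Cfsg.SectionalPRankLE 2 2 S → ∀ M : Subgroup S, 8 ≤ Nat.card M → (commutator M).index = 4 →
    (commutator S).index = 4 := by
  induction n using Nat.strong_induction_on with
  | _ n ih =>
  intro S _ _ hS h2 hr M hM8 hMc
  have hf : Fact (Nat.Prime 2) := ⟨Nat.prime_two⟩
  rcases eq_top_or_exists_le_coatom M with hMt | ⟨K, hK, hMK⟩
  · subst hMt
    rw [← hMc]
    refine index_commutator_of_surjective (Subgroup.topEquiv (G := S)).toMonoidHom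
      (Subgroup.topEquiv (G := S)).surjective ?_
    rw [(MonoidHom.ker_eq_bot_iff _).2 (Subgroup.topEquiv (G := S)).injective]
    exact bot_le
  · obtain ⟨hKn, hKi⟩ := Cfsg.Agent.Solv.coatom_of_pGroup h2 K hK
    have hKS := K.card_mul_index
    rw [hKi] at hKS
    have hKp : IsPGroup 2 K := h2.to_subgroup K
    have hKlt : Nat.card K < n := by rw [← hS]; have := Nat.card_pos (α := K); omega
    have hKc : (commutator K).index = 4 := by
      refine ih (Nat.card K) hKlt K rfl hKp (Sec.mono hr K) (M.subgroupOf K) ?_ ?_
      · rw [Nat.card_congr (subgroupOfEquivOfLe hMK).toEquiv]; exact hM8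
      · rw [← hMc]
        refine index_commutator_of_surjective (subgroupOfEquivOfLe hMK).symm.toMonoidHom
          (subgroupOfEquivOfLe hMK).symm.surjective ?_
        rw [(MonoidHom.ker_eq_bot_iff _).2 (subgroupOfEquivOfLe hMK).symm.injective]
        exact bot_le
    obtain ⟨m, hm⟩ := IsPGroup.iff_card.1 hKp
    have hK8 : 8 ≤ Nat.card K := hM8.trans (Nat.le_of_dvd Nat.card_pos (Subgroup.card_dvd_of_le hMK))
    have hm3 : 3 ≤ m := by
      by_contra h
      have : m ≤ 2 := by omega
      have := Nat.pow_le_pow_right (n := 2) (by norm_num) this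
      omega
    by_cases hm4 : m = 3
    · rw [hm4] at hm
      exact order16 h2 hr K (by rw [hm]; norm_num) hKi hKc
    · obtain ⟨e⟩ := Cfsg.Agent.MaxClass.center_quotient_dihedral hm3 hm hKc
      have hZc : Nat.card (center K) = 2 := by
        have h1 := Nat.card_congr e.toEquiv
        rw [DihedralGroup.nat_card] at h1
        have h3 := Subgroup.card_eq_card_quotient_mul_card_subgroup (center K)
        rw [h1, hm] at h3
        have h4 : 2 ^ m = 2 * 2 ^ (m - 2) * 2 := by
          rw [← pow_succ', ← pow_succ]; congr 1; omega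
        rw [h4] at h3
        exact (Nat.eq_of_mul_eq_mul_left (by positivity) h3).symm
      have hna : ¬ IsMulCommutative K := by
        intro h
        have : center K = ⊤ := by
          rw [eq_top_iff]
          intro x _
          rw [mem_center_iff]
          intro y
          exact h.is_comm.comm y x
        rw [this, card_top] at hZc
        omega
      have hZK : center K ≤ commutator K := PBasic.center_le_commutator hKp hna hZc
      set Z : Subgroup S := (center K).map K.subtype with hZ
      have hZn : Z.Normal := inferInstance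
      have hZ2 : Nat.card Z = 2 := by
        rw [hZ, Subgroup.card_map_of_injective K.subtype_injective, hZc]
      have hZS : Z ≤ commutator S := by
        refine (Subgroup.map_mono hZK).trans ?_
        rw [commutator_def, Subgroup.map_commutator]
        exact Subgroup.commutator_mono le_top le_top
      have hZleK : Z ≤ K := Subgroup.map_subtype_le _
      have hq := Subgroup.card_eq_card_quotient_mul_card_subgroup Z
      rw [hZ2, hS] at hq
      have hpos : 0 < Nat.card (S ⧸ Z) := Nat.card_pos
      have h1 := ih (Nat.card (S ⧸ Z)) (by omega) (S ⧸ Z) rfl (h2.to_quotient Z) (Sec.quot hr Z)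
        (K.map (QuotientGroup.mk' Z)) ?_ ?_
      · rw [← h1]
        symm
        refine index_commutator_of_surjective (QuotientGroup.mk' Z) (QuotientGroup.mk'_surjective Z) ?_
        rw [QuotientGroup.ker_mk']; exact hZS
      · have h3 := (K.map (QuotientGroup.mk' Z)).card_mul_index
        rw [Subgroup.index_map_eq _ (QuotientGroup.mk'_surjective Z) (by rw [QuotientGroup.ker_mk']; exact hZleK), hKi] at h3
        have h5 : 2 ^ 4 ≤ 2 ^ m := Nat.pow_le_pow_right (by norm_num) (by omega)
        rw [← hm] at h5
        omega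
      · rw [← hKc]
        refine index_commutator_of_surjective ((QuotientGroup.mk' Z).subgroupMap K)
          ((QuotientGroup.mk' Z).subgroupMap_surjective K) ?_
        refine le_trans ?_ hZK
        rintro x hx
        rw [MonoidHom.mem_ker] at hx
        have h3 : (QuotientGroup.mk' Z) (x : S) = 1 := congrArg Subtype.val hx
        rw [QuotientGroup.mk'_apply, QuotientGroup.eq_one_iff] at h3
        obtain ⟨y, hy, hyx⟩ := h3
        have : y = x := Subtype.ext hyx
        rw [← this]; exact hy

/-- nonabelian groups of order 8 -/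
theorem index_commutator_eight {H : Type*} [Group H] [Finite H] (h8 : Nat.card H = 8)
    (hna : ¬ IsMulCommutative H) : (commutator H).index = 4 := by
  have hf : Fact (Nat.Prime 2) := ⟨Nat.prime_two⟩
  have hp : IsPGroup 2 H := IsPGroup.of_card (n := 3) (by rw [h8]; norm_num)
  have hidxge : 4 ≤ (commutator H).index := by
    have h1 := PBasic.sq_le_index_frattini hp hna
    have h3 : (frattini H).index ≤ (commutator H).index :=
      Nat.le_of_dvd (Nat.pos_of_ne_zero Subgroup.index_ne_zero_of_finite)
        (Subgroup.index_dvd_of_le (Cfsg.Agent.Solv.commutator_le_frattini_of_pGroup hp))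
    omega
  have hdvd : (commutator H).index ∣ 8 := by rw [← h8]; exact Subgroup.index_dvd_card _
  have : (commutator H).index ∈ Nat.divisors 8 := Nat.mem_divisors.2 ⟨hdvd, by norm_num⟩
  have h3 : Nat.divisors 8 = {1, 2, 4, 8} := by decide
  rw [h3] at this
  simp only [Finset.mem_insert, Finset.mem_singleton] at this
  have h8' : (commutator H).index ≠ 8 := by
    intro h
    have h1 := (commutator H).card_mul_index
    rw [h, h8] at h1
    have h4 : Nat.card (commutator H) = 1 := by omega
    rw [Subgroup.card_eq_one, commutator_eq_bot_iff_center_eq_top] at h4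
    apply hna
    refine ⟨⟨fun a b => ?_⟩⟩
    have : a ∈ center H := by rw [h4]; trivial
    exact (mem_center_iff.mp this b).symm
  omega

/-- Let S be a finite 2-group of sectional 2-rank at most 2 that contains a subgroup isomorphic to the dihedral group of order 8 or to the quaternion group of order 8. Then S is dihedral of order at least 8, semidihedral of order at least 16 (order 2^(k+4) with an element a of order 2^(k+3) and an involution b with b a b⁻¹ = a^(2^(k+2)−1)), or generalized quaternion of order at least 8. -/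
theorem result {S : Type*} [Group S] [Finite S] (h2 : IsPGroup 2 S) (hr : Cfsg.SectionalPRankLE 2 2 S)
    (hsub : ∃ H : Subgroup S, Nonempty (↥H ≃* DihedralGroup 4) ∨ Nonempty (↥H ≃* QuaternionGroup 2)) :
    ((∃ k : ℕ, Nonempty (S ≃* DihedralGroup (2 ^ (k + 2)))) ∨
      (∃ k : ℕ, Nat.card S = 2 ^ (k + 4) ∧ ∃ a b : S, orderOf a = 2 ^ (k + 3) ∧ orderOf b = 2 ∧ b * a * b⁻¹ = a ^ (2 ^ (k + 2) - 1)) ∨
      (∃ k : ℕ, Nonempty (S ≃* QuaternionGroup (2 ^ (k + 1))))) := by
  have hf : Fact (Nat.Prime 2) := ⟨Nat.prime_two⟩
  obtain ⟨H, hH⟩ := hsub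
  have h8 : Nat.card H = 8 ∧ ¬ IsMulCommutative H := by
    rcases hH with ⟨⟨e⟩⟩ | ⟨⟨e⟩⟩
    · refine ⟨?_, fun h => ?_⟩
      · rw [Nat.card_congr e.toEquiv, DihedralGroup.nat_card]
      · have h1 := h.is_comm.comm (e.symm (DihedralGroup.r 1)) (e.symm (DihedralGroup.sr 0))
        rw [← map_mul, ← map_mul] at h1
        have h3 := e.symm.injective h1
        revert h3; decide
    · refine ⟨?_, fun h => ?_⟩
      · rw [Nat.card_congr e.toEquiv, Nat.card_eq_fintype_card, QuaternionGroup.card]
      · have h1 := h.is_comm.comm (e.symm (QuaternionGroup.a 1)) (e.symm (QuaternionGroup.xa 0))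
        rw [← map_mul, ← map_mul] at h1
        have h3 := e.symm.injective h1
        revert h3; decide
  have hidx := main (Nat.card S) S rfl h2 hr H (by omega) (index_commutator_eight h8.1 h8.2)
  obtain ⟨n, hn⟩ := IsPGroup.iff_card.mp h2
  have hn3 : 3 ≤ n := by
    by_contra h
    have : n ≤ 2 := by omega
    have := Nat.pow_le_pow_right (n := 2) (by norm_num) this
    have h3 := Nat.le_of_dvd Nat.card_pos (Subgroup.card_subgroup_dvd_card H)
    omega
  exact Cfsg.Agent.S4399.aux hn3 hn hidx

end Cfsg.Agent.S4398
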