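import Cfsg.Statements.S4400
import Cfsg.Agent.H73.Sec
import Cfsg.Agent.H73.PBasic

set_option autoImplicit false
open Cfsg

namespace Cfsg.Agent.S4400

open Subgroup
open Cfsg.Agent.H73
open scoped commutatorElement
open scoped Pointwise

/-- The image in `S` of the centre of a normal subgroup, of order 2, is central. -/
theorem centerMap_le {S : Type*} [Group S] [Finite S] (h2 : IsPGroup 2 S) (P : Subgroup S) [P.Normal]
    (hZP : Nat.card ↥(Subgroup.center ↥P) = 2) :
    (Subgroup.center ↥P).map P.subtype ≤ Subgroup.center S := by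
  have hf : Fact (Nat.Prime 2) := ⟨Nat.prime_two⟩
  have hn : ((Subgroup.center ↥P).map P.subtype).Normal := inferInstance
  refine H63.le_center_of_card_eq_prime (p := 2) h2 _ ?_
  rw [Subgroup.card_map_of_injective P.subtype_injective, hZP]

theorem centerMap_le_of_inf {S : Type*} [Group S] [Finite S] (h2 : IsPGroup 2 S) (P Q : Subgroup S)
    [P.Normal] [Q.Normal] (hZP : Nat.card ↥(Subgroup.center ↥P) = 2) (h : P ⊓ Q ≠ ⊥) :
    (Subgroup.center ↥P).map P.subtype ≤ Q := by
  have hf : Fact (Nat.Prime 2) := ⟨Nat.prime_two⟩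
  have hPp : IsPGroup 2 P := h2.to_subgroup P
  have hn : (Q.subgroupOf P).Normal := inferInstance
  have h1 : Q.subgroupOf P ≠ ⊥ := by
    intro h0
    rw [subgroupOf_eq_bot, disjoint_iff, inf_comm] at h0
    exact h h0
  have h3 := PBasic.center_le_of_normal hPp hZP (Q.subgroupOf P) h1
  rw [map_le_iff_le_comap]
  exact h3

theorem inf_eq_bot {S : Type*} [Group S] [Finite S] (h2 : IsPGroup 2 S)
    (P Q : Subgroup S) [P.Normal] [Q.Normal]
    (hZP : Nat.card ↥(Subgroup.center ↥P) = 2) (hZQ : Nat.card ↥(Subgroup.center ↥Q) = 2)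
    (hne : (Subgroup.center ↥P).map P.subtype ≠ (Subgroup.center ↥Q).map Q.subtype) :
    P ⊓ Q = ⊥ := by
  by_contra h
  have h1 := centerMap_le_of_inf h2 P Q hZP h
  have h3 := centerMap_le h2 P hZP
  apply hne
  have h4 : (Subgroup.center ↥P).map P.subtype ≤ (Subgroup.center ↥Q).map Q.subtype := by
    intro x hx
    refine ⟨⟨x, h1 hx⟩, ?_, rfl⟩
    rw [SetLike.mem_coe, mem_center_iff]
    intro y
    apply Subtype.ext
    exact (mem_center_iff.1 (h3 hx) y)
  refine Subgroup.eq_of_le_of_card_ge h4 ?_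
  rw [Subgroup.card_map_of_injective P.subtype_injective, Subgroup.card_map_of_injective Q.subtype_injective, hZP, hZQ]

/-- Let S be a finite 2-group of sectional 2-rank at most 4, and let P and Q be normal non-abelian subgroups of S whose centres have order 2 and are different. Then P and Q commute elementwise and intersect trivially, and PQ contains its own centralizer in S. -/
theorem result {S : Type*} [Group S] [Finite S] (h2 : IsPGroup 2 S) (hr : Cfsg.SectionalPRankLE 2 4 S)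
    (P Q : Subgroup S) [P.Normal] [Q.Normal] (hP : ¬ IsMulCommutative ↥P) (hQ : ¬ IsMulCommutative ↥Q)
    (hZP : Nat.card ↥(Subgroup.center ↥P) = 2) (hZQ : Nat.card ↥(Subgroup.center ↥Q) = 2)
    (hne : (Subgroup.center ↥P).map P.subtype ≠ (Subgroup.center ↥Q).map Q.subtype) :
    ⁅P, Q⁆ = ⊥ ∧ P ⊓ Q = ⊥ ∧ Subgroup.centralizer ((P ⊔ Q : Subgroup S) : Set S) ≤ P ⊔ Q := by
  have hf : Fact (Nat.Prime 2) := ⟨Nat.prime_two⟩
  have hPQ : P ⊓ Q = ⊥ := inf_eq_bot h2 P Q hZP hZQ hne
  have hcomm : ⁅P, Q⁆ = ⊥ := by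
    rw [eq_bot_iff, ← hPQ]
    exact Subgroup.commutator_le_inf P Q
  have hcm : ∀ x ∈ P, ∀ y ∈ Q, x * y = y * x := by
    intro x hx y hy
    have := Subgroup.commutator_mem_commutator hx hy
    rw [hcomm, mem_bot, commutatorElement_eq_one_iff_mul_comm] at this
    exact this
  refine ⟨hcomm, hPQ, ?_⟩
  by_contra hC
  obtain ⟨c, hc, hcN, hc2⟩ := PBasic.exists_pow_mem h2 _ _ hC
  have hPp : IsPGroup 2 P := h2.to_subgroup P
  have hQp : IsPGroup 2 Q := h2.to_subgroup Q
  set FP : Subgroup S := (frattini P).map P.subtype with hFP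
  set FQ : Subgroup S := (frattini Q).map Q.subtype with hFQ
  have hFPP : FP ≤ P := Subgroup.map_subtype_le _
  have hFQQ : FQ ≤ Q := Subgroup.map_subtype_le _
  have hcc : ∀ x ∈ P ⊔ Q, x * c = c * x := fun x hx => mem_centralizer_iff.1 hc x hx
  -- squares and commutators
  have hsqP : ∀ x ∈ P, x ^ 2 ∈ FP := fun x hx =>
    ⟨⟨x, hx⟩ ^ 2, Cfsg.Agent.Solv.pow_mem_frattini_of_pGroup hPp _, rfl⟩
  have hsqQ : ∀ x ∈ Q, x ^ 2 ∈ FQ := fun x hx =>
    ⟨⟨x, hx⟩ ^ 2, Cfsg.Agent.Solv.pow_mem_frattini_of_pGroup hQp _, rfl⟩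
  have hcmP : ∀ x ∈ P, ∀ y ∈ P, x * y * x⁻¹ * y⁻¹ ∈ FP := fun x hx y hy =>
    ⟨⁅(⟨x, hx⟩ : P), ⟨y, hy⟩⁆, Cfsg.Agent.Solv.commutator_le_frattini_of_pGroup hPp
      (Subgroup.commutator_mem_commutator (mem_top _) (mem_top _)), rfl⟩
  have hcmQ : ∀ x ∈ Q, ∀ y ∈ Q, x * y * x⁻¹ * y⁻¹ ∈ FQ := fun x hx y hy =>
    ⟨⁅(⟨x, hx⟩ : Q), ⟨y, hy⟩⁆, Cfsg.Agent.Solv.commutator_le_frattini_of_pGroup hQp
      (Subgroup.commutator_mem_commutator (mem_top _) (mem_top _)), rfl⟩
  have hZP' : (center P).map P.subtype ≤ FP :=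
    Subgroup.map_mono ((PBasic.center_le_commutator hPp hP hZP).trans
      (Cfsg.Agent.Solv.commutator_le_frattini_of_pGroup hPp))
  have hZQ' : (center Q).map Q.subtype ≤ FQ :=
    Subgroup.map_mono ((PBasic.center_le_commutator hQp hQ hZQ).trans
      (Cfsg.Agent.Solv.commutator_le_frattini_of_pGroup hQp))
  set L : Subgroup S := (P ⊔ Q) ⊔ zpowers c with hL
  set N : Subgroup S := FP ⊔ FQ with hN
  have hNL : N ≤ L := (sup_le_sup hFPP hFQQ).trans le_sup_left
  -- decomposition of elements of L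
  have hdec : ∀ x ∈ L, ∃ a ∈ P, ∃ b ∈ Q, ∃ i : ℤ, x = a * b * c ^ i := by
    intro x hx
    rw [hL, mem_sup_of_normal_left] at hx
    obtain ⟨y, hy, z, hz, rfl⟩ := hx
    rw [mem_sup_of_normal_left] at hy
    obtain ⟨a, ha, b, hb, rfl⟩ := hy
    obtain ⟨i, rfl⟩ := mem_zpowers_iff.1 hz
    exact ⟨a, ha, b, hb, i, rfl⟩
  have hc2N : c ^ 2 ∈ N := by
    rw [mem_sup_of_normal_left] at hc2
    obtain ⟨a, ha, b, hb, hab⟩ := hc2
    have hac : a ∈ (center P).map P.subtype := by
      refine ⟨⟨a, ha⟩, ?_, rfl⟩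
      rw [SetLike.mem_coe, mem_center_iff]
      rintro ⟨x, hx⟩
      apply Subtype.ext
      show x * a = a * x
      have h1 : x * c = c * x := hcc x (mem_sup_left hx)
      have h3 : x * c ^ 2 = c ^ 2 * x := by
        rw [pow_two, ← mul_assoc, h1, mul_assoc, h1, mul_assoc]
      rw [← hab] at h3
      have h4 : x * b = b * x := hcm x hx b hb
      have h5 : x * a * b = a * x * b := by
        rw [mul_assoc x a b, h3, mul_assoc, mul_assoc, h4]
      exact mul_right_cancel h5
    have hbc : b ∈ (center Q).map Q.subtype := by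
      refine ⟨⟨b, hb⟩, ?_, rfl⟩
      rw [SetLike.mem_coe, mem_center_iff]
      rintro ⟨x, hx⟩
      apply Subtype.ext
      show x * b = b * x
      have h1 : x * c = c * x := hcc x (mem_sup_right hx)
      have h3 : x * c ^ 2 = c ^ 2 * x := by
        rw [pow_two, ← mul_assoc, h1, mul_assoc, h1, mul_assoc]
      rw [← hab] at h3
      have h4 : a * x = x * a := hcm a ha x hx
      have h5 : a * (x * b) = a * (b * x) := by
        rw [← mul_assoc, h4, mul_assoc, h3, mul_assoc]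
      exact mul_left_cancel h5
    rw [← hab]
    exact mul_mem (mem_sup_left (hZP' hac)) (mem_sup_right (hZQ' hbc))
  have hrel := Sec.relIndex_le hr L N hNL ?_ ?_
  · -- counting
    have hcardL : Nat.card N * N.relIndex L = Nat.card L := H63.card_mul_relIndex hNL
    have hL2 : 2 * Nat.card (P ⊔ Q : Subgroup S) ≤ Nat.card L := by
      have h1 : Nat.card (P ⊔ Q : Subgroup S) * (P ⊔ Q).relIndex L = Nat.card L :=
        H63.card_mul_relIndex le_sup_left
      have h3 : (P ⊔ Q).relIndex L ≠ 1 := by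
        rw [Ne, relIndex_eq_one]
        intro h
        exact hcN (h (mem_sup_right (mem_zpowers c)))
      have h4 : (P ⊔ Q).relIndex L ≠ 0 := by
        intro h0
        rw [h0, mul_zero] at h1
        exact Nat.card_pos.ne h1
      rw [← h1, mul_comm]
      exact Nat.mul_le_mul_left _ (by omega)
    have hPQc : Nat.card (P ⊔ Q : Subgroup S) = Nat.card P * Nat.card Q := by
      have h1 := Cfsg.Agent.Solv.mul_card_sup_of_normal P Q
      rw [hPQ, card_bot, mul_one] at h1
      exact h1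
    have hNc : Nat.card N ≤ Nat.card FP * Nat.card FQ := by
      have h1 := H63.card_mul_set FP FQ
      have h3 : FP ⊓ FQ = ⊥ := by
        rw [eq_bot_iff, ← hPQ]; exact inf_le_inf hFPP hFQQ
      rw [h3, card_bot, mul_one] at h1
      rw [← h1]
      have h4 : ((FP ⊔ FQ : Subgroup S) : Set S) = (FP : Set S) * (FQ : Set S) := by
        ext x
        constructor
        · intro hx
          rw [SetLike.mem_coe] at hx
          rw [mem_sup_of_normal_left] at hx
          obtain ⟨y, hy, z, hz, rfl⟩ := hx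
          exact ⟨y, hy, z, hz, rfl⟩
        · rintro ⟨y, hy, z, hz, rfl⟩
          exact mul_mem (mem_sup_left hy) (mem_sup_right hz)
      exact (Nat.card_congr (Equiv.setCongr h4)).le
    have hPc : Nat.card FP * 2 ^ 2 ≤ Nat.card P := by
      have h1 := Subgroup.card_mul_index (frattini P)
      have h3 := PBasic.sq_le_index_frattini hPp hP
      rw [hFP, Subgroup.card_map_of_injective P.subtype_injective, ← h1]
      exact Nat.mul_le_mul_left _ h3
    have hQc : Nat.card FQ * 2 ^ 2 ≤ Nat.card Q := by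
      have h1 := Subgroup.card_mul_index (frattini Q)
      have h3 := PBasic.sq_le_index_frattini hQp hQ
      rw [hFQ, Subgroup.card_map_of_injective Q.subtype_injective, ← h1]
      exact Nat.mul_le_mul_left _ h3
    have hmul : (Nat.card FP * 2 ^ 2) * (Nat.card FQ * 2 ^ 2) ≤ Nat.card P * Nat.card Q :=
      Nat.mul_le_mul hPc hQc
    have hpos : 0 < Nat.card FP * Nat.card FQ := Nat.mul_pos Nat.card_pos Nat.card_pos
    have hfin : Nat.card L ≤ (Nat.card FP * Nat.card FQ) * 2 ^ 4 := by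
      rw [← hcardL]; exact Nat.mul_le_mul hNc hrel
    rw [hPQc] at hL2
    nlinarith
  · intro x hx y hy
    obtain ⟨a, ha, b, hb, i, rfl⟩ := hdec x hx
    obtain ⟨a', ha', b', hb', j, rfl⟩ := hdec y hy
    have hcz : ∀ z ∈ P ⊔ Q, ∀ i : ℤ, c ^ i * z = z * c ^ i := by
      intro z hz i
      exact ((show Commute z c from hcc z hz).zpow_right i).eq.symm
    have e1 : a * b * c ^ i * (a' * b' * c ^ j) * (a * b * c ^ i)⁻¹ * (a' * b' * c ^ j)⁻¹ =
        (a * a' * a⁻¹ * a'⁻¹) * (b * b' * b⁻¹ * b'⁻¹) := by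
      have hab := mul_mem (mem_sup_left (T := Q) ha) (mem_sup_right (S := P) hb)
      have hab' := mul_mem (mem_sup_left (T := Q) ha') (mem_sup_right (S := P) hb')
      have e2 : a * b * c ^ i * (a' * b' * c ^ j) * (a * b * c ^ i)⁻¹ * (a' * b' * c ^ j)⁻¹ =
        (a * b) * (a' * b') * (a * b)⁻¹ * (a' * b')⁻¹ := by
        have k1 := hcz _ hab' i
        have k2 := hcz _ (inv_mem hab) j
        have k3 := hcz _ (inv_mem hab') (-j)
        calc _ = (a * b) * (c ^ i * (a' * b')) * c ^ j * c ^ (-i) * (a * b)⁻¹ * (c ^ (-j) * (a' * b')⁻¹) := by group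
          _ = (a * b) * ((a' * b') * c ^ i) * c ^ j * c ^ (-i) * (a * b)⁻¹ * ((a' * b')⁻¹ * c ^ (-j)) := by rw [k1, k3]
          _ = (a * b) * (a' * b') * (c ^ j * (a * b)⁻¹) * (a' * b')⁻¹ * c ^ (-j) := by group
          _ = (a * b) * (a' * b') * (a * b)⁻¹ * (c ^ j * (a' * b')⁻¹) * c ^ (-j) := by rw [k2]; group
          _ = _ := by rw [hcz _ (inv_mem hab') j]; group
      rw [e2]
      have k1 := hcm _ ha' _ hb
      have k2 := hcm _ (inv_mem ha) _ (inv_mem hb)
      have k3 := hcm _ (inv_mem ha) _ hb'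
      have k4 := hcm _ (inv_mem ha') _ (inv_mem hb')
      have k5 := hcm _ (inv_mem ha') _ (mul_mem (mul_mem hb hb') (inv_mem hb))
      have k6 := hcm _ (inv_mem ha) _ (mul_mem hb hb')
      calc _ = a * (b * a') * b' * (b⁻¹ * a⁻¹) * (b'⁻¹ * a'⁻¹) := by group
        _ = a * (a' * b) * b' * (a⁻¹ * b⁻¹) * (a'⁻¹ * b'⁻¹) := by rw [k1, k2, k4]
        _ = a * a' * ((b * b') * a⁻¹) * b⁻¹ * a'⁻¹ * b'⁻¹ := by group
        _ = a * a' * a⁻¹ * ((b * b' * b⁻¹) * a'⁻¹) * b'⁻¹ := by rw [← k6]; group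
        _ = _ := by rw [← k5]; group
    rw [e1]
    exact mul_mem (mem_sup_left (hcmP a ha a' ha')) (mem_sup_right (hcmQ b hb b' hb'))
  · intro x hx
    obtain ⟨a, ha, b, hb, i, rfl⟩ := hdec x hx
    have hab := mul_mem (mem_sup_left (T := Q) ha) (mem_sup_right (S := P) hb)
    have h1 : Commute (a * b) (c ^ i) := (show Commute (a * b) c from hcc _ hab).zpow_right i
    have h3 : Commute a b := hcm a ha b hb
    rw [h1.mul_pow, h3.mul_pow]
    refine mul_mem (mul_mem (mem_sup_left (hsqP a ha)) (mem_sup_right (hsqQ b hb))) ?_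
    rw [← zpow_natCast, ← zpow_mul, mul_comm, zpow_mul]
    exact N.zpow_mem (by exact_mod_cast hc2N) i

end Cfsg.Agent.S4400
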