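import Cfsg.Statements.S4401
import Cfsg.Agent.H73.Sec2
import Cfsg.Agent.S4400

set_option autoImplicit false
open Cfsg

namespace Cfsg.Agent.S4401

open Subgroup
open Cfsg.Agent.H73
open scoped commutatorElement Pointwise

theorem mem_centerMap {S : Type*} [Group S] (P : Subgroup S) (x : S) :
    x ∈ (Subgroup.center ↥P).map P.subtype ↔ x ∈ P ∧ ∀ y ∈ P, y * x = x * y := by
  constructor
  · rintro ⟨z, hz, rfl⟩
    refine ⟨z.2, fun y hy => ?_⟩
    exact congrArg Subtype.val (mem_center_iff.1 hz ⟨y, hy⟩)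
  · rintro ⟨hx, h⟩
    exact ⟨⟨x, hx⟩, mem_center_iff.2 fun y => Subtype.ext (h y y.2), rfl⟩

/-- Relative version of S4400. -/
theorem rel {S : Type*} [Group S] [Finite S] (h2 : IsPGroup 2 S) (hr : Cfsg.SectionalPRankLE 2 4 S)
    (S₀ P Q : Subgroup S) (hPS : P ≤ S₀) (hQS : Q ≤ S₀)
    (hPn : ∀ s ∈ S₀, ∀ x ∈ P, s * x * s⁻¹ ∈ P) (hQn : ∀ s ∈ S₀, ∀ x ∈ Q, s * x * s⁻¹ ∈ Q)
    (hP : ¬ IsMulCommutative ↥P) (hQ : ¬ IsMulCommutative ↥Q)
    (hZP : Nat.card ↥(Subgroup.center ↥P) = 2) (hZQ : Nat.card ↥(Subgroup.center ↥Q) = 2)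
    (hne : (Subgroup.center ↥P).map P.subtype ≠ (Subgroup.center ↥Q).map Q.subtype) :
    (∀ x ∈ P, ∀ y ∈ Q, x * y = y * x) ∧ P ⊓ Q = ⊥ ∧
      (∀ s ∈ S₀, (∀ x ∈ P, x * s = s * x) → (∀ x ∈ Q, x * s = s * x) → ∃ a ∈ P, ∃ b ∈ Q, s = a * b) := by
  have eP := subgroupOfEquivOfLe hPS
  have eQ := subgroupOfEquivOfLe hQS
  have hPn' : (P.subgroupOf S₀).Normal := by
    refine ⟨fun n hn g => ?_⟩
    rw [mem_subgroupOf] at hn ⊢
    exact hPn g g.2 n hn
  have hQn' : (Q.subgroupOf S₀).Normal := by
    refine ⟨fun n hn g => ?_⟩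
    rw [mem_subgroupOf] at hn ⊢
    exact hQn g g.2 n hn
  obtain ⟨h1, h3, h4⟩ := Cfsg.Agent.S4400.result (h2.to_subgroup S₀) (Sec.mono hr S₀) (P.subgroupOf S₀) (Q.subgroupOf S₀)
    (fun h => hP ⟨⟨fun a b => by
      have := h.is_comm.comm (eP.symm a) (eP.symm b)
      rw [← map_mul, ← map_mul] at this
      exact eP.symm.injective this⟩⟩)
    (fun h => hQ ⟨⟨fun a b => by
      have := h.is_comm.comm (eQ.symm a) (eQ.symm b)
      rw [← map_mul, ← map_mul] at this
      exact eQ.symm.injective this⟩⟩)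
    (by rw [Nat.card_congr (Subgroup.centerCongr eP).toEquiv, hZP])
    (by rw [Nat.card_congr (Subgroup.centerCongr eQ).toEquiv, hZQ])
    (fun h => hne (by
      have key : ∀ (R : Subgroup S), R ≤ S₀ → ∀ x : S, ∀ hx : x ∈ S₀,
          ((⟨x, hx⟩ : S₀) ∈ (center (R.subgroupOf S₀)).map (R.subgroupOf S₀).subtype ↔
            x ∈ (center R).map R.subtype) := by
        intro R hR x hx
        rw [mem_centerMap, mem_centerMap]
        constructor
        · rintro ⟨h1, h2⟩
          refine ⟨h1, fun y hy => ?_⟩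
          exact congrArg Subtype.val (h2 ⟨y, hR hy⟩ hy)
        · rintro ⟨h1, h2⟩
          refine ⟨h1, fun y hy => ?_⟩
          exact Subtype.ext (h2 y hy)
      ext x
      constructor
      · intro hx
        have hxP : x ∈ P := Subgroup.map_subtype_le _ hx
        rw [← key Q hQS x (hPS hxP), ← h, key P hPS]
        exact hx
      · intro hx
        have hxQ : x ∈ Q := Subgroup.map_subtype_le _ hx
        rw [← key P hPS x (hQS hxQ), h, key Q hQS]
        exact hx))
  have hcm : ∀ x ∈ P, ∀ y ∈ Q, x * y = y * x := by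
    intro x hx y hy
    have := commutator_mem_commutator (H₁ := P.subgroupOf S₀) (H₂ := Q.subgroupOf S₀)
      (show (⟨x, hPS hx⟩ : S₀) ∈ P.subgroupOf S₀ from hx) (show (⟨y, hQS hy⟩ : S₀) ∈ Q.subgroupOf S₀ from hy)
    rw [h1, mem_bot, commutatorElement_eq_one_iff_mul_comm] at this
    exact congrArg Subtype.val this
  refine ⟨hcm, ?_, ?_⟩
  · rw [eq_bot_iff]
    rintro x ⟨hx, hy⟩
    have : (⟨x, hPS hx⟩ : S₀) ∈ P.subgroupOf S₀ ⊓ Q.subgroupOf S₀ := ⟨hx, hy⟩
    rw [h3, mem_bot] at this
    exact congrArg Subtype.val this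
  · intro s hs hsP hsQ
    have h5 : (⟨s, hs⟩ : S₀) ∈ P.subgroupOf S₀ ⊔ Q.subgroupOf S₀ := by
      apply h4
      rw [mem_centralizer_iff]
      intro y hy
      rw [SetLike.mem_coe, mem_sup_of_normal_left] at hy
      obtain ⟨a, ha, b, hb, rfl⟩ := hy
      apply Subtype.ext
      show (a : S) * b * s = s * (a * b)
      rw [mul_assoc, hsQ (b : S) hb, ← mul_assoc, hsP (a : S) ha, mul_assoc]
    rw [mem_sup_of_normal_left] at h5
    obtain ⟨a, ha, b, hb, hab⟩ := h5
    exact ⟨a, ha, b, hb, (congrArg Subtype.val hab).symm⟩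

theorem sec_of_injective {H S : Type*} [Group H] [Group S] [Finite H] {p k : ℕ}
    (hr : Cfsg.SectionalPRankLE p k S) (f : H →* S) (hf : Function.Injective f) :
    Cfsg.SectionalPRankLE p k H := by
  refine Sec.intro fun L N hNL hc hp => ?_
  rw [← Subgroup.relIndex_map_map_of_injective N L hf]
  refine Sec.relIndex_le hr _ _ (Subgroup.map_mono hNL) ?_ ?_
  · rintro _ ⟨x, hx, rfl⟩ _ ⟨y, hy, rfl⟩
    exact ⟨_, hc x hx y hy, by simp⟩
  · rintro _ ⟨x, hx, rfl⟩
    exact ⟨_, hp x hx, by simp⟩

theorem sec_of_prod {P : Type*} [Group P] [Finite P] {p k : ℕ} (hp : 1 < p)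
    (hr : Cfsg.SectionalPRankLE p (k + k) (P × P)) : Cfsg.SectionalPRankLE p k P := by
  refine Sec.intro fun L N hNL hc hpp => ?_
  have h := Sec.relIndex_le hr (L.prod L) (N.prod N) (Subgroup.prod_mono hNL hNL) ?_ ?_
  · have h1 : (N.prod N).relIndex (L.prod L) = N.relIndex L * N.relIndex L := by
      have h2 := H63.card_mul_relIndex (Subgroup.prod_mono hNL hNL)
      have h3 := H63.card_mul_relIndex hNL
      rw [Nat.card_congr (Subgroup.prodEquiv N N).toEquiv, Nat.card_congr (Subgroup.prodEquiv L L).toEquiv,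
        Nat.card_prod, Nat.card_prod, ← h3] at h2
      have h4 : 0 < Nat.card N * Nat.card N := Nat.mul_pos Nat.card_pos Nat.card_pos
      refine Nat.eq_of_mul_eq_mul_left h4 ?_
      rw [h2]; ring
    rw [h1, pow_add] at h
    by_contra hlt
    push Not at hlt
    have := Nat.mul_lt_mul'' hlt hlt
    omega
  · rintro ⟨x1, x2⟩ ⟨hx1, hx2⟩ ⟨y1, y2⟩ ⟨hy1, hy2⟩
    exact ⟨hc _ hx1 _ hy1, hc _ hx2 _ hy2⟩
  · rintro ⟨x1, x2⟩ ⟨hx1, hx2⟩
    exact ⟨hpp _ hx1, hpp _ hx2⟩

/-- Let S be a finite 2-group of sectional 2-rank at most 4 and P a proper non-abelian subgroup whose centre has order 2. Let S₀ be the centralizer in S of Z(P) and suppose P is normal in S₀. Then either S₀ = S, or P has sectional 2-rank at most 2 and S₀ has index 2 in S. -/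
theorem result {S : Type*} [Group S] [Finite S] (h2 : IsPGroup 2 S) (hr : Cfsg.SectionalPRankLE 2 4 S)
    (P : Subgroup S) (hPlt : P ≠ ⊤) (hP : ¬ IsMulCommutative ↥P) (hZP : Nat.card ↥(Subgroup.center ↥P) = 2)
    (S₀ : Subgroup S) (hS₀ : S₀ = Subgroup.centralizer (((Subgroup.center ↥P).map P.subtype : Subgroup S) : Set S))
    (hPn : ∀ s ∈ S₀, ∀ x ∈ P, s * x * s⁻¹ ∈ P) :
    S₀ = ⊤ ∨ (Cfsg.SectionalPRankLE 2 2 ↥P ∧ S₀.index = 2) := by
  by_cases hS₀t : S₀ = ⊤
  · left; exact hS₀t
  right
  have hf : Fact (Nat.Prime 2) := ⟨Nat.prime_two⟩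
  have hnil : Group.IsNilpotent S := h2.isNilpotent
  have hPp : IsPGroup 2 P := h2.to_subgroup P
  -- the involution z
  obtain ⟨z, hz1, hzz⟩ : ∃ z : S, z ≠ 1 ∧ ∀ x, x ∈ (center P).map P.subtype ↔ (x = 1 ∨ x = z) := by
    have h1 : Nat.card ((center P).map P.subtype) = 2 := by
      rw [Subgroup.card_map_of_injective P.subtype_injective, hZP]
    obtain ⟨u, v, huv, hset⟩ := Nat.card_eq_two_iff.1 h1
    have h3 : ∀ w : ((center P).map P.subtype : Subgroup S), w = u ∨ w = v := fun w => by
      have : w ∈ ({u, v} : Set ((center P).map P.subtype : Subgroup S)) := by rw [hset]; trivial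
      exact this
    rcases h3 1 with h | h
    · refine ⟨v, ?_, fun x => ⟨fun hx => ?_, ?_⟩⟩
      · intro hv
        apply huv
        rw [← h]; exact Subtype.ext hv.symm
      · rcases h3 ⟨x, hx⟩ with h4 | h4
        · left; rw [← h] at h4; exact congrArg Subtype.val h4
        · right; exact congrArg Subtype.val h4
      · rintro (rfl | rfl)
        · exact one_mem _
        · exact v.2
    · refine ⟨u, ?_, fun x => ⟨fun hx => ?_, ?_⟩⟩
      · intro hv
        apply huv
        rw [← h]; exact Subtype.ext hv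
      · rcases h3 ⟨x, hx⟩ with h4 | h4
        · right; exact congrArg Subtype.val h4
        · left; rw [← h] at h4; exact congrArg Subtype.val h4
      · rintro (rfl | rfl)
        · exact one_mem _
        · exact u.2
  have hzP : z ∈ (center P).map P.subtype := (hzz z).2 (Or.inr rfl)
  have hzcen := (mem_centerMap P z).1 hzP
  have hmemS₀ : ∀ s, s ∈ S₀ ↔ z * s = s * z := by
    intro s
    rw [hS₀, mem_centralizer_iff]
    constructor
    · intro h; exact h z hzP
    · intro h x hx
      rcases (hzz x).1 hx with rfl | rfl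
      · rw [one_mul, mul_one]
      · exact h
  have hzc : ∀ x ∈ P, (∀ y ∈ P, y * x = x * y) → x = 1 ∨ x = z := fun x hx h =>
    (hzz x).1 ((mem_centerMap P x).2 ⟨hx, h⟩)
  have hPS : P ≤ S₀ := fun x hx => (hmemS₀ x).2 (hzcen.2 x hx).symm
  have hz2 : z * z = 1 := by
    rcases hzc (z * z) (mul_mem hzcen.1 hzcen.1) (fun y hy => by
      rw [← mul_assoc, hzcen.2 y hy, mul_assoc, hzcen.2 y hy, mul_assoc]) with h | h
    · exact h
    · exact absurd (mul_eq_left.1 h) hz1
  -- conjugation data
  have hconj : ∀ g ∈ normalizer (S₀ : Set S), g ∉ S₀ →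
      (∀ x ∈ P, ∀ y ∈ P, x * (g * y * g⁻¹) = (g * y * g⁻¹) * x) ∧
      (∀ x ∈ P, ∀ y ∈ P, x = g * y * g⁻¹ → x = 1) ∧
      (∀ s ∈ S₀, (∀ x ∈ P, x * s = s * x) → (∀ x ∈ P, (g * x * g⁻¹) * s = s * (g * x * g⁻¹)) →
        s = 1 ∨ s = z ∨ s = g * z * g⁻¹ ∨ s = z * (g * z * g⁻¹)) := by
    intro g hg hgS
    set Q : Subgroup S := P.map (MulAut.conj g).toMonoidHom with hQ
    have hmemQ : ∀ x, x ∈ Q ↔ ∃ y ∈ P, g * y * g⁻¹ = x := fun x => Iff.rfl
    have eQ : P ≃* Q := P.equivMapOfInjective _ (MulAut.conj g).injective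
    have hQS : Q ≤ S₀ := by
      intro x hx
      obtain ⟨y, hy, rfl⟩ := (hmemQ x).1 hx
      exact (mem_normalizer_iff.1 hg y).1 (hPS hy)
    have hQn : ∀ s ∈ S₀, ∀ x ∈ Q, s * x * s⁻¹ ∈ Q := by
      intro s hs x hx
      obtain ⟨y, hy, rfl⟩ := (hmemQ x).1 hx
      have h1 : g⁻¹ * s * g ∈ S₀ := by
        rw [mem_normalizer_iff.1 hg]
        have : g * (g⁻¹ * s * g) * g⁻¹ = s := by group
        rw [this]; exact hs
      refine (hmemQ _).2 ⟨_, hPn _ h1 y hy, ?_⟩
      group
    have hQcen : ∀ x, x ∈ (center Q).map Q.subtype ↔ (x = 1 ∨ x = g * z * g⁻¹) := by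
      intro x
      rw [mem_centerMap]
      constructor
      · rintro ⟨hx, h⟩
        obtain ⟨y, hy, rfl⟩ := (hmemQ x).1 hx
        rcases hzc y hy (fun w hw => by
          have h3 := h (g * w * g⁻¹) ((hmemQ _).2 ⟨w, hw, rfl⟩)
          have h4 : g * (w * y) * g⁻¹ = g * (y * w) * g⁻¹ := by
            calc _ = g * w * g⁻¹ * (g * y * g⁻¹) := by group
              _ = _ := by rw [h3]; group
          exact mul_left_cancel (mul_right_cancel h4)) with h1 | h1
        · left; rw [h1]; group
        · right; rw [h1]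
      · rintro (rfl | rfl)
        · exact ⟨one_mem _, fun y _ => by rw [mul_one, one_mul]⟩
        · refine ⟨(hmemQ _).2 ⟨z, hzcen.1, rfl⟩, fun y hy => ?_⟩
          obtain ⟨w, hw, rfl⟩ := (hmemQ y).1 hy
          have := hzcen.2 w hw
          calc g * w * g⁻¹ * (g * z * g⁻¹) = g * (w * z) * g⁻¹ := by group
            _ = g * (z * w) * g⁻¹ := by rw [this]
            _ = _ := by group
    have hgz : g * z * g⁻¹ ≠ z := by
      intro h
      apply hgS
      rw [hmemS₀]
      have : g * z = z * g := by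
        calc g * z = g * z * g⁻¹ * g := by group
          _ = _ := by rw [h]
      exact this.symm
    obtain ⟨h1, h3, h4⟩ := rel h2 hr S₀ P Q hPS hQS hPn hQn hP
      (fun h => hP ⟨⟨fun a b => by
        have := h.is_comm.comm (eQ a) (eQ b)
        rw [← map_mul, ← map_mul] at this
        exact eQ.injective this⟩⟩) hZP
      (by rw [← hZP]; exact (Nat.card_congr (Subgroup.centerCongr eQ).toEquiv).symm)
      (fun h => hgz (by
        have h5 : g * z * g⁻¹ ∈ (center P).map P.subtype := by rw [h]; exact (hQcen _).2 (Or.inr rfl)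
        rcases (hzz _).1 h5 with h6 | h6
        · exfalso
          apply hz1
          calc z = g⁻¹ * (g * z * g⁻¹) * g := by group
            _ = 1 := by rw [h6]; group
        · exact h6))
    refine ⟨fun x hx y hy => h1 x hx _ ((hmemQ _).2 ⟨y, hy, rfl⟩), ?_, ?_⟩
    · intro x hx y hy hxy
      have : x ∈ P ⊓ Q := ⟨hx, (hmemQ _).2 ⟨y, hy, hxy.symm⟩⟩
      rw [h3] at this
      exact this
    · intro s hs hsP hsQ
      obtain ⟨a, ha, b, hb, rfl⟩ := h4 s hs hsP (by
        intro x hx
        obtain ⟨y, hy, rfl⟩ := (hmemQ x).1 hx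
        exact hsQ y hy)
      have ha1 : a = 1 ∨ a = z := hzc a ha (fun y hy => by
        have h5 := hsP y hy
        have h6 := h1 y hy b hb
        have h7 : y * a * b = a * y * b := by
          rw [mul_assoc, h5, mul_assoc, mul_assoc, h6]
        exact mul_right_cancel h7)
      have hb1 : b = 1 ∨ b = g * z * g⁻¹ := by
        rw [← hQcen, mem_centerMap]
        refine ⟨hb, fun y hy => ?_⟩
        obtain ⟨w, hw, rfl⟩ := (hmemQ y).1 hy
        have h5 := hsQ w hw
        have h6 := h1 a ha (g * w * g⁻¹) hy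
        have h7 : a * (g * w * g⁻¹ * b) = a * (b * (g * w * g⁻¹)) := by
          rw [← mul_assoc, h6, mul_assoc, h5, mul_assoc]
        exact mul_left_cancel h7
      rcases ha1 with rfl | rfl <;> rcases hb1 with rfl | rfl
      · left; rw [one_mul]
      · right; right; left; rw [one_mul]
      · right; left; rw [mul_one]
      · right; right; right; rfl
  -- an element normalizing S₀ outside S₀
  have hnc := Group.normalizerCondition_of_isNilpotent (G := S)
  obtain ⟨g, hg, hgS⟩ : ∃ g ∈ normalizer (S₀ : Set S), g ∉ S₀ := by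
    have h1 := hnc S₀ (lt_top_iff_ne_top.2 hS₀t)
    obtain ⟨g, hg, hgS⟩ := SetLike.exists_of_lt h1
    exact ⟨g, hg, hgS⟩
  -- the central involution t
  have hzS₀ : z ∈ S₀ := (hmemS₀ z).2 rfl
  have hcenS₀ : ∀ s, (∀ x, x * s = s * x) → s ∈ S₀ := fun s hs => (hmemS₀ s).2 (hs z)
  obtain ⟨t, ht1, htc⟩ : ∃ t : S, t ≠ 1 ∧ ∀ x, x * t = t * x := by
    have hnt : Nontrivial S := ⟨z, 1, hz1⟩
    have := h2.center_nontrivial
    obtain ⟨t, ht⟩ := exists_ne (1 : center S)
    exact ⟨t, fun h => ht (Subtype.ext h), mem_center_iff.1 t.2⟩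
  have hzn : ∃ s, z * s ≠ s * z := by
    by_contra h
    push Not at h
    exact hS₀t (eq_top_iff.2 fun s _ => (hmemS₀ s).2 (h s))
  have hnorm : ∀ g ∈ normalizer (S₀ : Set S), g ∉ S₀ → g * z * g⁻¹ = z * t := by
    intro g hg hgS
    obtain ⟨h1, h3, h4⟩ := hconj g hg hgS
    have h5 := h4 t (hcenS₀ t htc) (fun x _ => htc x) (fun x _ => htc _)
    have hgc : g * t * g⁻¹ = t := by rw [htc g, mul_inv_cancel_right]
    have hgz : g * z * g⁻¹ ≠ z := by
      intro h
      apply hgS
      rw [hmemS₀]
      have : g * z = z * g := by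
        calc g * z = g * z * g⁻¹ * g := by group
          _ = _ := by rw [h]
      exact this.symm
    rcases h5 with h | h | h | h
    · exact absurd h ht1
    · rw [h] at hgc; exact absurd hgc hgz
    · exfalso
      apply hgz
      rw [← h]
      have h6 : g * t * g⁻¹ = g * z * g⁻¹ := by rw [hgc]; exact h
      exact mul_left_cancel (mul_right_cancel h6)
    · rw [h, ← mul_assoc, hz2, one_mul]
  have hzt : z ≠ t := by
    rintro rfl
    obtain ⟨s, hs⟩ := hzn
    exact hs (htc s).symm
  have ht2 : t * t = 1 := by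
    have h1 := hnorm g hg hgS
    have h3 : g * (z * z) * g⁻¹ = (g * z * g⁻¹) * (g * z * g⁻¹) := by group
    rw [h1, hz2, mul_one, mul_inv_cancel] at h3
    have h4 : z * t * (z * t) = z * z * (t * t) := by
      rw [mul_assoc, ← mul_assoc t z t, ← htc z]; simp only [mul_assoc]
    rw [h4, hz2, one_mul] at h3
    exact h3.symm
  refine ⟨?_, ?_⟩
  · -- sectional rank
    obtain ⟨h1, h3, -⟩ := hconj g hg hgS
    refine sec_of_prod (by norm_num) (sec_of_injective (p := 2) (k := 4) hr
      (MonoidHom.noncommCoprod P.subtype ((MulAut.conj g).toMonoidHom.comp P.subtype)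
        (fun x y => h1 x x.2 y y.2)) ?_)
    rw [injective_iff_map_eq_one]
    rintro ⟨x, y⟩ hxy
    have h5 : (x : S) * (g * y * g⁻¹) = 1 := hxy
    have h6 : (x : S) = 1 := by
      apply h3 x x.2 (y⁻¹ : P) (y⁻¹ : P).2
      rw [eq_inv_of_mul_eq_one_left h5]
      push_cast
      group
    rw [h6, one_mul] at h5
    have h7 : (y : S) = 1 := by
      calc (y : S) = g⁻¹ * (g * y * g⁻¹) * g := by group
        _ = 1 := by rw [h5]; group
    exact Prod.ext (Subtype.ext h6) (Subtype.ext h7)
  · -- normalizer is everything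
    have hnt : normalizer (S₀ : Set S) = ⊤ := by
      by_contra hnt
      set Nn := normalizer (S₀ : Set S) with hNn
      obtain ⟨h, hh, hhN⟩ : ∃ h ∈ normalizer (Nn : Set S), h ∉ Nn := by
        have h1 := hnc Nn (lt_top_iff_ne_top.2 hnt)
        obtain ⟨g, hg, hgS⟩ := SetLike.exists_of_lt h1
        exact ⟨g, hg, hgS⟩
      have hS₀N : S₀ ≤ Nn := le_normalizer
      have hnz : ∀ n ∈ Nn, n * z * n⁻¹ = z ∨ n * z * n⁻¹ = z * t := by
        intro n hn
        by_cases hnS : n ∈ S₀
        · left
          rw [← (hmemS₀ n).1 hnS, mul_inv_cancel_right]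
        · right; exact hnorm n hn hnS
      obtain ⟨y, hy⟩ : ∃ y, y = h * z * h⁻¹ := ⟨_, rfl⟩
      -- elements of Nn move y to y or y * t
      have hny : ∀ n ∈ Nn, n * y * n⁻¹ = y ∨ n * y * n⁻¹ = y * t := by
        intro n hn
        have h1 : h⁻¹ * n * h ∈ Nn := by
          rw [mem_normalizer_iff.1 hh]
          have : h * (h⁻¹ * n * h) * h⁻¹ = n := by group
          rw [this]; exact hn
        rcases hnz _ h1 with h3 | h3
        · left
          calc n * y * n⁻¹ = h * ((h⁻¹ * n * h) * z * (h⁻¹ * n * h)⁻¹) * h⁻¹ := by rw [hy]; group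
            _ = y := by rw [h3, hy]
        · right
          calc n * y * n⁻¹ = h * ((h⁻¹ * n * h) * z * (h⁻¹ * n * h)⁻¹) * h⁻¹ := by rw [hy]; group
            _ = h * z * (t * h⁻¹) := by rw [h3]; group
            _ = y * t := by rw [← htc h⁻¹, ← mul_assoc, hy]
      by_cases hyS : y ∈ S₀
      · -- case A
        have htP : t ∉ P := by
          intro htP
          rcases hzc t htP (fun y _ => htc y) with h1 | h1
          · exact ht1 h1
          · exact hzt h1.symm
        have hyP : ∀ x ∈ P, x * y = y * x := by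
          intro x hx
          rcases hny x (hS₀N (hPS hx)) with h1 | h1
          · calc x * y = x * y * x⁻¹ * x := by group
              _ = y * x := by rw [h1]
          · exfalso
            apply htP
            have h3 : t = (y⁻¹ * x * y⁻¹⁻¹) * x⁻¹ := by
              have : y⁻¹ * (x * y * x⁻¹) = t := by rw [h1]; group
              rw [← this]; group
            rw [h3]
            exact mul_mem (hPn _ (inv_mem hyS) x hx) (inv_mem hx)
        obtain ⟨-, -, h4⟩ := hconj g hg hgS
        have h5 := h4 y hyS hyP (fun x hx => by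
          have hg' : g⁻¹ ∈ Nn := inv_mem hg
          have h6 : x * (g⁻¹ * y * g⁻¹⁻¹) = (g⁻¹ * y * g⁻¹⁻¹) * x := by
            rcases hny g⁻¹ hg' with h1 | h1
            · rw [h1]; exact hyP x hx
            · rw [h1, ← mul_assoc, hyP x hx, mul_assoc, htc x, mul_assoc]
          calc g * x * g⁻¹ * y = g * (x * (g⁻¹ * y * g⁻¹⁻¹)) * g⁻¹ := by group
            _ = _ := by rw [h6]; group)
        rw [hnorm g hg hgS] at h5
        have hyz : ∀ u, (h⁻¹ * u * h ∈ Nn → True) := fun _ _ => trivial
        -- exclude all cases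
        rcases h5 with h5 | h5 | h5 | h5
        · apply hz1
          calc z = h⁻¹ * y * h := by rw [hy]; group
            _ = 1 := by rw [h5]; group
        · apply hhN
          apply hS₀N
          rw [hmemS₀]
          have : h * z = z * h := by
            calc h * z = y * h := by rw [hy]; group
              _ = _ := by rw [h5]
          exact this.symm
        · -- y = z * t : h and g differ by an element of S₀
          have h6 : g⁻¹ * h ∈ S₀ := by
            rw [hmemS₀]
            have h7 : h * z * h⁻¹ = g * z * g⁻¹ := by rw [hnorm g hg hgS, ← hy]; exact h5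
            calc z * (g⁻¹ * h) = g⁻¹ * (g * z * g⁻¹) * h := by group
              _ = g⁻¹ * (h * z * h⁻¹) * h := by rw [h7]
              _ = _ := by group
          apply hhN
          have := mul_mem hg (hS₀N h6)
          rwa [mul_inv_cancel_left] at this
        · -- y = t
          have h6 : y = t := by rw [h5, ← mul_assoc, hz2, one_mul]
          apply hzt
          calc z = h⁻¹ * y * h := by rw [hy]; group
            _ = h⁻¹ * (t * h) := by rw [h6, mul_assoc]
            _ = t := by rw [← htc h, inv_mul_cancel_left]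
      · -- case B
        have h1 : ⁅P, P⁆ ≤ centralizer {y} := by
          rw [commutator_le]
          intro a ha b hb
          rw [mem_centralizer_singleton_iff]
          have hya := hny a (hS₀N (hPS ha))
          have hyb := hny b (hS₀N (hPS hb))
          -- a y = y a t^i, b y = y b t^j
          have ka : ∃ u : S, (∀ x, x * u = u * x) ∧ a * y = y * a * u ∧ u * u = 1 := by
            rcases hya with h1 | h1
            · refine ⟨1, fun x => by rw [one_mul, mul_one], ?_, one_mul 1⟩
              rw [mul_one]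
              calc a * y = a * y * a⁻¹ * a := by group
                _ = y * a := by rw [h1]
            · refine ⟨t, htc, ?_, ht2⟩
              calc a * y = a * y * a⁻¹ * a := by group
                _ = y * (t * a) := by rw [h1, mul_assoc]
                _ = _ := by rw [← htc a, mul_assoc]
          have kb : ∃ u : S, (∀ x, x * u = u * x) ∧ b * y = y * b * u ∧ u * u = 1 := by
            rcases hyb with h1 | h1
            · refine ⟨1, fun x => by rw [one_mul, mul_one], ?_, one_mul 1⟩
              rw [mul_one]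
              calc b * y = b * y * b⁻¹ * b := by group
                _ = y * b := by rw [h1]
            · refine ⟨t, htc, ?_, ht2⟩
              calc b * y = b * y * b⁻¹ * b := by group
                _ = y * (t * b) := by rw [h1, mul_assoc]
                _ = _ := by rw [← htc b, mul_assoc]
          obtain ⟨u, huc, hu, hu2⟩ := ka
          obtain ⟨v, hvc, hv, hv2⟩ := kb
          have hai : a⁻¹ * y = y * a⁻¹ * u := by
            have : a * (y * a⁻¹ * u) = y := by
              calc a * (y * a⁻¹ * u) = (a * y) * a⁻¹ * u := by group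
                _ = y * (a * (u * a⁻¹)) * u := by rw [hu]; group
                _ = y * (u * u) := by rw [← huc a⁻¹, mul_inv_cancel_left]; group
                _ = y := by rw [hu2, mul_one]
            calc a⁻¹ * y = a⁻¹ * (a * (y * a⁻¹ * u)) := by rw [this]
              _ = _ := by group
          have hbi : b⁻¹ * y = y * b⁻¹ * v := by
            have : b * (y * b⁻¹ * v) = y := by
              calc b * (y * b⁻¹ * v) = (b * y) * b⁻¹ * v := by group
                _ = y * (b * (v * b⁻¹)) * v := by rw [hv]; group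
                _ = y * (v * v) := by rw [← hvc b⁻¹, mul_inv_cancel_left]; group
                _ = y := by rw [hv2, mul_one]
            calc b⁻¹ * y = b⁻¹ * (b * (y * b⁻¹ * v)) := by rw [this]
              _ = _ := by group
          rw [commutatorElement_def]
          calc a * b * a⁻¹ * b⁻¹ * y = a * b * a⁻¹ * (b⁻¹ * y) := by group
            _ = a * b * (a⁻¹ * y) * b⁻¹ * v := by rw [hbi]; group
            _ = a * (b * y) * (a⁻¹ * (u * b⁻¹)) * v := by rw [hai]; group
            _ = a * y * (b * (v * a⁻¹)) * b⁻¹ * u * v := by rw [hv, ← huc b⁻¹]; group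
            _ = y * (a * (u * b)) * a⁻¹ * (v * b⁻¹) * u * v := by rw [hu, ← hvc a⁻¹]; group
            _ = y * a * b * (u * a⁻¹) * b⁻¹ * (v * u) * v := by rw [← huc b, ← hvc b⁻¹]; group
            _ = y * a * b * a⁻¹ * (u * b⁻¹) * u * (v * v) := by rw [← huc a⁻¹, huc v]; group
            _ = y * a * b * a⁻¹ * b⁻¹ * (u * u) * (v * v) := by rw [← huc b⁻¹]; group
            _ = y * (a * b * a⁻¹ * b⁻¹) := by rw [hu2, hv2]; group
        have h3 : z ∈ ⁅P, P⁆ := by
          have h4 := Subgroup.map_mono (f := P.subtype) (PBasic.center_le_commutator hPp hP hZP)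
          have h5 : (commutator P).map P.subtype = ⁅P, P⁆ := by
            rw [_root_.commutator_def, Subgroup.map_commutator]
            rw [← MonoidHom.range_eq_map, Subgroup.range_subtype]
          rw [h5] at h4
          exact h4 hzP
        have h4 := mem_centralizer_singleton_iff.1 (h1 h3)
        exact hyS ((hmemS₀ y).2 h4)
    -- index 2
    rw [Subgroup.index_eq_two_iff]
    refine ⟨g, fun b => ?_⟩
    by_cases hb : b ∈ S₀
    · right
      refine ⟨hb, fun hbg => hgS ?_⟩
      have := mul_mem (inv_mem hb) hbg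
      rwa [inv_mul_cancel_left] at this
    · left
      refine ⟨?_, hb⟩
      have hb' := hnorm b (by rw [hnt]; trivial) hb
      have hg' := hnorm g hg hgS
      rw [hmemS₀]
      have h1 : b * g * z * (b * g)⁻¹ = z := by
        calc b * g * z * (b * g)⁻¹ = b * (g * z * g⁻¹) * b⁻¹ := by group
          _ = b * z * (t * b⁻¹) := by rw [hg']; group
          _ = (b * z * b⁻¹) * t := by rw [← htc b⁻¹]; group
          _ = z * (t * t) := by rw [hb', mul_assoc]
          _ = z := by rw [ht2, mul_one]
      calc z * (b * g) = (b * g * z * (b * g)⁻¹) * (b * g) := by rw [h1]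
        _ = _ := by group

end Cfsg.Agent.S4401
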