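import Cfsg.Statements.S4402
import Cfsg.Agent.H32.DW3

set_option autoImplicit false
open Cfsg

namespace Cfsg.Agent.S4402

open Subgroup
open Cfsg.Agent.H32.DW

def subA : Subgroup W where
  carrier := {w | inA w}
  mul_mem' := by
    have : ∀ u v : W, inA u → inA v → inA (u * v) := by decide +kernel
    exact fun {a b} ha hb => this a b ha hb
  one_mem' := by
    show inA 1
    decide +kernel
  inv_mem' := by
    have : ∀ w : W, inA w → inA w⁻¹ := by decide +kernel
    exact fun {w} hw => this w hw

def subA' : Subgroup W where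
  carrier := {w | inA' w}
  mul_mem' := by
    have : ∀ u v : W, inA' u → inA' v → inA' (u * v) := by decide +kernel
    exact fun {a b} ha hb => this a b ha hb
  one_mem' := by
    show inA' 1
    decide +kernel
  inv_mem' := by
    have : ∀ w : W, inA' w → inA' w⁻¹ := by decide +kernel
    exact fun {w} hw => this w hw

theorem card_subA : Nat.card subA = 16 := by
  have : Nat.card subA = Fintype.card {w : W // inA w} := by
    rw [← Nat.card_eq_fintype_card]; rfl
  rw [this, Fintype.card_subtype]
  decide +kernel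

theorem card_subA' : Nat.card subA' = 16 := by
  have : Nat.card subA' = Fintype.card {w : W // inA' w} := by
    rw [← Nat.card_eq_fintype_card]; rfl
  rw [this, Fintype.card_subtype]
  decide +kernel

theorem QW : ∀ v : W, v * v = 1 → (∀ g, v * (g * v * g⁻¹) = (g * v * g⁻¹) * v) → inA v ∨ inA' v := by
  decide +kernel

theorem AA' : ∀ w : W, inA w → inA' w → inZ w := by decide +kernel
theorem b1A' : inA' b1 := by decide +kernel
theorem b1Z : ¬ inZ b1 := by decide +kernel
theorem a1Z : ¬ inZ a1 := by decide +kernel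

theorem phi_inZ (φ : W ≃* W) (w : W) (h : ¬ inZ w) : ¬ inZ (φ w) := by
  intro hc
  apply h
  apply cl1'
  have hs : ∀ u : W, φ u = φ w → u = w := fun u hu => φ.injective hu
  rcases cl1 _ hc with h1 | h1 | h1 | h1
  · exact Or.inl (hs 1 (by rw [map_one, h1])).symm
  · exact Or.inr (Or.inl (hs z0 (by rw [phi_z0, h1])).symm)
  · rcases phi_z1 φ with h2 | h2
    · exact Or.inr (Or.inr (Or.inl (hs z1 (by rw [h2, h1])).symm))
    · refine Or.inr (Or.inr (Or.inr (hs z2 ?_).symm))
      rw [← z10, map_mul, phi_z0, h2, z20, h1]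
  · rcases phi_z1 φ with h2 | h2
    · refine Or.inr (Or.inr (Or.inr (hs z2 ?_).symm))
      rw [← z10, map_mul, phi_z0, h2, z10, h1]
    · exact Or.inr (Or.inr (Or.inl (hs z1 (by rw [h2, h1])).symm))

theorem growth {S : Type*} [Group S] [Finite S] (h2 : IsPGroup 2 S) (P M : Subgroup S) (hc : Nat.card P = 128)
    (hPM : P < M) : ∃ x ∈ M, x ∉ P ∧ (∀ p ∈ P, x * p * x⁻¹ ∈ P) ∧ x ^ 2 ∈ P := by
  haveI : Fact (Nat.Prime 2) := ⟨Nat.prime_two⟩
  obtain ⟨k, hk⟩ := IsPGroup.iff_card.1 (h2.to_subgroup M)
  have hlt : 128 < Nat.card M := by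
    rw [← hc]
    by_contra h
    exact hPM.ne (eq_of_le_of_card_ge hPM.le (by omega))
  have hk8 : 8 ≤ k := by
    by_contra h
    have : 2 ^ k ≤ 2 ^ 7 := Nat.pow_le_pow_right (by norm_num) (by omega)
    rw [hk] at hlt
    norm_num at this
    omega
  have hcP : Nat.card (P.subgroupOf M) = 2 ^ 7 := by
    rw [Nat.card_congr (subgroupOfEquivOfLe hPM.le).toEquiv, hc]; norm_num
  obtain ⟨K, hK, hPK⟩ := Sylow.exists_subgroup_card_pow_succ (p := 2) (n := 7)
    (by rw [hk]; exact pow_dvd_pow 2 hk8) hcP
  have hidx : ((P.subgroupOf M).subgroupOf K).index = 2 := by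
    have h1 := Subgroup.card_mul_index ((P.subgroupOf M).subgroupOf K)
    rw [Nat.card_congr (subgroupOfEquivOfLe hPK).toEquiv, hcP, hK] at h1
    omega
  haveI hn := Subgroup.normal_of_index_eq_two hidx
  have hne : ∃ x : K, x ∉ (P.subgroupOf M).subgroupOf K := by
    by_contra hcon
    push Not at hcon
    have : (P.subgroupOf M).subgroupOf K = ⊤ := by
      rw [eq_top_iff]; exact fun x _ => hcon x
    rw [this, index_top] at hidx
    omega
  obtain ⟨x, hx⟩ := hne
  refine ⟨((x : M) : S), x.1.2, fun h => hx h, fun p hp => ?_, ?_⟩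
  · have h3 := hn.conj_mem ⟨⟨p, hPM.le hp⟩, hPK (show (⟨p, hPM.le hp⟩ : M) ∈ P.subgroupOf M from hp)⟩
      (show _ ∈ (P.subgroupOf M).subgroupOf K from hp) x
    exact h3
  · have h3 := Subgroup.sq_mem_of_index_two hidx x
    exact h3

section main

variable {S : Type*} [Group S] [Finite S] (f : W →* S) (hf : Function.Injective f)

include hf in
theorem normA (h2 : IsPGroup 2 S) (hr : Cfsg.SectionalPRankLE 2 4 S) (V : Subgroup S)
    (hV : V = subA.map f ∨ V = subA'.map f) : normalizer (V : Set S) = f.range := by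
  have hc : Nat.card f.range = 128 := by
    rw [← Nat.card_congr (MonoidHom.ofInjective hf).toEquiv, card_W]
  have h1 : f.range ≤ normalizer (V : Set S) := by
    rintro _ ⟨g, rfl⟩
    apply norm_of
    rcases hV with rfl | rfl
    · rintro _ ⟨w, hw, rfl⟩
      exact ⟨g * w * g⁻¹, cA w g hw, by simp⟩
    · rintro _ ⟨w, hw, rfl⟩
      exact ⟨g * w * g⁻¹, cA' w g hw, by simp⟩
  by_contra hne
  have hlt : f.range < normalizer (V : Set S) := lt_of_le_of_ne h1 (Ne.symm hne)
  obtain ⟨x, hxM, hxP, hxn, hx2⟩ := growth h2 _ _ hc hlt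
  apply hxP
  obtain ⟨φ, hφ⟩ := exists_phi f hf x (fun w => by
    obtain ⟨w', h⟩ := hxn (f w) ⟨w, rfl⟩
    exact ⟨w', h.symm⟩)
  have hA : ∀ w, inA w → inA (φ w) := by
    rcases dich φ with ⟨h, _⟩ | ⟨h, h'⟩
    · exact h
    · exfalso
      rcases hV with rfl | rfl
      · have h3 := (mem_normalizer_iff.1 hxM (f a1)).1 ⟨a1, a1A, rfl⟩
        obtain ⟨w, hw, h4⟩ := h3
        rw [← hφ] at h4
        have h5 := hf h4
        exact phi_inZ φ a1 a1Z (AA' _ (h5 ▸ hw) (h a1 a1A))
      · have h3 := (mem_normalizer_iff.1 hxM (f b1)).1 ⟨b1, b1A', rfl⟩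
        obtain ⟨w, hw, h4⟩ := h3
        rw [← hφ] at h4
        have h5 := hf h4
        exact phi_inZ φ b1 b1Z (AA' _ (h' b1 b1A') (h5 ▸ hw))
  exact main1 f hf hr x (fun w => ⟨φ w, (hφ w).symm⟩) (by
    obtain ⟨w, h⟩ := hx2
    exact ⟨w, h.symm⟩) (fun w hw => ⟨φ w, hA w hw, (hφ w).symm⟩)

include hf in
theorem classV (V : Subgroup S) (hVP : V ≤ f.range) (hVn : ∀ g ∈ f.range, ∀ v ∈ V, g * v * g⁻¹ ∈ V)
    (hVe : Cfsg.IsElementaryAbelian 2 V) (hV : Nat.card V = 16) : V = subA.map f ∨ V = subA'.map f := by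
  have hall : ∀ v ∈ V, v ∈ subA.map f ∨ v ∈ subA'.map f := by
    intro v hv
    obtain ⟨w, rfl⟩ := hVP hv
    have h1 : w * w = 1 := by
      apply hf
      have := hVe.2 _ hv
      rw [map_mul, map_one, ← pow_two, this]
    have h2 : ∀ g, w * (g * w * g⁻¹) = (g * w * g⁻¹) * w := by
      intro g
      apply hf
      have h3 := hVn (f g) ⟨g, rfl⟩ _ hv
      have h4 : (f w) * (f g * f w * (f g)⁻¹) = (f g * f w * (f g)⁻¹) * f w :=
        congrArg Subtype.val (hVe.1.is_comm.comm (⟨f w, hv⟩ : V) ⟨_, h3⟩)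
      simpa using h4
    rcases QW w h1 h2 with h | h
    · exact Or.inl ⟨w, h, rfl⟩
    · exact Or.inr ⟨w, h, rfl⟩
  have h1 : V ≤ subA.map f ∨ V ≤ subA'.map f := by
    by_contra hcon
    push Not at hcon
    obtain ⟨h1, h2⟩ := hcon
    obtain ⟨u, hu, hu'⟩ := SetLike.not_le_iff_exists.1 h1
    obtain ⟨v, hv, hv'⟩ := SetLike.not_le_iff_exists.1 h2
    have hu2 := (hall u hu).resolve_left hu'
    have hv2 := (hall v hv).resolve_right hv'
    rcases hall (u * v) (V.mul_mem hu hv) with h | h
    · exact hu' ((mul_mem_cancel_right hv2).1 h)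
    · exact hv' ((mul_mem_cancel_left hu2).1 h)
  rcases h1 with h | h
  · left
    apply eq_of_le_of_card_ge h
    rw [Subgroup.card_map_of_injective hf, card_subA, hV]
  · right
    apply eq_of_le_of_card_ge h
    rw [Subgroup.card_map_of_injective hf, card_subA', hV]

include hf in
theorem center_le (h2 : IsPGroup 2 S) (hr : Cfsg.SectionalPRankLE 2 4 S) (x : S) :
    x ∈ center S ↔ x = 1 ∨ x = f z0 := by
  have hle : ∀ y ∈ center S, y = 1 ∨ y = f z0 := by
    intro y hy
    have h3 : y ∈ normalizer ((subA.map f : Subgroup S) : Set S) := by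
      rw [mem_normalizer_iff]
      intro h
      rw [mem_center_iff] at hy
      rw [← hy h, mul_inv_cancel_right]
    rw [normA f hf h2 hr _ (Or.inl rfl)] at h3
    obtain ⟨w, rfl⟩ := h3
    rcases cen w (fun g => hf (by
      rw [map_mul, map_mul]
      exact mem_center_iff.1 hy (f g))) with h | h
    · left; rw [h, map_one]
    · right; rw [h]
  constructor
  · exact hle x
  · intro h
    rcases h with rfl | rfl
    · exact one_mem _
    · haveI : Fact (Nat.Prime 2) := ⟨Nat.prime_two⟩
      haveI : Nontrivial S := ⟨f z0, 1, fun h => z0_ne (hf (h.trans (map_one f).symm))⟩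
      haveI := h2.center_nontrivial
      obtain ⟨⟨y, hy⟩, hne⟩ := exists_ne (1 : center S)
      rcases hle y hy with h | h
      · exact absurd (Subtype.ext h) hne
      · rw [← h]; exact hy

def X : Type := {w : W // ¬ inB w ∧ w * w = 1}

instance instFinX : Fintype X := inferInstanceAs (Fintype {w : W // ¬ inB w ∧ w * w = 1})

theorem card_X : Nat.card X = 8 := by
  rw [Nat.card_eq_fintype_card]
  decide +kernel

theorem inB_iff1 : ∀ w : W, inB w ↔ w * z1 = z1 * w := by decide +kernel
theorem inB_iff2 : ∀ w : W, inB w ↔ w * z2 = z2 * w := by decide +kernel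

theorem phi_inB (φ : W ≃* W) (w : W) : inB (φ w) ↔ inB w := by
  rcases phi_z1 φ with h | h
  · rw [inB_iff1, inB_iff1 w]
    constructor
    · intro h1
      apply φ.injective
      rw [map_mul, map_mul, h, h1]
    · intro h1
      have := congrArg φ h1
      rwa [map_mul, map_mul, h] at this
  · rw [inB_iff2, inB_iff1 w]
    constructor
    · intro h1
      apply φ.injective
      rw [map_mul, map_mul, h, h1]
    · intro h1
      have := congrArg φ h1
      rwa [map_mul, map_mul, h] at this

theorem phi_X (φ : MulAut W) (w : W) : (¬ inB (φ w) ∧ φ w * φ w = 1) ↔ (¬ inB w ∧ w * w = 1) := by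
  rw [phi_inB φ w, ← map_mul]
  refine and_congr Iff.rfl ⟨fun h => φ.injective (h.trans (map_one φ).symm), fun h => by rw [h, map_one]⟩

def actX : MulAut W →* Equiv.Perm X where
  toFun φ := Equiv.Perm.subtypePerm φ.toEquiv (fun w => phi_X φ w)
  map_one' := by
    ext1 w
    rfl
  map_mul' u v := by
    ext1 w
    rfl

def tda : W := (da, da, true)
theorem t0X : ¬ inB t0 ∧ t0 * t0 = 1 := by decide +kernel
theorem tdaX : ¬ inB tda ∧ tda * tda = 1 := by decide +kernel

theorem kerX : ∀ w : W, (∀ x : W, ¬ inB x → x * x = 1 → w * x * w⁻¹ = x) → w = 1 ∨ w = z0 := by decide +kernel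

end main

/-- Let S be a finite 2-group of sectional 2-rank at most 4 and P a proper subgroup isomorphic to the wreath product of the dihedral group of order 8 by a group of order 2 (equivalently, to a Sylow 2-subgroup of the symmetric group of degree 8; order 128). Then Z(S) = Z(P) has order 2, P has index 2 in its normalizer N_S(P), N_S(P)/Z(S) is again isomorphic to that wreath product, and every elementary abelian subgroup V of order 16 that is normal in P satisfies N_S(V) = P. -/
theorem result {S : Type*} [Group S] [Finite S] (h2 : IsPGroup 2 S) (hr : Cfsg.SectionalPRankLE 2 4 S)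
    (P : Subgroup S) (hPlt : P ≠ ⊤) (hP : ∃ T : Sylow 2 (Equiv.Perm (Fin 8)), Nonempty (↥P ≃* ↥(T : Subgroup (Equiv.Perm (Fin 8))))) :
    Subgroup.center S = (Subgroup.center ↥P).map P.subtype ∧ Nat.card ↥(Subgroup.center S) = 2 ∧
    P.relIndex (Subgroup.normalizer (P : Set S)) = 2 ∧
    (∃ (_ : ((Subgroup.center S).subgroupOf (Subgroup.normalizer (P : Set S))).Normal) (T : Sylow 2 (Equiv.Perm (Fin 8))),
      Nonempty (↥(Subgroup.normalizer (P : Set S)) ⧸ (Subgroup.center S).subgroupOf (Subgroup.normalizer (P : Set S)) ≃*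
        ↥(T : Subgroup (Equiv.Perm (Fin 8))))) ∧
    ∀ V : Subgroup S, V ≤ P → (∀ g ∈ P, ∀ v ∈ V, g * v * g⁻¹ ∈ V) → Cfsg.IsElementaryAbelian 2 V → Nat.card ↥V = 16 →
      Subgroup.normalizer (V : Set S) = P := by
  obtain ⟨T0, ⟨e0⟩⟩ := hP
  have hX8 : Nat.card (Bool × (Bool × Bool)) = 8 := by
    rw [Nat.card_eq_fintype_card]; rfl
  obtain ⟨e1⟩ := iso_syl card_W hX8 Wperm Wperm_inj T0
  let g : W ≃* P := e1.trans e0.symm
  let f : W →* S := P.subtype.comp g.toMonoidHom
  have hf : Function.Injective f := P.subtype_injective.comp g.injective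
  have hfr : f.range = P := by
    ext x
    constructor
    · rintro ⟨w, rfl⟩
      exact (g w).2
    · intro hx
      exact ⟨g.symm ⟨x, hx⟩, by
        show ((g (g.symm ⟨x, hx⟩) : P) : S) = x
        rw [MulEquiv.apply_symm_apply]⟩
  have hcP : Nat.card P = 128 := by
    rw [← Nat.card_congr g.toEquiv, card_W]
  have hcen := center_le f hf h2 hr
  have hz0c : f z0 ∈ center S := (hcen _).2 (Or.inr rfl)
  have hne1 : f z0 ≠ 1 := fun h => z0_ne (hf (h.trans (map_one f).symm))
  -- card of the center
  have hcard2 : Nat.card (center S) = 2 := by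
    have h1 : (center S : Set S) = {1, f z0} := by
      ext x
      rw [SetLike.mem_coe, hcen x]
      simp
    have h3 : Nat.card (center S) = Set.ncard (center S : Set S) := rfl
    rw [h3, h1, Set.ncard_pair (Ne.symm hne1)]
  have hcenP : Subgroup.center S = (Subgroup.center ↥P).map P.subtype := by
    ext x
    rw [hcen x]
    constructor
    · rintro (rfl | rfl)
      · exact one_mem _
      · refine ⟨g z0, ?_, rfl⟩
        rw [SetLike.mem_coe, mem_center_iff]
        intro y
        apply Subtype.ext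
        have := mem_center_iff.1 hz0c (y : S)
        exact this
    · rintro ⟨y, hy, rfl⟩
      rw [SetLike.mem_coe, mem_center_iff] at hy
      obtain ⟨w, rfl⟩ := g.surjective y
      rcases cen w (fun u => g.injective (by rw [map_mul, map_mul]; exact hy (g u))) with h | h
      · left; rw [h]; simp
      · right; rw [h]; rfl
  have hnA : normalizer ((subA.map f : Subgroup S) : Set S) = P := by
    rw [normA f hf h2 hr _ (Or.inl rfl), hfr]
  -- a dichotomy for the normalizer of P
  have hphi : ∀ x ∈ normalizer (P : Set S), ∃ φ : W ≃* W, ∀ w, f (φ w) = x * f w * x⁻¹ := by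
    intro x hx
    apply exists_phi f hf
    intro w
    have h3 := (mem_normalizer_iff.1 hx (f w)).1 (by rw [← hfr]; exact ⟨w, rfl⟩)
    rw [← hfr] at h3
    obtain ⟨w', h4⟩ := h3
    exact ⟨w', h4.symm⟩
  have hpres : ∀ x, ∀ φ : W ≃* W, (∀ w, f (φ w) = x * f w * x⁻¹) → (∀ w, inA w → inA (φ w)) → x ∈ P := by
    intro x φ hφ hA
    rw [← hnA]
    apply norm_of
    rintro _ ⟨w, hw, rfl⟩
    exact ⟨φ w, hA w hw, hφ w⟩
  have hswap : ∀ x ∉ P, ∀ φ : W ≃* W, (∀ w, f (φ w) = x * f w * x⁻¹) →
      ((∀ w, inA w → inA' (φ w)) ∧ (∀ w, inA' w → inA (φ w))) := by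
    intro x hx φ hφ
    rcases dich φ with ⟨h, _⟩ | h
    · exact absurd (hpres x φ hφ h) hx
    · exact h
  have hPN : P ≤ normalizer (P : Set S) := le_normalizer
  obtain ⟨x0, _, hx0P, hx0n, hx02⟩ := growth h2 P ⊤ hcP (lt_of_le_of_ne le_top hPlt)
  have hx0N : x0 ∈ normalizer (P : Set S) := norm_of P x0 hx0n
  have hprod : ∀ x ∈ normalizer (P : Set S), ∀ y ∈ normalizer (P : Set S), x ∉ P → y ∉ P → x * y ∈ P := by
    intro x hx y hy hxP hyP
    obtain ⟨φ, hφ⟩ := hphi x hx
    obtain ⟨ψ, hψ⟩ := hphi y hy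
    have h3 := hswap x hxP φ hφ
    have h4 := hswap y hyP ψ hψ
    apply hpres (x * y) (ψ.trans φ)
    · intro w
      show f (φ (ψ w)) = _
      rw [hφ, hψ]; group
    · intro w hw
      exact h3.2 _ (h4.1 w hw)
  have hidx : P.relIndex (Subgroup.normalizer (P : Set S)) = 2 := by
    rw [Subgroup.relIndex_eq_two_iff]
    refine ⟨x0, hx0N, fun b hb => ?_⟩
    by_cases hbP : b ∈ P
    · right
      refine ⟨hbP, fun h => hx0P ?_⟩
      exact (mul_mem_cancel_left hbP).1 h
    · left
      exact ⟨hprod b hb x0 hx0N hbP hx0P, hbP⟩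
  refine ⟨hcenP, hcard2, hidx, ?_, ?_⟩
  · have hCn : ((Subgroup.center S).subgroupOf (Subgroup.normalizer (P : Set S))).Normal := by
      refine ⟨fun n hn y => ?_⟩
      rw [mem_subgroupOf] at hn ⊢
      have h3 := mem_center_iff.1 hn (y : S)
      have h4 : ((y * n * y⁻¹ : normalizer (P : Set S)) : S) = n := by
        push_cast
        rw [h3, mul_inv_cancel_right]
      rw [h4]; exact hn
    obtain ⟨T⟩ : Nonempty (Sylow 2 (Equiv.Perm (Fin 8))) := inferInstance
    refine ⟨hCn, T, ?_⟩
    -- the homomorphism to Perm X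
    let c : MulAut P ≃* MulAut W := MulAut.congr g.symm
    let Θ : normalizer (P : Set S) →* Equiv.Perm X := actX.comp (c.toMonoidHom.comp (Subgroup.normalizerMonoidHom P))
    have hΘ : ∀ n : normalizer (P : Set S), ∀ x : X, f ((Θ n x).1) = n * f x.1 * (n : S)⁻¹ := by
      intro n x
      show ((g (g.symm (Subgroup.normalizerMonoidHom P n (g x.1))) : P) : S) = _
      rw [MulEquiv.apply_symm_apply]
      rfl
    have hker : Θ.ker = (Subgroup.center S).subgroupOf (Subgroup.normalizer (P : Set S)) := by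
      ext n
      rw [MonoidHom.mem_ker, mem_subgroupOf]
      constructor
      · intro h
        have h3 : ∀ x : X, f x.1 = n * f x.1 * (n : S)⁻¹ := by
          intro x
          rw [← hΘ n x, h]
          rfl
        by_cases hnP : (n : S) ∈ P
        · obtain ⟨w, hw⟩ : (n : S) ∈ f.range := by rw [hfr]; exact hnP
          rw [← hw] at h3 ⊢
          rw [hcen]
          rcases kerX w (fun x hx1 hx2 => hf (by
            have := h3 ⟨x, hx1, hx2⟩
            rw [map_mul, map_mul, map_inv]
            exact this.symm)) with h4 | h4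
          · left; rw [h4, map_one]
          · right; rw [h4]
        · exfalso
          obtain ⟨φ, hφ⟩ := hphi n n.2
          have h4 := (hswap n hnP φ hφ).1
          have hfix : ∀ x : X, φ x.1 = x.1 := by
            intro x
            apply hf
            rw [hφ, ← h3 x]
          have h5 := hfix ⟨t0, t0X⟩
          have h6 := hfix ⟨tda, tdaX⟩
          have h7 : φ (t0 * tda) = t0 * tda := by
            rw [map_mul]
            exact congrArg₂ (· * ·) h5 h6
          have h8 : inA (t0 * tda) := by decide +kernel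
          have h9 : ¬ inA' (t0 * tda) := by decide +kernel
          apply h9
          have := h4 _ h8
          rwa [h7] at this
      · intro h
        ext1 x
        apply Subtype.ext
        apply hf
        rw [hΘ]
        rw [mem_center_iff] at h
        show _ = f x.1
        rw [← h (f x.1), mul_inv_cancel_right]
    let e3 : (normalizer (P : Set S)) ⧸ (Subgroup.center S).subgroupOf (Subgroup.normalizer (P : Set S)) ≃*
        (normalizer (P : Set S)) ⧸ Θ.ker := QuotientGroup.quotientMulEquivOfEq hker.symm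
    refine iso_syl ?_ card_X ((QuotientGroup.kerLift Θ).comp e3.toMonoidHom)
      ((QuotientGroup.kerLift_injective Θ).comp e3.injective) T
    have hN : Nat.card (normalizer (P : Set S)) = 256 := by
      have := Subgroup.relIndex_mul_relIndex ⊥ P _ bot_le hPN
      rw [Subgroup.relIndex_bot_left, Subgroup.relIndex_bot_left, hcP, hidx] at this
      omega
    have h3 := Subgroup.card_eq_card_quotient_mul_card_subgroup
      ((Subgroup.center S).subgroupOf (Subgroup.normalizer (P : Set S)))
    have hcle : center S ≤ normalizer (P : Set S) := by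
      intro y hy
      rw [hcen] at hy
      rcases hy with rfl | rfl
      · exact one_mem _
      · exact hPN (by rw [← hfr]; exact ⟨_, rfl⟩)
    rw [Nat.card_congr (subgroupOfEquivOfLe hcle).toEquiv, hcard2, hN] at h3
    omega
  · intro V hVP hVn hVe hV
    rw [← hfr] at hVP hVn
    rw [normA f hf h2 hr V (classV f hf V hVP hVn hVe hV), hfr]

end Cfsg.Agent.S4402
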