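import Cfsg.Statements.S4404
import Cfsg.Agent.BlkInd.NGg

set_option autoImplicit false
open Cfsg

namespace Cfsg.Agent.S4404

open Cfsg.Agent.BlkInd.NG in
open scoped Pointwise commutatorElement in
theorem commutator_zpowers {S : Type*} [Group S] [Finite S] {M : Subgroup S} [hMn : M.Normal]
    (hc : ∀ a ∈ M, ∀ b ∈ M, a * b = b * a) (x : S) :
    ⁅Subgroup.zpowers x, M⁆ = cS M hc x (nM M x) := by
  apply le_antisymm
  · set D := cS M hc x (nM M x) with hD
    let K : Subgroup S :=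
      { carrier := {g | ∀ m ∈ M, ⁅g, m⁆ ∈ D}
        one_mem' := fun m _ => by simp [D.one_mem]
        mul_mem' := by
          intro g h hg hh m hm
          have h1 : ⁅g * h, m⁆ = ⁅g, ⁅h, m⁆⁆ * ⁅h, m⁆ * ⁅g, m⁆ := by simp only [commutatorElement_def]; group
          rw [h1]
          exact D.mul_mem (D.mul_mem (hg _ (cS_le (hh m hm))) (hh m hm)) (hg m hm)
        inv_mem' := by
          intro g hg m hm
          have h1 : ⁅g⁻¹, m⁆ = ⁅g, g⁻¹ * m * g⁆⁻¹ := by simp only [commutatorElement_def]; group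
          rw [h1]
          refine D.inv_mem (hg _ ?_)
          have := hMn.conj_mem m hm g⁻¹
          simpa using this }
    have hx : x ∈ K := fun m hm => comm_mem hc hm
    have hK : Subgroup.zpowers x ≤ K := Subgroup.zpowers_le.2 hx
    rw [Subgroup.commutator_le]
    intro g hg m hm
    exact hK hg m hm
  · intro d hd
    obtain ⟨u, hu, rfl⟩ := mem_cS.1 hd
    exact Subgroup.commutator_mem_commutator (Subgroup.mem_zpowers x) hu

theorem elem_comm {S : Type*} [Group S] {p : ℕ} {A : Subgroup S} (hA : Cfsg.IsElementaryAbelian p A) :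
    ∀ a ∈ A, ∀ b ∈ A, a * b = b * a := fun _ ha _ hb => Cfsg.Agent.BG.commute_of_isMulCommutative hA.1 ha hb

/-- an elementary abelian group of order at least `r ^ 2` is not cyclic. -/
theorem not_cyclic {S : Type*} [Group S] [Finite S] {r : ℕ} (hr : r.Prime) {A : Subgroup S} (hA : ∀ a ∈ A, a ^ r = 1)
    (hcard : r ^ 2 ≤ Nat.card A) : ¬ IsCyclic A := by
  intro h
  obtain ⟨g, hg⟩ := h.exists_generator
  have h1 : orderOf g = Nat.card A := orderOf_eq_card_of_forall_mem_zpowers hg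
  have h2 : g ^ r = 1 := Subtype.ext (hA g g.2)
  have h3 : orderOf g ≤ r := Nat.le_of_dvd hr.pos (orderOf_dvd_of_pow_eq_one h2)
  have h4 : r < r ^ 2 := by
    have := hr.two_le
    nlinarith
  omega

theorem pRankLE_of_sylow' {G : Type*} [Group G] [Finite G] {p k : ℕ} [hp : Fact p.Prime] (P : Sylow p G)
    (h : Cfsg.PRankLE p k P) : Cfsg.PRankLE p k G := by
  intro A hA hA'
  have hAe : Cfsg.IsElementaryAbelian p A := ⟨hA, hA'⟩
  obtain ⟨Q, hQ⟩ := (Cfsg.Agent.BG.IsElementaryAbelian.isPGroup hAe).exists_le_sylow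
  obtain ⟨g, hg⟩ := MulAction.exists_smul_eq G Q P
  have h1 : A.map (MulAut.conj g).toMonoidHom ≤ (P : Subgroup G) := by
    rw [← hg, Sylow.coe_subgroup_smul]
    exact Subgroup.map_mono hQ
  have h2 := (Cfsg.Agent.BG.pRankLE_iff.1 h) _ h1 (Cfsg.Agent.BG.IsElementaryAbelian.map _ hAe)
  have h3 : Nat.card (A.map (MulAut.conj g).toMonoidHom) = Nat.card A :=
    (Nat.card_congr (A.equivMapOfInjective _ (MulAut.conj g).injective).toEquiv).symm
  rwa [h3] at h2


/-- Let S be a finite solvable group and M a normal elementary abelian 2-subgroup of S. Suppose S contains an elementary abelian subgroup of order p³ for some odd prime p, and a cyclic 3-subgroup Q such that the cubes of the elements of Q centralize M and the commutator subgroup [Q, M] has order 4 (a four-group inside M). Then S contains an elementary abelian subgroup F of order r³, for some odd prime r, whose centralizer of [Q, M] in F — the subgroup C_F([Q, M]) — is not cyclic.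 -/
theorem result {S : Type*} [Group S] [Finite S]
    [Group.IsSolvable S] (M : Subgroup S) [M.Normal] (hM : Cfsg.IsElementaryAbelian 2 M)
    (p : ℕ) (hp : p.Prime) (hp2 : p ≠ 2) (E : Subgroup S) (hE : Cfsg.IsElementaryAbelian p E) (hE3 : Nat.card ↥E = p ^ 3)
    (Q : Subgroup S) (hQc : IsCyclic ↥Q) (hQ3 : IsPGroup 3 ↥Q)
    (hQ1 : ∀ x ∈ Q, x ^ 3 ∈ Subgroup.centralizer (M : Set S)) (hQM : Nat.card ↥⁅Q, M⁆ = 4) :
    ∃ (r : ℕ) (F : Subgroup S), r.Prime ∧ r ≠ 2 ∧ Cfsg.IsElementaryAbelian r F ∧ Nat.card ↥F = r ^ 3 ∧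
      ¬ IsCyclic ↥(F ⊓ Subgroup.centralizer ((⁅Q, M⁆ : Subgroup S) : Set S)) := by
  classical
  have h3f := Fact.mk Nat.prime_three
  have hpf := Fact.mk hp
  obtain ⟨x₀, hx₀⟩ := hQc.exists_generator
  set x : S := (x₀ : S) with hx
  have hQz : Q = Subgroup.zpowers x := by
    apply le_antisymm
    · intro q hq
      obtain ⟨k, hk⟩ := Subgroup.mem_zpowers_iff.1 (hx₀ ⟨q, hq⟩)
      exact Subgroup.mem_zpowers_iff.2 ⟨k, by simpa using congrArg Subtype.val hk⟩
    · exact Subgroup.zpowers_le.2 x₀.2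
  have hxQ : x ∈ Q := x₀.2
  have hc : ∀ a ∈ M, ∀ b ∈ M, a * b = b * a := elem_comm hM
  have h2 : ∀ a ∈ M, a ^ 2 = 1 := hM.2
  have hx3 : x ^ 3 ∈ Subgroup.centralizer (M : Set S) := hQ1 x hxQ
  have hD : ⁅Q, M⁆ = Cfsg.Agent.BlkInd.NG.cS M hc x (Cfsg.Agent.BlkInd.NG.nM M x) := by
    rw [hQz]; exact commutator_zpowers hc x
  have h4 : Nat.card (Cfsg.Agent.BlkInd.NG.cS M hc x (Cfsg.Agent.BlkInd.NG.nM M x)) = 4 := by
    rw [← hD]; exact hQM
  rw [hD]
  set D := Cfsg.Agent.BlkInd.NG.cS M hc x (Cfsg.Agent.BlkInd.NG.nM M x) with hDdef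
  by_cases hr : Cfsg.PRankLE 3 2 S
  · -- `p ≥ 5`
    have hp3 : p ≠ 3 := by
      rintro rfl
      have := hr E hE.1 hE.2
      rw [hE3] at this
      norm_num at this
    have h5 : 5 ≤ p := by
      have h22 := hp.two_le
      by_contra hlt
      have h4' : p = 4 := by omega
      rw [h4'] at hp
      exact absurd hp (by norm_num)
    have hEp : IsPGroup p E := Cfsg.Agent.BG.IsElementaryAbelian.isPGroup hE
    -- a Hall `{3, p}`-subgroup
    have hQcard : ∀ r : ℕ, r.Prime → r ∣ Nat.card Q → r ∈ ({3, p} : Set ℕ) := by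
      intro r hr' hdvd
      obtain ⟨n, hn⟩ := IsPGroup.iff_card.1 hQ3
      rw [hn] at hdvd
      exact Or.inl ((Nat.prime_dvd_prime_iff_eq hr' Nat.prime_three).1 (hr'.dvd_of_dvd_pow hdvd))
    obtain ⟨H, hH, hQH⟩ := Cfsg.Agent.BG.exists_isPiHall_ge (π := ({3, p} : Set ℕ)) hQcard
    have hEcard : ∀ r : ℕ, r.Prime → r ∣ Nat.card E → r ∈ ({3, p} : Set ℕ) := by
      intro r hr' hdvd
      rw [hE3] at hdvd
      exact Or.inr ((Nat.prime_dvd_prime_iff_eq hr' hp).1 (hr'.dvd_of_dvd_pow hdvd))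
    obtain ⟨g, hg⟩ := Cfsg.Agent.BG.IsPiHall.exists_conj_ge hH hEcard
    -- `F = g⁻¹ E g ≤ H`
    set F : Subgroup S := E.map (MulAut.conj g⁻¹).toMonoidHom with hF
    have hFH : F ≤ H := by
      rintro f ⟨e, he, rfl⟩
      have h1 := hg he
      rw [Subgroup.mem_pointwise_smul_iff_inv_smul_mem] at h1
      simpa [← map_inv] using h1
    have hFe : Cfsg.IsElementaryAbelian p F := Cfsg.Agent.BG.IsElementaryAbelian.map _ hE
    have hFcard : Nat.card F = p ^ 3 := by
      rw [← hE3]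
      exact (Nat.card_congr (E.equivMapOfInjective _ (MulAut.conj g⁻¹).injective).toEquiv).symm
    have hsolH : Group.IsSolvable H := inferInstance
    have hrH : Cfsg.PRankLE 3 2 H := Cfsg.Agent.BG.PRankLE.subgroup hr H
    set V₀ : Subgroup H := Cfsg.pPrimeCore 3 H with hV₀
    have hV₀n : V₀.Normal := inferInstance
    have hV₀p : IsPGroup p V₀ := Cfsg.Agent.BlkInd.NG.core_isPGroup (H := H) (p := p) (fun r hr' hdvd => by
      rcases hH.1 r hr' hdvd with h | h
      · exact Or.inl h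
      · exact Or.inr h)
    set V : Subgroup S := V₀.map H.subtype with hV
    have hVp : IsPGroup p V := hV₀p.map _
    have hFV : F ≤ V := by
      intro f hf
      refine ⟨⟨f, hFH hf⟩, ?_, rfl⟩
      refine Cfsg.Agent.BlkInd.NG.p_elements_in_core hp h5 hrH _ ?_
      rw [Subgroup.orderOf_mk]
      obtain ⟨k, _, hk⟩ := (Nat.dvd_prime_pow hp).1 (show orderOf f ∣ p ^ 1 by
        rw [pow_one]; exact orderOf_dvd_of_pow_eq_one (hFe.2 f hf))
      exact ⟨k, hk⟩
    have hxV : x ∈ Subgroup.normalizer (V : Set S) := by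
      refine Cfsg.Agent.BlkInd.NG.mem_norm_of_conj ?_
      rintro v ⟨w, hw, rfl⟩
      exact ⟨⟨x, hQH hxQ⟩ * w * ⟨x, hQH hxQ⟩⁻¹, hV₀n.conj_mem w hw _, rfl⟩
    have hB := Cfsg.Agent.BlkInd.NG.lemmaB hc h2 hx3 h4 hp h5 hVp hxV F hFV
    refine ⟨p, F, hp, hp2, hFe, hFcard, ?_⟩
    refine not_cyclic hp (fun a ha => hFe.2 a (Subgroup.mem_inf.1 ha).1) ?_
    rw [hFcard] at hB
    have h1 : p * p ^ 2 ≤ p * Nat.card ↥(F ⊓ Subgroup.centralizer (D : Set S)) := by
      calc p * p ^ 2 = p ^ 3 := by ring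
        _ ≤ _ := hB
    exact Nat.le_of_mul_le_mul_left h1 hp.pos
  · -- `3`-rank at least 3
    obtain ⟨P, hQP⟩ := hQ3.exists_le_sylow
    have hrP : ¬ Cfsg.PRankLE 3 2 P := fun h => hr (pRankLE_of_sylow' P h)
    obtain ⟨N₀, hN₀n, hN₀e, hN₀c⟩ := Cfsg.Agent.BG.exists_normal_elementary_cube (by norm_num) P.2 hrP
    set N : Subgroup S := N₀.map (P : Subgroup S).subtype with hN
    have hNe : Cfsg.IsElementaryAbelian 3 N := Cfsg.Agent.BG.IsElementaryAbelian.map _ hN₀e
    have hNP : N ≤ P := Subgroup.map_subtype_le N₀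
    have hNcard : Nat.card N = 3 ^ 3 := by
      rw [← hN₀c]
      exact (Nat.card_congr (N₀.equivMapOfInjective _ (P : Subgroup S).subtype_injective).toEquiv).symm
    have hxN : x ∈ Subgroup.normalizer (N : Set S) := by
      refine Cfsg.Agent.BlkInd.NG.mem_norm_of_conj ?_
      rintro v ⟨w, hw, rfl⟩
      exact ⟨⟨x, hQP hxQ⟩ * w * ⟨x, hQP hxQ⟩⁻¹, hN₀n.conj_mem w hw _, rfl⟩
    have hND : N ≤ Subgroup.normalizer (D : Set S) :=
      Cfsg.Agent.BlkInd.NG.lemmaA hc h2 hx3 h4 N P (elem_comm hNe) P.2 hNP (hQP hxQ) hxN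
    refine ⟨3, N, Nat.prime_three, by norm_num, hNe, hNcard, ?_⟩
    refine not_cyclic Nat.prime_three (fun a ha => hNe.2 a (Subgroup.mem_inf.1 ha).1) ?_
    have hDnt : Nontrivial D := by
      rw [← Finite.one_lt_card_iff_nontrivial, h4]; norm_num
    obtain ⟨d, hd1⟩ := exists_ne (1 : D)
    have hd1' : (d : S) ≠ 1 := fun h => hd1 (Subtype.ext h)
    have h1 := Cfsg.Agent.BlkInd.NG.card_le_mul_card_centralizer N (d : S) ((D : Set S) \ {1}) (by
      intro n hn
      exact ⟨Cfsg.Agent.BlkInd.NG.conj_mem (hND hn) d.2, fun h => hd1' (conj_eq_one_iff.1 h)⟩)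
    have h3 : Nat.card ↥((D : Set S) \ {1}) = 3 := by
      rw [Nat.card_coe_set_eq, Set.ncard_sdiff_singleton_of_mem D.one_mem, ← Nat.card_coe_set_eq]
      have : Nat.card ↥(D : Set S) = 4 := h4
      rw [this]
    rw [h3, hNcard] at h1
    have h5 : 3 ^ 2 ≤ Nat.card ↥(N ⊓ Subgroup.centralizer ({(d : S)} : Set S)) := by omega
    refine h5.trans (Nat.card_le_card_of_injective _ (Subgroup.inclusion_injective ?_))
    intro v hv
    obtain ⟨hvN, hvd⟩ := Subgroup.mem_inf.1 hv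
    refine Subgroup.mem_inf.2 ⟨hvN, ?_⟩
    refine Cfsg.Agent.BlkInd.NG.centralize_of_fix h4 (fun d hd => h2 d (Cfsg.Agent.BlkInd.NG.cS_le hd)) (hND hvN) ?_ d.2 hd1'
      (Subgroup.mem_centralizer_singleton_iff.1 hvd)
    obtain ⟨k, hk⟩ := (IsPGroup.iff_orderOf.1 P.2) ⟨v, hNP hvN⟩
    rw [Subgroup.orderOf_mk] at hk
    rw [hk]; exact Odd.pow (by decide)

end Cfsg.Agent.S4404
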