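import Cfsg.Statements.S4405
import Cfsg.Agent.Solv.Core
import Cfsg.Agent.Extra.Basic

set_option autoImplicit false
open Cfsg

namespace Cfsg.Agent.S4405

open Subgroup
open scoped Pointwise

theorem card_centralizer_modEq {G : Type*} [Group G] [Finite G] {q : ℕ} [Fact q.Prime] (H : Subgroup G)
    [H.Normal] (g : G) (hg : orderOf g = q) :
    Nat.card H ≡ Nat.card (H ⊓ centralizer {g} : Subgroup G) [MOD q] := by
  classical
  letI : MulAction (zpowers g) H := MulAction.compHom H ((MulAut.conjNormal (H := H)).comp (zpowers g).subtype)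
  have hsm : ∀ (k : zpowers g) (x : H), ((k • x : H) : G) = (k : G) * x * (k : G)⁻¹ := fun k x => rfl
  have hp : IsPGroup q (zpowers g) := IsPGroup.of_card (n := 1) (by rw [Nat.card_zpowers, hg, pow_one])
  have h1 := hp.card_modEq_card_fixedPoints H
  have h2 : Nat.card (MulAction.fixedPoints (zpowers g) H) = Nat.card (H ⊓ centralizer {g} : Subgroup G) := by
    refine Nat.card_congr ⟨fun x => ⟨x.1.1, x.1.2, ?_⟩, fun x => ⟨⟨x.1, x.2.1⟩, ?_⟩, ?_, ?_⟩
    · apply mem_centralizer_singleton_iff.mpr
      have h3 := x.2 ⟨g, mem_zpowers g⟩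
      have h4 := congrArg Subtype.val h3
      rw [hsm] at h4
      exact (mul_inv_eq_iff_eq_mul.mp h4).symm
    · intro k
      apply Subtype.ext
      rw [hsm]
      obtain ⟨k, hk⟩ := k
      obtain ⟨i, rfl⟩ := mem_zpowers_iff.mp hk
      have h3 : Commute (x : G) g := mem_centralizer_singleton_iff.mp x.2.2
      have h4 := (h3.zpow_right i).eq
      change g ^ i * (x : G) * (g ^ i)⁻¹ = x
      rw [← h4, mul_inv_cancel_right]
    · intro x; rfl
    · intro x; rfl
  rw [h2] at h1
  exact h1

/-- Let G be a finite group of order 320 = 64·5 whose largest normal 2-subgroup H = O₂(G) equals the Fitting subgroup F(G) and is extraspecial of order 32 containing no elementary abelian subgroup of order 8 (so H is the central product of a quaternion group and a dihedral group of order 8). If T is an involution of G outside H whose centralizer in H contains an elementary abelian subgroup of order 4, then C_H(T) itself is elementary abelian of order 4. -/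
theorem result {G : Type*} [Group G] [Finite G]
    (hG : Nat.card G = 320) (hHF : Cfsg.pCore 2 G = Cfsg.fittingSubgroup G)
    (hex : Cfsg.IsExtraspecial 2 ↥(Cfsg.pCore 2 G)) (h32 : Nat.card ↥(Cfsg.pCore 2 G) = 32)
    (hminus : ∀ A : Subgroup G, A ≤ Cfsg.pCore 2 G → Cfsg.IsElementaryAbelian 2 A → Nat.card ↥A ≤ 4)
    (T : G) (hT : orderOf T = 2) (hTH : T ∉ Cfsg.pCore 2 G)
    (V : Subgroup G) (hV : V ≤ Cfsg.pCore 2 G ⊓ Subgroup.centralizer ({T} : Set G)) (hV4 : Nat.card ↥V = 4) (hVe : Cfsg.IsElementaryAbelian 2 V) :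
    Nat.card ↥(Cfsg.pCore 2 G ⊓ Subgroup.centralizer ({T} : Set G)) = 4 ∧
      Cfsg.IsElementaryAbelian 2 (Cfsg.pCore 2 G ⊓ Subgroup.centralizer ({T} : Set G)) := by
  classical
  haveI : Fact (Nat.Prime 2) := ⟨Nat.prime_two⟩
  haveI : Fact (Nat.Prime 5) := ⟨Nat.prime_five⟩
  obtain ⟨H, hH⟩ : ∃ H, H = Cfsg.pCore 2 G := ⟨_, rfl⟩
  have hHn : H.Normal := by rw [hH]; infer_instance
  rw [← hH] at hHF hex h32 hminus hTH hV ⊢
  have hHp : IsPGroup 2 H := IsPGroup.of_card (n := 5) h32
  -- the centre
  obtain ⟨Z, hZd⟩ : ∃ Z, Z = (Subgroup.center ↥H).map H.subtype := ⟨_, rfl⟩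
  have hZn : Z.Normal := by rw [hZd]; infer_instance
  have hZmem : ∀ x, x ∈ Z ↔ x ∈ H ∧ ∀ y ∈ H, x * y = y * x := by
    intro x
    rw [hZd]
    constructor
    · rintro ⟨y, hy, rfl⟩
      refine ⟨y.2, fun w hw => ?_⟩
      exact (congrArg Subtype.val (Subgroup.mem_center_iff.mp hy ⟨w, hw⟩)).symm
    · rintro ⟨h1, h2⟩
      refine ⟨⟨x, h1⟩, ?_, rfl⟩
      rw [SetLike.mem_coe, Subgroup.mem_center_iff]
      intro w
      exact Subtype.ext (h2 w w.2).symm
  have hZc : Nat.card Z = 2 := by
    rw [hZd, Subgroup.card_map_of_injective H.subtype_injective]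
    exact hex.2
  have hZH : Z ≤ H := fun x hx => ((hZmem x).mp hx).1
  obtain ⟨z, hz1, hz⟩ : ∃ z ∈ Z, z ≠ 1 := by
    haveI : Nontrivial Z := by
      rw [← Finite.one_lt_card_iff_nontrivial, hZc]; norm_num
    obtain ⟨x, hx⟩ := exists_ne (1 : Z)
    exact ⟨x, x.2, fun h => hx (Subtype.ext h)⟩
  have hZ2 : ∀ x ∈ Z, x = 1 ∨ x = z := by
    have h1 : ({1, z} : Finset G) = (Set.toFinite (Z : Set G)).toFinset := by
      apply Finset.eq_of_subset_of_card_le
      · intro w hw
        simp only [Finset.mem_insert, Finset.mem_singleton] at hw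
        rw [Set.Finite.mem_toFinset, SetLike.mem_coe]
        rcases hw with rfl | rfl
        · exact one_mem _
        · exact hz1
      · rw [← Set.ncard_eq_toFinset_card, Finset.card_pair (Ne.symm hz)]
        exact hZc.le
    intro x hx
    have h2 : x ∈ (Set.toFinite (Z : Set G)).toFinset := by
      rw [Set.Finite.mem_toFinset]; exact hx
    rw [← h1] at h2
    simpa using h2
  have hzG : ∀ g : G, g * z = z * g := by
    intro g
    have h1 : g * z * g⁻¹ ∈ Z := hZn.conj_mem z hz1 g
    rcases hZ2 _ h1 with h2 | h2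
    · exfalso
      apply hz
      calc z = g⁻¹ * (g * z * g⁻¹) * g := by group
        _ = 1 := by rw [h2]; group
    · exact mul_inv_eq_iff_eq_mul.mp h2
  have hzz : z * z = 1 := by
    rcases hZ2 _ (mul_mem hz1 hz1) with h | h
    · exact h
    · exact absurd (mul_left_cancel (h.trans (mul_one z).symm)) hz
  have hcommH : ∀ x ∈ H, ∀ y ∈ H, x * y * x⁻¹ * y⁻¹ ∈ Z := by
    intro x hx y hy
    have h1 : (⟨x, hx⟩ : H) * ⟨y, hy⟩ * (⟨x, hx⟩ : H)⁻¹ * (⟨y, hy⟩ : H)⁻¹ ∈ commutator H :=
      Subgroup.commutator_mem_commutator (Subgroup.mem_top _) (Subgroup.mem_top _)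
    rw [hex.1.2.2] at h1
    rw [hZd]
    exact ⟨_, h1, rfl⟩
  -- order of elements of H
  have hHpow : ∀ x ∈ H, x ^ 32 = 1 := by
    intro x hx
    have h1 : (⟨x, hx⟩ : H) ^ Nat.card H = 1 := pow_card_eq_one'
    rw [h32] at h1
    exact congrArg Subtype.val h1
  -- elements of order 5 have centralizer Z in H
  have hfive : ∀ g : G, orderOf g = 5 → Nat.card (H ⊓ centralizer {g} : Subgroup G) = 2 := by
    intro g hg
    have h1 := card_centralizer_modEq H g hg
    rw [h32] at h1
    have h2 : Nat.card (H ⊓ centralizer {g} : Subgroup G) ∣ 2 ^ 5 := by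
      have := Subgroup.card_dvd_of_le (inf_le_left : H ⊓ centralizer {g} ≤ H)
      rwa [h32] at this
    obtain ⟨k, hk, hk'⟩ := (Nat.dvd_prime_pow Nat.prime_two).mp h2
    rw [hk'] at h1 ⊢
    interval_cases k
    · exact absurd h1 (by decide)
    · norm_num
    · exact absurd h1 (by decide)
    · exact absurd h1 (by decide)
    · exact absurd h1 (by decide)
    · exfalso
      -- g centralizes H
      have h3 : H ⊓ centralizer {g} = H := Subgroup.eq_of_le_of_card_ge inf_le_left (by rw [hk', h32]; norm_num)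
      have hgH : ∀ x ∈ H, x * g = g * x := by
        intro x hx
        rw [← h3] at hx
        exact mem_centralizer_singleton_iff.mp hx.2
      have hcom : ∀ (m : H) (n : zpowers g), Commute (H.subtype m) ((zpowers g).subtype n) := by
        rintro ⟨m, hm⟩ ⟨n, hn⟩
        obtain ⟨i, rfl⟩ := mem_zpowers_iff.mp hn
        exact (show Commute m g from hgH m hm).zpow_right i
      let f : H × zpowers g →* G := MonoidHom.noncommCoprod H.subtype (zpowers g).subtype hcom
      have hfH : H ≤ f.range := by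
        intro x hx
        exact ⟨(⟨x, hx⟩, 1), by simp [f]⟩
      have hfg : g ∈ f.range := ⟨(1, ⟨g, mem_zpowers g⟩), by simp [f]⟩
      have hcardf : Nat.card f.range ∣ 160 := by
        have := Subgroup.card_range_dvd f
        rw [Nat.card_prod, h32, Nat.card_zpowers, hg] at this
        exact this
      have h5f : 5 ∣ Nat.card f.range := by
        rw [← hg]
        have := orderOf_dvd_natCard (⟨g, hfg⟩ : f.range)
        rwa [Subgroup.orderOf_mk] at this
      have h32f : 32 ∣ Nat.card f.range := by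
        rw [← h32]; exact Subgroup.card_dvd_of_le hfH
      have hcf : Nat.card f.range = 160 := by
        apply Nat.dvd_antisymm hcardf
        have : Nat.Coprime 32 5 := by norm_num
        have h := Nat.Coprime.mul_dvd_of_dvd_of_dvd this h32f h5f
        exact h
      have hidx : f.range.index = 2 := by
        have h := Subgroup.card_mul_index f.range
        rw [hcf, hG] at h
        omega
      have hfn : f.range.Normal := Subgroup.normal_of_index_eq_two hidx
      haveI := hHp.isNilpotent
      have hg5 : IsPGroup 5 (zpowers g) := IsPGroup.of_card (n := 1) (by rw [Nat.card_zpowers, hg, pow_one])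
      haveI := hg5.isNilpotent
      haveI : Group.IsNilpotent (H × zpowers g) := Group.isNilpotent_prod
      have hnil : Group.IsNilpotent f.range := Group.nilpotent_of_surjective f.rangeRestrict f.rangeRestrict_surjective
      have hle1 : f.range ≤ Cfsg.fittingSubgroup G := le_sSup ⟨hfn, hnil⟩
      have hle : f.range ≤ H := hle1.trans hHF.ge
      have := hHpow g (hle hfg)
      have h6 := orderOf_dvd_of_pow_eq_one this
      rw [hg] at h6
      norm_num at h6
  -- a commutator of T outside H
  have hTT : T * T = 1 := by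
    have := pow_orderOf_eq_one T
    rwa [hT, pow_two] at this
  have hTi : T⁻¹ = T := inv_eq_of_mul_eq_one_right hTT
  obtain ⟨f, hf⟩ : ∃ f : G, T * f * T⁻¹ * f⁻¹ ∉ H := by
    by_contra hcon
    push Not at hcon
    apply hTH
    have hN : ((zpowers (QuotientGroup.mk' H T)).comap (QuotientGroup.mk' H)).Normal := by
      have : (zpowers (QuotientGroup.mk' H T)).Normal := by
        constructor
        intro x hx y
        obtain ⟨i, rfl⟩ := mem_zpowers_iff.mp hx
        obtain ⟨y, rfl⟩ := QuotientGroup.mk'_surjective H y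
        have h1 : Commute (QuotientGroup.mk' H y) (QuotientGroup.mk' H T) := by
          have h2 : QuotientGroup.mk' H (T * y * T⁻¹ * y⁻¹) = 1 := by
            rw [← MonoidHom.mem_ker, QuotientGroup.ker_mk']
            exact hcon y
          rw [map_mul, map_mul, map_mul, map_inv, map_inv] at h2
          have h3 : QuotientGroup.mk' H T * QuotientGroup.mk' H y = QuotientGroup.mk' H y * QuotientGroup.mk' H T := by
            have h4 := mul_inv_eq_one.mp h2
            exact mul_inv_eq_iff_eq_mul.mp h4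
          exact h3.symm
        rw [(h1.zpow_right i).eq, mul_inv_cancel_right]
        exact hx
      exact this.comap _
    have hNp : IsPGroup 2 ((zpowers (QuotientGroup.mk' H T)).comap (QuotientGroup.mk' H)) := by
      apply IsPGroup.comap_of_ker_isPGroup
      · have h1 : (QuotientGroup.mk' H T) ^ 2 = 1 := by rw [← map_pow, pow_two, hTT, map_one]
        rw [IsPGroup.iff_orderOf]
        intro x
        have h2 : orderOf (QuotientGroup.mk' H T) ∣ 2 ^ 1 := orderOf_dvd_of_pow_eq_one (by rw [pow_one]; exact h1)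
        have h3 : orderOf x ∣ 2 ^ 1 := by
          have h4 := orderOf_dvd_natCard x
          rw [Nat.card_zpowers] at h4
          exact h4.trans h2
        obtain ⟨k, -, hk⟩ := (Nat.dvd_prime_pow Nat.prime_two).mp h3
        exact ⟨k, hk⟩
      · rw [QuotientGroup.ker_mk']; exact hHp
    have h1 := Cfsg.Agent.Solv.le_pCore hN hNp
    rw [← hH] at h1
    exact h1 (mem_zpowers (QuotientGroup.mk' H T))
  obtain ⟨g, hg⟩ : ∃ g, g = T * f * T⁻¹ * f⁻¹ := ⟨_, rfl⟩
  rw [← hg] at hf
  -- g^5 ∈ H
  have hg5 : (QuotientGroup.mk' H g) ^ 5 = 1 := by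
    have hQ : Nat.card (G ⧸ H) = 10 := by
      have := Subgroup.card_mul_index H
      rw [h32, hG] at this
      change H.index = 10
      omega
    obtain ⟨y, hy⟩ := exists_prime_orderOf_dvd_card' (G := G ⧸ H) 5 (by rw [hQ]; norm_num)
    have hidx : (zpowers y).index = 2 := by
      have := Subgroup.card_mul_index (zpowers y)
      rw [Nat.card_zpowers, hy, hQ] at this
      omega
    have h1 : QuotientGroup.mk' H g ∈ zpowers y := by
      rw [hg, map_mul, map_mul, map_mul, map_inv, map_inv, mul_mem_iff_of_index_two hidx,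
        mul_mem_iff_of_index_two hidx, mul_mem_iff_of_index_two hidx, inv_mem_iff, inv_mem_iff]
      tauto
    obtain ⟨i, hi⟩ := mem_zpowers_iff.mp h1
    have h5 : y ^ 5 = 1 := by rw [← hy]; exact pow_orderOf_eq_one y
    rw [← hi, ← zpow_natCast, ← zpow_mul, mul_comm, zpow_mul, zpow_natCast, h5, one_zpow]
  have hg5' : g ^ 5 ∈ H := by
    rw [← map_pow, ← MonoidHom.mem_ker, QuotientGroup.ker_mk'] at hg5
    exact hg5
  obtain ⟨g', hg'⟩ : ∃ g', g' = g ^ 32 := ⟨_, rfl⟩
  have hg'5 : g' ^ 5 = 1 := by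
    rw [hg', ← pow_mul, mul_comm, pow_mul]
    exact hHpow _ hg5'
  have hg'H : g' ∉ H := by
    intro h
    have h1 : (QuotientGroup.mk' H g) ^ 32 = 1 := by
      rw [← map_pow, ← hg', ← MonoidHom.mem_ker, QuotientGroup.ker_mk']
      exact h
    apply hf
    rw [← QuotientGroup.ker_mk' H, MonoidHom.mem_ker]
    have h2 : (QuotientGroup.mk' H g) ^ (Nat.gcd 5 32) = 1 := pow_gcd_eq_one.mpr ⟨hg5, h1⟩
    simpa using h2
  have hg'o : orderOf g' = 5 := orderOf_eq_prime hg'5 (fun h => hg'H (by rw [h]; exact one_mem _))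
  -- the subgroup K
  let π := QuotientGroup.mk' Z
  have hπ : ∀ x, π x = 1 ↔ x ∈ Z := fun x => by
    change QuotientGroup.mk' Z x = 1 ↔ x ∈ Z
    rw [← MonoidHom.mem_ker, QuotientGroup.ker_mk']
  obtain ⟨K, hK⟩ : ∃ K, K = H ⊓ (centralizer {π T}).comap π := ⟨_, rfl⟩
  have hKm : ∀ x, x ∈ K ↔ x ∈ H ∧ π x * π T = π T * π x := by
    intro x
    rw [hK, mem_inf, mem_comap, mem_centralizer_singleton_iff]
  have hKH : K ≤ H := by rw [hK]; exact inf_le_left
  have hK8 : Nat.card K ≤ 8 := by
    obtain ⟨K', hK'⟩ : ∃ K', K' = MulAut.conj f • K := ⟨_, rfl⟩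
    have hK'm : ∀ x, x ∈ K' ↔ x ∈ H ∧ π x * π (f * T * f⁻¹) = π (f * T * f⁻¹) * π x := by
      intro x
      rw [hK', Subgroup.mem_pointwise_smul_iff_inv_smul_mem, hKm]
      have e1 : (MulAut.conj f)⁻¹ • x = f⁻¹ * x * f := by
        simp [← map_inv, MulAut.conj_apply]
      rw [e1]
      constructor
      · rintro ⟨h1, h2⟩
        refine ⟨?_, ?_⟩
        · have := hHn.conj_mem _ h1 f
          have e2 : f * (f⁻¹ * x * f) * f⁻¹ = x := by group
          rwa [e2] at this
        · simp only [map_mul, map_inv] at h2 ⊢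
          calc π x * (π f * π T * (π f)⁻¹) = π f * (((π f)⁻¹ * π x * π f) * π T) * (π f)⁻¹ := by group
            _ = π f * (π T * ((π f)⁻¹ * π x * π f)) * (π f)⁻¹ := by rw [h2]
            _ = (π f * π T * (π f)⁻¹) * π x := by group
      · rintro ⟨h1, h2⟩
        refine ⟨?_, ?_⟩
        · have := hHn.conj_mem _ h1 f⁻¹
          rwa [inv_inv] at this
        · simp only [map_mul, map_inv] at h2 ⊢
          calc ((π f)⁻¹ * π x * π f) * π T = (π f)⁻¹ * (π x * (π f * π T * (π f)⁻¹)) * π f := by group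
            _ = (π f)⁻¹ * ((π f * π T * (π f)⁻¹) * π x) * π f := by rw [h2]
            _ = π T * ((π f)⁻¹ * π x * π f) := by group
    have hK'H : K' ≤ H := fun x hx => ((hK'm x).mp hx).1
    have hA : K ⊓ K' ≤ H ⊓ centralizer {g'} := by
      rintro x ⟨h1, h2⟩
      have h3 := ((hKm x).mp h1).2
      have h4 := ((hK'm x).mp h2).2
      refine ⟨hKH h1, ?_⟩
      apply mem_centralizer_singleton_iff.mpr
      -- commutes mod Z with g
      have h5 : Commute (π x) (π g) := by
        have e : g = T * (f * T * f⁻¹) := by rw [hg, hTi]; group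
        rw [e, map_mul]
        exact (show Commute (π x) (π T) from h3).mul_right h4
      have h6 : Commute (π x) (π g') := by
        rw [hg', map_pow]; exact h5.pow_right 32
      have h7 : g' * x * g'⁻¹ * x⁻¹ ∈ Z := by
        rw [← hπ, map_mul, map_mul, map_mul, map_inv, map_inv, ← h6.eq]
        group
      obtain ⟨ζ, hζ⟩ : ∃ ζ, ζ = g' * x * g'⁻¹ * x⁻¹ := ⟨_, rfl⟩
      rw [← hζ] at h7
      have h8 : g' * x * g'⁻¹ = ζ * x := by rw [hζ]; group
      have hζc : ∀ y : G, y * ζ = ζ * y := by
        intro y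
        rcases hZ2 ζ h7 with h | h
        · rw [h, mul_one, one_mul]
        · rw [h]; exact hzG y
      have h9 : ∀ k : ℕ, g' ^ k * x * (g' ^ k)⁻¹ = ζ ^ k * x := by
        intro k
        induction k with
        | zero => simp
        | succ k ih =>
          have e1 : g' ^ (k + 1) * x * (g' ^ (k + 1))⁻¹ = g' * (g' ^ k * x * (g' ^ k)⁻¹) * g'⁻¹ := by
            rw [pow_succ']; group
          have e2 : g' * ζ ^ k = ζ ^ k * g' := ((show Commute g' ζ from hζc g').pow_right k).eq
          rw [e1, ih]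
          calc g' * (ζ ^ k * x) * g'⁻¹ = (g' * ζ ^ k) * x * g'⁻¹ := by group
            _ = ζ ^ k * (g' * x * g'⁻¹) := by rw [e2]; group
            _ = ζ ^ (k + 1) * x := by rw [h8, pow_succ]; group
      have h10 := h9 5
      rw [hg'5, one_mul, inv_one, mul_one] at h10
      have h11 : ζ ^ 5 = 1 := (mul_eq_right.mp h10.symm)
      have h12 : ζ = 1 := by
        rcases hZ2 ζ h7 with h | h
        · exact h
        · exfalso
          rw [h] at h11
          apply hz
          have : z ^ 5 = (z * z) * (z * z) * z := by simp only [pow_succ, pow_zero, one_mul, mul_assoc]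
          rw [this, hzz, one_mul, one_mul] at h11
          exact h11
      rw [h12, one_mul] at h8
      exact (mul_inv_eq_iff_eq_mul.mp h8).symm
    have hA2 : Nat.card (K ⊓ K' : Subgroup G) ≤ 2 := by
      rw [← hfive g' hg'o]
      exact Subgroup.card_le_of_le hA
    have hKK' : Nat.card K' = Nat.card K := by
      rw [hK']
      exact (Nat.card_congr (Subgroup.equivSMul (MulAut.conj f) K).toEquiv).symm
    have h1 : Nat.card (K ⊓ K' : Subgroup G) * K'.relIndex K = Nat.card K := by
      have := Subgroup.relIndex_mul_relIndex ⊥ (K ⊓ K') K bot_le inf_le_left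
      rw [Subgroup.relIndex_bot_left, Subgroup.relIndex_bot_left, inf_relIndex_left] at this
      exact this
    have h2 : K'.relIndex K ≤ K'.relIndex H := relIndex_le_of_le_right hKH (by
      have h5 : K'.relIndex H ∣ Nat.card H := relIndex_dvd_card _ _
      exact (Nat.pos_of_dvd_of_pos h5 Nat.card_pos).ne')
    have h3 : Nat.card K' * K'.relIndex H = 32 := by
      have := Subgroup.relIndex_mul_relIndex ⊥ K' H bot_le hK'H
      rwa [Subgroup.relIndex_bot_left, Subgroup.relIndex_bot_left, h32] at this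
    rw [hKK'] at h3
    have h4 : Nat.card K * Nat.card K ≤ 64 := by
      calc Nat.card K * Nat.card K = Nat.card K * (Nat.card (K ⊓ K' : Subgroup G) * K'.relIndex K) := by rw [h1]
        _ ≤ Nat.card K * (2 * K'.relIndex H) := Nat.mul_le_mul_left _ (Nat.mul_le_mul hA2 h2)
        _ = 2 * (Nat.card K * K'.relIndex H) := by ring
        _ = 64 := by rw [h3]
    by_contra hlt
    push Not at hlt
    nlinarith
  -- the centralizer of T in H
  obtain ⟨D, hD⟩ : ∃ D, D = H ⊓ centralizer ({T} : Set G) := ⟨_, rfl⟩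
  rw [← hD] at hV ⊢
  have hDm : ∀ x, x ∈ D ↔ x ∈ H ∧ x * T = T * x := by
    intro x
    rw [hD, mem_inf, mem_centralizer_singleton_iff]
  have hDK : D ≤ K := by
    intro x hx
    rw [hDm] at hx
    rw [hKm]
    refine ⟨hx.1, ?_⟩
    rw [← map_mul, ← map_mul, hx.2]
  have hDH : D ≤ H := hDK.trans hKH
  have hDcard : Nat.card D ∣ 32 := by rw [← h32]; exact Subgroup.card_dvd_of_le hDH
  have hD4 : 4 ∣ Nat.card D := by rw [← hV4]; exact Subgroup.card_dvd_of_le hV
  have hD8 : Nat.card D ≤ 8 := (Subgroup.card_le_of_le hDK).trans hK8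
  have hcase : Nat.card D = 4 ∨ Nat.card D = 8 := by
    obtain ⟨k, hk⟩ := hD4
    have hpos : 0 < Nat.card D := Nat.card_pos
    omega
  rcases hcase with h4 | h8
  · refine ⟨h4, ?_⟩
    have : V = D := Subgroup.eq_of_le_of_card_ge hV (by rw [h4, hV4])
    rw [← this]
    exact hVe
  · exfalso
    have hKD : D = K := Subgroup.eq_of_le_of_card_ge hDK (by rw [h8]; exact hK8)
    -- the map θ
    have hπc : ∀ x ∈ H, ∀ y ∈ H, π x * π y = π y * π x := by
      intro x hx y hy
      have h1 := (hπ _).mpr (hcommH x hx y hy)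
      rw [map_mul, map_mul, map_mul, map_inv, map_inv] at h1
      exact mul_inv_eq_iff_eq_mul.mp (mul_inv_eq_one.mp h1)
    have hTH' : ∀ w ∈ H, T * w * T⁻¹ ∈ H := fun w hw => hHn.conj_mem w hw T
    let θ : H →* G ⧸ Z :=
      { toFun := fun w => π ((w : G)⁻¹ * (T * w * T⁻¹))
        map_one' := by simp
        map_mul' := by
          intro v w
          have e1 : ((v * w : H) : G)⁻¹ * (T * ((v * w : H) : G) * T⁻¹) =
              (w : G)⁻¹ * ((v : G)⁻¹ * (T * v * T⁻¹)) * (T * w * T⁻¹) := by
            rw [Subgroup.coe_mul]; group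
          have e2 : π ((w : G)⁻¹ * ((v : G)⁻¹ * (T * v * T⁻¹)) * (T * w * T⁻¹)) =
              (π (w : G)⁻¹ * π ((v : G)⁻¹ * (T * v * T⁻¹))) * π (T * w * T⁻¹) := by
            rw [map_mul, map_mul]
          have e3 := hπc _ (inv_mem w.2) _ (mul_mem (inv_mem v.2) (hTH' v v.2))
          change π (((v * w : H) : G)⁻¹ * (T * ((v * w : H) : G) * T⁻¹)) = _
          rw [e1, e2, e3, mul_assoc, ← map_mul] }
    have hθ : ∀ w : H, θ w = π ((w : G)⁻¹ * (T * w * T⁻¹)) := fun w => rfl
    have hker : Nat.card θ.ker = 8 := by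
      have h1 : θ.ker = K.subgroupOf H := by
        ext w
        rw [MonoidHom.mem_ker, mem_subgroupOf, hKm, hθ]
        constructor
        · intro h
          refine ⟨w.2, ?_⟩
          simp only [map_mul, map_inv] at h
          have h2 : π T * π w * (π T)⁻¹ = π w := by
            have := mul_left_cancel (a := (π (w : G))⁻¹) (b := π T * π w * (π T)⁻¹) (c := π w)
              (by rw [h, inv_mul_cancel])
            exact this
          exact (mul_inv_eq_iff_eq_mul.mp h2).symm
        · rintro ⟨-, h⟩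
          simp only [map_mul, map_inv]
          rw [← h, mul_inv_cancel_right, inv_mul_cancel]
      rw [h1, Nat.card_congr (Subgroup.subgroupOfEquivOfLe hKH).toEquiv, ← hKD, h8]
    have hrange : Nat.card θ.range = 4 := by
      have h1 := Subgroup.card_mul_index θ.ker
      rw [hker, Subgroup.index_ker, h32] at h1
      omega
    have hKmap : Nat.card (K.map π) = 4 := by
      have h1 : Nat.card (K.map π) = Z.relIndex K := by
        have := Subgroup.relIndex_ker (K := K) π
        rw [QuotientGroup.ker_mk'] at this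
        exact this.symm
      have hZK : Z ≤ K := by
        intro x hx
        rw [hKm]
        refine ⟨hZH hx, ?_⟩
        rw [(hπ x).mpr hx, one_mul, mul_one]
      have h2 := Subgroup.relIndex_mul_relIndex ⊥ Z K bot_le hZK
      rw [Subgroup.relIndex_bot_left, Subgroup.relIndex_bot_left, hZc, ← hKD, h8] at h2
      rw [h1, ← hKD]
      omega
    -- the element c
    have hcinv : ∀ w : G, T * (w⁻¹ * (T * w * T⁻¹)) * T⁻¹ = (w⁻¹ * (T * w * T⁻¹))⁻¹ := by
      intro w
      rw [hTi]
      calc T * (w⁻¹ * (T * w * T)) * T = T * w⁻¹ * T * w * (T * T) := by group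
        _ = T * w⁻¹ * T * w := by rw [hTT, mul_one]
        _ = (w⁻¹ * (T⁻¹ * w * T⁻¹))⁻¹ := by group
        _ = (w⁻¹ * (T * w * T))⁻¹ := by rw [hTi]
    have hsqZ : ∀ x ∈ H, x * x ∈ Z := by
      intro x hx
      have h1 := Cfsg.Agent.Extra.pow_mem_center_of_isSpecial hex.1 (⟨x, hx⟩ : H)
      rw [hZd]
      refine ⟨_, h1, ?_⟩
      change x ^ 2 = x * x
      rw [pow_two]
    have hle : θ.range ≤ K.map π := by
      rintro _ ⟨w, rfl⟩
      rw [hθ]
      refine ⟨_, ?_, rfl⟩
      rw [SetLike.mem_coe, hKm]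
      have hcH : (w : G)⁻¹ * (T * w * T⁻¹) ∈ H := mul_mem (inv_mem w.2) (hTH' w w.2)
      refine ⟨hcH, ?_⟩
      obtain ⟨c, hc⟩ : ∃ c, c = (w : G)⁻¹ * (T * w * T⁻¹) := ⟨_, rfl⟩
      have h1 := hcinv (w : G)
      rw [← hc] at h1 hcH ⊢
      have h2 : π c * π c = 1 := by rw [← map_mul, hπ]; exact hsqZ c hcH
      have h3 : π T * π c * (π T)⁻¹ = (π c)⁻¹ := by
        rw [← map_inv, ← map_inv, ← map_mul, ← map_mul, h1]
      have h4 : (π c)⁻¹ = π c := inv_eq_of_mul_eq_one_right h2
      rw [h4] at h3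
      exact (mul_inv_eq_iff_eq_mul.mp h3).symm
    have heq : θ.range = K.map π := Subgroup.eq_of_le_of_card_ge hle (by rw [hrange, hKmap])
    have hDsq : ∀ d ∈ D, d ^ 2 = 1 := by
      intro d hd
      have h1 : π d ∈ θ.range := by
        rw [heq]
        exact ⟨d, hDK hd, rfl⟩
      obtain ⟨w, hw⟩ := h1
      rw [hθ] at hw
      obtain ⟨c, hc⟩ : ∃ c, c = (w : G)⁻¹ * (T * w * T⁻¹) := ⟨_, rfl⟩
      have h2 := hcinv (w : G)
      have hcH : (w : G)⁻¹ * (T * w * T⁻¹) ∈ H := mul_mem (inv_mem w.2) (hTH' w w.2)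
      rw [← hc] at hw h2 hcH
      have h3 : c⁻¹ * d ∈ Z := by
        rw [← hπ, map_mul, map_inv, hw, inv_mul_cancel]
      have hdc : d = c * (c⁻¹ * d) := by group
      have hcD : c ∈ D := by
        have h4 : c = d * (c⁻¹ * d)⁻¹ := by group
        rw [h4]
        refine mul_mem hd (inv_mem ?_)
        rw [hDm]
        refine ⟨hZH h3, ?_⟩
        rcases hZ2 _ h3 with h | h
        · rw [h, one_mul, mul_one]
        · rw [h]; exact (hzG T).symm
      have h5 : c * T = T * c := ((hDm c).mp hcD).2
      have h6 : c * c = 1 := by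
        rw [← h5, mul_inv_cancel_right] at h2
        exact mul_eq_one_iff_eq_inv.mpr h2
      rcases hZ2 _ h3 with h | h
      · rw [hdc, h, mul_one, pow_two, h6]
      · rw [hdc, h]
        have := hzG c
        calc (c * z) ^ 2 = (c * (z * c)) * z := by rw [pow_two]; group
          _ = (c * c) * (z * z) := by rw [← this]; group
          _ = 1 := by rw [h6, hzz, one_mul]
    have hDab : IsMulCommutative D := by
      refine ⟨⟨?_⟩⟩
      rintro ⟨x, hx⟩ ⟨y, hy⟩
      apply Subtype.ext
      change x * y = y * x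
      have h1 := hDsq _ (mul_mem hx hy)
      have h2 := hDsq _ hx
      have h3 := hDsq _ hy
      have hx' : x⁻¹ = x := inv_eq_of_mul_eq_one_right (by rw [← pow_two]; exact h2)
      have hy' : y⁻¹ = y := inv_eq_of_mul_eq_one_right (by rw [← pow_two]; exact h3)
      have h4 : (x * y)⁻¹ = x * y := inv_eq_of_mul_eq_one_right (by rw [← pow_two]; exact h1)
      rw [mul_inv_rev, hx', hy'] at h4
      exact h4.symm
    have := hminus D hDH ⟨hDab, hDsq⟩
    omega

end Cfsg.Agent.S4405
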