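import Cfsg.Statements.S4408
import Cfsg.Agent.Solv.MinNormal
import Cfsg.Agent.H73.DihEl

set_option autoImplicit false
open Cfsg

namespace Cfsg.Agent.S4408

/-- Let S be a finite solvable group whose Fitting subgroup F(S) has odd order, and let I be an elementary abelian 2-subgroup of S of order 2ⁿ with n ≥ 1. Then F(S) contains subgroups A₁, …, Aₙ of prime order, each normalized by I, pairwise commuting and generating a subgroup A of order |A₁|⋯|Aₙ| (their internal direct product), such that no non-identity element of I centralizes A. -/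
theorem result {S : Type*} [Group S] [Finite S]
    [Group.IsSolvable S] (hF : Odd (Nat.card ↥(Cfsg.fittingSubgroup S)))
    (I : Subgroup S) (hI : Cfsg.IsElementaryAbelian 2 I) (n : ℕ) (hn : 1 ≤ n) (hIn : Nat.card ↥I = 2 ^ n) :
    ∃ f : Fin n → Subgroup S, (∀ i, (Nat.card ↥(f i)).Prime) ∧ (∀ i, f i ≤ Cfsg.fittingSubgroup S) ∧
      (∀ i, I ≤ Subgroup.normalizer ((f i) : Set S)) ∧ (∀ i j, i ≠ j → ∀ a ∈ f i, ∀ b ∈ f j, a * b = b * a) ∧
      Nat.card ↥(⨆ i, f i) = ∏ i, Nat.card ↥(f i) ∧ I ⊓ Subgroup.centralizer ((⨆ i, f i : Subgroup S) : Set S) = ⊥ := by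
  classical
  have hFsolv : Group.IsSolvable ↥(Cfsg.fittingSubgroup S) := inferInstance
  have hFn : (Cfsg.fittingSubgroup S).Normal := Cfsg.Agent.Solv.fitting_normal
  have hIL : I ≤ Subgroup.normalizer (Cfsg.fittingSubgroup S : Set S) := by
    rw [Subgroup.normalizer_eq_top]; exact le_top
  have hCF : Subgroup.centralizer (Cfsg.fittingSubgroup S : Set S) ≤ Cfsg.fittingSubgroup S :=
    Cfsg.Agent.Solv.centralizer_fitting_le
  have hfaith : I ⊓ Subgroup.centralizer (Cfsg.fittingSubgroup S : Set S) = ⊥ := by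
    rw [eq_bot_iff]
    intro x hx
    have h1 := hCF hx.2
    have h2 : x ^ 2 = 1 := hI.2 x hx.1
    rw [Subgroup.mem_bot]
    refine H73.DihEl.eq_one_of_inv (eq_inv_of_mul_eq_one_left (by rw [← pow_two]; exact h2)) ?_
    refine Odd.of_dvd_nat hF ?_
    have := orderOf_dvd_natCard (⟨x, h1⟩ : Cfsg.fittingSubgroup S)
    rwa [Subgroup.orderOf_mk] at this
  obtain ⟨b, y, hbI, hcl, hy, hinv, hcom, hyy⟩ :=
    H73.DihEl.exists_elements (Cfsg.fittingSubgroup S) I hFsolv hF hI n hIn hIL hfaith
  have hodd : ∀ i, Odd (orderOf (y i)) := by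
    intro i
    refine Odd.of_dvd_nat hF ?_
    have := orderOf_dvd_natCard (⟨y i, (hy i).1⟩ : Cfsg.fittingSubgroup S)
    rwa [Subgroup.orderOf_mk] at this
  have hy1 : ∀ i, y i ≠ 1 := fun i h => by
    have := (hy i).2
    rw [h, orderOf_one] at this
    exact Nat.not_prime_one this
  have hcomm : ∀ i j, ∀ a ∈ Subgroup.zpowers (y i), ∀ c ∈ Subgroup.zpowers (y j), a * c = c * a := by
    rintro i j a ⟨k, rfl⟩ c ⟨l, rfl⟩
    exact (Commute.zpow_zpow (hyy i j : Commute (y i) (y j)) k l).eq
  refine ⟨fun i => Subgroup.zpowers (y i), fun i => ?_, fun i => ?_, fun i => ?_, fun i j _ => hcomm i j, ?_, ?_⟩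
  · change (Nat.card ↥(Subgroup.zpowers (y i))).Prime
    rw [Nat.card_zpowers]; exact (hy i).2
  · exact Subgroup.zpowers_le.2 (hy i).1
  · change I ≤ Subgroup.normalizer (Subgroup.zpowers (y i) : Set S)
    rw [← hcl, Subgroup.closure_le]
    rintro _ ⟨j, rfl⟩
    refine Subgroup.mem_normalizer_iff.2 fun h => ?_
    by_cases hij : i = j
    · subst hij
      constructor
      · rintro ⟨k, rfl⟩
        refine ⟨-k, ?_⟩
        change (y i) ^ (-k) = b i * (y i) ^ k * (b i)⁻¹
        rw [← conj_zpow, hinv, inv_zpow']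
      · rintro ⟨k, hk⟩
        refine ⟨-k, ?_⟩
        have hk' : (y i) ^ k = b i * h * (b i)⁻¹ := hk
        have h1 : h = (b i)⁻¹ * (y i) ^ k * b i := by rw [hk']; group
        have h2 : (b i)⁻¹ = b i := (eq_inv_of_mul_eq_one_left (by rw [← pow_two]; exact hI.2 _ (hbI i))).symm
        change (y i) ^ (-k) = h
        rw [h1]
        nth_rewrite 2 [← h2]
        rw [h2]
        have h3 : b i * (y i) ^ k * b i = b i * (y i) ^ k * (b i)⁻¹ := by rw [h2]
        rw [h3, ← conj_zpow, hinv, inv_zpow']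
    · have hc : Commute (b j) (y i) := hcom i j hij
      constructor
      · rintro ⟨k, rfl⟩
        refine ⟨k, ?_⟩
        change (y i) ^ k = b j * (y i) ^ k * (b j)⁻¹
        rw [(hc.zpow_right k).eq, mul_inv_cancel_right]
      · rintro ⟨k, hk⟩
        refine ⟨k, ?_⟩
        have hk' : (y i) ^ k = b j * h * (b j)⁻¹ := hk
        have h1 : h = (b j)⁻¹ * (y i) ^ k * b j := by rw [hk']; group
        change (y i) ^ k = h
        rw [h1, mul_assoc, ← (hc.zpow_right k).eq, inv_mul_cancel_left]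
  · have hc : Pairwise fun i j : Fin n => ∀ x z : S, x ∈ Subgroup.zpowers (y i) → z ∈ Subgroup.zpowers (y j) → Commute x z :=
      fun i j _ x z hx hz => hcomm i j x hx z hz
    have hinj : Function.Injective (Subgroup.noncommPiCoprod hc) := by
      apply Subgroup.injective_noncommPiCoprod_of_iSupIndep
      rw [iSupIndep_def]
      intro j
      rw [Subgroup.disjoint_def]
      intro x hx hx'
      have h1 : (⨆ i, ⨆ (_ : i ≠ j), Subgroup.zpowers (y i)) ≤ Subgroup.centralizer ({b j} : Set S) := by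
        refine iSup₂_le fun i hij => ?_
        rw [Subgroup.zpowers_le, Subgroup.mem_centralizer_iff]
        rintro _ rfl
        exact hcom i j hij
      have h2 : b j * x = x * b j := Subgroup.mem_centralizer_iff.1 (h1 hx') _ rfl
      obtain ⟨k, rfl⟩ := hx
      have h3 : b j * (y j) ^ k * (b j)⁻¹ = ((y j) ^ k)⁻¹ := by
        rw [← conj_zpow, hinv, inv_zpow]
      have h2' : b j * (y j) ^ k = (y j) ^ k * b j := h2
      rw [h2', mul_inv_cancel_right] at h3
      refine H73.DihEl.eq_one_of_inv h3 ?_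
      refine Odd.of_dvd_nat (hodd j) ?_
      exact orderOf_dvd_of_mem_zpowers ⟨k, rfl⟩
    have h1 : Nat.card ↥(Subgroup.noncommPiCoprod hc).range = Nat.card (∀ i : Fin n, ↥(Subgroup.zpowers (y i))) :=
      (Nat.card_congr (MonoidHom.ofInjective hinj).toEquiv).symm
    rw [Subgroup.noncommPiCoprod_range, Nat.card_pi] at h1
    exact h1
  · rw [eq_bot_iff]
    intro a ha
    rw [Subgroup.mem_bot]
    refine H73.DihEl.faithful_elements hI hbI hcl hodd hy1 hinv hcom ha.1 fun i => ?_
    exact (Subgroup.mem_centralizer_iff.1 ha.2 (y i) (Subgroup.mem_iSup_of_mem i (Subgroup.mem_zpowers _))).symm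

end Cfsg.Agent.S4408
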