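import Cfsg.Statements.S4409
import Cfsg.Agent.H73.Thin7
import Cfsg.Agent.S0020
import Cfsg.Agent.H34.ClassTwo
import Cfsg.Agent.Fus.Alperin

set_option autoImplicit false
open Cfsg

namespace Cfsg.Agent.S4409

/-- Let S be a finite solvable group with O_{2'}(S) = 1 that contains a non-cyclic abelian subgroup of order 8, while no proper subgroup of S of 2-power index contains one. Then a Sylow 2-subgroup X of S is normal in S, and one of the following holds: X is abelian; X is extraspecial of order at least 32; X has a generalized quaternion subgroup X₀ of index 2 with X = X₀·C_X(X₀); or X is special with centre of order 4. -/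
theorem result {S : Type*} [Group S] [Finite S]
    [Group.IsSolvable S] (hO : Cfsg.pPrimeCore 2 S = ⊥)
    (h8 : ∃ A : Subgroup S, IsMulCommutative ↥A ∧ ¬ IsCyclic ↥A ∧ Nat.card ↥A = 8)
    (hmin : ∀ R : Subgroup S, R ≠ ⊤ → (∃ k : ℕ, R.index = 2 ^ k) →
      ¬ ∃ A : Subgroup S, A ≤ R ∧ IsMulCommutative ↥A ∧ ¬ IsCyclic ↥A ∧ Nat.card ↥A = 8)
    (X : Sylow 2 S) :
    (X : Subgroup S).Normal ∧
      (IsMulCommutative ↥X ∨
        (Cfsg.IsExtraspecial 2 ↥X ∧ 32 ≤ Nat.card ↥X) ∨
        (∃ (X₀ : Subgroup S) (k : ℕ), X₀ ≤ (X : Subgroup S) ∧ X₀.relIndex (X : Subgroup S) = 2 ∧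
          Nonempty (↥X₀ ≃* QuaternionGroup (2 ^ (k + 1))) ∧ X₀ ⊔ ((X : Subgroup S) ⊓ Subgroup.centralizer (X₀ : Set S)) = (X : Subgroup S)) ∨
        (Cfsg.IsSpecial 2 ↥X ∧ Nat.card ↥(Subgroup.center ↥X) = 4)) := by
  haveI : Fact (Nat.Prime 2) := ⟨Nat.prime_two⟩
  obtain ⟨K, hKi⟩ := S0020.exists_complement (G := S) 2 Nat.prime_two
  obtain ⟨A, hAc, hAn, hA8⟩ := h8
  -- orders
  have hXK : Nat.card (X : Subgroup S) = 2 ^ (Nat.card S).factorization 2 := X.card_eq_multiplicity
  have hcardS : Nat.card K * Nat.card (X : Subgroup S) = Nat.card S := by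
    rw [hXK, ← hKi]; exact K.card_mul_index
  have hKodd : (Nat.card K).Coprime 2 := by
    have h1 : ¬ 2 ∣ X.index := X.not_dvd_index
    have h2 : Nat.card (X : Subgroup S) * X.index = Nat.card S := (X : Subgroup S).card_mul_index
    have h3 : Nat.card K = X.index := by
      apply Nat.eq_of_mul_eq_mul_right (Nat.card_pos (α := (X : Subgroup S)))
      rw [hcardS, ← h2, mul_comm]
    rw [h3, Nat.coprime_two_right]
    exact Nat.not_even_iff_odd.mp (fun h => h1 (even_iff_two_dvd.mp h))
  have hAp : IsPGroup 2 A := IsPGroup.of_card (n := 3) (by rw [hA8]; norm_num)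
  obtain ⟨Y, hAY⟩ := hAp.exists_le_sylow
  have hXp : IsPGroup 2 ↥(X : Subgroup S) := X.isPGroup'
  -- `K`-invariant small `2`-subgroups are thin
  have hthin0 : ∀ U : Subgroup S, Nat.card U < Nat.card (X : Subgroup S) → K ≤ Subgroup.normalizer (U : Set S) → H73.Thin U := by
    intro U hUc hKU B hBU hBc hB8
    by_contra hBn
    have hle : K ≤ K ⊔ U := le_sup_left
    apply hmin (K ⊔ U) ?_ ?_ ⟨B, hBU.trans le_sup_right, hBc, hBn, hB8⟩
    · intro htop
      have h1 := Cop.relIndex_sup_eq hKU
      have h2 : Nat.card (K ⊔ U : Subgroup S) = U.relIndex (K ⊔ U) * Nat.card U :=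
        H73.card_of_relIndex le_sup_right rfl
      have h3 : U.relIndex K ≤ Nat.card K := by
        exact Nat.le_of_dvd Nat.card_pos (Subgroup.relIndex_dvd_card U K)
      rw [h1, htop, Subgroup.card_top] at h2
      have h4 : U.relIndex K * Nat.card U ≤ Nat.card K * Nat.card U := Nat.mul_le_mul_right _ h3
      have h5 : Nat.card K * Nat.card U < Nat.card K * Nat.card (X : Subgroup S) :=
        Nat.mul_lt_mul_of_pos_left hUc Nat.card_pos
      omega
    · have h1 : (K ⊔ U).index ∣ 2 ^ (Nat.card S).factorization 2 := by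
        rw [← hKi]; exact Subgroup.index_dvd_of_le hle
      obtain ⟨k, _, hk⟩ := (Nat.dvd_prime_pow Nat.prime_two).mp h1
      exact ⟨k, hk⟩
  by_cases hKbot : K = ⊥
  · -- `S` is a `2`-group
    have hcX : Nat.card (X : Subgroup S) = Nat.card S := by
      rw [← hcardS, hKbot, Subgroup.card_bot, one_mul]
    have hXtop : (X : Subgroup S) = ⊤ := Subgroup.eq_top_of_card_eq _ hcX
    refine ⟨by rw [hXtop]; infer_instance, Or.inl ?_⟩
    have hAtop : A = ⊤ := by
      by_contra hne
      apply hmin A hne ?_ ⟨A, le_rfl, hAc, hAn, hA8⟩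
      have h1 : A.index ∣ 2 ^ (Nat.card S).factorization 2 := by
        rw [← hXK, hcX]; exact Subgroup.index_dvd_card A
      obtain ⟨k, _, hk⟩ := (Nat.dvd_prime_pow Nat.prime_two).mp h1
      exact ⟨k, hk⟩
    have hall : ∀ a b : S, a * b = b * a := fun a b =>
      congrArg Subtype.val (hAc.is_comm.comm ⟨a, by rw [hAtop]; trivial⟩ ⟨b, by rw [hAtop]; trivial⟩)
    exact ⟨⟨fun a b => Subtype.ext (hall a b)⟩⟩
  · set Q := Cfsg.pCore 2 S with hQ
    have hQp : IsPGroup 2 Q := Solv.pCore_isPGroup 2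
    have hQn : Q.Normal := Solv.pCore_normal 2
    have hCQ : Subgroup.centralizer (Q : Set S) ≤ Q := H34.centralizer_pCore_two_le hO
    have hnormQ : ∀ T : Subgroup S, T ≤ Subgroup.normalizer (Q : Set S) :=
      fun T => le_top.trans (Subgroup.normalizer_eq_top (H := Q)).ge
    have hQK : ⁅Q, K⁆ ≠ ⊥ := by
      intro h
      rw [Subgroup.commutator_comm, Subgroup.commutator_eq_bot_iff_le_centralizer] at h
      apply hKbot
      have h1 : K ≤ Q := h.trans hCQ
      have h2 : IsPGroup 2 K := hQp.to_le h1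
      obtain ⟨n, hn⟩ := IsPGroup.iff_card.mp h2
      rw [hn] at hKodd
      have : n = 0 := by
        by_contra hn0
        have := Nat.Coprime.coprime_dvd_left (dvd_pow_self 2 hn0) hKodd
        norm_num at this
      rw [this, pow_zero] at hn
      exact (Subgroup.card_eq_one).mp hn
    have hQX : Q ≤ (X : Subgroup S) := Fus.pCore_le_sylow X
    have hQY : Q ≤ (Y : Subgroup S) := Fus.pCore_le_sylow Y
    have hXY : Nat.card (Y : Subgroup S) = Nat.card (X : Subgroup S) := by
      rw [hXK]; exact Y.card_eq_multiplicity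
    have hQeq : Q = (X : Subgroup S) := by
      by_contra hne
      have hcard : Nat.card Q < Nat.card (X : Subgroup S) := by
        refine lt_of_le_of_ne (Subgroup.card_le_of_le hQX) fun h => hne ?_
        exact Subgroup.eq_of_le_of_card_ge hQX h.ge
      obtain ⟨Z, hZ⟩ := H73.irr_of_thin hQp (hnormQ K) hKodd hQK (hthin0 Q hcard (hnormQ K))
      have hQY' : Q < (Y : Subgroup S) := by
        refine lt_of_le_of_ne hQY fun h => ?_
        rw [h, hXY] at hcard
        omega
      exact hZ.contra Y.isPGroup' (hnormQ _) hQY' (fun c _ hc => hCQ (Subgroup.mem_centralizer_iff.mpr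
        (fun q hq => (hc q hq).symm))) hAY hAc hAn hA8
    have hXn : (X : Subgroup S).Normal := hQeq ▸ hQn
    refine ⟨hXn, ?_⟩
    have hAX : A ≤ (X : Subgroup S) := by
      have h1 : Q = (Y : Subgroup S) := Subgroup.eq_of_le_of_card_ge hQY (by rw [hXY, hQeq])
      rw [← hQeq, h1]; exact hAY
    have hthin : ∀ U : Subgroup S, U < (X : Subgroup S) → K ≤ Subgroup.normalizer (U : Set S) → H73.Thin U := by
      intro U hU hKU
      refine hthin0 U ?_ hKU
      refine lt_of_le_of_ne (Subgroup.card_le_of_le hU.le) fun h => hU.ne ?_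
      exact Subgroup.eq_of_le_of_card_ge hU.le h.ge
    by_cases hXc : IsMulCommutative ↥(X : Subgroup S)
    · exact Or.inl hXc
    by_cases hPK : ⁅(X : Subgroup S), K⁆ = (X : Subgroup S)
    · have h8 : 8 ≤ Nat.card (X : Subgroup S) := by
        rw [← hA8]; exact Subgroup.card_le_of_le hAX
      have hne8 : Nat.card (X : Subgroup S) ≠ 8 := by
        intro h
        apply hXc
        have : A = (X : Subgroup S) := Subgroup.eq_of_le_of_card_ge hAX (by rw [h, hA8])
        rw [← this]; exact hAc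
      rcases H73.caseB hXn hXp hKodd hthin hPK hXc h8 hne8 with h | h
      · exact Or.inr (Or.inl h)
      · exact Or.inr (Or.inr (Or.inr h))
    · rcases H73.caseA hXn hXp hKodd hthin hPK (by rw [← hQeq]; exact hQK) with h | ⟨X₀, h1, h2, h3, h4⟩
      · exact Or.inl h
      · exact Or.inr (Or.inr (Or.inl ⟨X₀, 0, h1, h2, h3, h4⟩))

end Cfsg.Agent.S4409
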