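import Cfsg.Statements.S4410
import Cfsg.Agent.H11.Hol
import Cfsg.Agent.ZJ.SolvFact

set_option autoImplicit false
open Cfsg

namespace Cfsg.Agent.S4410


section Aux

variable {V : Type*} [AddCommGroup V] [Module (ZMod 2) V]

theorem self_add (v : V) : v + v = 0 := ZModModule.add_self v

theorem self_add' (v w : V) : v + (v + w) = w := by rw [← add_assoc, self_add, zero_add]

/-- an element of odd order fixing `u` under its fourth power fixes `u` -/
theorem fix_of_four (g : V ≃ₗ[ZMod 2] V) (hg : Odd (orderOf g)) (u : V)
    (h : g (g (g (g u))) = u) : g u = u := by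
  have hc : Nat.Coprime 4 (orderOf g) := by
    have h2 : Nat.Coprime 2 (orderOf g) := (Nat.coprime_two_left).mpr hg
    have : Nat.Coprime (2 ^ 2) (orderOf g) := Nat.Coprime.pow_left 2 h2
    simpa using this
  obtain ⟨m, hm⟩ := exists_pow_eq_self_of_coprime hc
  have h4 : (g ^ 4) u = u := by
    have : (g ^ 4) u = g (g (g (g u))) := rfl
    rw [this, h]
  have h5 : ∀ m : ℕ, ((g ^ 4) ^ m) u = u := by
    intro m
    induction m with
    | zero => rfl
    | succ n ih =>
      rw [pow_succ]
      change ((g ^ 4) ^ n) ((g ^ 4) u) = u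
      rw [h4, ih]
  have := h5 m
  rwa [hm] at this

/-- a map of odd order moving every vector by `0, c, a, c + a` in a unipotent way is trivial -/
theorem eq_one_of_unip (y : V ≃ₗ[ZMod 2] V) (hy : Odd (orderOf y)) (c a : V)
    (h : ∀ v, y v = v ∨ y v = v + c ∨ y v = v + a ∨ y v = v + (c + a))
    (hca : (y c = c ∧ (y a = a ∨ y a = a + c)) ∨ (y a = a ∧ (y c = c ∨ y c = c + a))) : y = 1 := by
  ext v
  apply fix_of_four y hy
  rcases hca with ⟨h1, h2 | h2⟩ | ⟨h1, h2 | h2⟩ <;> rcases h v with h3 | h3 | h3 | h3 <;>
    simp only [h3, h1, h2, map_add, add_assoc, self_add, self_add', add_comm, add_left_comm,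
      add_zero, zero_add]

theorem key_cycle (y z : V →ₗ[ZMod 2] V) (a b c : V) (hyc : y c = c + a) (hya : y a = c)
    (hzc : z c = c + b) (hzb : z b = c)
    (h : (y b = b ∧ z a = a + b) ∨ (y b = b + c ∧ z a = a + (b + c)) ∨
      (y b = b + a ∧ z a = a) ∨ (y b = b + (c + a) ∧ z a = a + c)) :
    y (z (y (z (y (z (y (z c))))))) = c := by
  rcases h with ⟨h1, h2⟩ | ⟨h1, h2⟩ | ⟨h1, h2⟩ | ⟨h1, h2⟩ <;>
    simp only [hzc, hzb, h2, hyc, hya, h1, map_add, add_assoc, self_add, self_add', add_comm,
         add_left_comm, add_zero, zero_add]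

end Aux

/-- Let V be a finite-dimensional vector space over the field with two elements and S a solvable group of linear automorphisms of V with O₂(S) = 1. If P ∈ S has order 4 and (P − 1)³ = 0 on V, then the image of (P − 1)² has at least 4 elements; equivalently, in the decomposition of V into indecomposable modules for the cyclic group generated by P, at least two summands have dimension 3. -/
theorem result
    {V : Type*} [AddCommGroup V] [Module (ZMod 2) V] [Finite V]
    (S : Subgroup (V ≃ₗ[ZMod 2] V)) (hS : Group.IsSolvable ↥S) (hO2 : Cfsg.pCore 2 ↥S = ⊥)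
    (P : V ≃ₗ[ZMod 2] V) (hPS : P ∈ S) (hP4 : orderOf P = 4)
    (hcub : ((P : V →ₗ[ZMod 2] V) - LinearMap.id) ^ 3 = 0) :
    4 ≤ Nat.card ↥(LinearMap.range (((P : V →ₗ[ZMod 2] V) - LinearMap.id) ^ 2)) := by
  classical
  have hfV : Finite (V ≃ₗ[ZMod 2] V) := by
    apply Finite.of_injective (fun f : V ≃ₗ[ZMod 2] V => (f : V → V))
    intro f g h
    exact LinearEquiv.ext (fun x => congrFun h x)
  have hfS : Finite ↥S := inferInstance
  haveI : Fact (Nat.Prime 2) := ⟨Nat.prime_two⟩
  set N : V →ₗ[ZMod 2] V := (P : V →ₗ[ZMod 2] V) - LinearMap.id with hN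
  have hPN : ∀ v, P v = v + N v := by
    intro v
    rw [hN, LinearMap.sub_apply]
    simp
  have hN3 : ∀ v, N (N (N v)) = 0 := by
    intro v
    have := congrArg (fun f : V →ₗ[ZMod 2] V => f v) hcub
    simpa [pow_succ] using this
  have hP2 : ∀ v, (P ^ 2) v = v + N (N v) := by
    intro v
    have h1 : (P ^ 2) v = P (P v) := rfl
    rw [h1, hPN v, map_add, hPN v, hPN (N v), add_assoc, self_add']
  have hN2 : ∀ v, (N ^ 2) v = N (N v) := fun v => rfl
  -- a nonzero vector in the range
  obtain ⟨a0, ha0⟩ : ∃ a0, N (N a0) ≠ 0 := by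
    by_contra hcon
    push Not at hcon
    have : P ^ 2 = 1 := by
      ext v
      rw [hP2, hcon, add_zero]
      rfl
    have h2 := orderOf_dvd_of_pow_eq_one this
    rw [hP4] at h2
    omega
  set c := N (N a0) with hc
  by_contra hlt
  push Not at hlt
  have htwo : ∀ v, N (N v) = 0 ∨ N (N v) = c := by
    intro v
    by_contra hcon
    push Not at hcon
    obtain ⟨h1, h2⟩ := hcon
    set r := N (N v) with hr
    apply absurd hlt
    rw [not_lt]
    have hsub : (({0, c, r, c + r} : Finset V) : Set V) ⊆ (LinearMap.range (N ^ 2) : Set V) := by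
      intro x hx
      simp only [Finset.coe_insert, Finset.coe_singleton, Set.mem_insert_iff,
        Set.mem_singleton_iff] at hx
      rcases hx with rfl | rfl | rfl | rfl
      · exact ⟨0, by simp⟩
      · exact ⟨a0, rfl⟩
      · exact ⟨v, rfl⟩
      · exact ⟨a0 + v, by rw [map_add]; rfl⟩
    have hcard : ({0, c, r, c + r} : Finset V).card = 4 := by
      have e1 : c + r ≠ 0 := by
        intro h
        apply h2
        have := congrArg (fun z => c + z) h
        simp only [self_add', add_zero] at this
        exact this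
      have e2 : c + r ≠ c := by
        intro h; apply h1; simpa using h
      have e3 : c + r ≠ r := by
        intro h; apply ha0; simpa using h
      rw [Finset.card_insert_of_notMem, Finset.card_insert_of_notMem,
        Finset.card_insert_of_notMem, Finset.card_singleton]
      · simpa using e3.symm
      · simp only [Finset.mem_insert, Finset.mem_singleton, not_or]
        exact ⟨fun h => h2 h.symm, e2.symm⟩
      · simp only [Finset.mem_insert, Finset.mem_singleton, not_or]
        exact ⟨fun h => ha0 h.symm, fun h => h1 h.symm, e1.symm⟩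
    have := Set.ncard_le_ncard hsub (Set.toFinite _)
    rw [Set.ncard_coe_finset, hcard] at this
    exact this
  have hPc : P c = c := by rw [hPN, hc, hN3, add_zero]
  set t : V ≃ₗ[ZMod 2] V := P ^ 2 with ht
  have htv : ∀ v, t v = v ∨ t v = v + c := by
    intro v
    rw [hP2]
    rcases htwo v with h | h
    · left; rw [h, add_zero]
    · right; rw [h]
  have htc : t c = c := by
    rw [hP2, hc, hN3, add_zero]
  have htt : ∀ v, t (t v) = v := by
    intro v
    have h1 : t (t v) = (P ^ 4) v := rfl
    rw [h1, ← hP4, pow_orderOf_eq_one]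
    rfl
  have ht1 : t * t = 1 := by
    ext v; exact htt v
  have hc0 : c ≠ 0 := ha0
  -- the `2'`-core
  set Q := Cfsg.pPrimeCore 2 ↥S with hQ
  have hQn : Q.Normal := by rw [hQ]; infer_instance
  have hQodd : Odd (Nat.card Q) := by
    have := Cfsg.Agent.Solv.pPrimeCore_card_coprime (G := ↥S) 2
    exact (Nat.coprime_two_right).mp this
  have hodd : ∀ g : ↥S, g ∈ Q → Odd (orderOf (g : V ≃ₗ[ZMod 2] V)) := by
    intro g hg
    rw [Subgroup.orderOf_coe]
    have h1 : orderOf g = orderOf (⟨g, hg⟩ : Q) := (Subgroup.orderOf_mk g hg).symm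
    rw [h1]
    exact Odd.of_dvd_nat hQodd (orderOf_dvd_natCard _)
  set P' : ↥S := ⟨P, hPS⟩ with hP'
  set t' : ↥S := P' ^ 2 with ht'
  have ht'c : (t' : V ≃ₗ[ZMod 2] V) = t := rfl
  have ht'Q : t' ∉ Q := by
    intro h
    have h1 := hodd _ h
    rw [ht'c] at h1
    have h2 : orderOf t = 2 := by
      rw [ht, orderOf_pow, hP4]; norm_num
    rw [h2] at h1
    exact absurd h1 (by decide)
  obtain ⟨x, hxQ, hxt⟩ : ∃ x ∈ Q, x * t' ≠ t' * x := by
    by_contra hcon
    push Not at hcon
    apply ht'Q
    have hcent := Cfsg.Agent.H11.centralizer_pPrimeCore_le (G := ↥S) (p := 2)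
      (Cfsg.Agent.ZJ.isPSolvable_of_isSolvable 2 hS) hO2
    apply hcent
    rw [Subgroup.mem_centralizer_iff]
    intro h hh
    exact hcon h hh
  have ht't' : t' * t' = 1 := Subtype.ext ht1
  have ht'inv : t'⁻¹ = t' := inv_eq_of_mul_eq_one_left ht't'
  set y' : ↥S := x * t' * x⁻¹ * t' with hy'
  have hy'Q : y' ∈ Q := by
    have h1 : y' = x * (t' * x⁻¹ * t'⁻¹) := by rw [hy', ht'inv]; group
    rw [h1]
    exact Q.mul_mem hxQ (hQn.conj_mem _ (Q.inv_mem hxQ) _)
  have hy'1 : y' ≠ 1 := by
    intro h
    apply hxt
    rw [hy'] at h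
    have h2 : x * t' * x⁻¹ = t' := by
      have := congrArg (fun z => z * t') h
      simpa [mul_assoc, ht't'] using this
    calc x * t' = x * t' * x⁻¹ * x := by group
      _ = t' * x := by rw [h2]
  set X : V ≃ₗ[ZMod 2] V := (x : V ≃ₗ[ZMod 2] V) with hX
  set y : V ≃ₗ[ZMod 2] V := (y' : V ≃ₗ[ZMod 2] V) with hy
  have hyo : Odd (orderOf y) := hodd _ hy'Q
  have hy1 : y ≠ 1 := fun h => hy'1 (Subtype.ext h)
  set s : V ≃ₗ[ZMod 2] V := X * t * X⁻¹ with hs
  have hys : ∀ v, y v = s (t v) := fun v => rfl
  set a := X c with ha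
  have hsv : ∀ v, s v = v ∨ s v = v + a := by
    intro v
    have h1 : s v = X (t (X⁻¹ v)) := rfl
    have h2 : X (X⁻¹ v) = v := X.apply_symm_apply v
    rcases htv (X⁻¹ v) with h | h
    · left; rw [h1, h, h2]
    · right; rw [h1, h, map_add, h2]
  have hsa : s a = a := by
    have h1 : s a = X (t (X⁻¹ (X c))) := rfl
    have h2 : X⁻¹ (X c) = c := X.symm_apply_apply c
    rw [h1, h2, htc]
  have hyv : ∀ v, y v = v ∨ y v = v + c ∨ y v = v + a ∨ y v = v + (c + a) := by
    intro v
    rw [hys]
    rcases htv v with h | h <;> rw [h]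
    · rcases hsv v with h | h
      · left; exact h
      · right; right; left; exact h
    · rcases hsv (v + c) with h | h
      · right; left; exact h
      · right; right; right; rw [h, add_assoc]
  have hta : t a = a + c := by
    rcases htv a with h | h
    · exfalso
      apply hy1
      apply eq_one_of_unip y hyo c a hyv
      right
      refine ⟨by rw [hys, h, hsa], ?_⟩
      rw [hys, htc]
      exact hsv c
    · exact h
  have hsc : s c = c + a := by
    rcases hsv c with h | h
    · exfalso
      apply hy1
      apply eq_one_of_unip y hyo c a hyv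
      left
      refine ⟨by rw [hys, htc, h], ?_⟩
      rw [hys, hta, map_add, hsa, h]
      right; rfl
    · exact h
  have hyc : y c = c + a := by rw [hys, htc, hsc]
  have hya : y a = c := by
    rw [hys, hta, map_add, hsa, hsc, ← add_assoc, add_comm a c, add_assoc, self_add, add_zero]
  set b := P a with hb
  have hPb : P b = a + c := hta
  have hPinj : ∀ u v, P u = P v → u = v := fun u v h => P.injective h
  have hac : a + c ≠ a := by intro h; apply hc0; simpa using h
  have hba : b ≠ a := by
    intro h
    have : P b = P a := by rw [h]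
    rw [hPb, ← hb, h] at this
    exact hac this
  have hbac : b ≠ a + c := by
    intro h
    have : P b = P (a + c) := by rw [h]
    rw [hPb, map_add, hPc, ← hb, h, add_assoc, self_add, add_zero] at this
    exact hac this
  have hb0 : b ≠ 0 := by
    intro h
    have : a = 0 := hPinj _ _ (by rw [← hb, h, map_zero])
    have h2 : c = 0 := X.injective (by rw [← ha, this, map_zero])
    exact hc0 h2
  have hbc : b ≠ c := by
    intro h
    have h1 : a = c := hPinj _ _ (by rw [← hb, h, hPc])
    have h2 := hta
    rw [h1, htc, self_add] at h2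
    exact hc0 h2
  -- the conjugate of `y`
  set z' : ↥S := P' * y' * P'⁻¹ with hz'
  have hz'Q : z' ∈ Q := hQn.conj_mem _ hy'Q _
  set z : V ≃ₗ[ZMod 2] V := (z' : V ≃ₗ[ZMod 2] V) with hz
  have hzP : ∀ v, z (P v) = P (y v) := by
    intro v
    have h1 : z (P v) = P (y (P⁻¹ (P v))) := rfl
    have h2 : P⁻¹ (P v) = v := P.symm_apply_apply v
    rw [h1, h2]
  have hzc : z c = c + b := by
    have := hzP c
    rw [hPc, hyc, map_add, hPc] at this
    exact this
  have hzb : z b = c := by
    have := hzP a
    rw [← hb, hya, hPc] at this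
    exact this
  have hzac : z (a + c) = P (y b) := by
    rw [← hPb]; exact hzP b
  have hza : z a = P (y b) + c + b := by
    have h1 : a = (a + c) + c := by rw [add_assoc, self_add, add_zero]
    rw [h1, map_add, hzac, hzc, add_assoc]
  have hg : Odd (orderOf (y * z)) := hodd (y' * z') (Q.mul_mem hy'Q hz'Q)
  have hfix : (y * z) c = c := by
    apply fix_of_four _ hg
    clear_value z
    clear_value y
    change y (z (y (z (y (z (y (z c))))))) = c
    refine key_cycle (y : V →ₗ[ZMod 2] V) (z : V →ₗ[ZMod 2] V) a b c hyc hya hzc hzb ?_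
    have hPa : P a = b := rfl
    rcases hyv b with h | h | h | h
    · left
      refine ⟨h, ?_⟩
      have : z a = a + b := by
        rw [hza, h, hPb, add_assoc a c c, self_add, add_zero]
      exact this
    · right; left
      refine ⟨h, ?_⟩
      have : z a = a + (b + c) := by
        rw [hza, h, map_add, hPb, hPc, add_assoc a c c, self_add, add_zero, add_assoc,
          add_comm c b]
      exact this
    · right; right; left
      refine ⟨h, ?_⟩
      have : z a = a := by
        rw [hza, h, map_add, hPb, hPa]
        have e : a + c + b + c + b = a + ((c + c) + (b + b)) := by abel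
        rw [e, self_add, self_add, add_zero, add_zero]
      exact this
    · right; right; right
      refine ⟨h, ?_⟩
      have : z a = a + c := by
        rw [hza, h, map_add, map_add, hPb, hPa, hPc]
        have e : a + c + (c + b) + c + b = a + c + ((c + c) + (b + b)) := by abel
        rw [e, self_add, self_add, add_zero, add_zero]
      exact this
  have hfix2 : y (c + b) = c := by
    have : (y * z) c = y (z c) := rfl
    rw [this, hzc] at hfix
    exact hfix
  rw [map_add, hyc] at hfix2
  have hab : a + y b = 0 := by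
    have := congrArg (fun z => c + z) hfix2
    simp only [add_assoc, self_add', self_add] at this
    exact this
  have hyb : y b = a := by
    have := congrArg (fun z => a + z) hab
    simp only [self_add', add_zero] at this
    exact this
  rcases hyv b with h | h | h | h
  · exact hba (by rw [← hyb, h])
  · rw [hyb] at h
    exact hbac (by rw [h, add_assoc, self_add, add_zero])
  · rw [hyb] at h
    apply hb0
    simpa using h
  · rw [hyb] at h
    apply hbc
    have h2 : b + c = 0 := by
      rw [← add_assoc] at h
      simpa using h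
    have := congrArg (fun z => z + c) h2
    simp only [add_assoc, self_add, add_zero, zero_add] at this
    exact this

end Cfsg.Agent.S4410
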