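import Cfsg.Statements.S4412
import Cfsg.Agent.H73.Broad

set_option autoImplicit false
open Cfsg

namespace Cfsg.Agent.S4412

/-- Let p be an odd prime, P a finite p-group and I an elementary abelian subgroup of order 8 of Aut(P). Call T ∈ I, T ≠ 1, broad when its fixed-point subgroup C_P(T) is not cyclic. Suppose I has a proper subgroup I₀ containing no broad element such that the product of any two broad elements lies in I₀. Then P is abelian of rank exactly 3 (generated by three elements but not by two), there are exactly three broad elements and they generate I, and I₀ is exactly the set of products of two broad elements. -/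
theorem result
    {P : Type*} [Group P] [Finite P] (p : ℕ) (hp : p.Prime) (hp2 : p ≠ 2) (hP : IsPGroup p P)
    (I : Subgroup (MulAut P)) (hI : Cfsg.IsElementaryAbelian 2 I) (hI8 : Nat.card ↥I = 8)
    (I₀ : Subgroup (MulAut P)) (hI₀ : I₀ < I)
    (hdisj : ∀ T ∈ I₀, T ≠ 1 → ∃ g : P, ∀ x : P, (T x = x ↔ x ∈ Subgroup.zpowers g))
    (hprod : ∀ T ∈ I, ∀ T' ∈ I, T ≠ 1 → T' ≠ 1 → (¬ ∃ g : P, ∀ x : P, (T x = x ↔ x ∈ Subgroup.zpowers g)) →
      (¬ ∃ g : P, ∀ x : P, (T' x = x ↔ x ∈ Subgroup.zpowers g)) → T * T' ∈ I₀) :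
    IsMulCommutative P ∧ (∃ a b c : P, Subgroup.closure {a, b, c} = ⊤) ∧ (¬ ∃ a b : P, Subgroup.closure {a, b} = ⊤) ∧
      Nat.card {T : MulAut P // T ∈ I ∧ T ≠ 1 ∧ ¬ ∃ g : P, ∀ x : P, (T x = x ↔ x ∈ Subgroup.zpowers g)} = 3 ∧
      Subgroup.closure {T : MulAut P | T ∈ I ∧ T ≠ 1 ∧ ¬ ∃ g : P, ∀ x : P, (T x = x ↔ x ∈ Subgroup.zpowers g)} = I ∧
      (I₀ : Set (MulAut P)) = {S : MulAut P | ∃ T T' : MulAut P, T ∈ I ∧ T' ∈ I ∧ T ≠ 1 ∧ T' ≠ 1 ∧
        (¬ ∃ g : P, ∀ x : P, (T x = x ↔ x ∈ Subgroup.zpowers g)) ∧ (¬ ∃ g : P, ∀ x : P, (T' x = x ↔ x ∈ Subgroup.zpowers g)) ∧ S = T * T'} := by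
  classical
  have hfact := Fact.mk hp
  have hoddp : Odd p := hp.odd_of_ne_two hp2
  have hPodd : Odd (Nat.card P) := by
    obtain ⟨n, hn⟩ := IsPGroup.iff_card.1 hP
    rw [hn]; exact hoddp.pow
  have hPs : Group.IsSolvable P := by
    have : Group.IsNilpotent P := hP.isNilpotent
    infer_instance
  obtain ⟨T, y, hTI, hcl, hy, hinv, hfix, hyy⟩ :=
    H73.DihAut.exists_elements hPs hPodd I hI 3 (by rw [hI8]; norm_num)
  have hyp : ∀ i, orderOf (y i) = p := by
    intro i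
    obtain ⟨k, hk⟩ := IsPGroup.iff_orderOf.1 hP (y i)
    have h1 := hy i
    rw [hk] at h1 ⊢
    have : k = 1 := (Nat.Prime.eq_one_of_pow h1)
    rw [this, pow_one]
  have hyodd : ∀ i, Odd (orderOf (y i)) := fun i => by rw [hyp]; exact hoddp
  have hy1 : ∀ i, y i ≠ 1 := fun i h => by
    have := hyp i
    rw [h, orderOf_one] at this
    exact hp.one_lt.ne this
  have hyinv : ∀ i, y i ≠ (y i)⁻¹ := fun i h => hy1 i (H73.DihEl.eq_one_of_inv h (hyodd i))
  have hI2 : ∀ a ∈ I, a * a = 1 := fun a ha => by rw [← pow_two]; exact hI.2 a ha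
  have hIc : ∀ a ∈ I, ∀ b ∈ I, a * b = b * a := fun a ha b hb => by
    have := hI.1.is_comm.comm (⟨a, ha⟩ : ↥I) ⟨b, hb⟩
    exact congrArg Subtype.val this
  have hT2 : ∀ a ∈ I, ∀ x, a (a x) = x := fun a ha x => by
    rw [← MulAut.mul_apply, hI2 a ha, MulAut.one_apply]
  have hTc : ∀ a ∈ I, ∀ b ∈ I, ∀ x, a (b x) = b (a x) := fun a ha b hb x => by
    rw [← MulAut.mul_apply, hIc a ha b hb, MulAut.mul_apply]
  -- broadness
  have hbroad : ∀ i, ¬ ∃ g : P, ∀ x : P, (T i x = x ↔ x ∈ Subgroup.zpowers g) := by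
    rintro i ⟨g, hg⟩
    obtain ⟨j, k, hij, hik, hjk⟩ : ∃ j k : Fin 3, i ≠ j ∧ i ≠ k ∧ j ≠ k := by
      fin_cases i
      · exact ⟨1, 2, by decide, by decide, by decide⟩
      · exact ⟨0, 2, by decide, by decide, by decide⟩
      · exact ⟨0, 1, by decide, by decide, by decide⟩
    have h1 := (hg (y j)).1 (hfix j i hij.symm)
    have h2 := (hg (y k)).1 (hfix k i hik.symm)
    have h3 := H73.DihAut.mem_zpowers_of_mem_zpowers hp hP h2 h1 (hy1 k) (hyp j)
    obtain ⟨m, hm⟩ := h3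
    have hm' : (y k) ^ m = y j := hm
    have h4 : T j (y j) = y j := by
      rw [← hm', map_zpow, hfix k j hjk.symm]
    exact hyinv j (h4.symm.trans (hinv j))
  have hT1 : ∀ i, T i ≠ 1 := fun i h => by
    have := hinv i
    rw [h, MulAut.one_apply] at this
    exact hyinv i this
  have hprodT : ∀ i j, T i * T j ∈ I₀ := fun i j =>
    hprod _ (hTI i) _ (hTI j) (hT1 i) (hT1 j) (hbroad i) (hbroad j)
  have hprod1 : ∀ i j, i ≠ j → T i * T j ≠ 1 := fun i j hij h => by
    have h1 : (T i * T j) (y i) = (y i)⁻¹ := by rw [MulAut.mul_apply, hfix i j hij, hinv]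
    rw [h, MulAut.one_apply] at h1
    exact hyinv i h1
  -- the total
  set tot := T 0 * T 1 * T 2 with htot
  have htotI : tot ∈ I := mul_mem (mul_mem (hTI 0) (hTI 1)) (hTI 2)
  have htoty : ∀ k, tot (y k) = (y k)⁻¹ := by
    intro k
    rw [htot, MulAut.mul_apply, MulAut.mul_apply]
    fin_cases k
    · change T 0 (T 1 (T 2 (y 0))) = (y 0)⁻¹
      rw [hfix 0 2 (by decide), hfix 0 1 (by decide), hinv]
    · change T 0 (T 1 (T 2 (y 1))) = (y 1)⁻¹
      rw [hfix 1 2 (by decide), hinv, map_inv, hfix 1 0 (by decide)]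
    · change T 0 (T 1 (T 2 (y 2))) = (y 2)⁻¹
      rw [hinv, map_inv, map_inv, hfix 2 1 (by decide), hfix 2 0 (by decide)]
  -- the centralizers of the products
  have hS : ∀ i j k, i ≠ j → i ≠ k → j ≠ k → ∀ x, (T i * T j) x = x → tot x = x → x = 1 := by
    intro i j k hij hik hjk x hx htx
    by_contra hx1
    obtain ⟨g, hg⟩ := hdisj _ (hprodT i j) (hprod1 i j hij)
    have h1 := (hg x).1 hx
    have h2 := (hg (y k)).1 (by rw [MulAut.mul_apply, hfix k j hjk.symm, hfix k i hik.symm])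
    obtain ⟨m, hm⟩ := H73.DihAut.mem_zpowers_of_mem_zpowers hp hP h1 h2 hx1 (hyp k)
    have hm' : x ^ m = y k := hm
    have h4 : tot (y k) = y k := by rw [← hm', map_zpow, htx]
    exact hyinv k (h4.symm.trans (htoty k))
  have htot1 : ∀ x, tot x = x → x = 1 := by
    intro x hx
    by_contra hx1
    let R : Subgroup P :=
      { carrier := {x | tot x = x}
        one_mem' := map_one tot
        mul_mem' := fun {a b} ha hb => by
          have ha' : tot a = a := ha
          have hb' : tot b = b := hb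
          change tot (a * b) = a * b
          rw [map_mul, ha', hb']
        inv_mem' := fun {a} ha => by
          have ha' : tot a = a := ha
          change tot a⁻¹ = a⁻¹
          rw [map_inv, ha'] }
    have hR : R ≠ ⊥ := by
      intro h
      have : x ∈ R := hx
      rw [h, Subgroup.mem_bot] at this
      exact hx1 this
    have hst : ∀ a ∈ I, ∀ x ∈ R, a x ∈ R := by
      intro a ha x hx
      change tot (a x) = a x
      have hx' : tot x = x := hx
      rw [hTc _ htotI _ ha, hx']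
    have h12 : T 1 * T 2 ∈ I := mul_mem (hTI 1) (hTI 2)
    have h02 : T 0 * T 2 ∈ I := mul_mem (hTI 0) (hTI 2)
    obtain ⟨z, hzR, hz1, hz⟩ := H73.Broad.exists_fixed ((T 1 * T 2 : MulAut P) : P →* P) ((T 0 * T 2 : MulAut P) : P →* P)
      (hT2 _ h12) (hT2 _ h02) R hR (fun x hx => hst _ h12 x hx) (fun x hx => hst _ h02 x hx)
    rcases hz with hz | hz | hz
    · exact hz1 (hS 1 2 0 (by decide) (by decide) (by decide) z hz hzR)
    · exact hz1 (hS 0 2 1 (by decide) (by decide) (by decide) z hz hzR)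
    · refine hz1 (hS 0 1 2 (by decide) (by decide) (by decide) z ?_ hzR)
      have hz' : (T 1 * T 2) ((T 0 * T 2) z) = z := hz
      rw [← MulAut.mul_apply] at hz'
      have : T 1 * T 2 * (T 0 * T 2) = T 0 * T 1 := by
        rw [hIc (T 0) (hTI 0) (T 2) (hTI 2), mul_assoc, ← mul_assoc (T 2), hI2 _ (hTI 2), one_mul,
          hIc _ (hTI 1) _ (hTI 0)]
      rw [this] at hz'
      exact hz'
  have hcomm : ∀ a b : P, a * b = b * a := fun a b =>
    (H73.Broad.inv_on (tot : P →* P) (hT2 _ htotI) ⊤ (fun _ _ => trivial) (fun x _ h => htot1 x h)).2 a trivial b trivial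
  let _ : CommGroup P := { (inferInstance : Group P) with mul_comm := hcomm }
  -- the elements of I
  have hIel : ∀ a ∈ I, a = 1 ∨ (∃ i, a = T i) ∨ (∃ i j, i ≠ j ∧ a = T i * T j) ∨ a = tot := by
    let t : Fin 3 → I := fun i => ⟨T i, hTI i⟩
    let _ : CommGroup I := { (inferInstance : Group I) with mul_comm := fun a b => hI.1.is_comm.comm a b }
    have hgen : ∀ a ∈ Subgroup.closure (Set.range T), ∃ e0 e1 e2 : ℕ, a = ((t 0 ^ e0 * t 1 ^ e1 * t 2 ^ e2 : I) : MulAut P) := by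
      intro a ha
      induction ha using Subgroup.closure_induction with
      | mem x hx =>
        obtain ⟨i, rfl⟩ := hx
        fin_cases i
        · exact ⟨1, 0, 0, by simp [t]⟩
        · exact ⟨0, 1, 0, by simp [t]⟩
        · exact ⟨0, 0, 1, by simp [t]⟩
      | one => exact ⟨0, 0, 0, by simp⟩
      | mul x z _ _ ihx ihz =>
        obtain ⟨a0, a1, a2, ha⟩ := ihx
        obtain ⟨b0, b1, b2, hb⟩ := ihz
        refine ⟨a0 + b0, a1 + b1, a2 + b2, ?_⟩
        rw [ha, hb, ← Subgroup.coe_mul]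
        congr 1
        simp only [pow_add]
        ac_rfl
      | inv x hx ihx =>
        obtain ⟨a0, a1, a2, ha⟩ := ihx
        refine ⟨a0, a1, a2, ?_⟩
        rw [← ha]
        exact (eq_inv_of_mul_eq_one_left (hI2 x (by rw [← hcl]; exact hx))).symm
    have ht2 : ∀ (i : Fin 3) (e : ℕ), t i ^ e = 1 ∨ t i ^ e = t i := by
      intro i e
      have h2 : t i ^ 2 = 1 := Subtype.ext (hI.2 _ (hTI i))
      rcases Nat.even_or_odd' e with ⟨c, hc | hc⟩
      · left; rw [hc, pow_mul, h2, one_pow]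
      · right; rw [hc, pow_succ, pow_mul, h2, one_pow, one_mul]
    intro a ha
    rw [← hcl] at ha
    obtain ⟨e0, e1, e2, he⟩ := hgen a ha
    rcases ht2 0 e0 with h0 | h0 <;> rcases ht2 1 e1 with h1 | h1 <;> rcases ht2 2 e2 with h2 | h2 <;>
      rw [h0, h1, h2] at he
    · left; rw [he]; simp
    · right; left; exact ⟨2, by rw [he]; simp [t]⟩
    · right; left; exact ⟨1, by rw [he]; simp [t]⟩
    · right; right; left; exact ⟨1, 2, by decide, by rw [he]; simp [t]⟩
    · right; left; exact ⟨0, by rw [he]; simp [t]⟩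
    · right; right; left; exact ⟨0, 2, by decide, by rw [he]; simp [t]⟩
    · right; right; left; exact ⟨0, 1, by decide, by rw [he]; simp [t]⟩
    · right; right; right; rw [he, htot]; simp [t]
  have htotnb : ∃ g : P, ∀ x : P, (tot x = x ↔ x ∈ Subgroup.zpowers g) := by
    refine ⟨1, fun x => ?_⟩
    rw [Subgroup.zpowers_one_eq_bot, Subgroup.mem_bot]
    exact ⟨htot1 x, fun h => by rw [h, map_one]⟩
  have hset : {T : MulAut P | T ∈ I ∧ T ≠ 1 ∧ ¬ ∃ g : P, ∀ x : P, (T x = x ↔ x ∈ Subgroup.zpowers g)} = Set.range T := by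
    ext a
    constructor
    · rintro ⟨ha, ha1, hab⟩
      rcases hIel a ha with h | ⟨i, h⟩ | ⟨i, j, hij, h⟩ | h
      · exact absurd h ha1
      · exact ⟨i, h.symm⟩
      · exact absurd (hdisj a (by rw [h]; exact hprodT i j) ha1) hab
      · rw [h] at hab; exact absurd htotnb hab
    · rintro ⟨i, rfl⟩
      exact ⟨hTI i, hT1 i, hbroad i⟩
  have hTinj : Function.Injective T := by
    intro i j hij
    by_contra hne
    have h1 := hinv i
    rw [hij, hfix i j hne] at h1
    exact hyinv i h1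
  refine ⟨⟨⟨hcomm⟩⟩, ?_, ?_, ?_, ?_, ?_⟩
  · obtain ⟨g0, hg0⟩ := hdisj _ (hprodT 1 2) (hprod1 1 2 (by decide))
    obtain ⟨g1, hg1⟩ := hdisj _ (hprodT 0 2) (hprod1 0 2 (by decide))
    obtain ⟨g2, hg2⟩ := hdisj _ (hprodT 0 1) (hprod1 0 1 (by decide))
    refine ⟨g0, g1, g2, ?_⟩
    rw [eq_top_iff]
    intro x _
    have h12 : T 1 * T 2 ∈ I := mul_mem (hTI 1) (hTI 2)
    have h02 : T 0 * T 2 ∈ I := mul_mem (hTI 0) (hTI 2)
    obtain ⟨a, b, c, ha, hb, hc, hx⟩ := H73.Broad.four_decomp ((T 1 * T 2 : MulAut P) : P →* P)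
      ((T 0 * T 2 : MulAut P) : P →* P) (hT2 _ h12) (hT2 _ h02) (hTc _ h12 _ h02) x
    have hc' : (T 0 * T 1) c = c := by
      have hz' : (T 1 * T 2) ((T 0 * T 2) c) = c := hc
      rw [← MulAut.mul_apply] at hz'
      have : T 1 * T 2 * (T 0 * T 2) = T 0 * T 1 := by
        rw [hIc (T 0) (hTI 0) (T 2) (hTI 2), mul_assoc, ← mul_assoc (T 2), hI2 _ (hTI 2), one_mul,
          hIc _ (hTI 1) _ (hTI 0)]
      rw [this] at hz'
      exact hz'
    have hsub : ∀ g ∈ ({g0, g1, g2} : Set P), Subgroup.zpowers g ≤ Subgroup.closure ({g0, g1, g2} : Set P) := fun g hg =>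
      Subgroup.zpowers_le.2 (Subgroup.subset_closure hg)
    have h4 : x ^ 4 ∈ Subgroup.closure ({g0, g1, g2} : Set P) := by
      rw [hx]
      exact mul_mem (mul_mem (hsub g0 (by simp) ((hg0 a).1 ha)) (hsub g1 (by simp) ((hg1 b).1 hb)))
        (hsub g2 (by simp) ((hg2 c).1 hc'))
    have hcop : Nat.Coprime 4 (orderOf x) := by
      have : Odd (orderOf x) := Odd.of_dvd_nat hPodd (orderOf_dvd_natCard x)
      have h3 : Nat.Coprime 2 (orderOf x) := Nat.coprime_two_left.2 this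
      exact Nat.Coprime.pow_left 2 h3
    obtain ⟨m, hm⟩ := exists_pow_eq_self_of_coprime hcop
    rw [← hm]
    exact pow_mem h4 m
  · rintro ⟨a, b, hab⟩
    have h1 := H73.Broad.card_omega_le hp.pos hab
    have h2 := H73.Broad.pow_card_le hp hp2 (fun i => ((T i : MulAut P) : P →* P)) y hyp hinv hfix
    have h3 : p ^ 2 < p ^ 3 := Nat.pow_lt_pow_right hp.one_lt (by norm_num)
    omega
  · have h1 : Nat.card {T : MulAut P // T ∈ I ∧ T ≠ 1 ∧ ¬ ∃ g : P, ∀ x : P, (T x = x ↔ x ∈ Subgroup.zpowers g)} =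
        Nat.card (Set.range T) := by
      rw [← hset]; rfl
    rw [h1, Nat.card_range_of_injective hTinj, Nat.card_fin]
  · rw [hset, hcl]
  · ext a
    constructor
    · intro ha
      have haI : a ∈ I := hI₀.le ha
      rcases hIel a haI with h | ⟨i, h⟩ | ⟨i, j, hij, h⟩ | h
      · exact ⟨T 0, T 0, hTI 0, hTI 0, hT1 0, hT1 0, hbroad 0, hbroad 0, by rw [h, hI2 _ (hTI 0)]⟩
      · exfalso
        rw [h] at ha
        exact hbroad i (hdisj _ ha (hT1 i))
      · exact ⟨T i, T j, hTI i, hTI j, hT1 i, hT1 j, hbroad i, hbroad j, h⟩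
      · exfalso
        have h2 : T 2 ∈ I₀ := by
          have h3 : (T 0 * T 1)⁻¹ * tot ∈ I₀ := mul_mem (inv_mem (hprodT 0 1)) (by rw [← h]; exact ha)
          rwa [htot, inv_mul_cancel_left] at h3
        exact hbroad 2 (hdisj _ h2 (hT1 2))
    · rintro ⟨s, s', hs, hs', h1, h2, h3, h4, rfl⟩
      exact hprod s hs s' hs' h1 h2 h3 h4

end Cfsg.Agent.S4412
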