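import Cfsg.Statements.S4413
import Cfsg.Agent.H73.ExOut
import Cfsg.Agent.LE.OmFive

set_option autoImplicit false
open Cfsg

namespace Cfsg.Agent.S4413

/-- Let P be an extraspecial 2-group of order 32 with no elementary abelian subgroup of order 8 (the central product of a dihedral and a quaternion group of order 8). Then the inner automorphism group of P has order 16 and the outer automorphism group Aut(P)/Inn(P) is isomorphic to the symmetric group of degree 5; in particular Aut(P) has order 1920. -/
theorem result {P : Type*} [Group P] [Finite P]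
    (hex : Cfsg.IsExtraspecial 2 P) (h32 : Nat.card P = 32)
    (hminus : ∀ A : Subgroup P, Cfsg.IsElementaryAbelian 2 A → Nat.card ↥A ≤ 4)
    [(MulAut.conj : P →* MulAut P).range.Normal] :
    Nat.card ↥(MulAut.conj : P →* MulAut P).range = 16 ∧ Nat.card (MulAut P) = 1920 ∧
      Nonempty ((MulAut P ⧸ (MulAut.conj : P →* MulAut P).range) ≃* Equiv.Perm (Fin 5)) := by
  have h2 : Fact (Nat.Prime 2) := ⟨Nat.prime_two⟩
  have hG := Extra.ges_of_isExtraspecial hex
  have hcard : Nat.card P = 2 ^ (2 * (1 + 1) + 1) := h32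
  have hs : H73.ExSp2.sq P + 2 ^ (1 + 1) = 2 ^ (2 * (1 + 1)) := by
    rcases H73.ExSp2.sq_cases (1 + 1) hG hcard with h | h
    · exfalso
      obtain ⟨A, hA, hA2, hAc⟩ := (H73.ExSp2.exists_rank (1 + 1) hG hcard).1 h
      have := hminus A ⟨hA, hA2⟩
      norm_num at hAc
      omega
    · exact h
  obtain ⟨e1⟩ := H73.ExOut.out_minus hex 1 hcard hs
  obtain ⟨e2⟩ := LE.OmFive.iso_om5
  have e : (MulAut P ⧸ (MulAut.conj : P →* MulAut P).range) ≃* Equiv.Perm (Fin 5) := e1.trans e2
  have hinn : Nat.card ↥(MulAut.conj : P →* MulAut P).range = 16 := by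
    have h3 := Subgroup.card_mul_index (MulAut.conj : P →* MulAut P).ker
    rw [Subgroup.index_ker] at h3
    have h4 : (MulAut.conj : P →* MulAut P).ker = Subgroup.center P := by
      ext x
      rw [MonoidHom.mem_ker, Subgroup.mem_center_iff]
      constructor
      · intro h5 g
        have h6 : x * g * x⁻¹ = g := congrArg (fun σ : MulAut P => σ g) h5
        rw [mul_inv_eq_iff_eq_mul] at h6
        exact h6.symm
      · intro h5
        ext g
        show x * g * x⁻¹ = g
        rw [← h5 g, mul_inv_cancel_right]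
    rw [h4, hG.card_center, h32] at h3
    omega
  refine ⟨hinn, ?_, ⟨e⟩⟩
  rw [Subgroup.card_eq_card_quotient_mul_card_subgroup (MulAut.conj : P →* MulAut P).range, hinn,
    Nat.card_congr e.toEquiv, Nat.card_perm, Nat.card_fin]
  rfl

end Cfsg.Agent.S4413
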