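import Cfsg.Statements.S4414
import Cfsg.Agent.H73.Wt4

set_option autoImplicit false
open Cfsg

namespace Cfsg.Agent.S4414

/-- Let S be a finite solvable group whose order is divisible only by the primes 2, p, q (p, q distinct odd primes), with a Sylow system S₂, S_p, S_q (pairwise permutable Sylow subgroups) such that: S_p is a minimal normal subgroup of S of order p or p²; S_q has order q and [S_p, S_q] = S_p; and O₂(S) = 1. Let E be an irreducible module for S over the field with two elements on which S_p acts faithfully, and E₀ the subspace of fixed points of S₂. Then either E₀ has at least 8 elements, or E₀ has exactly 4 elements and S_q does not leave E₀ invariant. -/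
theorem result {S : Type*} [Group S] [Finite S]
    [Group.IsSolvable S] (p q : ℕ) (hp : p.Prime) (hq : q.Prime) (hp2 : p ≠ 2) (hq2 : q ≠ 2) (hpq : p ≠ q)
    (hπ : ∀ r : ℕ, r.Prime → r ∣ Nat.card S → r = 2 ∨ r = p ∨ r = q)
    (S₂ : Sylow 2 S) (Sp : Sylow p S) (Sq : Sylow q S)
    (h2q : Nat.card ↥((S₂ : Subgroup S) ⊔ (Sq : Subgroup S)) = Nat.card ↥S₂ * Nat.card ↥Sq)
    (h2p : Nat.card ↥((S₂ : Subgroup S) ⊔ (Sp : Subgroup S)) = Nat.card ↥S₂ * Nat.card ↥Sp)
    (hpq' : Nat.card ↥((Sp : Subgroup S) ⊔ (Sq : Subgroup S)) = Nat.card ↥Sp * Nat.card ↥Sq)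
    (hSpN : (Sp : Subgroup S).Normal) (hSpmin : ∀ N : Subgroup S, N.Normal → N ≤ (Sp : Subgroup S) → N = ⊥ ∨ N = (Sp : Subgroup S))
    (hSpcard : Nat.card ↥Sp = p ∨ Nat.card ↥Sp = p ^ 2)
    (hSq : Nat.card ↥Sq = q) (hcomm : ⁅(Sp : Subgroup S), (Sq : Subgroup S)⁆ = (Sp : Subgroup S))
    (hO2 : Cfsg.pCore 2 S = ⊥)
    {E : Type*} [AddCommGroup E] [Module (ZMod 2) E] [Finite E] (ρ : Representation (ZMod 2) S E) (hE : Nontrivial E)
    (hirr : ∀ N : Submodule (ZMod 2) E, (∀ s : S, ∀ m ∈ N, ρ s m ∈ N) → N = ⊥ ∨ N = ⊤)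
    (hfaith : ∀ x ∈ (Sp : Subgroup S), ρ x = 1 → x = 1) :
    8 ≤ Nat.card {v : E // ∀ s ∈ (S₂ : Subgroup S), ρ s v = v} ∨
      (Nat.card {v : E // ∀ s ∈ (S₂ : Subgroup S), ρ s v = v} = 4 ∧
        ∃ x ∈ (Sq : Subgroup S), ∃ v : E, (∀ s ∈ (S₂ : Subgroup S), ρ s v = v) ∧ ¬ ∀ s ∈ (S₂ : Subgroup S), ρ s (ρ x v) = ρ x v) := by
  haveI : Fact p.Prime := ⟨hp⟩
  haveI : Fact q.Prime := ⟨hq⟩
  have hodd : Odd (Nat.card ↥(Sp : Subgroup S)) := by
    have : Odd p := hp.odd_of_ne_two hp2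
    rcases hSpcard with h | h
    · have h' : Nat.card ↥(Sp : Subgroup S) = p := h
      rw [h']; exact this
    · have h' : Nat.card ↥(Sp : Subgroup S) = p ^ 2 := h
      rw [h']; exact this.pow
  have hc : ∀ a b : ↥(Sp : Subgroup S), a * b = b * a := by
    rcases hSpcard with h | h
    · have h' : Nat.card ↥(Sp : Subgroup S) = p := h
      haveI := isCyclic_of_prime_card h'
      exact fun a b => (IsCyclic.isMulCommutative (α := ↥(Sp : Subgroup S))).is_comm.comm a b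
    · have h' : Nat.card ↥(Sp : Subgroup S) = p ^ 2 := h
      exact fun a b => (IsPGroup.isMulCommutative_of_card_eq_prime_sq h').is_comm.comm a b
  have hne1 : ∃ x : ↥(Sp : Subgroup S), x ≠ 1 := by
    have h1 : 1 < Nat.card ↥(Sp : Subgroup S) := by
      rcases hSpcard with h | h
      · have h' : Nat.card ↥(Sp : Subgroup S) = p := h
        rw [h']; exact hp.one_lt
      · have h' : Nat.card ↥(Sp : Subgroup S) = p ^ 2 := h
        rw [h']; exact Nat.one_lt_pow two_ne_zero hp.one_lt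
    haveI : Nontrivial ↥(Sp : Subgroup S) := Finite.one_lt_card_iff_nontrivial.mp h1
    exact exists_ne 1
  obtain ⟨n, hn⟩ := (IsPGroup.iff_card.mp S₂.isPGroup')
  have htop : (S₂ : Subgroup S) ⊔ (Sp : Subgroup S) ⊔ (Sq : Subgroup S) = ⊤ := by
    set H := (S₂ : Subgroup S) ⊔ (Sp : Subgroup S) ⊔ (Sq : Subgroup S) with hH
    rw [← Subgroup.index_eq_one]
    by_contra hcon
    obtain ⟨r, hr, hrd⟩ := Nat.exists_prime_and_dvd hcon
    have hrS : r ∣ Nat.card S := hrd.trans H.index_dvd_card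
    have hno : ∀ (t : ℕ) (_ : Fact t.Prime) (T : Sylow t S), (T : Subgroup S) ≤ H → ¬ t ∣ H.index := by
      intro t ht T hT htd
      exact T.not_dvd_index (htd.trans (Subgroup.index_dvd_of_le hT))
    rcases hπ r hr hrS with rfl | rfl | rfl
    · exact hno 2 ⟨Nat.prime_two⟩ S₂ (le_sup_left.trans le_sup_left) hrd
    · exact hno _ ⟨hp⟩ Sp (le_sup_right.trans le_sup_left) hrd
    · exact hno _ ⟨hq⟩ Sq le_sup_right hrd
  obtain ⟨x, hx⟩ := hne1
  exact H73.Wt.final ρ (Sp : Subgroup S) (S₂ : Subgroup S) (Sq : Subgroup S) hc hodd n q hq hq2 hn hSq htop hcomm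
    ⟨x, fun h => hx (Subtype.ext (hfaith x x.2 h))⟩

end Cfsg.Agent.S4414
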