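import Cfsg.Statements.S4417
import Cfsg.Agent.H94.WrGL2

set_option autoImplicit false
open Cfsg

namespace Cfsg.Agent.S4417

open Matrix Subgroup Cfsg.Agent.H94.Wr Cfsg.Agent.H53.SEA

theorem gl1_comm {F : Type*} [Field F] (a b : GL (Fin 1) F) : a * b = b * a := by
  apply Units.ext
  ext i j
  fin_cases i; fin_cases j
  rw [Units.val_mul, Units.val_mul, Matrix.mul_apply, Matrix.mul_apply, Fin.sum_univ_one, Fin.sum_univ_one]
  exact mul_comm _ _

theorem dle_GL_three {F : Type*} [Field F] [Fintype F] (h3 : Fintype.card F % 4 = 3) (n : ℕ) (hn : 1 ≤ n) :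
    DLe 2 (GL (Fin n) F) (Nat.log 2 n + 1) := by
  have hF : Odd (Fintype.card F) := odd_of_three h3
  have hq1 : 1 < Fintype.card F := Fintype.one_lt_card
  rcases Nat.even_or_odd' n with ⟨m, rfl | rfl⟩
  · have hm : m ≠ 0 := by rintro rfl; omega
    have hl : Nat.log 2 (2 * m) + 1 = 2 + Nat.log 2 m := by
      rw [mul_comm, Nat.log_mul_base (by norm_num) hm]; ring
    rw [hl]
    exact dle_wreath m (glWrd' 2 m 0 two_ne_zero F) (dle_GL2_three h3) (fac_card_GL_even hF m)
  · by_cases hm : m = 0
    · subst hm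
      exact DLe.mono (DLe.of_comm gl1_comm) (Nat.le_add_left _ _)
    have hl : Nat.log 2 (2 * m + 1) + 1 = 2 + Nat.log 2 m := by
      rw [Nat.log_of_one_lt_of_le (by norm_num) (by omega)]
      have : (2 * m + 1) / 2 = m := by omega
      rw [this]; ring
    rw [hl]
    have h1 : DLe 2 (GL (Fin 2 × Fin m) F) (2 + Nat.log 2 m) :=
      dle_wreath m (glWrd (Fin 2) (Fin m) F) (dle_GL2_three h3) (fac_card_GL_blocks m hF)
    have h2 : DLe 2 (GL (Fin 1) F) (2 + Nat.log 2 m) := DLe.mono (DLe.of_comm gl1_comm) (by omega)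
    refine DLe.of_injective_index (bigEmb 2 m 1 F) (bigEmb_injective 2 m 1 F) ?_ (DLe.prod h1 h2)
    rw [fac_card_GL_succ hF, fac_card_GL_even hF, Nat.card_prod, Nat.factorization_mul Nat.card_pos.ne' Nat.card_pos.ne']
    simp only [Finsupp.add_apply]
    rw [fac_card_GL_blocks m hF, fac_pow_odd hF hq1, fac_card_GL_succ hF 0, fac_card_GL_zero hF]
    simp

/-- Let F be a field with q elements, p a prime not dividing q, and e the multiplicative order of q modulo p; assume e ≤ n. Then every p-subgroup of GL_n(F) has derived length at most ⌊log₂(n/e)⌋ + 1: that term of its derived series is trivial (n/e is the integer quotient). -/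
theorem result {F : Type*} [Field F] [Fintype F] (q : ℕ) (hF : Fintype.card F = q) (p : ℕ) [Fact p.Prime] (hpq : ¬ p ∣ q) (n e : ℕ) (he : e = orderOf (q : ZMod p)) (hen : e ≤ n) (P : Subgroup (GL (Fin n) F)) (hP : IsPGroup p P) : derivedSeries ↥P (Nat.log 2 (n / e) + 1) = ⊥ := by
  subst hF
  have hq1 : 1 < Fintype.card F := Fintype.one_lt_card
  by_cases hp2 : p = 2
  · subst hp2
    have hodd : Fintype.card F % 2 = 1 := by omega
    have he1 : e = 1 := by
      rw [he, orderOf_eq_one_iff]
      have : ((Fintype.card F : ℕ) : ZMod 2) = ((1 : ℕ) : ZMod 2) := by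
        rw [ZMod.natCast_eq_natCast_iff']; omega
      simpa using this
    rw [he1, Nat.div_one]
    rw [he1] at hen
    rcases (show Fintype.card F % 4 = 1 ∨ Fintype.card F % 4 = 3 by omega) with h | h
    · have := dle_GL (F := F) hpq (shape_two h hq1) n P hP
      rwa [Nat.div_one, add_comm] at this
    · exact dle_GL_three h n hen P hP
  · have h := dle_GL (F := F) hpq (shape_odd hp2 hq1 hpq) n
    rw [← he] at h
    refine DLe.mono h ?_ P hP
    have : Nat.log p (n / e) ≤ Nat.log 2 (n / e) := Nat.log_anti_left (by norm_num) (Fact.out : p.Prime).two_le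
    omega

end Cfsg.Agent.S4417
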