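import Cfsg.Statements.S4420

set_option autoImplicit false
open Cfsg

namespace Cfsg.Agent.S4420

/-- Structure of groups in which every element outside some proper subgroup has square 1. Let H be a finite group with a proper subgroup A such that every element outside A has square 1. Then H has an abelian normal subgroup B of index 2 such that every element outside B is an involution inverting every element of B; and if H is not an elementary abelian 2-group, B is the only abelian normal subgroup of index 2 with this property. -/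
theorem result {H : Type*} [Group H] [Finite H] (A : Subgroup H) (hA : A ≠ ⊤) (hD : ∀ x : H, x ∉ A → x ^ 2 = 1) :
    ∃ B : Subgroup H, B.Normal ∧ IsMulCommutative ↥B ∧ B.index = 2 ∧
      (∀ x : H, x ∉ B → x ^ 2 = 1 ∧ ∀ b ∈ B, x * b * x⁻¹ = b⁻¹) ∧
      (¬ (IsMulCommutative H ∧ ∀ x : H, x ^ 2 = 1) →
        ∀ B' : Subgroup H, B'.Normal → IsMulCommutative ↥B' → B'.index = 2 →
          (∀ x : H, x ∉ B' → x ^ 2 = 1 ∧ ∀ b ∈ B', x * b * x⁻¹ = b⁻¹) → B' = B) := by
  -- elementary abelian helper
  have elem : (∀ x : H, x ^ 2 = 1) → IsMulCommutative H := by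
    intro h
    exact ⟨⟨fun a b => by
      have h1 : (a * b) ^ 2 = 1 := h _
      have h2 : a ^ 2 = 1 := h _
      have h3 : b ^ 2 = 1 := h _
      rw [pow_two] at h1 h2 h3
      have ha : a⁻¹ = a := inv_eq_of_mul_eq_one_right h2
      have hb : b⁻¹ = b := inv_eq_of_mul_eq_one_right h3
      have hab : (a * b)⁻¹ = a * b := inv_eq_of_mul_eq_one_right h1
      rw [← hab, mul_inv_rev, ha, hb]⟩⟩
  have inv : ∀ x : H, x ∉ A → ∀ a ∈ A, x * a * x⁻¹ = a⁻¹ := by
    intro x hx a ha
    have h1 : x * a ∉ A := fun h => hx (by simpa using A.mul_mem h (A.inv_mem ha))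
    have h2 := hD _ h1
    have h3 := hD _ hx
    rw [pow_two] at h2 h3
    have hx' : x⁻¹ = x := inv_eq_of_mul_eq_one_right h3
    rw [hx']
    have h4 : x * a * x * a = 1 := by rw [← h2]; group
    exact eq_inv_of_mul_eq_one_left h4
  obtain ⟨x, hx⟩ : ∃ x : H, x ∉ A := by
    by_contra h
    push Not at h
    exact hA (eq_top_iff.mpr fun y _ => h y)
  have comm : ∀ a ∈ A, ∀ b ∈ A, a * b = b * a := by
    intro a ha b hb
    have h1 := inv x hx _ (A.mul_mem ha hb)
    have h2 := inv x hx a ha
    have h3 := inv x hx b hb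
    have h4 : x * (a * b) * x⁻¹ = (x * a * x⁻¹) * (x * b * x⁻¹) := by group
    rw [h1, h2, h3, mul_inv_rev] at h4
    have h5 := congrArg (fun t => t⁻¹) h4
    simpa using h5
  -- uniqueness part
  have uniq : ∀ B : Subgroup H, IsMulCommutative ↥B → (∀ x : H, x ∉ B → x ^ 2 = 1 ∧ ∀ b ∈ B, x * b * x⁻¹ = b⁻¹) →
      B.index = 2 →
      (¬ (IsMulCommutative H ∧ ∀ x : H, x ^ 2 = 1) →
        ∀ B' : Subgroup H, B'.Normal → IsMulCommutative ↥B' → B'.index = 2 →
          (∀ x : H, x ∉ B' → x ^ 2 = 1 ∧ ∀ b ∈ B', x * b * x⁻¹ = b⁻¹) → B' = B) := by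
    intro B hBc hBi hB2 hne B' _ hBc' hB2' hBi'
    by_contra hneq
    apply hne
    have hall : ∀ y : H, y ^ 2 = 1 := by
      intro y
      by_cases hy : y ∈ B
      · by_cases hy' : y ∈ B'
        · -- pick b ∈ B \ B'
          obtain ⟨b, hb, hb'⟩ : ∃ b ∈ B, b ∉ B' := by
            by_contra h
            push Not at h
            have hle : B ≤ B' := h
            have := Subgroup.relIndex_mul_index hle
            rw [hB2, hB2'] at this
            have h1 : B.relIndex B' = 1 := by omega
            exact hneq (le_antisymm (Subgroup.relIndex_eq_one.mp h1) hle)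
          have h1 := (hBi' b hb').2 y hy'
          have h2 : b * y = y * b := by
            have := hBc.is_comm.comm (⟨b, hb⟩ : B) ⟨y, hy⟩
            simpa using congrArg Subtype.val this
          rw [h2] at h1
          have h3 : y = y⁻¹ := by simpa using h1
          rw [pow_two]
          nth_rewrite 1 [h3]
          simp
        · exact (hBi' y hy').1
      · exact (hBi y hy).1
    exact ⟨elem hall, hall⟩
  by_cases hidx : A.index = 2
  · refine ⟨A, Subgroup.normal_of_index_eq_two hidx, ⟨⟨fun a b => Subtype.ext (comm a a.2 b b.2)⟩⟩, hidx, fun y hy => ⟨hD y hy, inv y hy⟩, uniq A ⟨⟨fun a b => Subtype.ext (comm a a.2 b b.2)⟩⟩ (fun y hy => ⟨hD y hy, inv y hy⟩) hidx⟩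
  · -- index > 2, so elementary abelian
    obtain ⟨y, hy, hxy⟩ : ∃ y : H, y ∉ A ∧ y * x ∉ A := by
      by_contra h
      push Not at h
      apply hidx
      rw [Subgroup.index_eq_two_iff_exists_notMem_and]
      refine ⟨x, hx, fun b => ?_⟩
      by_cases hb : b ∈ A
      · exact Or.inr hb
      · exact Or.inl (h b hb)
    have hall : ∀ z : H, z ^ 2 = 1 := by
      intro z
      by_cases hz : z ∈ A
      · have h1 := inv x hx z hz
        have h2 := inv y hy z⁻¹ (A.inv_mem hz)
        have h3 := inv _ hxy z hz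
        have h4 : y * x * z * (y * x)⁻¹ = y * (x * z * x⁻¹) * y⁻¹ := by group
        rw [h4, h1, h2, inv_inv] at h3
        rw [pow_two]
        nth_rewrite 1 [h3]
        simp
      · exact hD z hz
    have hcomm := elem hall
    have hp : IsPGroup 2 H := by
      intro g
      exact ⟨1, by simpa using hall g⟩
    obtain ⟨n, hn⟩ := IsPGroup.iff_card.mp hp
    have hn0 : n ≠ 0 := by
      rintro rfl
      have h1 : Nat.card H = 1 := by simpa using hn
      have := (Nat.card_eq_one_iff_unique.mp h1).1
      exact hx (by rw [Subsingleton.elim x 1]; exact A.one_mem)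
    obtain ⟨B, hB⟩ := Sylow.exists_subgroup_card_pow_prime (G := H) 2 (n := n - 1) (by
      rw [hn]; exact pow_dvd_pow 2 (by omega))
    have hBi : B.index = 2 := by
      have h1 := B.card_mul_index
      rw [hB, hn] at h1
      have h2 : 2 ^ n = 2 ^ (n - 1) * 2 := by
        rw [← pow_succ]; congr 1; omega
      rw [h2] at h1
      exact Nat.eq_of_mul_eq_mul_left (by positivity) h1
    have hcomm' : ∀ a b : H, a * b = b * a := fun a b => hcomm.is_comm.comm a b
    have hinv : ∀ x : H, x ∉ B → x ^ 2 = 1 ∧ ∀ b ∈ B, x * b * x⁻¹ = b⁻¹ := by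
      intro x _
      refine ⟨hall x, fun b _ => ?_⟩
      rw [hcomm' x b]
      have h3 : b * b = 1 := by rw [← pow_two]; exact hall b
      rw [mul_inv_cancel_right]
      exact eq_inv_of_mul_eq_one_left h3
    exact ⟨B, Subgroup.normal_of_index_eq_two hBi, ⟨⟨fun a b => Subtype.ext (hcomm' a b)⟩⟩, hBi, hinv,
      uniq B ⟨⟨fun a b => Subtype.ext (hcomm' a b)⟩⟩ hinv hBi⟩

end Cfsg.Agent.S4420
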