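import Cfsg.Statements.S4423
import Cfsg.Agent.Num.ZsigPart4

set_option autoImplicit false
open Cfsg

namespace Cfsg.Agent.S4423

/-- Size of the primitive part of `q^e - 1`. For a prime power `q` and `e ≥ 3`, call a divisor of `q^e - 1` primitive when it is coprime to `q^i - 1` for every `1 ≤ i < e`; the primitive part is the largest primitive divisor. Apart from thirteen exceptional pairs, the primitive part is at least `3e + 1`: there is a primitive divisor `m ≥ 3e + 1` unless `(q, e)` is `(2, 6)` (where every primitive divisor is 1), one of `(2,4), (2,10), (2,12), (2,18), (3,4), (3,6), (5,6)` (where the primitive part is exactly `e + 1`), or one of `(2,3), (2,8), (2,20), (4,3), (4,6)` (where it is exactly `2e + 1`). The statement asserts the existence of a primitive divisor `m ≥ 3e + 1` outside the thirteen pairs, and that every primitive divisor is at most `2e + 1` for the thirteen pairs. -/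
theorem result (q e : ℕ) (hq : IsPrimePow q) (he : 3 ≤ e) :
    ((q, e) ∉ [(2, 6), (2, 4), (2, 10), (2, 12), (2, 18), (3, 4), (3, 6), (5, 6), (2, 3), (2, 8), (2, 20), (4, 3), (4, 6)] →
      ∃ m : ℕ, m ∣ q ^ e - 1 ∧ (∀ i : ℕ, 1 ≤ i → i < e → Nat.Coprime m (q ^ i - 1)) ∧ 3 * e + 1 ≤ m) ∧
    ((q, e) ∈ [(2, 6), (2, 4), (2, 10), (2, 12), (2, 18), (3, 4), (3, 6), (5, 6), (2, 3), (2, 8), (2, 20), (4, 3), (4, 6)] →
      ∀ m : ℕ, m ∣ q ^ e - 1 → (∀ i : ℕ, 1 ≤ i → i < e → Nat.Coprime m (q ^ i - 1)) → m ≤ 2 * e + 1) := by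
  refine ⟨fun h => Cfsg.Agent.Num.ZsigPart.good hq.two_le he h, fun h m hm hcop => ?_⟩
  have key : ∀ a b c : ℕ, m ∣ a → a = b * c → Nat.Coprime m b → m ∣ c := by
    intro a b c h1 h2 h3
    rw [h2] at h1
    exact h3.dvd_of_dvd_mul_left h1
  simp only [List.mem_cons, Prod.mk.injEq, List.not_mem_nil, or_false] at h
  rcases h with ⟨rfl, rfl⟩ | ⟨rfl, rfl⟩ | ⟨rfl, rfl⟩ | ⟨rfl, rfl⟩ | ⟨rfl, rfl⟩ | ⟨rfl, rfl⟩ | ⟨rfl, rfl⟩ | ⟨rfl, rfl⟩ | ⟨rfl, rfl⟩ | ⟨rfl, rfl⟩ | ⟨rfl, rfl⟩ | ⟨rfl, rfl⟩ | ⟨rfl, rfl⟩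
  · -- (2,6): 63 = 3 * 3 * 7
    have h1 := hcop 2 (by norm_num) (by norm_num)
    have h2 := hcop 3 (by norm_num) (by norm_num)
    have h3 := key _ 3 21 hm (by norm_num) h1
    have h4 := key _ 3 7 h3 (by norm_num) h1
    have h5 := key _ 7 1 h4 (by norm_num) h2
    exact (Nat.le_of_dvd (by norm_num) h5).trans (by norm_num)
  · -- (2,4): 15 = 3 * 5
    have h1 := hcop 2 (by norm_num) (by norm_num)
    have h3 := key _ 3 5 hm (by norm_num) h1
    exact (Nat.le_of_dvd (by norm_num) h3).trans (by norm_num)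
  · -- (2,10): 1023 = 31 * 33, 33 = 3 * 11
    have h1 := hcop 5 (by norm_num) (by norm_num)
    have h2 := hcop 2 (by norm_num) (by norm_num)
    have h3 := key _ 31 33 hm (by norm_num) h1
    have h4 := key _ 3 11 h3 (by norm_num) h2
    exact (Nat.le_of_dvd (by norm_num) h4).trans (by norm_num)
  · -- (2,12): 4095 = 63 * 65, 65 = 5 * 13
    have h1 := hcop 6 (by norm_num) (by norm_num)
    have h2 := hcop 4 (by norm_num) (by norm_num)
    have h3 := key _ 63 65 hm (by norm_num) h1
    have h4 := key _ 5 13 h3 (by norm_num) (Nat.Coprime.coprime_dvd_right (by norm_num) h2)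
    exact (Nat.le_of_dvd (by norm_num) h4).trans (by norm_num)
  · -- (2,18): 262143 = 511 * 513, 513 = 27 * 19
    have h1 := hcop 9 (by norm_num) (by norm_num)
    have h2 := hcop 2 (by norm_num) (by norm_num)
    have h3 := key _ 511 513 hm (by norm_num) h1
    have h4 := key _ 3 171 h3 (by norm_num) h2
    have h5 := key _ 3 57 h4 (by norm_num) h2
    have h6 := key _ 3 19 h5 (by norm_num) h2
    exact (Nat.le_of_dvd (by norm_num) h6).trans (by norm_num)
  · -- (3,4): 80 = 8 * 10, 10 = 2 * 5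
    have h1 := hcop 2 (by norm_num) (by norm_num)
    have h2 := hcop 1 (by norm_num) (by norm_num)
    have h3 := key _ 8 10 hm (by norm_num) h1
    have h4 := key _ 2 5 h3 (by norm_num) h2
    exact (Nat.le_of_dvd (by norm_num) h4).trans (by norm_num)
  · -- (3,6): 728 = 26 * 28, 28 = 2 * 2 * 7
    have h1 := hcop 3 (by norm_num) (by norm_num)
    have h2 := hcop 1 (by norm_num) (by norm_num)
    have h3 := key _ 26 28 hm (by norm_num) h1
    have h4 := key _ 2 14 h3 (by norm_num) h2
    have h5 := key _ 2 7 h4 (by norm_num) h2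
    exact (Nat.le_of_dvd (by norm_num) h5).trans (by norm_num)
  · -- (5,6): 15624 = 124 * 126, 126 = 2 * 9 * 7
    have h1 := hcop 3 (by norm_num) (by norm_num)
    have h2 := hcop 2 (by norm_num) (by norm_num)
    have h3 := key _ 124 126 hm (by norm_num) h1
    have h4 := key _ 2 63 h3 (by norm_num) (Nat.Coprime.coprime_dvd_right (by norm_num) h2)
    have h5 := key _ 3 21 h4 (by norm_num) (Nat.Coprime.coprime_dvd_right (by norm_num) h2)
    have h6 := key _ 3 7 h5 (by norm_num) (Nat.Coprime.coprime_dvd_right (by norm_num) h2)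
    exact (Nat.le_of_dvd (by norm_num) h6).trans (by norm_num)
  · -- (2,3): 7
    exact (Nat.le_of_dvd (by norm_num) hm).trans (by norm_num)
  · -- (2,8): 255 = 15 * 17
    have h1 := hcop 4 (by norm_num) (by norm_num)
    have h3 := key _ 15 17 hm (by norm_num) h1
    exact (Nat.le_of_dvd (by norm_num) h3).trans (by norm_num)
  · -- (2,20): 1048575 = 1023 * 1025, 1025 = 25 * 41
    have h1 := hcop 10 (by norm_num) (by norm_num)
    have h2 := hcop 4 (by norm_num) (by norm_num)
    have h3 := key _ 1023 1025 hm (by norm_num) h1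
    have h4 := key _ 5 205 h3 (by norm_num) (Nat.Coprime.coprime_dvd_right (by norm_num) h2)
    have h5 := key _ 5 41 h4 (by norm_num) (Nat.Coprime.coprime_dvd_right (by norm_num) h2)
    exact (Nat.le_of_dvd (by norm_num) h5).trans (by norm_num)
  · -- (4,3): 63 = 3 * 21, 21 = 3 * 7
    have h1 := hcop 1 (by norm_num) (by norm_num)
    have h3 := key _ 3 21 hm (by norm_num) h1
    have h4 := key _ 3 7 h3 (by norm_num) h1
    exact (Nat.le_of_dvd (by norm_num) h4).trans (by norm_num)
  · -- (4,6): 4095 = 63 * 65, 65 = 5 * 13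
    have h1 := hcop 3 (by norm_num) (by norm_num)
    have h2 := hcop 2 (by norm_num) (by norm_num)
    have h3 := key _ 63 65 hm (by norm_num) h1
    have h4 := key _ 5 13 h3 (by norm_num) (Nat.Coprime.coprime_dvd_right (by norm_num) h2)
    exact (Nat.le_of_dvd (by norm_num) h4).trans (by norm_num)

end Cfsg.Agent.S4423
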