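import Cfsg.Statements.S4460
import Mathlib
import Cfsg.Agent.H53.D3Sol3

set_option autoImplicit false
open Cfsg

namespace Cfsg.Agent.S4460

/-- A finite group with exactly three distinct irreducible character degrees is solvable of derived length at most 3: its third derived subgroup is trivial. -/
theorem result {G : Type*} [Group G] [Finite G] (hcd : Nat.card {n : ℕ // ∃ χ : Cfsg.IrrCharacter G, Cfsg.charDegree (χ : G → ℂ) = n} = 3) : derivedSeries G 3 = ⊥ := by
  classical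
  have h1 : ({n : ℕ | ∃ χ : Cfsg.IrrCharacter G, Cfsg.charDegree (χ : G → ℂ) = n} : Set ℕ).ncard = 3 := hcd
  obtain ⟨x, y, z, -, -, -, hs⟩ := Set.ncard_eq_three.mp h1
  have h2 : ∀ χ : Cfsg.IrrCharacter G, Cfsg.Agent.H75.deg χ = x ∨ Cfsg.Agent.H75.deg χ = y ∨
      Cfsg.Agent.H75.deg χ = z := by
    intro χ
    have h3 : Cfsg.Agent.H75.deg χ ∈ ({n : ℕ | ∃ χ : Cfsg.IrrCharacter G,
        Cfsg.charDegree (χ : G → ℂ) = n} : Set ℕ) := ⟨χ, Cfsg.Agent.H75.charDegree_eq_deg χ⟩
    rw [hs] at h3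
    exact h3
  have h4 : Cfsg.Agent.H75.deg (Cfsg.Agent.CharBase.oneIrr G) = 1 := by
    have := Cfsg.Agent.H75.deg_spec (Cfsg.Agent.CharBase.oneIrr G)
    rw [Cfsg.Agent.CharBase.oneIrr_apply] at this
    exact_mod_cast this.symm
  have h5 := h2 (Cfsg.Agent.CharBase.oneIrr G)
  rw [h4] at h5
  rcases h5 with h | h | h
  · exact Cfsg.Agent.H53.D3.derived_three y z (fun χ => by rw [h]; exact h2 χ)
  · exact Cfsg.Agent.H53.D3.derived_three x z (fun χ => by rw [h]; rcases h2 χ with h' | h' | h' <;> tauto)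
  · exact Cfsg.Agent.H53.D3.derived_three x y (fun χ => by rw [h]; rcases h2 χ with h' | h' | h' <;> tauto)

end Cfsg.Agent.S4460
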