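import Cfsg.Statements.S4462
import Cfsg.Agent.H75.Broline
import Cfsg.Agent.H75.BlkSum

set_option autoImplicit false
set_option linter.style.haveILetI false
open Cfsg Cfsg.Agent.CharBase Cfsg.Agent.H75
universe u

namespace Cfsg.Agent.S4462

/-- nilpotency of the factor `B / A` -/
def NF {G : Type*} [Group G] (A B : Subgroup G) : Prop :=
  ∀ h : (A.subgroupOf B).Normal, Group.IsNilpotent (↥B ⧸ A.subgroupOf B)

theorem NF_comap {G Q : Type*} [Group G] [Group Q] (f : G →* Q) (hf : Function.Surjective f)
    (A B : Subgroup Q) (hA : A.Normal) (h : NF A B) : NF (A.comap f) (B.comap f) := by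
  intro hn
  haveI hAn : (A.subgroupOf B).Normal := inferInstance
  haveI := h hAn
  let φ : ↥(B.comap f) →* (↥B ⧸ A.subgroupOf B) := (QuotientGroup.mk' _).comp (f.subgroupComap B)
  have hφ : Function.Surjective φ := by
    intro y
    obtain ⟨⟨b, hb⟩, rfl⟩ := QuotientGroup.mk'_surjective _ y
    obtain ⟨x, rfl⟩ := hf b
    exact ⟨⟨x, hb⟩, rfl⟩
  have hker : φ.ker = (A.comap f).subgroupOf (B.comap f) := by
    ext x
    rw [MonoidHom.mem_ker, Subgroup.mem_subgroupOf, Subgroup.mem_comap]
    change QuotientGroup.mk (f.subgroupComap B x) = (1 : ↥B ⧸ A.subgroupOf B) ↔ _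
    rw [QuotientGroup.eq_one_iff, Subgroup.mem_subgroupOf]
    rfl
  let e : (↥(B.comap f) ⧸ (A.comap f).subgroupOf (B.comap f)) ≃* (↥B ⧸ A.subgroupOf B) :=
    (QuotientGroup.quotientMulEquivOfEq hker.symm).trans
      (QuotientGroup.quotientKerEquivOfSurjective φ hφ)
  exact Group.nilpotent_of_mulEquiv e.symm

theorem NF_of_nilpotent {G : Type*} [Group G] (A B : Subgroup G) (h : Group.IsNilpotent B) : NF A B := by
  intro hn
  infer_instance

theorem monotone_cons' {α : Type*} [Preorder α] {n : ℕ} (a : α) (f : Fin n → α) (hf : Monotone f)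
    (ha : ∀ i, a ≤ f i) : Monotone (Fin.cons a f : Fin (n + 1) → α) := by
  intro i j hij
  induction i using Fin.cases with
  | zero =>
    induction j using Fin.cases with
    | zero => exact le_rfl
    | succ j => simpa using ha j
  | succ i =>
    induction j using Fin.cases with
    | zero => exact absurd hij (by simp [Fin.le_def])
    | succ j => simpa using hf (Fin.succ_le_succ_iff.mp hij)

theorem chain_aux (n : ℕ) : ∀ (G : Type u) [Group G] [Finite G], Group.IsSolvable G →
    {d : ℕ | ∃ χ : Cfsg.IrrCharacter G, deg χ = d}.ncard ≤ n →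
    ∃ N : Fin (n + 1) → Subgroup G, N 0 = ⊥ ∧ N (Fin.last n) = ⊤ ∧ Monotone N ∧
      (∀ i, (N i).Normal) ∧ ∀ i : Fin n, NF (N i.castSucc) (N i.succ) := by
  induction n with
  | zero =>
    intro G _ _ hs hc
    exfalso
    have h1 : {d : ℕ | ∃ χ : Cfsg.IrrCharacter G, deg χ = d}.Nonempty := ⟨_, oneIrr G, rfl⟩
    have h2 : {d : ℕ | ∃ χ : Cfsg.IrrCharacter G, deg χ = d}.Finite := Set.finite_range _
    have h3 := (Set.ncard_pos h2).mpr h1
    omega
  | succ n ih =>
    intro G _ _ hs hc
    haveI := Fintype.ofFinite G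
    by_cases hnil : Group.IsNilpotent G
    · refine ⟨Fin.cons ⊥ (fun _ => ⊤), rfl, by simp [← Fin.succ_last], ?_, ?_, ?_⟩
      · exact monotone_cons' _ _ monotone_const (fun _ => bot_le)
      · intro i
        refine Fin.cases ?_ (fun i => ?_) i
        · simp only [Fin.cons_zero]; infer_instance
        · simp only [Fin.cons_succ]; infer_instance
      · intro i
        apply NF_of_nilpotent
        infer_instance
    · set F := Cfsg.fittingSubgroup G with hF
      haveI hFn : F.Normal := inferInstance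
      have hFnil : Group.IsNilpotent F := Solv.fitting_isNilpotent
      have hFt : F ≠ ⊤ := by
        intro h
        apply hnil
        rw [h] at hFnil
        exact Group.nilpotent_of_mulEquiv (Subgroup.topEquiv : (⊤ : Subgroup G) ≃* G)
      -- the degrees of G/F
      have hdeg : ∀ θ : Cfsg.IrrCharacter (G ⧸ F), deg (inflIrr F θ) = deg θ := by
        intro θ
        have e1 := deg_spec (inflIrr F θ)
        have e2 := deg_spec θ
        have e3 : (inflIrr F θ : G → ℂ) 1 = (θ : G ⧸ F → ℂ) 1 := rfl
        rw [e3, e2] at e1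
        exact_mod_cast e1.symm
      haveI : Nonempty (Cfsg.IrrCharacter G) := ⟨oneIrr G⟩
      obtain ⟨χ0, hχ0⟩ := Finite.exists_max (fun χ : Cfsg.IrrCharacter G => deg χ)
      have hsub : {d : ℕ | ∃ χ : Cfsg.IrrCharacter (G ⧸ F), deg χ = d} ⊂
          {d : ℕ | ∃ χ : Cfsg.IrrCharacter G, deg χ = d} := by
        refine ⟨?_, fun h => ?_⟩
        · rintro _ ⟨θ, rfl⟩
          exact ⟨inflIrr F θ, hdeg θ⟩
        · obtain ⟨θ, hθ⟩ := h (⟨χ0, rfl⟩ : deg χ0 ∈ {d : ℕ | ∃ χ : Cfsg.IrrCharacter G, deg χ = d})
          have hker : F ≤ charKer (irr_isCharacter (inflIrr F θ)) := by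
            intro x hx
            rw [mem_charKer]
            exact inflate_ker F (θ : G ⧸ F → ℂ) x hx
          haveI hKn : (charKer (irr_isCharacter (inflIrr F θ))).Normal := charKer_normal _
          obtain ⟨ψ, hψ, -⟩ := broline (inflIrr F θ) (charKer (irr_isCharacter (inflIrr F θ)))
            (fun g => mem_charKer _ g) (by
              by_cases hle : charKer (irr_isCharacter (inflIrr F θ)) ≤ F
              · have heq := le_antisymm hle hker
                right
                refine ⟨heq, ?_, by rw [heq]; exact hFt⟩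
                exact Group.isSolvable_of_surjective (QuotientGroup.mk'_surjective _)
              · exact Or.inl hle)
          rw [hdeg, hθ] at hψ
          exact absurd (hχ0 ψ) (not_le.mpr hψ)
      have hlt := Set.ncard_lt_ncard hsub (Set.finite_range _)
      obtain ⟨N', h0, h1, h2, h3, h4⟩ := ih (G ⧸ F)
        (Group.isSolvable_of_surjective (QuotientGroup.mk'_surjective _)) (by omega)
      refine ⟨Fin.cons ⊥ (fun i => (N' i).comap (QuotientGroup.mk' F)), rfl, ?_, ?_, ?_, ?_⟩
      · rw [← Fin.succ_last, Fin.cons_succ, h1, Subgroup.comap_top]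
      · exact monotone_cons' _ _ (fun i j hij => Subgroup.comap_mono (h2 hij)) (fun _ => bot_le)
      · intro i
        refine Fin.cases ?_ (fun i => ?_) i
        · simp only [Fin.cons_zero]; infer_instance
        · simp only [Fin.cons_succ]
          haveI := h3 i
          infer_instance
      · intro i
        refine Fin.cases ?_ (fun i => ?_) i
        · apply NF_of_nilpotent
          rw [Fin.cons_succ, h0, MonoidHom.comap_bot, QuotientGroup.ker_mk']
          exact hFnil
        · rw [← Fin.succ_castSucc, Fin.cons_succ, Fin.cons_succ]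
          exact NF_comap _ (QuotientGroup.mk'_surjective F) _ _ (h3 _) (h4 i)

/-- Let G be a finite solvable group with exactly n distinct irreducible character degrees. Then G has normal subgroups 1 = N₀ ≤ N₁ ≤ ⋯ ≤ Nₙ = G with every quotient N_{i+1}/N_i nilpotent (the nilpotent length of G is at most n). -/
theorem result {G : Type*} [Group G] [Finite G] (hsolv : Group.IsSolvable G) (n : ℕ) (hcd : Nat.card {d : ℕ // ∃ χ : Cfsg.IrrCharacter G, Cfsg.charDegree (χ : G → ℂ) = d} = n) : ∃ N : Fin (n + 1) → Subgroup G, N 0 = ⊥ ∧ N (Fin.last n) = ⊤ ∧ Monotone N ∧ (∀ i, (N i).Normal) ∧ ∀ i : Fin n, ∀ h : (N i.castSucc).subgroupOf (N i.succ) |>.Normal, Group.IsNilpotent (↥(N i.succ) ⧸ (N i.castSucc).subgroupOf (N i.succ)) := by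
  have hc : {d : ℕ | ∃ χ : Cfsg.IrrCharacter G, deg χ = d}.ncard ≤ n := by
    rw [← hcd]
    have : Nat.card {d : ℕ // ∃ χ : Cfsg.IrrCharacter G, Cfsg.charDegree (χ : G → ℂ) = d} =
        {d : ℕ | ∃ χ : Cfsg.IrrCharacter G, deg χ = d}.ncard := by
      rw [← Nat.card_coe_set_eq]
      refine Nat.card_congr (Equiv.subtypeEquivRight fun d => ?_)
      simp only [charDegree_eq_deg]
      rfl
    rw [this]
  obtain ⟨N, h0, h1, h2, h3, h4⟩ := chain_aux n G hsolv hc
  exact ⟨N, h0, h1, h2, h3, h4⟩

end Cfsg.Agent.S4462
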