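import Cfsg.Statements.S4521
import Cfsg.Agent.H75.CentProd

set_option autoImplicit false
open Cfsg

namespace Cfsg.Agent.S4521

open Cfsg.Agent.CharBase Cfsg.Agent.Char Cfsg.Agent.Blk Cfsg.Agent.BlkC Cfsg.Agent.H75

/-- Let the finite group G be generated by subgroups U₁ and U₂ that commute elementwise and whose intersection is a p-group, and let M be a maximal ideal of the algebraic integers containing the prime p. If the irreducible character χ of G has the irreducible constituents ψ₁ on U₁ and ψ₂ on U₂, then χ lies in the principal block of G if and only if ψ₁ and ψ₂ lie in the principal blocks of U₁ and U₂. -/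
theorem result {G : Type*} [Group G] [Fintype G] (p : ℕ) [Fact p.Prime] (M : Ideal Cfsg.AlgInt) (hM : Cfsg.IsPModular p M) (U₁ U₂ : Subgroup G) [Fintype U₁] [Fintype U₂] (hcomm : ∀ u ∈ U₁, ∀ v ∈ U₂, u * v = v * u) (hgen : U₁ ⊔ U₂ = ⊤) (hZ : IsPGroup p ↥(U₁ ⊓ U₂)) (χ : Cfsg.IrrCharacter G) (ψ₁ : Cfsg.IrrCharacter U₁) (ψ₂ : Cfsg.IrrCharacter U₂) (h₁ : Cfsg.classInner (fun u : U₁ => (χ : G → ℂ) u) (ψ₁ : U₁ → ℂ) ≠ 0) (h₂ : Cfsg.classInner (fun u : U₂ => (χ : G → ℂ) u) (ψ₂ : U₂ → ℂ) ≠ 0) : χ ∈ Cfsg.principalBlock M G ↔ (ψ₁ ∈ Cfsg.principalBlock M U₁ ∧ ψ₂ ∈ Cfsg.principalBlock M U₂) := by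
  classical
  haveI := isPrime_of_isPModular hM
  have hcl1 : ∀ g : G, centralChar (fun _ : G => (1 : ℂ)) g =
      ((Subgroup.centralizer ({g} : Set G)).index : ℂ) := by
    intro g; unfold centralChar; simp
  constructor
  · intro h
    have key : ∀ (V₁ V₂ : Subgroup G) [Fintype V₁] [Fintype V₂]
        (hc : ∀ u ∈ V₁, ∀ v ∈ V₂, u * v = v * u) (hg : V₁ ⊔ V₂ = ⊤) (hz : IsPGroup p ↥(V₁ ⊓ V₂))
        (φ₁ : IrrCharacter V₁) (φ₂ : IrrCharacter V₂)
        (k₁ : classInner (fun u : V₁ => (χ : G → ℂ) u) (φ₁ : V₁ → ℂ) ≠ 0)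
        (k₂ : classInner (fun u : V₂ => (χ : G → ℂ) u) (φ₂ : V₂ → ℂ) ≠ 0),
        φ₁ ∈ principalBlock M V₁ := by
      intro V₁ V₂ _ _ hc hg hz φ₁ φ₂ k₁ k₂
      refine sameBlock_symm (H4.sameBlock_of_regular hM φ₁ (oneIrr V₁) fun u hu => ?_)
      have e1 := h (u : G)
      have e2 := cp_centralChar (p := p) hc hg hz χ.2 φ₁.2 φ₂.2 k₁ k₂ u 1 hu
      have e3 : centralChar (φ₂ : V₂ → ℂ) 1 = 1 := by
        unfold centralChar
        have h5 : Subgroup.centralizer ({1} : Set V₂) = ⊤ := by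
          ext x; simp [Subgroup.mem_centralizer_singleton_iff]
        rw [h5, Subgroup.index_top]
        have h6 := irr_one_ne_zero φ₂.2
        field_simp
        simp
      rw [e3, mul_one] at e2
      have e4 := cp_index (p := p) hc hg hz u 1 hu
      have e5 : (Subgroup.centralizer ({1} : Set V₂)).index = 1 := by
        have h5 : Subgroup.centralizer ({1} : Set V₂) = ⊤ := by
          ext x; simp [Subgroup.mem_centralizer_singleton_iff]
        rw [h5, Subgroup.index_top]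
      rw [e5, mul_one] at e4
      have e6 : ((u : G) * ((1 : V₂) : G)) = u := by simp
      rw [e6] at e2 e4
      rw [hcl1, e2, e4] at e1
      have e7 : centralChar ((oneIrr V₁ : IrrCharacter V₁) : V₁ → ℂ) u =
          ((Subgroup.centralizer ({u} : Set V₁)).index : ℂ) := by
        change centralChar (fun _ : V₁ => (1 : ℂ)) u = _
        unfold centralChar; simp
      rw [e7]
      exact mli_symm e1
    exact ⟨key U₁ U₂ hcomm hgen hZ ψ₁ ψ₂ h₁ h₂, key U₂ U₁ (cp_symm hcomm)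
      (by rw [sup_comm]; exact hgen) (by rw [inf_comm]; exact hZ) ψ₂ ψ₁ h₂ h₁⟩
  · rintro ⟨b₁, b₂⟩
    refine sameBlock_symm (H4.sameBlock_of_regular hM χ (oneIrr G) fun g hg => ?_)
    obtain ⟨u, hu, v, hv, rfl, hpu, hpv⟩ := cp_exists_reg (p := p) hcomm hgen g hg
    have hpu' : ¬ p ∣ orderOf (⟨u, hu⟩ : U₁) := by rwa [← Subgroup.orderOf_coe]
    have e2 := cp_centralChar (p := p) hcomm hgen hZ χ.2 ψ₁.2 ψ₂.2 h₁ h₂ ⟨u, hu⟩ ⟨v, hv⟩ hpu'
    have e4 := cp_index (p := p) hcomm hgen hZ ⟨u, hu⟩ ⟨v, hv⟩ hpu'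
    have e7 : centralChar ((oneIrr G : IrrCharacter G) : G → ℂ) (u * v) =
          ((Subgroup.centralizer ({u * v} : Set G)).index : ℂ) := hcl1 _
    have k1 := b₁ ⟨u, hu⟩
    have k2 := b₂ ⟨v, hv⟩
    have e8 : centralChar (fun _ : U₁ => (1 : ℂ)) ⟨u, hu⟩ =
        ((Subgroup.centralizer ({⟨u, hu⟩} : Set U₁)).index : ℂ) := by
      unfold centralChar; simp
    have e9 : centralChar (fun _ : U₂ => (1 : ℂ)) ⟨v, hv⟩ =
        ((Subgroup.centralizer ({⟨v, hv⟩} : Set U₂)).index : ℂ) := by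
      unfold centralChar; simp
    rw [e8] at k1
    rw [e9] at k2
    simp only at e2 e4
    rw [e7, e2, e4]
    push_cast
    have e10 : centralChar (ψ₁ : U₁ → ℂ) ⟨u, hu⟩ * centralChar (ψ₂ : U₂ → ℂ) ⟨v, hv⟩ -
        ((Subgroup.centralizer ({⟨u, hu⟩} : Set U₁)).index : ℂ) *
          ((Subgroup.centralizer ({⟨v, hv⟩} : Set U₂)).index : ℂ) =
        (centralChar (ψ₁ : U₁ → ℂ) ⟨u, hu⟩ - ((Subgroup.centralizer ({⟨u, hu⟩} : Set U₁)).index : ℂ)) *
          centralChar (ψ₂ : U₂ → ℂ) ⟨v, hv⟩ +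
        ((Subgroup.centralizer ({⟨u, hu⟩} : Set U₁)).index : ℂ) *
          (centralChar (ψ₂ : U₂ → ℂ) ⟨v, hv⟩ -
            ((Subgroup.centralizer ({⟨v, hv⟩} : Set U₂)).index : ℂ)) := by ring
    rw [e10]
    exact mli_add (mli_mul_right (mli_symm k1) (mlr_centralChar ψ₂ _))
      (mli_mul_left (mlr_natCast _) (mli_symm k2))

end Cfsg.Agent.S4521
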