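import Cfsg.Statements.S4523
import Cfsg.Agent.H73.SigFix2
import Cfsg.Agent.FT.Base

set_option autoImplicit false
open Cfsg

namespace Cfsg.Agent.S4523

/-- Let S be a non-abelian finite simple group with commutative Sylow 2-subgroups and M a maximal ideal of the algebraic integers containing 2. Let k be a natural number with g ^ k = g for every 2-element g and g ^ k = g⁻¹ for every element g of odd order. Then S has an irreducible character χ₁ of even degree with χ₁ (g ^ k) = χ₁ g for all g, and its principal 2-block contains a character χ₂ other than the principal character with χ₂ (g ^ k) = χ₂ g for all g. -/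
theorem result {S : Type*} [Group S] [Finite S] [IsSimpleGroup S] (hna : ¬ IsMulCommutative S) (P : Sylow 2 S) (hP : IsMulCommutative P) (M : Ideal Cfsg.AlgInt) (hM : Cfsg.IsPModular 2 M) (k : ℕ) (hk₁ : ∀ g : S, (∃ j : ℕ, orderOf g = 2 ^ j) → g ^ k = g) (hk₂ : ∀ g : S, Odd (orderOf g) → g ^ k = g⁻¹) : (∃ χ₁ : Cfsg.IrrCharacter S, Even (Cfsg.charDegree (χ₁ : S → ℂ)) ∧ ∀ g : S, (χ₁ : S → ℂ) (g ^ k) = (χ₁ : S → ℂ) g) ∧ ∃ χ₂ ∈ Cfsg.principalBlock M S, (χ₂ : S → ℂ) ≠ (fun _ => 1) ∧ ∀ g : S, (χ₂ : S → ℂ) (g ^ k) = (χ₂ : S → ℂ) g := by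
  classical
  have _ : Fintype S := Fintype.ofFinite S
  have hab : ∀ a ∈ (P : Subgroup S), ∀ b ∈ (P : Subgroup S), a * b = b * a := by
    intro a ha b hb
    have h := hP.is_comm.comm (⟨a, ha⟩ : (P : Subgroup S)) ⟨b, hb⟩
    exact congrArg Subtype.val h
  have heven : 2 ∣ Nat.card S := Cfsg.Agent.FT.even_of_simple hna
  refine ⟨?_, ?_⟩
  · by_contra hcon
    push Not at hcon
    have hN : (P : Subgroup S).Normal := by
      apply Cfsg.Agent.H73.SigFix.normal_of_fixed_odd hM hk₁ hk₂ _ P hab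
      intro χ hχ
      rw [← Nat.not_even_iff_odd]
      intro h
      obtain ⟨g, hg⟩ := hcon χ h
      exact hg (hχ g)
    rcases hN.eq_bot_or_eq_top with h | h
    · have h1 : ¬ 2 ∣ (P : Subgroup S).index := P.not_dvd_index
      rw [h, Subgroup.index_bot] at h1
      exact h1 heven
    · apply hna
      refine ⟨⟨fun a b => hab a (by rw [h]; trivial) b (by rw [h]; trivial)⟩⟩
  · exact Cfsg.Agent.H73.SigFix.exists_fixed_principal hM heven hk₁ hk₂

end Cfsg.Agent.S4523
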