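import Cfsg.Statements.S4528
import Cfsg.Agent.H10.DihTop

set_option autoImplicit false
open Cfsg

namespace Cfsg.Agent.S4528

/-- Let B be a 2-block of the finite group G (relative to a maximal ideal M of the algebraic integers containing 2) whose defect group D is dihedral of order 2 ^ n with n ≥ 3. Then B contains exactly 2 ^ (n - 2) + 3 irreducible characters, its 2-regular rank (the number of irreducible Brauer characters) is between 1 and 3, exactly four of its members have height zero, and every member has height at most one. -/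
theorem result {G : Type*} [Group G] [Finite G] (M : Ideal Cfsg.AlgInt) (hM : Cfsg.IsPModular 2 M) (B : Set (Cfsg.IrrCharacter G)) (hB : Cfsg.IsPBlock M B) (D : Subgroup G) (hD : Cfsg.IsDefectGroup 2 M B D) (n : ℕ) (hn : 3 ≤ n) (hdih : Nonempty (D ≃* DihedralGroup (2 ^ (n - 1)))) : Nat.card B = 2 ^ (n - 2) + 3 ∧ 1 ≤ Cfsg.blockRank 2 B ∧ Cfsg.blockRank 2 B ≤ 3 ∧ Nat.card {χ : Cfsg.IrrCharacter G // χ ∈ B ∧ Cfsg.blockHeight 2 B (χ : G → ℂ) = 0} = 4 ∧ ∀ χ ∈ B, Cfsg.blockHeight 2 B (χ : G → ℂ) ≤ 1 := by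
  classical
  haveI := Fintype.ofFinite G
  haveI : ∀ v : G, Fintype (Subgroup.centralizer (Subgroup.zpowers v : Set G)) :=
    fun v => Fintype.ofFinite _
  obtain ⟨m, rfl⟩ : ∃ m, n = m + 2 := ⟨n - 2, by omega⟩
  obtain ⟨e⟩ := hdih
  have H := Cfsg.Agent.H10.MC.ofEquiv e (Cfsg.Agent.H10.MC.dihedral (m := m) (by omega))
  have hd : Cfsg.Agent.H10.MC.Dih
      (((e.symm (DihedralGroup.sr 0 : DihedralGroup (2 ^ (m + 1)))) : D) : G) (2 ^ m)
      (2 * 2 ^ m - 1) := by
    refine ⟨rfl, ?_⟩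
    rw [← Subgroup.coe_mul, ← map_mul, DihedralGroup.sr_mul_self, map_one, Subgroup.coe_one]
  obtain ⟨h1, h2, h3, h4, h5, -⟩ := hd.main hM hB hD H
  refine ⟨h1, h2, h3, ?_, h5⟩
  rw [Cfsg.Agent.H10.MC.natCard_filter
    (P := fun χ : IrrCharacter G => blockHeight 2 B (χ : G → ℂ) = 0)
    (I := Cfsg.Agent.BlkC.Bfin B) (fun χ => Cfsg.Agent.BlkC.mem_Bfin), h4]

end Cfsg.Agent.S4528
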