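import Cfsg.Statements.S4529
import Cfsg.Agent.H10.QSTop
import Cfsg.Agent.H10.QSGrp

set_option autoImplicit false
open Cfsg

namespace Cfsg.Agent.S4529

/-- Let B be a 2-block of the finite group G (relative to a maximal ideal M of the algebraic integers containing 2) whose defect group D is semidihedral (quasi-dihedral) of order 2 ^ n, n ≥ 4. Then the number of irreducible characters in B is 2 ^ (n - 2) + 3 or 2 ^ (n - 2) + 4, its 2-regular rank l is between 1 and 3, with l = 3 forcing 2 ^ (n - 2) + 4 characters and l = 1 forcing 2 ^ (n - 2) + 3; exactly four members have height zero, exactly 2 ^ (n - 2) - 1 have height one, and every other member has height n - 2. -/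
theorem result {G : Type*} [Group G] [Finite G] (M : Ideal Cfsg.AlgInt) (hM : Cfsg.IsPModular 2 M) (B : Set (Cfsg.IrrCharacter G)) (hB : Cfsg.IsPBlock M B) (D : Subgroup G) (hD : Cfsg.IsDefectGroup 2 M B D) (n : ℕ) (hn : 4 ≤ n) (hcard : Nat.card D = 2 ^ n) (hsd : Cfsg.IsQuasiDihedral D) : (Nat.card B = 2 ^ (n - 2) + 3 ∨ Nat.card B = 2 ^ (n - 2) + 4) ∧ 1 ≤ Cfsg.blockRank 2 B ∧ Cfsg.blockRank 2 B ≤ 3 ∧ (Cfsg.blockRank 2 B = 3 → Nat.card B = 2 ^ (n - 2) + 4) ∧ (Cfsg.blockRank 2 B = 1 → Nat.card B = 2 ^ (n - 2) + 3) ∧ Nat.card {χ : Cfsg.IrrCharacter G // χ ∈ B ∧ Cfsg.blockHeight 2 B (χ : G → ℂ) = 0} = 4 ∧ Nat.card {χ : Cfsg.IrrCharacter G // χ ∈ B ∧ Cfsg.blockHeight 2 B (χ : G → ℂ) = 1} = 2 ^ (n - 2) - 1 ∧ ∀ χ ∈ B, Cfsg.blockHeight 2 B (χ : G → ℂ) = 0 ∨ Cfsg.blockHeight 2 B (χ : G → ℂ) = 1 ∨ Cfsg.blockHeight 2 B (χ : G → ℂ) = n - 2 := by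
  classical
  haveI := Fintype.ofFinite G
  haveI := Cfsg.Agent.Blk.isPrime_of_isPModular hM
  haveI : ∀ v : G, Fintype (Subgroup.centralizer (Subgroup.zpowers v : Set G)) :=
    fun v => Fintype.ofFinite _
  obtain ⟨m, x, y, hm, hc, H, hS⟩ := Cfsg.Agent.H10.MC.exists_sdih hsd
  have hnm : n = m + 2 := by
    rw [hcard] at hc
    exact Nat.pow_right_injective (le_refl 2) hc
  subst hnm
  rw [Nat.add_sub_cancel]
  have hfil : ∀ k : ℕ, Nat.card {χ : Cfsg.IrrCharacter G // χ ∈ B ∧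
      Cfsg.blockHeight 2 B (χ : G → ℂ) = k} =
      ((Cfsg.Agent.BlkC.Bfin B).filter (fun χ : Cfsg.IrrCharacter G =>
        Cfsg.blockHeight 2 B (χ : G → ℂ) = k)).card := fun k =>
    Cfsg.Agent.H10.MC.natCard_filter (fun χ => Cfsg.Agent.BlkC.mem_Bfin)
  rw [hfil 0, hfil 1]
  obtain ⟨E, eG, s, δ, lam, -, -, -, -, q0, q1, q2, q3, q4, q5, q6, q7, q8⟩ :=
    H.main_big hM hB hD (Or.inr hS) (by omega)
  have hl := (q1 hS).1
  refine ⟨by omega, by omega, by omega, by omega, by omega, q6, q7, q8⟩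

end Cfsg.Agent.S4529
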