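import Cfsg.Statements.S4530
import Cfsg.Agent.H10.QSTop
import Cfsg.Agent.H10.QSGrp

set_option autoImplicit false
open Cfsg

namespace Cfsg.Agent.S4530

/-- Let B be a 2-block of the finite group G (relative to a maximal ideal M of the algebraic integers containing 2) whose defect group D is generalized quaternion of order 2 ^ n, n ≥ 3. Then its 2-regular rank l is between 1 and 3, the number of irreducible characters in B is l + 2 ^ (n - 2) + 2, exactly four members have height zero, and every other member has height one or height n - 2; when n ≥ 4 exactly 2 ^ (n - 2) - 1 members have height one. -/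
theorem result {G : Type*} [Group G] [Finite G] (M : Ideal Cfsg.AlgInt) (hM : Cfsg.IsPModular 2 M) (B : Set (Cfsg.IrrCharacter G)) (hB : Cfsg.IsPBlock M B) (D : Subgroup G) (hD : Cfsg.IsDefectGroup 2 M B D) (n : ℕ) (hn : 3 ≤ n) (hq : Nonempty (D ≃* QuaternionGroup (2 ^ (n - 2)))) : 1 ≤ Cfsg.blockRank 2 B ∧ Cfsg.blockRank 2 B ≤ 3 ∧ Nat.card B = Cfsg.blockRank 2 B + 2 ^ (n - 2) + 2 ∧ Nat.card {χ : Cfsg.IrrCharacter G // χ ∈ B ∧ Cfsg.blockHeight 2 B (χ : G → ℂ) = 0} = 4 ∧ (∀ χ ∈ B, Cfsg.blockHeight 2 B (χ : G → ℂ) = 0 ∨ Cfsg.blockHeight 2 B (χ : G → ℂ) = 1 ∨ Cfsg.blockHeight 2 B (χ : G → ℂ) = n - 2) ∧ (4 ≤ n → Nat.card {χ : Cfsg.IrrCharacter G // χ ∈ B ∧ Cfsg.blockHeight 2 B (χ : G → ℂ) = 1} = 2 ^ (n - 2) - 1) := by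
  classical
  haveI := Fintype.ofFinite G
  haveI := Cfsg.Agent.Blk.isPrime_of_isPModular hM
  haveI : ∀ v : G, Fintype (Subgroup.centralizer (Subgroup.zpowers v : Set G)) :=
    fun v => Fintype.ofFinite _
  obtain ⟨m, rfl⟩ : ∃ m, n = m + 2 := ⟨n - 2, by omega⟩
  rw [Nat.add_sub_cancel] at hq ⊢
  obtain ⟨e⟩ := hq
  obtain ⟨x, y, H, hQ⟩ := Cfsg.Agent.H10.MC.exists_quat (by omega : 1 ≤ m) e
  have hfil : ∀ k : ℕ, Nat.card {χ : Cfsg.IrrCharacter G // χ ∈ B ∧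
      Cfsg.blockHeight 2 B (χ : G → ℂ) = k} =
      ((Cfsg.Agent.BlkC.Bfin B).filter (fun χ : Cfsg.IrrCharacter G =>
        Cfsg.blockHeight 2 B (χ : G → ℂ) = k)).card := fun k =>
    Cfsg.Agent.H10.MC.natCard_filter (fun χ => Cfsg.Agent.BlkC.mem_Bfin)
  rw [hfil 0, hfil 1]
  rcases Nat.lt_or_ge 1 m with h1m | h1m
  · obtain ⟨E, eG, s, δ, lam, -, -, -, q1, -, -, q2, q3, q4, q5, q6, q7, q8⟩ :=
      H.main_big hM hB hD (Or.inl hQ) h1m
    have hδ := q1 hQ
    refine ⟨by omega, by omega, by omega, q6, q8, fun _ => q7⟩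
  · have hm1 : m = 1 := by omega
    subst hm1
    obtain ⟨q1, q2, q3, q4, q5⟩ := H.main_small hM hB hD hQ
    refine ⟨q1, q2, by omega, q4, fun χ hχ => ?_, fun h => by omega⟩
    rcases q5 χ hχ with h | h
    · exact Or.inl h
    · exact Or.inr (Or.inl h)

end Cfsg.Agent.S4530
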