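import Cfsg.Statements.S4531
import Cfsg.Agent.H10.RankThree
import Cfsg.Agent.H10.DihTop

set_option autoImplicit false
open Cfsg

namespace Cfsg.Agent.S4531

/-- Let the finite group G have a 2-block B (relative to a maximal ideal M of the algebraic integers containing 2) of 2-regular rank three (three irreducible Brauer characters) whose defect group D is dihedral of order 2 ^ n with n ≥ 3 or semidihedral. Then the centre of G has odd order and G is not solvable. -/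
theorem result {G : Type*} [Group G] [Finite G] (M : Ideal Cfsg.AlgInt) (hM : Cfsg.IsPModular 2 M) (B : Set (Cfsg.IrrCharacter G)) (hB : Cfsg.IsPBlock M B) (D : Subgroup G) (hD : Cfsg.IsDefectGroup 2 M B D) (hD' : (∃ n : ℕ, 3 ≤ n ∧ Nonempty (D ≃* DihedralGroup (2 ^ (n - 1)))) ∨ Cfsg.IsQuasiDihedral D) (hl : Cfsg.blockRank 2 B = 3) : Odd (Nat.card (Subgroup.center G)) ∧ ¬ Group.IsSolvable G := by
  classical
  haveI := Fintype.ofFinite G
  haveI : Fact (Nat.Prime 2) := ⟨Nat.prime_two⟩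
  have key : ∃ (x y : G) (h t : ℕ), Cfsg.Agent.H10.MC D x y h t ∧
      (Cfsg.Agent.H10.MC.Dih y h t ∨ Cfsg.Agent.H10.MC.SDih y h t) := by
    rcases hD' with ⟨n, hn, ⟨e⟩⟩ | hsd
    · obtain ⟨m, rfl⟩ : ∃ m, n = m + 2 := ⟨n - 2, by omega⟩
      have H := Cfsg.Agent.H10.MC.ofEquiv e (Cfsg.Agent.H10.MC.dihedral (m := m) (by omega))
      refine ⟨_, _, _, _, H, Or.inl ⟨rfl, ?_⟩⟩
      rw [← Subgroup.coe_mul, ← map_mul, DihedralGroup.sr_mul_self, map_one, Subgroup.coe_one]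
    · obtain ⟨m, x, y, hm, hc, H, hS⟩ := Cfsg.Agent.H10.MC.exists_sdih hsd
      exact ⟨x, y, _, _, H, Or.inr hS⟩
  obtain ⟨x, y, h, t, H, hd⟩ := key
  refine ⟨?_, fun hG => ?_⟩
  · exact Cfsg.Agent.H10.MC.odd_center hM hB hD H
      (Cfsg.Agent.H10.MC.fus3 hM hB hD H hd hl).1
  · exact Cfsg.Agent.H10.MC.no_rank_three hM _ rfl
      (Cfsg.Agent.ZJ.isPSolvable_of_isSolvable 2 hG) B hB D hD ⟨x, y, h, t, H, hd⟩ hl

end Cfsg.Agent.S4531
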