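import Cfsg.Statements.S4540
import Cfsg.Agent.H4.Major2

set_option autoImplicit false
open Cfsg

namespace Cfsg.Agent.S4540

/-- Let B be a 2-block of the finite group G (relative to a maximal ideal M of the algebraic integers containing 2) of defect d with defect group D. Let z be an element of D commuting with every element of D, and let b be a block of the centralizer C of z with defect group D that induces B (a major subsection (z, b)). If b has 2-regular rank at most three, then 3·k(B) ≤ 3·k₀(B) + 2·Σ 2 ^ h(χ), where k(B) is the number of members of B, k₀(B) the number of members of height zero, and the sum runs over the members χ of B of positive height h(χ); this bound is at most 3·2 ^ d, so in particular B contains at most 2 ^ d irreducible characters. -/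
theorem result {G : Type*} [Group G] [Finite G] (M : Ideal Cfsg.AlgInt) (hM : Cfsg.IsPModular 2 M) (B : Set (Cfsg.IrrCharacter G)) (hB : Cfsg.IsPBlock M B) (D : Subgroup G) (hD : Cfsg.IsDefectGroup 2 M B D) (z : G) (hzD : z ∈ D) (hzc : ∀ d ∈ D, d * z = z * d) (b : Set (Cfsg.IrrCharacter ↥(Subgroup.centralizer ({z} : Set G)))) (hb : Cfsg.IsInducedBlock M (Subgroup.centralizer ({z} : Set G)) b B) (hbD : Cfsg.IsDefectGroup 2 M b (D.subgroupOf (Subgroup.centralizer ({z} : Set G)))) (hl : Cfsg.blockRank 2 b ≤ 3) : 3 * Nat.card B ≤ 3 * Nat.card {χ : Cfsg.IrrCharacter G // χ ∈ B ∧ Cfsg.blockHeight 2 B (χ : G → ℂ) = 0} + 2 * (∑ᶠ χ ∈ {χ : Cfsg.IrrCharacter G | χ ∈ B ∧ 1 ≤ Cfsg.blockHeight 2 B (χ : G → ℂ)}, 2 ^ Cfsg.blockHeight 2 B (χ : G → ℂ)) ∧ 3 * Nat.card {χ : Cfsg.IrrCharacter G // χ ∈ B ∧ Cfsg.blockHeight 2 B (χ : G → ℂ) = 0} + 2 * (∑ᶠ χ ∈ {χ : Cfsg.IrrCharacter G | χ ∈ B ∧ 1 ≤ Cfsg.blockHeight 2 B (χ : G → ℂ)}, 2 ^ Cfsg.blockHeight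 2 B (χ : G → ℂ)) ≤ 3 * 2 ^ Cfsg.blockDefect 2 B := by
  classical
  haveI := Fintype.ofFinite G
  haveI := Fintype.ofFinite (Subgroup.centralizer ({z} : Set G))
  haveI := Fintype.ofFinite (Cfsg.IrrCharacter G)
  obtain ⟨h1, h2⟩ := Cfsg.Agent.H4.major_of_defect hM hB hD hzD hzc hb.1 hbD
  have h3 := Cfsg.Agent.H4.bound_three hM hB h1 rfl hb h2 hl
  set h : Cfsg.IrrCharacter G → ℕ := fun χ => Cfsg.blockHeight 2 B (χ : G → ℂ) with hh
  have hk0 : Nat.card {χ : Cfsg.IrrCharacter G // χ ∈ B ∧ Cfsg.blockHeight 2 B (χ : G → ℂ) = 0} =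
      ((Finset.univ.filter fun χ => χ ∈ B ∧ h χ = 0)).card := by
    rw [Nat.card_eq_fintype_card, Fintype.card_subtype]
  have hsum : (∑ᶠ χ ∈ {χ : Cfsg.IrrCharacter G | χ ∈ B ∧
      1 ≤ Cfsg.blockHeight 2 B (χ : G → ℂ)}, 2 ^ Cfsg.blockHeight 2 B (χ : G → ℂ)) =
      ∑ χ ∈ Finset.univ.filter (fun χ => χ ∈ B ∧ 1 ≤ h χ), 2 ^ h χ := by
    rw [← finsum_mem_coe_finset]
    congr 1
    funext χ
    simp only [Finset.coe_filter, Finset.mem_univ, true_and, hh]
  have hk : Nat.card B = (Finset.univ.filter fun χ => χ ∈ B ∧ h χ = 0).card +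
      (Finset.univ.filter fun χ => χ ∈ B ∧ 1 ≤ h χ).card := by
    rw [Nat.card_eq_fintype_card, Fintype.card_of_subtype (Finset.univ.filter fun χ => χ ∈ B)
      (by simp)]
    rw [← Finset.card_union_of_disjoint]
    · congr 1
      ext χ
      simp only [Finset.mem_filter, Finset.mem_univ, true_and, Finset.mem_union]
      constructor
      · intro hχ
        rcases Nat.eq_zero_or_pos (h χ) with h0 | h0
        · exact Or.inl ⟨hχ, h0⟩
        · exact Or.inr ⟨hχ, h0⟩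
      · rintro (hχ | hχ) <;> exact hχ.1
    · rw [Finset.disjoint_left]
      intro χ hχ hχ'
      rw [Finset.mem_filter] at hχ hχ'
      omega
  rw [hk0, hsum, hk]
  set S0 := (Finset.univ.filter fun χ => χ ∈ B ∧ h χ = 0) with hS0
  set S1 := (Finset.univ.filter fun χ => χ ∈ B ∧ 1 ≤ h χ) with hS1
  have h4 : S1.card * 2 ≤ ∑ χ ∈ S1, 2 ^ h χ := by
    rw [← smul_eq_mul, ← Finset.sum_const]
    refine Finset.sum_le_sum fun χ hχ => ?_
    rw [hS1, Finset.mem_filter] at hχ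
    calc 2 = 2 ^ 1 := rfl
      _ ≤ 2 ^ h χ := Nat.pow_le_pow_right (by norm_num) hχ.2.2
  refine ⟨by omega, ?_⟩
  have h5 : ((3 * S0.card + 2 * ∑ χ ∈ S1, 2 ^ h χ : ℕ) : ℤ) =
      ∑ χ ∈ Cfsg.Agent.BlkC.Bfin B, (if Cfsg.blockHeight 2 B (χ : G → ℂ) = 0 then (3 : ℤ) else
      2 * 2 ^ Cfsg.blockHeight 2 B (χ : G → ℂ)) := by
    rw [Finset.sum_ite]
    have e1 : (Cfsg.Agent.BlkC.Bfin B).filter (fun χ : Cfsg.IrrCharacter G => Cfsg.blockHeight 2 B (χ : G → ℂ) = 0) = S0 := by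
      ext χ
      rw [hS0, Finset.mem_filter, Finset.mem_filter, Cfsg.Agent.BlkC.mem_Bfin]
      simp [hh]
    have e2 : (Cfsg.Agent.BlkC.Bfin B).filter (fun χ : Cfsg.IrrCharacter G => ¬ Cfsg.blockHeight 2 B (χ : G → ℂ) = 0) = S1 := by
      ext χ
      rw [hS1, Finset.mem_filter, Finset.mem_filter, Cfsg.Agent.BlkC.mem_Bfin]
      simp [hh, Nat.one_le_iff_ne_zero]
    rw [e1, e2, Finset.sum_const, nsmul_eq_mul, ← Finset.mul_sum]
    push_cast
    ring
  have h6 : ((3 * S0.card + 2 * ∑ χ ∈ S1, 2 ^ h χ : ℕ) : ℤ) ≤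
      ((3 * 2 ^ Cfsg.blockDefect 2 B : ℕ) : ℤ) := by
    rw [h5]; push_cast; exact h3
  exact_mod_cast h6


end Cfsg.Agent.S4540
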