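import Cfsg.Statements.S4541
import Cfsg.Agent.H4.Height0

set_option autoImplicit false
open Cfsg

namespace Cfsg.Agent.S4541

/-- Let B be a 2-block of the finite group G (relative to a maximal ideal M of the algebraic integers containing 2), u a 2-element, and b a block of the centralizer of u inducing B (a subsection (u, b)), of defect q and 2-regular rank l; write s for the integer square root of l and k₀(B) for the number of members of B of height zero. If s is odd then k₀(B) ≤ s·2 ^ q, and otherwise (s + 1)·k₀(B) ≤ l·2 ^ q; in particular k₀(B) ≤ 2 ^ q when l ≤ 3. -/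
theorem result {G : Type*} [Group G] [Finite G] (M : Ideal Cfsg.AlgInt) (hM : Cfsg.IsPModular 2 M) (B : Set (Cfsg.IrrCharacter G)) (hB : Cfsg.IsPBlock M B) (u : G) (hu : ∃ j : ℕ, orderOf u = 2 ^ j) (b : Set (Cfsg.IrrCharacter ↥(Subgroup.centralizer ({u} : Set G)))) (hb : Cfsg.IsInducedBlock M (Subgroup.centralizer ({u} : Set G)) b B) : (Odd (Nat.sqrt (Cfsg.blockRank 2 b)) → Nat.card {χ : Cfsg.IrrCharacter G // χ ∈ B ∧ Cfsg.blockHeight 2 B (χ : G → ℂ) = 0} ≤ Nat.sqrt (Cfsg.blockRank 2 b) * 2 ^ Cfsg.blockDefect 2 b) ∧ (¬ Odd (Nat.sqrt (Cfsg.blockRank 2 b)) → (Nat.sqrt (Cfsg.blockRank 2 b) + 1) * Nat.card {χ : Cfsg.IrrCharacter G // χ ∈ B ∧ Cfsg.blockHeight 2 B (χ : G → ℂ) = 0} ≤ Cfsg.blockRank 2 b * 2 ^ Cfsg.blockDefect 2 b) ∧ (Cfsg.blockRank 2 b ≤ 3 → Nat.card {χ : Cfsg.IrrCharacter G // χ ∈ B ∧ Cfsg.blockHeight 2 B (χ : G → ℂ) = 0} ≤ 2 ^ Cfsg.blockDefect 2 b) := by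
  classical
  haveI := Fintype.ofFinite G
  haveI := Fintype.ofFinite (Subgroup.centralizer ({u} : Set G))
  obtain ⟨h1, h2⟩ := Cfsg.Agent.H4.height0_bound hM hu rfl hb
  rw [Cfsg.Agent.H4.natCard_B0]
  refine ⟨h1, h2, fun hl => ?_⟩
  rcases Nat.eq_zero_or_pos (Cfsg.blockRank 2 b) with h0 | h0
  · have h3 : Nat.sqrt (Cfsg.blockRank 2 b) = 0 := by rw [h0]; exact Nat.sqrt_zero
    have h4 := h2 (by rw [h3]; decide)
    rw [h3, h0, zero_mul, zero_add, one_mul] at h4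
    exact h4.trans (Nat.zero_le _)
  · have h3 : 1 = Nat.sqrt (Cfsg.blockRank 2 b) := Nat.eq_sqrt.mpr ⟨by omega, by omega⟩
    have h4 := h1 (by rw [← h3]; decide)
    rwa [← h3, one_mul] at h4


end Cfsg.Agent.S4541
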