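import Cfsg.Statements.S4549
import Cfsg.Agent.BlkInd.GalTwo
import Cfsg.Agent.H74.Prin2
import Cfsg.Agent.H79.Columns
import Cfsg.Agent.H76.AlperinDade2

set_option autoImplicit false
open Cfsg

namespace Cfsg.Agent.S4549

open Cfsg.Agent.BlkInd Cfsg.Agent.Blk Cfsg.Agent.Char Cfsg.Agent.CharBase Cfsg.Agent.H76

/-- Let G be a finite group and M a maximal ideal of the algebraic integers containing 2. Let k be a natural number with g ^ k = g ^ 3 for every 2-element g and g ^ k = g for every element g of odd order (such k exist); an irreducible character χ is unchanged by g ↦ g ^ k exactly when it is fixed by the field automorphism that cubes the 2-power roots of unity and fixes the roots of unity of odd order. Then G has a normal 2-complement if and only if every member χ of the principal 2-block of odd degree with χ (g ^ k) = χ g for all g has degree one. -/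
theorem result {G : Type*} [Group G] [Finite G] (M : Ideal Cfsg.AlgInt) (hM : Cfsg.IsPModular 2 M) (k : ℕ) (hk₁ : ∀ g : G, (∃ j : ℕ, orderOf g = 2 ^ j) → g ^ k = g ^ 3) (hk₂ : ∀ g : G, Odd (orderOf g) → g ^ k = g) : Cfsg.HasNormalPComplement 2 G ↔ ∀ χ ∈ Cfsg.principalBlock M G, Odd (Cfsg.charDegree (χ : G → ℂ)) → (∀ g : G, (χ : G → ℂ) (g ^ k) = (χ : G → ℂ) g) → Cfsg.charDegree (χ : G → ℂ) = 1 := by
  classical
  haveI := Fintype.ofFinite G
  haveI : Fact (Nat.Prime 2) := ⟨Nat.prime_two⟩
  haveI hMp : M.IsPrime := hM.2.1.isPrime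
  constructor
  · intro h χ hχ hodd _
    obtain ⟨k, hk⟩ := Cfsg.Agent.H74.index_pPrimeCore h
    have h1 : Cfsg.Agent.H75.deg χ ∣ (pPrimeCore 2 G).index :=
      degree_dvd_index (pPrimeCore 2 G) χ fun n hn => Cfsg.Agent.H79.principal_ker hM hχ hn
    rw [hk] at h1
    rw [Cfsg.Agent.H75.charDegree_eq_deg] at hodd ⊢
    obtain ⟨j, -, hj⟩ := (Nat.dvd_prime_pow Nat.prime_two).mp h1
    cases j with
    | zero => simpa using hj
    | succ j =>
      exfalso
      rw [hj, pow_succ] at hodd
      exact (Nat.not_odd_iff_even.mpr (Even.mul_left even_two _)) hodd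
  · intro h
    exact npc_of_fixed hM hk₁ hk₂ h

end Cfsg.Agent.S4549
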