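import Cfsg.Statements.S4550
import Cfsg.Agent.H76.RealOdd
import Mathlib.GroupTheory.Perm.Cycle.Type
-- import your own Cfsg.Agent.* helpers here

set_option autoImplicit false
open Cfsg

namespace Cfsg.Agent.S4550

open scoped ComplexConjugate
open Cfsg.Agent Cfsg.Agent.CharBase Cfsg.Agent.Blk

universe u

theorem centralizer_pow {G : Type u} [Group G] {k : ℕ} (g : G) (hk : k.Coprime (orderOf g)) :
    Subgroup.centralizer ({g ^ k} : Set G) = Subgroup.centralizer ({g} : Set G) := by
  ext x
  rw [Subgroup.mem_centralizer_singleton_iff, Subgroup.mem_centralizer_singleton_iff]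
  constructor
  · intro h
    obtain ⟨m, hm⟩ := exists_pow_eq_self_of_coprime hk
    have h2 : Commute x ((g ^ k) ^ m) := Commute.pow_right h m
    rw [hm] at h2
    exact h2
  · intro h
    exact Commute.pow_right h k

theorem centralChar_pow {G : Type u} [Group G] [Finite G] {k : ℕ} (hk : k.Coprime (Nat.card G))
    (χ : G → ℂ) (g : G) : centralChar (fun x => χ (x ^ k)) g = centralChar χ (g ^ k) := by
  unfold centralChar
  rw [centralizer_pow g (Nat.Coprime.coprime_dvd_right (orderOf_dvd_natCard g) hk)]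
  simp only [one_pow]

theorem pow_mem_principalBlock {G : Type u} [Group G] [Finite G] {M : Ideal AlgInt} {k : ℕ}
    (hk : k.Coprime (Nat.card G)) {χ : IrrCharacter G} (h : χ ∈ principalBlock M G) :
    (⟨fun g => (χ : G → ℂ) (g ^ k), Char.isIrrCharacter_pow χ.2 hk⟩ : IrrCharacter G) ∈
      principalBlock M G := by
  intro g
  have h1 := h (g ^ k)
  change MemLocalIdeal M (centralChar (fun _ => (1 : ℂ)) g -
    centralChar (fun x => (χ : G → ℂ) (x ^ k)) g)
  rw [centralChar_pow hk]
  have h2 : centralChar (fun _ : G => (1 : ℂ)) g = centralChar (fun _ : G => (1 : ℂ)) (g ^ k) := by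
    rw [← centralChar_pow hk]
  rw [h2]
  exact h1

/-- The number of odd degree characters in the principal 2-block is even. -/
theorem even_card_odd {G : Type u} [Group G] [Finite G] (M : Ideal Cfsg.AlgInt)
    (hM : Cfsg.IsPModular 2 M) (hev : Even (Nat.card G)) :
    Even (Nat.card {χ : Cfsg.IrrCharacter G // χ ∈ Cfsg.principalBlock M G ∧
      Odd (Cfsg.charDegree (χ : G → ℂ))}) := by
  classical
  have hMp := isPrime_of_isPModular hM
  have := Fintype.ofFinite G
  have := Fintype.ofFinite (IrrCharacter G)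
  have h1 := mlr_blockCoeff (isPBlock_principalBlock (M := M) (G := G)) 1
  unfold blockCoeff at h1
  rw [finsum_mem_eq_sum_ite] at h1
  have hdeg : ∀ χ : IrrCharacter G, (χ : G → ℂ) 1 = (charDegree (χ : G → ℂ) : ℂ) := by
    intro χ
    obtain ⟨d, hd⟩ := exists_nat_degree (irr_isCharacter χ)
    unfold charDegree
    rw [hd]; simp
  have h2 : (∑ χ : IrrCharacter G, if χ ∈ principalBlock M G then
      (χ : G → ℂ) 1 * conj ((χ : G → ℂ) 1) else 0) =
      ((∑ χ : IrrCharacter G, if χ ∈ principalBlock M G then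
        (charDegree (χ : G → ℂ)) ^ 2 else 0 : ℕ) : ℂ) := by
    push_cast
    refine Finset.sum_congr rfl fun χ _ => ?_
    split_ifs
    · rw [hdeg χ, Complex.conj_natCast, pow_two]
    · rfl
  rw [h2] at h1
  have h3 : MemLocalIdeal M ((Nat.card G : ℂ) * ((Nat.card G : ℂ)⁻¹ *
      ((∑ χ : IrrCharacter G, if χ ∈ principalBlock M G then
        (charDegree (χ : G → ℂ)) ^ 2 else 0 : ℕ) : ℂ))) :=
    mli_mul_right ((mli_natCast_iff hM _).mpr (even_iff_two_dvd.mp hev)) h1
  rw [← mul_assoc, mul_inv_cancel₀ (by exact_mod_cast Nat.card_pos.ne'), one_mul,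
    mli_natCast_iff hM] at h3
  rw [← even_iff_two_dvd] at h3
  rw [Nat.card_eq_fintype_card, Fintype.card_subtype, Finset.card_filter]
  rw [Nat.even_iff] at h3 ⊢
  have key : ∀ (u v : IrrCharacter G → ℕ), (∀ χ, u χ % 2 = v χ % 2) →
      (∑ χ, u χ) % 2 = (∑ χ, v χ) % 2 := by
    intro u v huv
    rw [Finset.sum_nat_mod Finset.univ 2 u, Finset.sum_nat_mod Finset.univ 2 v]
    congr 1
    exact Finset.sum_congr rfl fun χ _ => huv χ
  refine (key _ _ ?_).trans h3
  intro χ
  by_cases hB : χ ∈ principalBlock M G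
  · simp only [hB, true_and, if_true]
    split_ifs with ho
    · rw [pow_two, Nat.odd_iff.mp (ho.mul ho)]
    · rw [Nat.not_odd_iff_even] at ho
      rw [pow_two, Nat.even_iff.mp (ho.mul_left _)]
  · simp [hB]

/-- Let G be a finite group of even order and M a maximal ideal of the algebraic integers containing 2. Let k be a natural number with g ^ k = g ^ 3 for every 2-element g and g ^ k = g for every element g of odd order (such k exist); an irreducible character χ is unchanged by g ↦ g ^ k exactly when it is fixed by the field automorphism that cubes the 2-power roots of unity and fixes the roots of unity of odd order. Then the number of members χ of the principal 2-block of odd degree with χ (g ^ k) = χ g for all g is even. -/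
theorem result {G : Type*} [Group G] [Finite G] (M : Ideal Cfsg.AlgInt) (hM : Cfsg.IsPModular 2 M) (hev : Even (Nat.card G)) (k : ℕ) (hk₁ : ∀ g : G, (∃ j : ℕ, orderOf g = 2 ^ j) → g ^ k = g ^ 3) (hk₂ : ∀ g : G, Odd (orderOf g) → g ^ k = g) : Even (Nat.card {χ : Cfsg.IrrCharacter G // χ ∈ Cfsg.principalBlock M G ∧ Odd (Cfsg.charDegree (χ : G → ℂ)) ∧ ∀ g : G, (χ : G → ℂ) (g ^ k) = (χ : G → ℂ) g}) := by
  classical
  have := Fintype.ofFinite G
  have := Fintype.ofFinite (IrrCharacter G)
  have hkodd : Odd k := by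
    have := Fact.mk Nat.prime_two
    obtain ⟨t, ht⟩ := exists_prime_orderOf_dvd_card' (G := G) 2 (even_iff_two_dvd.mp hev)
    have h1 := hk₁ t ⟨1, by rw [ht, pow_one]⟩
    by_contra hne
    rw [Nat.not_odd_iff_even] at hne
    obtain ⟨c, hc⟩ := hne
    have h2 : t ^ 2 = 1 := by rw [← ht]; exact pow_orderOf_eq_one t
    rw [hc, ← two_mul, pow_mul, h2, one_pow, pow_succ, h2, one_mul] at h1
    rw [← h1, orderOf_one] at ht
    norm_num at ht
  have hkcop : k.Coprime (Nat.card G) := by
    by_contra hne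
    obtain ⟨q, hq, hqk, hqG⟩ := Nat.Prime.not_coprime_iff_dvd.mp hne
    have := Fact.mk hq
    obtain ⟨y, hy⟩ := exists_prime_orderOf_dvd_card' (G := G) q hqG
    have hqodd : Odd q := by
      rcases hq.eq_two_or_odd' with h | h
      · subst h
        exact absurd (even_iff_two_dvd.mpr hqk) (Nat.not_even_iff_odd.mpr hkodd)
      · exact h
    have h1 := hk₂ y (by rw [hy]; exact hqodd)
    obtain ⟨c, hc⟩ := hqk
    rw [hc, pow_mul, ← hy, pow_orderOf_eq_one, one_pow] at h1
    rw [← h1, orderOf_one] at hy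
    exact hq.one_lt.ne hy
  obtain ⟨a, m, hm, hcard⟩ := Nat.exists_eq_two_pow_mul_odd (n := Nat.card G) Nat.card_pos.ne'
  have hpow : ∀ g : G, g ^ (k ^ 2 ^ a) = g := by
    intro g
    obtain ⟨b, m', hm', hord⟩ := Nat.exists_eq_two_pow_mul_odd (n := orderOf g) (orderOf_pos g).ne'
    have hba : 2 ^ b ∣ 2 ^ a := by
      have h1 : 2 ^ b ∣ 2 ^ a * m := by
        rw [← hcard]
        exact (Dvd.intro _ hord.symm).trans (orderOf_dvd_natCard g)
      exact (Nat.Coprime.dvd_of_dvd_mul_right (Nat.Coprime.pow_left b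
        (Nat.coprime_two_left.mpr hm)) h1)
    have h1 : k ^ 2 ^ a ≡ 1 [MOD 2 ^ b] := by
      have h2 : k ^ Nat.totient (2 ^ a) ≡ 1 [MOD 2 ^ a] :=
        Nat.ModEq.pow_totient (Nat.Coprime.pow_right a (Nat.coprime_two_right.mpr hkodd))
      have h3 : Nat.totient (2 ^ a) ∣ 2 ^ a := by
        rcases Nat.eq_zero_or_pos a with h | h
        · subst h; simp
        · rw [Nat.totient_prime_pow Nat.prime_two h]
          simp only [Nat.add_one_sub_one, mul_one]
          exact pow_dvd_pow 2 (Nat.sub_le a 1)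
      obtain ⟨c, hc⟩ := h3
      have h4 : k ^ 2 ^ a ≡ 1 [MOD 2 ^ a] := by
        have h5 := h2.pow c
        rwa [← pow_mul, ← hc, one_pow] at h5
      exact h4.of_dvd hba
    have h2 : k ^ 2 ^ a ≡ 1 [MOD m'] := by
      have hy : orderOf (g ^ 2 ^ b) = m' := by
        rw [orderOf_pow, hord, Nat.gcd_eq_right (Dvd.intro _ rfl), Nat.mul_div_cancel_left _
          (by positivity)]
      have h3 := hk₂ (g ^ 2 ^ b) (by rw [hy]; exact hm')
      have h4 : (g ^ 2 ^ b) ^ k = (g ^ 2 ^ b) ^ 1 := by rw [h3, pow_one]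
      rw [pow_eq_pow_iff_modEq, hy] at h4
      have h5 := h4.pow (2 ^ a)
      rwa [one_pow] at h5
    have h3 : k ^ 2 ^ a ≡ 1 [MOD orderOf g] := by
      rw [hord]
      exact (Nat.modEq_and_modEq_iff_modEq_mul (Nat.Coprime.pow_left b
        (Nat.coprime_two_left.mpr hm'))).mp ⟨h1, h2⟩
    have h4 := pow_eq_pow_iff_modEq.mpr h3
    rwa [pow_one] at h4
  -- the permutation
  let X := {χ : Cfsg.IrrCharacter G // χ ∈ Cfsg.principalBlock M G ∧
      Odd (Cfsg.charDegree (χ : G → ℂ))}
  let f : Function.End X := fun χ =>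
    ⟨⟨fun g => (χ.1 : G → ℂ) (g ^ k), Char.isIrrCharacter_pow χ.1.2 hkcop⟩,
      pow_mem_principalBlock hkcop χ.2.1, by
        have : charDegree (fun g => (χ.1 : G → ℂ) (g ^ k)) = charDegree (χ.1 : G → ℂ) := by
          unfold charDegree
          simp only [one_pow]
        change Odd (charDegree (fun g => (χ.1 : G → ℂ) (g ^ k)))
        rw [this]
        exact χ.2.2⟩
  have hfn : ∀ (n : ℕ) (χ : X) (g : G), ((f ^ n) χ).1.1 g = χ.1.1 (g ^ (k ^ n)) := by
    intro n
    induction n with
    | zero => intro χ g; rw [pow_zero, pow_zero, pow_one]; rfl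
    | succ n ih =>
      intro χ g
      rw [pow_succ']
      change ((f ^ n) χ).1.1 (g ^ k) = _
      rw [ih, ← pow_mul, ← pow_succ']
  have hf : f ^ 2 ^ a = 1 := by
    funext χ
    apply Subtype.ext
    apply Subtype.ext
    funext g
    rw [hfn, hpow]
    rfl
  have := Fact.mk Nat.prime_two
  have hmod := Equiv.Perm.card_fixedPoints_modEq hf
  have hX : Even (Fintype.card X) := by
    rw [← Nat.card_eq_fintype_card]
    exact even_card_odd M hM hev
  have hcardeq : Nat.card {χ : Cfsg.IrrCharacter G // χ ∈ Cfsg.principalBlock M G ∧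
      Odd (Cfsg.charDegree (χ : G → ℂ)) ∧ ∀ g : G, (χ : G → ℂ) (g ^ k) = (χ : G → ℂ) g} =
      Fintype.card (Function.fixedPoints f) := by
    rw [← Nat.card_eq_fintype_card]
    refine Nat.card_congr ⟨fun χ => ⟨⟨χ.1, χ.2.1, χ.2.2.1⟩, ?_⟩,
      fun χ => ⟨χ.1.1, χ.1.2.1, χ.1.2.2, ?_⟩, fun χ => rfl, fun χ => rfl⟩
    · apply Subtype.ext
      apply Subtype.ext
      funext g
      exact χ.2.2.2 g
    · intro g
      have h1 : f χ.1 = χ.1 := χ.2
      exact congrFun (congrArg Subtype.val (congrArg Subtype.val h1)) g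
  rw [hcardeq]
  rw [Nat.even_iff] at hX ⊢
  rw [← hX]
  exact hmod.symm

end Cfsg.Agent.S4550
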