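import Cfsg.Statements.S4551
import Cfsg.Agent.H76.AlperinDade2
-- import your own Cfsg.Agent.* helpers here

set_option autoImplicit false
open Cfsg

namespace Cfsg.Agent.S4551

open Cfsg.Agent Cfsg.Agent.CharBase Cfsg.Agent.Blk

/-- Let N be a normal subgroup of the finite group G of index prime to p, P a Sylow p-subgroup of G with G = N·C_G(P), and M a maximal ideal of the algebraic integers containing p. Then restriction to N is a bijection from the principal p-block of G onto the principal p-block of N: every member of the principal block of G restricts to a member of the principal block of N, and every member of the principal block of N is the restriction of exactly one member of the principal block of G. -/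
theorem result {G : Type*} [Group G] [Finite G] (p : ℕ) [Fact p.Prime] (M : Ideal Cfsg.AlgInt) (hM : Cfsg.IsPModular p M) (N : Subgroup G) [N.Normal] (hidx : ¬ p ∣ N.index) (P : Sylow p G) (hsup : N ⊔ Subgroup.centralizer ((P : Subgroup G) : Set G) = ⊤) : (∀ χ ∈ Cfsg.principalBlock M G, ∃ θ ∈ Cfsg.principalBlock M ↥N, ∀ n : N, (χ : G → ℂ) n = (θ : N → ℂ) n) ∧ ∀ θ ∈ Cfsg.principalBlock M ↥N, ∃! χ : Cfsg.IrrCharacter G, χ ∈ Cfsg.principalBlock M G ∧ ∀ n : N, (χ : G → ℂ) n = (θ : N → ℂ) n := by
  have hMp := isPrime_of_isPModular hM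
  have := Fintype.ofFinite G
  have := Fintype.ofFinite N
  constructor
  · intro χ hχ
    have hne : (fun n : N => (χ : G → ℂ) n) ≠ 0 := by
      intro h
      have := congrFun h 1
      exact irr_one_ne_zero χ.2 this
    obtain ⟨θ, hθ, hχθ⟩ := Char.exists_constituent (isCharacter_restrict (irr_isCharacter χ) N) hne
    have hB := H76.covers_down N hχ (θ := ⟨θ, hθ⟩) hχθ
    exact ⟨⟨θ, hθ⟩, hB, H76.restrict_of_AD hM N hidx P hsup hB hχ hχθ⟩
  · intro θ hθ
    obtain ⟨χ, hχ, h⟩ := H76.exists_over_of_AD hM N hidx P hsup hθ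
    have h1 := H76.restrict_of_AD hM N hidx P hsup hθ hχ h
    exact ⟨χ, ⟨hχ, h1⟩, fun χ' h' => H76.unique_of_AD hM N hidx P hsup hχ h1 h'.1 h'.2⟩

end Cfsg.Agent.S4551
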