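import Cfsg.Statements.S4552
import Cfsg.Agent.AbFree.Rank2

set_option autoImplicit false
open Cfsg

namespace Cfsg.Agent.S4552

/-- Let B be a 2-block of the finite group G (relative to a maximal ideal M of the algebraic integers containing 2) whose defect group D is the direct product of two cyclic groups of the same order 2 ^ m, m ≥ 2. Then either B has 2-regular rank one and exactly 4 ^ m irreducible characters, or B has 2-regular rank three and exactly (4 ^ m + 8) / 3 irreducible characters. -/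
theorem result {G : Type*} [Group G] [Finite G] (M : Ideal Cfsg.AlgInt) (hM : Cfsg.IsPModular 2 M) (B : Set (Cfsg.IrrCharacter G)) (hB : Cfsg.IsPBlock M B) (D : Subgroup G) (hD : Cfsg.IsDefectGroup 2 M B D) (m : ℕ) (hm : 2 ≤ m) (hiso : Nonempty (D ≃* Multiplicative (ZMod (2 ^ m) × ZMod (2 ^ m)))) : (Cfsg.blockRank 2 B = 1 ∧ Nat.card B = 4 ^ m) ∨ (Cfsg.blockRank 2 B = 3 ∧ 3 * Nat.card B = 4 ^ m + 8) := by
  classical
  have := Fintype.ofFinite G
  have hMp := Blk.isPrime_of_isPModular hM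
  obtain ⟨φ⟩ := hiso
  have : NeZero (2 ^ m) := ⟨by positivity⟩
  let ψ : D ≃* Multiplicative (ZMod (2 ^ m)) × Multiplicative (ZMod (2 ^ m)) :=
    φ.trans (MulEquiv.prodMultiplicative (ZMod (2 ^ m)) (ZMod (2 ^ m)))
  have hab : ∀ x ∈ D, ∀ y ∈ D, x * y = y * x := by
    intro x hx y hy
    have h1 : (⟨x, hx⟩ : D) * ⟨y, hy⟩ = ⟨y, hy⟩ * ⟨x, hx⟩ := by
      apply ψ.injective
      rw [map_mul, map_mul, mul_comm]
    exact congrArg Subtype.val h1
  have hcard : Nat.card D = 2 ^ (2 * m) := by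
    rw [Nat.card_congr ψ.toEquiv, Nat.card_prod]
    have h1 : Nat.card (Multiplicative (ZMod (2 ^ m))) = 2 ^ m := by
      rw [Nat.card_congr Multiplicative.toAdd, Nat.card_zmod]
    rw [h1, two_mul, pow_add]
  have h4 := AbFree.card_sq_le ψ
  have h := AbFree.rank2 hM hB hD hab hcard (by omega) h4
  have h5 : (2 : ℕ) ^ (2 * m) = 4 ^ m := by rw [pow_mul]; norm_num
  rw [h5] at h
  exact h

end Cfsg.Agent.S4552
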