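import Cfsg.Statements.S4558
import Cfsg.Agent.H76.Congr
-- import your own Cfsg.Agent.* helpers here

set_option autoImplicit false
open Cfsg

namespace Cfsg.Agent.S4558

/-- Let χ be a character of the finite group G and g an element of p-power order for the prime p. If χ g = 0, then p divides the degree of χ. -/
theorem result {G : Type*} [Group G] [Finite G] (p : ℕ) [Fact p.Prime] (χ : G → ℂ) (hχ : Cfsg.IsCharacter G χ) (g : G) (hg : ∃ j : ℕ, orderOf g = p ^ j) (h0 : χ g = 0) : p ∣ Cfsg.charDegree χ := by
  obtain ⟨M, hM⟩ := H76.exists_isPModular (Fact.out : p.Prime)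
  have hMp := Blk.isPrime_of_isPModular hM
  obtain ⟨n, hn⟩ := CharBase.exists_nat_degree hχ
  have h1 := H76.mli_char_sub_one hM hχ hg
  rw [h0, hn] at h1
  have h2 := Blk.mli_symm h1
  rw [sub_zero, Blk.mli_natCast_iff hM] at h2
  have h3 : Cfsg.charDegree χ = n := by
    unfold Cfsg.charDegree
    rw [hn]; simp
  rw [h3]; exact h2

end Cfsg.Agent.S4558
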