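import Cfsg.Statements.S4560
import Cfsg.Agent.H59.SymCh

set_option autoImplicit false
set_option linter.style.haveILetI false
open Cfsg

namespace Cfsg.Agent.S4560

open Cfsg MulAction Cfsg.Agent.H59.SymCh


section gen

variable {G : Type*} [Group G] [Fintype G] {Ω : Type*} [Fintype Ω] [DecidableEq Ω] [MulAction G Ω]

theorem fx_one : fx Ω (1 : G) = Fintype.card Ω := by
  unfold fx Fx
  rw [Finset.filter_true_of_mem (fun x _ => one_smul G x), Finset.card_univ]

theorem tx_one : tx Ω (1 : G) = 0 := by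
  unfold tx Mv
  rw [Finset.card_eq_zero, Finset.filter_eq_empty_iff]
  intro x _ h
  exact h.2 (one_smul G x)

theorem irr1 (hk : 4 ≤ Fintype.card Ω) [h4 : IsMultiplyPretransitive G Ω 4] :
    IsIrrCharacter G (ch1 G Ω) := by
  refine Cfsg.Agent.Frob.isIrrCharacter_of_norm_one (n := Fintype.card Ω - 1) isGen_ch1 (norm_ch1 hk) ?_
  unfold ch1
  rw [fx_one, Nat.cast_sub (by omega)]
  simp

theorem irr2 (hk : 4 ≤ Fintype.card Ω) [h4 : IsMultiplyPretransitive G Ω 4] :
    IsIrrCharacter G (ch2 G Ω) := by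
  obtain ⟨m, hm⟩ : ∃ m : ℕ, Fintype.card Ω * (Fintype.card Ω - 3) = 2 * m := by
    rcases Nat.even_or_odd (Fintype.card Ω) with h | h
    · obtain ⟨r, hr⟩ := h
      exact ⟨r * (Fintype.card Ω - 3), by rw [hr]; ring⟩
    · obtain ⟨r, hr⟩ := h
      exact ⟨Fintype.card Ω * (r - 1), by rw [show Fintype.card Ω - 3 = 2 * (r - 1) by omega]; ring⟩
  refine Cfsg.Agent.Frob.isIrrCharacter_of_norm_one (n := m) isGen_ch2 (norm_ch2 hk) ?_
  unfold ch2
  rw [fx_one, tx_one]
  have h := congrArg (Nat.cast : ℕ → ℂ) hm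
  rw [Nat.cast_mul, Nat.cast_sub (by omega)] at h
  push_cast at h ⊢
  linear_combination (1 / 2) * h

theorem irr3 (hk : 4 ≤ Fintype.card Ω) [h4 : IsMultiplyPretransitive G Ω 4] :
    IsIrrCharacter G (ch3 G Ω) := by
  obtain ⟨m, hm⟩ : ∃ m : ℕ, (Fintype.card Ω - 1) * (Fintype.card Ω - 2) = 2 * m := by
    rcases Nat.even_or_odd (Fintype.card Ω) with h | h
    · obtain ⟨r, hr⟩ := h
      exact ⟨(Fintype.card Ω - 1) * (r - 1), by rw [show Fintype.card Ω - 2 = 2 * (r - 1) by omega]; ring⟩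
    · obtain ⟨r, hr⟩ := h
      exact ⟨r * (Fintype.card Ω - 2), by rw [show Fintype.card Ω - 1 = 2 * r by omega]; ring⟩
  refine Cfsg.Agent.Frob.isIrrCharacter_of_norm_one (n := m) isGen_ch3 (norm_ch3 hk) ?_
  unfold ch3
  rw [fx_one, tx_one]
  have h := congrArg (Nat.cast : ℕ → ℂ) hm
  rw [Nat.cast_mul, Nat.cast_sub (by omega), Nat.cast_sub (by omega)] at h
  push_cast at h ⊢
  linear_combination (1 / 2) * h

end gen

section perm

variable {n : ℕ}

theorem fx_perm (g : Equiv.Perm (Fin n)) : fx (Fin n) g = n - g.cycleType.sum := by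
  have h1 : Fx (Fin n) g = (g.support)ᶜ := by
    ext x
    rw [mem_Fx, Finset.mem_compl, Equiv.Perm.notMem_support]
    rfl
  unfold fx
  rw [h1, Finset.card_compl, Fintype.card_fin, Equiv.Perm.sum_cycleType]

theorem tx_perm (g : Equiv.Perm (Fin n)) (h2 : 2 ∉ g.cycleType) : tx (Fin n) g = 0 := by
  unfold tx
  rw [Finset.card_eq_zero]
  by_contra hne
  obtain ⟨x, hx⟩ := Finset.nonempty_iff_ne_empty.2 hne
  rw [mem_Mv] at hx
  obtain ⟨hx1, hx2⟩ := hx
  have hx1' : g (g x) = x := hx1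
  have hx2' : g x ≠ x := hx2
  apply h2
  have hc : (g.cycleOf x).IsCycle := Equiv.Perm.isCycle_cycleOf g hx2'
  have hsq : (g.cycleOf x) ^ 2 = 1 := by
    rw [hc.pow_eq_one_iff]
    refine ⟨x, ?_, ?_⟩
    · rw [Equiv.Perm.cycleOf_apply_self]
      exact hx2'
    · rw [Equiv.Perm.cycleOf_pow_apply_self]
      exact hx1'
  have hd : orderOf (g.cycleOf x) ∣ 2 := orderOf_dvd_of_pow_eq_one hsq
  have h3 : orderOf (g.cycleOf x) = 2 := by
    rcases (Nat.dvd_prime Nat.prime_two).1 hd with h | h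
    · exact absurd (orderOf_eq_one_iff.1 h) hc.ne_one
    · exact h
  rw [hc.orderOf] at h3
  rw [Equiv.Perm.cycleType_def, Multiset.mem_map]
  refine ⟨g.cycleOf x, ?_, h3⟩
  show g.cycleOf x ∈ g.cycleFactorsFinset
  rw [Equiv.Perm.cycleOf_mem_cycleFactorsFinset_iff, Equiv.Perm.mem_support]
  exact hx2'

theorem ex_el (m : Multiset ℕ) (hs : m.sum ≤ n) (h2 : ∀ a ∈ m, 2 ≤ a) (he : Even (m.sum + Multiset.card m)) :
    ∃ g : alternatingGroup (Fin n), (g : Equiv.Perm (Fin n)).cycleType = m := by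
  obtain ⟨g, hg⟩ := (Equiv.Perm.exists_with_cycleType_iff (α := Fin n) (m := m)).2
    ⟨by rw [Fintype.card_fin]; exact hs, h2⟩
  refine ⟨⟨g, ?_⟩, hg⟩
  rw [Equiv.Perm.mem_alternatingGroup, Equiv.Perm.sign_of_cycleType, hg, he.neg_one_pow]

theorem order_dvd (g : alternatingGroup (Fin n)) (k : ℕ)
    (h : ∀ a ∈ (g : Equiv.Perm (Fin n)).cycleType, a ∣ k) : orderOf g ∣ k := by
  rw [← Subgroup.orderOf_coe, ← Equiv.Perm.lcm_cycleType]
  exact Multiset.lcm_dvd.2 h

theorem order_two_pow (g : alternatingGroup (Fin n))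
    (h : ∀ a ∈ (g : Equiv.Perm (Fin n)).cycleType, a ∣ 8) : ∃ j : ℕ, orderOf g = 2 ^ j := by
  have h1 := order_dvd g (2 ^ 3) h
  obtain ⟨j, _, hj⟩ := (Nat.dvd_prime_pow Nat.prime_two).1 h1
  exact ⟨j, hj⟩

theorem order_three (g : alternatingGroup (Fin n)) (c : ℕ) (hc : 0 < c)
    (h : (g : Equiv.Perm (Fin n)).cycleType = Multiset.replicate c 3) : orderOf g = 3 := by
  have h1 := order_dvd g 3 (by
    intro a ha
    rw [h] at ha
    rw [Multiset.eq_of_mem_replicate ha])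
  rcases (Nat.dvd_prime Nat.prime_three).1 h1 with h2 | h2
  · exfalso
    rw [orderOf_eq_one_iff] at h2
    rw [h2] at h
    have h3 := congrArg Multiset.card h
    rw [Multiset.card_replicate] at h3
    simp at h3
    omega
  · exact h2

/-- even permutations with cycle lengths 4 and 8 -/
theorem ex48 (r : ℕ) (k : ℕ) (hk : 2 ≤ k) (h : r + 4 * k = n) :
    ∃ g : alternatingGroup (Fin n), (∃ j : ℕ, orderOf g = 2 ^ j) ∧
      fx (Fin n) (g : Equiv.Perm (Fin n)) = r ∧ tx (Fin n) (g : Equiv.Perm (Fin n)) = 0 := by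
  have key : ∀ m : Multiset ℕ, (∀ a ∈ m, a = 4 ∨ a = 8) → m.sum = 4 * k → Even (Multiset.card m) →
      ∃ g : alternatingGroup (Fin n), (∃ j : ℕ, orderOf g = 2 ^ j) ∧
      fx (Fin n) (g : Equiv.Perm (Fin n)) = r ∧ tx (Fin n) (g : Equiv.Perm (Fin n)) = 0 := by
    intro m hm hs he
    obtain ⟨g, hg⟩ := ex_el (n := n) m (by omega) (fun a ha => by rcases hm a ha with h | h <;> omega)
      (by
        rw [hs]
        exact Even.add ⟨2 * k, by ring⟩ he)
    refine ⟨g, order_two_pow g ?_, ?_, ?_⟩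
    · intro a ha
      rw [hg] at ha
      rcases hm a ha with h | h
      · rw [h]; norm_num
      · rw [h]
    · rw [fx_perm, hg, hs]
      omega
    · apply tx_perm
      rw [hg]
      intro h2
      rcases hm 2 h2 with h | h <;> omega
  rcases Nat.even_or_odd k with he | ho
  · refine key (Multiset.replicate k 4) (fun a ha => Or.inl (Multiset.eq_of_mem_replicate ha)) ?_ ?_
    · rw [Multiset.sum_replicate, smul_eq_mul]
      ring
    · rw [Multiset.card_replicate]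
      exact he
  · refine key (8 ::ₘ Multiset.replicate (k - 2) 4) (fun a ha => ?_) ?_ ?_
    · rcases Multiset.mem_cons.1 ha with h | h
      · exact Or.inr h
      · exact Or.inl (Multiset.eq_of_mem_replicate h)
    · rw [Multiset.sum_cons, Multiset.sum_replicate, smul_eq_mul]
      omega
    · rw [Multiset.card_cons, Multiset.card_replicate]
      obtain ⟨s, hs⟩ := ho
      exact ⟨s, by omega⟩

/-- even permutations with cycle lengths 2 and 4 -/
theorem ex24 (r : ℕ) (k : ℕ) (hk : 2 ≤ k) (h : r + 2 * k = n) :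
    ∃ g : alternatingGroup (Fin n), (∃ j : ℕ, orderOf g = 2 ^ j) ∧
      fx (Fin n) (g : Equiv.Perm (Fin n)) = r := by
  have key : ∀ m : Multiset ℕ, (∀ a ∈ m, a = 2 ∨ a = 4) → m.sum = 2 * k → Even (Multiset.card m) →
      ∃ g : alternatingGroup (Fin n), (∃ j : ℕ, orderOf g = 2 ^ j) ∧
      fx (Fin n) (g : Equiv.Perm (Fin n)) = r := by
    intro m hm hs he
    obtain ⟨g, hg⟩ := ex_el (n := n) m (by omega) (fun a ha => by rcases hm a ha with h | h <;> omega)
      (by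
        rw [hs]
        exact Even.add ⟨k, by ring⟩ he)
    refine ⟨g, order_two_pow g ?_, ?_⟩
    · intro a ha
      rw [hg] at ha
      rcases hm a ha with h | h
      · rw [h]; norm_num
      · rw [h]; norm_num
    · rw [fx_perm, hg, hs]
      omega
  rcases Nat.even_or_odd k with he | ho
  · refine key (Multiset.replicate k 2) (fun a ha => Or.inl (Multiset.eq_of_mem_replicate ha)) ?_ ?_
    · rw [Multiset.sum_replicate, smul_eq_mul]
      ring
    · rw [Multiset.card_replicate]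
      exact he
  · refine key (4 ::ₘ Multiset.replicate (k - 2) 2) (fun a ha => ?_) ?_ ?_
    · rcases Multiset.mem_cons.1 ha with h | h
      · exact Or.inr h
      · exact Or.inl (Multiset.eq_of_mem_replicate h)
    · rw [Multiset.sum_cons, Multiset.sum_replicate, smul_eq_mul]
      omega
    · rw [Multiset.card_cons, Multiset.card_replicate]
      obtain ⟨s, hs⟩ := ho
      exact ⟨s, by omega⟩

/-- elements of order 3 -/
theorem ex3 (r : ℕ) (k : ℕ) (hk : 1 ≤ k) (h : r + 3 * k = n) :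
    ∃ g : alternatingGroup (Fin n), orderOf g = 3 ∧
      fx (Fin n) (g : Equiv.Perm (Fin n)) = r ∧ tx (Fin n) (g : Equiv.Perm (Fin n)) = 0 := by
  have hs : (Multiset.replicate k 3).sum = 3 * k := by
    rw [Multiset.sum_replicate, smul_eq_mul]
    ring
  obtain ⟨g, hg⟩ := ex_el (n := n) (Multiset.replicate k 3) (by omega)
    (fun a ha => by rw [Multiset.eq_of_mem_replicate ha]; norm_num)
    (by rw [hs, Multiset.card_replicate]; exact ⟨2 * k, by ring⟩)
  refine ⟨g, order_three g k (by omega) hg, ?_, ?_⟩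
  · rw [fx_perm, hg, hs]
    omega
  · apply tx_perm
    rw [hg]
    intro h2
    have := Multiset.eq_of_mem_replicate h2
    omega

end perm

/-- For n ≥ 7 the alternating group on n letters has an irreducible character that vanishes at some 2-element and is the restriction of an irreducible character of the symmetric group, and an irreducible character that vanishes at some element of order 3 and is the restriction of an irreducible character of the symmetric group. -/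
theorem result (n : ℕ) (hn : 7 ≤ n) : (∃ χ : Cfsg.IrrCharacter (alternatingGroup (Fin n)), (∃ x : alternatingGroup (Fin n), (∃ j : ℕ, orderOf x = 2 ^ j) ∧ (χ : alternatingGroup (Fin n) → ℂ) x = 0) ∧ ∃ ψ : Cfsg.IrrCharacter (Equiv.Perm (Fin n)), ∀ x : alternatingGroup (Fin n), (ψ : Equiv.Perm (Fin n) → ℂ) x = (χ : alternatingGroup (Fin n) → ℂ) x) ∧ (∃ χ : Cfsg.IrrCharacter (alternatingGroup (Fin n)), (∃ y : alternatingGroup (Fin n), orderOf y = 3 ∧ (χ : alternatingGroup (Fin n) → ℂ) y = 0) ∧ ∃ ψ : Cfsg.IrrCharacter (Equiv.Perm (Fin n)), ∀ x : alternatingGroup (Fin n), (ψ : Equiv.Perm (Fin n) → ℂ) x = (χ : alternatingGroup (Fin n) → ℂ) x) := by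
  haveI hS : IsMultiplyPretransitive (Equiv.Perm (Fin n)) (Fin n) 4 := Equiv.Perm.isMultiplyPretransitive (Fin n) 4
  haveI hA : IsMultiplyPretransitive (alternatingGroup (Fin n)) (Fin n) 4 := by
    have h1 : IsMultiplyPretransitive (alternatingGroup (Fin n)) (Fin n) (Nat.card (Fin n) - 2) :=
      alternatingGroup.isMultiplyPretransitive (Fin n)
    refine isMultiplyPretransitive_of_le (n := Nat.card (Fin n) - 2) ?_ ?_
    · rw [Nat.card_eq_fintype_card, Fintype.card_fin]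
      omega
    · exact_mod_cast Nat.sub_le _ _
  have hk : 4 ≤ Fintype.card (Fin n) := by
    rw [Fintype.card_fin]
    omega
  have c1 : ∃ χ : Cfsg.IrrCharacter (alternatingGroup (Fin n)), (χ.1 = ch1 (alternatingGroup (Fin n)) (Fin n)) ∧
      ∃ ψ : Cfsg.IrrCharacter (Equiv.Perm (Fin n)), ∀ x : alternatingGroup (Fin n),
        (ψ : Equiv.Perm (Fin n) → ℂ) x = (χ : alternatingGroup (Fin n) → ℂ) x :=
    ⟨⟨_, irr1 hk⟩, rfl, ⟨_, irr1 hk⟩, fun x => rfl⟩
  have c2 : ∃ χ : Cfsg.IrrCharacter (alternatingGroup (Fin n)), (χ.1 = ch2 (alternatingGroup (Fin n)) (Fin n)) ∧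
      ∃ ψ : Cfsg.IrrCharacter (Equiv.Perm (Fin n)), ∀ x : alternatingGroup (Fin n),
        (ψ : Equiv.Perm (Fin n) → ℂ) x = (χ : alternatingGroup (Fin n) → ℂ) x :=
    ⟨⟨_, irr2 hk⟩, rfl, ⟨_, irr2 hk⟩, fun x => rfl⟩
  have c3 : ∃ χ : Cfsg.IrrCharacter (alternatingGroup (Fin n)), (χ.1 = ch3 (alternatingGroup (Fin n)) (Fin n)) ∧
      ∃ ψ : Cfsg.IrrCharacter (Equiv.Perm (Fin n)), ∀ x : alternatingGroup (Fin n),
        (ψ : Equiv.Perm (Fin n) → ℂ) x = (χ : alternatingGroup (Fin n) → ℂ) x :=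
    ⟨⟨_, irr3 hk⟩, rfl, ⟨_, irr3 hk⟩, fun x => rfl⟩
  have v1 : ∀ x : alternatingGroup (Fin n), fx (Fin n) (x : Equiv.Perm (Fin n)) = 1 →
      ch1 (alternatingGroup (Fin n)) (Fin n) x = 0 := by
    intro x hx
    have h : fx (Fin n) x = 1 := hx
    unfold ch1
    rw [h]
    norm_num
  have v2 : ∀ x : alternatingGroup (Fin n), fx (Fin n) (x : Equiv.Perm (Fin n)) = 0 →
      tx (Fin n) (x : Equiv.Perm (Fin n)) = 0 → ch2 (alternatingGroup (Fin n)) (Fin n) x = 0 := by
    intro x hx hx'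
    have h : fx (Fin n) x = 0 := hx
    have h' : tx (Fin n) x = 0 := hx'
    unfold ch2
    rw [h, h']
    norm_num
  have v3 : ∀ x : alternatingGroup (Fin n), fx (Fin n) (x : Equiv.Perm (Fin n)) = 2 →
      tx (Fin n) (x : Equiv.Perm (Fin n)) = 0 → ch3 (alternatingGroup (Fin n)) (Fin n) x = 0 := by
    intro x hx hx'
    have h : fx (Fin n) x = 2 := hx
    have h' : tx (Fin n) x = 0 := hx'
    unfold ch3
    rw [h, h']
    norm_num
  constructor
  · have h4 : n % 2 = 1 ∨ n % 4 = 0 ∨ n % 4 = 2 := by omega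
    rcases h4 with h | h | h
    · obtain ⟨g, hg, hf⟩ := ex24 (n := n) 1 (n / 2) (by omega) (by omega)
      obtain ⟨χ, hχ, hψ⟩ := c1
      exact ⟨χ, ⟨g, hg, by rw [hχ]; exact v1 g hf⟩, hψ⟩
    · obtain ⟨g, hg, hf, ht⟩ := ex48 (n := n) 0 (n / 4) (by omega) (by omega)
      obtain ⟨χ, hχ, hψ⟩ := c2
      exact ⟨χ, ⟨g, hg, by rw [hχ]; exact v2 g hf ht⟩, hψ⟩
    · obtain ⟨g, hg, hf, ht⟩ := ex48 (n := n) 2 (n / 4) (by omega) (by omega)
      obtain ⟨χ, hχ, hψ⟩ := c3
      exact ⟨χ, ⟨g, hg, by rw [hχ]; exact v3 g hf ht⟩, hψ⟩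
  · have h3 : n % 3 = 1 ∨ n % 3 = 0 ∨ n % 3 = 2 := by omega
    rcases h3 with h | h | h
    · obtain ⟨g, hg, hf, ht⟩ := ex3 (n := n) 1 (n / 3) (by omega) (by omega)
      obtain ⟨χ, hχ, hψ⟩ := c1
      exact ⟨χ, ⟨g, hg, by rw [hχ]; exact v1 g hf⟩, hψ⟩
    · obtain ⟨g, hg, hf, ht⟩ := ex3 (n := n) 0 (n / 3) (by omega) (by omega)
      obtain ⟨χ, hχ, hψ⟩ := c2
      exact ⟨χ, ⟨g, hg, by rw [hχ]; exact v2 g hf ht⟩, hψ⟩
    · obtain ⟨g, hg, hf, ht⟩ := ex3 (n := n) 2 (n / 3) (by omega) (by omega)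
      obtain ⟨χ, hχ, hψ⟩ := c3
      exact ⟨χ, ⟨g, hg, by rw [hχ]; exact v3 g hf ht⟩, hψ⟩


end Cfsg.Agent.S4560
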