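import Cfsg.Statements.S4564
import Cfsg.Agent.H76.FullyRam2

set_option autoImplicit false
open Cfsg

namespace Cfsg.Agent.S4564

open Cfsg.Agent.CharBase Cfsg.Agent.Char Cfsg.Agent.H76

/-- Let χ be an irreducible character of the finite group H that is fully ramified over the normal subgroup Z: the restriction of χ to Z is e times an irreducible character of Z with e ^ 2 equal to the index of Z. Let K be a normal subgroup of H containing Z and P a cyclic Sylow p-subgroup of H/K. Then P has a complement in H/K: a subgroup meeting P trivially whose product with P is the whole group. -/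
theorem result {H : Type*} [Group H] [Finite H] (Z : Subgroup H) [Z.Normal] (χ : Cfsg.IrrCharacter H) (hfr : ∃ (θ : Cfsg.IrrCharacter ↥Z) (e : ℕ), e ^ 2 = Z.index ∧ ∀ z : ↥Z, (χ : H → ℂ) z = (e : ℂ) * (θ : ↥Z → ℂ) z) (K : Subgroup H) [K.Normal] (hZK : Z ≤ K) (p : ℕ) [Fact p.Prime] (P : Sylow p (H ⧸ K)) (hcyc : IsCyclic P) : ∃ M : Subgroup (H ⧸ K), M.IsComplement' (P : Subgroup (H ⧸ K)) := by
  classical
  have : Fintype H := Fintype.ofFinite H
  have : Fintype Z := Fintype.ofFinite Z
  have hp := (Fact.out : p.Prime)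
  obtain ⟨θ, e, he, hr⟩ := hfr
  obtain ⟨M, hM, j, hj⟩ := fr_cyclic_compl (p := p) χ.2 θ.2 hr he hZK P hcyc
  have h1 := Subgroup.card_mul_index M
  rw [hj] at h1
  have hP : Nat.card (P : Subgroup (H ⧸ K)) = p ^ j := by
    have h2 : Nat.card (P : Subgroup (H ⧸ K)) = p ^ (Nat.card (H ⧸ K)).factorization p :=
      Sylow.card_eq_multiplicity P
    rw [h2, ← h1, Nat.factorization_mul Nat.card_pos.ne' (pow_ne_zero _ hp.ne_zero),
      Finsupp.add_apply, hp.factorization_pow, Finsupp.single_eq_same,
      Nat.factorization_eq_zero_of_not_dvd hM, zero_add]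
  refine ⟨M, Subgroup.isComplement'_of_coprime (by rw [hP]; exact h1) ?_⟩
  rw [hP]
  exact (Nat.Coprime.pow_left j ((Nat.Prime.coprime_iff_not_dvd hp).2 hM)).symm

end Cfsg.Agent.S4564
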