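import Cfsg.Statements.S4565
import Cfsg.Agent.H76.FullyRam2
import Cfsg.Agent.Char.Berger

set_option autoImplicit false
open Cfsg

namespace Cfsg.Agent.S4565

open Cfsg.Agent.CharBase Cfsg.Agent.Char Cfsg.Agent.H76
open scoped ComplexConjugate

/-- Let χ be an irreducible character of the finite group H that is fully ramified over the normal subgroup Z: the restriction of χ to Z is e times an irreducible character of Z with e ^ 2 equal to the index of Z. If Z ≠ H, then H/Z has no cyclic subgroup that is its own centralizer. -/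
theorem result {H : Type*} [Group H] [Finite H] (Z : Subgroup H) [Z.Normal] (χ : Cfsg.IrrCharacter H) (hfr : ∃ (θ : Cfsg.IrrCharacter ↥Z) (e : ℕ), e ^ 2 = Z.index ∧ ∀ z : ↥Z, (χ : H → ℂ) z = (e : ℂ) * (θ : ↥Z → ℂ) z) (hZ : Z ≠ ⊤) (C : Subgroup (H ⧸ Z)) (hC : IsCyclic C) : Subgroup.centralizer (C : Set (H ⧸ Z)) ≠ C := by
  classical
  have : Fintype H := Fintype.ofFinite H
  have : Fintype Z := Fintype.ofFinite Z
  have : Fintype (IrrCharacter H) := Fintype.ofFinite _
  obtain ⟨θ, e, he, hr⟩ := hfr
  intro hcent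
  have hχcl := irr_isClassFunction χ
  set A := C.comap (QuotientGroup.mk' Z) with hA
  have hZA : Z ≤ A := by
    intro z hz
    rw [hA, Subgroup.mem_comap]
    have : QuotientGroup.mk' Z z = 1 := by
      rw [QuotientGroup.mk'_apply, QuotientGroup.eq_one_iff]; exact hz
    rw [this]; exact one_mem _
  have : Fintype A := Fintype.ofFinite A
  have : Fintype (Z.subgroupOf A) := Fintype.ofFinite _
  have : Fintype (IrrCharacter A) := Fintype.ofFinite _
  obtain ⟨⟨c', hc'C⟩, hgen⟩ := hC.exists_generator
  obtain ⟨c, rfl⟩ := QuotientGroup.mk'_surjective Z c'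
  have hcA : c ∈ A := hc'C
  -- centralizing the generator
  have hcz : ∀ x : H, (x : H ⧸ Z) * (c : H ⧸ Z) = (c : H ⧸ Z) * (x : H ⧸ Z) → x ∈ A := by
    intro x hx
    rw [hA, Subgroup.mem_comap, ← hcent, Subgroup.mem_centralizer_iff]
    intro y hy
    obtain ⟨n, hn⟩ := Subgroup.mem_zpowers_iff.1 (hgen ⟨y, hy⟩)
    have hn' : (QuotientGroup.mk' Z c) ^ n = y := congrArg Subtype.val hn
    have h1 : Commute (x : H ⧸ Z) (c : H ⧸ Z) := hx
    rw [← hn']
    exact (h1.zpow_right n).symm
  have hab : ∀ x ∈ A, (x : H ⧸ Z) * (c : H ⧸ Z) = (c : H ⧸ Z) * (x : H ⧸ Z) := by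
    intro x hx
    rw [hA, Subgroup.mem_comap, ← hcent, Subgroup.mem_centralizer_iff] at hx
    exact (hx _ hc'C).symm
  have hcZ : c ∉ Z := by
    intro h
    apply hZ
    rw [eq_top_iff]
    intro x _
    have h1 : (c : H ⧸ Z) = 1 := (QuotientGroup.eq_one_iff c).2 h
    have h2 : x ∈ A := hcz x (by rw [h1]; simp)
    obtain ⟨n, hn⟩ := Subgroup.mem_zpowers_iff.1 (hgen ⟨_, h2⟩)
    have hn' : (QuotientGroup.mk' Z c) ^ n = QuotientGroup.mk' Z x := congrArg Subtype.val hn
    rw [QuotientGroup.mk'_apply, QuotientGroup.mk'_apply, h1, one_zpow] at hn'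
    exact (QuotientGroup.eq_one_iff x).1 hn'.symm
  -- the extension
  have hcyc : IsCyclic (A ⧸ Z.subgroupOf A) := by
    let f : A →* H ⧸ Z := (QuotientGroup.mk' Z).comp A.subtype
    have hker : f.ker = Z.subgroupOf A := by
      ext t
      rw [MonoidHom.mem_ker, Subgroup.mem_subgroupOf]
      change QuotientGroup.mk' Z (t : H) = 1 ↔ _
      rw [QuotientGroup.mk'_apply, QuotientGroup.eq_one_iff]
    have hle : f.range ≤ C := by
      rintro _ ⟨t, rfl⟩
      exact t.2
    have h1 : IsCyclic f.range := isCyclic_of_injective (Subgroup.inclusion hle)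
      (Subgroup.inclusion_injective hle)
    have h2 : IsCyclic (A ⧸ f.ker) := isCyclic_of_surjective
      (QuotientGroup.quotientKerEquivRange f).symm
      (QuotientGroup.quotientKerEquivRange f).symm.surjective
    exact isCyclic_of_surjective (QuotientGroup.quotientMulEquivOfEq hker)
      (QuotientGroup.quotientMulEquivOfEq hker).surjective
  obtain ⟨ν, hν, hνe⟩ := exists_extension_of_cyclic (Z.subgroupOf A) hcyc (sc_irr hZA θ.2) (by
    intro t
    funext q
    exact fr_inv χ.2 hr (t : H) ((q : A) : H) q.2 _)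
  have hνcl := isClassFunction_of_isCharacter (isCharacter_of_isIrr hν)
  have hνZ : (fun n : Z.subgroupOf A => ν n) = sc A (θ : Z → ℂ) := by
    funext n; exact hνe n
  -- the class function on the coset
  let cA : A := ⟨c, hcA⟩
  let φ : A → ℂ := fun a => if ((a : H) : H ⧸ Z) = (c : H ⧸ Z) then ν a else 0
  let F : H → ℂ := indFun A φ
  have hFcl : IsClassFunction H F := indFun_isClassFunction A φ
  -- inner products with characters not over `θ`
  have hinner : ∀ ψ : IrrCharacter H, ψ ≠ χ → classInner F (ψ : H → ℂ) = 0 := by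
    intro ψ hψ
    have hψ0 : classInner (fun z : Z => (ψ : H → ℂ) z) (θ : Z → ℂ) = 0 := by
      by_contra h
      exact hψ (Subtype.ext (fr_unique χ.2 θ.2 hr he ψ.2 h))
    change classInner (indFun A φ) _ = 0
    rw [frobenius_reciprocity A φ _ (irr_isClassFunction ψ)]
    obtain ⟨m, hm, hsum⟩ := exists_mult_of_isCharacter
      (isCharacter_restrict (irr_isCharacter ψ) A)
    rw [hsum, classInner_sum_right]
    refine Finset.sum_eq_zero fun β _ => ?_
    by_cases hmβ : m β = 0
    · rw [hmβ]; simp
    rw [← Nat.cast_smul_eq_nsmul ℂ, classInner_smul_right]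
    have hβ0 : classInner (fun n : Z.subgroupOf A => (β : A → ℂ) n)
        (fun n : Z.subgroupOf A => ν n) = 0 := by
      rw [hνZ]
      -- the multiplicities are natural numbers
      by_contra hne
      have hne' : classInner (fun z : Z => (β : A → ℂ) ⟨z, hZA z.2⟩) (θ : Z → ℂ) ≠ 0 := by
        intro h0
        apply hne
        unfold classInner at h0 ⊢
        rw [card_subgroupOf_eq hZA]
        rw [← h0]
        congr 1
        exact Fintype.sum_equiv (Subgroup.subgroupOfEquivOfLe hZA).toEquiv _ _ fun n => rfl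
      have hnat : ∀ ξ : IrrCharacter A, ∃ n : ℕ, classInner ((m ξ : ℂ) •
          (fun z : Z => (ξ : A → ℂ) ⟨z, hZA z.2⟩)) (θ : Z → ℂ) = n := by
        intro ξ
        obtain ⟨n, hn⟩ := classInner_natCast (isCharacter_comp (irr_isCharacter ξ)
          (Subgroup.inclusion hZA)) (irr_isCharacter θ)
        refine ⟨m ξ * n, ?_⟩
        rw [CharBase.classInner_smul_left, Nat.cast_mul, ← hn]
        rfl
      choose n hn using hnat
      have h2 : (fun z : Z => (ψ : H → ℂ) z) = ∑ ξ : IrrCharacter A, (m ξ : ℂ) •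
          (fun z : Z => (ξ : A → ℂ) ⟨z, hZA z.2⟩) := by
        funext z
        have := congrFun hsum ⟨z, hZA z.2⟩
        change (ψ : H → ℂ) z = _ at this
        rw [this, Finset.sum_apply, Finset.sum_apply]
        refine Finset.sum_congr rfl fun ξ _ => ?_
        simp
      rw [h2, classInner_sum_left] at hψ0
      simp only [hn] at hψ0
      have h3 : ∑ ξ : IrrCharacter A, n ξ = 0 := by exact_mod_cast hψ0
      rw [Finset.sum_eq_zero_iff] at h3
      have h4 := h3 β (Finset.mem_univ _)
      have h5 := hn β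
      rw [h4, CharBase.classInner_smul_left, Nat.cast_zero, mul_eq_zero] at h5
      rcases h5 with h5 | h5
      · exact hmβ (by exact_mod_cast h5)
      · exact hne' h5
    have hav := (coset_average (Z.subgroupOf A) ν hν (by rw [hνZ]; exact sc_irr hZA θ.2)
      (β : A → ℂ) β.2).2 hβ0
    have hav1 := congrFun hav cA
    rw [avgN_apply, Pi.zero_apply, mul_eq_zero] at hav1
    have hav2 := hav1.resolve_left (inv_ne_zero (by exact_mod_cast Nat.card_pos.ne'))
    have hz : classInner φ (β : A → ℂ) = 0 := by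
      unfold classInner
      rw [mul_eq_zero]
      right
      have h6 : ∑ a : A, φ a * conj ((β : A → ℂ) a) =
          ∑ n : Z.subgroupOf A, ν ((n : A) * cA) * conj ((β : A → ℂ) ((n : A) * cA)) := by
        symm
        refine Finset.sum_of_injOn (fun n : Z.subgroupOf A => (n : A) * cA) ?_ ?_ ?_ ?_
        · intro a _ b _ h
          exact Subtype.ext (mul_right_cancel h)
        · intro z _; exact Finset.mem_univ _
        · intro a _ ha
          simp only [φ]
          rw [if_neg, zero_mul]
          intro h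
          apply ha
          have h7 : (a : H) * c⁻¹ ∈ Z := by
            rw [← QuotientGroup.eq_one_iff, QuotientGroup.mk_mul, QuotientGroup.mk_inv, h,
              mul_inv_cancel]
          refine ⟨⟨a * cA⁻¹, h7⟩, Finset.mem_univ _, ?_⟩
          simp
        · intro n _
          simp only [φ]
          rw [if_pos]
          have h8 : ((((n : A) : H)) : H ⧸ Z) = 1 := (QuotientGroup.eq_one_iff _).2 n.2
          change ((((n : A) : H) * c : H) : H ⧸ Z) = c
          rw [QuotientGroup.mk_mul, h8, one_mul]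
      rw [h6]
      have h9 := congrArg conj hav2
      rw [map_zero, map_sum] at h9
      rw [← h9]
      refine Finset.sum_congr rfl fun n _ => ?_
      simp only [Pi.mul_apply, map_mul, Complex.conj_conj]
      ring
    rw [hz, mul_zero]
  have hFχ : ∀ x : H, F x = classInner F (χ : H → ℂ) * (χ : H → ℂ) x := by
    intro x
    rw [classFun_apply_eq_sum hFcl x, Finset.sum_eq_single χ]
    · intro ψ _ hψ
      rw [hinner ψ hψ, zero_mul]
    · intro h; exact absurd (Finset.mem_univ _) h
  -- values on the coset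
  have hFval : ∀ a : A, ((a : H) : H ⧸ Z) = (c : H ⧸ Z) → F a = ν a := by
    intro a ha
    change indFun A φ a = ν a
    unfold indFun
    have hA0 : (Nat.card A : ℂ) ≠ 0 := by exact_mod_cast Nat.card_pos.ne'
    rw [inv_mul_eq_iff_eq_mul₀ hA0]
    have h1 : ∀ x : H, extendByZero A φ (x⁻¹ * a * x) = if x ∈ A then ν a else 0 := by
      intro x
      by_cases hx : x ∈ A
      · have hmem : x⁻¹ * (a : H) * x ∈ A := A.mul_mem (A.mul_mem (A.inv_mem hx) a.2) hx
        rw [if_pos hx, extendByZero_of_mem A φ hmem]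
        simp only [φ]
        rw [if_pos]
        · have h2 := hνcl a (⟨x, hx⟩ : A)⁻¹
          rw [← h2]
          congr 1
          apply Subtype.ext
          simp
        · rw [QuotientGroup.mk_mul, QuotientGroup.mk_mul, QuotientGroup.mk_inv, ha, mul_assoc,
            ← hab x hx]
          group
      · rw [if_neg hx]
        by_cases hmem : x⁻¹ * (a : H) * x ∈ A
        · rw [extendByZero_of_mem A φ hmem]
          simp only [φ]
          rw [if_neg]
          intro h
          apply hx
          apply hcz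
          rw [QuotientGroup.mk_mul, QuotientGroup.mk_mul, QuotientGroup.mk_inv, ha] at h
          calc (x : H ⧸ Z) * c = x * ((x : H ⧸ Z)⁻¹ * c * x) := by rw [h]
            _ = c * x := by group
        · exact extendByZero_of_notMem A φ hmem
    simp_rw [h1]
    rw [← Finset.sum_filter, Finset.sum_const, nsmul_eq_mul, Nat.card_eq_fintype_card,
      Fintype.card_subtype]
  -- contradiction
  have hν0 : ∀ a : A, ((a : H) : H ⧸ Z) = (c : H ⧸ Z) → ν a = 0 := by
    intro a ha
    rw [← hFval a ha, hFχ, fr_vanish χ.2 θ.2 hr he, mul_zero]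
    intro h
    apply hcZ
    rw [← QuotientGroup.eq_one_iff, ← ha, QuotientGroup.eq_one_iff]
    exact h
  have hνB : IsIrrCharacter Z (fun b : Z => ν ⟨(b : H), hZA b.2⟩) := by
    have : (fun b : Z => ν ⟨(b : H), hZA b.2⟩) = (θ : Z → ℂ) := by
      funext b
      exact hνe ⟨⟨b, hZA b.2⟩, b.2⟩
    rw [this]; exact θ.2
  have hsq := BG.coset_sq hZA hν hνB cA
  have h0 : ∑ b : Z, Complex.normSq (ν (⟨(b : H), hZA b.2⟩ * cA)) = 0 := by
    refine Finset.sum_eq_zero fun b _ => ?_
    rw [hν0, Complex.normSq_zero]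
    have h8 : ((b : H) : H ⧸ Z) = 1 := (QuotientGroup.eq_one_iff _).2 b.2
    change (((b : H) * c : H) : H ⧸ Z) = c
    rw [QuotientGroup.mk_mul, h8, one_mul]
  rw [h0] at hsq
  exact (Nat.card_pos (α := Z)).ne' (by exact_mod_cast hsq.symm)

end Cfsg.Agent.S4565
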