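import Cfsg.Statements.S4566
import Cfsg.Agent.H76.Congr
-- import your own Cfsg.Agent.* helpers here

set_option autoImplicit false
open Cfsg

namespace Cfsg.Agent.S4566

/-- Let N be a central subgroup of the finite group G, ψ a faithful irreducible (hence degree-one) character of N, and χ an irreducible character of G whose restriction to N contains ψ. If g ∈ G and some x ∈ G has commutator x⁻¹ g⁻¹ x g in N but different from 1, then χ g = 0. -/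
theorem result {G : Type*} [Group G] [Fintype G] (N : Subgroup G) [Fintype N] (hN : N ≤ Subgroup.center G) (ψ : Cfsg.IrrCharacter ↥N) (hfaith : ∀ n : ↥N, (ψ : ↥N → ℂ) n = (ψ : ↥N → ℂ) 1 → n = 1) (χ : Cfsg.IrrCharacter G) (hover : Cfsg.classInner (fun n : ↥N => (χ : G → ℂ) n) (ψ : ↥N → ℂ) ≠ 0) (g x : G) (hcomm : x⁻¹ * g⁻¹ * x * g ∈ N) (hne : x⁻¹ * g⁻¹ * x * g ≠ 1) : (χ : G → ℂ) g = 0 := by
  classical
  set n : G := x⁻¹ * g⁻¹ * x * g with hn
  have hχ1 : (χ : G → ℂ) 1 ≠ 0 := CharBase.irr_one_ne_zero χ.2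
  have hψ1 : (ψ : N → ℂ) 1 ≠ 0 := CharBase.irr_one_ne_zero ψ.2
  have hninv : n⁻¹ ∈ N := inv_mem hcomm
  have h1 : (χ : G → ℂ) g = (χ : G → ℂ) g * (χ : G → ℂ) n⁻¹ / (χ : G → ℂ) 1 := by
    rw [← H76.irr_mul_central χ.2 (hN hninv) g]
    have h2 : g * n⁻¹ = x⁻¹ * g * x⁻¹⁻¹ := by
      rw [hn]; group
    rw [h2, CharBase.irr_isClassFunction χ g x⁻¹]
  by_contra hg
  have h2 : (χ : G → ℂ) n⁻¹ = (χ : G → ℂ) 1 := by
    field_simp at h1
    exact h1.symm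
  let n₁ : N := ⟨n⁻¹, hninv⟩
  have hcN : ∀ m : N, m ∈ Subgroup.center N := by
    intro m
    rw [Subgroup.mem_center_iff]
    intro k
    exact Subtype.ext (Subgroup.mem_center_iff.mp (hN m.2) k)
  -- shift the sum
  have h3 : ∑ m : N, (χ : G → ℂ) m * (starRingEnd ℂ) ((ψ : N → ℂ) m) =
      ∑ m : N, (χ : G → ℂ) (m * n₁ : N) * (starRingEnd ℂ) ((ψ : N → ℂ) (m * n₁)) :=
    (Fintype.sum_equiv (Equiv.mulRight n₁) _ _ (fun m => rfl)).symm
  have h4 : ∀ m : N, (χ : G → ℂ) (m * n₁ : N) * (starRingEnd ℂ) ((ψ : N → ℂ) (m * n₁)) =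
      ((χ : G → ℂ) m * (starRingEnd ℂ) ((ψ : N → ℂ) m)) *
        (starRingEnd ℂ) ((ψ : N → ℂ) n₁ / (ψ : N → ℂ) 1) := by
    intro m
    rw [H76.irr_mul_central ψ.2 (hcN n₁) m]
    have h5 : (χ : G → ℂ) ((m * n₁ : N) : G) = (χ : G → ℂ) m := by
      rw [Subgroup.coe_mul, H76.irr_mul_central χ.2 (hN n₁.2) m]
      change (χ : G → ℂ) m * (χ : G → ℂ) n⁻¹ / (χ : G → ℂ) 1 = _
      rw [h2]; field_simp
    rw [h5, mul_div_assoc, map_mul]; ring
  simp only [h4] at h3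
  rw [← Finset.sum_mul] at h3
  have h6 : ∑ m : N, (χ : G → ℂ) m * (starRingEnd ℂ) ((ψ : N → ℂ) m) ≠ 0 := by
    intro h0
    apply hover
    unfold Cfsg.classInner
    rw [h0, mul_zero]
  have h7 : (starRingEnd ℂ) ((ψ : N → ℂ) n₁ / (ψ : N → ℂ) 1) = 1 := by
    have : (∑ m : N, (χ : G → ℂ) m * (starRingEnd ℂ) ((ψ : N → ℂ) m)) * 1 =
        (∑ m : N, (χ : G → ℂ) m * (starRingEnd ℂ) ((ψ : N → ℂ) m)) *
          (starRingEnd ℂ) ((ψ : N → ℂ) n₁ / (ψ : N → ℂ) 1) := by rw [mul_one]; exact h3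
    exact (mul_left_cancel₀ h6 this).symm
  have h8 : (ψ : N → ℂ) n₁ / (ψ : N → ℂ) 1 = 1 := by
    have := congrArg (starRingEnd ℂ) h7
    simpa using this
  have h9 : n₁ = 1 := hfaith n₁ (by field_simp at h8; exact h8)
  have h10 : n⁻¹ = 1 := congrArg Subtype.val h9
  exact hne (inv_eq_one.mp h10)

end Cfsg.Agent.S4566
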