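import Cfsg.Statements.S4567
import Cfsg.Agent.H75.CenterDeg
import Cfsg.Agent.H75.Ito
import Cfsg.Agent.H76.AlperinDade2
import Cfsg.Agent.H76.SumMk
import Cfsg.Agent.Char.PermLemma

set_option autoImplicit false
open Cfsg

namespace Cfsg.Agent.S4567

open Cfsg.Agent.CharBase
open scoped ComplexConjugate

/-- Let N be a central subgroup of the finite group G and ψ a faithful irreducible (hence degree-one) character of N. Call a coset g N special when every x ∈ G whose commutator x⁻¹ g⁻¹ x g lies in N actually commutes with g (this depends only on the coset). Then the number of irreducible characters of G whose restriction to N contains ψ equals the number of conjugacy classes of G/N consisting of special cosets. -/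
theorem result {G : Type*} [Group G] [Fintype G] (N : Subgroup G) [N.Normal] [Fintype N] (hN : N ≤ Subgroup.center G) (ψ : Cfsg.IrrCharacter ↥N) (hfaith : ∀ n : ↥N, (ψ : ↥N → ℂ) n = (ψ : ↥N → ℂ) 1 → n = 1) : Nat.card {χ : Cfsg.IrrCharacter G // Cfsg.classInner (fun n : ↥N => (χ : G → ℂ) n) (ψ : ↥N → ℂ) ≠ 0} = Nat.card {C : ConjClasses (G ⧸ N) // ∃ g : G, ConjClasses.mk (g : G ⧸ N) = C ∧ ∀ x : G, x⁻¹ * g⁻¹ * x * g ∈ N → x * g = g * x} := by
  classical
  have := Fintype.ofFinite (IrrCharacter G)
  have hfin : Finite (ConjClasses (G ⧸ N)) := Quotient.finite _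
  have : Fintype (G ⧸ N) := Fintype.ofFinite _
  have hG0 : (Nat.card G : ℂ) ≠ 0 := by exact_mod_cast Nat.card_pos.ne'
  have hN0 : (Nat.card N : ℂ) ≠ 0 := by exact_mod_cast Nat.card_pos.ne'
  have hQ0 : (Nat.card (G ⧸ N) : ℂ) ≠ 0 := by exact_mod_cast Nat.card_pos.ne'
  have hcomm : ∀ (n : N) (g : G), g * n = n * g := fun n g => Subgroup.mem_center_iff.1 (hN n.2) g
  have hψ1 : (ψ : N → ℂ) 1 = 1 := H75.irr_one_of_comm
    (fun a b => Subtype.ext (by
      rw [Subgroup.coe_mul, Subgroup.coe_mul]; exact hcomm b a)) ψ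
  have hψc : IsCharacter N (ψ : N → ℂ) := irr_isCharacter ψ
  -- the projection
  have hproj : ∀ (χ : IrrCharacter G) (g : G), ∑ n : N, conj ((ψ : N → ℂ) n) * (χ : G → ℂ) (g * n) =
      if classInner (fun n : N => (χ : G → ℂ) n) (ψ : N → ℂ) ≠ 0 then
        (Nat.card N : ℂ) * (χ : G → ℂ) g else 0 := by
    intro χ g
    have hχ1 : (χ : G → ℂ) 1 ≠ 0 := irr_one_ne_zero χ.2
    have h1 : ∑ n : N, conj ((ψ : N → ℂ) n) * (χ : G → ℂ) (g * n) =
        (Nat.card N : ℂ) * classInner (fun n : N => (χ : G → ℂ) n) (ψ : N → ℂ) *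
          (χ : G → ℂ) g / (χ : G → ℂ) 1 := by
      unfold classInner
      rw [mul_inv_cancel_left₀ hN0, Finset.sum_mul, Finset.sum_div]
      refine Finset.sum_congr rfl fun n _ => ?_
      rw [H75.char_mul_central χ.2 (hN n.2) g]
      ring
    rw [h1]
    split_ifs with h
    · have hinv : ∀ g : G, Char.cj N g (ψ : N → ℂ) = ψ := by
        intro g
        funext n
        unfold Char.cj
        refine congrArg (ψ : N → ℂ) (Subtype.ext ?_)
        change g * (n : G) * g⁻¹ = n
        rw [hcomm n]; group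
      have h2 := H76.restrict_eq_smul_of_invariant N χ.2 ψ.2 hinv h 1
      rw [Subgroup.coe_one, hψ1, mul_one] at h2
      rw [← h2]
      field_simp
    · push Not at h
      rw [h]; simp
  -- the number as a double sum
  have hnum : (Nat.card {χ : IrrCharacter G //
      classInner (fun n : N => (χ : G → ℂ) n) (ψ : N → ℂ) ≠ 0} : ℂ) =
      ((Nat.card G : ℂ) * (Nat.card N : ℂ))⁻¹ * ∑ g : G, ∑ n : N, conj ((ψ : N → ℂ) n) *
        (if IsConj (g * n) g then (Nat.card (Subgroup.centralizer ({g} : Set G)) : ℂ) else 0) := by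
    have h1 : ∀ (g : G) (n : N), (if IsConj (g * n) g then
        (Nat.card (Subgroup.centralizer ({g} : Set G)) : ℂ) else 0) =
        ∑ χ : IrrCharacter G, (χ : G → ℂ) (g * n) * conj ((χ : G → ℂ) g) := by
      intro g n
      rw [column_orthogonality]
      have h2 : Subgroup.centralizer ({g * (n : G)} : Set G) =
          Subgroup.centralizer ({g} : Set G) := by
        ext x
        rw [Subgroup.mem_centralizer_singleton_iff, Subgroup.mem_centralizer_singleton_iff]
        constructor
        · intro h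
          apply mul_right_cancel (b := (n : G))
          rw [mul_assoc, h, mul_assoc, ← hcomm n, mul_assoc]
        · intro h
          rw [← mul_assoc, h, mul_assoc, hcomm n, mul_assoc]
      rw [h2]
      split_ifs <;> rfl
    simp_rw [h1]
    have h3 : ∀ g : G, ∑ n : N, conj ((ψ : N → ℂ) n) * ∑ χ : IrrCharacter G,
        (χ : G → ℂ) (g * n) * conj ((χ : G → ℂ) g) =
        ∑ χ : IrrCharacter G, (if classInner (fun n : N => (χ : G → ℂ) n) (ψ : N → ℂ) ≠ 0 then
          (Nat.card N : ℂ) * (χ : G → ℂ) g else 0) * conj ((χ : G → ℂ) g) := by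
      intro g
      simp_rw [← hproj, Finset.mul_sum, Finset.sum_mul]
      rw [Finset.sum_comm]
      refine Finset.sum_congr rfl fun χ _ => Finset.sum_congr rfl fun n _ => ?_
      ring
    simp_rw [h3]
    rw [Finset.sum_comm]
    have h4 : ∀ χ : IrrCharacter G, ∑ g : G,
        (if classInner (fun n : N => (χ : G → ℂ) n) (ψ : N → ℂ) ≠ 0 then
          (Nat.card N : ℂ) * (χ : G → ℂ) g else 0) * conj ((χ : G → ℂ) g) =
        if classInner (fun n : N => (χ : G → ℂ) n) (ψ : N → ℂ) ≠ 0 then
          (Nat.card N : ℂ) * (Nat.card G : ℂ) else 0 := by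
      intro χ
      split_ifs with h
      · have h5 := classInner_irr_self χ
        unfold classInner at h5
        rw [inv_mul_eq_one₀ hG0] at h5
        rw [h5, Finset.mul_sum]
        refine Finset.sum_congr rfl fun g _ => ?_
        ring
      · simp
    simp_rw [h4]
    rw [Finset.sum_ite, Finset.sum_const_zero, add_zero, Finset.sum_const, nsmul_eq_mul,
      Nat.card_eq_fintype_card, Fintype.card_subtype]
    field_simp
  -- the special elements
  let Sp : G → Prop := fun g => ∀ x : G, x⁻¹ * g⁻¹ * x * g ∈ N → x * g = g * x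
  have hinner : ∀ g : G, ∑ n : N, conj ((ψ : N → ℂ) n) *
      (if IsConj (g * n) g then (Nat.card (Subgroup.centralizer ({g} : Set G)) : ℂ) else 0) =
      if Sp g then (Nat.card (Subgroup.centralizer ({g} : Set G)) : ℂ) else 0 := by
    intro g
    by_cases hg : Sp g
    · rw [if_pos hg, Finset.sum_eq_single (1 : N)]
      · rw [hψ1, Subgroup.coe_one, mul_one, if_pos (IsConj.refl g)]; simp
      · intro n _ hn
        rw [if_neg, mul_zero]
        intro h
        obtain ⟨x, hx⟩ := isConj_iff.1 h.symm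
        -- `x g x⁻¹ = g n`
        apply hn
        have h1 : x⁻¹ * g⁻¹ * x * g = n := by
          have h2 : x * g = g * n * x := by rw [← hx]; group
          have h3 : g⁻¹ * x * g = n * x := by
            rw [mul_assoc, h2]; group
          calc x⁻¹ * g⁻¹ * x * g = x⁻¹ * (g⁻¹ * x * g) := by group
            _ = x⁻¹ * (n * x) := by rw [h3]
            _ = n := by rw [← hcomm n x]; group
        have h2 := hg x (by rw [h1]; exact n.2)
        apply Subtype.ext
        rw [← h1, Subgroup.coe_one, mul_assoc, h2]; group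
      · intro h; exact absurd (Finset.mem_univ _) h
    · rw [if_neg hg]
      simp only [Sp] at hg
      push Not at hg
      obtain ⟨x, hx, hxg⟩ := hg
      set m : N := ⟨x⁻¹ * g⁻¹ * x * g, hx⟩ with hm
      have hm1 : m ≠ 1 := by
        intro h
        apply hxg
        have h1 : x⁻¹ * g⁻¹ * x * g = 1 := congrArg Subtype.val h
        calc x * g = g * x * (x⁻¹ * g⁻¹ * x * g) := by group
          _ = g * x := by rw [h1, mul_one]
      have hψm : (ψ : N → ℂ) m ≠ 1 := by
        intro h
        exact hm1 (hfaith m (by rw [h, hψ1]))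
      set f : N → ℂ := fun n => conj ((ψ : N → ℂ) n) *
        (if IsConj (g * n) g then (Nat.card (Subgroup.centralizer ({g} : Set G)) : ℂ) else 0)
        with hf
      have hfm : ∀ n : N, f (n * m) = conj ((ψ : N → ℂ) m) * f n := by
        intro n
        have h1 : IsConj (g * (n : G)) (g * ((n * m : N) : G)) := by
          refine isConj_iff.2 ⟨x, ?_⟩
          have h2 : x * g * x⁻¹ = g * m := by
            have h3 : (m : G) = x⁻¹ * g⁻¹ * x * g := rfl
            have h4 : (m : G) = x * (x⁻¹ * g⁻¹ * x * g) * x⁻¹ := by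
              rw [← h3, hcomm m x]; group
            rw [h4]; group
          calc x * (g * (n : G)) * x⁻¹ = x * g * ((n : G) * x⁻¹) := by group
            _ = x * g * x⁻¹ * n := by rw [← hcomm n x⁻¹]; group
            _ = g * (n * m : G) := by rw [h2, mul_assoc, hcomm n]
        simp only [hf]
        rw [Char.linChar_mul hψc hψ1, map_mul]
        have h5 : IsConj (g * ((n * m : N) : G)) g ↔ IsConj (g * (n : G)) g :=
          ⟨fun h => h1.trans h, fun h => h1.symm.trans h⟩
        simp only [h5]
        ring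
      have h1 : ∑ n : N, f n = conj ((ψ : N → ℂ) m) * ∑ n : N, f n := by
        rw [Finset.mul_sum]
        conv_lhs => rw [← Equiv.sum_comp (Equiv.mulRight m) f]
        exact Finset.sum_congr rfl fun n _ => hfm n
      have h2 : (1 - conj ((ψ : N → ℂ) m)) * ∑ n : N, f n = 0 := by
        rw [sub_mul, one_mul, ← h1, sub_self]
      rcases mul_eq_zero.1 h2 with h3 | h3
      · exfalso
        apply hψm
        rw [sub_eq_zero] at h3
        have := congrArg conj h3
        simpa using this.symm
      · exact h3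
  -- centralizers of special elements
  have hcent : ∀ g : G, Sp g → (Nat.card (Subgroup.centralizer ({g} : Set G)) : ℂ) =
      (Nat.card N : ℂ) * (Nat.card (Subgroup.centralizer ({(g : G ⧸ N)} : Set (G ⧸ N))) : ℂ) := by
    intro g hg
    have h1 : (Subgroup.centralizer ({(g : G ⧸ N)} : Set (G ⧸ N))).comap (QuotientGroup.mk' N) =
        Subgroup.centralizer ({g} : Set G) := by
      ext x
      rw [Subgroup.mem_comap, Subgroup.mem_centralizer_singleton_iff,
        Subgroup.mem_centralizer_singleton_iff, QuotientGroup.mk'_apply, ← QuotientGroup.mk_mul,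
        ← QuotientGroup.mk_mul]
      constructor
      · intro h
        apply hg x
        rw [QuotientGroup.eq] at h
        have h2 := N.inv_mem h
        have h3 : ((x * g)⁻¹ * (g * x))⁻¹ = x⁻¹ * g⁻¹ * x * g := by group
        rwa [h3] at h2
      · intro h; rw [h]
    rw [← h1]
    have h2 := Subgroup.index_comap_of_surjective
      (Subgroup.centralizer ({(g : G ⧸ N)} : Set (G ⧸ N))) (QuotientGroup.mk'_surjective N)
    have h3 := Subgroup.card_mul_index ((Subgroup.centralizer ({(g : G ⧸ N)} :
      Set (G ⧸ N))).comap (QuotientGroup.mk' N))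
    have h4 := Subgroup.card_mul_index (Subgroup.centralizer ({(g : G ⧸ N)} : Set (G ⧸ N)))
    have h5 := Subgroup.card_mul_index N
    rw [Subgroup.index_eq_card N] at h5
    have h6 : (Subgroup.centralizer ({(g : G ⧸ N)} : Set (G ⧸ N))).index ≠ 0 :=
      Subgroup.index_ne_zero_of_finite
    rw [h2, ← h5, ← h4, ← mul_assoc] at h3
    have h7 := Nat.eq_of_mul_eq_mul_right (Nat.pos_of_ne_zero h6) h3
    rw [h7]; push_cast; rfl
  -- specialness depends only on the class in the quotient
  have hSpP : ∀ g : G, Sp g ↔ ∃ g' : G, ConjClasses.mk (g' : G ⧸ N) = ConjClasses.mk (g : G ⧸ N) ∧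
      ∀ x : G, x⁻¹ * g'⁻¹ * x * g' ∈ N → x * g' = g' * x := by
    intro g
    constructor
    · intro h; exact ⟨g, rfl, h⟩
    · rintro ⟨g', h1, h2⟩
      obtain ⟨u, hu⟩ := isConj_iff.1 (ConjClasses.mk_eq_mk_iff_isConj.1 h1)
      induction u using QuotientGroup.induction_on with
      | H u =>
        have h3 : ((u * g' * u⁻¹ : G) : G ⧸ N) = (g : G ⧸ N) := hu
        rw [QuotientGroup.eq] at h3
        set n : N := ⟨_, h3⟩ with hn
        have h4 : g = u * g' * u⁻¹ * n := by
          rw [hn]; simp only; group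
        intro x hx
        -- `x` commutes with `g` modulo `N`
        have h5 : (u⁻¹ * x * u) * g' = g' * (u⁻¹ * x * u) := by
          apply h2
          have h6 : x⁻¹ * g⁻¹ * x * g = x⁻¹ * (u * g' * u⁻¹)⁻¹ * x * (u * g' * u⁻¹) := by
            rw [h4, mul_inv_rev]
            calc x⁻¹ * ((n : G)⁻¹ * (u * g' * u⁻¹)⁻¹) * x * (u * g' * u⁻¹ * n) =
                x⁻¹ * (n : G)⁻¹ * ((u * g' * u⁻¹)⁻¹ * x * (u * g' * u⁻¹)) * n := by group
              _ = x⁻¹ * ((n : G)⁻¹ * (((u * g' * u⁻¹)⁻¹ * x * (u * g' * u⁻¹)) * n)) := by group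
              _ = x⁻¹ * ((n : G)⁻¹ * (n * ((u * g' * u⁻¹)⁻¹ * x * (u * g' * u⁻¹)))) := by
                rw [hcomm n]
              _ = _ := by group
          rw [h6] at hx
          have h7 := (inferInstance : N.Normal).conj_mem _ hx u⁻¹
          have h8 : u⁻¹ * (x⁻¹ * (u * g' * u⁻¹)⁻¹ * x * (u * g' * u⁻¹)) * u⁻¹⁻¹ =
              (u⁻¹ * x * u)⁻¹ * g'⁻¹ * (u⁻¹ * x * u) * g' := by group
          rwa [h8] at h7
        have h9 : x * (u * g' * u⁻¹) = u * g' * u⁻¹ * x := by
          calc x * (u * g' * u⁻¹) = u * ((u⁻¹ * x * u) * g') * u⁻¹ := by group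
            _ = u * g' * u⁻¹ * x := by rw [h5]; group
        rw [h4]
        calc x * (u * g' * u⁻¹ * n) = (x * (u * g' * u⁻¹)) * n := by group
          _ = u * g' * u⁻¹ * (x * n) := by rw [h9]; group
          _ = u * g' * u⁻¹ * n * x := by rw [hcomm n]; group
  rw [← Nat.cast_inj (R := ℂ), hnum]
  simp_rw [hinner]
  let PC : ConjClasses (G ⧸ N) → Prop := fun C => ∃ g' : G,
    ConjClasses.mk (g' : G ⧸ N) = C ∧ ∀ x : G, x⁻¹ * g'⁻¹ * x * g' ∈ N → x * g' = g' * x
  let FQ : G ⧸ N → ℂ := fun q => if PC (ConjClasses.mk q) then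
    (Nat.card (Subgroup.centralizer ({q} : Set (G ⧸ N))) : ℂ) else 0
  have hsum : ∑ g : G, (if Sp g then (Nat.card (Subgroup.centralizer ({g} : Set G)) : ℂ) else 0) =
      (Nat.card N : ℂ) * ∑ g : G, FQ (g : G ⧸ N) := by
    rw [Finset.mul_sum]
    refine Finset.sum_congr rfl fun g _ => ?_
    simp only [FQ]
    by_cases h : Sp g
    · rw [if_pos h, if_pos ((hSpP g).1 h), hcent g h]
    · rw [if_neg h, if_neg (fun h' => h ((hSpP g).2 h')), mul_zero]
  have hs := H76.sum_mk_quotient N FQ
  have hPL : ∑ q : G ⧸ N, FQ q = (Nat.card (G ⧸ N) : ℂ) *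
      (Nat.card {C : ConjClasses (G ⧸ N) // PC C} : ℂ) := by
    rw [← Char.PL.sum_card_centralizer_of_pred (G := G ⧸ N) PC]
    refine Finset.sum_congr rfl fun q _ => ?_
    simp only [FQ]
    by_cases h : PC (ConjClasses.mk q)
    · rw [if_pos h, if_pos h]
    · rw [if_neg h, if_neg h]
  rw [hsum, hs, hPL]
  have h5 := Subgroup.card_mul_index N
  rw [Subgroup.index_eq_card N] at h5
  rw [← h5]
  push_cast
  field_simp
  rfl

end Cfsg.Agent.S4567
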