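import Cfsg.Statements.S4691
import Cfsg.Agent.Blk.Prin
import Cfsg.Agent.S0071

set_option autoImplicit false
open Cfsg

namespace Cfsg.Agent.S4691

/-- Fix a prime p and a maximal ideal M of the algebraic integers containing p. A finite group G has a normal p-complement if and only if its principal p-block is nilpotent. -/
theorem result {G : Type*} [Group G] [Fintype G] (p : ℕ) [Fact p.Prime] (M : Ideal Cfsg.AlgInt) (hM : Cfsg.IsPModular p M) : Cfsg.HasNormalPComplement p G ↔ Cfsg.IsNilpotentBlock p M (Cfsg.principalBlock M G) := by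
  classical
  have hMp : M.IsPrime := hM.2.1.isPrime
  have := Cfsg.Agent.Blk.charP_kM hM
  have hp := (Fact.out : p.Prime)
  have hB := Cfsg.Agent.Blk.isPBlock_principalBlock (M := M) (G := G)
  constructor
  · intro h
    obtain ⟨P⟩ : Nonempty (Sylow p G) := inferInstance
    have h1 := (Cfsg.Agent.S0071.result P).1 ((Cfsg.Agent.Transfer.hasNPC_iff_sylow P).1 h)
    have h2 := Cfsg.Agent.Transfer.frobenius_hyp_of_sylow P h1
    refine ⟨hB, fun Q e hQe x hx _ hxp => h2 Q hQe.1.1 x hx ?_⟩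
    exact ((Nat.Prime.coprime_iff_not_dvd hp).2 hxp).symm
  · rintro ⟨-, h⟩
    refine Cfsg.Agent.Transfer.hasNPC_of_frobenius fun Q hQ g hg hgp => ?_
    have he := Cfsg.Agent.Blk.isPBlock_principalBlock (M := M)
      (G := Subgroup.centralizer (Q : Set G))
    have hblk := Cfsg.Agent.Blk.isBlk_EB (M := M) he
    have haug := Cfsg.Agent.Blk.aug_EB_principalBlock (M := M)
      (H := Subgroup.centralizer (Q : Set G))
    refine h Q (Cfsg.principalBlock M (Subgroup.centralizer (Q : Set G))) ?_ g hg ?_ ((Nat.Prime.coprime_iff_not_dvd hp).1 hgp.symm)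
    · rw [Cfsg.Agent.Blk.isBrauerPairOf_iff hM hB he]
      refine ⟨⟨hQ, hblk⟩, Cfsg.Agent.Blk.isBlk_eB hB, ?_⟩
      exact (Cfsg.Agent.Blk.third_main (Cfsg.Agent.Blk.isBlk_eB hB)
        Cfsg.Agent.Blk.aug_eB_principalBlock ⟨hQ, hblk⟩).2 haug
    · rw [Cfsg.Agent.Blk.stabilizesBlock_iff (M := M) he]
      have h3 := Cfsg.Agent.Blk.normalizer_le_normalizer_centralizer Q hg
      refine ⟨h3, Cfsg.Agent.Blk.prin_unique (hblk.cj_of_mem_normalizer h3) ?_ hblk haug⟩
      rw [Cfsg.Agent.Blk.aug_cj, haug]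

end Cfsg.Agent.S4691
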