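import Cfsg.Statements.S4646
import Cfsg.Agent.Star.RankOne
import Cfsg.Agent.Star.NilApp
import Cfsg.Agent.S4691
import Cfsg.Agent.H4.BlkKer

set_option autoImplicit false
open Cfsg

namespace Cfsg.Agent.S4646

/-- For a finite group G, a prime p and a maximal ideal M of the algebraic integers containing p: the principal block of G is nilpotent if and only if its p-regular rank is 1 (the trivial Brauer character is its only irreducible Brauer character). -/
theorem result {G : Type*} [Group G] [Finite G] (p : ℕ) [Fact p.Prime] (M : Ideal Cfsg.AlgInt) (hM : Cfsg.IsPModular p M) : Cfsg.IsNilpotentBlock p M (Cfsg.principalBlock M G) ↔ Cfsg.blockRank p (Cfsg.principalBlock M G) = 1 := by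
  classical
  have := Fintype.ofFinite G
  have hMp := Blk.isPrime_of_isPModular hM
  have := Blk.charP_kM hM
  have hp := (Fact.out : p.Prime)
  have hB := Blk.isPBlock_principalBlock (M := M) (G := G)
  constructor
  · intro h
    exact Star.blockRank_of_good (Star.good_of_mnilp hM _ rfl hB ((BlkF.isNilpotentBlock_iff hM).1 h).2)
  · intro h
    rw [← S4691.result p M hM]
    have h1 := Blk.oneIrr_mem_principalBlock (M := M) (G := G)
    have hreg : ∀ x : G, (orderOf x).Coprime p → x ∈ H4.blockKerSubgroup (principalBlock M G) := by
      intro x hx χ hχ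
      have h2 := Star.proportional_of_rank_one h hχ h1
        ((Nat.Prime.coprime_iff_not_dvd hp).1 hx.symm)
      have h3 : ∀ y : G, (CharBase.oneIrr G : G → ℂ) y = 1 := fun y => rfl
      rw [h3, h3, one_mul, mul_one] at h2
      exact h2
    have hK := H4.not_dvd_card_blockKer hM hB
    rw [Transfer.hasNPC_iff_mul]
    intro x y hx hy
    have h2 := Subgroup.mul_mem _ (hreg x hx) (hreg y hy)
    have h3 : (Nat.card (H4.blockKerSubgroup (principalBlock M G))).Coprime p :=
      ((Nat.Prime.coprime_iff_not_dvd hp).2 hK).symm
    exact Transfer.coprime_orderOf_of_coprime_card h3 h2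

end Cfsg.Agent.S4646
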