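import Cfsg.Statements.S4569
import Cfsg.Agent.H75.TriE
import Cfsg.Agent.S4646

set_option autoImplicit false
open Cfsg

namespace Cfsg.Agent.S4569

open Cfsg.Agent Cfsg.Agent.H75.Tri Cfsg.Agent.Blk in
theorem two_le_rank {G : Type*} [Group G] [Finite G] {M : Ideal AlgInt} (hM : IsPModular 2 M)
    {P : Sylow 2 G} {V W : Subgroup G} (h : Nine P V W) : 2 ≤ blockRank 2 (principalBlock M G) := by
  classical
  haveI : Fact (Nat.Prime 2) := ⟨Nat.prime_two⟩
  haveI := isPrime_of_isPModular hM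
  haveI := Fintype.ofFinite G
  have h0 := BlkC.blockRank_pos hM (BlkC.isPBlock_principalBlock (G := G) M)
  by_contra hlt
  have h1 : blockRank 2 (principalBlock M G) = 1 := by omega
  rw [← S4646.result 2 M hM, ← S4691.result 2 M hM, Transfer.hasNPC_iff_sylow P] at h1
  obtain ⟨N, hN, hc⟩ := h1
  obtain ⟨v, hv, hv1⟩ := h.exists_ne
  obtain ⟨v', hv', hv'1, hne⟩ : ∃ v' ∈ V, v' ≠ 1 ∧ v' ≠ v := by
    by_contra hcon
    push Not at hcon
    have h2 : (V : Set G) ⊆ {1, v} := by
      intro x hx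
      by_cases hx1 : x = 1
      · exact Or.inl hx1
      · exact Or.inr (hcon x hx hx1)
    have h3 := Set.ncard_le_ncard h2 (Set.toFinite _)
    have h4 : ({1, v} : Set G).ncard ≤ 2 := by
      have h6 := Set.ncard_insert_le (1 : G) {v}
      rw [Set.ncard_singleton] at h6
      exact h6
    have h5 : (V : Set G).ncard = 4 := h.cardV
    omega
  obtain ⟨n, hn, e, -⟩ := h.transV v hv hv1 v' hv' hv'1
  obtain ⟨⟨k, q⟩, hkq⟩ := hc.2 n
  have hkq' : (k : G) * (q : G) = n := hkq
  have hqv : (q : G) * v * (q : G)⁻¹ = v := by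
    rw [h.comm q q.2 v (h.leV hv)]; group
  have e1 : v' * v⁻¹ = k * (v * (k : G)⁻¹ * v⁻¹) := by
    rw [← e, ← hkq']
    calc (k : G) * q * v * ((k : G) * q)⁻¹ * v⁻¹ = k * ((q : G) * v * (q : G)⁻¹) * (k : G)⁻¹ * v⁻¹ := by group
      _ = k * v * (k : G)⁻¹ * v⁻¹ := by rw [hqv]
      _ = _ := by group
  have hmN : v' * v⁻¹ ∈ N := by
    rw [e1]
    exact mul_mem k.2 (hN.conj_mem _ (inv_mem k.2) v)
  have hmP : v' * v⁻¹ ∈ (P : Subgroup G) := mul_mem (h.leV hv') (inv_mem (h.leV hv))
  have h6 := Subgroup.disjoint_def.mp hc.disjoint hmN hmP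
  exact hne (mul_inv_eq_one.mp h6)

/-- Let G be a finite group whose Sylow 2-subgroup P is elementary abelian of order 16, suppose the centralizer of P has index 9 in its normalizer, and let M be a maximal ideal of the algebraic integers containing 2. Then the principal 2-block contains exactly 16 irreducible characters and has 2-regular rank 9. -/
theorem result {G : Type*} [Group G] [Finite G] (M : Ideal Cfsg.AlgInt) (hM : Cfsg.IsPModular 2 M) (P : Sylow 2 G) (hcard : Nat.card P = 16) (hel : ∀ x : P, x ^ 2 = 1) (he : (Subgroup.centralizer ((P : Subgroup G) : Set G)).relIndex (Subgroup.normalizer ((P : Subgroup G) : Set G)) = 9) : Nat.card (Cfsg.principalBlock M G) = 16 ∧ Cfsg.blockRank 2 (Cfsg.principalBlock M G) = 9 := by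
  obtain ⟨V, W, h⟩ := Cfsg.Agent.H75.Tri.exists_nine P hcard hel he
  have h1 := h.card_eq_rank hM
  have h2 := two_le_rank hM h
  have h3 := h.card_block hM (by omega)
  exact ⟨h3, by omega⟩

end Cfsg.Agent.S4569
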