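import Cfsg.Statements.S4574
import Cfsg.Agent.H75.Zeros
-- import your own Cfsg.Agent.* helpers here

set_option autoImplicit false
open Cfsg

namespace Cfsg.Agent.S4574

open scoped ComplexConjugate
open Cfsg.Agent Cfsg.Agent.CharBase

/-- Let χ be an irreducible character of the finite group G, of degree d, and let Z(χ) be the set of elements g with |χ g| = d (the centre of χ). Then χ vanishes on at least (d ^ 2 - 1) · |Z(χ)| elements of G, with equality when every value |χ g| is 0, 1 or d. -/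
theorem result {G : Type*} [Group G] [Fintype G] [DecidableEq G] (χ : G → ℂ) (hχ : Cfsg.IsIrrCharacter G χ) : (Cfsg.charDegree χ ^ 2 - 1) * (Finset.univ.filter (fun g : G => ‖χ g‖ = (Cfsg.charDegree χ : ℝ))).card ≤ (Finset.univ.filter (fun g : G => χ g = 0)).card ∧ ((∀ g : G, ‖χ g‖ = 0 ∨ ‖χ g‖ = 1 ∨ ‖χ g‖ = (Cfsg.charDegree χ : ℝ)) → (Cfsg.charDegree χ ^ 2 - 1) * (Finset.univ.filter (fun g : G => ‖χ g‖ = (Cfsg.charDegree χ : ℝ))).card = (Finset.univ.filter (fun g : G => χ g = 0)).card) := by
  have hχc := isCharacter_of_isIrr hχ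
  obtain ⟨d, hd⟩ := exists_nat_degree hχc
  have hdeg : charDegree χ = d := by
    unfold charDegree; rw [hd]; simp
  rw [hdeg]
  have hd0 : d ≠ 0 := by
    rintro rfl
    exact irr_one_ne_zero hχ (by rw [hd, Nat.cast_zero])
  set Z := Finset.univ.filter (fun g : G => ‖χ g‖ = (d : ℝ)) with hZ
  set V := Finset.univ.filter (fun g : G => χ g = 0) with hV
  set T := Finset.univ.filter (fun g : G => ¬ ‖χ g‖ = (d : ℝ) ∧ ¬ χ g = 0) with hT
  -- the partition
  have hsplit : ∀ f : G → ℝ, ∑ g : G, f g = ∑ g ∈ Z, f g + ∑ g ∈ V, f g + ∑ g ∈ T, f g := by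
    intro f
    rw [hZ, hV, hT]
    rw [Finset.sum_filter, Finset.sum_filter, Finset.sum_filter, ← Finset.sum_add_distrib,
      ← Finset.sum_add_distrib]
    refine Finset.sum_congr rfl fun g _ => ?_
    by_cases h1 : ‖χ g‖ = (d : ℝ)
    · have h2 : χ g ≠ 0 := by
        intro h
        rw [h, norm_zero] at h1
        exact hd0 (by exact_mod_cast h1.symm)
      simp [h1, h2]
    · by_cases h2 : χ g = 0
      · have h3 : ¬ (0 : ℝ) = (d : ℝ) := by
          intro h; exact hd0 (by exact_mod_cast h.symm)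
        simp [h2, h3]
      · simp [h1, h2]
  have hcard : (Fintype.card G : ℝ) = Z.card + V.card + T.card := by
    have := hsplit (fun _ => 1)
    simpa using this
  have hsum : ∑ g : G, Complex.normSq (χ g) = (Fintype.card G : ℝ) := by
    have h3 := classInner_irr_self ⟨χ, hχ⟩
    unfold classInner at h3
    have h4 : (Nat.card G : ℂ) ≠ 0 := by exact_mod_cast Nat.card_pos.ne'
    rw [inv_mul_eq_one₀ h4] at h3
    have : ((∑ g : G, Complex.normSq (χ g) : ℝ) : ℂ) = ((Fintype.card G : ℝ) : ℂ) := by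
      rw [Complex.ofReal_sum]
      simp only [Complex.normSq_eq_conj_mul_self]
      push_cast
      rw [← Nat.card_eq_fintype_card, h3]
      exact Finset.sum_congr rfl (fun g _ => mul_comm _ _)
    exact_mod_cast this
  have hZsum : ∑ g ∈ Z, Complex.normSq (χ g) = (Z.card : ℝ) * (d : ℝ) ^ 2 := by
    have : ∀ g ∈ Z, Complex.normSq (χ g) = (d : ℝ) ^ 2 := by
      intro g hg
      rw [Complex.normSq_eq_norm_sq, (Finset.mem_filter.mp hg).2]
    rw [Finset.sum_congr rfl this, Finset.sum_const, nsmul_eq_mul]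
  have hVsum : ∑ g ∈ V, Complex.normSq (χ g) = 0 := by
    refine Finset.sum_eq_zero fun g hg => ?_
    rw [(Finset.mem_filter.mp hg).2, map_zero]
  have htot := hsplit (fun g => Complex.normSq (χ g))
  rw [hsum, hZsum, hVsum, hcard] at htot
  have hd2 : ((d ^ 2 - 1 : ℕ) : ℝ) = (d : ℝ) ^ 2 - 1 := by
    have : 1 ≤ d ^ 2 := Nat.one_le_pow _ _ (Nat.pos_of_ne_zero hd0)
    push_cast [this]
    ring
  constructor
  · have hTsum : (T.card : ℝ) ≤ ∑ g ∈ T, Complex.normSq (χ g) := by
      refine H75.card_le_sum_normSq hχc T ?_ ?_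
      · intro k hk g hg
        rw [hT, Finset.mem_filter] at hg ⊢
        obtain ⟨-, h1, h2⟩ := hg
        obtain ⟨σ, hσ⟩ := Char.exists_aut_pow (Nat.card_pos (α := G)).ne' hk
        have e1 := Char.map_char_eq hχc g (orderOf_dvd_natCard g) σ hσ
        have e2 := Char.map_char_eq hχc g⁻¹ (orderOf_dvd_natCard g⁻¹) σ hσ
        refine ⟨Finset.mem_univ _, ?_, ?_⟩
        · intro h
          apply h1
          have h3 : χ (g ^ k) * χ (g ^ k)⁻¹ = (d : ℂ) ^ 2 := by
            rw [isCharacter_inv hχc, Complex.mul_conj, Complex.normSq_eq_norm_sq, h]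
            push_cast; ring
          rw [← inv_pow, ← e1, ← e2, ← map_mul] at h3
          have h4 : σ ((d : ℂ) ^ 2) = (d : ℂ) ^ 2 := by simp
          rw [← h4] at h3
          have h5 := σ.injective h3
          rw [isCharacter_inv hχc, Complex.mul_conj, Complex.normSq_eq_norm_sq] at h5
          have h6 : ‖χ g‖ ^ 2 = (d : ℝ) ^ 2 := by exact_mod_cast h5
          exact (pow_left_inj₀ (norm_nonneg _) (Nat.cast_nonneg d) two_ne_zero).mp h6
        · intro h
          rw [← e1] at h
          exact h2 ((map_eq_zero_iff σ σ.injective).mp h)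
      · intro g hg
        exact (Finset.mem_filter.mp hg).2.2
    have : ((d ^ 2 - 1 : ℕ) : ℝ) * (Z.card : ℝ) ≤ (V.card : ℝ) := by
      rw [hd2]
      nlinarith
    exact_mod_cast this
  · intro hval
    have hTsum : (T.card : ℝ) = ∑ g ∈ T, Complex.normSq (χ g) := by
      have : ∀ g ∈ T, Complex.normSq (χ g) = 1 := by
        intro g hg
        obtain ⟨-, h1, h2⟩ := Finset.mem_filter.mp hg
        rcases hval g with h | h | h
        · exact absurd (norm_eq_zero.mp h) h2
        · rw [Complex.normSq_eq_norm_sq, h, one_pow]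
        · exact absurd h h1
      rw [Finset.sum_congr rfl this, Finset.sum_const, nsmul_eq_mul, mul_one]
    have : ((d ^ 2 - 1 : ℕ) : ℝ) * (Z.card : ℝ) = (V.card : ℝ) := by
      rw [hd2]
      linarith
    exact_mod_cast this

end Cfsg.Agent.S4574
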