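import Cfsg.Statements.S4580
import Cfsg.Agent.H76.RealOdd
-- import your own Cfsg.Agent.* helpers here

set_option autoImplicit false
open Cfsg

namespace Cfsg.Agent.S4580

open scoped ComplexConjugate
open Cfsg.Agent Cfsg.Agent.CharBase Cfsg.Agent.Blk

/-- Let N be a normal subgroup of the finite group G, M a maximal ideal of the algebraic integers containing 2, and θ a real-valued irreducible character of N of odd degree that extends to G (some irreducible character of G restricts to θ). Then θ has an extension to G lying in the principal 2-block of G. -/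
theorem result {G : Type*} [Group G] [Finite G] (N : Subgroup G) [N.Normal] (M : Ideal Cfsg.AlgInt) (hM : Cfsg.IsPModular 2 M) (θ : Cfsg.IrrCharacter N) (hreal : ∀ n : N, ((θ : N → ℂ) n).im = 0) (hodd : Odd (Cfsg.charDegree (θ : N → ℂ))) (hext : ∃ η : Cfsg.IrrCharacter G, ∀ n : N, (η : G → ℂ) n = (θ : N → ℂ) n) :
    ∃ η : Cfsg.IrrCharacter G, (∀ n : N, (η : G → ℂ) n = (θ : N → ℂ) n) ∧ η ∈ Cfsg.principalBlock M G := by
  classical
  have hMp := isPrime_of_isPModular hM
  have := Fintype.ofFinite G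
  obtain ⟨η, hη⟩ := hext
  have hθc : ∀ n : N, conj ((θ : N → ℂ) n) = (θ : N → ℂ) n := fun n =>
    Complex.conj_eq_iff_im.mpr (hreal n)
  have hθη : (fun n : N => (η : G → ℂ) n) = (θ : N → ℂ) := funext hη
  have hθinv : ∀ g : G, Char.cj N g (θ : N → ℂ) = θ := by
    intro g
    rw [← hθη]
    exact Char.cj_restrict N g (irr_isClassFunction η)
  -- the linear character
  have hbij := Char.gallagher_bijOn N (fun _ => 1) (θ : N → ℂ) Char.isIrrCharacter_one
    (fun g => rfl) hθinv (by
      have : (fun _ => 1 : N → ℂ) * (θ : N → ℂ) = θ := by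
        funext n; simp
      rw [this]; exact θ.2) (η : G → ℂ) η.2 hη
  have hconj : IsIrrCharacter G (fun g => conj ((η : G → ℂ) g)) := isIrrCharacter_conj η.2
  obtain ⟨β, ⟨hβ, hβN⟩, hβη⟩ := hbij.2.2 (show (fun g => conj ((η : G → ℂ) g)) ∈ _ from ⟨hconj, by
    have e1 : (fun _ => 1 : N → ℂ) * (θ : N → ℂ) = θ := by
      funext n; simp
    rw [e1, Char.frobenius_reciprocity N _ _ (isClassFunction_of_isCharacter (isCharacter_of_isIrr hconj))]
    have e2 : (fun h : N => conj ((η : G → ℂ) h)) = (θ : N → ℂ) := by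
      funext n; rw [hη, hθc]
    rw [e2, Char.classInner_self_of_irr θ.2]
    exact one_ne_zero⟩)
  have hβη' : ∀ g : G, β g * (η : G → ℂ) g = conj ((η : G → ℂ) g) := fun g => congrFun hβη g
  have hβc := isCharacter_of_isIrr hβ
  have hη1 : (η : G → ℂ) 1 ≠ 0 := irr_one_ne_zero η.2
  have hβ1 : β 1 = 1 := by
    have h1 := hβη' 1
    rw [← irr_inv, inv_one] at h1
    exact mul_right_cancel₀ hη1 (by rw [h1, one_mul])
  have hβN1 : ∀ n : N, β n = 1 := by
    rw [Char.frobenius_reciprocity N _ _ (isClassFunction_of_isCharacter hβc)] at hβN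
    have h1 : (fun _ => 1 : N → ℂ) = fun h : N => β h := by
      refine Char.eq_of_classInner_ne_zero Char.isIrrCharacter_one ?_ hβN
      exact Char.linChar_isIrr (isCharacter_restrict hβc N) hβ1
    intro n
    exact (congrFun h1 n).symm
  -- split the order
  obtain ⟨a, m, hm, hcard⟩ := Nat.exists_eq_two_pow_mul_odd (n := Nat.card G) Nat.card_pos.ne'
  obtain ⟨e, he⟩ := hm
  set χ : G → ℂ := β ^ (e + 1) * (η : G → ℂ) with hχ
  obtain ⟨hl, hl1⟩ := H76.isCharacter_linear_pow hβc hβ1 (e + 1)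
  have hχirr : IsIrrCharacter G χ := H76.isIrr_linear_mul hl hl1 η.2
  have hχN : ∀ n : N, χ n = (θ : N → ℂ) n := by
    intro n
    rw [hχ, Pi.mul_apply, Pi.pow_apply, hβN1, one_pow, one_mul, hη]
  refine ⟨⟨χ, hχirr⟩, hχN, ?_⟩
  obtain ⟨d, hd⟩ := exists_nat_degree (irr_isCharacter θ)
  have hdodd : Odd d := by
    unfold charDegree at hodd
    rw [hd] at hodd
    simpa using hodd
  refine H76.mem_principalBlock_of_congr hM ⟨χ, hχirr⟩ d ?_ hdodd ?_
  · rw [← hd]
    exact hχN 1
  · intro g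
    change MemLocalIdeal M (χ g - χ g⁻¹)
    have hχc := isCharacter_of_isIrr hχirr
    have h1 : χ g = β g ^ m * χ g⁻¹ := by
      rw [isCharacter_inv hχc, hχ]
      simp only [Pi.mul_apply, Pi.pow_apply, map_mul, map_pow]
      have h2 := hβη' g
      have h3 := Char.linChar_mul_conj hβc hβ1 g
      rw [← h2, he]
      have h4 : β g ^ (2 * e + 1) * (conj (β g) ^ (e + 1) * (β g * (η : G → ℂ) g)) =
        (β g * conj (β g)) ^ (e + 1) * (β g ^ (e + 1) * (η : G → ℂ) g) := by ring
      rw [h4, h3, one_pow, one_mul]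
    rw [h1]
    have h5 : β g ^ m * χ g⁻¹ - χ g⁻¹ = (β g ^ m - 1) * χ g⁻¹ := by ring
    rw [h5]
    refine mli_mul_right ?_ (mlr_irr ⟨χ, hχirr⟩ g⁻¹)
    refine mli_sub_one_of_pow_eq_one hM (n := a) ?_
    rw [← pow_mul, mul_comm, ← hcard]
    exact Char.linChar_pow_card hβc hβ1 g

end Cfsg.Agent.S4580
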