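import Cfsg.Statements.S4581
import Cfsg.Agent.H25.ROddH

set_option autoImplicit false
open Cfsg

namespace Cfsg.Agent.S4581

/-- Let G be a finite solvable group, P a Sylow 2-subgroup and N its normalizer. Then G and N have the same number of real-valued irreducible characters of odd degree; and every odd-degree irreducible character of G is real-valued exactly when the derived subgroup of P equals the Frattini subgroup of P and P is its own normalizer in G. -/
theorem result {G : Type*} [Group G] [Finite G] [Group.IsSolvable G] (P : Sylow 2 G) :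
    Nat.card {χ : Cfsg.IrrCharacter G // (∀ g : G, ((χ : G → ℂ) g).im = 0) ∧ Odd (Cfsg.charDegree (χ : G → ℂ))} =
      Nat.card {ψ : Cfsg.IrrCharacter (Subgroup.normalizer ((P : Subgroup G) : Set G)) // (∀ g, ((ψ : Subgroup.normalizer ((P : Subgroup G) : Set G) → ℂ) g).im = 0) ∧ Odd (Cfsg.charDegree (ψ : Subgroup.normalizer ((P : Subgroup G) : Set G) → ℂ))} ∧
    ((∀ χ : Cfsg.IrrCharacter G, Odd (Cfsg.charDegree (χ : G → ℂ)) → ∀ g : G, ((χ : G → ℂ) g).im = 0) ↔
      (commutator (P : Subgroup G) = frattini (P : Subgroup G) ∧ Subgroup.normalizer ((P : Subgroup G) : Set G) = (P : Subgroup G))) := by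
  refine ⟨?_, ?_⟩
  · rw [H25.card_real_odd, H25.card_real_odd]
    exact H25.RO_card inferInstance P (Or.inl trivial)
  · rw [← H25.RO_real_iff inferInstance P]
    constructor
    · intro h χ hχ
      obtain ⟨n, hn, h1⟩ := hχ.2.1
      refine ⟨hχ.1, hχ.2.1, fun _ g => Complex.conj_eq_iff_im.mpr (h ⟨χ, hχ.1⟩ ?_ g)⟩
      rw [show charDegree ((⟨χ, hχ.1⟩ : IrrCharacter G) : G → ℂ) = n from H75.charDegree_eq h1]
      exact hn
    · intro h χ hχ g
      have h1 : (χ : G → ℂ) ∈ H25.RO False G :=
        ⟨χ.2, ⟨H75.deg χ, by rw [← H75.charDegree_eq_deg]; exact hχ, H75.deg_spec _⟩, fun h => h.elim⟩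
      exact Complex.conj_eq_iff_im.mp ((h h1).2.2 trivial g)

end Cfsg.Agent.S4581
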