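import Cfsg.Statements.S4582
import Cfsg.Agent.H76.TransferRes
-- import your own Cfsg.Agent.* helpers here

set_option autoImplicit false
open Cfsg

namespace Cfsg.Agent.S4582

open MonoidHom in
theorem core {G : Type*} [Group G] [Finite G] (N : Subgroup G) [N.Normal] (P : Subgroup G)
    (hsup : N ⊔ P = ⊤) (hPind : Odd P.index) (h2 : IsPGroup 2 P)
    (hP : ∀ x ∈ P, x ^ 2 ∈ (P ⊓ N) ⊔ ⁅P, P⁆)
    (hQ : ∀ x ∈ P ⊓ N, x ^ 2 ∈ ⁅P ⊓ N, P ⊓ N⁆)
    (hodd : Odd (Nat.card (Abelianization N))) :
    ∀ x ∈ P, x ^ 2 ∈ ⁅P, P⁆ := by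
  classical
  have key : ∀ c : P, Abelianization.of c = 1 ↔ (c : G) ∈ ⁅P, P⁆ := by
    intro c
    rw [← MonoidHom.mem_ker, Abelianization.ker_of, ← Subgroup.map_subtype_commutator]
    constructor
    · intro h; exact ⟨c, h, rfl⟩
    · rintro ⟨d, hd, hdc⟩
      have : d = c := Subtype.ext hdc
      exact this ▸ hd
  let φ : P →* Abelianization P := Abelianization.of
  let φ2 : P →* Abelianization P := (powMonoidHom 2).comp φ
  let f : P →* G ⧸ N := (QuotientGroup.mk' N).comp P.subtype
  have hf : Function.Surjective f := by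
    intro y
    obtain ⟨g, rfl⟩ := QuotientGroup.mk_surjective y
    have hg : g ∈ N ⊔ P := hsup ▸ Subgroup.mem_top g
    obtain ⟨n, hn, x, hx, rfl⟩ := Subgroup.mem_sup_of_normal_left.mp hg
    refine ⟨⟨x, hx⟩, ?_⟩
    simp only [f, MonoidHom.comp_apply, Subgroup.subtype_apply, QuotientGroup.mk'_apply]
    rw [QuotientGroup.eq]
    have : x⁻¹ * (n * x) = x⁻¹ * n * x⁻¹⁻¹ := by group
    rw [this]
    exact Subgroup.Normal.conj_mem inferInstance n hn x⁻¹
  have hker : f.ker ≤ φ2.ker := by
    intro x hx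
    have hxN : (x : G) ∈ N := by
      have : (QuotientGroup.mk' N) (x : G) = 1 := hx
      rwa [QuotientGroup.mk'_apply, QuotientGroup.eq_one_iff] at this
    have h1 : (x : G) ^ 2 ∈ ⁅P, P⁆ :=
      Subgroup.commutator_mono inf_le_left inf_le_left (hQ x ⟨x.2, hxN⟩)
    change φ x ^ 2 = 1
    rw [← map_pow]
    exact (key (x ^ 2)).mpr (by simpa using h1)
  let ν : G →* Abelianization P := (f.liftOfSurjective hf ⟨φ2, hker⟩).comp (QuotientGroup.mk' N)
  have hν : ∀ x : P, ν (x : G) = φ2 x := by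
    intro x
    exact MonoidHom.liftOfRightInverse_comp_apply f _ (Function.rightInverse_surjInv hf) ⟨φ2, hker⟩ x
  have hνφ : ν.comp P.subtype = φ2 := MonoidHom.ext hν
  let V : G →* Abelianization P := transfer φ
  have hV2 : ∀ g : G, V g ^ 2 = ν g ^ P.index := by
    intro g
    rw [← H76.transfer_restrict ν g, hνφ]
    exact (H76.transfer_comp φ (powMonoidHom 2) g).symm
  -- V kills N
  have hVN : ∀ n ∈ N, V n = 1 := by
    intro n hn
    let W : N →* Abelianization P := V.comp N.subtype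
    have h1 : (W ⟨n, hn⟩) ^ Nat.card (Abelianization N) = 1 := by
      have : W ⟨n, hn⟩ = Abelianization.lift W (Abelianization.of ⟨n, hn⟩) := by simp
      rw [this, ← map_pow, pow_card_eq_one', map_one]
    have h2' : IsPGroup 2 (Abelianization P) :=
      h2.of_surjective Abelianization.of (QuotientGroup.mk_surjective)
    obtain ⟨k, hk⟩ := h2' (W ⟨n, hn⟩)
    have hcop : Nat.Coprime (2 ^ k) (Nat.card (Abelianization N)) :=
      Nat.Coprime.pow_left _ (Nat.coprime_two_left.mpr hodd)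
    have : orderOf (W ⟨n, hn⟩) ∣ 1 := by
      rw [← hcop.gcd_eq_one]
      exact Nat.dvd_gcd (orderOf_dvd_of_pow_eq_one hk) (orderOf_dvd_of_pow_eq_one h1)
    exact orderOf_eq_one_iff.mp (Nat.dvd_one.mp this)
  have hVP : ∀ c ∈ ⁅P, P⁆, V c = 1 := by
    intro c hc
    have : ⁅P, P⁆ ≤ V.ker := by
      rw [Subgroup.commutator_le]
      intro a _ b _
      rw [MonoidHom.mem_ker, map_commutatorElement, commutatorElement_eq_one_iff_mul_comm, mul_comm]
    exact this hc
  intro x hx
  have hVx : V (x ^ 2) = 1 := by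
    have : (P ⊓ N) ⊔ ⁅P, P⁆ ≤ V.ker :=
      sup_le (fun n hn => hVN n hn.2) hVP
    exact this (hP x hx)
  have h3 : (φ ⟨x, hx⟩ ^ 2) ^ P.index = 1 := by
    have := hV2 x
    rw [← map_pow, hVx] at this
    have h4 := hν ⟨x, hx⟩
    rw [h4] at this
    exact this.symm
  -- 2-part
  have h2' : IsPGroup 2 (Abelianization P) :=
    h2.of_surjective Abelianization.of (QuotientGroup.mk_surjective)
  obtain ⟨k, hk⟩ := h2' (φ ⟨x, hx⟩ ^ 2)
  have hcop : Nat.Coprime (2 ^ k) P.index :=
    Nat.Coprime.pow_left _ (Nat.coprime_two_left.mpr hPind)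
  have h5 : orderOf (φ ⟨x, hx⟩ ^ 2) ∣ 1 := by
    rw [← hcop.gcd_eq_one]
    exact Nat.dvd_gcd (orderOf_dvd_of_pow_eq_one hk) (orderOf_dvd_of_pow_eq_one h3)
  have h6 := orderOf_eq_one_iff.mp (Nat.dvd_one.mp h5)
  rw [← map_pow] at h6
  have := (key _).mp h6
  simpa using this

/-- Let N be a normal subgroup of the finite group G, P a Sylow 2-subgroup of G and Q = P ∩ N. Suppose that P/QP' and Q/Q' are elementary abelian (every square of an element of P lies in the subgroup generated by Q and the derived subgroup of P, and every square of an element of Q lies in the derived subgroup of Q), and that the commutator factor group N/N' has odd order. Then P/P' is elementary abelian. -/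
theorem result {G : Type*} [Group G] [Finite G] (N : Subgroup G) [N.Normal] (P : Sylow 2 G)
    (hP : ∀ x ∈ (P : Subgroup G), x ^ 2 ∈ ((P : Subgroup G) ⊓ N) ⊔ ⁅(P : Subgroup G), (P : Subgroup G)⁆)
    (hQ : ∀ x ∈ (P : Subgroup G) ⊓ N, x ^ 2 ∈ ⁅(P : Subgroup G) ⊓ N, (P : Subgroup G) ⊓ N⁆)
    (hodd : Odd (Nat.card (Abelianization N))) :
    ∀ x ∈ (P : Subgroup G), x ^ 2 ∈ ⁅(P : Subgroup G), (P : Subgroup G)⁆ := by
  classical
  set H : Subgroup G := N ⊔ (P : Subgroup G) with hH
  have hPH : (P : Subgroup G) ≤ H := le_sup_right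
  have hNH : N ≤ H := le_sup_left
  let N' : Subgroup H := N.subgroupOf H
  let P' : Subgroup H := (P : Subgroup G).subgroupOf H
  haveI : N'.Normal := Subgroup.normal_subgroupOf
  have hmapN : N'.map H.subtype = N := Subgroup.map_subgroupOf_eq_of_le hNH
  have hmapP : P'.map H.subtype = (P : Subgroup G) := Subgroup.map_subgroupOf_eq_of_le hPH
  have hinj : Function.Injective H.subtype := Subgroup.subtype_injective H
  have hmapPN : (P' ⊓ N').map H.subtype = (P : Subgroup G) ⊓ N := by
    rw [Subgroup.map_inf _ _ _ hinj, hmapN, hmapP]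
  have hsup : N' ⊔ P' = ⊤ := by
    apply Subgroup.map_injective hinj
    rw [Subgroup.map_sup, hmapN, hmapP, ← hH, ← MonoidHom.range_eq_map, Subgroup.range_subtype]
  have hind : Odd P'.index := by
    have h1 : P'.index ∣ (P : Subgroup G).index := Subgroup.relIndex_dvd_index_of_le hPH
    have h2 : ¬ 2 ∣ (P : Subgroup G).index := P.not_dvd_index
    rw [← Nat.not_even_iff_odd, even_iff_two_dvd]
    exact fun h => h2 (h.trans h1)
  have h2 : IsPGroup 2 P' := P.2.of_injective (Subgroup.subgroupOfEquivOfLe hPH).toMonoidHom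
      (Subgroup.subgroupOfEquivOfLe hPH).injective
  have hcard : Odd (Nat.card (Abelianization N')) := by
    have e : Abelianization N' ≃* Abelianization N :=
      (Subgroup.subgroupOfEquivOfLe hNH).abelianizationCongr
    rw [Nat.card_congr e.toEquiv]
    exact hodd
  have := core N' P' hsup hind h2 ?_ ?_ hcard
  · intro x hx
    have h3 := this ⟨x, hPH hx⟩ hx
    have h4 : (x ^ 2 : G) ∈ (⁅P', P'⁆).map H.subtype := ⟨_, h3, by simp⟩
    rwa [Subgroup.map_commutator, hmapP] at h4
  · intro x hx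
    have h3 := hP x hx
    rw [← hmapPN, ← hmapP, ← Subgroup.map_commutator, ← Subgroup.map_sup] at h3
    obtain ⟨y, hy, hyx⟩ := h3
    have : y = x ^ 2 := hinj (by rw [hyx]; simp)
    exact this ▸ hy
  · intro x hx
    have h3 := hQ x hx
    rw [← hmapPN, ← Subgroup.map_commutator] at h3
    obtain ⟨y, hy, hyx⟩ := h3
    have : y = x ^ 2 := hinj (by rw [hyx]; simp)
    exact this ▸ hy

end Cfsg.Agent.S4582
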