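import Cfsg.Statements.S4583
import Cfsg.Agent.H76.Cover
-- import your own Cfsg.Agent.* helpers here

set_option autoImplicit false
open Cfsg

namespace Cfsg.Agent.S4583

open scoped ComplexConjugate
open Cfsg.Agent Cfsg.Agent.CharBase Cfsg.Agent.Blk

theorem core {G : Type*} [Group G] [Finite G] (N : Subgroup G) [N.Normal] (p : ℕ) [Fact p.Prime] (M : Ideal Cfsg.AlgInt) (hM : Cfsg.IsPModular p M) (P : Sylow p G)
    (θ : Cfsg.IrrCharacter N) (hθ : θ ∈ Cfsg.principalBlock M N) (hdeg : ¬ p ∣ Cfsg.charDegree (θ : N → ℂ))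
    (H : Subgroup G) (hH : H = N ⊔ (P : Subgroup G)) (hNH : N ≤ H)
    (η : Cfsg.IrrCharacter H) (hη : ∀ n : N, (η : H → ℂ) (Subgroup.inclusion hNH n) = (θ : N → ℂ) n) :
    ∃ χ : Cfsg.IrrCharacter G, χ ∈ Cfsg.principalBlock M G ∧ ¬ p ∣ Cfsg.charDegree (χ : G → ℂ) ∧
      haveI := Fintype.ofFinite N; Cfsg.classInner (fun n : N => (χ : G → ℂ) n) (θ : N → ℂ) ≠ 0 := by
  classical
  have hMp := isPrime_of_isPModular hM
  have hp : p.Prime := Fact.out
  have instG := Fintype.ofFinite G
  have hPH : (P : Subgroup G) ≤ H := by rw [hH]; exact le_sup_right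
  set C : Subgroup G := H ⊔ Subgroup.centralizer ((P : Subgroup G) : Set G) with hC
  have hHC : H ≤ C := le_sup_left
  have instN := Fintype.ofFinite N
  have instH := Fintype.ofFinite H
  have instC := Fintype.ofFinite C
  -- step 1
  have hidx : ∃ k, (N.subgroupOf H).index = p ^ k := by
    have h1 : (N.subgroupOf H).index = N.relIndex H := rfl
    have h2 : N.relIndex H = N.relIndex (P : Subgroup G) := by
      rw [hH, sup_comm]
      exact Subgroup.relIndex_sup_right _ _
    rw [h1, h2]
    exact (P.isPGroup').index _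
  have hηB : η ∈ principalBlock M H := by
    refine H76.mem_principalBlock_of_restrict hM (Subgroup.inclusion hNH)
      (Subgroup.inclusion_injective hNH) ?_ η θ hη hθ
    intro g hg
    obtain ⟨k, hk⟩ := hidx
    have h1 : g ^ p ^ k ∈ N.subgroupOf H := by
      rw [← hk]; exact Subgroup.pow_index_mem _ _
    have h2 : (p ^ k).Coprime (orderOf g) :=
      Nat.Coprime.pow_left k ((Nat.Prime.coprime_iff_not_dvd hp).mpr hg)
    obtain ⟨m, hm⟩ := exists_pow_eq_self_of_coprime h2
    have h3 : g ∈ N.subgroupOf H := by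
      rw [← hm]
      exact Subgroup.pow_mem _ h1 m
    exact ⟨⟨g, h3⟩, Subtype.ext rfl⟩
  have hηd : ¬ p ∣ charDegree (η : H → ℂ) := by
    have h1 : (η : H → ℂ) 1 = (θ : N → ℂ) 1 := by
      rw [← hη 1, map_one]
    unfold charDegree at hdeg ⊢
    rwa [h1]
  -- step 2
  have hnorm : Subgroup.centralizer ((P : Subgroup G) : Set G) ≤ Subgroup.normalizer (H : Set G) := by
    have key : ∀ c ∈ Subgroup.centralizer ((P : Subgroup G) : Set G), ∀ h ∈ H, c * h * c⁻¹ ∈ H := by
      intro c hc h hh
      rw [hH] at hh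
      obtain ⟨n, hn, q, hq, rfl⟩ := Subgroup.mem_sup_of_normal_left.mp hh
      have h1 : c * (n * q) * c⁻¹ = (c * n * c⁻¹) * q := by
        have h2 := Subgroup.mem_centralizer_iff.mp hc q hq
        calc c * (n * q) * c⁻¹ = (c * n * c⁻¹) * (c * q * c⁻¹) := by group
          _ = (c * n * c⁻¹) * q := by rw [← h2]; group
      rw [h1]
      exact H.mul_mem (hNH (Subgroup.Normal.conj_mem inferInstance n hn c)) (hPH hq)
    intro c hc
    rw [Subgroup.mem_normalizer_iff]
    intro h
    constructor
    · exact key c hc h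
    · intro h1
      have h2 := key c⁻¹ (Subgroup.inv_mem _ hc) _ h1
      have h3 : c⁻¹ * (c * h * c⁻¹) * c⁻¹⁻¹ = h := by group
      rwa [h3] at h2
  have hnormC : (H.subgroupOf C).Normal := by
    apply Subgroup.normal_subgroupOf_of_le_normalizer
    exact sup_le Subgroup.le_normalizer hnorm
  have hPC : (P : Subgroup G) ≤ C := hPH.trans hHC
  let P' : Sylow p C := P.subtype hPC
  have hP' : (P' : Subgroup C) = (P : Subgroup G).subgroupOf C := rfl
  have hpi : ¬ p ∣ (H.subgroupOf C).index := by
    intro h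
    have h1 : (P' : Subgroup C) ≤ H.subgroupOf C := by
      rw [hP']
      intro x hx
      exact hPH hx
    exact P'.not_dvd_index (h.trans (Subgroup.index_dvd_of_le h1))
  have hsup : H.subgroupOf C ⊔ Subgroup.centralizer ((P' : Subgroup C) : Set C) = ⊤ := by
    rw [eq_top_iff]
    rintro ⟨x, hx⟩ -
    have hx' : x ∈ Subgroup.map C.subtype (H.subgroupOf C ⊔
        Subgroup.centralizer ((P' : Subgroup C) : Set C)) := by
      have h1 : C ≤ Subgroup.map C.subtype (H.subgroupOf C ⊔
        Subgroup.centralizer ((P' : Subgroup C) : Set C)) := by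
        rw [Subgroup.map_sup]
        nth_rewrite 1 [hC]
        apply sup_le_sup
        · intro y hy
          exact ⟨⟨y, hHC hy⟩, hy, rfl⟩
        · intro y hy
          have hyC : y ∈ C := Subgroup.mem_sup_right hy
          refine ⟨⟨y, hyC⟩, Subgroup.mem_centralizer_iff.mpr ?_, rfl⟩
          intro z hz
          apply Subtype.ext
          exact Subgroup.mem_centralizer_iff.mp hy z hz
      exact h1 hx
    obtain ⟨y, hy, hyx⟩ := hx'
    have : y = ⟨x, hx⟩ := Subtype.ext hyx
    rwa [this] at hy
  have hsum1 : ¬ MemLocalIdeal M (∑ h : H, blockCoeff (principalBlock M C)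
      (Subgroup.inclusion hHC h)) := by
    have h1 := H76.sum_blockCoeff_of_alperinDade hM (H.subgroupOf C) hpi P' hsup
    have h2 : ∑ h : H, blockCoeff (principalBlock M C) (Subgroup.inclusion hHC h) =
        ∑ n : H.subgroupOf C, blockCoeff (principalBlock M C) (n : C) := by
      refine Fintype.sum_equiv (Subgroup.subgroupOfEquivOfLe hHC).symm.toEquiv _ _ fun h => ?_
      rfl
    rw [h2, h1]
    intro h3
    have h4 := mli_mul_left (mlr_natCast (M := M) (H.subgroupOf C).index) h3
    rw [mul_inv_cancel₀ (by exact_mod_cast Subgroup.index_ne_zero_of_finite)] at h4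
    exact not_mli_one h4
  obtain ⟨ψ, hψB, hψd, hψη⟩ := H76.exists_over_principal hM (Subgroup.inclusion hHC)
    (i := (H.subgroupOf C).index) (by
      rw [← Nat.card_congr (Subgroup.subgroupOfEquivOfLe hHC).toEquiv]
      exact (Subgroup.index_mul_card _).symm) hpi hsum1 η hηB hηd
  -- step 3
  have hpC : ¬ p ∣ C.index := fun h =>
    P.not_dvd_index (h.trans (Subgroup.index_dvd_of_le hPC))
  have hsum2 : ¬ MemLocalIdeal M (∑ h : C, blockCoeff (principalBlock M G) (C.subtype h)) := by
    have hB := isPBlock_principalBlock (M := M) (G := G)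
    have h1 := H76.rd_sum_eq_of_centralizer_le hM C (P : Subgroup G) P.isPGroup' hPC le_sup_right
      (blockCoeff_isClassFunction (principalBlock M G)) (fun g => mlr_blockCoeff hB g)
    rw [H76.sum_blockCoeff_principal, rd_one] at h1
    intro h2
    have h3 : MemLocalRing M (∑ h : C, blockCoeff (principalBlock M G) (C.subtype h)) :=
      mlr_sum _ _ fun x _ => mlr_blockCoeff hB _
    rw [← rd_eq_zero_iff h3] at h2
    have h4 : rd M (∑ h : C, blockCoeff (principalBlock M G) (C.subtype h)) = 1 := h1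
    rw [h4] at h2
    exact one_ne_zero h2
  obtain ⟨χ, hχB, hχd, hχψ⟩ := H76.exists_over_principal hM C.subtype (i := C.index)
    C.index_mul_card.symm hpC hsum2 ψ hψB hψd
  refine ⟨χ, hχB, hχd, ?_⟩
  have h1 : classInner (fun h : H => (χ : G → ℂ) h) (η : H → ℂ) ≠ 0 :=
    H76.classInner_restrict_ne_zero_of_stages hHC (irr_isCharacter χ) ψ.2 hχψ η.2 hψη
  have h2 : classInner (fun n : N => (χ : G → ℂ) n) (θ : N → ℂ) ≠ 0 := by
    refine H76.classInner_restrict_ne_zero_of_stages hNH (irr_isCharacter χ) η.2 h1 θ.2 ?_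
    have h3 : (fun k : N => (η : H → ℂ) ⟨k, hNH k.2⟩) = (θ : N → ℂ) := funext hη
    rw [h3, Char.classInner_self_of_irr θ.2]
    exact one_ne_zero
  convert h2


/-- Let N be a normal subgroup of the finite group G, p a prime, M a maximal ideal of the algebraic integers containing p, and P a Sylow p-subgroup of G. Let θ be an irreducible character of N of degree prime to p lying in the principal p-block of N, and suppose θ extends to the subgroup NP (some irreducible character of NP restricts to θ). Then some irreducible character χ of G of degree prime to p in the principal p-block of G lies over θ (θ is a constituent of the restriction of χ to N). -/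
theorem result {G : Type*} [Group G] [Finite G] (N : Subgroup G) [N.Normal] (p : ℕ) [Fact p.Prime] (M : Ideal Cfsg.AlgInt) (hM : Cfsg.IsPModular p M) (P : Sylow p G)
    (θ : Cfsg.IrrCharacter N) (hθ : θ ∈ Cfsg.principalBlock M N) (hdeg : ¬ p ∣ Cfsg.charDegree (θ : N → ℂ))
    (hext : ∃ η : Cfsg.IrrCharacter ↥(N ⊔ (P : Subgroup G)), ∀ n : N, (η : ↥(N ⊔ (P : Subgroup G)) → ℂ) (Subgroup.inclusion le_sup_left n) = (θ : N → ℂ) n) :
    ∃ χ : Cfsg.IrrCharacter G, χ ∈ Cfsg.principalBlock M G ∧ ¬ p ∣ Cfsg.charDegree (χ : G → ℂ) ∧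
      haveI := Fintype.ofFinite N; Cfsg.classInner (fun n : N => (χ : G → ℂ) n) (θ : N → ℂ) ≠ 0 := by
  obtain ⟨η, hη⟩ := hext
  exact core N p M hM P θ hθ hdeg _ rfl le_sup_left η hη

end Cfsg.Agent.S4583
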