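import Cfsg.Statements.S4585
import Cfsg.Agent.H76.PGroups
-- import your own Cfsg.Agent.* helpers here

set_option autoImplicit false
open Cfsg

namespace Cfsg.Agent.S4585

open scoped commutatorElement in
/-- a p-group whose commutator subgroup has index `1` or `p` has trivial commutator subgroup -/
theorem sq_dvd_index {P : Type*} [Group P] [Finite P] (p : ℕ) [Fact p.Prime] (hP : IsPGroup p P)
    (h : commutator P ≠ ⊥) : p ^ 2 ∣ (commutator P).index := by
  have hp : p.Prime := Fact.out
  have hnil : Group.IsNilpotent P := hP.isNilpotent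
  obtain ⟨k, hk⟩ := hP.index (commutator P)
  rw [hk]
  apply pow_dvd_pow
  by_contra hk2
  push Not at hk2
  -- gamma_3
  set γ : Subgroup P := ⁅commutator P, (⊤ : Subgroup P)⁆ with hγ
  have hγle : γ ≤ commutator P := Subgroup.commutator_le_left _ _
  -- P/γ has central subgroup of index 1 or p
  have hcyc : IsCyclic (P ⧸ commutator P) := by
    have hc : Nat.card (P ⧸ commutator P) = p ^ k := hk
    interval_cases k
    · rw [pow_zero] at hc
      have := (Nat.card_eq_one_iff_unique.mp hc).1
      exact isCyclic_of_subsingleton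
    · rw [pow_one] at hc
      exact isCyclic_of_prime_card hc
  have hnγ : γ.Normal := inferInstance
  have hle : commutator P ≤ γ := by
    let f : P ⧸ γ →* P ⧸ commutator P := QuotientGroup.map γ (commutator P) (MonoidHom.id P) (by simpa using hγle)
    have hf : f.ker ≤ Subgroup.center (P ⧸ γ) := by
      intro x hx
      obtain ⟨g, rfl⟩ := QuotientGroup.mk_surjective x
      have hg : g ∈ commutator P := by
        have : f (g : P ⧸ γ) = ((g : P) : P ⧸ commutator P) := by simp [f]
        rw [MonoidHom.mem_ker, this, QuotientGroup.eq_one_iff] at hx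
        exact hx
      rw [Subgroup.mem_center_iff]
      intro y
      obtain ⟨h, rfl⟩ := QuotientGroup.mk_surjective y
      rw [← QuotientGroup.mk_mul, ← QuotientGroup.mk_mul, QuotientGroup.eq]
      have : (h * g)⁻¹ * (g * h) = ⁅g⁻¹, h⁻¹⁆ := by rw [commutatorElement_def]; group
      rw [this]
      exact Subgroup.commutator_mem_commutator (inv_mem hg) (Subgroup.mem_top _)
    have hcomm := (f.isMulCommutative_of_isCyclic_of_ker_le_center hf).is_comm.comm
    have := H76.commutator_le_ker_of_closure (QuotientGroup.mk' γ) Set.univ (by simp)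
      (fun a _ b _ => hcomm _ _)
    rwa [QuotientGroup.ker_mk'] at this
  have heq : ⁅commutator P, (⊤ : Subgroup P)⁆ = commutator P := le_antisymm hγle hle
  -- all lower central series terms equal
  have hall : ∀ n : ℕ, (⊤ : Subgroup P).lowerCentralSeries (n + 1) = commutator P := by
    intro n
    induction n with
    | zero => rfl
    | succ n ih => rw [Subgroup.lowerCentralSeries_succ, ih, heq]
  have hb := Subgroup.lowerCentralSeries_nilpotencyClass (G := P)
  obtain ⟨c, hc⟩ : ∃ c, Group.nilpotencyClass P ≤ c + 1 := ⟨Group.nilpotencyClass P, Nat.le_succ _⟩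
  have hb2 : (⊤ : Subgroup P).lowerCentralSeries (c + 1) = ⊥ :=
    Subgroup.lowerCentralSeries_eq_bot_iff_nilpotencyClass_le.mpr hc
  exact h (by rw [← hall c, hb2])

/-- Let p be a prime and P a group of order p^4. Then P' has index p^2 in P if and only if P has maximal nilpotency class, that is, nilpotency class exactly 3. -/
theorem result {P : Type*} [Group P] [Finite P] (p : ℕ) [Fact p.Prime] (hP : Nat.card P = p ^ 4) :
    (commutator P).index = p ^ 2 ↔ Group.nilpotencyClass P = 3 := by
  have hp : p.Prime := Fact.out
  have hPG : IsPGroup p P := IsPGroup.of_card hP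
  have hnil : Group.IsNilpotent P := hPG.isNilpotent
  have hcard : Nat.card (commutator P) * (commutator P).index = p ^ 4 := by
    rw [Subgroup.card_mul_index, hP]
  have hp2 : 0 < p ^ 2 := pow_pos hp.pos 2
  -- strictly descending
  have hstrict : ∀ n : ℕ, (⊤ : Subgroup P).lowerCentralSeries (n + 1) ≠ ⊥ →
      Nat.card ((⊤ : Subgroup P).lowerCentralSeries (n + 1)) * p ∣
        Nat.card ((⊤ : Subgroup P).lowerCentralSeries n) := by
    intro n hn
    have hle : (⊤ : Subgroup P).lowerCentralSeries (n + 1) ≤ (⊤ : Subgroup P).lowerCentralSeries n :=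
      Subgroup.lowerCentralSeries_antitone _ (Nat.le_succ n)
    have hne : (⊤ : Subgroup P).lowerCentralSeries (n + 1) ≠ (⊤ : Subgroup P).lowerCentralSeries n := by
      intro heq
      have hall : ∀ m : ℕ, (⊤ : Subgroup P).lowerCentralSeries (n + 1 + m) =
          (⊤ : Subgroup P).lowerCentralSeries (n + 1) := by
        intro m
        induction m with
        | zero => rfl
        | succ m ih =>
          rw [← add_assoc, Subgroup.lowerCentralSeries_succ, ih, heq,
            ← Subgroup.lowerCentralSeries_succ, heq]
      apply hn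
      rw [← hall (Group.nilpotencyClass P)]
      exact Subgroup.lowerCentralSeries_eq_bot_iff_nilpotencyClass_le.mpr (Nat.le_add_left _ _)
    have h1 := Subgroup.relIndex_mul_relIndex ⊥ ((⊤ : Subgroup P).lowerCentralSeries (n + 1))
      ((⊤ : Subgroup P).lowerCentralSeries n) bot_le hle
    rw [Subgroup.relIndex_bot_left, Subgroup.relIndex_bot_left] at h1
    rw [← h1]
    apply mul_dvd_mul_left
    have h2 : IsPGroup p ((⊤ : Subgroup P).lowerCentralSeries n) := hPG.to_subgroup _
    obtain ⟨k, hk⟩ := h2.index
      (((⊤ : Subgroup P).lowerCentralSeries (n + 1)).subgroupOf ((⊤ : Subgroup P).lowerCentralSeries n))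
    change ((⊤ : Subgroup P).lowerCentralSeries (n + 1)).relIndex
      ((⊤ : Subgroup P).lowerCentralSeries n) = p ^ k at hk
    rw [hk]
    have : k ≠ 0 := by
      rintro rfl
      rw [pow_zero, Subgroup.relIndex_eq_one] at hk
      exact hne (le_antisymm hle hk)
    exact dvd_pow_self p this
  have hL1 : (⊤ : Subgroup P).lowerCentralSeries 1 = commutator P := rfl
  constructor
  · intro h
    have hc : Nat.card (commutator P) = p ^ 2 := by
      rw [h] at hcard
      exact Nat.eq_of_mul_eq_mul_right hp2 (by rw [hcard]; ring)
    -- L2 ≠ ⊥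
    have hL2 : (⊤ : Subgroup P).lowerCentralSeries 2 ≠ ⊥ := by
      intro h2
      have h3 : commutator P ≤ Subgroup.center P := by
        rw [Subgroup.lowerCentralSeries_succ, hL1, Subgroup.commutator_eq_bot_iff_le_centralizer,
          Subgroup.coe_top, Subgroup.centralizer_univ] at h2
        exact h2
      have h4 : (Subgroup.center P).index ∣ p ^ 2 := h ▸ Subgroup.index_dvd_of_le h3
      obtain ⟨k, hk, hk2⟩ := (Nat.dvd_prime_pow hp).mp h4
      interval_cases k
      · have h5 : Subgroup.center P = ⊤ := Subgroup.index_eq_one.mp (by simpa using hk2)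
        have h6 : commutator P = ⊥ := by
          rw [commutator_def, Subgroup.commutator_eq_bot_iff_le_centralizer, Subgroup.coe_top,
            Subgroup.centralizer_univ, h5]
        rw [h6, Subgroup.card_bot] at hc
        exact absurd hc (Nat.one_lt_pow two_ne_zero hp.one_lt).ne
      · exact absurd (by simpa using hk2) (H76.center_index_ne_prime (P := P) (p := p))
      · have := H76.card_commutator_of_index_center (P := P) (p := p) hk2
        rw [hc] at this
        exact absurd this (by
          intro h7
          have : p * p = p * 1 := by rw [← sq, h7, mul_one]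
          exact hp.one_lt.ne' (Nat.eq_of_mul_eq_mul_left hp.pos this))
    have hL3 : (⊤ : Subgroup P).lowerCentralSeries 3 = ⊥ := by
      by_contra h3
      have d1 := hstrict 1 hL2
      have d2 := hstrict 2 h3
      have d3 : p ∣ Nat.card ((⊤ : Subgroup P).lowerCentralSeries 3) := by
        have : IsPGroup p ((⊤ : Subgroup P).lowerCentralSeries 3) := hPG.to_subgroup _
        rcases this.card_eq_or_dvd with h4 | h4
        · exact absurd (Subgroup.card_eq_one.mp h4) h3
        · exact h4
      have d4 : p * p * p ∣ Nat.card ((⊤ : Subgroup P).lowerCentralSeries 1) :=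
        (mul_dvd_mul_right ((mul_dvd_mul_right d3 p).trans d2) p).trans d1
      rw [hL1, hc] at d4
      have := Nat.le_of_dvd hp2 d4
      nlinarith [hp.one_lt]
    apply le_antisymm
    · exact Subgroup.lowerCentralSeries_eq_bot_iff_nilpotencyClass_le.mp hL3
    · by_contra h4
      push Not at h4
      exact hL2 (Subgroup.lowerCentralSeries_eq_bot_iff_nilpotencyClass_le.mpr (by omega))
  · intro h
    have hL2 : (⊤ : Subgroup P).lowerCentralSeries 2 ≠ ⊥ := by
      intro h2
      have := Subgroup.lowerCentralSeries_eq_bot_iff_nilpotencyClass_le.mp h2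
      omega
    have d1 := hstrict 1 hL2
    have d3 : p ∣ Nat.card ((⊤ : Subgroup P).lowerCentralSeries 2) := by
      have : IsPGroup p ((⊤ : Subgroup P).lowerCentralSeries 2) := hPG.to_subgroup _
      rcases this.card_eq_or_dvd with h4 | h4
      · exact absurd (Subgroup.card_eq_one.mp h4) hL2
      · exact h4
    have d4 : p ^ 2 ∣ Nat.card (commutator P) := by
      rw [sq, ← hL1]
      exact (mul_dvd_mul_right d3 p).trans d1
    have hne : commutator P ≠ ⊥ := by
      intro h5
      rw [h5, Subgroup.card_bot] at d4
      exact absurd (Nat.dvd_one.mp d4) (Nat.one_lt_pow two_ne_zero hp.one_lt).ne'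
    have d5 := sq_dvd_index p hPG hne
    obtain ⟨a, ha⟩ := d4
    obtain ⟨b, hb⟩ := d5
    rw [ha, hb] at hcard
    have h6 : a * b = 1 := by
      have : p ^ 2 * p ^ 2 * (a * b) = p ^ 2 * p ^ 2 * 1 := by
        rw [mul_one, ← pow_add]
        calc p ^ (2 + 2) * (a * b) = p ^ 2 * a * (p ^ 2 * b) := by ring
          _ = p ^ (2 + 2) := hcard
      exact Nat.eq_of_mul_eq_mul_left (by positivity) this
    rw [hb, Nat.eq_one_of_mul_eq_one_left h6, mul_one]

end Cfsg.Agent.S4585
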