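import Cfsg.Statements.S4586
import Cfsg.Agent.H76.PGroups
-- import your own Cfsg.Agent.* helpers here

set_option autoImplicit false
open Cfsg

namespace Cfsg.Agent.S4586

open scoped commutatorElement in
theorem key {P : Type*} [Group P] [Finite P] (p : ℕ) [Fact p.Prime] (hP : IsPGroup p P) (N : Subgroup P) [N.Normal] (hN : N.index = p) (x : P) (hx : x ∉ N) :
    Nat.card {n : N // x * n * x⁻¹ * (n : P)⁻¹ ∈ (commutator N).map N.subtype} * (Nat.card (commutator P)) =
      Nat.card N * Nat.card (commutator N) ∧ commutator P ≤ N := by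
  classical
  have hp : p.Prime := Fact.out
  let Q := N ⧸ commutator N
  have hQc : ∀ a b : Q, a * b = b * a := by
    intro a b
    obtain ⟨a, rfl⟩ := QuotientGroup.mk_surjective a
    obtain ⟨b, rfl⟩ := QuotientGroup.mk_surjective b
    rw [← QuotientGroup.mk_mul, ← QuotientGroup.mk_mul, QuotientGroup.eq]
    have : (a * b)⁻¹ * (b * a) = ⁅b⁻¹, a⁻¹⁆ := by rw [commutatorElement_def]; group
    rw [this]
    exact Subgroup.commutator_mem_commutator (Subgroup.mem_top _) (Subgroup.mem_top _)
  let mkQ : N →* Q := QuotientGroup.mk' (commutator N)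
  let c : N →* N := (MulAut.conjNormal x).toMonoidHom
  have hc : ∀ n : N, ((c n : N) : P) = x * n * x⁻¹ := fun n => MulAut.conjNormal_apply x n
  let δ : N →* Q :=
    { toFun := fun n => mkQ (c n) * (mkQ n)⁻¹
      map_one' := by simp
      map_mul' := by
        intro a b
        rw [map_mul, map_mul, map_mul, mul_inv_rev]
        rw [mul_assoc, mul_assoc, ← mul_assoc (mkQ (c b)), hQc (mkQ (c b) * (mkQ b)⁻¹) ((mkQ a)⁻¹)] }
  have hδ : ∀ n : N, δ n = mkQ (c n * n⁻¹) := fun n => by
    change mkQ (c n) * (mkQ n)⁻¹ = _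
    rw [map_mul, map_inv]
  -- kernel
  have hker : Nat.card {n : N // x * n * x⁻¹ * (n : P)⁻¹ ∈ (commutator N).map N.subtype} = Nat.card δ.ker := by
    apply Nat.card_congr
    refine Equiv.subtypeEquivRight ?_
    intro n
    rw [MonoidHom.mem_ker, hδ, ← MonoidHom.mem_ker, QuotientGroup.ker_mk']
    have h1 : (x * n * x⁻¹ * (n : P)⁻¹ : P) = N.subtype (c n * n⁻¹) := by
      rw [map_mul, map_inv, Subgroup.subtype_apply, hc, Subgroup.subtype_apply]
    rw [h1, Subgroup.mem_map_iff_mem (Subgroup.subtype_injective N)]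
  have hPN : commutator P ≤ N := by
    have hc1 : Nat.card (P ⧸ N) = p := hN
    haveI : IsCyclic (P ⧸ N) := isCyclic_of_prime_card hc1
    have := H76.commutator_le_ker_of_closure (QuotientGroup.mk' N) Set.univ (by simp)
      (fun a _ b _ => (IsCyclic.commGroup (α := P ⧸ N)).mul_comm _ _)
    rwa [QuotientGroup.ker_mk'] at this
  refine ⟨?_, hPN⟩
  -- the range
  let R' : Subgroup N := δ.range.comap mkQ
  let R : Subgroup P := R'.map N.subtype
  have hN'R' : commutator N ≤ R' := by
    intro n hn
    change mkQ n ∈ δ.range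
    have : mkQ n = 1 := by rw [← MonoidHom.mem_ker, QuotientGroup.ker_mk']; exact hn
    rw [this]; exact one_mem _
  have hR'n : R'.Normal := by
    have : δ.range.Normal := ⟨fun a ha g => by rw [hQc g a, mul_inv_cancel_right]; exact ha⟩
    exact this.comap mkQ
  have hgen : Subgroup.closure ((N : Set P) ∪ {x}) = ⊤ := by
    rw [Subgroup.closure_union, Subgroup.closure_eq]
    refine H76.eq_top_of_index_prime le_sup_left ?_ (hN ▸ hp)
    intro h
    exact hx (h ▸ (le_sup_right : Subgroup.closure {x} ≤ _) (Subgroup.subset_closure rfl))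
  have hcR' : ∀ r ∈ R', c r ∈ R' := by
    rintro r ⟨n, hn⟩
    refine ⟨c n, ?_⟩
    rw [hδ]
    have h1 : mkQ r = mkQ (c n * n⁻¹) := by rw [← hδ, hn]
    have h2 : (c n * n⁻¹)⁻¹ * r ∈ commutator N := by
      rw [← QuotientGroup.eq]; exact h1.symm
    have h3 : c ((c n * n⁻¹)⁻¹ * r) ∈ commutator N := by
      have : (commutator N).map c ≤ commutator N := by
        rw [commutator_def, Subgroup.map_commutator]
        exact Subgroup.commutator_mono le_top le_top
      exact this ⟨_, h2, rfl⟩
    have h4 : mkQ (c (c n) * (c n)⁻¹) = mkQ (c r) := by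
      change (QuotientGroup.mk _ : Q) = QuotientGroup.mk _
      rw [QuotientGroup.eq]
      rw [map_mul, map_inv, map_mul, map_inv] at h3
      exact h3
    exact h4
  have hRn : R.Normal := by
    rw [← Subgroup.normalizer_eq_top_iff, eq_top_iff, ← hgen, Subgroup.closure_le]
    rintro g (hg | hg)
    · refine Subgroup.mem_normalizer_fintype (S := (R : Set P)) ?_
      rintro _ ⟨r, hr, rfl⟩
      exact ⟨⟨g, hg⟩ * r * ⟨g, hg⟩⁻¹, hR'n.conj_mem r hr _, by simp⟩
    · rw [Set.mem_singleton_iff] at hg
      subst hg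
      refine Subgroup.mem_normalizer_fintype (S := (R : Set P)) ?_
      rintro _ ⟨r, hr, rfl⟩
      exact ⟨c r, hcR' r hr, by rw [Subgroup.subtype_apply, hc]; rfl⟩
  have hRle : commutator P ≤ R := by
    have := H76.commutator_le_ker_of_closure (QuotientGroup.mk' R) _ hgen ?_
    · rwa [QuotientGroup.ker_mk'] at this
    have hNN : ∀ a ∈ N, ∀ b ∈ N, (QuotientGroup.mk' R) a * (QuotientGroup.mk' R) b = (QuotientGroup.mk' R) b * (QuotientGroup.mk' R) a := by
      intro a ha b hb
      rw [← commutatorElement_eq_one_iff_mul_comm, ← map_commutatorElement, ← MonoidHom.mem_ker,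
        QuotientGroup.ker_mk']
      exact ⟨⁅⟨a, ha⟩, ⟨b, hb⟩⁆, hN'R' (Subgroup.commutator_mem_commutator (Subgroup.mem_top _) (Subgroup.mem_top _)), by
        simp [commutatorElement_def]⟩
    have hxN : ∀ a ∈ N, (QuotientGroup.mk' R) x * (QuotientGroup.mk' R) a = (QuotientGroup.mk' R) a * (QuotientGroup.mk' R) x := by
      intro a ha
      rw [← commutatorElement_eq_one_iff_mul_comm, ← map_commutatorElement, ← MonoidHom.mem_ker,
        QuotientGroup.ker_mk']
      refine ⟨c ⟨a, ha⟩ * ⟨a, ha⟩⁻¹, ?_, ?_⟩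
      · exact ⟨⟨a, ha⟩, hδ _⟩
      · rw [map_mul, Subgroup.subtype_apply, hc, map_inv, Subgroup.subtype_apply, commutatorElement_def]
    rintro a (ha | ha) b (hb | hb)
    · exact hNN a ha b hb
    · rw [Set.mem_singleton_iff] at hb; rw [hb]; exact (hxN a ha).symm
    · rw [Set.mem_singleton_iff] at ha; rw [ha]; exact hxN b hb
    · rw [Set.mem_singleton_iff] at ha hb; rw [ha, hb]
  have hRge : R ≤ commutator P := by
    rintro _ ⟨r, ⟨n, hn⟩, rfl⟩
    have h1 : mkQ r = mkQ (c n * n⁻¹) := by rw [← hδ, hn]
    have h2 : (c n * n⁻¹)⁻¹ * r ∈ commutator N := by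
      rw [← QuotientGroup.eq]; exact h1.symm
    have h3 : N.subtype ((c n * n⁻¹)⁻¹ * r) ∈ commutator P := by
      have : (commutator N).map N.subtype ≤ commutator P := by
        rw [commutator_def, Subgroup.map_commutator, commutator_def]
        exact Subgroup.commutator_mono le_top le_top
      exact this ⟨_, h2, rfl⟩
    have h4 : N.subtype (c n * n⁻¹) ∈ commutator P := by
      rw [map_mul, Subgroup.subtype_apply, hc, map_inv, Subgroup.subtype_apply]
      have : x * (n : P) * x⁻¹ * (n : P)⁻¹ = ⁅x, (n : P)⁆ := by rw [commutatorElement_def]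
      rw [this]
      exact Subgroup.commutator_mem_commutator (Subgroup.mem_top _) (Subgroup.mem_top _)
    have h5 : N.subtype r = N.subtype (c n * n⁻¹) * N.subtype ((c n * n⁻¹)⁻¹ * r) := by
      rw [← map_mul]; congr 1; group
    rw [h5]
    exact mul_mem h4 h3
  have hRcard : Nat.card (commutator P) = Nat.card δ.range * Nat.card (commutator N) := by
    rw [le_antisymm hRle hRge]
    have h1 : Nat.card R = Nat.card R' :=
      (Nat.card_congr (R'.equivMapOfInjective _ (Subgroup.subtype_injective N)).toEquiv).symm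
    rw [h1]
    have h2 : Nat.card (mkQ.ker) * Nat.card (R'.map mkQ) = Nat.card R' := by
      have hk : mkQ.ker ≤ R' := by
        rw [QuotientGroup.ker_mk']; exact hN'R'
      have h3 := Subgroup.relIndex_mul_relIndex ⊥ mkQ.ker R' bot_le hk
      rw [Subgroup.relIndex_bot_left, Subgroup.relIndex_bot_left, Subgroup.relIndex_ker] at h3
      exact h3
    rw [QuotientGroup.ker_mk', Subgroup.map_comap_eq_self_of_surjective (QuotientGroup.mk'_surjective _)] at h2
    rw [← h2, mul_comm]
  rw [hker, hRcard]
  have h6 : Nat.card δ.ker * Nat.card δ.range = Nat.card N := by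
    rw [← Subgroup.index_ker, Subgroup.card_mul_index]
  rw [← h6, mul_assoc]

/-- Let p be a prime, P a finite p-group and N a normal subgroup of P of index p. For x ∈ P write c(x) for the number of elements n of N whose commutator x n x⁻¹ n⁻¹ lies in the derived subgroup N' (so c(x)/#N' is the order of the centralizer of x acting on N/N'). Then [P : P'] = p² if and only if c(x) = p·#N' for every x ∈ P outside N, and also if and only if c(x) = p·#N' for some x ∈ P outside N. -/
theorem result {P : Type*} [Group P] [Finite P] (p : ℕ) [Fact p.Prime] (hP : IsPGroup p P) (N : Subgroup P) [N.Normal] (hN : N.index = p) :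
    ((commutator P).index = p ^ 2 ↔ ∀ x : P, x ∉ N →
        Nat.card {n : N // x * n * x⁻¹ * (n : P)⁻¹ ∈ (commutator N).map N.subtype} = p * Nat.card (commutator N)) ∧
    ((commutator P).index = p ^ 2 ↔ ∃ x : P, x ∉ N ∧
        Nat.card {n : N // x * n * x⁻¹ * (n : P)⁻¹ ∈ (commutator N).map N.subtype} = p * Nat.card (commutator N)) := by
  have hp : p.Prime := Fact.out
  have hNcard : Nat.card N * p = Nat.card P := by rw [← hN, Subgroup.card_mul_index]
  have hcc : Nat.card (commutator P) * (commutator P).index = Nat.card P := Subgroup.card_mul_index _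
  have hpos : 0 < Nat.card (commutator P) := Nat.card_pos
  have hpos' : 0 < Nat.card (commutator N) := Nat.card_pos
  have main : ∀ x : P, x ∉ N → ((commutator P).index = p ^ 2 ↔
      Nat.card {n : N // x * n * x⁻¹ * (n : P)⁻¹ ∈ (commutator N).map N.subtype} = p * Nat.card (commutator N)) := by
    intro x hx
    obtain ⟨h1, -⟩ := key p hP N hN x hx
    constructor
    · intro h
      rw [h] at hcc
      apply Nat.eq_of_mul_eq_mul_right hpos
      rw [h1]
      have h2 : Nat.card N = Nat.card (commutator P) * p :=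
        Nat.eq_of_mul_eq_mul_right hp.pos (by rw [hNcard, ← hcc]; ring)
      rw [h2]; ring
    · intro h
      rw [h] at h1
      have h2 : p * Nat.card (commutator P) = Nat.card N :=
        Nat.eq_of_mul_eq_mul_right hpos' (by rw [← h1]; ring)
      apply Nat.eq_of_mul_eq_mul_left hpos
      rw [hcc, ← hNcard, ← h2]; ring
  obtain ⟨x, hx⟩ : ∃ x : P, x ∉ N := by
    by_contra hcon
    push Not at hcon
    have : N = ⊤ := by rw [eq_top_iff]; exact fun g _ => hcon g
    rw [this, Subgroup.index_top] at hN
    exact hp.one_lt.ne hN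
  refine ⟨⟨fun h x hx => (main x hx).mp h, fun h => (main x hx).mpr (h x hx)⟩,
    ⟨fun h => ⟨x, hx, (main x hx).mp h⟩, fun ⟨y, hy, h⟩ => (main y hy).mpr h⟩⟩

end Cfsg.Agent.S4586
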