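import Cfsg.Statements.S4588
import Cfsg.Agent.H79.HksStar

set_option autoImplicit false
open Cfsg

namespace Cfsg.Agent.S4588


open Cfsg.Agent.Blk Cfsg.Agent.BlkC Cfsg.Agent.BlkInd Cfsg.Agent.CharBase Cfsg.Agent.H79

theorem main {G : Type*} [Group G] [Fintype G] (p : ℕ) [hp : Fact p.Prime] (M : Ideal Cfsg.AlgInt)
    (hM : Cfsg.IsPModular p M) (x : G) (hx1 : x ≠ 1) (hx : ∃ k : ℕ, orderOf x = p ^ k)
    (hC : (Nat.card (Subgroup.centralizer ({x} : Set G))).factorization p ≤ 2) :
    Nat.card {χ : Cfsg.IrrCharacter G // χ ∈ Cfsg.principalBlock M G ∧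
      blockHeight p (principalBlock M G) (χ : G → ℂ) = 0} ≤ p ^ 2 := by
  classical
  have : M.IsPrime := hM.2.1.isPrime
  have := Fintype.ofFinite (Subgroup.centralizer ({x} : Set G))
  obtain ⟨x', hx'⟩ : ∃ x' : Subgroup.centralizer ({x} : Set G), (x' : G) = x :=
    ⟨⟨x, by rw [Subgroup.mem_centralizer_singleton_iff]⟩, rfl⟩
  have hxc : x' ∈ Subgroup.center (Subgroup.centralizer ({x} : Set G)) := by
    rw [Subgroup.mem_center_iff]
    intro c
    apply Subtype.ext
    have h1 := c.2
    rw [Subgroup.mem_centralizer_singleton_iff] at h1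
    rw [Subgroup.coe_mul, Subgroup.coe_mul, hx']
    exact h1
  have hZc : Subgroup.zpowers x' ≤ Subgroup.center (Subgroup.centralizer ({x} : Set G)) := by
    rw [Subgroup.zpowers_le]; exact hxc
  have hnorm : (Subgroup.zpowers x').Normal := by
    constructor
    intro n hn g
    have h1 := Subgroup.mem_center_iff.1 (hZc hn) g
    rw [h1]
    simpa using hn
  have := Fintype.ofFinite (Subgroup.centralizer ({x} : Set G) ⧸ Subgroup.zpowers x')
  obtain ⟨k, hk⟩ := hx
  have hox : orderOf x' = p ^ k := by
    rw [← hk, ← Subgroup.orderOf_coe]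
    exact congrArg orderOf hx'
  have hk1 : 1 ≤ k := by
    rcases Nat.eq_zero_or_pos k with h | h
    · rw [h, pow_zero, orderOf_eq_one_iff] at hk
      exact absurd hk hx1
    · exact h
  have hcard : Nat.card (Subgroup.centralizer ({x} : Set G)) =
      Nat.card (Subgroup.centralizer ({x} : Set G) ⧸ Subgroup.zpowers x') * p ^ k := by
    rw [Subgroup.card_eq_card_quotient_mul_card_subgroup (Subgroup.zpowers x'), Nat.card_zpowers,
      hox]
  have hfac : (Nat.card (Subgroup.centralizer ({x} : Set G))).factorization p =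
      (Nat.card (Subgroup.centralizer ({x} : Set G) ⧸ Subgroup.zpowers x')).factorization p + k := by
    rw [hcard, Nat.factorization_mul Nat.card_pos.ne' (pow_ne_zero _ hp.out.ne_zero),
      Finsupp.add_apply, hp.out.factorization_pow]
    simp
  have h3 : (Nat.card (Subgroup.centralizer ({x} : Set G) ⧸ Subgroup.zpowers x')).factorization p = 0
      ∨ ((Nat.card (Subgroup.centralizer ({x} : Set G) ⧸ Subgroup.zpowers x')).factorization p = 1 ∧
        k = 1) := by omega
  rcases h3 with h3 | ⟨h3, hk'⟩
  · have h4 := Hks.bound hM ⟨k, hk⟩ rfl hx' (Hks.star_zero hM h3)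
    refine h4.trans ?_
    rw [hk, Finset.card_singleton, add_zero, mul_one]
    exact Nat.pow_le_pow_right hp.out.pos (by omega)
  · obtain ⟨X, ε, m, hS, hXm⟩ := Hks.star_one hM h3
    have h4 := Hks.bound hM ⟨k, hk⟩ rfl hx' hS
    refine h4.trans ?_
    rw [hk, hk', pow_one, pow_two]
    exact Nat.mul_le_mul_left p hXm


/-- Let G be a finite group, p a prime and M a maximal ideal of the algebraic integers containing p. If some p-element x of G (possibly x = 1) has centralizer whose order has p-part at most p², then the principal p-block of G contains at most p² irreducible characters of degree prime to p. -/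
theorem result {G : Type*} [Group G] [Finite G] (p : ℕ) [Fact p.Prime] (M : Ideal Cfsg.AlgInt) (hM : Cfsg.IsPModular p M)
    (hx : ∃ x : G, (∃ k : ℕ, orderOf x = p ^ k) ∧ (Nat.card (Subgroup.centralizer ({x} : Set G))).factorization p ≤ 2) :
    Nat.card {χ : Cfsg.IrrCharacter G // χ ∈ Cfsg.principalBlock M G ∧ ¬ p ∣ Cfsg.charDegree (χ : G → ℂ)} ≤ p ^ 2 := by
  classical
  have := Fintype.ofFinite G
  have hMp : M.IsPrime := hM.2.1.isPrime
  have hle : Nat.card {χ : Cfsg.IrrCharacter G // χ ∈ Cfsg.principalBlock M G ∧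
      ¬ p ∣ Cfsg.charDegree (χ : G → ℂ)} ≤ Nat.card {χ : Cfsg.IrrCharacter G //
        χ ∈ Cfsg.principalBlock M G ∧ blockHeight p (principalBlock M G) (χ : G → ℂ) = 0} := by
    refine Nat.card_le_card_of_injective (fun χ => ⟨χ.1, χ.2.1, ?_⟩) ?_
    · rw [height_eq]
      have h1 : nu p χ.1 = 0 := by
        unfold nu
        rw [Nat.factorization_eq_zero_iff]
        exact Or.inr (Or.inl χ.2.2)
      rw [h1, Nat.zero_sub]
    · intro a b h
      exact Subtype.ext (by simpa using congrArg Subtype.val h)
  refine hle.trans ?_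
  obtain ⟨x, hxp, hxC⟩ := hx
  by_cases hx1 : x = 1
  · subst hx1
    by_cases hpG : p ∣ Nat.card G
    · obtain ⟨y, hy⟩ := exists_prime_orderOf_dvd_card' (G := G) p hpG
      refine main p M hM y ?_ ⟨1, by rw [hy, pow_one]⟩ ?_
      · rintro rfl
        rw [orderOf_one] at hy
        exact (Fact.out : p.Prime).one_lt.ne hy
      · have h1 : Subgroup.centralizer ({1} : Set G) = ⊤ := by
          rw [Subgroup.eq_top_iff']
          intro g
          rw [Subgroup.mem_centralizer_singleton_iff]; simp
        rw [h1, Subgroup.card_top] at hxC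
        refine le_trans ?_ hxC
        exact (Nat.factorization_le_iff_dvd Nat.card_pos.ne' Nat.card_pos.ne').mpr
          (Subgroup.card_subgroup_dvd_card _) p
    · have h1 : blockDefect p (principalBlock M G) = 0 := by
        rw [blockDefect_principalBlock, Nat.factorization_eq_zero_iff]
        exact Or.inr (Or.inl hpG)
      have h2 := card_eq_one_of_defect_eq_zero hM (isPBlock_principalBlock M) h1
      have h3 : Nat.card {χ : Cfsg.IrrCharacter G // χ ∈ Cfsg.principalBlock M G ∧
          blockHeight p (principalBlock M G) (χ : G → ℂ) = 0} ≤ Nat.card (principalBlock M G) := by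
        refine Nat.card_le_card_of_injective (fun χ => ⟨χ.1, χ.2.1⟩) ?_
        intro a b h
        exact Subtype.ext (by simpa using congrArg Subtype.val h)
      rw [h2] at h3
      exact h3.trans (Nat.one_le_pow _ _ (Fact.out : p.Prime).pos)
  · exact main p M hM x hx1 hxp hxC

end Cfsg.Agent.S4588
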