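import Cfsg.Statements.S4591
import Cfsg.Agent.H76.PInvariant
import Cfsg.Agent.H79.LinChar
import Cfsg.Agent.H78.Invariants
-- import your own Cfsg.Agent.* helpers here

set_option autoImplicit false
open Cfsg

namespace Cfsg.Agent.S4591

open scoped ComplexConjugate
open Cfsg.Agent Cfsg.Agent.CharBase Cfsg.Agent.Blk

universe u

/-- If `χ_N` contains the principal character then `N` is in the kernel. -/
theorem ker_of_classInner_one {G : Type u} [Group G] [Fintype G] (N : Subgroup G) [Fintype N]
    [hN : N.Normal] {χ : G → ℂ} (hχ : IsIrrCharacter G χ)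
    (h : classInner (fun n : N => χ n) (fun _ => 1) ≠ 0) (n : N) : χ n = χ 1 := by
  have h1 := Char.clifford N hχ Char.isIrrCharacter_one h
  have h2 : ∀ m : N, χ m = (classInner (fun n : N => χ n) (fun _ => 1) •
      ∑ ψ ∈ Char.orb N (fun _ => 1), ψ) m := fun m => congrFun h1 m
  have h3 := h2 n
  have h4 := h2 1
  rw [OneMemClass.coe_one] at h4
  rw [h3, h4]
  simp only [Pi.smul_apply, Finset.sum_apply]
  congr 1
  refine Finset.sum_congr rfl fun ψ hψ => ?_
  obtain ⟨g, rfl⟩ := (Char.mem_orb N).mp hψ
  rfl

theorem mem_commutator_iff {G : Type u} [Group G] (P : Subgroup G) (x : P) :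
    (x : G) ∈ ⁅P, P⁆ ↔ x ∈ commutator P := by
  rw [← Subgroup.map_subtype_commutator]
  constructor
  · rintro ⟨y, hy, hyx⟩
    have : y = x := Subtype.ext hyx
    exact this ▸ hy
  · intro h
    exact ⟨x, h, rfl⟩

/-- A normal subgroup without nontrivial `P`-invariant elements is in the kernel of the irreducible
characters of degree prime to `p`. -/
theorem ker_of_centralizer_eq_bot {G : Type u} [Group G] [Fintype G] (p : ℕ) [Fact p.Prime]
    (P : Sylow p G) (N : Subgroup G) [Fintype N] [hNn : N.Normal]
    (hN : N ⊓ Subgroup.centralizer ((P : Subgroup G) : Set G) = ⊥) (χ : IrrCharacter G)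
    (hχ : ¬ p ∣ charDegree (χ : G → ℂ)) (n : N) : (χ : G → ℂ) n = (χ : G → ℂ) 1 := by
  classical
  obtain ⟨M, hM⟩ := H76.exists_isPModular (Fact.out : p.Prime)
  have hMp := isPrime_of_isPModular hM
  have := charP_kM hM
  obtain ⟨d, hd⟩ := exists_nat_degree (irr_isCharacter χ)
  have hd' := H75.charDegree_eq hd
  rw [hd'] at hχ
  obtain ⟨θ, m, hθinv, hθd, hm, hpm⟩ := H76.exists_fixed_constituent N (P.isPGroup')
    (isCharacter_restrict (irr_isCharacter χ) N)
    (fun s _ => Char.cj_restrict N s (irr_isClassFunction χ)) hd hχ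
  -- `θ` is principal
  let c : (P : Subgroup G) →* Equiv.Perm N :=
    (MulAut.toPerm N).comp ((MulAut.conjNormal (H := N)).comp (P : Subgroup G).subtype)
  have hc : ∀ (s : (P : Subgroup G)) (x : N), ((c s x : N) : G) = s * x * (s : G)⁻¹ := fun s x => rfl
  have hfix : ∀ x : N, (∀ s, c s x = x) ↔ x = 1 := by
    intro x
    constructor
    · intro h
      have h1 : (x : G) ∈ N ⊓ Subgroup.centralizer ((P : Subgroup G) : Set G) := by
        refine ⟨x.2, Subgroup.mem_centralizer_iff.mpr ?_⟩
        intro s hs
        have h2 := congrArg Subtype.val (h ⟨s, hs⟩)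
        rw [hc] at h2
        exact mul_inv_eq_iff_eq_mul.mp h2
      rw [hN, Subgroup.mem_bot] at h1
      exact Subtype.ext h1
    · rintro rfl s
      exact map_one (MulAut.conjNormal (H := N) (s : G))
  have hsum := H76.sum_eq_sum_fixed (R := kM M) (P.isPGroup') c
    (fun x : N => rd M ((θ : N → ℂ) x)) (by
      intro s x
      have h1 := congrFun (hθinv s s.2) x
      rw [Char.cj_apply] at h1
      have h2 : c s x = ⟨(s : G) * x * (s : G)⁻¹, hNn.conj_mem (x : G) x.2 s⟩ := Subtype.ext (hc s x)
      simp only [h2, h1]) (fun x => x = 1) (fun x => (hfix x).symm)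
  rw [← rd_sum _ _ fun x _ => mlr_irr θ x] at hsum
  simp only [Finset.sum_ite_eq', Finset.mem_univ, if_true] at hsum
  obtain ⟨e, he⟩ := exists_nat_degree (irr_isCharacter θ)
  have he' := H75.charDegree_eq he
  rw [he'] at hθd
  have hne : classInner (θ : N → ℂ) (fun _ => 1) ≠ 0 := by
    intro h0
    have h1 : ∑ x : N, (θ : N → ℂ) x = 0 := by
      unfold classInner at h0
      rcases mul_eq_zero.mp h0 with h | h
      · exact absurd h (inv_ne_zero (by exact_mod_cast Nat.card_pos.ne'))
      · simpa using h
    rw [h1, rd_zero, he, rd_natCast] at hsum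
    exact hθd ((CharP.cast_eq_zero_iff (kM M) p e).mp hsum.symm)
  have hθ1 : (θ : N → ℂ) = fun _ => 1 := Char.eq_of_classInner_ne_zero θ.2 Char.isIrrCharacter_one hne
  refine ker_of_classInner_one N χ.2 ?_ n
  rw [← hθ1, hm]
  intro h
  apply hpm
  have : m = 0 := by exact_mod_cast h
  rw [this]; exact dvd_zero p

/-- Let G be a finite group, p a prime and P a Sylow p-subgroup, and let N be the largest normal subgroup of G in which P has trivial centralizer (N is normal with C_N(P) = 1 and contains every normal subgroup with that property). Then the intersection of the kernels of the irreducible characters of G of degree prime to p is the normal core in G of the subgroup N·P' (P' the derived subgroup of P). In particular, when G has no nontrivial normal subgroup of order prime to p, that intersection is the normal core of P'. -/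
theorem result {G : Type*} [Group G] [Finite G] (p : ℕ) [Fact p.Prime] (P : Sylow p G) (N : Subgroup G) [N.Normal]
    (hN : N ⊓ Subgroup.centralizer ((P : Subgroup G) : Set G) = ⊥)
    (hmax : ∀ L : Subgroup G, L.Normal → L ⊓ Subgroup.centralizer ((P : Subgroup G) : Set G) = ⊥ → L ≤ N) :
    {g : G | ∀ χ : Cfsg.IrrCharacter G, ¬ p ∣ Cfsg.charDegree (χ : G → ℂ) → (χ : G → ℂ) g = (χ : G → ℂ) 1} =
      ((N ⊔ ⁅(P : Subgroup G), (P : Subgroup G)⁆).normalCore : Set G) := by
  classical
  have := Fintype.ofFinite G
  have instN := Fintype.ofFinite N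
  have instP := Fintype.ofFinite (P : Subgroup G)
  have hp : p.Prime := Fact.out
  apply Set.Subset.antisymm
  · -- the kernel is in the core
    let K : Subgroup G := ⨅ (χ : IrrCharacter G) (_ : ¬ p ∣ charDegree (χ : G → ℂ)),
      H75.charKer (irr_isCharacter χ)
    have hK : ∀ g : G, g ∈ K ↔ ∀ χ : Cfsg.IrrCharacter G, ¬ p ∣ Cfsg.charDegree (χ : G → ℂ) →
        (χ : G → ℂ) g = (χ : G → ℂ) 1 := by
      intro g
      simp only [K, Subgroup.mem_iInf]
      exact Iff.rfl
    have instK : K.Normal := by
      constructor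
      intro g hg x
      rw [hK] at hg ⊢
      intro χ hχ
      rw [irr_isClassFunction χ g x]
      exact hg χ hχ
    have hKle : K ≤ (N ⊔ ⁅(P : Subgroup G), (P : Subgroup G)⁆).normalCore := by
      rw [Subgroup.normal_le_normalCore]
      -- the subgroup generated by the `p'`-elements
      let M : Subgroup G := Subgroup.normalClosure {x : G | x ∈ K ∧ ¬ p ∣ orderOf x}
      have instM : M.Normal := Subgroup.normalClosure_normal
      have instMf := Fintype.ofFinite M
      have hMK : M ≤ K := Subgroup.normalClosure_le_normal fun x hx => hx.1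
      have hMgen : ∀ x ∈ K, ¬ p ∣ orderOf x → x ∈ M := fun x hx h =>
        Subgroup.subset_normalClosure ⟨hx, h⟩
      set o := ordCompl[p] (Nat.card G) with ho
      have hpo : ¬ p ∣ o := Nat.not_dvd_ordCompl hp Nat.card_pos.ne'
      have hμ : ∀ (μ : M →* ℂ) (n : M), μ n ^ o = 1 := by
        intro μ n
        let L : Subgroup G := ((powMonoidHom o).comp μ).ker.map M.subtype
        have hL : M ≤ L := by
          change Subgroup.closure _ ≤ L
          rw [Subgroup.closure_le]
          intro x hx
          rw [Group.mem_conjugatesOfSet_iff] at hx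
          obtain ⟨a, ⟨haK, hap⟩, hax⟩ := hx
          obtain ⟨c, rfl⟩ := isConj_iff.mp hax
          have hord : orderOf (c * a * c⁻¹) = orderOf a := by
            have h3 : c * a * c⁻¹ = MulAut.conj c a := by simp
            rw [h3, MulEquiv.orderOf_eq]
          have hxK : c * a * c⁻¹ ∈ K := instK.conj_mem a haK c
          have hxM : c * a * c⁻¹ ∈ M := hMgen _ hxK (by rwa [hord])
          refine ⟨⟨c * a * c⁻¹, hxM⟩, ?_, rfl⟩
          have h4 : orderOf (c * a * c⁻¹) ∣ o := by
            have h5 : orderOf (c * a * c⁻¹) ∣ ordProj[p] (Nat.card G) * o := by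
              rw [ho, Nat.ordProj_mul_ordCompl_eq_self]
              exact orderOf_dvd_natCard _
            refine Nat.Coprime.dvd_of_dvd_mul_left ?_ h5
            rw [hord]
            exact Nat.Coprime.pow_right _ ((Nat.Prime.coprime_iff_not_dvd hp).mpr hap).symm
          change μ ⟨c * a * c⁻¹, hxM⟩ ^ o = 1
          rw [← map_pow]
          have h6 : (⟨c * a * c⁻¹, hxM⟩ : M) ^ o = 1 := by
            apply Subtype.ext
            change (c * a * c⁻¹) ^ o = 1
            exact orderOf_dvd_iff_pow_eq_one.mp h4
          rw [h6, map_one]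
        obtain ⟨y, hy, hyn⟩ := hL n.2
        have : y = n := Subtype.ext hyn
        rw [this] at hy
        exact hy
      -- `C_M(P) = 1`
      have hCM : M ⊓ Subgroup.centralizer ((P : Subgroup G) : Set G) = ⊥ := by
        rw [eq_bot_iff]
        rintro c ⟨hcM, hcP⟩
        rw [Subgroup.mem_bot]
        by_contra hc1
        obtain ⟨θ, hθinv, hθd, hθ1⟩ := H76.exists_fixed_nonprincipal M (P.isPGroup') ⟨c, hcM⟩
          (by
            intro s hs
            have h1 := Subgroup.mem_centralizer_iff.mp hcP s hs
            exact mul_inv_eq_of_eq_mul h1)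
          (Or.inl fun h => hc1 (congrArg Subtype.val h))
        obtain ⟨χ, hχ, hχθ⟩ := H76.exists_over_of_invariant M P θ hθinv hθd hpo hμ
        have h1 : (fun n : M => (χ : G → ℂ) n) = (χ : G → ℂ) 1 • (oneIrr M : M → ℂ) := by
          funext n
          rw [Pi.smul_apply, oneIrr_apply, smul_eq_mul, mul_one]
          exact (hK n).mp (hMK n.2) χ hχ
        rw [h1, classInner_smul_left, classInner_irr_of_ne hθ1.symm, mul_zero] at hχθ
        exact hχθ rfl
      have hMN : M ≤ N := hmax M instM hCM
      -- `K ∩ P ≤ P'`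
      have hKP : ∀ x : G, x ∈ K → x ∈ (P : Subgroup G) → x ∈ ⁅(P : Subgroup G), (P : Subgroup G)⁆ := by
        intro x hxK hxP
        by_contra hx
        have hx' : (⟨x, hxP⟩ : (P : Subgroup G)) ∉ commutator (P : Subgroup G) := fun h =>
          hx ((mem_commutator_iff (P : Subgroup G) ⟨x, hxP⟩).mpr h)
        obtain ⟨l, hl1, hlx⟩ := H79.exists_linear_ne_one hx'
        obtain ⟨χ, hχ, hχl⟩ := H76.exists_over_of_index (p := p) (P : Subgroup G) P.not_dvd_index
          (irr_isCharacter l) (d := 1) (by rw [hl1, Nat.cast_one]) (by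
            rw [Nat.dvd_one]; exact hp.one_lt.ne')
        let Z : Subgroup G := Subgroup.zpowers x
        have hZP : Z ≤ (P : Subgroup G) := by rwa [Subgroup.zpowers_le]
        have instZ := Fintype.ofFinite Z
        have hlZ : IsCharacter Z (fun z : Z => (l : ↥(P : Subgroup G) → ℂ) ⟨z, hZP z.2⟩) :=
          isCharacter_comp (irr_isCharacter l) (Subgroup.inclusion hZP)
        have hlZ1 : IsIrrCharacter Z (fun z : Z => (l : ↥(P : Subgroup G) → ℂ) ⟨z, hZP z.2⟩) :=
          Char.linChar_isIrr hlZ hl1
        have h1 := H76.classInner_restrict_ne_zero_of_stages hZP (irr_isCharacter χ) l.2 hχl hlZ1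
          (by rw [Char.classInner_self_of_irr hlZ1]; exact one_ne_zero)
        have h2 : (fun z : Z => (χ : G → ℂ) z) = (χ : G → ℂ) 1 • (oneIrr Z : Z → ℂ) := by
          funext z
          rw [Pi.smul_apply, oneIrr_apply, smul_eq_mul, mul_one]
          have hzK : (z : G) ∈ K := by
            have : Z ≤ K := by rwa [Subgroup.zpowers_le]
            exact this z.2
          exact (hK z).mp hzK χ hχ
        rw [h2, classInner_smul_left] at h1
        have h3 := Char.eq_of_classInner_ne_zero (oneIrr Z).2 hlZ1 (right_ne_zero_of_mul h1)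
        have h4 := congrFun h3 ⟨x, Subgroup.mem_zpowers x⟩
        rw [oneIrr_apply] at h4
        exact hlx h4.symm
      -- `K ≤ M P`
      intro x hxK
      have hq : IsPGroup p (K.map (QuotientGroup.mk' M)) := by
        rintro ⟨_, k, hk, rfl⟩
        refine ⟨(orderOf k).factorization p, ?_⟩
        apply Subtype.ext
        change (QuotientGroup.mk' M k) ^ _ = 1
        rw [← map_pow]
        have h1 : k ^ p ^ (orderOf k).factorization p ∈ M := by
          apply hMgen _ (K.pow_mem hk _)
          rw [orderOf_pow, Nat.gcd_eq_right (Nat.ordProj_dvd _ _)]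
          exact Nat.not_dvd_ordCompl hp (orderOf_pos k).ne'
        rwa [QuotientGroup.mk'_apply, QuotientGroup.eq_one_iff]
      have hnorm : (K.map (QuotientGroup.mk' M)).Normal :=
        instK.map _ (QuotientGroup.mk'_surjective M)
      have hle := hq.le_sylow_of_normal (P.mapSurjective (QuotientGroup.mk'_surjective M))
      have hx1 := hle (Subgroup.mem_map_of_mem (QuotientGroup.mk' M) hxK)
      obtain ⟨y, hyP, hyx⟩ := hx1
      have hyM : y⁻¹ * x ∈ M := by
        rw [← QuotientGroup.eq]
        exact hyx
      have hyK : y ∈ K := by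
        have : y = x * (y⁻¹ * x)⁻¹ := by group
        rw [this]
        exact K.mul_mem hxK (K.inv_mem (hMK hyM))
      have : x = y * (y⁻¹ * x) := by group
      rw [this]
      exact Subgroup.mul_mem _ (Subgroup.mem_sup_right (hKP y hyK hyP))
        (Subgroup.mem_sup_left (hMN hyM))
    intro g hg
    exact hKle ((hK g).mpr hg)
  · -- the core is in the kernel
    intro g hg χ hχ
    have hd0 := hχ
    obtain ⟨d, hd⟩ := exists_nat_degree (irr_isCharacter χ)
    have hd' := H75.charDegree_eq hd
    rw [hd'] at hχ
    -- a linear constituent on `P`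
    obtain ⟨l, m, hl, hm, hpm⟩ := H76.exists_constituent_not_dvd (p := p)
      (isCharacter_restrict (irr_isCharacter χ) (P : Subgroup G)) (n := d) hd hχ
    have hl1 : (l : ↥(P : Subgroup G) → ℂ) 1 = 1 := by
      rw [H75.charDegree_eq_deg] at hl
      have h1 := H75.deg_dvd l
      obtain ⟨k, hk⟩ := IsPGroup.iff_card.mp P.isPGroup'
      rw [hk, Nat.dvd_prime_pow hp] at h1
      obtain ⟨j, -, hj⟩ := h1
      rcases Nat.eq_zero_or_pos j with h2 | h2
      · rw [H75.deg_spec, hj, h2, pow_zero, Nat.cast_one]
      · exact absurd (by rw [hj]; exact dvd_pow_self p h2.ne') hl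
    set D : Subgroup G := ⁅(P : Subgroup G), (P : Subgroup G)⁆ with hD
    have instD := Fintype.ofFinite D
    have hDP : D ≤ (P : Subgroup G) := Subgroup.commutator_le_self _
    have h1 : classInner (fun x : D => (χ : G → ℂ) x) (fun _ => 1) ≠ 0 := by
      refine H76.classInner_restrict_ne_zero_of_stages hDP (irr_isCharacter χ) l.2 ?_
        Char.isIrrCharacter_one ?_
      · rw [hm]
        intro h
        apply hpm
        have : m = 0 := by exact_mod_cast h
        rw [this]; exact dvd_zero p
      · have h2 : (fun k : D => (l : ↥(P : Subgroup G) → ℂ) ⟨k, hDP k.2⟩) = fun _ => 1 := by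
          funext k
          exact H79.linear_of_mem_commutator (irr_isCharacter l) hl1
            ((mem_commutator_iff (P : Subgroup G) ⟨k, hDP k.2⟩).mp k.2)
        rw [h2, Char.classInner_self_of_irr Char.isIrrCharacter_one]
        exact one_ne_zero
    set R := (N ⊔ D).normalCore with hR
    have instR := Fintype.ofFinite R
    have hχN := ker_of_centralizer_eq_bot p P N hN χ hd0
    obtain ⟨k, ρ, hρ, hρχ⟩ := χ.2
    have hρχ' : ∀ g, (χ : G → ℂ) g = ρ.character g := fun g => (congrFun hρχ g).symm
    have h3 := H78.classInner_restrict_one ρ D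
    have h4 := H78.classInner_restrict_one ρ R
    simp only [← hρχ'] at h3 h4
    have h5 : H78.fixedBySub ρ D ≠ ⊥ := by
      intro h
      rw [h3, h] at h1
      simp at h1
    have h6 : H78.fixedBySub ρ N = ⊤ := by
      rw [eq_top_iff]
      intro v _
      rw [H78.mem_fixedBySub]
      intro n hn
      have h7 := hχN ⟨n, hn⟩
      rw [hρχ', hρχ', H75.rep_eq_char_one_iff] at h7
      change ρ n v = v
      rw [h7]; rfl
    have h7 : H78.fixedBySub ρ (N ⊔ D) ≠ ⊥ := by
      rw [← H78.fixedBySub_sup, h6, top_inf_eq]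
      exact h5
    have h8 : H78.fixedBySub ρ R ≠ ⊥ := by
      intro h
      apply h7
      rw [eq_bot_iff, ← h]
      exact H78.fixedBySub_antitone ρ (Subgroup.normalCore_le _)
    have h9 : classInner (fun x : R => (χ : G → ℂ) x) (fun _ => 1) ≠ 0 := by
      rw [h4]
      intro h
      apply h8
      have : Module.finrank ℂ (H78.fixedBySub ρ R) = 0 := by exact_mod_cast h
      exact Submodule.finrank_eq_zero.mp this
    exact ker_of_classInner_one R χ.2 h9 ⟨g, hg⟩

end Cfsg.Agent.S4591
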