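import Cfsg.Statements.S4602
import Cfsg.Agent.H76.PSolvable
-- import your own Cfsg.Agent.* helpers here

set_option autoImplicit false
open Cfsg

namespace Cfsg.Agent.S4602

theorem sylow_le_of_not_dvd_index {G : Type*} [Group G] [Finite G] {q : ℕ} [Fact q.Prime]
    (K : Subgroup G) [K.Normal] (hK : ¬ q ∣ K.index) (Q : Sylow q G) : (Q : Subgroup G) ≤ K := by
  have h1 : (Q : Subgroup G).map (QuotientGroup.mk' K) = ⊥ := by
    have h2 : IsPGroup q ((Q : Subgroup G).map (QuotientGroup.mk' K)) := Q.2.map _
    rcases h2.card_eq_or_dvd with h3 | h3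
    · exact Subgroup.card_eq_one.mp h3
    · exact absurd (h3.trans (Subgroup.card_subgroup_dvd_card _)) hK
  rw [Subgroup.map_eq_bot_iff, QuotientGroup.ker_mk'] at h1
  exact h1

/-- A subgroup whose index is prime to `p` contains a Sylow `p`-subgroup. -/
theorem exists_sylow_le_of_not_dvd_index {G : Type*} [Group G] [Finite G] {p : ℕ} [Fact p.Prime]
    (N : Subgroup G) (hN : ¬ p ∣ N.index) : ∃ P : Sylow p G, (P : Subgroup G) ≤ N := by
  obtain ⟨P⟩ : Nonempty (Sylow p N) := inferInstance
  have hp : IsPGroup p ((P : Subgroup N).map N.subtype) := P.2.map _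
  have hi : ¬ p ∣ ((P : Subgroup N).map N.subtype).index := by
    rw [Subgroup.index_map_subtype]
    intro h
    rcases (Nat.Prime.dvd_mul Fact.out).mp h with h | h
    · exact P.not_dvd_index h
    · exact hN h
  exact ⟨hp.toSylow hi, Subgroup.map_subtype_le _⟩

/-- Let G be a finite p-solvable group and q a prime different from p. Some Sylow p-subgroup of G normalizes some Sylow q-subgroup of G if and only if q does not divide the order of G/O_{p'}(G), the quotient by the largest normal subgroup of order prime to p. -/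
theorem result {G : Type*} [Group G] [Finite G] (p q : ℕ) [Fact p.Prime] [Fact q.Prime] (hpq : p ≠ q) (hsolv : Cfsg.IsPSolvable p G) :
    (∃ (P : Sylow p G) (Q : Sylow q G), (P : Subgroup G) ≤ Subgroup.normalizer ((Q : Subgroup G) : Set G)) ↔ ¬ q ∣ (Cfsg.pPrimeCore p G).index := by
  set K := Cfsg.pPrimeCore p G with hK
  have hKn : K.Normal := inferInstanceAs (Cfsg.pPrimeCore p G).Normal
  constructor
  · rintro ⟨P, Q, hPQ⟩
    let π := QuotientGroup.mk' K
    have hπ : Function.Surjective π := QuotientGroup.mk'_surjective K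
    have hcore : Cfsg.pPrimeCore p (G ⧸ K) = ⊥ := Solv.pPrimeCore_quotient_pPrimeCore p
    have hHH := H76.centralizer_pCore_le (H76.isPSolvable_quotient K hsolv) hcore
    set R := Cfsg.pCore p (G ⧸ K) with hR
    have hRn : R.Normal := inferInstanceAs (Cfsg.pCore p (G ⧸ K)).Normal
    set Q' := (Q : Subgroup G).map π with hQ'
    have hQ'q : IsPGroup q Q' := Q.2.map π
    have hRp : IsPGroup p R := Solv.pCore_isPGroup p
    have hRP : R ≤ (P : Subgroup G).map π := by
      have := Solv.pCore_le_sylow (p := p) (P.mapSurjective hπ)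
      rwa [Sylow.coe_mapSurjective] at this
    -- R normalizes Q'
    have hRQ : R ≤ Subgroup.normalizer (Q' : Set (G ⧸ K)) := by
      refine hRP.trans ?_
      refine (Subgroup.map_mono hPQ).trans ?_
      exact Subgroup.le_normalizer_map π
    have hdisj : R ⊓ Q' = ⊥ := (IsPGroup.disjoint_of_ne p q hpq R Q' hRp hQ'q).eq_bot
    have hcomm : ⁅Q', R⁆ = ⊥ := by
      rw [eq_bot_iff, ← hdisj]
      refine le_inf ?_ ?_
      · exact Subgroup.commutator_le_right Q' R
      · rw [← Subgroup.le_normalizer_iff_commutator_le_left]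
        exact hRQ
    have hQC : Q' ≤ R := by
      refine le_trans ?_ hHH
      rwa [Subgroup.commutator_eq_bot_iff_le_centralizer] at hcomm
    have hQbot : Q' = ⊥ := by
      rw [inf_eq_right.mpr hQC] at hdisj
      exact hdisj
    rw [hQ', Subgroup.map_eq_bot_iff, QuotientGroup.ker_mk'] at hQbot
    intro hdvd
    exact Q.not_dvd_index (hdvd.trans (Subgroup.index_dvd_of_le hQbot))
  · intro hq
    obtain ⟨Q⟩ : Nonempty (Sylow q G) := inferInstance
    have hQK := sylow_le_of_not_dvd_index K hq Q
    have hfr := Sylow.normalizer_sup_eq_top' Q hQK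
    set N := Subgroup.normalizer (Q : Set G) with hN
    have hNi : ¬ p ∣ N.index := by
      have h1 := Solv.mul_card_sup_of_normal N K
      rw [hfr, Subgroup.card_top, ← Subgroup.card_mul_index N] at h1
      have h2 : N.index ∣ Nat.card K := by
        refine ⟨Nat.card (N ⊓ K : Subgroup G), ?_⟩
        apply Nat.eq_of_mul_eq_mul_left (Nat.card_pos (α := N))
        rw [← h1]; ring
      intro h3
      have h4 : p ∣ Nat.card K := h3.trans h2
      have h5 := Nat.Coprime.coprime_dvd_left h4 (Solv.pPrimeCore_card_coprime (G := G) p)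
      rw [Nat.coprime_self] at h5
      exact (Fact.out : p.Prime).one_lt.ne' h5
    obtain ⟨P, hP⟩ := exists_sylow_le_of_not_dvd_index N hNi
    exact ⟨P, Q, hP⟩

end Cfsg.Agent.S4602
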