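import Cfsg.Statements.S4604
import Cfsg.Agent.H76.Congr
-- import your own Cfsg.Agent.* helpers here

set_option autoImplicit false
open Cfsg

namespace Cfsg.Agent.S4604

open Cfsg.Agent.Blk in
/-- Let G be a finite group, p a prime and p^a the p-part of the order of G. Let x, y ∈ G and let x′, y′ be their p-regular parts: x′ has order prime to p, commutes with x·x′⁻¹, and x·x′⁻¹ has p-power order (likewise for y). Then x′ and y′ are conjugate in G if and only if for every irreducible character χ of G the algebraic integer χ(x)^(p^a) − χ(y)^(p^a) is p times an algebraic integer. -/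
theorem result {G : Type*} [Group G] [Finite G] (p : ℕ) [Fact p.Prime] (x y x' y' : G)
    (hx : (∃ k : ℕ, orderOf (x * x'⁻¹) = p ^ k) ∧ Commute (x * x'⁻¹) x' ∧ ¬ p ∣ orderOf x')
    (hy : (∃ k : ℕ, orderOf (y * y'⁻¹) = p ^ k) ∧ Commute (y * y'⁻¹) y' ∧ ¬ p ∣ orderOf y') :
    IsConj x' y' ↔ ∀ χ : Cfsg.IrrCharacter G, ∃ γ : Cfsg.AlgInt,
      (χ : G → ℂ) x ^ (p ^ (Nat.card G).factorization p) - (χ : G → ℂ) y ^ (p ^ (Nat.card G).factorization p) = (p : ℂ) * (γ : ℂ) := by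
  have hp : p.Prime := Fact.out
  set a := (Nat.card G).factorization p with ha
  -- `z ^ p ^ a = z' ^ p ^ a`
  have hpow : ∀ z z' : G, (∃ k : ℕ, orderOf (z * z'⁻¹) = p ^ k) → Commute (z * z'⁻¹) z' →
      z ^ p ^ a = z' ^ p ^ a := by
    rintro z z' ⟨k, hk⟩ hc
    have h1 : p ^ k ∣ Nat.card G := hk ▸ orderOf_dvd_natCard _
    have h2 : k ≤ a := (hp.pow_dvd_iff_le_factorization Nat.card_pos.ne').mp h1
    have h3 : (z * z'⁻¹) ^ p ^ a = 1 := by
      rw [← orderOf_dvd_iff_pow_eq_one, hk]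
      exact pow_dvd_pow p h2
    calc z ^ p ^ a = (z * z'⁻¹ * z') ^ p ^ a := by rw [inv_mul_cancel_right]
      _ = z' ^ p ^ a := by rw [hc.mul_pow, h3, one_mul]
  have hx1 := hpow x x' hx.1 hx.2.1
  have hy1 := hpow y y' hy.1 hy.2.1
  constructor
  · intro hconj χ
    obtain ⟨c, hc⟩ := H76.exists_char_pow_sub hp (CharBase.irr_isCharacter χ) x a
    obtain ⟨d, hd⟩ := H76.exists_char_pow_sub hp (CharBase.irr_isCharacter χ) y a
    refine ⟨c - d, ?_⟩
    have h1 : (χ : G → ℂ) (x ^ p ^ a) = (χ : G → ℂ) (y ^ p ^ a) := by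
      rw [hx1, hy1]
      obtain ⟨g, hg⟩ := isConj_iff.mp hconj
      rw [← hg, conj_pow, CharBase.irr_isClassFunction χ]
    have h2 : ((c - d : AlgInt) : ℂ) = (c : ℂ) - (d : ℂ) := rfl
    rw [h2, mul_sub, ← hc, ← hd, h1]
    ring
  · intro h
    obtain ⟨M, hM⟩ := H76.exists_isPModular hp
    have hMp := isPrime_of_isPModular hM
    have hch := charP_kM hM
    have : Fact p.Prime := ⟨hp⟩
    refine H76.isConj_of_mli hM hx.2.2 hy.2.2 (fun χ => ?_)
    have hR : ∀ g : G, MemLocalRing M ((χ : G → ℂ) g) := fun g =>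
      mlr_of_isIntegral (CharBase.irr_isIntegral χ g)
    have h1 : MemLocalIdeal M ((χ : G → ℂ) x - (χ : G → ℂ) x') := by
      have := H76.mli_char_sub hM (CharBase.irr_isCharacter χ) hx.2.1 hx.1 hx.2.2
      rwa [inv_mul_cancel_right] at this
    have h2 : MemLocalIdeal M ((χ : G → ℂ) y - (χ : G → ℂ) y') := by
      have := H76.mli_char_sub hM (CharBase.irr_isCharacter χ) hy.2.1 hy.1 hy.2.2
      rwa [inv_mul_cancel_right] at this
    have h3 : MemLocalIdeal M ((χ : G → ℂ) x - (χ : G → ℂ) y) := by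
      obtain ⟨γ, hγ⟩ := h χ
      have h4 : MemLocalIdeal M ((χ : G → ℂ) x ^ p ^ a - (χ : G → ℂ) y ^ p ^ a) := by
        rw [hγ]
        exact mli_mul_right ((mli_natCast_iff hM p).mpr dvd_rfl) (mlr_coe γ)
      rw [← rd_eq_iff (mlr_pow (hR x) _) (mlr_pow (hR y) _), rd_pow (hR x), rd_pow (hR y)] at h4
      rw [← rd_eq_iff (hR x) (hR y)]
      have h5 : (rd M ((χ : G → ℂ) x) - rd M ((χ : G → ℂ) y)) ^ p ^ a = 0 := by
        rw [sub_pow_char_pow, h4, sub_self]
      exact sub_eq_zero.mp (eq_zero_of_pow_eq_zero h5)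
    exact mli_trans (mli_trans (mli_symm h1) h3) h2

end Cfsg.Agent.S4604
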