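import Cfsg.Statements.S4620
import Cfsg.Agent.Star.TI

set_option autoImplicit false
open scoped Pointwise
open Cfsg

namespace Cfsg.Agent.S4620

/-- Let H be a finite group with no nontrivial normal p-subgroup and no nontrivial normal subgroup of order prime to p, whose Sylow p-subgroup P is nontrivial and a trivial-intersection set (P meets its conjugates by elements outside N_H(P) trivially). Then H has a unique minimal normal subgroup N; N is non-abelian simple with trivial centralizer in H (so H embeds in Aut(N)), and a Sylow p-subgroup of N is again a nontrivial trivial-intersection set in N. -/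
theorem result {H : Type*} [Group H] [Finite H] (p : ℕ) [Fact p.Prime] (hOp : Cfsg.pCore p H = ⊥) (hOp' : Cfsg.pPrimeCore p H = ⊥) (P : Sylow p H) (hP1 : (P : Subgroup H) ≠ ⊥)
    (hTI : ∀ g : H, g ∉ Subgroup.normalizer ((P : Subgroup H) : Set H) → (P : Subgroup H) ⊓ (MulAut.conj g • (P : Subgroup H)) = ⊥) :
    ∃ N : Subgroup H, N.Normal ∧ N ≠ ⊥ ∧ (∀ K : Subgroup H, K.Normal → K ≠ ⊥ → N ≤ K) ∧
      IsSimpleGroup N ∧ ¬ IsMulCommutative N ∧ Subgroup.centralizer (N : Set H) = ⊥ ∧
      ∀ Q : Sylow p N, (Q : Subgroup N) ≠ ⊥ ∧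
        ∀ n : N, n ∉ Subgroup.normalizer ((Q : Subgroup N) : Set N) → (Q : Subgroup N) ⊓ (MulAut.conj n • (Q : Subgroup N)) = ⊥ := by
  have hp : p.Prime := Fact.out
  -- the TI property, elementwise, for all Sylow subgroups
  have hTI1 : ∀ (R : Sylow p H) (g x : H), x ∈ (R : Subgroup H) → g⁻¹ * x * g ∈ (R : Subgroup H) →
      x ≠ 1 → g ∈ Subgroup.normalizer ((R : Subgroup H) : Set H) := by
    intro R g x hx hx2 hx1
    obtain ⟨t, ht⟩ := MulAction.exists_smul_eq H P R
    have hmem : ∀ y : H, y ∈ (R : Subgroup H) ↔ t⁻¹ * y * t ∈ (P : Subgroup H) := by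
      intro y
      rw [← ht]
      exact Star.TI.mem_smul_conj
    have h1 : t⁻¹ * g * t ∈ Subgroup.normalizer ((P : Subgroup H) : Set H) := by
      by_contra hcon
      have h2 := hTI _ hcon
      have h3 : t⁻¹ * x * t ∈ (P : Subgroup H) ⊓ (MulAut.conj (t⁻¹ * g * t) • (P : Subgroup H)) := by
        refine ⟨(hmem x).1 hx, ?_⟩
        change t⁻¹ * x * t ∈ MulAut.conj (t⁻¹ * g * t) • (P : Subgroup H)
        rw [Star.TI.mem_smul_conj]
        have h4 := (hmem _).1 hx2
        have h5 : (t⁻¹ * g * t)⁻¹ * (t⁻¹ * x * t) * (t⁻¹ * g * t) = t⁻¹ * (g⁻¹ * x * g) * t := by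
          group
        rwa [h5]
      rw [h2, Subgroup.mem_bot] at h3
      apply hx1
      calc x = t * (t⁻¹ * x * t) * t⁻¹ := by group
        _ = 1 := by rw [h3]; group
    rw [Subgroup.mem_normalizer_iff] at h1 ⊢
    intro y
    rw [hmem y, hmem (g * y * g⁻¹)]
    have h6 := h1 (t⁻¹ * y * t)
    have h7 : t⁻¹ * g * t * (t⁻¹ * y * t) * (t⁻¹ * g * t)⁻¹ = t⁻¹ * (g * y * g⁻¹) * t := by group
    rwa [h7] at h6
  have hatop : ∀ Y : Subgroup H, Y ≤ ⊤ → (⊤ : Subgroup H) ≤ Subgroup.normalizer (Y : Set H) →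
      IsPGroup p Y → Y = ⊥ := by
    intro Y _ hY hYp
    rw [eq_bot_iff, ← hOp]
    exact Solv.le_pCore (Subgroup.normalizer_eq_top_iff.1 (top_le_iff.1 hY)) hYp
  have hbtop : ∀ Y : Subgroup H, Y ≤ ⊤ → (⊤ : Subgroup H) ≤ Subgroup.normalizer (Y : Set H) →
      ¬ p ∣ Nat.card Y → Y = ⊥ := by
    intro Y _ hY hYp
    rw [eq_bot_iff, ← hOp']
    exact Solv.le_pPrimeCore (Subgroup.normalizer_eq_top_iff.1 (top_le_iff.1 hY))
      ((Nat.Prime.coprime_iff_not_dvd hp).2 hYp).symm
  have hcent : ∀ X : Subgroup H, X.Normal → X ≠ ⊥ → Subgroup.centralizer (X : Set H) = ⊥ := by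
    intro X hX hX1
    have := Star.TI.centralizer_inf_eq_bot P.isPGroup' P.not_dvd_index (hTI1 P) (N := ⊤)
      inferInstance hatop hbtop le_top (by rw [Subgroup.normalizer_eq_top_iff.2 hX]) hX1
    rwa [inf_top_eq] at this
  have htop : (⊤ : Subgroup H) ≠ ⊥ := by
    intro h
    apply hP1
    rw [eq_bot_iff, ← h]; exact le_top
  obtain ⟨N, hN, -, hN1, hmin⟩ := Solv.exists_minimal_normal (⊤ : Subgroup H) inferInstance htop
  have hCN := hcent N hN hN1
  have haN : ∀ Y : Subgroup H, Y ≤ N → N ≤ Subgroup.normalizer (Y : Set H) →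
      IsPGroup p Y → Y = ⊥ := by
    intro Y hYN hY hYp
    have h1 : (Y.subgroupOf N).Normal := (Subgroup.normal_subgroupOf_iff_le_normalizer hYN).2 hY
    have h2 : Y.subgroupOf N ≤ pCore p N := Solv.le_pCore h1 hYp.comap_subtype
    have h3 := (Subgroup.map_mono (f := N.subtype) h2).trans (Solv.map_subtype_pCore_le p N)
    rwa [Subgroup.map_subgroupOf_eq_of_le hYN, hOp, ← eq_bot_iff] at h3
  have hbN : ∀ Y : Subgroup H, Y ≤ N → N ≤ Subgroup.normalizer (Y : Set H) →
      ¬ p ∣ Nat.card Y → Y = ⊥ := by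
    intro Y hYN hY hYp
    have h1 : (Y.subgroupOf N).Normal := (Subgroup.normal_subgroupOf_iff_le_normalizer hYN).2 hY
    have h2 : Y.subgroupOf N ≤ pPrimeCore p N := Solv.le_pPrimeCore h1 (by
      rw [Nat.card_congr (Subgroup.subgroupOfEquivOfLe hYN).toEquiv]
      exact ((Nat.Prime.coprime_iff_not_dvd hp).2 hYp).symm)
    have h3 := (Subgroup.map_mono (f := N.subtype) h2).trans (Solv.map_subtype_pPrimeCore_le p N)
    rwa [Subgroup.map_subgroupOf_eq_of_le hYN, hOp', ← eq_bot_iff] at h3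
  have hcentN : ∀ X : Subgroup H, X ≤ N → N ≤ Subgroup.normalizer (X : Set H) → X ≠ ⊥ →
      Subgroup.centralizer (X : Set H) ⊓ N = ⊥ := fun X hXN hX hX1 =>
    Star.TI.centralizer_inf_eq_bot P.isPGroup' P.not_dvd_index (hTI1 P) hN haN hbN hXN hX hX1
  refine ⟨N, hN, hN1, ?_, ?_, ?_, hCN, ?_⟩
  · intro K hK hK1
    have hn : (N ⊓ K).Normal := inferInstance
    rcases hmin (N ⊓ K) hn inf_le_left with h | h
    · exfalso
      apply hK1
      rw [eq_bot_iff, ← hCN]
      intro k hk
      rw [Subgroup.mem_centralizer_iff]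
      intro n hn
      exact Subgroup.commute_of_normal_of_disjoint N K hN hK (disjoint_iff.2 h) n k hn hk
    · exact inf_eq_left.1 h
  · have hnt : Nontrivial N := (Subgroup.nontrivial_iff_ne_bot N).2 hN1
    refine ⟨fun A hA => ?_⟩
    by_cases hA1 : A = ⊥
    · exact Or.inl hA1
    right
    obtain ⟨A₀, hA₀, hA₀A, hA₀1, hA₀m⟩ := Solv.exists_minimal_normal A hA hA1
    set X : Subgroup H := A₀.map N.subtype with hX
    have hXN : X ≤ N := Subgroup.map_subtype_le A₀
    have hsub : X.subgroupOf N = A₀ := Subgroup.comap_map_eq_self_of_injective N.subtype_injective A₀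
    have hX1 : X ≠ ⊥ := by
      intro h
      apply hA₀1
      rw [← hsub, h]
      exact (Subgroup.subgroupOf_eq_bot).2 disjoint_bot_left
    have hNX : N ≤ Subgroup.normalizer (X : Set H) := by
      rw [← Subgroup.normal_subgroupOf_iff_le_normalizer hXN, hsub]
      exact hA₀
    have hconjel : ∀ m ∈ N, ∀ x ∈ X, m * x * m⁻¹ ∈ X := fun m hm x hx =>
      (Subgroup.mem_normalizer_iff.1 (hNX hm) x).1 hx
    have hkey : ∀ h : H, X ≤ X.map (MulAut.conj h).toMonoidHom := by
      intro h
      set Y := X.map (MulAut.conj h).toMonoidHom with hY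
      have hmemY : ∀ y, y ∈ Y ↔ h⁻¹ * y * h ∈ X := fun y => H32.mem_map_conj
      have hYN : Y ≤ N := by
        intro y hy
        have h1 := hN.conj_mem _ (hXN ((hmemY y).1 hy)) h
        have h2 : h * (h⁻¹ * y * h) * h⁻¹ = y := by group
        rwa [h2] at h1
      have hconjY : ∀ m ∈ N, ∀ y ∈ Y, m * y * m⁻¹ ∈ Y := by
        intro m hm y hy
        rw [hmemY] at hy ⊢
        have h1 := hconjel (h⁻¹ * m * h) (by
          have := hN.conj_mem m hm h⁻¹
          rwa [inv_inv] at this) _ hy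
        have h2 : h⁻¹ * m * h * (h⁻¹ * y * h) * (h⁻¹ * m * h)⁻¹ = h⁻¹ * (m * y * m⁻¹) * h := by
          group
        rwa [h2] at h1
      have hZn : ((X ⊓ Y).subgroupOf N).Normal := by
        refine ⟨fun z hz m => ?_⟩
        rw [Subgroup.mem_subgroupOf] at hz ⊢
        exact ⟨hconjel m m.2 z hz.1, hconjY m m.2 z hz.2⟩
      have hZle : (X ⊓ Y).subgroupOf N ≤ A₀ := by
        rw [← hsub]
        exact Subgroup.comap_mono inf_le_left
      rcases hA₀m _ hZn hZle with h3 | h3
      · exfalso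
        have h4 : X ⊓ Y = ⊥ := by
          rw [Subgroup.subgroupOf_eq_bot, disjoint_iff] at h3
          rwa [inf_eq_left.2 (inf_le_left.trans hXN)] at h3
        have h5 : Y ≤ Subgroup.centralizer (X : Set H) ⊓ N := by
          intro y hy
          refine ⟨?_, hYN hy⟩
          change y ∈ Subgroup.centralizer (X : Set H)
          rw [Subgroup.mem_centralizer_iff]
          intro x hx
          have h6 : x * y * x⁻¹ * y⁻¹ ∈ X ⊓ Y := by
            constructor
            · have h7 : x * y * x⁻¹ * y⁻¹ = x * (y * x⁻¹ * y⁻¹) := by group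
              rw [h7]
              exact X.mul_mem hx (hconjel y (hYN hy) _ (X.inv_mem hx))
            · exact Y.mul_mem (hconjY x (hXN hx) y hy) (Y.inv_mem hy)
          rw [h4, Subgroup.mem_bot, mul_inv_eq_one, mul_inv_eq_iff_eq_mul] at h6
          exact h6
        rw [hcentN X hXN hNX hX1, le_bot_iff, hY, Subgroup.map_eq_bot_iff] at h5
        apply hX1
        rw [eq_bot_iff]
        refine h5.trans ?_
        rw [MonoidHom.ker_eq_bot_iff _ |>.2 (MulAut.conj h).injective]
      · have h4 : (X ⊓ Y).subgroupOf N = X.subgroupOf N := by rw [h3, hsub]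
        have h5 := congrArg (Subgroup.map N.subtype) h4
        rw [Subgroup.map_subgroupOf_eq_of_le (inf_le_left.trans hXN),
          Subgroup.map_subgroupOf_eq_of_le hXN] at h5
        exact inf_eq_left.1 h5
    have hXnorm : X.Normal := by
      refine ⟨fun x hx h => ?_⟩
      have h1 := H32.mem_map_conj.1 (hkey h⁻¹ hx)
      rwa [inv_inv] at h1
    rcases hmin X hXnorm hXN with h | h
    · exact absurd h hX1
    · rw [eq_top_iff]
      refine le_trans ?_ hA₀A
      rw [← hsub, h, Subgroup.subgroupOf_self]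
  · intro hab
    apply hN1
    rw [eq_bot_iff, ← hCN]
    intro k hk
    rw [Subgroup.mem_centralizer_iff]
    intro n hn
    exact congrArg Subtype.val (hab.is_comm.comm (⟨n, hn⟩ : N) ⟨k, hk⟩)
  · intro Q
    have hQ1 : (Q : Subgroup N) ≠ ⊥ := by
      intro h
      have h1 := Q.not_dvd_index
      rw [h, Subgroup.index_bot] at h1
      exact hN1 (hbN N le_rfl (Subgroup.le_normalizer) h1)
    refine ⟨hQ1, ?_⟩
    intro n hn
    by_contra hcon
    apply hn
    have hQp : IsPGroup p ((Q : Subgroup N).map N.subtype) := Q.isPGroup'.map _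
    obtain ⟨R, hR⟩ := hQp.exists_le_sylow
    have hel : ∀ y : N, y ∈ (Q : Subgroup N) ↔ (y : H) ∈ (R : Subgroup H) := by
      have h1 : (Q : Subgroup N) ≤ (R : Subgroup H).subgroupOf N := by
        intro y hy
        rw [Subgroup.mem_subgroupOf]
        exact hR ⟨y, hy, rfl⟩
      have h2 : (R : Subgroup H).subgroupOf N = (Q : Subgroup N) :=
        Q.is_maximal' R.isPGroup'.comap_subtype h1
      intro y
      rw [← Subgroup.mem_subgroupOf, h2]
    obtain ⟨x, hx, hx1⟩ : ∃ x : N, x ∈ (Q : Subgroup N) ⊓ (MulAut.conj n • (Q : Subgroup N)) ∧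
        x ≠ 1 := by
      by_contra h
      push Not at h
      apply hcon
      rw [eq_bot_iff]
      intro x hx
      exact h x hx
    have hx2 : x ∈ MulAut.conj n • (Q : Subgroup N) := hx.2
    rw [Star.TI.mem_smul_conj] at hx2
    have h1 := hTI1 R (n : H) (x : H) ((hel x).1 hx.1) (by
      have := (hel _).1 hx2
      simpa using this) (by
      intro h
      exact hx1 (Subtype.ext h))
    rw [Subgroup.mem_normalizer_iff] at h1 ⊢
    intro y
    have h2 := h1 (y : H)
    have h3 := hel y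
    have h4 := hel (n * y * n⁻¹)
    constructor
    · intro hy
      refine h4.2 ?_
      push_cast
      exact h2.1 (h3.1 hy)
    · intro hy
      refine h3.2 (h2.2 ?_)
      have := h4.1 hy
      push_cast at this
      exact this

end Cfsg.Agent.S4620
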