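import Cfsg.Statements.S4627
import Mathlib
import Cfsg.Agent.H53.SEASLe
import Cfsg.Agent.H53.SEASL1

set_option autoImplicit false
open Cfsg

namespace Cfsg.Agent.S4627

/-- Let F be a finite field of odd order q and m ≥ 1. If 4 divides q + 1, or if 4 divides q − 1 and m is a power of 2, then a Sylow 2-subgroup P of SL_{2m}(F) has P/P' elementary abelian: the square of every element of P lies in the derived subgroup of P. -/
theorem result {F : Type*} [Field F] [Fintype F] (hF : Odd (Fintype.card F)) (m : ℕ) (hm : 1 ≤ m)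
    (hq : 4 ∣ Fintype.card F + 1 ∨ (4 ∣ Fintype.card F - 1 ∧ ∃ j : ℕ, m = 2 ^ j)) (P : Sylow 2 (Matrix.SpecialLinearGroup (Fin (2 * m)) F)) :
    ∀ x : (P : Subgroup (Matrix.SpecialLinearGroup (Fin (2 * m)) F)), x ^ 2 ∈ commutator (P : Subgroup (Matrix.SpecialLinearGroup (Fin (2 * m)) F)) := by
  rcases hq with hq | ⟨hq, j, rfl⟩
  · exact Cfsg.Agent.H53.SEA.sea_SL_even hF hq m hm P
  · have h1 : (2 : ℕ) * 2 ^ j = 2 ^ (j + 1) := by ring
    have h2 := Cfsg.Agent.H53.SEA.sea_SL_pow hF hq (j + 1) (by omega)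
    rw [← h1] at h2
    exact h2 P

end Cfsg.Agent.S4627
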