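import Cfsg.Statements.S4706
import Mathlib
import Cfsg.Agent.H37.PDF

set_option autoImplicit false
open Cfsg

namespace Cfsg.Agent.S4706

/-- Let p > 2 be a prime and G a permutation group on p letters whose Sylow p-subgroup P has normalizer of order 2p. Then either P is normal in G, or p − 1 = 2^a for some a and G is isomorphic to SL(2, 2^a). -/
theorem result {α : Type*} [Fintype α] [DecidableEq α] {p : ℕ} [Fact p.Prime] (hp : 2 < p) (hα : Fintype.card α = p) (G : Subgroup (Equiv.Perm α)) (P : Sylow p G) (hN : Nat.card (Subgroup.normalizer ((P : Subgroup G) : Set G)) = 2 * p) : (P : Subgroup G).Normal ∨ ∃ (a : ℕ) (F : Type) (_ : Field F) (_ : Fintype F), p = 2 ^ a + 1 ∧ Fintype.card F = 2 ^ a ∧ Nonempty (G ≃* Matrix.SpecialLinearGroup (Fin 2) F) := by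
  classical
  have hpr : p.Prime := Fact.out
  -- an element of order p
  have hpG : p ∣ Nat.card G := by
    have h1 := Subgroup.card_subgroup_dvd_card (Subgroup.normalizer ((P : Subgroup G) : Set G))
    rw [hN] at h1
    exact (Dvd.intro_left _ rfl).trans h1
  obtain ⟨x, hx⟩ := exists_prime_orderOf_dvd_card' p hpG
  obtain ⟨e, he⟩ := Cfsg.Agent.H12.exists_coords hα x.1 (by rw [Subgroup.orderOf_coe]; exact hx)
  have htr := (Cfsg.Agent.H37.PD.transitive_of_order G x e he).2
  by_cases hs : Group.IsSolvable G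
  · exact Or.inl (Cfsg.Agent.H12.sylow_normal_of_solvable hα G hs P)
  · right
    have h5 := Cfsg.Agent.H12.five_le_of_not_solvable hα G hs
    have h3 := Cfsg.Agent.H12.three_transitive_prime_degree hα G hs P (by rw [hN]; exact even_two_mul p)
    obtain ⟨t, h⟩ := Cfsg.Agent.H37.PD.pdat_of hα h5 G h3 P hN
    exact Cfsg.Agent.H37.PD.iso_sl hα h5 G t _ h

end Cfsg.Agent.S4706
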