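import Cfsg.Statements.S4731
import Cfsg.Agent.H75.BlkSum
import Cfsg.Agent.H75.LocInt
import Cfsg.Agent.BlkC.Basic

set_option autoImplicit false
set_option linter.style.haveILetI false
open Cfsg Cfsg.Agent.CharBase Cfsg.Agent.H75 Cfsg.Agent.Blk
open scoped ComplexConjugate

namespace Cfsg.Agent.S4731

/-- Let p ≠ q be primes, M_p and M_q maximal ideals of the algebraic integers containing p and q respectively, and G a finite group with no element of order pq; let q^b be the q-part of the order of G. For a p-block B_p (relative to M_p), a q-block B_q (relative to M_q) and a p-singular element y, the sum of χ(1)χ(y) over the irreducible characters χ lying in both B_p and B_q is q^b times an algebraic integer. -/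
theorem result {G : Type*} [Group G] [Finite G] (p q : ℕ) [Fact p.Prime] [Fact q.Prime] (hpq : p ≠ q) (Mp Mq : Ideal Cfsg.AlgInt) (hMp : Cfsg.IsPModular p Mp) (hMq : Cfsg.IsPModular q Mq) (hno : ∀ g : G, orderOf g ≠ p * q) (b : ℕ) (hb : (Nat.card G).factorization q = b) (Bp : Set (Cfsg.IrrCharacter G)) (hBp : Cfsg.IsPBlock Mp Bp) (Bq : Set (Cfsg.IrrCharacter G)) (hBq : Cfsg.IsPBlock Mq Bq) (y : G) (hy : p ∣ orderOf y) : ∃ ω : Cfsg.AlgInt, ∑ᶠ χ ∈ Bp ∩ Bq, (Cfsg.charDegree (χ : G → ℂ) : ℂ) * (χ : G → ℂ) y = (q : ℂ) ^ b * (ω : ℂ) := by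
  classical
  haveI hMp' : Mp.IsPrime := hMp.2.1.isPrime
  haveI hMq' : Mq.IsPrime := hMq.2.1.isPrime
  haveI := Fintype.ofFinite G
  haveI := Fintype.ofFinite (IrrCharacter G)
  haveI : Finite (ConjClasses G) := Quotient.finite _
  haveI := Fintype.ofFinite (ConjClasses G)
  have hq0 : (q : ℂ) ≠ 0 := Nat.cast_ne_zero.mpr hMq.1.ne_zero
  have hn0 : Nat.card G ≠ 0 := Nat.card_pos.ne'
  have hdeg : ∀ χ : IrrCharacter G, (Cfsg.charDegree (χ : G → ℂ) : ℂ) = (χ : G → ℂ) 1 := by
    intro χ; rw [charDegree_eq_deg, ← deg_spec]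
  have hSdef : ∀ y : G, ∑ᶠ χ ∈ Bp ∩ Bq, (Cfsg.charDegree (χ : G → ℂ) : ℂ) * (χ : G → ℂ) y =
      ∑ χ : IrrCharacter G, if χ ∈ Bp ∩ Bq then (χ : G → ℂ) 1 * (χ : G → ℂ) y else 0 := by
    intro y
    rw [finsum_mem_ite]
    exact Finset.sum_congr rfl fun χ _ => by rw [hdeg]; split_ifs <;> rfl
  -- class sizes of p-singular elements
  have hclass : ∀ g : G, p ∣ orderOf g → q ^ b ∣ (Subgroup.centralizer ({g} : Set G)).index := by
    intro g hg
    have hnd : ¬ q ∣ Nat.card (Subgroup.centralizer ({g} : Set G)) := by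
      intro hd
      obtain ⟨v, hv⟩ := exists_prime_orderOf_dvd_card' q hd
      have hpos : 0 < orderOf g := orderOf_pos g
      have hu : orderOf (g ^ (orderOf g / p)) = p := by
        rw [orderOf_pow_of_dvd (Nat.div_pos (Nat.le_of_dvd hpos hg) hMp.1.pos).ne'
          (Nat.div_dvd_of_dvd hg), Nat.div_div_self hg hpos.ne']
      have hc : Commute (g ^ (orderOf g / p)) (v : G) := by
        have h1 := v.2
        rw [Subgroup.mem_centralizer_singleton_iff] at h1
        have h2 : Commute (v : G) g := h1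
        exact (h2.symm.pow_left _)
      apply hno (g ^ (orderOf g / p) * v)
      rw [hc.orderOf_mul_eq_mul_orderOf_of_coprime, hu, Subgroup.orderOf_coe, hv]
      rw [hu, Subgroup.orderOf_coe, hv]
      exact (Nat.coprime_primes hMp.1 hMq.1).mpr hpq
    have h1 : q ^ b ∣ Nat.card G := by rw [← hb]; exact Nat.ordProj_dvd _ _
    rw [← Subgroup.card_mul_index (Subgroup.centralizer ({g} : Set G))] at h1
    exact Nat.Coprime.dvd_of_dvd_mul_left
      (Nat.Coprime.pow_left b ((Nat.Prime.coprime_iff_not_dvd hMq.1).mpr hnd)) h1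
  have hloc : ∀ y : G, p ∣ orderOf y → MemLocalRing Mq
      ((∑ᶠ χ ∈ Bp ∩ Bq, (Cfsg.charDegree (χ : G → ℂ) : ℂ) * (χ : G → ℂ) y) / (q : ℂ) ^ b) := by
    intro y hy
    set F : G → ℂ := fun g => ∑ χ : IrrCharacter G, if χ ∈ Bp then (χ : G → ℂ) g * (χ : G → ℂ) y else 0 with hF
    have hFcl : IsClassFunction G (fun g => F g * blockCoeff Bq g) := by
      intro g h
      have h1 : F (h * g * h⁻¹) = F g := by
        rw [hF]
        refine Finset.sum_congr rfl fun χ _ => ?_
        rw [isClassFunction_of_isCharacter (irr_isCharacter χ) g h]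
      change F (h * g * h⁻¹) * blockCoeff Bq (h * g * h⁻¹) = F g * blockCoeff Bq g
      rw [h1, blockCoeff_isClassFunction Bq g h]
    have hsum : (∑ᶠ χ ∈ Bp ∩ Bq, (Cfsg.charDegree (χ : G → ℂ) : ℂ) * (χ : G → ℂ) y) =
        ∑ g : G, F g * blockCoeff Bq g := by
      have h1 : ∀ g : G, F g * blockCoeff Bq g = ∑ χ : IrrCharacter G, ∑ ψ : IrrCharacter G,
          if χ ∈ Bp ∧ ψ ∈ Bq then (χ : G → ℂ) y * (ψ : G → ℂ) 1 *
            ((Nat.card G : ℂ)⁻¹ * ((χ : G → ℂ) g * conj ((ψ : G → ℂ) g))) else 0 := by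
        intro g
        unfold blockCoeff
        rw [finsum_mem_ite, hF]
        simp only
        rw [Finset.mul_sum, Finset.sum_mul_sum]
        refine Finset.sum_congr rfl fun χ _ => Finset.sum_congr rfl fun ψ _ => ?_
        by_cases h1 : χ ∈ Bp <;> by_cases h2 : ψ ∈ Bq <;> simp [h1, h2]
        ring
      simp_rw [h1]
      rw [Finset.sum_comm]
      rw [hSdef]
      refine Finset.sum_congr rfl fun χ _ => ?_
      rw [Finset.sum_comm]
      have h3 : ∀ ψ : IrrCharacter G, (∑ g : G, if χ ∈ Bp ∧ ψ ∈ Bq then (χ : G → ℂ) y * (ψ : G → ℂ) 1 *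
            ((Nat.card G : ℂ)⁻¹ * ((χ : G → ℂ) g * conj ((ψ : G → ℂ) g))) else 0) =
          if χ ∈ Bp ∧ ψ ∈ Bq then (χ : G → ℂ) y * (ψ : G → ℂ) 1 * (if χ = ψ then 1 else 0) else 0 := by
        intro ψ
        rw [← classInner_irr χ ψ]
        split_ifs
        · rw [← Finset.mul_sum, ← Finset.mul_sum]
          rfl
        · rw [Finset.sum_const_zero]
      simp_rw [h3]
      rw [Finset.sum_eq_single χ]
      · rw [if_pos rfl, mul_one, mul_comm]
        rfl
      · intro ψ _ hne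
        rw [if_neg (Ne.symm hne), mul_zero, ite_self]
      · intro h; exact absurd (Finset.mem_univ _) h
    rw [hsum, BlkC.sum_eq_sum_conjClasses hFcl, Finset.sum_div]
    refine mlr_sum _ _ fun c _ => ?_
    by_cases hc : p ∣ orderOf (Quotient.out c)
    · obtain ⟨m, hm⟩ := hclass _ hc
      rw [hm]
      have : ((q ^ b * m : ℕ) : ℂ) * (F (Quotient.out c) * blockCoeff Bq (Quotient.out c)) / (q : ℂ) ^ b
          = (m : ℂ) * (F (Quotient.out c) * blockCoeff Bq (Quotient.out c)) := by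
        push_cast; field_simp
      rw [this]
      refine mlr_mul (mlr_natCast m) (mlr_mul ?_ (mlr_blockCoeff hBq _))
      refine mlr_sum _ _ fun χ _ => ?_
      split_ifs
      · exact mlr_mul (mlr_of_isIntegral (irr_isIntegral χ _)) (mlr_of_isIntegral (irr_isIntegral χ _))
      · exact mlr_zero
    · have h1 : F (Quotient.out c) = 0 := by
        have h2 := weak_block_orthogonality hMp hBp hc (y := y⁻¹) (by rwa [orderOf_inv])
        rw [finsum_mem_ite] at h2
        refine Eq.trans ?_ h2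
        refine Finset.sum_congr rfl fun χ _ => ?_
        rw [irr_inv, Complex.conj_conj]
      rw [h1, zero_mul, mul_zero, zero_div]
      exact mlr_zero
  refine ⟨⟨(∑ᶠ χ ∈ Bp ∩ Bq, (Cfsg.charDegree (χ : G → ℂ) : ℂ) * (χ : G → ℂ) y) / (q : ℂ) ^ b, ?_⟩, ?_⟩
  · refine isIntegral_of_conj_local hMq hn0 _ b ?_ ?_
    · have : (q : ℂ) ^ b * ((∑ᶠ χ ∈ Bp ∩ Bq, (Cfsg.charDegree (χ : G → ℂ) : ℂ) * (χ : G → ℂ) y) / (q : ℂ) ^ b) =
          ∑ᶠ χ ∈ Bp ∩ Bq, (Cfsg.charDegree (χ : G → ℂ) : ℂ) * (χ : G → ℂ) y := by field_simp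
      rw [this, hSdef]
      refine Subring.sum_mem _ fun χ _ => ?_
      split_ifs
      · exact Subring.mul_mem _ (Char.char_mem_closure (irr_isCharacter χ) _ dvd_rfl)
          (Char.char_mem_closure (irr_isCharacter χ) _ dvd_rfl)
      · exact Subring.zero_mem _
    · intro k σ hk hσ
      have h1 : σ ((∑ᶠ χ ∈ Bp ∩ Bq, (Cfsg.charDegree (χ : G → ℂ) : ℂ) * (χ : G → ℂ) y) / (q : ℂ) ^ b) =
          (∑ᶠ χ ∈ Bp ∩ Bq, (Cfsg.charDegree (χ : G → ℂ) : ℂ) * (χ : G → ℂ) (y ^ k)) / (q : ℂ) ^ b := by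
        rw [map_div₀, map_pow, map_natCast, hSdef, hSdef, map_sum]
        congr 1
        refine Finset.sum_congr rfl fun χ _ => ?_
        split_ifs
        · rw [map_mul, Char.map_char_eq (irr_isCharacter χ) 1 (orderOf_dvd_natCard _) σ hσ,
            Char.map_char_eq (irr_isCharacter χ) y (orderOf_dvd_natCard _) σ hσ, one_pow]
        · rw [map_zero]
      rw [h1]
      apply hloc
      rw [Nat.Coprime.orderOf_pow]
      · exact hy
      · exact (hk.coprime_dvd_right (orderOf_dvd_natCard y)).symm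
  · simp only
    field_simp

end Cfsg.Agent.S4731
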