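import Cfsg.Statements.S4735
import Cfsg.Agent.H75.BlkSum
import Cfsg.Agent.Solv.Core

set_option autoImplicit false
set_option linter.style.haveILetI false
open Cfsg Cfsg.Agent.CharBase Cfsg.Agent.H75 Cfsg.Agent.Blk

namespace Cfsg.Agent.S4735

/-- Let p be a prime, M a maximal ideal of the algebraic integers containing p, G a finite group, H = O_p'(G) and Ḡ = G/H. For x ∈ G write λ(G, x) for the sum of |χ(x)|^2 over the irreducible characters χ in the principal p-block of G. Then λ(G, x) is a positive integer, λ(G, x) = λ(Ḡ, x̄) where x̄ is the image of x, and λ(G, x) ≤ #C_Ḡ(x̄). Moreover λ(G, 1) = [G : H] if and only if the principal block is the only p-block of Ḡ. -/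
theorem result {G : Type*} [Group G] [Finite G] (p : ℕ) [Fact p.Prime] (M : Ideal Cfsg.AlgInt) (hM : Cfsg.IsPModular p M) (x : G) : (∃ n : ℕ, 0 < n ∧ ∑ᶠ χ ∈ Cfsg.principalBlock M G, Complex.normSq ((χ : G → ℂ) x) = n) ∧ ∑ᶠ χ ∈ Cfsg.principalBlock M G, Complex.normSq ((χ : G → ℂ) x) = ∑ᶠ ψ ∈ Cfsg.principalBlock M (G ⧸ Cfsg.pPrimeCore p G), Complex.normSq ((ψ : G ⧸ Cfsg.pPrimeCore p G → ℂ) (QuotientGroup.mk x)) ∧ ∑ᶠ χ ∈ Cfsg.principalBlock M G, Complex.normSq ((χ : G → ℂ) x) ≤ (Nat.card ↥(Subgroup.centralizer ({(QuotientGroup.mk x : G ⧸ Cfsg.pPrimeCore p G)} : Set (G ⧸ Cfsg.pPrimeCore p G))) : ℝ) ∧ ((∑ᶠ χ ∈ Cfsg.principalBlock M G, Cfsg.charDegree (χ : G → ℂ) ^ 2) = (Cfsg.pPrimeCore p G).index ↔ ∀ B : Set (Cfsg.IrrCharacter (G ⧸ Cfsg.pPrimeCore p G)), Cfsg.IsPBlock M B → B = Cfsg.principalBlock M (G ⧸ Cfsg.pPrimeCore p G)) := by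
  classical
  haveI : M.IsPrime := hM.2.1.isPrime
  have hH : ¬ p ∣ Nat.card (Cfsg.pPrimeCore p G) :=
    (Nat.Prime.coprime_iff_not_dvd hM.1).mp (Solv.pPrimeCore_card_coprime p).symm
  have hbij := inflIrr_bijOn hM (Cfsg.pPrimeCore p G) hH
  have hone : oneIrr G ∈ principalBlock M G := mem_blockOf_self (M := M) (oneIrr G)
  have e2 : ∑ᶠ χ ∈ Cfsg.principalBlock M G, Complex.normSq ((χ : G → ℂ) x) =
      ∑ᶠ ψ ∈ Cfsg.principalBlock M (G ⧸ Cfsg.pPrimeCore p G),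
        Complex.normSq ((ψ : G ⧸ Cfsg.pPrimeCore p G → ℂ) (QuotientGroup.mk x)) :=
    (finsum_mem_eq_of_bijOn (inflIrr (Cfsg.pPrimeCore p G)) hbij (fun χ _ => rfl)).symm
  refine ⟨principal_normSq_nat M hone x, e2, ?_, ?_⟩
  · rw [e2]
    haveI := Fintype.ofFinite (IrrCharacter (G ⧸ Cfsg.pPrimeCore p G))
    have h1 := column_orthogonality_of_isConj (IsConj.refl (QuotientGroup.mk x : G ⧸ Cfsg.pPrimeCore p G))
    have h2 : (∑ χ : IrrCharacter (G ⧸ Cfsg.pPrimeCore p G), Complex.normSq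
        ((χ : G ⧸ Cfsg.pPrimeCore p G → ℂ) (QuotientGroup.mk x))) =
        (Nat.card (Subgroup.centralizer ({(QuotientGroup.mk x : G ⧸ Cfsg.pPrimeCore p G)} :
          Set (G ⧸ Cfsg.pPrimeCore p G))) : ℝ) := by
      have : (((∑ χ : IrrCharacter (G ⧸ Cfsg.pPrimeCore p G), Complex.normSq
        ((χ : G ⧸ Cfsg.pPrimeCore p G → ℂ) (QuotientGroup.mk x)) : ℝ)) : ℂ) =
        (((Nat.card (Subgroup.centralizer ({(QuotientGroup.mk x : G ⧸ Cfsg.pPrimeCore p G)} :
          Set (G ⧸ Cfsg.pPrimeCore p G))) : ℝ)) : ℂ) := by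
        push_cast
        rw [← h1]
        exact Finset.sum_congr rfl fun χ _ => (Complex.mul_conj _).symm
      exact_mod_cast this
    rw [← h2, finsum_mem_ite]
    refine Finset.sum_le_sum fun χ _ => ?_
    split_ifs
    · exact le_rfl
    · exact Complex.normSq_nonneg _
  · haveI := Fintype.ofFinite (IrrCharacter (G ⧸ Cfsg.pPrimeCore p G))
    have e3 : (∑ᶠ χ ∈ Cfsg.principalBlock M G, Cfsg.charDegree (χ : G → ℂ) ^ 2) =
        ∑ χ : IrrCharacter (G ⧸ Cfsg.pPrimeCore p G), if χ ∈ Cfsg.principalBlock M (G ⧸ Cfsg.pPrimeCore p G)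
          then deg χ ^ 2 else 0 := by
      rw [← finsum_mem_ite]
      symm
      refine finsum_mem_eq_of_bijOn (inflIrr (Cfsg.pPrimeCore p G)) hbij (fun χ _ => ?_)
      rw [← charDegree_eq_deg]
      rfl
    rw [e3, Subgroup.index_eq_card, ← sum_deg_sq]
    rw [Finset.sum_eq_sum_iff_of_le (fun χ _ => by split_ifs <;> simp)]
    constructor
    · rintro h B ⟨χ, rfl⟩
      have h1 := h χ (Finset.mem_univ _)
      have h2 : χ ∈ Cfsg.principalBlock M (G ⧸ Cfsg.pPrimeCore p G) := by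
        by_contra hc
        rw [if_neg hc] at h1
        exact (pow_pos (deg_pos χ) 2).ne h1
      exact blockOf_eq_of_sameBlock (sameBlock_symm h2)
    · intro h χ _
      rw [if_pos]
      rw [← h _ (isPBlock_blockOf χ)]
      exact mem_blockOf_self χ

end Cfsg.Agent.S4735
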