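import Cfsg.Statements.S4736
import Cfsg.Agent.H79.HeightPS
import Cfsg.Agent.S4713

set_option autoImplicit false
open Cfsg

namespace Cfsg.Agent.S4736

open Cfsg.Agent Cfsg.Agent.CharBase Cfsg.Agent.Blk

/-- Let p be a prime, M a maximal ideal of the algebraic integers containing p, and G a finite p-solvable group with Sylow p-subgroup P. Then P is abelian if and only if every irreducible character in the principal p-block of G has height zero. -/
theorem result {G : Type*} [Group G] [Finite G] (p : ℕ) [Fact p.Prime] (M : Ideal Cfsg.AlgInt) (hM : Cfsg.IsPModular p M) (hsolv : Cfsg.IsPSolvable p G) (P : Sylow p G) : IsMulCommutative P ↔ ∀ χ ∈ Cfsg.principalBlock M G, Cfsg.blockHeight p (Cfsg.principalBlock M G) (χ : G → ℂ) = 0 := by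
  classical
  have := Fintype.ofFinite G
  haveI := isPrime_of_isPModular hM
  haveI := charP_kM hM
  set N := pPrimeCore p G with hN
  have hNn : N.Normal := inferInstance
  have hNp : ¬ p ∣ Nat.card N := H79.not_dvd_pPrimeCore
  have := Fintype.ofFinite N
  obtain ⟨K, hKn, hNK, hKp, hC⟩ := H79.exists_K_of_psolvable hsolv
  have hinv : ∀ g : G, Char.cj N g ((oneIrr N : IrrCharacter N) : N → ℂ) = oneIrr N := fun g => rfl
  obtain ⟨B₀, hB₀, hmem, hD⟩ := H79.fong_core hM hNp hinv hNK hKp (fun Q h1 h2 h3 => (hC Q h1 h2 h3).2)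
  have hone : ∀ χ : IrrCharacter G, (∀ n : N, (χ : G → ℂ) n = (χ : G → ℂ) 1) → χ ∈ B₀ := by
    intro χ hχ
    rw [hmem χ]
    have h1 : classInner (fun n : N => (χ : G → ℂ) n) ((oneIrr N : IrrCharacter N) : N → ℂ)
        = (χ : G → ℂ) 1 := by
      unfold classInner
      have h2 : ∀ n : N, (χ : G → ℂ) n * (starRingEnd ℂ) (((oneIrr N : IrrCharacter N) : N → ℂ) n)
          = (χ : G → ℂ) 1 := by
        intro n
        rw [hχ n]
        change (χ : G → ℂ) 1 * (starRingEnd ℂ) 1 = _
        rw [map_one, mul_one]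
      rw [Finset.sum_congr rfl fun n _ => h2 n, Finset.sum_const, Finset.card_univ,
        ← Nat.card_eq_fintype_card, nsmul_eq_mul, ← mul_assoc, inv_mul_cancel₀, one_mul]
      exact_mod_cast Nat.card_pos.ne'
    rw [h1]
    exact irr_one_ne_zero χ.2
  have h1G : oneIrr G ∈ B₀ := hone _ fun n => rfl
  have hB₀P : principalBlock M G = B₀ := by
    rw [isPBlock_eq_blockOf hB₀ h1G]
    rfl
  have hPc : Nat.card (P : Subgroup G) = p ^ (Nat.card G).factorization p :=
    Sylow.card_eq_multiplicity P
  have hdef : IsDefectGroup p M B₀ (P : Subgroup G) := by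
    obtain ⟨D, hD'⟩ := BlkInd.exists_defectGroup hM hB₀
    let PD : Sylow p G := Sylow.ofCard D (hD D hD')
    obtain ⟨g, hg⟩ := MulAction.exists_smul_eq G PD P
    have h2 : D.map (MulAut.conj g).toMonoidHom = (P : Subgroup G) := by
      rw [← hg]; rfl
    rw [← h2]
    exact BlkInd.isDefectGroup_conj hD' g
  rw [hB₀P]
  constructor
  · intro hcomm χ hχ
    have h1 := H79.height_le_psolvable hM _ rfl hsolv B₀ hB₀ (P : Subgroup G) hdef χ hχ
    have h2 : Subgroup.center (P : Subgroup G) = ⊤ := by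
      rw [Subgroup.eq_top_iff']
      intro x
      rw [Subgroup.mem_center_iff]
      exact fun y => hcomm.is_comm.comm y x
    rw [h2, Subgroup.index_top, Nat.factorization_one] at h1
    simpa using h1
  · intro hht
    have hnu : sInf ((fun ψ : IrrCharacter G => (charDegree (ψ : G → ℂ)).factorization p) '' B₀)
        = 0 := by
      apply Nat.eq_zero_of_le_zero
      have h0 : (charDegree ((oneIrr G : IrrCharacter G) : G → ℂ)).factorization p ∈
        (fun ψ : IrrCharacter G => (charDegree (ψ : G → ℂ)).factorization p) '' B₀ :=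
        ⟨oneIrr G, h1G, rfl⟩
      refine (Nat.sInf_le h0).trans ?_
      have h3 := BlkC.charDegree_spec (oneIrr G)
      have h4 : charDegree ((oneIrr G : IrrCharacter G) : G → ℂ) = 1 := by
        have h5 : ((oneIrr G : IrrCharacter G) : G → ℂ) 1 = 1 := rfl
        rw [h5] at h3
        exact_mod_cast h3.symm
      rw [h4, Nat.factorization_one]
      rfl
    have hdeg : ∀ χ : IrrCharacter (G ⧸ N), ¬ p ∣ charDegree (χ : G ⧸ N → ℂ) := by
      intro χ
      have hχ' : IsIrrCharacter G (fun g => (χ : G ⧸ N → ℂ) (QuotientGroup.mk' N g)) :=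
        isIrrCharacter_comp_surjective χ.2 (QuotientGroup.mk' N) (QuotientGroup.mk'_surjective N)
      have h2 := hht (⟨_, hχ'⟩ : IrrCharacter G) (hone (⟨_, hχ'⟩ : IrrCharacter G) (fun n => by
        change (χ : G ⧸ N → ℂ) (QuotientGroup.mk' N (n : G)) = (χ : G ⧸ N → ℂ) (QuotientGroup.mk' N 1)
        rw [map_one, QuotientGroup.mk'_apply, (QuotientGroup.eq_one_iff (n : G)).2 n.2]))
      unfold blockHeight at h2
      rw [hnu, Nat.sub_zero] at h2
      have h3 := BlkC.charDegree_spec (⟨_, hχ'⟩ : IrrCharacter G)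
      have h4 := BlkC.charDegree_spec χ
      have h5 : charDegree (fun g => (χ : G ⧸ N → ℂ) (QuotientGroup.mk' N g)) =
          charDegree (χ : G ⧸ N → ℂ) := by
        have h6 : (charDegree (fun g => (χ : G ⧸ N → ℂ) (QuotientGroup.mk' N g)) : ℂ) =
            charDegree (χ : G ⧸ N → ℂ) := by
          rw [← h4]
          refine h3.symm.trans ?_
          change (χ : G ⧸ N → ℂ) (QuotientGroup.mk' N 1) = _
          rw [map_one]
        exact_mod_cast h6
      rw [← h5]
      intro h6
      have h7 := (Fact.out : p.Prime).factorization_pos_of_dvd (BlkC.charDegree_pos _).ne' h6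
      exact h7.ne' h2
    have h2 := ((Cfsg.Agent.S4713.result p (H76.isPSolvable_quotient N hsolv)
      (P.mapSurjective (QuotientGroup.mk'_surjective N))).2 hdeg).2
    refine ⟨⟨fun a b => ?_⟩⟩
    have hinj : ∀ x ∈ (P : Subgroup G), x ∈ N → x = 1 := by
      intro x hx hxN
      have h3 : (Nat.card (P : Subgroup G)).Coprime (Nat.card N) := by
        rw [hPc]
        exact Nat.Coprime.pow_left _ ((Nat.Prime.coprime_iff_not_dvd Fact.out).2 hNp)
      have h4 : orderOf x ∣ Nat.card (P : Subgroup G) := Subgroup.orderOf_dvd_natCard _ hx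
      have h5 : orderOf x ∣ Nat.card N := Subgroup.orderOf_dvd_natCard _ hxN
      exact orderOf_eq_one_iff.1 (Nat.eq_one_of_dvd_coprimes h3 h4 h5)
    have h3 := h2.is_comm.comm ⟨QuotientGroup.mk' N (a : G), ⟨a, a.2, rfl⟩⟩
      ⟨QuotientGroup.mk' N (b : G), ⟨b, b.2, rfl⟩⟩
    have h4 : QuotientGroup.mk' N ((a : G) * b) = QuotientGroup.mk' N ((b : G) * a) := by
      rw [map_mul, map_mul]
      exact congrArg Subtype.val h3
    have h5 : ((b : G) * a)⁻¹ * (a * b) ∈ N := by
      rw [← QuotientGroup.eq_one_iff]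
      change QuotientGroup.mk' N (((b : G) * a)⁻¹ * (a * b)) = 1
      rw [map_mul, map_inv, h4, inv_mul_cancel]
    have h6 := hinj _ ((P : Subgroup G).mul_mem ((P : Subgroup G).inv_mem
      ((P : Subgroup G).mul_mem b.2 a.2)) ((P : Subgroup G).mul_mem a.2 b.2)) h5
    apply Subtype.ext
    change (a : G) * b = b * a
    exact (inv_mul_eq_one.1 h6).symm

end Cfsg.Agent.S4736
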