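import Cfsg.Statements.S4743
import Cfsg.Agent.H79.PQ

set_option autoImplicit false
open Cfsg

namespace Cfsg.Agent.S4743

/-- Let p ≠ q be primes dividing the order of the finite group G, suppose the centralizer of every non-identity p-element has order prime to q, and suppose G is p-solvable or q-solvable. Then G has an irreducible character of p-defect zero or an irreducible character of q-defect zero. -/
theorem result {G : Type*} [Group G] [Finite G] (p q : ℕ) [Fact p.Prime] [Fact q.Prime] (hppq : p ≠ q) (hpG : p ∣ Nat.card G) (hqG : q ∣ Nat.card G) (hC : ∀ g : G, g ≠ 1 → (∃ k : ℕ, orderOf g = p ^ k) → ¬ q ∣ Nat.card ↥(Subgroup.centralizer ({g} : Set G))) (hsolv : Cfsg.IsPSolvable p G ∨ Cfsg.IsPSolvable q G) : (∃ χ : Cfsg.IrrCharacter G, (Cfsg.charDegree (χ : G → ℂ)).factorization p = (Nat.card G).factorization p) ∨ (∃ χ : Cfsg.IrrCharacter G, (Cfsg.charDegree (χ : G → ℂ)).factorization q = (Nat.card G).factorization q) := by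
  have hC' : ∀ g : G, g ≠ 1 → (∃ k : ℕ, orderOf g = q ^ k) →
      ¬ p ∣ Nat.card (Subgroup.centralizer ({g} : Set G)) := fun g hg ⟨k, hk⟩ =>
    H79.not_dvd_card_centralizer p q hC g hg k hk
  have key : ∃ X : Subgroup G, X.Normal ∧ ((¬ p ∣ Nat.card X ∧ q ∣ Nat.card X) ∨
      (¬ q ∣ Nat.card X ∧ p ∣ Nat.card X)) := by
    rcases hsolv with h | h
    · exact H79.exists_normal_of_isPSolvable p q hppq hpG h
    · obtain ⟨X, hX, h1⟩ := H79.exists_normal_of_isPSolvable q p hppq.symm hqG h
      exact ⟨X, hX, h1.symm⟩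
  obtain ⟨X, hX, ⟨h1, h2⟩ | ⟨h1, h2⟩⟩ := key
  · exact Or.inl (H79.exists_defectZero_of_normal p q hppq hC X h1 h2)
  · exact Or.inr (H79.exists_defectZero_of_normal q p hppq.symm hC' X h1 h2)

end Cfsg.Agent.S4743
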