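import Cfsg.Statements.S4744
import Cfsg.Agent.H79.Invol

set_option autoImplicit false
open Cfsg

namespace Cfsg.Agent.S4744

/-- Let p be an odd prime and G a finite group of even order divisible by p in which the centralizer of every non-identity p-element has odd order. Then either G has an irreducible character of p-defect zero, or the normalizer of every Sylow p-subgroup P of G has even order and P is abelian. -/
theorem result {G : Type*} [Group G] [Finite G] (p : ℕ) [Fact p.Prime] (hp2 : p ≠ 2) (hpG : p ∣ Nat.card G) (h2G : 2 ∣ Nat.card G) (hC : ∀ g : G, g ≠ 1 → (∃ k : ℕ, orderOf g = p ^ k) → Odd (Nat.card ↥(Subgroup.centralizer ({g} : Set G)))) : (∃ χ : Cfsg.IrrCharacter G, (Cfsg.charDegree (χ : G → ℂ)).factorization p = (Nat.card G).factorization p) ∨ ∀ P : Sylow p G, Even (Nat.card ↥(Subgroup.normalizer ((P : Subgroup G) : Set G))) ∧ IsMulCommutative ↥(P : Subgroup G) := by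
  by_cases hno : ∃ χ : Cfsg.IrrCharacter G,
      (Cfsg.charDegree (χ : G → ℂ)).factorization p = (Nat.card G).factorization p
  · exact Or.inl hno
  right
  intro P
  obtain ⟨x, hx⟩ := exists_prime_orderOf_dvd_card' 2 h2G
  obtain ⟨g, hg, hgP⟩ := H79.exists_conj_inverts_sylow p hC hno x hx P
  have hg2 : orderOf g = 2 := by
    obtain ⟨d, rfl⟩ := isConj_iff.mp hg
    rw [H4.orderOf_conj', hx]
  have hgg := H4.mul_self_of_orderOf_two hg2
  have hgN : g ∈ Subgroup.normalizer ((P : Subgroup G) : Set G) := by
    rw [Subgroup.mem_normalizer_iff]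
    intro t
    constructor
    · intro ht
      rw [hgP t ht]
      exact (P : Subgroup G).inv_mem ht
    · intro ht
      have h1 := hgP _ ht
      have h2 : g * (g * t * g⁻¹) * g⁻¹ = t := by
        have hgi := H4.inv_eq_self_of_orderOf_two hg2
        rw [hgi]
        calc g * (g * t * g) * g = (g * g) * t * (g * g) := by group
          _ = t := by rw [hgg]; group
      rw [h2] at h1
      rw [h1]
      exact (P : Subgroup G).inv_mem ht
  refine ⟨?_, ?_⟩
  · rw [even_iff_two_dvd]
    have h3 : orderOf (⟨g, hgN⟩ : ↥(Subgroup.normalizer ((P : Subgroup G) : Set G))) = 2 := by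
      rw [← hg2]; exact (Subgroup.orderOf_coe _).symm
    rw [← h3]
    exact orderOf_dvd_natCard _
  · exact ⟨⟨fun a b => Subtype.ext
      (H79.comm_of_inverts (P : Subgroup G) g hgP a a.2 b b.2)⟩⟩

end Cfsg.Agent.S4744
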