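import Cfsg.Statements.S4746
import Cfsg.Agent.H79.Invol

set_option autoImplicit false
open Cfsg

namespace Cfsg.Agent.S4746

/-- Let p be an odd prime and G a finite group of even order divisible by p in which the centralizer of every non-identity p-element has odd order. Then G has an irreducible character of p-defect zero or an irreducible character of even degree. -/
theorem result {G : Type*} [Group G] [Finite G] (p : ℕ) [Fact p.Prime] (hp2 : p ≠ 2) (hpG : p ∣ Nat.card G) (h2G : 2 ∣ Nat.card G) (hC : ∀ g : G, g ≠ 1 → (∃ k : ℕ, orderOf g = p ^ k) → Odd (Nat.card ↥(Subgroup.centralizer ({g} : Set G)))) : (∃ χ : Cfsg.IrrCharacter G, (Cfsg.charDegree (χ : G → ℂ)).factorization p = (Nat.card G).factorization p) ∨ ∃ χ : Cfsg.IrrCharacter G, Even (Cfsg.charDegree (χ : G → ℂ)) := by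
  by_cases hno : ∃ χ : Cfsg.IrrCharacter G,
      (Cfsg.charDegree (χ : G → ℂ)).factorization p = (Nat.card G).factorization p
  · exact Or.inl hno
  right
  obtain ⟨P⟩ : Nonempty (Sylow p G) := inferInstance
  obtain ⟨x, hx⟩ := exists_prime_orderOf_dvd_card' 2 h2G
  obtain ⟨g, hg, hgP⟩ := H79.exists_conj_inverts_sylow p hC hno x hx P
  obtain ⟨z, hzP, hz1⟩ := H79.exists_ne_one_mem_sylow p hpG P
  obtain ⟨k, hk⟩ := (IsPGroup.iff_orderOf.mp P.2) ⟨z, hzP⟩
  have hk' : orderOf z = p ^ k := by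
    rw [← hk]; exact (Subgroup.orderOf_coe (⟨z, hzP⟩ : (P : Subgroup G)))
  exact H79.exists_even_degree_of_real z hz1 (isConj_iff.mpr ⟨g, hgP z hzP⟩) (hC z hz1 ⟨k, hk'⟩)

end Cfsg.Agent.S4746
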