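import Cfsg.Statements.S4748
import Cfsg.Agent.H79.OrbitDeg
import Cfsg.Agent.H79.CopChar
import Cfsg.Agent.H79.PSolvDual
import Cfsg.Agent.Cop.Basic
import Cfsg.Agent.H75.Tools
import Cfsg.Agent.Char.Clifford

set_option autoImplicit false
open scoped Pointwise
open Cfsg

namespace Cfsg.Agent.S4748

/-- Let G be a finite p-solvable group whose Sylow p-subgroup P meets each conjugate g P g⁻¹ with g outside N_G(P) trivially, and let χ be a faithful character of G (χ g = χ 1 only for g = 1) whose degree d satisfies d² ≤ |P|. Then P is normal in G. -/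
theorem result {G : Type*} [Group G] [Finite G] (p : ℕ) [Fact p.Prime] (hsolv : Cfsg.IsPSolvable p G) (P : Sylow p G) (hTI : ∀ g : G, g ∉ Subgroup.normalizer ((P : Subgroup G) : Set G) → (P : Subgroup G) ⊓ (MulAut.conj g • (P : Subgroup G)) = ⊥) (χ : G → ℂ) (hχ : Cfsg.IsCharacter G χ) (hfaith : ∀ g : G, χ g = χ 1 → g = 1) (hdeg : Cfsg.charDegree χ ^ 2 ≤ Nat.card ↥(P : Subgroup G)) : (P : Subgroup G).Normal := by

  classical
  have hp : p.Prime := Fact.out
  by_contra hnot
  have := Fintype.ofFinite G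
  -- an element outside the normalizer
  have hnt : Subgroup.normalizer ((P : Subgroup G) : Set G) ≠ ⊤ := by
    intro h
    exact hnot (Subgroup.normalizer_eq_top_iff.mp h)
  obtain ⟨g₀, hg₀⟩ : ∃ g : G, g ∉ Subgroup.normalizer ((P : Subgroup G) : Set G) := by
    by_contra h
    push Not at h
    exact hnt (eq_top_iff.mpr (fun g _ => h g))
  have hPbot : (P : Subgroup G) ≠ ⊥ := by
    intro h
    apply hnot
    rw [h]
    infer_instance
  have hcore : pCore p G = ⊥ := by
    rw [eq_bot_iff, ← hTI g₀ hg₀]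
    apply le_inf (Solv.pCore_le_sylow P)
    intro x hx
    have hn : (pCore p G).Normal := inferInstance
    rw [Hall.mem_conj_smul]
    have h1 := hn.conj_mem x hx g₀⁻¹
    rw [inv_inv] at h1
    exact Solv.pCore_le_sylow P h1
  set N : Subgroup G := pPrimeCore p G with hNdef
  have hNn : N.Normal := (Solv.coprime_card_sSup p _ (fun _ h => h)).1
  have hNp : (Nat.card N).Coprime p := Solv.pPrimeCore_card_coprime p
  have hpN : ¬ p ∣ Nat.card N := (Nat.Prime.coprime_iff_not_dvd hp).mp hNp.symm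
  have hCN : Subgroup.centralizer (N : Set G) ≤ N := H79.centralizer_pPrimeCore_le hsolv hcore
  have := Fintype.ofFinite N
  obtain ⟨kP, hkP⟩ := IsPGroup.iff_card.mp P.isPGroup'
  have hcopPN : (Nat.card (P : Subgroup G)).Coprime (Nat.card N) := by
    rw [hkP]
    exact ((Nat.Prime.coprime_iff_not_dvd hp).mpr hpN).pow_left kP
  -- the centralizer
  set C : Subgroup G := N ⊓ Subgroup.centralizer ((P : Subgroup G) : Set G) with hCdef
  have hCP : ∀ s ∈ (P : Subgroup G), s ≠ 1 → ∀ n ∈ N, (n ∈ C ↔ n * s = s * n) := by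
    intro s hs hs1 n hn
    constructor
    · intro h
      exact (Subgroup.mem_centralizer_iff.mp h.2 s hs).symm
    · intro h
      refine Subgroup.mem_inf.mpr ⟨hn, ?_⟩
      have hnor : n ∈ Subgroup.normalizer ((P : Subgroup G) : Set G) := by
        by_contra hcon
        have h1 : s ∈ (P : Subgroup G) ⊓ (MulAut.conj n • (P : Subgroup G)) := by
          refine Subgroup.mem_inf.mpr ⟨hs, ?_⟩
          rw [Hall.mem_conj_smul]
          have : n⁻¹ * s * n = s := by rw [mul_assoc, ← h]; group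
          rw [this]; exact hs
        rw [hTI n hcon, Subgroup.mem_bot] at h1
        exact hs1 h1
      rw [Subgroup.mem_centralizer_iff]
      intro x hx
      have h1 : n * x * n⁻¹ * x⁻¹ ∈ (P : Subgroup G) :=
        (P : Subgroup G).mul_mem ((Subgroup.mem_normalizer_iff.mp hnor x).mp hx)
          ((P : Subgroup G).inv_mem hx)
      have h2 : n * x * n⁻¹ * x⁻¹ ∈ N := by
        have : n * x * n⁻¹ * x⁻¹ = n * (x * n⁻¹ * x⁻¹) := by group
        rw [this]
        exact N.mul_mem hn (hNn.conj_mem _ (N.inv_mem hn) x)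
      have h3 := Cop.eq_one_of_mem_of_mem hcopPN h1 h2
      rw [mul_inv_eq_one, mul_inv_eq_iff_eq_mul] at h3
      exact h3.symm
  -- a central element of `P`
  obtain ⟨z, hzP, hz1, hzc⟩ : ∃ z ∈ (P : Subgroup G), z ≠ 1 ∧ ∀ x ∈ (P : Subgroup G), z * x = x * z := by
    have hntP : Nontrivial (P : Subgroup G) := (Subgroup.nontrivial_iff_ne_bot _).mpr hPbot
    have := IsPGroup.center_nontrivial (p := p) P.isPGroup'
    obtain ⟨⟨z, hz⟩, hz1⟩ := exists_ne (1 : Subgroup.center (P : Subgroup G))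
    refine ⟨z, z.2, fun h => hz1 (Subtype.ext (Subtype.ext h)), fun x hx => ?_⟩
    have := Subgroup.mem_center_iff.mp hz ⟨x, hx⟩
    exact (congrArg Subtype.val this).symm
  -- it is enough to show that `z` centralizes `N`
  suffices hmain : ∀ n : N, (n : G) * z * (n : G)⁻¹ * z⁻¹ = 1 by
    apply hz1
    apply Cop.eq_one_of_mem_of_mem hcopPN hzP
    apply hCN
    rw [Subgroup.mem_centralizer_iff]
    intro n hn
    have := hmain ⟨n, hn⟩
    rw [mul_inv_eq_one, mul_inv_eq_iff_eq_mul] at this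
    exact this
  intro n
  apply hfaith
  have hresN : IsCharacter N (fun x : N => χ x) := CharBase.isCharacter_restrict hχ N
  have hcl : IsClassFunction G χ := CharBase.isClassFunction_of_isCharacter hχ
  have := Fintype.ofFinite (IrrCharacter N)
  obtain ⟨m, hm, hsum⟩ := CharBase.exists_mult_of_isCharacter hresN
  have hmem : (n : G) * z * (n : G)⁻¹ * z⁻¹ ∈ N := by
    have : (n : G) * z * (n : G)⁻¹ * z⁻¹ = n * (z * (n : G)⁻¹ * z⁻¹) := by group
    rw [this]
    exact N.mul_mem n.2 (hNn.conj_mem _ (N.inv_mem n.2) z)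
  suffices hψ : ∀ ψ : IrrCharacter N, m ψ ≠ 0 → (ψ : N → ℂ) ⟨_, hmem⟩ = (ψ : N → ℂ) 1 by
    have h1 := congrFun hsum ⟨_, hmem⟩
    have h2 := congrFun hsum 1
    simp only at h1 h2
    rw [Finset.sum_apply] at h1 h2
    have h3 : χ ((1 : N) : G) = χ 1 := rfl
    rw [← h3, h1, h2]
    refine Finset.sum_congr rfl (fun ψ _ => ?_)
    simp only [Pi.smul_apply]
    by_cases hm0 : m ψ = 0
    · rw [hm0]; simp
    · rw [hψ ψ hm0]
  intro ψ hmψ
  -- the stabilizer
  set S : Subgroup G := (P : Subgroup G) ⊓ Char.inertia N (ψ : N → ℂ) with hSdef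
  have hSP : S ≤ (P : Subgroup G) := inf_le_left
  have hSp : IsPGroup p S := P.isPGroup'.to_le hSP
  -- the orbit
  have horb := H79.card_pOrb N (P : Subgroup G) (ψ : N → ℂ)
  rw [← hSdef] at horb
  have hdegle := H79.card_pOrb_mul_le hχ N (P : Subgroup G) ψ (by rw [hm ψ]; exact_mod_cast hmψ)
  set O : ℕ := (H79.pOrb N (P : Subgroup G) (ψ : N → ℂ)).card with hO
  set e : ℕ := charDegree (ψ : N → ℂ) with he
  have hepos : 0 < e := H79.irr_degree_pos ψ
  have hPpos : 0 < Nat.card (P : Subgroup G) := Nat.card_pos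
  have hOpos : 0 < O := by
    rcases Nat.eq_zero_or_pos O with h | h
    · rw [h, zero_mul] at horb
      omega
    · exact h
  have hbound : O * e ^ 2 ≤ Nat.card S := by
    have h1 : (O * e) ^ 2 ≤ O * Nat.card S := by
      rw [horb]
      exact (Nat.pow_le_pow_left hdegle 2).trans hdeg
    have h2 : O * (O * e ^ 2) ≤ O * Nat.card S := by
      calc O * (O * e ^ 2) = (O * e) ^ 2 := by ring
        _ ≤ _ := h1
    exact Nat.le_of_mul_le_mul_left h2 hOpos
  have hdegS : e ^ 2 ≤ Nat.card S := by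
    calc e ^ 2 = 1 * e ^ 2 := (one_mul _).symm
      _ ≤ O * e ^ 2 := Nat.mul_le_mul_right _ hOpos
      _ ≤ _ := hbound
  have hSne : S ≠ ⊥ := by
    intro h
    rw [h, Subgroup.card_bot] at hbound horb
    rw [mul_one] at horb
    have h1 : O * 1 ≤ O * e ^ 2 := Nat.mul_le_mul_left _ (Nat.one_le_pow _ _ hepos)
    have h2 : Nat.card (P : Subgroup G) ≤ 1 := by omega
    apply hPbot
    rw [← Subgroup.card_eq_one]
    omega
  obtain ⟨⟨s, hsS⟩, hs1'⟩ := Subgroup.ne_bot_iff_exists_ne_one.mp hSne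
  have hs1 : s ≠ 1 := fun h => hs1' (Subtype.ext h)
  -- the scalar lemma
  have hscal : ∀ t ∈ S, ∀ (a b : N), (b : G) = a * t * (a : G)⁻¹ * t⁻¹ →
      (ψ : N → ℂ) b = (ψ : N → ℂ) 1 := by
    intro t ht a b hab
    exact H79.scalar_transport p N S C hpN hSp ψ (fun g hg => ((Char.mem_inertia N).mp hg.2))
      inf_le_left (fun s hs hs1 n hn => hCP s (hSP hs) hs1 n hn) hdegS t ht a b hab
  -- the commutator subgroup
  set A : Subgroup G := Subgroup.zpowers s with hA
  have hAS : A ≤ S := by rw [hA, Subgroup.zpowers_le]; exact hsS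
  have hAN : A ≤ Subgroup.normalizer (N : Set G) := by
    rw [Subgroup.normalizer_eq_top_iff.mpr hNn]; exact le_top
  have hAcop : (Nat.card A).Coprime (Nat.card N) :=
    Nat.Coprime.coprime_dvd_left (Subgroup.card_dvd_of_le (hAS.trans hSP)) hcopPN
  have hAsolv : Group.IsSolvable A := by
    have : IsPGroup p A := hSp.to_le hAS
    have := this.isNilpotent
    infer_instance
  obtain ⟨u, hu, c, hc, hnuc⟩ := Cop.exists_eq_mul_of_mem hAN hAcop (Or.inl hAsolv) n.2
  have hK : ⁅N, A⁆ ≤ (H75.charKer (CharBase.irr_isCharacter ψ)).map N.subtype := by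
    rw [Subgroup.commutator_le]
    intro a ha t ht
    rw [commutatorElement_def]
    have h1 : a * t * a⁻¹ * t⁻¹ ∈ N := by
      have : a * t * a⁻¹ * t⁻¹ = a * (t * a⁻¹ * t⁻¹) := by group
      rw [this]
      exact N.mul_mem ha (hNn.conj_mem _ (N.inv_mem ha) t)
    refine ⟨⟨a * t * a⁻¹ * t⁻¹, h1⟩, ?_, rfl⟩
    show (ψ : N → ℂ) ⟨a * t * a⁻¹ * t⁻¹, h1⟩ = (ψ : N → ℂ) 1
    exact hscal t (hAS ht) ⟨a, ha⟩ ⟨a * t * a⁻¹ * t⁻¹, h1⟩ rfl
  have hzK : z * u⁻¹ * z⁻¹ ∈ ⁅N, A⁆ := by
    have h1 : (⁅N, A⁆).map (MulAut.conj z).toMonoidHom = ⁅N, A⁆ := by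
      rw [Subgroup.map_commutator]
      congr 1
      · ext x
        rw [Subgroup.mem_map]
        constructor
        · rintro ⟨y, hy, rfl⟩
          exact hNn.conj_mem y hy z
        · intro hx
          refine ⟨z⁻¹ * x * z, ?_, ?_⟩
          · have := hNn.conj_mem x hx z⁻¹
            rwa [inv_inv] at this
          · show z * (z⁻¹ * x * z) * z⁻¹ = x
            group
      · rw [hA, MonoidHom.map_zpowers]
        congr 1
        show z * s * z⁻¹ = s
        rw [hzc s (hSP hsS), mul_inv_cancel_right]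
    have h2 : (MulAut.conj z).toMonoidHom u⁻¹ ∈ (⁅N, A⁆).map (MulAut.conj z).toMonoidHom :=
      Subgroup.mem_map_of_mem _ ((⁅N, A⁆).inv_mem hu)
    rw [h1] at h2
    exact h2
  have hfin : (n : G) * z * (n : G)⁻¹ * z⁻¹ ∈ ⁅N, A⁆ := by
    have hcz : c * z = z * c := by
      have h1 : c * s = s * c := (Subgroup.mem_centralizer_iff.mp hc.2 s
        (Subgroup.mem_zpowers s)).symm
      have h2 : c ∈ C := (hCP s (hSP hsS) hs1 c hc.1).mpr h1
      exact (Subgroup.mem_centralizer_iff.mp h2.2 z hzP).symm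
    have h1 : (n : G) * z * (n : G)⁻¹ * z⁻¹ = u * (z * u⁻¹ * z⁻¹) := by
      rw [hnuc]
      have : u * c * z * (u * c)⁻¹ * z⁻¹ = u * (c * z * c⁻¹) * u⁻¹ * z⁻¹ := by group
      rw [this, hcz]
      group
    rw [h1]
    exact (⁅N, A⁆).mul_mem hu hzK
  obtain ⟨b, hb, hb'⟩ := hK hfin
  have hb'' : b = ⟨_, hmem⟩ := Subtype.ext hb'
  rw [← hb'']
  exact hb

end Cfsg.Agent.S4748
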