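import Cfsg.Statements.S4750
import Cfsg.Agent.H79.TIModular
import Cfsg.Agent.H79.Basic
import Cfsg.Agent.H79.Linearity
import Cfsg.Agent.H78.Invariants

set_option autoImplicit false
open scoped Pointwise
open Cfsg

namespace Cfsg.Agent.S4750


open scoped ComplexConjugate Pointwise

theorem isCharacter_conj' {G : Type*} [Group G] [Finite G] {χ : G → ℂ} (hχ : IsCharacter G χ) :
    IsCharacter G (fun g => conj (χ g)) := by
  have := Fintype.ofFinite G
  have := Fintype.ofFinite (IrrCharacter G)
  obtain ⟨m, hm, hsum⟩ := CharBase.exists_mult_of_isCharacter hχ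
  have h1 : (fun g => conj (χ g)) = ∑ ξ : IrrCharacter G, m ξ • (fun g => conj ((ξ : G → ℂ) g)) := by
    funext g
    rw [hsum, Finset.sum_apply, Finset.sum_apply, map_sum]
    refine Finset.sum_congr rfl (fun ξ _ => ?_)
    rw [Pi.smul_apply, Pi.smul_apply, map_nsmul]
  rw [h1]
  exact CharBase.isCharacter_sum _ _ (fun ξ _ => CharBase.isCharacter_nsmul
    (CharBase.isCharacter_of_isIrr (CharBase.isIrrCharacter_conj ξ.2)) _)

theorem inner_eq_zero {G : Type*} [Group G] [Finite G] (p : ℕ) [Fact p.Prime] (P : Sylow p G)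
    (hTI : ∀ g : G, g ∉ Subgroup.normalizer ((P : Subgroup G) : Set G) →
      (P : Subgroup G) ⊓ (MulAut.conj g • (P : Subgroup G)) = ⊥)
    (ξ : IrrCharacter G) (hξ : ξ ≠ CharBase.oneIrr G)
    (hdeg : charDegree (ξ : G → ℂ) < Nat.card (P : Subgroup G)) (H : Subgroup G) [Fintype H]
    (hH : Subgroup.normalizer ((P : Subgroup G) : Set G) ≤ H) :
    classInner (fun h : ↥H => (ξ : G → ℂ) h) (fun _ => 1) = 0 := by
  obtain ⟨n, ρ, hρ, hch, hn, hpos⟩ := H79.irr_exists_rep ξ
  have hne : ρ.character ≠ fun _ => 1 := by
    intro h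
    apply hξ
    apply Subtype.ext
    rw [← hch, h]; rfl
  have htop := H78.fixedBySub_top_eq_bot ρ hρ hne
  have hbot : H78.fixedBySub ρ H = ⊥ := by
    rw [eq_bot_iff]
    intro v hv
    rw [Submodule.mem_bot]
    by_contra hv0
    rw [H78.mem_fixedBySub] at hv
    obtain ⟨u, hu, hu'⟩ := H79.exists_fixed_of_TI p P hTI ρ (by rw [← hn]; exact hdeg) v hv0
      (fun g hg => hv g (hH hg))
    have : u ∈ H78.fixedBySub ρ ⊤ := by
      rw [H78.mem_fixedBySub]
      exact fun g _ => hu' g
    rw [htop, Submodule.mem_bot] at this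
    exact hu this
  rw [← hch, H78.classInner_restrict_one, hbot, finrank_bot]
  simp


/-- Let P be a Sylow p-subgroup of the finite group G that meets each conjugate g P g⁻¹ with g outside N_G(P) trivially, χ a character of G with χ(1)² ≤ |P|, and H a subgroup of G containing N_G(P). Then the inner product of χ with itself over G equals the inner product over H of the restriction of χ to H. -/
theorem result {G : Type*} [Group G] [Fintype G] [DecidableEq G] (p : ℕ) [Fact p.Prime] (P : Sylow p G) (hTI : ∀ g : G, g ∉ Subgroup.normalizer ((P : Subgroup G) : Set G) → (P : Subgroup G) ⊓ (MulAut.conj g • (P : Subgroup G)) = ⊥) (χ : G → ℂ) (hχ : Cfsg.IsCharacter G χ) (hdeg : Cfsg.charDegree χ ^ 2 ≤ Nat.card ↥(P : Subgroup G)) (H : Subgroup G) [Fintype ↥H] (hH : Subgroup.normalizer ((P : Subgroup G) : Set G) ≤ H) : Cfsg.classInner χ χ = Cfsg.classInner (fun h : ↥H => χ h) (fun h : ↥H => χ h) := by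

  classical
  have hcl : IsClassFunction G χ := CharBase.isClassFunction_of_isCharacter hχ
  set Ψ : G → ℂ := fun g => χ g * conj (χ g) with hΨ
  have hΨc : IsCharacter G Ψ := CharBase.isCharacter_mul hχ (isCharacter_conj' hχ)
  have := Fintype.ofFinite (IrrCharacter G)
  obtain ⟨m, hm, hsum⟩ := CharBase.exists_mult_of_isCharacter hΨc
  have h1 : classInner χ χ = classInner Ψ (fun _ => 1) := by
    simp only [classInner, hΨ, map_one, mul_one]
  have h2 : classInner (fun h : ↥H => χ h) (fun h : ↥H => χ h) =
      classInner (fun h : ↥H => Ψ h) (fun _ => 1) := by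
    simp only [classInner, hΨ, map_one, mul_one]
  have h3 : classInner (fun h : ↥H => Ψ h) (fun _ => 1) =
      ∑ ξ : IrrCharacter G, (m ξ : ℂ) * classInner (fun h : ↥H => (ξ : G → ℂ) h) (fun _ => 1) := by
    have h4 : (fun h : ↥H => Ψ h) = ∑ ξ : IrrCharacter G, (m ξ : ℂ) • (fun h : ↥H => (ξ : G → ℂ) h) := by
      funext h
      rw [hsum, Finset.sum_apply, Finset.sum_apply]
      refine Finset.sum_congr rfl (fun ξ _ => ?_)
      rw [Pi.smul_apply, Pi.smul_apply, nsmul_eq_mul, smul_eq_mul]
    rw [h4, CharBase.classInner_sum_left]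
    refine Finset.sum_congr rfl (fun ξ _ => ?_)
    rw [CharBase.classInner_smul_left]
  have h5 : classInner Ψ (fun _ => 1) = (m (CharBase.oneIrr G) : ℂ) := hm (CharBase.oneIrr G)
  rw [h1, h2, h3, h5]
  symm
  rw [Finset.sum_eq_single (CharBase.oneIrr G)]
  · have : classInner (fun h : ↥H => (CharBase.oneIrr G : G → ℂ) h) (fun _ => 1) = 1 := by
      simp only [classInner, CharBase.oneIrr_apply, map_one, mul_one, Finset.sum_const,
        Finset.card_univ, nsmul_eq_mul, ← Nat.card_eq_fintype_card]
      have : (Nat.card H : ℂ) ≠ 0 := by exact_mod_cast (Nat.card_pos (α := H)).ne'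
      field_simp
    rw [this, mul_one]
  · intro ξ _ hξ
    by_cases hm0 : m ξ = 0
    · rw [hm0, Nat.cast_zero, zero_mul]
    · rw [inner_eq_zero p P hTI ξ hξ ?_ H hH, mul_zero]
      -- degree bound
      have hdegsum : charDegree Ψ = ∑ ξ : IrrCharacter G, m ξ * charDegree (ξ : G → ℂ) := by
        apply H79.charDegree_eq
        rw [hsum, Finset.sum_apply]
        push_cast
        refine Finset.sum_congr rfl (fun ξ _ => ?_)
        rw [Pi.smul_apply, nsmul_eq_mul, H79.irr_one]
      have hΨd : charDegree Ψ = charDegree χ ^ 2 := by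
        apply H79.charDegree_eq
        rw [hΨ]
        simp only
        rw [H79.char_one_eq hχ, Complex.conj_natCast]
        push_cast; ring
      have hone : m (CharBase.oneIrr G) ≠ 0 := by
        intro h0
        rw [h0, Nat.cast_zero, ← h1] at h5
        have hχ0 : χ = 0 := by
          have h6 : χ 1 = 0 := by
            have h7 : ∑ g : G, ‖χ g‖ ^ 2 = 0 := by
              have h8 : ((∑ g : G, ‖χ g‖ ^ 2 : ℝ) : ℂ) = 0 := by
                unfold classInner at h5
                rcases mul_eq_zero.mp h5 with h9 | h9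
                · exfalso
                  have : (Nat.card G : ℂ) ≠ 0 := by exact_mod_cast (Nat.card_pos (α := G)).ne'
                  exact this (inv_eq_zero.mp h9)
                · rw [← h9]
                  push_cast
                  refine Finset.sum_congr rfl (fun g _ => ?_)
                  rw [Complex.mul_conj, Complex.normSq_eq_norm_sq]
                  push_cast; rfl
              exact_mod_cast h8
            have h8 := (Finset.sum_eq_zero_iff_of_nonneg (fun g _ => by positivity)).mp h7 1
              (Finset.mem_univ _)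
            simpa using h8
          funext g
          have h9 := H79.norm_le_degree hχ g
          rw [H79.charDegree_eq (n := 0) (by rw [h6]; simp)] at h9
          simpa using h9
        apply hm0
        have h10 : classInner Ψ (ξ : G → ℂ) = 0 := by
          simp [classInner, hΨ, hχ0]
        rw [hm ξ] at h10
        exact_mod_cast h10
      have h6 : m (CharBase.oneIrr G) * charDegree (CharBase.oneIrr G : G → ℂ) +
          m ξ * charDegree (ξ : G → ℂ) ≤ charDegree χ ^ 2 := by
        rw [← hΨd, hdegsum, ← Finset.sum_pair (f := fun ξ : IrrCharacter G =>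
          m ξ * charDegree (ξ : G → ℂ)) (Ne.symm hξ)]
        exact Finset.sum_le_sum_of_subset (Finset.subset_univ _)
      have h7 : charDegree (CharBase.oneIrr G : G → ℂ) = 1 := H79.charDegree_eq (by simp)
      rw [h7, mul_one] at h6
      have h8 : 0 < m (CharBase.oneIrr G) := Nat.pos_of_ne_zero hone
      have h9 : charDegree (ξ : G → ℂ) ≤ m ξ * charDegree (ξ : G → ℂ) :=
        Nat.le_mul_of_pos_left _ (Nat.pos_of_ne_zero hm0)
      omega
  · intro h
    exact absurd (Finset.mem_univ _) h

end Cfsg.Agent.S4750
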