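import Cfsg.Statements.S4754
import Cfsg.Agent.H79.ClassProd

set_option autoImplicit false
open Cfsg

namespace Cfsg.Agent.S4754

/-- For elements x, y of a finite group G, the conjugacy class of x y equals the set of all products of a conjugate of x with a conjugate of y if and only if χ(1) χ(a x a⁻¹ b y b⁻¹) = χ(x) χ(y) for all a, b ∈ G and every irreducible character χ. -/
theorem result {G : Type*} [Group G] [Finite G] (x y : G) : (∀ z : G, IsConj (x * y) z ↔ ∃ a b : G, z = a * x * a⁻¹ * (b * y * b⁻¹)) ↔ ∀ (a b : G) (χ : Cfsg.IrrCharacter G), (χ : G → ℂ) 1 * (χ : G → ℂ) (a * x * a⁻¹ * (b * y * b⁻¹)) = (χ : G → ℂ) x * (χ : G → ℂ) y := by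
  have := Fintype.ofFinite G
  constructor
  · intro h a b χ
    have h1 : ∀ a b : G, IsConj (x * y) (a * x * a⁻¹ * (b * y * b⁻¹)) := fun a b =>
      (h _).mpr ⟨a, b, rfl⟩
    rw [← H79.mul_eq_of_classProd χ x y h1,
      CharBase.classFun_eq_of_isConj (CharBase.irr_isClassFunction χ) (h1 a b)]
  · intro h
    apply H79.classProd_of_values
    intro a b χ
    have h1 := h a b χ
    have h2 := h 1 1 χ
    simp only [one_mul, inv_one, mul_one] at h2
    rw [← h2] at h1
    exact mul_left_cancel₀ (H79.irr_one_ne_zero χ) h1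

end Cfsg.Agent.S4754
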