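import Cfsg.Statements.S4755
import Cfsg.Agent.H79.ClassProd

set_option autoImplicit false
open Cfsg

namespace Cfsg.Agent.S4755

/-- Let x, y be non-identity elements of the finite group G such that χ(x' y') = χ(x') χ(y') for all conjugates x' of x, y' of y and every irreducible character χ. Then the conjugacy class of x y is the set of all products of a conjugate of x with a conjugate of y; every irreducible character of degree greater than 1 vanishes at x y; and the conjugacy class of x y is the coset of the commutator subgroup containing x y. -/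
theorem result {G : Type*} [Group G] [Finite G] (x y : G) (hx : x ≠ 1) (hy : y ≠ 1) (h : ∀ (a b : G) (χ : Cfsg.IrrCharacter G), (χ : G → ℂ) (a * x * a⁻¹ * (b * y * b⁻¹)) = (χ : G → ℂ) (a * x * a⁻¹) * (χ : G → ℂ) (b * y * b⁻¹)) : (∀ z : G, IsConj (x * y) z ↔ ∃ a b : G, z = a * x * a⁻¹ * (b * y * b⁻¹)) ∧ (∀ χ : Cfsg.IrrCharacter G, (χ : G → ℂ) 1 ≠ 1 → (χ : G → ℂ) (x * y) = 0) ∧ (∀ z : G, IsConj (x * y) z ↔ (x * y)⁻¹ * z ∈ commutator G) := by
  classical
  have := Fintype.ofFinite G
  have := Fintype.ofFinite (Cfsg.IrrCharacter G)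
  have hval : ∀ (a b : G) (χ : Cfsg.IrrCharacter G),
      (χ : G → ℂ) (a * x * a⁻¹ * (b * y * b⁻¹)) = (χ : G → ℂ) (x * y) := by
    intro a b χ
    have h2 := h 1 1 χ
    simp only [one_mul, inv_one, mul_one] at h2
    rw [h a b χ, h2, CharBase.irr_isClassFunction χ x a, CharBase.irr_isClassFunction χ y b]
  have h1 := H79.classProd_of_values x y hval
  have h2 : ∀ χ : Cfsg.IrrCharacter G, (χ : G → ℂ) 1 ≠ 1 → (χ : G → ℂ) (x * y) = 0 := by
    intro χ hχ
    have h3 := H79.mul_eq_of_classProd χ x y (fun a b => (h1 _).mpr ⟨a, b, rfl⟩)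
    have h4 := h 1 1 χ
    simp only [one_mul, inv_one, mul_one] at h4
    rw [← h4] at h3
    have h5 : ((χ : G → ℂ) 1 - 1) * (χ : G → ℂ) (x * y) = 0 := by linear_combination h3
    rcases mul_eq_zero.mp h5 with h6 | h6
    · exact absurd (sub_eq_zero.mp h6) hχ
    · exact h6
  refine ⟨h1, h2, ?_⟩
  intro z
  constructor
  · intro hz
    obtain ⟨d, rfl⟩ := isConj_iff.mp hz
    have h3 : (x * y)⁻¹ * (d * (x * y) * d⁻¹) = (x * y)⁻¹ * d * (x * y)⁻¹⁻¹ * d⁻¹ := by
      group
    rw [h3, ← commutatorElement_def]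
    exact Subgroup.commutator_mem_commutator (Subgroup.mem_top _) (Subgroup.mem_top _)
  · intro hz
    by_contra hcon
    have h3 := CharBase.column_orthogonality_of_not_isConj hcon
    have h4 : ∀ χ : Cfsg.IrrCharacter G, (χ : G → ℂ) (x * y) * (starRingEnd ℂ) ((χ : G → ℂ) z) =
        if (χ : G → ℂ) 1 = 1 then 1 else 0 := by
      intro χ
      split_ifs with h5
      · have h6 := CharBase.irr_isCharacter χ
        have h7 : (χ : G → ℂ) z = (χ : G → ℂ) (x * y) := by
          have h8 : commutator G ≤ H75.charKer h6 := by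
            rw [commutator_def, Subgroup.commutator_le]
            intro a _ b _
            rw [H75.mem_charKer, h5, commutatorElement_def]
            exact H75.linear_commutator h6 h5 a b
          have h9 := h8 hz
          rw [H75.mem_charKer, h5] at h9
          have h10 : z = (x * y) * ((x * y)⁻¹ * z) := by group
          rw [h10, Char.linChar_mul h6 h5, h9, mul_one]
        rw [h7, Char.linChar_mul_conj h6 h5]
      · rw [h2 χ h5, zero_mul]
    rw [Finset.sum_congr rfl (fun χ _ => h4 χ), ← Finset.sum_filter, Finset.sum_const,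
      nsmul_eq_mul, mul_one] at h3
    have h5 : (Finset.univ.filter (fun χ : Cfsg.IrrCharacter G => (χ : G → ℂ) 1 = 1)).card = 0 := by
      exact_mod_cast h3
    rw [Finset.card_eq_zero] at h5
    have h6 : CharBase.oneIrr G ∈ (Finset.univ.filter
        (fun χ : Cfsg.IrrCharacter G => (χ : G → ℂ) 1 = 1)) := by simp
    rw [h5] at h6
    simp at h6

end Cfsg.Agent.S4755
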