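import Cfsg.Statements.S4756
import Cfsg.Agent.S4755
import Cfsg.Agent.S0058
import Cfsg.Agent.Cop.Basic
import Cfsg.Agent.H4.BlkQuot
import Cfsg.Agent.H79.Linearity
import Cfsg.Agent.H67.Basic
import Cfsg.Agent.H67.Radical
import Cfsg.Agent.Hall.Hall

set_option autoImplicit false
set_option linter.unusedSectionVars false
set_option linter.style.haveILetI false
open Cfsg

namespace Cfsg.Agent.S4756

open Subgroup
open scoped commutatorElement

universe u

variable {G : Type u} [Group G] [Finite G]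

theorem orderOf_conj' (a x : G) : orderOf (a * x * a⁻¹) = orderOf x := by
  have := orderOf_injective (MulAut.conj a).toMonoidHom (MulAut.conj a).injective x
  simpa using this

/-- (1) ⇒ (2) -/
theorem forward (h : ∀ (x y : G) (χ : Cfsg.IrrCharacter G), x ≠ 1 → y ≠ 1 → (∃ p q a b : ℕ, p.Prime ∧ q.Prime ∧ p ≠ q ∧ orderOf x = p ^ a ∧ orderOf y = q ^ b) → (χ : G → ℂ) (x * y) = (χ : G → ℂ) x * (χ : G → ℂ) y)
    (hnp : ¬ ∃ p : ℕ, p.Prime ∧ IsPGroup p G) (hnc : ¬ IsMulCommutative G) :
    ∃ (p : ℕ) (_ : Fact p.Prime) (P : Sylow p G) (A : Subgroup G), (P : Subgroup G).Normal ∧ IsCyclic ↥A ∧ A ≠ ⊥ ∧ (Nat.card ↥A).Coprime p ∧ A ⊔ (P : Subgroup G) = ⊤ ∧ IsMulCommutative ↥((P : Subgroup G) ⊓ Subgroup.centralizer (A : Set G)) ∧ (⁅A, (P : Subgroup G)⁆).Normal ∧ ((P : Subgroup G) ⊓ Subgroup.centralizer (A : Set G)) ⊔ ⁅A, (P : Subgroup G)⁆ = (P : Subgroup G) ∧ ((P : Subgroup G) ⊓ Subgroup.centralizer (A : Set G)) ⊓ ⁅A, (P : Subgroup G)⁆ = ⊥ ∧ ∀ a ∈ A, a ≠ 1 → ∀ d ∈ ⁅A, (P : Subgroup G)⁆,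 a * d = d * a → d = 1 := by
  classical
  -- class of a mixed product
  have hkey : ∀ x y : G, x ≠ 1 → y ≠ 1 → (∃ p q a b : ℕ, p.Prime ∧ q.Prime ∧ p ≠ q ∧ orderOf x = p ^ a ∧ orderOf y = q ^ b) →
      ∀ z : G, IsConj (x * y) z ↔ (x * y)⁻¹ * z ∈ commutator G := by
    intro x y hx hy hpq
    refine (S4755.result x y hx hy ?_).2.2
    intro a b χ
    apply h
    · intro h1; exact hx (conj_eq_one_iff.1 h1)
    · intro h1; exact hy (conj_eq_one_iff.1 h1)
    · obtain ⟨p, q, i, j, h1, h2, h3, h4, h5⟩ := hpq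
      exact ⟨p, q, i, j, h1, h2, h3, by rw [orderOf_conj', h4], by rw [orderOf_conj', h5]⟩
  have hG' : commutator G ≠ ⊥ := by
    intro h1
    apply hnc
    rw [commutator_def, commutator_eq_bot_iff_le_centralizer] at h1
    exact ⟨⟨fun a b => (mem_centralizer_iff.1 (h1 (mem_top a)) b (mem_top b)).symm⟩⟩
  -- the prime p
  have hcard1 : Nat.card (commutator G) ≠ 1 := fun h1 => hG' (Subgroup.card_eq_one.1 h1)
  obtain ⟨p, hp, hpc⟩ := Nat.exists_prime_and_dvd hcard1
  haveI hpf : Fact p.Prime := ⟨hp⟩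
  obtain ⟨⟨x₀, hx₀⟩, hx₀o⟩ := exists_prime_orderOf_dvd_card' p hpc
  have hx₀o' : orderOf x₀ = p := by rw [← Subgroup.orderOf_mk x₀ hx₀]; exact hx₀o
  have huniq : ∀ q : ℕ, q.Prime → q ∣ Nat.card (commutator G) → q = p := by
    intro q hq hqc
    by_contra hne
    haveI : Fact q.Prime := ⟨hq⟩
    obtain ⟨⟨y₀, hy₀⟩, hy₀o⟩ := exists_prime_orderOf_dvd_card' q hqc
    have hy₀o' : orderOf y₀ = q := by rw [← Subgroup.orderOf_mk y₀ hy₀]; exact hy₀o
    have hx1 : x₀ ≠ 1 := by rintro rfl; rw [orderOf_one] at hx₀o'; exact hp.one_lt.ne hx₀o'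
    have hy1 : y₀ ≠ 1 := by rintro rfl; rw [orderOf_one] at hy₀o'; exact hq.one_lt.ne hy₀o'
    have h1 := (hkey x₀ y₀ hx1 hy1 ⟨p, q, 1, 1, hp, hq, fun h => hne h.symm, by rw [hx₀o', pow_one], by rw [hy₀o', pow_one]⟩ 1).2
      (by rw [mul_one]; exact inv_mem (mul_mem hx₀ hy₀))
    have h2 : x₀ * y₀ = 1 := isConj_one_left.1 h1
    have h3 : y₀ = x₀⁻¹ := (inv_eq_of_mul_eq_one_right h2).symm
    rw [h3, orderOf_inv, hx₀o'] at hy₀o'
    exact hne hy₀o'.symm
  have hG'p : IsPGroup p (commutator G) := by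
    obtain ⟨k, hk⟩ : ∃ k, Nat.card (commutator G) = p ^ k :=
      ⟨_, Nat.eq_prime_pow_of_unique_prime_dvd Nat.card_pos.ne' (fun hq hqc => huniq _ hq hqc)⟩
    exact IsPGroup.of_card hk
  obtain ⟨P⟩ : Nonempty (Sylow p G) := inferInstance
  have hG'P : commutator G ≤ (P : Subgroup G) := by
    obtain ⟨Q, hQ⟩ := hG'p.exists_le_sylow
    obtain ⟨g, hg⟩ := MulAction.exists_smul_eq G Q P
    intro x hx
    rw [← hg]
    have h1 : g⁻¹ * x * g⁻¹⁻¹ ∈ commutator G := (inferInstance : (commutator G).Normal).conj_mem x hx g⁻¹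
    refine ⟨g⁻¹ * x * g⁻¹⁻¹, hQ h1, ?_⟩
    change g * (g⁻¹ * x * g⁻¹⁻¹) * g⁻¹ = x
    group
  have hPn : (P : Subgroup G).Normal := Subgroup.Normal.of_commutator_le G hG'P
  obtain ⟨A, hA⟩ := Subgroup.exists_left_complement'_of_coprime (N := (P : Subgroup G)) P.card_coprime_index
  have hAP : A ⊔ (P : Subgroup G) = ⊤ := hA.sup_eq_top
  have hAinf : A ⊓ (P : Subgroup G) = ⊥ := hA.disjoint.eq_bot
  have hAcard : Nat.card A = (P : Subgroup G).index := (hA.index_eq_card).symm
  have hcopP : (Nat.card A).Coprime (Nat.card (P : Subgroup G)) := by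
    rw [hAcard]; exact P.card_coprime_index.symm
  have hAbot : A ≠ ⊥ := by
    rintro rfl
    apply hnp
    refine ⟨p, hp, ?_⟩
    rw [bot_sup_eq] at hAP
    have h1 := P.isPGroup'
    rw [hAP] at h1
    exact h1.of_equiv Subgroup.topEquiv
  have hcopp : (Nat.card A).Coprime p := by
    rw [hAcard]
    exact ((Nat.Prime.coprime_iff_not_dvd hp).2 P.not_dvd_index).symm
  have hAc : IsMulCommutative A := by
    refine ⟨⟨fun a b => ?_⟩⟩
    have h1 : ⁅(a : G), (b : G)⁆ ∈ A ⊓ (P : Subgroup G) := by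
      refine Subgroup.mem_inf.2 ⟨?_, hG'P (commutator_mem_commutator (mem_top _) (mem_top _))⟩
      rw [commutatorElement_def]
      exact mul_mem (mul_mem (mul_mem a.2 b.2) (inv_mem a.2)) (inv_mem b.2)
    rw [hAinf, mem_bot, commutatorElement_eq_one_iff_mul_comm] at h1
    exact Subtype.ext h1
  -- fixed points on G'
  have hfpf : ∀ a ∈ A, a ≠ 1 → ∀ d ∈ commutator G, a * d = d * a → d = 1 := by
    intro a ha ha1 d hd had
    by_contra hd1
    have hoa : orderOf a ≠ 1 := fun h => ha1 (orderOf_eq_one_iff.1 h)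
    obtain ⟨q, hq, hqa⟩ := Nat.exists_prime_and_dvd hoa
    obtain ⟨k, hk⟩ := hqa
    have ha0 : 0 < orderOf a := orderOf_pos a
    have hk0 : k ≠ 0 := by rintro rfl; omega
    have hoy : orderOf (a ^ k) = q := by
      rw [orderOf_pow_of_dvd hk0 (by rw [hk]; exact Dvd.intro_left _ rfl), hk, Nat.mul_div_cancel _ (Nat.pos_of_ne_zero hk0)]
    have hyA : a ^ k ∈ A := pow_mem ha k
    have hy1 : a ^ k ≠ 1 := by intro h; rw [h, orderOf_one] at hoy; exact hq.one_lt.ne hoy
    have hqp : q ≠ p := by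
      rintro rfl
      have h1 : q ∣ Nat.card A := by
        rw [← hoy]; exact (Subgroup.orderOf_dvd_natCard A hyA)
      exact hq.one_lt.ne' (Nat.eq_one_of_dvd_coprimes hcopp h1 dvd_rfl)
    have hyd : Commute (a ^ k) d := Commute.pow_left had k
    obtain ⟨j, hj⟩ := IsPGroup.iff_orderOf.1 hG'p ⟨d, hd⟩
    rw [Subgroup.orderOf_mk] at hj
    have h1 := (hkey d (a ^ k) hd1 hy1 ⟨p, q, j, 1, hp, hq, hqp.symm, hj, by rw [hoy, pow_one]⟩ (a ^ k)).2 (by
      have h2 : (d * a ^ k)⁻¹ * a ^ k = (a ^ k)⁻¹ * d⁻¹ * (a ^ k)⁻¹⁻¹ := by group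
      rw [h2]
      exact (inferInstance : (commutator G).Normal).conj_mem _ (inv_mem hd) _)
    have h2 : orderOf (d * a ^ k) = orderOf (a ^ k) := by
      obtain ⟨c, hc⟩ := isConj_iff.1 h1
      have h2 := orderOf_conj' c (d * a ^ k)
      rw [hc] at h2
      exact h2.symm
    have h3 : (orderOf d).Coprime (orderOf (a ^ k)) := by
      rw [hj, hoy]
      exact Nat.Coprime.pow_left j ((Nat.coprime_primes hp hq).2 hqp.symm)
    rw [hyd.symm.orderOf_mul_eq_mul_orderOf_of_coprime h3] at h2
    have h4 : 0 < orderOf (a ^ k) := orderOf_pos _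
    have h5 : orderOf d = 1 := by
      have : orderOf d * orderOf (a ^ k) = 1 * orderOf (a ^ k) := by rw [h2, one_mul]
      exact Nat.eq_of_mul_eq_mul_right h4 this
    exact hd1 (orderOf_eq_one_iff.1 h5)
  have hAG' : A ≤ normalizer ((commutator G : Subgroup G) : Set G) := by rw [normalizer_eq_top]; exact le_top
  have hcopG' : (Nat.card A).Coprime (Nat.card (commutator G)) :=
    Nat.Coprime.coprime_dvd_right (Subgroup.card_dvd_of_le hG'P) hcopP
  have hsA := Cop.isSolvable_of_le (le_refl A) (by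
    letI : CommGroup A := { (inferInstance : Group A) with mul_comm := hAc.1.1 }
    infer_instance : Group.IsSolvable A)
  have hcyc : IsCyclic A := by
    by_contra hncyc
    have h1 := S0058.result A (commutator G) hncyc hAG' hcopG'
    apply hG'
    rw [eq_bot_iff, ← h1]
    refine iSup₂_le fun a ha => ?_
    rintro d ⟨hd, hda⟩
    rw [mem_bot]
    exact hfpf a ha.1 ha.2 d hd (mem_centralizer_singleton_iff.1 hda).symm
  obtain ⟨a, haA, ha1⟩ : ∃ a : G, a ∈ A ∧ a ≠ 1 := by
    obtain ⟨a, h⟩ := Subgroup.ne_bot_iff_exists_ne_one.1 hAbot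
    exact ⟨(a : G), a.2, fun h' => h (Subtype.ext h')⟩
  have hCG' : commutator G ⊓ centralizer (A : Set G) = ⊥ := by
    rw [eq_bot_iff]
    rintro d ⟨hd, hda⟩
    rw [mem_bot]
    exact hfpf a haA ha1 d hd (mem_centralizer_iff.1 hda a haA)
  have hD : ⁅A, (P : Subgroup G)⁆ = commutator G := by
    apply le_antisymm
    · exact commutator_mono le_top le_top
    · have h1 := Cop.commutator_sup_centralizer hAG' hcopG' (Or.inl hsA)
      rw [hCG', sup_bot_eq] at h1
      rw [← h1, commutator_comm A]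
      exact commutator_mono hG'P le_rfl
  have hPnn : A ≤ normalizer (((P : Subgroup G) : Subgroup G) : Set G) := by rw [normalizer_eq_top]; exact le_top
  refine ⟨p, hpf, P, A, hPn, hcyc, hAbot, hcopp, hAP, ?_, ?_, ?_, ?_, ?_⟩
  · refine ⟨⟨fun c d => ?_⟩⟩
    have h1 : ⁅(c : G), (d : G)⁆ ∈ commutator G ⊓ centralizer (A : Set G) := by
      refine Subgroup.mem_inf.2 ⟨commutator_mem_commutator (mem_top _) (mem_top _), ?_⟩
      rw [commutatorElement_def]
      exact mul_mem (mul_mem (mul_mem c.2.2 d.2.2) (inv_mem c.2.2)) (inv_mem d.2.2)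
    rw [hCG', mem_bot, commutatorElement_eq_one_iff_mul_comm] at h1
    exact Subtype.ext h1
  · rw [hD]; infer_instance
  · rw [sup_comm, commutator_comm A]
    exact Cop.commutator_sup_centralizer hPnn hcopP (Or.inl hsA)
  · rw [hD, eq_bot_iff, ← hCG']
    exact le_inf inf_le_right (inf_le_left.trans inf_le_right)
  · rw [hD]; exact hfpf

/-- (2) ⇒ (1), the Frobenius-like case -/
theorem backward (p : ℕ) [hp : Fact p.Prime] (P : Sylow p G) (A : Subgroup G) (hPn : (P : Subgroup G).Normal)
    (hcyc : IsCyclic A) (hcop : (Nat.card A).Coprime p) (hAP : A ⊔ (P : Subgroup G) = ⊤)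
    (hCc : IsMulCommutative ((P : Subgroup G) ⊓ centralizer (A : Set G) : Subgroup G))
    (hDn : (⁅A, (P : Subgroup G)⁆).Normal)
    (hCD : ((P : Subgroup G) ⊓ centralizer (A : Set G)) ⊔ ⁅A, (P : Subgroup G)⁆ = (P : Subgroup G))
    (hfpf : ∀ a ∈ A, a ≠ 1 → ∀ d ∈ ⁅A, (P : Subgroup G)⁆, a * d = d * a → d = 1)
    (x y : G) (χ : IrrCharacter G) (hx : x ≠ 1) (hy : y ≠ 1)
    (hxy : ∃ p q a b : ℕ, p.Prime ∧ q.Prime ∧ p ≠ q ∧ orderOf x = p ^ a ∧ orderOf y = q ^ b) :
    (χ : G → ℂ) (x * y) = (χ : G → ℂ) x * (χ : G → ℂ) y := by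
  classical
  haveI := Fintype.ofFinite G
  have hpp := hp.out
  set D := ⁅A, (P : Subgroup G)⁆ with hD
  have hDP : D ≤ (P : Subgroup G) := commutator_le_right A (P : Subgroup G)
  haveI := Fintype.ofFinite D
  by_cases hker : ∀ n ∈ D, (χ : G → ℂ) n = (χ : G → ℂ) 1
  · -- linear case
    have hcomm : commutator G ≤ D := by
      set C := (P : Subgroup G) ⊓ centralizer (A : Set G) with hC
      have hsup : D ⊔ (A ⊔ C) = ⊤ := by
        rw [← hAP, ← hCD]
        rw [sup_comm D, sup_assoc]
      refine Subgroup.Normal.commutator_le_of_self_sup_commutative_eq_top hsup ?_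
      have hA' : A ≤ centralizer (A : Set G) := by
        have hAc : IsMulCommutative A := inferInstance
        intro a ha
        rw [mem_centralizer_iff]
        intro b hb
        exact congrArg Subtype.val (hAc.1.1 ⟨b, hb⟩ ⟨a, ha⟩)
      have hC' : C ≤ centralizer (C : Set G) := by
        intro a ha
        rw [mem_centralizer_iff]
        intro b hb
        exact congrArg Subtype.val (hCc.1.1 ⟨b, hb⟩ ⟨a, ha⟩)
      have hCA : C ≤ centralizer (A : Set G) := inf_le_right
      have hAC : A ≤ centralizer (C : Set G) := by rw [le_centralizer_iff]; exact hCA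
      have h1 : A ⊔ C ≤ centralizer ((A ⊔ C : Subgroup G) : Set G) := by
        rw [le_centralizer_iff]
        refine sup_le ?_ ?_
        · rw [le_centralizer_iff]; exact sup_le hA' hCA
        · rw [le_centralizer_iff]; exact sup_le hAC hC'
      exact ⟨⟨fun a b => Subtype.ext (mem_centralizer_iff.1 (h1 b.2) a a.2)⟩⟩
    have hlin : (χ : G → ℂ) 1 = 1 := by
      apply H79.linear_of_commutators
      intro a b
      apply hker
      apply hcomm
      exact commutator_mem_commutator (mem_top _) (mem_top _)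
    exact Char.linChar_mul (CharBase.irr_isCharacter χ) hlin x y
  · -- vanishing outside P
    have hvan : ∀ g : G, g ∉ (P : Subgroup G) → (χ : G → ℂ) g = 0 := by
      intro g hg
      -- a power of `g` is a nontrivial `p'`-element
      have hcopP : (Nat.card (P : Subgroup G)).Coprime (P : Subgroup G).index := P.card_coprime_index
      have hgD : ∀ d ∈ D, g * d = d * g → d = 1 := by
        intro d hd hgd
        set k := Nat.card (P : Subgroup G) with hk
        have h1 : g ^ k ≠ 1 := by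
          intro h1
          apply hg
          have h2 : (g : G ⧸ (P : Subgroup G)) = 1 := by
            have h3 : orderOf (g : G ⧸ (P : Subgroup G)) ∣ k := by
              apply orderOf_dvd_of_pow_eq_one
              rw [← QuotientGroup.mk_pow, h1, QuotientGroup.mk_one]
            have h4 : orderOf (g : G ⧸ (P : Subgroup G)) ∣ (P : Subgroup G).index := by
              rw [Subgroup.index_eq_card]; exact orderOf_dvd_natCard _
            exact orderOf_eq_one_iff.1 (Nat.eq_one_of_dvd_coprimes hcopP h3 h4)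
          exact (QuotientGroup.eq_one_iff g).1 h2
        -- `g ^ k` is a `p'`-element, conjugate into `A`
        have hoc : (orderOf (g ^ k)).Coprime p := by
          obtain ⟨j, hj⟩ := IsPGroup.iff_card.1 P.isPGroup'
          have hkj : k = p ^ j := hj
          have h2 : (g ^ k) ^ (P : Subgroup G).index = 1 := by
            rw [← pow_mul, hk, Subgroup.card_mul_index]; exact pow_card_eq_one'
          exact Nat.Coprime.coprime_dvd_left (orderOf_dvd_of_pow_eq_one h2)
            ((Nat.Prime.coprime_iff_not_dvd hpp).2 P.not_dvd_index).symm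
        have hsz : ∃ u : G, u * g ^ k * u⁻¹ ∈ A := by
          obtain ⟨j, hj⟩ := IsPGroup.iff_card.1 P.isPGroup'
          have hkj : Nat.card (P : Subgroup G) = p ^ j := hj
          have hcopAP : (Nat.card A).Coprime (Nat.card (P : Subgroup G)) := by
            rw [hkj]; exact Nat.Coprime.pow_right j hcop
          have hidx : (P : Subgroup G).index = Nat.card A := by
            have h2 := Cop.relIndex_sup_eq (H := A) (K := (P : Subgroup G)) (by rw [normalizer_eq_top]; exact le_top)
            rw [hAP, relIndex_top_right] at h2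
            rw [h2, ← Subgroup.inf_relIndex_right, inf_comm, Cop.inf_eq_bot_of_coprime hcopAP, relIndex_bot_left]
          have hcard : Nat.card G = Nat.card A * Nat.card (P : Subgroup G) := by
            rw [← hidx, mul_comm, Subgroup.card_mul_index]
          haveI hsol : Group.IsSolvable G := by
            have hsA : Group.IsSolvable A := by
              letI : CommGroup A := IsCyclic.commGroup
              infer_instance
            have hsP : Group.IsSolvable (P : Subgroup G) := by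
              haveI : Group.IsNilpotent (P : Subgroup G) := P.isPGroup'.isNilpotent
              infer_instance
            have h2 := H67.isSolvable_sup_of_normal (P : Subgroup G) A hsP hsA
            rw [sup_comm, hAP] at h2
            exact Group.isSolvable_of_surjective (f := (Subgroup.topEquiv : (⊤ : Subgroup G) ≃* G).toMonoidHom)
              Subgroup.topEquiv.surjective
          obtain ⟨u, hu⟩ := Hall.hall_le_conj (Nat.card A) (Nat.card (P : Subgroup G)) hcard hcopAP A (zpowers (g ^ k)) rfl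
            (by rw [Nat.card_zpowers, hkj]; exact Nat.Coprime.pow_right j hoc)
          obtain ⟨a, ha, hau⟩ := hu (mem_zpowers _)
          refine ⟨u⁻¹, ?_⟩
          have h3 : u * a * u⁻¹ = g ^ k := hau
          have h4 : u⁻¹ * g ^ k * u⁻¹⁻¹ = a := by rw [← h3]; group
          rw [h4]; exact ha
        obtain ⟨u, hu⟩ := hsz
        have h3 : u * g ^ k * u⁻¹ ≠ 1 := fun h => h1 (conj_eq_one_iff.1 h)
        have h4 : u * d * u⁻¹ ∈ D := hDn.conj_mem d hd u
        have h5 : Commute (g ^ k) d := Commute.pow_left hgd k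
        have h6 := hfpf _ hu h3 _ h4 (by
          calc u * g ^ k * u⁻¹ * (u * d * u⁻¹) = u * (g ^ k * d) * u⁻¹ := by group
            _ = u * (d * g ^ k) * u⁻¹ := by rw [h5.eq]
            _ = _ := by group)
        exact conj_eq_one_iff.1 h6
      -- all elements of `g D` are conjugate to `g`
      have hconj : ∀ d : D, (χ : G → ℂ) (g * d) = (χ : G → ℂ) g := by
        let φ : D → D := fun d => ⟨g⁻¹ * (d * g * (d : G)⁻¹), by
          have h1 : g⁻¹ * (d * g * (d : G)⁻¹) = (g⁻¹ * d * g⁻¹⁻¹) * (d : G)⁻¹ := by group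
          rw [h1]
          exact mul_mem (hDn.conj_mem _ d.2 _) (inv_mem d.2)⟩
        have hinj : Function.Injective φ := by
          intro d e hde
          have h1 : g⁻¹ * ((d : G) * g * (d : G)⁻¹) = g⁻¹ * ((e : G) * g * (e : G)⁻¹) := congrArg Subtype.val hde
          have h2 : (d : G) * g * (d : G)⁻¹ = (e : G) * g * (e : G)⁻¹ := mul_left_cancel h1
          have h3 : (e : G)⁻¹ * d = 1 := by
            apply hgD _ (mul_mem (inv_mem e.2) d.2)
            calc g * ((e : G)⁻¹ * d) = (e : G)⁻¹ * ((e : G) * g * (e : G)⁻¹) * d := by group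
              _ = (e : G)⁻¹ * ((d : G) * g * (d : G)⁻¹) * d := by rw [h2]
              _ = (e : G)⁻¹ * d * g := by group
          exact Subtype.ext (inv_mul_eq_one.1 h3).symm
        intro d
        obtain ⟨e, he⟩ := (Finite.injective_iff_surjective.1 hinj) d
        have h1 : (d : G) = g⁻¹ * (e * g * (e : G)⁻¹) := (congrArg Subtype.val he).symm
        rw [h1, mul_inv_cancel_left]
        exact CharBase.irr_isClassFunction χ g e
      have hsum := H4.sum_coset_eq_zero D χ hker g
      rw [Finset.sum_congr rfl (fun d _ => hconj d), Finset.sum_const, nsmul_eq_mul] at hsum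
      rcases mul_eq_zero.1 hsum with h | h
      · exfalso
        rw [Finset.card_univ, ← Nat.card_eq_fintype_card] at h
        exact Nat.card_pos.ne' (by exact_mod_cast h)
      · exact h
    obtain ⟨r, s, a, b, hr, hs, hrs, hxo, hyo⟩ := hxy
    -- images in `G/P`
    have hmem : ∀ z : G, ∀ (r a : ℕ), r.Prime → orderOf z = r ^ a → z ≠ 1 → (z ∈ (P : Subgroup G) ↔ r = p) := by
      intro z r a hr hzo hz
      constructor
      · intro hzP
        obtain ⟨j, hj⟩ := IsPGroup.iff_orderOf.1 P.isPGroup' ⟨z, hzP⟩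
        rw [Subgroup.orderOf_mk, hzo] at hj
        have ha0 : a ≠ 0 := by
          rintro rfl
          rw [pow_zero, orderOf_eq_one_iff] at hzo
          exact hz hzo
        exact (Nat.prime_dvd_prime_iff_eq hr hpp).1 (hr.dvd_of_dvd_pow (hj ▸ dvd_pow_self r ha0))
      · rintro rfl
        have h1 : IsPGroup r (zpowers z) := IsPGroup.of_card (n := a) (by rw [Nat.card_zpowers, hzo])
        have h2 : zpowers z ≤ (P : Subgroup G) := by
          have h3 : IsPGroup r ((P : Subgroup G) ⊔ zpowers z : Subgroup G) := P.isPGroup'.to_sup_of_normal_left h1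
          have h4 := P.3 h3 le_sup_left
          rw [← h4]; exact le_sup_right
        exact h2 (mem_zpowers z)
    have hx' := hmem x r a hr hxo hx
    have hy' := hmem y s b hs hyo hy
    have hnot : x ∉ (P : Subgroup G) ∨ y ∉ (P : Subgroup G) := by
      by_contra hcon
      push Not at hcon
      exact hrs ((hx'.1 hcon.1).trans (hy'.1 hcon.2).symm)
    have hxyP : x * y ∉ (P : Subgroup G) := by
      intro hxy
      have h1 : (x : G ⧸ (P : Subgroup G)) * (y : G ⧸ (P : Subgroup G)) = 1 := by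
        rw [← QuotientGroup.mk_mul]; exact (QuotientGroup.eq_one_iff _).2 hxy
      have h2 : (y : G ⧸ (P : Subgroup G)) = (x : G ⧸ (P : Subgroup G))⁻¹ := (inv_eq_of_mul_eq_one_right h1).symm
      have h3 : orderOf (x : G ⧸ (P : Subgroup G)) ∣ r ^ a := hxo ▸ orderOf_map_dvd (QuotientGroup.mk' (P : Subgroup G)) x
      have h4 : orderOf (y : G ⧸ (P : Subgroup G)) ∣ s ^ b := hyo ▸ orderOf_map_dvd (QuotientGroup.mk' (P : Subgroup G)) y
      rw [h2, orderOf_inv] at h4
      have h5 : (r ^ a).Coprime (s ^ b) := Nat.Coprime.pow _ _ ((Nat.coprime_primes hr hs).2 hrs)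
      have h6 := Nat.eq_one_of_dvd_coprimes h5 h3 h4
      rw [orderOf_eq_one_iff] at h6
      have h7 : x ∈ (P : Subgroup G) := (QuotientGroup.eq_one_iff x).1 h6
      have h8 : y ∈ (P : Subgroup G) := by
        have := mul_mem (inv_mem h7) hxy
        rwa [inv_mul_cancel_left] at this
      rcases hnot with h | h
      · exact h h7
      · exact h h8
    rw [hvan _ hxyP]
    rcases hnot with h | h
    · rw [hvan x h, zero_mul]
    · rw [hvan y h, mul_zero]

/-- For a finite group G the following are equivalent. (1) χ(x y) = χ(x) χ(y) for every irreducible character χ and all non-identity elements x, y of prime power orders for two different primes. (2) G is a p-group for some prime p, or G is abelian, or for some prime p: G = A P with P a normal Sylow p-subgroup and A a nontrivial cyclic subgroup of order prime to p such that, with C = C_P(A) and D = [A, P], one has P = C D, C abelian, D normal in G, C ∩ D = 1, and A acts fixed-point-freely on D (no non-identity element of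 A centralizes a non-identity element of D). -/
theorem result {G : Type*} [Group G] [Finite G] : (∀ (x y : G) (χ : Cfsg.IrrCharacter G), x ≠ 1 → y ≠ 1 → (∃ p q a b : ℕ, p.Prime ∧ q.Prime ∧ p ≠ q ∧ orderOf x = p ^ a ∧ orderOf y = q ^ b) → (χ : G → ℂ) (x * y) = (χ : G → ℂ) x * (χ : G → ℂ) y) ↔ ((∃ p : ℕ, p.Prime ∧ IsPGroup p G) ∨ IsMulCommutative G ∨ ∃ (p : ℕ) (_ : Fact p.Prime) (P : Sylow p G) (A : Subgroup G), (P : Subgroup G).Normal ∧ IsCyclic ↥A ∧ A ≠ ⊥ ∧ (Nat.card ↥A).Coprime p ∧ A ⊔ (P : Subgroup G) = ⊤ ∧ IsMulCommutative ↥((P : Subgroup G) ⊓ Subgroup.centralizer (A : Set G)) ∧ (⁅A, (P : Subgroup G)⁆).Normal ∧ ((P : Subgroup G) ⊓ Subgroup.centralizer (A : Set G)) ⊔ ⁅A, (P : Subgroup G)⁆ = (P : Subgroup G) ∧ ((P : Subgroup G) ⊓ Subgroup.centralizer (A : Set G)) ⊓ ⁅A, (P : Subgroup G)⁆ = ⊥ ∧ ∀ a ∈ A, a ≠ 1 → ∀ d ∈ ⁅A, (P : Subgroup G)⁆, a * d = d * a → d = 1) := by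
  constructor
  · intro h
    by_cases hnp : ∃ p : ℕ, p.Prime ∧ IsPGroup p G
    · exact Or.inl hnp
    · by_cases hnc : IsMulCommutative G
      · exact Or.inr (Or.inl hnc)
      · exact Or.inr (Or.inr (forward h hnp hnc))
  · rintro (⟨p, hp, hG⟩ | hG | ⟨p, hp, P, A, h1, h2, -, h4, h5, h6, h7, h8, -, h9⟩) x y χ hx hy hxy
    · exfalso
      obtain ⟨r, s, a, b, hr, hs, hrs, hxo, hyo⟩ := hxy
      haveI : Fact p.Prime := ⟨hp⟩
      have key : ∀ z : G, ∀ (r a : ℕ), r.Prime → orderOf z = r ^ a → z ≠ 1 → r = p := by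
        intro z r a hr hzo hz
        obtain ⟨j, hj⟩ := IsPGroup.iff_orderOf.1 hG z
        rw [hzo] at hj
        have ha0 : a ≠ 0 := by
          rintro rfl
          rw [pow_zero, orderOf_eq_one_iff] at hzo
          exact hz hzo
        exact (Nat.prime_dvd_prime_iff_eq hr hp).1 (hr.dvd_of_dvd_pow (hj ▸ dvd_pow_self r ha0))
      exact hrs ((key x r a hr hxo hx).trans (key y s b hs hyo hy).symm)
    · exact Char.linChar_mul (CharBase.irr_isCharacter χ) (H79.linear_of_comm (fun a b => hG.1.1 a b) χ) x y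
    · exact backward p P A h1 h2 h4 h5 h6 h7 h8 h9 x y χ hx hy hxy

end Cfsg.Agent.S4756
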