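import Cfsg.Statements.S4757
import Cfsg.Agent.H79.LinChar
import Cfsg.Agent.Solv.Core

set_option autoImplicit false
open Cfsg

namespace Cfsg.Agent.S4757

open scoped ComplexConjugate

section

variable {G : Type*} [Group G] [Finite G] (u : G) (hu : u ≠ 1) (c : ℂ)
  (hyp : ∀ χ : Cfsg.IrrCharacter G, (χ : G → ℂ) ≠ (fun _ => (1 : ℂ)) →
    ((χ : G → ℂ) 1 - (χ : G → ℂ) u = c ∨ (χ : G → ℂ) u = 0))

include hu hyp

theorem c_ne_zero : c ≠ 0 := by
  classical
  intro hc
  have := Fintype.ofFinite (Cfsg.IrrCharacter G)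
  have h1 := CharBase.sum_degree_mul (G := G) u
  rw [if_neg hu] at h1
  have h2 : ∀ χ : Cfsg.IrrCharacter G, ∃ r : ℝ, 0 ≤ r ∧ (χ : G → ℂ) 1 * (χ : G → ℂ) u = (r : ℂ) := by
    intro χ
    by_cases hχ : (χ : G → ℂ) = fun _ => 1
    · refine ⟨1, zero_le_one, ?_⟩
      rw [hχ]; simp
    · rcases hyp χ hχ with h3 | h3
      · rw [hc, sub_eq_zero] at h3
        refine ⟨(Cfsg.charDegree (χ : G → ℂ) : ℝ) ^ 2, by positivity, ?_⟩
        rw [← h3, H79.irr_one]; push_cast; ring
      · exact ⟨0, le_rfl, by rw [h3]; simp⟩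
  choose r hr0 hr using h2
  have h3 : ∑ χ : Cfsg.IrrCharacter G, r χ = 0 := by
    have h4 : ((∑ χ : Cfsg.IrrCharacter G, r χ : ℝ) : ℂ) = 0 := by
      push_cast
      rw [← h1]
      exact Finset.sum_congr rfl (fun χ _ => (hr χ).symm)
    exact_mod_cast h4
  rw [Finset.sum_eq_zero_iff_of_nonneg (fun χ _ => hr0 χ)] at h3
  have h4 := h3 (CharBase.oneIrr G) (Finset.mem_univ _)
  have h5 := hr (CharBase.oneIrr G)
  rw [h4] at h5
  simp at h5

theorem linear_val (l : Cfsg.IrrCharacter G) (hl : (l : G → ℂ) 1 = 1)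
    (hl' : (l : G → ℂ) ≠ fun _ => 1) : (l : G → ℂ) u = 1 - c := by
  rcases hyp l hl' with h | h
  · rw [hl] at h; linear_combination -h
  · exact absurd h (Char.linChar_ne_zero (CharBase.irr_isCharacter l) hl u)

/-- product of nonprincipal linear characters is principal -/
theorem linMul_eq (l m : Cfsg.IrrCharacter G) (hl : (l : G → ℂ) 1 = 1)
    (hl' : (l : G → ℂ) ≠ fun _ => 1) (hm : (m : G → ℂ) 1 = 1)
    (hm' : (m : G → ℂ) ≠ fun _ => 1) : (fun g => (l : G → ℂ) g * (m : G → ℂ) g) = fun _ => 1 := by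
  by_contra h
  have h1 := linear_val u hu c hyp (H79.linMul l m hl hm) (by simp [hl, hm]) h
  rw [H79.linMul_apply, linear_val u hu c hyp l hl hl', linear_val u hu c hyp m hm hm'] at h1
  have h2 := Char.linChar_ne_zero (CharBase.irr_isCharacter l) hl u
  rw [linear_val u hu c hyp l hl hl'] at h2
  have h3 : (1 - c) * c = 0 := by linear_combination -h1
  rcases mul_eq_zero.mp h3 with h4 | h4
  · exact h2 h4
  · exact c_ne_zero u hu c hyp h4

theorem linear_unique (l m : Cfsg.IrrCharacter G) (hl : (l : G → ℂ) 1 = 1)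
    (hl' : (l : G → ℂ) ≠ fun _ => 1) (hm : (m : G → ℂ) 1 = 1)
    (hm' : (m : G → ℂ) ≠ fun _ => 1) : l = m := by
  have h1 := linMul_eq u hu c hyp l m hl hl' hm hm'
  have h2 := linMul_eq u hu c hyp m m hm hm' hm hm'
  apply Subtype.ext
  funext g
  have h3 := congrFun h1 g
  have h4 := congrFun h2 g
  have h5 := Char.linChar_ne_zero (CharBase.irr_isCharacter m) hm g
  have h6 : ((l : G → ℂ) g - (m : G → ℂ) g) * (m : G → ℂ) g = 0 := by linear_combination h3 - h4
  rcases mul_eq_zero.mp h6 with h7 | h7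
  · exact sub_eq_zero.mp h7
  · exact absurd h7 h5

theorem c_eq_two (l : Cfsg.IrrCharacter G) (hl : (l : G → ℂ) 1 = 1)
    (hl' : (l : G → ℂ) ≠ fun _ => 1) : c = 2 := by
  have h1 := congrFun (linMul_eq u hu c hyp l l hl hl' hl hl') u
  rw [linear_val u hu c hyp l hl hl'] at h1
  have h2 : c * (c - 2) = 0 := by linear_combination h1
  rcases mul_eq_zero.mp h2 with h3 | h3
  · exact absurd h3 (c_ne_zero u hu c hyp)
  · exact sub_eq_zero.mp h3

/-- the value of `χ(1) χ(u)` for non-linear characters when `c = 2` -/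
theorem val_nonlinear (hc : c = 2) (χ : Cfsg.IrrCharacter G) (hχ : (χ : G → ℂ) 1 ≠ 1) :
    ∃ r : ℝ, 0 ≤ r ∧ (χ : G → ℂ) 1 * (χ : G → ℂ) u = (r : ℂ) ∧ (r = 0 → (χ : G → ℂ) u = 0) := by
  have hχ' : (χ : G → ℂ) ≠ fun _ => 1 := fun h => hχ (congrFun h 1)
  rcases hyp χ hχ' with h | h
  · have hd : 2 ≤ Cfsg.charDegree (χ : G → ℂ) := by
      have h1 := H79.irr_degree_pos χ
      have h2 : Cfsg.charDegree (χ : G → ℂ) ≠ 1 := by
        intro h3
        apply hχ
        rw [H79.irr_one, h3]; simp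
      omega
    have hd' : (2 : ℝ) ≤ (Cfsg.charDegree (χ : G → ℂ) : ℝ) := by exact_mod_cast hd
    have hval : (χ : G → ℂ) u = (Cfsg.charDegree (χ : G → ℂ) : ℂ) - 2 := by
      rw [hc, H79.irr_one] at h
      linear_combination -h
    refine ⟨(Cfsg.charDegree (χ : G → ℂ) : ℝ) * ((Cfsg.charDegree (χ : G → ℂ) : ℝ) - 2), ?_, ?_, ?_⟩
    · apply mul_nonneg <;> linarith
    · rw [hval, H79.irr_one]; push_cast; ring
    · intro h3
      rcases mul_eq_zero.mp h3 with h4 | h4
      · exfalso; linarith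
      · rw [hval]
        have h5 : ((Cfsg.charDegree (χ : G → ℂ) : ℝ) : ℂ) = 2 := by
          have : (Cfsg.charDegree (χ : G → ℂ) : ℝ) = 2 := by linarith
          rw [this]; norm_num
        push_cast at h5
        rw [h5]; ring
  · exact ⟨0, le_rfl, by rw [h]; simp, fun _ => h⟩

omit hu hyp in
theorem sum_split [Fintype (Cfsg.IrrCharacter G)] (f : Cfsg.IrrCharacter G → ℂ)
    [DecidablePred (fun χ : Cfsg.IrrCharacter G => (χ : G → ℂ) 1 = 1)] :
    ∑ χ : Cfsg.IrrCharacter G, f χ =
      ∑ χ ∈ Finset.univ.filter (fun χ : Cfsg.IrrCharacter G => (χ : G → ℂ) 1 = 1), f χ +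
      ∑ χ ∈ Finset.univ.filter (fun χ : Cfsg.IrrCharacter G => ¬ (χ : G → ℂ) 1 = 1), f χ :=
  (Finset.sum_filter_add_sum_filter_not _ _ _).symm

theorem nonlinear_vanish (hc : c = 2) (l : Cfsg.IrrCharacter G) (hl : (l : G → ℂ) 1 = 1)
    (hl' : (l : G → ℂ) ≠ fun _ => 1) (χ : Cfsg.IrrCharacter G) (hχ : (χ : G → ℂ) 1 ≠ 1) :
    (χ : G → ℂ) u = 0 := by
  classical
  have := Fintype.ofFinite (Cfsg.IrrCharacter G)
  have h1 := CharBase.sum_degree_mul (G := G) u
  rw [if_neg hu, sum_split] at h1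
  have hlin : (Finset.univ.filter (fun χ : Cfsg.IrrCharacter G => (χ : G → ℂ) 1 = 1)) =
      {CharBase.oneIrr G, l} := by
    ext ψ
    simp only [Finset.mem_filter, Finset.mem_univ, true_and, Finset.mem_insert,
      Finset.mem_singleton]
    constructor
    · intro h
      by_cases h2 : (ψ : G → ℂ) = fun _ => 1
      · left; exact Subtype.ext h2
      · right; exact linear_unique u hu c hyp ψ l h h2 hl hl'
    · rintro (rfl | rfl)
      · rfl
      · exact hl
  have hne : CharBase.oneIrr G ≠ l := fun h => hl' (by rw [← h]; rfl)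
  rw [hlin, Finset.sum_pair hne, linear_val u hu c hyp l hl hl', hl, hc] at h1
  choose! r hr0 hr hr1 using fun χ : Cfsg.IrrCharacter G => val_nonlinear u hu c hyp hc χ
  have h2 : ∑ χ ∈ Finset.univ.filter (fun χ : Cfsg.IrrCharacter G => ¬ (χ : G → ℂ) 1 = 1), r χ = 0 := by
    have h3 : ((∑ χ ∈ Finset.univ.filter (fun χ : Cfsg.IrrCharacter G => ¬ (χ : G → ℂ) 1 = 1),
        r χ : ℝ) : ℂ) = 0 := by
      push_cast
      rw [Finset.sum_congr rfl (fun χ hχ => (hr χ (Finset.mem_filter.mp hχ).2).symm)]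
      simp only [CharBase.oneIrr_apply] at h1
      linear_combination h1
    exact_mod_cast h3
  rw [Finset.sum_eq_zero_iff_of_nonneg (fun χ hχ => hr0 χ (Finset.mem_filter.mp hχ).2)] at h2
  exact hr1 χ hχ (h2 χ (by simp [hχ]))

theorem exists_linear_of_two (hc : c = 2) :
    ∃ l : Cfsg.IrrCharacter G, (l : G → ℂ) 1 = 1 ∧ (l : G → ℂ) ≠ fun _ => 1 := by
  classical
  by_contra hcon
  push Not at hcon
  have := Fintype.ofFinite (Cfsg.IrrCharacter G)
  have h1 := CharBase.sum_degree_mul (G := G) u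
  rw [if_neg hu, sum_split] at h1
  have hlin : (Finset.univ.filter (fun χ : Cfsg.IrrCharacter G => (χ : G → ℂ) 1 = 1)) =
      {CharBase.oneIrr G} := by
    ext ψ
    simp only [Finset.mem_filter, Finset.mem_univ, true_and, Finset.mem_singleton]
    constructor
    · intro h; exact Subtype.ext (hcon ψ h)
    · rintro rfl; rfl
  rw [hlin, Finset.sum_singleton] at h1
  choose! r hr0 hr hr1 using fun χ : Cfsg.IrrCharacter G => val_nonlinear u hu c hyp hc χ
  have h2 : 1 + ∑ χ ∈ Finset.univ.filter (fun χ : Cfsg.IrrCharacter G => ¬ (χ : G → ℂ) 1 = 1), r χ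
      = 0 := by
    have h3 : ((1 + ∑ χ ∈ Finset.univ.filter (fun χ : Cfsg.IrrCharacter G => ¬ (χ : G → ℂ) 1 = 1),
        r χ : ℝ) : ℂ) = 0 := by
      push_cast
      rw [Finset.sum_congr rfl (fun χ hχ => (hr χ (Finset.mem_filter.mp hχ).2).symm)]
      simp only [CharBase.oneIrr_apply] at h1
      linear_combination h1
    exact_mod_cast h3
  have h3 : 0 ≤ ∑ χ ∈ Finset.univ.filter (fun χ : Cfsg.IrrCharacter G => ¬ (χ : G → ℂ) 1 = 1), r χ :=
    Finset.sum_nonneg (fun χ hχ => hr0 χ (Finset.mem_filter.mp hχ).2)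
  linarith

theorem card_centralizer_eq_two (hc : c = 2) :
    Nat.card (Subgroup.centralizer ({u} : Set G)) = 2 := by
  classical
  have := Fintype.ofFinite (Cfsg.IrrCharacter G)
  obtain ⟨l, hl, hl'⟩ := exists_linear_of_two u hu c hyp hc
  have h1 := CharBase.column_orthogonality_of_isConj (IsConj.refl u)
  have h2 : ∀ χ : Cfsg.IrrCharacter G, (χ : G → ℂ) u * conj ((χ : G → ℂ) u) =
      if χ ∈ ({CharBase.oneIrr G, l} : Finset (Cfsg.IrrCharacter G)) then 1 else 0 := by
    intro χ
    split_ifs with h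
    · rw [Finset.mem_insert, Finset.mem_singleton] at h
      rcases h with rfl | rfl
      · simp
      · exact Char.linChar_mul_conj (CharBase.irr_isCharacter χ) hl u
    · rw [Finset.mem_insert, Finset.mem_singleton, not_or] at h
      have h3 : (χ : G → ℂ) 1 ≠ 1 := by
        intro h4
        by_cases h5 : (χ : G → ℂ) = fun _ => 1
        · exact h.1 (Subtype.ext h5)
        · exact h.2 (linear_unique u hu c hyp χ l h4 h5 hl hl')
      rw [nonlinear_vanish u hu c hyp hc l hl hl' χ h3, zero_mul]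
  have hne : CharBase.oneIrr G ≠ l := fun h => hl' (by rw [← h]; rfl)
  rw [Finset.sum_congr rfl (fun χ _ => h2 χ), Finset.sum_ite_mem, Finset.univ_inter,
    Finset.sum_const, Finset.card_pair hne] at h1
  have h3 : ((2 : ℕ) : ℂ) = (Nat.card (Subgroup.centralizer ({u} : Set G)) : ℂ) := by
    rw [← h1]; simp
  exact_mod_cast h3.symm

theorem cond_a (hc : c = 2) : orderOf u = 2 ∧ Subgroup.zpowers u ⊔ Cfsg.oddCore G = ⊤ ∧
    Subgroup.centralizer ({u} : Set G) = Subgroup.zpowers u := by
  have hcard := card_centralizer_eq_two u hu c hyp hc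
  have hle : Subgroup.zpowers u ≤ Subgroup.centralizer ({u} : Set G) := by
    rw [Subgroup.zpowers_le, Subgroup.mem_centralizer_singleton_iff]
  have hord : orderOf u = 2 := by
    have h1 : orderOf u ∣ 2 := by
      rw [← hcard, ← Nat.card_zpowers]
      exact Subgroup.card_dvd_of_le hle
    rcases (Nat.dvd_prime Nat.prime_two).mp h1 with h2 | h2
    · exact absurd (orderOf_eq_one_iff.mp h2) hu
    · exact h2
  have hcent : Subgroup.centralizer ({u} : Set G) = Subgroup.zpowers u := by
    refine (Subgroup.eq_of_le_of_card_ge hle ?_).symm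
    rw [hcard, Nat.card_zpowers, hord]
  refine ⟨hord, ?_, hcent⟩
  obtain ⟨l, hl, hl'⟩ := exists_linear_of_two u hu c hyp hc
  have hlc := CharBase.irr_isCharacter l
  set K : Subgroup G := H75.charKer hlc with hK
  have hKn : K.Normal := H75.charKer_normal hlc
  have hmem : ∀ g : G, g ∈ K ↔ (l : G → ℂ) g = 1 := fun g => by rw [hK, H75.mem_charKer, hl]
  have hsq : ∀ g : G, (l : G → ℂ) g = 1 ∨ (l : G → ℂ) g = -1 := by
    intro g
    have h1 := congrFun (linMul_eq u hu c hyp l l hl hl' hl hl') g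
    exact mul_self_eq_one_iff.mp h1
  have hlu : (l : G → ℂ) u = -1 := by rw [linear_val u hu c hyp l hl hl', hc]; norm_num
  have huK : u ∉ K := by rw [hmem, hlu]; norm_num
  -- K has odd order
  have hKodd : (Nat.card K).Coprime 2 := by
    rw [Nat.coprime_two_right]
    by_contra hcon
    rw [Nat.not_odd_iff_even, even_iff_two_dvd] at hcon
    -- the 2-group ⟨u⟩ acts on K by conjugation with exactly one fixed point
    let act : MulAction (Subgroup.zpowers u) K :=
      MulAction.compHom K ((MulAut.conjNormal : G →* MulAut K).comp (Subgroup.zpowers u).subtype)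
    have h2 : IsPGroup 2 (Subgroup.zpowers u) := by
      refine IsPGroup.of_card (n := 1) ?_
      rw [Nat.card_zpowers, hord, pow_one]
    have h3 := h2.card_modEq_card_fixedPoints K
    have h4 : Nat.card (MulAction.fixedPoints (Subgroup.zpowers u) K) = 1 := by
      rw [Nat.card_eq_one_iff_unique]
      have h5 : ∀ k : K, k ∈ MulAction.fixedPoints (Subgroup.zpowers u) K → k = 1 := by
        intro k hk
        have h6 : (MulAut.conjNormal u : MulAut K) k = k := hk ⟨u, Subgroup.mem_zpowers u⟩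
        have h7 : u * (k : G) * u⁻¹ = k := by
          have := congrArg Subtype.val h6
          rwa [MulAut.conjNormal_apply] at this
        have h8 : (k : G) ∈ Subgroup.centralizer ({u} : Set G) := by
          rw [Subgroup.mem_centralizer_singleton_iff]
          rw [mul_inv_eq_iff_eq_mul] at h7
          exact h7.symm
        rw [hcent, Subgroup.mem_zpowers_iff] at h8
        obtain ⟨j, hj⟩ := h8
        rcases Int.even_or_odd j with ⟨i, hi⟩ | ⟨i, hi⟩
        · have h9 : u ^ j = 1 := by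
            rw [hi, ← two_mul, zpow_mul]
            have : u ^ (2 : ℤ) = 1 := by
              have := pow_orderOf_eq_one u
              rw [hord] at this
              exact_mod_cast this
            rw [this, one_zpow]
          rw [h9] at hj
          exact Subtype.ext hj.symm
        · exfalso
          have h9 : u ^ j = u := by
            rw [hi, zpow_add, zpow_mul, zpow_one]
            have : u ^ (2 : ℤ) = 1 := by
              have := pow_orderOf_eq_one u
              rw [hord] at this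
              exact_mod_cast this
            rw [this, one_zpow, one_mul]
          rw [h9] at hj
          exact huK (by rw [hj]; exact k.2)
      refine ⟨⟨fun a b => Subtype.ext ((h5 a a.2).trans (h5 b b.2).symm)⟩, ⟨⟨1, ?_⟩⟩⟩
      intro g
      exact map_one (MulAut.conjNormal (g : G) : MulAut K)
    rw [h4] at h3
    have h5 := (Nat.modEq_zero_iff_dvd.mpr hcon).symm.trans h3
    exact absurd h5 (by decide)
  have hKcore : K ≤ Cfsg.oddCore G := le_sSup ⟨hKn, hKodd⟩
  rw [eq_top_iff]
  intro g _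
  rcases hsq g with h | h
  · exact (le_sup_right : Cfsg.oddCore G ≤ _) (hKcore ((hmem g).mpr h))
  · have h1 : u⁻¹ * g ∈ K := by
      rw [hmem, Char.linChar_mul hlc hl, Char.linChar_inv hlc hl, hlu, h]; norm_num
    have h2 : g = u * (u⁻¹ * g) := by group
    rw [h2]
    exact Subgroup.mul_mem_sup (Subgroup.mem_zpowers u) (hKcore h1)

end


/-- Let u ≠ 1 be an element of the finite group G and c a complex number such that every non-principal irreducible character χ satisfies χ(1) − χ(u) = c or χ(u) = 0. Then the following are equivalent: (a) u has order 2, G is generated by u together with O(G), the largest normal subgroup of G of odd order, and the centralizer of u is {1, u}; (b) G is not perfect; (c) c = 2. -/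
theorem result {G : Type*} [Group G] [Finite G] (u : G) (hu : u ≠ 1) (c : ℂ) (hyp : ∀ χ : Cfsg.IrrCharacter G, (χ : G → ℂ) ≠ (fun _ => (1 : ℂ)) → ((χ : G → ℂ) 1 - (χ : G → ℂ) u = c ∨ (χ : G → ℂ) u = 0)) : ((orderOf u = 2 ∧ Subgroup.zpowers u ⊔ Cfsg.oddCore G = ⊤ ∧ Subgroup.centralizer ({u} : Set G) = Subgroup.zpowers u) ↔ commutator G ≠ ⊤) ∧ (commutator G ≠ ⊤ ↔ c = 2) := by
  have hbc : commutator G ≠ ⊤ → c = 2 := by
    intro h
    obtain ⟨l, hl, hl'⟩ := H79.exists_linear_nonprincipal h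
    exact c_eq_two u hu c hyp l hl hl'
  have hcb : c = 2 → commutator G ≠ ⊤ := by
    intro h
    obtain ⟨l, hl, hl'⟩ := exists_linear_of_two u hu c hyp h
    exact H79.commutator_ne_top_of_linear (CharBase.irr_isCharacter l) hl hl'
  refine ⟨⟨?_, fun h => cond_a u hu c hyp (hbc h)⟩, ⟨hbc, hcb⟩⟩
  rintro ⟨h1, h2, -⟩ h3
  -- the derived subgroup lies in the odd core
  have hn : (Cfsg.oddCore G).Normal := inferInstance
  have hodd : (Nat.card (Cfsg.oddCore G)).Coprime 2 := Solv.pPrimeCore_card_coprime 2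
  have h4 : commutator G ≤ Cfsg.oddCore G := by
    have h5 : IsMulCommutative (G ⧸ Cfsg.oddCore G) := by
      have h6 : ∀ x : G ⧸ Cfsg.oddCore G, x ∈ Subgroup.zpowers (QuotientGroup.mk u : G ⧸ Cfsg.oddCore G) := by
        intro x
        obtain ⟨g, rfl⟩ := QuotientGroup.mk_surjective x
        have h7 : g ∈ Subgroup.zpowers u ⊔ Cfsg.oddCore G := by rw [h2]; exact Subgroup.mem_top g
        rw [← SetLike.mem_coe, Subgroup.mul_normal] at h7
        obtain ⟨a, ha, b, hb, rfl⟩ := h7
        rw [QuotientGroup.mk_mul]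
        have h8 : (QuotientGroup.mk b : G ⧸ Cfsg.oddCore G) = 1 := (QuotientGroup.eq_one_iff b).mpr hb
        rw [h8, mul_one]
        obtain ⟨j, rfl⟩ := Subgroup.mem_zpowers_iff.mp ha
        exact Subgroup.mem_zpowers_iff.mpr ⟨j, rfl⟩
      have h9 : IsCyclic (G ⧸ Cfsg.oddCore G) := ⟨⟨_, h6⟩⟩
      exact ⟨⟨fun a b => (IsCyclic.commGroup (α := G ⧸ Cfsg.oddCore G)).mul_comm a b⟩⟩
    rw [commutator_def, Subgroup.commutator_le]
    intro a _ b _
    rw [← QuotientGroup.eq_one_iff, commutatorElement_def]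
    have h10 := h5.is_comm.comm (QuotientGroup.mk a : G ⧸ Cfsg.oddCore G) (QuotientGroup.mk b)
    rw [QuotientGroup.mk_mul, QuotientGroup.mk_mul, QuotientGroup.mk_mul, h10]
    rw [QuotientGroup.mk_inv, QuotientGroup.mk_inv]
    group
  rw [h3, top_le_iff] at h4
  have h5 : u ∈ Cfsg.oddCore G := by rw [h4]; exact Subgroup.mem_top u
  have h6 : orderOf (⟨u, h5⟩ : Cfsg.oddCore G) = 2 := by
    rw [← h1]; exact (Subgroup.orderOf_coe (⟨u, h5⟩ : Cfsg.oddCore G)).symm
  have h7 : 2 ∣ Nat.card (Cfsg.oddCore G) := by rw [← h6]; exact orderOf_dvd_natCard _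
  have h8 := Nat.Coprime.eq_one_of_dvd hodd.symm h7
  omega

end Cfsg.Agent.S4757
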