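import Cfsg.Statements.S4759
import Cfsg.Agent.H9.Dade10

set_option autoImplicit false
open Cfsg

namespace Cfsg.Agent.S4759


open Subgroup Cfsg.Agent.H9.Dade Cfsg.Agent.Char Cfsg.Agent.CharBase

section Aux

variable {G : Type*} [Group G] [Finite G]

/-- the extension criterion for a complemented normal subgroup -/
theorem extend_all {E H K : Subgroup G} [hEn : E.Normal] (hE : Cfsg.IsExtraspecial 2 ↥E)
    (hEH : E ⊓ H = ⊥) (hEHtop : E ⊔ H = ⊤)
    (hKn : ∀ h ∈ H, ∀ k ∈ K, h * k * h⁻¹ ∈ K) (hKodd : Odd (Nat.card ↥K))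
    (hEK : ⁅E, K⁆ = E) {θ : E → ℂ} (hirr : IsIrrCharacter E θ)
    (hθ : ∀ e : E, θ e = θ 1 → e = 1) :
    ∃ χ : G → ℂ, IsIrrCharacter G χ ∧ ∀ n : E, χ n = θ n := by
  classical
  haveI := Fintype.ofFinite G
  haveI := Fintype.ofFinite E
  obtain ⟨hvan, hinv⟩ := theta_invariant hE hirr hθ
  obtain ⟨d, ρ, hρ, rfl⟩ := hirr
  have hirr : IsIrrCharacter E ρ.character := ⟨d, ρ, hρ, rfl⟩
  -- decomposition
  have hdec : ∀ g : G, ∃ a : E, ∃ b : H, g = (a : G) * b := by
    intro g
    have h1 : g ∈ E ⊔ H := by rw [hEHtop]; exact Subgroup.mem_top g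
    obtain ⟨a, ha, b, hb, h2⟩ := Subgroup.mem_sup_of_normal_left.1 h1
    exact ⟨⟨a, ha⟩, ⟨b, hb⟩, h2.symm⟩
  choose a b hab using hdec
  have huniq : ∀ (x x' : E) (y y' : H), (x : G) * y = x' * y' → x = x' ∧ y = y' := by
    intro x x' y y' h
    have h1 : (x' : G)⁻¹ * x = y' * (y : G)⁻¹ := by
      rw [inv_mul_eq_iff_eq_mul, ← mul_assoc, ← h]; group
    have h2 : (x' : G)⁻¹ * x ∈ E ⊓ H := ⟨E.mul_mem (E.inv_mem x'.2) x.2, by
      rw [h1]; exact H.mul_mem y'.2 (H.inv_mem y.2)⟩
    rw [hEH, Subgroup.mem_bot] at h2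
    rw [h2] at h1
    exact ⟨Subtype.ext (inv_mul_eq_one.1 h2).symm, Subtype.ext (mul_inv_eq_one.1 h1.symm).symm⟩
  have hmulab : ∀ g g' : G, a (g * g') = a g * ⟨(b g : G) * a g' * (b g : G)⁻¹,
      hEn.conj_mem _ (a g').2 _⟩ ∧ b (g * g') = b g * b g' := by
    intro g g'
    refine huniq _ _ _ _ ?_
    rw [← hab (g * g')]
    simp only [Subgroup.coe_mul]
    calc g * g' = ((a g : G) * b g) * ((a g' : G) * b g') := by rw [← hab g, ← hab g']
      _ = _ := by group
  have hE1 : ∀ n : E, a n = n ∧ b n = 1 := by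
    intro n
    refine huniq _ _ _ _ ?_
    rw [← hab n]
    simp
  refine exists_extension_of_primes_det hirr hinv fun p hp => ?_
  by_cases hp2 : p = 2
  · left
    subst hp2
    haveI : Fact (Nat.Prime 2) := ⟨Nat.prime_two⟩
    obtain ⟨S, hES⟩ := (hE.1.1).exists_le_sylow
    have hP2 : IsPGroup 2 (↥((S : Subgroup G) ⊓ H) : Type _) := S.2.to_le inf_le_left
    obtain ⟨T, hT1, hTm, hTi⟩ := extend_two hE (H := H) hKn hKodd hEK ρ hρ hinv
      ((S : Subgroup G) ⊓ H) inf_le_right hP2
    have hbP : ∀ s : (S : Subgroup G), (b s : G) ∈ (S : Subgroup G) ⊓ H := by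
      intro s
      refine ⟨?_, (b s).2⟩
      have h1 : (b s : G) = (a s : G)⁻¹ * s := by
        rw [eq_inv_mul_iff_mul_eq]
        exact (hab (s : G)).symm
      rw [h1]
      exact Subgroup.mul_mem _ (Subgroup.inv_mem _ (hES (a s).2)) s.2
    let σ : Representation ℂ (S : Subgroup G) (Fin d → ℂ) :=
      { toFun := fun s => ρ (a s) * T (b s)
        map_one' := by
          have h1 := hE1 1
          rw [Subgroup.coe_one] at h1
          change ρ (a 1) * T (b 1) = 1
          rw [h1.1, h1.2, map_one, Subgroup.coe_one, hT1, one_mul]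
        map_mul' := fun s t => by
          change ρ (a (s * t)) * T (b (s * t)) = ρ (a s) * T (b s) * (ρ (a t) * T (b t))
          have h1 := hTi _ (hbP s) (a t)
          rw [(hmulab s t).1, (hmulab s t).2, map_mul, Subgroup.coe_mul,
            hTm _ (hbP s) _ (hbP t)]
          calc _ = ρ (a s) * (ρ ⟨(b s : G) * a t * (b s : G)⁻¹, hEn.conj_mem _ (a t).2 _⟩ *
                T (b s)) * T (b t) := by simp only [mul_assoc]
            _ = _ := by rw [← h1]; simp only [mul_assoc] }
    have hσ : ∀ n : E, σ.character ⟨n, hES n.2⟩ = ρ.character n := by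
      intro n
      have h1 : σ ⟨n, hES n.2⟩ = ρ n := by
        change ρ (a n) * T (b n) = ρ n
        rw [(hE1 n).1, (hE1 n).2, Subgroup.coe_one, hT1, mul_one]
      simp only [Representation.character, h1]
    refine ⟨indFun (S : Subgroup G) σ.character, (S : Subgroup G).index,
      indFun_isCharacter _ _ (CharBase.isCharacter_of_rep σ), S.not_dvd_index, ?_⟩
    rw [indFun_restrict_of_extends hES hinv hσ, classInner_smul_left,
      classInner_self_of_irr hirr, mul_one]
  · right
    have hT := exists_twist E ρ hρ hinv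
    obtain ⟨T, hT⟩ := hT
    have hdetinv : ∀ (g : G) (n : E), detHom ρ ⟨g * n * g⁻¹, hEn.conj_mem (n : G) n.2 g⟩ =
        detHom ρ n := by
      intro g n
      have h1 := congrArg LinearMap.det (hT.inter g n)
      rw [map_mul, map_mul] at h1
      have h2 : LinearMap.det (T g : Module.End ℂ (Fin d → ℂ)) ≠ 0 :=
        ((T g).isUnit.map LinearMap.det).ne_zero
      rw [detHom_apply, detHom_apply]
      have h3 : LinearMap.det (T g : Module.End ℂ (Fin d → ℂ)) * LinearMap.det (ρ n) =
        LinearMap.det (T g : Module.End ℂ (Fin d → ℂ)) *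
          LinearMap.det (ρ ⟨g * n * g⁻¹, hEn.conj_mem (n : G) n.2 g⟩) := by
        rw [h1, mul_comm]
      exact (mul_left_cancel₀ h2 h3).symm
    let μ : G →* ℂ :=
      { toFun := fun g => detHom ρ (a g)
        map_one' := by
          have h1 := hE1 1
          rw [Subgroup.coe_one] at h1
          rw [h1.1, map_one]
        map_mul' := fun s t => by
          rw [(hmulab s t).1, map_mul, hdetinv] }
    refine ⟨μ, 1, Module.finrank ℂ (Fin d → ℂ), Representation.char_one ρ, ?_, fun n => ?_⟩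
    · rw [mul_one]
      intro hdvd
      have h1 := CC.sq_degree_of_vanish hirr hvan
      rw [Representation.char_one] at h1
      have h2 : (Module.finrank ℂ (Fin d → ℂ)) ^ 2 = (Subgroup.center E).index := by
        exact_mod_cast h1
      have h3 : p ∣ (Subgroup.center E).index := by
        rw [← h2]; exact dvd_pow hdvd two_ne_zero
      have h4 : p ∣ Nat.card E := h3.trans (Subgroup.index_dvd_card _)
      haveI : Fact (Nat.Prime 2) := ⟨Nat.prime_two⟩
      obtain ⟨k, hk⟩ := IsPGroup.iff_card.1 hE.1.1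
      rw [hk] at h4
      exact hp2 ((Nat.prime_dvd_prime_iff_eq hp Nat.prime_two).1 (hp.dvd_of_dvd_pow h4))
    · rw [pow_one, detChar_eq ρ hirr]
      change detHom ρ n = detHom ρ (a n)
      rw [(hE1 n).1]

end Aux


/-- Let G be a finite group that is the semidirect product of a normal extraspecial 2-subgroup E and a complement H acting faithfully on E (no non-identity element of H centralizes E), and suppose H has a normal subgroup K of odd order with [E, K] = E. Then every faithful irreducible character θ of E (there is exactly one) extends to G: some irreducible character of G restricts to θ on E. -/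
theorem result {G : Type*} [Group G] [Finite G] (E H : Subgroup G) [E.Normal] (hE : Cfsg.IsExtraspecial 2 ↥E) (hEH : E ⊓ H = ⊥) (hEHtop : E ⊔ H = ⊤) (hfaith : ∀ h ∈ H, (∀ e ∈ E, h * e = e * h) → h = 1) (K : Subgroup G) (hKH : K ≤ H) (hKn : ∀ h ∈ H, ∀ k ∈ K, h * k * h⁻¹ ∈ K) (hKodd : Odd (Nat.card ↥K)) (hEK : ⁅E, K⁆ = E) (θ : Cfsg.IrrCharacter ↥E) (hθ : ∀ e : ↥E, (θ : ↥E → ℂ) e = (θ : ↥E → ℂ) 1 → e = 1) : ∃ χ : Cfsg.IrrCharacter G, ∀ e : ↥E, (χ : G → ℂ) e = (θ : ↥E → ℂ) e := by
  obtain ⟨χ, hχ, h⟩ := extend_all hE hEH hEHtop hKn hKodd hEK θ.2 hθ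
  exact ⟨⟨χ, hχ⟩, h⟩

end Cfsg.Agent.S4759
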