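import Cfsg.Statements.S4763
import Cfsg.Agent.Glaub.Count
import Cfsg.Agent.Glaub.Solvable
import Cfsg.Agent.Glaub.Inside
import Cfsg.Agent.H74.UniCent
import Cfsg.Agent.H75.ItoConv
import Cfsg.Agent.H67.Basic

set_option autoImplicit false
set_option linter.unusedSectionVars false
open Cfsg

namespace Cfsg.Agent.S4763

open Subgroup Cfsg.Agent.Glaub Cfsg.Agent.CharBase Cfsg.Agent.Char

universe u

section Classes

variable {G : Type u} [Group G] [Finite G] {p : ℕ} [hp : Fact p.Prime]

theorem card_carrier (g : G) : Nat.card (ConjClasses.mk g).carrier = (centralizer ({g} : Set G)).index := by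
  have := H67.ncard_carrier_eq_index g
  exact this

/-- Classes of `p'`-size against the classes of `C_G(P)`. -/
theorem card_classes (P : Sylow p G) (hNC : normalizer ((P : Subgroup G) : Set G) ≤ centralizer ((P : Subgroup G) : Set G)) :
    Nat.card {K : ConjClasses G // ¬ p ∣ Nat.card K.carrier} =
      Nat.card (ConjClasses (centralizer ((P : Subgroup G) : Set G))) := by
  set C := centralizer ((P : Subgroup G) : Set G) with hC
  have hdvd : ∀ c : C, ¬ p ∣ Nat.card (ConjClasses.mk (c : G)).carrier := by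
    intro c h
    rw [card_carrier] at h
    have h1 : (P : Subgroup G) ≤ centralizer ({(c : G)} : Set G) := by
      intro x hx
      rw [mem_centralizer_singleton_iff]
      exact mem_centralizer_iff.1 c.2 x hx
    exact P.not_dvd_index (h.trans (index_dvd_of_le h1))
  let F : ConjClasses C → {K : ConjClasses G // ¬ p ∣ Nat.card K.carrier} := fun K =>
    ⟨ConjClasses.map C.subtype K, by
      obtain ⟨c, rfl⟩ := ConjClasses.exists_rep K
      exact hdvd c⟩
  symm
  refine Nat.card_congr (Equiv.ofBijective F ⟨?_, ?_⟩)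
  · intro K L hKL
    obtain ⟨a, rfl⟩ := ConjClasses.exists_rep K
    obtain ⟨b, rfl⟩ := ConjClasses.exists_rep L
    have h1 : ConjClasses.mk (a : G) = ConjClasses.mk (b : G) := congrArg Subtype.val hKL
    rw [ConjClasses.mk_eq_mk_iff_isConj, isConj_iff] at h1
    obtain ⟨g, hg⟩ := h1
    have h2 : g⁻¹⁻¹ * (a : G) * g⁻¹ ∈ centralizer ((P : Subgroup G) : Set G) := by
      rw [inv_inv, hg]; exact b.2
    obtain ⟨n, hn, hn'⟩ := P.conj_eq_normalizer_conj_of_mem_centralizer (a : G) g⁻¹ a.2 h2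
    rw [inv_inv, hg] at hn'
    change ConjClasses.mk a = ConjClasses.mk b
    rw [ConjClasses.mk_eq_mk_iff_isConj, isConj_iff]
    refine ⟨⟨n⁻¹, inv_mem (hNC hn)⟩, Subtype.ext ?_⟩
    change n⁻¹ * (a : G) * n⁻¹⁻¹ = b
    rw [inv_inv, ← hn']
  · rintro ⟨K, hK⟩
    obtain ⟨g, rfl⟩ := ConjClasses.exists_rep K
    have hK' : ¬ p ∣ (centralizer ({g} : Set G)).index := by
      rw [← card_carrier]; exact hK
    -- a Sylow subgroup of `C(g)` is a Sylow subgroup of `G`
    obtain ⟨R⟩ : Nonempty (Sylow p (centralizer ({g} : Set G))) := inferInstance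
    have hR1 : IsPGroup p ((R : Subgroup (centralizer ({g} : Set G))).map (centralizer ({g} : Set G)).subtype) :=
      R.isPGroup'.map _
    have hR2 : ¬ p ∣ ((R : Subgroup (centralizer ({g} : Set G))).map (centralizer ({g} : Set G)).subtype).index := by
      rw [index_map_subtype]
      intro h
      rcases (Nat.Prime.dvd_mul hp.out).1 h with h | h
      · exact R.not_dvd_index h
      · exact hK' h
    let R' : Sylow p G := IsPGroup.toSylow hR1 hR2
    obtain ⟨u, hu⟩ := MulAction.exists_smul_eq G R' P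
    have hc : u * g * u⁻¹ ∈ C := by
      rw [hC, mem_centralizer_iff]
      intro y hy
      have hy' : y ∈ ((u • R' : Sylow p G) : Subgroup G) := by rw [hu]; exact hy
      obtain ⟨r, hr, rfl⟩ := hy'
      obtain ⟨r', -, hr'⟩ : r ∈ (R : Subgroup (centralizer ({g} : Set G))).map (centralizer ({g} : Set G)).subtype := hr
      have h3 : r * g = g * r := by
        rw [← hr']
        exact mem_centralizer_singleton_iff.1 r'.2
      change u * r * u⁻¹ * (u * g * u⁻¹) = u * g * u⁻¹ * (u * r * u⁻¹)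
      calc u * r * u⁻¹ * (u * g * u⁻¹) = u * (r * g) * u⁻¹ := by group
        _ = u * (g * r) * u⁻¹ := by rw [h3]
        _ = _ := by group
    refine ⟨ConjClasses.mk ⟨u * g * u⁻¹, hc⟩, Subtype.ext ?_⟩
    change ConjClasses.mk (u * g * u⁻¹) = ConjClasses.mk g
    rw [ConjClasses.mk_eq_mk_iff_isConj, isConj_comm, isConj_iff]
    exact ⟨u, rfl⟩

theorem card_conj_prod (A B : Type*) [Group A] [Group B] [Finite A] [Finite B] :
    Nat.card (ConjClasses (A × B)) = Nat.card (ConjClasses A) * Nat.card (ConjClasses B) := by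
  have h := commProb_prod A B
  rw [commProb_def', commProb_def', commProb_def', Nat.card_prod] at h
  have hA : (Nat.card A : ℚ) ≠ 0 := by exact_mod_cast Nat.card_pos.ne'
  have hB : (Nat.card B : ℚ) ≠ 0 := by exact_mod_cast Nat.card_pos.ne'
  push_cast at h
  field_simp at h
  exact_mod_cast h

theorem card_conj_of_comm {A : Type*} [Group A] [Finite A] (h : ∀ a b : A, a * b = b * a) :
    Nat.card (ConjClasses A) = Nat.card A := by
  symm
  refine Nat.card_congr (Equiv.ofBijective ConjClasses.mk ⟨fun a b hab => ?_, ConjClasses.mk_surjective⟩)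
  rw [ConjClasses.mk_eq_mk_iff_isConj, isConj_iff] at hab
  obtain ⟨c, hc⟩ := hab
  rw [← hc, h c a, mul_inv_cancel_right]

theorem card_conj_congr {A B : Type*} [Group A] [Group B] (e : A ≃* B) :
    Nat.card (ConjClasses A) = Nat.card (ConjClasses B) := by
  refine Nat.card_congr ⟨ConjClasses.map e.toMonoidHom, ConjClasses.map e.symm.toMonoidHom, ?_, ?_⟩
  · intro K
    obtain ⟨a, rfl⟩ := ConjClasses.exists_rep K
    change ConjClasses.mk (e.symm (e a)) = _
    rw [e.symm_apply_apply]
  · intro K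
    obtain ⟨a, rfl⟩ := ConjClasses.exists_rep K
    change ConjClasses.mk (e (e.symm a)) = _
    rw [e.apply_symm_apply]

/-- Classes of `C_G(P) = C_N(P) × P`. -/
theorem card_cent (N : Subgroup G) [N.Normal] (P : Sylow p G) (hNP : N ⊔ (P : Subgroup G) = ⊤)
    (hcop : (Nat.card N).Coprime (Nat.card (P : Subgroup G)))
    (hab : ∀ a ∈ (P : Subgroup G), ∀ b ∈ (P : Subgroup G), a * b = b * a) :
    Nat.card (ConjClasses (centralizer ((P : Subgroup G) : Set G))) =
      Nat.card (ConjClasses (N ⊓ centralizer ((P : Subgroup G) : Set G) : Subgroup G)) * Nat.card (P : Subgroup G) := by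
  set C := centralizer ((P : Subgroup G) : Set G) with hC
  have hPC : (P : Subgroup G) ≤ C := by
    intro a ha
    rw [hC, mem_centralizer_iff]
    intro b hb
    exact hab b hb a ha
  have hbot : N ⊓ (P : Subgroup G) = ⊥ := (Subgroup.disjoint_of_coprime_natCard hcop).eq_bot
  have hcomm : ∀ (m : (N ⊓ C : Subgroup G)) (n : (P : Subgroup G)), Commute (m : G) (n : G) := by
    intro m n
    exact (mem_centralizer_iff.1 m.2.2 n n.2).symm
  let f : (N ⊓ C : Subgroup G) × (P : Subgroup G) →* C :=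
    (MonoidHom.noncommCoprod (N ⊓ C).subtype (P : Subgroup G).subtype hcomm).codRestrict C (by
      rintro ⟨m, n⟩
      exact mul_mem m.2.2 (hPC n.2))
  have hf : Function.Bijective f := by
    constructor
    · rw [injective_iff_map_eq_one]
      rintro ⟨m, n⟩ hmn
      have h1 : (m : G) * (n : G) = 1 := congrArg Subtype.val hmn
      have h3 : (m : G) ∈ (P : Subgroup G) := by
        rw [eq_inv_of_mul_eq_one_left h1]
        exact inv_mem n.2
      have h2 : (m : G) ∈ N ⊓ (P : Subgroup G) := ⟨m.2.1, h3⟩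
      rw [hbot, mem_bot] at h2
      rw [h2, one_mul] at h1
      exact Prod.ext (Subtype.ext h2) (Subtype.ext h1)
    · rintro ⟨c, hc⟩
      have hc' : c ∈ N ⊔ (P : Subgroup G) := by rw [hNP]; trivial
      obtain ⟨n, hn, x, hx, hnx⟩ := mem_sup_of_normal_left.1 hc'
      have hnC : n ∈ C := by
        have : n = c * x⁻¹ := by rw [← hnx, mul_inv_cancel_right]
        rw [this]; exact mul_mem hc (inv_mem (hPC hx))
      exact ⟨(⟨n, hn, hnC⟩, ⟨x, hx⟩), Subtype.ext hnx⟩
  rw [← card_conj_congr (MulEquiv.ofBijective f hf), card_conj_prod, card_conj_of_comm (A := (P : Subgroup G))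
    (fun a b => Subtype.ext (hab a a.2 b b.2))]

end Classes

section Chars

open scoped ComplexConjugate BigOperators
open Cfsg.Agent.H75

variable {G : Type u} [Group G] [Finite G] {p : ℕ} [hp : Fact p.Prime]

theorem invariant_of_coprime (K : Subgroup G) [K.Normal] (χ : IrrCharacter G)
    (hdeg : (charDegree (χ : G → ℂ)).Coprime K.index) [Fintype K] (θ : K → ℂ) (hθ : IsIrrCharacter K θ)
    (hne : classInner (fun n : K => (χ : G → ℂ) n) θ ≠ 0) : ∀ g : G, cj K g θ = θ := by
  classical
  haveI := Fintype.ofFinite G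
  have hd := clifford_degree K χ.2 hθ hne
  obtain ⟨m, hm⟩ := classInner_natCast (isCharacter_restrict (irr_isCharacter χ) K)
    (isCharacter_of_isIrr hθ)
  obtain ⟨d, hd1⟩ := exists_nat_degree (isCharacter_of_isIrr hθ)
  obtain ⟨n, hn⟩ := exists_nat_degree (irr_isCharacter χ)
  have hcd : charDegree (χ : G → ℂ) = n := H75.charDegree_eq hn
  rw [hm, hd1, hn] at hd
  have hnat : n = m * ((inertia K θ).index * d) := by exact_mod_cast hd
  have hdvd : (inertia K θ).index ∣ n := by
    rw [hnat]; exact (Dvd.intro d rfl).mul_left m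
  have hle : K ≤ inertia K θ := le_inertia K (isClassFunction_of_isCharacter (isCharacter_of_isIrr hθ))
  have hdvd2 : (inertia K θ).index ∣ K.index := Subgroup.index_dvd_of_le hle
  rw [hcd] at hdeg
  have h1 : (inertia K θ).index = 1 := Nat.dvd_one.mp (hdeg ▸ Nat.dvd_gcd hdvd hdvd2)
  rw [Subgroup.index_eq_one] at h1
  intro g
  have : g ∈ inertia K θ := by rw [h1]; trivial
  exact this

/-- a nontrivial group has a nontrivial irreducible character -/
theorem exists_ne_one (N : Type u) [Group N] [Finite N] [Nontrivial N] :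
    ∃ θ : IrrCharacter N, (θ : N → ℂ) ≠ fun _ => 1 := by
  by_contra hcon
  push Not at hcon
  have h1 : Nat.card (IrrCharacter N) ≤ 1 := by
    have : Subsingleton (IrrCharacter N) := ⟨fun a b => Subtype.ext ((hcon a).trans (hcon b).symm)⟩
    exact Finite.card_le_one_iff_subsingleton.2 this
  rw [card_irr_eq_card_conjClasses] at h1
  obtain ⟨x, hx⟩ := exists_ne (1 : N)
  have h2 := (Finite.card_le_one_iff_subsingleton.1 h1).elim (ConjClasses.mk x) (ConjClasses.mk 1)
  rw [ConjClasses.mk_eq_mk_iff_isConj, isConj_one_left] at h2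
  exact hx h2

theorem comm_quot (hnil : ¬ Group.IsNilpotent G) (N : Subgroup G) [N.Normal] (hcop : (Nat.card N).Coprime p)
    (hidx : ∃ k : ℕ, N.index = p ^ k)
    (huniq : ∀ χ ψ : IrrCharacter G, p ∣ charDegree (χ : G → ℂ) → p ∣ charDegree (ψ : G → ℂ) → χ = ψ)
    (a b : G ⧸ N) : a * b = b * a := by
  classical
  haveI := Fintype.ofFinite G
  haveI := Fintype.ofFinite N
  obtain ⟨k, hk⟩ := hidx
  refine comm_of_forall_linear (fun χ => ?_) a b
  by_contra hne1
  -- degree of χ is divisible by p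
  have hpχ : p ∣ deg χ := by
    have h1 : deg χ ∣ p ^ k := by
      rw [← hk]; exact deg_dvd χ
    obtain ⟨j, -, hj⟩ := (Nat.dvd_prime_pow hp.out).1 h1
    rcases Nat.eq_zero_or_pos j with h0 | h0
    · exfalso
      apply hne1
      rw [deg_spec, hj, h0, pow_zero, Nat.cast_one]
    · rw [hj]; exact dvd_pow_self p h0.ne'
  set ψ : IrrCharacter G := ⟨fun g => (χ : G ⧸ N → ℂ) (QuotientGroup.mk g), isIrrCharacter_inflate N χ.2⟩ with hψ
  have hψN : ∀ n : N, (ψ : G → ℂ) n = (ψ : G → ℂ) 1 := fun n => inflate_ker N (χ : G ⧸ N → ℂ) n n.2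
  have hψ1 : (ψ : G → ℂ) 1 = deg χ := deg_spec χ
  have hψd : charDegree (ψ : G → ℂ) = deg χ := charDegree_eq hψ1
  have hψ0 : (ψ : G → ℂ) 1 ≠ 0 := by
    rw [hψ1]; exact_mod_cast (deg_pos χ).ne'
  have hnt : Nontrivial N := by
    rw [Subgroup.nontrivial_iff_ne_bot]
    intro h
    apply hnil
    have h1 : IsPGroup p G := by
      apply IsPGroup.of_card (n := k)
      rw [← hk, h, index_bot]
    exact h1.isNilpotent
  obtain ⟨θ, hθ⟩ := exists_ne_one N
  -- the restriction of ψ does not contain θ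
  have hone : IsIrrCharacter N (fun _ => (1 : ℂ)) := Char.isIrrCharacter_one
  have hψθ : classInner (fun n : N => (ψ : G → ℂ) n) (θ : N → ℂ) = 0 := by
    have h1 : (fun n : N => (ψ : G → ℂ) n) = ((ψ : G → ℂ) 1) • (fun _ : N => (1 : ℂ)) := by
      funext n
      rw [hψN n]; simp
    rw [h1, classInner_smul_left]
    have h2 : classInner (fun _ : N => (1 : ℂ)) (θ : N → ℂ) = 0 :=
      classInner_irr_of_ne (χ := (⟨fun _ => 1, hone⟩ : IrrCharacter N)) (ψ := θ) (fun h => hθ (congrArg Subtype.val h).symm)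
    rw [h2, mul_zero]
  obtain ⟨χ1, hχ1, hne⟩ := exists_over N θ.2
  have hp1 : ¬ p ∣ charDegree χ1 := by
    intro h
    have h1 := huniq ⟨χ1, hχ1⟩ ψ h (by rw [hψd]; exact hpχ)
    have h2 : χ1 = (ψ : G → ℂ) := congrArg Subtype.val h1
    rw [h2] at hne
    exact hne hψθ
  have hinv := invariant_of_coprime N ⟨χ1, hχ1⟩ (by
    rw [hk]
    exact (Nat.Coprime.pow_left k ((Nat.Prime.coprime_iff_not_dvd hp.out).2 hp1)).symm) (θ : N → ℂ) θ.2 hne
  have hcop' : (Nat.card N).Coprime N.index := by rw [hk]; exact Nat.Coprime.pow_right k hcop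
  obtain ⟨χ2, hχ2, hext⟩ := exists_extension_of_hall N hcop' θ.2 hinv
  have hbij := gallagher_bijOn N (fun _ => 1) (θ : N → ℂ) hone (fun g => rfl) hinv (by
    have : (fun _ : N => (1 : ℂ)) * (θ : N → ℂ) = θ := by funext n; simp
    rw [this]; exact θ.2) χ2 hχ2 hext
  have hmem : (ψ : G → ℂ) ∈ {β : G → ℂ | IsIrrCharacter G β ∧ classInner (indFun N (fun _ => 1)) β ≠ 0} := by
    refine ⟨ψ.2, ?_⟩
    rw [frobenius_reciprocity N _ _ (isClassFunction_of_isCharacter (isCharacter_of_isIrr ψ.2))]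
    have h1 : (fun n : N => (ψ : G → ℂ) n) = ((ψ : G → ℂ) 1) • (fun _ : N => (1 : ℂ)) := by
      funext n
      rw [hψN n]; simp
    rw [h1, classInner_smul_right, classInner_self_of_irr hone, mul_one]
    intro h
    exact hψ0 ((map_eq_zero _).1 h)
  have h3 : IsIrrCharacter G ((ψ : G → ℂ) * χ2) := (hbij.mapsTo hmem).1
  have h4 := huniq ⟨_, h3⟩ ψ (by
    have h5 : ((ψ : G → ℂ) * χ2) 1 = ((deg χ * deg (⟨χ2, hχ2⟩ : IrrCharacter G) : ℕ) : ℂ) := by
      rw [Pi.mul_apply, hψ1, Nat.cast_mul]
      congr 1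
      exact deg_spec (⟨χ2, hχ2⟩ : IrrCharacter G)
    rw [charDegree_eq h5]
    exact hpχ.mul_right _) (by rw [hψd]; exact hpχ)
  have h5 : (ψ : G → ℂ) * χ2 = (ψ : G → ℂ) := congrArg Subtype.val h4
  apply hθ
  funext n
  have h6 := congrFun h5 (n : G)
  rw [Pi.mul_apply, hψN n, hext n] at h6
  exact mul_left_cancel₀ hψ0 (by rw [h6, mul_one])

end Chars

section Final

open Cfsg.Agent.H75

theorem cj_inv_iff {G : Type u} [Group G] [Finite G] (N P : Subgroup G) [N.Normal] (θ : N → ℂ)
    (hnorm : ∀ s ∈ P, ∀ g ∈ N, s * g * s⁻¹ ∈ N) :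
    (∀ h ∈ P, cj N h θ = θ) ↔ Inv (conjHom N P hnorm) θ := by
  rw [inv_conjHom_iff]
  constructor
  · intro h s hs g g' hg
    have h1 := congrFun (h s hs) g
    rw [← h1]
    have h2 : g' = MulAut.conjNormal s g := Subtype.ext (by
      rw [hg, MulAut.conjNormal_apply])
    rw [h2]; rfl
  · intro h s hs
    funext g
    exact h s hs g (MulAut.conjNormal s g) (MulAut.conjNormal_apply s g)

/-- the complement count -/
theorem card_coprime_eq {G : Type u} [Group G] [Finite G] {p : ℕ} [hp : Fact p.Prime]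
    (N : Subgroup G) [N.Normal] (P : Sylow p G) (hNP : N ⊔ (P : Subgroup G) = ⊤)
    (hcop : (Nat.card N).Coprime (Nat.card (P : Subgroup G)))
    (hab : ∀ a ∈ (P : Subgroup G), ∀ b ∈ (P : Subgroup G), a * b = b * a) :
    Nat.card {χ : IrrCharacter G // (charDegree (χ : G → ℂ)).Coprime (Nat.card (P : Subgroup G))} =
      Nat.card (ConjClasses (centralizer ((P : Subgroup G) : Set G))) := by
  have hnorm : ∀ s ∈ (P : Subgroup G), ∀ g ∈ N, s * g * s⁻¹ ∈ N := fun s _ g hg =>
    (inferInstance : N.Normal).conj_mem g hg s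
  have hcommP : ∀ a b : (P : Subgroup G), a * b = b * a := fun a b => Subtype.ext (hab a a.2 b b.2)
  have hsol : Group.IsSolvable (P : Subgroup G) := by
    letI : CommGroup (P : Subgroup G) := { (inferInstance : Group (P : Subgroup G)) with mul_comm := hcommP }
    infer_instance
  have hC : Nat.card ((P : Subgroup G) →* ℂ) = Nat.card (P : Subgroup G) := (H74.TIData.card_hom_of_comm hcommP).2
  have h2 := (coprime_action_counts (conjHom N (P : Subgroup G) hnorm) hsol hcop).2
  have h3 : Nat.card {θ : IrrCharacter N // ∀ h ∈ (P : Subgroup G), cj N h (θ : N → ℂ) = θ} =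
      Nat.card {θ : IrrCharacter N // Inv (conjHom N (P : Subgroup G) hnorm) (θ : N → ℂ)} :=
    Nat.card_congr (Equiv.subtypeEquivRight fun θ : IrrCharacter N =>
      cj_inv_iff N (P : Subgroup G) (θ : N → ℂ) hnorm)
  have h4 : Nat.card (ConjClasses (fixSub (conjHom N (P : Subgroup G) hnorm))) =
      Nat.card (ConjClasses (N ⊓ centralizer ((P : Subgroup G) : Set G) : Subgroup G)) :=
    card_conj_congr (fixSubEquiv hnorm)
  rw [card_coprime_degree_complement N (P : Subgroup G) hNP hcop, hC,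
    card_cent N P hNP hcop hab, h3, h2, card_irr_eq_card_conjClasses, h4]

end Final

theorem card_split {α : Type*} [Finite α] (q : α → Prop) :
    Nat.card {a // q a} + Nat.card {a // ¬ q a} = Nat.card α := by
  classical
  rw [← Nat.card_sum]
  exact Nat.card_congr (Equiv.sumCompl q)

/-- Let p be a prime and G a finite group that is not nilpotent and has a normal p-complement (a normal subgroup of order prime to p and index a power of p). If G has exactly one irreducible complex character of degree divisible by p, then G has exactly one conjugacy class whose size is divisible by p. -/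
theorem result {G : Type*} [Group G] [Finite G] (p : ℕ) [Fact p.Prime] (hnil : ¬ Group.IsNilpotent G) (N : Subgroup G) [N.Normal] (hN : (Nat.card N).Coprime p) (hidx : ∃ k : ℕ, N.index = p ^ k) (hone : Nat.card {χ : Cfsg.IrrCharacter G // p ∣ Cfsg.charDegree (χ : G → ℂ)} = 1) : Nat.card {C : ConjClasses G // p ∣ Nat.card C.carrier} = 1 := by
  classical
  have hpp : p.Prime := Fact.out
  haveI : Finite (ConjClasses G) := Quotient.finite _
  obtain ⟨hsub, ⟨⟨χ, hχ⟩⟩⟩ := Nat.card_eq_one_iff_unique.1 hone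
  have huniq : ∀ χ ψ : IrrCharacter G, p ∣ charDegree (χ : G → ℂ) → p ∣ charDegree (ψ : G → ℂ) → χ = ψ :=
    fun χ ψ h1 h2 => congrArg Subtype.val (hsub.elim ⟨χ, h1⟩ ⟨ψ, h2⟩)
  have hcomm := comm_quot hnil N hN hidx huniq
  obtain ⟨P⟩ : Nonempty (Sylow p G) := inferInstance
  obtain ⟨j, hj⟩ := IsPGroup.iff_card.1 P.isPGroup'
  have hcop : (Nat.card N).Coprime (Nat.card (P : Subgroup G)) := by
    have h1 : Nat.card (P : Subgroup G) = p ^ j := hj
    rw [h1]; exact Nat.Coprime.pow_right j hN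
  have hbot : N ⊓ (P : Subgroup G) = ⊥ := (Subgroup.disjoint_of_coprime_natCard hcop).eq_bot
  have hNP : N ⊔ (P : Subgroup G) = ⊤ := by
    obtain ⟨k, hk⟩ := hidx
    have h1 : (N ⊔ (P : Subgroup G)).index ∣ p ^ k := by
      rw [← hk]; exact index_dvd_of_le le_sup_left
    have h2 : (N ⊔ (P : Subgroup G)).index ∣ (P : Subgroup G).index := index_dvd_of_le le_sup_right
    rw [← Subgroup.index_eq_one]
    obtain ⟨i, -, hi⟩ := (Nat.dvd_prime_pow hpp).1 h1
    rcases Nat.eq_zero_or_pos i with h0 | h0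
    · rw [hi, h0, pow_zero]
    · exact absurd (((dvd_pow_self p h0.ne').trans (dvd_of_eq hi.symm)).trans h2) P.not_dvd_index
  have hcm : ∀ g : G, ∀ x : G, g * x * g⁻¹ * x⁻¹ ∈ N := by
    intro g x
    rw [← QuotientGroup.eq_one_iff]
    change (QuotientGroup.mk g : G ⧸ N) * QuotientGroup.mk x * (QuotientGroup.mk g)⁻¹ * (QuotientGroup.mk x)⁻¹ = 1
    rw [hcomm (QuotientGroup.mk g) (QuotientGroup.mk x)]
    group
  have hNC : normalizer ((P : Subgroup G) : Set G) ≤ centralizer ((P : Subgroup G) : Set G) := by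
    intro g hg
    rw [mem_centralizer_iff]
    intro x hx
    have h1 : g * x * g⁻¹ * x⁻¹ ∈ (P : Subgroup G) := mul_mem ((mem_normalizer_iff.1 hg x).1 hx) (inv_mem hx)
    have h2 : g * x * g⁻¹ * x⁻¹ ∈ N ⊓ (P : Subgroup G) := ⟨hcm g x, h1⟩
    rw [hbot, mem_bot] at h2
    rw [mul_inv_eq_one, mul_inv_eq_iff_eq_mul] at h2
    exact h2.symm
  have hab : ∀ a ∈ (P : Subgroup G), ∀ b ∈ (P : Subgroup G), a * b = b * a := by
    intro a ha b hb
    exact mem_centralizer_iff.1 (hNC (le_normalizer hb)) a ha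
  have hpP : p ∣ Nat.card (P : Subgroup G) := by
    haveI := Fintype.ofFinite G
    have h1 : p ∣ Nat.card G := by
      refine hχ.trans ?_
      rw [H75.charDegree_eq (Cfsg.Agent.H75.deg_spec χ)]
      exact Cfsg.Agent.H75.deg_dvd χ
    exact P.dvd_card_of_dvd_card h1
  have hcopiff : ∀ m : ℕ, m.Coprime (Nat.card (P : Subgroup G)) ↔ ¬ p ∣ m := by
    intro m
    constructor
    · intro h hpm
      exact hpp.one_lt.ne' (Nat.dvd_one.1 (by rw [← h]; exact Nat.dvd_gcd hpm hpP))
    · intro h
      have h1 : Nat.card (P : Subgroup G) = p ^ j := hj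
      rw [h1]
      exact Nat.Coprime.pow_right j ((Nat.Prime.coprime_iff_not_dvd hpp).2 h).symm
  have h1 := card_coprime_eq N P hNP hcop hab
  have h2 : Nat.card {χ : IrrCharacter G // (charDegree (χ : G → ℂ)).Coprime (Nat.card (P : Subgroup G))} =
      Nat.card {χ : IrrCharacter G // ¬ p ∣ charDegree (χ : G → ℂ)} :=
    Nat.card_congr (Equiv.subtypeEquivRight fun χ => hcopiff _)
  have h3 := card_classes P hNC
  have h4 := card_split (fun χ : IrrCharacter G => p ∣ charDegree (χ : G → ℂ))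
  have h5 := card_split (fun K : ConjClasses G => p ∣ Nat.card K.carrier)
  rw [card_irr_eq_card_conjClasses, ← h5] at h4
  have h6 : Nat.card {χ : IrrCharacter G // ¬ p ∣ charDegree (χ : G → ℂ)} =
      Nat.card {K : ConjClasses G // ¬ p ∣ Nat.card K.carrier} := by
    rw [← h2, h1, h3]
  rw [hone] at h4
  omega

end Cfsg.Agent.S4763
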