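import Cfsg.Statements.S4765
import Cfsg.Agent.H34.PDeg2

set_option autoImplicit false
open Cfsg

namespace Cfsg.Agent.S4765

/-- Let F be a finite field of characteristic p with at least 4 elements. Then PSL(2,F) has exactly one irreducible complex character of degree divisible by p, and its degree is the order of F. -/
theorem result (p : ℕ) [Fact p.Prime] (F : Type*) [Field F] [Fintype F] [CharP F p] (hF : 4 ≤ Fintype.card F) : Nat.card {χ : Cfsg.IrrCharacter (Matrix.ProjectiveSpecialLinearGroup (Fin 2) F) // p ∣ Cfsg.charDegree (χ : Matrix.ProjectiveSpecialLinearGroup (Fin 2) F → ℂ)} = 1 ∧ ∀ χ : Cfsg.IrrCharacter (Matrix.ProjectiveSpecialLinearGroup (Fin 2) F), p ∣ Cfsg.charDegree (χ : Matrix.ProjectiveSpecialLinearGroup (Fin 2) F → ℂ) → Cfsg.charDegree (χ : Matrix.ProjectiveSpecialLinearGroup (Fin 2) F → ℂ) = Fintype.card F := by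
  classical
  by_cases hp2 : p = 2
  · subst hp2
    have h2 : (2 : F) = 0 := by
      have := CharP.cast_eq_zero F 2
      exact_mod_cast this
    obtain ⟨k1, k2, k3⟩ := H34.Deg.deg_sl_even (F := F) h2
    have hc1 : (Fintype.card F : ℂ) + 1 = ((Fintype.card F + 1 : ℕ) : ℂ) := by push_cast; rfl
    have hc2 : (Fintype.card F : ℂ) - 1 = ((Fintype.card F - 1 : ℕ) : ℂ) := by
      rw [Nat.cast_sub (by omega)]; push_cast; rfl
    have hneg : (-1 : Matrix.SpecialLinearGroup (Fin 2) F) = 1 := by
      apply Subtype.ext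
      show -(1 : Matrix (Fin 2) (Fin 2) F) = 1
      have h : (1 : F) = -1 := by linear_combination h2
      ext i j
      fin_cases i <;> fin_cases j <;> simp [← h]
    refine H34.Deg.unique_dvd 2 ?_ ?_
    · intro χ hχ
      rcases k1 χ with h | h | ⟨h, -⟩ | ⟨h, -⟩
      · exfalso
        rw [H34.Deg.charDegree_of_eq (n := 1) (by rw [h]; norm_num)] at hχ
        omega
      · exact h
      · exfalso
        rw [hc1] at h
        rw [H34.Deg.charDegree_of_eq h] at hχ
        exact H34.Deg.not_dvd_card_add_one 2 hχ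
      · exfalso
        rw [hc2] at h
        rw [H34.Deg.charDegree_of_eq h] at hχ
        exact H34.Deg.not_dvd_card_sub_one 2 hχ
    · exact (H34.Deg.ker_center_iff ⟨_, H34.Deg.isIrr_stSL⟩).2 (by rw [hneg])
  · have hodd : Odd (Fintype.card F) := by
      obtain ⟨n, -, h⟩ := H34.Deg.exists_card_pow (F := F) p
      rw [h]
      exact Odd.pow ((Fact.out : p.Prime).odd_of_ne_two hp2)
    obtain ⟨k, ⟨D⟩⟩ := H34.Deg.exists_oddData F hodd
    refine H34.Deg.unique_dvd p ?_ ?_
    · intro χ hχ
      by_contra h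
      rw [← D.deg_eq_card_iff] at h
      exact D.not_dvd_degree p χ h hχ
    · exact (H34.Deg.ker_center_iff ⟨_, H34.Deg.isIrr_stSL⟩).2 (D.st_even _ ((D.deg_eq_card_iff _).2 rfl))

end Cfsg.Agent.S4765
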