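import Cfsg.Statements.S4774
import Cfsg.Agent.H34.PDeg2

set_option autoImplicit false
open Cfsg

namespace Cfsg.Agent.S4774

/-- Let F be a finite field of odd characteristic t with q > 5 elements and let S be isomorphic to PSL(2,F) or to SL(2,F). Then the vertices of the character degree graph of S are the primes dividing q(q²−1); the prime t is adjacent to no vertex; two distinct primes dividing q² − 1 are adjacent exactly when one of them is 2, or both divide q + 1, or both divide q − 1. -/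
theorem result (F : Type*) [Field F] [Fintype F] (t : ℕ) [Fact t.Prime] [CharP F t] (ht : t ≠ 2) (q : ℕ) (hq : Fintype.card F = q) (h5 : 5 < q) {S : Type*} [Group S] [Finite S] (hS : Nonempty (S ≃* Matrix.ProjectiveSpecialLinearGroup (Fin 2) F) ∨ Nonempty (S ≃* Matrix.SpecialLinearGroup (Fin 2) F)) : Cfsg.degreePrimes S = {r : ℕ | r.Prime ∧ r ∣ q * (q ^ 2 - 1)} ∧ ∀ r s : ℕ, (Cfsg.degreeGraph S).Adj r s ↔ (r ≠ s ∧ r.Prime ∧ s.Prime ∧ r ∣ q ^ 2 - 1 ∧ s ∣ q ^ 2 - 1 ∧ (r = 2 ∨ s = 2 ∨ (r ∣ q + 1 ∧ s ∣ q + 1) ∨ (r ∣ q - 1 ∧ s ∣ q - 1))) := by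
  classical
  have hodd : Odd (Fintype.card F) := by
    obtain ⟨n, -, h⟩ := H34.Deg.exists_card_pow (F := F) t
    rw [h]
    exact Odd.pow ((Fact.out : t.Prime).odd_of_ne_two ht)
  obtain ⟨k, ⟨D⟩⟩ := H34.Deg.exists_oddData F hodd
  have hk := D.hk
  obtain ⟨h1, h2⟩ := H34.Deg.graph_data_group hS (H34.Deg.graph_data_odd D (by omega))
  obtain ⟨n, hn, hqn⟩ := H34.Deg.exists_card_pow (F := F) t
  rw [hq] at hqn h1 h2 hk
  refine ⟨H34.Deg.degreePrimes_of hqn hn Fact.out h1 (h2 _ (Or.inl rfl)) (h2 _ (Or.inr (Or.inl rfl))) (h2 _ (Or.inr (Or.inr rfl))), ?_⟩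
  intro r s
  rw [H34.Deg.degreeGraph_of hqn Fact.out h1 (h2 _ (Or.inr (Or.inl rfl))) (h2 _ (Or.inr (Or.inr rfl)))]
  have hfac : q ^ 2 - 1 = (q + 1) * (q - 1) := by
    have := Nat.sq_sub_sq q 1
    simpa using this
  have e1 : 2 ∣ q + 1 := ⟨k + 1, by omega⟩
  have e2 : 2 ∣ q - 1 := ⟨k, by omega⟩
  constructor
  · rintro ⟨hrs, hr, hs, h | h⟩
    · exact ⟨hrs, hr, hs, hfac ▸ Dvd.dvd.mul_right h.1 _, hfac ▸ Dvd.dvd.mul_right h.2 _, Or.inr (Or.inr (Or.inl h))⟩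
    · exact ⟨hrs, hr, hs, hfac ▸ Dvd.dvd.mul_left h.1 _, hfac ▸ Dvd.dvd.mul_left h.2 _, Or.inr (Or.inr (Or.inr h))⟩
  · rintro ⟨hrs, hr, hs, hr1, hs1, h⟩
    refine ⟨hrs, hr, hs, ?_⟩
    rw [hfac] at hr1 hs1
    rcases h with rfl | rfl | h | h
    · rcases (Nat.Prime.dvd_mul hs).1 hs1 with h | h
      · exact Or.inl ⟨e1, h⟩
      · exact Or.inr ⟨e2, h⟩
    · rcases (Nat.Prime.dvd_mul hr).1 hr1 with h | h
      · exact Or.inl ⟨h, e1⟩
      · exact Or.inr ⟨h, e2⟩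
    · exact Or.inl h
    · exact Or.inr h

end Cfsg.Agent.S4774
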