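import Cfsg.Statements.S4775
import Cfsg.Agent.SuzDeg.App

set_option autoImplicit false
open Cfsg

namespace Cfsg.Agent.S4775

/-- Let F be a finite field with q = 2^(2m+1) ≥ 8 elements and let S be isomorphic to the Suzuki group over F. Then the vertices of the character degree graph of S are 2 and the primes dividing (q − 1)(q² + 1); the primes dividing (q − 1)(q² + 1) are pairwise adjacent, and 2 is adjacent exactly to the primes dividing q − 1. -/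
theorem result (F : Type*) [Field F] [Fintype F] (m : ℕ) (hm : 1 ≤ m) (q : ℕ) (hq : Fintype.card F = q) (hqm : q = 2 ^ (2 * m + 1)) {S : Type*} [Group S] [Finite S] (hS : Nonempty (S ≃* ↥(Cfsg.Lie.Sz F (2 ^ (m + 1))))) : Cfsg.degreePrimes S = {r : ℕ | r.Prime ∧ (r = 2 ∨ r ∣ (q - 1) * (q ^ 2 + 1))} ∧ ∀ r s : ℕ, (Cfsg.degreeGraph S).Adj r s ↔ (r ≠ s ∧ r.Prime ∧ s.Prime ∧ ((r ∣ (q - 1) * (q ^ 2 + 1) ∧ s ∣ (q - 1) * (q ^ 2 + 1)) ∨ (r = 2 ∧ s ∣ q - 1) ∨ (s = 2 ∧ r ∣ q - 1))) := by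
  obtain ⟨e⟩ := hS
  have hF : Fintype.card F = 2 ^ (2 * m + 1) := hq.trans hqm
  have := Cfsg.Agent.Suz.charP_two hF
  obtain ⟨e'⟩ := Cfsg.Agent.Suz.nonempty_lieEquiv hm hF
  have hC := (Cfsg.Agent.SuzDeg.concl_Sz hm hF).congr (e.trans e'.symm)
  rw [← hqm] at hC
  obtain ⟨t, ht⟩ : ∃ t, t = 2 ^ (m + 1) := ⟨_, rfl⟩
  rw [← ht] at hC
  obtain ⟨h1, ⟨χ1, h2⟩, ⟨χ2, h3⟩, ⟨χ3, h4⟩, ⟨χ4, h5⟩⟩ := hC
  have hmem : ∀ χ : IrrCharacter S, Cfsg.Agent.SuzDeg.dg χ ∈ charDegrees S := fun χ => ⟨χ, rfl⟩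
  have m1 : q ^ 2 + 1 ∈ charDegrees S := h2 ▸ hmem χ1
  have m2 : (q - 1) * (q - t + 1) ∈ charDegrees S := h3 ▸ hmem χ2
  have m3 : (q - 1) * (q + t + 1) ∈ charDegrees S := h4 ▸ hmem χ3
  have m4 : (q - 1) * 2 ^ m ∈ charDegrees S := h5 ▸ hmem χ4
  have hcase : ∀ d ∈ charDegrees S, d = 1 ∨ d = q ^ 2 ∨ d = q ^ 2 + 1 ∨ d = (q - 1) * (q - t + 1) ∨ d = (q - 1) * (q + t + 1) ∨
      d = (q - 1) * 2 ^ m := by
    rintro d ⟨χ, rfl⟩
    exact h1 χ
  have htt : t ^ 2 = 2 * q := by rw [ht, hqm, ← pow_mul, ← pow_succ']; congr 1; omega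
  have h2m : 2 ≤ 2 ^ m := by
    calc 2 = 2 ^ 1 := by norm_num
      _ ≤ 2 ^ m := Nat.pow_le_pow_right (by norm_num) hm
  have hqt : q = t * 2 ^ m := by rw [hqm, ht, ← pow_add]; congr 1; omega
  have htq : t ≤ q := by rw [hqt]; nlinarith [Nat.pos_of_ne_zero (show t ≠ 0 by rw [ht]; positivity)]
  have hN : (q + t + 1) * (q - t + 1) = q ^ 2 + 1 := by
    obtain ⟨v, hv⟩ := Nat.exists_eq_add_of_le htq
    have hv' : q - t = v := by omega
    rw [hv']
    nlinarith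
  have hd2 : q - t + 1 ∣ q ^ 2 + 1 := ⟨q + t + 1, by rw [← hN]; ring⟩
  have hd3 : q + t + 1 ∣ q ^ 2 + 1 := ⟨q - t + 1, hN.symm⟩
  have hd2m : 2 ∣ 2 ^ m := dvd_pow_self 2 (by omega)
  have htwo : ∀ p : ℕ, p.Prime → p ∣ 2 ^ m → p = 2 := fun p hp h => (Nat.prime_dvd_prime_iff_eq hp Nat.prime_two).1 (hp.dvd_of_dvd_pow h)
  have hq2 : ∀ p : ℕ, p.Prime → p ∣ q ^ 2 → p = 2 := fun p hp h => by
    have h' := hp.dvd_of_dvd_pow h
    rw [hqm] at h'
    exact (Nat.prime_dvd_prime_iff_eq hp Nat.prime_two).1 (hp.dvd_of_dvd_pow h')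
  constructor
  · ext p
    simp only [degreePrimes, Set.mem_setOf_eq]
    constructor
    · rintro ⟨hp, d, hd, hpd⟩
      refine ⟨hp, ?_⟩
      rcases hcase d hd with rfl | rfl | rfl | rfl | rfl | rfl
      · exact absurd (Nat.dvd_one.1 hpd) hp.one_lt.ne'
      · exact Or.inl (hq2 p hp hpd)
      · exact Or.inr (hpd.mul_left _)
      · exact Or.inr (hpd.trans (mul_dvd_mul_left _ hd2))
      · exact Or.inr (hpd.trans (mul_dvd_mul_left _ hd3))
      · rcases (Nat.Prime.dvd_mul hp).1 hpd with h | h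
        · exact Or.inr (h.mul_right _)
        · exact Or.inl (htwo p hp h)
    · rintro ⟨hp, h⟩
      refine ⟨hp, ?_⟩
      rcases h with rfl | h
      · exact ⟨_, m4, hd2m.mul_left _⟩
      · rcases (Nat.Prime.dvd_mul hp).1 h with h | h
        · exact ⟨_, m4, h.mul_right _⟩
        · exact ⟨_, m1, h⟩
  · intro a b
    simp only [degreeGraph]
    constructor
    · rintro ⟨hab, ha, hb, d, hd, hdvd⟩
      refine ⟨hab, ha, hb, ?_⟩
      have hda : a ∣ d := (dvd_mul_right a b).trans hdvd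
      have hdb : b ∣ d := (dvd_mul_left b a).trans hdvd
      rcases hcase d hd with rfl | rfl | rfl | rfl | rfl | rfl
      · exact absurd (Nat.dvd_one.1 hda) ha.one_lt.ne'
      · exact absurd ((hq2 a ha hda).trans (hq2 b hb hdb).symm) hab
      · exact Or.inl ⟨hda.mul_left _, hdb.mul_left _⟩
      · exact Or.inl ⟨hda.trans (mul_dvd_mul_left _ hd2), hdb.trans (mul_dvd_mul_left _ hd2)⟩
      · exact Or.inl ⟨hda.trans (mul_dvd_mul_left _ hd3), hdb.trans (mul_dvd_mul_left _ hd3)⟩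
      · rcases (Nat.Prime.dvd_mul ha).1 hda with h | h <;> rcases (Nat.Prime.dvd_mul hb).1 hdb with h' | h'
        · exact Or.inl ⟨h.mul_right _, h'.mul_right _⟩
        · exact Or.inr (Or.inr ⟨htwo b hb h', h⟩)
        · exact Or.inr (Or.inl ⟨htwo a ha h, h'⟩)
        · exact absurd ((htwo a ha h).trans (htwo b hb h').symm) hab
    · rintro ⟨hab, ha, hb, h⟩
      refine ⟨hab, ha, hb, ?_⟩
      have hcop : Nat.Coprime a b := (Nat.coprime_primes ha hb).2 hab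
      rcases h with ⟨h, h'⟩ | ⟨rfl, h⟩ | ⟨rfl, h⟩
      · rw [Nat.Prime.dvd_mul ha] at h
        rw [Nat.Prime.dvd_mul hb] at h'
        rcases h with h | h <;> rcases h' with h' | h'
        · exact ⟨_, m4, (hcop.mul_dvd_of_dvd_of_dvd h h').mul_right _⟩
        · rw [← hN, Nat.Prime.dvd_mul hb] at h'
          rcases h' with h' | h'
          · exact ⟨_, m3, mul_dvd_mul h h'⟩
          · exact ⟨_, m2, mul_dvd_mul h h'⟩
        · rw [← hN, Nat.Prime.dvd_mul ha] at h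
          rcases h with h | h
          · exact ⟨_, m3, by rw [mul_comm a b]; exact mul_dvd_mul h' h⟩
          · exact ⟨_, m2, by rw [mul_comm a b]; exact mul_dvd_mul h' h⟩
        · exact ⟨_, m1, hcop.mul_dvd_of_dvd_of_dvd h h'⟩
      · exact ⟨_, m4, by rw [mul_comm 2 b]; exact mul_dvd_mul h hd2m⟩
      · exact ⟨_, m4, mul_dvd_mul h hd2m⟩

end Cfsg.Agent.S4775
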