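import Cfsg.Statements.S4784
import Cfsg.Agent.H52.FS
import Cfsg.Agent.Char.AvgN

set_option autoImplicit false
open Cfsg Cfsg.Agent.CharBase Cfsg.Agent.H52
open scoped ComplexConjugate

namespace Cfsg.Agent.S4784

theorem sum_mk {G : Type*} [Group G] [Fintype G] (N : Subgroup G) [Fintype (G ⧸ N)] (F : G ⧸ N → ℂ) :
    ∑ s : G, F (s : G ⧸ N) = (Nat.card N : ℂ) * ∑ q : G ⧸ N, F q := by
  classical
  have := Fintype.ofFinite N
  let e : (G ⧸ N) × N → G := fun p => p.1.out * p.2
  have he1 : ∀ p, ((e p : G) : G ⧸ N) = p.1 := by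
    intro p
    have : ((e p : G) : G ⧸ N) = (p.1.out : G ⧸ N) := by
      rw [QuotientGroup.eq]
      simp [e]
    rw [this, QuotientGroup.out_eq']
  have he : Function.Bijective e := by
    constructor
    · intro p p' h
      have h1 : p.1 = p'.1 := by rw [← he1 p, h, he1 p']
      obtain ⟨q, n⟩ := p
      obtain ⟨q', n'⟩ := p'
      simp only at h1
      subst h1
      have h2 : q.out * (n : G) = q.out * n' := h
      rw [mul_right_inj] at h2
      rw [Subtype.ext h2]
    · intro g
      refine ⟨((g : G ⧸ N), ⟨(g : G ⧸ N).out⁻¹ * g, ?_⟩), ?_⟩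
      · rw [← QuotientGroup.eq, QuotientGroup.out_eq']
      · simp [e]
  rw [← he.sum_comp, Fintype.sum_prod_type]
  simp only [he1]
  rw [Finset.mul_sum]
  refine Finset.sum_congr rfl fun q _ => ?_
  rw [Finset.sum_const, Finset.card_univ, nsmul_eq_mul, Nat.card_eq_fintype_card]

theorem fsi_ind {G : Type*} [Group G] [Fintype G] (H : Subgroup G) :
    fsi (Cfsg.indFun H (fun _ : H => (1 : ℂ))) = (Nat.card H : ℂ)⁻¹ * (Nat.card {s : G // s * s ∈ H} : ℂ) := by
  classical
  have hG : (Nat.card G : ℂ) ≠ 0 := by exact_mod_cast Nat.card_pos.ne'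
  have hext : ∀ g : G, extendByZero H (fun _ : H => (1 : ℂ)) g = if g ∈ H then 1 else 0 := by
    intro g
    rw [Cfsg.Agent.Char.extendByZero_eq_dite]
    split_ifs <;> rfl
  unfold fsi indFun
  simp only [hext]
  rw [← Finset.mul_sum, Finset.sum_comm]
  have h1 : ∀ x : G, ∑ s : G, (if x⁻¹ * (s * s) * x ∈ H then (1 : ℂ) else 0) = (Nat.card {s : G // s * s ∈ H} : ℂ) := by
    intro x
    have h2 : ∑ s : G, (if x⁻¹ * (s * s) * x ∈ H then (1 : ℂ) else 0) = ∑ s : G, (if s * s ∈ H then (1 : ℂ) else 0) := by
      refine Fintype.sum_equiv (MulAut.conj x⁻¹).toEquiv _ _ fun s => ?_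
      have h3 : (MulAut.conj x⁻¹).toEquiv s = x⁻¹ * s * x := by
        simp [MulAut.conj_apply]
      rw [h3]
      have h4 : x⁻¹ * s * x * (x⁻¹ * s * x) = x⁻¹ * (s * s) * x := by group
      rw [h4]
    rw [h2, Finset.sum_boole, Nat.card_eq_fintype_card, Fintype.card_subtype]
  rw [Finset.sum_congr rfl fun x _ => h1 x, Finset.sum_const, Finset.card_univ, nsmul_eq_mul, ← Nat.card_eq_fintype_card]
  field_simp

/-- Let H be a subgroup of the finite group G and consider the permutation character of G on the cosets of H (the function induced from the principal character of H). Then exactly one irreducible constituent of it is real-valued with Frobenius–Schur indicator +1 (namely the principal character) if and only if the normal core of H has odd index in G. -/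
theorem result {G : Type*} [Group G] [Fintype G] (H : Subgroup G) : Nat.card {χ : Cfsg.IrrCharacter G // Cfsg.classInner (Cfsg.indFun H (fun _ : H => (1 : ℂ))) (χ : G → ℂ) ≠ 0 ∧ (∀ g : G, (starRingEnd ℂ) ((χ : G → ℂ) g) = (χ : G → ℂ) g) ∧ (Nat.card G : ℂ)⁻¹ * ∑ g : G, (χ : G → ℂ) (g * g) = 1} = 1 ↔ Odd H.normalCore.index := by
  classical
  have := Fintype.ofFinite (IrrCharacter G)
  have := Fintype.ofFinite H
  set π := Cfsg.indFun H (fun _ : H => (1 : ℂ)) with hπ
  have hπc : IsCharacter G π := Cfsg.Agent.Char.indFun_isCharacter H _ (isCharacter_of_isIrr isIrrCharacter_one)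
  have hHc : (Nat.card H : ℂ) ≠ 0 := by exact_mod_cast Nat.card_pos.ne'
  have hrec : ∀ χ : IrrCharacter G, classInner π (χ : G → ℂ) = classInner (fun _ : H => (1 : ℂ)) (fun h : H => (χ : G → ℂ) h) :=
    fun χ => Cfsg.Agent.Char.frobenius_reciprocity H _ _ (irr_isClassFunction χ)
  have hone : classInner π ((oneIrr G : IrrCharacter G) : G → ℂ) = 1 := by
    rw [hrec]
    exact (isIrrCharacter_iff (isCharacter_of_isIrr isIrrCharacter_one)).mp isIrrCharacter_one
  have hmem1 : classInner π ((oneIrr G : IrrCharacter G) : G → ℂ) ≠ 0 ∧ (∀ g : G, (starRingEnd ℂ) (((oneIrr G : IrrCharacter G) : G → ℂ) g) = ((oneIrr G : IrrCharacter G) : G → ℂ) g) ∧ (Nat.card G : ℂ)⁻¹ * ∑ g : G, ((oneIrr G : IrrCharacter G) : G → ℂ) (g * g) = 1 := by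
    refine ⟨by rw [hone]; exact one_ne_zero, fun g => ?_, ?_⟩
    · change conj (1 : ℂ) = 1
      simp
    · exact fsi_one
  rw [Nat.card_eq_one_iff_unique]
  constructor
  · rintro ⟨hsub, -⟩
    have huniq : ∀ χ : IrrCharacter G, classInner π (χ : G → ℂ) ≠ 0 → fsi (χ : G → ℂ) = 1 → χ = oneIrr G := by
      intro χ h1 h2
      have h3 : ∀ g : G, conj ((χ : G → ℂ) g) = (χ : G → ℂ) g := by
        intro g
        have h4 := mt (fsi_eq_zero_iff χ.2).mpr (by rw [h2]; exact one_ne_zero)
        push Not at h4
        exact Complex.conj_eq_iff_im.mpr (h4 g)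
      have := hsub.elim ⟨χ, h1, h3, h2⟩ ⟨oneIrr G, hmem1⟩
      exact congrArg Subtype.val this
    obtain ⟨m, hm, -⟩ := exists_mult_of_isCharacter hπc
    have h1 := fsi_eq_sum (isClassFunction_of_isCharacter hπc)
    rw [fsi_ind] at h1
    have h2 : ((Nat.card {s : G // s * s ∈ H} : ℝ)) / Nat.card H ≤ 1 := by
      have h3 := congrArg Complex.re h1
      rw [Complex.re_sum, ← Finset.add_sum_erase Finset.univ _ (Finset.mem_univ (oneIrr G)), hone] at h3
      have h4 : fsi ((oneIrr G : IrrCharacter G) : G → ℂ) = 1 := fsi_one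
      rw [h4] at h3
      have h5 : ∑ χ ∈ Finset.univ.erase (oneIrr G), (classInner π (χ : G → ℂ) * fsi (χ : G → ℂ)).re ≤ 0 := by
        apply Finset.sum_nonpos
        intro χ hχ
        rw [hm χ]
        rcases fsi_cases χ.2 with h | h | h
        · rw [h]; simp
        · by_cases h6 : m χ = 0
          · rw [h6]; simp
          · exfalso
            exact (Finset.mem_erase.mp hχ).1 (huniq χ (by rw [hm χ]; exact_mod_cast h6) h)
        · rw [h]; simp
      have h6 : ((Nat.card H : ℂ)⁻¹ * (Nat.card {s : G // s * s ∈ H} : ℂ)).re = (Nat.card {s : G // s * s ∈ H} : ℝ) / Nat.card H := by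
        rw [← Complex.ofReal_natCast, ← Complex.ofReal_natCast, ← Complex.ofReal_inv, ← Complex.ofReal_mul, Complex.ofReal_re]
        rw [div_eq_mul_inv, mul_comm]
      rw [h6] at h3
      rw [h3]
      simp only [mul_one, Complex.one_re]
      linarith
    have h3 : Nat.card {s : G // s * s ∈ H} ≤ Nat.card H := by
      rw [div_le_one (by exact_mod_cast Nat.card_pos)] at h2
      exact_mod_cast h2
    have h4 : ∀ s : G, s * s ∈ H → s ∈ H := by
      have h5 : (H : Set G) = {s : G | s * s ∈ H} := by
        apply Set.eq_of_subset_of_ncard_le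
        · intro s hs
          exact H.mul_mem hs hs
        · exact h3
        · exact Set.toFinite _
      intro s hs
      have : s ∈ {s : G | s * s ∈ H} := hs
      rw [← h5] at this
      exact this
    by_contra hodd
    rw [Nat.not_odd_iff_even] at hodd
    have h2p : Fact (Nat.Prime 2) := ⟨Nat.prime_two⟩
    have h5 : 2 ∣ Nat.card (G ⧸ H.normalCore) := by
      rw [← Subgroup.index_eq_card]; exact hodd.two_dvd
    obtain ⟨q, hq⟩ := exists_prime_orderOf_dvd_card' (G := G ⧸ H.normalCore) 2 h5
    obtain ⟨g, rfl⟩ := QuotientGroup.mk_surjective q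
    rw [orderOf_eq_prime_iff] at hq
    apply hq.2
    rw [QuotientGroup.eq_one_iff]
    have h6 : g * g ∈ H.normalCore := by
      rw [← QuotientGroup.eq_one_iff, QuotientGroup.mk_mul, ← pow_two]
      exact hq.1
    intro x
    apply h4
    have h7 := h6 x
    have h8 : x * g * x⁻¹ * (x * g * x⁻¹) = x * (g * g) * x⁻¹ := by group
    rw [h8]; exact h7
  · intro hodd
    refine ⟨⟨?_⟩, ⟨⟨oneIrr G, hmem1⟩⟩⟩
    have key : ∀ χ : IrrCharacter G, classInner π (χ : G → ℂ) ≠ 0 → fsi (χ : G → ℂ) = 1 → χ = oneIrr G := by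
      intro χ h1 h2
      by_contra hne
      have hconst : ∀ (n : H.normalCore) (g : G), (χ : G → ℂ) ((n : G) * g) = (χ : G → ℂ) g := by
        have := Fintype.ofFinite H.normalCore
        rcases Cfsg.Agent.Char.avgN_irr H.normalCore χ.2 with h | h
        · exfalso
          apply h1
          rw [hrec]
          unfold classInner
          have h3 : ∑ h : H, (1 : ℂ) * conj ((χ : G → ℂ) h) = 0 := by
            have h4 : ∑ h : H, (χ : G → ℂ) h = 0 := by
              have h5 : (Nat.card H.normalCore : ℂ) * ∑ h : H, (χ : G → ℂ) h = 0 := by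
                have h6 : ∑ n : H.normalCore, ∑ h : H, (χ : G → ℂ) ((n : G) * h) = (Nat.card H.normalCore : ℂ) * ∑ h : H, (χ : G → ℂ) h := by
                  have h7 : ∀ n : H.normalCore, ∑ h : H, (χ : G → ℂ) ((n : G) * h) = ∑ h : H, (χ : G → ℂ) h := by
                    intro n
                    exact Fintype.sum_equiv (Equiv.mulLeft (⟨n, H.normalCore_le n.2⟩ : H)) _ _ fun h => rfl
                  rw [Finset.sum_congr rfl fun n _ => h7 n, Finset.sum_const, Finset.card_univ, nsmul_eq_mul,
                    Nat.card_eq_fintype_card]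
                rw [← h6, Finset.sum_comm]
                apply Finset.sum_eq_zero
                intro x _
                have h8 := congrFun h (x : G)
                rw [Cfsg.Agent.Char.avgN_apply] at h8
                have h9 : (Nat.card H.normalCore : ℂ) ≠ 0 := by exact_mod_cast Nat.card_pos.ne'
                exact (mul_eq_zero.mp h8).resolve_left (inv_ne_zero h9)
              have h9 : (Nat.card H.normalCore : ℂ) ≠ 0 := by exact_mod_cast Nat.card_pos.ne'
              exact (mul_eq_zero.mp h5).resolve_left h9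
            simp only [one_mul]
            rw [← map_sum, h4, map_zero]
          rw [h3, mul_zero]
        · intro n g
          rw [← h]
          exact Cfsg.Agent.Char.avgN_mul H.normalCore (χ : G → ℂ) n g
      have hconst' : ∀ a b : G, (a : G ⧸ H.normalCore) = b → (χ : G → ℂ) a = (χ : G → ℂ) b := by
        intro a b hab
        have h3 : b * a⁻¹ ∈ H.normalCore := by
          rw [QuotientGroup.eq] at hab
          have := H.normalCore_normal.conj_mem _ hab a
          have e : a * (a⁻¹ * b) * a⁻¹ = b * a⁻¹ := by group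
          rwa [e] at this
        have h4 := hconst ⟨_, h3⟩ a
        have e : ((⟨b * a⁻¹, h3⟩ : H.normalCore) : G) * a = b := by
          change b * a⁻¹ * a = b
          group
        rw [e] at h4
        exact h4.symm
      have := Fintype.ofFinite (G ⧸ H.normalCore)
      let F : G ⧸ H.normalCore → ℂ := fun q => (χ : G → ℂ) q.out
      have hF : ∀ s : G, (χ : G → ℂ) s = F (s : G ⧸ H.normalCore) := by
        intro s
        apply hconst'
        rw [QuotientGroup.out_eq']
      have h3 : ∑ s : G, (χ : G → ℂ) (s * s) = ∑ s : G, (χ : G → ℂ) s := by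
        simp only [hF]
        have e1 : ∀ s : G, F ((s * s : G) : G ⧸ H.normalCore) = (fun q => F (q * q)) (s : G ⧸ H.normalCore) := fun s => rfl
        rw [Finset.sum_congr rfl fun s _ => e1 s, sum_mk H.normalCore (fun q => F (q * q)), sum_mk H.normalCore F]
        congr 1
        have hcop : (Nat.card (G ⧸ H.normalCore)).Coprime 2 := by
          rw [← Subgroup.index_eq_card]
          exact hodd.coprime_two_right
        exact Fintype.sum_equiv (powCoprime hcop) _ _ fun q => by
          rw [powCoprime_apply, pow_two]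
      have h4 : classInner (χ : G → ℂ) ((oneIrr G : IrrCharacter G) : G → ℂ) = 0 := classInner_irr_of_ne hne
      have h5 : classInner (χ : G → ℂ) ((oneIrr G : IrrCharacter G) : G → ℂ) = fsi (χ : G → ℂ) := by
        unfold classInner fsi
        rw [h3]
        congr 1
        refine Finset.sum_congr rfl fun s _ => ?_
        change (χ : G → ℂ) s * conj (1 : ℂ) = _
        simp
      rw [h4, h2] at h5
      exact zero_ne_one h5
    rintro ⟨χ, h1, -, h2⟩ ⟨ψ, h3, -, h4⟩
    apply Subtype.ext
    change χ = ψ
    rw [key χ h1 h2, key ψ h3 h4]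

end Cfsg.Agent.S4784
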