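import Cfsg.Statements.S4796
import Cfsg.Agent.H80.PrimeCodeg

set_option autoImplicit false
open Cfsg

namespace Cfsg.Agent.S4796

open Cfsg.Agent.CharBase Cfsg.Agent.H75 Cfsg.Agent.Char

/-- Let G be a finite group with a faithful irreducible complex character χ whose codegree #G / χ(1) is a prime p (for a faithful character the kernel is trivial, so the codegree is #G / χ(1)). Then either G is cyclic of order p, or G is a Frobenius group whose Frobenius kernel has order p: some proper non-trivial subgroup H satisfies H ∩ gHg⁻¹ = 1 for every element g outside H, and the set of elements lying in no conjugate of H, together with the identity, has exactly p elements. -/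
theorem result {G : Type*} [Group G] [Finite G] (χ : Cfsg.IrrCharacter G) (hfaith : ∀ g : G, (χ : G → ℂ) g = (χ : G → ℂ) 1 → g = 1) (p : ℕ) (hp : p.Prime) (hcod : Nat.card G = p * Cfsg.charDegree (χ : G → ℂ)) : (IsCyclic G ∧ Nat.card G = p) ∨ ∃ H : Subgroup G, Cfsg.IsFrobeniusComplement H ∧ Nat.card ↥(Cfsg.frobeniusKernel H) = p := by
  rw [charDegree_eq_deg] at hcod
  obtain ⟨P, hPn, hP, hPi, hlt, hcen⟩ := H80.prime_codeg_structure χ hfaith hp hcod
  by_cases h1 : deg χ = 1
  · left
    have h2 : Nat.card G = p := by rw [hcod, h1, mul_one]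
    have := Fact.mk hp
    exact ⟨isCyclic_of_prime_card h2, h2⟩
  · right
    exact H80.frobenius_of_prime_normal hp P hP (by rw [hPi]; exact hlt) (by rw [hPi]; exact h1) hcen

end Cfsg.Agent.S4796
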