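import Cfsg.Statements.S4797
import Cfsg.Agent.H80.PrimeCodeg

set_option autoImplicit false
open Cfsg

namespace Cfsg.Agent.S4797

open Cfsg.Agent.CharBase Cfsg.Agent.H75 Cfsg.Agent.Char

/-- The codegree of an irreducible complex character χ of a finite group G is [G : ker χ] / χ(1), where ker χ is the set of elements at which χ takes the value χ(1). A non-trivial finite group is perfect if and only if no irreducible complex character of it has prime codegree. -/
theorem result {G : Type*} [Group G] [Finite G] [Nontrivial G] : commutator G = ⊤ ↔ ∀ χ : Cfsg.IrrCharacter G, ¬ ((Nat.card G / (Nat.card {g : G // (χ : G → ℂ) g = (χ : G → ℂ) 1} * Cfsg.charDegree (χ : G → ℂ)))).Prime := by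
  classical
  have e0 : ∀ χ : Cfsg.IrrCharacter G, (Nat.card G / (Nat.card {g : G // (χ : G → ℂ) g = (χ : G → ℂ) 1} *
      Cfsg.charDegree (χ : G → ℂ))) = H80.codeg χ := fun χ => rfl
  simp only [e0]
  constructor
  · intro hperf χ hpr
    have hn := charKer_normal (irr_isCharacter χ)
    obtain ⟨χ', h1, h2⟩ := H80.exists_deflate_ker χ _ le_rfl
    have hcod : Nat.card (G ⧸ charKer (irr_isCharacter χ)) = H80.codeg χ * deg χ' := by
      have h3 := H80.codeg_mul χ
      rw [Subgroup.card_eq_card_quotient_mul_card_subgroup (charKer (irr_isCharacter χ))] at h3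
      have h4 : 0 < Nat.card (charKer (irr_isCharacter χ)) := Nat.card_pos
      apply Nat.eq_of_mul_eq_mul_right h4
      rw [← h3, h2]; ring
    have hf : ∀ g : G ⧸ charKer (irr_isCharacter χ), (χ' : G ⧸ charKer (irr_isCharacter χ) → ℂ) g =
        (χ' : G ⧸ charKer (irr_isCharacter χ) → ℂ) 1 → g = 1 := by
      intro g
      induction g using QuotientGroup.induction_on with
      | H x =>
      intro hx
      rw [h1, ← QuotientGroup.mk_one, h1] at hx
      rw [QuotientGroup.eq_one_iff, mem_charKer]
      exact hx
    obtain ⟨P, hPn, hP, hPi, hlt, hcen⟩ := H80.prime_codeg_structure χ' hf hpr hcod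
    have := Fact.mk hpr
    have hcyc : IsCyclic P := isCyclic_of_prime_card hP
    have h3 := H80.commutator_le_centralizer_of_cyclic P
    have h4 : commutator (G ⧸ charKer (irr_isCharacter χ)) = ⊤ := by
      have h5 : (commutator G).map (QuotientGroup.mk' (charKer (irr_isCharacter χ))) =
          commutator (G ⧸ charKer (irr_isCharacter χ)) := by
        rw [commutator_def, commutator_def, Subgroup.map_commutator,
          Subgroup.map_top_of_surjective _ (QuotientGroup.mk'_surjective _)]
      rw [← h5, hperf, Subgroup.map_top_of_surjective _ (QuotientGroup.mk'_surjective _)]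
    have h5 : P = ⊤ := by
      rw [eq_top_iff, ← h4]
      exact h3.trans hcen
    have h6 : ∀ a b : G ⧸ charKer (irr_isCharacter χ), a * b = b * a := by
      intro a b
      have ha : a ∈ P := by rw [h5]; trivial
      have hb : b ∈ P := by rw [h5]; trivial
      exact congrArg Subtype.val ((IsCyclic.isMulCommutative (α := P)).is_comm.comm ⟨a, ha⟩ ⟨b, hb⟩)
    have h7 : commutator (G ⧸ charKer (irr_isCharacter χ)) = ⊥ := by
      rw [commutator_def, eq_bot_iff, Subgroup.commutator_le]
      intro a _ b _
      rw [Subgroup.mem_bot, commutatorElement_def, h6 a b]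
      group
    rw [h4] at h7
    have h8 : Nat.card P = 1 := by rw [h5, h7, Subgroup.card_bot]
    rw [hP] at h8
    exact hpr.one_lt.ne' h8
  · intro hall
    by_contra hne
    obtain ⟨M, hMn, hle, hMp⟩ := H80.exists_normal_prime_index hne
    have hcomm : ∀ a b : G ⧸ M, a * b = b * a := by
      have := Fact.mk hMp
      have hc : Nat.card (G ⧸ M) = M.index := (Subgroup.index_eq_card M).symm
      have := isCyclic_of_prime_card hc
      intro a b
      exact (IsCyclic.isMulCommutative (α := G ⧸ M)).is_comm.comm a b
    have hnt : 1 < Nat.card (G ⧸ M) := by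
      rw [← Subgroup.index_eq_card]; exact hMp.one_lt
    have := Finite.one_lt_card_iff_nontrivial.mp hnt
    obtain ⟨g, hg⟩ := exists_ne (1 : G ⧸ M)
    obtain ⟨ψ, hψ⟩ := H80.exists_irr_ne_one hg
    have hd : deg ψ = 1 := by
      have h1 := irr_one_of_comm hcomm ψ
      rw [deg_spec ψ] at h1
      exact_mod_cast h1
    have hk : Nat.card (charKer (irr_isCharacter ψ)) = 1 := by
      have h1 : Nat.card (charKer (irr_isCharacter ψ)) ∣ M.index := by
        rw [Subgroup.index_eq_card]; exact Subgroup.card_subgroup_dvd_card _
      rcases (Nat.dvd_prime hMp).mp h1 with h2 | h2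
      · exact h2
      · exfalso
        apply hψ
        rw [← mem_charKer (irr_isCharacter ψ)]
        rw [Subgroup.index_eq_card] at h2
        rw [Subgroup.eq_top_of_card_eq _ h2]
        trivial
    have h1 := H80.codeg_mul ψ
    rw [hk, hd, mul_one, mul_one, ← Subgroup.index_eq_card] at h1
    apply hall ⟨fun g : G => (ψ : G ⧸ M → ℂ) (QuotientGroup.mk g), isIrrCharacter_inflate M ψ.2⟩
    rw [H80.codeg_inflate, h1]
    exact hMp

end Cfsg.Agent.S4797
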