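import Cfsg.Statements.S4798
import Cfsg.Agent.H80.IndUtil

set_option autoImplicit false
open Cfsg

namespace Cfsg.Agent.S4798

open Cfsg.Agent.CharBase Cfsg.Agent.H75 Cfsg.Agent.Char

/-- Let p be a prime and χ a faithful irreducible complex character of the finite group G (χ(g) = χ(1) only for g = 1), so that its codegree is #G / χ(1). Then #G / χ(1) is a power of p if and only if χ is induced from a character of a Sylow p-subgroup of G. -/
theorem result {G : Type*} [Group G] [Fintype G] (p : ℕ) [Fact p.Prime] (χ : Cfsg.IrrCharacter G) (hfaith : ∀ g : G, (χ : G → ℂ) g = (χ : G → ℂ) 1 → g = 1) : (∃ k : ℕ, Nat.card G = p ^ k * Cfsg.charDegree (χ : G → ℂ)) ↔ ∃ (P : Sylow p G) (θ : ↥(P : Subgroup G) → ℂ), Cfsg.IsCharacter ↥(P : Subgroup G) θ ∧ (χ : G → ℂ) = Cfsg.indFun (P : Subgroup G) θ := by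
  classical

  have hpp : p.Prime := Fact.out
  constructor
  · rintro ⟨k, hk⟩
    rw [charDegree_eq_deg] at hk
    obtain ⟨P⟩ : Nonempty (Sylow p G) := inferInstance
    have := Fintype.ofFinite P
    obtain ⟨a, ha⟩ := IsPGroup.iff_card.mp P.isPGroup'
    have h1 := (P : Subgroup G).card_mul_index
    have h2 : ¬ p ∣ (P : Subgroup G).index := P.not_dvd_index
    have hc : Nat.Coprime (P : Subgroup G).index (p ^ k) :=
      ((hpp.coprime_iff_not_dvd.mpr h2).symm).pow_right k
    have h3 : (P : Subgroup G).index ∣ deg χ := by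
      have : (P : Subgroup G).index ∣ p ^ k * deg χ := by
        rw [← hk, ← h1]; exact dvd_mul_left _ _
      exact hc.dvd_of_dvd_mul_left this
    obtain ⟨b, hb⟩ := h3
    have hipos : 0 < (P : Subgroup G).index := Nat.pos_of_ne_zero Subgroup.index_ne_zero_of_finite
    have h4 : p ^ a = p ^ k * b := by
      apply Nat.eq_of_mul_eq_mul_right hipos
      rw [← ha, h1, hk, hb]; ring
    have h5 : b ∣ p ^ a := ⟨p ^ k, by rw [h4, mul_comm]⟩
    rw [Nat.dvd_prime_pow hpp] at h5
    obtain ⟨j, -, hj⟩ := h5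
    obtain ⟨θ, hθ, hθd⟩ := H80.exists_constituent_deg_le (P := (P : Subgroup G)) hpp P.isPGroup'
      (isCharacter_restrict (irr_isCharacter χ) (P : Subgroup G)) (n := deg χ) (deg_spec χ)
      (k := j) (by
        rw [hb, hj]
        intro h6
        apply h2
        rw [pow_succ, mul_comm (P : Subgroup G).index] at h6
        exact Nat.dvd_of_mul_dvd_mul_left (pow_pos hpp.pos j) h6)
    refine ⟨P, θ.1, irr_isCharacter θ, ?_⟩
    refine (eq_of_degree_le (indFun_isCharacter _ _ (irr_isCharacter θ)) χ.2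
      (H80.inner_ind_ne_zero χ (P : Subgroup G) hθ) (d := deg χ)
      (n := (P : Subgroup G).index * deg θ) (deg_spec χ) (by
        rw [indFun_one_apply, deg_spec θ]; push_cast; ring) ?_).symm
    rw [hb, hj]
    exact Nat.mul_le_mul_left _ hθd
  · rintro ⟨P, θ, hθ, hχ⟩
    rw [charDegree_eq_deg]
    obtain ⟨n, hn⟩ := exists_nat_degree hθ
    have h1 : deg χ = (P : Subgroup G).index * n := by
      have : (deg χ : ℂ) = (P : Subgroup G).index * n := by
        rw [← deg_spec χ, hχ, indFun_one_apply, hn]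
      exact_mod_cast this
    have h2 := deg_dvd χ
    have hipos : 0 < (P : Subgroup G).index := Nat.pos_of_ne_zero Subgroup.index_ne_zero_of_finite
    rw [h1, ← (P : Subgroup G).card_mul_index, mul_comm] at h2
    have h3 := Nat.dvd_of_mul_dvd_mul_right hipos h2
    obtain ⟨m, hm⟩ := h3
    obtain ⟨a, ha⟩ := IsPGroup.iff_card.mp P.isPGroup'
    have h4 : m ∣ p ^ a := ⟨n, by rw [← ha, hm, mul_comm]⟩
    rw [Nat.dvd_prime_pow hpp] at h4
    obtain ⟨k, -, hk⟩ := h4
    refine ⟨k, ?_⟩
    rw [← (P : Subgroup G).card_mul_index, hm, h1, hk]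
    ring

end Cfsg.Agent.S4798
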