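import Cfsg.Statements.S4801
import Cfsg.Agent.H75.Inflate
import Cfsg.Agent.H75.Tools

set_option autoImplicit false
open Cfsg Cfsg.Agent.CharBase Cfsg.Agent.H75
open scoped ComplexConjugate

namespace Cfsg.Agent.S4801

/-- The codegree of an irreducible complex character χ of a finite group G is [G : ker χ] / χ(1), where ker χ is the set of elements at which χ takes the value χ(1). Let S be a finite simple group and G a finite group such that every codegree of an irreducible character of S is a codegree of an irreducible character of G. Then the order of S divides the order of G. -/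
theorem result {S : Type*} [Group S] [Finite S] (hS : IsSimpleGroup S) {G : Type*} [Group G] [Finite G] (hsub : ∀ χ : Cfsg.IrrCharacter S, ∃ ψ : Cfsg.IrrCharacter G, (Nat.card S / (Nat.card {g : S // (χ : S → ℂ) g = (χ : S → ℂ) 1} * Cfsg.charDegree (χ : S → ℂ))) = (Nat.card G / (Nat.card {g : G // (ψ : G → ℂ) g = (ψ : G → ℂ) 1} * Cfsg.charDegree (ψ : G → ℂ)))) : Nat.card S ∣ Nat.card G := by
  classical
  have := Fintype.ofFinite (IrrCharacter S)
  have := Fintype.ofFinite S
  -- the codegree of an irreducible character of G divides |G|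
  have hdvdG : ∀ ψ : IrrCharacter G, (Nat.card G / (Nat.card {g : G // (ψ : G → ℂ) g = (ψ : G → ℂ) 1} * Cfsg.charDegree (ψ : G → ℂ))) ∣ Nat.card G := by
    intro ψ
    apply Nat.div_dvd_of_dvd
    rw [charDegree_eq_deg]
    have hker := charKer_normal (irr_isCharacter ψ)
    obtain ⟨ψ', hψ', heq⟩ := exists_deflate_irr (charKer (irr_isCharacter ψ)) ψ.2 (fun n hn => (mem_charKer (irr_isCharacter ψ) n).mp hn)
    have h1 : ψ' 1 = deg ψ := by
      rw [← QuotientGroup.mk_one, heq, deg_spec]
    have h2 : deg ψ ∣ Nat.card (G ⧸ charKer (irr_isCharacter ψ)) := by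
      have := Fintype.ofFinite (G ⧸ charKer (irr_isCharacter ψ))
      exact degree_dvd_card hψ' h1
    have h3 : Nat.card {g : G // (ψ : G → ℂ) g = (ψ : G → ℂ) 1} = Nat.card (charKer (irr_isCharacter ψ)) := by
      apply Nat.card_congr
      apply Equiv.subtypeEquivRight
      intro g
      rw [mem_charKer]
    rw [h3, Subgroup.card_eq_card_quotient_mul_card_subgroup (charKer (irr_isCharacter ψ)), mul_comm]
    exact Nat.mul_dvd_mul_right h2 _
  -- codegrees of S
  have hcodS : ∀ χ : IrrCharacter S, χ ≠ oneIrr S → Nat.card S / deg χ ∣ Nat.card G := by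
    intro χ hχ
    obtain ⟨ψ, hψ⟩ := hsub χ
    have h1 : Nat.card {g : S // (χ : S → ℂ) g = (χ : S → ℂ) 1} = 1 := by
      have h3 : Nat.card {g : S // (χ : S → ℂ) g = (χ : S → ℂ) 1} = Nat.card (charKer (irr_isCharacter χ)) := by
        apply Nat.card_congr
        apply Equiv.subtypeEquivRight
        intro g
        rw [mem_charKer]
      rw [h3]
      rcases hS.eq_bot_or_eq_top_of_normal _ (charKer_normal (irr_isCharacter χ)) with h | h
      · rw [h, Subgroup.card_bot]
      · exfalso
        have h4 : ∀ g : S, (χ : S → ℂ) g = (χ : S → ℂ) 1 := by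
          intro g
          rw [← mem_charKer (irr_isCharacter χ), h]; trivial
        have h5 : classInner (χ : S → ℂ) ((oneIrr S : IrrCharacter S) : S → ℂ) = 0 := classInner_irr_of_ne hχ
        have h6 : classInner (χ : S → ℂ) ((oneIrr S : IrrCharacter S) : S → ℂ) = (χ : S → ℂ) 1 := by
          unfold classInner
          have h7 : ∀ g : S, (χ : S → ℂ) g * conj (((oneIrr S : IrrCharacter S) : S → ℂ) g) = (χ : S → ℂ) 1 := by
            intro g
            change (χ : S → ℂ) g * conj (1 : ℂ) = _
            rw [map_one, mul_one, h4]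
          rw [Finset.sum_congr rfl fun g _ => h7 g, Finset.sum_const, Finset.card_univ, nsmul_eq_mul, Nat.card_eq_fintype_card,
            ← mul_assoc, inv_mul_cancel₀, one_mul]
          exact_mod_cast Fintype.card_ne_zero
        rw [h6] at h5
        exact irr_one_ne_zero χ.2 h5
    rw [h1, one_mul, charDegree_eq_deg] at hψ
    rw [hψ]
    exact hdvdG ψ
  -- prime by prime
  rw [Nat.dvd_iff_prime_pow_dvd_dvd]
  intro p k hp hk
  by_cases hk0 : k = 0
  · rw [hk0, pow_zero]; exact one_dvd _
  have hpS : p ∣ Nat.card S := (dvd_pow_self p hk0).trans hk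
  have hex : ∃ χ : IrrCharacter S, χ ≠ oneIrr S ∧ ¬ p ∣ deg χ := by
    by_contra hcon
    push Not at hcon
    have h1 := sum_deg_sq (G := S)
    rw [← Finset.add_sum_erase Finset.univ _ (Finset.mem_univ (oneIrr S))] at h1
    have h2 : deg (oneIrr S) = 1 := by
      have := deg_spec (oneIrr S)
      have h3 : ((oneIrr S : IrrCharacter S) : S → ℂ) 1 = 1 := rfl
      rw [h3] at this
      exact_mod_cast this.symm
    rw [h2] at h1
    have h3 : p ∣ ∑ χ ∈ Finset.univ.erase (oneIrr S), deg χ ^ 2 := by
      apply Finset.dvd_sum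
      intro χ hχ
      exact (hcon χ (Finset.mem_erase.mp hχ).1).trans (dvd_pow_self _ two_ne_zero)
    have h4 : p ∣ 1 := by
      have h5 : p ∣ 1 ^ 2 + ∑ χ ∈ Finset.univ.erase (oneIrr S), deg χ ^ 2 := by rw [h1]; exact hpS
      rw [one_pow] at h5
      exact (Nat.dvd_add_left h3).mp h5
    exact hp.one_lt.ne' (Nat.dvd_one.mp h4)
  obtain ⟨χ, hχ, hpχ⟩ := hex
  refine dvd_trans ?_ (hcodS χ hχ)
  have h1 : Nat.card S = deg χ * (Nat.card S / deg χ) := (Nat.mul_div_cancel' (deg_dvd χ)).symm
  rw [h1] at hk
  exact Nat.Coprime.dvd_of_dvd_mul_left (Nat.Coprime.pow_left k ((Nat.Prime.coprime_iff_not_dvd hp).mpr hpχ)) hk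

end Cfsg.Agent.S4801
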