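import Cfsg.Statements.S4802
import Cfsg.Agent.CharBase.Column
import Cfsg.Agent.Char.AvgN

set_option autoImplicit false
open Cfsg Cfsg.Agent.CharBase
open scoped ComplexConjugate

namespace Cfsg.Agent.S4802

/-- Let N < M be normal subgroups of the finite group G and g ∈ M ∖ N. Then the conjugacy class of g is exactly M ∖ N if and only if every irreducible complex character of G whose kernel contains N takes the same value at all elements of M ∖ N, and every irreducible complex character of G whose kernel does not contain N vanishes at g. -/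
theorem result {G : Type*} [Group G] [Finite G] (N M : Subgroup G) [N.Normal] [M.Normal] (hNM : N < M) (g : G) (hgM : g ∈ M) (hgN : g ∉ N) : {h : G | IsConj g h} = (M : Set G) \ (N : Set G) ↔ ((∀ χ : Cfsg.IrrCharacter G, (∀ x ∈ N, (χ : G → ℂ) x = (χ : G → ℂ) 1) → ∀ x ∈ M, x ∉ N → ∀ y ∈ M, y ∉ N → (χ : G → ℂ) x = (χ : G → ℂ) y) ∧ (∀ χ : Cfsg.IrrCharacter G, (∃ x ∈ N, (χ : G → ℂ) x ≠ (χ : G → ℂ) 1) → (χ : G → ℂ) g = 0)) := by
  classical
  have := Fintype.ofFinite G
  have := Fintype.ofFinite N
  have := Fintype.ofFinite (IrrCharacter G)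
  have hN0 : (Nat.card N : ℂ) ≠ 0 := by exact_mod_cast Nat.card_pos.ne'
  constructor
  · intro h
    have hconj : ∀ x ∈ M, x ∉ N → IsConj g x := by
      intro x hx hxN
      have : x ∈ (M : Set G) \ (N : Set G) := ⟨hx, hxN⟩
      rw [← h] at this
      exact this
    have hval : ∀ χ : IrrCharacter G, ∀ x ∈ M, x ∉ N → (χ : G → ℂ) x = (χ : G → ℂ) g := by
      intro χ x hx hxN
      exact (classFun_eq_of_isConj (irr_isClassFunction χ) (hconj x hx hxN)).symm
    constructor
    · intro χ _ x hx hxN y hy hyN
      rw [hval χ x hx hxN, hval χ y hy hyN]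
    · rintro χ ⟨x, hx, hne⟩
      rcases Cfsg.Agent.Char.avgN_irr N χ.2 with h1 | h1
      · have h2 := congrFun h1 g
        rw [Cfsg.Agent.Char.avgN_apply] at h2
        have h3 := (mul_eq_zero.mp h2).resolve_left (inv_ne_zero hN0)
        have h4 : ∀ n : N, (χ : G → ℂ) ((n : G) * g) = (χ : G → ℂ) g := by
          intro n
          apply hval χ
          · exact M.mul_mem (hNM.le n.2) hgM
          · intro h5
            apply hgN
            have := N.mul_mem (N.inv_mem n.2) h5
            rwa [inv_mul_cancel_left] at this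
        rw [Finset.sum_congr rfl fun n _ => h4 n, Finset.sum_const, Finset.card_univ, nsmul_eq_mul,
          ← Nat.card_eq_fintype_card] at h3
        exact (mul_eq_zero.mp h3).resolve_left hN0
      · exfalso
        apply hne
        have h2 := Cfsg.Agent.Char.avgN_mul N (χ : G → ℂ) ⟨x, hx⟩ 1
        rw [h1] at h2
        simpa using h2
  · rintro ⟨h1, h2⟩
    ext h
    constructor
    · intro hh
      obtain ⟨c, hc⟩ := isConj_iff.mp hh
      subst hc
      refine ⟨Subgroup.Normal.conj_mem inferInstance g hgM c, fun hn => hgN ?_⟩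
      have := (inferInstance : N.Normal).conj_mem _ hn c⁻¹
      have e : c⁻¹ * (c * g * c⁻¹) * c⁻¹⁻¹ = g := by group
      rwa [e] at this
    · rintro ⟨hhM, hhN⟩
      by_contra hnc
      have h3 := column_orthogonality_of_not_isConj hnc
      have h4 : ∑ χ : IrrCharacter G, (χ : G → ℂ) g * conj ((χ : G → ℂ) h) = ∑ χ : IrrCharacter G, (χ : G → ℂ) g * conj ((χ : G → ℂ) g) := by
        refine Finset.sum_congr rfl fun χ _ => ?_
        by_cases hχ : ∀ x ∈ N, (χ : G → ℂ) x = (χ : G → ℂ) 1
        · rw [h1 χ hχ h hhM hhN g hgM hgN]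
        · push Not at hχ
          rw [h2 χ hχ, zero_mul, zero_mul]
      rw [h3, column_orthogonality_of_isConj (IsConj.refl g)] at h4
      exact Nat.card_pos.ne' (by exact_mod_cast h4.symm)

end Cfsg.Agent.S4802
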