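import Cfsg.Statements.S4805
import Cfsg.Agent.H76.OneNonvan3
import Cfsg.Agent.FT.Base

set_option autoImplicit false
open Cfsg

namespace Cfsg.Agent.S4805

open scoped ComplexConjugate

/-- Let G be a finite group, g an element outside the centre of G, and χ an irreducible complex character of degree greater than one with χ(g) ≠ 0 such that every other irreducible character of degree greater than one vanishes at g. Then g lies in the derived subgroup G′ and χ(g) = −[G : G′]/χ(1); G′ is the union of the kernel of χ (the elements where χ takes the value χ(1)) and the conjugacy class of g, and χ vanishes outside G′; every irreducible character of degree greater than one whose kernel contains that of χ equals χ; and G is solvable. -/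
theorem result {G : Type*} [Group G] [Finite G] (g : G) (hg : g ∉ Subgroup.center G) (χ : Cfsg.IrrCharacter G) (hχ1 : Cfsg.charDegree (χ : G → ℂ) ≠ 1) (hχg : (χ : G → ℂ) g ≠ 0) (hother : ∀ ψ : Cfsg.IrrCharacter G, Cfsg.charDegree (ψ : G → ℂ) ≠ 1 → ψ ≠ χ → (ψ : G → ℂ) g = 0) : g ∈ commutator G ∧ (χ : G → ℂ) g = -(((commutator G).index : ℂ) / (χ : G → ℂ) 1) ∧ ((commutator G : Set G) = {x : G | (χ : G → ℂ) x = (χ : G → ℂ) 1} ∪ {h : G | IsConj g h}) ∧ (∀ x : G, x ∉ commutator G → (χ : G → ℂ) x = 0) ∧ (∀ ψ : Cfsg.IrrCharacter G, Cfsg.charDegree (ψ : G → ℂ) ≠ 1 → (∀ x : G, (χ : G → ℂ) x = (χ : G → ℂ) 1 → (ψ : G → ℂ) x = (ψ : G → ℂ) 1) → ψ = χ) ∧ Group.IsSolvable G := by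
  obtain ⟨h1, h2⟩ := H76.mem_commutator_value hg hχ1 hχg hother
  exact ⟨h1, h2, H76.commutator_eq_union hg hχ1 hχg hother,
    fun x hx => H76.off_commutator hg hχ1 hχg hother hx,
    fun ψ hψ hk => H76.unique_over hg hχ1 hχg hother hψ hk,
    H76.solvable_of hg hχ1 hχg hother (fun M hM => FT.solvable_of_odd hM)⟩

end Cfsg.Agent.S4805
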