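import Cfsg.Statements.S4807
import Cfsg.Agent.H76.Twg7

set_option autoImplicit false
open Cfsg

namespace Cfsg.Agent.S4807

open Cfsg.Agent.CharBase Cfsg.Agent.Char Cfsg.Agent.H76.Twc

/-- Let p be a prime and G a finite p-solvable group, L a normal subgroup of G, S a Sylow p-subgroup of G and P the subgroup generated by L and S (so P/L is a Sylow p-subgroup of G/L), and let ν be an irreducible complex character of L that is invariant under conjugation by every element of P. Let N be the normalizer of P in G (it contains L). Then the number of irreducible characters of G of degree prime to p lying over ν (restriction to L not orthogonal to ν) equals the number of irreducible characters of N of degree prime to p lying over ν. -/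
theorem result {G : Type*} [Group G] [Finite G] (p : ℕ) [Fact p.Prime] (hG : Cfsg.IsPSolvable p G) (L : Subgroup G) [L.Normal] (S : Sylow p G) (P : Subgroup G) (hP : P = L ⊔ (S : Subgroup G)) (hLN : L ≤ (Subgroup.normalizer ((P : Subgroup G) : Set G))) (ν : Cfsg.IrrCharacter ↥L) (hν : ∀ x ∈ P, Cfsg.IsConjCharOf L x (ν : ↥L → ℂ) (ν : ↥L → ℂ)) : Nat.card {χ : Cfsg.IrrCharacter G // ¬ p ∣ Cfsg.charDegree (χ : G → ℂ) ∧ (∑ᶠ l : ↥L, (χ : G → ℂ) (l : G) * (starRingEnd ℂ) ((ν : ↥L → ℂ) l)) ≠ 0} = Nat.card {ψ : Cfsg.IrrCharacter ↥(Subgroup.normalizer ((P : Subgroup G) : Set G)) // ¬ p ∣ Cfsg.charDegree (ψ : ↥(Subgroup.normalizer ((P : Subgroup G) : Set G)) → ℂ) ∧ (∑ᶠ l : ↥L, (ψ : ↥(Subgroup.normalizer ((P : Subgroup G) : Set G)) → ℂ) (Subgroup.inclusion hLN l) * (starRingEnd ℂ) ((ν : ↥L → ℂ) l)) ≠ 0} := by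
  classical
  have hp : p.Prime := Fact.out
  have := Fintype.ofFinite L
  have hcard : ((Nat.card L : ℂ))⁻¹ ≠ 0 := inv_ne_zero (Nat.cast_ne_zero.mpr Nat.card_pos.ne')
  have key : ∀ f : L → ℂ, (∑ᶠ l : ↥L, f l * (starRingEnd ℂ) ((ν : ↥L → ℂ) l)) ≠ 0 ↔
      classInner f (ν : L → ℂ) ≠ 0 := by
    intro f
    rw [classInner_eq_finsum, mul_ne_zero_iff]
    exact ⟨fun h => ⟨hcard, h⟩, fun h => h.2⟩
  have hnz : ∀ x : G, Nz L.subtype x := by
    intro x
    refine ⟨fun k => ⟨⟨x * k * x⁻¹, (inferInstance : L.Normal).conj_mem _ k.2 x⟩, rfl⟩, fun k =>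
      ⟨⟨x⁻¹ * k * x, ?_⟩, rfl⟩⟩
    have := (inferInstance : L.Normal).conj_mem _ k.2 x⁻¹
    rwa [inv_inv] at this
  have h := main hp (L.subtype.range).index G hG L L.subtype L.subtype_injective hnz
    (ν : L → ℂ) ν.2 (S : Subgroup G) S.2 S.not_dvd_index
    (fun s hs => hν s (hP ▸ (le_sup_right : (S : Subgroup G) ≤ L ⊔ S) hs))
    (Subgroup.normalizer ((P : Subgroup G) : Set G))
    (Subgroup.normalizer ((P : Subgroup G) : Set G)).subtype
    (Subgroup.normalizer ((P : Subgroup G) : Set G)).subtype_injective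
    (by rw [Subgroup.range_subtype, Subgroup.range_subtype, hP])
    (Subgroup.inclusion hLN) (fun _ => rfl) rfl
  unfold cnt at h
  have e1 : Nat.card {χ : Cfsg.IrrCharacter G // ¬ p ∣ Cfsg.charDegree (χ : G → ℂ) ∧
      (∑ᶠ l : ↥L, (χ : G → ℂ) (l : G) * (starRingEnd ℂ) ((ν : ↥L → ℂ) l)) ≠ 0} =
      Nat.card {χ : Cfsg.IrrCharacter G // ¬ p ∣ Cfsg.charDegree (χ : G → ℂ) ∧
        classInner (fun l => (χ : G → ℂ) (L.subtype l)) (ν : L → ℂ) ≠ 0} :=
    Nat.card_congr (Equiv.subtypeEquivRight fun χ => and_congr_right fun _ =>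
      key (fun l => (χ : G → ℂ) l))
  rw [e1, h]
  exact Nat.card_congr (Equiv.subtypeEquivRight fun ψ => and_congr_right fun _ =>
    (key (fun l => (ψ : ↥(Subgroup.normalizer ((P : Subgroup G) : Set G)) → ℂ)
      (Subgroup.inclusion hLN l))).symm)

end Cfsg.Agent.S4807
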