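import Cfsg.Statements.S4812
import Cfsg.Agent.H34.PDeg2

set_option autoImplicit false
open Cfsg

namespace Cfsg.Agent.S4812

/-- Let F be a finite field of characteristic 2 with q ≥ 4 elements and let S be isomorphic to PSL(2,F) or to SL(2,F). Then the vertices of the character degree graph of S are the primes dividing q(q²−1), and two distinct primes are adjacent exactly when both divide q + 1 or both divide q − 1; so the graph has the three connected components {2}, the primes dividing q + 1 and the primes dividing q − 1, each complete. -/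
theorem result (F : Type*) [Field F] [Fintype F] [CharP F 2] (q : ℕ) (hq : Fintype.card F = q) (h4 : 4 ≤ q) {S : Type*} [Group S] [Finite S] (hS : Nonempty (S ≃* Matrix.ProjectiveSpecialLinearGroup (Fin 2) F) ∨ Nonempty (S ≃* Matrix.SpecialLinearGroup (Fin 2) F)) : Cfsg.degreePrimes S = {r : ℕ | r.Prime ∧ r ∣ q * (q ^ 2 - 1)} ∧ ∀ r s : ℕ, (Cfsg.degreeGraph S).Adj r s ↔ (r ≠ s ∧ r.Prime ∧ s.Prime ∧ ((r ∣ q + 1 ∧ s ∣ q + 1) ∨ (r ∣ q - 1 ∧ s ∣ q - 1))) := by
  classical
  haveI : Fact (Nat.Prime 2) := ⟨Nat.prime_two⟩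
  have h2 : (2 : F) = 0 := by
    have := CharP.cast_eq_zero F 2
    exact_mod_cast this
  obtain ⟨h1, h3⟩ := H34.Deg.graph_data_group hS (H34.Deg.graph_data_even h2 (by omega))
  obtain ⟨n, hn, hqn⟩ := H34.Deg.exists_card_pow (F := F) 2
  rw [hq] at hqn h1 h3
  exact ⟨H34.Deg.degreePrimes_of hqn hn Nat.prime_two h1 (h3 _ (Or.inl rfl)) (h3 _ (Or.inr (Or.inl rfl))) (h3 _ (Or.inr (Or.inr rfl))),
    fun r s => H34.Deg.degreeGraph_of hqn Nat.prime_two h1 (h3 _ (Or.inr (Or.inl rfl))) (h3 _ (Or.inr (Or.inr rfl))) r s⟩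

end Cfsg.Agent.S4812
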