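import Cfsg.Statements.S4814
import Cfsg.Agent.H75.Tools

set_option autoImplicit false
open Cfsg

namespace Cfsg.Agent.S4814

open Cfsg.Agent.CharBase

/-- `∑_{a,b} χ(u [a,b]) = (|G|/χ(1))² χ(u)` -/
theorem sum_commutator {G : Type*} [Group G] [Fintype G] (χ : IrrCharacter G) (u : G) :
    ∑ a : G, ∑ b : G, (χ : G → ℂ) (u * (a * b * a⁻¹ * b⁻¹)) =
      ((Nat.card G : ℂ) / (χ : G → ℂ) 1) ^ 2 * (χ : G → ℂ) u := by
  classical
  have h1 : ∀ a : G, ∑ b : G, (χ : G → ℂ) (u * (a * b * a⁻¹ * b⁻¹)) =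
      (Nat.card G : ℂ) / (χ : G → ℂ) 1 * ((χ : G → ℂ) (u * a) * (χ : G → ℂ) a⁻¹) := by
    intro a
    have h2 := sum_conj_mul χ.2 (u * a) a⁻¹
    have h3 : ∀ b : G, u * (a * b * a⁻¹ * b⁻¹) = u * a * (b * a⁻¹ * b⁻¹) := fun b => by group
    simp only [h3]
    rw [h2]
    ring
  simp only [h1]
  rw [← Finset.mul_sum]
  have h4 : ∑ a : G, (χ : G → ℂ) (u * a) * (χ : G → ℂ) a⁻¹ =
      (Nat.card G : ℂ) / (χ : G → ℂ) 1 * (χ : G → ℂ) u := by
    have h5 := congrFun (conv_irr χ χ) u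
    rw [if_pos rfl] at h5
    simp only [Pi.smul_apply, smul_eq_mul] at h5
    rw [← h5]
    unfold conv
    refine Fintype.sum_equiv (Equiv.mulLeft u) _ _ (fun a => ?_)
    change _ = (χ : G → ℂ) (u * a) * (χ : G → ℂ) ((u * a)⁻¹ * u)
    have : (u * a)⁻¹ * u = a⁻¹ := by group
    rw [this]
  rw [h4]
  ring

/-- Let G be a finite group such that the sum, over the irreducible complex characters χ of G, of 1/χ(1)² is less than 2. Then every element of G is a product of two commutators. -/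
theorem result {G : Type*} [Group G] [Finite G]
    (h : ∑ᶠ χ : Cfsg.IrrCharacter G, 1 / ‖(χ : G → ℂ) 1‖ ^ 2 < (2 : ℝ)) (g : G) :
    ∃ a b c d : G, (a * b * a⁻¹ * b⁻¹) * (c * d * c⁻¹ * d⁻¹) = g := by
  classical
  by_contra hcon
  push Not at hcon
  have := Fintype.ofFinite G
  have := Fintype.ofFinite (IrrCharacter G)
  rw [finsum_eq_sum_of_fintype] at h
  -- the count is zero
  have h0 : ∑ c : G, ∑ d : G, ∑ a : G, ∑ b : G, ∑ χ : IrrCharacter G, (χ : G → ℂ) 1 *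
      (χ : G → ℂ) ((g⁻¹ * (a * b * a⁻¹ * b⁻¹)) * (c * d * c⁻¹ * d⁻¹)) = 0 := by
    refine Finset.sum_eq_zero (fun c _ => Finset.sum_eq_zero (fun d _ =>
      Finset.sum_eq_zero (fun a _ => Finset.sum_eq_zero (fun b _ => ?_))))
    rw [sum_degree_mul, if_neg]
    intro h1
    apply hcon a b c d
    have h2 : g * (g⁻¹ * (a * b * a⁻¹ * b⁻¹) * (c * d * c⁻¹ * d⁻¹)) = g := by rw [h1, mul_one]
    rw [← h2]; group
  have h1 : ∀ χ : IrrCharacter G, ∑ c : G, ∑ d : G, ∑ a : G, ∑ b : G, (χ : G → ℂ) 1 *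
      (χ : G → ℂ) ((g⁻¹ * (a * b * a⁻¹ * b⁻¹)) * (c * d * c⁻¹ * d⁻¹)) =
      (Nat.card G : ℂ) ^ 4 * ((χ : G → ℂ) g⁻¹ / (χ : G → ℂ) 1 ^ 3) := by
    intro χ
    have hne := irr_one_ne_zero χ.2
    have h2 : ∀ c d a b : G, (χ : G → ℂ) ((g⁻¹ * (a * b * a⁻¹ * b⁻¹)) * (c * d * c⁻¹ * d⁻¹)) =
        (χ : G → ℂ) (((c * d * c⁻¹ * d⁻¹) * g⁻¹) * (a * b * a⁻¹ * b⁻¹)) := by
      intro c d a b
      rw [classFun_mul_comm (irr_isClassFunction χ), ← mul_assoc]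
    simp only [h2, ← Finset.mul_sum, sum_commutator χ]
    have h3 : ∀ c d : G, (χ : G → ℂ) (c * d * c⁻¹ * d⁻¹ * g⁻¹) =
        (χ : G → ℂ) (g⁻¹ * (c * d * c⁻¹ * d⁻¹)) := fun c d =>
      classFun_mul_comm (irr_isClassFunction χ) _ _
    simp only [h3, sum_commutator χ]
    field_simp
  have h2 : (Nat.card G : ℂ) ^ 4 * ∑ χ : IrrCharacter G, ((χ : G → ℂ) g⁻¹ / (χ : G → ℂ) 1 ^ 3) = 0 := by
    rw [Finset.mul_sum]
    simp only [← h1]
    rw [← h0]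
    rw [Finset.sum_comm]
    refine Finset.sum_congr rfl (fun c _ => ?_)
    rw [Finset.sum_comm]
    refine Finset.sum_congr rfl (fun d _ => ?_)
    rw [Finset.sum_comm]
    refine Finset.sum_congr rfl (fun a _ => ?_)
    rw [Finset.sum_comm]
  have hG : (Nat.card G : ℂ) ^ 4 ≠ 0 := pow_ne_zero _ (by exact_mod_cast Nat.card_pos.ne')
  have h3 := (mul_eq_zero.mp h2).resolve_left hG
  rw [← Finset.add_sum_erase _ _ (Finset.mem_univ (oneIrr G))] at h3 h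
  simp only [oneIrr_apply, one_pow, div_one, norm_one] at h3 h
  have h4 : ‖∑ χ ∈ Finset.univ.erase (oneIrr G), ((χ : G → ℂ) g⁻¹ / (χ : G → ℂ) 1 ^ 3)‖ ≤
      ∑ χ ∈ Finset.univ.erase (oneIrr G), 1 / ‖(χ : G → ℂ) 1‖ ^ 2 := by
    refine (norm_sum_le _ _).trans (Finset.sum_le_sum (fun χ _ => ?_))
    obtain ⟨n, hn, hle⟩ := norm_le_of_isCharacter (irr_isCharacter χ) g⁻¹
    have hn0 : (n : ℝ) ≠ 0 := by
      intro h0
      apply irr_one_ne_zero χ.2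
      rw [hn]; exact_mod_cast h0
    have hnpos : (0 : ℝ) < n := lt_of_le_of_ne (Nat.cast_nonneg n) hn0.symm
    rw [norm_div, norm_pow, hn]
    simp only [Complex.norm_natCast]
    rw [div_le_div_iff₀ (by positivity) (by positivity)]
    nlinarith [sq_nonneg (n : ℝ), mul_le_mul_of_nonneg_right hle (sq_nonneg (n : ℝ))]
  have h5 : ‖∑ χ ∈ Finset.univ.erase (oneIrr G), ((χ : G → ℂ) g⁻¹ / (χ : G → ℂ) 1 ^ 3)‖ = 1 := by
    have : ∑ χ ∈ Finset.univ.erase (oneIrr G), ((χ : G → ℂ) g⁻¹ / (χ : G → ℂ) 1 ^ 3) = -1 := by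
      linear_combination h3
    rw [this, norm_neg, norm_one]
  rw [h5] at h4
  linarith

end Cfsg.Agent.S4814
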