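import Cfsg.Statements.S4825
import Cfsg.Agent.H80.BlockOver

set_option autoImplicit false
open Cfsg

namespace Cfsg.Agent.S4825

open Cfsg.Agent.CharBase Cfsg.Agent.H75 Cfsg.Agent.Char

/-- Let p be a prime, G a finite group with Sylow p-subgroup P, M a maximal ideal of the algebraic integers containing p, and B a p-block of G with defect group P. Let N be a normal subgroup of G not containing P and θ an irreducible character of N. Then the number of irreducible characters in B of degree prime to p lying over θ (having θ as a constituent on restriction to N) is either 0 or at least 2, and when p ≤ 3 it is divisible by p. -/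
theorem result {G : Type*} [Group G] [Fintype G] (p : ℕ) [Fact p.Prime] (P : Sylow p G) (M : Ideal Cfsg.AlgInt) (hM : Cfsg.IsPModular p M) (B : Set (Cfsg.IrrCharacter G)) (hB : Cfsg.IsPBlock M B) (hBP : Cfsg.IsDefectGroup p M B P) (N : Subgroup G) [N.Normal] [Fintype N] (hPN : ¬ (P : Subgroup G) ≤ N) (θ : Cfsg.IrrCharacter N) :
    (Nat.card {χ : Cfsg.IrrCharacter G // χ ∈ B ∧ ¬ p ∣ Cfsg.charDegree (χ : G → ℂ) ∧ Cfsg.classInner (fun n : N => (χ : G → ℂ) n) (θ : N → ℂ) ≠ 0} = 0 ∨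
      2 ≤ Nat.card {χ : Cfsg.IrrCharacter G // χ ∈ B ∧ ¬ p ∣ Cfsg.charDegree (χ : G → ℂ) ∧ Cfsg.classInner (fun n : N => (χ : G → ℂ) n) (θ : N → ℂ) ≠ 0}) ∧
    (p ≤ 3 → p ∣ Nat.card {χ : Cfsg.IrrCharacter G // χ ∈ B ∧ ¬ p ∣ Cfsg.charDegree (χ : G → ℂ) ∧ Cfsg.classInner (fun n : N => (χ : G → ℂ) n) (θ : N → ℂ) ≠ 0}) := by
  classical
  have := Fintype.ofFinite (IrrCharacter G)
  have hpp : p.Prime := Fact.out
  obtain ⟨x, hxP, hxN⟩ := SetLike.not_le_iff_exists.mp hPN
  have hx : ∃ k, orderOf x = p ^ k := by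
    obtain ⟨k, hk⟩ := IsPGroup.iff_orderOf.mp P.isPGroup' ⟨x, hxP⟩
    exact ⟨k, by rwa [Subgroup.orderOf_mk] at hk⟩
  have h1 := H80.dvd_sum_over hM hB N θ hxN hx
  set X := Finset.univ.filter (fun χ : IrrCharacter G => χ ∈ B ∧ ¬ p ∣ charDegree (χ : G → ℂ) ∧
    classInner (fun n : N => (χ : G → ℂ) n) (θ : N → ℂ) ≠ 0) with hX
  have hcard : Nat.card {χ : Cfsg.IrrCharacter G // χ ∈ B ∧ ¬ p ∣ Cfsg.charDegree (χ : G → ℂ) ∧
      Cfsg.classInner (fun n : N => (χ : G → ℂ) n) (θ : N → ℂ) ≠ 0} = X.card := by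
    rw [Nat.card_eq_fintype_card, Fintype.card_subtype]
  have hsum : p ∣ ∑ χ ∈ X, deg χ ^ 2 := by
    have h2 : ∑ χ ∈ Finset.univ.filter (fun χ : IrrCharacter G => χ ∈ B ∧
        classInner (fun n : N => (χ : G → ℂ) n) (θ : N → ℂ) ≠ 0), deg χ ^ 2 =
        ∑ χ ∈ X, deg χ ^ 2 + ∑ χ ∈ (Finset.univ.filter (fun χ : IrrCharacter G => χ ∈ B ∧
        classInner (fun n : N => (χ : G → ℂ) n) (θ : N → ℂ) ≠ 0)).filter (fun χ => p ∣ deg χ),
          deg χ ^ 2 := by
      rw [← Finset.sum_filter_add_sum_filter_not (Finset.univ.filter (fun χ : IrrCharacter G => χ ∈ B ∧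
        classInner (fun n : N => (χ : G → ℂ) n) (θ : N → ℂ) ≠ 0)) (fun χ => p ∣ deg χ), add_comm]
      congr 1
      refine Finset.sum_congr ?_ (fun _ _ => rfl)
      ext χ
      simp only [hX, Finset.mem_filter, Finset.mem_univ, true_and, charDegree_eq_deg]
      tauto
    rw [h2] at h1
    refine (Nat.dvd_add_left ?_).mp h1
    refine Finset.dvd_sum (fun χ hχ => ?_)
    exact (Finset.mem_filter.mp hχ).2.trans (dvd_pow_self _ two_ne_zero)
  rw [hcard]
  refine ⟨?_, fun hp3 => ?_⟩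
  · by_contra hcon
    push Not at hcon
    have h3 : X.card = 1 := by omega
    obtain ⟨χ, hχ⟩ := Finset.card_eq_one.mp h3
    rw [hχ, Finset.sum_singleton] at hsum
    have h4 : χ ∈ X := by rw [hχ]; exact Finset.mem_singleton_self χ
    rw [hX, Finset.mem_filter, charDegree_eq_deg] at h4
    exact h4.2.2.1 (hpp.dvd_of_dvd_pow hsum)
  · have h4 : ∀ χ ∈ X, (deg χ ^ 2) % p = 1 := by
      intro χ hχ
      rw [hX, Finset.mem_filter, charDegree_eq_deg] at hχ
      have h5 := hχ.2.2.1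
      have hp2 := hpp.two_le
      interval_cases p
      · rw [Nat.pow_mod]
        have : deg χ % 2 = 1 := by omega
        rw [this]
      · rw [Nat.pow_mod]
        have : deg χ % 3 = 1 ∨ deg χ % 3 = 2 := by omega
        rcases this with h | h <;> rw [h]
    have h5 : (∑ χ ∈ X, deg χ ^ 2) % p = X.card % p := by
      rw [Finset.sum_nat_mod, Finset.sum_congr rfl h4]
      simp
    rw [Nat.dvd_iff_mod_eq_zero] at hsum ⊢
    rw [← h5]; exact hsum

end Cfsg.Agent.S4825
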