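import Cfsg.Statements.S4828
import Cfsg.Agent.H79.MaxPair

set_option autoImplicit false
open Cfsg

namespace Cfsg.Agent.S4828

/-- Let p be a prime, M a maximal ideal of the algebraic integers containing p, and (Q, e) a Brauer pair of the finite group G (Q a p-subgroup, e a block of C_G(Q)). Then (Q, e) is a maximal Brauer pair of some block of G if and only if e contains an irreducible character θ such that θ takes the value θ(1) at every element of Z(Q) = Q ∩ C_G(Q), the p-part of θ(1) times the p-part of the order of Z(Q) equals the p-part of the order of C_G(Q) (θ has defect zero as a character of C_G(Q)/Z(Q)), and every element of N_G(Q) of p-power order that stabilizes e lies in Q·C_G(Q) (the stabilizer of e in N_G(Q) has index prime to p over Q·C_G(Q)). -/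
theorem result {G : Type*} [Group G] [Finite G] (p : ℕ) [Fact p.Prime] (M : Ideal Cfsg.AlgInt) (hM : Cfsg.IsPModular p M) (Q : Subgroup G) (e : Set (Cfsg.IrrCharacter (Subgroup.centralizer (Q : Set G)))) (he : Cfsg.IsBrauerPair p M Q e) :
    (∃ B : Set (Cfsg.IrrCharacter G), Cfsg.IsMaximalBrauerPair p M B Q e) ↔
      ∃ θ ∈ e, (∀ z : Subgroup.centralizer (Q : Set G), (z : G) ∈ Q → (θ : Subgroup.centralizer (Q : Set G) → ℂ) z = (θ : Subgroup.centralizer (Q : Set G) → ℂ) 1) ∧
        (Cfsg.charDegree (θ : Subgroup.centralizer (Q : Set G) → ℂ)).factorization p + (Nat.card ↥(Q ⊓ Subgroup.centralizer (Q : Set G))).factorization p = (Nat.card (Subgroup.centralizer (Q : Set G))).factorization p ∧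
        (∀ g : G, g ∈ Subgroup.normalizer (Q : Set G) → Cfsg.StabilizesBlock (Subgroup.centralizer (Q : Set G)) e g → (∃ k : ℕ, orderOf g = p ^ k) → g ∈ Q ⊔ Subgroup.centralizer (Q : Set G)) := by
  classical
  have hMp := Cfsg.Agent.Blk.isPrime_of_isPModular hM
  have hchar := Cfsg.Agent.Blk.charP_kM hM
  have := Fintype.ofFinite G
  have := Fintype.ofFinite (Subgroup.centralizer (Q : Set G))
  obtain ⟨hQ, heb⟩ := he
  have hE := Cfsg.Agent.Blk.isBlk_EB (M := M) heb
  have hpair : Cfsg.Agent.Blk.MPair p Q (Cfsg.Agent.Blk.EB M (Subgroup.centralizer (Q : Set G)) e) := ⟨hQ, hE⟩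
  -- the stabilizer
  have hst : ∀ g : G, g ∈ Cfsg.Agent.Blk.stab (Subgroup.normalizer (Q : Set G))
      (Cfsg.Agent.Blk.EB M (Subgroup.centralizer (Q : Set G)) e) ↔ g ∈ Subgroup.normalizer (Q : Set G) ∧
        Cfsg.StabilizesBlock (Subgroup.centralizer (Q : Set G)) e g := by
    intro g
    rw [Cfsg.Agent.Blk.mem_stab, Cfsg.Agent.Blk.stabilizesBlock_iff heb g]
    refine and_congr_right fun hg => ?_
    exact ⟨fun h => ⟨Cfsg.Agent.Blk.normalizer_le_normalizer_centralizer Q hg, h⟩, fun h => h.2⟩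
  -- maximal pairs
  have hmax : (∃ B : Set (Cfsg.IrrCharacter G), Cfsg.IsMaximalBrauerPair p M B Q e) ↔
      Cfsg.Agent.Blk.MMax p Q (Cfsg.Agent.Blk.EB M (Subgroup.centralizer (Q : Set G)) e) := by
    constructor
    · rintro ⟨B, hB⟩
      exact ((Cfsg.Agent.Blk.isMaximalBrauerPair_iff hM).1 hB).2.2.2
    · intro h
      obtain ⟨b, hb, -⟩ := Cfsg.Agent.Blk.existsUnique_block hpair
      obtain ⟨B, hB, hBb⟩ := Cfsg.Agent.Blk.exists_eB (M := M) hb.2.1
      refine ⟨B, (Cfsg.Agent.Blk.isMaximalBrauerPair_iff hM).2 ⟨hB, heb, ?_, h⟩⟩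
      rw [hBb]; exact hb
  rw [hmax, Cfsg.Agent.H79.mmax_iff hpair (Cfsg.Agent.BlkF.splitBlk hE)]
  have hle : Q ⊓ (Subgroup.centralizer (Q : Set G)) ≤ (Subgroup.centralizer (Q : Set G)) := inf_le_right
  set Z := (Q ⊓ (Subgroup.centralizer (Q : Set G))).subgroupOf (Subgroup.centralizer (Q : Set G)) with hZ
  have hZmap : Z.map (Subgroup.centralizer (Q : Set G)).subtype = Q ⊓ (Subgroup.centralizer (Q : Set G)) := Subgroup.map_subgroupOf_eq_of_le hle
  have hZmem : ∀ z : (Subgroup.centralizer (Q : Set G)), z ∈ Z ↔ (z : G) ∈ Q := by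
    intro z
    rw [hZ, Subgroup.mem_subgroupOf]
    exact ⟨fun h => h.1, fun h => ⟨h, z.2⟩⟩
  have hZcard : Nat.card Z = Nat.card ↥(Q ⊓ (Subgroup.centralizer (Q : Set G))) := Nat.card_congr (Subgroup.subgroupOfEquivOfLe hle).toEquiv
  have hZc : Z ≤ Subgroup.center (Subgroup.centralizer (Q : Set G)) := by
    intro z hz
    rw [Subgroup.mem_center_iff]
    intro g
    apply Subtype.ext
    exact (Subgroup.mem_centralizer_iff.1 g.2 z ((hZmem z).1 hz)).symm
  have hZp : IsPGroup p Z := by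
    rw [IsPGroup.iff_orderOf]
    intro z
    obtain ⟨k, hk⟩ := IsPGroup.iff_orderOf.1 hQ ⟨_, (hZmem z).1 z.2⟩
    refine ⟨k, ?_⟩
    rw [← hk, ← Subgroup.orderOf_coe, ← Subgroup.orderOf_coe, ← Subgroup.orderOf_coe]
  have e1 : Cfsg.Agent.Blk.IsDef p (Subgroup.centralizer (Q : Set G))
      (Cfsg.Agent.Blk.EB M (Subgroup.centralizer (Q : Set G)) e)
      (Q ⊓ (Subgroup.centralizer (Q : Set G))) ↔ Cfsg.IsDefectGroup p M e Z := by
    rw [Cfsg.Agent.Blk.isDefectGroup_iff' hM heb Z, hZmap]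
  rw [e1]
  have hG := Cfsg.Agent.H79.sup_centralizer_eq_top hZc
  constructor
  · rintro ⟨hd, hall⟩
    obtain ⟨θ, hθ, hker⟩ := Cfsg.Agent.BlkInd.exists_canon hM hG hZp heb
    refine ⟨θ, hθ, fun z hz => hker z ((hZmem z).2 hz), ?_, fun g hg hgs hgp =>
      hall g ((hst g).2 ⟨hg, hgs⟩) hgp⟩
    rw [hZcard.symm, (Cfsg.Agent.BlkInd.canon_degree hM hG hZp heb hd hθ hker).1]
    have h1 := Subgroup.card_mul_index Z
    rw [← h1, Nat.factorization_mul Nat.card_pos.ne' Subgroup.index_ne_zero_of_finite,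
      Finsupp.add_apply, add_comm]
  · rintro ⟨θ, hθ, hker, hdeg, hall⟩
    refine ⟨?_, fun g hg hgp => hall g ((hst g).1 hg).1 ((hst g).1 hg).2 hgp⟩
    refine Cfsg.Agent.H79.isDefectGroup_of_canon hM hZc hZp heb hθ
      (fun z hz => hker z ((hZmem z).1 hz)) ?_
    rw [hZcard]
    exact hdeg

end Cfsg.Agent.S4828
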