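import Cfsg.Statements.S4839
import Cfsg.Agent.H80.TwoClass3
import Cfsg.Agent.Frob.Basic
import Cfsg.Agent.H68.Gagola

set_option autoImplicit false
open Cfsg

namespace Cfsg.Agent.S4839

open Cfsg.Agent

/-- Let G be a finite group of order greater than 2 with an irreducible character χ nonzero on exactly two conjugacy classes, and let N be the normal p-subgroup of elements where χ is nonzero. Then N is the whole p-core O_p(G) if and only if G is a doubly transitive Frobenius group with kernel N: G has a Frobenius complement H whose Frobenius kernel is N and whose order is one less than that of N. -/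
theorem result {G : Type*} [Group G] [Finite G] (hG : 2 < Nat.card G) (χ : Cfsg.IrrCharacter G) (hχ : Nat.card {C : ConjClasses G // ∃ g ∈ C.carrier, (χ : G → ℂ) g ≠ 0} = 2) (p : ℕ) [Fact p.Prime] (N : Subgroup G) [N.Normal] (hN : ∀ g : G, g ∈ N ↔ (χ : G → ℂ) g ≠ 0) (hNp : IsPGroup p N) (hN1 : N ≠ ⊥) :
    N = Cfsg.pCore p G ↔ ∃ H : Subgroup G, Cfsg.IsFrobeniusComplement H ∧ Cfsg.frobeniusKernel H = (N : Set G) ∧ Nat.card H + 1 = Nat.card N := by
  have hpp : p.Prime := Fact.out
  have hN0 : Nontrivial N := (Subgroup.nontrivial_iff_ne_bot N).mpr hN1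
  obtain ⟨m, hm0, hm⟩ := hNp.nontrivial_iff_card.mp hN0
  constructor
  · intro hcore
    obtain ⟨c, h⟩ := H80.exists_twoCl χ hχ
    obtain rfl : N = H80.nvSub χ := by
      ext g; rw [hN, h.mem_nvSub hG]
    set N := H80.nvSub χ with hNdef
    obtain ⟨q, hq, hel, hqg⟩ := h.elemAb hG
    obtain rfl : q = p := by
      have := Fact.mk hq
      obtain ⟨k, hk⟩ := IsPGroup.iff_card.mp hqg
      rw [← hNdef, hm] at hk
      have h1 : q ∣ p ^ m := by
        rw [hk]
        apply dvd_pow_self
        rintro rfl
        rw [pow_zero] at hk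
        exact absurd hk (Nat.one_lt_pow hm0.ne' hpp.one_lt).ne'
      exact (Nat.prime_dvd_prime_iff_eq hq hpp).mp (hq.dvd_of_dvd_pow h1)
    have hab : ∀ x ∈ N, ∀ y ∈ N, x * y = y * x := by
      intro x hx y hy
      exact congrArg Subtype.val (hel.1.is_comm.comm (⟨x, hx⟩ : N) ⟨y, hy⟩)
    have hcent : ∀ x ∈ N, x ≠ 1 → IsPGroup q (Subgroup.centralizer ({x} : Set G)) :=
      fun x hx hx1 => (h.centralizer hG hNp hx hx1).1
    have hcr : ∀ K : Subgroup G, K.Normal → IsPGroup q K → K ≤ N := by
      intro K hK hKp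
      rw [hcore]
      exact le_sSup ⟨hK, hKp⟩
    have hconj : ∀ g ∉ N, ∀ z ∈ N, IsConj g (g * z) := by
      intro g hg z hz
      apply CharBase.isConj_of_irr_eq
      intro ψ
      by_cases hψ : ψ = χ
      · subst hψ
        have h1 : (ψ : G → ℂ) g = 0 := by
          by_contra h0; exact hg ((hN g).mpr h0)
        have h2 : (ψ : G → ℂ) (g * z) = 0 := by
          by_contra h0
          exact hg ((N.mul_mem_cancel_right hz).mp ((hN _).mpr h0))
        rw [h1, h2]
      · have hz0 : (χ : G → ℂ) z ≠ 0 := (hN z).mp hz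
        have h1 := h.other hG hψ hz0
        rw [H75.char_mul_of_mem_ker' (CharBase.irr_isCharacter ψ) h1]
    have hclass : Nat.card {x : G // IsConj c x} + 1 = Nat.card N := by
      rw [h.card_nvSub hG, add_comm]
    obtain ⟨a, ha0, -, -, hGcard⟩ := h.exists_a hG
    have hG2 : 2 ∣ Nat.card G := by
      rw [hGcard]
      change 2 ∣ a ^ 2 * Nat.card N * Nat.card {x : G // IsConj c x}
      rw [← hclass]
      rcases Nat.even_or_odd (Nat.card {x : G // IsConj c x}) with h2 | h2
      · exact Dvd.dvd.mul_left h2.two_dvd _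
      · exact Dvd.dvd.mul_right (Dvd.dvd.mul_left (h2.add_odd odd_one).two_dvd _) _
    have hnd := H68.Gag.not_dvd_index hN1 hab (fun x hx => hel.2 x hx) hcent hcr hconj hG2
    have hcop : (Nat.card N).Coprime N.index := by
      rw [hm]
      exact Nat.Coprime.pow_left _ ((hpp.coprime_iff_not_dvd).mpr hnd)
    obtain ⟨H, hH⟩ := Subgroup.exists_right_complement'_of_coprime hcop
    have hHcard : Nat.card H = N.index := by
      have h1 := hH.card_mul_card
      have h2 := N.card_mul_index
      rw [← h2] at h1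
      exact Nat.eq_of_mul_eq_mul_left Nat.card_pos h1
    have hidx : N.index = a ^ 2 * Nat.card {x : G // IsConj c x} := by
      have h2 := N.card_mul_index
      rw [hGcard] at h2
      change Nat.card N * N.index = a ^ 2 * Nat.card N * Nat.card {x : G // IsConj c x} at h2
      have h3 : Nat.card N * N.index = Nat.card N * (a ^ 2 * Nat.card {x : G // IsConj c x}) := by
        rw [h2]; ring
      exact Nat.eq_of_mul_eq_mul_left Nat.card_pos h3
    have ha1 : a ^ 2 = 1 := by
      obtain ⟨h1, h2⟩ := h.centralizer hG hNp (h.c_mem hG) h.1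
      obtain ⟨k, hk⟩ := IsPGroup.iff_card.mp h1
      have h3 := (Subgroup.centralizer ({c} : Set G)).card_mul_index
      rw [h2, hk, hGcard] at h3
      have : Nonempty {x : G // IsConj c x} := ⟨⟨c, IsConj.refl c⟩⟩
      have h4 := Nat.eq_of_mul_eq_mul_right (Nat.card_pos (α := {x : G // IsConj c x})) h3
      have h5 : a ^ 2 ∣ q ^ k := by rw [h4]; exact Dvd.intro _ rfl
      have h6 : Nat.Coprime (a ^ 2) (q ^ k) := by
        apply Nat.Coprime.pow_right
        rw [Nat.coprime_comm, hpp.coprime_iff_not_dvd]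
        intro h7
        exact hnd (by rw [hidx]; exact Dvd.dvd.mul_right h7 _)
      exact Nat.Coprime.eq_one_of_dvd h6 h5
    rw [ha1, one_mul] at hidx
    have hHN : Nat.card H + 1 = Nat.card N := by rw [hHcard, hidx, hclass]
    have hHbot : H ≠ ⊥ := by
      intro h1
      rw [h1, Subgroup.card_bot] at hHcard hHN
      have h2 := N.card_mul_index
      rw [← hHcard, ← hHN] at h2
      omega
    have hF : IsFrobeniusComplement H := by
      rw [Frob.isFrobeniusComplement_iff_fpf hH hN1 hHbot]
      intro x hx hx1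
      rw [eq_bot_iff]
      intro z hzz
      obtain ⟨hz, hzx⟩ := Subgroup.mem_inf.mp hzz
      rw [Subgroup.mem_bot]
      by_contra hz1
      apply hx1
      rw [Subgroup.mem_centralizer_singleton_iff] at hzx
      obtain ⟨k, hk⟩ := hcent z hz hz1 ⟨x, by
        rw [Subgroup.mem_centralizer_singleton_iff]; exact hzx.symm⟩
      have h2 : x ^ q ^ k = 1 := congrArg Subtype.val hk
      have h3 := orderOf_dvd_of_pow_eq_one h2
      have h4 : orderOf x ∣ N.index := by
        rw [← hHcard]
        have := orderOf_dvd_natCard (⟨x, hx⟩ : H)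
        rwa [Subgroup.orderOf_mk] at this
      have h5 : Nat.Coprime (orderOf x) (q ^ k) := by
        apply Nat.Coprime.pow_right
        rw [Nat.coprime_comm, hpp.coprime_iff_not_dvd]
        intro h7
        exact hnd (h7.trans h4)
      exact orderOf_eq_one_iff.mp (Nat.Coprime.eq_one_of_dvd h5 h3)
    exact ⟨H, hF, (Frob.coe_eq_frobeniusKernel hF hH).symm, hHN⟩
  · rintro ⟨H, hH, hk, hc⟩
    have h1 : Nat.card N = H.index := by
      rw [← Frob.card_frobeniusKernel hH, hk]
      rfl
    have h2 : N.index = Nat.card H := by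
      have h3 := N.card_mul_index
      have h4 := H.card_mul_index
      rw [← h4, h1, mul_comm (Nat.card H)] at h3
      exact Nat.eq_of_mul_eq_mul_left (by rw [← h1]; exact Nat.card_pos) h3
    have hle : N ≤ pCore p G := le_sSup ⟨inferInstance, hNp⟩
    refine le_antisymm hle ?_
    have h5 := Subgroup.relIndex_dvd_index_of_normal N (pCore p G)
    obtain ⟨k, hk'⟩ := IsPGroup.iff_card.mp (Solv.pCore_isPGroup (G := G) p)
    have h6 : N.relIndex (pCore p G) ∣ p ^ k := by
      rw [← hk']
      exact Subgroup.relIndex_dvd_card _ _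
    have h7 : Nat.Coprime (Nat.card H) p := by
      rw [Nat.coprime_comm, hpp.coprime_iff_not_dvd]
      intro h8
      have h9 : p ∣ Nat.card N := by rw [hm]; exact dvd_pow_self _ hm0.ne'
      rw [← hc] at h9
      exact hpp.one_lt.ne' (Nat.dvd_one.mp ((Nat.dvd_add_right h8).mp h9))
    rw [h2] at h5
    have h8 : N.relIndex (pCore p G) = 1 := by
      have h9 : Nat.Coprime (Nat.card H) (p ^ k) := h7.pow_right k
      exact Nat.eq_one_of_dvd_coprimes h9 h5 h6
    exact Subgroup.relIndex_eq_one.mp h8

end Cfsg.Agent.S4839
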