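import Cfsg.Statements.S4843
import Cfsg.Agent.H80.TensorSchur
import Cfsg.Agent.H80.NilpCentral
import Cfsg.Agent.Char.Galois
import Cfsg.Agent.Solv.Core

set_option autoImplicit false
open Cfsg

namespace Cfsg.Agent.S4843

open Cfsg.Agent.CharBase Cfsg.Agent.H75 Cfsg.Agent.Char

/-- Let G be a finite group with a faithful irreducible character χ (taking the value χ(1) only at the identity) and let k be prime to the order of G, so that g ↦ χ(g^k) is a Galois conjugate of χ. If the pointwise product g ↦ χ(g)·χ(g^k) is again an irreducible character, then the Fitting subgroup of G equals its centre. -/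
theorem result {G : Type*} [Group G] [Finite G] (χ : Cfsg.IrrCharacter G) (hfaith : ∀ g : G, (χ : G → ℂ) g = (χ : G → ℂ) 1 → g = 1) (k : ℕ) (hk : Nat.Coprime k (Nat.card G)) (hirr : Cfsg.IsIrrCharacter G (fun g => (χ : G → ℂ) g * (χ : G → ℂ) (g ^ k))) : Cfsg.fittingSubgroup G = Subgroup.center G := by
  classical
  have hmain : ∃ m : ℕ, ∀ x : G, x ^ (m * k) = x⁻¹ := by
    have h1 := ZMod.coe_mul_inv_eq_one k hk
    have hn : NeZero (Nat.card G) := ⟨Nat.card_pos.ne'⟩
    refine ⟨(-((k : ZMod (Nat.card G))⁻¹)).val, fun x => ?_⟩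
    set m := (-((k : ZMod (Nat.card G))⁻¹)).val with hm
    have h2 : ((m * k + 1 : ℕ) : ZMod (Nat.card G)) = 0 := by
      push_cast
      rw [hm, ZMod.natCast_val, ZMod.cast_id]
      linear_combination -h1
    rw [ZMod.natCast_eq_zero_iff] at h2
    have h3 : x ^ (m * k + 1) = 1 := by
      obtain ⟨j, hj⟩ := h2
      rw [hj, pow_mul, pow_card_eq_one', one_pow]
    rw [pow_succ] at h3
    exact eq_inv_of_mul_eq_one_left h3
  obtain ⟨m, hm⟩ := hmain
  have hχ' : IsIrrCharacter G (fun g => (χ : G → ℂ) (g ^ k)) := isIrrCharacter_pow χ.2 hk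
  have hc := irr_isCharacter χ
  have h1ne := irr_one_ne_zero χ.2
  -- key identity
  have key : ∀ (E : Subgroup G) [E.Normal] [Fintype E], ∃ c : ℂ, (∀ a b : G,
      ∑ x : E, (χ : G → ℂ) ((x : G) * a) * (χ : G → ℂ) (((x : G) ^ m * b) ^ k) =
        c * ((χ : G → ℂ) a * (χ : G → ℂ) (b ^ k))) ∧ c ≠ 0 := by
    intro E _ _
    obtain ⟨c, hc1⟩ := H80.tensor_schur χ.2 hχ' hirr E m
    refine ⟨c, hc1, ?_⟩
    rintro rfl
    have h2 := hc1 1 1
    simp only [mul_one, zero_mul, ← pow_mul, hm] at h2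
    have h3 : ∑ x : E, (χ : G → ℂ) (x : G) * (χ : G → ℂ) (x : G)⁻¹ =
        ((∑ x : E, Complex.normSq ((χ : G → ℂ) (x : G)) : ℝ) : ℂ) := by
      push_cast
      refine Finset.sum_congr rfl (fun x _ => ?_)
      rw [isCharacter_inv hc, Complex.mul_conj]
    rw [h3] at h2
    have h4 : ∑ x : E, Complex.normSq ((χ : G → ℂ) (x : G)) = 0 := by exact_mod_cast h2
    have h5 := (Finset.sum_eq_zero_iff_of_nonneg (fun x _ => Complex.normSq_nonneg _)).mp h4 1
      (Finset.mem_univ 1)
    exact h1ne (Complex.normSq_eq_zero.mp h5)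
  -- abelian normal subgroups are central
  have habel : ∀ A : Subgroup G, A.Normal → A ≤ fittingSubgroup G →
      (∀ a ∈ A, ∀ b ∈ A, a * b = b * a) → A ≤ Subgroup.center G := by
    intro A hA _ hab y hy
    have := Fintype.ofFinite A
    obtain ⟨c, hc1, hc0⟩ := key A
    have h2 := hc1 y (y ^ m)
    have h3 := hc1 1 1
    have h4 : ∑ x : A, (χ : G → ℂ) ((x : G) * y) * (χ : G → ℂ) (((x : G) ^ m * y ^ m) ^ k) =
        ∑ x : A, (χ : G → ℂ) ((x : G) * 1) * (χ : G → ℂ) (((x : G) ^ m * 1) ^ k) := by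
      refine Fintype.sum_equiv (Equiv.mulRight (⟨y, hy⟩ : A)) _ _ (fun x => ?_)
      change _ = (χ : G → ℂ) (((x : G) * y) * 1) * (χ : G → ℂ) ((((x : G) * y) ^ m * 1) ^ k)
      have hcxy : Commute (x : G) y := hab x x.2 y hy
      rw [mul_one, mul_one, hcxy.mul_pow]
    rw [h4, h3, one_pow, ← pow_mul, hm, isCharacter_inv hc] at h2
    exact H80.mem_center_of_normSq χ.2 hfaith (mul_left_cancel₀ hc0 h2).symm
  have hnil : Group.IsNilpotent (fittingSubgroup G) := Solv.fitting_isNilpotent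
  obtain ⟨hz, hcomm⟩ := H80.nilp_normal_central (fittingSubgroup G) habel
  apply le_antisymm
  · -- F(G) is central
    intro y hy
    by_contra hyc
    have hyF : ¬ ∀ w ∈ fittingSubgroup G, y * w = w * y := fun h => hyc (hz y hy h)
    -- vanishing
    have hvan : ∀ x ∈ fittingSubgroup G, x ∉ Subgroup.center G → (χ : G → ℂ) x = 0 := by
      intro x hx hxc
      have h1 : ¬ ∀ w ∈ fittingSubgroup G, x * w = w * x := fun h => hxc (hz x hx h)
      push Not at h1
      obtain ⟨w, hw, hxw⟩ := h1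
      have h2 := hcomm w hw x hx
      have h3 := irr_isClassFunction χ x w
      have h4 : w * x * w⁻¹ = x * (w * x * w⁻¹ * x⁻¹) := by
        have := Subgroup.mem_center_iff.mp h2 x
        rw [this]; group
      rw [h4, char_mul_central χ.2 h2] at h3
      by_contra h0
      have h5 : (χ : G → ℂ) (w * x * w⁻¹ * x⁻¹) = (χ : G → ℂ) 1 := by
        have h6 : (χ : G → ℂ) (w * x * w⁻¹ * x⁻¹) / (χ : G → ℂ) 1 = 1 := by
          have : ((χ : G → ℂ) (w * x * w⁻¹ * x⁻¹) / (χ : G → ℂ) 1) * (χ : G → ℂ) x =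
            1 * (χ : G → ℂ) x := by rw [h3, one_mul]
          exact mul_right_cancel₀ h0 this
        rwa [div_eq_one_iff_eq h1ne] at h6
      have h6 := hfaith _ h5
      apply hxw
      have h7 : w * x * w⁻¹ = x := mul_inv_eq_one.mp h6
      have h8 : w * x = x * w := mul_inv_eq_iff_eq_mul.mp h7
      exact h8.symm
    have := Fintype.ofFinite (fittingSubgroup G)
    obtain ⟨c, hc1, hc0⟩ := key (fittingSubgroup G)
    have h2 := hc1 y⁻¹ (y ^ m)⁻¹
    have h3 : (χ : G → ℂ) y⁻¹ = 0 := by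
      rw [isCharacter_inv hc, hvan y hy hyc, map_zero]
    rw [h3, zero_mul, mul_zero] at h2
    -- every term is the norm square of something
    have h4 : ∀ x : fittingSubgroup G, (χ : G → ℂ) ((x : G) * y⁻¹) *
        (χ : G → ℂ) (((x : G) ^ m * (y ^ m)⁻¹) ^ k) =
        ((Complex.normSq ((χ : G → ℂ) ((x : G) * y⁻¹)) : ℝ) : ℂ) := by
      intro x
      by_cases hxy : (x : G) * y⁻¹ ∈ Subgroup.center G
      · have h5 : (x : G) = ((x : G) * y⁻¹) * y := by group
        have h6 : (x : G) ^ m * (y ^ m)⁻¹ = ((x : G) * y⁻¹) ^ m := by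
          have hcm : Commute ((x : G) * y⁻¹) y := (Subgroup.mem_center_iff.mp hxy y).symm
          conv_lhs => rw [h5, hcm.mul_pow]
          group
        rw [h6, ← pow_mul, hm, isCharacter_inv hc, Complex.mul_conj]
      · rw [hvan _ ((fittingSubgroup G).mul_mem x.2 ((fittingSubgroup G).inv_mem hy)) hxy]
        simp
    rw [Finset.sum_congr rfl (fun x _ => h4 x)] at h2
    have h5 : ∑ x : fittingSubgroup G, Complex.normSq ((χ : G → ℂ) ((x : G) * y⁻¹)) = 0 := by
      exact_mod_cast h2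
    have h6 := (Finset.sum_eq_zero_iff_of_nonneg (fun x _ => Complex.normSq_nonneg _)).mp h5
      ⟨y, hy⟩ (Finset.mem_univ _)
    rw [mul_inv_cancel] at h6
    exact h1ne (Complex.normSq_eq_zero.mp h6)
  · apply Solv.le_fitting inferInstance
    exact ⟨⟨1, Subgroup.upperCentralSeries_one_eq_top_iff.mpr inferInstance⟩⟩

end Cfsg.Agent.S4843
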