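import Cfsg.Statements.S4845
import Cfsg.Agent.H80.GalConj2

set_option autoImplicit false
open Cfsg

namespace Cfsg.Agent.S4845

open Cfsg.Agent.CharBase Cfsg.Agent.H75 Cfsg.Agent.Char

/-- Let p be a prime and P a finite non-commutative p-group. Then every two irreducible characters of P of the same degree greater than 1 are Galois conjugate (one is obtained from the other by composing with g ↦ g^k for some k prime to the order of P) if and only if the centre of P is cyclic and the derived subgroup of P has order p. -/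
theorem result {P : Type*} [Group P] [Finite P] (p : ℕ) [Fact p.Prime] (hP : IsPGroup p P) (hna : ¬ IsMulCommutative P) :
    (∀ χ ψ : Cfsg.IrrCharacter P, Cfsg.charDegree (χ : P → ℂ) ≠ 1 → Cfsg.charDegree (χ : P → ℂ) = Cfsg.charDegree (ψ : P → ℂ) → ∃ k : ℕ, Nat.Coprime k (Nat.card P) ∧ ∀ g : P, (ψ : P → ℂ) g = (χ : P → ℂ) (g ^ k)) ↔
      (IsCyclic (Subgroup.center P) ∧ Nat.card (commutator P) = p) := by
  classical
  have hpp : p.Prime := Fact.out
  have hnc : ¬ ∀ a b : P, a * b = b * a := fun h => hna ⟨⟨h⟩⟩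
  simp only [charDegree_eq_deg]
  constructor
  · intro H
    have hK : H80.SameKer P := by
      intro χ ψ hne hd g hg
      obtain ⟨k, -, hk⟩ := H χ ψ hne hd
      rw [hk g, hk 1, one_pow]
      exact H80.mem_ker_zpow χ hg ⟨k, by simp⟩
    exact H80.SameKer.forward p _ P rfl hP hnc hK
  · rintro ⟨hcyc, hcp⟩ χ ψ hne hd
    have hcen := H80.commutator_central_of_card hP hcp
    have hPc : commutator P ≤ Subgroup.center P :=
      H63.le_center_of_card_eq_prime hP (commutator P) hcp
    -- nonlinear characters are faithful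
    have hfaith : ∀ φ : IrrCharacter P, deg φ ≠ 1 → ∀ g : P, (φ : P → ℂ) g = (φ : P → ℂ) 1 → g = 1 := by
      intro φ hφ
      by_contra hcon
      have hkn := charKer_normal (irr_isCharacter φ)
      have hkb : charKer (irr_isCharacter φ) ≠ ⊥ := by
        intro h0
        apply hcon
        intro g hg
        have : g ∈ charKer (irr_isCharacter φ) := (mem_charKer _ _).mpr hg
        rwa [h0, Subgroup.mem_bot] at this
      have h1 := H63.inf_center_ne_bot hP _ hkb
      obtain ⟨⟨z, hz⟩, hz1⟩ := (Subgroup.ne_bot_iff_exists_ne_one).mp h1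
      have hz1' : z ≠ 1 := fun h0 => hz1 (Subtype.ext h0)
      have hzc := Subgroup.mem_inf.mp hz
      apply hφ
      have hle : commutator P ≤ charKer (irr_isCharacter φ) := by
        intro w hw
        have h2 : (⟨w, hPc hw⟩ : Subgroup.center P) ∈
            Subgroup.zpowers (⟨z, hzc.2⟩ : Subgroup.center P) := by
          apply mem_zpowers_of_cyclic
          have e1 : orderOf (⟨w, hPc hw⟩ : Subgroup.center P) ∣ p := by
            rw [Subgroup.orderOf_mk, orderOf_dvd_iff_pow_eq_one]
            have : (⟨w, hw⟩ : commutator P) ^ p = 1 := by rw [← hcp]; exact pow_card_eq_one'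
            exact congrArg Subtype.val this
          refine e1.trans ?_
          rw [Subgroup.orderOf_mk]
          obtain ⟨n, hn⟩ := IsPGroup.iff_orderOf.mp hP z
          rw [hn]
          refine dvd_pow_self p ?_
          rintro rfl
          rw [pow_zero, orderOf_eq_one_iff] at hn
          exact hz1' hn
        obtain ⟨i, hi⟩ := h2
        have h3 : z ^ i = w := congrArg Subtype.val hi
        rw [← h3]
        exact Subgroup.zpow_mem _ hzc.1 i
      obtain ⟨φ', -, h2⟩ := H80.exists_deflate_ker φ (commutator P) hle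
      have h3 : (φ' : P ⧸ commutator P → ℂ) 1 = 1 := by
        apply irr_one_of_comm
        intro a b
        exact mul_comm (G := Abelianization P) a b
      rw [← h2]
      rw [deg_spec φ'] at h3
      exact_mod_cast h3
    have hfχ := hfaith χ hne
    have hfψ := hfaith ψ (by rw [← hd]; exact hne)
    obtain ⟨z0, hz0⟩ := hcyc.exists_monoid_generator
    set m := Nat.card (Subgroup.center P) with hm
    have hmo : orderOf z0 = m := by
      apply orderOf_eq_card_of_forall_mem_zpowers
      intro x
      obtain ⟨j, hj⟩ := hz0 x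
      exact ⟨j, by simpa using hj⟩
    have hpr : ∀ φ : IrrCharacter P, (∀ g : P, (φ : P → ℂ) g = (φ : P → ℂ) 1 → g = 1) →
        IsPrimitiveRoot (H80.centHom φ z0) m := by
      intro φ hφ
      rw [← hmo, ← orderOf_injective (H80.centHom φ) (H80.centHom_injective φ hφ) z0]
      exact IsPrimitiveRoot.orderOf _
    have hmpos : 0 < m := Nat.card_pos
    have hmne : NeZero m := ⟨hmpos.ne'⟩
    obtain ⟨k, -, hk⟩ := (hpr χ hfχ).eq_pow_of_pow_eq_one (hpr ψ hfψ).pow_eq_one
    have hkc : k.Coprime m := by
      rw [← (hpr χ hfχ).pow_iff_coprime hmpos, hk]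
      exact hpr ψ hfψ
    have hkp : k.Coprime p := by
      apply Nat.Coprime.coprime_dvd_right _ hkc
      rw [← hcp, hm]
      exact Subgroup.card_dvd_of_le hPc
    have hkP : k.Coprime (Nat.card P) := by
      obtain ⟨n, hn⟩ := IsPGroup.iff_card.mp hP
      rw [hn]
      exact hkp.pow_right n
    refine ⟨k, hkP, fun g => ?_⟩
    by_cases hg : g ∈ Subgroup.center P
    · have e1 : (ψ : P → ℂ) g = (ψ : P → ℂ) 1 * H80.centHom ψ ⟨g, hg⟩ := H80.char_center ψ ⟨g, hg⟩
      have e2 : (χ : P → ℂ) (g ^ k) = (χ : P → ℂ) 1 * H80.centHom χ (⟨g, hg⟩ ^ k) :=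
        H80.char_center χ (⟨g, hg⟩ ^ k)
      rw [e1, e2, deg_spec χ, deg_spec ψ, hd]
      congr 1
      obtain ⟨j, hj⟩ := hz0 ⟨g, hg⟩
      have hj' : z0 ^ j = ⟨g, hg⟩ := hj
      rw [← hj', map_pow, map_pow, map_pow, ← hk]
      rw [← pow_mul, ← pow_mul, mul_comm]
    · rw [H80.vanish_off_center ψ hfψ hcen hg, H80.vanish_off_center χ hfχ hcen]
      intro h1
      apply hg
      obtain ⟨l, hl⟩ := exists_pow_eq_self_of_coprime
        (Nat.Coprime.coprime_dvd_right (orderOf_dvd_natCard g) hkP)
      rw [← hl]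
      exact Subgroup.pow_mem _ h1 l

end Cfsg.Agent.S4845
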