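import Cfsg.Statements.S4856
import Cfsg.Agent.CharBase.Central

set_option autoImplicit false
open Cfsg

namespace Cfsg.Agent.S4856

open Cfsg.Agent.CharBase in
open Classical in
theorem card_conj_eq {G : Type*} [Group G] [Finite G] (a b : G) :
    (Nat.card {y : G // y * a * y⁻¹ = b} : ℂ) =
      if IsConj b a then (Nat.card (Subgroup.centralizer ({b} : Set G)) : ℂ) else 0 := by
  by_cases h : IsConj b a
  · rw [if_pos h]
    obtain ⟨c, hc⟩ := isConj_iff.1 h
    norm_cast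
    refine Nat.card_congr ⟨fun y => ⟨y.1 * c, ?_⟩, fun y => ⟨y.1 * c⁻¹, ?_⟩, ?_, ?_⟩
    · rw [Subgroup.mem_centralizer_singleton_iff]
      obtain ⟨y, hy⟩ := y
      have h2 : y * c * b * (y * c)⁻¹ = b := by
        calc y * c * b * (y * c)⁻¹ = y * (c * b * c⁻¹) * y⁻¹ := by group
          _ = b := by rw [hc, hy]
      rw [mul_inv_eq_iff_eq_mul] at h2
      exact h2
    · have h1 := Subgroup.mem_centralizer_singleton_iff.1 y.2
      rw [← hc]
      have : y.1 * c⁻¹ * (c * b * c⁻¹) * (y.1 * c⁻¹)⁻¹ = y.1 * b * y.1⁻¹ := by group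
      rw [this, h1]; group
    · intro y; apply Subtype.ext; simp
    · intro y; apply Subtype.ext; simp
  · rw [if_neg h]
    norm_cast
    rw [Nat.card_eq_zero]
    left
    constructor
    rintro ⟨y, hy⟩
    exact h (IsConj.symm (isConj_iff.2 ⟨y, hy⟩))

/-- For an element z of a finite group G, the number of pairs (x, y) of elements with x y x⁻¹ y⁻¹ = z equals the order of G times the sum over the irreducible characters χ of χ(z)/χ(1). -/
theorem result {G : Type*} [Group G] [Finite G] (z : G) : (Nat.card {xy : G × G // xy.1 * xy.2 * xy.1⁻¹ * xy.2⁻¹ = z} : ℂ) = (Nat.card G : ℂ) * ∑ᶠ χ : Cfsg.IrrCharacter G, (χ : G → ℂ) z / (χ : G → ℂ) 1 := by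
  classical
  have hfG : Fintype G := Fintype.ofFinite G
  have hfI : Fintype (Cfsg.IrrCharacter G) := Fintype.ofFinite _
  rw [finsum_eq_sum_of_fintype]
  have e : {xy : G × G // xy.1 * xy.2 * xy.1⁻¹ * xy.2⁻¹ = z} ≃ (Σ x : G, {y : G // x * y * x⁻¹ * y⁻¹ = z}) :=
    Equiv.subtypeProdEquivSigmaSubtype (fun x y => x * y * x⁻¹ * y⁻¹ = z)
  rw [Nat.card_congr e, Nat.card_sigma]
  push_cast
  have h1 : ∀ x : G, (Nat.card {y : G // x * y * x⁻¹ * y⁻¹ = z} : ℂ) =
      ∑ χ : Cfsg.IrrCharacter G, (χ : G → ℂ) x * (χ : G → ℂ) (x⁻¹ * z) := by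
    intro x
    have h2 : (Nat.card {y : G // x * y * x⁻¹ * y⁻¹ = z} : ℂ) = (Nat.card {y : G // y * x⁻¹ * y⁻¹ = x⁻¹ * z} : ℂ) := by
      congr 1
      refine Nat.card_congr (Equiv.subtypeEquivRight (fun y => ?_))
      rw [eq_inv_mul_iff_mul_eq]
      simp only [mul_assoc]
    rw [h2, card_conj_eq, ← Cfsg.Agent.CharBase.column_orthogonality]
    refine Finset.sum_congr rfl (fun χ _ => ?_)
    rw [← Cfsg.Agent.CharBase.irr_inv, inv_inv, mul_comm]
  rw [Finset.sum_congr rfl (fun x _ => h1 x), Finset.sum_comm, Finset.mul_sum]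
  refine Finset.sum_congr rfl (fun χ _ => ?_)
  have h3 := congrFun (Cfsg.Agent.CharBase.conv_irr χ χ) z
  rw [if_pos rfl] at h3
  change ∑ x : G, (χ : G → ℂ) x * (χ : G → ℂ) (x⁻¹ * z) = _ at h3
  rw [h3, Pi.smul_apply, smul_eq_mul]
  ring

end Cfsg.Agent.S4856
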