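import Cfsg.Statements.S4863
import Cfsg.Agent.H34.RealP2

set_option autoImplicit false
open Cfsg

namespace Cfsg.Agent.S4863

/-- Let p be a prime and G a finite group such that the subgroup generated by the p-elements of G (the smallest normal subgroup of index prime to p) is solvable and every real-valued irreducible complex character of G has degree prime to p. Let K be the subgroup generated by the 2-elements of G (the smallest normal subgroup of odd index). Let U be the largest normal subgroup of G containing K such that the index of K in U is a power of p (so that U/K is the p-core of G/K). Then the Sylow p-subgroups of U are normal in U. -/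
theorem result {G : Type*} [Group G] [Finite G] (p : ℕ) [Fact p.Prime] (hsolv : Group.IsSolvable ↥(Subgroup.closure {g : G | ∃ k : ℕ, orderOf g = p ^ k})) (hreal : ∀ χ : Cfsg.IrrCharacter G, (∀ g : G, ((χ : G → ℂ) g).im = 0) → ¬ p ∣ Cfsg.charDegree (χ : G → ℂ)) (U : Subgroup G) (hU : U.Normal) (hKU : (Subgroup.closure {g : G | ∃ k : ℕ, orderOf g = 2 ^ k}) ≤ U) (hUp : ∃ a : ℕ, (Subgroup.closure {g : G | ∃ k : ℕ, orderOf g = 2 ^ k}).relIndex U = p ^ a) (hmax : ∀ V : Subgroup G, V.Normal → (Subgroup.closure {g : G | ∃ k : ℕ, orderOf g = 2 ^ k}) ≤ V → (∃ b : ℕ, (Subgroup.closure {g : G | ∃ k : ℕ, orderOf g = 2 ^ k}).relIndex V = p ^ b) → V ≤ U) (Q : Sylow p ↥U) : (Q : Subgroup ↥U).Normal := by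
  have hKn := Cfsg.Agent.H34.RealP.pGen_normal 2 G
  have hKn' : ((Subgroup.closure {g : G | ∃ k : ℕ, orderOf g = 2 ^ k}).subgroupOf U).Normal := hKn.subgroupOf U
  obtain ⟨a, ha⟩ := hUp
  obtain ⟨R, hRn, hRp, hRU, hi⟩ := Cfsg.Agent.H34.RealP.exists_normal_sylow p (Nat.card G) G rfl hsolv hreal
    U hU (fun u hu => ⟨a, by
      have h1 := Subgroup.pow_index_mem ((Subgroup.closure {g : G | ∃ k : ℕ, orderOf g = 2 ^ k}).subgroupOf U) ⟨u, hu⟩
      rw [show ((Subgroup.closure {g : G | ∃ k : ℕ, orderOf g = 2 ^ k}).subgroupOf U).index = p ^ a from ha] at h1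
      exact h1⟩)
    (fun t ⟨k, hk⟩ => by
      haveI : Fact (Nat.Prime 2) := ⟨Nat.prime_two⟩
      exact hKU (Cfsg.Agent.H34.RealP.mem_pGen hk))
  exact Cfsg.Agent.H34.RealP.sylow_normal_of _ R hRp hRU hi Q

end Cfsg.Agent.S4863
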