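import Cfsg.Statements.S4865
import Cfsg.Agent.H34.RealP6

set_option autoImplicit false
open Cfsg

namespace Cfsg.Agent.S4865

/-- Let p be a prime and G a finite group such that the subgroup generated by the p-elements of G is solvable and every real-valued irreducible complex character of G has degree prime to p. Let N be the normalizer of a Sylow p-subgroup of G. Then there is a bijection from the real-valued irreducible characters of G onto the real-valued irreducible characters of N of degree prime to p under which corresponding degrees are congruent modulo p up to sign. -/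
theorem result {G : Type*} [Group G] [Finite G] (p : ℕ) [Fact p.Prime] (hsolv : Group.IsSolvable ↥(Subgroup.closure {g : G | ∃ k : ℕ, orderOf g = p ^ k})) (hreal : ∀ χ : Cfsg.IrrCharacter G, (∀ g : G, ((χ : G → ℂ) g).im = 0) → ¬ p ∣ Cfsg.charDegree (χ : G → ℂ)) (P : Sylow p G) : ∃ f : {χ : Cfsg.IrrCharacter G // ∀ g : G, ((χ : G → ℂ) g).im = 0} → {ξ : Cfsg.IrrCharacter ↥(Subgroup.normalizer ((P : Subgroup G) : Set G)) // (∀ n, ((ξ : ↥(Subgroup.normalizer ((P : Subgroup G) : Set G)) → ℂ) n).im = 0) ∧ ¬ p ∣ Cfsg.charDegree (ξ : ↥(Subgroup.normalizer ((P : Subgroup G) : Set G)) → ℂ)}, Function.Bijective f ∧ ∀ χ, ((Cfsg.charDegree ((f χ).1 : ↥(Subgroup.normalizer ((P : Subgroup G) : Set G)) → ℂ) : ZMod p) = (Cfsg.charDegree (χ.1 : G → ℂ) : ZMod p) ∨ (Cfsg.charDegree ((f χ).1 : ↥(Subgroup.normalizer ((P : Subgroup G) : Set G)) → ℂ) : ZMod p) = -(Cfsg.charDegree (χ.1 : G → ℂ) : ZMod p)) := by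
  classical
  have := Fintype.ofFinite G
  have hKn := Cfsg.Agent.H34.RealP.pGen_normal 2 G
  have := Fintype.ofFinite (Cfsg.Agent.H34.RealP.pGen 2 G)
  have := Fintype.ofFinite (Cfsg.Agent.H34.RealP.NN P)
  have := Fintype.ofFinite (Cfsg.Agent.H34.RealP.DD P (Cfsg.Agent.H34.RealP.pGen 2 G))
  obtain ⟨R, hRn, hRp, hRU, hi⟩ := Cfsg.Agent.H34.RealP.exists_normal_sylow p (Nat.card G) G rfl hsolv hreal
    (Cfsg.Agent.H34.RealP.pGen 2 G) hKn (fun u hu => ⟨0, by rw [pow_zero, pow_one]; exact hu⟩)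
    (fun t ⟨k, hk⟩ => by
      haveI : Fact (Nat.Prime 2) := ⟨Nat.prime_two⟩
      exact Cfsg.Agent.H34.RealP.mem_pGen hk)
  have hreal' : ∀ χ : Cfsg.IrrCharacter G, (∀ g : G, ((χ : G → ℂ) g).im = 0) → ¬ p ∣ Cfsg.Agent.H75.deg χ := by
    intro χ hχ
    rw [← Cfsg.Agent.H75.charDegree_eq_deg]
    exact hreal χ hχ
  obtain ⟨f, hf, hd⟩ := Cfsg.Agent.H34.RealP.exists_bijection (P := P) (K := Cfsg.Agent.H34.RealP.pGen 2 G) R hRp hi
    (Cfsg.Agent.H34.RealP.odd_index_pGen G) hreal'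
  let e : {ξ : Cfsg.IrrCharacter (Cfsg.Agent.H34.RealP.NN P) // (∀ n, ((ξ : Cfsg.Agent.H34.RealP.NN P → ℂ) n).im = 0) ∧ ¬ p ∣ Cfsg.Agent.H75.deg ξ} ≃
      {ξ : Cfsg.IrrCharacter ↥(Subgroup.normalizer ((P : Subgroup G) : Set G)) // (∀ n, ((ξ : ↥(Subgroup.normalizer ((P : Subgroup G) : Set G)) → ℂ) n).im = 0) ∧ ¬ p ∣ Cfsg.charDegree (ξ : ↥(Subgroup.normalizer ((P : Subgroup G) : Set G)) → ℂ)} :=
    Equiv.subtypeEquivRight (fun ξ => by rw [Cfsg.Agent.H75.charDegree_eq_deg])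
  refine ⟨fun χ => e (f χ), e.bijective.comp hf, fun χ => ?_⟩
  have h1 := hd χ
  rw [← Cfsg.Agent.H75.charDegree_eq_deg, ← Cfsg.Agent.H75.charDegree_eq_deg] at h1
  exact h1

end Cfsg.Agent.S4865
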