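import Cfsg.Statements.S4870
import Cfsg.Agent.Glaub.Count
import Cfsg.Agent.BlkC.Basic
import Cfsg.Agent.Char.AvgN
import Cfsg.Agent.Char.Correspondence

set_option autoImplicit false
open Cfsg

namespace Cfsg.Agent.S4870

open Cfsg Cfsg.Agent.CharBase Cfsg.Agent.Char
open scoped ComplexConjugate

/-- homomorphisms to `ℂ` trivial on a subgroup: at most the index -/
theorem card_hom_le_index {G : Type*} [Group G] [Finite G] (I : Subgroup G) (S : Set (G →* ℂ))
    (hS : ∀ f ∈ S, ∀ i ∈ I, f i = 1) : S.ncard ≤ I.index := by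
  classical
  have hfG : Fintype (G ⧸ I) := Fintype.ofFinite _
  have hli : LinearIndependent ℂ (fun f : G →* ℂ => (f : G → ℂ)) := linearIndependent_monoidHom G ℂ
  -- the functions on `G ⧸ I`
  have hq : ∀ f : S, ∃ q : G ⧸ I → ℂ, ∀ g : G, q (QuotientGroup.mk g) = (f : G →* ℂ) g := by
    intro f
    refine ⟨Quotient.lift (fun g => (f : G →* ℂ) g) ?_, fun g => rfl⟩
    intro a b hab
    have h1 : a⁻¹ * b ∈ I := QuotientGroup.leftRel_apply.1 hab
    have h2 := hS f.1 f.2 _ h1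
    have h3 : (f : G →* ℂ) b = (f : G →* ℂ) a * (f : G →* ℂ) (a⁻¹ * b) := by
      rw [← map_mul, mul_inv_cancel_left]
    change (f : G →* ℂ) a = (f : G →* ℂ) b
    rw [h3, h2, mul_one]
  choose q hq using hq
  have hli2 : LinearIndependent ℂ q := by
    let L : (G ⧸ I → ℂ) →ₗ[ℂ] (G → ℂ) := LinearMap.funLeft ℂ ℂ (QuotientGroup.mk : G → G ⧸ I)
    apply LinearIndependent.of_comp L
    have h4 : (L ∘ q) = fun f : S => ((f : G →* ℂ) : G → ℂ) := by
      funext f g
      exact hq f g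
    rw [h4]
    exact hli.comp (fun f : S => (f : G →* ℂ)) Subtype.val_injective
  have hfin : Finite S := hli2.finite
  have hfS : Fintype S := Fintype.ofFinite S
  have h5 := hli2.fintype_card_le_finrank
  rw [Module.finrank_fintype_fun_eq_card] at h5
  change Nat.card S ≤ Nat.card (G ⧸ I)
  rw [Nat.card_eq_fintype_card, Nat.card_eq_fintype_card]
  exact h5

/-- an irreducible character with irreducible restriction does not vanish on cosets -/
theorem exists_ne_zero_coset {G : Type*} [Group G] [Finite G] (N : Subgroup G) [N.Normal] {χ : G → ℂ}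
    (hχ : IsIrrCharacter G χ) (hχN : IsIrrCharacter N (fun n : N => χ n)) (g : G) : ∃ n : N, χ ((n : G) * g) ≠ 0 := by
  classical
  have hFG : Fintype G := Fintype.ofFinite G
  have hFN : Fintype N := Fintype.ofFinite N
  by_contra hcon
  push Not at hcon
  have h1 := congrFun (avgN_mul_conj_of_restrict_irr N hχ hχN) g
  rw [avgN_apply] at h1
  rw [Finset.sum_eq_zero (fun n _ => by rw [Pi.mul_apply, hcon n, zero_mul]), mul_zero] at h1
  exact zero_ne_one h1

/-- Let G be a finite group with a non-abelian minimal normal subgroup N, and let φ be an irreducible complex character of N with stabilizer I in G (the elements g with φ(g n g⁻¹) = φ(n) for all n ∈ N) such that φ extends to an irreducible character of I. Put d = φ(1)·[G : I]. Then the number of linear characters of G is at most [G : I] times the number of irreducible characters of G of degree d. -/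
theorem result {G : Type*} [Group G] [Finite G] (N : Subgroup G) (hN : N.Normal) (hN1 : N ≠ ⊥) (hmin : ∀ M : Subgroup G, M.Normal → M ≤ N → M = ⊥ ∨ M = N) (hna : ¬ IsMulCommutative ↥N) (φ : Cfsg.IrrCharacter ↥N) (I : Subgroup G) (hI : ∀ g : G, g ∈ I ↔ ∀ n n' : ↥N, (n' : G) = g * (n : G) * g⁻¹ → (φ : ↥N → ℂ) n' = (φ : ↥N → ℂ) n) (hNI : N ≤ I) (hext : ∃ ψ : Cfsg.IrrCharacter ↥I, ∀ n : ↥N, (ψ : ↥I → ℂ) (Subgroup.inclusion hNI n) = (φ : ↥N → ℂ) n) : Nat.card {χ : Cfsg.IrrCharacter G // Cfsg.charDegree (χ : G → ℂ) = 1} ≤ I.index * Nat.card {χ : Cfsg.IrrCharacter G // Cfsg.charDegree (χ : G → ℂ) = Cfsg.charDegree (φ : ↥N → ℂ) * I.index} := by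
  classical
  have hFG : Fintype G := Fintype.ofFinite G
  have hFN : Fintype N := Fintype.ofFinite N
  have hFI : Fintype I := Fintype.ofFinite I
  have hN' : N.Normal := hN
  obtain ⟨ψ, hψ⟩ := hext
  have hI' : I = inertia N (φ : N → ℂ) := by
    ext g
    rw [hI, mem_inertia_iff]
    constructor
    · intro h n
      exact h n _ rfl
    · intro h n n' hn
      have : n' = ⟨g * n * g⁻¹, hN.conj_mem (n : G) n.2 g⟩ := Subtype.ext hn
      rw [this]; exact h n
  have hdeg1 : ∀ χ : IrrCharacter G, charDegree (χ : G → ℂ) = 1 → (χ : G → ℂ) 1 = 1 := by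
    intro χ h
    rw [BlkC.charDegree_spec, h]; simp
  -- linear characters are trivial on `N`
  have htriv : ∀ χ : IrrCharacter G, (χ : G → ℂ) 1 = 1 → ∀ n ∈ N, (χ : G → ℂ) n = 1 := by
    intro χ h1
    have hc := irr_isCharacter χ
    have hkn : (linKer hc h1).Normal := by
      unfold linKer
      infer_instance
    have hn2 : (linKer hc h1 ⊓ N).Normal := inferInstance
    rcases hmin (linKer hc h1 ⊓ N) hn2 inf_le_right with h | h
    · exfalso
      apply hna
      constructor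
      constructor
      intro a b
      have h2 : (a : G) * b * (a : G)⁻¹ * (b : G)⁻¹ ∈ linKer hc h1 ⊓ N := by
        refine ⟨?_, (a * b * a⁻¹ * b⁻¹).2⟩
        change (a : G) * b * (a : G)⁻¹ * (b : G)⁻¹ ∈ linKer hc h1
        rw [mem_linKer]
        rw [linChar_mul hc h1, linChar_mul hc h1, linChar_mul hc h1, linChar_inv hc h1, linChar_inv hc h1]
        have h3 := linChar_ne_zero hc h1 (a : G)
        have h4 := linChar_ne_zero hc h1 (b : G)
        field_simp
      rw [h, Subgroup.mem_bot] at h2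
      apply Subtype.ext
      change (a : G) * b = b * a
      rw [mul_inv_eq_one, mul_inv_eq_iff_eq_mul] at h2
      exact h2
    · intro n hn
      rw [← h] at hn
      exact hn.1
  -- the map
  have hNn : (N.subgroupOf I).Normal := Subgroup.normal_subgroupOf
  have hirrN : IsIrrCharacter (N.subgroupOf I) (fun n : N.subgroupOf I => (ψ : I → ℂ) n) := by
    have h1 := isIrrCharacter_comp_surjective φ.2 (Subgroup.subgroupOfEquivOfLe hNI).toMonoidHom
      (Subgroup.subgroupOfEquivOfLe hNI).surjective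
    have h2 : ((φ : N → ℂ) ∘ (Subgroup.subgroupOfEquivOfLe hNI).toMonoidHom) = (fun n : N.subgroupOf I => (ψ : I → ℂ) n) := by
      funext n
      change (φ : N → ℂ) (Subgroup.subgroupOfEquivOfLe hNI n) = _
      rw [← hψ]
      rfl
    rwa [h2] at h1
  have hmulirr : ∀ χ : IrrCharacter G, (χ : G → ℂ) 1 = 1 →
      IsIrrCharacter I ((fun i : I => (χ : G → ℂ) i) * (ψ : I → ℂ)) := fun χ h1 =>
    Glaub.isIrr_mul_linear ψ.2 (isCharacter_restrict (irr_isCharacter χ) I) h1
  have hres : ∀ χ : IrrCharacter G, (χ : G → ℂ) 1 = 1 →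
      (fun n : N => ((fun i : I => (χ : G → ℂ) i) * (ψ : I → ℂ)) ⟨n, hNI n.2⟩) = (φ : N → ℂ) := by
    intro χ h1
    funext n
    change (χ : G → ℂ) n * (ψ : I → ℂ) ⟨n, hNI n.2⟩ = _
    rw [htriv χ h1 n n.2, one_mul, ← hψ]
    rfl
  have hne : ∀ χ : IrrCharacter G, (χ : G → ℂ) 1 = 1 →
      classInner (fun n : N => ((fun i : I => (χ : G → ℂ) i) * (ψ : I → ℂ)) ⟨n, hNI n.2⟩) (φ : N → ℂ) ≠ 0 := by
    intro χ h1
    rw [hres χ h1, classInner_irr_self φ]
    exact one_ne_zero
  let Lin := {χ : IrrCharacter G // charDegree (χ : G → ℂ) = 1}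
  let D := {χ : IrrCharacter G // charDegree (χ : G → ℂ) = charDegree (φ : ↥N → ℂ) * I.index}
  let F : Lin → D := fun χ => ⟨⟨indFun I ((fun i : I => (χ.1 : G → ℂ) i) * (ψ : I → ℂ)),
    isIrr_indFun_of_inertia N I φ.2 hI' hNI (hmulirr χ.1 (hdeg1 χ.1 χ.2)) (hne χ.1 (hdeg1 χ.1 χ.2))⟩, by
      have h1 : indFun I ((fun i : I => (χ.1 : G → ℂ) i) * (ψ : I → ℂ)) 1 = ((charDegree (φ : N → ℂ) * I.index : ℕ) : ℂ) := by
        rw [indFun_one_apply, Pi.mul_apply]
        have h2 : (ψ : I → ℂ) 1 = (φ : N → ℂ) 1 := by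
          rw [← hψ, map_one]
        change (I.index : ℂ) * ((χ.1 : G → ℂ) 1 * (ψ : I → ℂ) 1) = _
        rw [hdeg1 χ.1 χ.2, h2, BlkC.charDegree_spec]
        push_cast; ring
      unfold charDegree
      change ⌊(indFun I ((fun i : I => (χ.1 : G → ℂ) i) * (ψ : I → ℂ)) 1).re⌋₊ = _
      rw [h1, Complex.natCast_re, Nat.floor_natCast]
      rfl⟩
  have hfib : ∀ χ χ' : Lin, F χ = F χ' → ∀ i ∈ I, (χ.1 : G → ℂ) i = (χ'.1 : G → ℂ) i := by
    intro χ χ' h i hi
    have h1 : indFun I ((fun i : I => (χ.1 : G → ℂ) i) * (ψ : I → ℂ)) = indFun I ((fun i : I => (χ'.1 : G → ℂ) i) * (ψ : I → ℂ)) :=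
      congrArg (fun z : D => (z.1 : G → ℂ)) h
    have h2 := indFun_injective_of_inertia N I φ.2 hI' hNI (hmulirr χ.1 (hdeg1 χ.1 χ.2)) (hmulirr χ'.1 (hdeg1 χ'.1 χ'.2))
      (hne χ.1 (hdeg1 χ.1 χ.2)) (hne χ'.1 (hdeg1 χ'.1 χ'.2)) h1
    obtain ⟨n, hn⟩ := exists_ne_zero_coset (N.subgroupOf I) ψ.2 hirrN ⟨i, hi⟩
    have h3 := congrFun h2 ((n : I) * ⟨i, hi⟩)
    simp only [Pi.mul_apply] at h3
    have h4 := mul_right_cancel₀ hn h3
    have hnN : ((n : I) : G) ∈ N := Subgroup.mem_subgroupOf.1 n.2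
    have h5 : ∀ χ : Lin, (χ.1 : G → ℂ) (((n : I) * ⟨i, hi⟩ : I) : G) = (χ.1 : G → ℂ) i := by
      intro χ
      change (χ.1 : G → ℂ) (((n : I) : G) * i) = _
      rw [linChar_mul (irr_isCharacter χ.1) (hdeg1 χ.1 χ.2), htriv χ.1 (hdeg1 χ.1 χ.2) _ hnN, one_mul]
    rw [h5, h5] at h4
    exact h4
  have hFLin : Fintype Lin := Fintype.ofFinite _
  have hFD : Fintype D := Fintype.ofFinite _
  have key : Fintype.card Lin ≤ I.index * (Finset.univ.image F).card := by
    rw [← Finset.card_univ]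
    apply Finset.card_le_mul_card_image
    intro b hb
    obtain ⟨χ0, -, hχ0⟩ := Finset.mem_image.1 hb
    -- the fibre
    let h0 : G →* ℂ := linHom (irr_isCharacter χ0.1) (hdeg1 χ0.1 χ0.2)
    let S : Set (G →* ℂ) := {f | ∃ χ : Lin, F χ = b ∧ ∀ g, f g = (χ.1 : G → ℂ) g * (χ0.1 : G → ℂ) g⁻¹}
    have hS := card_hom_le_index I S (by
      rintro f ⟨χ, hχ, hf⟩ i hi
      rw [hf, hfib χ χ0 (hχ.trans hχ0.symm) i hi, linChar_inv (irr_isCharacter χ0.1) (hdeg1 χ0.1 χ0.2)]
      exact mul_inv_cancel₀ (linChar_ne_zero (irr_isCharacter χ0.1) (hdeg1 χ0.1 χ0.2) i))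
    refine le_trans ?_ hS
    let toH : Lin → (G →* ℂ) := fun χ =>
      { toFun := fun g => (χ.1 : G → ℂ) g * (χ0.1 : G → ℂ) g⁻¹
        map_one' := by rw [inv_one, hdeg1 χ.1 χ.2, hdeg1 χ0.1 χ0.2, one_mul]
        map_mul' := fun a b => by
          rw [linChar_inv (irr_isCharacter χ0.1) (hdeg1 χ0.1 χ0.2), linChar_inv (irr_isCharacter χ0.1) (hdeg1 χ0.1 χ0.2),
            linChar_inv (irr_isCharacter χ0.1) (hdeg1 χ0.1 χ0.2), linChar_mul (irr_isCharacter χ.1) (hdeg1 χ.1 χ.2),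
            linChar_mul (irr_isCharacter χ0.1) (hdeg1 χ0.1 χ0.2), mul_inv]
          ring }
    have htoH : Function.Injective toH := by
      intro χ χ' h
      apply Subtype.ext; apply Subtype.ext
      funext g
      have h6 : (χ.1 : G → ℂ) g * (χ0.1 : G → ℂ) g⁻¹ = (χ'.1 : G → ℂ) g * (χ0.1 : G → ℂ) g⁻¹ :=
        congrArg (fun z : G →* ℂ => z g) h
      exact mul_right_cancel₀ (linChar_ne_zero (irr_isCharacter χ0.1) (hdeg1 χ0.1 χ0.2) g⁻¹) h6
    have hfinS : S.Finite := by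
      have h7 : S ⊆ Set.range toH := by
        rintro f ⟨χ, hχ, hf⟩
        exact ⟨χ, by ext g; exact (hf g).symm⟩
      exact (Set.finite_range toH).subset h7
    have h8 : toH '' (↑(Finset.univ.filter (fun χ : Lin => F χ = b)) : Set Lin) ⊆ S := by
      rintro _ ⟨χ, hχ, rfl⟩
      have : F χ = b := by simpa using hχ
      exact ⟨χ, this, fun g => rfl⟩
    have h9 := Set.ncard_le_ncard h8 hfinS
    rw [Set.ncard_image_of_injective _ htoH, Set.ncard_coe_finset] at h9
    exact h9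
  rw [Nat.card_eq_fintype_card, Nat.card_eq_fintype_card]
  refine key.trans (Nat.mul_le_mul_left _ ?_)
  exact Finset.card_le_univ _

end Cfsg.Agent.S4870
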