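import Cfsg.Statements.S4871
import Cfsg.Agent.H25.FSIndC
import Cfsg.Agent.Char.CentralChar

set_option autoImplicit false
open Cfsg

namespace Cfsg.Agent.S4871

/-- Let G be a finite group that is the semidirect product of a normal elementary abelian subgroup N of odd order by a non-trivial 2-subgroup P, with N the unique minimal normal subgroup of G. Consider the strongly real irreducible complex characters of G (Frobenius–Schur indicator +1) whose degree is 1 or even. Then their average degree is at least 4/3: four times their number is at most three times the sum of their degrees. -/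
theorem result {G : Type*} [Group G] [Finite G] (N P : Subgroup G) (hN : N.Normal) (q : ℕ) [Fact q.Prime] (hq : q ≠ 2) (hNel : Cfsg.IsElementaryAbelian q N) (hP : IsPGroup 2 ↥P) (hP1 : P ≠ ⊥) (hdisj : N ⊓ P = ⊥) (hprod : N ⊔ P = ⊤) (hmin : N ≠ ⊥ ∧ ∀ M : Subgroup G, M.Normal → M ≠ ⊥ → N ≤ M) : 4 * Nat.card {χ : Cfsg.IrrCharacter G // (Cfsg.charDegree (χ : G → ℂ) = 1 ∨ 2 ∣ Cfsg.charDegree (χ : G → ℂ)) ∧ (Nat.card G : ℂ)⁻¹ * ∑ᶠ g : G, (χ : G → ℂ) (g * g) = 1} ≤ 3 * (∑ᶠ χ : {χ : Cfsg.IrrCharacter G // (Cfsg.charDegree (χ : G → ℂ) = 1 ∨ 2 ∣ Cfsg.charDegree (χ : G → ℂ)) ∧ (Nat.card G : ℂ)⁻¹ * ∑ᶠ g : G, (χ : G → ℂ) (g * g) = 1}, Cfsg.charDegree (χ.1 : G → ℂ)) := by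
  classical
  have : Fintype G := Fintype.ofFinite G
  have : Fintype ↥N := Fintype.ofFinite _
  have : Fintype (IrrCharacter G) := Fintype.ofFinite _
  have hNc : ∀ a ∈ N, ∀ b ∈ N, a * b = b * a := by
    intro a ha b hb
    have := hNel.1
    exact congrArg Subtype.val (this.is_comm.comm (⟨a, ha⟩ : ↥N) ⟨b, hb⟩)
  obtain ⟨z, hzP, hz1, hzz, hzc, hinv⟩ := H25.FSInd.exists_inverting N P hNc hP hP1 hdisj hprod hmin
  -- a nontrivial linear character
  obtain ⟨n₀, hn₀, hn₁⟩ := H25.Five.exists_mem_ne_one hmin.1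
  obtain ⟨lam, hlam0⟩ : ∃ χ : IrrCharacter ↥N, (χ : ↥N → ℂ) ⟨n₀, hn₀⟩ ≠ (χ : ↥N → ℂ) 1 := by
    by_contra hcon
    push Not at hcon
    have h1 := CharBase.isConj_of_irr_eq (G := ↥N) hcon
    obtain ⟨c, hc⟩ := isConj_iff.mp h1
    apply hn₁
    have h2 : (⟨n₀, hn₀⟩ : ↥N) = 1 := by
      have h3 : (⟨n₀, hn₀⟩ : ↥N) = c⁻¹ * 1 * c := by rw [← hc]; group
      rw [h3]; group
    exact congrArg Subtype.val h2
  have hlam1 : (lam : ↥N → ℂ) 1 = 1 := by
    apply Char.CC.degree_one_of_commutator lam.2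
    intro x y
    rw [commutatorElement_eq_one_iff_mul_comm.mpr (Subtype.ext (hNc x x.2 y y.2))]
  have hlc := CharBase.irr_isCharacter lam
  rw [hlam1] at hlam0
  -- the inertia group
  set T := Char.inertia N (lam : ↥N → ℂ) with hTdef
  have : Fintype ↥T := Fintype.ofFinite _
  have hNT : N ≤ T := Char.le_inertia N (CharBase.irr_isClassFunction lam)
  obtain ⟨ψ, hψ, hres, hfs⟩ := H25.FSInd.exists_ext N P hNc hdisj hprod hzP hzz hzc hinv lam.2 hlam1 T hNT rfl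
  have hzT : z ∉ T := by
    intro h
    rw [hTdef, Char.mem_inertia_iff] at h
    have h1 := h ⟨n₀, hn₀⟩
    have h2 : (⟨z * ((⟨n₀, hn₀⟩ : ↥N) : G) * z⁻¹, hN.conj_mem _ hn₀ z⟩ : ↥N) = (⟨n₀, hn₀⟩ : ↥N)⁻¹ :=
      Subtype.ext (hinv n₀ hn₀)
    rw [h2, Char.linChar_inv hlc hlam1] at h1
    set c := (lam : ↥N → ℂ) ⟨n₀, hn₀⟩ with hc
    have hc0 : c ≠ 0 := Char.linChar_ne_zero hlc hlam1 _
    have h3 : c ^ 2 = 1 := by
      rw [pow_two]
      nth_rewrite 1 [← h1]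
      exact inv_mul_cancel₀ hc0
    have h4 : c ^ q = 1 := by
      rw [hc, ← Char.linChar_pow hlc hlam1]
      have : (⟨n₀, hn₀⟩ : ↥N) ^ q = 1 := Subtype.ext (hNel.2 n₀ hn₀)
      rw [this, hlam1]
    have h5 : orderOf c ∣ 2 := orderOf_dvd_of_pow_eq_one h3
    have h6 : orderOf c ∣ q := orderOf_dvd_of_pow_eq_one h4
    have h7 : Nat.Coprime 2 q := (Nat.coprime_primes Nat.prime_two (Fact.out : q.Prime)).mpr (Ne.symm hq)
    have h8 : orderOf c = 1 := Nat.eq_one_of_dvd_coprimes h7 h5 h6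
    exact hlam0 (orderOf_eq_one_iff.mp h8)
  have hcomm : N ≤ commutator G := by
    apply hmin.2 _ inferInstance
    intro h
    have h1 : z * n₀ * z⁻¹ * n₀⁻¹ ∈ commutator G :=
      Subgroup.commutator_mem_commutator (Subgroup.mem_top _) (Subgroup.mem_top _)
    rw [h, Subgroup.mem_bot] at h1
    apply hzT
    rw [hTdef, Char.mem_inertia_iff]
    intro n
    have h2 : z * n * z⁻¹ * (n : G)⁻¹ ∈ commutator G :=
      Subgroup.commutator_mem_commutator (Subgroup.mem_top _) (Subgroup.mem_top _)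
    rw [h, Subgroup.mem_bot] at h2
    have h3 : (⟨z * n * z⁻¹, hN.conj_mem (n : G) n.2 z⟩ : ↥N) = n := Subtype.ext (mul_inv_eq_one.mp h2)
    rw [h3]
  -- the degree
  have hidx : 2 ∣ T.index := by
    have h1 : T.index ∣ N.index := Subgroup.index_dvd_of_le hNT
    have h2 : N.index = Nat.card ↥P := by
      have h3 : Nat.card ↥N * Nat.card ↥P = Nat.card G := by
        have := Solv.mul_card_sup_of_normal P N
        rw [sup_comm, hprod, inf_comm, hdisj, Subgroup.card_top, Subgroup.card_bot, mul_one] at this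
        rw [this, mul_comm]
      have h4 := N.card_mul_index
      rw [← h3] at h4
      exact Nat.eq_of_mul_eq_mul_left Nat.card_pos h4
    haveI : Fact (Nat.Prime 2) := ⟨Nat.prime_two⟩
    obtain ⟨k, hk⟩ := (IsPGroup.iff_card).mp hP
    rw [h2, hk] at h1
    obtain ⟨j, -, hj⟩ := (Nat.dvd_prime_pow Nat.prime_two).mp h1
    rw [hj]
    apply dvd_pow_self
    rintro rfl
    rw [pow_zero, Subgroup.index_eq_one] at hj
    exact hzT (hj ▸ Subgroup.mem_top z)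
  have hT0 : T.index ≠ 0 := Subgroup.index_ne_zero_of_finite
  have hd : indFun T ψ 1 = ((T.index : ℕ) : ℂ) := by
    have h1 : ψ 1 = 1 := by
      rw [← hlam1, ← hres 1]; rfl
    rw [Char.indFun_one_apply, h1, mul_one]
  have key := H25.FSInd.card_real_linear_le N T hNT hcomm lam.2 rfl hψ hres hfs hd
  -- counting
  have hfsi : ∀ χ : IrrCharacter G, (Nat.card G : ℂ)⁻¹ * ∑ᶠ g : G, (χ : G → ℂ) (g * g) = H52.fsi (χ : G → ℂ) := by
    intro χ
    rw [finsum_eq_sum_of_fintype]; rfl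
  let A : Finset (IrrCharacter G) := Finset.univ.filter (fun χ =>
    (Cfsg.charDegree (χ : G → ℂ) = 1 ∨ 2 ∣ Cfsg.charDegree (χ : G → ℂ)) ∧ H52.fsi (χ : G → ℂ) = 1)
  let L : Finset (IrrCharacter G) := Finset.univ.filter (fun χ => (χ : G → ℂ) 1 = 1 ∧ H52.fsi (χ : G → ℂ) = 1)
  let Y : Finset (IrrCharacter G) := Finset.univ.filter (fun χ => (χ : G → ℂ) 1 = (T.index : ℂ) ∧ H52.fsi (χ : G → ℂ) = 1)
  have hAc : Nat.card {χ : Cfsg.IrrCharacter G // (Cfsg.charDegree (χ : G → ℂ) = 1 ∨ 2 ∣ Cfsg.charDegree (χ : G → ℂ)) ∧ (Nat.card G : ℂ)⁻¹ * ∑ᶠ g : G, (χ : G → ℂ) (g * g) = 1} = A.card := by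
    rw [Nat.card_eq_fintype_card, Fintype.card_subtype]
    congr 1
    ext χ
    simp only [A, Finset.mem_filter, Finset.mem_univ, true_and, hfsi]
  have hAs : (∑ᶠ χ : {χ : Cfsg.IrrCharacter G // (Cfsg.charDegree (χ : G → ℂ) = 1 ∨ 2 ∣ Cfsg.charDegree (χ : G → ℂ)) ∧ (Nat.card G : ℂ)⁻¹ * ∑ᶠ g : G, (χ : G → ℂ) (g * g) = 1}, Cfsg.charDegree (χ.1 : G → ℂ)) = ∑ χ ∈ A, Cfsg.charDegree (χ : G → ℂ) := by
    rw [finsum_eq_sum_of_fintype]
    symm
    apply Finset.sum_subtype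
    intro χ
    simp only [A, Finset.mem_filter, Finset.mem_univ, true_and, hfsi]
  have hLc : Nat.card {χ : IrrCharacter G // (χ : G → ℂ) 1 = 1 ∧ H52.fsi (χ : G → ℂ) = 1} = L.card := by
    rw [Nat.card_eq_fintype_card, Fintype.card_subtype]
  have hYc : Nat.card {χ : IrrCharacter G // (χ : G → ℂ) 1 = ((T.index : ℕ) : ℂ) ∧ H52.fsi (χ : G → ℂ) = 1} = Y.card := by
    rw [Nat.card_eq_fintype_card, Fintype.card_subtype]
  rw [hLc, hYc] at key
  rw [hAc, hAs]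
  have hdeg : ∀ (χ : IrrCharacter G) (k : ℕ), (χ : G → ℂ) 1 = k ↔ Cfsg.charDegree (χ : G → ℂ) = k := by
    intro χ k
    rw [H79.irr_one χ, Nat.cast_inj]
  have hLA : L ⊆ A := by
    intro χ hχ
    simp only [L, A, Finset.mem_filter, Finset.mem_univ, true_and] at hχ ⊢
    exact ⟨Or.inl ((hdeg χ 1).mp (by rw [hχ.1, Nat.cast_one])), hχ.2⟩
  have hYA : Y ⊆ A \ L := by
    intro χ hχ
    simp only [Y, L, A, Finset.mem_sdiff, Finset.mem_filter, Finset.mem_univ, true_and] at hχ ⊢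
    have h1 := (hdeg χ _).mp hχ.1
    refine ⟨⟨Or.inr (by rw [h1]; exact hidx), hχ.2⟩, ?_⟩
    rintro ⟨h2, -⟩
    have h3 : Cfsg.charDegree (χ : G → ℂ) = 1 := (hdeg χ 1).mp (by rw [h2, Nat.cast_one])
    omega
  have hpos : ∀ χ ∈ A \ L, 2 ≤ Cfsg.charDegree (χ : G → ℂ) := by
    intro χ hχ
    simp only [L, A, Finset.mem_sdiff, Finset.mem_filter, Finset.mem_univ, true_and] at hχ
    obtain ⟨⟨h1 | h1, h2⟩, h3⟩ := hχ
    · exfalso
      exact h3 ⟨by rw [(hdeg χ 1).mpr h1, Nat.cast_one], h2⟩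
    · have h4 : Cfsg.charDegree (χ : G → ℂ) ≠ 0 := by
        intro h5
        have h6 := (hdeg χ 0).mpr h5
        exact CharBase.irr_one_ne_zero χ.2 (by rw [h6, Nat.cast_zero])
      omega
  have e1 : ∑ χ ∈ A, Cfsg.charDegree (χ : G → ℂ) = ∑ χ ∈ A \ L, Cfsg.charDegree (χ : G → ℂ) + ∑ χ ∈ L, Cfsg.charDegree (χ : G → ℂ) :=
    (Finset.sum_sdiff hLA).symm
  have e2 : ∑ χ ∈ L, Cfsg.charDegree (χ : G → ℂ) = L.card := by
    rw [Finset.card_eq_sum_ones]
    refine Finset.sum_congr rfl (fun χ hχ => ?_)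
    simp only [L, Finset.mem_filter, Finset.mem_univ, true_and] at hχ
    exact (hdeg χ 1).mp (by rw [hχ.1, Nat.cast_one])
  have e3 : ∑ χ ∈ A \ L, Cfsg.charDegree (χ : G → ℂ) = ∑ χ ∈ (A \ L) \ Y, Cfsg.charDegree (χ : G → ℂ) + ∑ χ ∈ Y, Cfsg.charDegree (χ : G → ℂ) :=
    (Finset.sum_sdiff hYA).symm
  have e4 : ∑ χ ∈ Y, Cfsg.charDegree (χ : G → ℂ) = Y.card * T.index := by
    rw [Finset.sum_congr rfl (g := fun _ => T.index) (fun χ hχ => ?_), Finset.sum_const, smul_eq_mul]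
    simp only [Y, Finset.mem_filter, Finset.mem_univ, true_and] at hχ
    exact (hdeg χ _).mp hχ.1
  have e5 : ((A \ L) \ Y).card * 2 ≤ ∑ χ ∈ (A \ L) \ Y, Cfsg.charDegree (χ : G → ℂ) := by
    rw [← smul_eq_mul]
    apply Finset.card_nsmul_le_sum
    intro χ hχ
    exact hpos χ (Finset.mem_sdiff.mp hχ).1
  have c1 : A.card = (A \ L).card + L.card := (Finset.card_sdiff_add_card_eq_card hLA).symm
  have c2 : (A \ L).card = ((A \ L) \ Y).card + Y.card := (Finset.card_sdiff_add_card_eq_card hYA).symm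
  rw [e1, e2, e3, e4, c1, c2]
  have hT2 : 2 ≤ T.index := by omega
  have h9 : 4 * Y.card + T.index * Y.card ≤ 3 * (Y.card * T.index) := by nlinarith
  nlinarith

end Cfsg.Agent.S4871
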