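import Cfsg.Statements.S4872
import Cfsg.Agent.H4.RealPlus

set_option autoImplicit false
open Cfsg

namespace Cfsg.Agent.S4872

/-- Let N be a normal subgroup of the finite group G with G/N a 2-group, and let φ be an irreducible complex character of N of 2-defect zero (the 2-part of #N divides φ(1)) whose complex conjugate is G-conjugate to φ. Then some irreducible character of G with Frobenius–Schur indicator +1 contains φ with multiplicity exactly one on restriction to N. -/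
theorem result {G : Type*} [Group G] [Finite G] (N : Subgroup G) [N.Normal] (h2 : IsPGroup 2 (G ⧸ N)) (φ : Cfsg.IrrCharacter ↥N) (hdef : 2 ^ (Nat.card ↥N).factorization 2 ∣ Cfsg.charDegree (φ : ↥N → ℂ)) (hconj : ∃ g : G, ∀ n n' : ↥N, (n' : G) = g * (n : G) * g⁻¹ → (φ : ↥N → ℂ) n' = (starRingEnd ℂ) ((φ : ↥N → ℂ) n)) : ∃ χ : Cfsg.IrrCharacter G, (Nat.card G : ℂ)⁻¹ * ∑ᶠ g : G, (χ : G → ℂ) (g * g) = 1 ∧ (Nat.card ↥N : ℂ)⁻¹ * ∑ᶠ n : ↥N, (χ : G → ℂ) n * (starRingEnd ℂ) ((φ : ↥N → ℂ) n) = 1 := by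
  classical
  have : Fintype G := Fintype.ofFinite G
  have : Fintype ↥N := Fintype.ofFinite _
  have hconj' : ∃ g : G, Cfsg.Agent.Char.cj N g (φ : ↥N → ℂ) = fun n => (starRingEnd ℂ) ((φ : ↥N → ℂ) n) := by
    obtain ⟨g, hg⟩ := hconj
    refine ⟨g, ?_⟩
    funext n
    exact hg n _ rfl
  obtain ⟨χ, h1, h3⟩ := Cfsg.Agent.H4.RealPlus.exists_plus N h2 φ hdef hconj'
  refine ⟨χ, ?_, ?_⟩
  · rw [finsum_eq_sum_of_fintype]
    exact h1
  · rw [finsum_eq_sum_of_fintype]
    exact h3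


end Cfsg.Agent.S4872
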