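import Cfsg.Statements.S4889
import Cfsg.Agent.Star.OT4

set_option autoImplicit false
open Cfsg

open Cfsg.Agent

namespace Cfsg.Agent.S4889

/-- Let G be a finite group, p a prime, M a maximal ideal of the algebraic integers containing p, and B a p-block of G that has an abelian defect group and in which every irreducible character has height zero. Then all irreducible characters of B have the same degree if and only if B is a nilpotent block. -/
theorem result {G : Type*} [Group G] [Finite G] (p : ℕ) [Fact p.Prime] (M : Ideal Cfsg.AlgInt) (hM : Cfsg.IsPModular p M) (B : Set (Cfsg.IrrCharacter G)) (hB : Cfsg.IsPBlock M B) (D : Subgroup G) (hD : Cfsg.IsDefectGroup p M B D) (hDab : IsMulCommutative ↥D) (h0 : ∀ χ : Cfsg.IrrCharacter G, χ ∈ B → Cfsg.blockHeight p B (χ : G → ℂ) = 0) : (∃ d : ℕ, ∀ χ : Cfsg.IrrCharacter G, χ ∈ B → Cfsg.charDegree (χ : G → ℂ) = d) ↔ Cfsg.IsNilpotentBlock p M B := by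
  classical
  have := Fintype.ofFinite G
  have hMp := Blk.isPrime_of_isPModular hM
  have := Blk.charP_kM hM
  have := Star.isAlgClosed_kM hM.2.1
  have hdef := (Blk.isDefectGroup_iff hM hB D).1 hD
  have hab : ∀ x ∈ D, ∀ y ∈ D, x * y = y * x := by
    intro x hx y hy
    have := hDab.is_comm.comm ⟨x, hx⟩ ⟨y, hy⟩
    exact congrArg Subtype.val this
  constructor
  · rintro ⟨d, hd⟩
    exact (BlkF.isNilpotentBlock_iff hM).2 ⟨hB, Star.nilp_of_equal_degrees hM hB hd h0 hdef hab⟩
  · intro hn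
    obtain ⟨e, he, hb⟩ := Star.exists_mmax_on hM hB hdef
    have h1 := (Star.nilp_abelian hM hB he hb hdef ((BlkF.isNilpotentBlock_iff hM).1 hn).2 hab).2.1
    obtain ⟨χ₀, hχ₀⟩ := BlkC.block_nonempty hB
    refine ⟨charDegree (χ₀ : G → ℂ), fun χ hχ => ?_⟩
    have h2 := h1 χ hχ χ₀ hχ₀ 1 (by rw [orderOf_one]; exact hM.1.one_lt.ne' ∘ Nat.dvd_one.1)
    rw [BlkC.charDegree_spec, BlkC.charDegree_spec] at h2
    exact_mod_cast h2

end Cfsg.Agent.S4889
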