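import Cfsg.Statements.S4911
import Cfsg.Agent.H81.RealInv

set_option autoImplicit false
open Cfsg

namespace Cfsg.Agent.S4911

/-- Let P and K be subgroups of a finite group with P a p-group normalizing K and K of order prime to p. Then the number of P-invariant real-valued irreducible complex characters of K equals the number of conjugacy classes of K that are real (closed under inversion) and P-invariant. Moreover, if every real-valued irreducible character of K is P-invariant, then every real element of K (one conjugate in K to its inverse) is conjugate in K to an element centralized by P. -/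
theorem result {G : Type*} [Group G] [Finite G] (p : ℕ) [Fact p.Prime] (P K : Subgroup G) (hP : IsPGroup p ↥P) (hK : ¬ p ∣ Nat.card ↥K) (hPK : P ≤ Subgroup.normalizer (K : Set G)) : Nat.card {θ : Cfsg.IrrCharacter ↥K // (∀ k : ↥K, ((θ : ↥K → ℂ) k).im = 0) ∧ (∀ x ∈ P, ∀ k k' : ↥K, (k' : G) = x * (k : G) * x⁻¹ → (θ : ↥K → ℂ) k' = (θ : ↥K → ℂ) k)} = Nat.card {c : ConjClasses ↥K // (∀ k : ↥K, ConjClasses.mk k = c → IsConj k k⁻¹) ∧ ∀ k : ↥K, ConjClasses.mk k = c → ∀ x ∈ P, ∀ k' : ↥K, (k' : G) = x * (k : G) * x⁻¹ → ConjClasses.mk k' = c} ∧ ((∀ θ : Cfsg.IrrCharacter ↥K, (∀ k : ↥K, ((θ : ↥K → ℂ) k).im = 0) → (∀ x ∈ P, ∀ k k' : ↥K, (k' : G) = x * (k : G) * x⁻¹ → (θ : ↥K → ℂ) k' = (θ : ↥K → ℂ) k)) → ∀ k : ↥K, IsConj k k⁻¹ → ∃ k' : ↥K, IsConj k k' ∧ ∀ x ∈ P, x * (k' : G) * x⁻¹ = (k' : G)) := by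
  classical
  have hFK : Fintype K := Fintype.ofFinite K
  have hnorm : ∀ s ∈ P, ∀ g ∈ K, s * g * s⁻¹ ∈ K := by
    intro s hs g hg
    exact (Subgroup.mem_normalizer_iff.1 (hPK hs) g).1 hg
  let φ : P →* MulAut K := Cfsg.Agent.Glaub.conjHom K P hnorm
  have hinv : ∀ χ : K → ℂ, Cfsg.Agent.Glaub.Inv φ χ ↔
    ∀ s ∈ P, ∀ g g' : K, (g' : G) = s * g * s⁻¹ → χ g' = χ g := fun χ => Cfsg.Agent.Glaub.inv_conjHom_iff hnorm χ
  constructor
  · have h1 := Cfsg.Agent.H81.card_real_inv_eq φ (Fact.out : p.Prime) hP hK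
    refine Eq.trans ?_ (h1.trans ?_)
    · exact Nat.card_congr (Equiv.subtypeEquivRight (fun θ => and_congr_right (fun _ => (hinv _).symm)))
    · refine Nat.card_congr (Equiv.subtypeEquivRight (fun C => and_congr_right (fun _ => ?_)))
      rw [Cfsg.Agent.Glaub.invClass_conjHom_iff hnorm C]
      constructor
      · intro h k hk x hx k' hk'
        exact h x hx k k' hk' hk
      · intro h s hs g g' hg hK
        exact h g hK s hs g' hg
  · intro hall k hk
    obtain ⟨c, hc1, hc2⟩ := Cfsg.Agent.H81.exists_fixed_of_real φ (Fact.out : p.Prime) hP hK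
      (fun θ hθ => (hinv _).2 (hall θ hθ)) k hk
    refine ⟨c, hc1, fun x hx => ?_⟩
    exact congrArg Subtype.val (hc2 ⟨x, hx⟩)

end Cfsg.Agent.S4911
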