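import Cfsg.Statements.S4912
import Cfsg.Agent.H25.FSIndB

set_option autoImplicit false
open Cfsg

namespace Cfsg.Agent.S4912

/-- Let G be a finite group with a non-abelian minimal normal subgroup N, and let φ be an irreducible complex character of N with stabilizer I in G such that φ extends to an irreducible character of I with Frobenius–Schur indicator +1. Put d = φ(1)·[G : I]. Then the number of linear characters of G with Frobenius–Schur indicator +1 is at most [G : I] times the number of irreducible characters of G of degree d with Frobenius–Schur indicator +1. -/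
theorem result {G : Type*} [Group G] [Finite G] (N : Subgroup G) (hN : N.Normal) (hN1 : N ≠ ⊥) (hmin : ∀ M : Subgroup G, M.Normal → M ≤ N → M = ⊥ ∨ M = N) (hna : ¬ IsMulCommutative ↥N) (φ : Cfsg.IrrCharacter ↥N) (I : Subgroup G) (hI : ∀ g : G, g ∈ I ↔ ∀ n n' : ↥N, (n' : G) = g * (n : G) * g⁻¹ → (φ : ↥N → ℂ) n' = (φ : ↥N → ℂ) n) (hNI : N ≤ I) (hext : ∃ ψ : Cfsg.IrrCharacter ↥I, (Nat.card ↥I : ℂ)⁻¹ * ∑ᶠ g : ↥I, (ψ : ↥I → ℂ) (g * g) = 1 ∧ ∀ n : ↥N, (ψ : ↥I → ℂ) (Subgroup.inclusion hNI n) = (φ : ↥N → ℂ) n) : Nat.card {χ : Cfsg.IrrCharacter G // Cfsg.charDegree (χ : G → ℂ) = 1 ∧ (Nat.card G : ℂ)⁻¹ * ∑ᶠ g : G, (χ : G → ℂ) (g * g) = 1} ≤ I.index * Nat.card {χ : Cfsg.IrrCharacter G // Cfsg.charDegree (χ : G → ℂ) = Cfsg.charDegree (φ : ↥N → ℂ) * I.index ∧ (Nat.card G : ℂ)⁻¹ * ∑ᶠ g : G, (χ : G → ℂ) (g * g) = 1} := by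
  classical
  have : Fintype G := Fintype.ofFinite G
  have : Fintype ↥N := Fintype.ofFinite _
  have : Fintype ↥I := Fintype.ofFinite _
  obtain ⟨ψ, hψ1, hψ2⟩ := hext
  have hT : Char.inertia N (φ : ↥N → ℂ) = I := by
    ext g
    rw [Char.mem_inertia_iff, hI]
    constructor
    · intro h n n' hn
      have : n' = ⟨g * n * g⁻¹, hN.conj_mem (n : G) n.2 g⟩ := Subtype.ext hn
      rw [this]; exact h n
    · intro h n
      exact h n _ rfl
  have hf1 : H52.fsi (ψ : ↥I → ℂ) = 1 := by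
    rw [← hψ1, finsum_eq_sum_of_fintype]
    unfold H52.fsi
    congr 2
  have hreal : ∀ t : ↥I, (starRingEnd ℂ) ((ψ : ↥I → ℂ) t) = (ψ : ↥I → ℂ) t := by
    have h2 : ¬ ∃ s : ↥I, ((ψ : ↥I → ℂ) s).im ≠ 0 := by
      rw [← H52.fsi_eq_zero_iff ψ.2, hf1]; exact one_ne_zero
    push Not at h2
    exact fun t => Complex.conj_eq_iff_im.mpr (h2 t)
  have hres : ∀ n : ↥N, (ψ : ↥I → ℂ) ⟨n, hNI n.2⟩ = (φ : ↥N → ℂ) n := fun n => hψ2 n
  have hrealN : ∀ n : ↥N, (starRingEnd ℂ) ((φ : ↥N → ℂ) n) = (φ : ↥N → ℂ) n := by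
    intro n
    rw [← hres n]; exact hreal _
  have hfs : H52.fsi (indFun I (ψ : ↥I → ℂ)) = 1 := by
    rw [H25.FSInd.fsi_indFun_of_real N I hNI φ.2 hrealN hT (CharBase.irr_isCharacter ψ) hres, hf1]
  have hNc : N ≤ commutator G := by
    have hn : (N ⊓ commutator G).Normal := inferInstance
    rcases hmin (N ⊓ commutator G) hn inf_le_left with h | h
    · exfalso
      apply hna
      refine ⟨⟨fun a b => ?_⟩⟩
      have h1 : (a : G) * b * (a : G)⁻¹ * (b : G)⁻¹ ∈ N ⊓ commutator G := by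
        refine ⟨?_, ?_⟩
        · exact N.mul_mem (N.mul_mem (N.mul_mem a.2 b.2) (N.inv_mem a.2)) (N.inv_mem b.2)
        · exact Subgroup.commutator_mem_commutator (Subgroup.mem_top _) (Subgroup.mem_top _)
      rw [h, Subgroup.mem_bot] at h1
      apply Subtype.ext
      have h2 := mul_inv_eq_one.mp h1
      have h3 := mul_inv_eq_iff_eq_mul.mp h2
      exact h3
    · exact h ▸ inf_le_right
  have hd : indFun I (ψ : ↥I → ℂ) 1 = ((Cfsg.charDegree (φ : ↥N → ℂ) * I.index : ℕ) : ℂ) := by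
    have h1 : (ψ : ↥I → ℂ) 1 = (φ : ↥N → ℂ) 1 := by
      rw [← hres 1]; rfl
    rw [Char.indFun_one_apply, h1, H79.irr_one φ]
    push_cast; ring
  have key := H25.FSInd.card_real_linear_le N I hNI hNc φ.2 hT ψ.2 hres hfs hd
  have e1 : Nat.card {χ : Cfsg.IrrCharacter G // Cfsg.charDegree (χ : G → ℂ) = 1 ∧ (Nat.card G : ℂ)⁻¹ * ∑ᶠ g : G, (χ : G → ℂ) (g * g) = 1} =
      Nat.card {χ : Cfsg.IrrCharacter G // (χ : G → ℂ) 1 = 1 ∧ H52.fsi (χ : G → ℂ) = 1} := by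
    refine Nat.card_congr (Equiv.subtypeEquivRight (fun χ => ?_))
    rw [finsum_eq_sum_of_fintype, H79.irr_one χ, Nat.cast_eq_one]
    unfold H52.fsi
    rfl
  have e2 : Nat.card {χ : Cfsg.IrrCharacter G // Cfsg.charDegree (χ : G → ℂ) = Cfsg.charDegree (φ : ↥N → ℂ) * I.index ∧ (Nat.card G : ℂ)⁻¹ * ∑ᶠ g : G, (χ : G → ℂ) (g * g) = 1} =
      Nat.card {χ : Cfsg.IrrCharacter G // (χ : G → ℂ) 1 = ((Cfsg.charDegree (φ : ↥N → ℂ) * I.index : ℕ) : ℂ) ∧ H52.fsi (χ : G → ℂ) = 1} := by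
    refine Nat.card_congr (Equiv.subtypeEquivRight (fun χ => ?_))
    rw [finsum_eq_sum_of_fintype, H79.irr_one χ, Nat.cast_inj]
    unfold H52.fsi
    rfl
  rw [e1, e2]
  exact key

end Cfsg.Agent.S4912
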