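import Cfsg.Statements.S4914
import Cfsg.Agent.Char.RelGlaub3
import Cfsg.Agent.Glaub.Inside
import Cfsg.Agent.H75.Tools

set_option autoImplicit false
open Cfsg

namespace Cfsg.Agent.S4914

/-- Let P and K be subgroups of a finite group G with P a p-group normalizing K, and suppose K has a normal Sylow p-subgroup Q. Let C be the subgroup of those k ∈ K whose commutator with every element of P lies in Q (so that C/Q is the fixed-point subgroup of P on K/Q). Then there is a bijection f from the P-invariant irreducible complex characters of K onto the P-invariant irreducible complex characters of C such that, for every P-invariant irreducible character χ of K, the multiplicity of f(χ) in the restriction of χ to C is a natural number congruent to 1 or to −1 modulo p, every other P-invariant irreducible character of C occurs in that restriction with multiplicity divisible by p, and the degrees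 of χ and f(χ) are congruent modulo p up to sign. -/
theorem result {G : Type*} [Group G] [Finite G] (p : ℕ) [Fact p.Prime] (P K Q C : Subgroup G) (hP : IsPGroup p ↥P) (hPK : P ≤ Subgroup.normalizer (K : Set G)) (hQK : Q ≤ K) (hQn : ∀ k ∈ K, ∀ q ∈ Q, k * q * k⁻¹ ∈ Q) (hQp : ∃ a : ℕ, Nat.card ↥Q = p ^ a) (hQsyl : ¬ p ∣ Q.relIndex K) (hCK : C ≤ K) (hC : ∀ k : G, k ∈ C ↔ (k ∈ K ∧ ∀ x ∈ P, x * k * x⁻¹ * k⁻¹ ∈ Q)) : ∃ f : {χ : Cfsg.IrrCharacter ↥K // (∀ x ∈ P, ∀ k k' : ↥K, (k' : G) = x * (k : G) * x⁻¹ → (χ : ↥K → ℂ) k' = (χ : ↥K → ℂ) k)} → {ξ : Cfsg.IrrCharacter ↥C // (∀ x ∈ P, ∀ k k' : ↥C, (k' : G) = x * (k : G) * x⁻¹ → (ξ : ↥C → ℂ) k' = (ξ : ↥C → ℂ) k)}, Function.Bijective f ∧ ∀ χ, (∀ ξ : {ξ : Cfsg.IrrCharacter ↥C // (∀ x ∈ P, ∀ k k' : ↥C, (k' : G) = x * (k : G) * x⁻¹ → (ξ : ↥C → ℂ) k' = (ξ : ↥C → ℂ) k)}, ∃ m : ℕ, (Nat.card ↥C : ℂ)⁻¹ * ∑ᶠ c : ↥C, (χ.1 : ↥K → ℂ) (Subgroup.inclusion hCK c) *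 (starRingEnd ℂ) ((ξ.1 : ↥C → ℂ) c) = (m : ℂ) ∧ (ξ = f χ → ((m : ZMod p) = 1 ∨ (m : ZMod p) = -1)) ∧ (ξ ≠ f χ → p ∣ m)) ∧ ((Cfsg.charDegree ((f χ).1 : ↥C → ℂ) : ZMod p) = (Cfsg.charDegree (χ.1 : ↥K → ℂ) : ZMod p) ∨ (Cfsg.charDegree ((f χ).1 : ↥C → ℂ) : ZMod p) = -(Cfsg.charDegree (χ.1 : ↥K → ℂ) : ZMod p)) := by
  classical
  have : Fintype K := Fintype.ofFinite _
  have : Fintype C := Fintype.ofFinite _
  have hp : p.Prime := Fact.out
  have hnK : ∀ s ∈ P, ∀ g ∈ K, s * g * s⁻¹ ∈ K := fun s hs g hg =>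
    (Subgroup.mem_normalizer_iff.mp (hPK hs) g).mp hg
  haveI : (Q.subgroupOf K).Normal := ⟨fun q hq k => hQn k k.2 q hq⟩
  have hpQ : ¬ p ∣ (Q.subgroupOf K).index := hQsyl
  have hQP : ∀ x ∈ P, ∀ q ∈ Q, x * q * x⁻¹ ∈ Q := by
    intro x hx q hq
    have h1 : x * q * x⁻¹ ∈ K := hnK x hx q (hQK hq)
    obtain ⟨a, ha⟩ := hQp
    have h2 : (x * q * x⁻¹) ^ (p ^ a) = 1 := by
      have h3 : q ^ (p ^ a) = 1 := by
        rw [← ha]
        exact congrArg Subtype.val (pow_card_eq_one' (x := (⟨q, hq⟩ : Q)))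
      rw [conj_pow, h3]
      group
    have h4 : (QuotientGroup.mk (⟨x * q * x⁻¹, h1⟩ : K) : K ⧸ Q.subgroupOf K) = 1 := by
      apply orderOf_eq_one_iff.mp
      apply Nat.dvd_one.mp
      have h5 : Nat.Coprime (p ^ a) (Q.subgroupOf K).index := by
        apply Nat.Coprime.pow_left
        exact (hp.coprime_iff_not_dvd).mpr hpQ
      rw [← h5]
      apply Nat.dvd_gcd
      · apply orderOf_dvd_of_pow_eq_one
        rw [← QuotientGroup.mk_pow]
        have h6 : (⟨x * q * x⁻¹, h1⟩ : K) ^ (p ^ a) = 1 := Subtype.ext h2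
        rw [h6]
        rfl
      · rw [Subgroup.index_eq_card]
        exact orderOf_dvd_natCard _
    exact (QuotientGroup.eq_one_iff (N := Q.subgroupOf K) (⟨x * q * x⁻¹, h1⟩ : K)).mp h4
  have hnC : ∀ s ∈ P, ∀ g ∈ C, s * g * s⁻¹ ∈ C := by
    intro x hx c hc
    rw [hC] at hc ⊢
    refine ⟨hnK x hx c hc.1, fun y hy => ?_⟩
    have h1 := hc.2 (y * x) (P.mul_mem hy hx)
    have h2 := hc.2 x hx
    have h3 : y * (x * c * x⁻¹) * y⁻¹ * (x * c * x⁻¹)⁻¹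
        = (y * x * c * (y * x)⁻¹ * c⁻¹) * (x * c * x⁻¹ * c⁻¹)⁻¹ := by group
    rw [h3]
    exact Q.mul_mem h1 (Q.inv_mem h2)
  let φ := Cfsg.Agent.Glaub.conjHom K P hnK
  let φD := Cfsg.Agent.Glaub.conjHom C P hnC
  have hQ : ∀ a, ∀ q ∈ Q.subgroupOf K, φ a q ∈ Q.subgroupOf K := fun a q hq => hQP a a.2 q hq
  have hι := Subgroup.inclusion_injective hCK
  have hQι : Q.subgroupOf K ≤ (Subgroup.inclusion hCK).range := by
    intro q hq
    have h1 : (q : G) ∈ C := by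
      rw [hC]
      refine ⟨q.2, fun x hx => ?_⟩
      exact Q.mul_mem (hQP x hx q hq) (Q.inv_mem hq)
    exact ⟨⟨q, h1⟩, rfl⟩
  have hfix : ∀ k : K, (∀ a, φ a k * k⁻¹ ∈ Q.subgroupOf K) ↔ k ∈ (Subgroup.inclusion hCK).range := by
    intro k
    constructor
    · intro h
      have h1 : (k : G) ∈ C := by
        rw [hC]
        exact ⟨k.2, fun x hx => h ⟨x, hx⟩⟩
      exact ⟨⟨k, h1⟩, rfl⟩
    · rintro ⟨c, rfl⟩ a
      exact ((hC c).mp c.2).2 a a.2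
  have hφ : ∀ a d, Subgroup.inclusion hCK (φD a d) = φ a (Subgroup.inclusion hCK d) :=
    fun a d => rfl
  have hQp' : ∃ a : ℕ, Nat.card (Q.subgroupOf K) = p ^ a := by
    obtain ⟨a, ha⟩ := hQp
    exact ⟨a, by rw [Nat.card_congr (Subgroup.subgroupOfEquivOfLe hQK).toEquiv, ha]⟩
  have hbelow := fun (χ : K → ℂ) (h1 : IsIrrCharacter K χ) (h2 : Cfsg.Agent.Glaub.Inv φ χ) =>
    Cfsg.Agent.Char.RG.main_below φ φD (Q.subgroupOf K) hQ (Subgroup.inclusion hCK) hι hQι hfix hφ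
      hp hP hQp' hpQ h1 h2
  have hiK : ∀ χ : K → ℂ, Cfsg.Agent.Glaub.Inv φ χ ↔ _ :=
    fun χ => Cfsg.Agent.Glaub.inv_conjHom_iff hnK χ
  have hiC : ∀ χ : C → ℂ, Cfsg.Agent.Glaub.Inv φD χ ↔ _ :=
    fun χ => Cfsg.Agent.Glaub.inv_conjHom_iff hnC χ
  choose f hf using fun χ : {χ : Cfsg.IrrCharacter ↥K // (∀ x ∈ P, ∀ k k' : ↥K,
      (k' : G) = x * (k : G) * x⁻¹ → (χ : ↥K → ℂ) k' = (χ : ↥K → ℂ) k)} =>
    hbelow χ.1 χ.1.2 ((hiK _).mpr χ.2)
  choose m hm using fun χ => (hf χ).2.2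
  have hin : ∀ (F ξ : C → ℂ), (Nat.card ↥C : ℂ)⁻¹ * ∑ᶠ c : ↥C, F c * (starRingEnd ℂ) (ξ c)
      = Cfsg.classInner F ξ := by
    intro F ξ
    rw [finsum_eq_sum_of_fintype]
    rfl
  refine ⟨fun χ => ⟨⟨f χ, (hf χ).1⟩, (hiC _).mp (hf χ).2.1⟩, ⟨?_, ?_⟩, ?_⟩
  · intro χ χ' h
    have h1 : f χ = f χ' := congrArg (fun x => (x.1 : C → ℂ)) h
    have h2 := Cfsg.Agent.Char.RG.main_unique φ φD (Q.subgroupOf K) hQ (Subgroup.inclusion hCK) hι
      hQι hfix hφ hp hP hQp' hpQ χ.1.2 ((hiK _).mpr χ.2) χ'.1.2 ((hiK _).mpr χ'.2) (hf χ).1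
      (hf χ).2.1 (hm χ).1 (hm χ).2.1 (h1 ▸ (hm χ').1) (hm χ').2.1
    exact Subtype.ext (Subtype.ext h2)
  · intro ξ
    obtain ⟨χ, hχ, hχi, n, hn, hpn⟩ := Cfsg.Agent.Char.RG.main_above φ φD (Q.subgroupOf K) hQ
      (Subgroup.inclusion hCK) hι hQι hfix hφ hp hP hQp' hpQ ξ.1.2 ((hiC _).mpr ξ.2)
    refine ⟨⟨⟨χ, hχ⟩, (hiK _).mp hχi⟩, ?_⟩
    apply Subtype.ext
    apply Subtype.ext
    by_contra hne
    exact hpn ((hm ⟨⟨χ, hχ⟩, (hiK _).mp hχi⟩).2.2.2 ξ.1 ξ.1.2 ((hiC _).mpr ξ.2)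
      (fun h => hne h.symm) n hn)
  · intro χ
    have hsq : ((m χ : ZMod p)) = 1 ∨ ((m χ : ZMod p)) = -1 := by
      have h1 := (hm χ).2.2.1
      have h2 : (((m χ : ℤ) ^ 2 - 1 : ℤ) : ZMod p) = 0 := (ZMod.intCast_zmod_eq_zero_iff_dvd _ _).mpr h1
      push_cast at h2
      have h3 : ((m χ : ZMod p) - 1) * ((m χ : ZMod p) + 1) = 0 := by
        rw [← h2]
        ring
      rcases mul_eq_zero.mp h3 with h4 | h4
      · exact Or.inl (sub_eq_zero.mp h4)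
      · exact Or.inr (eq_neg_of_add_eq_zero_left h4)
    refine ⟨fun ξ => ?_, ?_⟩
    · by_cases hξ : ξ = ⟨⟨f χ, (hf χ).1⟩, (hiC _).mp (hf χ).2.1⟩
      · refine ⟨m χ, ?_, fun _ => hsq, fun h => absurd hξ h⟩
        rw [hin (fun c => (χ.1 : ↥K → ℂ) (Subgroup.inclusion hCK c)), hξ]
        exact (hm χ).1
      · obtain ⟨n, hn⟩ := Cfsg.Agent.CharBase.classInner_natCast
          (Cfsg.Agent.CharBase.isCharacter_comp (Cfsg.Agent.CharBase.irr_isCharacter χ.1)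
            (Subgroup.inclusion hCK))
          (Cfsg.Agent.CharBase.irr_isCharacter ξ.1)
        refine ⟨n, ?_, fun h => absurd h hξ, fun _ => ?_⟩
        · rw [hin (fun c => (χ.1 : ↥K → ℂ) (Subgroup.inclusion hCK c))]
          exact hn
        · exact (hm χ).2.2.2 ξ.1 ξ.1.2 ((hiC _).mpr ξ.2)
            (fun h => hξ (Subtype.ext (Subtype.ext h))) n hn
    · have hFinv : Cfsg.Agent.Glaub.Inv φD
          (fun c => (χ.1 : ↥K → ℂ) (Subgroup.inclusion hCK c)) := by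
        intro a c
        change (χ.1 : ↥K → ℂ) (φ a (Subgroup.inclusion hCK c)) = _
        exact (hiK _).mpr χ.2 a _
      obtain ⟨N, hN⟩ := Cfsg.Agent.CharBase.exists_nat_degree
        (Cfsg.Agent.CharBase.irr_isCharacter χ.1)
      obtain ⟨d, hd⟩ := Cfsg.Agent.CharBase.exists_nat_degree
        (Cfsg.Agent.CharBase.isCharacter_of_isIrr (hf χ).1)
      have h1 := Cfsg.Agent.Char.RG.degree_congr φD hp hP
        (Cfsg.Agent.CharBase.isCharacter_comp (Cfsg.Agent.CharBase.irr_isCharacter χ.1)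
            (Subgroup.inclusion hCK)) hFinv (hf χ).1 (hf χ).2.1 (hm χ).1 (hm χ).2.2.2
            (N := N) (by
              change (χ.1 : ↥K → ℂ) (Subgroup.inclusion hCK 1) = N
              rw [map_one]
              exact hN) hd
      rw [Cfsg.Agent.H75.charDegree_eq hN]
      change ((Cfsg.charDegree (f χ) : ZMod p)) = _ ∨ ((Cfsg.charDegree (f χ) : ZMod p)) = _
      rw [Cfsg.Agent.H75.charDegree_eq hd]
      have h2 : (((N : ℤ) - m χ * d : ℤ) : ZMod p) = 0 :=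
        (ZMod.intCast_zmod_eq_zero_iff_dvd _ _).mpr h1
      push_cast at h2
      have h3 : (N : ZMod p) = m χ * d := sub_eq_zero.mp h2
      rcases hsq with h4 | h4
      · left
        rw [h3, h4, one_mul]
      · right
        rw [h3, h4]
        ring

end Cfsg.Agent.S4914
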