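import Cfsg.Statements.S4916
import Cfsg.Agent.BlkC.SumSq
import Cfsg.Agent.BlkC.BrauerFeit
import Cfsg.Agent.S0914

set_option autoImplicit false
open Cfsg

namespace Cfsg.Agent.S4916

open Cfsg.Agent.CharBase Cfsg.Agent.Blk Cfsg.Agent.BlkC

/-- Let G be a finite group, p a prime and M a maximal ideal of the algebraic integers containing p. Then the principal character is the only irreducible character of degree prime to p in the principal p-block of G if and only if p does not divide the order of G. -/
theorem result {G : Type*} [Group G] [Finite G] (p : ℕ) [Fact p.Prime] (M : Ideal Cfsg.AlgInt) (hM : Cfsg.IsPModular p M) : (∀ χ : Cfsg.IrrCharacter G, χ ∈ Cfsg.principalBlock M G → ¬ p ∣ Cfsg.charDegree (χ : G → ℂ) → (χ : G → ℂ) = fun _ => (1 : ℂ)) ↔ ¬ p ∣ Nat.card G := by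
  classical
  haveI := Fintype.ofFinite G
  haveI := isPrime_of_isPModular hM
  have hB : IsPBlock M (principalBlock M G) := BlkC.isPBlock_principalBlock M
  have h1mem : oneIrr G ∈ principalBlock M G := oneIrr_mem_principalBlock
  constructor
  · intro h hp
    have h1 := factorization_sum_sq (p := p) hM hB
    rw [blockDefect_principalBlock] at h1
    have ha : 1 ≤ (Nat.card G).factorization p :=
      ((Fact.out : p.Prime).dvd_iff_one_le_factorization Nat.card_pos.ne').mp hp
    have h2 : p ∣ ∑ χ ∈ Bfin (principalBlock M G), charDegree (χ : G → ℂ) ^ 2 := by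
      apply Nat.dvd_of_factorization_pos
      omega
    have h3 := Finset.add_sum_erase (Bfin (principalBlock M G))
      (fun χ => charDegree (χ : G → ℂ) ^ 2) (mem_Bfin.mpr h1mem)
    rw [← h3] at h2
    have h4 : p ∣ ∑ χ ∈ (Bfin (principalBlock M G)).erase (oneIrr G), charDegree (χ : G → ℂ) ^ 2 := by
      refine Finset.dvd_sum fun χ hχ => ?_
      by_contra hnd
      have h5 : ¬ p ∣ charDegree (χ : G → ℂ) := fun hd => hnd (dvd_pow hd two_ne_zero)
      have h6 := h χ (mem_Bfin.mp (Finset.mem_of_mem_erase hχ)) h5
      exact (Finset.ne_of_mem_erase hχ) (Subtype.ext h6)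
    have h7 := (Nat.dvd_add_left h4).mp h2
    have h8 : charDegree ((oneIrr G : IrrCharacter G) : G → ℂ) = 1 := by
      have := charDegree_spec (oneIrr G)
      simp only [oneIrr_apply] at this
      exact_mod_cast this.symm
    rw [h8, one_pow] at h7
    exact (Fact.out : p.Prime).one_lt.ne' (Nat.dvd_one.mp h7)
  · intro hp χ hχ _
    have h1 : ¬ p ∣ Nat.card G / charDegree ((oneIrr G : IrrCharacter G) : G → ℂ) := by
      have h8 : charDegree ((oneIrr G : IrrCharacter G) : G → ℂ) = 1 := by
        have := charDegree_spec (oneIrr G)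
        simp only [oneIrr_apply] at this
        exact_mod_cast this.symm
      rw [h8, Nat.div_one]; exact hp
    have h2 := (Cfsg.Agent.S0914.result p M hM (oneIrr G)).mp h1
    have h3 : χ ∈ blockOf M ((oneIrr G : IrrCharacter G) : G → ℂ) := hχ
    rw [h2] at h3
    rw [Set.mem_singleton_iff] at h3
    rw [h3]; rfl

end Cfsg.Agent.S4916
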