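import Cfsg.Statements.S4931
import Cfsg.Agent.H75.ItoConv
import Cfsg.Agent.Transfer.Tate
import Cfsg.Agent.Solv.Frattini

set_option autoImplicit false
set_option linter.style.haveILetI false
open Cfsg Cfsg.Agent.CharBase Cfsg.Agent.H75 commutatorElement

namespace Cfsg.Agent.S4931

theorem mem_normalClosure_of_restrict {G : Type*} [Group G] [Finite G] (N : Subgroup G) (A : Subgroup G)
    (hAN : A ≤ N) (hAn : (A.subgroupOf N).Normal)
    (hext : ∀ θ : Cfsg.IrrCharacter N, (∀ a ∈ A.subgroupOf N, (θ : N → ℂ) a = (θ : N → ℂ) 1) →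
      ∃ χ : Cfsg.IrrCharacter G, ∀ x : N, (χ : G → ℂ) x = (θ : N → ℂ) x)
    (x : G) (hx : x ∈ Subgroup.normalClosure (A : Set G)) (hxN : x ∈ N) : x ∈ A := by
  have h1 : IsConj (QuotientGroup.mk (⟨x, hxN⟩ : N) : N ⧸ A.subgroupOf N) 1 := by
    refine isConj_of_forall_char fun θ' => ?_
    obtain ⟨χ, hχ⟩ := hext ⟨_, isIrrCharacter_inflate (A.subgroupOf N) θ'.2⟩
      (inflate_ker (A.subgroupOf N) (θ' : N ⧸ A.subgroupOf N → ℂ))
    have h2 : Subgroup.normalClosure (A : Set G) ≤ charKer (irr_isCharacter χ) := by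
      haveI := charKer_normal (irr_isCharacter χ)
      apply Subgroup.normalClosure_le_normal
      intro a ha
      show a ∈ charKer (irr_isCharacter χ)
      rw [mem_charKer]
      have e1 := hχ ⟨a, hAN ha⟩
      have e2 := hχ 1
      have e3 := inflate_ker (A.subgroupOf N) (θ' : N ⧸ A.subgroupOf N → ℂ) ⟨a, hAN ha⟩
        (by rw [Subgroup.mem_subgroupOf]; exact ha)
      calc (χ : G → ℂ) a = _ := e1
        _ = _ := e3
        _ = (χ : G → ℂ) 1 := e2.symm
    have h3 := h2 hx
    rw [mem_charKer] at h3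
    have e1 := hχ ⟨x, hxN⟩
    have e2 := hχ 1
    calc (θ' : N ⧸ A.subgroupOf N → ℂ) (QuotientGroup.mk ⟨x, hxN⟩) = (χ : G → ℂ) x := e1.symm
      _ = (χ : G → ℂ) 1 := h3
      _ = _ := e2
  rw [isConj_one_left] at h1
  rw [QuotientGroup.eq_one_iff, Subgroup.mem_subgroupOf] at h1
  exact h1

theorem normalizer_map_le {G Q : Type*} [Group G] [Finite G] [Group Q] (p : ℕ) [Fact p.Prime]
    (P : Sylow p G) (π : G →* Q) (hπ : Function.Surjective π)
    (hN : Subgroup.normalizer ((P : Subgroup G) : Set G) ≤ P) (y : Q)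
    (hy : y ∈ Subgroup.normalizer (((P : Subgroup G).map π : Subgroup Q) : Set Q)) :
    y ∈ (P : Subgroup G).map π := by
  obtain ⟨x, rfl⟩ := hπ y
  set T : Subgroup G := ((P : Subgroup G).map π).comap π with hT
  have hPT : (P : Subgroup G) ≤ T := by rw [hT]; exact Subgroup.le_comap_map _ _
  have hxT : ((x • P : Sylow p G) : Subgroup G) ≤ T := by
    intro z hz
    rw [Sylow.coe_subgroup_smul, Subgroup.mem_pointwise_smul_iff_inv_smul_mem] at hz
    have h1 : π z = π x * π (x⁻¹ * z * x) * (π x)⁻¹ := by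
      rw [← map_mul, ← map_inv, ← map_mul]; congr 1; group
    rw [hT, Subgroup.mem_comap, h1]
    rw [Subgroup.mem_normalizer_iff] at hy
    refine (hy _).mp ⟨x⁻¹ * z * x, ?_, rfl⟩
    have h2 : (MulAut.conj x)⁻¹ • z = x⁻¹ * z * x := by
      rw [← map_inv, MulAut.smul_def, MulAut.conj_apply, inv_inv]
    rw [← h2]; exact hz
  obtain ⟨m, hm⟩ := MulAction.exists_smul_eq T (P.subtype hPT) ((x • P : Sylow p G).subtype hxT)
  rw [Sylow.smul_subtype] at hm
  have hm2 := Sylow.subtype_injective hm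
  have h3 : (m : G)⁻¹ * x ∈ Subgroup.normalizer ((P : Subgroup G) : Set G) := by
    have : ((m : G)⁻¹ * x) • P = P := by
      rw [mul_smul, ← hm2]
      change (m : G)⁻¹ • ((m : G) • P) = P
      rw [inv_smul_smul]
    exact Sylow.smul_eq_iff_mem_normalizer.mp this
  have h4 : π x = π (m : G) * π ((m : G)⁻¹ * x) := by
    rw [← map_mul]; congr 1; group
  rw [h4]
  refine mul_mem ?_ ⟨_, hN h3, rfl⟩
  exact m.2

theorem hasNPC_of_selfnormalizing {G : Type*} [Group G] [Finite G] (p : ℕ) [Fact p.Prime]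
    (P : Sylow p G) (hN : Subgroup.normalizer ((P : Subgroup G) : Set G) ≤ P) (M : Subgroup G)
    [M.Normal] (hM1 : ⁅(P : Subgroup G), (P : Subgroup G)⁆ ≤ M)
    (hM2 : M ⊓ (P : Subgroup G) ≤ ⁅(P : Subgroup G), (P : Subgroup G)⁆) :
    Cfsg.HasNormalPComplement p G := by
  classical
  set π : G →* G ⧸ M := QuotientGroup.mk' M with hπd
  have hπ : Function.Surjective π := QuotientGroup.mk'_surjective M
  let PQ : Sylow p (G ⧸ M) := P.mapSurjective hπ
  have hPQ : (PQ : Subgroup (G ⧸ M)) = (P : Subgroup G).map π := rfl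
  have hcen : Subgroup.normalizer ((PQ : Subgroup (G ⧸ M)) : Set (G ⧸ M)) ≤
      Subgroup.centralizer ((PQ : Subgroup (G ⧸ M)) : Set (G ⧸ M)) := by
    intro y hy
    have h1 := normalizer_map_le p P π hπ hN y hy
    obtain ⟨a, ha, rfl⟩ := h1
    rw [Subgroup.mem_centralizer_iff]
    rintro _ ⟨b, hb, rfl⟩
    rw [← map_mul, ← map_mul]
    have h2 : ⁅b⁻¹, a⁻¹⁆ ∈ M := hM1 (Subgroup.commutator_mem_commutator (inv_mem hb) (inv_mem ha))
    symm
    rw [hπd, QuotientGroup.mk'_apply, QuotientGroup.mk'_apply, QuotientGroup.eq]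
    have e : (a * b)⁻¹ * (b * a) = ⁅b⁻¹, a⁻¹⁆ := by rw [commutatorElement_def]; group
    rw [e]; exact h2
  have hNPC : Cfsg.HasNormalPComplement p (G ⧸ M) :=
    ⟨PQ, (MonoidHom.transferSylow PQ hcen).ker, inferInstance,
      MonoidHom.ker_transferSylow_isComplement' PQ hcen⟩
  rw [Transfer.hasNPC_iff_disjoint PQ] at hNPC
  set L : Subgroup G := (Cfsg.pResidual p (G ⧸ M)).comap π with hL
  have hLn : L.Normal := by rw [hL]; infer_instance
  have hLP : L ⊓ (P : Subgroup G) ≤ ⁅(P : Subgroup G), (P : Subgroup G)⁆ := by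
    intro x hx
    refine hM2 ⟨?_, hx.2⟩
    have h3 : π x ∈ (PQ : Subgroup (G ⧸ M)) ⊓ Cfsg.pResidual p (G ⧸ M) :=
      ⟨⟨x, hx.2, rfl⟩, hx.1⟩
    rw [hNPC, Subgroup.mem_bot, hπd, QuotientGroup.mk'_apply, QuotientGroup.eq_one_iff] at h3
    exact h3
  have hfr : ⁅(P : Subgroup G), (P : Subgroup G)⁆ ≤ (frattini P).map (P : Subgroup G).subtype := by
    have h4 : ⁅(P : Subgroup G), (P : Subgroup G)⁆ = (commutator P).map (P : Subgroup G).subtype := by
      rw [map_commutator_eq]
      congr 1 <;> exact (Subgroup.range_subtype _).symm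
    rw [h4]
    exact Subgroup.map_mono (Solv.commutator_le_frattini_of_pGroup P.2)
  have hLc : Cfsg.HasNormalPComplement p L :=
    Transfer.hasNPC_of_inf_le_frattini P L (hLP.trans hfr)
  rw [Transfer.hasNPC_iff_mul] at hLc ⊢
  have hmem : ∀ x : G, (orderOf x).Coprime p → x ∈ L := by
    intro x hx
    rw [hL, Subgroup.mem_comap]
    exact Transfer.mem_pResidual_of_coprime (Nat.Coprime.coprime_dvd_left (orderOf_map_dvd π x) hx)
  intro x y hx hy
  have := hLc ⟨x, hmem x hx⟩ ⟨y, hmem y hy⟩ (by rw [Subgroup.orderOf_mk]; exact hx)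
    (by rw [Subgroup.orderOf_mk]; exact hy)
  rw [← Subgroup.orderOf_coe] at this
  exact this

theorem not_dvd_deg_of_abelian {N : Type*} [Group N] [Finite N] (p : ℕ) [Fact p.Prime]
    (P : Subgroup N) [P.Normal] (hPi : ¬ p ∣ P.index) (θ : Cfsg.IrrCharacter N)
    (hθ : ∀ a ∈ ⁅P, P⁆, (θ : N → ℂ) a = (θ : N → ℂ) 1) : ¬ p ∣ deg θ := by
  obtain ⟨θ', hθ', he⟩ := exists_deflate_irr ⁅P, P⁆ θ.2 hθ
  have h1 : deg (⟨θ', hθ'⟩ : Cfsg.IrrCharacter (N ⧸ ⁅P, P⁆)) = deg θ := by
    have e1 := deg_spec (⟨θ', hθ'⟩ : Cfsg.IrrCharacter (N ⧸ ⁅P, P⁆))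
    have e2 := deg_spec θ
    have e3 := he 1
    rw [← e3] at e2
    have : ((deg (⟨θ', hθ'⟩ : Cfsg.IrrCharacter (N ⧸ ⁅P, P⁆)) : ℕ) : ℂ) = deg θ := by
      rw [← e1, ← e2]; rfl
    exact_mod_cast this
  have h2 := ito (⟨θ', hθ'⟩ : Cfsg.IrrCharacter (N ⧸ ⁅P, P⁆)) (P.map (QuotientGroup.mk' ⁅P, P⁆))
    (by
      rintro _ ⟨a, ha, rfl⟩ _ ⟨b, hb, rfl⟩
      rw [← map_mul, ← map_mul, QuotientGroup.mk'_apply, QuotientGroup.mk'_apply, QuotientGroup.eq]
      have e : (a * b)⁻¹ * (b * a) = ⁅b⁻¹, a⁻¹⁆ := by rw [commutatorElement_def]; group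
      rw [e]
      exact Subgroup.commutator_mem_commutator (inv_mem hb) (inv_mem ha))
  rw [h1] at h2
  intro h3
  apply hPi
  refine (h3.trans h2).trans ?_
  rw [Subgroup.index_map_eq P (QuotientGroup.mk'_surjective _)]
  rw [QuotientGroup.ker_mk']
  exact Subgroup.commutator_le_left P P

/-- Let G be a finite group, p a prime and P a Sylow p-subgroup of G with normalizer N. Then every irreducible complex character of N of degree not divisible by p is the restriction of an irreducible character of G if and only if there is a normal subgroup K of G with KN = G and K ∩ N = 1. -/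
theorem result {G : Type*} [Group G] [Finite G] (p : ℕ) [Fact p.Prime] (P : Sylow p G) :
    (∀ θ : Cfsg.IrrCharacter ↥(Subgroup.normalizer ((P : Subgroup G) : Set G)), ¬ p ∣ Cfsg.charDegree (θ : ↥(Subgroup.normalizer ((P : Subgroup G) : Set G)) → ℂ) →
        ∃ χ : Cfsg.IrrCharacter G, ∀ x : ↥(Subgroup.normalizer ((P : Subgroup G) : Set G)), (χ : G → ℂ) x = (θ : ↥(Subgroup.normalizer ((P : Subgroup G) : Set G)) → ℂ) x) ↔
      ∃ K : Subgroup G, K.Normal ∧ K ⊔ Subgroup.normalizer ((P : Subgroup G) : Set G) = ⊤ ∧ K ⊓ Subgroup.normalizer ((P : Subgroup G) : Set G) = ⊥ := by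

  classical
  set N : Subgroup G := Subgroup.normalizer ((P : Subgroup G) : Set G) with hNd
  have hPN : (P : Subgroup G) ≤ N := Subgroup.le_normalizer
  constructor
  · intro H
    set D : Subgroup G := ⁅(P : Subgroup G), (P : Subgroup G)⁆ with hD
    have hDP : D ≤ (P : Subgroup G) := Subgroup.commutator_le_self _
    have hPn : ((P : Subgroup G).subgroupOf N).Normal := Subgroup.normal_in_normalizer
    have hDN : D.subgroupOf N = ⁅(P : Subgroup G).subgroupOf N, (P : Subgroup G).subgroupOf N⁆ := by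
      apply Subgroup.map_injective N.subtype_injective
      rw [Subgroup.map_commutator, Subgroup.subgroupOf_map_subtype, Subgroup.subgroupOf_map_subtype,
        inf_of_le_left hPN, inf_of_le_left (hDP.trans hPN)]
    have hDn : (D.subgroupOf N).Normal := by rw [hDN]; infer_instance
    have hPi : ¬ p ∣ ((P : Subgroup G).subgroupOf N).index := by
      intro h
      exact P.not_dvd_index (h.trans (Subgroup.relIndex_dvd_index_of_le hPN))
    have hdeg : ∀ θ : Cfsg.IrrCharacter N, (∀ a ∈ D.subgroupOf N, (θ : N → ℂ) a = (θ : N → ℂ) 1) →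
        ∃ χ : Cfsg.IrrCharacter G, ∀ x : N, (χ : G → ℂ) x = (θ : N → ℂ) x := by
      intro θ hθ
      refine H θ ?_
      rw [charDegree_eq_deg]
      refine not_dvd_deg_of_abelian p ((P : Subgroup G).subgroupOf N) hPi θ ?_
      rw [← hDN]; exact hθ
    have hM := mem_normalClosure_of_restrict N D (hDP.trans hPN) hDn hdeg
    have hM1 := mem_normalClosure_of_restrict N (P : Subgroup G) hPN hPn (fun θ hθ => hdeg θ
      (fun a ha => hθ a (by rw [Subgroup.mem_subgroupOf] at ha ⊢; exact hDP ha)))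
    set M : Subgroup G := Subgroup.normalClosure (D : Set G) with hMd
    set M1 : Subgroup G := Subgroup.normalClosure ((P : Subgroup G) : Set G) with hM1d
    have hPM1 : (P : Subgroup G) ≤ M1 := Subgroup.le_normalClosure
    haveI : (M.subgroupOf M1).Normal := inferInstance
    have hcomm : ⁅((P.subtype hPM1 : Sylow p M1) : Subgroup M1), ((P.subtype hPM1 : Sylow p M1) : Subgroup M1)⁆ =
        D.subgroupOf M1 := by
      apply Subgroup.map_injective M1.subtype_injective
      rw [Subgroup.map_commutator, Sylow.coe_subtype, Subgroup.subgroupOf_map_subtype,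
        Subgroup.subgroupOf_map_subtype, inf_of_le_left hPM1, inf_of_le_left (hDP.trans hPM1)]
    have hNPC : Cfsg.HasNormalPComplement p M1 := by
      refine hasNPC_of_selfnormalizing p (P.subtype hPM1) ?_ (M.subgroupOf M1) ?_ ?_
      · intro x hx
        rw [Sylow.coe_subtype, Subgroup.mem_subgroupOf]
        apply hM1 _ x.2
        rw [hNd, Subgroup.mem_normalizer_iff]
        rw [Subgroup.mem_normalizer_iff] at hx
        intro h
        constructor
        · intro hh
          have := (hx ⟨h, hPM1 hh⟩).mp (by rw [Sylow.coe_subtype, Subgroup.mem_subgroupOf]; exact hh)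
          rw [Sylow.coe_subtype, Subgroup.mem_subgroupOf] at this
          exact this
        · intro hh
          have h5 : h ∈ M1 := by
            have h6 : (x : G)⁻¹ * (x * h * (x : G)⁻¹) * x ∈ M1 :=
              mul_mem (mul_mem (inv_mem x.2) (hPM1 hh)) x.2
            have h7 : (x : G)⁻¹ * (x * h * (x : G)⁻¹) * x = h := by group
            rwa [h7] at h6
          have := (hx ⟨h, h5⟩).mpr (by rw [Sylow.coe_subtype, Subgroup.mem_subgroupOf]; exact hh)
          rw [Sylow.coe_subtype, Subgroup.mem_subgroupOf] at this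
          exact this
      · rw [hcomm]
        intro x hx
        rw [Subgroup.mem_subgroupOf] at hx ⊢
        exact Subgroup.le_normalClosure hx
      · rw [hcomm]
        intro x hx
        rw [Sylow.coe_subtype] at hx
        have h8 : (x : G) ∈ M := hx.1
        have h9 : (x : G) ∈ (P : Subgroup G) := hx.2
        rw [Subgroup.mem_subgroupOf]
        exact hM _ h8 (hPN h9)
    have hd := (Transfer.hasNPC_iff_disjoint (P.subtype hPM1)).mp hNPC
    set K : Subgroup G := (Cfsg.pResidual p M1).map M1.subtype with hK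
    have hKn : K.Normal := by rw [hK]; infer_instance
    refine ⟨K, hKn, ?_, ?_⟩
    · have h1 := Sylow.normalizer_sup_eq_top' P hPM1
      have h2 : M1 ≤ K ⊔ N := by
        have h3 := Transfer.sylow_sup_pResidual (P.subtype hPM1)
        have h4 := congrArg (Subgroup.map M1.subtype) h3
        rw [Subgroup.map_sup, Sylow.coe_subtype, Subgroup.subgroupOf_map_subtype, inf_of_le_left hPM1,
          ← MonoidHom.range_eq_map, Subgroup.range_subtype] at h4
        rw [← h4]
        exact sup_le (hPN.trans le_sup_right) le_sup_left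
      rw [eq_top_iff, ← h1]
      exact sup_le le_sup_right h2
    · rw [eq_bot_iff]
      rintro x ⟨hxK, hxN⟩
      obtain ⟨y, hy, rfl⟩ := hxK
      have h1 : (y : G) ∈ (P : Subgroup G) := hM1 _ y.2 hxN
      have h2 : y ∈ ((P.subtype hPM1 : Sylow p M1) : Subgroup M1) ⊓ Cfsg.pResidual p M1 := by
        refine ⟨?_, hy⟩
        rw [Sylow.coe_subtype]
        change y ∈ (P : Subgroup G).subgroupOf M1
        rw [Subgroup.mem_subgroupOf]; exact h1
      rw [hd, Subgroup.mem_bot] at h2
      rw [h2]; simp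
  · rintro ⟨K, hKn, hKN, hKI⟩ θ -
    let f : N →* G ⧸ K := (QuotientGroup.mk' K).comp N.subtype
    have hf : Function.Bijective f := by
      constructor
      · rw [injective_iff_map_eq_one]
        intro a ha
        have h1 : (a : G) ∈ K := by
          have : (QuotientGroup.mk (a : G) : G ⧸ K) = 1 := ha
          rwa [QuotientGroup.eq_one_iff] at this
        have h2 : (a : G) ∈ K ⊓ N := ⟨h1, a.2⟩
        rw [hKI, Subgroup.mem_bot] at h2
        exact Subtype.ext h2
      · intro y
        obtain ⟨g, rfl⟩ := QuotientGroup.mk'_surjective K y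
        have hg : g ∈ K ⊔ N := by rw [hKN]; trivial
        rw [Subgroup.mem_sup_of_normal_left] at hg
        obtain ⟨k, hk, n, hn, rfl⟩ := hg
        refine ⟨⟨n, hn⟩, ?_⟩
        change QuotientGroup.mk' K n = _
        rw [map_mul]
        have : QuotientGroup.mk' K k = 1 := by
          rw [QuotientGroup.mk'_apply, QuotientGroup.eq_one_iff]; exact hk
        rw [this, one_mul]
    let e : N ≃* G ⧸ K := MulEquiv.ofBijective f hf
    refine ⟨⟨_, isIrrCharacter_comp_surjective θ.2 (e.symm.toMonoidHom.comp (QuotientGroup.mk' K))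
      (e.symm.surjective.comp (QuotientGroup.mk'_surjective K))⟩, fun x => ?_⟩
    change (θ : N → ℂ) (e.symm (QuotientGroup.mk' K (x : G))) = _
    exact congrArg (θ : N → ℂ) (e.symm_apply_apply x)

end Cfsg.Agent.S4931
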