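import Cfsg.Statements.S4937
import Cfsg.Agent.BlkInd.NCent3

set_option autoImplicit false
open Cfsg

namespace Cfsg.Agent.S4937

open Cfsg.Agent.BlkInd Cfsg.Agent.Blk Cfsg.Agent.Char Cfsg.Agent.CharBase Cfsg.Agent.H76

/-- Let G be a finite group, p a prime, M a maximal ideal of the algebraic integers containing p, N a normal subgroup of G and P a Sylow p-subgroup of N such that G = N·C_G(P). Let θ be an irreducible character in the principal p-block of N that is the restriction of some irreducible character of G. Then θ is the restriction of an irreducible character χ of G lying in the principal p-block of G such that, for every subgroup J of G containing N, the restriction of χ to J is an irreducible character of J lying in the principal p-block of J. -/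
theorem result {G : Type*} [Group G] [Finite G] (p : ℕ) [Fact p.Prime] (M : Ideal Cfsg.AlgInt) (hM : Cfsg.IsPModular p M) (N : Subgroup G) [N.Normal] (P : Sylow p ↥N)
    (hcov : N ⊔ Subgroup.centralizer (((P : Subgroup ↥N).map N.subtype : Subgroup G) : Set G) = ⊤)
    (θ : Cfsg.IrrCharacter ↥N) (hθ : θ ∈ Cfsg.principalBlock M ↥N)
    (hext : ∃ ψ : Cfsg.IrrCharacter G, ∀ x : ↥N, (ψ : G → ℂ) x = (θ : ↥N → ℂ) x) :
    ∃ χ : Cfsg.IrrCharacter G, χ ∈ Cfsg.principalBlock M G ∧ (∀ x : ↥N, (χ : G → ℂ) x = (θ : ↥N → ℂ) x) ∧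
      ∀ J : Subgroup G, N ≤ J → ∃ ξ : Cfsg.IrrCharacter ↥J, ξ ∈ Cfsg.principalBlock M ↥J ∧ ∀ y : ↥J, (ξ : ↥J → ℂ) y = (χ : G → ℂ) y := by
  classical
  haveI := Fintype.ofFinite G
  haveI := Fintype.ofFinite N
  haveI hMp : M.IsPrime := hM.2.1.isPrime
  obtain ⟨χ0, hχ0⟩ := hext
  obtain ⟨β, χ, -, hχN, hgood⟩ := exists_good_extension hM N P hcov hθ hχ0
  have hirr : IsIrrCharacter N (fun n => (χ : G → ℂ) n) := by
    have : (fun n : N => (χ : G → ℂ) n) = (θ : N → ℂ) := funext hχN
    rw [this]; exact θ.2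
  refine ⟨χ, ?_, hχN, ?_⟩
  · intro g
    obtain ⟨h1, h2⟩ := hgood g
    obtain ⟨k, hk⟩ := mN_dvd_index N (⊤ : Subgroup G) le_top ⟨g, trivial⟩
    have hk' : (Subgroup.centralizer ({g} : Set G)).index = mN N g * k := by
      rw [← hk]
      have h3 : Subgroup.centralizer ({(⟨g, trivial⟩ : (⊤ : Subgroup G))} : Set (⊤ : Subgroup G)) =
          (Subgroup.centralizer ({g} : Set G)).subgroupOf ⊤ := by
        ext z
        rw [Subgroup.mem_subgroupOf, Subgroup.mem_centralizer_singleton_iff,
          Subgroup.mem_centralizer_singleton_iff]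
        exact ⟨fun h => congrArg Subtype.val h, fun h => Subtype.ext h⟩
      rw [h3]
      exact (Subgroup.relIndex_top_right _).symm
    have h3 : centralChar (χ : G → ℂ) g =
        (k : ℂ) * ((mN N g : ℂ) * ((χ : G → ℂ) g / (χ : G → ℂ) 1)) := by
      unfold centralChar
      rw [hk']; push_cast; ring
    have h4 : centralChar (fun _ : G => (1 : ℂ)) g = (k : ℂ) * (mN N g : ℂ) := by
      unfold centralChar
      rw [hk']; push_cast; ring
    have h5 : MemLocalRing M (mN N g : ℂ) := mlr_natCast _
    rw [h3, h4, ← rd_eq_iff (mlr_mul (mlr_natCast _) h5) (mlr_mul (mlr_natCast _) h1),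
      rd_mul (mlr_natCast _) h5, rd_mul (mlr_natCast _) h1, h2, rd_natCast, rd_natCast]
  · intro J hNJ
    haveI := Fintype.ofFinite J
    exact good_mem N hirr hgood J hNJ

end Cfsg.Agent.S4937
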