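import Cfsg.Statements.S4959
import Cfsg.Agent.H75.RTe

set_option autoImplicit false
open Cfsg

namespace Cfsg.Agent.S4959

/-- Let X be a finite group and V a normal subgroup of X in which every element has order dividing the prime p, whose index in X is prime to p and which is its own centralizer in X; so V is an elementary abelian normal Sylow p-subgroup, and any complement G to V in X is a group of order prime to p acting faithfully on the vector space V by conjugation (the coprime linear setting of the k(GV) problem). Let G be a complement to V in X, let v be in V and let H be the centralizer of v in G. Suppose there is a subgroup U of V normalized by H, on which H acts faithfully, and carrying an H-invariant bi-additive pairing β with values in the integers modulo p that is nondegenerate on U (equivalently: the restriction of the module V to H has a faithful self-dual submodule; such a v is called a real vector for G). Then the number of conjugacy classes of X is at most the order of V (the real-vector criterion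 for the k(GV) problem). The pairing is given as a function on X whose relevant values are those on pairs from U. -/
theorem result {X : Type*} [Group X] [Finite X] (p : ℕ) [Fact p.Prime] (V : Subgroup X) [V.Normal] (hVexp : ∀ v ∈ V, v ^ p = 1) (hidx : ¬ p ∣ V.index) (hself : Subgroup.centralizer (V : Set X) = V) (G : Subgroup X) (hGV : Subgroup.IsComplement' V G) (v : X) (hv : v ∈ V) (U : Subgroup X) (hUV : U ≤ V) (hUinv : ∀ h ∈ G, h * v * h⁻¹ = v → ∀ u ∈ U, h * u * h⁻¹ ∈ U) (hUfaith : ∀ h ∈ G, h * v * h⁻¹ = v → (∀ u ∈ U, h * u * h⁻¹ = u) → h = 1) (β : X → X → ZMod p) (hβl : ∀ u ∈ U, ∀ u' ∈ U, ∀ w ∈ U, β (u * u') w = β u w + β u' w) (hβr : ∀ u ∈ U, ∀ w ∈ U, ∀ w' ∈ U, β u (w * w') = β u w + β u w') (hβinv : ∀ h ∈ G, h * v * h⁻¹ = v → ∀ u ∈ U, ∀ w ∈ U, β (h * u * h⁻¹) (h * w * h⁻¹) = β u w) (hβnd : ∀ u ∈ U, (∀ w ∈ U, β u w = 0) → u = 1) : Nat.card (ConjClasses X) ≤ Nat.card V := by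
  classical
  have hp : p.Prime := Fact.out
  have hVc : ∀ a ∈ V, ∀ b ∈ V, a * b = b * a := by
    intro a ha b hb
    have h1 : b ∈ Subgroup.centralizer (V : Set X) := by rw [hself]; exact hb
    exact Subgroup.mem_centralizer_iff.mp h1 a ha
  obtain ⟨H, hHdef⟩ : ∃ H : Subgroup X, H = G ⊓ Subgroup.centralizer ({v} : Set X) := ⟨_, rfl⟩
  have hH : ∀ x, x ∈ H ↔ x ∈ G ∧ x * v = v * x := by
    intro x
    rw [hHdef, Subgroup.mem_inf, Subgroup.mem_centralizer_singleton_iff]
  have hHv : ∀ x ∈ H, x * v * x⁻¹ = v := fun x hx => mul_inv_eq_of_eq_mul ((hH x).mp hx).2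
  have := Fintype.ofFinite H
  have hcG : Nat.card G = V.index := hGV.symm.index_eq_card.symm
  have hpH : ¬ p ∣ Nat.card H := fun h => hidx (by
    rw [← hcG]
    exact h.trans (Subgroup.card_dvd_of_le (by rw [hHdef]; exact inf_le_left)))
  have hn0 : Nat.card X * p ≠ 0 := Nat.mul_ne_zero Nat.card_pos.ne' hp.ne_zero
  obtain ⟨η, h1, h2, h3⟩ := H75.RT.exists_eta (n := Nat.card X * p) U H
    (fun a ha b hb => hVc a (hUV ha) b (hUV hb)) (fun a ha => hVexp a (hUV ha))
    (fun h hh u hu => hUinv h ((hH h).mp hh).1 (hHv h hh) u hu) hn0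
    ((Subgroup.card_subgroup_dvd_card H).trans (dvd_mul_right _ _)) (dvd_mul_left _ _) hpH β hβl hβr
    (fun h hh => hβinv h ((hH h).mp hh).1 (hHv h hh)) hβnd
  have hrel : ∀ K L : Subgroup X, K ≤ L → Nat.card K * K.relIndex L = Nat.card L := by
    intro K L hKL
    have := Subgroup.relIndex_mul_relIndex (⊥ : Subgroup X) K L bot_le hKL
    rwa [Subgroup.relIndex_bot_left, Subgroup.relIndex_bot_left] at this
  refine H75.RT.kt V G H v hVc hVexp hidx hGV hv hH hn0 (dvd_mul_right _ _) h1 ?_ ?_
    (fun h => Nat.card U * U.relIndex (V ⊓ Subgroup.centralizer {(h : X)})) ?_ ?_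
  · have e1 := h2 1
    have e2 : Nat.card {u : X // u ∈ U ∧ u * ((1 : H) : X) = ((1 : H) : X) * u} = Nat.card U := by
      refine Nat.card_congr (Equiv.subtypeEquivRight fun u => ?_)
      rw [Subgroup.coe_one, mul_one, one_mul]
      exact ⟨fun h => h.1, fun h => ⟨h, rfl⟩⟩
    rw [e2] at e1
    have e3 : (Nat.card U : ℂ) ≠ 0 := Nat.cast_ne_zero.mpr Nat.card_pos.ne'
    exact mul_right_cancel₀ e3 (by rw [e1, one_mul])
  · intro h hh
    refine h3 h ?_
    by_contra hcon
    push Not at hcon
    exact hh (Subtype.ext (hUfaith h ((hH h).mp h.2).1 (hHv h h.2) hcon))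
  · intro h
    have e1 : Nat.card (H75.RT.CV V (h : X)) =
        Nat.card (V ⊓ Subgroup.centralizer {(h : X)} : Subgroup X) := by
      refine Nat.card_congr (Equiv.subtypeEquivRight fun u => ?_)
      rw [Subgroup.mem_inf, Subgroup.mem_centralizer_singleton_iff]
    have e2 : Nat.card {u : X // u ∈ U ∧ u * (h : X) = h * u} =
        Nat.card (U ⊓ (V ⊓ Subgroup.centralizer {(h : X)}) : Subgroup X) := by
      refine Nat.card_congr (Equiv.subtypeEquivRight fun u => ?_)
      rw [Subgroup.mem_inf, Subgroup.mem_inf, Subgroup.mem_centralizer_singleton_iff]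
      exact ⟨fun h => ⟨h.1, hUV h.1, h.2⟩, fun h => ⟨h.1, h.2.2⟩⟩
    have e3 := hrel (U ⊓ (V ⊓ Subgroup.centralizer {(h : X)})) (V ⊓ Subgroup.centralizer {(h : X)})
      inf_le_right
    rw [Subgroup.inf_relIndex_right, ← e2] at e3
    rw [e1, ← e3]
    have e4 := h2 h
    push_cast
    rw [← e4]
    ring
  · intro h
    have e1 := hrel U V hUV
    rw [← e1]
    exact Nat.mul_le_mul_left _ (Subgroup.relIndex_le_of_le_right inf_le_left
      (fun h0 => by
        rw [h0, mul_zero] at e1
        exact Nat.card_pos.ne e1))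

end Cfsg.Agent.S4959
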