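import Cfsg.Statements.S4969
import Cfsg.Agent.CharBase.Column
import Cfsg.Agent.CharBase.Central

set_option autoImplicit false
open Cfsg Cfsg.Agent.CharBase
open scoped ComplexConjugate

namespace Cfsg.Agent.S4969

/-- Let G be a finite group with k conjugacy classes, g ∈ G, and N > 0. Then the sum over the irreducible complex characters χ of G with χ(1) ≥ N of |χ(g)|/χ(1) is at most √(k · #C_G(g)) / N. -/
theorem result {G : Type*} [Group G] [Finite G] (g : G) (N : ℝ) (hN : 0 < N) :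
    ∑ᶠ χ : Cfsg.IrrCharacter G, (if N ≤ ‖(χ : G → ℂ) 1‖ then ‖(χ : G → ℂ) g‖ / ‖(χ : G → ℂ) 1‖ else 0) ≤
      Real.sqrt ((Nat.card (ConjClasses G) : ℝ) * (Nat.card ↥(Subgroup.centralizer ({g} : Set G)) : ℝ)) / N := by
  classical
  have := Fintype.ofFinite (IrrCharacter G)
  have := Fintype.ofFinite G
  rw [finsum_eq_sum_of_fintype]
  have h1 : ∀ χ : IrrCharacter G, (if N ≤ ‖(χ : G → ℂ) 1‖ then ‖(χ : G → ℂ) g‖ / ‖(χ : G → ℂ) 1‖ else 0) ≤ ‖(χ : G → ℂ) g‖ / N := by
    intro χ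
    split_ifs with h
    · exact div_le_div_of_nonneg_left (norm_nonneg _) hN h
    · positivity
  refine (Finset.sum_le_sum fun χ _ => h1 χ).trans ?_
  rw [← Finset.sum_div]
  apply div_le_div_of_nonneg_right _ hN.le
  apply Real.le_sqrt_of_sq_le
  refine (sq_sum_le_card_mul_sum_sq).trans ?_
  rw [Finset.card_univ, ← Nat.card_eq_fintype_card, card_irr_eq_card_conjClasses]
  apply mul_le_mul_of_nonneg_left _ (Nat.cast_nonneg _)
  apply le_of_eq
  have h2 := column_orthogonality_of_isConj (IsConj.refl g)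
  have h3 : ((∑ χ : IrrCharacter G, ‖(χ : G → ℂ) g‖ ^ 2 : ℝ) : ℂ) = ((Nat.card (Subgroup.centralizer ({g} : Set G)) : ℝ) : ℂ) := by
    rw [Complex.ofReal_sum]
    rw [Complex.ofReal_natCast, ← h2]
    refine Finset.sum_congr rfl fun χ _ => ?_
    rw [Complex.mul_conj, Complex.normSq_eq_norm_sq]
  exact_mod_cast h3

end Cfsg.Agent.S4969
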