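import Cfsg.Statements.S4989
import Cfsg.Agent.H52.AMGM

set_option autoImplicit false
open Cfsg Cfsg.Agent.CharBase
open scoped ComplexConjugate

namespace Cfsg.Agent.S4989

/-- Let H be a subgroup of the finite group G and χ an irreducible complex character of G. Then the inner product of the restriction of χ to H with itself, (1/#H)·Σ_{h ∈ H} |χ(h)|², is at most 1 + #(Z ∖ H)/#H, where Z is the set of zeros of χ in G. -/
theorem result {G : Type*} [Group G] [Finite G] (H : Subgroup G) (χ : Cfsg.IrrCharacter G) : (Nat.card ↥H : ℝ)⁻¹ * ∑ᶠ h : ↥H, ‖(χ : G → ℂ) h‖ ^ 2 ≤ 1 + (Set.ncard ({x : G | (χ : G → ℂ) x = 0} \ (H : Set G)) : ℝ) / (Nat.card ↥H : ℝ) := by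
  classical
  have := Fintype.ofFinite G
  have := Fintype.ofFinite H
  rw [finsum_eq_sum_of_fintype]
  have hH : (0 : ℝ) < Nat.card H := by exact_mod_cast Nat.card_pos
  -- the nonzeros outside H
  let S : Finset G := Finset.univ.filter (fun g => g ∉ H ∧ (χ : G → ℂ) g ≠ 0)
  let Z : Finset G := Finset.univ.filter (fun g => g ∉ H ∧ (χ : G → ℂ) g = 0)
  have h1 : (S.card : ℝ) ≤ ∑ g ∈ S, Complex.normSq ((χ : G → ℂ) g) := by
    apply Cfsg.Agent.H75.card_le_sum_normSq (irr_isCharacter χ)
    · intro k hk g hg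
      obtain ⟨-, hgH, hg0⟩ := Finset.mem_filter.mp hg
      refine Finset.mem_filter.mpr ⟨Finset.mem_univ _, fun h => hgH ?_, ?_⟩
      · have hcop : (orderOf g).Coprime k := (Nat.Coprime.coprime_dvd_right (orderOf_dvd_natCard g) hk).symm
        obtain ⟨m, hm⟩ := exists_pow_eq_self_of_coprime hcop.symm
        rw [← hm]
        exact H.pow_mem h m
      · obtain ⟨σ, hσ⟩ := Cfsg.Agent.Char.exists_aut_pow (n := Nat.card G) Nat.card_pos.ne' hk
        rw [← Cfsg.Agent.Char.map_char_eq (irr_isCharacter χ) g (orderOf_dvd_natCard g) σ hσ]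
        intro h
        apply hg0
        exact (map_eq_zero σ).mp h
    · intro g hg
      exact (Finset.mem_filter.mp hg).2.2
  have h2 := Cfsg.Agent.H52.sum_normSq_irr χ
  have h3 : ∑ h : H, ‖(χ : G → ℂ) h‖ ^ 2 = ∑ g ∈ Finset.univ.filter (fun g : G => g ∈ H), Complex.normSq ((χ : G → ℂ) g) := by
    rw [← Finset.sum_subtype_eq_sum_filter]
    simp only [Finset.subtype_univ]
    refine Finset.sum_congr ?_ fun h _ => ?_
    · ext x; simp
    · rw [Complex.normSq_eq_norm_sq]
  have h4 : ∑ g ∈ Finset.univ.filter (fun g : G => g ∈ H), Complex.normSq ((χ : G → ℂ) g) + ∑ g ∈ S, Complex.normSq ((χ : G → ℂ) g) = (Nat.card G : ℝ) := by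
    rw [← h2, ← Finset.sum_filter_add_sum_filter_not Finset.univ (fun g : G => g ∈ H)]
    congr 1
    apply Finset.sum_subset
    · intro g hg
      exact Finset.mem_filter.mpr ⟨Finset.mem_univ _, (Finset.mem_filter.mp hg).2.1⟩
    · intro g hg hgS
      have hgH := (Finset.mem_filter.mp hg).2
      by_contra hne
      apply hgS
      refine Finset.mem_filter.mpr ⟨Finset.mem_univ _, hgH, fun h0 => hne ?_⟩
      rw [h0]; simp
  have h5 : S.card + Z.card + Nat.card H = Nat.card G := by
    have e1 : S.card + Z.card = (Finset.univ.filter (fun g : G => g ∉ H)).card := by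
      have e2 : S = (Finset.univ.filter (fun g : G => g ∉ H)).filter (fun g => (χ : G → ℂ) g ≠ 0) := by
        ext g; simp [S]
      have e3 : Z = (Finset.univ.filter (fun g : G => g ∉ H)).filter (fun g => ¬ (χ : G → ℂ) g ≠ 0) := by
        ext g; simp [Z]
      rw [e2, e3, Finset.card_filter_add_card_filter_not]
    have e4 : Nat.card H = (Finset.univ.filter (fun g : G => g ∈ H)).card := by
      rw [Nat.card_eq_fintype_card, Fintype.card_subtype]
    rw [e1, e4, add_comm, Finset.card_filter_add_card_filter_not, Finset.card_univ, Nat.card_eq_fintype_card]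
  have h6 : (Set.ncard ({x : G | (χ : G → ℂ) x = 0} \ (H : Set G)) : ℝ) = Z.card := by
    rw [← Set.ncard_coe_finset]
    congr 2
    ext x
    simp [Z, and_comm]
  rw [h6, inv_mul_eq_div, h3]
  have h7 : (1 : ℝ) + Z.card / Nat.card H = (Nat.card H + Z.card) / Nat.card H := by field_simp
  rw [h7]
  apply div_le_div_of_nonneg_right _ hH.le
  have h8 : (S.card : ℝ) + Z.card + Nat.card H = Nat.card G := by exact_mod_cast h5
  linarith

end Cfsg.Agent.S4989
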