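import Cfsg.Statements.S4993
import Cfsg.Agent.BlkInd.AvgFix4
import Cfsg.Agent.Solv.Core
import Cfsg.Agent.H79.Basic

set_option autoImplicit false
open Cfsg

namespace Cfsg.Agent.S4993

open Cfsg.Agent.BlkInd.AvgFix

theorem sylow_comap {G : Type*} [Group G] [Finite G] (F : Subgroup G) [hF : F.Normal] (hmeta : Group.IsNilpotent (G ⧸ F))
    (p : ℕ) [Fact p.Prime] : ∃ N : Subgroup G, N.Normal ∧ (∀ n ∈ N, ∃ k : ℕ, n ^ (p ^ k) ∈ F) ∧ ¬ p ∣ N.index := by
  obtain ⟨P⟩ : Nonempty (Sylow p (G ⧸ F)) := inferInstance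
  have hPn : (P : Subgroup (G ⧸ F)).Normal := by
    have := (Group.isNilpotent_of_finite_tfae (G := G ⧸ F)).out 0 3
    exact this.mp hmeta p inferInstance P
  refine ⟨(P : Subgroup (G ⧸ F)).comap (QuotientGroup.mk' F), hPn.comap _, ?_, ?_⟩
  · intro n hn
    obtain ⟨k, hk⟩ := P.2 ⟨_, hn⟩
    refine ⟨k, ?_⟩
    have h1 := congrArg Subtype.val hk
    have h2 : (QuotientGroup.mk' F n) ^ (p ^ k) = 1 := h1
    rw [← map_pow] at h2
    exact (QuotientGroup.eq_one_iff _).mp h2
  · rw [Subgroup.index_comap_of_surjective _ (QuotientGroup.mk'_surjective F)]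
    exact P.not_dvd_index

/-- Let G be a group of odd order whose order has exactly two prime divisors and whose quotient by its Fitting subgroup is nilpotent (G is metanilpotent), and let χ be a primitive irreducible complex character of G (not induced from a character of any proper subgroup). Then χ(1) divides the size of some conjugacy class of G. -/
theorem result {G : Type*} [Group G] [Fintype G] (hodd : Odd (Nat.card G)) (h2 : (Nat.card G).primeFactors.card = 2) [hF : (Cfsg.fittingSubgroup G).Normal] (hmeta : Group.IsNilpotent (G ⧸ Cfsg.fittingSubgroup G)) (χ : Cfsg.IrrCharacter G) (hprim : ¬ ∃ (H : Subgroup G), H ≠ ⊤ ∧ ∃ θ : ↥H → ℂ, Cfsg.IsCharacter ↥H θ ∧ Cfsg.indFun H θ = (χ : G → ℂ)) : ∃ g : G, Cfsg.charDegree (χ : G → ℂ) ∣ (Subgroup.centralizer ({g} : Set G)).index := by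
  classical
  have hFn : Group.IsNilpotent (Cfsg.fittingSubgroup G) := Cfsg.Agent.Solv.fitting_isNilpotent
  have hsolv : Group.IsSolvable G := by
    have h1 : Group.IsSolvable (Cfsg.fittingSubgroup G) := inferInstance
    have h2 : Group.IsSolvable (G ⧸ Cfsg.fittingSubgroup G) := inferInstance
    exact Group.isSolvable_of_ker_le_range (Cfsg.fittingSubgroup G).subtype (QuotientGroup.mk' (Cfsg.fittingSubgroup G))
      (by rw [QuotientGroup.ker_mk', Subgroup.range_subtype])
  obtain ⟨p, q, hpq, hset⟩ := Finset.card_eq_two.mp h2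
  have hp : p.Prime := Nat.prime_of_mem_primeFactors (by rw [hset]; simp)
  have hq : q.Prime := Nat.prime_of_mem_primeFactors (by rw [hset]; simp)
  haveI : Fact p.Prime := ⟨hp⟩
  haveI : Fact q.Prime := ⟨hq⟩
  have hprime : ∀ r : ℕ, r.Prime → r ∣ Nat.card G → r = p ∨ r = q := by
    intro r hr hrG
    have h1 : r ∈ (Nat.card G).primeFactors := Nat.mem_primeFactors.mpr ⟨hr, hrG, Nat.card_pos.ne'⟩
    rw [hset] at h1
    simpa using h1
  have hhom := homog_of_primitive χ.2 hprim
  obtain ⟨w, g, hw, hg, hwi⟩ := exists_class_fun (p := p) hsolv χ.2 hhom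
  obtain ⟨w', g', hw', hg', hwi'⟩ := exists_class_fun (p := q) hsolv χ.2 hhom
  obtain ⟨N, hN, hNp, hNi⟩ := sylow_comap (Cfsg.fittingSubgroup G) hmeta p
  obtain ⟨N', hN', hNp', hNi'⟩ := sylow_comap (Cfsg.fittingSubgroup G) hmeta q
  have htop : N ⊔ N' = ⊤ := by
    rw [← Subgroup.index_eq_one]
    by_contra h1
    obtain ⟨r, hr, hrd⟩ := Nat.exists_prime_and_dvd h1
    rcases hprime r hr (hrd.trans (Subgroup.index_dvd_card _)) with h | h
    · exact hNi (by rw [← h]; exact hrd.trans (Subgroup.index_dvd_of_le le_sup_left))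
    · exact hNi' (by rw [← h]; exact hrd.trans (Subgroup.index_dvd_of_le le_sup_right))
  have hmem : g⁻¹ * g' ∈ N ⊔ N' := by rw [htop]; exact Subgroup.mem_top _
  obtain ⟨a, ha, b, hb, hab⟩ := Subgroup.mem_sup_of_normal_right.mp hmem
  refine ⟨g * a, ?_⟩
  have h1 : g * a = g' * b⁻¹ := by
    rw [eq_mul_inv_iff_mul_eq, mul_assoc, hab, mul_inv_cancel_left]
  have hd0 : Cfsg.charDegree (χ : G → ℂ) ≠ 0 := by
    have := Cfsg.Agent.H79.irr_degree_dvd_card χ
    intro h
    rw [h, zero_dvd_iff] at this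
    exact Nat.card_pos.ne' this
  rw [← Nat.factorization_prime_le_iff_dvd hd0 Subgroup.index_ne_zero_of_finite]
  intro r hr
  by_cases hrd : r ∣ Cfsg.charDegree (χ : G → ℂ)
  · rcases hprime r hr (hrd.trans (Cfsg.Agent.H79.irr_degree_dvd_card χ)) with h | h
    · subst h
      refine le_trans ?_ (hw (g * a))
      rw [hwi N hN hNp g a ha]
      exact hg
    · subst h
      rw [h1]
      refine le_trans ?_ (hw' (g' * b⁻¹))
      rw [hwi' N' hN' hNp' g' b⁻¹ (N'.inv_mem hb)]
      exact hg'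
  · rw [Nat.factorization_eq_zero_of_not_dvd hrd]
    exact Nat.zero_le _

end Cfsg.Agent.S4993
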