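import Cfsg.Statements.S4996
import Cfsg.Agent.H52.AMGM
import Cfsg.Agent.Char.AvgN

set_option autoImplicit false
open Cfsg Cfsg.Agent.CharBase Cfsg.Agent.Char
open scoped ComplexConjugate

namespace Cfsg.Agent.S4996

/-- Let N be a normal subgroup of the finite group G and χ an irreducible complex character of G. Then the restriction of χ to N is not irreducible if and only if χ vanishes on some whole coset Nx of N in G. -/
theorem result {G : Type*} [Group G] [Finite G] (N : Subgroup G) [N.Normal] (χ : Cfsg.IrrCharacter G) : ¬ Cfsg.IsIrrCharacter ↥N (fun n : ↥N => (χ : G → ℂ) n) ↔ ∃ x : G, ∀ n : ↥N, (χ : G → ℂ) ((n : G) * x) = 0 := by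
  classical
  have := Fintype.ofFinite G
  have := Fintype.ofFinite N
  have hN0 : (Nat.card N : ℂ) ≠ 0 := by exact_mod_cast Nat.card_pos.ne'
  have hG0 : (Nat.card G : ℂ) ≠ 0 := by exact_mod_cast Nat.card_pos.ne'
  constructor
  · intro hred
    by_contra hcon
    push Not at hcon
    apply hred
    have hprod : IsCharacter G ((χ : G → ℂ) * fun g => conj ((χ : G → ℂ) g)) :=
      isCharacter_mul (irr_isCharacter χ) (isCharacter_of_isIrr (isIrrCharacter_conj χ.2))
    set f := avgN N ((χ : G → ℂ) * fun g => conj ((χ : G → ℂ) g)) with hf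
    have hfc : IsCharacter G f := avgN_isCharacter N hprod
    have hfval : ∀ g, f g = (((Nat.card N : ℝ)⁻¹ * ∑ n : N, Complex.normSq ((χ : G → ℂ) ((n : G) * g)) : ℝ) : ℂ) := by
      intro g
      rw [hf, avgN_apply, Complex.ofReal_mul, Complex.ofReal_sum, Complex.ofReal_inv, Complex.ofReal_natCast]
      congr 1
      refine Finset.sum_congr rfl fun n _ => ?_
      rw [← Complex.mul_conj]; rfl
    have hfpos : ∀ g, (f g).im = 0 ∧ 0 < (f g).re := by
      intro g
      rw [hfval, Complex.ofReal_im, Complex.ofReal_re]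
      refine ⟨rfl, ?_⟩
      obtain ⟨n, hn⟩ := hcon g
      have hNpos : (0 : ℝ) < Nat.card N := by exact_mod_cast Nat.card_pos
      apply mul_pos (inv_pos.mpr hNpos)
      exact lt_of_lt_of_le (Complex.normSq_pos.mpr hn)
        (Finset.single_le_sum (f := fun n : N => Complex.normSq ((χ : G → ℂ) ((n : G) * g))) (fun _ _ => Complex.normSq_nonneg _) (Finset.mem_univ n))
    have h2 := Cfsg.Agent.H52.card_le_sum_of_pos hfc (Finset.univ.erase 1)
      (fun k hk g hg => by
        rw [Finset.mem_erase] at hg ⊢
        refine ⟨fun h => hg.1 ?_, Finset.mem_univ _⟩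
        have hinj : Function.Injective (fun g : G => g ^ k) := (powCoprime hk.symm).injective
        exact hinj (by simpa using h)) (fun g _ => hfpos g)
    have h3 : ∑ g : G, (f g).re = (Nat.card G : ℝ) := by
      have h4 : ∑ g : G, f g = (Nat.card G : ℂ) := by
        rw [hf]
        simp only [avgN_apply]
        rw [← Finset.mul_sum, Finset.sum_comm]
        have h5 : ∀ n : N, ∑ g : G, ((χ : G → ℂ) * fun g => conj ((χ : G → ℂ) g)) ((n : G) * g) = (Nat.card G : ℂ) := by
          intro n
          have h6 : ∑ g : G, ((χ : G → ℂ) * fun g => conj ((χ : G → ℂ) g)) ((n : G) * g) = ∑ g : G, (χ : G → ℂ) g * conj ((χ : G → ℂ) g) :=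
            Equiv.sum_comp (Equiv.mulLeft (n : G)) (fun g => (χ : G → ℂ) g * conj ((χ : G → ℂ) g))
          rw [h6]
          have h7 := classInner_irr_self χ
          unfold classInner at h7
          rw [inv_mul_eq_one₀ hG0] at h7
          exact h7.symm
        rw [Finset.sum_congr rfl fun n _ => h5 n, Finset.sum_const, Finset.card_univ, nsmul_eq_mul,
          ← mul_assoc, ← Nat.card_eq_fintype_card, inv_mul_cancel₀ hN0, one_mul]
      have h5 := congrArg Complex.re h4
      rw [Complex.re_sum] at h5
      simpa using h5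
    rw [← Finset.add_sum_erase _ _ (Finset.mem_univ (1 : G))] at h3
    rw [Finset.card_erase_of_mem (Finset.mem_univ _), Finset.card_univ, ← Nat.card_eq_fintype_card] at h2
    have h8 : ((Nat.card G - 1 : ℕ) : ℝ) = (Nat.card G : ℝ) - 1 := by
      have : 1 ≤ Nat.card G := Nat.card_pos
      push_cast [this]; ring
    rw [h8] at h2
    have h9 : (f 1).re ≤ 1 := by linarith
    have hres : IsCharacter N (fun n : N => (χ : G → ℂ) n) := isCharacter_restrict (irr_isCharacter χ) N
    have h10 : f 1 = classInner (fun n : N => (χ : G → ℂ) n) (fun n : N => (χ : G → ℂ) n) := by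
      rw [hf, avgN_apply]
      unfold classInner
      simp
    obtain ⟨m, hm⟩ := classInner_natCast hres hres
    rw [isIrrCharacter_iff hres, hm]
    have h11 := (hfpos 1).2
    rw [h10, hm, Complex.natCast_re] at h11 h9
    have h12 : m = 1 := by
      have : 0 < m := by exact_mod_cast h11
      have : m ≤ 1 := by exact_mod_cast h9
      omega
    rw [h12, Nat.cast_one]
  · rintro ⟨x, hx⟩ hirr
    have h1 := congrFun (avgN_mul_conj_of_restrict_irr N χ.2 hirr) x
    rw [avgN_apply] at h1
    have h2 : ∑ n : N, ((χ : G → ℂ) * fun g => conj ((χ : G → ℂ) g)) ((n : G) * x) = 0 := by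
      apply Finset.sum_eq_zero
      intro n _
      rw [Pi.mul_apply, hx n, zero_mul]
    rw [h2, mul_zero] at h1
    exact zero_ne_one h1

end Cfsg.Agent.S4996
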