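import Cfsg.Statements.S5011

set_option autoImplicit false
open Cfsg

namespace Cfsg.Agent.S5011

/-- Let G be a finite non-abelian simple group and ρ an irreducible complex representation of G on a space of dimension greater than one (irreducible in the sense that the only subspaces invariant under every ρ(x) are 0 and the whole space). Then for every non-identity element g of G, the centralizer of g does not act irreducibly: there is a non-zero proper subspace invariant under ρ(c) for every c commuting with g. -/
theorem result {G : Type*} [Group G] [Finite G] [IsSimpleGroup G]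
    (hG : ¬ IsMulCommutative G) {V : Type*} [AddCommGroup V] [Module ℂ V] [FiniteDimensional ℂ V]
    (ρ : Representation ℂ G V)
    (hirr : ∀ W : Submodule ℂ V, (∀ x : G, ∀ v ∈ W, ρ x v ∈ W) → W = ⊥ ∨ W = ⊤)
    (hdim : 1 < Module.finrank ℂ V) (g : G) (hg : g ≠ 1) :
    ∃ W : Submodule ℂ V, W ≠ ⊥ ∧ W ≠ ⊤ ∧ ∀ c ∈ Subgroup.centralizer ({g} : Set G), ∀ v ∈ W, ρ c v ∈ W := by
  classical
  haveI : Nontrivial V := Module.nontrivial_of_finrank_pos (by omega : 0 < Module.finrank ℂ V)
  obtain ⟨μ, hμ⟩ := Module.End.exists_eigenvalue (ρ g : Module.End ℂ V)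
  refine ⟨Module.End.eigenspace (ρ g) μ, ?_, ?_, ?_⟩
  · exact hμ
  · intro htop
    -- the normal subgroup of scalars
    let N : Subgroup G :=
      { carrier := {x | ∃ c : ℂ, ∀ v : V, ρ x v = c • v}
        one_mem' := ⟨1, fun v => by simp⟩
        mul_mem' := by
          rintro a b ⟨c, hc⟩ ⟨d, hd⟩
          exact ⟨c * d, fun v => by rw [map_mul, Module.End.mul_apply, hd, map_smul, hc, smul_smul, mul_comm]⟩
        inv_mem' := by
          rintro a ⟨c, hc⟩
          have hc0 : c ≠ 0 := by
            rintro rfl
            obtain ⟨v, hv⟩ := exists_ne (0 : V)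
            have h1 : ρ a⁻¹ (ρ a v) = v := by
              rw [← Module.End.mul_apply, ← map_mul, inv_mul_cancel, map_one, Module.End.one_apply]
            rw [hc v, zero_smul, map_zero] at h1
            exact hv h1.symm
          refine ⟨c⁻¹, fun v => ?_⟩
          have h1 : ρ a⁻¹ (ρ a v) = v := by
            rw [← Module.End.mul_apply, ← map_mul, inv_mul_cancel, map_one, Module.End.one_apply]
          rw [hc v, map_smul] at h1
          calc ρ a⁻¹ v = c⁻¹ • (c • ρ a⁻¹ v) := by rw [smul_smul, inv_mul_cancel₀ hc0, one_smul]
            _ = c⁻¹ • v := by rw [h1] }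
    haveI hN : N.Normal := by
      refine ⟨?_⟩
      rintro a ⟨c, hc⟩ b
      refine ⟨c, fun v => ?_⟩
      rw [map_mul, map_mul, Module.End.mul_apply, Module.End.mul_apply, hc, map_smul]
      rw [← Module.End.mul_apply, ← map_mul, mul_inv_cancel, map_one, Module.End.one_apply]
    have hgN : g ∈ N := by
      refine ⟨μ, fun v => ?_⟩
      have : v ∈ Module.End.eigenspace (ρ g) μ := by rw [htop]; trivial
      exact Module.End.mem_eigenspace_iff.mp this
    have hNtop : N = ⊤ := by
      rcases hN.eq_bot_or_eq_top with h | h
      · exfalso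
        rw [h, Subgroup.mem_bot] at hgN
        exact hg hgN
      · exact h
    obtain ⟨v, hv⟩ := exists_ne (0 : V)
    have hinv : ∀ x : G, ∀ w ∈ Submodule.span ℂ {v}, ρ x w ∈ Submodule.span ℂ {v} := by
      intro x w hw
      have hx : x ∈ N := by rw [hNtop]; trivial
      obtain ⟨c, hc⟩ := hx
      rw [hc w]
      exact Submodule.smul_mem _ _ hw
    rcases hirr _ hinv with h | h
    · rw [Submodule.span_singleton_eq_bot] at h
      exact hv h
    · have h1 : Module.finrank ℂ (Submodule.span ℂ {v}) = 1 := finrank_span_singleton hv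
      rw [h, finrank_top] at h1
      omega
  · intro c hc v hv
    rw [Module.End.mem_eigenspace_iff] at hv ⊢
    have hcomm : g * c = c * g := by
      rw [Subgroup.mem_centralizer_iff] at hc
      exact (hc g (Set.mem_singleton g))
    rw [← Module.End.mul_apply, ← map_mul, hcomm, map_mul, Module.End.mul_apply, hv, map_smul]

end Cfsg.Agent.S5011
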