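import Cfsg.Statements.S5075
import Cfsg.Agent.H93.McL.Comp

set_option autoImplicit false
open Cfsg

namespace Cfsg.Agent.S5075

open Module Cfsg.Agent.H93.McL in
theorem isTv {p : ℕ} [Fact p.Prime] {V : Type*} [AddCommGroup V] [Module (ZMod p) V] [FiniteDimensional (ZMod p) V]
    (t : V ≃ₗ[ZMod p] V) (h1 : orderOf t = p)
    (h2 : Module.finrank (ZMod p) ↥(LinearMap.ker ((t : V →ₗ[ZMod p] V) - LinearMap.id)) + 1 =
        Module.finrank (ZMod p) V) :
    ∃ (v : V) (f : Dual (ZMod p) V) (h : f v = 0), t = LinearEquiv.transvection h := by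
  have h3 : t ∈ LinearEquiv.dilatransvections (ZMod p) V := by
    rw [LinearEquiv.mem_dilatransvections_iff_finrank]
    have := LinearMap.finrank_range_add_finrank_ker ((t : V →ₗ[ZMod p] V) - LinearMap.id)
    omega
  obtain ⟨f, v, h4⟩ := h3
  have h5 : ((LinearEquiv.det t : (ZMod p)ˣ) : ZMod p) ^ p = 1 := by
    have h6 : (LinearEquiv.det t) ^ p = 1 := by
      rw [← map_pow]
      have : t ^ p = 1 := by
        have h7 := pow_orderOf_eq_one t
        rwa [h1] at h7
      rw [this, map_one]
    have := congrArg Units.val h6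
    simpa using this
  rw [ZMod.pow_card, LinearEquiv.coe_det, h4, LinearMap.transvection.det] at h5
  have h6 : f v = 0 := add_eq_left.1 h5
  refine ⟨v, f, h6, ?_⟩
  ext x
  have := LinearMap.congr_fun h4 x
  rw [tv_apply]
  exact this

open Module Cfsg.Agent.H93.McL in
theorem pfree_of {p : ℕ} [Fact p.Prime] {V : Type*} [AddCommGroup V] [Module (ZMod p) V]
    (H : Subgroup (V ≃ₗ[ZMod p] V)) (hOp : Cfsg.pCore p ↥H = ⊥) : PFree H := by
  intro D hD hn hpD
  have h1 : (D.subgroupOf H).Normal := by
    constructor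
    rintro ⟨d, hd⟩ hdD ⟨k, hk⟩
    exact hn k hk d hdD
  have h2 : IsPGroup p (D.subgroupOf H) := by
    rintro ⟨⟨d, hd⟩, hdD⟩
    refine ⟨1, ?_⟩
    rw [pow_one]
    apply Subtype.ext
    apply Subtype.ext
    exact hpD d hdD
  have h3 : D.subgroupOf H ≤ Cfsg.pCore p ↥H := le_sSup ⟨h1, h2⟩
  rw [hOp, le_bot_iff, Subgroup.subgroupOf_eq_bot] at h3
  have h4 := h3.eq_bot
  rwa [inf_eq_left.2 hD] at h4

/-- Let p be an odd prime, V a finite-dimensional vector space over the field with p elements, and H a group of linear automorphisms of V generated by transvections (elements of order p fixing a hyperplane pointwise) and having no nontrivial normal p-subgroup. Then for some n ≥ 1 there are a decomposition V = V₀ ⊕ V₁ ⊕ ⋯ ⊕ Vₙ into H-invariant subspaces and a decomposition of H as the internal direct product of normal subgroups H₁, …, Hₙ such that Hⱼ acts trivially on every Vᵢ with i ≠ j, and Hⱼ induces on Vⱼ exactly the special linear group of Vⱼ or exactly the isometry group of a non-degenerate alternating form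 on Vⱼ. -/
theorem result {p : ℕ} [Fact p.Prime] (hp : Odd p) {V : Type*} [AddCommGroup V] [Module (ZMod p) V] [Finite V]
    (H : Subgroup (V ≃ₗ[ZMod p] V)) (T : Set (V ≃ₗ[ZMod p] V)) (hHT : H = Subgroup.closure T)
    (hT : ∀ t ∈ T, orderOf t = p ∧
      Module.finrank (ZMod p) ↥(LinearMap.ker ((t : V →ₗ[ZMod p] V) - LinearMap.id)) + 1 =
        Module.finrank (ZMod p) V)
    (hOp : Cfsg.pCore p ↥H = ⊥) :
    ∃ (n : ℕ) (W : Fin (n + 1) → Submodule (ZMod p) V) (K : Fin n → Subgroup (V ≃ₗ[ZMod p] V)),
      1 ≤ n ∧ DirectSum.IsInternal W ∧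
      (∀ h ∈ H, ∀ i, (W i).map (h : V →ₗ[ZMod p] V) = W i) ∧
      (∀ j, K j ≤ H ∧ ((K j).subgroupOf H).Normal) ∧ ⨆ j, K j = H ∧
      (∀ j, K j ⊓ (⨆ j' ∈ {j' : Fin n | j' ≠ j}, K j') = ⊥) ∧
      (∀ j j', j ≠ j' → ∀ a ∈ K j, ∀ b ∈ K j', a * b = b * a) ∧
      (∀ j, ∀ h ∈ K j, ∀ i : Fin (n + 1), i ≠ j.succ → ∀ v ∈ W i, h v = v) ∧
      (∀ j, ∃ ρ : ↥(K j) →* (↥(W j.succ) ≃ₗ[ZMod p] ↥(W j.succ)),
        (∀ (h : ↥(K j)) (v : ↥(W j.succ)), ((ρ h v : ↥(W j.succ)) : V) = (h : V ≃ₗ[ZMod p] V) (v : V)) ∧
        ((ρ.range : Set (↥(W j.succ) ≃ₗ[ZMod p] ↥(W j.succ))) =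
            {f : ↥(W j.succ) ≃ₗ[ZMod p] ↥(W j.succ) | LinearMap.det (f : ↥(W j.succ) →ₗ[ZMod p] ↥(W j.succ)) = 1} ∨
          ∃ B : LinearMap.BilinForm (ZMod p) ↥(W j.succ), B.IsAlt ∧ B.Nondegenerate ∧
            (ρ.range : Set (↥(W j.succ) ≃ₗ[ZMod p] ↥(W j.succ))) = {f : ↥(W j.succ) ≃ₗ[ZMod p] ↥(W j.succ) | ∀ x y, B (f x) (f y) = B x y})) := by

  classical
  open Module Cfsg.Agent.H93.McL in
  have hfd : FiniteDimensional (ZMod p) V := Module.Finite.of_finite
  have hpf : PFree H := pfree_of H hOp
  have hg : Gen H := by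
    intro K' hK'
    rw [hHT]
    apply (Subgroup.closure_le _).2
    intro t ht
    obtain ⟨v, f, h, rfl⟩ := isTv t (hT t ht).1 (hT t ht).2
    exact (hK' v f ⟨h, by rw [hHT]; exact Subgroup.subset_closure ht⟩).2
  have hfin1 : Finite (Dual (ZMod p) V) := Module.finite_of_finite (ZMod p)
  have hfin2 : Finite (QQ H) := inferInstance
  have hfin3 : Finite (Cmp H) := Quotient.finite _
  rcases isEmpty_or_nonempty (Cmp H) with hemp | hne
  · have hH : H = ⊥ := by
      rw [eq_bot_iff]
      refine (le_iSup_KK hg).trans ?_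
      rw [iSup_of_empty]
    refine ⟨1, ![⊤, ⊥], ![⊥], le_refl 1, ?_, ?_, ?_, ?_, ?_, ?_, ?_, ?_⟩
    · apply DirectSum.isInternal_submodule_of_iSupIndep_of_iSup_eq_top
      · intro i
        fin_cases i
        · refine Disjoint.mono_right (c := (⊥ : Submodule (ZMod p) V)) ?_ disjoint_bot_right
          apply iSup₂_le
          intro j hj
          fin_cases j
          · exact absurd rfl hj
          · exact le_refl _
        · exact disjoint_bot_left
      · rw [eq_top_iff]
        exact le_iSup (![⊤, ⊥] : Fin 2 → Submodule (ZMod p) V) 0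
    · intro h hh i
      rw [hH, Subgroup.mem_bot] at hh
      rw [hh]
      exact Submodule.map_id _
    · intro j
      fin_cases j
      refine ⟨bot_le, ?_⟩
      have : (![(⊥ : Subgroup (V ≃ₗ[ZMod p] V))] ⟨0, by norm_num⟩).subgroupOf H = ⊥ := by
        rw [Subgroup.subgroupOf_eq_bot]
        exact disjoint_bot_left
      rw [this]
      infer_instance
    · rw [hH, iSup_unique]
      rfl
    · intro j
      fin_cases j
      exact bot_inf_eq _
    · intro j j' hjj
      exact absurd (Subsingleton.elim j j') hjj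
    · intro j h hh
      fin_cases j
      have : h = 1 := hh
      intro i _ v _
      rw [this]; rfl
    · intro j
      fin_cases j
      refine ⟨1, ?_, Or.inl ?_⟩
      · rintro ⟨h, hh⟩ v
        have : h = 1 := hh
        subst this
        rfl
      · apply Set.Subset.antisymm
        · rintro _ ⟨k, rfl⟩
          show LinearMap.det _ = 1
          have h8 : ((1 : ↥(![(⊥ : Subgroup (V ≃ₗ[ZMod p] V))] 0) →* (↥((![⊤, ⊥] : Fin 2 → Submodule (ZMod p) V) 1) ≃ₗ[ZMod p] ↥((![⊤, ⊥] : Fin 2 → Submodule (ZMod p) V) 1))) k) = 1 := rfl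
          rw [← LinearEquiv.coe_det]
          erw [h8]
          rw [map_one, Units.val_one]
        · intro f _
          refine ⟨1, ?_⟩
          ext ⟨x, hx⟩
          have hx0 : x = 0 := hx
          subst hx0
          show (0 : V) = f 0
          rw [map_zero]
          rfl
  · obtain ⟨hd1, hd2, hd3⟩ := decomp hp hg hpf
    have hn : 0 < Nat.card (Cmp H) := Nat.card_pos
    let e : Fin (Nat.card (Cmp H)) ≃ Cmp H := (Finite.equivFin (Cmp H)).symm
    let W : Fin (Nat.card (Cmp H) + 1) → Submodule (ZMod p) V := Fin.cons (V0 H) (fun j => WW (KK (e j)))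
    have hW0 : W 0 = V0 H := rfl
    have hWs : ∀ j : Fin (Nat.card (Cmp H)), W j.succ = WW (KK (e j)) := fun j => rfl
    refine ⟨Nat.card (Cmp H), W, fun j => KK (e j), hn, ?_, ?_, ?_, ?_, ?_, ?_, ?_, ?_⟩
    · apply DirectSum.isInternal_submodule_of_iSupIndep_of_iSup_eq_top
      · intro i
        refine Fin.cases ?_ (fun i => ?_) i
        · rw [hW0]
          apply hd2.mono_right
          apply iSup₂_le
          intro j
          refine Fin.cases ?_ (fun j => ?_) j
          · intro h; exact absurd rfl h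
          · intro _
            rw [hWs]
            exact le_iSup (fun c : Cmp H => WW (KK c)) (e j)
        · rw [hWs]
          apply (hd1 (e i)).mono_right
          apply iSup₂_le
          intro j
          refine Fin.cases ?_ (fun j => ?_) j
          · intro _
            exact le_sup_left
          · intro h
            rw [hWs]
            refine le_trans ?_ le_sup_right
            refine le_iSup₂_of_le (e j) ?_ (le_refl _)
            intro h'
            exact h (by rw [e.injective h'])
      · rw [eq_top_iff, ← hd3]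
        apply sup_le
        · exact le_iSup W 0
        · apply iSup_le
          intro c
          have := le_iSup W (e.symm c).succ
          rwa [hWs, Equiv.apply_symm_apply] at this
    · intro h hh i
      refine Fin.cases ?_ (fun i => ?_) i
      · rw [hW0]; exact map_eq_of_inv hg inv_V0 hh
      · rw [hWs]; exact map_eq_of_inv hg (inv_WWi hp hg hpf (e i)) hh
    · intro j
      refine ⟨KK_le _, ⟨?_⟩⟩
      rintro ⟨k, hk⟩ hkD ⟨h, hh⟩
      exact KK_normal hg (e j) h hh k hkD
    · apply le_antisymm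
      · exact iSup_le (fun j => KK_le _)
      · refine (le_iSup_KK hg).trans (iSup_le (fun c => ?_))
        have := le_iSup (fun j => KK (e j)) (e.symm c)
        simp only [Equiv.apply_symm_apply] at this
        exact this
    · intro j
      rw [eq_bot_iff, ← KK_disj hp hg hpf (e j)]
      apply inf_le_inf_left
      apply iSup₂_le
      intro j' hj'
      refine le_iSup₂_of_le (e j') ?_ (le_refl _)
      intro h'
      exact hj' (e.injective h')
    · intro j j' hjj a ha b hb
      exact KK_comm (fun h => hjj (e.injective h)) a ha b hb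
    · intro j h hh i
      refine Fin.cases ?_ (fun i => ?_) i
      · intro _ v hv
        rw [hW0] at hv
        exact (KK_conn hp hg hpf (e j)).gen.fix_C hh ((Submodule.mem_iInf _).1 hv _)
      · intro hne v hv
        rw [hWs] at hv
        refine (KK_conn hp hg hpf (e j)).gen.fix_C hh (WW_le_CC hp hg hpf ?_ hv)
        intro h'
        exact hne (by rw [e.injective h'])
    · intro j
      exact (KK_conn hp hg hpf (e j)).rho hp

end Cfsg.Agent.S5075
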