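import Cfsg.Statements.S5088
import Cfsg.Agent.Fus.NormalChar

set_option autoImplicit false
open Cfsg

namespace Cfsg.Agent.S5088

/-- In a saturated fusion system over a finite p-group, a subgroup Q is normal in the system if and only if there is a chain of subgroups 1 = Q₀ ≤ Q₁ ≤ ⋯ ≤ Qₙ = Q such that each Qᵢ with i ≥ 1 is strongly closed in the system and [Q, Qᵢ] ≤ Qᵢ₋₁. -/
theorem result {Ω : Type*} [Group Ω] {S : Subgroup Ω} [Finite S] (p : ℕ) [Fact p.Prime] (hS : IsPGroup p S) (F : Cfsg.FusionSystem S) (hF : F.IsSaturated p) (Q : Subgroup Ω) : F.IsNormal Q ↔ ∃ (n : ℕ) (Qs : Fin (n + 1) → Subgroup Ω), Qs 0 = ⊥ ∧ Qs (Fin.last n) = Q ∧ Monotone Qs ∧ ∀ i : Fin n, F.StronglyClosed (Qs i.succ) ∧ ⁅Q, Qs i.succ⁆ ≤ Qs (Fin.castSucc i) := by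
  constructor
  · intro h
    have hfQ : Finite Q := Cfsg.Agent.Fus.finite_of_le h.1
    have hnil : Group.IsNilpotent Q := (hS.to_le h.1).isNilpotent
    obtain ⟨n, hn⟩ := (Subgroup.nilpotent_iff_lowerCentralSeries (G := Q)).mp hnil
    have hL : ∀ i, ((⊤ : Subgroup Q).lowerCentralSeries i).map Q.subtype = Q.lowerCentralSeries i :=
      fun i => Subgroup.top_subtype_lowerCentralSeries Q i
    have hle : ∀ i, Q.lowerCentralSeries i ≤ Q := fun i => by
      rw [← hL]; exact Subgroup.map_subtype_le _
    refine ⟨n, fun i => Q.lowerCentralSeries (n - i), ?_, ?_, ?_, fun i => ⟨?_, ?_⟩⟩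
    · simp only [Fin.val_zero, Nat.sub_zero]
      rw [← hL, hn, Subgroup.map_bot]
    · simp
    · intro i j hij
      apply Subgroup.lowerCentralSeries_antitone
      have : (i : ℕ) ≤ j := hij
      omega
    · apply Cfsg.Agent.Fus.IsNormal.stronglyClosed
      apply Cfsg.Agent.Fus.IsNormal.char h (hle _)
      have : (Q.lowerCentralSeries (n - (i.succ : ℕ))).subgroupOf Q =
          (⊤ : Subgroup Q).lowerCentralSeries (n - (i.succ : ℕ)) := by
        rw [← hL, Subgroup.subgroupOf, Subgroup.comap_map_eq_self_of_injective Q.subtype_injective]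
      rw [this]
      infer_instance
    · have h1 : n - ((Fin.castSucc i : Fin (n + 1)) : ℕ) = (n - (i.succ : ℕ)) + 1 := by
        simp only [Fin.val_castSucc, Fin.val_succ]
        have := i.2
        omega
      show _ ≤ Q.lowerCentralSeries (n - ((Fin.castSucc i : Fin (n + 1)) : ℕ))
      rw [h1, Subgroup.lowerCentralSeries_succ, Subgroup.commutator_comm]
  · rintro ⟨n, Qs, h0, hn, hmono, h⟩
    rcases Nat.eq_zero_or_pos n with rfl | hn0
    · have : Q = ⊥ := by rw [← hn, ← h0]; rfl
      rw [this]; exact Cfsg.Agent.Fus.isNormal_bot'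
    · have hQc : F.StronglyClosed Q := by
        have h1 := (h ⟨n - 1, by omega⟩).1
        have h2 : (⟨n - 1, by omega⟩ : Fin n).succ = Fin.last n := by
          ext; simp; omega
        rw [h2, hn] at h1
        exact h1
      refine Cfsg.Agent.Fus.isNormal_of_series hS hF n (fun i => Qs ⟨min i n, by omega⟩) ?_ ?_ ?_ ?_ hQc
      · simp only [Nat.zero_min]; exact h0
      · simp only [min_self]; exact hn
      · intro i j hij
        apply hmono
        show min i n ≤ min j n
        omega
      · intro i hi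
        have e1 : (⟨min (i + 1) n, by omega⟩ : Fin (n + 1)) = (⟨i, hi⟩ : Fin n).succ := by
          ext; simp; omega
        have e2 : (⟨min i n, by omega⟩ : Fin (n + 1)) = Fin.castSucc (⟨i, hi⟩ : Fin n) := by
          ext; simp; omega
        have := h ⟨i, hi⟩
        rw [← e1, ← e2] at this
        exact this

end Cfsg.Agent.S5088
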