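import Cfsg.Statements.S5125
import Cfsg.Agent.Fus.Stab

set_option autoImplicit false
open Cfsg

namespace Cfsg.Agent.S5125

open Cfsg.FusionSystem Cfsg.Agent.Fus Cfsg.Agent.H85

/-- `K(P)` -/
def fam {Ω : Type*} [Group Ω] {S : Subgroup Ω} (F : FusionSystem S) (Q Q₁ P : Subgroup Ω) : Subgroup (MulAut P) where
  carrier := {κ | κ ∈ F.autGroup P ∧ (∀ x ∈ P, ofAut κ x * x⁻¹ ∈ Q) ∧
    (∀ x ∈ P, x ∈ Q → ofAut κ x * x⁻¹ ∈ Q₁)}
  one_mem' := by
    refine ⟨Subgroup.one_mem _, fun x hx => ?_, fun x hx _ => ?_⟩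
    · rw [ofAut_one hx, mul_inv_cancel]; exact Q.one_mem
    · rw [ofAut_one hx, mul_inv_cancel]; exact Q₁.one_mem
  mul_mem' := by
    rintro κ μ ⟨h1, h2, h3⟩ ⟨h1', h2', h3'⟩
    refine ⟨Subgroup.mul_mem _ h1 h1', fun x hx => ?_, fun x hx hxQ => ?_⟩
    · rw [ofAut_mul _ _ hx]
      have := Q.mul_mem (h2 _ (ofAut_mem μ hx)) (h2' x hx)
      convert this using 1
      group
    · have hm := ofAut_mem μ hx
      have hmQ : ofAut μ x ∈ Q := by
        have := Q.mul_mem (h2' x hx) hxQ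
        simpa using this
      rw [ofAut_mul _ _ hx]
      have := Q₁.mul_mem (h3 _ hm hmQ) (h3' x hx hxQ)
      convert this using 1
      group
  inv_mem' := by
    rintro κ ⟨h1, h2, h3⟩
    have key : ∀ x ∈ P, ofAut κ⁻¹ x * x⁻¹ ∈ Q := by
      intro x hx
      have := Q.inv_mem (h2 _ (ofAut_mem κ⁻¹ hx))
      rw [ofAut_apply_inv κ hx] at this
      simpa using this
    refine ⟨Subgroup.inv_mem _ h1, key, fun x hx hxQ => ?_⟩
    have hm := ofAut_mem κ⁻¹ hx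
    have hmQ : ofAut κ⁻¹ x ∈ Q := by
      have := Q.mul_mem (key x hx) hxQ
      simpa using this
    have := Q₁.inv_mem (h3 _ hm hmQ)
    rw [ofAut_apply_inv κ hx] at this
    simpa using this

theorem restr_pow {Ω : Type*} [Group Ω] {P Q : Subgroup Ω} (hQP : Q ≤ P) (κ : MulAut P) (μ : MulAut Q)
    (h : ∀ x ∈ Q, ofAut μ x = ofAut κ x) (n : ℕ) : ∀ x ∈ Q, ofAut (μ ^ n) x = ofAut (κ ^ n) x := by
  intro x hx
  induction n with
  | zero => rw [pow_zero, pow_zero, ofAut_one hx, ofAut_one (hQP hx)]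
  | succ n ih => rw [ofAut_pow_succ μ n hx, ofAut_pow_succ κ n (hQP hx), ← ih, h _ (ofAut_mem _ hx)]

/-- Let F be a saturated fusion system over a finite p-group S and Q a subgroup strongly closed in F. If Q has a subgroup Q₁ that is normal in F, with Q/Q₁ abelian and Aut_F(Q₁) a p-group, then Q is normal in F. -/
theorem result {Ω : Type*} [Group Ω] {S : Subgroup Ω} [Finite S] (p : ℕ) [Fact p.Prime] (hS : IsPGroup p S) (F : Cfsg.FusionSystem S) (hF : F.IsSaturated p) (Q Q₁ : Subgroup Ω) (hQ : F.StronglyClosed Q) (hQ₁Q : Q₁ ≤ Q) (hQ₁ : F.IsNormal Q₁) (hab : ⁅Q, Q⁆ ≤ Q₁) (hAut : IsPGroup p ↥(F.autGroup Q₁)) : F.IsNormal Q := by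
  have himg : ∀ (P : Subgroup Ω) (f : Ω → Ω), IsMap F P f → Q₁ ≤ P → img Q₁ f = Q₁ :=
    fun P f hf hP => sc_img_eq (sc_of_isNormal hQ₁) hf hP
  refine isNormal_of_family_over hS hF hQ hQ₁ hQ₁Q (fam F Q Q₁) (fun P _ _ κ hκ => hκ.1) ?_ ?_ ?_ himg
  · rintro P P' f hf himg' hP κ ⟨hκ1, hκ2, hκ3⟩
    refine ⟨hf.trans_mem himg' hκ1, fun y hy => ?_, fun y hy hyQ => ?_⟩
    · rw [← himg'] at hy
      obtain ⟨x, hx, rfl⟩ := hf.mem_img.1 hy
      rw [hf.ofAut_trans himg' κ hx, ← hf.map_inv hx, ← hf.map_mul (ofAut_mem κ hx) (P.inv_mem hx)]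
      exact sc_map_mem hQ hf (P.mul_mem (ofAut_mem κ hx) (P.inv_mem hx)) (hκ2 x hx)
    · rw [← himg'] at hy
      obtain ⟨x, hx, rfl⟩ := hf.mem_img.1 hy
      have hxQ : x ∈ Q := (sc_map_mem_iff hQ hf hx).1 hyQ
      rw [hf.ofAut_trans himg' κ hx, ← hf.map_inv hx, ← hf.map_mul (ofAut_mem κ hx) (P.inv_mem hx)]
      exact sc_map_mem (sc_of_isNormal hQ₁) hf (P.mul_mem (ofAut_mem κ hx) (P.inv_mem hx)) (hκ3 x hx hxQ)
  · intro P _ hP r hr hrn
    refine ⟨conjAut_mem_autGroup hP (hQ.1 hr) hrn, fun x hx => ?_, fun x hx hxQ => ?_⟩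
    · rw [ofAut_conjAut _ _ hx]
      have := Q.mul_mem hr (sc_conj_mem hQ (hP hx) (Q.inv_mem hr))
      convert this using 1
      group
    · rw [ofAut_conjAut _ _ hx]
      exact hab (Subgroup.commutator_mem_commutator hr hxQ)
  · intro P hQ₁P hP
    have := finite_of_le hQ₁.1
    have := finite_mulAut (P := Q₁)
    obtain ⟨m, hm⟩ := IsPGroup.iff_card.1 hAut
    obtain ⟨n, hn⟩ := IsPGroup.iff_card.1 hS
    refine isPGroup_of_exists_pow fun κ hκ => ⟨m + n + n, ?_⟩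
    obtain ⟨h1, h2, h3⟩ := hκ
    have hκm : IsMap F Q₁ (ofAut κ) := (isMap_ofAut hP h1).mono hQ₁P
    have hκi : img Q₁ (ofAut κ) = Q₁ := himg P _ (isMap_ofAut hP h1) hQ₁P
    have h4 : ∀ x ∈ Q₁, ofAut (κ ^ p ^ m) x = x := by
      intro x hx
      rw [← restr_pow hQ₁P κ (hκm.aut hκi) (fun x hx => hκm.ofAut_aut hκi hx) _ x hx, ← hm]
      have : (⟨hκm.aut hκi, hκm.aut_mem hκi⟩ : F.autGroup Q₁) ^ Nat.card (F.autGroup Q₁) = 1 := pow_card_eq_one'
      have h5 := congrArg Subtype.val this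
      rw [Subgroup.coe_pow] at h5
      have h6 : (hκm.aut hκi) ^ Nat.card (F.autGroup Q₁) = 1 := h5
      rw [h6, ofAut_one hx]
    have hinv : ∀ y ∈ P ⊓ Q, ofAut κ y ∈ P ⊓ Q := fun y hy => ⟨ofAut_mem κ hy.1, by
      have := Q.mul_mem (h2 y hy.1) hy.2
      simpa using this⟩
    have hinv₁ : ∀ y ∈ Q₁, ofAut κ y ∈ Q₁ := fun y hy => by
      have := Q₁.mul_mem (h3 y (hQ₁P hy) (hQ₁Q hy)) hy
      simpa using this
    have h5 : ∀ x ∈ P ⊓ Q, ofAut (κ ^ p ^ (m + n)) x = x := by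
      rw [pow_add p, pow_mul, ← hn]
      refine stab_step (A := Q₁) (B := P ⊓ Q) hQ₁P inf_le_left h4 (fun x hx => ?_)
        (fun x hx => pow_card_eq_one_of_mem (hQ₁.1 hx))
      exact stab_pow (A := Q₁) (B := P ⊓ Q) hQ₁P inf_le_left hinv₁ (fun y hy => h3 y hy.1 hy.2) _ x hx
    refine ofAut_injective fun x hx => ?_
    rw [pow_add p, pow_mul, ← hn, ofAut_one hx]
    refine stab_step (A := P ⊓ Q) (B := P) inf_le_left le_rfl h5 (fun x hx => ?_)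
        (fun x hx => pow_card_eq_one_of_mem (hP hx.1)) x hx
    exact stab_pow (A := P ⊓ Q) (B := P) inf_le_left le_rfl hinv
      (fun y hy => ⟨P.mul_mem (ofAut_mem κ hy) (P.inv_mem hy), h2 y hy⟩) _ x hx

end Cfsg.Agent.S5125
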