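import Cfsg.Statements.S5131
import Cfsg.Agent.H85.Base

set_option autoImplicit false
open Cfsg

namespace Cfsg.Agent.S5131

/-- Let F be a fusion system over a finite p-group S and F' a fusion system over S'. If α : S → S' is a morphism of fusion systems from F to F' (every map of F induces along α a map of F'), then the kernel of α is strongly closed in S with respect to F. -/
theorem result {Ω : Type*} [Group Ω] {S : Subgroup Ω} [Finite S] (p : ℕ) [Fact p.Prime] (hS : IsPGroup p S) (F : Cfsg.FusionSystem S) {Ω' : Type*} [Group Ω'] {S' : Subgroup Ω'} (F' : Cfsg.FusionSystem S') (α : S →* Ω') (hα : F.IsMorphism F' α) : F.StronglyClosed ((α.ker).map S.subtype) := by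
  refine ⟨?_, ?_⟩
  · rintro _ ⟨x, -, rfl⟩; exact x.2
  · intro R hR φ hφ x
    obtain ⟨φ', hφ', hP, hφS, hP', h⟩ := hα.2 R φ hφ
    have hx := hR x.2
    obtain ⟨y, hy, hyx⟩ := hx
    have hy' : (⟨(x : Ω), hP x.2⟩ : S) = y := Subtype.ext hyx.symm
    refine ⟨⟨φ x, hφS x⟩, ?_, rfl⟩
    show α ⟨φ x, hφS x⟩ = 1
    rw [← h x]
    have : (⟨α ⟨x, hP x.2⟩, hP' x⟩ : Cfsg.FusionSystem.imageAlong α R) = 1 := by
      apply Subtype.ext
      show α ⟨x, hP x.2⟩ = 1
      rw [hy']; exact hy
    rw [this, map_one]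

end Cfsg.Agent.S5131
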