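import Cfsg.Statements.S5134
import Cfsg.Agent.Fus.Factor
import Cfsg.Agent.Fus.Extend

set_option autoImplicit false
open Cfsg

namespace Cfsg.Agent.S5134

open Cfsg Cfsg.Agent.Fus

/-- Let F be a saturated fusion system over a finite p-group S, S₀ a subgroup strongly closed in F, and E the factor system of F modulo S₀ read through θ (a homomorphism on S with kernel S₀ and image the group of E). Then θ is a surjective morphism of fusion systems from F onto E: in particular every map of F, and not only the maps whose source contains S₀, induces along θ a map of E. -/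
theorem result {Ω : Type*} [Group Ω] {S : Subgroup Ω} [Finite S] (p : ℕ) [Fact p.Prime] (hS : IsPGroup p S) (F : Cfsg.FusionSystem S) (hF : F.IsSaturated p) (S₀ : Subgroup Ω) (hS₀ : F.StronglyClosed S₀) {Ω' : Type*} [Group Ω'] {S' : Subgroup Ω'} (θ : S →* Ω') (E : Cfsg.FusionSystem S') (hE : F.IsFactorSystem S₀ θ E) : F.IsSurjectiveMorphism E θ := by
  rw [isSurjectiveMorphism_iff]
  obtain ⟨h1, h2, h3, h4⟩ := isFactorSystem_iff.1 hE
  refine ⟨isMorphism_iff.2 ⟨fun x hx => ?_, fun P f hf => ?_⟩, h3, fun P' f' hf' => ((h4 P' f').1 hf').2⟩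
  · rw [← h3]; exact ext_mem_range θ hx
  · obtain ⟨g, hg, hgf⟩ := exists_extend_stronglyClosed hS hF hS₀ hf
    have hker : ∀ x ∈ P ⊔ S₀, ext θ x = 1 → ext θ (g x) = 1 := by
      intro x hx h
      rw [h2 _ (hg.mem hx)]
      exact sc_map_mem hS₀ hg hx ((h2 x (hg.le hx)).1 h)
    obtain ⟨f', hf'⟩ := exists_ind θ hg hker
    have hpre : Cfsg.FusionSystem.preimageAlong θ (Cfsg.FusionSystem.imageAlong θ P) = P ⊔ S₀ := by
      have hle : P ⊔ S₀ ≤ Cfsg.FusionSystem.preimageAlong θ (Cfsg.FusionSystem.imageAlong θ P) := by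
        refine sup_le ?_ ?_
        · intro x hx
          exact (mem_preimageAlong θ).2 ⟨hf.le hx, ext_mem_imageAlong θ hf.le hx⟩
        · intro x hx
          refine (mem_preimageAlong θ).2 ⟨h1 hx, ?_⟩
          rw [(h2 x (h1 hx)).2 hx]; exact Subgroup.one_mem _
      apply le_antisymm _ hle
      intro x hx
      obtain ⟨hxS, hx⟩ := (mem_preimageAlong θ).1 hx
      obtain ⟨y, hy, hyS, hyx⟩ := (mem_imageAlong θ).1 hx
      have h5 : y⁻¹ * x ∈ S₀ := by
        rw [← h2 _ (S.mul_mem (S.inv_mem hyS) hxS), ext_mul θ (S.inv_mem hyS) hxS, ext_inv θ hyS, hyx,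
          inv_mul_cancel]
      have := Subgroup.mul_mem (P ⊔ S₀) (Subgroup.mem_sup_left hy) (Subgroup.mem_sup_right h5)
      rwa [mul_inv_cancel_left] at this
    refine ⟨f', (h4 _ _).2 ⟨imageAlong_le_range θ P, g, by rw [hpre]; exact hg, by rw [hpre]; exact hf'⟩,
      fun x hx => ?_⟩
    rw [hf' x (Subgroup.mem_sup_left hx)]
    have h5 := hgf x hx
    rw [← h2 _ (S.mul_mem (hg.mem (Subgroup.mem_sup_left hx)) (S.inv_mem (hf.mem hx))),
      ext_mul θ (hg.mem (Subgroup.mem_sup_left hx)) (S.inv_mem (hf.mem hx)), ext_inv θ (hf.mem hx),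
      mul_inv_eq_one] at h5
    exact h5

end Cfsg.Agent.S5134
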