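import Cfsg.Statements.S5135
import Cfsg.Agent.H85.GroupFus

set_option autoImplicit false
open Cfsg

namespace Cfsg.Agent.S5135

open Cfsg Cfsg.Agent.H85

theorem exists_mem_normal_cj_le {G : Type*} [Group G] [Finite G] (p : ℕ) [Fact p.Prime] (S : Sylow p G)
    (H : Subgroup G) [hH : H.Normal] {P : Subgroup G} (hP : IsPGroup p P) (h : P ≤ H ⊔ S) :
    ∃ k ∈ H, cj k P ≤ S := by
  have hnorm : ∀ A : Subgroup G, A ≤ Subgroup.normalizer (H : Set G) := fun A => by
    rw [Subgroup.normalizer_eq_top]; exact le_top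
  set X := H ⊔ P with hX
  set P₂ := (S : Subgroup G) ⊓ X with hP₂
  have h1 : SylIn p (P₂ ⊓ H) H := by
    have := (sylIn_top S).inf_normal (N := H) le_top (hnorm ⊤)
    have e : P₂ ⊓ H = (S : Subgroup G) ⊓ H := by
      rw [hP₂, inf_assoc, inf_eq_right.2 (le_sup_left : H ≤ X)]
    rwa [e]
  have h2 : X = H ⊔ P₂ := by
    apply le_antisymm
    · intro x hx
      have hx' : x ∈ H ⊔ (S : Subgroup G) := (sup_le le_sup_left h : X ≤ _) hx
      obtain ⟨n, hn, s, hs, rfl⟩ := (mem_sup_iff_of_normalizes (hnorm _)).1 hx'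
      refine Subgroup.mul_mem _ (Subgroup.mem_sup_left hn) (Subgroup.mem_sup_right ⟨hs, ?_⟩)
      have := X.mul_mem (X.inv_mem ((le_sup_left : H ≤ X) hn)) hx
      rwa [inv_mul_cancel_left] at this
    · exact sup_le le_sup_left inf_le_right
  have h3 : SylIn p P₂ (H ⊔ P₂) := sylIn_of_inf (S.isPGroup'.to_le inf_le_left) (hnorm _) h1
  rw [← h2] at h3
  obtain ⟨b, hb, hbP⟩ := h3.exists_cj_le (C := P) le_sup_right hP
  have hb' := Subgroup.inv_mem _ hb
  rw [h2] at hb'
  obtain ⟨c, hc, s, hs, hcs⟩ := (mem_sup_iff_of_normalizes (hnorm _)).1 hb'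
  refine ⟨c⁻¹, H.inv_mem hc, ?_⟩
  have h5 : cj c⁻¹ P = cj s (cj b P) := by
    rw [cj_cj]
    congr 3
    have : b = s⁻¹ * c⁻¹ := by rw [← mul_inv_rev, hcs, inv_inv]
    rw [this]; group
  rw [h5]
  refine (cj_mono hbP).trans ?_
  rintro _ ⟨x, hx, rfl⟩
  exact (S : Subgroup G).mul_mem ((S : Subgroup G).mul_mem hs.1 hx.1) ((S : Subgroup G).inv_mem hs.1)

/-- Let G be a finite group, S a Sylow p-subgroup and H a normal subgroup of G. Then the fusion system of G/H on the image SH/H of S is the factor system of the fusion system of G on S modulo S ∩ H, read through the quotient map restricted to S: for each subgroup P' of SH/H, the conjugation maps by elements of G/H defined on P' with values in SH/H are exactly the homomorphisms induced by the conjugation maps by elements of G defined on the full preimage of P' in S with values in S. -/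
theorem result {G : Type*} [Group G] [Finite G] (p : ℕ) [Fact p.Prime] (S : Sylow p G) (H : Subgroup G) [H.Normal] : (Cfsg.groupFusionSystem (S : Subgroup G)).IsFactorSystem ((S : Subgroup G) ⊓ H) ((QuotientGroup.mk' H).comp (S : Subgroup G).subtype) (Cfsg.groupFusionSystem ((S : Subgroup G).map (QuotientGroup.mk' H))) := by
  have hθ : ∀ s : (S : Subgroup G), ((QuotientGroup.mk' H).comp (S : Subgroup G).subtype) s =
    QuotientGroup.mk' H (s : G) := fun s => rfl
  refine ⟨inf_le_left, fun s => ?_, ?_, fun P' φ' => ⟨?_, ?_⟩⟩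
  · rw [hθ, QuotientGroup.mk'_apply, QuotientGroup.eq_one_iff, Subgroup.mem_inf]
    exact ⟨fun h => ⟨s.2, h⟩, fun h => h.2⟩
  · ext y; constructor
    · rintro ⟨s, rfl⟩; exact ⟨s, s.2, rfl⟩
    · rintro ⟨s, hs, rfl⟩; exact ⟨⟨s, hs⟩, rfl⟩
  · rintro ⟨hP', hφ', g', hg'⟩
    refine ⟨hP', ?_⟩
    obtain ⟨g, rfl⟩ := QuotientGroup.mk'_surjective H g'
    set P := Cfsg.FusionSystem.preimageAlong ((QuotientGroup.mk' H).comp (S : Subgroup G).subtype) P' with hPdef
    have hPS : P ≤ (S : Subgroup G) := by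
      rintro _ ⟨x, -, rfl⟩; exact x.2
    have hPP' : ∀ x ∈ P, QuotientGroup.mk' H x ∈ P' := by
      rintro _ ⟨x, hx, rfl⟩; exact hx
    have h1 : cj g P ≤ H ⊔ S := by
      rintro _ ⟨x, hx, rfl⟩
      have h2 := hφ' ⟨_, hPP' x hx⟩
      rw [hg'] at h2
      obtain ⟨s, hs, hsx⟩ := h2
      have h3 : QuotientGroup.mk' H s = QuotientGroup.mk' H (g * x * g⁻¹) := hsx
      rw [QuotientGroup.mk'_apply, QuotientGroup.mk'_apply, QuotientGroup.eq] at h3
      have h4 : g * x * g⁻¹ = s * (s⁻¹ * (g * x * g⁻¹)) := by group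
      show g * x * g⁻¹ ∈ _
      rw [h4]
      exact Subgroup.mul_mem _ (Subgroup.mem_sup_right hs) (Subgroup.mem_sup_left h3)
    obtain ⟨k, hk, hkP⟩ := exists_mem_normal_cj_le p S H (isPGroup_cj (S.isPGroup'.to_le hPS)) h1
    rw [cj_cj] at hkP
    have hval : ∀ x : P, (k * g) * (x : G) * (k * g)⁻¹ ∈ (S : Subgroup G) := fun x => hkP ⟨x, x.2, rfl⟩
    refine ⟨Cfsg.conjHom P (k * g), ⟨hPS, hval, k * g, fun x => rfl⟩, hPS, hval, fun x => hPP' x x.2,
      fun x => ?_⟩
    rw [hg']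
    show QuotientGroup.mk' H g * QuotientGroup.mk' H x * (QuotientGroup.mk' H g)⁻¹ =
      QuotientGroup.mk' H (k * g * x * (k * g)⁻¹)
    have hk1 : QuotientGroup.mk' H k = 1 := by
      rw [QuotientGroup.mk'_apply, QuotientGroup.eq_one_iff]; exact hk
    simp only [map_mul, map_inv, hk1, one_mul]
  · rintro ⟨hP', φ, ⟨hP, hφ, g, hg⟩, hP1, hφ1, hP'1, h⟩
    have key : ∀ y : P', ∃ x : ↥(Cfsg.FusionSystem.preimageAlong
        ((QuotientGroup.mk' H).comp (S : Subgroup G).subtype) P'), QuotientGroup.mk' H (x : G) = y := by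
      intro y
      obtain ⟨s, hs, hsy⟩ := hP' y.2
      refine ⟨⟨s, ⟨⟨s, hs⟩, ?_, rfl⟩⟩, hsy⟩
      show QuotientGroup.mk' H s ∈ P'
      rw [hsy]; exact y.2
    refine ⟨hP', fun y => ?_, QuotientGroup.mk' H g, fun y => ?_⟩
    · obtain ⟨x, hx⟩ := key y
      have := h x
      have e : (⟨((QuotientGroup.mk' H).comp (S : Subgroup G).subtype) ⟨x, hP1 x.2⟩, hP'1 x⟩ : P') = y :=
        Subtype.ext hx
      rw [e] at this
      rw [this]
      exact ⟨φ x, hφ1 x, rfl⟩
    · obtain ⟨x, hx⟩ := key y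
      have := h x
      have e : (⟨((QuotientGroup.mk' H).comp (S : Subgroup G).subtype) ⟨x, hP1 x.2⟩, hP'1 x⟩ : P') = y :=
        Subtype.ext hx
      rw [e] at this
      rw [this, ← hx]
      show QuotientGroup.mk' H (φ x) = _
      rw [hg x]
      simp only [map_mul, map_inv]

end Cfsg.Agent.S5135
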