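import Cfsg.Statements.S5138
import Cfsg.Agent.Fus.CPN3

set_option autoImplicit false
open Cfsg

namespace Cfsg.Agent.S5138

/-- Let F be a saturated fusion system over a finite p-group S and E₁, E₂ normal subsystems over T₁, T₂ with [T₁, T₂] = 1. Then there is a normal subsystem of F over T₁T₂ which, if moreover T₁ ∩ T₂ lies in the centre of E₁ and in the centre of E₂, is a central product of E₁ and E₂ (the factor system of a direct product of E₁ and E₂ modulo a subgroup of its centre meeting both factors trivially). -/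
theorem result {Ω : Type*} [Group Ω] {S : Subgroup Ω} [Finite S] (p : ℕ) [Fact p.Prime] (hS : IsPGroup p S) (F : Cfsg.FusionSystem S) (hF : F.IsSaturated p) {T₁ T₂ : Subgroup Ω} (E₁ : Cfsg.FusionSystem T₁) (E₂ : Cfsg.FusionSystem T₂) (hE₁ : E₁.IsNormalIn F p) (hE₂ : E₂.IsNormalIn F p) (hc : ⁅T₁, T₂⁆ = ⊥) : ∃ D : Cfsg.FusionSystem (T₁ ⊔ T₂), D.IsNormalIn F p ∧ (T₁ ⊓ T₂ ≤ E₁.center → T₁ ⊓ T₂ ≤ E₂.center → Cfsg.FusionSystem.IsCentralProductOf E₁ E₂ D) := by
  refine Fus.exists_commuting_product hS hE₁ hE₂ fun x hx y hy => ?_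
  have h1 : x * y * x⁻¹ * y⁻¹ ∈ ⁅T₁, T₂⁆ := Subgroup.commutator_mem_commutator hx hy
  rw [hc, Subgroup.mem_bot] at h1
  rwa [mul_inv_eq_one, mul_inv_eq_iff_eq_mul] at h1

end Cfsg.Agent.S5138
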