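import Cfsg.Statements.S5146
import Cfsg.Agent.Fus.CompExist

set_option autoImplicit false
open Cfsg

namespace Cfsg.Agent.S5146

/-- A saturated fusion system over a finite p-group S is constrained (some subgroup normal in it is centric) if and only if it has no component (no subnormal subsystem that is quasisimple). -/
theorem result {Ω : Type*} [Group Ω] {S : Subgroup Ω} [Finite S] (p : ℕ) [Fact p.Prime] (hS : IsPGroup p S) (F : Cfsg.FusionSystem S) (hF : F.IsSaturated p) : F.IsConstrained p ↔ ¬ ∃ (T : Subgroup Ω) (C : Cfsg.FusionSystem T), C.IsComponentIn F p := by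
  exact Cfsg.Agent.Fus.constrained_iff_no_component hS hF

end Cfsg.Agent.S5146
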