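import Cfsg.Statements.S5147
import Cfsg.Agent.Fus.CentralQuot
import Cfsg.Agent.S5115
import Cfsg.Agent.S5135

set_option autoImplicit false
open Cfsg

namespace Cfsg.Agent.S5147

/-- Let G be a finite group with Sylow 2-subgroup S whose 2-fusion system on S is constrained, and L a component of G (a subnormal quasisimple subgroup). Then the 2-fusion system of L/Z(L) on the image of S ∩ L is constrained. -/
theorem result {G : Type*} [Group G] [Finite G] (S : Sylow 2 G) (hF : (Cfsg.groupFusionSystem (S : Subgroup G)).IsConstrained 2) (L : Subgroup G) (hL : Cfsg.IsComponent L) : (Cfsg.groupFusionSystem (((S : Subgroup G).subgroupOf L).map (QuotientGroup.mk' (Subgroup.center L)))).IsConstrained 2 := by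
  have h1 := Cfsg.Agent.S5115.result S hF L hL.1
  obtain ⟨hs, -⟩ := Cfsg.Agent.Fus.fsos_constrained_of_subnormal S hF L hL.1 _ rfl inf_le_right
  obtain ⟨P, hP⟩ := (Cfsg.Agent.H85.sylIn_iff hs.le).1 hs
  rw [Subgroup.inf_subgroupOf_right] at hP
  rw [← hP] at h1 ⊢
  have h2 := Cfsg.Agent.S5135.result 2 P (Subgroup.center L)
  have hT : (Cfsg.groupFusionSystem (P : Subgroup L)).IsCentral ((P : Subgroup L) ⊓ Subgroup.center L) := by
    rw [Cfsg.Agent.Fus.isCentral_iff_isMap]
    refine ⟨inf_le_left, fun A f hf => ?_⟩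
    obtain ⟨hA, hfA, g, hg⟩ := Cfsg.Agent.Fus.isMap_group.1 hf
    have hz : ∀ z ∈ Subgroup.center L, g * z * g⁻¹ = z := fun z hz => by
      rw [Subgroup.mem_center_iff.1 hz g, mul_inv_cancel_right]
    refine ⟨fun x => g * x * g⁻¹, Cfsg.Agent.Fus.isMap_group.2 ⟨sup_le hA inf_le_left, ?_, g,
      fun x _ => rfl⟩, fun x hx => (hg x hx).symm, fun x hx => hz x hx.2⟩
    intro x hx
    have h3 : A ⊔ (P : Subgroup L) ⊓ Subgroup.center L ≤ ((P : Subgroup L).comap (MulAut.conj g).toMonoidHom) := by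
      refine sup_le ?_ ?_
      · intro y hy
        show g * y * g⁻¹ ∈ (P : Subgroup L)
        rw [← hg y hy]; exact hfA y hy
      · intro y hy
        show g * y * g⁻¹ ∈ (P : Subgroup L)
        rw [hz y hy.2]; exact hy.1
    exact h3 hx
  have h3 := Cfsg.Agent.Fus.isFac_of_isFactorSystem (Cfsg.Agent.Fus.Join.isNormal_of_isCentral hT |> Cfsg.Agent.Fus.sc_of_isNormal) h2
  exact h3.quot_constrained P.isPGroup' hT h1

end Cfsg.Agent.S5147
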