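import Cfsg.Statements.S5148
import Cfsg.Agent.Fus.CentralQuot
import Cfsg.Agent.Fus.NormSub
import Cfsg.Agent.Fus.Stab2
import Cfsg.Agent.Fus.Hyper

set_option autoImplicit false
open Cfsg

namespace Cfsg.Agent.S5148

open Cfsg.Agent.Fus Cfsg.FusionSystem in
theorem triv_of_abelian_simple {Ω' : Type*} [Group Ω'] {S' : Subgroup Ω'} [Finite S'] {p : ℕ} [Fact p.Prime]
    (hS : IsPGroup p S') {E : Cfsg.FusionSystem S'} (hE : E.IsSimple p) (hab : ∀ x ∈ S', ∀ y ∈ S', x * y = y * x) :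
    ∀ P f, IsMap E P f → ∀ x ∈ P, f x = x := by
  obtain ⟨hEs, hne, hsimple⟩ := hE
  have hn : E.IsNormal S' := by
    refine stronglyClosed_abelian_normal hS hEs (stronglyClosed_iff_isMap.2
      ⟨le_rfl, fun P f hf x hx _ => hf.mem hx⟩) ⟨⟨fun a b => Subtype.ext (hab a a.2 b b.2)⟩⟩
  rcases hsimple S' (Cfsg.innerFusionSystem S') (inner_isNormalIn hS hEs hn) with h | ⟨-, h⟩
  · exact absurd h hne
  · intro P f hf x hx
    have h1 : IsMap (Cfsg.innerFusionSystem S') P f := by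
      obtain ⟨φ, hφ, hφf⟩ := hf
      exact ⟨φ, by rw [h P]; exact hφ, hφf⟩
    obtain ⟨hP, g, hg, hgf⟩ := isMap_inner.1 h1
    rw [hgf x hx, hab g hg x (hP hx), mul_inv_cancel_right]

/-- A quasisimple fusion system over a finite p-group S (saturated, equal to its p-residual subsystem, with simple — in particular nontrivial — factor system modulo its centre) has S nonabelian. -/
theorem result {Ω : Type*} [Group Ω] {S : Subgroup Ω} [Finite S] (p : ℕ) [Fact p.Prime] (hS : IsPGroup p S) (F : Cfsg.FusionSystem S) (hq : F.Quasisimple p) : ¬ IsMulCommutative S := by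
  classical
  intro hab
  have hsat := hq.1
  have hZc : F.IsCentral F.center := Cfsg.Agent.Fus.Join.isCentral_center F
  have hZs : F.StronglyClosed F.center := Cfsg.Agent.Fus.sc_of_isNormal (Cfsg.Agent.Fus.Join.isNormal_of_isCentral hZc)
  have hSn : F.IsNormal S := by
    refine Cfsg.Agent.Fus.stronglyClosed_abelian_normal hS hsat (Cfsg.Agent.Fus.stronglyClosed_iff_isMap.2
      ⟨le_rfl, fun P f hf x hx _ => hf.mem hx⟩) hab
  set θ := QuotientGroup.mk' ((F.center).subgroupOf S) with hθ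
  have hker : ∀ x ∈ S, Cfsg.Agent.Fus.ext θ x = 1 ↔ x ∈ F.center := by
    intro x hx
    rw [Cfsg.Agent.Fus.ext_apply θ hx, hθ, QuotientGroup.mk'_apply, QuotientGroup.eq_one_iff,
      Subgroup.mem_subgroupOf]
  obtain ⟨E, hE⟩ := Cfsg.Agent.Fus.exists_isFactorSystem F hZs θ hker
    (S' := (⊤ : Subgroup (S ⧸ (F.center).subgroupOf S)))
    (MonoidHom.range_eq_top.2 (QuotientGroup.mk'_surjective _))
  have h := Cfsg.Agent.Fus.isFac_of_isFactorSystem hZs hE
  have hsim := hq.2.2 E hE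
  have hfin' := h.finite
  have htriv := triv_of_abelian_simple (h.isPGroup hS) hsim (by
    intro x hx y hy
    obtain ⟨a, ha, rfl⟩ := h.exists_ext hx
    obtain ⟨b, hb, rfl⟩ := h.exists_ext hy
    rw [← Cfsg.Agent.Fus.ext_mul θ ha hb, ← Cfsg.Agent.Fus.ext_mul θ hb ha]
    exact congrArg _ (congrArg Subtype.val (hab.is_comm.comm (⟨a, ha⟩ : S) ⟨b, hb⟩)))
  have hS1 : S = ⊥ := by
    rw [eq_bot_iff, ← hq.2.1]
    refine Cfsg.Agent.Fus.hyper_le fun P hP α hα x hx => ?_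
    obtain ⟨g, hg, hgα, hgS⟩ := (Cfsg.Agent.Fus.isNormal_iff_isMap.1 hSn).2 P _ (Cfsg.Agent.Fus.isMap_ofAut hP α.2)
    rw [sup_eq_right.2 hP] at hg
    have hZS : F.center ≤ S := hZc.1
    have hβ := hg.aut_mem hgS
    have hfa : Cfsg.Agent.Fus.facAut h.sc h.ker le_rfl ⟨_, hβ⟩ ^ p ^ 0 = 1 := by
      rw [pow_zero, pow_one]
      have h1 : Cfsg.Agent.Fus.facAut h.sc h.ker le_rfl ⟨_, hβ⟩ ∈ E.autGroup (Cfsg.FusionSystem.imageAlong θ S) := by
        rw [← h.facAut_range le_rfl hZS]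
        exact ⟨_, rfl⟩
      refine Cfsg.Agent.Fus.ofAut_injective fun y hy => ?_
      rw [Cfsg.Agent.Fus.ofAut_one hy]
      exact htriv _ _ (Cfsg.Agent.Fus.isMap_ofAut (h.im_le S) h1) y hy
    obtain ⟨m, hm⟩ := h.exists_pow_eq_one hS
      (fun P f hf x hx hxT => Cfsg.Agent.Fus.IsFac.central_fixes hZc hf hx hxT) le_rfl hZS hβ hfa
    have hα1 : (α : MulAut P) ^ p ^ m = 1 := by
      refine Cfsg.Agent.Fus.ofAut_injective fun y hy => ?_
      rw [Cfsg.Agent.Fus.restr_pow hP (hg.aut hgS) (α : MulAut P) (fun z hz => by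
        rw [hg.ofAut_aut hgS (hP hz), hgα z hz]) _ y hy, hm, Cfsg.Agent.Fus.ofAut_one (hP hy),
        Cfsg.Agent.Fus.ofAut_one hy]
    have hα2 : α = 1 := by
      have h2 : α ^ p ^ m = 1 := Subtype.ext hα1
      have h3 := orderOf_dvd_of_pow_eq_one h2
      have h4 : (orderOf α).Coprime (p ^ m) := Nat.Coprime.pow_right _ hα
      exact orderOf_eq_one_iff.1 (Nat.Coprime.eq_one_of_dvd h4 h3)
    rw [hα2, Subgroup.coe_one, Cfsg.Agent.Fus.ofAut_one hx, inv_mul_cancel]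
    exact Subgroup.one_mem _
  refine hsim.2.1 (eq_bot_iff.2 fun y hy => ?_)
  obtain ⟨a, ha, rfl⟩ := h.exists_ext hy
  rw [hS1, Subgroup.mem_bot] at ha
  rw [ha, Cfsg.Agent.Fus.ext_one]
  exact Subgroup.one_mem _

end Cfsg.Agent.S5148
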