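import Cfsg.Statements.S5152
import Cfsg.Agent.Fus.CharPLoc
import Cfsg.Agent.H63.PG

set_option autoImplicit false
open Cfsg

namespace Cfsg.Agent.S5152

open Cfsg Cfsg.FusionSystem Cfsg.Agent.Fus

/-- a subgroup of order `p` of `U` central in `N_S(U)` -/
theorem exists_X {Ω : Type*} [Group Ω] {S : Subgroup Ω} [Finite S] (p : ℕ) [Fact p.Prime] (hS : IsPGroup p S)
    {U : Subgroup Ω} (hUS : U ≤ S) (hU1 : U ≠ ⊥) :
    ∃ X : Subgroup Ω, X ≤ U ∧ normalizerIn S U ≤ centralizerIn S X ∧ Nat.card X = p := by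
  have hp : p.Prime := Fact.out
  have hNS : normalizerIn S U ≤ S := normalizerIn_le U
  have hfN := finite_of_le hNS
  have hNp : IsPGroup p ↥(normalizerIn S U) := hS.to_le hNS
  have hUN := le_normalizerIn hUS
  have hn : (U.subgroupOf (normalizerIn S U)).Normal := by
    refine ⟨fun n hn g => ?_⟩
    rw [Subgroup.mem_subgroupOf] at hn ⊢
    exact (Subgroup.mem_normalizer_iff.1 g.2.2 _).1 hn
  have hne : U.subgroupOf (normalizerIn S U) ≠ ⊥ := by
    intro h
    apply hU1
    rw [eq_bot_iff]
    intro x hx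
    have h1 : (⟨x, hUN hx⟩ : ↥(normalizerIn S U)) ∈ U.subgroupOf (normalizerIn S U) := hx
    rw [h, Subgroup.mem_bot] at h1
    exact Subgroup.mem_bot.2 (congrArg Subtype.val h1)
  have h1 := Cfsg.Agent.H63.inf_center_ne_bot hNp (U.subgroupOf (normalizerIn S U)) hne
  have hdvd : p ∣ Nat.card ↥(U.subgroupOf (normalizerIn S U) ⊓ Subgroup.center ↥(normalizerIn S U)) := by
    rcases (hNp.to_subgroup (U.subgroupOf (normalizerIn S U) ⊓ Subgroup.center ↥(normalizerIn S U))).card_eq_or_dvd
      with h | h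
    · exact absurd (Subgroup.card_eq_one.1 h) h1
    · exact h
  obtain ⟨x, hx⟩ := exists_prime_orderOf_dvd_card' p hdvd
  obtain ⟨hxU, hxZ⟩ := x.2
  refine ⟨Subgroup.zpowers ((x : ↥(normalizerIn S U)) : Ω), ?_, ?_, ?_⟩
  · rw [Subgroup.zpowers_le]; exact hxU
  · intro n hn
    refine mem_centralizerIn.2 ⟨hNS hn, ?_⟩
    rintro _ ⟨k, rfl⟩
    have h2 := Subgroup.mem_center_iff.1 hxZ ⟨n, hn⟩
    have h3 : Commute n ((x : ↥(normalizerIn S U)) : Ω) := congrArg Subtype.val h2
    exact (h3.zpow_right k).eq.symm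
  · rw [Nat.card_zpowers, Subgroup.orderOf_coe, Subgroup.orderOf_coe, hx]

/-- Dichotomy for saturated fusion systems: a saturated fusion system over a finite p-group is of characteristic p-type (the normalizer system of every nontrivial fully normalized subgroup is constrained) or of component type (the centralizer system of some fully normalized subgroup of order p has a component). -/
theorem result {Ω : Type*} [Group Ω] {S : Subgroup Ω} [Finite S] (p : ℕ) [Fact p.Prime] (hS : IsPGroup p S) (F : Cfsg.FusionSystem S) (hF : F.IsSaturated p) : F.IsOfCharacteristicPType p ∨ F.IsOfComponentType p := by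
  by_contra hcon
  rw [not_or] at hcon
  obtain ⟨hA, hB⟩ := hcon
  apply hA
  intro U hU1 hU N hN
  have hp : p.Prime := Fact.out
  have hUS := hU.1
  have hNS : normalizerIn S U ≤ S := normalizerIn_le U
  have hUN := le_normalizerIn hUS
  obtain ⟨X, hXU, hXc, hX⟩ := exists_X p hS hUS hU1
  have hXS := hXU.trans hUS
  obtain ⟨Y, hXY, hY⟩ := exists_fullyNormalized (F := F) hXS
  obtain ⟨φ, hφ, hφX, -⟩ := sat_exists_normalizer_map hS hF hY hXY
  have hCN : centralizerIn S X ≤ normalizerIn S X := centralizerIn_le_normalizerIn X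
  have hNX : normalizerIn S U ≤ normalizerIn S X := hXc.trans hCN
  have hφN := hφ.mono hNX
  have hφU := hφN.mono hUN
  have hle : img (normalizerIn S U) φ ≤ normalizerIn S (img U φ) := by
    rw [hφN.img_le_iff]
    exact fun x hx => ⟨hφN.mem hx, hφN.map_normalizer hUN hx hx.2⟩
  have hfN' := finite_of_le (normalizerIn_le (S := S) (img U φ))
  have himg : img (normalizerIn S U) φ = normalizerIn S (img U φ) := by
    refine Subgroup.eq_of_le_of_card_ge hle ?_
    rw [hφN.card_img]
    exact hU.2 _ (isConj_iff.2 ⟨φ, hφU, rfl⟩)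
  have hU' : F.IsFullyNormalized (img U φ) := by
    refine ⟨hφU.img_le, fun V hV => ?_⟩
    have h1 := hU.2 V (isConj_trans (isConj_iff.2 ⟨φ, hφU, rfl⟩) hV)
    rwa [← himg, hφN.card_img]
  have hc' : normalizerIn S (img U φ) ≤ centralizerIn S Y := by
    rw [← himg, hφN.img_le_iff]
    intro x hx
    refine mem_centralizerIn.2 ⟨hφN.mem hx, fun y hy => ?_⟩
    rw [← hφX] at hy
    obtain ⟨z, hz, rfl⟩ := (hφ.mono (le_normalizerIn hXS)).mem_img.1 hy
    have hzN := le_normalizerIn hXS hz
    rw [← hφ.map_mul hzN (hNX hx), ← hφ.map_mul (hNX hx) hzN, (mem_centralizerIn.1 (hXc hx)).2 z hz]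
  have hYU : Y ≤ img U φ := by rw [← hφX]; exact img_mono hXU
  obtain ⟨N', hN'⟩ := exists_isNormalizerSystem F hU'.1
  obtain ⟨C, hC⟩ := exists_isCentralizerSystem F hY.1
  have hCS : centralizerIn S Y ≤ S := centralizerIn_le Y
  have hfC := finite_of_le hCS
  have hCs := centralizerSystem_saturated hS hF (sat_fullyCentralized hS hF hY) hC
  have hCc : C.IsConstrained p := by
    rw [constrained_iff_no_component (hS.to_le hCS) hCs]
    rintro ⟨T, D, hD⟩
    refine hB ⟨Y, ?_, hY, C, hC, T, D, hD⟩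
    rw [isConj_card_eq hXY, hX]
  have hN'c := constrained_of_central hS hF hU' hYU hc' hC hCc hN'
  exact constrained_transport hS hF hU hU'.1 hφN hN hN' rfl himg hN'c

end Cfsg.Agent.S5152
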