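import Cfsg.Statements.S5199
import Cfsg.Agent.Fus.PPow6

set_option autoImplicit false
open Cfsg Cfsg.Agent.Fus

namespace Cfsg.Agent.S5199

/-- Let F be a saturated fusion system over a finite p-group S, E a normal subsystem of F over T, and F₀ a normal subsystem of F over a subgroup U containing both T and the hyperfocal subgroup of F, such that F₀ has p-power index in F. Then E is a subsystem of F₀. -/
theorem result {Ω : Type*} [Group Ω] {S : Subgroup Ω} [Finite S] (p : ℕ) [Fact p.Prime] (hS : IsPGroup p S) (F : Cfsg.FusionSystem S) (hF : F.IsSaturated p) {T U : Subgroup Ω} (E : Cfsg.FusionSystem T) (hE : E.IsNormalIn F p) (F₀ : Cfsg.FusionSystem U) (hF₀ : F₀.IsNormalIn F p) (hU : T ⊔ F.hyperfocalSubgroup p ≤ U) (hidx : F₀.HasPPowerIndexIn F p) : E.IsSubsystemOf F₀ := by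
  have hTS : T ≤ S := hE.1.2.2.2.1.1
  have hTU : T ≤ U := le_sup_left.trans hU
  have hT : IsPGroup p T := isPGroup_of_le hS hTS
  have hfT : Finite T := finite_of_le hTS
  rw [hasPPowerIndexIn_iff] at hidx
  have hle : E ≤ resSys F₀ hTU := by
    refine alperin_coprime hT hE.1.1 fun P hPn _ _ α hα hαp => ?_
    rw [isMap_resSys]
    refine ⟨hidx.2.2 P (hPn.1.trans hTU) α ?_ hαp, hPn.1, fun x hx => hPn.1 (ofAut_mem _ hx)⟩
    exact (mem_autGroup_iff (hPn.1.trans hTS)).mpr (isSubsystemOf_iff.mp hE.1.2.2.1 _ _ (isMap_ofAut hPn.1 hα))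
  rw [isSubsystemOf_iff]
  intro P f hf
  exact (isMap_resSys.mp (le_iff.mp hle P f hf)).1

end Cfsg.Agent.S5199
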