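import Cfsg.Statements.S5214
import Cfsg.Agent.S5088
import Cfsg.Agent.Fus.Extend
import Cfsg.Agent.S1137
import Cfsg.Agent.S1138

set_option autoImplicit false
open Cfsg Cfsg.Agent.Fus

namespace Cfsg.Agent.S5214

/-- Let S be a Suzuki 2-group (a finite nonabelian 2-group with more than one involution admitting a cyclic group of automorphisms permuting its involutions regularly). Then S is normal in every saturated fusion system over S (such a group is resistant). -/
theorem result {Ω : Type*} [Group Ω] {S : Subgroup Ω} [Finite S] (hS : IsPGroup 2 S) (F : Cfsg.FusionSystem S) (hF : F.IsSaturated 2) (hsz : Cfsg.IsSuzukiTwoGroup ↥S) : F.IsNormal S := by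
  have h1 := Cfsg.Agent.S1137.result hsz
  have h2 := (Cfsg.Agent.S1138.result hsz).2.1
  set Z : Subgroup Ω := (Subgroup.center ↥S).map S.subtype with hZ
  have hZS : Z ≤ S := Subgroup.map_subtype_le _
  have hZm : ∀ x ∈ S, x * x = 1 → x ∈ Z := by
    intro x hx hxx
    by_cases h : x = 1
    · rw [h]; exact Z.one_mem
    have := ((h1.1 ⟨x, hx⟩).1 ⟨fun e => h (congrArg Subtype.val e), Subtype.ext hxx⟩).1
    exact ⟨_, this, rfl⟩
  have hZc : ∀ z ∈ Z, ∀ s ∈ S, z * s = s * z := by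
    rintro _ ⟨z, hz, rfl⟩ s hs
    exact congrArg Subtype.val (Subgroup.mem_center_iff.1 hz ⟨s, hs⟩).symm
  have hZ2 : ∀ z ∈ Z, z * z = 1 := by
    rintro _ ⟨z, hz, rfl⟩
    exact congrArg Subtype.val (h1.2 z hz)
  have hsc : F.StronglyClosed Z := by
    rw [Fus.stronglyClosed_iff]
    refine ⟨hZS, fun P f hf hP x hx => hZm _ (hf.mem hx) ?_⟩
    rw [← hf.map_mul hx hx, hZ2 x (hP hx), hf.map_one]
  have hscS : F.StronglyClosed S := by
    rw [Fus.stronglyClosed_iff]
    exact ⟨le_rfl, fun P f hf hP x hx => hf.mem hx⟩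
  refine (Cfsg.Agent.S5088.result 2 hS F hF S).2 ⟨2, ![⊥, Z, S], rfl, rfl, ?_, ?_⟩
  · rw [Fin.monotone_iff_le_succ]
    intro i
    fin_cases i
    · exact bot_le
    · exact hZS
  · intro i
    fin_cases i
    · refine ⟨hsc, ?_⟩
      show ⁅S, Z⁆ ≤ ⊥
      rw [Subgroup.commutator_le]
      intro s hs z hz
      rw [Subgroup.mem_bot, commutatorElement_eq_one_iff_mul_comm]
      exact (hZc z hz s hs).symm
    · refine ⟨hscS, ?_⟩
      show ⁅S, S⁆ ≤ Z
      rw [Subgroup.commutator_le]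
      intro s hs t ht
      have := h2 ⟨s⁻¹, S.inv_mem hs⟩ ⟨t⁻¹, S.inv_mem ht⟩
      refine ⟨_, this, ?_⟩
      show s⁻¹⁻¹ * t⁻¹⁻¹ * s⁻¹ * t⁻¹ = _
      rw [inv_inv, inv_inv]; rfl

end Cfsg.Agent.S5214
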