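import Cfsg.Statements.S5215
import Cfsg.Agent.H21.RFSimple

set_option autoImplicit false
open Cfsg

namespace Cfsg.Agent.S5215

/-- Let S be a finite 2-group of 2-rank 2 (an elementary abelian subgroup of order 4, none of order 8) and F a simple saturated fusion system over S. Then S is dihedral, semidihedral or wreathed, and F is the fusion system of the projective special linear group PSL₂(q) for some odd prime power q ≡ ±1 (mod 8) or of PSL₃(q) for some odd prime power q: it is realized by an injective homomorphism of S into that group whose image is a Sylow 2-subgroup. -/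
theorem result {Ω : Type*} [Group Ω] {S : Subgroup Ω} [Finite S] (hS : IsPGroup 2 S) (F : Cfsg.FusionSystem S) (hF : F.IsSaturated 2) (hr : Cfsg.PRankAtLeast 2 2 ↥S ∧ ¬ Cfsg.PRankAtLeast 2 3 ↥S) (hsimple : F.IsSimple 2) : ((∃ m : ℕ, Nonempty (↥S ≃* DihedralGroup m)) ∨ Cfsg.IsQuasiDihedral ↥S ∨ Cfsg.IsWreathed ↥S) ∧ ∃ (K : Type) (_ : Field K) (_ : Fintype K) (q : ℕ), Fintype.card K = q ∧ Odd q ∧ (((q % 8 = 1 ∨ q % 8 = 7) ∧ ∃ ι : ↥S →* Matrix.ProjectiveSpecialLinearGroup (Fin 2) K, F.IsRealizedBy ι ∧ ∃ T : Sylow 2 (Matrix.ProjectiveSpecialLinearGroup (Fin 2) K), (T : Subgroup (Matrix.ProjectiveSpecialLinearGroup (Fin 2) K)) = ι.range) ∨ (∃ ι : ↥S →* Matrix.ProjectiveSpecialLinearGroup (Fin 3) K, F.IsRealizedBy ι ∧ ∃ T : Sylow 2 (Matrix.ProjectiveSpecialLinearGroup (Fin 3) K), (T : Subgroup (Matrix.ProjectiveSpecialLinearGroup (Fin 3) K)) = ι.range)) := by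
  obtain ⟨hr2, hr3⟩ := hr
  have hZ := H21.RF.center_bot_of_simple hS hsimple hr2
  have hfoc := H21.RF.focal_of_simple hS hsimple hr2
  have hmem : ∀ x : S, (x : Ω) ∈ F.focalSubgroup := fun x => hfoc.ge x.2
  rcases H21.RF.cases_of_center_bot hS hF hr2 hr3 hZ with ⟨m, hm, ⟨e⟩⟩ | h | h | h
  · refine ⟨Or.inl ⟨m, ⟨e⟩⟩, ?_⟩
    obtain ⟨n, hn, hc, c, y, hce, hi⟩ := H21.RF.ce_dihedral hS hm e
    obtain ⟨K, _, _, hK, h⟩ := H21.RF.dihedral_both hS hF hce hi hn (hmem _) (hmem _)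
    exact ⟨K, inferInstance, inferInstance, _, rfl, Nat.odd_iff.2 (by omega), Or.inl ⟨Or.inl hK, h⟩⟩
  · refine ⟨Or.inr (Or.inl h), ?_⟩
    obtain ⟨-, n, hn, hc, c, y, hce, hi⟩ := H21.RF.ce_qd h
    obtain ⟨K, _, _, hK, h⟩ := H21.RF.qd_both hS hF hce hi hn (H21.RF.not_quat_of_card hn hc) (hmem _) (hmem _)
    exact ⟨K, inferInstance, inferInstance, _, rfl, hK, Or.inr h⟩
  · refine ⟨Or.inr (Or.inr h), ?_⟩
    obtain ⟨m, -, ⟨d⟩⟩ := H20.WData.exists_of_isWreathed h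
    have hA : H21.RF.PA d ≤ F.focalSubgroup := (H21.RF.PA_le d).trans hfoc.ge
    have hU : ¬ F.focalSubgroup ≤ H21.RF.PA d := by
      intro hle
      exact H21.RF.A_lt d (le_antisymm (H21.RF.PA_le d) (hfoc.ge.trans hle))
    obtain ⟨K, _, _, hK, h⟩ := H21.RF.wr_both d hS hF hA hU
    exact ⟨K, inferInstance, inferInstance, _, rfl, hK, Or.inr h⟩
  · exact absurd h (H21.RF.not_normal_self_of_simple hS hsimple hr2)

end Cfsg.Agent.S5215
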