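import Cfsg.Statements.S5219
import Cfsg.Agent.H87.Agemo
-- import your own Cfsg.Agent.* helpers here

set_option autoImplicit false
open Cfsg

namespace Cfsg.Agent.S5219

/-- Let p be a prime, n a natural number, S a nontrivial finite p-group of nilpotence class at most n(p−1)+1, and F a saturated fusion system over S with no nontrivial normal subgroup (O_p(F) = 1). Then S has exponent dividing p^(n²(p−1)+n). -/
theorem result {Ω : Type*} [Group Ω] {S : Subgroup Ω} [Finite S] (p : ℕ) [Fact p.Prime] (hS : IsPGroup p S) (F : Cfsg.FusionSystem S) (hF : F.IsSaturated p) (n : ℕ) (hS1 : S ≠ ⊥) (hcl : Subgroup.lowerCentralSeries S (n * (p - 1) + 1) = ⊥) (hcore : F.core = ⊥) : Monoid.exponent ↥S ∣ p ^ (n ^ 2 * (p - 1) + n) := by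
  have h1 := H87.agemo_normal hS hF n hcl
  have h2 : Cfsg.powerClosure p n (S ⊓ Subgroup.centralizer (S : Set Ω)) ≤ ⊥ := by
    rw [← hcore]
    exact le_sSup h1
  have h3 : ∀ z ∈ Subgroup.center S, z ^ p ^ n = 1 := by
    intro z hz
    apply Subtype.ext
    have h4 : (z : Ω) ^ p ^ n ∈ Cfsg.powerClosure p n (S ⊓ Subgroup.centralizer (S : Set Ω)) := by
      refine Subgroup.subset_closure ⟨z, ⟨z.2, ?_⟩, rfl⟩
      show (z : Ω) ∈ Subgroup.centralizer (S : Set Ω)
      rw [Subgroup.mem_centralizer_iff]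
      intro y hy
      exact congrArg Subtype.val (Subgroup.mem_center_iff.mp hz ⟨y, hy⟩)
    exact Subgroup.mem_bot.mp (h2 h4)
  have h5 : Subgroup.lowerCentralSeries (⊤ : Subgroup S) (n * (p - 1) + 1) = ⊥ := by
    rw [← Subgroup.top_subtype_lowerCentralSeries] at hcl
    exact (Subgroup.map_eq_bot_iff_of_injective _ S.subtype_injective).mp hcl
  rw [Subgroup.lowerCentralSeries_eq_bot_iff_upperCentralSeries_eq_top] at h5
  refine Monoid.exponent_dvd_of_forall_pow_eq_one fun x => ?_
  have h6 := H87.pow_mem_of_upperCentralSeries h3 (n * (p - 1) + 1) x (by rw [h5]; trivial)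
  rw [← pow_mul] at h6
  have h7 : n * (n * (p - 1) + 1) = n ^ 2 * (p - 1) + n := by ring
  rwa [h7] at h6

end Cfsg.Agent.S5219
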