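import Cfsg.Statements.S5222
import Cfsg.Agent.Fus.Constrained
import Cfsg.Agent.Fus.Chain
import Cfsg.Agent.Fus.Join
import Cfsg.Agent.Fus.ModelExist
import Cfsg.Agent.Fus.ModelNorm
import Cfsg.Agent.Fus.LocalSat2
import Cfsg.Agent.Fus.ExtZ
import Cfsg.Agent.S3838

set_option autoImplicit false
open Cfsg

namespace Cfsg.Agent.S5222

open Subgroup Cfsg.FusionSystem Cfsg.Agent.Fus
open scoped commutatorElement

theorem main.{u} {Ω : Type u} [Group Ω] {T : Subgroup Ω} [Finite T] {p : ℕ} [Fact p.Prime] (hT : IsPGroup p T)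
    {N : FusionSystem T} (hN : N.IsSaturated p) {Q : Subgroup Ω} (hQ : N.IsNormal Q)
    (hAut : ∀ f, IsMap N T f → ∃ g ∈ T, ∀ x ∈ T, f x = g * x * g⁻¹)
    (h1 : ∀ x ∈ T, ∀ y ∈ T, x * y * x⁻¹ * y⁻¹ ∈ Q) (h2 : Q ≤ (frattini ↥T).map T.subtype) :
    ∀ (P : Subgroup Ω) (f : Ω → Ω), IsMap N P f → ∃ g ∈ T, ∀ x ∈ P, f x = g * x * g⁻¹ := by
  classical
  have hCsc := sc_centralizerIn hQ
  have hQsc := IsNormal.stronglyClosed hQ
  have hC : N.IsNormal (centralizerIn T Q) := by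
    rw [isNormal_iff_stronglyClosed hT hN]
    refine ⟨hCsc, fun P hPc hPr => ?_⟩
    refine le_of_chain hT hPc (sc_le_normalizer hCsc) hCsc.1 fun x hx hxn => ?_
    have hQP : Q ≤ P := IsNormal.le_of_centric_radical hT hQ hPc hPr
    let C : ℕ → Subgroup Ω := fun i => match i with
      | 0 => ⊥
      | 1 => Q
      | _ => P
    have hCP : ∀ i, C i ≤ P := by
      intro i
      match i with
      | 0 => exact bot_le
      | 1 => exact hQP
      | n + 2 => exact le_rfl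
    have hinv : ∀ α ∈ N.autGroup P, ∀ i, ∀ x ∈ C i, ofAut α x ∈ C i := by
      intro α hα i x hx
      match i with
      | 0 =>
        have hx1 : x = 1 := Subgroup.mem_bot.mp hx
        subst hx1
        rw [ofAut_map_one]
        exact one_mem _
      | 1 => exact sc_map_mem hQsc (isMap_ofAut hPc.1 hα) (hQP hx) hx
      | n + 2 => exact ofAut_mem α hx
    have : Finite P := finite_of_le hPc.1
    refine radical_le hPr (K := chainStab (N.autGroup P) C hCP hinv) (fun γ hγ => hγ.1)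
      (fun α hα γ hγ => chainStab_conj hα hγ) (isPGroup_chainStab (hT.to_le hPc.1) rfl 2 ?_) ?_
    · intro γ hγ hco hfix
      apply ofAut_injective
      intro y hy
      rw [hfix y hy, ofAut_one hy]
    · have hxT : x ∈ T := hCsc.1 hx
      refine mem_chainStab.mpr ⟨conjAut_mem_autGroup hPc.1 hxT hxn, fun i y hy => ?_⟩
      rw [ofAut_conjAut x hxn (hCP _ hy)]
      match i with
      | 0 =>
        have h3 := (mem_centralizerIn.mp hx).2 y hy
        show _ ∈ (⊥ : Subgroup Ω)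
        rw [Subgroup.mem_bot, ← h3]
        group
      | 1 =>
        have h3 := h1 y⁻¹ (T.inv_mem (hPc.1 hy)) x hxT
        show y⁻¹ * (x * y * x⁻¹) ∈ Q
        have h4 : y⁻¹ * (x * y * x⁻¹) = y⁻¹ * x * y⁻¹⁻¹ * x⁻¹ := by group
        rw [h4]; exact h3
      | n + 2 =>
        show y⁻¹ * (x * y * x⁻¹) ∈ P
        exact P.mul_mem (P.inv_mem hy) ((Subgroup.mem_normalizer_iff.mp hxn y).mp hy)
  have hR := Join.isNormal_sup hQ hC
  have hRc : N.IsCentric (Q ⊔ centralizerIn T Q) := by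
    refine isCentric_of_isNormal hR fun x hx => ?_
    refine Subgroup.mem_sup_right ?_
    rw [mem_centralizerIn] at hx ⊢
    exact ⟨hx.1, fun y hy => hx.2 y (Subgroup.mem_sup_left hy)⟩
  obtain ⟨G, _, ι, hM⟩ := exists_model hT (⟨hN, _, hR, hRc⟩ : N.IsConstrained p)
  obtain ⟨hfin, hr, ⟨P, hP⟩, hcent⟩ := id hM
  have hQ₀ : (imj ι Q).Normal := ⟨fun y hy g => by
    obtain ⟨x, hx, rfl⟩ := (mem_imj hQ.1).mp hy
    obtain ⟨z, hz, hzz⟩ := imj_normal hT hM hQ g hx
    rw [← hzz]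
    exact jj_mem_imj hQ.1 hz⟩
  have hPmem : ∀ y : G, y ∈ (P : Subgroup G) ↔ ∃ x ∈ T, jj ι x = y := by
    intro y
    rw [hP]
    constructor
    · rintro ⟨x, rfl⟩
      exact ⟨x, x.2, jj_coe x⟩
    · rintro ⟨x, hx, rfl⟩
      exact ⟨⟨x, hx⟩, (jj_apply hx).symm⟩
  -- `N_G(P) = P`
  have hNP : Subgroup.normalizer ((P : Subgroup G) : Set G) ≤ (P : Subgroup G) := by
    intro g hg
    have hex : ∀ x ∈ T, ∃ y ∈ T, jj ι y = g * jj ι x * g⁻¹ := by
      intro x hx
      have h3 := (Subgroup.mem_normalizer_iff.mp hg (jj ι x)).mp ((hPmem _).mpr ⟨x, hx, rfl⟩)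
      exact (hPmem _).mp h3
    choose! f hf hfj using hex
    have hfM : IsMap N T f := (isMap_realized hr).mpr ⟨le_rfl, hf, g, hfj⟩
    obtain ⟨t, ht, htf⟩ := hAut f hfM
    have hz : (jj ι t)⁻¹ * g ∈ Subgroup.centralizer ((pCore p G : Subgroup G) : Set G) := by
      rw [Subgroup.mem_centralizer_iff]
      intro y hy
      have hyP : y ∈ (P : Subgroup G) := by
        exact Solv.pCore_le_sylow P hy
      obtain ⟨x, hx, rfl⟩ := (hPmem y).mp hyP
      have h3 := hfj x hx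
      rw [htf x hx, jj_conj ht hx] at h3
      calc jj ι x * ((jj ι t)⁻¹ * g) = (jj ι t)⁻¹ * (jj ι t * jj ι x * (jj ι t)⁻¹) * g := by group
        _ = (jj ι t)⁻¹ * (g * jj ι x * g⁻¹) * g := by rw [h3]
        _ = (jj ι t)⁻¹ * g * jj ι x := by group
    have hz' : (jj ι t)⁻¹ * g ∈ (P : Subgroup G) := Solv.pCore_le_sylow P (hcent hz)
    have := (P : Subgroup G).mul_mem ((hPmem _).mpr ⟨t, ht, rfl⟩) hz'
    rwa [mul_inv_cancel_left] at this
  have hPn : Cfsg.HasNormalPComplement p ↥(Subgroup.normalizer ((P : Subgroup G) : Set G)) := by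
    have hpg : IsPGroup p ↥(Subgroup.normalizer ((P : Subgroup G) : Set G)) := P.isPGroup'.to_le hNP
    exact Transfer.hasNPC_of_isPGroup hpg
  have hG := S3838.aux P (imj ι Q) (by
      intro x hx y hy
      obtain ⟨a, ha, rfl⟩ := (hPmem x).mp hx
      obtain ⟨b, hb, rfl⟩ := (hPmem y).mp hy
      rw [← jj_mul ha hb, ← jj_inv ha, ← jj_mul (T.mul_mem ha hb) (T.inv_mem ha), ← jj_inv hb,
        ← jj_mul (T.mul_mem (T.mul_mem ha hb) (T.inv_mem ha)) (T.inv_mem hb)]
      exact jj_mem_imj hQ.1 (h1 a ha b hb)) (by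
      intro y hy
      obtain ⟨x, hx, rfl⟩ := (mem_imj hQ.1).mp hy
      obtain ⟨x', hx', hxx⟩ := h2 hx
      let φ : T →* (P : Subgroup G) := ι.codRestrict (P : Subgroup G) (fun x => by rw [hP]; exact ⟨x, rfl⟩)
      have hφ : Function.Surjective φ := by
        rintro ⟨y, hy⟩
        obtain ⟨x, hx, hxy⟩ := (hPmem y).mp hy
        exact ⟨⟨x, hx⟩, Subtype.ext (((jj_apply hx).symm.trans hxy : ι ⟨x, hx⟩ = y))⟩
      refine ⟨φ x', frattini_le_comap_frattini_of_surjective hφ hx', ?_⟩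
      rw [← hxx]
      exact (jj_coe x').symm) hPn
  obtain ⟨K, hK, hKp, k, hKi⟩ := Transfer.hasNPC_iff_exists.mp hG
  have hdisj : ∀ z ∈ K, z ∈ (P : Subgroup G) → z = 1 := by
    intro z hz hzP
    obtain ⟨j, hj⟩ := P.isPGroup' ⟨z, hzP⟩
    have hj' : z ^ p ^ j = 1 := congrArg Subtype.val hj
    have h3 : orderOf z ∣ Nat.card K := by
      rw [← Subgroup.orderOf_mk z hz]; exact orderOf_dvd_natCard _
    have h4 : orderOf z ∣ p ^ j := orderOf_dvd_of_pow_eq_one hj'
    have h5 : orderOf z ∣ 1 := by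
      rw [← (Nat.Coprime.pow_right j hKp)]
      exact Nat.dvd_gcd h3 h4
    rw [Nat.dvd_one] at h5
    exact orderOf_eq_one_iff.mp h5
  have hK1 : K = ⊥ := by
    rw [eq_bot_iff]
    intro z hz
    rw [Subgroup.mem_bot]
    apply hdisj z hz
    apply Solv.pCore_le_sylow P
    apply hcent
    rw [Subgroup.mem_centralizer_iff]
    intro y hy
    have h3 : y * z * y⁻¹ * z⁻¹ ∈ K := K.mul_mem (hK.conj_mem z hz y) (K.inv_mem hz)
    have h4 : y * z * y⁻¹ * z⁻¹ ∈ (P : Subgroup G) := by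
      apply Solv.pCore_le_sylow P
      have h5 : z * y⁻¹ * z⁻¹ ∈ pCore p G := (pCore_normal' p G).conj_mem _ ((pCore p G).inv_mem hy) z
      have h6 := (pCore p G).mul_mem hy h5
      have h7 : y * z * y⁻¹ * z⁻¹ = y * (z * y⁻¹ * z⁻¹) := by group
      rw [h7]; exact h6
    have h5 := hdisj _ h3 h4
    have h6 : y * z = z * y := by
      have := congrArg (fun w => w * z * y) h5
      simpa [mul_assoc] using this
    exact h6
  have hPtop : (P : Subgroup G) = ⊤ := by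
    have h3 : IsPGroup p G := by
      apply IsPGroup.of_card (n := k)
      rw [← hKi, hK1, Subgroup.index_bot]
    rw [eq_top_iff]
    have h4 : IsPGroup p (⊤ : Subgroup G) := h3.to_subgroup ⊤
    rw [← P.is_maximal' h4 le_top]
  intro R f hf
  obtain ⟨hRT, hfT, g, hg⟩ := (isMap_realized hr).mp hf
  obtain ⟨t, ht, rfl⟩ := (hPmem g).mp (by rw [hPtop]; trivial)
  refine ⟨t, ht, fun x hx => ?_⟩
  have h3 := hg x hx
  rw [← jj_conj ht (hRT hx)] at h3
  exact jj_inj hr.1 (hfT x hx) (T.mul_mem (T.mul_mem ht (hRT hx)) (T.inv_mem ht)) h3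

/-- Let F be a saturated fusion system over a finite p-group S whose normalizer fusion system of S is the inner fusion system of S (Aut_F(S) is a p-group). Then for every subgroup Q of S with [S, S] ≤ Q ≤ Φ(S), the normalizer fusion system of Q in F is the inner fusion system of N_S(Q) = S. -/
theorem result {Ω : Type*} [Group Ω] {S : Subgroup Ω} [Finite S] (p : ℕ) [Fact p.Prime] (hS : IsPGroup p S) (F : Cfsg.FusionSystem S) (hF : F.IsSaturated p) (hN : ∀ N : Cfsg.FusionSystem (Cfsg.FusionSystem.normalizerIn S S), F.IsNormalizerSystem S N → ∀ P : Subgroup Ω, N.Hom P = (Cfsg.innerFusionSystem (Cfsg.FusionSystem.normalizerIn S S)).Hom P) (Q : Subgroup Ω) (h1 : (commutator ↥S).map S.subtype ≤ Q) (h2 : Q ≤ (frattini ↥S).map S.subtype) : ∀ N : Cfsg.FusionSystem (Cfsg.FusionSystem.normalizerIn S Q), F.IsNormalizerSystem Q N → ∀ P : Subgroup Ω, N.Hom P = (Cfsg.innerFusionSystem (Cfsg.FusionSystem.normalizerIn S Q)).Hom P := by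

  intro N hNQ
  have hQS : Q ≤ S := h2.trans (Subgroup.map_subtype_le _)
  have hcom : ∀ x ∈ S, ∀ y ∈ S, x * y * x⁻¹ * y⁻¹ ∈ Q := by
    intro x hx y hy
    apply h1
    refine ⟨⁅(⟨x, hx⟩ : S), ⟨y, hy⟩⁆, ?_, rfl⟩
    exact Subgroup.commutator_mem_commutator (Subgroup.mem_top _) (Subgroup.mem_top _)
  have hconj : ∀ x ∈ S, ∀ y ∈ Q, x * y * x⁻¹ ∈ Q := by
    intro x hx y hy
    have h3 := Q.mul_mem (hcom x hx y (hQS hy)) hy
    rwa [inv_mul_cancel_right] at h3
  have hQn : S ≤ Subgroup.normalizer (Q : Set Ω) := by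
    intro x hx
    rw [Subgroup.mem_normalizer_iff]
    intro y
    refine ⟨hconj x hx y, fun h => ?_⟩
    have h3 := hconj x⁻¹ (S.inv_mem hx) _ h
    have h4 : x⁻¹ * (x * y * x⁻¹) * x⁻¹⁻¹ = y := by group
    rwa [h4] at h3
  have hTS : normalizerIn S Q = S := inf_eq_left.mpr hQn
  obtain ⟨N₀, hN₀⟩ := exists_isNormalizerSystem F (le_refl S)
  have hAut : ∀ f, IsMap F S f → ∃ g ∈ S, ∀ x ∈ S, f x = g * x * g⁻¹ := by
    intro f hf
    have h3 : IsMap N₀ S f :=
      (isMap_normSys_of_le hN₀ le_rfl).mpr ⟨le_inf le_rfl Subgroup.le_normalizer, hf, hf.img_eq fun x hx => hf.mem hx⟩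
    obtain ⟨φ, hφ, hφf⟩ := h3
    rw [hN N₀ hN₀] at hφ
    obtain ⟨-, g, hg, h⟩ := hφ
    exact ⟨g, hg.1, fun x hx => by rw [← hφf ⟨x, hx⟩]; exact h ⟨x, hx⟩⟩
  have hfn : F.IsFullyNormalized Q := by
    refine ⟨hQS, fun R _ => ?_⟩
    rw [hTS]
    exact Subgroup.card_le_of_le (normalizerIn_le R)
  have hNs := normalizerSystem_saturated hS hF hfn hNQ
  have hTfin : Finite (normalizerIn S Q : Subgroup Ω) := finite_of_le (normalizerIn_le Q)
  have hTp : IsPGroup p (normalizerIn S Q : Subgroup Ω) := hS.to_le (normalizerIn_le Q)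
  have key := main hTp hNs (isNormal_normSys hQS hNQ) (by
      intro f hf
      have h3 := isMap_of_normSys hNQ hf
      rw [hTS] at h3 ⊢
      exact hAut f h3) (fun x hx y hy => hcom x (normalizerIn_le Q hx) y (normalizerIn_le Q hy)) (by
      rw [hTS]; exact h2)
  intro P
  ext φ
  constructor
  · intro hφ
    have h3 := isMap_of_mem hφ
    obtain ⟨g, hg, hgf⟩ := key P _ h3
    exact ⟨h3.le, g, hg, fun x => by rw [← hgf x x.2, ofHom_coe]⟩
  · rintro ⟨hP, g, hg, h⟩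
    have h3 : IsMap N P (fun x => g * x * g⁻¹) := isMap_conj hP hg
    exact h3.mem_hom fun x => h x

end Cfsg.Agent.S5222
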