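import Cfsg.Statements.S5223
import Mathlib
import Cfsg.Agent.Fus.Chain
import Cfsg.Agent.Fus.NormalChar

set_option autoImplicit false
open Cfsg

namespace Cfsg.Agent.S5223

open Cfsg.Agent.Fus

/-- Let F be a saturated fusion system over a finite p-group S. Suppose there are subgroups Q₀ = S, Q₁, …, Qₙ = 1 (not required to be nested) such that for each i < n the focal subgroup of Qᵢ (generated by the elements x⁻¹φ(x), x ∈ Qᵢ, φ a map of F defined on the cyclic group generated by x) lies in Qᵢ₊₁. Then F is the inner fusion system of S. -/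
theorem result {Ω : Type*} [Group Ω] {S : Subgroup Ω} [Finite S] (p : ℕ) [Fact p.Prime] (hS : IsPGroup p S) (F : Cfsg.FusionSystem S) (hF : F.IsSaturated p) (n : ℕ) (Q : Fin (n + 1) → Subgroup Ω) (hQ0 : Q 0 = S) (hQn : Q (Fin.last n) = ⊥) (hstep : ∀ i : Fin n, Subgroup.closure {y : Ω | ∃ x ∈ Q i.castSucc, ∃ φ ∈ F.Hom (Subgroup.zpowers x), y = x⁻¹ * φ ⟨x, Subgroup.mem_zpowers x⟩} ≤ Q i.succ) : ∀ P : Subgroup Ω, F.Hom P = (Cfsg.innerFusionSystem S).Hom P := by
  have key : ∀ P : Subgroup Ω, P ≤ S → IsPGroup p (F.autGroup P) := by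
    intro P hP
    have hfP : Finite P := finite_of_le hP
    have hfA := finite_mulAut (P := P)
    refine isPGroup_of_coprime_trivial ?_
    rintro ⟨α, hα⟩ hord
    rw [Subgroup.orderOf_mk] at hord
    have hmap := isMap_ofAut hP hα
    have hfix : ∀ k : ℕ, ∀ i : Fin (n + 1), (i : ℕ) + k = n → ∀ x ∈ P, x ∈ Q i → ofAut α x = x := by
      intro k
      induction k with
      | zero =>
        intro i hi x hxP hx
        have : i = Fin.last n := Fin.ext (by simpa using hi)
        rw [this, hQn, Subgroup.mem_bot] at hx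
        rw [hx, ofAut_map_one]
      | succ k ih =>
        intro i hi x hxP hx
        have hilt : (i : ℕ) < n := by omega
        refine ofAut_fix_of_coprime (isPGroup_of_le hS hP) hord hxP ?_
        refine ih (⟨i, hilt⟩ : Fin n).succ (by simp; omega) _
          (P.mul_mem (P.inv_mem hxP) (ofAut_mem α hxP)) ?_
        refine hstep ⟨i, hilt⟩ (Subgroup.subset_closure ⟨x, hx, ?_⟩)
        have h1 : IsMap F (Subgroup.zpowers x) (ofAut α) := hmap.mono (by rw [Subgroup.zpowers_le]; exact hxP)
        exact ⟨h1.hom, h1.hom_mem, rfl⟩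
    refine Subtype.ext (ofAut_injective fun x hx => ?_)
    show ofAut α x = ofAut (1 : MulAut P) x
    rw [ofAut_one hx]
    exact hfix n 0 (by simp) x hx (by rw [hQ0]; exact hP hx)
  intro P
  rw [eq_inner_of_pgroup hS hF key]

end Cfsg.Agent.S5223
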