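import Cfsg.Statements.S5243
import Cfsg.Agent.Fus.Theta2

set_option autoImplicit false
open Cfsg

namespace Cfsg.Agent.S5243

/-- Let F be a saturated fusion system over a finite p-group S, E a normal subsystem of F over T ≤ S, and χ a surjective homomorphism from Aut_F(T) onto a nontrivial finite group Δ of order prime to p whose kernel contains Aut_E(T). Then there is a proper normal subsystem F₀ of F over S containing E such that Aut_{F₀}(S) consists of those α ∈ Aut_F(S) whose restriction to T is an element of Aut_F(T) in the kernel of χ; moreover every p'-residual subsystem O^{p'}(F) of F is contained in F₀. -/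
theorem result {Ω : Type*} [Group Ω] {S : Subgroup Ω} [Finite S] (p : ℕ) [Fact p.Prime] (hS : IsPGroup p S) (F : Cfsg.FusionSystem S) (hF : F.IsSaturated p) {T : Subgroup Ω} (hTS : T ≤ S) (E : Cfsg.FusionSystem T) (hE : E.IsNormalIn F p) {Δ : Type*} [Group Δ] [Finite Δ] [Nontrivial Δ] (hΔ : (Nat.card Δ).Coprime p) (χ : ↥(F.autGroup T) →* Δ) (hχ : Function.Surjective χ) (hker : (E.autGroup T).subgroupOf (F.autGroup T) ≤ χ.ker) : ∃ F₀ : Cfsg.FusionSystem S, F₀.IsNormalIn F p ∧ ¬ (∀ P : Subgroup Ω, F₀.Hom P = F.Hom P) ∧ E.IsSubsystemOf F₀ ∧ (∀ α : MulAut ↥S, α ∈ F₀.autGroup S ↔ α ∈ F.autGroup S ∧ ∃ β : ↥(F.autGroup T), χ β = 1 ∧ ∀ t : ↥T, (((β : MulAut ↥T) t : ↥T) : Ω) = ((α ⟨(t : Ω), hTS t.2⟩ : ↥S) : Ω)) ∧ ∀ R : Cfsg.FusionSystem S, F.IsPPrimeResidual p R → R.IsSubsystemOf F₀ := by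
  have H : Cfsg.Agent.Fus.ThHyp F E p χ :=
    { hS := hS
      hF := hF
      hE := hE.1.1
      inv := hE.1.2.2
      cop := hΔ
      ker := fun α hα => hker (Subgroup.mem_subgroupOf.mpr hα) }
  refine ⟨H.sub, H.sub_normal, H.sub_proper hχ, H.sub_contains, fun α => ?_, fun R hR => ?_⟩
  · rw [H.sub_aut]
    refine and_congr_right fun _ => exists_congr fun β => and_congr_right fun _ => ?_
    constructor
    · intro h t
      have h1 := h t t.2
      rw [Cfsg.Agent.Fus.ofAut_coe, Cfsg.Agent.Fus.ofAut_apply α (hTS t.2)] at h1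
      exact h1
    · intro h t ht
      rw [Cfsg.Agent.Fus.ofAut_apply _ ht, Cfsg.Agent.Fus.ofAut_apply α (hTS ht)]
      exact h ⟨t, ht⟩
  · exact hR.2.2 H.sub H.sub_saturated H.sub_index

end Cfsg.Agent.S5243
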