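import Cfsg.Statements.S5244
import Cfsg.Agent.Fus.AbelIdxP4

set_option autoImplicit false
open Cfsg

namespace Cfsg.Agent.S5244

/-- Let p be an odd prime, S a finite nonabelian p-group with a unique abelian subgroup A of index p, and F a saturated fusion system over S with no nontrivial normal subgroup (O_p(F) = 1) in which A is not F-essential. Then some subgroup Z(S)⟨x⟩ with x ∈ S outside A is F-essential, the centre Z(S) is contained in the commutator subgroup of S, and S has maximal nilpotency class (if S has order pⁿ with n ≥ 3, the term of index n − 2 of its lower central series, counting S itself as the term of index 0, is nontrivial). -/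
theorem result {Ω : Type*} [Group Ω] {S : Subgroup Ω} [Finite S] (p : ℕ) [Fact p.Prime] (hS : IsPGroup p S) (F : Cfsg.FusionSystem S) (hF : F.IsSaturated p) (hp : p ≠ 2) (hna : ¬ IsMulCommutative ↥S) (A : Subgroup Ω) (hA : A ≤ S ∧ IsMulCommutative ↥A ∧ (A.subgroupOf S).index = p) (huniq : ∀ B : Subgroup Ω, B ≤ S → IsMulCommutative ↥B → (B.subgroupOf S).index = p → B = A) (hcore : F.core = ⊥) (hAe : ¬ F.IsEssential p A) : (∃ x ∈ S, x ∉ A ∧ F.IsEssential p ((S ⊓ Subgroup.centralizer (S : Set Ω)) ⊔ Subgroup.zpowers x)) ∧ (S ⊓ Subgroup.centralizer (S : Set Ω)) ≤ (commutator ↥S).map S.subtype ∧ ∀ n : ℕ, Nat.card S = p ^ n → 3 ≤ n → Subgroup.lowerCentralSeries S (n - 2) ≠ ⊥ := by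
  have h := Fus.aip_of hna hA huniq
  have hpr : p.Prime := Fact.out
  obtain ⟨⟨x, hx, hxA, hess⟩, h2, h3, h4⟩ := h.not_ess_structure hS hF hp hcore hAe
  rw [Fus.map_commutator_subtype]
  refine ⟨⟨x, hx, hxA, hess⟩, h2, fun n hn hn3 => ?_⟩
  have h5 : (Fus.zc S).relIndex A = p ^ (n - 3 + 1) := by
    have h6 := Subgroup.relIndex_mul_relIndex (Fus.zc S) A S (h.zc_le hS) h.AS
    have h7 := Fus.relIndex_mul_card (B := S) (Z := Fus.zc S)
    rw [inf_eq_left.mpr (show Fus.zc S ≤ S from fun _ h => h.1), h3, ← h6, h.idx, hn] at h7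
    have h8 : p ^ n = p * (p ^ (n - 3 + 1) * p) := by
      rw [← pow_succ, ← pow_succ']; congr 1; omega
    rw [h8] at h7
    exact Nat.eq_of_mul_eq_mul_right hpr.pos (Nat.eq_of_mul_eq_mul_left hpr.pos h7)
  have h6 := h.ser_not_le hS hx hxA h4 h5
  intro hbot
  apply h6
  have h7 := h.card_kim hS hx hxA (h.ser_le hS hx (n - 3))
  rw [← h.ser_succ] at h7
  have h8 : h.ser hS hx (n - 3 + 1) ≤ ⊥ := by
    have e : n - 3 + 1 = n - 2 := by omega
    rw [← hbot, e]
    exact h.ser_le_lcs hS hx _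
  rw [le_bot_iff.mp h8, Subgroup.card_bot, Subgroup.relIndex_eq_one] at h7
  exact h7

end Cfsg.Agent.S5244
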