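import Cfsg.Statements.S5245
import Cfsg.Agent.H72.AutSys
import Cfsg.Agent.Fus.Chain
import Cfsg.Agent.Fus.Hyper

set_option autoImplicit false
open Cfsg

namespace Cfsg.Agent.S5245

set_option linter.style.haveILetI false

open Cfsg.Agent.Fus Cfsg.Agent.H72 Cfsg.FusionSystem

/-- A nontrivial `p'`-automorphism in `Aut_F(T)` of prime order generates all of an extremely sparse system. -/
theorem top_of_aut {Ω : Type*} [Group Ω] {S : Subgroup Ω} [Finite S] {p : ℕ} [hp : Fact p.Prime] (hS : IsPGroup p S)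
    {F : FusionSystem S}
    (hxs : ∀ (T : Subgroup Ω) (E : Cfsg.FusionSystem T), E.IsSaturated p → E.IsSubsystemOf F →
      (T = S ∧ ∀ P : Subgroup Ω, E.Hom P = F.Hom P) ∨ (∀ P : Subgroup Ω, E.Hom P = (Cfsg.innerFusionSystem T).Hom P))
    {T : Subgroup Ω} (hT : T ≤ S) {q : ℕ} (hq : q.Prime) (hqp : q ≠ p) {γ : MulAut T} (hγ : orderOf γ = q)
    (hmap : ∀ κ ∈ Inn T ⊔ Subgroup.zpowers γ, IsMap F T (ofAut κ)) :
    T = S ∧ ∀ P : Subgroup Ω, (autSys (Inn T ⊔ Subgroup.zpowers γ) le_sup_left).Hom P = F.Hom P := by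
  haveI : Finite T := Finite.Set.subset (S : Set Ω) hT
  have hTp : IsPGroup p T := hS.to_le hT
  have hcop : (Nat.card (Subgroup.zpowers γ)).Coprime p := by
    rw [Nat.card_zpowers, hγ]
    exact (Nat.coprime_primes hq hp.out).2 hqp
  have hsat := autSys_saturated hTp (Subgroup.zpowers γ) hcop (hK := le_sup_left)
  rcases hxs T _ hsat (isSubsystemOf_iff.2 (by
    intro P f hf
    obtain ⟨hP, κ, hκ, h⟩ := isMap_autSys.1 hf
    exact ((hmap κ hκ).mono hP).congr fun x hx => (h x hx).symm)) with h | h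
  · exact h
  · exfalso
    have h1 : IsMap (autSys (Inn T ⊔ Subgroup.zpowers γ) le_sup_left) T (ofAut γ) :=
      isMap_autSys.2 ⟨le_rfl, γ, Subgroup.mem_sup_right (Subgroup.mem_zpowers γ), fun _ _ => rfl⟩
    rw [(hom_eq_iff.1 (h T)), isMap_inner] at h1
    obtain ⟨-, g, hg, hg'⟩ := h1
    have h2 : γ = MulAut.conj (⟨g, hg⟩ : T) := by
      apply ofAut_injective
      intro x hx
      rw [hg' x hx, ofAut_apply _ hx]; rfl
    have h3 : IsPGroup p (Inn T) :=
      hTp.of_surjective (MulAut.conj : T →* MulAut T).rangeRestrict (MonoidHom.rangeRestrict_surjective _)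
    have h4 : γ ∈ Inn T := ⟨⟨g, hg⟩, h2.symm⟩
    obtain ⟨k, hk⟩ := h3 ⟨γ, h4⟩
    have h5 : γ ^ p ^ k = 1 := congrArg Subtype.val hk
    have h6 := orderOf_dvd_of_pow_eq_one h5
    rw [hγ] at h6
    exact hqp ((Nat.prime_dvd_prime_iff_eq hq hp.out).1 (hq.dvd_of_dvd_pow h6))

/-- Let F be an extremely sparse fusion system over a finite p-group S (saturated, not the inner system, and every saturated fusion system over any subgroup T of S contained in F is F itself or the inner system of T). Then S is normal in F, the focal and hyperfocal subgroups of F are both S, and Aut_F(S) is generated by the inner automorphisms of S together with a single automorphism of prime order q ≠ p (F is the fusion system of the semidirect product of S by a cyclic group of prime order). -/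
theorem result {Ω : Type*} [Group Ω] {S : Subgroup Ω} [Finite S] (p : ℕ) [Fact p.Prime] (hS : IsPGroup p S) (F : Cfsg.FusionSystem S) (hF : F.IsSaturated p) (hxs : ¬ (∀ P : Subgroup Ω, F.Hom P = (Cfsg.innerFusionSystem S).Hom P) ∧ ∀ (T : Subgroup Ω) (E : Cfsg.FusionSystem T), E.IsSaturated p → E.IsSubsystemOf F → (T = S ∧ ∀ P : Subgroup Ω, E.Hom P = F.Hom P) ∨ (∀ P : Subgroup Ω, E.Hom P = (Cfsg.innerFusionSystem T).Hom P)) : F.IsNormal S ∧ F.focalSubgroup = S ∧ F.hyperfocalSubgroup p = S ∧ ∃ (q : ℕ) (β : MulAut ↥S), q.Prime ∧ q ≠ p ∧ β ∈ F.autGroup S ∧ orderOf β = q ∧ (F.autGroup S : Subgroup (MulAut ↥S)) = Cfsg.Inn ↥S ⊔ Subgroup.zpowers β := by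

  obtain ⟨hni, hxs⟩ := hxs
  -- a subgroup with a `p'`-automorphism
  obtain ⟨P, hPS, hPn, hPnot⟩ : ∃ P : Subgroup Ω, P ≤ S ∧ F.IsFullyNormalized P ∧ ¬ F.autGroup P ≤ autInducedBy S P := by
    by_contra hcon
    push_neg at hcon
    apply hni
    have h1 : F ≤ Cfsg.innerFusionSystem S := by
      apply alperin_essential hS hF
      intro P hP
      have hPn : F.IsFullyNormalized P := by
        rcases hP with rfl | hP
        · exact isFullyNormalized_self
        · exact hP.2.1
      intro α hα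
      have h2 := hcon P hPn.1 hPn hα
      rw [mem_autGroup_iff hPn.1, isMap_inner]
      obtain ⟨g, hg, hg'⟩ := mem_autInducedBy'.1 h2
      exact ⟨hPn.1, g, hg, hg'⟩
    intro P
    exact Set.Subset.antisymm (h1 P) (inner_le F P)
  haveI : Finite P := Finite.Set.subset (S : Set Ω) hPS
  haveI : Finite (MulAut P) := Finite.of_injective (fun a : MulAut P => (a : P → P)) (fun a b h => by
    ext x; exact congrArg Subtype.val (congrFun h x))
  obtain ⟨-, R0, hR0⟩ := sat_fullyAutomized hS hF hPn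
  have hnp : ¬ IsPGroup p (F.autGroup P) := by
    intro h
    apply hPnot
    have h1 : (R0 : Subgroup (F.autGroup P)) = ⊤ := by
      have h2 : IsPGroup p (⊤ : Subgroup (F.autGroup P)) := h.to_subgroup ⊤
      exact (R0.is_maximal' h2 le_top).symm
    intro α hα
    have h3 : (⟨α, hα⟩ : F.autGroup P) ∈ (R0 : Subgroup (F.autGroup P)) := by rw [h1]; trivial
    rw [hR0] at h3
    exact h3
  obtain ⟨⟨γ0, hγ0⟩, hγ0c, hγ01⟩ : ∃ g : F.autGroup P, (orderOf g).Coprime p ∧ g ≠ 1 := by
    by_contra hcon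
    push_neg at hcon
    exact hnp (isPGroup_of_coprime_trivial hcon)
  have hγ0o : orderOf γ0 ≠ 1 := by
    intro h
    apply hγ01
    apply Subtype.ext
    exact orderOf_eq_one_iff.1 h
  have hγ0c' : (orderOf γ0).Coprime p := by
    have : orderOf (⟨γ0, hγ0⟩ : F.autGroup P) = orderOf γ0 := Subgroup.orderOf_mk _ _ 
    rwa [this] at hγ0c
  set q := (orderOf γ0).minFac with hqdef
  have hq : q.Prime := Nat.minFac_prime hγ0o
  have hqd : q ∣ orderOf γ0 := Nat.minFac_dvd _
  have hqp : q ≠ p := by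
    intro h
    rw [h] at hqd
    have := Nat.dvd_gcd hqd (dvd_refl p)
    rw [hγ0c'] at this
    exact (Fact.out : p.Prime).one_lt.ne' (Nat.dvd_one.1 this)
  have hpos : 0 < orderOf γ0 := orderOf_pos γ0
  set γ : MulAut P := γ0 ^ (orderOf γ0 / q) with hγdef
  have hγ : orderOf γ = q := by
    rw [hγdef, orderOf_pow_of_dvd (by
      have := Nat.div_pos (Nat.le_of_dvd hpos hqd) hq.pos
      omega) (Nat.div_dvd_of_dvd hqd), Nat.div_div_self hqd hpos.ne']
  have hγF : γ ∈ F.autGroup P := Subgroup.pow_mem _ hγ0 _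
  have hInnle : ∀ {T : Subgroup Ω}, T ≤ S → Inn T ≤ F.autGroup T := by
    rintro T hT _ ⟨t, rfl⟩
    rw [mem_autGroup_iff hT]
    refine (isMap_conj (F := F) (P := T) hT (hT t.2)).congr ?_
    intro x hx
    rw [ofAut_apply _ hx]; rfl
  obtain ⟨rfl, hEF⟩ := top_of_aut hS hxs hPS hq hqp hγ (by
    intro κ hκ
    refine isMap_ofAut hPS ?_
    exact (sup_le (hInnle hPS) (by rwa [Subgroup.zpowers_le])) hκ)
  have hEq : autSys (Inn P ⊔ Subgroup.zpowers γ) le_sup_left = F :=
    fs_ext (fun Q f => hom_eq_iff.1 (hEF Q) f)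
  have hnorm : F.IsNormal P := by rw [← hEq]; exact autSys_normal
  have haut : F.autGroup P = Inn P ⊔ Subgroup.zpowers γ := by rw [← hEq]; exact autGroup_autSys
  have hγc : (orderOf γ).Coprime p := by
    rw [hγ]; exact (Nat.coprime_primes hq Fact.out).2 hqp
  -- the commutator subgroup `[S, γ]`
  have hhyp : F.hyperfocalSubgroup p = P := by
    set T : Subgroup Ω := Subgroup.closure {y : Ω | ∃ x ∈ P, y = x⁻¹ * ofAut γ x} with hTdef
    have hTP : T ≤ P := by
      rw [hTdef, Subgroup.closure_le]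
      rintro _ ⟨x, hx, rfl⟩
      exact P.mul_mem (P.inv_mem hx) (ofAut_mem _ hx)
    have hTγ : ∀ x ∈ T, ofAut γ x ∈ T := by
      intro x hx
      have hxP := hTP hx
      have h1 : x⁻¹ * ofAut γ x ∈ T := Subgroup.subset_closure ⟨x, hxP, rfl⟩
      have h2 : ofAut γ x = x * (x⁻¹ * ofAut γ x) := by group
      rw [h2]
      exact T.mul_mem hx h1
    haveI : Finite T := Finite.Set.subset (P : Set Ω) hTP
    obtain ⟨β, hβ, hβo⟩ := exists_restrict hTP γ hTγ
    have hβ1 : β ≠ 1 := by
      rintro rfl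
      have h1 : γ = 1 := by
        apply ofAut_injective
        intro x hx
        rw [ofAut_one hx]
        apply ofAut_fix_of_coprime (hS) hγc hx
        have h2 : x⁻¹ * ofAut γ x ∈ T := Subgroup.subset_closure ⟨x, hx, rfl⟩
        rw [← hβ _ h2, ofAut_one h2]
      rw [h1, orderOf_one] at hγ
      exact hq.one_lt.ne hγ
    have hβq : orderOf β = q := by
      rw [hγ] at hβo
      rcases (Nat.dvd_prime hq).1 hβo with h | h
      · exact absurd (orderOf_eq_one_iff.1 h) hβ1
      · exact h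
    obtain ⟨hTP', -⟩ := top_of_aut hS hxs hTP hq hqp hβq (by
      intro κ hκ
      refine isMap_ofAut hTP ?_
      refine (sup_le (hInnle hTP) ?_) hκ
      rw [Subgroup.zpowers_le, mem_autGroup_iff hTP]
      exact ((isMap_ofAut le_rfl hγF).mono hTP).congr fun x hx => (hβ x hx).symm)
    apply le_antisymm hyper_le_S
    refine hTP'.symm.le.trans ?_
    rw [hTdef, Subgroup.closure_le]
    rintro _ ⟨x, hx, rfl⟩
    exact mem_hyper_of_coprime le_rfl hγF hγc hx
  refine ⟨hnorm, ?_, hhyp, q, γ, hq, hqp, hγF, hγ, haut⟩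
  apply le_antisymm
  · apply focal_le
    intro Q f hf x hx
    exact P.mul_mem (P.inv_mem (hf.le hx)) (hf.mem hx)
  · exact hhyp.symm.le.trans hyper_le_focal

end Cfsg.Agent.S5245
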