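import Cfsg.Statements.S5246
import Cfsg.Agent.QdInv.Main
import Cfsg.Agent.Fus.Group
import Cfsg.Agent.H33.Frattini

set_option autoImplicit false
open Cfsg

namespace Cfsg.Agent.S5246


open scoped commutatorElement in
theorem quad_iff {Ω : Type*} [Group Ω] {Q : Subgroup Ω} {g : Ω} (hg : g ∈ Subgroup.normalizer (Q : Set Ω)) :
    ⁅⁅Q, Subgroup.zpowers g⁆, Subgroup.zpowers g⁆ = ⊥ ↔
      ∀ v ∈ Q, Commute g (g * v⁻¹ * g⁻¹ * v) := by
  constructor
  · intro h v hv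
    have h1 := H11.Quad.of_comm h v⁻¹ (inv_mem hv)
    rwa [inv_inv] at h1
  · intro h
    have hk : ∀ k : ℤ, ∀ v ∈ Q, g ^ k * v * (g ^ k)⁻¹ ∈ Q := by
      intro k v hv
      exact (Subgroup.mem_normalizer_iff.1 (zpow_mem hg k) v).1 hv
    have h1 : ∀ v ∈ Q, Commute g (g * v * g⁻¹ * v⁻¹) := by
      intro v hv
      have := h v⁻¹ (inv_mem hv)
      rwa [inv_inv] at this
    have key : ∀ k : ℤ, ∀ v ∈ Q, Commute g (g ^ k * v * (g ^ k)⁻¹ * v⁻¹) := by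
      intro k
      induction k using Int.induction_on with
      | zero => intro v hv; simp
      | succ k ih =>
        intro v hv
        have h2 := (h1 _ (hk k v hv)).mul_right (ih v hv)
        have e : g * (g ^ (k : ℤ) * v * (g ^ (k : ℤ))⁻¹) * g⁻¹ * (g ^ (k : ℤ) * v * (g ^ (k : ℤ))⁻¹)⁻¹ *
            (g ^ (k : ℤ) * v * (g ^ (k : ℤ))⁻¹ * v⁻¹) = g ^ ((k : ℤ) + 1) * v * (g ^ ((k : ℤ) + 1))⁻¹ * v⁻¹ := by
          rw [zpow_add, zpow_one]
          have : g ^ (k : ℤ) * g = g * g ^ (k : ℤ) := ((Commute.refl g).zpow_left k).eq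
          rw [this]; group
        rwa [e] at h2
      | pred k ih =>
        intro v hv
        have h2 := (h1 _ (hk (-(k : ℤ) - 1) v hv)).inv_right.mul_right (ih v hv)
        have e : (g * (g ^ (-(k : ℤ) - 1) * v * (g ^ (-(k : ℤ) - 1))⁻¹) * g⁻¹ *
            (g ^ (-(k : ℤ) - 1) * v * (g ^ (-(k : ℤ) - 1))⁻¹)⁻¹)⁻¹ *
            (g ^ (-(k : ℤ)) * v * (g ^ (-(k : ℤ)))⁻¹ * v⁻¹) =
            g ^ (-(k : ℤ) - 1) * v * (g ^ (-(k : ℤ) - 1))⁻¹ * v⁻¹ := by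
          have e1 : g ^ (-(k : ℤ)) = g * g ^ (-(k : ℤ) - 1) := by
            rw [← zpow_one_add]; congr 1; ring
          rw [e1]; group
        rwa [e] at h2
    rw [Subgroup.commutator_eq_bot_iff_le_centralizer, Subgroup.commutator_le]
    rintro v hv _ ⟨k, rfl⟩
    apply Subgroup.mem_centralizer_iff.2
    rintro _ ⟨l, rfl⟩
    have h2 := (key k v hv).inv_right.zpow_left l
    have e : (g ^ k * v * (g ^ k)⁻¹ * v⁻¹)⁻¹ = ⁅v, g ^ k⁆ := by
      rw [commutatorElement_def]; group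
    rw [e] at h2
    exact h2.eq

theorem pCore_iff {N B B' : Type*} [Group N] [Group B] [Group B'] (p : ℕ) (f : N →* B) (f' : N →* B')
    (hf : Function.Surjective f) (hf' : Function.Surjective f') (hk : f.ker = f'.ker) (g : N)
    (h : f g ∈ pCore p B) : f' g ∈ pCore p B' := by
  let D : Subgroup N := (pCore p B).comap f
  have hD : D.Normal := inferInstance
  have h1 : D.map f' ≤ pCore p B' := by
    apply Cfsg.Agent.Solv.le_pCore (hD.map f' hf')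
    rintro ⟨_, d, hd, rfl⟩
    obtain ⟨k, hk1⟩ := Cfsg.Agent.Solv.pCore_isPGroup p ⟨f d, hd⟩
    refine ⟨k, Subtype.ext ?_⟩
    have h2 : f d ^ p ^ k = 1 := congrArg Subtype.val hk1
    have h3 : d ^ p ^ k ∈ f.ker := by rw [MonoidHom.mem_ker, map_pow, h2]
    rw [hk, MonoidHom.mem_ker, map_pow] at h3
    exact h3
  exact h1 ⟨g, h, rfl⟩

/-- the action on `Q` -/
def act {Ω : Type*} [Group Ω] (Q : Subgroup Ω) : ↥(Subgroup.normalizer (Q : Set Ω)) →* MulAut ↥Q :=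
  Q.normalizerMonoidHom

theorem act_apply {Ω : Type*} [Group Ω] (Q : Subgroup Ω) (n : ↥(Subgroup.normalizer (Q : Set Ω))) (x : ↥Q) :
    ((act Q n x : ↥Q) : Ω) = n * x * (n : Ω)⁻¹ := rfl

theorem act_ker {Ω : Type*} [Group Ω] (Q : Subgroup Ω) :
    (act Q).ker = (Subgroup.centralizer (Q : Set Ω)).subgroupOf (Subgroup.normalizer (Q : Set Ω)) := by
  ext n
  rw [MonoidHom.mem_ker, Subgroup.mem_subgroupOf, Subgroup.mem_centralizer_iff]
  constructor
  · intro h y hy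
    have h1 := congrArg Subtype.val (DFunLike.congr_fun h (⟨y, hy⟩ : ↥Q))
    have h2 : (n : Ω) * y * (n : Ω)⁻¹ = y := h1
    calc y * (n : Ω) = ((n : Ω) * y * (n : Ω)⁻¹) * n := by rw [h2]
      _ = n * y := by group
  · intro h
    ext y
    have h1 := h y y.2
    show (n : Ω) * y * (n : Ω)⁻¹ = y
    rw [← h1]; group

theorem autGroup_eq {Ω : Type*} [Group Ω] (S : Subgroup Ω) {Q : Subgroup Ω} (hQ : Q ≤ S) :
    (Cfsg.groupFusionSystem S).autGroup Q = (act Q).range := by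
  rw [Cfsg.Agent.Fus.groupFusionSystem_eq, Cfsg.Agent.Fus.autGroup_fsos hQ]
  ext α
  rw [Cfsg.Agent.Fus.mem_autInducedBy', MonoidHom.mem_range]
  constructor
  · rintro ⟨g, -, h⟩
    refine ⟨⟨g, Cfsg.Agent.Fus.mem_normalizer_of_ofAut h⟩, Cfsg.Agent.Fus.ofAut_injective fun x hx => ?_⟩
    rw [h x hx, Cfsg.Agent.Fus.ofAut_apply _ hx]; rfl
  · rintro ⟨n, rfl⟩
    refine ⟨n, trivial, fun x hx => ?_⟩
    rw [Cfsg.Agent.Fus.ofAut_apply _ hx]; rfl

theorem formula_iff {Ω : Type*} [Group Ω] {Q : Subgroup Ω} (n : ↥(Subgroup.normalizer (Q : Set Ω))) :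
    (∀ a : ↥Q, (act Q n a⁻¹) * a * (act Q n a⁻¹) * (act Q n (act Q n a)) = 1) ↔
      ∀ v ∈ Q, Commute (n : Ω) (n * v⁻¹ * (n : Ω)⁻¹ * v) := by
  have key : ∀ a : ↥Q, (act Q n a⁻¹) * a * (act Q n a⁻¹) * (act Q n (act Q n a)) = 1 ↔
      Commute (n : Ω) (n * (a : Ω)⁻¹ * (n : Ω)⁻¹ * a) := by
    intro a
    rw [Subtype.ext_iff]
    have e : (((act Q n a⁻¹) * a * (act Q n a⁻¹) * (act Q n (act Q n a)) : ↥Q) : Ω) =
        (n * (a : Ω)⁻¹ * (n : Ω)⁻¹ * a) * n * (n * (a : Ω)⁻¹ * (n : Ω)⁻¹ * a)⁻¹ * (n : Ω)⁻¹ := by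
      show (n : Ω) * (a : Ω)⁻¹ * (n : Ω)⁻¹ * a * (n * (a : Ω)⁻¹ * (n : Ω)⁻¹) *
        (n * (n * a * (n : Ω)⁻¹) * (n : Ω)⁻¹) = _
      group
    rw [e]
    show _ = (1 : Ω) ↔ _
    rw [mul_inv_eq_one, mul_inv_eq_iff_eq_mul]
    exact ⟨fun h => h.symm, fun h => h.eq.symm⟩
  exact ⟨fun h v hv => (key ⟨v, hv⟩).1 (h ⟨v, hv⟩), fun h a => (key a).2 (h a a.2)⟩

/-- the stability statement at a pair -/
def Stb (p : ℕ) {Ω : Type*} [Group Ω] (Q : Subgroup Ω) : Prop :=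
  ∀ n : ↥(Subgroup.normalizer (Q : Set Ω)), (∀ v ∈ Q, Commute (n : Ω) (n * v⁻¹ * (n : Ω)⁻¹ * v)) →
    (act Q).rangeRestrict n ∈ pCore p ↥(act Q).range

theorem stb_iff_quot (p : ℕ) {Ω : Type*} [Group Ω] (Q : Subgroup Ω)
    (n : ↥(Subgroup.normalizer (Q : Set Ω))) :
    (act Q).rangeRestrict n ∈ pCore p ↥(act Q).range ↔
      (QuotientGroup.mk (s := (Subgroup.centralizer (Q : Set Ω)).subgroupOf (Subgroup.normalizer (Q : Set Ω)))
          n) ∈ pCore p (↥(Subgroup.normalizer (Q : Set Ω)) ⧸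
          (Subgroup.centralizer (Q : Set Ω)).subgroupOf (Subgroup.normalizer (Q : Set Ω))) := by
  have hk : (act Q).rangeRestrict.ker = (QuotientGroup.mk' ((Subgroup.centralizer (Q : Set Ω)).subgroupOf
      (Subgroup.normalizer (Q : Set Ω)))).ker := by
    rw [MonoidHom.ker_rangeRestrict, act_ker, QuotientGroup.ker_mk']
  constructor
  · intro h
    exact pCore_iff p _ (QuotientGroup.mk' _) (MonoidHom.rangeRestrict_surjective _)
      (QuotientGroup.mk'_surjective _) hk n h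
  · intro h
    exact pCore_iff p (QuotientGroup.mk' _) _
      (QuotientGroup.mk'_surjective _) (MonoidHom.rangeRestrict_surjective _) hk.symm n h

theorem stb_iff (p : ℕ) {Ω : Type*} [Group Ω] :
    IsNormalizerPStable p Ω ↔ ∀ Q : Subgroup Ω, IsPGroup p Q → Stb p Q := by
  constructor
  · intro h Q hQ n hn
    rw [stb_iff_quot]
    exact h Q hQ n n.2 ((quad_iff n.2).2 hn)
  · intro h Q hQ g hg hq
    have := h Q hQ ⟨g, hg⟩ ((quad_iff hg).1 hq)
    rwa [stb_iff_quot] at this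

theorem fus_iff (p : ℕ) {Ω : Type*} [Group Ω] (S : Subgroup Ω) {Q : Subgroup Ω} (hQ : Q ≤ S) :
    Stb p Q ↔ (∀ χ : MulAut ↥Q, χ ∈ (Cfsg.groupFusionSystem S).autGroup Q →
      (∀ a : ↥Q, (χ a⁻¹) * a * (χ a⁻¹) * (χ (χ a)) = 1) →
      χ ∈ ((Cfsg.pCore p ↥((Cfsg.groupFusionSystem S).autGroup Q)).map
        ((Cfsg.groupFusionSystem S).autGroup Q).subtype : Subgroup (MulAut ↥Q))) := by
  rw [autGroup_eq S hQ]
  constructor
  · rintro h χ ⟨n, rfl⟩ hχ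
    exact ⟨_, h n ((formula_iff n).1 hχ), rfl⟩
  · intro h n hn
    obtain ⟨x, hx, hx1⟩ := h (act Q n) ⟨n, rfl⟩ ((formula_iff n).2 hn)
    have : x = (act Q).rangeRestrict n := Subtype.ext hx1
    rwa [← this]

theorem stb_cj (p : ℕ) {Ω : Type*} [Group Ω] (Q : Subgroup Ω) (y : Ω) (h : Stb p (H33.cj y Q)) : Stb p Q := by
  intro n hn
  have hN : ∀ m ∈ Subgroup.normalizer (Q : Set Ω),
      y * m * y⁻¹ ∈ Subgroup.normalizer ((H33.cj y Q : Subgroup Ω) : Set Ω) := by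
    intro m hm
    rw [← H33.cj_normalizer]
    exact H33.conj_mem_cj hm
  let e : ↥(Subgroup.normalizer (Q : Set Ω)) →* ↥(Subgroup.normalizer ((H33.cj y Q : Subgroup Ω) : Set Ω)) :=
    ((MulAut.conj y).toMonoidHom.comp (Subgroup.normalizer (Q : Set Ω)).subtype).codRestrict _
      (fun m => hN m m.2)
  have he : Function.Surjective e := by
    rintro ⟨m, hm⟩
    have hm' := hm
    rw [← H33.cj_normalizer, H33.mem_cj] at hm'
    refine ⟨⟨y⁻¹ * m * y, hm'⟩, Subtype.ext ?_⟩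
    show y * (y⁻¹ * m * y) * y⁻¹ = m
    group
  have h1 := h (e n) (by
    intro v hv
    rw [H33.mem_cj] at hv
    have h2 := (hn _ hv).map (MulAut.conj y).toMonoidHom
    have e1 : (MulAut.conj y).toMonoidHom ((n : Ω) * (y⁻¹ * v * y)⁻¹ * (n : Ω)⁻¹ * (y⁻¹ * v * y)) =
        (e n : Ω) * v⁻¹ * (e n : Ω)⁻¹ * v := by
      show y * ((n : Ω) * (y⁻¹ * v * y)⁻¹ * (n : Ω)⁻¹ * (y⁻¹ * v * y)) * y⁻¹ =
        (y * n * y⁻¹) * v⁻¹ * (y * n * y⁻¹)⁻¹ * v
      group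
    rw [e1] at h2
    exact h2)
  refine pCore_iff p ((act (H33.cj y Q)).rangeRestrict.comp e) _
    ((MonoidHom.rangeRestrict_surjective _).comp he) (MonoidHom.rangeRestrict_surjective _) ?_ n h1
  rw [MonoidHom.ker_rangeRestrict, act_ker, ← MonoidHom.comap_ker, MonoidHom.ker_rangeRestrict, act_ker]
  ext m
  rw [Subgroup.mem_comap, Subgroup.mem_subgroupOf, Subgroup.mem_subgroupOf, ← H33.cj_centralizer, H33.mem_cj]
  have e1 : y⁻¹ * (e m : Ω) * y = m := by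
    show y⁻¹ * (y * m * y⁻¹) * y = m
    group
  rw [e1]


/-- Let p be an odd prime, G a finite group and P a Sylow p-subgroup. Call a fusion system F p-stable when, for every fully normalized subgroup Q and every χ ∈ Aut_F(Q) acting quadratically on Q (that is, χ fixes a⁻¹χ(a) for every a ∈ Q; equivalently χ(a⁻¹)·a·χ(a⁻¹)·χ(χ(a)) = 1), χ lies in O_p(Aut_F(Q)). Then G is p-stable in the normalizer form (for every p-subgroup Q and x ∈ N_G(Q) with [Q, x, x] = 1, the image of x lies in O_p(N_G(Q)/C_G(Q))) if and only if the fusion system of G on P is p-stable. -/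
theorem result {Ω : Type*} [Group Ω] [Finite Ω] {p : ℕ} [Fact p.Prime] (hp : p ≠ 2) (P : Sylow p Ω) : Cfsg.IsNormalizerPStable p Ω ↔ (∀ Q : Subgroup Ω, (Cfsg.groupFusionSystem (P : Subgroup Ω)).IsFullyNormalized Q → ∀ χ : MulAut ↥Q, χ ∈ (Cfsg.groupFusionSystem (P : Subgroup Ω)).autGroup Q → (∀ a : ↥Q, (χ a⁻¹) * a * (χ a⁻¹) * (χ (χ a)) = 1) → χ ∈ ((Cfsg.pCore p ↥((Cfsg.groupFusionSystem (P : Subgroup Ω)).autGroup Q)).map ((Cfsg.groupFusionSystem (P : Subgroup Ω)).autGroup Q).subtype : Subgroup (MulAut ↥Q))) := by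

  rw [stb_iff]
  constructor
  · intro h Q hQ
    have hQP := hQ.1
    exact (fus_iff p (P : Subgroup Ω) hQP).1 (h Q (P.2.to_le hQP))
  · intro h Q hQ
    obtain ⟨y, hy1, hy2⟩ := H33.exists_cj_isSyl P (H := Subgroup.normalizer (Q : Set Ω))
      Subgroup.le_normalizer hQ
    rw [H33.cj_normalizer] at hy2
    apply stb_cj p Q y
    refine (fus_iff p (P : Subgroup Ω) hy1).2 (h _ ?_)
    exact (Cfsg.Agent.Fus.fullyNormalized_group_iff P hy1).2 hy2

end Cfsg.Agent.S5246
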