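import Cfsg.Statements.S5247
import Cfsg.Agent.H72.PStable
import Cfsg.Agent.Fus.Chain

set_option autoImplicit false
open Cfsg

namespace Cfsg.Agent.S5247

open Cfsg.Agent.Fus Cfsg.Agent.H72 Cfsg.FusionSystem

/-- Quadratic automorphisms of cyclic `p`-groups lie in `O_p`. -/
theorem cyclic_case {Ω : Type*} [Group Ω] {S : Subgroup Ω} [Finite S] {p : ℕ} [Fact p.Prime] (hS : IsPGroup p S)
    {F : FusionSystem S} {Q : Subgroup Ω} (hQ : Q ≤ S) (hc : IsCyclic Q) {χ : MulAut ↥Q} (hχ : χ ∈ F.autGroup Q)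
    (hq : Quad χ) : χ ∈ ((Cfsg.pCore p ↥(F.autGroup Q)).map (F.autGroup Q).subtype : Subgroup (MulAut ↥Q)) := by
  have hcomm : ∀ a b : Q, a * b = b * a := fun a b => hc.commGroup.mul_comm a b
  have hcommA : ∀ a b : MulAut Q, a * b = b * a := by
    intro a b
    obtain ⟨m, hm⟩ := MonoidHom.map_cyclic a.toMonoidHom
    obtain ⟨n, hn⟩ := MonoidHom.map_cyclic b.toMonoidHom
    ext x
    have h1 : a (b x) = b (a x) := by
      have e1 := hm (b x)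
      have e2 := hn x
      have e3 := hn (a x)
      have e4 := hm x
      simp only [MulEquiv.coe_toMonoidHom] at e1 e2 e3 e4
      rw [e1, e3, e2, e4, ← zpow_mul, ← zpow_mul, mul_comm]
    exact congrArg Subtype.val h1
  haveI : Finite Q := Finite.Set.subset (S : Set Ω) hQ
  obtain ⟨k, hk⟩ := IsPGroup.iff_card.1 (hS.to_le hQ)
  have hpow : χ ^ p ^ k = 1 := by
    apply ofAut_injective
    intro x hx
    have h1 : ofAut χ (x⁻¹ * ofAut χ x) = x⁻¹ * ofAut χ x := by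
      have h2 := hq ⟨x, hx⟩
      have h3 : χ ((⟨x, hx⟩ : Q)⁻¹ * χ ⟨x, hx⟩) = (⟨x, hx⟩ : Q)⁻¹ * χ ⟨x, hx⟩ := by
        rw [map_mul]
        have h4 : χ (χ ⟨x, hx⟩) = χ ⟨x, hx⟩ * χ ⟨x, hx⟩ * (⟨x, hx⟩ : Q)⁻¹ := by
          have h5 : (χ ⟨x, hx⟩)⁻¹ * ⟨x, hx⟩ * (χ ⟨x, hx⟩)⁻¹ * χ (χ ⟨x, hx⟩) = 1 := by
            rw [← map_inv]; exact h2
          have h6 := eq_inv_of_mul_eq_one_right h5
          rw [h6]
          rw [mul_inv_rev, mul_inv_rev, inv_inv, hcomm (χ ⟨x, hx⟩) ((⟨x, hx⟩ : Q)⁻¹ * χ ⟨x, hx⟩),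
            mul_assoc, hcomm _ (χ ⟨x, hx⟩ * χ ⟨x, hx⟩)]
        rw [h4, map_inv, ← mul_assoc, ← mul_assoc, inv_mul_cancel, one_mul, hcomm]
      have h4 := congrArg Subtype.val h3
      rw [ofAut_apply χ hx]
      have h5 : x⁻¹ * ((χ ⟨x, hx⟩ : Q) : Ω) = (((⟨x, hx⟩ : Q)⁻¹ * χ ⟨x, hx⟩ : Q) : Ω) := rfl
      rw [h5, ofAut_apply χ (Subtype.prop _)]
      exact h4
    rw [ofAut_pow_of_fix χ hx h1, ofAut_one hx]
    have h2 : x⁻¹ * ofAut χ x ∈ Q := Q.mul_mem (Q.inv_mem hx) (ofAut_mem _ hx)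
    have h3 : (⟨_, h2⟩ : Q) ^ p ^ k = 1 := by rw [← hk]; exact pow_card_eq_one'
    have h4 : (x⁻¹ * ofAut χ x) ^ p ^ k = 1 := congrArg Subtype.val h3
    rw [h4, mul_one]
  refine mem_coreMap_iff.2 ⟨Subgroup.zpowers χ, by rwa [Subgroup.zpowers_le], ?_, ?_, Subgroup.mem_zpowers χ⟩
  · exact isPGroup_zpowers_of_pow hpow
  · intro a _ n hn
    rw [hcommA a n, mul_inv_cancel_right]
    exact hn

/-- Let p be an odd prime and F a saturated fusion system over a finite p-group S. Call a fusion system E (over any subgroup) p-stable when, for every fully E-normalized subgroup Q and every χ ∈ Aut_E(Q) with χ(a⁻¹)·a·χ(a⁻¹)·χ(χ(a)) = 1 for all a ∈ Q (χ acts quadratically), χ lies in O_p(Aut_E(Q)). Then F is p-stable if and only if every normalizer fusion system N_F(R) of every non-cyclic fully F-normalized subgroup R of S is p-stable. -/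
theorem result {Ω : Type*} [Group Ω] {S : Subgroup Ω} [Finite S] (p : ℕ) [Fact p.Prime] (hS : IsPGroup p S) (F : Cfsg.FusionSystem S) (hF : F.IsSaturated p) (hp : p ≠ 2) : (∀ Q : Subgroup Ω, F.IsFullyNormalized Q → ∀ χ : MulAut ↥Q, χ ∈ F.autGroup Q → (∀ a : ↥Q, (χ a⁻¹) * a * (χ a⁻¹) * (χ (χ a)) = 1) → χ ∈ ((Cfsg.pCore p ↥(F.autGroup Q)).map (F.autGroup Q).subtype : Subgroup (MulAut ↥Q))) ↔ ∀ R : Subgroup Ω, F.IsFullyNormalized R → ¬ IsCyclic ↥R → ∀ N : Cfsg.FusionSystem (Cfsg.FusionSystem.normalizerIn S R), F.IsNormalizerSystem R N → (∀ Q : Subgroup Ω, N.IsFullyNormalized Q → ∀ χ : MulAut ↥Q, χ ∈ N.autGroup Q → (∀ a : ↥Q, (χ a⁻¹) * a * (χ a⁻¹) * (χ (χ a)) = 1) → χ ∈ ((Cfsg.pCore p ↥(N.autGroup Q)).map (N.autGroup Q).subtype : Subgroup (MulAut ↥Q))) := by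

  constructor
  · intro h R hR _ N hN
    have h1 : PStab p F := h
    have h2 : PStab p N := pstab_sub (fun P => by
      rw [hN P]
      intro φ hφ
      exact hφ.1) h1
    exact h2
  · intro h Q hQ χ hχ hq
    by_cases hc : IsCyclic Q
    · exact cyclic_case hS hQ.1 hc hχ hq
    · obtain ⟨N, hN⟩ := exists_isNormalizerSystem F hQ.1
      exact core_of_norm (Q := Q) (R := Q) le_rfl hQ.1 (fun α hα => ⟨α, hα, fun _ _ => rfl⟩) hN (h Q hQ hc N hN) hχ hq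

end Cfsg.Agent.S5247
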