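import Cfsg.Statements.S5249
import Cfsg.Agent.H32.ZJControl
import Cfsg.Agent.Fus.Quot
import Cfsg.Agent.Fus.Group
import Cfsg.Agent.Fus.Radical

set_option autoImplicit false
open Cfsg

namespace Cfsg.Agent.S5249

open Cfsg.Agent.Fus
open Cfsg.FusionSystem

/-- the key construction: a subgroup `U > R` of `P` whose normalizer controls fusion modulo `R`. -/
theorem exists_U {G : Type*} [Group G] [Finite G] {p : ℕ} [Fact p.Prime] (hp : p ≠ 2)
    (hqd : ¬ Cfsg.Involves ↥(Cfsg.qd p) G) (P : Sylow p G) (R : Subgroup G) (hRP : R ≤ (P : Subgroup G))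
    (hne : R ≠ (P : Subgroup G)) (hPR : (P : Subgroup G) ≤ Subgroup.normalizer (R : Set G)) :
    ∃ U : Subgroup G, R < U ∧ U ≤ (P : Subgroup G) ∧ ∀ A : Subgroup G, R ≤ A → A ≤ (P : Subgroup G) →
      ∀ g ∈ Subgroup.normalizer (R : Set G), (∀ a ∈ A, g * a * g⁻¹ ∈ (P : Subgroup G)) →
      ∃ n ∈ Subgroup.normalizer (U : Set G), ∀ a ∈ A, (n * a * n⁻¹) * (g * a * g⁻¹)⁻¹ ∈ R := by
  obtain ⟨N, hN⟩ : ∃ N, N = Subgroup.normalizer (R : Set G) := ⟨_, rfl⟩
  rw [← hN] at hPR
  have hRN : R ≤ N := by rw [hN]; exact Subgroup.le_normalizer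
  haveI hRn : (R.subgroupOf N).Normal := by
    rw [hN]; infer_instance
  let f : N →* N ⧸ R.subgroupOf N := QuotientGroup.mk' (R.subgroupOf N)
  have hfs : Function.Surjective f := QuotientGroup.mk'_surjective _
  have hker : f.ker = R.subgroupOf N := QuotientGroup.ker_mk' _
  have hfam := H32.ZJControl.family_of_qd_free hp hqd (N ⧸ R.subgroupOf N)
    ((H2.Sec.quotient (R.subgroupOf N)).trans (H2.Sec.subgroup N))
  obtain ⟨T, hT⟩ : ∃ T, T = ((P : Subgroup G).subgroupOf N).map f := ⟨_, rfl⟩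
  have hPsyl : H33.IsSyl p ((P : Subgroup G).subgroupOf N) ⊤ := by
    let P' : Sylow p N := P.subtype hPR
    have := H33.isSyl_top P'
    exact this
  have hTs : H33.IsSyl p T ⊤ := by
    have := H33.IsSyl.map hPsyl f
    rwa [← MonoidHom.range_eq_map, MonoidHom.range_eq_top_of_surjective _ hfs, ← hT] at this
  have hTne : T ≠ ⊥ := by
    intro h
    rw [hT, Subgroup.map_eq_bot_iff, hker] at h
    apply hne
    apply le_antisymm hRP
    intro x hx
    exact h (show (⟨x, hPR hx⟩ : N) ∈ (P : Subgroup G).subgroupOf N from hx)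
  have hWT := H32.ZJControl.centerThompsonAOf_le T
  have hWne := H32.ZJControl.centerThompsonAOf_ne_bot hp hTs.2.1 hTne
  obtain ⟨W, hW⟩ : ∃ W, W = Cfsg.centerThompsonAOf T := ⟨_, rfl⟩
  rw [← hW] at hWT hWne
  obtain ⟨U, hU⟩ : ∃ U : Subgroup G, U = (W.comap f).map N.subtype := ⟨_, rfl⟩
  have memU : ∀ x (hx : x ∈ N), x ∈ U ↔ f ⟨x, hx⟩ ∈ W := by
    intro x hx
    rw [hU]
    constructor
    · rintro ⟨y, hy, rfl⟩; exact hy
    · intro h; exact ⟨⟨x, hx⟩, h, rfl⟩
  have hUN : U ≤ N := by rw [hU]; exact Subgroup.map_subtype_le _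
  have memT : ∀ x (hx : x ∈ N), f ⟨x, hx⟩ ∈ T → x ∈ (P : Subgroup G) := by
    intro x hx h
    rw [hT] at h
    obtain ⟨y, hy, hyx⟩ := h
    have h1 : y⁻¹ * ⟨x, hx⟩ ∈ f.ker := by
      rw [MonoidHom.mem_ker, map_mul, map_inv, hyx, inv_mul_cancel]
    rw [hker] at h1
    have h2 : (y : G)⁻¹ * x ∈ R := h1
    have h3 := (P : Subgroup G).mul_mem hy (hRP h2)
    simpa using h3
  have hUP : U ≤ (P : Subgroup G) := fun x hx => memT x (hUN hx) (hWT ((memU x (hUN hx)).1 hx))
  have hRU : R ≤ U := by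
    intro x hx
    rw [memU x (hRN hx)]
    have : f ⟨x, hRN hx⟩ = 1 := by
      rw [← MonoidHom.mem_ker, hker]; exact hx
    rw [this]; exact W.one_mem
  refine ⟨U, lt_of_le_of_ne hRU ?_, hUP, ?_⟩
  · intro he
    apply hWne
    rw [eq_bot_iff]
    intro w hw
    obtain ⟨x, rfl⟩ := hfs w
    have h1 : (x : G) ∈ U := (memU x x.2).2 hw
    rw [← he] at h1
    rw [Subgroup.mem_bot, ← MonoidHom.mem_ker, hker]
    exact h1
  · intro A hRA hAP g hg hgA
    rw [← hN] at hg
    have hAN : A ≤ N := hAP.trans hPR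
    obtain ⟨x, hx, hxa⟩ := H32.ZJControl.exists_mem_of_family hp hfam hTs
      (A := (A.subgroupOf N).map f) (g := f ⟨g, hg⟩) (by
        rw [hT]; exact Subgroup.map_mono (Subgroup.comap_mono hAP)) (by
        rw [H33.cj_le_iff]
        rintro _ ⟨a, ha, rfl⟩
        rw [hT, ← map_mul, ← map_inv, ← map_mul]
        exact ⟨⟨g, hg⟩ * a * ⟨g, hg⟩⁻¹, hgA a ha, rfl⟩)
    obtain ⟨n, rfl⟩ := hfs x
    refine ⟨n, ?_, ?_⟩
    · rw [← hW] at hx
      apply Subgroup.mem_normalizer_fintype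
      intro u hu
      have huN := hUN hu
      have h1 : (n : G) * u * (n : G)⁻¹ ∈ N := N.mul_mem (N.mul_mem n.2 huN) (N.inv_mem n.2)
      show (n : G) * u * (n : G)⁻¹ ∈ U
      rw [memU _ h1]
      have h2 : f ⟨(n : G) * u * (n : G)⁻¹, h1⟩ = f n * f ⟨u, huN⟩ * (f n)⁻¹ := by
        rw [← map_mul, ← map_inv, ← map_mul]; rfl
      rw [h2]
      exact (Subgroup.mem_normalizer_iff.1 hx _).1 ((memU u huN).1 hu)
    · intro a ha
      have h1 := hxa (f ⟨a, hAN ha⟩) ⟨⟨a, hAN ha⟩, ha, rfl⟩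
      have h2 : (n * ⟨a, hAN ha⟩ * n⁻¹) * (⟨g, hg⟩ * ⟨a, hAN ha⟩ * (⟨g, hg⟩ : N)⁻¹)⁻¹ ∈ f.ker := by
        rw [MonoidHom.mem_ker]
        simp only [map_mul, map_inv] at h1 ⊢
        rw [h1, mul_inv_cancel]
      rw [hker] at h2
      exact h2

/-- Let p be an odd prime, G a finite group in which Qd(p) (the natural semidirect product of an elementary abelian group of order p² by SL₂(p)) is not involved, and P a Sylow p-subgroup of G. Then the fusion system of G on P is a solvable fusion system. -/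
theorem result {G : Type*} [Group G] [Finite G] {p : ℕ} [Fact p.Prime] (hp : p ≠ 2) (hqd : ¬ Cfsg.Involves ↥(Cfsg.qd p) G) (P : Sylow p G) : (Cfsg.groupFusionSystem (P : Subgroup G)).IsSolvableSystem := by
  intro R hR hne hn E hE
  have hfac : IsFac (Cfsg.groupFusionSystem (P : Subgroup G)) R (QuotientGroup.mk' (R.subgroupOf (P : Subgroup G))) E :=
    isFac_of_isFactorSystem hR hE
  have hPR : (P : Subgroup G) ≤ Subgroup.normalizer (R : Set G) :=
    (Subgroup.normal_subgroupOf_iff_le_normalizer hR.1).1 hn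
  obtain ⟨U, hRU, hUP, hctl⟩ := exists_U hp hqd P R hR.1 hne hPR
  let θ := QuotientGroup.mk' (R.subgroupOf (P : Subgroup G))
  have hnorm : E.IsNormal (imageAlong θ U) := by
    rw [isNormal_iff]
    refine ⟨hfac.im_le U, fun P' f' hf' => ?_⟩
    obtain ⟨f, hf, hind⟩ := hfac.lift hf'
    obtain ⟨A, hA⟩ : ∃ A, A = preimageAlong θ P' := ⟨_, rfl⟩
    have hAdef := hA
    change A = preimageAlong (QuotientGroup.mk' (R.subgroupOf (P : Subgroup G))) P' at hA
    rw [← hA] at hf hind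
    have hRA : R ≤ A := by rw [hA]; exact hfac.le_pre P'
    obtain ⟨hAP, hfA, g, hg⟩ := isMap_group.1 hf
    have hgR : g ∈ Subgroup.normalizer (R : Set G) := by
      apply Subgroup.mem_normalizer_fintype
      intro x hx
      show g * x * g⁻¹ ∈ R
      rw [← hg x (hRA hx)]
      exact sc_map_mem hR hf (hRA hx) hx
    obtain ⟨n, hnU, hnA⟩ := hctl A hRA hAP g hgR (fun a ha => by rw [← hg a ha]; exact hfA a ha)
    have hnA' : ∀ a ∈ A, n * a * n⁻¹ ∈ (P : Subgroup G) := by
      intro a ha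
      have h1 := (P : Subgroup G).mul_mem (hR.1 (hnA a ha)) (hfA a ha)
      rw [hg a ha] at h1
      have e : (n * a * n⁻¹) * (g * a * g⁻¹)⁻¹ * (g * a * g⁻¹) = n * a * n⁻¹ := by group
      rwa [e] at h1
    have hnU' : ∀ u ∈ U, n * u * n⁻¹ ∈ U := fun u hu => (Subgroup.mem_normalizer_iff.1 hnU u).1 hu
    have hAU : A ⊔ U ≤ (P : Subgroup G) := sup_le hAP hUP
    have hmapn : IsMap (Cfsg.groupFusionSystem (P : Subgroup G)) (A ⊔ U) (fun x => n * x * n⁻¹) := by
      rw [isMap_group]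
      refine ⟨hAU, ?_, n, fun x _ => rfl⟩
      have h1 : A ⊔ U ≤ ((P : Subgroup G)).comap (MulAut.conj n).toMonoidHom :=
        sup_le (fun a ha => hnA' a ha) (fun u hu => hUP (hnU' u hu))
      exact fun x hx => h1 hx
    obtain ⟨g', hg', hind'⟩ := hfac.induce hmapn (hRA.trans le_sup_left)
    have him : imageAlong θ (A ⊔ U) = P' ⊔ imageAlong θ U := by
      have h1 : imageAlong θ A = P' := by rw [hAdef]; exact hfac.im_pre hf'.le
      rw [← h1]
      show ((A ⊔ U).subgroupOf (P : Subgroup G)).map θ = (A.subgroupOf (P : Subgroup G)).map θ ⊔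
        (U.subgroupOf (P : Subgroup G)).map θ
      rw [Subgroup.subgroupOf_sup hAP hUP, Subgroup.map_sup]
    refine ⟨g', ?_, ?_, ?_⟩
    · rw [← him]; exact hg'
    · intro y hy
      have h1 : imageAlong θ A = P' := by rw [hAdef]; exact hfac.im_pre hf'.le
      rw [← h1] at hy
      obtain ⟨a, ha, haP, rfl⟩ := (mem_imageAlong θ).1 hy
      have e1 := hind' a (le_sup_left (a := A) ha)
      have e2 := hind a ha
      refine e1.trans (Eq.trans ?_ e2.symm)
      rw [hg a ha]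
      exact (hfac.eq_iff (hnA' a ha) (by rw [← hg a ha]; exact hfA a ha)).2 (hnA a ha)
    · have hmapU := hmapn.mono (le_sup_right (a := A) (b := U))
      have hg'U := hg'.mono (imageAlong_mono θ (le_sup_right (a := A) (b := U)))
      have h2 := hfac.img_ind hmapU hg'U (fun x hx => hind' x (le_sup_right (a := A) hx))
      refine h2.trans ?_
      congr 1
      apply le_antisymm
      · rw [hmapU.img_le_iff]; exact hnU'
      · intro u hu
        rw [hmapU.mem_img]
        refine ⟨n⁻¹ * u * n, ?_, by group⟩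
        have := (Subgroup.mem_normalizer_iff.1 (Subgroup.inv_mem _ hnU) u).1 hu
        simpa using this
  intro hbot
  have hle : imageAlong θ U ≤ E.core := le_sSup hnorm
  rw [hbot, le_bot_iff] at hle
  apply hRU.not_ge
  intro u hu
  have h1 : ext θ u ∈ imageAlong θ U := ext_mem_imageAlong θ hUP hu
  rw [hle, Subgroup.mem_bot] at h1
  exact (hfac.ker u (hUP hu)).1 h1

end Cfsg.Agent.S5249
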