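import Cfsg.Statements.S5251
import Cfsg.Agent.Fus.TCenNR

set_option autoImplicit false
open Cfsg

namespace Cfsg.Agent.S5251

open Cfsg.Agent.Fus Cfsg.FusionSystem

/-- Let F be a saturated fusion system over a finite p-group S, E a normal subsystem of F over T, and P an F-centric subgroup of S such that P ∩ T is not E-centric. Then some F-conjugate P* of P satisfies Out_S(P*) ∩ O_p(Out_F(P*)) ≠ 1: there is an element of N_S(P*) outside P* whose conjugation action on P* lies in O_p(Aut_F(P*)). In particular P is not both centric and radical in F. -/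
theorem result {Ω : Type*} [Group Ω] {S : Subgroup Ω} [Finite S] (p : ℕ) [Fact p.Prime] (hS : IsPGroup p S) (F : Cfsg.FusionSystem S) (hF : F.IsSaturated p) {T : Subgroup Ω} (E : Cfsg.FusionSystem T) (hE : E.IsNormalIn F p) (P : Subgroup Ω) (hP : F.IsCentric P) (hPT : ¬ E.IsCentric (P ⊓ T)) : (∃ φ ∈ F.Hom P, ∃ x ∈ S ⊓ Subgroup.normalizer (φ.range : Set Ω), x ∉ φ.range ∧ ∃ α ∈ ((Cfsg.pCore p ↥(F.autGroup φ.range)).map (F.autGroup φ.range).subtype : Subgroup (MulAut ↥φ.range)), ∀ y : ↥φ.range, ((α y : ↥φ.range) : Ω) = x * (y : Ω) * x⁻¹) ∧ ¬ F.IsRadical p P := by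
  have hT := hE.1.2.2.2.1
  have hcon : ¬ TCen F T (P ⊓ T) := fun h => hPT ((tcen_iff_of_invariant hE.1.2.2).mp h)
  obtain ⟨g, hg, c, hcn, hcS, hcP, hc⟩ := exists_conj_of_not_tcen hS hF hT hP.1 hcon
  refine ⟨⟨hg.hom, hg.hom_mem, ?_⟩, fun hr => ?_⟩
  · have e : hg.hom.range = img P g := (hg.img_eq_range fun _ => rfl).symm
    rw [e]
    exact ⟨c, ⟨hcS, hcn⟩, hcP, conjAut c hcn, hc, fun y => coe_conjAut c hcn y⟩
  · have h1 := isRadical_of_isConj hS hr hg.isConj
    have h2 : conjAut c hcn ∈ Inn (img P g) := by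
      rw [← h1.2]; exact hc
    rw [inn_eq_autInducedBy, mem_autInducedBy'] at h2
    obtain ⟨y, hy, h7⟩ := h2
    refine hcP (mem_of_conj_inner (IsCentric_of_isConj hP hg.isConj) hcS hy fun x hx => ?_)
    rw [← h7 x hx, ofAut_conjAut _ _ hx]

end Cfsg.Agent.S5251
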