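import Cfsg.Statements.S5254
import Cfsg.Agent.Fus.AbelIdxP3

set_option autoImplicit false
open Cfsg

namespace Cfsg.Agent.S5254

/-- Let p be an odd prime, S a finite nonabelian p-group with a unique abelian subgroup A of index p, and F a saturated fusion system over S. Then every F-essential subgroup P is A, or Z(S)⟨x⟩ for some x ∈ S outside A, or (when the second centre Z₂(S) lies in A) Z₂(S)⟨x⟩ for some x ∈ S outside A; and P has index p in its normalizer in S. -/
theorem result {Ω : Type*} [Group Ω] {S : Subgroup Ω} [Finite S] (p : ℕ) [Fact p.Prime] (hS : IsPGroup p S) (F : Cfsg.FusionSystem S) (hF : F.IsSaturated p) (hp : p ≠ 2) (hna : ¬ IsMulCommutative ↥S) (A : Subgroup Ω) (hA : A ≤ S ∧ IsMulCommutative ↥A ∧ (A.subgroupOf S).index = p) (huniq : ∀ B : Subgroup Ω, B ≤ S → IsMulCommutative ↥B → (B.subgroupOf S).index = p → B = A) (P : Subgroup Ω) (hP : F.IsEssential p P) : (P = A ∨ (∃ x ∈ S, x ∉ A ∧ P = (S ⊓ Subgroup.centralizer (S : Set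 Ω)) ⊔ Subgroup.zpowers x) ∨ (((upperCentralSeries ↥S 2).map S.subtype) ≤ A ∧ ∃ x ∈ S, x ∉ A ∧ P = ((upperCentralSeries ↥S 2).map S.subtype) ⊔ Subgroup.zpowers x)) ∧ (P.subgroupOf (S ⊓ Subgroup.normalizer (P : Set Ω))).index = p := by
  have h := Fus.aip_of hna hA huniq
  have hxT : ∀ T : Subgroup Ω, (P.subgroupOf T).index = P.relIndex T := fun T => rfl
  by_cases hPA : P = A
  · refine ⟨Or.inl hPA, ?_⟩
    subst hPA
    have h1 := Fus.le_normalizer_of_relIndex hS h.AS h.idx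
    rw [inf_eq_left.mpr h1]
    exact h.idx
  · obtain ⟨x, hx, hxA⟩ := h.exists_mem_out hP.1 hPA
    have hE : Fus.AEss F p A P x := ⟨hP, hx, hxA⟩
    obtain ⟨h1, h2, h3, h4⟩ := h.ess_facts hS hF hE
    refine ⟨Or.inr ?_, h1⟩
    have h5 := h.eq_sup hS hP.1.1 hx hxA
    rcases h4 with h4 | h4
    · left
      rw [h4] at h5
      exact ⟨x, hP.1.1 hx, hxA, h5⟩
    · right
      rw [h4] at h5
      exact ⟨h2, x, hP.1.1 hx, hxA, h5⟩

end Cfsg.Agent.S5254
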