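import Cfsg.Statements.S5255
import Mathlib
import Cfsg.Agent.Fus.Extend

set_option autoImplicit false
open Cfsg

namespace Cfsg.Agent.S5255

open Cfsg.Agent.Fus

/-- Let F be a saturated fusion system over a finite p-group S and T a subgroup of S strongly closed in F. Then T·C_S(T) is strongly closed in F. -/
theorem result {Ω : Type*} [Group Ω] {S : Subgroup Ω} [Finite S] (p : ℕ) [Fact p.Prime] (hS : IsPGroup p S) (F : Cfsg.FusionSystem S) (hF : F.IsSaturated p) (T : Subgroup Ω) (hT : F.StronglyClosed T) : F.StronglyClosed (T ⊔ Cfsg.FusionSystem.centralizerIn S T) := by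
  have hTn := sc_le_normalizer hT
  -- elements of `T C_S(T)`
  have hmem : ∀ x, x ∈ T ⊔ Cfsg.FusionSystem.centralizerIn S T ↔ ∃ t ∈ T, ∃ c ∈ Cfsg.FusionSystem.centralizerIn S T, x = t * c := by
    intro x
    constructor
    · intro hx
      rw [Subgroup.sup_eq_closure] at hx
      refine Subgroup.closure_induction (p := fun (y : Ω) _ => ∃ t ∈ T, ∃ c ∈ Cfsg.FusionSystem.centralizerIn S T, y = t * c) ?_ ?_ ?_ ?_ hx
      · rintro z (hz | hz)
        · exact ⟨z, hz, 1, one_mem _, (mul_one _).symm⟩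
        · exact ⟨1, one_mem _, z, hz, (one_mul _).symm⟩
      · exact ⟨1, one_mem _, 1, one_mem _, (mul_one _).symm⟩
      · rintro _ _ _ _ ⟨a, ha, x, hx, rfl⟩ ⟨b, hb, z, hz, rfl⟩
        refine ⟨a * b, mul_mem ha hb, x * z, mul_mem hx hz, ?_⟩
        have := (mem_centralizerIn.1 hx).2 b hb
        calc a * x * (b * z) = a * (x * b) * z := by group
          _ = a * (b * x) * z := by rw [this]
          _ = _ := by group
      · rintro _ _ ⟨a, ha, x, hx, rfl⟩
        refine ⟨a⁻¹, inv_mem ha, x⁻¹, inv_mem hx, ?_⟩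
        have := (mem_centralizerIn.1 hx).2 a ha
        rw [← mul_inv_rev, ← this]
    · rintro ⟨t, ht, c, hc, rfl⟩
      exact mul_mem (Subgroup.mem_sup_left ht) (Subgroup.mem_sup_right hc)
  rw [stronglyClosed_iff]
  refine ⟨sup_le hT.1 (centralizerIn_le T), ?_⟩
  intro P f hf hP x hx
  obtain ⟨g, hg, hgf⟩ := exists_extend_stronglyClosed hS hF hT hf
  obtain ⟨t, ht, c, hc, rfl⟩ := (hmem x).1 (hP hx)
  have hcP : c ∈ P ⊔ T := by
    have h1 : c = t⁻¹ * (t * c) := by group
    rw [h1]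
    exact mul_mem (inv_mem (Subgroup.mem_sup_right ht)) (Subgroup.mem_sup_left hx)
  have htP : t ∈ P ⊔ T := Subgroup.mem_sup_right ht
  have hgt : g t ∈ T := sc_map_mem hT hg htP ht
  have hgc : g c ∈ Cfsg.FusionSystem.centralizerIn S T := by
    rw [mem_centralizerIn]
    refine ⟨hg.mem hcP, fun u hu => ?_⟩
    rw [← sc_img_eq hT hg le_sup_right, (hg.mono le_sup_right).mem_img] at hu
    obtain ⟨v, hv, rfl⟩ := hu
    have := (mem_centralizerIn.1 hc).2 v hv
    rw [← hg.map_mul (Subgroup.mem_sup_right hv) hcP, ← hg.map_mul hcP (Subgroup.mem_sup_right hv), this]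
  have h1 := hgf _ hx
  rw [hg.map_mul htP hcP] at h1
  have h2 : f (t * c) = (g t * g c * (f (t * c))⁻¹)⁻¹ * (g t * g c) := by group
  rw [h2]
  exact mul_mem (inv_mem (Subgroup.mem_sup_left h1)) (mul_mem (Subgroup.mem_sup_left hgt) (Subgroup.mem_sup_right hgc))

end Cfsg.Agent.S5255
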