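import Cfsg.Statements.S5257
import Cfsg.Agent.Fus.AbelIdxP3

set_option autoImplicit false
open Cfsg

namespace Cfsg.Agent.S5257

/-- Let p be an odd prime, S a finite nonabelian p-group with a unique abelian subgroup A of index p, and F a saturated fusion system over S having an F-essential subgroup other than A. Then the second centre Z₂(S) lies in A; Z(S) ∩ [S, S] has order p; Z(S)[S, S] has index p in A; Z(S) has index p in Z₂(S); and S/Z(S) has maximal nilpotency class (if S/Z(S) has order pᵐ with m ≥ 3 then the term of index m − 2 of the lower central series of S, counting S as index 0, is not contained in Z(S)). -/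
theorem result {Ω : Type*} [Group Ω] {S : Subgroup Ω} [Finite S] (p : ℕ) [Fact p.Prime] (hS : IsPGroup p S) (F : Cfsg.FusionSystem S) (hF : F.IsSaturated p) (hp : p ≠ 2) (hna : ¬ IsMulCommutative ↥S) (A : Subgroup Ω) (hA : A ≤ S ∧ IsMulCommutative ↥A ∧ (A.subgroupOf S).index = p) (huniq : ∀ B : Subgroup Ω, B ≤ S → IsMulCommutative ↥B → (B.subgroupOf S).index = p → B = A) (P : Subgroup Ω) (hP : F.IsEssential p P) (hPA : P ≠ A) : ((upperCentralSeries ↥S 2).map S.subtype) ≤ A ∧ Nat.card ↥((S ⊓ Subgroup.centralizer (S : Set Ω)) ⊓ ((commutator ↥S).map S.subtype)) = p ∧ (((S ⊓ Subgroup.centralizer (S : Set Ω)) ⊔ ((commutator ↥S).map S.subtype)).subgroupOf A).index = p ∧ (((S ⊓ Subgroup.centralizer (S : Set Ω))).subgroupOf ((upperCentralSeries ↥S 2).map S.subtype)).index = p ∧ ∀ m : ℕ, ((S ⊓ Subgroup.centralizer (S : Set Ω)).subgroupOf S).index = p ^ m → 3 ≤ m → ¬ Subgroup.lowerCentralSeries S (m - 2) ≤ (S ⊓ Subgroup.centralizer (S : Set Ω)) := by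
  have h := Fus.aip_of hna hA huniq
  have hpr : p.Prime := Fact.out
  obtain ⟨x, hx, hxA⟩ := h.exists_mem_out hP.1 hPA
  have hxS := hP.1.1 hx
  have hE : Fus.AEss F p A P x := ⟨hP, hx, hxA⟩
  obtain ⟨h1, h2, h3, h4⟩ := h.ess_facts hS hF hE
  have h5 : Nat.card ↥(Fus.zc S ⊓ ⁅S, S⁆) = p := by
    rw [h.card_zc_inf_comm hS hxS hxA, inf_eq_left.mpr h2, h3]
  rw [Fus.map_commutator_subtype]
  refine ⟨h2, h5, h.relIndex_sup_comm hS h5, h3, fun m hm hm3 hle => ?_⟩
  have hm' : (Fus.zc S).relIndex S = p ^ m := hm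
  have h6 : (Fus.zc S).relIndex A = p ^ (m - 2 + 1) := by
    have h7 := Subgroup.relIndex_mul_relIndex (Fus.zc S) A S (h.zc_le hS) h.AS
    rw [h.idx, hm'] at h7
    have h8 : p ^ m = p ^ (m - 2 + 1) * p := by
      rw [← pow_succ]; congr 1; omega
    rw [h8] at h7
    exact Nat.eq_of_mul_eq_mul_right hpr.pos h7
  exact h.ser_not_le hS hxS hxA h5 h6 ((h.ser_le_lcs hS hxS _).trans hle)

end Cfsg.Agent.S5257
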