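import Cfsg.Statements.S5271
import Cfsg.Agent.Fus.FacHyper
import Cfsg.Agent.Fus.CentralQuot
import Cfsg.Agent.Fus.HyperSC
import Cfsg.Agent.Fus.GoodStep
import Cfsg.Agent.Fus.ModelNorm
import Cfsg.Agent.Fus.Solvable
import Cfsg.Agent.Fus.NormalChar
import Cfsg.Agent.Fus.Tate2
import Cfsg.Agent.S5092
import Cfsg.Agent.H23.PGroupNormal
import Cfsg.Agent.H48.Basic
import Cfsg.Agent.H63.IndexP

set_option autoImplicit false
set_option maxHeartbeats 400000
open Cfsg

namespace Cfsg.Agent.S5271

open Cfsg.FusionSystem Cfsg.Agent.Fus Cfsg.Agent.Fus.Bi Cfsg.Agent.H85 Cfsg.Agent.Fus.Join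

universe u

section Gen

variable {Ω : Type*} [Group Ω] {S : Subgroup Ω} {F : FusionSystem S} {p : ℕ}

/-- every subgroup of order `n` is weakly embedded -/
def WE (F : FusionSystem S) (n : ℕ) : Prop :=
  ∀ Q : Subgroup Ω, Q ≤ S → Nat.card Q = n →
    ∃ P, F.StronglyClosed P ∧ F.StronglyClosed (Q ⊔ P) ∧ F.StronglyClosed (Q ⊓ P)

/-- the normalizer systems of the fully normalized subgroups of order `n` are inner -/
def NI (F : FusionSystem S) (n : ℕ) : Prop :=
  ∀ H : Subgroup Ω, F.IsFullyNormalized H → Nat.card H = n → ∀ P f, IsMap F P f → H ≤ P →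
    P ≤ Subgroup.normalizer (H : Set Ω) → img H f = H → ∃ g ∈ S, ∀ x ∈ P, f x = g * x * g⁻¹

theorem hyper_inner_eq_bot [Finite S] [Fact p.Prime] (hS : IsPGroup p S) :
    (innerFusionSystem S).hyperfocalSubgroup p = ⊥ := by
  rw [eq_bot_iff]
  refine hyper_le fun P hP α hα x hx => ?_
  have hfP := finite_of_le hP
  have hfA := finite_mulAut (P := P)
  have h3 : α = 1 := by
    rw [← orderOf_eq_one_iff]
    have h4 : ∃ k, α ^ p ^ k = 1 := by
      obtain ⟨-, g, hg, h5⟩ := isMap_inner.mp (isMap_ofAut hP α.2)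
      obtain ⟨k, hk⟩ := hS ⟨g, hg⟩
      have hk' : g ^ p ^ k = 1 := congrArg Subtype.val hk
      refine ⟨k, ?_⟩
      have h6 : ∀ n : ℕ, ∀ y ∈ P, ofAut ((α : MulAut P) ^ n) y = g ^ n * y * (g ^ n)⁻¹ := by
        intro n
        induction n with
        | zero =>
          intro y hy
          rw [pow_zero, pow_zero, ofAut_one hy]; group
        | succ n ih =>
          intro y hy
          rw [pow_succ', ofAut_mul _ _ hy, h5 _ (ofAut_mem _ hy), ih y hy, pow_succ']; group
      apply Subtype.ext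
      refine ofAut_injective fun y hy => ?_
      show ofAut ((α : MulAut P) ^ p ^ k) y = ofAut 1 y
      rw [h6 _ y hy, hk', ofAut_one hy]; group
    obtain ⟨k, hk⟩ := h4
    rw [← orderOf_dvd_iff_pow_eq_one] at hk
    exact Nat.eq_one_of_dvd_coprimes (Nat.Coprime.pow_right k hα) dvd_rfl hk
  rw [h3]
  show x⁻¹ * ofAut (1 : MulAut P) x ∈ _
  rw [ofAut_one hx, inv_mul_cancel]
  exact Subgroup.one_mem _

theorem eq_inner_of_hyper [Finite S] [Fact p.Prime] (hS : IsPGroup p S) (hF : F.IsSaturated p)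
    (h : F.hyperfocalSubgroup p = ⊥) : F = innerFusionSystem S := by
  apply le_antisymm_fs _ (inner_le F)
  refine alperin_coprime hS hF fun P hPn _ _ α hα hαp => ?_
  rw [isMap_inner]
  refine ⟨hPn.1, 1, S.one_mem, fun x hx => ?_⟩
  have h3 := mem_hyper_of_coprime hPn.1 hα hαp hx
  rw [h] at h3
  have h4 := Subgroup.mem_bot.mp h3
  rw [inv_mul_eq_one] at h4
  rw [← h4]; group

open scoped commutatorElement in
/-- Tate: if the hyperfocal subgroup lies in the Frattini subgroup, the system is inner. -/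
theorem eq_inner_of_hyper_le_frattini [Finite S] [Fact p.Prime] (hS : IsPGroup p S) (hF : F.IsSaturated p)
    (h : F.hyperfocalSubgroup p ≤ (frattini S).map S.subtype) : F = innerFusionSystem S := by
  have hcommΦ : ⁅S, S⁆ ≤ (frattini S).map S.subtype := by
    rw [Subgroup.commutator_le]
    intro x hx y hy
    refine ⟨⁅(⟨x, hx⟩ : S), ⟨y, hy⟩⁆, ?_, rfl⟩
    apply Cfsg.Agent.Solv.commutator_le_frattini_of_pGroup hS
    exact Subgroup.commutator_mem_commutator (Subgroup.mem_top _) (Subgroup.mem_top _)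
  have hfoc : F.focalSubgroup ≤ (frattini S).map S.subtype := by
    rw [S5092.result p hS F hF]
    exact sup_le h hcommΦ
  have hI := inner_saturated (p := p) hS
  have hIF : (innerFusionSystem S).IsSubsystemOf F := fun P => inner_le F P
  have hfoceq : F.focalSubgroup = (innerFusionSystem S).focalSubgroup := by
    have hle : (innerFusionSystem S).focalSubgroup ≤ F.focalSubgroup := by
      refine focal_le fun P f hf x hx => ?_
      exact mem_focal_of_isMap (isSubsystemOf_iff.mp hIF _ _ hf) hx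
    refine le_antisymm ?_ hle
    refine focal_le_of_elementary hS hF
      (focal_le fun _ _ hf _ hx => S.mul_mem (S.inv_mem (hf.le hx)) (hf.mem hx)) commutator_le_focal hle ?_
    exact hfoc.trans le_sup_right
  have hhyp := tate_hyper hS hF hI hIF hfoceq
  apply eq_inner_of_hyper hS hF
  rw [hhyp, hyper_inner_eq_bot hS]

theorem sc_img_self [Finite S] {T P : Subgroup Ω} (hT : F.StronglyClosed T) {f : Ω → Ω} (hf : IsMap F P f) (hTP : T ≤ P) :
    img T f = T := sc_img_eq hT hf hTP

theorem sc_fullyNormalized [Finite S] {T : Subgroup Ω} (hT : F.StronglyClosed T) : F.IsFullyNormalized T := by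
  refine ⟨hT.1, fun Q hQ => ?_⟩
  obtain ⟨f, hf, rfl⟩ := Cfsg.Agent.Fus.isConj_iff.mp hQ
  rw [sc_img_eq hT hf le_rfl]

end Gen

section Fac

variable {Ω Ω' : Type u} [Group Ω] [Group Ω'] {S T : Subgroup Ω} {S' : Subgroup Ω'} {F : FusionSystem S}
  {E : FusionSystem S'} {θ : S →* Ω'} {p : ℕ}

theorem card_pre [Finite S] (h : IsFac F T θ E) {P' : Subgroup Ω'} (hP' : P' ≤ S') :
    Nat.card (preimageAlong θ P') = Nat.card T * Nat.card P' := by
  have hPS := preimageAlong_le θ P'
  have hTP := h.le_pre P'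
  set f := resTo θ hPS with hf
  have hsurj := resTo_surjective θ hPS
  have h1 : f.ker = T.subgroupOf (preimageAlong θ P') := by
    ext x
    rw [MonoidHom.mem_ker, resTo_eq_one, h.ker _ (hPS x.2), Subgroup.mem_subgroupOf]
  have h2 : Nat.card f.ker = Nat.card T := by
    rw [h1]; exact Nat.card_congr (Subgroup.subgroupOfEquivOfLe hTP).toEquiv
  have h3 : f.ker.index = Nat.card P' := by
    rw [Subgroup.index_ker, MonoidHom.range_eq_top.2 hsurj, Subgroup.card_top, h.im_pre hP']
  rw [← h2, ← h3, Subgroup.card_mul_index]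

theorem normalizerIn_pre (h : IsFac F T θ E) {Q : Subgroup Ω} (hQ : Q ≤ S) (hTQ : T ≤ Q) :
    FusionSystem.normalizerIn S Q = preimageAlong θ (FusionSystem.normalizerIn S' (imageAlong θ Q)) := by
  ext x
  rw [mem_preimageAlong]
  constructor
  · rintro ⟨h1, h2⟩
    exact ⟨h1, h.ext_mem h1, (h.mem_normalizer_im hQ hTQ h1).2 h2⟩
  · rintro ⟨h1, -, h2⟩
    exact ⟨h1, (h.mem_normalizer_im hQ hTQ h1).1 h2⟩

theorem fullyNormalized_pre [Finite S] (h : IsFac F T θ E) {H' : Subgroup Ω'} (hH : E.IsFullyNormalized H') :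
    F.IsFullyNormalized (preimageAlong θ H') := by
  set H := preimageAlong θ H' with hHd
  have hHS : H ≤ S := preimageAlong_le θ H'
  have hTH : T ≤ H := h.le_pre H'
  have him : imageAlong θ H = H' := h.im_pre hH.1
  refine ⟨hHS, fun R hR => ?_⟩
  obtain ⟨f, hf, rfl⟩ := Cfsg.Agent.Fus.isConj_iff.mp hR
  have hTR := h.T_le_img hf hTH
  have hRS : img H f ≤ S := hf.img_le
  obtain ⟨f', hf', hi⟩ := h.induce hf hTH
  have h1 : img (imageAlong θ H) f' = imageAlong θ (img H f) := h.img_ind hf hf' hi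
  have h2 : E.IsConj H' (imageAlong θ (img H f)) := by
    rw [← h1, him]; rw [him] at hf'; exact hf'.isConj
  have h3 := hH.2 _ h2
  rw [normalizerIn_pre h hHS hTH, normalizerIn_pre h hRS hTR, card_pre h (normalizerIn_le _), card_pre h (normalizerIn_le _), him]
  exact Nat.mul_le_mul_left _ h3

end Fac

/-- If the factor system by a minimal strongly closed subgroup is inner. -/
theorem fac_inner {Ω : Type u} [Group Ω] {S : Subgroup Ω} [Finite S] {p : ℕ} [hp : Fact p.Prime]
    (hS : IsPGroup p S) {F : FusionSystem S} (hF : F.IsSaturated p)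
    (IH : ∀ (Ω' : Type u) [Group Ω'] (S' : Subgroup Ω') [Finite S'] (F' : FusionSystem S'), IsPGroup p S' →
      F'.IsSaturated p → Nat.card S' < Nat.card S → ∀ d, 1 ≤ d → p ^ d < Nat.card S' → WE F' (p ^ d) →
      NI F' (p ^ d) → F' = innerFusionSystem S')
    {d : ℕ} (hdS : p ^ d < Nat.card S) (hW : WE F (p ^ d)) (hN : NI F (p ^ d))
    {T : Subgroup Ω} (hT : F.StronglyClosed T) (hT1 : T ≠ ⊥)
    (hmin : ∀ R, F.StronglyClosed R → R ≤ T → R = ⊥ ∨ R = T) (hd : 1 ≤ d)
    {Ω' : Type u} [Group Ω'] {S' : Subgroup Ω'} {θ : S →* Ω'} {E : FusionSystem S'} (h : IsFac F T θ E) :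
    E = innerFusionSystem S' := by
  have hfT : Finite T := finite_of_le hT.1
  have hfS' := h.finite
  have hS' := h.isPGroup hS
  have hE := h.isSaturated hS hF
  obtain ⟨t, ht⟩ := IsPGroup.iff_card.1 (isPGroup_of_le hS hT.1)
  have ht1 : 1 ≤ t := by
    rcases Nat.eq_zero_or_pos t with h0 | h0
    · rw [h0, pow_zero] at ht
      exact absurd (Subgroup.card_eq_one.1 ht) hT1
    · exact h0
  have htd : t ≤ d := by
    by_contra hlt
    push Not at hlt
    have hdvd : p ^ d ∣ Nat.card T := by rw [ht]; exact pow_dvd_pow p hlt.le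
    obtain ⟨K, hK⟩ := Sylow.exists_subgroup_card_pow_prime p hdvd
    set Q := K.map T.subtype with hQ
    have hQT : Q ≤ T := Subgroup.map_subtype_le _
    have hQc : Nat.card Q = p ^ d := by
      rw [hQ, Subgroup.card_map_of_injective T.subtype_injective, hK]
    have hQ1 : Q ≠ ⊥ := by
      intro h0
      rw [h0, Subgroup.card_bot] at hQc
      exact absurd hQc.symm (Nat.one_lt_pow (by omega) hp.out.one_lt).ne'
    have hQT' : Q ≠ T := by
      intro h0
      rw [h0, ht] at hQc
      exact absurd (Nat.pow_right_injective hp.out.two_le hQc) (by omega)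
    obtain ⟨P, hP, hQP, hQiP⟩ := hW Q (hQT.trans hT.1) hQc
    have h1 : Q ⊓ P = ⊥ := by
      rcases hmin _ hQiP (inf_le_left.trans hQT) with h0 | h0
      · exact h0
      · exact absurd (le_antisymm hQT (by rw [← h0]; exact inf_le_left)) hQT'
    have h2 : T ≤ Q ⊔ P := by
      rcases hmin _ (sc_inf hQP hT) inf_le_right with h0 | h0
      · exfalso
        apply hQ1
        rw [eq_bot_iff, ← h0]
        exact le_inf le_sup_left hQT
      · rw [← h0]; exact inf_le_left
    have h3 : P ⊓ T = ⊥ := by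
      rcases hmin _ (sc_inf hP hT) inf_le_right with h0 | h0
      · exact h0
      · exfalso
        apply hQ1
        rw [← h1]
        refine (inf_eq_left.2 (hQT.trans ?_)).symm
        rw [← h0]; exact inf_le_left
    apply hQT'
    refine le_antisymm hQT fun x hx => ?_
    have h4 := h2 hx
    have hPn : Q ≤ Subgroup.normalizer (P : Set Ω) := (hQT.trans hT.1).trans (sc_le_normalizer hP)
    rw [sup_comm, mem_sup_iff_of_normalizes hPn] at h4
    obtain ⟨a, ha, b, hb, rfl⟩ := h4
    have h5 : a ∈ P ⊓ T := ⟨ha, by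
      have := T.mul_mem hx (T.inv_mem (hQT hb))
      rwa [mul_inv_cancel_right] at this⟩
    rw [h3, Subgroup.mem_bot] at h5
    rw [h5, one_mul]; exact hb
  rcases Nat.lt_or_eq_of_le htd with hlt | heq
  · -- the induction hypothesis applies to the factor system
    have hcS : Nat.card S = Nat.card T * Nat.card S' := by
      rw [← card_pre h le_rfl]
      congr 1
      have : preimageAlong θ S' = S := by
        refine le_antisymm (preimageAlong_le θ S') fun x hx => (mem_preimageAlong θ).2 ⟨hx, h.ext_mem hx⟩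
      rw [this]
    have hTc : 1 < Nat.card T := by rw [ht]; exact Nat.one_lt_pow (by omega) hp.out.one_lt
    have hS'pos : 0 < Nat.card S' := Nat.card_pos
    have hpd : p ^ d = p ^ t * p ^ (d - t) := by rw [← pow_add]; congr 1; omega
    refine IH Ω' S' E hS' hE (by rw [hcS]; nlinarith) (d - t) (by omega) ?_ ?_ ?_
    · rw [hcS, ht, hpd] at hdS
      exact lt_of_mul_lt_mul_left hdS (Nat.zero_le _)
    · -- weak embedding
      intro Q' hQ' hQc'
      set Q := preimageAlong θ Q' with hQ
      have hQS : Q ≤ S := preimageAlong_le θ Q'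
      have hTQ : T ≤ Q := h.le_pre Q'
      have hQc : Nat.card Q = p ^ d := by rw [hQ, card_pre h hQ', hQc', ht, hpd]
      have himQ : imageAlong θ Q = Q' := h.im_pre hQ'
      obtain ⟨P, hP, hQP, hQiP⟩ := hW Q hQS hQc
      have hPS := hP.1
      have hTS := hT.1
      have hk : ∀ x ∈ T, ext θ x = 1 := fun x hx => (h.ker x (hTS hx)).2 hx
      have hPT : F.StronglyClosed (P ⊔ T) := sc_sup hS hF hP hT
      have himP : imageAlong θ (P ⊔ T) = imageAlong θ P := imageAlong_sup hPS hTS hk
      refine ⟨imageAlong θ P, ?_, ?_, ?_⟩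
      · rw [← himP]; exact h.sc_im hPT le_sup_right
      · have e1 : Q' ⊔ imageAlong θ P = imageAlong θ (Q ⊔ P) := by
          apply le_antisymm
          · refine sup_le ?_ (imageAlong_mono θ le_sup_right)
            conv_lhs => rw [← himQ]
            exact imageAlong_mono θ le_sup_left
          · intro y hy
            obtain ⟨x, hx, hxS, rfl⟩ := (mem_imageAlong θ).1 hy
            have hPn : Q ≤ Subgroup.normalizer (P : Set Ω) := hQS.trans (sc_le_normalizer hP)
            rw [sup_comm, mem_sup_iff_of_normalizes hPn] at hx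
            obtain ⟨a, ha, b, hb, rfl⟩ := hx
            rw [ext_mul θ (hPS ha) (hQS hb)]
            refine Subgroup.mul_mem _ (le_sup_right (a := Q') (ext_mem_imageAlong θ hPS ha))
              (le_sup_left (a := Q') ?_)
            exact ((mem_preimageAlong θ).1 hb).2
        rw [e1]
        exact h.sc_im hQP (hTQ.trans le_sup_left)
      · have e1 : Q' ⊓ imageAlong θ P = imageAlong θ ((Q ⊓ P) ⊔ T) := by
          rw [imageAlong_sup (inf_le_left.trans hQS) hTS hk]
          apply le_antisymm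
          · rintro y ⟨hy1, hy2⟩
            obtain ⟨x, hx, hxS, rfl⟩ := (mem_imageAlong θ).1 hy2
            refine ext_mem_imageAlong θ (inf_le_left.trans hQS) ⟨(mem_preimageAlong θ).2 ⟨hxS, hy1⟩, hx⟩
          · refine le_inf ?_ (imageAlong_mono θ inf_le_right)
            conv_rhs => rw [← himQ]
            exact imageAlong_mono θ inf_le_left
        rw [e1]
        exact h.sc_im (sc_sup hS hF hQiP hT) le_sup_right
    · -- normalizer systems
      intro H' hH' hHc' P' f' hf' hHP' hPn' himg'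
      set H := preimageAlong θ H' with hH
      have hHS : H ≤ S := preimageAlong_le θ H'
      have hTH : T ≤ H := h.le_pre H'
      have hHc : Nat.card H = p ^ d := by rw [hH, card_pre h hH'.1, hHc', ht, hpd]
      have himH : imageAlong θ H = H' := h.im_pre hH'.1
      obtain ⟨f, hf, hi⟩ := h.lift hf'
      set P := preimageAlong θ P' with hP
      have hHP : H ≤ P := preimageAlong_mono θ hHP'
      have hPS : P ≤ S := preimageAlong_le θ P'
      have hPn : P ≤ Subgroup.normalizer (H : Set Ω) := by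
        intro x hx
        have hx' := (mem_preimageAlong θ).1 hx
        rw [← h.mem_normalizer_im hHS hTH hx'.1, himH]
        exact hPn' hx'.2
      have himg : img H f = H := by
        have hfH := hf.mono hHP
        have h1 : imageAlong θ (img H f) = H' := by
          rw [← h.img_ind (f' := f') hfH (by rw [himH]; exact hf'.mono hHP') (fun x hx => hi x (hHP hx)), himH, himg']
        have h2 := h.T_le_img hfH hTH
        have h3 := h.pre_im hfH.img_le h2
        rw [← h3, h1]
      obtain ⟨g, hg, hgx⟩ := hN H (fullyNormalized_pre h hH') hHc P f hf hHP hPn himg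
      refine ⟨ext θ g, h.ext_mem hg, fun y hy => ?_⟩
      obtain ⟨x, hx, rfl⟩ := h.exists_ext (hf'.le hy)
      have hxP : x ∈ P := (mem_preimageAlong θ).2 ⟨hx, hy⟩
      rw [hi x hxP, hgx x hxP, ext_conj θ hg hx]
  · -- `T` has order `p ^ d`
    apply le_antisymm_fs _ (inner_le E)
    rw [le_iff]
    intro P' f' hf'
    obtain ⟨f, hf, hi⟩ := h.lift hf'
    have hTP := h.le_pre P'
    obtain ⟨g, hg, hgx⟩ := hN T (sc_fullyNormalized hT) (by rw [ht, heq]) _ f hf hTP
      (hf.le.trans (sc_le_normalizer hT)) (sc_img_eq hT hf hTP)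
    refine isMap_inner.mpr ⟨hf'.le, ext θ g, h.ext_mem hg, fun y hy => ?_⟩
    obtain ⟨x, hx, rfl⟩ := h.exists_ext (hf'.le hy)
    have hxP : x ∈ preimageAlong θ P' := (mem_preimageAlong θ).2 ⟨hx, hy⟩
    rw [hi x hxP, hgx x hxP, ext_conj θ hg hx]

/-- normal subgroups of each order above a normal subgroup -/
theorem exists_normal_above {P : Type*} [Group P] [Finite P] {p : ℕ} [hp : Fact p.Prime] (hP : IsPGroup p P)
    {N : Subgroup P} (hN : N.Normal) {m : ℕ} (hNc : Nat.card N = p ^ m) (k : ℕ) (hmk : m ≤ k)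
    (hk : p ^ k ≤ Nat.card P) : ∃ M : Subgroup P, M.Normal ∧ N ≤ M ∧ Nat.card M = p ^ k := by
  induction k, hmk using Nat.le_induction with
  | base => exact ⟨N, hN, le_rfl, hNc⟩
  | succ k hmk ih =>
    obtain ⟨M, hM, hMN, hMc⟩ := ih (le_trans (Nat.pow_le_pow_right hp.out.pos (Nat.le_succ k)) hk)
    have hlt : M < ⊤ := by
      rw [lt_top_iff_ne_top]
      rintro rfl
      rw [Subgroup.card_top] at hMc
      rw [hMc] at hk
      exact absurd (Nat.pow_lt_pow_right hp.out.one_lt (Nat.lt_succ_self k)) (not_lt.2 hk)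
    obtain ⟨x, hx, _, _, _, hn, hc⟩ := H23.exists_step hP hM inferInstance hlt
    exact ⟨_, hn, hMN.trans le_sup_left, by rw [hc, hMc, pow_succ]⟩

theorem main {p : ℕ} [hp : Fact p.Prime] : ∀ (n : ℕ) (Ω : Type u) [Group Ω] (S : Subgroup Ω) [Finite S]
    (F : FusionSystem S), Nat.card S = n → IsPGroup p S → F.IsSaturated p → ∀ d, 1 ≤ d → p ^ d < Nat.card S →
      WE F (p ^ d) → NI F (p ^ d) → F = innerFusionSystem S := by
  intro n
  induction n using Nat.strong_induction_on with
  | _ n ih =>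
  intro Ω _ S _ F hSn hS hF d hd hdS hW hN
  have IH : ∀ (Ω' : Type u) [Group Ω'] (S' : Subgroup Ω') [Finite S'] (F' : FusionSystem S'), IsPGroup p S' →
      F'.IsSaturated p → Nat.card S' < Nat.card S → ∀ d, 1 ≤ d → p ^ d < Nat.card S' → WE F' (p ^ d) →
      NI F' (p ^ d) → F' = innerFusionSystem S' := by
    intro Ω' _ S' _ F' h1 h2 h3 d' h4 h5 h6 h7
    exact ih _ (by rw [← hSn]; exact h3) Ω' S' F' rfl h1 h2 d' h4 h5 h6 h7
  by_contra hne
  set Y := F.hyperfocalSubgroup p with hY
  have hY1 : Y ≠ ⊥ := fun h0 => hne (eq_inner_of_hyper hS hF h0)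
  have hYsc : F.StronglyClosed Y := hyper_stronglyClosed hS hF
  have hYS : Y ≤ S := hYsc.1
  have hfY : Finite Y := finite_of_le hYS
  -- every nontrivial strongly closed subgroup contains `Y`
  have hall : ∀ R, F.StronglyClosed R → R ≠ ⊥ → Y ≤ R := by
    intro R hR hR1
    have hfinS : Finite {T : Subgroup Ω // T ≤ S} := by
      have : Finite (Set.Iic S) := by
        refine Set.Finite.to_subtype ?_
        have h1 : ((fun T : Subgroup Ω => (T : Set Ω)) '' Set.Iic S).Finite := by
          refine ((Set.toFinite (S : Set Ω)).finite_subsets).subset ?_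
          rintro _ ⟨T, hT, rfl⟩
          exact hT
        exact Set.Finite.of_finite_image h1 (fun A _ B _ h => SetLike.coe_injective h)
      exact this
    let P : ℕ → Prop := fun k => ∃ T : Subgroup Ω, F.StronglyClosed T ∧ T ≠ ⊥ ∧ T ≤ R ∧ Nat.card T = k
    have hex : ∃ k, P k := ⟨_, R, hR, hR1, le_rfl, rfl⟩
    classical
    obtain ⟨T, hT, hT1, hTR, hTc⟩ := Nat.find_spec hex
    have hfT : Finite T := finite_of_le hT.1
    have hmin : ∀ U, F.StronglyClosed U → U ≤ T → U = ⊥ ∨ U = T := by
      intro U hU hUT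
      by_contra hcon
      push Not at hcon
      have h1 : Nat.find hex ≤ Nat.card U := Nat.find_min' hex ⟨U, hU, hcon.1, hUT.trans hTR, rfl⟩
      rw [← hTc] at h1
      exact hcon.2 (Subgroup.eq_of_le_of_card_ge hUT h1)
    have hTn := subgroupOf_normal_of_sc hT
    obtain ⟨E, hE⟩ := exists_factor F hT
    have hfac := isFac_of_isFactorSystem hT hE
    have hEi := fac_inner hS hF IH hdS hW hN hT hT1 hmin hd hfac
    have h2 := hfac.hyper_eq hS hF
    have hfS' := hfac.finite
    have h3 : E.hyperfocalSubgroup p = ⊥ := by rw [hEi]; exact hyper_inner_eq_bot (hfac.isPGroup hS)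
    rw [h3] at h2
    intro y hy
    apply hTR
    have hyS := hYS hy
    rw [← hfac.ker y hyS, ext_apply _ hyS]
    have h4 : (QuotientGroup.mk' (T.subgroupOf S)) ⟨y, hyS⟩ ∈
        ((F.hyperfocalSubgroup p).subgroupOf S).map (QuotientGroup.mk' (T.subgroupOf S)) :=
      ⟨⟨y, hyS⟩, hy, rfl⟩
    rw [← h2, Subgroup.mem_bot] at h4
    exact h4
  -- `Y` is not in the Frattini subgroup
  have hYΦ : ¬ Y ≤ (frattini S).map S.subtype := fun h0 => hne (eq_inner_of_hyper_le_frattini hS hF h0)
  have hYΦ' : ¬ Y.subgroupOf S ≤ frattini S := by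
    intro h0
    apply hYΦ
    intro y hy
    exact ⟨⟨y, hYS hy⟩, h0 hy, rfl⟩
  obtain ⟨M, hM, hYM⟩ : ∃ M : Subgroup S, IsCoatom M ∧ ¬ Y.subgroupOf S ≤ M := by
    by_contra hcon
    push Not at hcon
    apply hYΦ'
    rw [frattini, Order.radical]
    exact le_iInf₂ fun M hM => hcon M hM
  have hMi := H48.index_eq_of_isCoatom hS hM
  set M' := M.map S.subtype with hM'
  have hM'S : M' ≤ S := Subgroup.map_subtype_le _
  have hfM' : Finite M' := finite_of_le hM'S
  have hYM' : ¬ Y ≤ M' := by
    intro h0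
    apply hYM
    intro y hy
    obtain ⟨z, hz, hzy⟩ := h0 hy
    have : z = y := Subtype.ext hzy
    rwa [← this]
  have hMc : Nat.card M' = Nat.card M := Subgroup.card_map_of_injective S.subtype_injective
  have hMSc : Nat.card M * p = Nat.card S := by rw [← hMi, Subgroup.card_mul_index]
  have hM'p : IsPGroup p M' := isPGroup_of_le hS hM'S
  have hdM : p ^ d ∣ Nat.card M' := by
    obtain ⟨s, hs⟩ := IsPGroup.iff_card.1 hS
    obtain ⟨m, hm⟩ := IsPGroup.iff_card.1 hM'p
    rw [hm]
    apply pow_dvd_pow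
    rw [hs] at hdS
    have h1 : d < s := (Nat.pow_lt_pow_iff_right hp.out.one_lt).1 hdS
    rw [← hMc, hm, hs, ← pow_succ] at hMSc
    have := Nat.pow_right_injective hp.out.two_le hMSc
    omega
  have hMY : M' ⊓ Y = ⊥ := by
    by_contra hMY
    have hp1 : IsPGroup p ↥(M' ⊓ Y) := isPGroup_of_le hS (inf_le_left.trans hM'S)
    have hfMY : Finite ↥(M' ⊓ Y) := finite_of_le (inf_le_left.trans hM'S)
    obtain ⟨m, hm⟩ := IsPGroup.iff_card.1 hp1
    have hm0 : m ≠ 0 := by
      rintro rfl
      rw [pow_zero] at hm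
      exact hMY (Subgroup.card_eq_one.1 hm)
    obtain ⟨x, hx⟩ := exists_prime_orderOf_dvd_card' p (by rw [hm]; exact dvd_pow_self p hm0)
    have hxM : (x : Ω) ∈ M' := x.2.1
    have hxo : orderOf (x : Ω) = p := by rw [Subgroup.orderOf_coe, hx]
    have hx1 : (x : Ω) ≠ 1 := by
      intro h0
      rw [h0, orderOf_one] at hxo
      exact hp.out.one_lt.ne hxo
    obtain ⟨K, hKc, hK⟩ := Sylow.exists_subgroup_card_pow_prime_le p hdM (Subgroup.zpowers (⟨x, hxM⟩ : M'))
      (n := 1) (by rw [Nat.card_zpowers, Subgroup.orderOf_mk, hxo, pow_one]) hd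
    set Q := K.map M'.subtype with hQ
    have hQM : Q ≤ M' := Subgroup.map_subtype_le _
    have hQc : Nat.card Q = p ^ d := by rw [hQ, Subgroup.card_map_of_injective M'.subtype_injective, hKc]
    have hxQ : (x : Ω) ∈ Q := ⟨⟨x, hxM⟩, hK (Subgroup.mem_zpowers _), rfl⟩
    obtain ⟨P, hP, hQP, hQiP⟩ := hW Q (hQM.trans hM'S) hQc
    by_cases hP1 : P = ⊥
    · rw [hP1, sup_bot_eq] at hQP
      refine hYM' ((hall Q hQP ?_).trans hQM)
      intro h0
      rw [h0, Subgroup.mem_bot] at hxQ
      exact hx1 hxQ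
    · have h1 := hall P hP hP1
      refine hYM' ((hall _ hQiP ?_).trans (inf_le_left.trans hQM))
      intro h0
      have h2 : (x : Ω) ∈ Q ⊓ P := ⟨hxQ, h1 x.2.2⟩
      rw [h0, Subgroup.mem_bot] at h2
      exact hx1 h2
  -- `Y` has order `p`
  have hYc : Nat.card Y = p := by
    have h1 : M'.relIndex Y ≤ M'.relIndex S := by
      apply Nat.le_of_dvd
      · rw [Nat.pos_iff_ne_zero]
        exact Subgroup.index_ne_zero_of_finite
      · have h3 : (M'.subgroupOf S).Normal := by
          rw [hM', Subgroup.subgroupOf, Subgroup.comap_map_eq_self_of_injective S.subtype_injective]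
          exact H48.normal_of_isCoatom_of_isPGroup hS hM
        have h2 := Subgroup.relIndex_dvd_index_of_normal (M'.subgroupOf S) (Y.subgroupOf S)
        rwa [Subgroup.relIndex_subgroupOf hYS] at h2
    have h2 : M'.relIndex S = p := by
      rw [Subgroup.relIndex, hM', Subgroup.subgroupOf, Subgroup.comap_map_eq_self_of_injective S.subtype_injective, hMi]
    have h3 : M'.relIndex Y = Nat.card Y := by
      rw [← Subgroup.inf_relIndex_right, hMY, Subgroup.relIndex_bot_left]
    rw [h2, h3] at h1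
    obtain ⟨m, hm⟩ := IsPGroup.iff_card.1 (isPGroup_of_le hS hYS)
    have hm0 : m ≠ 0 := by
      rintro rfl
      rw [pow_zero] at hm
      exact hY1 (Subgroup.card_eq_one.1 hm)
    rw [hm] at h1 ⊢
    have hm1 : m ≤ 1 := by
      by_contra hcon
      have : p ^ 1 < p ^ m := Nat.pow_lt_pow_right hp.out.one_lt (by omega)
      rw [pow_one] at this
      omega
    have : m = 1 := by omega
    rw [this, pow_one]
  have hYn : (Y.subgroupOf S).Normal := subgroupOf_normal_of_sc hYsc
  have hYc' : Nat.card (Y.subgroupOf S) = p := by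
    rw [Nat.card_congr (Subgroup.subgroupOfEquivOfLe hYS).toEquiv, hYc]
  -- `Y` is central in `S`
  have hYZ : ∀ y ∈ Y, ∀ s ∈ S, s * y * s⁻¹ = y := by
    obtain ⟨z, hz, hzo, hzc⟩ := H23.exists_central_orderOf hS hYn (by
      intro h0
      rw [h0, Subgroup.card_bot] at hYc'
      exact hp.out.one_lt.ne hYc')
    have h1 : Subgroup.zpowers z = Y.subgroupOf S :=
      Subgroup.eq_of_le_of_card_ge (Subgroup.zpowers_le.2 hz) (by rw [hYc', Nat.card_zpowers, hzo])
    intro y hy s hs
    have h2 : (⟨y, hYS hy⟩ : S) ∈ Subgroup.zpowers z := by rw [h1]; exact hy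
    have h3 : (⟨y, hYS hy⟩ : S) ∈ Subgroup.center S := (Subgroup.zpowers_le.2 hzc) h2
    have h4 := Subgroup.mem_center_iff.1 h3 ⟨s, hs⟩
    have h5 : s * y = y * s := congrArg Subtype.val h4
    rw [h5]; group
  -- a nontrivial `p'`-automorphism
  obtain ⟨P, hPS, α, hα, x, hxP, hxα⟩ : ∃ P : Subgroup Ω, P ≤ S ∧ ∃ α : F.autGroup P, (orderOf α).Coprime p ∧
      ∃ x ∈ P, x⁻¹ * ofAut (α : MulAut P) x ≠ 1 := by
    by_contra hcon
    push Not at hcon
    apply hY1
    rw [eq_bot_iff]
    refine hyper_le fun P hP α hα x hx => ?_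
    rw [hcon P hP α hα x hx]
    exact Subgroup.one_mem _
  set y := x⁻¹ * ofAut (α : MulAut P) x with hyd
  have hyY : y ∈ Y := mem_hyper_of_coprime hPS α.2 (by rwa [Subgroup.orderOf_coe]) hxP
  have hyP : y ∈ P := P.mul_mem (P.inv_mem hxP) (ofAut_mem _ hxP)
  have hYy : Subgroup.zpowers y = Y := by
    refine Subgroup.eq_of_le_of_card_ge (Subgroup.zpowers_le.2 hyY) ?_
    have h1 : Nat.card (Subgroup.zpowers y) ∣ Nat.card Y := Subgroup.card_dvd_of_le (Subgroup.zpowers_le.2 hyY)
    rw [hYc] at h1 ⊢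
    rcases (Nat.dvd_prime hp.out).1 h1 with h2 | h2
    · rw [Nat.card_zpowers, orderOf_eq_one_iff] at h2
      exact absurd h2 hxα
    · rw [h2]
  have hYP : Y ≤ P := by rw [← hYy]; exact Subgroup.zpowers_le.2 hyP
  have hαy : ofAut (α : MulAut P) y ≠ y := by
    intro h0
    have h1 := ofAut_fix_of_coprime (isPGroup_of_le hS hPS) (γ := (α : MulAut P)) (by rwa [Subgroup.orderOf_coe]) hxP h0
    apply hxα
    rw [hyd, h1, inv_mul_cancel]
  -- extend to `S`
  have hfα : IsMap F Y (ofAut (α : MulAut P)) := (isMap_ofAut hPS α.2).mono hYP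
  have hrec := sat_receptive' hS hF (sc_fullyNormalized hYsc)
  obtain ⟨g, hg, hgf⟩ := (isReceptive_iff.1 hrec).2 Y _ hfα (sc_img_eq hYsc hfα le_rfl) S hYS (by
    intro s hs
    refine ⟨hs, sc_le_normalizer hYsc hs, 1, S.one_mem, fun z hz => ?_⟩
    rw [hYZ z hz s hs]; group)
  have hminY : ∀ U, F.StronglyClosed U → U ≤ Y → U = ⊥ ∨ U = Y := by
    intro U hU hUY
    by_cases h0 : U = ⊥
    · exact Or.inl h0
    · exact Or.inr (le_antisymm hUY (hall U hU h0))
  obtain ⟨E, hE⟩ := exists_factor F hYsc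
  have hfac := isFac_of_isFactorSystem hYsc hE
  have hEi := fac_inner hS hF IH hdS hW hN hYsc hY1 hminY hd hfac
  -- a normal subgroup `H` of order `p ^ d`
  obtain ⟨H₀, hH₀n, hYH₀, hH₀c⟩ := exists_normal_above hS hYn (m := 1) (by rw [hYc', pow_one]) d hd hdS.le
  set H := H₀.map S.subtype with hH
  have hHS : H ≤ S := Subgroup.map_subtype_le _
  have hHc : Nat.card H = p ^ d := by rw [hH, Subgroup.card_map_of_injective S.subtype_injective, hH₀c]
  have hYH : Y ≤ H := fun z hz => ⟨⟨z, hYS hz⟩, hYH₀ hz, rfl⟩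
  have hHconj : ∀ s ∈ S, ∀ z ∈ H, s * z * s⁻¹ ∈ H := by
    rintro s hs _ ⟨z, hz, rfl⟩
    exact ⟨_, hH₀n.conj_mem z hz ⟨s, hs⟩, rfl⟩
  have hHn : S ≤ Subgroup.normalizer (H : Set Ω) := by
    intro s hs
    rw [Subgroup.mem_normalizer_iff]
    intro z
    refine ⟨hHconj s hs z, fun h1 => ?_⟩
    have h2 := hHconj s⁻¹ (S.inv_mem hs) _ h1
    have h3 : s⁻¹ * (s * z * s⁻¹) * s⁻¹⁻¹ = z := by group
    rwa [h3] at h2
  have hHfn : F.IsFullyNormalized H := by
    refine ⟨hHS, fun Q hQ => ?_⟩
    have h1 : FusionSystem.normalizerIn S H = S := inf_eq_left.mpr hHn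
    rw [h1]
    exact Subgroup.card_le_of_le (normalizerIn_le (S := S) Q)
  have hfH : Finite H := finite_of_le hHS
  have himg : img H g = H := by
    refine (hg.mono hHS).img_eq fun z hz => ?_
    obtain ⟨g', hg', hi⟩ := hfac.induce hg hYS
    rw [hEi] at hg'
    obtain ⟨-, c, hc, hcx⟩ := isMap_inner.mp hg'
    obtain ⟨s, hs, hsc⟩ := hfac.exists_ext hc
    have h1 := hi z (hHS hz)
    rw [hcx _ (ext_mem_imageAlong _ le_rfl (hHS hz)), ← hsc, ← ext_conj _ hs (hHS hz),
      hfac.eq_iff (S.mul_mem (S.mul_mem hs (hHS hz)) (S.inv_mem hs)) (hg.mem (hHS hz))] at h1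
    have h2 := H.mul_mem (H.inv_mem (hYH h1)) (hHconj s hs z hz)
    have h3 : (s * z * s⁻¹ * (g z)⁻¹)⁻¹ * (s * z * s⁻¹) = g z := by group
    rwa [h3] at h2
  obtain ⟨s, hs, hgs⟩ := hN H hHfn hHc S g hg hHS hHn himg
  apply hαy
  rw [← hgf y hyY, hgs y (hYS hyY)]
  exact hYZ y hyY s hs

/-- A nilpotency criterion for fusion systems. Let F be a saturated fusion system over a finite p-group S of order at least p². Call a subgroup Q of S weakly embedded in F when there is a subgroup P of S strongly closed in F such that both the product QP and the intersection Q ∩ P are strongly closed in F. Then F is the inner fusion system of S if and only if there is a subgroup D of S with 1 < D < S such that every subgroup of S of the same order as D is weakly embedded in F and, for every fully normalized subgroup H of S of that order, the normalizer fusion system of H in F is the inner fusion system of N_S(H). -/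
theorem result {Ω : Type*} [Group Ω] {S : Subgroup Ω} [Finite S] (p : ℕ) [Fact p.Prime] (hS : IsPGroup p ↥S) (F : Cfsg.FusionSystem S) (hF : F.IsSaturated p) (hcard : p ^ 2 ≤ Nat.card S) : (∀ P : Subgroup Ω, F.Hom P = (Cfsg.innerFusionSystem S).Hom P) ↔ ∃ D : Subgroup Ω, ⊥ < D ∧ D < S ∧ (∀ Q : Subgroup Ω, Q ≤ S → Nat.card ↥Q = Nat.card ↥D → ∃ P : Subgroup Ω, F.StronglyClosed P ∧ F.StronglyClosed (Q ⊔ P) ∧ F.StronglyClosed (Q ⊓ P)) ∧ (∀ H : Subgroup Ω, F.IsFullyNormalized H → Nat.card ↥H = Nat.card ↥D → ∀ N : Cfsg.FusionSystem (Cfsg.FusionSystem.normalizerIn S H), F.IsNormalizerSystem H N → ∀ P : Subgroup Ω, N.Hom P = (Cfsg.innerFusionSystem (Cfsg.FusionSystem.normalizerIn S H)).Hom P) := by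
  constructor
  · intro h
    have hFe : F = innerFusionSystem S := fusionSystem_ext h
    have hnorm_sc : ∀ Q : Subgroup Ω, Q ≤ S → (Q.subgroupOf S).Normal → F.StronglyClosed Q := by
      intro Q hQ hn
      rw [stronglyClosed_iff_isMap]
      refine ⟨hQ, fun P f hf x hxP hx => ?_⟩
      rw [hFe] at hf
      obtain ⟨h2, g, hg, h3⟩ := isMap_inner.mp hf
      rw [h3 x hxP]
      exact hn.conj_mem ⟨x, hQ hx⟩ hx ⟨g, hg⟩
    obtain ⟨M, hM⟩ : ∃ M : Subgroup S, IsCoatom M := by
      have hnt : Nontrivial S := by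
        rw [← Finite.one_lt_card_iff_nontrivial]
        have : 1 < p ^ 2 := Nat.one_lt_pow (by norm_num) (Fact.out : p.Prime).one_lt
        omega
      obtain ⟨M, hM, -⟩ := (eq_top_or_exists_le_coatom (⊥ : Subgroup S)).resolve_left bot_ne_top
      exact ⟨M, hM⟩
    have hMi := H48.index_eq_of_isCoatom hS hM
    have hMc : Nat.card M * p = Nat.card S := by rw [← hMi, Subgroup.card_mul_index]
    have hDc : Nat.card (M.map S.subtype) = Nat.card M := Subgroup.card_map_of_injective S.subtype_injective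
    refine ⟨M.map S.subtype, ?_, ?_, ?_, ?_⟩
    · rw [bot_lt_iff_ne_bot]
      intro h0
      rw [h0, Subgroup.card_bot] at hDc
      rw [← hDc, one_mul] at hMc
      rw [← hMc] at hcard
      have : p ^ 1 < p ^ 2 := Nat.pow_lt_pow_right (Fact.out : p.Prime).one_lt (by norm_num)
      rw [pow_one] at this
      omega
    · refine lt_of_le_of_ne (Subgroup.map_subtype_le _) ?_
      intro h0
      rw [h0] at hDc
      rw [hDc] at hMc
      have h1 : 0 < Nat.card M := Nat.card_pos
      have h2 := (Fact.out : p.Prime).two_le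
      nlinarith
    · intro Q hQ hQc
      refine ⟨⊥, ?_, ?_, ?_⟩
      · exact hnorm_sc ⊥ bot_le (by rw [Subgroup.bot_subgroupOf]; infer_instance)
      · rw [sup_bot_eq]
        apply hnorm_sc Q hQ
        have hi : (Q.subgroupOf S).index = p := by
          have h1 : Nat.card (Q.subgroupOf S) = Nat.card M := by
            rw [Nat.card_congr (Subgroup.subgroupOfEquivOfLe hQ).toEquiv, hQc, hDc]
          have h2 := Subgroup.card_mul_index (Q.subgroupOf S)
          rw [h1, ← hMc] at h2
          exact Nat.eq_of_mul_eq_mul_left Nat.card_pos h2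
        exact H48.normal_of_isCoatom_of_isPGroup hS (H63.isCoatom_of_index_prime Fact.out hi)
      · rw [inf_bot_eq]
        exact hnorm_sc ⊥ bot_le (by rw [Subgroup.bot_subgroupOf]; infer_instance)
    · intro H hH hHc N hN P
      have : N = innerFusionSystem (FusionSystem.normalizerIn S H) := by
        apply le_antisymm_fs _ (inner_le N)
        rw [le_iff]
        intro P f hf
        obtain ⟨hP, -, f', hf', hff, himg⟩ := (isMap_normSys hN).mp hf
        rw [hFe] at hf'
        obtain ⟨h2, g, hg, h3⟩ := isMap_inner.mp hf'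
        refine isMap_inner.mpr ⟨hf.le, g, ⟨hg, ?_⟩, fun x hx => ?_⟩
        · have hfH : Finite H := finite_of_le hH.1
          have h4 : ∀ z ∈ H, g * z * g⁻¹ ∈ H := by
            intro z hz
            have h5 : f' z ∈ img H f' := by
              rw [(hf'.mono le_sup_right).mem_img]
              exact ⟨z, hz, rfl⟩
            rw [himg, h3 z (le_sup_right (a := P) hz)] at h5
            exact h5
          exact mem_normalizer_of_conj h4
        · rw [← hff x hx]
          exact h3 x (le_sup_left (a := P) hx)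
      rw [this]
  · rintro ⟨D, hD1, hDS, hW, hN⟩
    have hDp := isPGroup_of_le hS hDS.le
    have hfD : Finite D := finite_of_le hDS.le
    obtain ⟨d, hd⟩ := IsPGroup.iff_card.1 hDp
    have hd1 : 1 ≤ d := by
      rcases Nat.eq_zero_or_pos d with h0 | h0
      · rw [h0, pow_zero] at hd
        exact absurd (Subgroup.card_eq_one.1 hd) hD1.ne'
      · exact h0
    have hdS : p ^ d < Nat.card S := by
      rw [← hd]
      refine lt_of_le_of_ne (Subgroup.card_le_of_le hDS.le) ?_
      intro h0
      exact hDS.ne (Subgroup.eq_of_le_of_card_ge hDS.le h0.ge)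
    have hW' : WE F (p ^ d) := by
      intro Q hQ hQc
      exact hW Q hQ (by rw [hQc, hd])
    have hN' : NI F (p ^ d) := by
      intro H hH hHc P f hf hHP hPn himg
      obtain ⟨N, hNs⟩ := exists_isNormalizerSystem F hH.1
      have hNe : N = innerFusionSystem (FusionSystem.normalizerIn S H) :=
        fusionSystem_ext (hN H hH (by rw [hHc, hd]) N hNs)
      have h1 : IsMap N P f := (isMap_normSys_of_le hNs hHP).mpr ⟨le_inf hf.le hPn, hf, himg⟩
      rw [hNe] at h1
      obtain ⟨-, g, hg, hgx⟩ := isMap_inner.mp h1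
      exact ⟨g, hg.1, hgx⟩
    have := main _ Ω S F rfl hS hF d hd1 hdS hW' hN'
    intro P
    rw [this]

end Cfsg.Agent.S5271
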