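import Cfsg.Statements.S5276
import Cfsg.Agent.Fus.Tate2
import Cfsg.Agent.Fus.Quot
import Cfsg.Agent.Fus.Abelian
import Cfsg.Agent.Fus.ModelNorm

set_option autoImplicit false
set_option maxHeartbeats 400000
open Cfsg

namespace Cfsg.Agent.S5276

open Cfsg.Agent.Fus Cfsg.Agent.Fus.Bi

/-- the focal subgroup lies in a strongly closed subgroup with abelian quotient centralized by `Aut_F(S)` -/
theorem focal_le_of_sc {Ω : Type*} [Group Ω] {S T : Subgroup Ω} [Finite S] {p : ℕ} [Fact p.Prime]
    (hS : IsPGroup p S) {F : FusionSystem S} (hF : F.IsSaturated p) (hT : F.StronglyClosed T)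
    (hab : ∀ x ∈ S, ∀ y ∈ S, x * y * x⁻¹ * y⁻¹ ∈ T) (hA : ∀ f, IsMap F S f → ∀ x ∈ S, f x * x⁻¹ ∈ T) :
    F.focalSubgroup ≤ T := by
  classical
  have hTn : (T.subgroupOf S).Normal := by
    refine ⟨fun x hx g => ?_⟩
    rw [Subgroup.mem_subgroupOf] at hx ⊢
    have h1 := hab g g.2 x x.2
    have h2 := T.mul_mem h1 hx
    rwa [inv_mul_cancel_right] at h2
  set θ : S →* S ⧸ T.subgroupOf S := QuotientGroup.mk' (T.subgroupOf S) with hθ
  have hk : ∀ x ∈ S, ext θ x = 1 ↔ x ∈ T := by
    intro x hx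
    rw [ext_apply θ hx, ← MonoidHom.mem_ker, hθ, QuotientGroup.ker_mk', Subgroup.mem_subgroupOf]
  have hr : θ.range = ⊤ := by
    rw [MonoidHom.range_eq_top]; exact QuotientGroup.mk'_surjective _
  obtain ⟨E, hE⟩ := exists_isFactorSystem F hT θ hk hr
  have hfac := isFac_of_isFactorSystem hT hE
  have hEs := hfac.isSaturated hS hF
  have hfin : Finite (⊤ : Subgroup (S ⧸ T.subgroupOf S)) := hfac.finite
  have hp := hfac.isPGroup hS
  have hcomm : ∀ x ∈ (⊤ : Subgroup (S ⧸ T.subgroupOf S)), ∀ y ∈ (⊤ : Subgroup (S ⧸ T.subgroupOf S)),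
      x * y = y * x := by
    intro x _ y _
    obtain ⟨a, rfl⟩ := QuotientGroup.mk'_surjective _ x
    obtain ⟨b, rfl⟩ := QuotientGroup.mk'_surjective _ y
    have h1 : QuotientGroup.mk' (T.subgroupOf S) (a * b * a⁻¹ * b⁻¹) = 1 := by
      rw [← MonoidHom.mem_ker, QuotientGroup.ker_mk', Subgroup.mem_subgroupOf]
      exact hab a a.2 b b.2
    rw [map_mul, map_mul, map_mul, map_inv, map_inv, mul_inv_eq_one, mul_inv_eq_iff_eq_mul] at h1
    exact h1
  -- the maps of `E` are trivial
  have htriv : ∀ P' f', IsMap E P' f' → ∀ y ∈ P', f' y = y := by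
    intro P' f' hf' y hy
    obtain ⟨g', hg', hgf⟩ := exists_extend_of_abelian hp hEs hcomm hf'
    rw [← hgf y hy]
    obtain ⟨g, hg, hi⟩ := hfac.lift' le_rfl hT.1 (hg'.mono (hfac.im_le S))
    obtain ⟨x, hx, hxy⟩ := hfac.exists_ext (Subgroup.mem_top y)
    rw [← hxy, hi x hx, hfac.eq_iff (hg.mem hx) hx]
    exact hA g hg x hx
  refine focal_le fun P f hf x hx => ?_
  obtain ⟨g, hg, hgf⟩ := exists_extend_stronglyClosed hS hF hT hf
  obtain ⟨g', hg', hi⟩ := hfac.induce hg le_sup_right
  have hxP : x ∈ P ⊔ T := (le_sup_left : P ≤ _) hx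
  have h1 := htriv _ _ hg' _ (ext_mem_imageAlong θ hg.le hxP)
  rw [hi x hxP, hfac.eq_iff (hg.mem hxP) (hf.le hx)] at h1
  -- `x⁻¹ f(x)`
  have h2 := T.mul_mem (T.inv_mem (hgf x hx)) h1
  have h3 : (g x * (f x)⁻¹)⁻¹ * (g x * x⁻¹) = f x * x⁻¹ := by group
  rw [h3] at h2
  have h4 := hab x⁻¹ (S.inv_mem (hf.le hx)) (f x) (hf.mem hx)
  have h5 : x⁻¹ * f x = (x⁻¹ * f x * x⁻¹⁻¹ * (f x)⁻¹) * (f x * x⁻¹) := by group
  rw [h5]
  exact T.mul_mem h4 h2

/-- Let p be a prime and F a saturated fusion system over a finite p-group S. Then F is the inner fusion system of S if and only if the normalizer fusion system of S itself in F is the inner fusion system (equivalently, Aut_F(S) is induced by S) and the Frattini subgroup Φ(S) is strongly closed in F. -/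
theorem result {Ω : Type*} [Group Ω] {S : Subgroup Ω} [Finite S] (p : ℕ) [Fact p.Prime] (hS : IsPGroup p ↥S) (F : Cfsg.FusionSystem S) (hF : F.IsSaturated p) : (∀ P : Subgroup Ω, F.Hom P = (Cfsg.innerFusionSystem S).Hom P) ↔ (∀ N : Cfsg.FusionSystem (Cfsg.FusionSystem.normalizerIn S S), F.IsNormalizerSystem S N → ∀ P : Subgroup Ω, N.Hom P = (Cfsg.innerFusionSystem (Cfsg.FusionSystem.normalizerIn S S)).Hom P) ∧ F.StronglyClosed ((frattini ↥S).map S.subtype) := by
  have hNS : FusionSystem.normalizerIn S S = S := inf_eq_left.mpr Subgroup.le_normalizer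
  have hΦn : ∀ g ∈ S, ∀ x ∈ (frattini S).map S.subtype, g * x * g⁻¹ ∈ (frattini S).map S.subtype := by
    rintro g hg _ ⟨x, hx, rfl⟩
    exact ⟨_, (inferInstance : (frattini S).Normal).conj_mem x hx ⟨g, hg⟩, rfl⟩
  constructor
  · intro h
    have hFe : F = innerFusionSystem S := fusionSystem_ext h
    refine ⟨fun N hN P => ?_, ?_⟩
    · have : N = innerFusionSystem (FusionSystem.normalizerIn S S) := by
        apply le_antisymm_fs _ (inner_le N)
        rw [le_iff]
        intro P f hf
        have h1 := isMap_of_normSys hN hf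
        rw [hFe] at h1
        obtain ⟨h2, g, hg, h3⟩ := isMap_inner.mp h1
        exact isMap_inner.mpr ⟨hf.le, g, by rw [hNS]; exact hg, h3⟩
      rw [this]
    · rw [stronglyClosed_iff_isMap]
      refine ⟨Subgroup.map_subtype_le _, fun P f hf x hxP hx => ?_⟩
      rw [hFe] at hf
      obtain ⟨h2, g, hg, h3⟩ := isMap_inner.mp hf
      rw [h3 x hxP]
      exact hΦn g hg x hx
  · rintro ⟨h1, h2⟩
    obtain ⟨N, hN⟩ := exists_isNormalizerSystem F (le_refl S)
    have hNe : N = innerFusionSystem (FusionSystem.normalizerIn S S) := fusionSystem_ext (h1 N hN)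
    have hA : ∀ f, IsMap F S f → ∃ g ∈ S, ∀ x ∈ S, f x = g * x * g⁻¹ := by
      intro f hf
      have h3 : IsMap N S f := by
        rw [isMap_normSys_of_le hN le_rfl]
        exact ⟨hNS.ge, hf, img_eq_self_of_top hf⟩
      rw [hNe] at h3
      obtain ⟨-, g, hg, h4⟩ := isMap_inner.mp h3
      exact ⟨g, by rwa [hNS] at hg, h4⟩
    have hcommΦ : ∀ x ∈ S, ∀ y ∈ S, x * y * x⁻¹ * y⁻¹ ∈ (frattini S).map S.subtype := by
      intro x hx y hy
      refine ⟨⟨x, hx⟩ * ⟨y, hy⟩ * ⟨x, hx⟩⁻¹ * ⟨y, hy⟩⁻¹, ?_, rfl⟩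
      apply Cfsg.Agent.Solv.commutator_le_frattini_of_pGroup hS
      exact Subgroup.commutator_mem_commutator (Subgroup.mem_top _) (Subgroup.mem_top _)
    have hfoc : F.focalSubgroup ≤ (frattini S).map S.subtype := by
      refine focal_le_of_sc hS hF h2 hcommΦ fun f hf x hx => ?_
      obtain ⟨g, hg, h4⟩ := hA f hf
      rw [h4 x hx]
      exact hcommΦ g hg x hx
    have hI := inner_saturated (p := p) hS
    have hIF : (innerFusionSystem S).IsSubsystemOf F := fun P => inner_le F P
    have hfoceq : F.focalSubgroup = (innerFusionSystem S).focalSubgroup := by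
      have hle : (innerFusionSystem S).focalSubgroup ≤ F.focalSubgroup := by
        refine focal_le fun P f hf x hx => ?_
        exact mem_focal_of_isMap (isSubsystemOf_iff.mp hIF _ _ hf) hx
      refine le_antisymm ?_ hle
      refine focal_le_of_elementary hS hF
        (focal_le fun _ _ hf _ hx => S.mul_mem (S.inv_mem (hf.le hx)) (hf.mem hx)) commutator_le_focal hle ?_
      exact hfoc.trans le_sup_right
    have hhyp := tate_hyper hS hF hI hIF hfoceq
    have hhyp1 : (innerFusionSystem S).hyperfocalSubgroup p ≤ ⊥ := by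
      refine hyper_le fun P hP α hα x hx => ?_
      have hfP := finite_of_le hP
      have hfA := finite_mulAut (P := P)
      have h3 : α = 1 := by
        rw [← orderOf_eq_one_iff]
        have h4 : ∃ k, α ^ p ^ k = 1 := by
          obtain ⟨-, g, hg, h5⟩ := isMap_inner.mp (isMap_ofAut hP α.2)
          obtain ⟨k, hk⟩ := hS ⟨g, hg⟩
          have hk' : g ^ p ^ k = 1 := congrArg Subtype.val hk
          refine ⟨k, ?_⟩
          have h6 : ∀ n : ℕ, ∀ y ∈ P, ofAut ((α : MulAut P) ^ n) y = g ^ n * y * (g ^ n)⁻¹ := by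
            intro n
            induction n with
            | zero =>
              intro y hy
              rw [pow_zero, pow_zero, ofAut_one hy]; group
            | succ n ih =>
              intro y hy
              rw [pow_succ', ofAut_mul _ _ hy, h5 _ (ofAut_mem _ hy), ih y hy, pow_succ']; group
          apply Subtype.ext
          refine ofAut_injective fun y hy => ?_
          show ofAut ((α : MulAut P) ^ p ^ k) y = ofAut 1 y
          rw [h6 _ y hy, hk', ofAut_one hy]; group
        obtain ⟨k, hk⟩ := h4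
        rw [← orderOf_dvd_iff_pow_eq_one] at hk
        exact Nat.eq_one_of_dvd_coprimes (Nat.Coprime.pow_right k hα) dvd_rfl hk
      rw [h3]
      show x⁻¹ * ofAut (1 : MulAut P) x ∈ _
      rw [ofAut_one hx, inv_mul_cancel]
      exact Subgroup.one_mem _
    have hFe : F = innerFusionSystem S := by
      apply le_antisymm_fs _ (inner_le F)
      refine alperin_coprime hS hF fun P hPn _ _ α hα hαp => ?_
      rw [isMap_inner]
      refine ⟨hPn.1, 1, S.one_mem, fun x hx => ?_⟩
      have h3 := mem_hyper_of_coprime hPn.1 hα hαp hx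
      rw [hhyp] at h3
      have h4 := Subgroup.mem_bot.mp (hhyp1 h3)
      rw [inv_mul_eq_one] at h4
      rw [← h4]; group
    intro P
    rw [hFe]

end Cfsg.Agent.S5276
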