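import Cfsg.Statements.S5279
import Cfsg.Agent.ZJF.PStab3

set_option autoImplicit false
open Cfsg

namespace Cfsg.Agent.S5279

/-- Let p be an odd prime, G a finite group with a nontrivial Sylow p-subgroup P, and F the fusion system of G on P. Suppose F is p-stable: for every fully normalized subgroup Q and every χ in Aut_F(Q) acting quadratically on Q (χ(a⁻¹)·a·χ(a⁻¹)·χ(χ(a)) = 1 for all a in Q), χ lies in O_p(Aut_F(Q)). Then some nontrivial subgroup of P is normal in F. -/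
theorem result {Ω : Type*} [Group Ω] [Finite Ω] (p : ℕ) [Fact p.Prime] (hp : p ≠ 2) (P : Sylow p Ω) (hP : (P : Subgroup Ω) ≠ ⊥) (hst : (∀ Q : Subgroup Ω, (Cfsg.groupFusionSystem (P : Subgroup Ω)).IsFullyNormalized Q → ∀ χ : MulAut ↥Q, χ ∈ (Cfsg.groupFusionSystem (P : Subgroup Ω)).autGroup Q → (∀ a : ↥Q, (χ a⁻¹) * a * (χ a⁻¹) * (χ (χ a)) = 1) → χ ∈ ((Cfsg.pCore p ↥((Cfsg.groupFusionSystem (P : Subgroup Ω)).autGroup Q)).map ((Cfsg.groupFusionSystem (P : Subgroup Ω)).autGroup Q).subtype : Subgroup (MulAut ↥Q)))) : (Cfsg.groupFusionSystem (P : Subgroup Ω)).core ≠ ⊥ := by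
  have hN := Cfsg.Agent.ZJF.isNormalizerPStable_of_fusion P hst
  have hcl := Cfsg.Agent.ZJF.zjClosed_of_pstable hp hN P
  obtain ⟨W, hW⟩ : ∃ W, W = Cfsg.centerThompsonAOf (P : Subgroup Ω) := ⟨_, rfl⟩
  unfold Cfsg.Agent.ZJF.ZJClosed at hcl
  rw [← hW] at hcl
  have hrel : W = Cfsg.Agent.ZJ.rel (fun X _ => Cfsg.Agent.ZJ.zja X) (P : Subgroup Ω) := by
    rw [hW, Cfsg.Agent.ZJ.rel_zja]
  have hWP : W ≤ (P : Subgroup Ω) := by rw [hrel]; exact Cfsg.Agent.ZJ.rel_le _ _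
  have hWne : W ≠ ⊥ := by
    rw [hrel]
    exact Cfsg.Agent.H51.rel_ne_bot (Cfsg.Agent.H51.goodFun_zja hp) P.2 hP
  have hab : IsMulCommutative W := by
    refine ⟨⟨fun a b => Subtype.ext ?_⟩⟩
    have ha := a.2
    have hb := b.2
    have h1 : W ≤ Subgroup.centralizer (W : Set Ω) := by
      rw [hW]
      unfold Cfsg.centerThompsonAOf
      exact inf_le_right.trans (Subgroup.centralizer_le inf_le_left)
    exact (Subgroup.mem_centralizer_iff.1 (h1 ha) b hb).symm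
  have hsc : (Cfsg.groupFusionSystem (P : Subgroup Ω)).StronglyClosed W := by
    rw [Cfsg.Agent.Fus.stronglyClosed_iff_isMap]
    refine ⟨hWP, fun A k hk x hxA hxR => ?_⟩
    obtain ⟨-, h2, g, hg⟩ := Cfsg.Agent.Fus.isMap_group.mp hk
    have h3 := h2 x hxA
    rw [hg x hxA] at h3 ⊢
    exact hcl x hxR g h3
  have hn := Cfsg.Agent.Fus.stronglyClosed_abelian_normal P.2 (Cfsg.Agent.Fus.group_saturated P) hsc hab
  intro h0
  apply hWne
  rw [← le_bot_iff, ← h0]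
  exact Cfsg.Agent.Fus.Join.le_core hn


end Cfsg.Agent.S5279
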