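import Cfsg.Statements.S5281
import Cfsg.Agent.H72.PStable
import Cfsg.Agent.Fus.Chain

set_option autoImplicit false
open Cfsg

namespace Cfsg.Agent.S5281

open Cfsg.Agent.Fus Cfsg.Agent.H72 Cfsg.FusionSystem

/-- Let p be an odd prime and F a saturated fusion system over a finite p-group S. Call a fusion system E (over any subgroup) p-stable when, for every fully E-normalized subgroup Q and every χ in Aut_E(Q) with χ(a⁻¹)·a·χ(a⁻¹)·χ(χ(a)) = 1 for all a in Q (χ acts quadratically), χ lies in O_p(Aut_E(Q)). Then F is p-stable if and only if the normalizer fusion system of R in F is p-stable for every fully F-normalized, F-centric, F-radical subgroup R of S. -/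
theorem result {Ω : Type*} [Group Ω] {S : Subgroup Ω} [Finite S] (p : ℕ) [Fact p.Prime] (hS : IsPGroup p ↥S) (F : Cfsg.FusionSystem S) (hF : F.IsSaturated p) (hp : p ≠ 2) : (∀ Q : Subgroup Ω, F.IsFullyNormalized Q → ∀ χ : MulAut ↥Q, χ ∈ F.autGroup Q → (∀ a : ↥Q, (χ a⁻¹) * a * (χ a⁻¹) * (χ (χ a)) = 1) → χ ∈ ((Cfsg.pCore p ↥(F.autGroup Q)).map (F.autGroup Q).subtype : Subgroup (MulAut ↥Q))) ↔ ∀ R : Subgroup Ω, F.IsFullyNormalized R → F.IsCentric R → F.IsRadical p R → ∀ N : Cfsg.FusionSystem (Cfsg.FusionSystem.normalizerIn S R), F.IsNormalizerSystem R N → (∀ Q : Subgroup Ω, N.IsFullyNormalized Q → ∀ χ : MulAut ↥Q, χ ∈ N.autGroup Q → (∀ a : ↥Q, (χ a⁻¹) * a * (χ a⁻¹) * (χ (χ a)) = 1) → χ ∈ ((Cfsg.pCore p ↥(N.autGroup Q)).map (N.autGroup Q).subtype : Subgroup (MulAut ↥Q))) := by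

  constructor
  · intro h R hR _ _ N hN
    have h1 : PStab p F := h
    have h2 : PStab p N := pstab_sub (fun P => by
      rw [hN P]
      intro φ hφ
      exact hφ.1) h1
    exact h2
  · intro h Q hQ χ hχ hq
    have hfc := sat_fullyCentralized hS hF hQ
    have hWc := isCentric_sup hfc
    obtain ⟨f, R, hf, hfR, hRn, hRc, hRr, hext⟩ := exists_radical_over hS hF
      (Nat.card S - Nat.card ↥(Q ⊔ centralizerIn S Q)) Q (Q ⊔ centralizerIn S Q) le_rfl hWc le_sup_left (by
        intro α hα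
        obtain ⟨g, hg, hg1, hg2⟩ := sat_exists_extend_centralizer hS hF hfc (isMap_ofAut hQ.1 hα) (img_ofAut α)
        have hmem : ∀ x ∈ Q ⊔ centralizerIn S Q, g x ∈ Q ⊔ centralizerIn S Q := by
          apply hg.forall_sup_mem
          · intro x hx
            rw [hg1 x hx]
            exact Subgroup.mem_sup_left (ofAut_mem _ hx)
          · intro x hx
            exact Subgroup.mem_sup_right (hg2 x hx)
        haveI : Finite ↥(Q ⊔ centralizerIn S Q) := Finite.Set.subset (S : Set Ω) hWc.1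
        have himg := hg.img_eq hmem
        refine ⟨hg.aut himg, hg.aut_mem himg, fun x hx => ?_⟩
        rw [hg.ofAut_aut himg (Subgroup.mem_sup_left hx), hg1 x hx])
    obtain ⟨N, hN⟩ := exists_isNormalizerSystem F hRn.1
    have h1 := core_of_norm hfR hRn.1 hext hN (h R hRn hRc hRr N hN) ((hf.trans_mem_iff rfl).2 hχ) (quad_trans hf rfl hq)
    exact (coreMap_trans_iff hf rfl).1 h1

end Cfsg.Agent.S5281
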