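import Cfsg.Statements.S5286
import Cfsg.Agent.H59.GraphPi


set_option autoImplicit false
set_option linter.style.haveILetI false
universe u
open Cfsg

namespace Cfsg.Agent.S5286


open FreeGroup Cfsg.Agent.H59.GraphPi

section tau

variable {A : Type*} [Group A] [Finite A]

/-- an embedding of a subgroup is induced by a permutation, through the right regular representation -/
lemma exists_tau (P : Subgroup A) (φ : P →* A) (hφ : Function.Injective φ) :
    ∃ τ : Equiv.Perm A, ∀ (s : A) (y : P), τ (s * y) = τ s * φ y := by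
  classical
  have hcard : Nat.card (A ⧸ P) = Nat.card (A ⧸ φ.range) := by
    have h1 := Subgroup.card_eq_card_quotient_mul_card_subgroup P
    have h2 := Subgroup.card_eq_card_quotient_mul_card_subgroup φ.range
    have h3 : Nat.card φ.range = Nat.card P := (Nat.card_congr (MonoidHom.ofInjective hφ).toEquiv).symm
    rw [h3] at h2
    have h4 : 0 < Nat.card P := Nat.card_pos
    have h5 : Nat.card (A ⧸ P) * Nat.card P = Nat.card (A ⧸ φ.range) * Nat.card P := by rw [← h1, ← h2]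
    exact Nat.eq_of_mul_eq_mul_right h4 h5
  let κ : (A ⧸ P) ≃ (A ⧸ φ.range) := Classical.choice (Finite.card_eq.1 hcard)
  have hc : ∀ s : A, (Quotient.out (s : A ⧸ P))⁻¹ * s ∈ P := by
    intro s
    rw [← QuotientGroup.eq]
    exact Quotient.out_eq _
  let f : A → A := fun s => Quotient.out (κ (s : A ⧸ P)) * φ ⟨_, hc s⟩
  have hmod : ∀ s, ((f s : A) : A ⧸ φ.range) = κ (s : A ⧸ P) := by
    intro s
    have h1 : ((f s : A) : A ⧸ φ.range) = ((Quotient.out (κ (s : A ⧸ P)) : A) : A ⧸ φ.range) := by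
      rw [QuotientGroup.eq]
      have : (f s)⁻¹ * Quotient.out (κ (s : A ⧸ P)) = (φ ⟨_, hc s⟩)⁻¹ := by
        simp only [f]; group
      rw [this]
      exact inv_mem ⟨_, rfl⟩
    rw [h1]
    exact Quotient.out_eq _
  have hinj : Function.Injective f := by
    intro s s' h
    have h1 : (s : A ⧸ P) = (s' : A ⧸ P) := by
      apply κ.injective
      rw [← hmod, ← hmod, h]
    have h2 : φ ⟨_, hc s⟩ = φ ⟨_, hc s'⟩ := by
      have h3 : Quotient.out (κ (s : A ⧸ P)) = Quotient.out (κ (s' : A ⧸ P)) := by rw [h1]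
      have h4 : Quotient.out (κ (s : A ⧸ P)) * φ ⟨_, hc s⟩ = Quotient.out (κ (s' : A ⧸ P)) * φ ⟨_, hc s'⟩ := h
      rw [h3] at h4
      exact mul_left_cancel h4
    have h3 := congrArg Subtype.val (hφ h2)
    simp only at h3
    rw [h1] at h3
    exact mul_left_cancel h3
  refine ⟨Equiv.ofBijective f ⟨hinj, Finite.surjective_of_injective hinj⟩, fun s y => ?_⟩
  change f (s * y) = f s * φ y
  have h1 : ((s * y : A) : A ⧸ P) = (s : A ⧸ P) := by
    rw [QuotientGroup.eq]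
    have : (s * (y : A))⁻¹ * s = (y : A)⁻¹ := by group
    rw [this]; exact inv_mem y.2
  have h2 : (⟨_, hc (s * y)⟩ : P) = ⟨_, hc s⟩ * y := by
    apply Subtype.ext
    change (Quotient.out ((s * y : A) : A ⧸ P))⁻¹ * (s * y) = (Quotient.out (s : A ⧸ P))⁻¹ * s * y
    rw [h1, mul_assoc]
  have h3 : Quotient.out (κ ((s * y : A) : A ⧸ P)) = Quotient.out (κ (s : A ⧸ P)) := by rw [h1]
  change Quotient.out (κ ((s * y : A) : A ⧸ P)) * φ ⟨_, hc (s * y)⟩ = Quotient.out (κ (s : A ⧸ P)) * φ ⟨_, hc s⟩ * φ y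
  rw [h2, _root_.map_mul, h3, mul_assoc]

/-- right regular representation -/
def lam (A : Type*) [Group A] : A →* Equiv.Perm A where
  toFun x := Equiv.mulRight x⁻¹
  map_one' := by ext s; simp
  map_mul' x y := by ext s; simp [mul_assoc]

lemma lam_apply (x s : A) : lam A x s = s * x⁻¹ := rfl

lemma lam_inj : Function.Injective (lam A) := by
  intro x y h
  have := congrArg (fun e : Equiv.Perm A => e 1) h
  simpa [lam_apply] using this

end tau

section quot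

variable {K : Type*} [Group K]

/-- the map of coset spaces `c H ↦ c d L` -/
def qm (H L : Subgroup K) (d : K) (h : ∀ x ∈ H, d⁻¹ * x * d ∈ L) : K ⧸ H → K ⧸ L :=
  Quotient.lift (fun c => ((c * d : K) : K ⧸ L)) (by
    intro a b hab
    rw [← Quotient.eq_iff_equiv, Quotient.eq] at hab
    rw [QuotientGroup.leftRel_apply] at hab
    rw [QuotientGroup.eq]
    have : (a * d)⁻¹ * (b * d) = d⁻¹ * (a⁻¹ * b) * d := by group
    rw [this]
    exact h _ hab)

lemma qm_mk {H L : Subgroup K} {d : K} (h : ∀ x ∈ H, d⁻¹ * x * d ∈ L) (c : K) :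
    qm H L d h (c : K ⧸ H) = ((c * d : K) : K ⧸ L) := rfl

lemma qm_smul {H L : Subgroup K} {d : K} (h : ∀ x ∈ H, d⁻¹ * x * d ∈ L) (g : K) (q : K ⧸ H) :
    qm H L d h (g • q) = g • qm H L d h q := by
  obtain ⟨c, rfl⟩ := QuotientGroup.mk_surjective q
  change (((g * c) * d : K) : K ⧸ L) = ((g * (c * d) : K) : K ⧸ L)
  rw [mul_assoc]

end quot

section main

variable {Ω : Type u} [Group Ω] {S : Subgroup Ω} [Finite S]

/-- index type of the maps -/
def I (F : Cfsg.FusionSystem S) : Type u := {p : Σ P : Subgroup Ω, (P →* Ω) // p.2 ∈ F.Hom p.1}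

variable {F : Cfsg.FusionSystem S}

/-- the maps, inside `S` -/
noncomputable def phi (i : I F) : (i.1.1.subgroupOf S) →* S where
  toFun x := ⟨i.1.2 ⟨x.1.1, x.2⟩, (F.le_of_mem i.2).2 _⟩
  map_one' := by
    apply Subtype.ext
    change i.1.2 1 = 1
    rw [_root_.map_one]
  map_mul' x y := by
    apply Subtype.ext
    change i.1.2 (⟨x.1.1, x.2⟩ * ⟨y.1.1, y.2⟩) = _
    rw [_root_.map_mul]; rfl

lemma phi_inj (i : I F) : Function.Injective (phi i) := by
  intro x y h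
  have h1 := congrArg Subtype.val h
  have h2 := F.injective_of_mem i.2 h1
  have h3 := congrArg Subtype.val h2
  apply Subtype.ext
  apply Subtype.ext
  exact h3

/-- the permutations -/
noncomputable def tau (i : I F) : Equiv.Perm S := (exists_tau _ (phi i) (phi_inj i)).choose

lemma tau_spec (i : I F) (y : i.1.1.subgroupOf S) :
    tau i * lam S y = lam S (phi i y) * tau i := by
  have h := (exists_tau _ (phi i) (phi_inj i)).choose_spec
  ext s
  rw [Equiv.Perm.mul_apply, Equiv.Perm.mul_apply, lam_apply, lam_apply]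
  have := h s y⁻¹
  rw [_root_.map_inv] at this
  exact congrArg Subtype.val this

/-- stabiliser of the base vertex -/
def SS (S : Subgroup Ω) : Subgroup (Equiv.Perm S) := (lam S).range
/-- stabiliser of the base edges -/
noncomputable def QQ (i : I F) : Subgroup (Equiv.Perm S) := (phi i).range.map (lam S)

lemma QQ_le (i : I F) : ∀ x ∈ QQ i, (1 : Equiv.Perm S)⁻¹ * x * 1 ∈ SS S := by
  rintro _ ⟨y, -, rfl⟩
  simp only [inv_one, one_mul, mul_one]
  exact ⟨y, rfl⟩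

lemma QQ_tau (i : I F) : ∀ x ∈ QQ i, (tau i)⁻¹ * x * tau i ∈ SS S := by
  rintro _ ⟨_, ⟨y, rfl⟩, rfl⟩
  refine ⟨y, ?_⟩
  rw [mul_assoc, ← tau_spec, inv_mul_cancel_left]

/-- the graph -/
noncomputable def graph (F : Cfsg.FusionSystem S) :
    Gr (Equiv.Perm S) (Equiv.Perm S ⧸ SS S) (Σ i : I F, Equiv.Perm S ⧸ QQ i) where
  o e := qm _ _ 1 (QQ_le e.1) e.2
  t e := qm _ _ (tau e.1) (QQ_tau e.1) e.2
  ho g e := qm_smul _ g e.2
  ht g e := qm_smul _ g e.2

/-- base vertex -/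
def v₀ (S : Subgroup Ω) : Equiv.Perm S ⧸ SS S := ((1 : Equiv.Perm S) : Equiv.Perm S ⧸ SS S)

lemma smul_v₀ (g : Equiv.Perm S) : g • v₀ S = (g : Equiv.Perm S ⧸ SS S) := by
  change ((g * 1 : Equiv.Perm S) : Equiv.Perm S ⧸ SS S) = _
  rw [mul_one]

lemma smul_eq_iff {g h : Equiv.Perm S} : (g : Equiv.Perm S ⧸ SS S) = (h : Equiv.Perm S ⧸ SS S) ↔
    ∃ s : S, g⁻¹ * h = lam S s := by
  rw [QuotientGroup.eq]
  constructor
  · rintro ⟨s, hs⟩; exact ⟨s, hs.symm⟩
  · rintro ⟨s, hs⟩; exact ⟨s, hs.symm⟩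

/-- conjugation by elements of `S` -/
lemma conj_step {P : Subgroup Ω} (hP : P ≤ S) (s : S) : ∃ ψ ∈ F.Hom P, ∀ (x : P),
    ψ x = (s : Ω)⁻¹ * x * s := by
  refine ⟨_, F.conj_mem hP (S.inv_mem s.2), fun x => ?_⟩
  change (s : Ω)⁻¹ * x * ((s : Ω)⁻¹)⁻¹ = _
  rw [inv_inv]

/-- one letter -/
lemma letter_step (l : (Σ i : I F, Equiv.Perm S ⧸ QQ i) × Bool) (hl : src (graph F) l = v₀ S) :
    ∃ d : Equiv.Perm S, tgt (graph F) l = d • v₀ S ∧
      ∀ (P : Subgroup Ω) (hP : P ≤ S), (∀ x : P, la (lam S ⟨x, hP x.2⟩) l = l) →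
        ∃ (ψ : P →* Ω) (hψ : ψ ∈ F.Hom P), ∀ x : P,
          lam S ⟨x, hP x.2⟩ * d = d * lam S ⟨ψ x, (F.le_of_mem hψ).2 x⟩ := by
  obtain ⟨⟨i, q⟩, ε⟩ := l
  obtain ⟨b, rfl⟩ := QuotientGroup.mk_surjective q
  have hfix : ∀ (P : Subgroup Ω) (hP : P ≤ S), (∀ x : P, la (lam S ⟨x, hP x.2⟩)
      ((⟨i, (b : Equiv.Perm S ⧸ QQ i)⟩, ε) : (Σ i : I F, Equiv.Perm S ⧸ QQ i) × Bool) = (⟨i, b⟩, ε)) →
      ∀ x : P, ∃ y : i.1.1.subgroupOf S, b⁻¹ * lam S ⟨x, hP x.2⟩ * b = lam S (phi i y) := by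
    intro P hP h x
    have h1 := congrArg Prod.fst (h x)
    have h2 : (lam S ⟨x, hP x.2⟩) • (b : Equiv.Perm S ⧸ QQ i) = (b : Equiv.Perm S ⧸ QQ i) := by
      have h3 : (⟨i, (lam S ⟨x, hP x.2⟩) • (b : Equiv.Perm S ⧸ QQ i)⟩ : Σ i : I F, Equiv.Perm S ⧸ QQ i) = ⟨i, b⟩ := h1
      rw [Sigma.mk.injEq] at h3
      exact eq_of_heq h3.2
    have h3 : ((lam S ⟨x, hP x.2⟩ * b : Equiv.Perm S) : Equiv.Perm S ⧸ QQ i) = (b : Equiv.Perm S ⧸ QQ i) := h2
    rw [eq_comm, QuotientGroup.eq] at h3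
    obtain ⟨_, ⟨y, rfl⟩, hy⟩ := h3
    refine ⟨y, ?_⟩
    rw [mul_assoc]; exact hy.symm
  have hi := i.2
  cases ε with
  | true =>
    have h1 : ((b * 1 : Equiv.Perm S) : Equiv.Perm S ⧸ SS S) = ((1 : Equiv.Perm S) : Equiv.Perm S ⧸ SS S) := hl
    rw [mul_one, eq_comm] at h1
    obtain ⟨s, hs⟩ := smul_eq_iff.1 h1
    rw [inv_one, one_mul] at hs
    refine ⟨b * tau i, by rw [smul_v₀]; rfl, fun P hP h => ?_⟩
    have h2 := hfix P hP h
    -- x ↦ s⁻¹ x s ∈ range of the map i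
    obtain ⟨ψ₁, hψ₁, e₁⟩ := conj_step (F := F) hP s
    have h3 : ∀ x : P, ψ₁ x ∈ i.1.2.range := by
      intro x
      obtain ⟨y, hy⟩ := h2 x
      rw [hs, ← _root_.map_inv, ← _root_.map_mul, ← _root_.map_mul] at hy
      have h4 := congrArg Subtype.val (lam_inj hy)
      refine ⟨⟨y.1.1, y.2⟩, ?_⟩
      rw [e₁]
      exact h4.symm
    obtain ⟨ψ₂, hψ₂, e₂⟩ := F.inv_mem hi
    refine ⟨_, F.comp_mem hψ₁ hψ₂ h3, fun x => ?_⟩
    obtain ⟨y, hy⟩ := h2 x
    have h5 : ψ₂.comp (ψ₁.codRestrict i.1.2.range h3) x = y.1.1 := by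
      change ψ₂ ⟨ψ₁ x, h3 x⟩ = _
      have h6 : (⟨ψ₁ x, h3 x⟩ : i.1.2.range) = ⟨i.1.2 ⟨y.1.1, y.2⟩, ⟨_, rfl⟩⟩ := by
        apply Subtype.ext
        rw [hs, ← _root_.map_inv, ← _root_.map_mul, ← _root_.map_mul] at hy
        have h4 := congrArg Subtype.val (lam_inj hy)
        change ψ₁ x = _
        rw [e₁]
        exact h4
      rw [h6]
      exact e₂ _
    have h6 : lam S ⟨x, hP x.2⟩ * b = b * lam S (phi i y) := by rw [← hy]; group
    have h7 : (⟨ψ₂.comp (ψ₁.codRestrict i.1.2.range h3) x, (F.le_of_mem (F.comp_mem hψ₁ hψ₂ h3)).2 x⟩ : S) = y.1 :=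
      Subtype.ext h5
    rw [h7, ← mul_assoc, h6, mul_assoc, mul_assoc, tau_spec]
  | false =>
    have h1 : ((b * tau i : Equiv.Perm S) : Equiv.Perm S ⧸ SS S) = ((1 : Equiv.Perm S) : Equiv.Perm S ⧸ SS S) := hl
    rw [eq_comm] at h1
    obtain ⟨s, hs⟩ := smul_eq_iff.1 h1
    rw [inv_one, one_mul] at hs
    refine ⟨b, ?_, fun P hP h => ?_⟩
    · rw [smul_v₀]
      change ((b * 1 : Equiv.Perm S) : Equiv.Perm S ⧸ SS S) = _
      rw [mul_one]
    have h2 := hfix P hP h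
    obtain ⟨ψ₁, hψ₁, e₁⟩ := conj_step (F := F) hP s
    have h3 : ∀ x : P, ψ₁ x ∈ i.1.1 ∧ ∀ y : i.1.1.subgroupOf S, b⁻¹ * lam S ⟨x, hP x.2⟩ * b = lam S (phi i y) →
        y.1.1 = ψ₁ x := by
      intro x
      have h4 : ∀ y : i.1.1.subgroupOf S, b⁻¹ * lam S ⟨x, hP x.2⟩ * b = lam S (phi i y) → y.1.1 = ψ₁ x := by
        intro y hy
        have h5 : lam S s⁻¹ * lam S ⟨x, hP x.2⟩ * lam S s = lam S y := by
          have h6 := tau_spec i y
          have h7 : lam S y = (tau i)⁻¹ * (lam S (phi i y) * tau i) := by rw [← h6, inv_mul_cancel_left]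
          rw [h7, ← hy, _root_.map_inv, ← hs]
          group
        rw [← _root_.map_mul, ← _root_.map_mul] at h5
        have h6 := congrArg Subtype.val (lam_inj h5)
        rw [e₁]
        exact h6.symm
      obtain ⟨y, hy⟩ := h2 x
      refine ⟨?_, h4⟩
      rw [← h4 y hy]
      exact y.2
    refine ⟨_, F.comp_mem hψ₁ hi (fun x => (h3 x).1), fun x => ?_⟩
    obtain ⟨y, hy⟩ := h2 x
    have h6 : lam S ⟨x, hP x.2⟩ * b = b * lam S (phi i y) := by rw [← hy]; group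
    rw [h6]
    congr 2
    apply Subtype.ext
    change i.1.2 ⟨y.1.1, y.2⟩ = i.1.2 ⟨ψ₁ x, (h3 x).1⟩
    congr 1
    apply Subtype.ext
    exact (h3 x).2 y hy

/-- paths -/
lemma path_step' (n : ℕ) : ∀ (L : List ((Σ i : I F, Equiv.Perm S ⧸ QQ i) × Bool)), L.length = n → ∀ (c : Equiv.Perm S),
    Path (graph F) L (v₀ S) (c • v₀ S) → ∀ (P : Subgroup Ω) (hP : P ≤ S),
      (∀ l ∈ L, ∀ x : P, la (lam S ⟨x, hP x.2⟩) l = l) →
        ∃ (ψ : P →* Ω) (hψ : ψ ∈ F.Hom P), ∀ x : P,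
          lam S ⟨x, hP x.2⟩ * c = c * lam S ⟨ψ x, (F.le_of_mem hψ).2 x⟩ := by
  induction n with
  | zero =>
    intro L hL0 c hc P hP _
    obtain rfl := List.length_eq_zero_iff.1 hL0
    have h1 : v₀ S = c • v₀ S := hc
    rw [smul_v₀] at h1
    obtain ⟨s, hs⟩ := smul_eq_iff.1 h1
    rw [inv_one, one_mul] at hs
    obtain ⟨ψ₁, hψ₁, e₁⟩ := conj_step (F := F) hP s
    refine ⟨ψ₁, hψ₁, fun x => ?_⟩
    rw [hs, ← _root_.map_mul, ← _root_.map_mul]
    congr 1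
    apply Subtype.ext
    change (x : Ω) * s = s * ψ₁ x
    rw [e₁]; group
  | succ n ih =>
    intro L' hn c hc P hP hL
    cases L' with
    | nil => simp at hn
    | cons l L => ?_
    have hn' : L.length = n := by simpa using hn
    obtain ⟨h1, h2⟩ := hc
    obtain ⟨d, hd, h3⟩ := letter_step l h1
    obtain ⟨ψ, hψ, hψx⟩ := h3 P hP (fun x => hL l (by simp) x)
    rw [hd] at h2
    have h4 := path_smul d⁻¹ h2
    rw [inv_smul_smul, ← mul_smul] at h4
    have hR : ψ.range ≤ S := by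
      rintro _ ⟨x, rfl⟩
      exact (F.le_of_mem hψ).2 x
    obtain ⟨χ, hχ, hχx⟩ := ih _ (by rw [List.length_map]; exact hn') _ h4 _ hR (by
      intro l' hl'
      obtain ⟨l'', hl'', rfl⟩ := List.mem_map.1 hl'
      rintro ⟨_, x, rfl⟩
      have h5 : lam S ⟨ψ x, hR ⟨x, rfl⟩⟩ = d⁻¹ * (lam S ⟨x, hP x.2⟩) * d := by
        rw [mul_assoc, hψx x, inv_mul_cancel_left]
      rw [h5, la_mul, la_mul, ← la_mul d, mul_inv_cancel, la_one, hL l'' (by simp [hl'']) x])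
    refine ⟨_, F.comp_mem hψ hχ (fun x => ⟨x, rfl⟩), fun x => ?_⟩
    have h6 := hχx ⟨ψ x, ⟨x, rfl⟩⟩
    have h7 := hψx x
    calc lam S ⟨x, hP x.2⟩ * c = lam S ⟨x, hP x.2⟩ * d * (d⁻¹ * c) := by group
      _ = d * (lam S ⟨ψ x, (F.le_of_mem hψ).2 x⟩ * (d⁻¹ * c)) := by rw [h7, mul_assoc]
      _ = c * lam S ⟨χ ⟨ψ x, ⟨x, rfl⟩⟩, (F.le_of_mem hχ).2 _⟩ := by rw [h6]; group
      _ = _ := rfl

noncomputable instance decE : DecidableEq (Σ i : I F, Equiv.Perm S ⧸ QQ i) := Classical.decEq _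

lemma lam_smul_v₀ (s : S) : lam S s • v₀ S = v₀ S := by
  rw [smul_v₀]
  refine smul_eq_iff.2 ⟨s⁻¹, ?_⟩
  rw [mul_one, _root_.map_inv]

/-- the embedding of `S` -/
noncomputable def iota (F : Cfsg.FusionSystem S) : S →* pi (graph F) (v₀ S) :=
  ((SemidirectProduct.inr).comp (lam S)).codRestrict _ (fun s => by
    rw [mem_pi]
    change Path (graph F) (toWord (1 : FreeGroup (Σ i : I F, Equiv.Perm S ⧸ QQ i))) (v₀ S) (lam S s • v₀ S)
    rw [toWord_one, lam_smul_v₀]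
    rfl)

lemma iota_coe (s : S) : ((iota F s : pi (graph F) (v₀ S)) : FreeGroup (Σ i : I F, Equiv.Perm S ⧸ QQ i) ⋊[act (K := Equiv.Perm S)] Equiv.Perm S) =
    SemidirectProduct.inr (lam S s) := rfl

lemma iota_inj : Function.Injective (iota F) := by
  intro x y h
  have h1 := congrArg Subtype.val h
  rw [iota_coe, iota_coe] at h1
  exact lam_inj (SemidirectProduct.inr_injective h1)

lemma real1 {P : Subgroup Ω} (hP : P ≤ S) {φ : P →* Ω} (hφ : φ ∈ F.Hom P) :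
    ∃ g : pi (graph F) (v₀ S), ∀ x : P, iota F ⟨φ x, (F.le_of_mem hφ).2 x⟩ = g * iota F ⟨x, hP x.2⟩ * g⁻¹ := by
  let i : I F := ⟨⟨P, φ⟩, hφ⟩
  let e : Σ i : I F, Equiv.Perm S ⧸ QQ i := ⟨i, ((1 : Equiv.Perm S) : Equiv.Perm S ⧸ QQ i)⟩
  let g₀ : FreeGroup (Σ i : I F, Equiv.Perm S ⧸ QQ i) ⋊[act (K := Equiv.Perm S)] Equiv.Perm S := ⟨mk [(e, true)], tau i⟩
  have hg₀ : g₀ ∈ pi (graph F) (v₀ S) := by
    rw [mem_pi]
    change Path (graph F) (toWord (mk [(e, true)])) (v₀ S) (tau i • v₀ S)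
    rw [toWord_mk, FreeGroup.IsReduced.singleton.reduce_eq]
    refine ⟨?_, ?_⟩
    · change ((1 * 1 : Equiv.Perm S) : Equiv.Perm S ⧸ SS S) = _
      rw [mul_one]; rfl
    · change ((1 * tau i : Equiv.Perm S) : Equiv.Perm S ⧸ SS S) = _
      rw [smul_v₀, one_mul]
  refine ⟨⟨g₀, hg₀⟩, fun x => ?_⟩
  rw [eq_mul_inv_iff_mul_eq]
  apply Subtype.ext
  change SemidirectProduct.inr (lam S ⟨φ x, (F.le_of_mem hφ).2 x⟩) * g₀ = g₀ * SemidirectProduct.inr (lam S ⟨x, hP x.2⟩)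
  have hx : (⟨x, hP x.2⟩ : S) ∈ P.subgroupOf S := x.2
  have hy : phi i ⟨⟨x, hP x.2⟩, hx⟩ = ⟨φ x, (F.le_of_mem hφ).2 x⟩ := rfl
  ext1
  · rw [SemidirectProduct.mul_left, SemidirectProduct.mul_left, SemidirectProduct.left_inr, SemidirectProduct.left_inr,
      SemidirectProduct.right_inr, _root_.map_one, mul_one, one_mul]
    change mk ([(e, true)].map (la (lam S ⟨φ x, (F.le_of_mem hφ).2 x⟩))) = mk [(e, true)]
    congr 1
    rw [List.map_singleton]
    congr 1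
    change ((lam S ⟨φ x, (F.le_of_mem hφ).2 x⟩) • e, true) = (e, true)
    congr 1
    change (⟨i, ((lam S ⟨φ x, (F.le_of_mem hφ).2 x⟩ * 1 : Equiv.Perm S) : Equiv.Perm S ⧸ QQ i)⟩ :
      Σ i : I F, Equiv.Perm S ⧸ QQ i) = ⟨i, ((1 : Equiv.Perm S) : Equiv.Perm S ⧸ QQ i)⟩
    congr 1
    rw [QuotientGroup.eq, mul_one, mul_one]
    apply inv_mem
    exact ⟨_, ⟨_, rfl⟩, by rw [hy]⟩
  · rw [SemidirectProduct.mul_right, SemidirectProduct.mul_right, SemidirectProduct.right_inr,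
      SemidirectProduct.right_inr]
    change lam S ⟨φ x, (F.le_of_mem hφ).2 x⟩ * tau i = tau i * lam S ⟨x, hP x.2⟩
    rw [tau_spec i ⟨⟨x, hP x.2⟩, hx⟩, hy]

lemma real2 {P : Subgroup Ω} (hP : P ≤ S) {φ : P →* Ω} (hφ : ∀ x, φ x ∈ S) (g : pi (graph F) (v₀ S))
    (hg : ∀ x : P, iota F ⟨φ x, hφ x⟩ = g * iota F ⟨x, hP x.2⟩ * g⁻¹) : φ ∈ F.Hom P := by
  have h1 : ∀ x : P, g.1 * SemidirectProduct.inr (lam S ⟨x, hP x.2⟩) = SemidirectProduct.inr (lam S ⟨φ x, hφ x⟩) * g.1 := by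
    intro x
    have h2 := hg x
    rw [eq_mul_inv_iff_mul_eq] at h2
    exact (congrArg Subtype.val h2).symm
  have hR : φ.range ≤ S := by
    rintro _ ⟨x, rfl⟩; exact hφ x
  obtain ⟨ψ, hψ, hψx⟩ := path_step' (F := F) _ g.1.left.toWord rfl g.1.right g.2 φ.range hR (by
    rintro l hl ⟨_, x, rfl⟩
    exact (fix_letters (h1 x)).1 l hl)
  have h3 : ∀ x : P, ψ ⟨φ x, ⟨x, rfl⟩⟩ = x := by
    intro x
    have h4 := (fix_letters (h1 x)).2
    have h5 := hψx ⟨φ x, ⟨x, rfl⟩⟩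
    have h6 : g.1.right * lam S ⟨x, hP x.2⟩ = g.1.right * lam S ⟨ψ ⟨φ x, ⟨x, rfl⟩⟩, (F.le_of_mem hψ).2 _⟩ := h4.trans h5
    have h7 := congrArg Subtype.val (lam_inj (mul_left_cancel h6))
    exact h7.symm
  obtain ⟨χ, hχ, hχx⟩ := F.inv_mem hψ
  have h4 : ∀ x : P, conjHom P 1 x ∈ ψ.range := by
    intro x
    have : conjHom P 1 x = x := by
      change 1 * (x : Ω) * 1⁻¹ = x
      simp
    rw [this]
    exact ⟨_, h3 x⟩
  have h5 := F.comp_mem (F.conj_mem hP S.one_mem) hχ h4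
  have h6 : χ.comp ((conjHom P 1).codRestrict ψ.range h4) = φ := by
    ext x
    change χ ⟨conjHom P 1 x, h4 x⟩ = φ x
    refine Eq.trans ?_ (hχx ⟨φ x, ⟨x, rfl⟩⟩)
    congr 1
    apply Subtype.ext
    have h8 : (1 : Ω) * x * 1⁻¹ = x := by simp
    exact h8.trans (h3 x).symm
  rw [← h6]
  exact h5

lemma fin_conj (H : Subgroup (pi (graph F) (v₀ S))) (hH : Finite H) :
    ∃ g : pi (graph F) (v₀ S), ∀ h ∈ H, g * h * g⁻¹ ∈ (iota F).range := by
  obtain ⟨N, hN⟩ : ∃ N : ℕ, ∀ h : H, (h : pi (graph F) (v₀ S)).1.left.norm ≤ N := by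
    obtain ⟨N, hN⟩ := (Set.finite_range (fun h : H => (h : pi (graph F) (v₀ S)).1.left.norm)).bddAbove
    exact ⟨N, fun h => hN ⟨h, rfl⟩⟩
  obtain ⟨p, b, hp, hb⟩ := fin_fix (Γ := graph F) N (v₀ S) (H.map (pi (graph F) (v₀ S)).subtype) (by
    rintro _ ⟨h, -, rfl⟩
    exact h.2) (by
    rintro _ ⟨h, hh, rfl⟩
    exact hN ⟨h, hh⟩)
  obtain ⟨c, rfl⟩ := QuotientGroup.mk_surjective b
  rw [← smul_v₀] at hp
  have hmem : (⟨p, c⟩ : FreeGroup (Σ i : I F, Equiv.Perm S ⧸ QQ i) ⋊[act (K := Equiv.Perm S)] Equiv.Perm S) ∈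
    pi (graph F) (v₀ S) := hp
  refine ⟨(⟨⟨p, c⟩, hmem⟩ : pi (graph F) (v₀ S))⁻¹, fun h hh => ?_⟩
  obtain ⟨h1, h2⟩ := hb _ ⟨h, hh, rfl⟩
  change (h : pi (graph F) (v₀ S)).1.right • (c : Equiv.Perm S ⧸ SS S) = c at h2
  have h3 : ((h.1.right * c : Equiv.Perm S) : Equiv.Perm S ⧸ SS S) = c := h2
  rw [eq_comm] at h3
  obtain ⟨s, hs⟩ := smul_eq_iff.1 h3
  refine ⟨s, ?_⟩
  apply Subtype.ext
  rw [inv_inv]
  change SemidirectProduct.inr (lam S s) = (⟨p, c⟩ : FreeGroup (Σ i : I F, Equiv.Perm S ⧸ QQ i) ⋊[act (K := Equiv.Perm S)] Equiv.Perm S)⁻¹ * h.1 * ⟨p, c⟩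
  rw [SemidirectProduct.mk_eq_inl_mul_inr, ← hs, _root_.map_mul, _root_.map_mul, _root_.map_inv]
  have h4 : SemidirectProduct.inr h.1.right = (SemidirectProduct.inl p)⁻¹ * h.1 * SemidirectProduct.inl p := h1.symm
  rw [h4]
  group

end main

/-- Every fusion system F over a finite p-group S, saturated or not, is realized by a possibly infinite group: there are a group G and an injective homomorphism ι of S into G such that the maps of F are exactly the conjugations by elements of G between subgroups of ι(S), every finite subgroup of G is conjugate to a subgroup of ι(S), and G has a free normal subgroup whose index divides (#S)!. -/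
theorem result {Ω : Type u} [Group Ω] {S : Subgroup Ω} [Finite S] (p : ℕ) [Fact p.Prime] (hS : IsPGroup p ↥S) (F : Cfsg.FusionSystem S) : ∃ (G : Type u) (_ : Group G) (ι : ↥S →* G), F.IsRealizedBy ι ∧ (∀ H : Subgroup G, Finite ↥H → ∃ g : G, ∀ h ∈ H, g * h * g⁻¹ ∈ ι.range) ∧ ∃ N : Subgroup G, N.Normal ∧ IsFreeGroup ↥N ∧ N.index ∣ (Nat.card ↥S).factorial := by

  classical
  refine ⟨↥(pi (graph F) (v₀ S)), inferInstance, iota F, ⟨iota_inj, fun P hP φ hφ => ⟨fun h => ?_, fun ⟨g, hg⟩ => ?_⟩⟩,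
    fun H hH => fin_conj H hH, (SemidirectProduct.rightHom.comp (pi (graph F) (v₀ S)).subtype).ker, inferInstance, ?_, ?_⟩
  · exact real1 hP h
  · exact real2 hP hφ g hg
  · let N' : Subgroup (FreeGroup (Σ i : I F, Equiv.Perm S ⧸ QQ i)) := (pi (graph F) (v₀ S)).comap SemidirectProduct.inl
    have hfree : IsFreeGroup N' := subgroupIsFreeOfIsFree N'
    let f : N' →* (SemidirectProduct.rightHom.comp (pi (graph F) (v₀ S)).subtype).ker :=
      { toFun := fun w => ⟨⟨SemidirectProduct.inl w.1, w.2⟩, by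
          rw [MonoidHom.mem_ker]
          change (SemidirectProduct.inl w.1 : FreeGroup (Σ i : I F, Equiv.Perm S ⧸ QQ i) ⋊[act (K := Equiv.Perm S)] Equiv.Perm S).right = 1
          simp⟩
        map_one' := by
          apply Subtype.ext; apply Subtype.ext
          change SemidirectProduct.inl (1 : FreeGroup (Σ i : I F, Equiv.Perm S ⧸ QQ i)) = 1
          rw [_root_.map_one]
        map_mul' := fun x y => by
          apply Subtype.ext; apply Subtype.ext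
          change SemidirectProduct.inl (x.1 * y.1) = SemidirectProduct.inl x.1 * SemidirectProduct.inl y.1
          rw [_root_.map_mul] }
    have hf : Function.Bijective f := by
      constructor
      · intro x y h
        have h1 := congrArg Subtype.val (congrArg Subtype.val h)
        exact Subtype.ext (SemidirectProduct.inl_injective h1)
      · rintro ⟨⟨x, hx⟩, hk⟩
        rw [MonoidHom.mem_ker] at hk
        have hk' : x.right = 1 := hk
        have hx2 : SemidirectProduct.inl x.left = x := by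
          ext
          · rfl
          · rw [hk']; rfl
        refine ⟨⟨x.left, ?_⟩, ?_⟩
        · change SemidirectProduct.inl x.left ∈ pi (graph F) (v₀ S)
          rw [hx2]; exact hx
        · apply Subtype.ext; apply Subtype.ext
          exact hx2
    exact IsFreeGroup.ofMulEquiv (MulEquiv.ofBijective f hf)
  · rw [Subgroup.index_ker]
    have h1 := Subgroup.card_subgroup_dvd_card (SemidirectProduct.rightHom.comp (pi (graph F) (v₀ S)).subtype).range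
    rwa [Nat.card_perm] at h1


end Cfsg.Agent.S5286
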