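import Cfsg.Statements.S5296
import Cfsg.Agent.H72.BGH
import Cfsg.Agent.Fus.HyperSC

set_option autoImplicit false
universe u
open Cfsg

namespace Cfsg.Agent.S5296

open Cfsg.Agent.Fus Cfsg.Agent.H72

theorem small_of_homSet {Ω : Type*} [Group Ω] {S : Subgroup Ω} {E F : Cfsg.FusionSystem S} {A : Subgroup Ω} {f : Ω → Ω}
    (hf : IsMap F A f) (h : E.homSet A (img A f) = F.homSet A (img A f)) : IsMap E A f := by
  have h1 : hf.hom ∈ F.homSet A (img A f) := ⟨hf.hom_mem, fun x => subset_img x.2⟩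
  rw [← h] at h1
  exact ⟨hf.hom, h1.1, fun x => rfl⟩

/-- Small-exponent abelian subgroups of the hyperfocal subgroup control fusion. Let E and F be saturated fusion systems over the same finite p-group S with E contained in F. Suppose that E and F have the same maps between A and B for all subgroups A, B of the hyperfocal subgroup of F that are elementary abelian when p is odd, respectively abelian of exponent dividing 4 when p = 2. Then E = F. -/
theorem result {Ω : Type u} [Group Ω] {S : Subgroup Ω} [Finite S] (p : ℕ) [Fact p.Prime] (hS : IsPGroup p S)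
    (E F : Cfsg.FusionSystem S) (hE : E.IsSaturated p) (hF : F.IsSaturated p) (hEF : E.IsSubsystemOf F)
    (hodd : p ≠ 2 → ∀ A B : Subgroup Ω, A ≤ (F.hyperfocalSubgroup p) → B ≤ (F.hyperfocalSubgroup p) →
      Cfsg.IsElementaryAbelian p A → Cfsg.IsElementaryAbelian p B → E.homSet A B = F.homSet A B)
    (htwo : p = 2 → ∀ A B : Subgroup Ω, A ≤ (F.hyperfocalSubgroup p) → B ≤ (F.hyperfocalSubgroup p) →
      IsMulCommutative ↥A → IsMulCommutative ↥B → (∀ a ∈ A, a ^ 4 = 1) → (∀ b ∈ B, b ^ 4 = 1) → E.homSet A B = F.homSet A B) :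
    ∀ P : Subgroup Ω, E.Hom P = F.Hom P := by
  have h2S : ∀ (P : Subgroup Ω) (f : Ω → Ω), IsMap E P f → IsMap F P f := isSubsystemOf_iff.1 hEF
  have hWp : ∀ (P : Subgroup Ω) (α : MulAut P), P ≤ S → α ∈ F.autGroup P → (orderOf α).Coprime p →
      ∀ x ∈ P, x⁻¹ * ofAut α x ∈ F.hyperfocalSubgroup p := by
    intro P α hP hα ho x hx
    refine mem_hyper hP hα (Subgroup.subset_closure ?_) hx
    show (orderOf (⟨α, hα⟩ : F.autGroup P)).Coprime p
    rwa [Subgroup.orderOf_mk]
  have hsc := hyper_stronglyClosed hS hF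
  have himgW : ∀ (A : Subgroup Ω) (f : Ω → Ω), A ≤ F.hyperfocalSubgroup p → IsMap F A f → img A f ≤ F.hyperfocalSubgroup p := by
    intro A f hA hf y hy
    obtain ⟨x, hx, rfl⟩ := hf.mem_img.1 hy
    exact sc_map_mem hsc hf hx (hA hx)
  intro P
  rw [hom_eq_iff]
  intro f
  refine ⟨h2S P f, ?_⟩
  have hpp := (Fact.out : p.Prime)
  by_cases hp2 : p = 2
  · refine BGH.main hS hE hF h2S hsc hWp (m := 2) ?_ (by norm_num) (fun _ => le_rfl) ?_ P f
    · rw [hp2]; norm_num
    · intro A f hA hAc hAe hf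
      have hAe' : ∀ a ∈ A, a ^ 4 = 1 := by
        intro a ha; have := hAe a ha; rw [hp2] at this; exact this
      have hAc' : IsMulCommutative A := ⟨⟨fun a b => Subtype.ext (hAc _ a.2 _ b.2)⟩⟩
      refine small_of_homSet hf (htwo hp2 A (img A f) hA (himgW A f hA hf) hAc' ?_ hAe' ?_)
      · refine ⟨⟨fun a b => Subtype.ext ?_⟩⟩
        obtain ⟨x, hx, hx'⟩ := hf.mem_img.1 a.2
        obtain ⟨y, hy, hy'⟩ := hf.mem_img.1 b.2
        show (a : Ω) * b = b * a
        rw [← hx', ← hy', ← hf.map_mul hx hy, ← hf.map_mul hy hx, hAc x hx y hy]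
      · intro b hb
        obtain ⟨x, hx, rfl⟩ := hf.mem_img.1 hb
        have h1 := congrArg (fun z : Ω => z) (map_pow hf.hom ⟨x, hx⟩ 4)
        have h2 : hf.hom (⟨x, hx⟩ ^ 4) = 1 := by
          rw [show (⟨x, hx⟩ : A) ^ 4 = 1 from Subtype.ext (hAe' x hx), map_one]
        have h3 : hf.hom ⟨x, hx⟩ = f x := rfl
        rw [← h3, ← map_pow, h2]
  · refine BGH.main hS hE hF h2S hsc hWp (m := 1) ?_ le_rfl (fun h => absurd h hp2) ?_ P f
    · rw [pow_one]; exact hp2
    · intro A f hA hAc hAe hf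
      have hAe' : ∀ a ∈ A, a ^ p = 1 := by
        intro a ha; have := hAe a ha; rw [pow_one] at this; exact this
      have hAc' : IsMulCommutative A := ⟨⟨fun a b => Subtype.ext (hAc _ a.2 _ b.2)⟩⟩
      refine small_of_homSet hf (hodd hp2 A (img A f) hA (himgW A f hA hf) ⟨hAc', hAe'⟩ ⟨?_, ?_⟩)
      · refine ⟨⟨fun a b => Subtype.ext ?_⟩⟩
        obtain ⟨x, hx, hx'⟩ := hf.mem_img.1 a.2
        obtain ⟨y, hy, hy'⟩ := hf.mem_img.1 b.2
        show (a : Ω) * b = b * a
        rw [← hx', ← hy', ← hf.map_mul hx hy, ← hf.map_mul hy hx, hAc x hx y hy]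
      · intro b hb
        obtain ⟨x, hx, rfl⟩ := hf.mem_img.1 hb
        have h2 : hf.hom (⟨x, hx⟩ ^ p) = 1 := by
          rw [show (⟨x, hx⟩ : A) ^ p = 1 from Subtype.ext (hAe' x hx), map_one]
        have h3 : hf.hom ⟨x, hx⟩ = f x := rfl
        rw [← h3, ← map_pow, h2]

end Cfsg.Agent.S5296
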