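import Cfsg.Statements.S5297
import Cfsg.Agent.Fus.Small

set_option autoImplicit false
universe u
open Cfsg

namespace Cfsg.Agent.S5297

open Cfsg.Agent.Fus

theorem card_small {Ω : Type*} [Group Ω] {p : ℕ} [Fact p.Prime] {x : Ω} (hx1 : x ≠ 1)
    (h : x ^ p = 1 ∨ (p = 2 ∧ x ^ 4 = 1)) : Nat.card (Subgroup.zpowers x) = p ∨ Nat.card (Subgroup.zpowers x) = 4 := by
  rw [Nat.card_zpowers]
  rcases h with h | ⟨h2, h4⟩
  · exact Or.inl (orderOf_eq_prime h hx1)
  · subst h2
    have h5 : orderOf x ∣ 4 := orderOf_dvd_of_pow_eq_one h4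
    have h6 : orderOf x ≤ 4 := Nat.le_of_dvd (by norm_num) h5
    have h7 : orderOf x ≠ 1 := by rwa [Ne, orderOf_eq_one_iff]
    have h8 : orderOf x ≠ 0 := by
      intro h0
      rw [h0] at h5
      norm_num at h5
    interval_cases h9 : orderOf x
    · exact absurd rfl h8
    · exact absurd rfl h7
    · exact Or.inl rfl
    · norm_num at h5
    · exact Or.inr rfl


/-- Let F be a saturated fusion system over a finite p-group S. If every map of F between cyclic subgroups of the hyperfocal subgroup of F of order p or 4 is a map of the normalizer system of S (it extends to a map of F defined on all of S), then S is normal in F. -/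
theorem result {Ω : Type u} [Group Ω] {S : Subgroup Ω} [Finite S] (p : ℕ) [Fact p.Prime] (hS : IsPGroup p S)
    (F : Cfsg.FusionSystem S) (hF : F.IsSaturated p)
    (h : ∀ A B : Subgroup Ω, A ≤ (F.hyperfocalSubgroup p) → B ≤ (F.hyperfocalSubgroup p) → IsCyclic ↥A → (Nat.card ↥A = p ∨ Nat.card ↥A = 4) → IsCyclic ↥B → (Nat.card ↥B = p ∨ Nat.card ↥B = 4) →
      F.homSet A B ⊆ F.normalizerHom S A) :
    F.IsNormal S := by
  refine isNormal_self_of_small hS hF fun x hxV hx f hf => ?_
  by_cases hx1 : x = 1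
  · refine ⟨id, isMap_id le_rfl, ?_⟩
    subst hx1
    exact (hf.map_one).symm
  have hxz := Subgroup.mem_zpowers x
  have hfx : f x ∈ F.hyperfocalSubgroup p := (hf.hyper_mem_iff hS hF hxz).mpr hxV
  have himg : img (Subgroup.zpowers x) f = Subgroup.zpowers (f x) := by
    apply le_antisymm
    · refine hf.img_le_iff.mpr ?_
      rintro _ ⟨k, rfl⟩
      simp only
      rw [hf.map_zpow hxz]
      exact ⟨k, rfl⟩
    · rw [Subgroup.zpowers_le]
      exact subset_img hxz
  have hcard : Nat.card (Subgroup.zpowers (f x)) = Nat.card (Subgroup.zpowers x) := by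
    rw [← himg, hf.card_img]
  have h1 := h (Subgroup.zpowers x) (Subgroup.zpowers (f x)) (Subgroup.zpowers_le.mpr hxV)
    (Subgroup.zpowers_le.mpr hfx) inferInstance (card_small hx1 hx) inferInstance
    (by rw [hcard]; exact card_small hx1 hx)
    (show hf.hom ∈ _ from ⟨hf.hom_mem, fun y => by
      show f (y : Ω) ∈ _
      rw [← himg]; exact subset_img y.2⟩)
  obtain ⟨-, -, -, ψ, hψ, h2, -⟩ := h1
  refine ⟨ofHom ψ, (isMap_of_mem hψ).mono le_sup_right, ?_⟩
  have h3 := h2 ⟨x, hxz⟩
  have h4 : x ∈ Subgroup.zpowers x ⊔ S := le_sup_left (b := S) hxz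
  rw [ofHom_apply ψ h4]
  exact h3

end Cfsg.Agent.S5297
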