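import Cfsg.Statements.S5298
import Cfsg.Agent.Fus.Small

set_option autoImplicit false
universe u
open Cfsg

namespace Cfsg.Agent.S5298

open Cfsg.Agent.Fus

theorem card_small {Ω : Type*} [Group Ω] {p : ℕ} [Fact p.Prime] {x : Ω} (hx1 : x ≠ 1)
    (h : x ^ p = 1 ∨ (p = 2 ∧ x ^ 4 = 1)) : Nat.card (Subgroup.zpowers x) = p ∨ Nat.card (Subgroup.zpowers x) = 4 := by
  rw [Nat.card_zpowers]
  rcases h with h | ⟨h2, h4⟩
  · exact Or.inl (orderOf_eq_prime h hx1)
  · subst h2
    have h5 : orderOf x ∣ 4 := orderOf_dvd_of_pow_eq_one h4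
    have h6 : orderOf x ≤ 4 := Nat.le_of_dvd (by norm_num) h5
    have h7 : orderOf x ≠ 1 := by rwa [Ne, orderOf_eq_one_iff]
    have h8 : orderOf x ≠ 0 := by
      intro h0
      rw [h0] at h5
      norm_num at h5
    interval_cases h9 : orderOf x
    · exact absurd rfl h8
    · exact absurd rfl h7
    · exact Or.inl rfl
    · norm_num at h5
    · exact Or.inr rfl


/-- Let F be a saturated fusion system over a finite p-group S. If every map of F between cyclic subgroups of the hyperfocal subgroup of F of order p or 4 is conjugation by an element of S, then F is the inner fusion system of S. -/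
theorem result {Ω : Type u} [Group Ω] {S : Subgroup Ω} [Finite S] (p : ℕ) [Fact p.Prime] (hS : IsPGroup p S)
    (F : Cfsg.FusionSystem S) (hF : F.IsSaturated p)
    (h : ∀ A B : Subgroup Ω, A ≤ (F.hyperfocalSubgroup p) → B ≤ (F.hyperfocalSubgroup p) → IsCyclic ↥A → (Nat.card ↥A = p ∨ Nat.card ↥A = 4) → IsCyclic ↥B → (Nat.card ↥B = p ∨ Nat.card ↥B = 4) →
      F.homSet A B ⊆ (Cfsg.innerFusionSystem S).Hom A) :
    ∀ P : Subgroup Ω, F.Hom P = (Cfsg.innerFusionSystem S).Hom P := by
  have hin : F = innerFusionSystem S := by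
    refine eq_inner_of_pgroup hS hF fun P hP => isPGroup_of_small hS hF ?_ hP
    intro x hxV hx f hf
    by_cases hx1 : x = 1
    · refine ⟨1, S.one_mem, ?_⟩
      subst hx1
      rw [hf.map_one]
      group
    have hxz := Subgroup.mem_zpowers x
    have hfx : f x ∈ F.hyperfocalSubgroup p := (hf.hyper_mem_iff hS hF hxz).mpr hxV
    have himg : img (Subgroup.zpowers x) f = Subgroup.zpowers (f x) := by
      apply le_antisymm
      · refine hf.img_le_iff.mpr ?_
        rintro _ ⟨k, rfl⟩
        simp only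
        rw [hf.map_zpow hxz]
        exact ⟨k, rfl⟩
      · rw [Subgroup.zpowers_le]
        exact subset_img hxz
    have hcard : Nat.card (Subgroup.zpowers (f x)) = Nat.card (Subgroup.zpowers x) := by
      rw [← himg, hf.card_img]
    have h1 := h (Subgroup.zpowers x) (Subgroup.zpowers (f x)) (Subgroup.zpowers_le.mpr hxV)
      (Subgroup.zpowers_le.mpr hfx) inferInstance (card_small hx1 hx) inferInstance
      (by rw [hcard]; exact card_small hx1 hx)
      (show hf.hom ∈ _ from ⟨hf.hom_mem, fun y => by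
        show f (y : Ω) ∈ _
        rw [← himg]; exact subset_img y.2⟩)
    obtain ⟨-, s, hs, h2⟩ := isMap_inner.mp (isMap_of_mem h1)
    refine ⟨s, hs, ?_⟩
    rw [← h2 x hxz, ofHom_apply _ hxz]
    rfl
  intro P
  rw [← hin]

end Cfsg.Agent.S5298
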