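import Cfsg.Statements.S5310
import Cfsg.Agent.Fus.CProd2
import Cfsg.Agent.Fus.CompExist

set_option autoImplicit false
open Cfsg

namespace Cfsg.Agent.S5310

open Cfsg Cfsg.FusionSystem Cfsg.Agent.Fus

theorem inner_constrained {Ω : Type*} [Group Ω] {S : Subgroup Ω} [Finite S] (p : ℕ)
    (h : (innerFusionSystem S).IsSaturated p) : (innerFusionSystem S).IsConstrained p := by
  have hn : (innerFusionSystem S).IsNormal S := by
    refine isNormal_iff_isMap.2 ⟨le_rfl, fun P f hf => ?_⟩
    obtain ⟨hP, g, hg, hfg⟩ := isMap_inner.1 hf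
    have hm : IsMap (innerFusionSystem S) (P ⊔ S) (fun x => g * x * g⁻¹) :=
      isMap_inner.2 ⟨sup_le hP le_rfl, g, hg, fun x _ => rfl⟩
    have hm' := hm.mono (Q := S) le_sup_right
    refine ⟨_, hm, fun x hx => (hfg x hx).symm, ?_⟩
    exact Subgroup.eq_of_le_of_card_ge hm'.img_le (by rw [hm'.card_img])
  exact ⟨h, S, hn, isCentric_of_isNormal hn inf_le_left⟩

theorem prL_bot {Ω : Type*} [Group Ω] {Q P : Subgroup Ω} (hP : P ≤ Q) : prL Q ⊥ P = P := by
  unfold prL; rw [sup_bot_eq]; exact inf_eq_right.2 hP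

theorem prR_bot {Ω : Type*} [Group Ω] {Q P : Subgroup Ω} : prR Q ⊥ P = ⊥ := by
  unfold prR; rw [bot_inf_eq]

theorem cprod_bot {Ω : Type*} [Group Ω] {Q : Subgroup Ω} (E : FusionSystem Q) (B : FusionSystem (⊥ : Subgroup Ω)) :
    CProd E B E := by
  refine ⟨fun x _ y hy => ?_, by rw [sup_bot_eq], ?_, ?_, fun P f => ?_⟩
  · rw [Subgroup.mem_bot.1 hy, mul_one, one_mul]
  · rw [inf_bot_eq]; exact bot_le
  · rw [inf_bot_eq]; exact bot_le
  · constructor
    · intro hf
      refine ⟨hf.le, f, id, by rw [prL_bot hf.le]; exact hf, by rw [prR_bot]; exact isMap_id le_rfl, ?_⟩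
      intro x hx y hy hxy
      rw [Subgroup.mem_bot.1 hy, mul_one]; exact (mul_one _).symm
    · rintro ⟨hP, f₁, f₂, h1, h2, h3⟩
      rw [prL_bot hP] at h1
      rw [prR_bot] at h2
      refine h1.congr fun x hx => ?_
      have := h3 x (hP hx) 1 (Subgroup.one_mem _) (by rwa [mul_one])
      rw [mul_one, h2.map_one, mul_one] at this
      exact this.symm

/-- A saturated fusion system F over a finite p-group S is constrained (its largest normal subgroup O_p(F) is centric) if and only if the inner fusion system of O_p(F) is itself a generalized Fitting subsystem of F (that is, F*(F) = O_p(F)). -/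
theorem result {Ω : Type*} [Group Ω] {S : Subgroup Ω} [Finite S] (p : ℕ) [Fact p.Prime] (hS : IsPGroup p S) (F : Cfsg.FusionSystem S) (hF : F.IsSaturated p) :
    F.IsConstrained p ↔ (Cfsg.innerFusionSystem F.core).IsGeneralizedFittingOf F p := by
  have hfin : Finite F.core := Finite.of_injective _ (Subgroup.inclusion_injective (Join.core_le F))
  rw [constrained_iff_no_component hS hF]
  constructor
  · intro hno
    have hlay : (innerFusionSystem (⊥ : Subgroup Ω)).IsLayerOf F p := by
      refine ⟨inner_isNormalIn hS hF isNormal_bot', fun U C hC => (hno ⟨U, C, hC⟩).elim, fun R D hD _ => ?_⟩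
      rw [isSubsystemOf_iff]
      intro P f hf
      have hP : P ≤ ⊥ := hf.le
      refine (isMap_id (hP.trans bot_le)).congr fun x hx => ?_
      rw [Subgroup.mem_bot.1 (hP hx), hf.map_one]; rfl
    exact ⟨⊥, innerFusionSystem ⊥, hlay, isCentralProductOf_of_cprod (cprod_bot _ _)⟩
  · rintro ⟨T, E, hE, hc⟩ ⟨U, C, hC⟩
    have hTS : T ≤ S := by
      have := (isMap_id (F := E) (P := T) le_rfl)
      exact (isSubsystemOf_iff.1 hE.1.1.2.2.1 _ _ this).le
    have hfT : Finite T := Finite.of_injective _ (Subgroup.inclusion_injective hTS)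
    have hcp := cprod_of_isCentralProductOf hc
    have hCE := hE.2.1 U C hC
    have hUT : U ≤ T := (isSubsystemOf_iff.1 hCE _ _ (isMap_id (F := C) (P := U) le_rfl)).le
    have hfU : Finite U := Finite.of_injective _ (Subgroup.inclusion_injective (hUT.trans hTS))
    have hCi : ∀ P f, IsMap C P f → IsMap (innerFusionSystem F.core) P f := fun P f hf =>
      hcp.isMap_right (isSubsystemOf_iff.1 hCE _ _ hf)
    have hcore : IsPGroup p F.core := hS.to_le (Join.core_le F)
    have hU : IsPGroup p U := hS.to_le (hUT.trans hTS)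
    have hin : C = innerFusionSystem U := by
      refine eq_inner_of_pgroup hU hC.2.1 fun P hP => ?_
      refine (isPGroup_autInducedBy hcore P).to_le fun α hα => ?_
      have h1 := hCi _ _ (isMap_ofAut hP hα)
      obtain ⟨-, g, hg, hfg⟩ := isMap_inner.1 h1
      refine H85.mem_autInducedBy.2 ⟨g, hg, fun x => ?_⟩
      have h2 := hfg x x.2
      rwa [ofAut_coe] at h2
    exact quasisimple_not_constrained hU hC.2 (by rw [hin]; exact inner_constrained p (hin ▸ hC.2.1))

end Cfsg.Agent.S5310
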