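import Cfsg.Statements.S5317
import Cfsg.Agent.Fus.Simple
import Cfsg.Agent.Fus.Group
import Cfsg.Agent.Fus.Chain
import Cfsg.Agent.Fus.Extend
import Cfsg.Agent.H81.SL2Card
import Cfsg.Agent.S0809

set_option autoImplicit false
open Cfsg

namespace Cfsg.Agent.S5317

open Subgroup Cfsg.Agent.Fus

/-- Simplicity of the 2-fusion system of a group with a "dihedral-like" Sylow subgroup and one class of
involutions. -/
theorem simple_of_dihedral {G : Type*} [Group G] [Finite G] (S : Sylow 2 G) {k : ℕ} (hk : 2 ≤ k) (r s : G)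
    (hr : r ∈ (S : Subgroup G)) (hrk : orderOf r = 2 ^ k) (hs : s ∈ (S : Subgroup G)) (hsr : s ∉ zpowers r)
    (hinv : ∀ x ∈ (S : Subgroup G), x ∉ zpowers r → orderOf x = 2)
    (hidx : ∀ x ∈ (S : Subgroup G), ∀ y ∈ (S : Subgroup G), x ∉ zpowers r → y ∉ zpowers r → x⁻¹ * y ∈ zpowers r)
    (hconj : ∀ x y : G, orderOf x = 2 → orderOf y = 2 → IsConj x y) :
    (Cfsg.groupFusionSystem (S : Subgroup G)).IsSimple 2 := by
  classical
  haveI : Fact (Nat.Prime 2) := ⟨Nat.prime_two⟩
  set F := Cfsg.groupFusionSystem (S : Subgroup G) with hFdef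
  have hRS : zpowers r ≤ (S : Subgroup G) := by rwa [zpowers_le]
  have hs2 := hinv s hs hsr
  refine isSimple_of_isPGroup_autGroup S.isPGroup' (group_saturated S) ?_ ?_ ?_
  · intro h
    apply hsr
    rw [h, mem_bot] at hs
    rw [hs]; exact one_mem _
  · -- strongly closed subgroups
    intro T hT
    rcases eq_or_ne T ⊥ with h | h
    · exact Or.inl h
    right
    rw [stronglyClosed_iff] at hT
    refine le_antisymm hT.1 ?_
    -- an involution of T
    have hTp : IsPGroup 2 T := isPGroup_of_le S.isPGroup' hT.1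
    have h2 : 2 ∣ Nat.card T := by
      obtain ⟨n, hn⟩ := hTp.exists_card_eq
      rw [hn]
      refine dvd_pow_self 2 ?_
      rintro rfl
      apply h
      rw [pow_zero] at hn
      exact Subgroup.card_eq_one.mp hn
    obtain ⟨t, ht⟩ := exists_prime_orderOf_dvd_card' 2 h2
    have ht' : orderOf (t : G) = 2 := by rw [Subgroup.orderOf_coe]; exact ht
    have key : ∀ x ∈ (S : Subgroup G), x ∉ zpowers r → x ∈ T := by
      intro x hx hxr
      obtain ⟨g, hg⟩ := isConj_iff.mp (hconj (t : G) x ht' (hinv x hx hxr))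
      have hm : IsMap F (zpowers (t : G)) (fun y => g * y * g⁻¹) := by
        rw [isMap_group]
        refine ⟨?_, ?_, g, fun _ _ => rfl⟩
        · rw [zpowers_le]; exact hT.1 t.2
        · intro y hy
          obtain ⟨m, rfl⟩ := mem_zpowers_iff.mp hy
          show g * (t : G) ^ m * g⁻¹ ∈ _
          rw [← conj_zpow, hg]
          exact zpow_mem hx _
      have := hT.2 _ _ hm (by rw [zpowers_le]; exact t.2) (t : G) (mem_zpowers _)
      rwa [hg] at this
    intro x hx
    by_cases hxr : x ∈ zpowers r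
    · have h1 : x * s ∉ zpowers r := by
        intro h1
        apply hsr
        have := mul_mem (inv_mem hxr) h1
        simpa using this
      have h2 := key (x * s) (mul_mem hx hs) h1
      have h3 := mul_mem h2 (inv_mem (key s hs hsr))
      simpa using h3
    · exact key x hx hxr
  · -- automorphisms
    apply isPGroup_of_coprime_trivial
    rintro ⟨β, hβ⟩ hco
    have hco' : (orderOf β).Coprime 2 := by
      rw [← Subgroup.orderOf_coe] at hco
      exact hco
    have hord : ∀ x ∈ (S : Subgroup G), orderOf (ofAut β x) = orderOf x := by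
      intro x hx
      rw [ofAut_apply β hx]
      rw [Subgroup.orderOf_coe, MulEquiv.orderOf_eq, ← Subgroup.orderOf_coe]
    have hpow : ∀ x ∈ (S : Subgroup G), ∀ m : ℤ, ofAut β (x ^ m) = ofAut β x ^ m := by
      intro x hx m
      rw [ofAut_apply β hx, ofAut_apply β (zpow_mem hx m)]
      have : (⟨x ^ m, zpow_mem hx m⟩ : (S : Subgroup G)) = ⟨x, hx⟩ ^ m := rfl
      rw [this, map_zpow]
      rfl
    have hgt : 2 < orderOf r := by
      rw [hrk]
      calc 2 < 2 ^ 2 := by norm_num
        _ ≤ 2 ^ k := Nat.pow_le_pow_right (by norm_num) hk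
    have hβr : ofAut β r ∈ zpowers r := by
      by_contra h
      have := hinv _ (ofAut_mem β hr) h
      rw [hord r hr] at this
      omega
    obtain ⟨m, hm⟩ := mem_zpowers_iff.mp hβr
    have hmodd : ∃ l : ℤ, m - 1 = 2 * l := by
      rcases Int.even_or_odd m with he | ho
      · exfalso
        obtain ⟨l, hl⟩ := he
        have h1 : (ofAut β r) ^ (2 ^ (k - 1)) = 1 := by
          rw [← hm, ← zpow_natCast, ← zpow_mul, hl, ← two_mul]
          have : (2 * l * ((2 ^ (k - 1) : ℕ) : ℤ)) = ((2 ^ k : ℕ) : ℤ) * l := by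
            have h3 : (2 ^ k : ℕ) = 2 * 2 ^ (k - 1) := by
              rw [← pow_succ']; congr 1; omega
            rw [h3]; push_cast; ring
          rw [this, zpow_mul, zpow_natCast, ← hrk, pow_orderOf_eq_one, one_zpow]
        have h2 := orderOf_dvd_of_pow_eq_one h1
        rw [hord r hr, hrk] at h2
        have h3 := (Nat.pow_dvd_pow_iff_le_right (by norm_num : 1 < 2)).mp h2
        omega
      · obtain ⟨l, hl⟩ := ho
        exact ⟨l, by omega⟩
    obtain ⟨l, hl⟩ := hmodd
    -- downward induction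
    have hfix : ∀ d j : ℕ, k ≤ j + d → ofAut β (r ^ (2 ^ j)) = r ^ (2 ^ j) := by
      intro d
      induction d with
      | zero =>
        intro j hj
        have h1 : r ^ (2 ^ j) = 1 := by
          rw [← orderOf_dvd_iff_pow_eq_one, hrk]
          exact Nat.pow_dvd_pow 2 (by omega)
        rw [h1, ofAut_apply β (one_mem _)]
        have : (⟨1, one_mem _⟩ : (S : Subgroup G)) = 1 := rfl
        rw [this, map_one]; rfl
      | succ d ih =>
        intro j hj
        have h1 := ih (j + 1) (by omega)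
        have hmem : r ^ (2 ^ j) ∈ (S : Subgroup G) := pow_mem hr _
        apply ofAut_fix_of_coprime S.isPGroup' hco' hmem
        have h2 : (r ^ (2 ^ j))⁻¹ * ofAut β (r ^ (2 ^ j)) = (r ^ (2 ^ (j + 1))) ^ l := by
          have h3 := hpow r hr ((2 ^ j : ℕ) : ℤ)
          rw [zpow_natCast, zpow_natCast] at h3
          rw [h3, ← hm, ← zpow_natCast, ← zpow_natCast, ← zpow_natCast, ← zpow_mul, ← zpow_mul, ← zpow_neg, ← zpow_add]
          congr 1
          have h4 : m = 1 + 2 * l := by omega
          rw [h4, pow_succ]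
          push_cast
          ring
        rw [h2, hpow _ (pow_mem hr _), h1]
    have hfixr : ofAut β r = r := by
      have := hfix k 0 (by omega)
      simpa using this
    have hfixR : ∀ x ∈ zpowers r, ofAut β x = x := by
      intro x hx
      obtain ⟨i, rfl⟩ := mem_zpowers_iff.mp hx
      rw [hpow r hr, hfixr]
    apply Subtype.ext
    show β = 1
    apply ofAut_injective
    intro x hx
    rw [ofAut_one hx]
    by_cases hxr : x ∈ zpowers r
    · exact hfixR x hxr
    · have h1 : ofAut β x ∉ zpowers r := by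
        intro h1
        have h2 := hfixR _ h1
        have h3 : ofAut β x = x := by
          have h4 := ofAut_inv_apply β (ofAut_mem β hx)
          rw [h2] at h4
          rw [ofAut_inv_apply β hx] at h4
          exact h4.symm
        rw [h3] at h1
        exact hxr h1
      exact ofAut_fix_of_coprime S.isPGroup' hco' hx (hfixR _ (hidx x hx _ (ofAut_mem β hx) hxr h1))

/-- Let F be a finite field of odd order q with q² ≡ 1 mod 16 (so that a Sylow 2-subgroup of PSL(2,q), dihedral of order the 2-part of (q²−1)/2, has order at least 8). Then the 2-fusion system of PSL(2,F) on a Sylow 2-subgroup is simple: saturated, over a nontrivial 2-group, with no normal subsystem other than the trivial one and itself. -/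
theorem result {F : Type*} [Field F] [Fintype F] (hodd : Fintype.card F % 2 = 1) (h16 : 16 ∣ Fintype.card F ^ 2 - 1)
    (S : Sylow 2 (Matrix.ProjectiveSpecialLinearGroup (Fin 2) F)) :
    (Cfsg.groupFusionSystem (S : Subgroup (Matrix.ProjectiveSpecialLinearGroup (Fin 2) F))).IsSimple 2 := by

  classical
  haveI : Fact (Nat.Prime 2) := ⟨Nat.prime_two⟩
  have hodd' : Odd (Fintype.card F) := Nat.odd_iff.mpr hodd
  have h2ne := Cfsg.Agent.H81.two_ne_zero_of_odd hodd'
  set q := Fintype.card F with hqdef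
  have hq1 : 1 < q := Fintype.one_lt_card
  let π := QuotientGroup.mk' (Subgroup.center (Matrix.SpecialLinearGroup (Fin 2) F))
  have hπ : Function.Surjective π := QuotientGroup.mk'_surjective _
  obtain ⟨P, hP⟩ := Sylow.mapSurjective_surjective hπ 2 S
  obtain ⟨k, hk, hfac, hdvd, ⟨e⟩⟩ := Cfsg.Agent.H81.sylow_two_sl2 hodd' P
  have hSP : (S : Subgroup (Matrix.ProjectiveSpecialLinearGroup (Fin 2) F)) = (P : Subgroup (Matrix.SpecialLinearGroup (Fin 2) F)).map π := by
    rw [← hP]; rfl
  have hk2 : 2 ≤ k := by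
    have h1 : 2 ^ 4 ∣ Nat.card (Matrix.SpecialLinearGroup (Fin 2) F) := by
      rw [Cfsg.Agent.H81.card_sl2]
      have h2 : Fintype.card F ^ 2 - 1 = (Fintype.card F - 1) * (Fintype.card F + 1) := by
        rw [mul_comm, ← Nat.sq_sub_sq]
      rw [← h2]
      exact Dvd.dvd.mul_left h16 _
    have h3 := (Nat.Prime.pow_dvd_iff_le_factorization Nat.prime_two Nat.card_pos.ne').mp h1
    omega
  haveI : NeZero (2 ^ k) := ⟨pow_ne_zero _ (by norm_num)⟩
  -- the parametrization
  let ρ : QuaternionGroup (2 ^ k) →* Matrix.ProjectiveSpecialLinearGroup (Fin 2) F :=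
    π.comp ((P : Subgroup (Matrix.SpecialLinearGroup (Fin 2) F)).subtype.comp e.symm.toMonoidHom)
  have hρS : ∀ x, ρ x ∈ (S : Subgroup (Matrix.ProjectiveSpecialLinearGroup (Fin 2) F)) := by
    intro x
    rw [hSP]
    exact Subgroup.mem_map.mpr ⟨_, (e.symm x).2, rfl⟩
  have hρsurj : ∀ y ∈ (S : Subgroup (Matrix.ProjectiveSpecialLinearGroup (Fin 2) F)), ∃ x, ρ x = y := by
    intro y hy
    rw [hSP] at hy
    obtain ⟨s, hs, rfl⟩ := Subgroup.mem_map.1 hy
    refine ⟨e ⟨s, hs⟩, ?_⟩
    show π ((e.symm (e ⟨s, hs⟩)).1) = π s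
    rw [MulEquiv.symm_apply_apply]
  have hρ1 : ∀ x, ρ x = 1 → x * x = 1 := by
    intro x hx
    have h1 : (e.symm x).1 ∈ Subgroup.center (Matrix.SpecialLinearGroup (Fin 2) F) := by
      rw [← QuotientGroup.eq_one_iff]; exact hx
    have h2 : (⟨(e.symm x).1, h1⟩ : Subgroup.center (Matrix.SpecialLinearGroup (Fin 2) F)) ^ 2 = 1 := by
      have h0 := pow_card_eq_one' (x := (⟨(e.symm x).1, h1⟩ : Subgroup.center (Matrix.SpecialLinearGroup (Fin 2) F)))
      rwa [Cfsg.Agent.H81.card_center_sl2 h2ne] at h0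
    have h3 : (e.symm x).1 ^ 2 = 1 := congrArg Subtype.val h2
    have h4 : (e.symm x) ^ 2 = 1 := Subtype.ext h3
    rw [← map_pow] at h4
    have h5 := (MulEquiv.map_eq_one_iff e.symm).1 h4
    rwa [pow_two] at h5
  have hρ2 : ∀ x, x * x = 1 → ρ x = 1 := by
    intro x hx
    have h1 : e.symm x * e.symm x = 1 := by rw [← map_mul, hx, map_one]
    have h2 : (e.symm x).1 * (e.symm x).1 = 1 := congrArg Subtype.val h1
    show π ((e.symm x).1) = 1
    show (QuotientGroup.mk (e.symm x).1 : Matrix.ProjectiveSpecialLinearGroup (Fin 2) F) = 1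
    rw [QuotientGroup.eq_one_iff]
    rcases Cfsg.Agent.H81.sl2_invol h2ne _ h2 with h | h
    · rw [h]; exact one_mem _
    · exact Cfsg.Agent.H81.neg_one_mem_center _ h
  have hxa : ∀ i, QuaternionGroup.xa (n := 2 ^ k) i * QuaternionGroup.xa i ≠ 1 := by
    intro i h
    have h1 := QuaternionGroup.orderOf_xa (n := 2 ^ k) i
    have h2 : orderOf (QuaternionGroup.xa (n := 2 ^ k) i) ∣ 2 := orderOf_dvd_of_pow_eq_one (by rw [pow_two]; exact h)
    rw [h1] at h2
    revert h2; decide
  have hrot : ∀ i, ρ (QuaternionGroup.a i) ∈ Subgroup.zpowers (ρ (QuaternionGroup.a 1)) := by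
    intro i
    have h1 : QuaternionGroup.a (n := 2 ^ k) i = (QuaternionGroup.a 1) ^ i.val := by
      rw [QuaternionGroup.a_one_pow, ZMod.natCast_val, ZMod.cast_id]
    rw [h1, map_pow]
    exact pow_mem (Subgroup.mem_zpowers _) _
  have hnrot : ∀ i, ρ (QuaternionGroup.xa i) ∉ Subgroup.zpowers (ρ (QuaternionGroup.a 1)) := by
    intro i h
    obtain ⟨m, hm⟩ := (Submonoid.mem_powers_iff _ _).mp ((mem_powers_iff_mem_zpowers).mpr h)
    rw [← map_pow, QuaternionGroup.a_one_pow] at hm
    have h1 : ρ (QuaternionGroup.xa i * (QuaternionGroup.a (m : ZMod (2 * 2 ^ k)))⁻¹) = 1 := by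
      rw [map_mul, map_inv, ← hm, mul_inv_cancel]
    have h2 := hρ1 _ h1
    have h3 : (QuaternionGroup.a (n := 2 ^ k) (m : ZMod (2 * 2 ^ k)))⁻¹ = QuaternionGroup.a (-(m : ZMod (2 * 2 ^ k))) := rfl
    rw [h3, QuaternionGroup.xa_mul_a] at h2
    exact hxa _ h2
  have hout : ∀ y ∈ (S : Subgroup (Matrix.ProjectiveSpecialLinearGroup (Fin 2) F)),
      y ∉ Subgroup.zpowers (ρ (QuaternionGroup.a 1)) → ∃ i, y = ρ (QuaternionGroup.xa i) := by
    intro y hy hy'
    obtain ⟨x, rfl⟩ := hρsurj y hy
    cases x with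
    | a i => exact absurd (hrot i) hy'
    | xa i => exact ⟨i, rfl⟩
  refine simple_of_dihedral S hk2 (ρ (QuaternionGroup.a 1)) (ρ (QuaternionGroup.xa 0)) (hρS _) ?_ (hρS _)
    (hnrot 0) ?_ ?_ ?_
  · obtain ⟨j, rfl⟩ : ∃ j, k = j + 1 := ⟨k - 1, by omega⟩
    apply orderOf_eq_prime_pow
    · intro h
      rw [← map_pow] at h
      have h1 := hρ1 _ h
      rw [← pow_two, ← pow_mul, ← pow_succ] at h1
      have h2 := orderOf_dvd_of_pow_eq_one h1
      rw [QuaternionGroup.orderOf_a_one] at h2
      have h3 := Nat.le_of_dvd (by positivity) h2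
      have h4 : 0 < 2 ^ (j + 1) := by positivity
      omega
    · rw [← map_pow]
      apply hρ2
      rw [← pow_two, ← pow_mul, ← orderOf_dvd_iff_pow_eq_one, QuaternionGroup.orderOf_a_one, mul_comm]
  · intro x hx hx'
    obtain ⟨i, rfl⟩ := hout x hx hx'
    apply orderOf_eq_prime
    · rw [pow_two, ← map_mul]
      apply hρ2
      have h1 := QuaternionGroup.orderOf_xa (n := 2 ^ k) i
      have h2 : (QuaternionGroup.xa (n := 2 ^ k) i) ^ 4 = 1 := by rw [← h1]; exact pow_orderOf_eq_one _
      rw [← pow_two, ← pow_two, ← pow_mul]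
      exact h2
    · intro h
      exact hxa i (hρ1 _ h)
  · intro x hx y hy hx' hy'
    obtain ⟨i, rfl⟩ := hout x hx hx'
    obtain ⟨j, rfl⟩ := hout y hy hy'
    rw [← map_inv, ← map_mul]
    have h1 : (QuaternionGroup.xa (n := 2 ^ k) i)⁻¹ * QuaternionGroup.xa j = QuaternionGroup.a (j - i) := by
      rw [inv_mul_eq_iff_eq_mul, QuaternionGroup.xa_mul_a]
      congr 1; ring
    rw [h1]
    exact hrot _
  · -- all involutions conjugate
    have hA : ∃ A : Subgroup (Matrix.SpecialLinearGroup (Fin 2) F), Nat.card A = 4 := by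
      refine ⟨Subgroup.zpowers ((e.symm (QuaternionGroup.xa 0)).1), ?_⟩
      rw [Nat.card_zpowers, Subgroup.orderOf_coe, MulEquiv.orderOf_eq, QuaternionGroup.orderOf_xa]
    obtain ⟨A, hA⟩ := hA
    exact (Cfsg.Agent.S0809.result rfl hodd' A hA).2.2.2

end Cfsg.Agent.S5317
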