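import Cfsg.Statements.S5318
import Cfsg.Agent.Fus.QDWMain

set_option autoImplicit false
open Cfsg

namespace Cfsg.Agent.S5318

/-- For a finite field F of odd order, the 2-fusion system of PSL(3,F) on a Sylow 2-subgroup (semidihedral or wreathed according as |F| ≡ 3 or 1 mod 4) is simple. -/
theorem result {F : Type*} [Field F] [Fintype F] (hodd : Fintype.card F % 2 = 1) (S : Sylow 2 (Matrix.ProjectiveSpecialLinearGroup (Fin 3) F)) :
    (Cfsg.groupFusionSystem (S : Subgroup (Matrix.ProjectiveSpecialLinearGroup (Fin 3) F))).IsSimple 2 := by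
  exact Cfsg.Agent.QDW.simple_PSL3 hodd S

end Cfsg.Agent.S5318
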