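import Cfsg.Statements.S5320
import Cfsg.Agent.Fus.PSp4Sp

set_option autoImplicit false
open Cfsg

namespace Cfsg.Agent.S5320

open Fus.PSp4 Matrix

section abs

variable {X G L : Type*} [Group X] [Group G] [Group L]
variable {π : X →* G} {ι : L × L →* X} {τ m : X} {ε : L} {u : L → X} {P : Subgroup L}

theorem conjPi (h : Dt π ι τ m ε u P) (g₀ : G) : Dt ((MulAut.conj g₀).toMonoidHom.comp π) ι τ m ε u P := by
  have hv : ∀ x, ((MulAut.conj g₀).toMonoidHom.comp π) x = g₀ * π x * g₀⁻¹ := fun x => rfl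
  refine { h with
    surj := ?_
    ker := ?_
    cent := ?_ }
  · exact (MulAut.conj g₀).surjective.comp h.surj
  · intro x
    rw [hv, conj_eq_one_iff]
    exact h.ker x
  · intro x hx
    apply h.cent
    rw [hv, hv] at hx
    have h1 : g₀ * (π x * π (ι (1, ε))) * g₀⁻¹ = g₀ * (π (ι (1, ε)) * π x) * g₀⁻¹ := by
      calc g₀ * (π x * π (ι (1, ε))) * g₀⁻¹ = g₀ * π x * g₀⁻¹ * (g₀ * π (ι (1, ε)) * g₀⁻¹) := by group
        _ = _ := by rw [hx]; group
    exact mul_left_cancel (mul_right_cancel h1)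

theorem card_St [Finite L] (h : Dt π ι τ m ε u P) : Nat.card h.St = 2 * Nat.card P ^ 2 := by
  have e : (P × P) × Bool ≃ h.St := by
    refine Equiv.ofBijective (fun x => ⟨ι ((x.1.1 : L), (x.1.2 : L)) * (if x.2 then τ else 1), ?_⟩) ⟨?_, ?_⟩
    · by_cases hx : x.2
      · rw [if_pos hx]; exact h.it_mem.2 ⟨x.1.1.2, x.1.2.2⟩
      · rw [if_neg hx, mul_one]; exact h.i_mem.2 ⟨x.1.1.2, x.1.2.2⟩
    · rintro ⟨⟨a, b⟩, s⟩ ⟨⟨c, d⟩, t⟩ hxy
      have hxy' := congrArg Subtype.val hxy
      simp only at hxy'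
      cases s <;> cases t <;> simp only [Bool.false_eq_true, if_false, if_true, mul_one] at hxy'
      · have := h.inj hxy'
        rw [Prod.mk.injEq] at this
        rw [Subtype.ext this.1, Subtype.ext this.2]
      · exfalso
        apply h.tn (((c : L), (d : L))⁻¹ * ((a : L), (b : L)))
        rw [map_mul, map_inv, hxy']; group
      · exfalso
        apply h.tn (((a : L), (b : L))⁻¹ * ((c : L), (d : L)))
        rw [map_mul, map_inv, ← hxy']; group
      · have := h.inj (mul_right_cancel hxy')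
        rw [Prod.mk.injEq] at this
        rw [Subtype.ext this.1, Subtype.ext this.2]
    · rintro ⟨x, a, ha, b, hb, rfl | rfl⟩
      · exact ⟨((⟨a, ha⟩, ⟨b, hb⟩), false), Subtype.ext (by simp)⟩
      · exact ⟨((⟨a, ha⟩, ⟨b, hb⟩), true), Subtype.ext (by simp)⟩
  rw [← Nat.card_congr e, Nat.card_prod, Nat.card_prod, Nat.card_eq_fintype_card (α := Bool), Fintype.card_bool]
  ring

end abs

theorem fact_card {F : Type*} [Field F] [Fintype F] (hodd : Odd (Fintype.card F)) :
    (Nat.card (symplecticGroup (Fin 2) F)).factorization 2 = 2 * (Nat.card (SpecialLinearGroup (Fin 2) F)).factorization 2 + 1 := by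
  rw [ClassSp.card_fin, H81.card_sl2]
  set q := Fintype.card F with hq
  have hq1 : 1 < q := Fintype.one_lt_card
  have e1 : q ^ 2 ^ 2 * ∏ i ∈ Finset.range 2, (q ^ (2 * (i + 1)) - 1) =
      q ^ 2 * ((q * ((q - 1) * (q + 1))) ^ 2 * (q ^ 2 + 1)) := by
    rw [Finset.prod_range_succ, Finset.prod_range_one]
    have h1 : 1 ≤ q ^ 2 := Nat.one_le_pow _ _ (by omega)
    have h2 : 1 ≤ q ^ 4 := Nat.one_le_pow _ _ (by omega)
    simp only [zero_add, mul_one]
    norm_num
    zify [h1, h2, hq1.le]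
    ring
  rw [e1]
  obtain ⟨j, hj⟩ := hodd
  have hq2 : (q ^ 2).factorization 2 = 0 := Nat.factorization_eq_zero_of_not_dvd (by
    rw [← even_iff_two_dvd, Nat.not_even_iff_odd]
    exact Odd.pow ⟨j, hj⟩)
  have hq3 : (q ^ 2 + 1).factorization 2 = 1 := by
    have h1 : q ^ 2 + 1 = 2 * (2 * (j * j + j) + 1) := by rw [hj]; ring
    rw [h1, Nat.factorization_mul (by norm_num) (by omega), Finsupp.add_apply, Nat.prime_two.factorization_self,
      Nat.factorization_eq_zero_of_not_dvd (n := 2 * (j * j + j) + 1) (by omega)]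
  have hne : q * ((q - 1) * (q + 1)) ≠ 0 := by
    have : q - 1 ≠ 0 := by omega
    positivity
  rw [Nat.factorization_mul (by positivity) (by positivity), Nat.factorization_mul (by positivity) (by positivity)]
  simp only [Finsupp.add_apply]
  rw [hq2, hq3, Nat.factorization_pow]
  simp only [Finsupp.smul_apply, smul_eq_mul]
  omega

theorem result {F : Type*} [Field F] [Fintype F] (hodd : Fintype.card F % 2 = 1) (S : Sylow 2 (Cfsg.PSp 2 F)) :
    (Cfsg.groupFusionSystem (S : Subgroup (Cfsg.PSp 2 F))).IsSimple 2 := by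
  classical
  haveI : Fact (Nat.Prime 2) := ⟨Nat.prime_two⟩
  have hodd' : Odd (Fintype.card F) := Nat.odd_iff.2 hodd
  have h2 : (2 : F) ≠ 0 := by
    intro h
    have hc : CharP F 2 := CharTwo.of_one_ne_zero_of_two_eq_zero one_ne_zero h
    have h4 := FiniteField.even_card_of_char_two (F := F) (ringChar.eq F 2 ▸ rfl)
    omega
  obtain ⟨P⟩ : Nonempty (Sylow 2 (SpecialLinearGroup (Fin 2) F)) := inferInstance
  have D := data h2 hodd' P
  have hcP : Nat.card (P : Subgroup (SpecialLinearGroup (Fin 2) F)) = 2 ^ (Nat.card (SpecialLinearGroup (Fin 2) F)).factorization 2 :=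
    P.card_eq_multiplicity
  have hcS : Nat.card D.St = 2 ^ (Nat.card (symplecticGroup (Fin 2) F)).factorization 2 := by
    rw [card_St, hcP, fact_card hodd']
    ring
  let Q : Sylow 2 (symplecticGroup (Fin 2) F) := Sylow.ofCard D.St hcS
  obtain ⟨g₀, hg₀⟩ := MulAction.exists_smul_eq (Cfsg.PSp 2 F) (Q.mapSurjective D.surj) S
  have D' := conjPi D g₀
  refine D'.isSimple inferInstance S ?_
  rw [← hg₀, Sylow.coe_subgroup_smul, Sylow.coe_mapSurjective]
  ext y
  rw [Subgroup.mem_pointwise_smul_iff_inv_smul_mem]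
  constructor
  · rintro ⟨x, hx, h⟩
    refine ⟨x, hx, ?_⟩
    rw [← map_inv, MulAut.smul_def, MulAut.conj_apply] at h
    show g₀ * (QuotientGroup.mk' _ x) * g₀⁻¹ = y
    rw [h]; group
  · rintro ⟨x, hx, rfl⟩
    refine ⟨x, hx, ?_⟩
    rw [← map_inv, MulAut.smul_def, MulAut.conj_apply]
    show _ = g₀⁻¹ * (g₀ * (QuotientGroup.mk' _ x) * g₀⁻¹) * g₀⁻¹⁻¹
    group

end Cfsg.Agent.S5320
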