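import Cfsg.Statements.S5331
import Cfsg.Agent.Fus.Abelian

set_option autoImplicit false
open Cfsg

namespace Cfsg.Agent.S5331


theorem zmod_two_torsion_unique {k : ℕ} {y z : ZMod (2 ^ k)} (hy : y + y = 0) (hz : z + z = 0) (hy0 : y ≠ 0)
    (hz0 : z ≠ 0) : y = z := by
  have : NeZero (2 ^ k) := ⟨by positivity⟩
  have key : ∀ w : ZMod (2 ^ k), w + w = 0 → w ≠ 0 → 2 * w.val = 2 ^ k := by
    intro w hw hw0
    have h1 : ((2 * w.val : ℕ) : ZMod (2 ^ k)) = 0 := by
      rw [Nat.cast_mul, ZMod.natCast_zmod_val, Nat.cast_ofNat, two_mul, hw]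
    rw [ZMod.natCast_eq_zero_iff] at h1
    have h2 : w.val < 2 ^ k := ZMod.val_lt w
    have h3 : 0 < w.val := Nat.pos_of_ne_zero fun h => hw0 ((ZMod.val_eq_zero w).mp h)
    obtain ⟨c, hc⟩ := h1
    have h4 : c = 1 := by
      rcases Nat.lt_or_ge c 1 with h | h
      · have : c = 0 := by omega
        subst this
        omega
      · rcases Nat.lt_or_ge 1 c with h' | h'
        · have : 2 ^ k * 2 ≤ 2 ^ k * c := Nat.mul_le_mul_left _ h'
          omega
        · omega
    rw [hc, h4, mul_one]
  have h1 := key y hy hy0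
  have h2 := key z hz hz0
  apply ZMod.val_injective
  omega

theorem odd_aut_fix {n : ℕ} {a : Fin n → ℕ} (ha : StrictMono a)
    (β : ((i : Fin n) → ZMod (2 ^ a i)) →+ ((i : Fin n) → ZMod (2 ^ a i))) {m : ℕ} (hm : Odd m)
    (hβ : ∀ x, β^[m] x = x) (x : (i : Fin n) → ZMod (2 ^ a i)) (hx : x + x = 0) : β x = x := by
  have hinj : Function.Injective β := by
    intro u v huv
    obtain ⟨j, rfl⟩ := hm
    rw [← hβ u, ← hβ v]
    show β^[(2 * j).succ] u = β^[(2 * j).succ] v
    rw [Function.iterate_succ_apply, Function.iterate_succ_apply, huv]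
  -- invariance
  have hinv : ∀ (k : ℕ) (x : (i : Fin n) → ZMod (2 ^ a i)), x + x = 0 → (∀ i, a i ≤ k → x i = 0) →
      β x + β x = 0 ∧ ∀ i, a i ≤ k → β x i = 0 := by
    intro k x hx hk
    refine ⟨by rw [← map_add, hx, map_zero], ?_⟩
    -- `x = 2^k • y`
    obtain ⟨y, hy⟩ : ∃ y : (i : Fin n) → ZMod (2 ^ a i), x = 2 ^ k • y := by
      refine ⟨fun i => (((x i).val / 2 ^ k : ℕ) : ZMod (2 ^ a i)), funext fun i => ?_⟩
      have : NeZero (2 ^ a i) := ⟨by positivity⟩
      rw [Pi.smul_apply, nsmul_eq_mul, ← Nat.cast_mul]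
      have h2 : 2 ^ k ∣ (x i).val := by
        by_cases h0 : x i = 0
        · rw [h0, ZMod.val_zero]; exact dvd_zero _
        · have hlt : k < a i := by
            by_contra hcon
            exact h0 (hk i (not_lt.mp hcon))
          have hxi : x i + x i = 0 := congrFun hx i
          have h1 : ((2 * (x i).val : ℕ) : ZMod (2 ^ a i)) = 0 := by
            rw [Nat.cast_mul, ZMod.natCast_zmod_val, Nat.cast_ofNat, two_mul, hxi]
          rw [ZMod.natCast_eq_zero_iff] at h1
          obtain ⟨b, hb⟩ : ∃ b, a i = k + b + 1 := ⟨a i - k - 1, by omega⟩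
          have h3 : 2 ^ (k + b) * 2 ∣ (x i).val * 2 := by
            rw [← pow_succ, ← hb, mul_comm]; exact h1
          have h4 := Nat.dvd_of_mul_dvd_mul_right (by norm_num) h3
          exact (pow_dvd_pow 2 (Nat.le_add_right k b)).trans h4
      rw [Nat.mul_div_cancel' h2, ZMod.natCast_zmod_val]
    intro i hi
    rw [hy, map_nsmul, Pi.smul_apply, nsmul_eq_mul]
    have : ((2 ^ k : ℕ) : ZMod (2 ^ a i)) = 0 := by
      rw [ZMod.natCast_eq_zero_iff]
      exact pow_dvd_pow 2 hi
    rw [this, zero_mul]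
  -- downward induction
  have key : ∀ (N k : ℕ), (∀ i, a i ≤ k + N) → ∀ x : (i : Fin n) → ZMod (2 ^ a i), x + x = 0 →
      (∀ i, a i ≤ k → x i = 0) → β x = x := by
    intro N
    induction N with
    | zero =>
      intro k hk x _ hx0
      have : x = 0 := funext fun i => hx0 i (hk i)
      rw [this, map_zero]
    | succ N ih =>
      intro k hk x hx hx0
      have IH := ih (k + 1) (fun i => by have := hk i; omega)
      by_contra hne
      have hβx := hinv k x hx hx0
      -- `d = β x - x` vanishes in degrees `≤ k + 1`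
      have hd : ∀ i, a i ≤ k + 1 → (β x - x) i = 0 := by
        intro i hi
        by_cases hi' : a i ≤ k
        · rw [Pi.sub_apply, hβx.2 i hi', hx0 i hi', sub_zero]
        · have hai : a i = k + 1 := by omega
          have hothers : ∀ j, a j ≤ k + 1 → j ≠ i → a j ≤ k := by
            intro j hj hji
            have : a j ≠ a i := fun h => hji (ha.injective h)
            omega
          have h1 : x i ≠ 0 := by
            intro h0
            apply hne
            refine IH x hx fun j hj => ?_
            by_cases hji : j = i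
            · subst hji; exact h0
            · exact hx0 j (hothers j hj hji)
          have h2 : β x i ≠ 0 := by
            intro h0
            apply hne
            apply hinj
            refine IH (β x) hβx.1 fun j hj => ?_
            by_cases hji : j = i
            · subst hji; exact h0
            · exact hβx.2 j (hothers j hj hji)
          rw [Pi.sub_apply, zmod_two_torsion_unique (congrFun hβx.1 i) (congrFun hx i) h2 h1, sub_self]
      have hd2 : (β x - x) + (β x - x) = 0 := by
        have : (β x - x) + (β x - x) = (β x + β x) - (x + x) := by abel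
        rw [this, hβx.1, hx, sub_zero]
      have hβd : β (β x - x) = β x - x := IH _ hd2 hd
      have hit : ∀ j : ℕ, β^[j] x = x + j • (β x - x) := by
        intro j
        induction j with
        | zero => simp
        | succ j ihj =>
          rw [Function.iterate_succ_apply', ihj, map_add, map_nsmul, hβd, succ_nsmul]
          abel
      have h3 := hit m
      rw [hβ x] at h3
      obtain ⟨j, rfl⟩ := hm
      have h4 : (2 * j + 1) • (β x - x) = β x - x := by
        rw [succ_nsmul, mul_comm, mul_nsmul, two_nsmul]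
        have : j • (β x - x) + j • (β x - x) = j • ((β x - x) + (β x - x)) := by rw [nsmul_add]
        rw [this, hd2, nsmul_zero, zero_add]
      rw [h4] at h3
      apply hne
      have h5 : x + (β x - x) = β x := by abel
      rw [h5] at h3
      exact h3.symm
  obtain ⟨N, hN⟩ : ∃ N, ∀ i, a i ≤ 0 + N := by
    refine ⟨Finset.univ.sup a, fun i => ?_⟩
    rw [zero_add]
    exact Finset.le_sup (Finset.mem_univ i)
  by_cases h0 : ∀ i, a i ≤ 0 → x i = 0
  · exact key N 0 hN x hx h0
  · exfalso
    push Not at h0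
    obtain ⟨i, hi, hxi⟩ := h0
    apply hxi
    have hi0 : a i = 0 := by omega
    have : Subsingleton (ZMod (2 ^ a i)) := by
      rw [hi0, pow_zero]
      infer_instance
    exact Subsingleton.elim _ _


/-- Let S be a finite abelian 2-group that is a direct product of cyclic groups of pairwise distinct orders 2^{a_1} < 2^{a_2} < ⋯ < 2^{a_n} (all a_i ≥ 1). Then every saturated fusion system over S is the inner one: its maps are exactly the conjugations by elements of S. -/
theorem result {Ω : Type*} [Group Ω] {S : Subgroup Ω} [Finite S] (n : ℕ) (a : Fin n → ℕ) (ha : StrictMono a) (ha1 : ∀ i, 1 ≤ a i) (e : ↥S ≃* Multiplicative ((i : Fin n) → ZMod (2 ^ a i))) (F : Cfsg.FusionSystem S) (hF : F.IsSaturated 2) (P : Subgroup Ω) : F.Hom P = (Cfsg.innerFusionSystem S).Hom P := by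
  classical
  have : Fact (Nat.Prime 2) := ⟨Nat.prime_two⟩
  have hab : ∀ x ∈ S, ∀ y ∈ S, x * y = y * x := by
    intro x hx y hy
    have h : (⟨x, hx⟩ : S) * ⟨y, hy⟩ = ⟨y, hy⟩ * ⟨x, hx⟩ := e.injective (by rw [map_mul, map_mul, mul_comm])
    exact congrArg Subtype.val h
  have hS : IsPGroup 2 S := by
    have h1 : IsPGroup 2 (Multiplicative ((i : Fin n) → ZMod (2 ^ a i))) := by
      intro x
      refine ⟨Finset.univ.sup a, ?_⟩
      apply Multiplicative.toAdd.injective
      rw [toAdd_pow, toAdd_one]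
      funext i
      rw [Pi.smul_apply, nsmul_eq_mul]
      have h2 : ((2 ^ (Finset.univ.sup a) : ℕ) : ZMod (2 ^ a i)) = 0 := by
        rw [ZMod.natCast_eq_zero_iff]
        exact pow_dvd_pow 2 (Finset.le_sup (Finset.mem_univ i))
      rw [h2, zero_mul]
      rfl
    exact h1.of_equiv e.symm
  have hfinA := Cfsg.Agent.Fus.finite_mulAut (P := S)
  have hodd : ¬ 2 ∣ Nat.card (F.autGroup S) := Cfsg.Agent.Fus.not_dvd_card_autGroup
    (Cfsg.Agent.Fus.sat_fullyAutomized hS hF Cfsg.Agent.Fus.isFullyNormalized_self)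
    (Cfsg.Agent.Fus.autInducedBy_eq_bot fun s hs x hx => hab s hs x hx)
  -- every automorphism in F fixes the involutions
  have hfix : ∀ x : S, x * x = 1 → (x : Ω) ∈ Cfsg.Agent.Fus.fixedIn F S := by
    intro x hx
    refine ⟨x.2, fun α hα => ?_⟩
    rw [Cfsg.Agent.Fus.ofAut_coe]
    let β : ((i : Fin n) → ZMod (2 ^ a i)) →+ ((i : Fin n) → ZMod (2 ^ a i)) :=
      MonoidHom.toAdditive (e.toMonoidHom.comp (α.toMonoidHom.comp e.symm.toMonoidHom))
    have hβ : ∀ y, β y = Multiplicative.toAdd (e (α (e.symm (Multiplicative.ofAdd y)))) := fun y => rfl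
    have hit : ∀ (j : ℕ) y, β^[j] y = Multiplicative.toAdd (e ((α ^ j) (e.symm (Multiplicative.ofAdd y)))) := by
      intro j
      induction j with
      | zero => intro y; simp
      | succ j ih =>
        intro y
        rw [Function.iterate_succ_apply', ih, hβ, pow_succ', MulAut.mul_apply]
        simp
    have hm : α ^ (Nat.card (F.autGroup S)) = 1 := by
      have := pow_card_eq_one' (x := (⟨α, hα⟩ : F.autGroup S))
      exact congrArg Subtype.val this
    have h3 := odd_aut_fix ha β (m := Nat.card (F.autGroup S))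
      (by rw [← Nat.not_even_iff_odd, even_iff_two_dvd]; exact hodd)
      (fun y => by rw [hit, hm]; simp) (Multiplicative.toAdd (e x)) (by
        rw [← toAdd_mul, ← map_mul, hx, map_one, toAdd_one])
    rw [hβ, ofAdd_toAdd, e.symm_apply_apply] at h3
    have h4 : α x = x := e.injective (Multiplicative.toAdd.injective h3)
    rw [h4]
  -- the focal subgroup is trivial
  obtain ⟨hcf, hcf'⟩ := Cfsg.Agent.Fus.center_focal_of_abelian hS hF hab
  rw [Cfsg.Agent.Fus.center_eq_fixedIn (Cfsg.Agent.Fus.isNormal_self_of_abelian hS hF hab)] at hcf hcf'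
  have hfocS : F.focalSubgroup ≤ S := by
    conv_rhs => rw [← hcf']
    exact le_sup_right
  have hfoc : F.focalSubgroup = ⊥ := by
    by_contra hne
    have hfinf := Cfsg.Agent.Fus.finite_of_le hfocS
    have hnt : Nontrivial F.focalSubgroup := (Subgroup.nontrivial_iff_ne_bot _).mpr hne
    obtain ⟨k, hk, hcard⟩ := ((hS.to_le hfocS).nontrivial_iff_card).mp hnt
    obtain ⟨t, ht⟩ := exists_prime_orderOf_dvd_card' 2 (hcard ▸ dvd_pow_self 2 hk.ne')
    have ht2 : t * t = 1 := by rw [← pow_two, ← ht, pow_orderOf_eq_one]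
    have ht2' : (t : Ω) * t = 1 := congrArg Subtype.val ht2
    have h5 := hfix ⟨t, hfocS t.2⟩ (Subtype.ext ht2')
    have h6 : (t : Ω) ∈ Cfsg.Agent.Fus.fixedIn F S ⊓ F.focalSubgroup := ⟨h5, t.2⟩
    rw [hcf, Subgroup.mem_bot] at h6
    have h7 : t = 1 := Subtype.ext h6
    rw [h7, orderOf_one] at ht
    omega
  rw [Cfsg.Agent.Fus.hom_eq_iff]
  intro f
  constructor
  · intro hf
    have hid : ∀ x ∈ P, f x = x := by
      intro x hx
      have h8 : (x : Ω)⁻¹ * f x ∈ F.focalSubgroup :=
        Subgroup.subset_closure ⟨P, hf.hom, ⟨x, hx⟩, hf.hom_mem, rfl⟩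
      rw [hfoc, Subgroup.mem_bot] at h8
      exact (inv_mul_eq_one.mp h8).symm
    exact (Cfsg.Agent.Fus.isMap_id hf.le).congr fun x hx => (hid x hx).symm
  · rintro ⟨φ, ⟨hP, g, hg, hφ⟩, hφf⟩
    refine (Cfsg.Agent.Fus.isMap_conj hP hg).congr fun x hx => ?_
    rw [← hφf ⟨x, hx⟩, hφ]

end Cfsg.Agent.S5331
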