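import Cfsg.Statements.S5521
import Cfsg.Agent.Golay.M24Order

set_option autoImplicit false
open Cfsg

namespace Cfsg.Agent.S5521

open Cfsg.Agent.Golay

theorem part_one (B : Finset GolayPt) (hB : B.card ≤ 6) : ∃ g ∈ M24, g ≠ 1 ∧ ∀ b ∈ B, g b = b := by
  classical
  have h24 : Fintype.card GolayPt = 24 := by decide
  obtain ⟨C, hBC, hC⟩ : ∃ C : Finset GolayPt, B ⊆ C ∧ C.card = 6 := by
    obtain ⟨C, h1, -, h2⟩ := Finset.exists_subsuperset_card_eq (Finset.subset_univ B) hB
      (by rw [Finset.card_univ, h24]; norm_num)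
    exact ⟨C, h1, h2⟩
  let f : M24 → (C ↪ GolayPt) := fun g => (Function.Embedding.subtype _).trans (g : Equiv.Perm GolayPt).toEmbedding
  have hnot : ¬ Function.Injective f := by
    intro hinj
    have h1 := Nat.card_le_card_of_injective f hinj
    rw [card_M24, Nat.card_eq_fintype_card, Fintype.card_embedding_eq, h24, Fintype.card_coe, hC] at h1
    have h2 : (24 : ℕ).descFactorial 6 = 96909120 := by decide +kernel
    rw [h2] at h1
    omega
  simp only [Function.Injective, not_forall] at hnot
  obtain ⟨g, h, hgh, hne⟩ := hnot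
  refine ⟨(h : Equiv.Perm GolayPt)⁻¹ * g, M24.mul_mem (M24.inv_mem h.2) g.2, ?_, ?_⟩
  · intro h1
    apply hne
    apply Subtype.ext
    exact (inv_mul_eq_one.mp h1).symm
  · intro b hb
    have h1 : f g ⟨b, hBC hb⟩ = f h ⟨b, hBC hb⟩ := by rw [hgh]
    have h2 : (g : Equiv.Perm GolayPt) b = (h : Equiv.Perm GolayPt) b := h1
    rw [Equiv.Perm.mul_apply, h2]
    exact (h : Equiv.Perm GolayPt).symm_apply_apply b

/-- The Mathieu group M₂₄ in its natural action on the 24 coordinate positions of the binary Golay code has minimal base size exactly 7: every set of at most 6 positions is fixed pointwise by some non-identity element of M₂₄, while some set of 7 positions is fixed pointwise only by the identity. -/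
theorem result :
    (∀ B : Finset Cfsg.GolayPt, B.card ≤ 6 → ∃ g ∈ Cfsg.M24, g ≠ 1 ∧ ∀ b ∈ B, g b = b) ∧
    (∃ B : Finset Cfsg.GolayPt, B.card = 7 ∧ ∀ g ∈ Cfsg.M24, (∀ b ∈ B, g b = b) → g = 1) := by
  refine ⟨part_one, ofMask 8388671, ?_, ?_⟩
  · rw [card_ofMask]; decide +kernel
  · intro g hg h
    apply eq_one_of_fixes_base hg
    intro p hp
    apply h
    simp only [ofMask, Finset.mem_filter, Finset.mem_univ, true_and]
    exact hp

end Cfsg.Agent.S5521
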