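import Cfsg.Statements.S5529
import Cfsg.Agent.H80.Ree
import Cfsg.Agent.H80.M23Gen
import Cfsg.Agent.H90.M24Fix
import Cfsg.Agent.Golay.OrbThree

set_option autoImplicit false
open Cfsg

namespace Cfsg.Agent.S5529

open Cfsg.Agent.H80.Ree Cfsg.Agent.H80.M23Gen Cfsg.Agent.Golay Cfsg.Agent.Golay.Orb Cfsg.Agent.H90

/-- membership -/
theorem cyc_vals {x : Equiv.Perm GolayPt} (hx : x ∈ Spor.M23) {p : ℕ} (hp : p.Prime) (h : orderOf x = p) :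
    (p = 2 → cyc x = 16) ∧ (p = 3 → cyc x = 12) ∧ (p = 5 → cyc x = 8) ∧ (p = 7 → cyc x = 6) ∧
    (p = 11 → cyc x = 4) ∧ (p = 23 → cyc x = 2) := by
  have h1 := cyc_prime hp h
  rw [card_golayPt] at h1
  change _ = 24 + (p - 1) * (fixS x).card at h1
  have hne : x none = none := hx.2
  have hpos : (fixS x).card ≠ 0 := by
    intro h0
    rw [Finset.card_eq_zero] at h0
    have : (none : GolayPt) ∈ fixS x := mem_fixS.2 hne
    rw [h0] at this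
    exact absurd this (Finset.notMem_empty _)
  refine ⟨?_, ?_, ?_, ?_, ?_, ?_⟩
  · rintro rfl
    have h2 : x * x = 1 := by rw [← pow_two, ← h]; exact pow_orderOf_eq_one x
    have h3 : x ≠ 1 := by rintro rfl; rw [orderOf_one] at h; omega
    rcases inv_fix_card hx.1 h2 h3 with h4 | h4
    · rw [h4] at h1; omega
    · exact absurd h4 hpos
  · rintro rfl
    have h4 : (fixS x).card = 6 := by
      by_contra h6
      obtain ⟨g, hg, h5⟩ := three_fix0 hx.1 h h6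
      have h7 := fixCount_spec h5
      rw [fixCount_conj, fixCount_tab30] at h7
      exact hpos h7
    rw [h4] at h1; omega
  · rintro rfl
    rw [fix_order5 hx.1 h] at h1; omega
  · rintro rfl
    rw [fix_order7 hx.1 h] at h1; omega
  · rintro rfl
    rw [fix_order11 hx.1 h] at h1; omega
  · rintro rfl
    rw [fix_order23 hx.1 h] at h1; omega

theorem neg_part {x y z : Spor.M23} {p q r : ℕ} (hp : p.Prime) (hq : q.Prime) (hr : r.Prime)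
    (hx : orderOf x = p) (hy : orderOf y = q) (hz : orderOf z = r) (hxyz : x * y * z = 1)
    (hcl : Subgroup.closure {x, y} = ⊤) :
    cyc (x : Equiv.Perm GolayPt) + cyc (y : Equiv.Perm GolayPt) + cyc (z : Equiv.Perm GolayPt) ≤ 28 := by
  have h1 : (x : Equiv.Perm GolayPt) * y * z = 1 := congrArg Subtype.val hxyz
  have h2 : Subgroup.closure {(x : Equiv.Perm GolayPt), (y : Equiv.Perm GolayPt)} = Spor.M23 := by
    have h3 : (Subgroup.closure {x, y}).map Spor.M23.subtype =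
        Subgroup.closure {(x : Equiv.Perm GolayPt), (y : Equiv.Perm GolayPt)} := by
      rw [MonoidHom.map_closure]
      congr 1
      rw [Set.image_pair]
      rfl
    rw [← h3, hcl, ← MonoidHom.range_eq_map, Subgroup.range_subtype]
  have h4 := ree_two h1 (basePt 0) (basePt 1) ?_
  · rw [card_golayPt] at h4; exact h4
  · intro w
    rw [h2]
    by_cases hw : w = basePt 0
    · exact ⟨1, Spor.M23.one_mem, Or.inl hw.symm⟩
    · obtain ⟨σ, hσ, h5, h6⟩ := basePt_level 1 w (by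
        intro j hj
        have : j = 0 := by omega
        subst this; exact hw)
      exact ⟨σ, ⟨hσ, h5 0 (by decide)⟩, Or.inr h6⟩

/-- the certificates -/
def certs : List (ℕ × ℕ × ℕ × ℕ × ℕ × List ℕ × ℕ) := [
  (2, 5, 11, 0xbdab482a330248c2c9c23996d0a06f, 0xbb0151b691291f35d9c84c8c251c30, [1023, 0, 3, 3, 4, 6, 6, 8, 7, 10, 10, 11, 13, 12, 13, 16, 16, 18, 17, 20, 19, 20, 23, 23, 24, 26648, 27, 27, 29, 29, 30, 32, 32, 33, 35, 34, 37, 37, 39, 38, 41, 40, 43, 43, 45, 44, 45, 48, 47, 50], 25),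
  (2, 5, 23, 0xbdaa19bcac919505b5223ba201a284, 0xb8e708a58a238cbad8457c8e8a3420, [1023, 1026, 2, 3, 5, 4, 7, 6, 9, 8, 9, 12, 12, 13, 15, 15, 17, 17, 19, 18, 19, 22, 21, 24599, 25, 25, 26, 28, 27, 28, 31, 30, 33, 32, 35, 35, 37, 36, 39, 38, 41, 40, 43, 42, 45, 44, 47, 46, 49, 48], 27),
  (2, 7, 7, 0xbaeb19ca80135cab30e8490a61bc30, 0xb9467a062c836b64a85393c865b808, [1023, 1026, 2, 4, 4, 6, 5, 6, 9, 9, 11, 10, 13, 13, 14, 16, 15, 18, 17, 20, 19, 20502, 21, 22, 25, 24, 25, 28, 28, 29, 31, 31, 32, 34, 33, 34, 35, 38, 37, 40, 40], 20),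
  (2, 7, 11, 0xbd8b423a2c449b009d2f50ab319960, 0xb92a24b970658133a0a19369133c6a, [1023, 2049, 3, 3, 4, 6, 5, 8, 8, 10, 9, 12, 12, 14, 13, 16, 15, 18, 17, 20, 21524, 22, 21, 24, 23, 26, 26, 28, 27, 30, 30, 31, 33, 33, 35, 34, 35, 36, 39, 39, 40], 21),
  (2, 7, 23, 0xba8eb049a87b22ea58b0a992418833, 0xb8c16aaa2229c29732086d172991e6, [1023, 0, 3, 3, 4, 6, 6, 8, 7, 8, 11, 11, 12, 14, 13, 16, 15, 16, 19, 19, 20, 20502, 22, 24, 24, 25, 27, 26, 27, 30, 29, 30, 33, 33, 35, 34, 37, 36, 39, 39, 41, 40, 43], 22),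
  (2, 11, 11, 0xbdab49c0f2409a6028af8b1232382b, 0xbcd36ac9eda017170c46530902a0e1, [1023, 1026, 2, 3, 4, 5, 7, 7, 8, 10, 9, 12, 12, 13, 14, 15, 17, 16, 17, 18, 19, 21526, 21, 22, 25, 24, 25, 26, 27, 30, 30, 31, 32, 34, 34, 36, 36, 37, 39, 38, 39, 42, 41], 22),
  (2, 11, 23, 0xb85b49bcd0902ab629281448519ece, 0xb9122341cc68ec1accb13adea90288, [1023, 0, 3, 3, 5, 5, 6, 8, 7, 10, 10, 12, 12, 13, 14, 15, 17, 16, 19, 18, 19, 20, 23, 22550, 25, 24, 27, 26, 27, 30, 30, 32, 32, 34, 34, 35, 37, 36, 39, 38, 41, 40], 19),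
  (2, 23, 23, 0xbd8115ca90790e39a8c86a44e61435, 0xb9e011393642a3223e6b181b529994, [1023, 1025, 2, 4, 3, 4, 7, 7, 8, 10, 10, 11, 13, 13, 15, 14, 15, 18, 17, 20, 20, 21, 22, 22552, 23, 26, 26, 27, 28, 29, 31, 31, 32, 34, 33, 34, 37, 36, 39, 38, 39, 40, 41], 20),
  (3, 3, 11, 0xbc2b6991d47a5855222b385a391840, 0xbd2274acce5126c015a8b55f018832, [2047, 2047, 2051, 3, 3, 5, 5, 5, 7, 9, 9, 11, 13, 13, 15, 15, 15, 17, 17, 19, 21, 21, 21, 23, 25, 23576, 26, 26, 26, 30, 30, 30, 32, 34, 32, 36, 36, 36, 36, 38, 40, 40, 40, 42, 42, 44], 21),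
  (3, 3, 23, 0xb9896682677d6225aa0c4d0ae1a241, 0xba1ed90e36038ca115303d18498575, [2047, 2047, 3074, 4, 2, 4, 6, 8, 6, 10, 10, 12, 10, 12, 14, 16, 16, 18, 18, 18, 20, 22, 22, 22, 22553, 25, 25, 25, 27, 27, 31, 31, 33, 33, 35, 35, 37, 37, 39, 39, 39, 39, 43, 41], 20),
  (3, 5, 5, 0xba502b56237956c0aa72750e4019b0, 0xbda469b00921de55d62da0543441c2, [2047, 2047, 3072, 2, 2, 4, 6, 6, 8, 8, 8, 10, 12, 13, 13, 15, 16, 16, 16, 17425, 19, 19, 23, 23, 25, 25, 25, 25, 27, 29, 29, 29, 31, 31, 35, 33], 17),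
  (3, 5, 7, 0xbd8c14cdd0a11aa41e40608b11d5eb, 0xbacb69d2448182c8bc68554076a44e, [2047, 2047, 3072, 1, 5, 3, 7, 5, 9, 7, 8, 12, 10, 12, 14, 15, 17, 15, 19472, 17, 19, 19, 20, 24, 22, 24, 26, 27, 29, 27, 31, 29, 31, 31], 16),
  (3, 5, 11, 0xb996c038b27c1a344d3538444a46ca, 0xb91f498175730b01aac140a266a647, [2047, 2047, 3074, 4, 4, 5, 7, 7, 7, 7, 11, 11, 12, 14, 12, 13, 17, 17, 19, 17, 19476, 21, 23, 23, 25, 23, 24, 26, 28, 29, 29, 31, 33, 33, 33, 33, 34, 36], 18),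
  (3, 5, 23, 0xb89b54ca2b33a8a09c76600a49a20f, 0xbc56708eb07a6c56a8c41226ea480c, [2047, 2047, 3072, 1, 5, 5, 7, 5, 7, 7, 11, 11, 13, 11, 13, 13, 15, 17, 19, 17, 18, 22547, 21, 21, 22, 26, 26, 27, 29, 27, 31, 31, 31, 33, 34, 34, 34, 36], 17),
  (3, 7, 7, 0xbcca209230735ec42eaa91927182d4, 0xbbc0c388336ae5689930a8d0475145, [2047, 2047, 3072, 2, 4, 5, 7, 7, 8, 10, 10, 12, 12, 13, 14, 14, 14, 18, 19474, 20, 18, 19, 20, 22, 22, 26, 26, 27, 27, 27, 31, 29, 33], 15),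
  (3, 7, 11, 0xbad09138f098db40a984018b593ed1, 0xb88a37cea7585068b1346da5023940, [2047, 2047, 2051, 3, 4, 6, 4, 8, 6, 7, 11, 9, 13, 13, 14, 15, 15, 15, 19472, 18, 20, 20, 22, 23, 24, 26, 24, 26, 26, 30, 28, 32, 32, 33], 16),
  (3, 7, 23, 0xbbeb63ad90a494371128004ad89853, 0xbb666b12417a0148b04a38e0575569, [2047, 2047, 0, 1, 5, 5, 7, 7, 8, 9, 11, 9, 11, 11, 15, 16399, 17, 17, 18, 18, 18, 20, 20, 24, 24, 25, 25, 25, 29, 29], 15),
  (3, 11, 11, 0xbd80a8c8828382869d26a32b31bd65, 0xbb2263856078a882d9c3541a924eb2, [2047, 2047, 1026, 3, 3, 3, 7, 5, 9, 7, 11, 9, 11, 11, 15, 13, 14, 18, 18451, 19, 21, 21, 23, 21, 22, 26, 24, 26, 26, 27, 28, 30], 14),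
  (3, 11, 23, 0xb81943922aac1af139322ae68b1823, 0xba92110d653c5f385195919162380d, [2047, 2047, 1026, 4, 2, 6, 6, 7, 9, 9, 9, 9, 10, 11, 12, 13, 15, 17, 17, 20497, 19, 19, 23, 21, 22, 26, 26, 26, 26, 30, 28, 29, 31], 14),
  (3, 23, 23, 0xbdaa220e2d851e959d0c0ca6533940, 0xbc160915e82468e134f530583b2553, [2047, 2047, 3074, 4, 2, 6, 4, 5, 7, 9, 9, 11, 12, 13, 15, 15, 17, 17, 19, 17425, 21, 21, 23, 23, 23, 23, 27, 27, 27, 27, 29, 29, 33, 31, 33], 16),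
  (5, 5, 5, 0xbd263229a979566702a23ca304582c, 0xbd95471a03604f16c8082888b7d533, [2047, 2047, 3074, 4, 4, 6, 4, 8, 6, 7, 11, 12, 10, 11, 13, 13, 14, 18, 19, 19474, 20, 22, 20, 24, 22, 26, 26, 27, 27, 29, 31, 29, 33, 33], 15),
  (5, 5, 7, 0xbbad19b2b02d0ea0892b40cd2011af, 0xbb892ac16714434482c8618af6cd43, [2047, 2047, 3, 4, 4, 6, 6, 6, 6, 10, 10, 12, 12, 12, 13, 13, 14, 17426, 19, 19, 21, 21, 23, 23, 25, 26, 26, 28, 29, 27, 29], 14),
  (5, 5, 11, 0xba8e39b0d0a2c3123815488b66c9e8, 0xbac94549a61a12584660b1c2c70aaf, [2047, 2047, 3072, 4, 5, 5, 6, 6, 8, 8, 10, 11, 11, 13, 15, 16, 16, 16, 19475, 17, 21, 21, 23, 24, 24, 25, 27, 28, 26, 30, 30, 30, 32], 15),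
  (5, 5, 23, 0xbb65440eb31408e585ec2c6c732920, 0xbd2af34927129b6812712a0615b00e, [2047, 2047, 3074, 4, 4, 6, 4, 8, 6, 10, 8, 10, 12, 14, 14, 15, 15374, 18, 18, 20, 18, 20, 22, 22, 24, 25, 27, 28, 28, 30], 14),
  (5, 7, 7, 0xbc4a6ac96ca35e902883b39029c027, 0xbdaac42dea218433cdae0052594614, [2047, 2047, 3074, 2, 3, 5, 5, 6, 6, 8, 9, 9, 10, 14, 15, 15, 15, 16400, 18, 18, 19, 19, 23, 21, 23, 24, 26, 28, 28, 29, 30], 14),
  (5, 7, 11, 0xbb87259191795a735914154099c02a, 0xbc965b412131d439b10da09e48baa0, [2047, 2047, 0, 2, 4, 5, 7, 8, 8, 10, 11, 11, 12, 14, 14, 15, 14350, 16, 18, 19, 19, 20, 20, 22, 24, 24, 26, 27, 27, 27], 14),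
  (5, 7, 23, 0xb9eab55809789cc89a41812839a1a5, 0xbb8098a9aca4cf20d4b01188b1d9e8, [2047, 2047, 1026, 2, 4, 6, 6, 6, 6, 10, 11, 9, 13, 14, 14, 16, 17, 17426, 18, 18, 20, 21, 21, 23, 25, 26, 26, 28, 29, 27, 29], 14),
  (5, 11, 11, 0xbd43498c49922c48b56f614e674140, 0xbad4c6a62e159e6906878226305485, [2047, 2047, 3074, 4, 5, 5, 5, 7, 9, 7, 8, 10, 11, 13, 14, 14, 14350, 18, 16, 18, 19, 21, 23, 23, 24], 9),
  (5, 11, 23, 0xbc8d1980358118e68a8f3a12b1d8aa, 0xba8f580c20b36285c9e24b0942ba66, [2047, 2047, 3072, 2, 4, 5, 7, 5, 7, 9, 11, 12, 10, 11, 12, 15376, 14, 18, 19, 17, 21, 21, 22, 24, 22, 23, 25, 25, 29], 14),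
  (5, 23, 23, 0xbc04b48cca7ba726c6843d901ab005, 0xb883602e9393207712351a12f299aa, [2047, 2047, 3, 3, 3, 5, 5, 6, 6, 10, 10, 11, 13, 14, 14, 16, 16, 18447, 16, 18, 18, 19, 23, 23, 25, 23, 25, 25, 27, 29, 30], 14),
  (7, 7, 7, 0xbd1689baa17a6433c44463605502c6, 0xb86c42d58b83933a280291da833c71, [2047, 2047, 2051, 3, 4, 6, 6, 8, 8, 10, 11, 9, 13, 13, 12303, 16, 17, 15, 16, 20, 18, 22, 22, 22, 23, 25], 12),
  (7, 7, 11, 0xbc69031c0b659e12a48d4566e18a4a, 0xbb80c4dab0984656a844321f195167, [2047, 2047, 2049, 2, 4, 6, 7, 5, 7, 8, 10, 11, 13, 13, 14351, 13, 14, 15, 19, 20, 21, 21, 23, 23, 25], 11),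
  (7, 7, 23, 0xb94c8204f06ba360516f54e4913075, 0xb92092b26ab19d5582280bce293683, [2047, 2047, 1024, 2, 3, 3, 7, 7, 9, 10, 8, 10, 11, 13, 14, 14, 16, 18449, 19, 20, 18, 22, 22, 24, 22, 26, 26, 27, 28, 30], 13),
  (7, 11, 11, 0xbcdf658ced648b4a89490422443826, 0xbcc62a3a0b659e4945a139528302aa, [2047, 2047, 2051, 4, 4, 4, 4, 5, 6, 10, 11, 12, 12, 13, 13, 14, 16, 16401, 19, 20, 20, 22, 23, 24, 24, 26, 24, 26, 26, 27], 13),
  (7, 11, 23, 0xbc24a18aac6a0d30b80b3c6844bcb6, 0xbca910b8ed9c064332c8009752a54f, [2047, 2047, 2049, 2, 4, 4, 6, 6, 6, 10, 8, 12, 12, 12, 12, 16, 14, 16401, 18, 19, 20, 21, 23, 24, 25, 25, 25, 25, 27], 12),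
  (7, 23, 23, 0xb8d54b362481de101a699310e11575, 0xbc4736d514204a032dc961e427d950, [2047, 2047, 2051, 1, 5, 5, 7, 7, 8, 9, 10, 10, 10, 12, 12, 16, 14, 18450, 16, 20, 18, 22, 22, 22, 23, 23, 27, 27, 27], 12),
  (11, 11, 11, 0xbd9f003a432b4e18d0cc428891566b, 0xbb2b62a40d8c14f12e8708cce24e48, [2047, 2047, 2050, 3, 3, 5, 6, 8, 9, 10, 11, 12, 12, 13, 15, 15, 15, 17424, 18, 18, 20, 20, 20, 24, 25, 25, 27, 27, 29], 12),
  (11, 11, 23, 0xb84b255488798eb0358e845239d056, 0xbb46924a956157144261b004a79cce, [2047, 2047, 2050, 4, 2, 3, 4, 8, 6, 10, 8, 12, 12, 14, 15, 15, 17, 18447, 16, 17, 18, 22, 22, 23, 25, 26, 24, 25, 26, 28], 13),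
  (11, 23, 23, 0xbd0b14b1cf328f510468934805da70, 0xb91030056c2bd2a988d491e2e85aad, [2047, 2047, 2050, 3, 5, 5, 7, 8, 8, 8, 10, 12, 12, 12, 12301, 15, 15, 17, 19, 17, 21, 22, 23, 23, 23, 23, 27, 25], 14),
  (23, 23, 23, 0xb84e2b2ca4045127d0d36aaae4b070, 0xbd0cdaba560a4072bd7198c488308a, [2047, 2047, 2049, 2, 2, 6, 4, 8, 9, 9, 11, 11, 11, 12, 13, 14, 15, 18449, 17, 19, 21, 19, 23, 24, 24, 25, 26, 26, 27, 29, 29], 14)]

/-- all certificates -/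
def allCerts : Bool := certs.all fun c => chk c.1 c.2.1 c.2.2.1 c.2.2.2.1 c.2.2.2.2.1 c.2.2.2.2.2.1 c.2.2.2.2.2.2

theorem allCerts_check : allCerts = true := by decide +kernel

/-- the triples -/
theorem covered : ∀ p ∈ [2, 3, 5, 7, 11, 23], ∀ q ∈ [2, 3, 5, 7, 11, 23], ∀ r ∈ [2, 3, 5, 7, 11, 23],
    p ≤ q → q ≤ r → ¬ (p = 2 ∧ q = 2) →
    ¬ ((p = 2 ∧ q = 3) ∨ (p = 2 ∧ q = 5 ∧ r = 5) ∨ (p = 2 ∧ q = 5 ∧ r = 7) ∨ (p = 3 ∧ q = 3 ∧ r ≤ 7)) →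
    ∃ c ∈ certs, c.1 = p ∧ c.2.1 = q ∧ c.2.2.1 = r := by
  decide +kernel

theorem prime_cases {p : ℕ} (hp : p.Prime) (h : p ∣ 10200960) : p ∈ [2, 3, 5, 7, 11, 23] := by
  have h1 : p ∈ Nat.primeFactors 10200960 := Nat.mem_primeFactors.mpr ⟨hp, h, by norm_num⟩
  have h2 : (10200960 : ℕ) = 2 ^ 7 * (3 ^ 2 * (5 * (7 * (11 * 23)))) := by norm_num
  rw [h2] at h
  have key : ∀ {a b : ℕ}, p ∣ a * b → p ∣ a ∨ p ∣ b := fun h => (Nat.Prime.dvd_mul hp).mp h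
  have pe : ∀ {a : ℕ}, a.Prime → p ∣ a → p = a := fun ha h => (Nat.prime_dvd_prime_iff_eq hp ha).mp h
  rcases key h with h | h
  · have := pe Nat.prime_two (hp.dvd_of_dvd_pow h); simp [this]
  rcases key h with h | h
  · have := pe Nat.prime_three (hp.dvd_of_dvd_pow h); simp [this]
  rcases key h with h | h
  · have := pe Nat.prime_five h; simp [this]
  rcases key h with h | h
  · have := pe (by norm_num) h; simp [this]
  rcases key h with h | h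
  · have := pe (by norm_num) h; simp [this]
  · have := pe (by norm_num) h; simp [this]


/-- Generation of the Mathieu group M₂₃ (the stabiliser of a point in the Mathieu group M₂₄ acting on 24 points) by triples of prime orders. Let p ≤ q ≤ r be primes dividing |M₂₃| = 10200960 = 2⁷·3²·5·7·11·23, not both p and q equal to 2. Then M₂₃ contains elements x, y, z of orders p, q, r with xyz = 1 and ⟨x, y⟩ = M₂₃ if and only if (p, q, r) is none of: (2, 3, r) for any r, (2, 5, 5), (2, 5, 7), (3, 3, 3), (3, 3, 5), (3, 3, 7). -/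
theorem result (p q r : ℕ) (hp : p.Prime) (hq : q.Prime)
    (hr : r.Prime) (hpq : p ≤ q) (hqr : q ≤ r) (hp2 : ¬ (p = 2 ∧ q = 2))
    (hdvd : p ∣ 10200960 ∧ q ∣ 10200960 ∧ r ∣ 10200960) :
    (∃ x y z : Cfsg.Spor.M23, orderOf x = p ∧ orderOf y = q ∧ orderOf z = r ∧ x * y * z = 1 ∧
        Subgroup.closure {x, y} = ⊤) ↔
      ¬ ((p = 2 ∧ q = 3) ∨ (p = 2 ∧ q = 5 ∧ r = 5) ∨ (p = 2 ∧ q = 5 ∧ r = 7) ∨ (p = 3 ∧ q = 3 ∧ r ≤ 7)) := by
  constructor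
  · rintro ⟨x, y, z, hx, hy, hz, hxyz, hcl⟩
    have h1 := neg_part hp hq hr hx hy hz hxyz hcl
    rw [← Subgroup.orderOf_coe] at hx hy hz
    have cx := cyc_vals x.2 hp hx
    have cy := cyc_vals y.2 hq hy
    have cz := cyc_vals z.2 hr hz
    have hr' : cyc (z : Equiv.Perm GolayPt) ≥ 2 ∧ (r ≤ 7 → cyc (z : Equiv.Perm GolayPt) ≥ 6) := by
      have h2 := prime_cases hr hdvd.2.2
      simp only [List.mem_cons, List.not_mem_nil, or_false] at h2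
      obtain ⟨c2, c3, c5, c7, c11, c23⟩ := cz
      rcases h2 with h2 | h2 | h2 | h2 | h2 | h2
      · have := c2 h2; omega
      · have := c3 h2; omega
      · have := c5 h2; omega
      · have := c7 h2; omega
      · have := c11 h2; omega
      · have := c23 h2; omega
    rintro (⟨rfl, rfl⟩ | ⟨rfl, rfl, rfl⟩ | ⟨rfl, rfl, rfl⟩ | ⟨rfl, rfl, h⟩)
    · have e1 := cx.1 rfl
      have e2 := cy.2.1 rfl
      omega
    · have e1 := cx.1 rfl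
      have e2 := cy.2.2.1 rfl
      have e3 := cz.2.2.1 rfl
      omega
    · have e1 := cx.1 rfl
      have e2 := cy.2.2.1 rfl
      have e3 := hr'.2 (by norm_num)
      omega
    · have e1 := cx.2.1 rfl
      have e2 := cy.2.1 rfl
      have e3 := hr'.2 h
      omega
  · intro h
    obtain ⟨c, hc, rfl, rfl, rfl⟩ := covered p (prime_cases hp hdvd.1) q (prime_cases hq hdvd.2.1) r
      (prime_cases hr hdvd.2.2) hpq hqr hp2 h
    exact chk_spec hp hq hr (List.all_eq_true.1 allCerts_check c hc)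

end Cfsg.Agent.S5529
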