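import Cfsg.Statements.S5562

set_option autoImplicit false
open Cfsg

namespace Cfsg.Agent.S5562

/-- In a group, if `r` has odd order and `s` is inverted by conjugation twice etc. -/
theorem commute_inv_odd {G : Type*} [Group G] (r s : G) (k : ℕ) (hk : Odd k) (hs : s ^ k = 1)
    (h : s * r * s⁻¹ = r⁻¹) : r ^ 2 = 1 := by
  have key : ∀ n : ℕ, s ^ (2 * n) * r * (s ^ (2 * n))⁻¹ = r := by
    intro n
    induction n with
    | zero => simp
    | succ n ih =>
      have : s ^ (2 * (n + 1)) = s * s * s ^ (2 * n) := by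
        rw [show 2 * (n + 1) = 2 + 2 * n by ring, pow_add, pow_two]
      rw [this]
      calc s * s * s ^ (2 * n) * r * (s * s * s ^ (2 * n))⁻¹
          = s * (s * (s ^ (2 * n) * r * (s ^ (2 * n))⁻¹) * s⁻¹) * s⁻¹ := by group
        _ = s * (s * r * s⁻¹) * s⁻¹ := by rw [ih]
        _ = s * r⁻¹ * s⁻¹ := by rw [h]
        _ = (s * r * s⁻¹)⁻¹ := by group
        _ = r := by rw [h, inv_inv]
  obtain ⟨m, hm⟩ := hk
  have h1 : s * (s ^ (2 * m) * r * (s ^ (2 * m))⁻¹) * s⁻¹ = r := by
    calc s * (s ^ (2 * m) * r * (s ^ (2 * m))⁻¹) * s⁻¹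
        = (s ^ (2 * m + 1)) * r * (s ^ (2 * m + 1))⁻¹ := by
          rw [pow_succ']; group
      _ = r := by rw [← hm, hs]; simp
  rw [key m, h] at h1
  rw [pow_two]
  calc r * r = r⁻¹ * r := by rw [h1]
    _ = 1 := by simp

theorem eq_one_of_sq_of_odd {G : Type*} [Group G] (r : G) (h2 : r ^ 2 = 1) (k : ℕ) (hk : Odd k)
    (h : r ^ k = 1) : r = 1 := by
  obtain ⟨m, hm⟩ := hk
  rw [hm, pow_succ, pow_mul, h2, one_pow, one_mul] at h
  exact h

/-- Let G be a finite group, d an involution of G whose conjugates pairwise have products of odd order, and x any involution of G. Then the conjugacy class of d is the disjoint union, over the conjugates a of d commuting with x, of the sets of conjugates of d commuting with ax: every conjugate of d commutes with ax for exactly one conjugate a of d that commutes with x. -/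
theorem result {G : Type*} [Group G] [Finite G] (d : G) (hd : orderOf d = 2)
    (hodd : ∀ a ∈ conjugatesOf d, ∀ b ∈ conjugatesOf d, Odd (orderOf (a * b)))
    (x : G) (hx : orderOf x = 2) :
    ∀ e ∈ conjugatesOf d,
      ∃! a : G, a ∈ conjugatesOf d ∧ Commute a x ∧ Commute e (a * x) := by
  have hdd : d * d = 1 := by
    have := pow_orderOf_eq_one d
    rw [hd, pow_two] at this
    exact this
  have hxx : x * x = 1 := by
    have := pow_orderOf_eq_one x
    rw [hx, pow_two] at this
    exact this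
  have hinvol : ∀ a ∈ conjugatesOf d, a * a = 1 := by
    intro a ha
    obtain ⟨c, hc⟩ := isConj_iff.mp (show IsConj d a from ha)
    rw [← hc]
    calc c * d * c⁻¹ * (c * d * c⁻¹) = c * (d * d) * c⁻¹ := by group
      _ = 1 := by rw [hdd]; simp
  have hconj : ∀ a ∈ conjugatesOf d, ∀ g : G, g * a * g⁻¹ ∈ conjugatesOf d := by
    intro a ha g
    exact (show IsConj d a from ha).trans (isConj_iff.mpr ⟨g, rfl⟩)
  have hxinv : x⁻¹ = x := by
    rw [inv_eq_iff_mul_eq_one]; exact hxx
  intro e he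
  have hee := hinvol e he
  have heinv : e⁻¹ = e := by rw [inv_eq_iff_mul_eq_one]; exact hee
  set f := x * e * x⁻¹ with hf
  have hfC : f ∈ conjugatesOf d := hconj e he x
  have hff := hinvol f hfC
  have hfinv : f⁻¹ = f := by rw [inv_eq_iff_mul_eq_one]; exact hff
  have hxf : x * f * x⁻¹ = e := by
    rw [hf]
    calc x * (x * e * x⁻¹) * x⁻¹ = (x * x) * e * (x * x)⁻¹ := by group
      _ = e := by rw [hxx]; simp
  -- the rotation
  obtain ⟨m, hm⟩ := hodd e he f hfC
  set r := e * f with hr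
  have hrpow : r ^ (2 * m + 1) = 1 := by rw [← hm]; exact pow_orderOf_eq_one r
  have her : e * r * e⁻¹ = r⁻¹ := by
    rw [hr, mul_inv_rev, heinv, hfinv]
    calc e * (e * f) * e = (e * e) * f * e := by group
      _ = f * e := by rw [hee, one_mul]
  have herp : ∀ n : ℕ, e * r ^ n * e⁻¹ = (r ^ n)⁻¹ := by
    intro n
    rw [← conj_pow, her, inv_pow]
  have hxr : x * r * x⁻¹ = r⁻¹ := by
    rw [hr, mul_inv_rev, heinv, hfinv]
    calc x * (e * f) * x⁻¹ = (x * e * x⁻¹) * (x * f * x⁻¹) := by group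
      _ = f * e := by rw [← hf, hxf]
  have hfr : f = r⁻¹ * e := by
    rw [hr, mul_inv_rev, hfinv, heinv, mul_assoc, hee, mul_one]
  have hmm : r ^ m * r ^ (m + 1) = 1 := by
    rw [← pow_add, show m + (m + 1) = 2 * m + 1 by ring, hrpow]
  -- conjugating e by powers of r
  have hre : ∀ n : ℕ, r ^ n * e * (r ^ n)⁻¹ = r ^ (n + n) * e := by
    intro n
    have h1 : e * (r ^ n)⁻¹ = r ^ n * e := by
      calc e * (r ^ n)⁻¹ = e * (e * r ^ n * e⁻¹) := by rw [herp]
        _ = (e * e) * r ^ n * e⁻¹ := by group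
        _ = r ^ n * e := by rw [hee, heinv, one_mul]
    rw [mul_assoc, h1, ← mul_assoc, ← pow_add]
  set a := r ^ m * e with ha
  have har : a = r ^ (m * (m + 1)) * e * (r ^ (m * (m + 1)))⁻¹ := by
    rw [hre, ha]
    congr 1
    rw [show m * (m + 1) + m * (m + 1) = (2 * m + 1) * m + m by ring, pow_add, pow_mul, hrpow,
      one_pow, one_mul]
  have haC : a ∈ conjugatesOf d := by
    rw [har]; exact hconj e he _
  have haa := hinvol a haC
  have hainv : a⁻¹ = a := by rw [inv_eq_iff_mul_eq_one]; exact haa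
  -- x commutes with a
  have hxa : x * a * x⁻¹ = a := by
    rw [ha]
    calc x * (r ^ m * e) * x⁻¹ = (x * r ^ m * x⁻¹) * (x * e * x⁻¹) := by group
      _ = (r⁻¹) ^ m * f := by rw [← conj_pow, hxr]
      _ = (r⁻¹) ^ m * (r⁻¹ * e) := by rw [hfr]
      _ = (r ^ (m + 1))⁻¹ * e := by
        rw [← mul_assoc, ← pow_succ, inv_pow]
      _ = r ^ m * e := by rw [← eq_inv_of_mul_eq_one_left hmm]
  -- a conjugates e to f
  have hae : a * e * a⁻¹ = f := by
    rw [ha]
    calc r ^ m * e * e * (r ^ m * e)⁻¹ = r ^ m * e * (e * e⁻¹) * (r ^ m)⁻¹ := by group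
      _ = r ^ m * e * (r ^ m)⁻¹ := by simp
      _ = r ^ (m + m) * e := hre m
      _ = r⁻¹ * e := by
        congr 1
        rw [eq_inv_iff_mul_eq_one, ← pow_succ, ← two_mul, hrpow]
      _ = f := hfr.symm
  have key : ∀ b : G, b ∈ conjugatesOf d → Commute b x → Commute e (b * x) → b * e * b⁻¹ = f := by
    intro b hb hbx hebx
    have hbb := hinvol b hb
    have hbinv : b⁻¹ = b := by rw [inv_eq_iff_mul_eq_one]; exact hbb
    -- e = (b x) e (b x)⁻¹ = b f b⁻¹
    have h1 : (b * x) * e * (b * x)⁻¹ = e := by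
      rw [← hebx.eq]; group
    have h2 : b * f * b⁻¹ = e := by
      rw [← h1, hf]; group
    calc b * e * b⁻¹ = b * (b * f * b⁻¹) * b⁻¹ := by rw [h2]
      _ = (b * b) * f * (b * b)⁻¹ := by group
      _ = f := by rw [hbb]; simp
  refine ⟨a, ⟨haC, ?_, ?_⟩, ?_⟩
  · show a * x = x * a
    calc a * x = (x * a * x⁻¹) * x := by rw [hxa]
      _ = x * a := by group
  · -- Commute e (a * x)
    show e * (a * x) = a * x * e
    have h1 : a * f * a⁻¹ = e := by
      rw [← hae]
      calc a * (a * e * a⁻¹) * a⁻¹ = (a * a) * e * (a * a)⁻¹ := by group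
        _ = e := by rw [haa]; simp
    calc e * (a * x) = (a * f * a⁻¹) * (a * x) := by rw [h1]
      _ = a * f * x := by group
      _ = a * x * e := by rw [hf]; group
  · rintro b ⟨hbC, hbx, hebx⟩
    have hbb := hinvol b hbC
    have hbinv : b⁻¹ = b := by rw [inv_eq_iff_mul_eq_one]; exact hbb
    have hbe := key b hbC hbx hebx
    -- s = a b centralizes e
    set t := a * b with ht
    have hte : t * e * t⁻¹ = e := by
      rw [ht]
      calc a * b * e * (a * b)⁻¹ = a * (b * e * b⁻¹) * a⁻¹ := by group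
        _ = a * f * a⁻¹ := by rw [hbe]
        _ = a * (a * e * a⁻¹) * a⁻¹ := by rw [hae]
        _ = (a * a) * e * (a * a)⁻¹ := by group
        _ = e := by rw [haa]; simp
    have hat : a * t * a⁻¹ = t⁻¹ := by
      calc a * t * a⁻¹ = (a * a) * b * a⁻¹ := by rw [ht]; group
        _ = b⁻¹ * a⁻¹ := by rw [haa, one_mul, hbinv]
        _ = t⁻¹ := by rw [ht]; group
    have het : e * t * e⁻¹ = t := by
      have : e * t = t * e := by
        calc e * t = (t * e * t⁻¹) * t := by rw [hte]
          _ = t * e := by group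
      rw [this]; group
    have hs : (a * e) * t * (a * e)⁻¹ = t⁻¹ := by
      calc (a * e) * t * (a * e)⁻¹ = a * (e * t * e⁻¹) * a⁻¹ := by group
        _ = t⁻¹ := by rw [het, hat]
    have h2 := commute_inv_odd t (a * e) _ (hodd a haC e he) (pow_orderOf_eq_one _) hs
    have h1 := eq_one_of_sq_of_odd t h2 _ (hodd a haC b hbC) (pow_orderOf_eq_one _)
    -- a b = 1
    have : b = a := by
      calc b = a⁻¹ * (a * b) := by group
        _ = a := by rw [← ht, h1, mul_one, hainv]
    exact this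

end Cfsg.Agent.S5562
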