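import Cfsg.Statements.S5595
import Cfsg.Agent.H93.LargeEx

set_option autoImplicit false
open Cfsg

namespace Cfsg.Agent.S5595

open Cfsg.Agent.Asch.ExtraCount

/-- multiplicativity of the commutator sign inside `E` -/
theorem chi_mul_in {G : Type*} [Group G] {E : Subgroup G} {z : G} (h : Cfsg.Agent.H93.LargeEx.ExIn E z) {a b c : G} (ha : a ∈ E)
    (hb : b ∈ E) (hc : c ∈ E) : chi a (b * c) = chi a b * chi a c := by
  have key : ∀ {x y : G} (hx : x ∈ E) (hy : y ∈ E), chi (⟨x, hx⟩ : E) ⟨y, hy⟩ = chi x y := by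
    intro x y hx hy
    unfold chi
    by_cases h1 : x * y = y * x
    · rw [if_pos h1, if_pos (Subtype.ext h1)]
    · rw [if_neg h1, if_neg (fun h2 => h1 (congrArg (fun t : E => (t : G)) h2))]
  have h1 := h.exSp.chi_mul_right ⟨a, ha⟩ ⟨b, hb⟩ ⟨c, hc⟩
  rw [key ha hb, key ha hc] at h1
  have h2 : (⟨b, hb⟩ : E) * ⟨c, hc⟩ = ⟨b * c, mul_mem hb hc⟩ := rfl
  rw [h2, key ha] at h1
  exact h1

theorem chi_conj {G : Type*} [Group G] (g a b : G) : chi (g * a * g⁻¹) (g * b * g⁻¹) = chi a b := by
  unfold chi
  have e1 : g * a * g⁻¹ * (g * b * g⁻¹) = g * (a * b) * g⁻¹ := by group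
  have e2 : g * b * g⁻¹ * (g * a * g⁻¹) = g * (b * a) * g⁻¹ := by group
  rw [e1, e2]
  by_cases h : a * b = b * a
  · rw [if_pos h, if_pos (by rw [h])]
  · rw [if_neg h, if_neg]
    intro h1
    exact h (mul_left_cancel (mul_right_cancel h1))

theorem chi_one_iff {G : Type*} [Group G] (a b : G) : chi a b = 1 ↔ a * b = b * a := by
  unfold chi
  split_ifs with h
  · simp [h]
  · simp [h]

theorem chi_ne_zero {G : Type*} [Group G] (a b : G) : chi a b ≠ 0 := by
  unfold chi
  split_ifs <;> norm_num

/-- an element centralising `z` and acting trivially on `E / ⟨z⟩` lies in `E` -/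
theorem mem_of_trivial {G : Type*} [Group G] [Finite G] {E : Subgroup G} {z : G} (h : Cfsg.Agent.H93.LargeEx.ExIn E z)
    (hc : Subgroup.centralizer (E : Set G) ≤ E) {k : G} (hk : ∀ q ∈ E, k * q * k⁻¹ = q ∨ k * q * k⁻¹ = z * q) : k ∈ E := by
  -- K = C_E(k)
  set K : Subgroup G := E ⊓ Subgroup.centralizer ({k} : Set G) with hKdef
  have hK : ∀ q, q ∈ K ↔ q ∈ E ∧ k * q = q * k := by
    intro q
    rw [hKdef, Subgroup.mem_inf, Subgroup.mem_centralizer_singleton_iff, eq_comm (a := k * q)]
  have hzk : k * z = z * k := by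
    rcases hk z h.mem with h1 | h1
    · calc k * z = (k * z * k⁻¹) * k := by group
        _ = _ := by rw [h1]
    · exfalso
      rw [h.sq] at h1
      apply h.ne_one
      calc z = k⁻¹ * (k * z * k⁻¹) * k := by group
        _ = 1 := by rw [h1]; group
  have hzK : z ∈ K := (hK z).2 ⟨h.mem, hzk⟩
  have hKE : K ≤ E := inf_le_left
  by_cases hKeq : K = E
  · apply hc
    rw [Subgroup.mem_centralizer_iff]
    intro q hq
    have hq' : q ∈ K := by rw [hKeq]; exact hq
    exact ((hK q).1 hq').2.symm
  obtain ⟨r, hrE, hrK, hr1, hrz⟩ : ∃ r ∈ E, (∀ q ∈ K, r * q = q * r) ∧ r ≠ 1 ∧ r ≠ z := by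
    by_contra hcon
    push Not at hcon
    apply hKeq
    apply le_antisymm hKE
    rw [← h.double hKE hzK]
    intro y hy
    refine Subgroup.mem_inf.2 ⟨hy, ?_⟩
    rw [Subgroup.mem_centralizer_iff]
    intro r hr
    obtain ⟨hr1, hr2⟩ := Subgroup.mem_inf.1 hr
    rw [Subgroup.mem_centralizer_iff] at hr2
    by_cases h1 : r = 1
    · rw [h1]; simp
    · rw [hcon r hr1 (fun q hq => (hr2 q hq).symm) h1]
      exact h.central y hy
  -- r and k act in the same way
  have hprod : ∀ q ∈ E, ∀ q' ∈ E, q ∉ K → q' ∉ K → q⁻¹ * q' ∈ K := by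
    intro q hq q' hq' h1 h2
    refine (hK _).2 ⟨mul_mem (inv_mem hq) hq', ?_⟩
    have e1 : k * q * k⁻¹ = z * q := (hk q hq).resolve_left (fun h3 => h1 ((hK q).2 ⟨hq, by
      calc k * q = (k * q * k⁻¹) * k := by group
        _ = _ := by rw [h3]⟩))
    have e2 : k * q' * k⁻¹ = z * q' := (hk q' hq').resolve_left (fun h3 => h2 ((hK q').2 ⟨hq', by
      calc k * q' = (k * q' * k⁻¹) * k := by group
        _ = _ := by rw [h3]⟩))
    calc k * (q⁻¹ * q') = (k * q * k⁻¹)⁻¹ * (k * q' * k⁻¹) * k := by group
      _ = _ := by rw [e1, e2]; group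
  have hact : ∀ q ∈ E, r * q * r⁻¹ = k * q * k⁻¹ := by
    intro q hq
    by_cases hqK : q ∈ K
    · rw [hrK q hqK, ((hK q).1 hqK).2]; group
    · have e1 : k * q * k⁻¹ = z * q := (hk q hq).resolve_left (fun h3 => hqK ((hK q).2 ⟨hq, by
        calc k * q = (k * q * k⁻¹) * k := by group
          _ = _ := by rw [h3]⟩))
      rcases h.com r hrE q hq with h3 | h3
      · exfalso
        rcases h.cen r hrE (by
          intro q' hq'
          by_cases hq'K : q' ∈ K
          · exact hrK q' hq'K
          · have h4 := hrK _ (hprod q hq q' hq' hqK hq'K)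
            have e2 : q' = q * (q⁻¹ * q') := by group
            calc r * q' = r * (q * (q⁻¹ * q')) := by rw [← e2]
              _ = (r * q) * (q⁻¹ * q') := by group
              _ = q * (r * (q⁻¹ * q')) := by rw [h3]; group
              _ = q * (q⁻¹ * q') * r := by rw [h4]; group
              _ = _ := by rw [← e2]) with h5 | h5
        · exact hr1 h5
        · exact hrz h5
      · rw [e1, h3]; group
  have h6 : r⁻¹ * k ∈ E := by
    apply hc
    rw [Subgroup.mem_centralizer_iff]
    intro q hq
    have h7 := hact q hq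
    calc q * (r⁻¹ * k) = r⁻¹ * (r * q * r⁻¹) * k := by group
      _ = _ := by rw [h7]; group
  have e : k = r * (r⁻¹ * k) := by group
  rw [e]
  exact mul_mem hrE h6

/-- Setting: `z` is an involution of the finite group `G`; for each element `x`, `Q x` denotes the largest normal 2-subgroup of the centralizer of `x`; `Q z` is extraspecial and contains its own centralizer in `G` (a large extraspecial 2-subgroup in this sense). Call the conjugates of `z` singular, and say that singular `x` is orthogonal to singular `y` when `x ∈ Q y`. Then orthogonality is symmetric: if a conjugate `x` of `z` lies in `Q z`, then `z` lies in `Q x`. -/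
theorem result {G : Type*} [Group G] [Finite G]
    (Q : G → Subgroup G)
    (hQ : ∀ x : G, Q x = (Cfsg.pCore 2 ↥(Subgroup.centralizer ({x} : Set G))).map (Subgroup.centralizer ({x} : Set G)).subtype)
    (z : G) (hz : orderOf z = 2) (hE : Cfsg.IsExtraspecial 2 ↥(Q z))
    (hC : Subgroup.centralizer ((Q z : Subgroup G) : Set G) ≤ Q z)
    (g : G) (hx : g * z * g⁻¹ ∈ Q z) : z ∈ Q (g * z * g⁻¹) := by

  classical
  have h := Cfsg.Agent.H93.LargeEx.mk_LX Q hQ z hz hE hC
  set x := g * z * g⁻¹ with hxdef
  have hex := h.ex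
  have hsx : Cfsg.Agent.H93.LargeEx.LX.Sg z x := ⟨g, rfl⟩
  have hex' := h.ex' hsx
  by_cases hxz : x = z
  · rw [hxz]; exact hex.mem
  have hx1 : x ≠ 1 := hex'.ne_one
  have hcomm : z * x = x * z := hex.central x hx
  by_contra hzx
  obtain ⟨r, hr, hrx⟩ := hex.exists_noncomm hx hx1 hxz
  have hrz : r * z * r⁻¹ = z := by rw [← hex.central r hr]; group
  have hx2 : x * x = 1 := hex'.sq
  have hz2 : z * z = 1 := hex.sq
  -- Step 0
  have step0 : ∀ q ∈ Q x, q * z * q⁻¹ ≠ x * z := by
    intro q hq hqz
    have hqx : q * x * q⁻¹ = x := by rw [← hex'.central q hq]; group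
    have e1 : (q * r * q) * z * (q * r * q)⁻¹ = x := by
      calc (q * r * q) * z * (q * r * q)⁻¹ = q * (r * (q * z * q⁻¹) * r⁻¹) * q⁻¹ := by group
        _ = q * ((r * x * r⁻¹) * (r * z * r⁻¹)) * q⁻¹ := by rw [hqz]; group
        _ = q * (z * (x * z)) * q⁻¹ := by rw [hrx, hrz]; group
        _ = q * ((z * z) * x) * q⁻¹ := by rw [← hcomm]; group
        _ = q * x * q⁻¹ := by rw [hz2, one_mul]
        _ = x := hqx
    have e2 : (q * r * q) * x * (q * r * q)⁻¹ = z := by
      calc (q * r * q) * x * (q * r * q)⁻¹ = q * (r * (q * x * q⁻¹) * r⁻¹) * q⁻¹ := by group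
        _ = q * (z * x) * q⁻¹ := by rw [hqx, hrx]
        _ = (q * z * q⁻¹) * (q * x * q⁻¹) := by group
        _ = x * z * x := by rw [hqz, hqx]
        _ = z * (x * x) := by rw [← hcomm]; group
        _ = z := by rw [hx2, mul_one]
    apply hzx
    have := h.mem_conj (g := q * r * q) hx
    rw [e1, e2] at this
    exact this
  -- the four group
  let A : Subgroup G :=
    { carrier := {w | w = 1 ∨ w = z ∨ w = x ∨ w = z * x}
      one_mem' := Or.inl rfl
      mul_mem' := by
        have e1 : z * (z * x) = x := by rw [← mul_assoc, hz2, one_mul]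
        have e2 : x * (z * x) = z := by rw [hcomm, ← mul_assoc, hx2, one_mul]
        have e3 : z * x * z = x := by rw [hcomm, mul_assoc, hz2, mul_one]
        have e4 : z * x * x = z := by rw [mul_assoc, hx2, mul_one]
        have e5 : z * x * (z * x) = 1 := by rw [← mul_assoc, e3, hx2]
        rintro a b (rfl | rfl | rfl | rfl) (rfl | rfl | rfl | rfl)
        · left; simp
        · right; left; simp
        · right; right; left; simp
        · right; right; right; simp
        · right; left; simp
        · left; exact hz2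
        · right; right; right; rfl
        · right; right; left; exact e1
        · right; right; left; simp
        · right; right; right; exact hcomm.symm
        · left; exact hx2
        · right; left; exact e2
        · right; right; right; simp
        · right; right; left; exact e3
        · right; left; exact e4
        · left; exact e5
      inv_mem' := by
        have e3 : z * x * z = x := by rw [hcomm, mul_assoc, hz2, mul_one]
        have e5 : z * x * (z * x) = 1 := by rw [← mul_assoc, e3, hx2]
        rintro a (rfl | rfl | rfl | rfl)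
        · left; simp
        · right; left; exact inv_eq_of_mul_eq_one_left hz2
        · right; right; left; exact inv_eq_of_mul_eq_one_left hx2
        · right; right; right; exact inv_eq_of_mul_eq_one_left e5 }
  have hA : ∀ w, w ∈ A ↔ w = 1 ∨ w = z ∨ w = x ∨ w = z * x := fun w => Iff.rfl
  have hAE : A ≤ Q z := by
    rintro w (rfl | rfl | rfl | rfl)
    · exact one_mem _
    · exact hex.mem
    · exact hx
    · exact mul_mem hex.mem hx
  have hzA : z ∈ A := Or.inr (Or.inl rfl)
  have hxA : x ∈ A := Or.inr (Or.inr (Or.inl rfl))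
  -- D commutes with A
  have hnormx : ∀ d, d * x = x * d → ∀ q ∈ Q x, d * q * d⁻¹ ∈ Q x := fun d hd q hq => h.norm' hsx hd hq
  have hnormz : ∀ c, c * z = z * c → ∀ q ∈ Q z, c * q * c⁻¹ ∈ Q z := by
    intro c hc q hq
    exact h.norm c (by rw [Subgroup.mem_centralizer_singleton_iff]; exact hc) q hq
  -- Step 1
  have step1 : ∀ w ∈ Q x, w ∈ Q z → w = 1 ∨ w = x := by
    intro w hwx hwz
    by_cases hwA : w ∈ A
    · rcases (hA w).1 hwA with h1 | h1 | h1 | h1
      · left; exact h1
      · exfalso; rw [h1] at hwx; exact hzx hwx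
      · right; exact h1
      · exfalso
        apply hzx
        have : z = w * x := by rw [h1, mul_assoc, hx2, mul_one]
        rw [this]
        exact mul_mem hwx hex'.mem
    · exfalso
      obtain ⟨t, ht, htA, htw⟩ := hex.exists_move hAE hzA hwz hwA
      have h1 := hnormx t (htA x hxA) w hwx
      rw [htw] at h1
      apply hzx
      have : z = (z * w) * w⁻¹ := by group
      rw [this]
      exact mul_mem h1 (inv_mem hwx)
  -- Step 2
  have step2 : ∀ c ∈ Q x, c * z = z * c → ∀ d ∈ Q z, d * x = x * d → d * c * d⁻¹ = c ∨ d * c * d⁻¹ = x * c := by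
    intro c hc hcz d hd hdx
    have h1 : d * c * d⁻¹ * c⁻¹ ∈ Q x := mul_mem (hnormx d hdx c hc) (inv_mem hc)
    have h2 : d * c * d⁻¹ * c⁻¹ ∈ Q z := by
      have e : d * c * d⁻¹ * c⁻¹ = d * (c * d⁻¹ * c⁻¹) := by group
      rw [e]
      exact mul_mem hd (hnormz c hcz _ (inv_mem hd))
    rcases step1 _ h1 h2 with h3 | h3
    · left
      calc d * c * d⁻¹ = (d * c * d⁻¹ * c⁻¹) * c := by group
        _ = c := by rw [h3, one_mul]
    · right
      calc d * c * d⁻¹ = (d * c * d⁻¹ * c⁻¹) * c := by group
        _ = _ := by rw [h3]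
  have hzi : z⁻¹ = z := inv_eq_of_mul_eq_one_left hz2
  -- Step 3
  have step3 : ∀ q ∈ Q x, (q⁻¹ * (z * q * z⁻¹)) ∈ Q x ∧ (q⁻¹ * (z * q * z⁻¹)) * z = z * (q⁻¹ * (z * q * z⁻¹)) := by
    intro q hq
    have ht : q⁻¹ * (z * q * z⁻¹) ∈ Q x := mul_mem (inv_mem hq) (hnormx z hcomm q hq)
    refine ⟨ht, ?_⟩
    set t := q⁻¹ * (z * q * z⁻¹) with htdef
    have e1 : z * t * z⁻¹ = t⁻¹ := by
      rw [htdef]
      have : z * (q⁻¹ * (z * q * z⁻¹)) * z⁻¹ = z * q⁻¹ * z * q * (z⁻¹ * z⁻¹) := by group
      rw [this, hzi, hz2, mul_one]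
      rw [mul_inv_rev, mul_inv_rev, mul_inv_rev, inv_inv, hzi]
      group
    rcases hex'.sqs t ht with h1 | h1
    · have h2 : t⁻¹ = t := inv_eq_of_mul_eq_one_left h1
      rw [h2] at e1
      calc t * z = (z * t * z⁻¹) * z := by rw [e1]
        _ = z * t := by group
    · exfalso
      apply step0 t⁻¹ (inv_mem ht)
      have h2 : t⁻¹ = t * x := by
        have h3 : t * (t * x) = 1 := by rw [← mul_assoc, h1, hx2]
        exact inv_eq_of_mul_eq_one_right h3
      have h4 : z * t = t * x * z := by
        calc z * t = (z * t * z⁻¹) * z := by group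
          _ = t⁻¹ * z := by rw [e1]
          _ = _ := by rw [h2]
      calc t⁻¹ * z * t⁻¹⁻¹ = t⁻¹ * (z * t) := by group
        _ = t⁻¹ * (t * x * z) := by rw [h4]
        _ = x * z := by group
  -- Step 4
  have step4 : ∀ b ∈ Q x, (∀ c ∈ Q x, c * z = z * c → b * c = c * b) → b * z = z * b := by
    intro b hb hbC
    set tb := b⁻¹ * (z * b * z⁻¹) with htb
    obtain ⟨htb1, htb2⟩ := step3 b hb
    have h1 : ∀ q ∈ Q x, tb * q = q * tb := by
      intro q hq
      obtain ⟨htq1, htq2⟩ := step3 q hq
      set tq := q⁻¹ * (z * q * z⁻¹) with htq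
      have e1 : z * b * z⁻¹ = b * tb := by rw [htb]; group
      have e2 : z * q * z⁻¹ = q * tq := by rw [htq]; group
      have e3 : chi (z * b * z⁻¹) q = chi b (z * q * z⁻¹) := by
        have h2 := chi_conj z b (z * q * z⁻¹)
        have h3 : z * (z * q * z⁻¹) * z⁻¹ = q := by
          have : z * (z * q * z⁻¹) * z⁻¹ = (z * z) * q * (z⁻¹ * z⁻¹) := by group
          rw [this, hzi, hz2, one_mul, mul_one]
        rw [h3] at h2
        exact h2
      rw [e1, e2, chi_comm, chi_mul_in hex' hq hb htb1, chi_mul_in hex' hb hq htq1, (chi_one_iff b tq).2 (hbC tq htq1 htq2), mul_one,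
        chi_comm q b] at e3
      have h4 : chi q tb = 1 := by
        have h5 := chi_ne_zero b q
        exact mul_left_cancel₀ h5 (by rw [e3, mul_one])
      exact ((chi_one_iff q tb).1 h4).symm
    rcases hex'.cen tb htb1 h1 with h2 | h2
    · rw [htb] at h2
      have h3 : z * b * z⁻¹ = b := (inv_mul_eq_one.1 h2).symm
      calc b * z = (z * b * z⁻¹) * z := by rw [h3]
        _ = z * b := by group
    · exfalso
      rw [htb] at h2
      have h3 : z * b * z⁻¹ = b * x := inv_mul_eq_iff_eq_mul.1 h2
      apply step0 b⁻¹ (inv_mem hb)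
      calc b⁻¹ * z * b⁻¹⁻¹ = b⁻¹ * (z * b * z⁻¹) * z := by group
        _ = x * z := by rw [h3]; group
  -- Step 5
  have step5 : ∀ d ∈ Q z, d * x = x * d → ∀ q ∈ Q x, (q⁻¹ * (d * q * d⁻¹)) ∈ Q x ∧ (q⁻¹ * (d * q * d⁻¹)) * z = z * (q⁻¹ * (d * q * d⁻¹)) := by
    intro d hd hdx q hq
    have he : q⁻¹ * (d * q * d⁻¹) ∈ Q x := mul_mem (inv_mem hq) (hnormx d hdx q hq)
    refine ⟨he, step4 _ he ?_⟩
    intro c hc hcz
    set e := q⁻¹ * (d * q * d⁻¹) with hedef
    have e1 : d * q * d⁻¹ = q * e := by rw [hedef]; group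
    have e2 := chi_conj d c q
    have h3 : chi (d * c * d⁻¹) (d * q * d⁻¹) = chi c (d * q * d⁻¹) := by
      rcases step2 c hc hcz d hd hdx with h4 | h4
      · rw [h4]
      · rw [h4, chi_comm, chi_mul_in hex' (hnormx d hdx q hq) hex'.mem hc, chi_comm (d * q * d⁻¹) c,
          (chi_one_iff _ _).2 (hex'.central _ (hnormx d hdx q hq)).symm, one_mul]
    rw [h3, e1, chi_mul_in hex' hc hq he] at e2
    have h5 : chi c e = 1 := mul_left_cancel₀ (chi_ne_zero c q) (by rw [e2, mul_one])
    exact ((chi_one_iff c e).1 h5).symm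
  -- Step 6
  by_cases hD : ∀ d ∈ Q z, d * x = x * d → ∀ d' ∈ Q z, d' * x = x * d' → d * d' = d' * d
  · -- small case
    have hDA : ∀ d ∈ Q z, d * x = x * d → d ∈ A := by
      intro d hd hdx
      rw [← hex.double hAE hzA]
      refine Subgroup.mem_inf.2 ⟨hd, ?_⟩
      rw [Subgroup.mem_centralizer_iff]
      intro d' hd'
      obtain ⟨h1, h2⟩ := Subgroup.mem_inf.1 hd'
      rw [Subgroup.mem_centralizer_iff] at h2
      exact hD d' h1 (h2 x hxA).symm d hd hdx
    apply hzx
    apply mem_of_trivial hex' (h.cent' hsx)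
    intro q hq
    obtain ⟨hc1, hc2⟩ := step3 q hq
    set c := q⁻¹ * (z * q * z⁻¹) with hcdef
    have hcx : c * x = x * c := (hex'.central c hc1).symm
    have hcQ : c ∈ Q z := by
      apply mem_of_trivial hex hC
      intro y hy
      by_cases hyx : y * x = x * y
      · left
        rcases (hA y).1 (hDA y hy hyx) with h1 | h1 | h1 | h1
        · rw [h1]; group
        · rw [h1, hc2]; group
        · rw [h1, hcx]; group
        · rw [h1]
          calc c * (z * x) * c⁻¹ = (c * z) * x * c⁻¹ := by group
            _ = z * (c * x) * c⁻¹ := by rw [hc2]; group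
            _ = z * x := by rw [hcx]; group
      · have hyx' : y * x * y⁻¹ = z * x := by
          rcases hex.com y hy x hx with h1 | h1
          · exact absurd h1 hyx
          · rw [h1]; group
        have hyz : y * z = z * y := (hex.central y hy).symm
        set e := y⁻¹ * (c * y * c⁻¹) with hedef
        have heQ : e ∈ Q z := mul_mem (inv_mem hy) (hnormz c hc2 y hy)
        have e1 : c * y * c⁻¹ = y * e := by rw [hedef]; group
        have hex1 : e * x = x * e := by
          have h1 : (y * e) * x * (y * e)⁻¹ = z * x := by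
            rw [← e1]
            calc (c * y * c⁻¹) * x * (c * y * c⁻¹)⁻¹ = c * (y * (c⁻¹ * x * c) * y⁻¹) * c⁻¹ := by group
              _ = c * (y * x * y⁻¹) * c⁻¹ := by
                have : c⁻¹ * x * c = x := by rw [mul_assoc, ← hcx]; group
                rw [this]
              _ = c * z * x * c⁻¹ := by rw [hyx']; group
              _ = z * (c * x) * c⁻¹ := by rw [hc2]; group
              _ = z * x := by rw [hcx]; group
          have h2 : e * x * e⁻¹ = x := by
            calc e * x * e⁻¹ = y⁻¹ * ((y * e) * x * (y * e)⁻¹) * y := by group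
              _ = y⁻¹ * (y * x * y⁻¹) * y := by rw [h1, hyx']
              _ = x := by group
          calc e * x = (e * x * e⁻¹) * e := by group
            _ = x * e := by rw [h2]
        have hy2 : (y * e) * (y * e) = y * y := by
          rw [← e1]
          have : (c * y * c⁻¹) * (c * y * c⁻¹) = c * (y * y) * c⁻¹ := by group
          rw [this]
          rcases hex.sqs y hy with h1 | h1
          · rw [h1]; group
          · rw [h1, hc2]; group
        have key : (y * x) * (y * x) = z * (y * y) := by
          calc (y * x) * (y * x) = (y * x * y⁻¹) * (y * y) * x := by group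
            _ = z * (x * (y * y)) * x := by rw [hyx']; group
            _ = z * ((y * y) * x) * x := by
              rcases hex.sqs y hy with h1 | h1
              · rw [h1]; simp
              · rw [h1, hcomm]
            _ = z * (y * y) * (x * x) := by group
            _ = _ := by rw [hx2, mul_one]
        have hne : z * (y * y) ≠ y * y := fun h1 => hex.ne_one (mul_eq_right.1 h1)
        rcases (hA e).1 (hDA e heQ hex1) with h1 | h1 | h1 | h1
        · left; rw [e1, h1, mul_one]
        · right; rw [e1, h1, hyz]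
        · exfalso
          rw [h1, key] at hy2
          exact hne hy2
        · exfalso
          have h3 : (y * (z * x)) * (y * (z * x)) = (y * x) * (y * x) := by
            calc (y * (z * x)) * (y * (z * x)) = (y * z) * x * (y * z) * x := by group
              _ = z * (y * x) * z * (y * x) := by rw [hyz]; group
              _ = (z * z) * ((y * x) * (y * x)) := by
                have : y * x * z = z * (y * x) := (hex.central _ (mul_mem hy hx)).symm
                calc z * (y * x) * z * (y * x) = z * ((y * x) * z) * (y * x) := by group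
                  _ = _ := by rw [this]; group
              _ = _ := by rw [hz2, one_mul]
          rw [h1, h3, key] at hy2
          exact hne hy2
    have e1 : z * q * z⁻¹ = q * c := by rw [hcdef]; group
    rcases step1 c hc1 hcQ with h1 | h1
    · left; rw [e1, h1, mul_one]
    · right; rw [e1, h1]; exact (hex'.central q hq).symm
  · push Not at hD
    obtain ⟨d, hd, hdx, d', hd', hdx', hne⟩ := hD
    have hdd : d * d' = z * (d' * d) := (hex.com d hd d' hd').resolve_left hne
    apply hzx
    apply mem_of_trivial hex' (h.cent' hsx)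
    intro y hy
    -- y = d' d q (d' d)⁻¹
    set q := (d' * d)⁻¹ * y * (d' * d) with hqdef
    have hq : q ∈ Q x := by
      have h1 : (d' * d)⁻¹ * x = x * (d' * d)⁻¹ := by
        have h2 : (d' * d) * x = x * (d' * d) := by rw [mul_assoc, hdx, ← mul_assoc, hdx', mul_assoc]
        calc (d' * d)⁻¹ * x = (d' * d)⁻¹ * (x * (d' * d)) * (d' * d)⁻¹ := by group
          _ = _ := by rw [← h2]; group
      have := hnormx _ h1 y hy
      rwa [inv_inv] at this
    obtain ⟨he1, he2⟩ := step5 d hd hdx q hq
    obtain ⟨he1', he2'⟩ := step5 d' hd' hdx' q hq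
    set e := q⁻¹ * (d * q * d⁻¹) with hedef
    set e' := q⁻¹ * (d' * q * d'⁻¹) with hedef'
    have f1 : d * q * d⁻¹ = q * e := by rw [hedef]; group
    have f2 : d' * q * d'⁻¹ = q * e' := by rw [hedef']; group
    have hxe : ∀ w ∈ Q x, x * w = w * x := fun w hw => hex'.central w hw
    have g1 : (d * d') * q * (d * d')⁻¹ = q * e * e' ∨ (d * d') * q * (d * d')⁻¹ = x * (q * e * e') := by
      have h1 : (d * d') * q * (d * d')⁻¹ = (d * q * d⁻¹) * (d * e' * d⁻¹) := by
        calc (d * d') * q * (d * d')⁻¹ = d * (d' * q * d'⁻¹) * d⁻¹ := by group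
          _ = _ := by rw [f2]; group
      rw [h1, f1]
      rcases step2 e' he1' he2' d hd hdx with h2 | h2
      · left; rw [h2]
      · right; rw [h2, ← mul_assoc, ← hxe _ (mul_mem hq he1)]; group
    have g2 : (d' * d) * q * (d' * d)⁻¹ = q * e' * e ∨ (d' * d) * q * (d' * d)⁻¹ = x * (q * e' * e) := by
      have h1 : (d' * d) * q * (d' * d)⁻¹ = (d' * q * d'⁻¹) * (d' * e * d'⁻¹) := by
        calc (d' * d) * q * (d' * d)⁻¹ = d' * (d * q * d⁻¹) * d'⁻¹ := by group
          _ = _ := by rw [f1]; group
      rw [h1, f2]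
      rcases step2 e he1 he2 d' hd' hdx' with h2 | h2
      · left; rw [h2]
      · right; rw [h2, ← mul_assoc, ← hxe _ (mul_mem hq he1')]; group
    have g3 : q * e * e' = q * e' * e ∨ q * e * e' = x * (q * e' * e) := by
      rcases hex'.com e he1 e' he1' with h1 | h1
      · left
        calc q * e * e' = q * (e * e') := mul_assoc _ _ _
          _ = q * (e' * e) := by rw [h1]
          _ = q * e' * e := (mul_assoc _ _ _).symm
      · right
        calc q * e * e' = q * (e * e') := mul_assoc _ _ _
          _ = q * (x * (e' * e)) := by rw [h1]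
          _ = (q * x) * (e' * e) := (mul_assoc _ _ _).symm
          _ = (x * q) * (e' * e) := by rw [hxe q hq]
          _ = _ := by simp only [mul_assoc]
    have hyq : (d' * d) * q * (d' * d)⁻¹ = y := by rw [hqdef]; group
    have hzy : z * y * z⁻¹ = (d * d') * q * (d * d')⁻¹ := by
      rw [← hyq, hdd]; group
    rw [hyq] at g2
    have hxx : ∀ w : G, x * (x * w) = w := fun w => by rw [← mul_assoc, hx2, one_mul]
    rw [hzy]
    rcases g1 with g1 | g1 <;> rcases g2 with g2 | g2 <;> rcases g3 with g3 | g3 <;> rw [g1, g3, g2]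
    · left; rfl
    · right; rfl
    · right; rw [hxx]
    · left; rfl
    · right; rfl
    · left; rw [hxx]
    · left; rfl
    · right; rfl

end Cfsg.Agent.S5595
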