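import Cfsg.Statements.S5596
import Cfsg.Agent.H93.LargeEx

set_option autoImplicit false
open Cfsg

namespace Cfsg.Agent.S5596

/-- Setting: `z` is an involution of the finite group `G`; for each element `x`, `Q x` is the largest normal 2-subgroup of the centralizer of `x`; `Q z` is extraspecial and contains its own centralizer in `G`. A subgroup `U` is singular when it is elementary abelian, every non-identity element of `U` is conjugate to `z`, and any two non-identity elements `u`, `v` of `U` are orthogonal (`v ∈ Q u`). Write `QU` for the intersection of the `Q u` and `LU` for the join of the `Q u` over the non-identity `u` in `U`. If `U` is singular of order `2 ^ n` with `n ≥ 2`, then `U ≤ QU ≤ LU`, `LU` normalizes `U`, and `LU` induces on `U` its full automorphism group (the general linear group of dimension `n` over the field with two elements): every automorphism of `U` is conjugation by some element of `LU`. -/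
theorem result {G : Type*} [Group G] [Finite G]
    (Q : G → Subgroup G)
    (hQ : ∀ x : G, Q x = (Cfsg.pCore 2 ↥(Subgroup.centralizer ({x} : Set G))).map (Subgroup.centralizer ({x} : Set G)).subtype)
    (z : G) (hz : orderOf z = 2) (hE : Cfsg.IsExtraspecial 2 ↥(Q z))
    (hC : Subgroup.centralizer ((Q z : Subgroup G) : Set G) ≤ Q z)
    (U : Subgroup G) (hU2 : ∀ u ∈ U, u * u = 1)
    (hS : ∀ u ∈ U, u ≠ 1 → ∃ g : G, g * z * g⁻¹ = u)
    (hO : ∀ u ∈ U, ∀ v ∈ U, u ≠ 1 → v ≠ 1 → v ∈ Q u)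
    (QU LU : Subgroup G) (hQU : QU = ⨅ u ∈ ((U : Set G) \ {1}), Q u) (hLU : LU = ⨆ u ∈ ((U : Set G) \ {1}), Q u)
    (n : ℕ) (hn : 2 ≤ n) (hcard : Nat.card ↥U = 2 ^ n) :
    U ≤ QU ∧ QU ≤ LU ∧ LU ≤ Subgroup.normalizer (U : Set G) ∧
      ∀ φ : ↥U ≃* ↥U, ∃ g ∈ LU, ∀ u : ↥U, g * (u : G) * g⁻¹ = ((φ u : ↥U) : G) := by
  have h := Cfsg.Agent.H93.LargeEx.mk_LX Q hQ z hz hE hC
  have hSU : Cfsg.Agent.H93.LargeEx.Singular Q z U := ⟨hU2, hS, hO⟩
  obtain ⟨u₀, hu₀, hu₀1⟩ : ∃ u ∈ U, u ≠ 1 := by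
    by_contra hcon
    push Not at hcon
    have h1 : U = ⊥ := (Subgroup.eq_bot_iff_forall U).2 hcon
    rw [h1, Subgroup.card_bot] at hcard
    have h2 : 2 ^ 2 ≤ 2 ^ n := Nat.pow_le_pow_right (by norm_num) hn
    omega
  have hnorm : ∀ g ∈ LU, ∀ v ∈ U, g * v * g⁻¹ ∈ U := by
    intro g hg v hv
    rw [hLU] at hg
    exact hSU.join_norm h hg hv
  refine ⟨?_, ?_, ?_, ?_⟩
  · rw [hQU]
    refine le_iInf₂ fun u hu => ?_
    obtain ⟨hu, hu1⟩ := hu
    exact hSU.le_Q hu hu1
  · rw [hQU, hLU]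
    exact (iInf₂_le u₀ ⟨hu₀, hu₀1⟩).trans (Cfsg.Agent.H93.LargeEx.Singular.le_join hu₀ hu₀1)
  · intro g hg
    rw [Subgroup.mem_normalizer_iff]
    intro v
    constructor
    · intro hv; exact hnorm g hg v hv
    · intro hv
      have := hnorm g⁻¹ (inv_mem hg) _ hv
      have e : g⁻¹ * (g * v * g⁻¹) * g⁻¹⁻¹ = v := by group
      rwa [e] at this
  · intro φ
    -- maximal subgroup on which φ is induced
    obtain ⟨W, ⟨hWU, g, hg, hgW⟩, hmax⟩ := exists_maximal_of_wellFoundedGT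
      (fun W : Subgroup G => W ≤ U ∧ ∃ g ∈ LU, ∀ w : ↥U, (w : G) ∈ W → g * (w : G) * g⁻¹ = ((φ w : ↥U) : G))
      ⟨⊥, bot_le, 1, one_mem _, fun w hw => by
        have : w = 1 := Subtype.ext (Subgroup.mem_bot.1 hw)
        rw [this, map_one]; simp⟩
    by_cases hWeq : W = U
    · exact ⟨g, hg, fun u => hgW u (by rw [hWeq]; exact u.2)⟩
    exfalso
    obtain ⟨y, hyU, hyW⟩ : ∃ y ∈ U, y ∉ W := by
      by_contra hcon
      push Not at hcon
      exact hWeq (le_antisymm hWU hcon)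
    -- the image of W
    let W' : Subgroup G := (W.subgroupOf U).map (U.subtype.comp φ.toMonoidHom)
    have hW'U : W' ≤ U := by
      rintro _ ⟨w, _, rfl⟩
      exact (φ w).2
    have hgy : g * y * g⁻¹ ∈ U := hnorm g hg y hyU
    have h1 : g * y * g⁻¹ ∉ W' := by
      rintro ⟨w, hw, hw'⟩
      have h2 : ((φ w : ↥U) : G) = g * y * g⁻¹ := hw'
      rw [← hgW w hw] at h2
      have h3 : (w : G) = y := by
        have := congrArg (fun t => g⁻¹ * t * g) h2
        simpa [mul_assoc] using this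
      exact hyW (h3 ▸ hw)
    have h2 : ((φ ⟨y, hyU⟩ : ↥U) : G) ∉ W' := by
      rintro ⟨w, hw, hw'⟩
      have h3 : φ w = φ ⟨y, hyU⟩ := Subtype.ext hw'
      have h4 := φ.injective h3
      rw [h4] at hw
      exact hyW hw
    obtain ⟨t, ht, htW, hty⟩ := hSU.exists_transvection h hW'U hgy (φ ⟨y, hyU⟩).2 h1 h2
    rw [← hLU] at ht
    -- the subgroup where `t g` induces φ
    let V : Subgroup G :=
      { carrier := {w | ∃ hw : w ∈ U, (t * g) * w * (t * g)⁻¹ = ((φ ⟨w, hw⟩ : ↥U) : G)}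
        one_mem' := ⟨one_mem _, by
          have : (⟨1, one_mem _⟩ : ↥U) = 1 := rfl
          rw [this, map_one]; simp⟩
        mul_mem' := by
          rintro a b ⟨ha, ha'⟩ ⟨hb, hb'⟩
          refine ⟨mul_mem ha hb, ?_⟩
          have e : (⟨a * b, mul_mem ha hb⟩ : ↥U) = ⟨a, ha⟩ * ⟨b, hb⟩ := rfl
          rw [e, map_mul, Subgroup.coe_mul, ← ha', ← hb']
          group
        inv_mem' := by
          rintro a ⟨ha, ha'⟩
          refine ⟨inv_mem ha, ?_⟩
          have e : (⟨a⁻¹, inv_mem ha⟩ : ↥U) = (⟨a, ha⟩ : ↥U)⁻¹ := rfl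
          rw [e, map_inv, Subgroup.coe_inv, ← ha']
          group }
    have hWV : W ≤ V := by
      intro w hw
      refine ⟨hWU hw, ?_⟩
      have e : t * g * w * (t * g)⁻¹ = t * (g * w * g⁻¹) * t⁻¹ := by group
      rw [e, hgW ⟨w, hWU hw⟩ hw]
      exact htW _ ⟨⟨w, hWU hw⟩, hw, rfl⟩
    have hyV : y ∈ V := by
      refine ⟨hyU, ?_⟩
      have e : t * g * y * (t * g)⁻¹ = t * (g * y * g⁻¹) * t⁻¹ := by group
      rw [e, hty]
    have hVle := hmax (y := V) ⟨fun w hw => hw.1, t * g, mul_mem ht hg, fun w hw => hw.2⟩ hWV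
    exact hyW (hVle hyV)

end Cfsg.Agent.S5596
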