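import Cfsg.Statements.S5597
import Cfsg.Agent.H93.LargeEx

set_option autoImplicit false
open Cfsg

namespace Cfsg.Agent.S5597

/-- Setting: `z` is an involution of the finite group `G`; for each element `x`, `Q x` is the largest normal 2-subgroup of the centralizer of `x`; `Q z` is extraspecial and contains its own centralizer in `G`. A subgroup `U` is singular when it is elementary abelian, every non-identity element of `U` is conjugate to `z`, and any two non-identity elements `u`, `v` of `U` are orthogonal (`v ∈ Q u`). Write `QU` for the intersection of the `Q u` and `LU` for the join of the `Q u` over the non-identity `u` in `U`. If `U` is a non-trivial singular subgroup, then `LU` acts trivially on `QU / U` (every commutator of an element of `LU` with an element of `QU` lies in `U`), and for every `x` in `QU` outside `U` the centralizer of `U` in `LU` permutes the coset `x U` transitively: each `x u` with `u ∈ U` is a conjugate of `x` by an element of `LU` centralizing `U`.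 -/
theorem result {G : Type*} [Group G] [Finite G]
    (Q : G → Subgroup G)
    (hQ : ∀ x : G, Q x = (Cfsg.pCore 2 ↥(Subgroup.centralizer ({x} : Set G))).map (Subgroup.centralizer ({x} : Set G)).subtype)
    (z : G) (hz : orderOf z = 2) (hE : Cfsg.IsExtraspecial 2 ↥(Q z))
    (hC : Subgroup.centralizer ((Q z : Subgroup G) : Set G) ≤ Q z)
    (U : Subgroup G) (hU2 : ∀ u ∈ U, u * u = 1)
    (hS : ∀ u ∈ U, u ≠ 1 → ∃ g : G, g * z * g⁻¹ = u)
    (hO : ∀ u ∈ U, ∀ v ∈ U, u ≠ 1 → v ≠ 1 → v ∈ Q u)
    (QU LU : Subgroup G) (hQU : QU = ⨅ u ∈ ((U : Set G) \ {1}), Q u) (hLU : LU = ⨆ u ∈ ((U : Set G) \ {1}), Q u)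
    (hU : U ≠ ⊥) :
    (∀ g ∈ LU, ∀ x ∈ QU, g * x * g⁻¹ * x⁻¹ ∈ U) ∧
      ∀ x ∈ QU, x ∉ U → ∀ u ∈ U, ∃ g ∈ LU ⊓ Subgroup.centralizer (U : Set G), g * x * g⁻¹ = x * u := by
  have h := Cfsg.Agent.H93.LargeEx.mk_LX Q hQ z hz hE hC
  have hSU : Cfsg.Agent.H93.LargeEx.Singular Q z U := ⟨hU2, hS, hO⟩
  have hQUle : ∀ u ∈ U, u ≠ 1 → QU ≤ Q u := by
    intro u hu hu1
    rw [hQU]
    exact iInf₂_le u ⟨hu, hu1⟩
  constructor
  · -- the elements normalising QU and acting trivially on QU / U
    have hnormU : ∀ g ∈ LU, ∀ v ∈ U, g * v * g⁻¹ ∈ U := by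
      intro g hg v hv
      rw [hLU] at hg
      exact hSU.join_norm h hg hv
    have hle : LU ≤ LU := le_rfl
    let S : Subgroup G :=
      { carrier := {g | (∀ x ∈ QU, g * x * g⁻¹ * x⁻¹ ∈ U) ∧ (∀ v ∈ U, g * v * g⁻¹ ∈ U) ∧ (∀ v ∈ U, g⁻¹ * v * g ∈ U)}
        one_mem' := ⟨fun x _ => by simp, fun v hv => by simpa using hv, fun v hv => by simpa using hv⟩
        mul_mem' := by
          rintro a b ⟨ha, ha', ha''⟩ ⟨hb, hb', hb''⟩
          refine ⟨fun x hx => ?_, fun v hv => ?_, fun v hv => ?_⟩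
          · have e : a * b * x * (a * b)⁻¹ * x⁻¹ = (a * (b * x * b⁻¹ * x⁻¹) * a⁻¹) * (a * x * a⁻¹ * x⁻¹) := by group
            rw [e]
            exact mul_mem (ha' _ (hb x hx)) (ha x hx)
          · have e : a * b * v * (a * b)⁻¹ = a * (b * v * b⁻¹) * a⁻¹ := by group
            rw [e]; exact ha' _ (hb' v hv)
          · have e : (a * b)⁻¹ * v * (a * b) = b⁻¹ * (a⁻¹ * v * a) * b := by group
            rw [e]; exact hb'' _ (ha'' v hv)
        inv_mem' := by
          rintro a ⟨ha, ha', ha''⟩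
          refine ⟨fun x hx => ?_, fun v hv => by rw [inv_inv]; exact ha'' v hv, fun v hv => by rw [inv_inv]; exact ha' v hv⟩
          have e : a⁻¹ * x * a⁻¹⁻¹ * x⁻¹ = a⁻¹ * (a * x * a⁻¹ * x⁻¹)⁻¹ * a := by group
          rw [e]
          exact ha'' _ (inv_mem (ha x hx)) }
    have hLS : LU ≤ S := by
      rw [hLU]
      refine iSup₂_le fun u hu => ?_
      obtain ⟨hu, hu1⟩ := hu
      rw [Set.mem_singleton_iff] at hu1
      intro g hg
      have hgL : g ∈ LU := by
        rw [hLU]; exact Cfsg.Agent.H93.LargeEx.Singular.le_join hu hu1 hg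
      refine ⟨fun x hx => ?_, hnormU g hgL, fun v hv => ?_⟩
      · rcases (h.ex' (hS u hu hu1)).com g hg x (hQUle u hu hu1 hx) with h2 | h2
        · rw [h2]
          have : x * g * g⁻¹ * x⁻¹ = 1 := by group
          rw [this]; exact one_mem _
        · rw [h2]
          have : u * (x * g) * g⁻¹ * x⁻¹ = u := by group
          rw [this]; exact hu
      · have := hnormU g⁻¹ (inv_mem hgL) v hv
        rwa [inv_inv] at this
    intro g hg x hx
    exact (hLS hg).1 x hx
  · intro x hx hxU u hu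
    by_cases hu1 : u = 1
    · exact ⟨1, one_mem _, by rw [hu1]; group⟩
    have hex := h.ex' (hS u hu hu1)
    obtain ⟨t, ht, htU, htx⟩ := hex.exists_move (hSU.le_Q hu hu1) hu (hQUle u hu hu1 hx) hxU
    refine ⟨t, Subgroup.mem_inf.2 ⟨?_, ?_⟩, ?_⟩
    · rw [hLU]; exact Cfsg.Agent.H93.LargeEx.Singular.le_join hu hu1 ht
    · rw [Subgroup.mem_centralizer_iff]
      intro a ha
      exact (htU a ha).symm
    · rw [htx]
      exact hex.central x (hQUle u hu hu1 hx)

end Cfsg.Agent.S5597
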