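import Cfsg.Statements.S5598
import Cfsg.Agent.H93.LargeEx

set_option autoImplicit false
open Cfsg

namespace Cfsg.Agent.S5598

/-- Setting: `z` is an involution of the finite group `G`; for each element `x`, `Q x` is the largest normal 2-subgroup of the centralizer of `x`; `Q z` is extraspecial and contains its own centralizer in `G`. A subgroup `U` is singular when it is elementary abelian, every non-identity element of `U` is conjugate to `z`, and any two non-identity elements `u`, `v` of `U` are orthogonal (`v ∈ Q u`). Write `QU` for the intersection of the `Q u` and `LU` for the join of the `Q u` over the non-identity `u` in `U`. If the singular subgroup `U` is generated by a set `T` of non-identity elements, then `QU` is already the intersection of the `Q t` over `t ∈ T`. -/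
theorem result {G : Type*} [Group G] [Finite G]
    (Q : G → Subgroup G)
    (hQ : ∀ x : G, Q x = (Cfsg.pCore 2 ↥(Subgroup.centralizer ({x} : Set G))).map (Subgroup.centralizer ({x} : Set G)).subtype)
    (z : G) (hz : orderOf z = 2) (hE : Cfsg.IsExtraspecial 2 ↥(Q z))
    (hC : Subgroup.centralizer ((Q z : Subgroup G) : Set G) ≤ Q z)
    (U : Subgroup G) (hU2 : ∀ u ∈ U, u * u = 1)
    (hS : ∀ u ∈ U, u ≠ 1 → ∃ g : G, g * z * g⁻¹ = u)
    (hO : ∀ u ∈ U, ∀ v ∈ U, u ≠ 1 → v ≠ 1 → v ∈ Q u)
    (QU LU : Subgroup G) (hQU : QU = ⨅ u ∈ ((U : Set G) \ {1}), Q u) (hLU : LU = ⨆ u ∈ ((U : Set G) \ {1}), Q u)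
    (T : Set G) (hT : Subgroup.closure T = U) (hT1 : (1 : G) ∉ T) :
    QU = ⨅ t ∈ T, Q t := by
  have h := Cfsg.Agent.H93.LargeEx.mk_LX Q hQ z hz hE hC
  have hSU : Cfsg.Agent.H93.LargeEx.Singular Q z U := ⟨hU2, hS, hO⟩
  have hTU : ∀ t ∈ T, t ∈ U := fun t ht => by rw [← hT]; exact Subgroup.subset_closure ht
  have hT1' : ∀ t ∈ T, t ≠ 1 := fun t ht h1 => hT1 (h1 ▸ ht)
  rw [hQU]
  apply le_antisymm
  · refine le_iInf₂ fun t ht => ?_
    exact iInf₂_le t ⟨hTU t ht, hT1' t ht⟩
  · refine le_iInf₂ fun u hu => ?_
    obtain ⟨hu, hu1⟩ := hu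
    rw [Set.mem_singleton_iff] at hu1
    have hu' : u ∈ Subgroup.closure T := by rw [hT]; exact hu
    have key : ∀ u ∈ Subgroup.closure T, u ≠ 1 → (⨅ t ∈ T, Q t) ≤ Q u := by
      intro u hu
      induction hu using Subgroup.closure_induction with
      | mem x hx => intro _; exact iInf₂_le x hx
      | one => intro h1; exact absurd rfl h1
      | mul x y hx hy ihx ihy =>
        intro hxy
        by_cases hx1 : x = 1
        · subst hx1
          rw [one_mul] at hxy ⊢
          exact ihy hxy
        by_cases hy1 : y = 1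
        · subst hy1
          rw [mul_one] at hxy ⊢
          exact ihx hxy
        have hxU : x ∈ U := by rw [← hT]; exact hx
        have hyU : y ∈ U := by rw [← hT]; exact hy
        have hne : x ≠ y := by
          intro h1
          apply hxy
          rw [h1]; exact hU2 y hyU
        exact (le_inf (ihx hx1) (ihy hy1)).trans (hSU.inf_le h hxU hyU hx1 hy1 hne)
      | inv x hx ihx =>
        intro hx1
        have hxU : x ∈ U := by rw [← hT]; exact hx
        have : x⁻¹ = x := inv_eq_of_mul_eq_one_left (hU2 x hxU)
        rw [this] at hx1 ⊢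
        exact ihx hx1
    exact key u hu' hu1

end Cfsg.Agent.S5598
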