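import Cfsg.Statements.S5729

set_option autoImplicit false
open Cfsg

namespace Cfsg.Agent.S5729

/-- Let a finite group G act faithfully and transitively on a set with n ≥ 3 points. Then either G is a Frobenius permutation group (Frobenius as a permutation group: transitive, some non-identity element fixes a point, and no non-identity element fixes two points) of order n(n − 1) and exactly |G|/n of its elements are derangements (fix no point), or the number of derangements is greater than |G|/n. -/
theorem result {G Ω : Type*} [Group G] [Finite G] [MulAction G Ω] [FaithfulSMul G Ω] [Fintype Ω] (htr : MulAction.IsPretransitive G Ω) (hn : 3 ≤ Fintype.card Ω) :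
    ((MulAction.IsPretransitive G Ω ∧ (∃ g : G, g ≠ 1 ∧ ∃ ω : Ω, g • ω = ω) ∧ ∀ g : G, g ≠ 1 → Nat.card (MulAction.fixedBy Ω g) ≤ 1) ∧ Nat.card G = Fintype.card Ω * (Fintype.card Ω - 1) ∧ Fintype.card Ω * Nat.card {g : G // ∀ ω : Ω, g • ω ≠ ω} = Nat.card G) ∨
    Nat.card G < Fintype.card Ω * Nat.card {g : G // ∀ ω : Ω, g • ω ≠ ω} := by
  classical
  have hFin : Fintype G := Fintype.ofFinite G
  set n := Fintype.card Ω with hndef
  have hpos : 0 < Fintype.card Ω := by omega
  obtain ⟨ω₀⟩ : Nonempty Ω := Fintype.card_pos_iff.mp hpos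
  have hcG : Nat.card G = Fintype.card G := Nat.card_eq_fintype_card
  let f : G → ℕ := fun g => Fintype.card (MulAction.fixedBy Ω g)
  have hf : ∀ g, Nat.card (MulAction.fixedBy Ω g) = f g := fun g => Nat.card_eq_fintype_card
  have hfn : ∀ g, f g ≤ n := fun g => Fintype.card_subtype_le _
  have hf0 : ∀ g, f g = 0 ↔ ∀ ω : Ω, g • ω ≠ ω := by
    intro g
    rw [Fintype.card_eq_zero_iff, isEmpty_subtype]
    rfl
  -- first moment
  have h1 : ∑ g : G, f g = Fintype.card G := by
    have := MulAction.sum_card_fixedBy_eq_card_orbits_mul_card_group G Ω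
    have hone : Fintype.card (Quotient (MulAction.orbitRel G Ω)) = 1 := by
      have hss : Subsingleton (Quotient (MulAction.orbitRel G Ω)) :=
        MulAction.pretransitive_iff_subsingleton_quotient G Ω |>.mp htr
      rw [Fintype.card_eq_one_iff]
      exact ⟨Quotient.mk _ ω₀, fun y => Subsingleton.elim _ _⟩
    rw [hone, one_mul] at this
    exact this
  -- second moment
  set r := Fintype.card (Quotient (MulAction.orbitRel G (Ω × Ω))) with hr
  have h2 : ∑ g : G, f g ^ 2 = r * Fintype.card G := by
    have := MulAction.sum_card_fixedBy_eq_card_orbits_mul_card_group G (Ω × Ω)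
    rw [← hr] at this
    rw [← this]
    apply Finset.sum_congr rfl
    intro g _
    rw [sq]
    show Fintype.card (MulAction.fixedBy Ω g) * Fintype.card (MulAction.fixedBy Ω g) = _
    rw [← Fintype.card_prod]
    refine Fintype.card_congr ⟨fun x => ⟨(x.1.1, x.2.1), Prod.ext x.1.2 x.2.2⟩,
      fun y => (⟨y.1.1, (Prod.ext_iff.mp y.2).1⟩, ⟨y.1.2, (Prod.ext_iff.mp y.2).2⟩), fun x => rfl, fun y => rfl⟩
  have hr2 : 2 ≤ r := by
    obtain ⟨ω₁, hω₁⟩ : ∃ ω₁ : Ω, ω₁ ≠ ω₀ := by
      apply Fintype.exists_ne_of_one_lt_card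
      omega
    rw [hr]
    show 1 < _
    rw [Fintype.one_lt_card_iff]
    refine ⟨Quotient.mk _ (ω₀, ω₀), Quotient.mk _ (ω₁, ω₀), ?_⟩
    intro h
    have h' := Quotient.exact h
    obtain ⟨g, hg⟩ := h'
    have e1 := (Prod.ext_iff.mp hg).1
    have e2 := (Prod.ext_iff.mp hg).2
    simp only [Prod.smul_fst, Prod.smul_snd] at e1 e2
    exact hω₁ (smul_left_cancel g (e1.trans e2.symm))
  -- the key identity
  have hkey : ∑ g : G, ((f g : ℤ) - 1) * ((f g : ℤ) - n) = ((r : ℤ) - 1) * Fintype.card G := by
    have e : ∀ g : G, ((f g : ℤ) - 1) * ((f g : ℤ) - n) = (f g : ℤ) ^ 2 - (n + 1) * f g + n := by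
      intro g; ring
    simp_rw [e]
    rw [Finset.sum_add_distrib, Finset.sum_sub_distrib, ← Finset.mul_sum]
    have h1' : ∑ g : G, (f g : ℤ) = Fintype.card G := by exact_mod_cast h1
    have h2' : ∑ g : G, (f g : ℤ) ^ 2 = r * Fintype.card G := by exact_mod_cast h2
    rw [h1', h2', Finset.sum_const, Finset.card_univ]
    simp only [nsmul_eq_mul]
    ring
  set D := Nat.card {g : G // ∀ ω : Ω, g • ω ≠ ω} with hD
  have hDcard : D = (Finset.univ.filter (fun g : G => f g = 0)).card := by
    rw [hD, Nat.card_eq_fintype_card, Fintype.card_subtype]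
    congr 1
    ext g
    simp [hf0]
  have hsplit : ∑ g : G, ((f g : ℤ) - 1) * ((f g : ℤ) - n) =
      (n : ℤ) * D + ∑ g ∈ Finset.univ.filter (fun g : G => ¬ f g = 0), ((f g : ℤ) - 1) * ((f g : ℤ) - n) := by
    rw [← Finset.sum_filter_add_sum_filter_not Finset.univ (fun g : G => f g = 0)]
    congr 1
    rw [hDcard]
    rw [Finset.sum_congr rfl (g := fun _ => (n : ℤ))]
    · rw [Finset.sum_const]; simp [mul_comm]
    · intro g hg
      rw [Finset.mem_filter] at hg
      rw [hg.2]; push_cast; ring
  have hneg : ∀ g ∈ Finset.univ.filter (fun g : G => ¬ f g = 0), ((f g : ℤ) - 1) * ((f g : ℤ) - n) ≤ 0 := by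
    intro g hg
    rw [Finset.mem_filter] at hg
    apply mul_nonpos_of_nonneg_of_nonpos
    · have : 1 ≤ f g := Nat.one_le_iff_ne_zero.mpr hg.2
      have : (1 : ℤ) ≤ f g := by exact_mod_cast this
      linarith
    · have : (f g : ℤ) ≤ n := by exact_mod_cast hfn g
      linarith
  have hsum := Finset.sum_nonpos hneg
  by_cases hlt : Nat.card G < n * D
  · exact Or.inr hlt
  left
  have hle : (n : ℤ) * D ≤ Fintype.card G := by
    have : n * D ≤ Fintype.card G := by rw [← hcG]; omega
    exact_mod_cast this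
  rw [hsplit] at hkey
  have hGpos : (0 : ℤ) < Fintype.card G := by exact_mod_cast Fintype.card_pos
  have hr2' : (2 : ℤ) ≤ r := by exact_mod_cast hr2
  have hr1 : ((r : ℤ) - 2) * Fintype.card G ≤ 0 := by nlinarith
  have hreq : (r : ℤ) = 2 := by nlinarith
  have hsum0 : ∑ g ∈ Finset.univ.filter (fun g : G => ¬ f g = 0), ((f g : ℤ) - 1) * ((f g : ℤ) - n) = 0 := by
    rw [hreq] at hkey
    linarith
  have hnD : (n : ℤ) * D = Fintype.card G := by
    rw [hsum0, hreq] at hkey
    linarith
  have hzero : ∀ g ∈ Finset.univ.filter (fun g : G => ¬ f g = 0), ((f g : ℤ) - 1) * ((f g : ℤ) - n) = 0 :=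
    (Finset.sum_eq_zero_iff_of_nonpos hneg).mp hsum0
  have hfle : ∀ g : G, g ≠ 1 → f g ≤ 1 := by
    intro g hg
    by_cases h0 : f g = 0
    · omega
    · have hz := hzero g (Finset.mem_filter.mpr ⟨Finset.mem_univ _, h0⟩)
      rcases mul_eq_zero.mp hz with h | h
      · have : (f g : ℤ) = 1 := by linarith
        have : f g = 1 := by exact_mod_cast this
        omega
      · exfalso
        have h3 : (f g : ℤ) = n := by linarith
        have h3 : f g = n := by exact_mod_cast h3
        apply hg
        apply FaithfulSMul.eq_of_smul_eq_smul (α := Ω)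
        intro a
        rw [one_smul]
        by_contra hna
        have hlt' : f g < n := Fintype.card_subtype_lt (p := fun a => a ∈ MulAction.fixedBy Ω g) (x := a) hna
        omega
  have hf1 : f 1 = n := by
    show Fintype.card (MulAction.fixedBy Ω (1 : G)) = n
    rw [hndef]
    apply Fintype.card_congr
    exact (Equiv.setCongr (by ext; simp)).trans (Equiv.Set.univ Ω)
  have hcardG : Fintype.card G = n * (n - 1) := by
    have hr' : r = 2 := by exact_mod_cast hreq
    rw [hr'] at h2
    rw [← Finset.add_sum_erase _ _ (Finset.mem_univ (1 : G)), hf1] at h1 h2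
    have : ∑ x ∈ Finset.univ.erase (1 : G), f x ^ 2 = ∑ x ∈ Finset.univ.erase (1 : G), f x := by
      apply Finset.sum_congr rfl
      intro x hx
      have := hfle x (Finset.ne_of_mem_erase hx)
      interval_cases f x <;> rfl
    rw [this] at h2
    have h3 : n ^ 2 = Fintype.card G + n := by omega
    have h4 : n * (n - 1) + n = n ^ 2 := by
      obtain ⟨k, hk⟩ : ∃ k, n = k + 1 := ⟨n - 1, by omega⟩
      rw [hk]
      simp only [Nat.add_sub_cancel]; ring
    omega
  refine ⟨⟨htr, ?_, ?_⟩, ?_, ?_⟩
  · by_contra hcon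
    push Not at hcon
    -- then every nonidentity element is a derangement, so |G| = n
    have : ∀ g ∈ Finset.univ.erase (1 : G), f g = 0 := by
      intro g hg
      rw [hf0]
      exact hcon g (Finset.ne_of_mem_erase hg)
    rw [← Finset.add_sum_erase _ _ (Finset.mem_univ (1 : G)), hf1, Finset.sum_eq_zero this, add_zero] at h1
    rw [← h1] at hcardG
    have : n * 1 < n * (n - 1) := Nat.mul_lt_mul_of_pos_left (by omega) (by omega)
    omega
  · intro g hg
    rw [hf]; exact hfle g hg
  · rw [hcG]; exact hcardG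
  · rw [hcG]; exact_mod_cast hnD

end Cfsg.Agent.S5729
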