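import Cfsg.Statements.S5730
import Cfsg.Agent.H99.DerG

set_option autoImplicit false
open Cfsg

namespace Cfsg.Agent.S5730

open MulAction Finset



/-- Let a finite group G act faithfully and transitively on a set with n ≥ 7 points. Then either G is a Frobenius permutation group (Frobenius as a permutation group: transitive, some non-identity element fixes a point, and no non-identity element fixes two points) of order n(n − 1)/a with a ∈ {1, 2}, in which case exactly a|G|/n of its elements are derangements, or the number of derangements is at least 2|G|/n. (Equality does occur: PSL₃(2) acting on the 7 points of the Fano plane has exactly 2|G|/7 derangements.) -/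
theorem result {G Ω : Type*} [Group G] [Finite G] [MulAction G Ω] [FaithfulSMul G Ω] [Fintype Ω] (htr : MulAction.IsPretransitive G Ω) (hn : 7 ≤ Fintype.card Ω) :
    (∃ a : ℕ, (a = 1 ∨ a = 2) ∧ (MulAction.IsPretransitive G Ω ∧ (∃ g : G, g ≠ 1 ∧ ∃ ω : Ω, g • ω = ω) ∧ ∀ g : G, g ≠ 1 → Nat.card (MulAction.fixedBy Ω g) ≤ 1) ∧ a * Nat.card G = Fintype.card Ω * (Fintype.card Ω - 1) ∧ Fintype.card Ω * Nat.card {g : G // ∀ ω : Ω, g • ω ≠ ω} = a * Nat.card G) ∨
    2 * Nat.card G ≤ Fintype.card Ω * Nat.card {g : G // ∀ ω : Ω, g • ω ≠ ω} := by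
  classical
  have : Fintype G := Fintype.ofFinite G
  have hne : Nonempty Ω := Fintype.card_pos_iff.mp (by omega)
  have : IsPretransitive G Ω := htr
  have hcc := H99.cameron_cohen (G := G) (Ω := Ω)
  set D := Nat.card {g : G // ∀ ω : Ω, g • ω ≠ ω} with hD
  set r := Nat.card (orbitRel.Quotient G (Ω × Ω)) with hr
  set n := Fintype.card Ω with hn'
  have hGpos : 0 < Nat.card G := Nat.card_pos
  have hGQ : (0 : ℚ) < Nat.card G := by exact_mod_cast hGpos
  have hfxle : ∀ g : G, H99.fx Ω g ≤ n := by
    intro g
    rw [H99.fx_eq]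
    exact_mod_cast Finset.card_le_univ _
  have hterm : ∀ g : G, 0 ≤ H99.fx Ω g * (H99.fx Ω g - 1) * ((n : ℚ) / H99.fx Ω g - 1) := by
    intro g
    by_cases h0 : H99.fx Ω g = 0
    · rw [h0]; simp
    · have h1 : 1 ≤ H99.fx Ω g := by
        rw [H99.fx_eq] at h0 ⊢
        have : (univ.filter fun z : Ω => g • z = z).card ≠ 0 := by exact_mod_cast h0
        have : 1 ≤ (univ.filter fun z : Ω => g • z = z).card := Nat.one_le_iff_ne_zero.mpr this
        exact_mod_cast this
      have h2 : 1 ≤ (n : ℚ) / H99.fx Ω g := by
        rw [le_div_iff₀ (by linarith), one_mul]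
        exact hfxle g
      apply mul_nonneg
      · apply mul_nonneg <;> linarith
      · linarith
  let q : Ω × Ω → orbitRel.Quotient G (Ω × Ω) := Quotient.mk''
  have hq : ∀ x y, q x = q y ↔ x ∈ orbit G y := fun x y => Quotient.eq''.trans orbitRel_apply
  have hqd : ∀ x a b : Ω, a ≠ b → q (x, x) ≠ q (a, b) := by
    intro x a b hab h
    rw [hq] at h
    obtain ⟨g, hg⟩ := h
    have h1 : g • a = x := congrArg Prod.fst hg
    have h2 : g • b = x := congrArg Prod.snd hg
    exact hab (MulAction.injective g (h1.trans h2.symm))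
  have : Fintype (orbitRel.Quotient G (Ω × Ω)) := Fintype.ofFinite _
  by_cases h2 : H99.Two G Ω
  · -- two-transitive
    obtain ⟨a, b, hab⟩ : ∃ a b : Ω, a ≠ b := by
      have : 1 < Fintype.card Ω := by omega
      exact Fintype.one_lt_card_iff.mp this
    have hr2 : r = 2 := by
      apply le_antisymm
      · rw [hr, Nat.card_eq_fintype_card]
        have h1 : (univ : Finset (orbitRel.Quotient G (Ω × Ω))) ⊆ {q (a, a), q (a, b)} := by
          intro ω _
          obtain ⟨⟨x, y⟩, hxy⟩ := Quotient.exists_rep ω
          have hxy' : q (x, y) = ω := hxy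
          simp only [Finset.mem_insert, Finset.mem_singleton]
          by_cases h : x = y
          · left
            rw [← hxy', hq, h]
            obtain ⟨g, hg⟩ := exists_smul_eq G a y
            exact ⟨g, Prod.ext hg hg⟩
          · right
            rw [← hxy', hq]
            obtain ⟨g, hg1, hg2⟩ := h2 a b x y hab h
            exact ⟨g, Prod.ext hg1 hg2⟩
        have h3 := Finset.card_le_card h1
        rw [Finset.card_univ] at h3
        exact h3.trans Finset.card_le_two
      · have h1 : ({q (a, a), q (a, b)} : Finset _).card = 2 := Finset.card_pair (hqd a a b hab)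
        rw [hr, Nat.card_eq_fintype_card, ← h1]
        exact Finset.card_le_univ _
    have hsum1 : ∑ g : G, H99.fx Ω g * (H99.fx Ω g - 1) * 1 = Nat.card G := by
      have e1 := H99.sum_fx (G := G) (Ω := Ω)
      have e2 := H99.sum_fx_sq (G := G) (Ω := Ω)
      rw [← hr, hr2] at e2
      have e3 : ∀ g : G, H99.fx Ω g * (H99.fx Ω g - 1) * 1 = H99.fx Ω g ^ 2 - H99.fx Ω g := fun g => by ring
      rw [Finset.sum_congr rfl (fun g _ => e3 g), Finset.sum_sub_distrib, e1, e2]
      push_cast
      ring
    have hS2 : ∀ p : Ω × Ω, (univ.filter fun g : G => g • p.1 = p.1 ∧ g • p.2 = p.2) = H99.S2 G p.1 p.2 := fun p => by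
      unfold H99.S2
      congr!
    by_cases hh : 2 ≤ Nat.card (H99.st2 G a b)
    · right
      have hge : (Nat.card G : ℚ) ≤ ∑ g : G, H99.fx Ω g * (H99.fx Ω g - 1) * ((n : ℚ) / H99.fx Ω g - 1) := by
        rw [H99.pair_count, ← hsum1, H99.pair_count (fun _ => (1 : ℚ))]
        apply Finset.sum_le_sum
        intro p hp
        have hp' : p.1 ≠ p.2 := (Finset.mem_filter.mp hp).2
        rw [hS2, Finset.sum_const, nsmul_eq_mul, mul_one, H99.card_S2]
        apply H99.pair_ineq h2 hn hp'
        rw [H99.card_st2_eq h2 hp' hab]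
        exact hh
      rw [hr2] at hcc
      have : (2 : ℚ) * Nat.card G ≤ n * D := by
        rw [hcc]
        push_cast
        linarith
      exact_mod_cast this
    · left
      have h1 : ∀ x y : Ω, x ≠ y → Nat.card (H99.st2 G x y) = 1 := by
        intro x y hxy
        have : 0 < Nat.card (H99.st2 G x y) := Nat.card_pos
        have := H99.card_st2_eq h2 hab hxy
        omega
      have hle1 : ∀ g : G, g ≠ 1 → Nat.card (fixedBy Ω g) ≤ 1 := by
        intro g hg
        rw [Finite.card_le_one_iff_subsingleton]
        constructor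
        rintro ⟨x, hx⟩ ⟨y, hy⟩
        apply Subtype.ext
        by_contra hxy
        have h3 := h1 x y hxy
        obtain ⟨hs, -⟩ := Nat.card_eq_one_iff_unique.mp h3
        have h4 := @Subsingleton.elim _ hs ⟨g, ⟨hx, hy⟩⟩ 1
        exact hg (congrArg Subtype.val h4)
      refine ⟨1, Or.inl rfl, ⟨htr, ?_, hle1⟩, ?_, ?_⟩
      · -- a nontrivial element with a fixed point
        obtain ⟨c, hc⟩ : ∃ c : Ω, c ∉ ({a, b} : Finset Ω) := by
          by_contra hcon
          push Not at hcon
          have h3 := Finset.card_le_card (fun z (_ : z ∈ (univ : Finset Ω)) => hcon z)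
          rw [Finset.card_univ, Finset.card_pair hab] at h3
          omega
        simp only [Finset.mem_insert, Finset.mem_singleton, not_or] at hc
        obtain ⟨g, hg1, hg2⟩ := h2 a b a c hab (Ne.symm hc.1)
        refine ⟨g, ?_, a, hg1⟩
        rintro rfl
        rw [one_smul] at hg2
        exact hc.2 hg2.symm
      · rw [one_mul]
        have h3 : (Nat.card G : ℚ) = (n : ℚ) * (n - 1) := by
          rw [← hsum1, H99.pair_count (fun _ => (1 : ℚ))]
          have h4 : ∀ p ∈ (univ.filter fun p : Ω × Ω => p.1 ≠ p.2), ∑ g ∈ (univ.filter fun g : G => g • p.1 = p.1 ∧ g • p.2 = p.2), (1 : ℚ) = 1 := by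
            intro p hp
            rw [hS2, Finset.sum_const, nsmul_eq_mul, mul_one, H99.card_S2, h1 p.1 p.2 (Finset.mem_filter.mp hp).2]
            norm_num
          rw [Finset.sum_congr rfl h4, Finset.sum_const, nsmul_eq_mul, mul_one]
          have h5 : (univ.filter fun p : Ω × Ω => p.1 ≠ p.2) = (univ : Finset Ω).offDiag := by
            ext p
            simp
          rw [h5, Finset.offDiag_card, Finset.card_univ, ← hn', Nat.cast_sub (Nat.le_mul_self _)]
          push_cast
          ring
        have h6 : ((n * (n - 1) : ℕ) : ℚ) = (n : ℚ) * (n - 1) := by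
          rw [Nat.cast_mul, Nat.cast_sub (by omega)]
          push_cast
          rfl
        rw [← h6] at h3
        exact_mod_cast h3
      · rw [one_mul]
        have h3 : ∑ g : G, H99.fx Ω g * (H99.fx Ω g - 1) * ((n : ℚ) / H99.fx Ω g - 1) = 0 := by
          apply Finset.sum_eq_zero
          intro g _
          by_cases hg : g = 1
          · rw [hg, H99.fx_one, ← hn', div_self, sub_self, mul_zero]
            have : (0 : ℚ) < n := by exact_mod_cast (by omega : 0 < n)
            exact this.ne'
          · have h4 := hle1 g hg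
            have h5 : H99.fx Ω g = 0 ∨ H99.fx Ω g = 1 := by
              unfold H99.fx
              interval_cases Nat.card (fixedBy Ω g) <;> simp
            rcases h5 with h5 | h5 <;> rw [h5] <;> simp
        rw [h3, hr2] at hcc
        have : (n : ℚ) * D = Nat.card G := by
          rw [hcc]
          push_cast
          ring
        exact_mod_cast this
  · right
    have hr3 : 3 ≤ r := by
      unfold H99.Two at h2
      push Not at h2
      obtain ⟨a, b, c, d, hab, hcd, hno⟩ := h2
      have h1 : q (a, b) ≠ q (c, d) := by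
        intro h
        have h' := h.symm
        rw [hq] at h'
        obtain ⟨g, hg⟩ := h'
        exact hno g (congrArg Prod.fst hg) (congrArg Prod.snd hg)
      have h3 : ({q (a, a), q (a, b), q (c, d)} : Finset _).card = 3 := by
        rw [Finset.card_insert_of_notMem, Finset.card_pair h1]
        simp only [Finset.mem_insert, Finset.mem_singleton, not_or]
        exact ⟨hqd a a b hab, hqd a c d hcd⟩
      rw [hr, Nat.card_eq_fintype_card, ← h3]
      exact Finset.card_le_univ _
    have hs : 0 ≤ ∑ g : G, H99.fx Ω g * (H99.fx Ω g - 1) * ((n : ℚ) / H99.fx Ω g - 1) := Finset.sum_nonneg fun g _ => hterm g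
    have hrQ : (3 : ℚ) ≤ r := by exact_mod_cast hr3
    have : (2 : ℚ) * Nat.card G ≤ n * D := by
      rw [hcc]
      nlinarith
    exact_mod_cast this


end Cfsg.Agent.S5730
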