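import Cfsg.Statements.S5738

set_option autoImplicit false
open Cfsg

namespace Cfsg.Agent.S5738

section
variable {F K : Type*} [Field F] [Field K] [Algebra F K]

/-- The unit of `End_F K` given by `x ↦ a * σ x`. -/
noncomputable def semi (a : Kˣ) (σ : K ≃ₐ[F] K) : (Module.End F K)ˣ where
  val := Algebra.lmul F K (a : K) * σ.toLinearMap
  inv := σ.symm.toLinearMap * Algebra.lmul F K ((a⁻¹ : Kˣ) : K)
  val_inv := by
    ext x
    simp [Module.End.mul_apply]
  inv_val := by
    ext x
    simp [Module.End.mul_apply]

lemma semi_apply (a : Kˣ) (σ : K ≃ₐ[F] K) (x : K) : (semi a σ : Module.End F K) x = a * σ x := rfl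

lemma semi_inv_apply (a : Kˣ) (σ : K ≃ₐ[F] K) (x : K) :
    (((semi a σ)⁻¹ : (Module.End F K)ˣ) : Module.End F K) x = σ.symm ((a⁻¹ : Kˣ) * x) := rfl

lemma semi_injective : Function.Injective (fun p : Kˣ × (K ≃ₐ[F] K) => semi p.1 p.2) := by
  rintro ⟨a, σ⟩ ⟨b, τ⟩ h
  have h' : ∀ x : K, (a : K) * σ x = b * τ x := fun x => by
    have := congrArg (fun u : (Module.End F K)ˣ => (u : Module.End F K) x) h
    exact this
  have hab : a = b := by
    have := h' 1
    simp only [map_one, mul_one] at this
    exact Units.ext this
  subst hab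
  have : σ = τ := by
    ext x
    exact mul_left_cancel₀ a.ne_zero (h' x)
  rw [this]

end

/-- Let F ⊆ K be finite fields with |F| = q and [K : F] = n ≥ 2, so |K| = q^n. Regard K as an n-dimensional F-vector space; the multiplications by non-zero elements of K form a cyclic subgroup of GL_F(K) of order q^n − 1 acting regularly on the non-zero vectors (a Singer group). Its normaliser in GL_F(K) has order n·(q^n − 1). -/
theorem result {F K : Type*} [Field F] [Fintype F] [Field K] [Fintype K] [Algebra F K] (n : ℕ) (hn : 2 ≤ n) (hdim : Module.finrank F K = n) :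
    Nat.card (Subgroup.normalizer (((Units.map ((Algebra.lmul F K : K →ₐ[F] Module.End F K) : K →* Module.End F K)).range : Subgroup (Module.End F K)ˣ) : Set (Module.End F K)ˣ)) = n * (Fintype.card K - 1) := by
  classical
  set φ : Kˣ →* (Module.End F K)ˣ := Units.map ((Algebra.lmul F K : K →ₐ[F] Module.End F K) : K →* Module.End F K) with hφ
  have hφa : ∀ (a : Kˣ) (x : K), (φ a : Module.End F K) x = a * x := fun a x => rfl
  have hconj : ∀ (g : (Module.End F K)ˣ), g ∈ Subgroup.normalizer ((φ.range : Subgroup (Module.End F K)ˣ) : Set (Module.End F K)ˣ) ↔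
      g ∈ Set.range (fun p : Kˣ × (K ≃ₐ[F] K) => semi p.1 p.2) := by
    intro g
    constructor
    · intro hg
      rw [Subgroup.mem_normalizer_iff] at hg
      -- every multiplication is conjugated into a multiplication
      have hc : ∀ c : K, ∃ c' : K, ∀ x : K, (g : Module.End F K) (c * x) = c' * (g : Module.End F K) x := by
        intro c
        by_cases hc0 : c = 0
        · exact ⟨0, fun x => by rw [hc0, zero_mul, map_zero, zero_mul]⟩
        · have h1 := (hg (φ (Units.mk0 c hc0))).mp ⟨_, rfl⟩
          obtain ⟨d, hd⟩ := h1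
          refine ⟨d, fun x => ?_⟩
          have h2 : φ d * g = g * φ (Units.mk0 c hc0) := by
            rw [hd]; group
          have h3 := congrArg (fun u : (Module.End F K)ˣ => (u : Module.End F K) x) h2
          simp only [Units.val_mul, Module.End.mul_apply] at h3
          rw [hφa, hφa] at h3
          exact h3.symm
      have hinj : Function.Injective (g : Module.End F K) := by
        intro x y hxy
        have := congrArg ((g⁻¹ : (Module.End F K)ˣ) : Module.End F K) hxy
        rw [← Module.End.mul_apply, ← Module.End.mul_apply, ← Units.val_mul, inv_mul_cancel] at this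
        exact this
      set a : K := (g : Module.End F K) 1 with ha
      have ha0 : a ≠ 0 := by
        intro h0
        have : (g : Module.End F K) 1 = (g : Module.End F K) 0 := by rw [map_zero]; exact h0
        exact one_ne_zero (hinj this)
      have key : ∀ c x : K, (g : Module.End F K) (c * x) = (a⁻¹ * (g : Module.End F K) c) * (g : Module.End F K) x := by
        intro c x
        obtain ⟨c', hc'⟩ := hc c
        have h1 := hc' 1
        rw [mul_one, ← ha] at h1
        rw [hc' x, h1]
        field_simp
      let σ₀ : K →ₐ[F] K := AlgHom.ofLinearMap (a⁻¹ • (g : Module.End F K)) (by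
          show a⁻¹ * (g : Module.End F K) 1 = 1
          rw [← ha, inv_mul_cancel₀ ha0]) (by
          intro x y
          show a⁻¹ * (g : Module.End F K) (x * y) = (a⁻¹ * (g : Module.End F K) x) * (a⁻¹ * (g : Module.End F K) y)
          rw [key]; ring)
      have hσ₀ : ∀ x, σ₀ x = a⁻¹ * (g : Module.End F K) x := fun x => rfl
      have hbij : Function.Bijective σ₀ := Finite.injective_iff_bijective.mp σ₀.injective
      refine ⟨(Units.mk0 a ha0, AlgEquiv.ofBijective σ₀ hbij), ?_⟩
      apply Units.ext
      ext x
      show a * σ₀ x = (g : Module.End F K) x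
      rw [hσ₀, mul_inv_cancel_left₀ ha0]
    · rintro ⟨⟨a, σ⟩, rfl⟩
      rw [Subgroup.mem_normalizer_iff]
      have hfwd : ∀ (a : Kˣ) (σ : K ≃ₐ[F] K) (c : Kˣ), semi a σ * φ c * (semi a σ)⁻¹ = φ (Units.map (σ : K →* K) c) := by
        intro a σ c
        rw [mul_inv_eq_iff_eq_mul]
        apply Units.ext
        ext x
        rw [Units.val_mul, Units.val_mul, Module.End.mul_apply, Module.End.mul_apply, hφa, hφa, semi_apply, semi_apply, map_mul]
        show (a : K) * (σ c * σ x) = σ c * (a * σ x)
        ring
      have hbwd : ∀ (a : Kˣ) (σ : K ≃ₐ[F] K) (c : Kˣ), (semi a σ)⁻¹ * φ c * (semi a σ) = φ (Units.map (σ.symm : K →* K) c) := by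
        intro a σ c
        rw [mul_assoc, inv_mul_eq_iff_eq_mul]
        apply Units.ext
        ext x
        rw [Units.val_mul, Units.val_mul, Module.End.mul_apply, Module.End.mul_apply, hφa, hφa, semi_apply, semi_apply, map_mul]
        show (c : K) * ((a : K) * σ x) = a * (σ (σ.symm c) * σ x)
        rw [AlgEquiv.apply_symm_apply]
        ring
      intro h
      constructor
      · rintro ⟨c, rfl⟩
        exact ⟨_, (hfwd a σ c).symm⟩
      · rintro ⟨c, hc⟩
        refine ⟨Units.map (σ.symm : K →* K) c, ?_⟩
        rw [← hbwd a σ c, hc]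
        group
  have hset : ((Subgroup.normalizer ((φ.range : Subgroup (Module.End F K)ˣ) : Set (Module.End F K)ˣ) : Subgroup (Module.End F K)ˣ) : Set (Module.End F K)ˣ) =
      Set.range (fun p : Kˣ × (K ≃ₐ[F] K) => semi p.1 p.2) := Set.ext hconj
  have h1 : Nat.card (Subgroup.normalizer ((φ.range : Subgroup (Module.End F K)ˣ) : Set (Module.End F K)ˣ)) =
      Nat.card (Set.range (fun p : Kˣ × (K ≃ₐ[F] K) => semi p.1 p.2)) :=
    Nat.card_congr (Equiv.setCongr hset)
  have hfd : FiniteDimensional F K := Module.Finite.of_finite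
  rw [h1, Nat.card_range_of_injective semi_injective, Nat.card_prod]
  have h2 : Nat.card (K ≃ₐ[F] K) = n := by
    rw [← hdim]; exact IsGalois.card_aut_eq_finrank F K
  rw [h2, Nat.card_eq_fintype_card, Fintype.card_units, mul_comm]

end Cfsg.Agent.S5738
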