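import Cfsg.Statements.S5739

set_option autoImplicit false
open Cfsg

namespace Cfsg.Agent.S5739

/-- The elements `a` of `K` whose multiplication map is carried by `g` from a multiplication map. -/
def fld {F K : Type*} [Field F] [Field K] [Algebra F K] (g : (Module.End F K)ˣ) : IntermediateField F K where
  carrier := {a : K | ∃ b : K, ∀ x : K, a * (g : Module.End F K) x = (g : Module.End F K) (b * x)}
  mul_mem' := by
    rintro a a' ⟨b, hb⟩ ⟨b', hb'⟩
    refine ⟨b * b', fun x => ?_⟩
    rw [mul_assoc, hb', hb, mul_assoc]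
  add_mem' := by
    rintro a a' ⟨b, hb⟩ ⟨b', hb'⟩
    refine ⟨b + b', fun x => ?_⟩
    rw [add_mul, hb', hb, add_mul, map_add]
  algebraMap_mem' := by
    intro c
    refine ⟨algebraMap F K c, fun x => ?_⟩
    rw [← Algebra.smul_def, ← Algebra.smul_def, map_smul]
  inv_mem' := by
    rintro a ⟨b, hb⟩
    by_cases ha : a = 0
    · refine ⟨0, fun x => ?_⟩
      rw [ha, inv_zero, zero_mul, zero_mul, map_zero]
    · have hb0 : b ≠ 0 := by
        rintro rfl
        have h1 : a * (g : Module.End F K) (((g⁻¹ : (Module.End F K)ˣ) : Module.End F K) 1) = 0 := by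
          rw [hb, zero_mul, map_zero]
        rw [← Module.End.mul_apply, ← Units.val_mul, mul_inv_cancel] at h1
        have h2 : a * 1 = 0 := h1
        rw [mul_one] at h2
        exact ha h2
      refine ⟨b⁻¹, fun x => ?_⟩
      have := hb (b⁻¹ * x)
      rw [mul_inv_cancel_left₀ hb0] at this
      rw [← this, inv_mul_cancel_left₀ ha]

/-- Let F ⊆ K be finite fields with |F| = q and [K : F] = n ≥ 2, and let M ≤ GL_F(K) be the Singer group of multiplications by non-zero elements of K. If g ∈ GL_F(K) does not normalise M, then the order of M ∩ gMg⁻¹ divides q^r − 1 for some proper divisor r of n. In particular, when n is prime, that order divides q − 1. -/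
theorem result {F K : Type*} [Field F] [Fintype F] [Field K] [Fintype K] [Algebra F K] (n : ℕ) (hn : 2 ≤ n) (hdim : Module.finrank F K = n)
    (g : (Module.End F K)ˣ) (hg : ((Units.map ((Algebra.lmul F K : K →ₐ[F] Module.End F K) : K →* Module.End F K)).range).map (MulAut.conj g).toMonoidHom ≠ (Units.map ((Algebra.lmul F K : K →ₐ[F] Module.End F K) : K →* Module.End F K)).range) :
    ∃ r : ℕ, 1 ≤ r ∧ r ∣ n ∧ r < n ∧ Nat.card ↥(((Units.map ((Algebra.lmul F K : K →ₐ[F] Module.End F K) : K →* Module.End F K)).range).map (MulAut.conj g).toMonoidHom ⊓ (Units.map ((Algebra.lmul F K : K →ₐ[F] Module.End F K) : K →* Module.End F K)).range) ∣ Fintype.card F ^ r - 1 := by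
  classical
  set φ : Kˣ →* (Module.End F K)ˣ := Units.map ((Algebra.lmul F K : K →ₐ[F] Module.End F K) : K →* Module.End F K) with hφ
  have hφa : ∀ (a : Kˣ) (x : K), (φ a : Module.End F K) x = a * x := fun a x => rfl
  have hinj : Function.Injective φ := by
    intro a b h
    have := congrArg (fun u : (Module.End F K)ˣ => (u : Module.End F K) 1) h
    simp only [hφa, mul_one] at this
    exact Units.ext this
  have hfd : FiniteDimensional F K := Module.Finite.of_finite
  set L := fld g with hL
  have hmemL : ∀ a : K, a ∈ L ↔ ∃ b : K, ∀ x : K, a * (g : Module.End F K) x = (g : Module.End F K) (b * x) := fun a => Iff.rfl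
  have hmem : ∀ a : Kˣ, φ a ∈ (φ.range).map (MulAut.conj g).toMonoidHom ↔ (a : K) ∈ L := by
    intro a
    rw [hmemL]
    constructor
    · rintro ⟨_, ⟨b, rfl⟩, hb⟩
      refine ⟨b, fun x => ?_⟩
      have h1 : φ a * g = g * φ b := by
        rw [← hb]
        show g * φ b * g⁻¹ * g = g * φ b
        group
      have h3 := congrArg (fun u : (Module.End F K)ˣ => (u : Module.End F K) x) h1
      simp only [Units.val_mul, Module.End.mul_apply] at h3
      rw [hφa, hφa] at h3
      exact h3
    · rintro ⟨b, hb⟩
      have hb0 : b ≠ 0 := by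
        rintro rfl
        have h1 : (a : K) * (g : Module.End F K) (((g⁻¹ : (Module.End F K)ˣ) : Module.End F K) 1) = 0 := by
          rw [hb, zero_mul, map_zero]
        rw [← Module.End.mul_apply, ← Units.val_mul, mul_inv_cancel] at h1
        have h2 : (a : K) * 1 = 0 := h1
        rw [mul_one] at h2
        exact a.ne_zero h2
      refine ⟨φ (Units.mk0 b hb0), ⟨_, rfl⟩, ?_⟩
      show g * φ (Units.mk0 b hb0) * g⁻¹ = φ a
      rw [mul_inv_eq_iff_eq_mul]
      apply Units.ext
      ext x
      rw [Units.val_mul, Units.val_mul, Module.End.mul_apply, Module.End.mul_apply, hφa, hφa]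
      exact (hb x).symm
  -- the intersection is the image of the units of `L`
  let ψ : Lˣ →* Kˣ := Units.map (L.val : L →* K)
  have hψ : Function.Injective (φ.comp ψ) := by
    intro a b h
    have h1 := hinj h
    have h2 := congrArg (fun u : Kˣ => (u : K)) h1
    exact Units.ext (Subtype.ext h2)
  have hrange : (φ.range).map (MulAut.conj g).toMonoidHom ⊓ φ.range = (φ.comp ψ).range := by
    ext u
    constructor
    · rintro ⟨h1, ⟨a, rfl⟩⟩
      have h2 : (a : K) ∈ L := (hmem a).mp h1
      have ha0 : (⟨(a : K), h2⟩ : L) ≠ 0 := by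
        intro h0
        exact a.ne_zero (congrArg Subtype.val h0)
      refine ⟨Units.mk0 _ ha0, ?_⟩
      show φ (ψ _) = φ a
      congr 1
      exact Units.ext rfl
    · rintro ⟨a, rfl⟩
      refine ⟨?_, ⟨ψ a, rfl⟩⟩
      exact (hmem (ψ a)).mpr (a : L).2
  have hcard : Nat.card ↥((φ.range).map (MulAut.conj g).toMonoidHom ⊓ φ.range) = Fintype.card F ^ Module.finrank F L - 1 := by
    rw [hrange]
    have h1 : Nat.card (φ.comp ψ).range = Nat.card Lˣ :=
      Nat.card_congr (MonoidHom.ofInjective hψ).symm.toEquiv
    rw [h1]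
    have : Fintype L := Fintype.ofFinite L
    rw [Nat.card_eq_fintype_card, Fintype.card_units, Module.card_eq_pow_finrank (K := F) (V := L)]
  refine ⟨Module.finrank F L, Module.finrank_pos, ?_, ?_, ?_⟩
  · rw [← hdim, ← Module.finrank_mul_finrank F L K]
    exact dvd_mul_right _ _
  · rw [← hdim]
    apply lt_of_le_of_ne
    · exact Submodule.finrank_le (Subalgebra.toSubmodule L.toSubalgebra)
    · intro heq
      -- then `L = ⊤` and `g` normalises
      apply hg
      have htop : L = ⊤ := IntermediateField.eq_of_le_of_finrank_eq le_top (by rw [heq, IntermediateField.finrank_top'])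
      have hle : φ.range ≤ (φ.range).map (MulAut.conj g).toMonoidHom := by
        rintro _ ⟨a, rfl⟩
        rw [hmem, htop]
        trivial
      symm
      have hfin1 : Finite (Module.End F K) := Module.finite_of_finite F
      have hfin2 : Finite (Module.End F K)ˣ := inferInstance
      apply Subgroup.eq_of_le_of_card_ge hle
      exact le_of_eq (Nat.card_congr (Subgroup.equivMapOfInjective _ _ (MulAut.conj g).injective).symm.toEquiv)
  · rw [hcard]

end Cfsg.Agent.S5739
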