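import Cfsg.Statements.S5746
import Cfsg.Agent.CosetEnum.G4J.Main
import Cfsg.Agent.CosetEnum.G4J.Iso
import Cfsg.Agent.G24.Main
import Cfsg.Agent.Chev.FieldAut

set_option autoImplicit false
open Cfsg

namespace Cfsg.Agent.S5746

open Cfsg.Agent.CosetEnum Cfsg.Agent.CosetEnum.Suz

/-- The Chevalley group G₂(4) (over the field with 4 elements) has a maximal subgroup H isomorphic to the Hall–Janko group J₂ such that for every x outside H the intersection H ∩ xHx⁻¹ is a maximal subgroup of H; that is, the action of G₂(4) on the cosets of H is extremely primitive. -/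
theorem result {F : Type*} [Field F] [Fintype F] (hF : Fintype.card F = 4) :
    ∃ H : Subgroup (Cfsg.Lie.chevG2.group F), IsCoatom H ∧ Cfsg.Spor.IsoJ2 H ∧
      ∀ x : Cfsg.Lie.chevG2.group F, x ∉ H → IsCoatom ((H ⊓ H.map (MulAut.conj x).toMonoidHom).subgroupOf H) := by
  obtain ⟨E⟩ := Cfsg.Agent.G24.exists_iso
  have hK : Fintype.card Cfsg.Agent.CosetEnum.He.K4 = 4 := rfl
  have hc : Fintype.card Cfsg.Agent.CosetEnum.He.K4 = Fintype.card F := by rw [hK, hF]
  let σ : Cfsg.Agent.CosetEnum.He.K4 ≃+* F := FiniteField.ringEquivOfCardEq hc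
  let E' : Q6 ≃* Cfsg.Lie.chevG2.group F := E.trans (Cfsg.Agent.Chev.fAut Cfsg.Lie.chevG2 σ)
  obtain ⟨h1, h2⟩ := Cfsg.Agent.CosetEnum.G4J.transport E'
  refine ⟨_, h1, ?_, h2⟩
  obtain ⟨e, _⟩ := sub65
  obtain ⟨f⟩ := Cfsg.Agent.CosetEnum.G4J.isoQ5
  exact ⟨((E'.subgroupMap (Cl q6 5)).symm.trans e.symm).trans f⟩

end Cfsg.Agent.S5746
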