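import Cfsg.Statements.S5747

set_option autoImplicit false
open Cfsg

namespace Cfsg.Agent.S5747

section
variable {G Ω : Type*} [Group G] [MulAction G Ω]

/-- `g` fixes all points of a list. -/
def FixAll (g : G) (L : List Ω) : Prop := ∀ x ∈ L, g • x = x

lemma fixAll_append (g : G) (L L' : List Ω) : FixAll g (L ++ L') ↔ FixAll g L ∧ FixAll g L' := by
  simp only [FixAll, List.mem_append]
  constructor
  · exact fun h => ⟨fun x hx => h x (Or.inl hx), fun x hx => h x (Or.inr hx)⟩
  · rintro ⟨h1, h2⟩ x (hx | hx)
    · exact h1 x hx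
    · exact h2 x hx

lemma fixAll_cons (g : G) (x : Ω) (L : List Ω) : FixAll g (x :: L) ↔ g • x = x ∧ FixAll g L := by
  simp [FixAll]

variable (G) in
/-- A list is a base. -/
def IsBase (L : List Ω) : Prop := ∀ g : G, FixAll g L → g = 1

variable (G) in
/-- A list is irredundant after the prefix `A`. -/
def IrrFrom : List Ω → List Ω → Prop
  | _, [] => True
  | A, x :: L => (∃ g : G, FixAll g A ∧ g • x ≠ x) ∧ IrrFrom (A ++ [x]) L

lemma irrFrom_append : ∀ (B A C : List Ω), IrrFrom G A (B ++ C) ↔ IrrFrom G A B ∧ IrrFrom G (A ++ B) C := by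
  intro B
  induction B with
  | nil => intro A C; simp [IrrFrom]
  | cons x B ih =>
    intro A C
    simp only [List.cons_append, IrrFrom, ih, List.append_assoc, List.nil_append]
    tauto

lemma exists_irr : ∀ (L A : List Ω), IsBase G (A ++ L) →
    ∃ L' : List Ω, L'.Sublist L ∧ IrrFrom G A L' ∧ IsBase G (A ++ L') := by
  intro L
  induction L with
  | nil => intro A h; exact ⟨[], List.Sublist.refl _, trivial, h⟩
  | cons x L ih =>
    intro A h
    by_cases hx : ∃ g : G, FixAll g A ∧ g • x ≠ x
    · obtain ⟨L', h1, h2, h3⟩ := ih (A ++ [x]) (by simpa using h)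
      exact ⟨x :: L', h1.cons_cons x, ⟨hx, h2⟩, by simpa using h3⟩
    · push Not at hx
      have hb : IsBase G (A ++ L) := by
        intro g hg
        apply h
        rw [fixAll_append] at hg ⊢
        rw [fixAll_cons]
        exact ⟨hg.1, hx g hg.1, hg.2⟩
      obtain ⟨L', h1, h2, h3⟩ := ih A hb
      exact ⟨L', h1.cons x, h2, h3⟩

lemma length_le
    (hM : ∀ (A : List Ω) (x : Ω) (B : List Ω), IrrFrom G [] (A ++ x :: B) → IsBase G (A ++ x :: B) →
      ∃ g : G, FixAll g A ∧ FixAll g B ∧ g • x ≠ x) :
    ∀ (C A B : List Ω), IrrFrom G [] (A ++ B) → IsBase G (A ++ B) →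
      IrrFrom G [] (A ++ C) → IsBase G (A ++ C) → C.length ≤ B.length := by
  intro C
  induction C with
  | nil => intro A B _ _ _ _; exact Nat.zero_le _
  | cons c C ih =>
    intro A B h1 h2 h3 h4
    have h5 : IsBase G ((A ++ [c]) ++ B) := by
      intro g hg
      apply h2
      rw [fixAll_append, fixAll_append] at hg
      rw [fixAll_append]
      exact ⟨hg.1.1, hg.2⟩
    obtain ⟨B'', hs, hirr, hbase⟩ := exists_irr B (A ++ [c]) h5
    have h6 : IrrFrom G [] ((A ++ [c]) ++ B'') := by
      rw [irrFrom_append]
      refine ⟨?_, by simpa using hirr⟩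
      have h7 : IrrFrom G [] ((A ++ [c]) ++ C) := by simpa using h3
      exact ((irrFrom_append _ _ _).mp h7).1
    have h8 := ih (A ++ [c]) B'' h6 hbase (by simpa using h3) (by simpa using h4)
    have h9 : B'' ≠ B := by
      rintro rfl
      obtain ⟨g, hg1, hg2, hg3⟩ := hM A c B'' (by simpa using h6) (by simpa using hbase)
      have : g = 1 := h2 g ((fixAll_append _ _ _).mpr ⟨hg1, hg2⟩)
      rw [this, one_smul] at hg3
      exact hg3 rfl
    have h10 : B''.length < B.length := by
      rcases lt_or_eq_of_le hs.length_le with h | h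
      · exact h
      · exact absurd (hs.eq_of_length h) h9
    simp only [List.length_cons]
    omega

lemma irrFrom_iff : ∀ (L A : List Ω), IrrFrom G A L ↔
    ∀ (i : ℕ) (hi : i < L.length), ∃ g : G, FixAll g A ∧ (∀ (j : ℕ) (hj : j < i), g • L[j] = L[j]) ∧ g • L[i] ≠ L[i] := by
  intro L
  induction L with
  | nil => intro A; simp [IrrFrom]
  | cons x L ih =>
    intro A
    simp only [IrrFrom, ih]
    constructor
    · rintro ⟨h1, h2⟩ i hi
      rcases i with _ | i
      · obtain ⟨g, hg1, hg2⟩ := h1
        exact ⟨g, hg1, fun j hj => absurd hj (Nat.not_lt_zero _), by simpa using hg2⟩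
      · obtain ⟨g, hg1, hg2, hg3⟩ := h2 i (by simpa using hi)
        rw [fixAll_append] at hg1
        refine ⟨g, hg1.1, ?_, by simpa using hg3⟩
        intro j hj
        rcases j with _ | j
        · simpa using hg1.2 x (by simp)
        · simpa using hg2 j (by omega)
    · intro h
      constructor
      · obtain ⟨g, hg1, _, hg3⟩ := h 0 (by simp)
        exact ⟨g, hg1, by simpa using hg3⟩
      · intro i hi
        obtain ⟨g, hg1, hg2, hg3⟩ := h (i + 1) (by simpa using hi)
        refine ⟨g, ?_, ?_, by simpa using hg3⟩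
        · rw [fixAll_append]
          refine ⟨hg1, ?_⟩
          intro y hy
          rw [List.mem_singleton] at hy
          subst hy
          simpa using hg2 0 (by omega)
        · intro j hj
          simpa using hg2 (j + 1) (by omega)

lemma fin_iff (t : ℕ) (f : Fin t → Ω) :
    ((∀ g : G, (∀ i : Fin t, g • f i = f i) → g = 1) ∧ ∀ i : Fin t, ∃ g : G, (∀ j : Fin t, j < i → g • f j = f j) ∧ g • f i ≠ f i) ↔
      (IsBase G (List.ofFn f) ∧ IrrFrom G [] (List.ofFn f)) := by
  rw [irrFrom_iff]
  apply and_congr
  · apply forall_congr'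
    intro g
    simp [FixAll, List.mem_ofFn]
  · constructor
    · intro h i hi
      obtain ⟨g, hg1, hg2⟩ := h ⟨i, by simpa using hi⟩
      refine ⟨g, fun x hx => absurd hx (by simp), ?_, by simpa using hg2⟩
      intro j hj
      have := hg1 ⟨j, by simp at hi; omega⟩ hj
      simpa using this
    · intro h i
      obtain ⟨g, _, hg1, hg2⟩ := h i.1 (by simp)
      refine ⟨g, ?_, by simpa using hg2⟩
      intro j hj
      have := hg1 j.1 hj
      simpa using this

end

/-- Let a finite group G act on a finite set Ω. An irredundant base is a sequence of points ω₁, …, ω_t whose pointwise stabiliser is trivial and in which each ω_i is moved by some element fixing ω₁, …, ω_{i−1}. Then all irredundant bases have the same length if and only if every reordering of an irredundant base is again an irredundant base. -/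
theorem result {G Ω : Type*} [Group G] [Finite G] [MulAction G Ω] [Fintype Ω] :
    (∀ (t t' : ℕ) (f : Fin t → Ω) (f' : Fin t' → Ω), ((∀ g : G, (∀ i : Fin t, g • f i = f i) → g = 1) ∧ ∀ i : Fin t, ∃ g : G, (∀ j : Fin t, j < i → g • f j = f j) ∧ g • f i ≠ f i) → ((∀ g : G, (∀ i : Fin t', g • f' i = f' i) → g = 1) ∧ ∀ i : Fin t', ∃ g : G, (∀ j : Fin t', j < i → g • f' j = f' j) ∧ g • f' i ≠ f' i) → t = t') ↔
    (∀ (t : ℕ) (f : Fin t → Ω) (σ : Equiv.Perm (Fin t)), ((∀ g : G, (∀ i : Fin t, g • f i = f i) → g = 1) ∧ ∀ i : Fin t, ∃ g : G, (∀ j : Fin t, j < i → g • f j = f j) ∧ g • f i ≠ f i) → ((∀ g : G, (∀ i : Fin t, g • (f ∘ σ) i = (f ∘ σ) i) → g = 1) ∧ ∀ i : Fin t, ∃ g : G, (∀ j : Fin t, j < i → g • (f ∘ σ) j = (f ∘ σ) j) ∧ g • (f ∘ σ) i ≠ (f ∘ σ) i)) := by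
  constructor
  · intro h t f σ hf
    have hb : ∀ g : G, (∀ i : Fin t, g • (f ∘ σ) i = (f ∘ σ) i) → g = 1 := by
      intro g hg
      apply hf.1
      intro i
      have := hg (σ.symm i)
      simpa using this
    have hb' : IsBase G (List.ofFn (f ∘ σ)) := by
      intro g hg
      apply hb
      intro i
      exact hg _ (List.mem_ofFn.mpr ⟨i, rfl⟩)
    rw [fin_iff]
    refine ⟨hb', ?_⟩
    obtain ⟨L', h1, h2, h3⟩ := exists_irr (G := G) (List.ofFn (f ∘ σ)) [] hb'
    have h4 : List.ofFn (fun i => L'.get i) = L' := List.ofFn_get L'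
    have h5 := h t L'.length f L'.get hf ((fin_iff _ _).mpr (by rw [h4]; exact ⟨h3, h2⟩))
    have h6 : L' = List.ofFn (f ∘ σ) := h1.eq_of_length (by rw [List.length_ofFn, h5])
    rw [h6] at h2
    exact h2
  · intro h t t' f f' hf hf'
    have hM : ∀ (A : List Ω) (x : Ω) (B : List Ω), IrrFrom G [] (A ++ x :: B) → IsBase G (A ++ x :: B) →
        ∃ g : G, FixAll g A ∧ FixAll g B ∧ g • x ≠ x := by
      intro A x B h1 h2
      set L := A ++ x :: B with hL
      have hlen : L.length = A.length + B.length + 1 := by simp [hL]; omega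
      have h4 : List.ofFn (fun i => L.get i) = L := List.ofFn_get L
      let i : Fin L.length := ⟨A.length, by omega⟩
      let l : Fin L.length := ⟨A.length + B.length, by omega⟩
      obtain ⟨_, h5⟩ := h L.length L.get (Equiv.swap i l) ((fin_iff _ _).mpr (by rw [h4]; exact ⟨h2, h1⟩))
      obtain ⟨g, hg1, hg2⟩ := h5 l
      have hkey : ∀ j : Fin L.length, j ≠ i → g • L.get j = L.get j := by
        intro j hj
        by_cases hjl : j = l
        · have hil : i ≠ l := by rintro h'; exact hj (hjl.trans h'.symm)
          have hlt : i < l := by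
            apply lt_of_le_of_ne _ hil
            show A.length ≤ A.length + B.length
            omega
          have := hg1 i hlt
          rw [Function.comp_apply, Equiv.swap_apply_left] at this
          rw [hjl]; exact this
        · have hlt : j < l := by
            apply lt_of_le_of_ne _ hjl
            show j.1 ≤ A.length + B.length
            have := j.2
            omega
          have := hg1 j hlt
          rwa [Function.comp_apply, Equiv.swap_apply_of_ne_of_ne hj hjl] at this
      refine ⟨g, ?_, ?_, ?_⟩
      · intro y hy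
        obtain ⟨j, hj, rfl⟩ := List.getElem_of_mem hy
        have := hkey ⟨j, by omega⟩ (by intro h'; have := congrArg Fin.val h'; simp [i] at this; omega)
        have e : L.get ⟨j, by omega⟩ = A[j] := by
          simp [hL, List.getElem_append_left, hj]
        rwa [e] at this
      · intro y hy
        obtain ⟨j, hj, rfl⟩ := List.getElem_of_mem hy
        have := hkey ⟨A.length + 1 + j, by omega⟩ (by intro h'; have := congrArg Fin.val h'; simp [i] at this; omega)
        have e : L.get ⟨A.length + 1 + j, by omega⟩ = B[j] := by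
          rw [List.get_eq_getElem]
          simp only [hL]
          rw [List.getElem_append_right (by omega)]
          simp [Nat.add_sub_cancel_left, add_assoc, Nat.add_comm 1 j]
        rwa [e] at this
      · have e : L.get i = x := by
          rw [List.get_eq_getElem]
          simp only [hL, i]
          rw [List.getElem_append_right (le_refl _)]
          simp
        rw [Function.comp_apply, Equiv.swap_apply_right, e] at hg2
        exact hg2
    rw [fin_iff] at hf hf'
    have h1 := length_le hM (List.ofFn f) [] (List.ofFn f') hf'.2 hf'.1 hf.2 hf.1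
    have h2 := length_le hM (List.ofFn f') [] (List.ofFn f) hf.2 hf.1 hf'.2 hf'.1
    rw [List.length_ofFn, List.length_ofFn] at h1 h2
    omega

end Cfsg.Agent.S5747
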