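import Cfsg.Statements.S5748
import Cfsg.Agent.FT.Base
import Cfsg.Agent.H68.SL2CA

set_option autoImplicit false
open Cfsg

namespace Cfsg.Agent.S5748

/-- A finite non-abelian simple group in which commuting is a transitive relation on the non-identity elements (equivalently, every non-identity element has abelian centraliser) is isomorphic to PSL₂ over a field with 2^f elements for some f ≥ 2; conversely these groups have that property. -/
theorem result {G : Type*} [Group G] [Finite G] [IsSimpleGroup G] (hG : ¬ IsMulCommutative G) :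
    (∀ a b c : G, a ≠ 1 → b ≠ 1 → c ≠ 1 → Commute a b → Commute b c → Commute a c) ↔
    ∃ (F : Type) (_ : Field F) (_ : Fintype F) (f : ℕ), 2 ≤ f ∧ Fintype.card F = 2 ^ f ∧ Nonempty (G ≃* Matrix.ProjectiveSpecialLinearGroup (Fin 2) F) := by
  constructor
  · intro hCA
    rcases Nat.even_or_odd (Nat.card G) with h | h
    · exact H68.CA.psl_of_even hG hCA (even_iff_two_dvd.1 h)
    · exfalso
      have hs := Cfsg.Agent.FT.solvable_of_odd h
      apply hG
      exact ⟨⟨(IsSimpleGroup.comm_iff_isSolvable (G := G)).2 hs⟩⟩
  · rintro ⟨F, iF, iFF, f, hf, hF, ⟨e⟩⟩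
    exact (H68.CA.isCA_psl2 (by omega) hF).2.of_equiv e

end Cfsg.Agent.S5748
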