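import Cfsg.Statements.S5752
import Cfsg.Agent.H94.TW

set_option autoImplicit false
open Cfsg

namespace Cfsg.Agent.S5752

open Cfsg.Agent.H94

/-- A form of the Thompson–Wielandt Theorem on primitive permutation groups. Let G be a finite group and M₁, M₂ two distinct conjugate maximal subgroups of G with trivial core in G; define two descending sequences of subgroups by A₀ = M₁, B₀ = M₂ and, for every i, A_{i+1} = the core in M₁ of A_i ∩ B_i and B_{i+1} = the core in M₂ of A_i ∩ B_i (the core in M of a subgroup Y ≤ M is the largest normal subgroup of M contained in Y). If A₂ and B₂ are both non-trivial, then for some prime p the subgroup generated by A₂ and B₂ is a p-group, and for each j the generalized Fitting subgroups of M_j and of its first core (A₁, resp. B₁) are their largest normal p-subgroups. -/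
theorem result {G : Type*} [Group G] [Finite G] (M₁ M₂ : Subgroup G) (hmax : IsCoatom M₁) (g : G)
    (hconj : M₂ = M₁.map (MulAut.conj g).toMonoidHom) (hne : M₁ ≠ M₂) (hcore : M₁.normalCore = ⊥)
    (A B : ℕ → Subgroup G) (hA0 : A 0 = M₁) (hB0 : B 0 = M₂)
    (hA : ∀ i, A (i + 1) = ((A i ⊓ B i).subgroupOf M₁).normalCore.map M₁.subtype)
    (hB : ∀ i, B (i + 1) = ((A i ⊓ B i).subgroupOf M₂).normalCore.map M₂.subtype) (hA2 : A 2 ≠ ⊥) (hB2 : B 2 ≠ ⊥) :
    ∃ p : ℕ, p.Prime ∧ IsPGroup p ↥(A 2 ⊔ B 2) ∧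
      Cfsg.generalizedFittingSubgroup ↥M₁ = Cfsg.pCore p ↥M₁ ∧ Cfsg.generalizedFittingSubgroup ↥(A 1) = Cfsg.pCore p ↥(A 1) ∧
      Cfsg.generalizedFittingSubgroup ↥M₂ = Cfsg.pCore p ↥M₂ ∧ Cfsg.generalizedFittingSubgroup ↥(B 1) = Cfsg.pCore p ↥(B 1) := by
  have h := TW.of_coatom hmax g hconj hne hcore
  have hA1 : A 1 = coreIn M₁ (M₁ ⊓ M₂) := by rw [hA 0, hA0, hB0]; rfl
  have hB1 : B 1 = coreIn M₂ (M₁ ⊓ M₂) := by rw [hB 0, hA0, hB0]; rfl
  have hA2' : A 2 = coreIn M₁ (coreIn M₁ (M₁ ⊓ M₂) ⊓ coreIn M₂ (M₁ ⊓ M₂)) := by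
    rw [hA 1, hA1, hB1]; rfl
  have hB2' : B 2 = coreIn M₂ (coreIn M₁ (M₁ ⊓ M₂) ⊓ coreIn M₂ (M₁ ⊓ M₂)) := by
    rw [hB 1, hA1, hB1]; rfl
  obtain ⟨p, hp, h1, h2, h3, h4⟩ := h.knapp (by rw [← hA2']; exact hA2) (by rw [← hB2']; exact hB2)
  have : Fact p.Prime := ⟨hp⟩
  refine ⟨p, hp, ?_, FStar.generalizedFitting_eq_pCore_iff.mpr h3, ?_, FStar.generalizedFitting_eq_pCore_iff.mpr h4, ?_⟩
  · rw [hA2', hB2', sup_comm]
    apply IsPGroup.to_sup_of_normal_right' h2 h1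
    have h5 : coreIn M₂ (coreIn M₁ (M₁ ⊓ M₂) ⊓ coreIn M₂ (M₁ ⊓ M₂)) ≤ M₁ :=
      (coreIn_le_right _ _).trans (inf_le_left.trans (coreIn_le_left _ _))
    exact h5.trans (le_normalizer_coreIn _ _)
  · rw [FStar.generalizedFitting_eq_pCore_iff, hA1]
    exact TW.gF_transport (coreIn_le_left _ _) (le_normalizer_coreIn _ _) h3
  · rw [FStar.generalizedFitting_eq_pCore_iff, hB1]
    exact TW.gF_transport (coreIn_le_left _ _) (le_normalizer_coreIn _ _) h4

end Cfsg.Agent.S5752
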