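import Cfsg.Statements.S5753
import Cfsg.Agent.H8B.Main

set_option autoImplicit false
open Cfsg

namespace Cfsg.Agent.S5753

/-- The binary primitive permutation groups of affine type (the known proof uses the classification of the finite simple groups). Let a finite group G act faithfully and primitively on a finite set Ω, with a non-trivial abelian normal subgroup, and suppose the action is binary: for every n ≥ 2 and all n-tuples I, J of points, if for every pair of positions some element of G carries the corresponding pair of entries of I to those of J, then a single element carries I to J. Then either Ω has a prime number of points and every point stabilizer has order at most 2, or Ω can be identified with a field E that is a quadratic extension of a subfield F in such a way that the permutations induced by G are exactly the maps x ↦ a·φ(x) + b with a ∈ E of norm 1 over F, φ an automorphism of E over F and b ∈ E (the affine group of the anisotropic plane orthogonal group). -/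
theorem result {G Ω : Type*} [Group G] [Finite G] [MulAction G Ω] [FaithfulSMul G Ω] [Fintype Ω]
    (hprim : MulAction.IsPreprimitive G Ω)
    (haff : ∃ N : Subgroup G, N.Normal ∧ N ≠ ⊥ ∧ IsMulCommutative ↥N)
    (hbin : ∀ (n : ℕ) (I J : Fin n → Ω), 2 ≤ n →
      (∀ i j : Fin n, i ≠ j → ∃ g : G, g • I i = J i ∧ g • I j = J j) → ∃ g : G, ∀ i, g • I i = J i) :
    ((Fintype.card Ω).Prime ∧ ∀ ω : Ω, Nat.card ↥(MulAction.stabilizer G ω) ≤ 2) ∨
    (∃ (F E : Type) (_ : Field F) (_ : Fintype F) (_ : Field E) (_ : Fintype E) (_ : Algebra F E) (e : Ω ≃ E),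
        Module.finrank F E = 2 ∧
        ∀ σ : Equiv.Perm Ω, σ ∈ (MulAction.toPermHom G Ω).range ↔
          ∃ (a b : E) (φ : E ≃ₐ[F] E), Algebra.norm F a = 1 ∧ ∀ ω : Ω, e (σ ω) = a * φ (e ω) + b) := by
  classical
  obtain ⟨N, hN, hNb, hNc⟩ := haff
  haveI := hN
  haveI := hprim
  -- `N` is transitive
  have hmove : ∃ n ∈ N, n ≠ 1 := by
    by_contra hcon
    push Not at hcon
    apply hNb
    rw [eq_bot_iff]
    intro n hn
    exact Subgroup.mem_bot.mpr (hcon n hn)
  obtain ⟨n₀, hn₀, hn₁⟩ := hmove
  have hex : ∃ ω : Ω, n₀ • ω ≠ ω := by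
    by_contra hcon
    push Not at hcon
    apply hn₁
    apply FaithfulSMul.eq_of_smul_eq_smul (α := Ω)
    intro ω
    rw [hcon, one_smul]
  obtain ⟨ω₀, hω₀⟩ := hex
  have htrans : MulAction.IsPretransitive N Ω := by
    apply MulAction.IsQuasiPreprimitive.isPretransitive_of_normal (G := G)
    intro h
    have h1 : ω₀ ∈ MulAction.fixedPoints N Ω := by rw [h]; trivial
    exact hω₀ (h1 ⟨n₀, hn₀⟩)
  have hcomm : ∀ a b : N, a * b = b * a := fun a b => hNc.is_comm.comm a b
  letI iN : CommGroup N := { (inferInstance : Group N) with mul_comm := hcomm }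
  have hreg : ∀ n : N, n • ω₀ = ω₀ → n = 1 := by
    intro n hn
    apply Subtype.ext
    apply FaithfulSMul.eq_of_smul_eq_smul (α := Ω)
    intro ω
    obtain ⟨m, rfl⟩ := htrans.exists_smul_eq ω₀ ω
    change n • m • ω₀ = _
    rw [smul_smul, hcomm, mul_smul, hn]
    exact (one_smul G _).symm
  let ef : Additive N → Ω := fun v => (Additive.toMul v) • ω₀
  have hef : Function.Bijective ef := by
    constructor
    · intro a b hab
      have h1 : (Additive.toMul a) • ω₀ = (Additive.toMul b) • ω₀ := hab
      have h2 : (Additive.toMul b)⁻¹ * (Additive.toMul a) = 1 := by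
        apply hreg
        rw [mul_smul, h1, inv_smul_smul]
      exact (inv_mul_eq_one.mp h2).symm
    · intro ω
      obtain ⟨m, hm⟩ := htrans.exists_smul_eq ω₀ ω
      exact ⟨Additive.ofMul m, hm⟩
  let e : Additive N ≃ Ω := Equiv.ofBijective ef hef
  letI iD : DistribMulAction (MulAction.stabilizer G ω₀) (Additive N) :=
    { smul := fun h v => Additive.ofMul (MulAut.conjNormal (h : G) (Additive.toMul v))
      one_smul := fun v => by
        change Additive.ofMul (MulAut.conjNormal ((1 : MulAction.stabilizer G ω₀) : G) (Additive.toMul v)) = v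
        rw [Subgroup.coe_one, map_one]
        rfl
      mul_smul := fun a b v => by
        change Additive.ofMul (MulAut.conjNormal ((a * b : MulAction.stabilizer G ω₀) : G) (Additive.toMul v)) = _
        rw [Subgroup.coe_mul, map_mul]
        rfl
      smul_zero := fun a => by
        change Additive.ofMul (MulAut.conjNormal (a : G) (Additive.toMul (0 : Additive N))) = 0
        rw [toMul_zero, map_one]
        rfl
      smul_add := fun a v w => by
        change Additive.ofMul (MulAut.conjNormal (a : G) (Additive.toMul (v + w))) = _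
        rw [toMul_add, map_mul]
        rfl }
  refine Cfsg.Agent.H8B.final_of (V := Additive N) (ω₀ := ω₀) e (fun v => ((Additive.toMul v : N) : G))
    ?_ ?_ ?_ ?_ hbin
  · change (Additive.toMul (0 : Additive N)) • ω₀ = ω₀
    rw [toMul_zero, one_smul]
  · intro v w
    change (Additive.toMul v : N) • ((Additive.toMul w : N) • ω₀) = (Additive.toMul (v + w) : N) • ω₀
    rw [toMul_add, mul_smul]
  · intro h v
    change (h : G) • (((Additive.toMul v : N) : G) • ω₀) =
      ((MulAut.conjNormal (h : G) (Additive.toMul v) : N) : G) • ω₀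
    rw [MulAut.conjNormal_apply, mul_smul, mul_smul]
    have h1 : (h : G)⁻¹ • ω₀ = ω₀ := by
      rw [inv_smul_eq_iff]
      exact h.2.symm
    rw [h1]
  · refine ⟨Additive.ofMul ⟨n₀, hn₀⟩, fun h => hn₁ ?_⟩
    have h1 : (⟨n₀, hn₀⟩ : N) = 1 := h
    exact congrArg Subtype.val h1

end Cfsg.Agent.S5753
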