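import Cfsg.Statements.S5754

set_option autoImplicit false
open Cfsg

namespace Cfsg.Agent.S5754

section
variable {F V : Type*} [Field F] [AddCommGroup V] [Module F V]

/-- The linear map underlying the orthogonal reflection in `z`. -/
noncomputable def reflLin (Q : QuadraticForm F V) (z : V) : V →ₗ[F] V :=
  LinearMap.id - ((Q z)⁻¹ • (QuadraticMap.polarBilin Q).flip z).smulRight z

lemma reflLin_apply (Q : QuadraticForm F V) (z v : V) :
    reflLin Q z v = v - ((Q z)⁻¹ * QuadraticMap.polar Q v z) • z := by
  simp [reflLin]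

lemma polar_self' (Q : QuadraticForm F V) (z : V) : QuadraticMap.polar Q z z = 2 * Q z := by
  simp [two_mul]

lemma reflLin_reflLin (Q : QuadraticForm F V) (z : V) (hz : Q z ≠ 0) (v : V) :
    reflLin Q z (reflLin Q z v) = v := by
  rw [reflLin_apply, reflLin_apply]
  rw [QuadraticMap.polar_sub_left, QuadraticMap.polar_smul_left, polar_self']
  rw [sub_sub, ← add_smul]
  have : (Q z)⁻¹ * QuadraticMap.polar (⇑Q) v z +
      (Q z)⁻¹ * (QuadraticMap.polar (⇑Q) v z - ((Q z)⁻¹ * QuadraticMap.polar (⇑Q) v z) • (2 * Q z)) = 0 := by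
    simp only [smul_eq_mul]
    field_simp
    ring
  rw [this, zero_smul, sub_zero]

lemma map_reflLin (Q : QuadraticForm F V) (z : V) (hz : Q z ≠ 0) (v : V) :
    Q (reflLin Q z v) = Q v := by
  rw [reflLin_apply, sub_eq_add_neg, ← neg_smul, QuadraticMap.map_add Q, QuadraticMap.map_smul,
    QuadraticMap.polar_smul_right]
  simp only [smul_eq_mul]
  field_simp
  ring

/-- The orthogonal reflection in `z` as an isometry. -/
noncomputable def refl (Q : QuadraticForm F V) (z : V) (hz : Q z ≠ 0) : Q.IsometryEquiv Q where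
  toLinearEquiv := LinearEquiv.ofLinearMap (reflLin Q z) (reflLin Q z)
    (LinearMap.ext fun v => reflLin_reflLin Q z hz v) (LinearMap.ext fun v => reflLin_reflLin Q z hz v)
  map_app' := fun v => map_reflLin Q z hz v

lemma refl_apply (Q : QuadraticForm F V) (z : V) (hz : Q z ≠ 0) (v : V) :
    refl Q z hz v = v - ((Q z)⁻¹ * QuadraticMap.polar Q v z) • z :=
  reflLin_apply Q z v

lemma polar_map (Q : QuadraticForm F V) (φ : Q.IsometryEquiv Q) (v w : V) :
    QuadraticMap.polar Q (φ v) (φ w) = QuadraticMap.polar Q v w := by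
  have h : φ v + φ w = φ (v + w) := (map_add φ.toLinearEquiv v w).symm
  simp only [QuadraticMap.polar, h, QuadraticMap.IsometryEquiv.map_app]

theorem exists_isometry (Q : QuadraticForm F V) (hQ : Q.Anisotropic) :
    ∀ (n : ℕ) (x x' : Fin n → V), (∀ i, Q (x i) = Q (x' i)) →
      (∀ i j, QuadraticMap.polar Q (x i) (x j) = QuadraticMap.polar Q (x' i) (x' j)) →
      ∃ φ : Q.IsometryEquiv Q, ∀ i, φ (x i) = x' i := by
  intro n
  induction n with
  | zero => intro x x' _ _; exact ⟨QuadraticMap.IsometryEquiv.refl Q, fun i => i.elim0⟩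
  | succ n ih =>
    intro x x' h1 h2
    obtain ⟨φ, hφ⟩ := ih (fun i => x i.castSucc) (fun i => x' i.castSucc) (fun i => h1 _) (fun i j => h2 _ _)
    by_cases hy : φ (x (Fin.last n)) = x' (Fin.last n)
    · exact ⟨φ, fun i => Fin.lastCases hy hφ i⟩
    · set y := φ (x (Fin.last n)) with hydef
      set y' := x' (Fin.last n) with hy'def
      have hz : Q (y - y') ≠ 0 := by
        intro h
        exact hy (sub_eq_zero.mp (hQ _ h))
      have hQy : Q y = Q y' := by
        rw [hydef, QuadraticMap.IsometryEquiv.map_app, h1]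
      have e1 : QuadraticMap.polar Q y (y - y') = Q (y - y') := by
        have : Q (y - y') = Q y + Q y' - QuadraticMap.polar Q y y' := by
          rw [sub_eq_add_neg, QuadraticMap.map_add Q, QuadraticMap.map_neg, QuadraticMap.polar_neg_right]
          ring
        rw [this, QuadraticMap.polar_sub_right, polar_self', ← hQy]
        ring
      refine ⟨φ.trans (refl Q (y - y') hz), fun i => ?_⟩
      show refl Q (y - y') hz (φ (x i)) = x' i
      rw [refl_apply]
      refine Fin.lastCases ?_ (fun j => ?_) i
      · rw [← hydef, e1, inv_mul_cancel₀ hz, one_smul, sub_sub_cancel]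
      · rw [hφ j]
        have : QuadraticMap.polar Q (x' j.castSucc) (y - y') = 0 := by
          rw [QuadraticMap.polar_sub_right, ← hφ j, hydef, polar_map, h2, hφ j, sub_self]
        rw [this, mul_zero, zero_smul, sub_zero]

end

/-- Let V be a finite-dimensional vector space over a finite field F carrying an anisotropic quadratic form Q (Q(v) = 0 only for v = 0). Then the group of all maps v ↦ φ(v) + c, with φ an isometry of Q and c ∈ V, acts on V as a binary permutation group: given n ≥ 2 and two n-tuples u, u' of vectors such that every pair of corresponding entries of u is carried to that of u' by such a map, one such map carries u to u'. -/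
theorem result {F V : Type*} [Field F] [Finite F] [AddCommGroup V] [Module F V] [Module.Finite F V]
    (Q : QuadraticForm F V) (hQ : Q.Anisotropic) (n : ℕ) (hn : 2 ≤ n) (u u' : Fin n → V)
    (h2 : ∀ i j : Fin n, i ≠ j → ∃ (φ : Q.IsometryEquiv Q) (c : V), φ (u i) + c = u' i ∧ φ (u j) + c = u' j) :
    ∃ (φ : Q.IsometryEquiv Q) (c : V), ∀ i, φ (u i) + c = u' i := by
  have hdist : ∀ i j, Q (u i - u j) = Q (u' i - u' j) := by
    intro i j
    by_cases hij : i = j
    · subst hij; simp
    · obtain ⟨φ, c, h1, h2⟩ := h2 i j hij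
      have : u' i - u' j = φ (u i - u j) := by
        rw [← h1, ← h2, add_sub_add_right_eq_sub]
        exact (map_sub φ.toLinearEquiv _ _).symm
      rw [this, QuadraticMap.IsometryEquiv.map_app]
  let i0 : Fin n := ⟨0, by omega⟩
  have hpol : ∀ i j, QuadraticMap.polar Q (u i - u i0) (u j - u i0) =
      QuadraticMap.polar Q (u' i - u' i0) (u' j - u' i0) := by
    have key : ∀ v : Fin n → V, ∀ i j, QuadraticMap.polar Q (v i - v i0) (v j - v i0) =
        Q (v i - v i0) + Q (v j - v i0) - Q (v i - v j) := by
      intro v i j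
      have : v i - v j = (v i - v i0) + -(v j - v i0) := by abel
      rw [this, QuadraticMap.map_add Q, QuadraticMap.map_neg, QuadraticMap.polar_neg_right]
      ring
    intro i j
    rw [key u, key u', hdist, hdist, hdist]
  obtain ⟨φ, hφ⟩ := exists_isometry Q hQ n (fun i => u i - u i0) (fun i => u' i - u' i0)
    (fun i => hdist _ _) hpol
  refine ⟨φ, u' i0 - φ (u i0), fun i => ?_⟩
  have h := hφ i
  have h' : φ (u i - u i0) = φ (u i) - φ (u i0) := map_sub φ.toLinearEquiv _ _
  simp only [h'] at h
  rw [← sub_add_cancel (u' i) (u' i0), ← h]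
  abel

end Cfsg.Agent.S5754
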