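import Cfsg.Statements.S5763
import Mathlib.GroupTheory.Sylow
import Mathlib.Data.ZMod.Basic
import Mathlib.Data.Fin.VecNotation
import Mathlib.Tactic.FinCases
import Mathlib.Algebra.CharP.Two
import Mathlib.Tactic.Ring
import Mathlib.Tactic.Group

set_option autoImplicit false
open Cfsg

namespace Cfsg.Agent.S5763

theorem pa (f : Equiv.Perm (Fin 8)) (w : Fin 8) : f (f⁻¹ w) = w := f.apply_symm_apply w

theorem pi' (f : Equiv.Perm (Fin 8)) (w : Fin 8) : f⁻¹ (f w) = w := f.symm_apply_apply w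

/-- the standard matching on 8 points -/
def mf : Fin 8 → Fin 8 := ![1, 0, 3, 2, 5, 4, 7, 6]

def m0 : Equiv.Perm (Fin 8) where
  toFun := mf
  invFun := mf
  left_inv := by decide
  right_inv := by decide

def b0 : Fin 8 → ZMod 2 := ![0, 0, 0, 0, 1, 1, 1, 1]

set_option maxRecDepth 100000 in
set_option synthInstance.maxSize 100000 in
set_option synthInstance.maxHeartbeats 0 in
set_option maxHeartbeats 0 in
theorem key : ∀ a0 : Fin 8, a0 ≠ 0 → a0 ≠ 1 →
    ∀ a1 : Fin 8, a1 ≠ 1 → (a1 = 0 ↔ a0 = 1) → a1 ≠ 0 →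
    ∀ a2 : Fin 8, a2 ≠ 2 → a2 ≠ 3 → (a2 = 0 ↔ a0 = 2) → (a2 = 1 ↔ a1 = 2) →
    ∀ a3 : Fin 8, a3 ≠ 3 → a3 ≠ 2 → (a3 = 0 ↔ a0 = 3) → (a3 = 1 ↔ a1 = 3) → (a3 = 2 ↔ a2 = 3) →
    ∀ a4 : Fin 8, a4 ≠ 4 → a4 ≠ 5 → (a4 = 0 ↔ a0 = 4) → (a4 = 1 ↔ a1 = 4) → (a4 = 2 ↔ a2 = 4) → (a4 = 3 ↔ a3 = 4) →
    ∀ a5 : Fin 8, a5 ≠ 5 → a5 ≠ 4 → (a5 = 0 ↔ a0 = 5) → (a5 = 1 ↔ a1 = 5) → (a5 = 2 ↔ a2 = 5) → (a5 = 3 ↔ a3 = 5) → (a5 = 4 ↔ a4 = 5) →
    ∀ a6 : Fin 8, a6 ≠ 6 → a6 ≠ 7 → (a6 = 0 ↔ a0 = 6) → (a6 = 1 ↔ a1 = 6) → (a6 = 2 ↔ a2 = 6) → (a6 = 3 ↔ a3 = 6) → (a6 = 4 ↔ a4 = 6) → (a6 = 5 ↔ a5 = 6) →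
    ∀ a7 : Fin 8, a7 ≠ 7 → a7 ≠ 6 → (a7 = 0 ↔ a0 = 7) → (a7 = 1 ↔ a1 = 7) → (a7 = 2 ↔ a2 = 7) → (a7 = 3 ↔ a3 = 7) → (a7 = 4 ↔ a4 = 7) → (a7 = 5 ↔ a5 = 7) → (a7 = 6 ↔ a6 = 7) →
    (∀ w : Fin 8, mf (![a0, a1, a2, a3, a4, a5, a6, a7] (mf (![a0, a1, a2, a3, a4, a5, a6, a7] (mf (![a0, a1, a2, a3, a4, a5, a6, a7] (mf (![a0, a1, a2, a3, a4, a5, a6, a7] w))))))) = w) ∧
    ((∀ w : Fin 8, mf (![a0, a1, a2, a3, a4, a5, a6, a7] (mf (![a0, a1, a2, a3, a4, a5, a6, a7] w))) ≠ w) ∨
     (∀ w : Fin 8, mf (![a0, a1, a2, a3, a4, a5, a6, a7] (mf (![a0, a1, a2, a3, a4, a5, a6, a7] w))) = w)) := by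
  decide

theorem m0_sq : m0 * m0 = 1 := by decide

theorem m0_apply (w : Fin 8) : m0 w = mf w := rfl

theorem m0_ne (w : Fin 8) : m0 w ≠ w := by revert w; decide

theorem b0_m0 (w : Fin 8) : b0 (m0 w) = b0 w := by revert w; decide

theorem b0_card (c : ZMod 2) : (Finset.univ.filter (fun w => b0 w = c)).card = 4 := by
  revert c; decide

/-- the key facts about `t = m0 m'` -/
theorem key' (m : Equiv.Perm (Fin 8)) (hm2 : ∀ w, m (m w) = w) (hm : ∀ w, m w ≠ w) (hmm : ∀ w, m w ≠ m0 w) :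
    (∀ w, m0 (m (m0 (m (m0 (m (m0 (m w))))))) = w) ∧
      ((∀ w, m0 (m (m0 (m w))) ≠ w) ∨ (∀ w, m0 (m (m0 (m w))) = w)) := by
  have hs : ∀ i j : Fin 8, (m i = j ↔ m j = i) := by
    intro i j
    constructor
    · intro h; rw [← h, hm2]
    · intro h; rw [← h, hm2]
  have hf : ∀ w, m w = (![m 0, m 1, m 2, m 3, m 4, m 5, m 6, m 7] : Fin 8 → Fin 8) w := by
    intro w; fin_cases w <;> rfl
  have h := key (m 0) (hm 0) (hmm 0) (m 1) (hm 1) (hs _ _) (hmm 1)
    (m 2) (hm 2) (hmm 2) (hs _ _) (hs _ _)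
    (m 3) (hm 3) (hmm 3) (hs _ _) (hs _ _) (hs _ _)
    (m 4) (hm 4) (hmm 4) (hs _ _) (hs _ _) (hs _ _) (hs _ _)
    (m 5) (hm 5) (hmm 5) (hs _ _) (hs _ _) (hs _ _) (hs _ _) (hs _ _)
    (m 6) (hm 6) (hmm 6) (hs _ _) (hs _ _) (hs _ _) (hs _ _) (hs _ _) (hs _ _)
    (m 7) (hm 7) (hmm 7) (hs _ _) (hs _ _) (hs _ _) (hs _ _) (hs _ _) (hs _ _) (hs _ _)
  simp only [← hf] at h
  exact h

/-- the tree stabiliser -/
def ts (m : Equiv.Perm (Fin 8)) (β : Fin 8 → ZMod 2) : Subgroup (Equiv.Perm (Fin 8)) where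
  carrier := {h | h * m = m * h ∧ ∃ c : ZMod 2, ∀ w, β (h w) = β w + c}
  one_mem' := ⟨by simp, 0, by simp⟩
  mul_mem' := by
    rintro h k ⟨h1, c, h2⟩ ⟨k1, d, k2⟩
    refine ⟨by rw [mul_assoc, k1, ← mul_assoc, h1, mul_assoc], d + c, fun w => ?_⟩
    rw [Equiv.Perm.mul_apply, h2, k2, add_assoc]
  inv_mem' := by
    rintro h ⟨h1, c, h2⟩
    refine ⟨?_, -c, fun w => ?_⟩
    · rw [inv_mul_eq_iff_eq_mul, ← mul_assoc, h1, mul_assoc, mul_inv_cancel, mul_one]
    · have := h2 (h⁻¹ w)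
      rw [pa] at this
      rw [this]; ring

theorem mem_ts {m : Equiv.Perm (Fin 8)} {β : Fin 8 → ZMod 2} {h : Equiv.Perm (Fin 8)} :
    h ∈ ts m β ↔ h * m = m * h ∧ ∃ c : ZMod 2, ∀ w, β (h w) = β w + c := Iff.rfl

theorem blk : ∀ x y z : Fin 8, b0 y = b0 x → b0 z = b0 x → y ≠ x → y ≠ mf x → z ≠ y → z ≠ mf y → (z = x ∨ z = mf x) := by
  decide

theorem ts_pow {h : Equiv.Perm (Fin 8)} (hh : h ∈ ts m0 b0) : h ^ 8 = 1 := by
  obtain ⟨h1, c, h2⟩ := hh
  set k := h * h with hk
  have hkb : ∀ w, b0 (k w) = b0 w := by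
    intro w
    rw [hk, Equiv.Perm.mul_apply, h2, h2]
    have : c + c = 0 := CharTwo.add_self_eq_zero c
    rw [add_assoc, this, add_zero]
  have hkm : ∀ w, k (m0 w) = m0 (k w) := by
    intro w
    have : k * m0 = m0 * k := by
      rw [hk, mul_assoc, h1, ← mul_assoc, h1, mul_assoc]
    exact DFunLike.congr_fun this w
  have hk2 : ∀ w, k (k w) = w ∨ k (k w) = m0 w := by
    intro w
    by_cases ha : k w = w
    · left; rw [ha, ha]
    by_cases hb : k w = m0 w
    · left; rw [hb, hkm, hb]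
      exact DFunLike.congr_fun m0_sq w
    apply blk w (k w) (k (k w)) (hkb w) (by rw [hkb, hkb]) ha hb
    · intro hcon; exact ha (k.injective hcon)
    · intro hcon
      have : k (k w) = k (m0 w) := by rw [hkm]; exact hcon
      exact hb (k.injective this)
  have hk4 : ∀ w, k (k (k (k w))) = w := by
    intro w
    rcases hk2 w with e | e
    · rw [e, e]
    · rw [e, hkm, hkm, e]
      exact DFunLike.congr_fun m0_sq w
  have : h ^ 8 = k * k * k * k := by rw [hk]; simp only [pow_succ, pow_zero, one_mul, mul_assoc]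
  rw [this]
  ext w
  simp only [Equiv.Perm.mul_apply, Equiv.Perm.one_apply]
  rw [hk4]

/-- involutions commuting with `m` and moving every pair preserve balanced partitions -/
theorem balanced {m : Equiv.Perm (Fin 8)} {β : Fin 8 → ZMod 2}
    (hm : ∀ w, m w ≠ w) (hβm : ∀ w, β (m w) = β w)
    (hβ : ∀ c, (Finset.univ.filter (fun w => β w = c)).card = 4)
    {y : Equiv.Perm (Fin 8)} (hy2 : ∀ w, y (y w) = w) (hym : ∀ w, y (m w) = m (y w))
    (hy : ∀ w, y w ≠ w) (hy' : ∀ w, y w ≠ m w) (hm2 : ∀ w, m (m w) = w) :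
    ∃ c : ZMod 2, ∀ w, β (y w) = β w + c := by
  have h2 : ∀ a b : ZMod 2, a = b ∨ a = b + 1 := by decide
  by_cases hex : ∃ w1, β (y w1) = β w1
  · obtain ⟨w1, hw1⟩ := hex
    refine ⟨0, fun w => ?_⟩
    rw [add_zero]
    set B := Finset.univ.filter (fun w => β w = β w1) with hB
    have hsub : ({w1, m w1, y w1, m (y w1)} : Finset (Fin 8)) ⊆ B := by
      intro v hv
      simp only [Finset.mem_insert, Finset.mem_singleton] at hv
      rw [hB, Finset.mem_filter]
      refine ⟨Finset.mem_univ _, ?_⟩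
      rcases hv with rfl | rfl | rfl | rfl
      · rfl
      · exact hβm _
      · exact hw1
      · rw [hβm]; exact hw1
    have hcard : ({w1, m w1, y w1, m (y w1)} : Finset (Fin 8)).card = 4 := by
      rw [Finset.card_insert_of_notMem, Finset.card_insert_of_notMem, Finset.card_insert_of_notMem, Finset.card_singleton]
      · rw [Finset.mem_singleton]; exact fun h => hm _ h.symm
      · simp only [Finset.mem_insert, Finset.mem_singleton, not_or]
        refine ⟨fun h => hy' _ h.symm, fun h => hy _ (m.injective h).symm⟩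
      · simp only [Finset.mem_insert, Finset.mem_singleton, not_or]
        refine ⟨fun h => hm _ h.symm, fun h => hy _ h.symm, fun h => hy' w1 ?_⟩
        have : m w1 = m (m (y w1)) := by rw [← h]
        rw [hm2] at this
        exact this.symm
    have heq : ({w1, m w1, y w1, m (y w1)} : Finset (Fin 8)) = B :=
      Finset.eq_of_subset_of_card_le hsub (by rw [hβ, hcard])
    -- B is y-invariant
    have hinv : ∀ v, v ∈ B → y v ∈ B := by
      intro v hv
      rw [← heq] at hv ⊢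
      simp only [Finset.mem_insert, Finset.mem_singleton] at hv ⊢
      rcases hv with rfl | rfl | rfl | rfl
      · tauto
      · rw [hym]; tauto
      · rw [hy2]; tauto
      · rw [hym, hy2]; tauto
    have hinv' : ∀ v, v ∈ B ↔ y v ∈ B := fun v => ⟨hinv v, fun h => by have := hinv _ h; rwa [hy2] at this⟩
    have hw := hinv' w
    simp only [hB, Finset.mem_filter, Finset.mem_univ, true_and] at hw
    rcases h2 (β w) (β w1) with e | e
    · rw [hw.mp e, e]
    · rcases h2 (β (y w)) (β w1) with e' | e'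
      · rw [e', hw.mpr e']
      · rw [e, e']
  · push Not at hex
    refine ⟨1, fun w => ?_⟩
    rcases h2 (β (y w)) (β w) with e | e
    · exact absurd e (hex w)
    · exact e

/-- main combinatorial statement -/
theorem main (m : Equiv.Perm (Fin 8)) (β : Fin 8 → ZMod 2) (hm2 : ∀ w, m (m w) = w)
    (hm : ∀ w, m w ≠ w) (hβm : ∀ w, β (m w) = β w)
    (hβ : ∀ c, (Finset.univ.filter (fun w => β w = c)).card = 4) :
    ∃ y : Equiv.Perm (Fin 8), y ≠ 1 ∧ y ∈ ts m0 b0 ∧ y ∈ ts m β := by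
  have m02 : ∀ w, m0 (m0 w) = w := fun w => DFunLike.congr_fun m0_sq w
  by_cases hex : ∃ a, m a = m0 a
  · obtain ⟨a, ha⟩ := hex
    have aux : ∀ (n : Equiv.Perm (Fin 8)) (γ : Fin 8 → ZMod 2), (∀ w, n (n w) = w) → (∀ w, γ (n w) = γ w) →
        Equiv.swap a (n a) ∈ ts n γ := by
      intro n γ hn hγ
      refine ⟨?_, 0, fun w => ?_⟩
      · have h1 : n * Equiv.swap a (n a) * n⁻¹ = Equiv.swap a (n a) := by
          rw [← Equiv.swap_apply_apply, hn, Equiv.swap_comm]
        rw [mul_inv_eq_iff_eq_mul] at h1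
        exact h1.symm
      · rw [add_zero, Equiv.swap_apply_def]
        split_ifs with e1 e2
        · rw [e1, hγ]
        · rw [e2, hγ]
        · rfl
    refine ⟨Equiv.swap a (m0 a), ?_, aux m0 b0 m02 b0_m0, ?_⟩
    · rw [Ne, Equiv.swap_eq_one_iff]
      exact fun h => m0_ne _ h.symm
    · rw [← ha]
      exact aux m β hm2 hβm
  · push Not at hex
    obtain ⟨k4, kk⟩ := key' m hm2 hm hex
    rcases kk with k2 | k2
    · -- `t² ` has no fixed points
      refine ⟨m0 * m * m0 * m, ?_, ?_, ?_⟩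
      · intro hcon
        exact k2 0 (DFunLike.congr_fun hcon 0)
      · rw [mem_ts]
        have hc : ∀ w, (m0 * m * m0 * m) (m0 w) = m0 ((m0 * m * m0 * m) w) := by
          intro w
          simp only [Equiv.Perm.mul_apply]
          apply m0.injective
          rw [m02, m02]
          -- m m0 m m0 w = m0 m m0 m w
          have := k4 (m (m0 (m (m0 w))))
          rw [hm2, m02, hm2, m02] at this
          exact this.symm
        refine ⟨Equiv.ext hc, ?_⟩
        refine balanced m0_ne b0_m0 b0_card (y := m0 * m * m0 * m) ?_ hc k2 ?_ m02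
        · intro w; exact k4 w
        · intro w h
          simp only [Equiv.Perm.mul_apply] at h
          have h1 := m0.injective h
          have h2 : m (m (m0 (m w))) = m w := by rw [h1]
          rw [hm2] at h2
          exact m0_ne _ h2
      · rw [mem_ts]
        have hc : ∀ w, (m0 * m * m0 * m) (m w) = m ((m0 * m * m0 * m) w) := by
          intro w
          simp only [Equiv.Perm.mul_apply]
          rw [hm2]
          -- m0 m m0 w = m m0 m m0 m w
          have := k4 (m (m0 (m (m0 (m w)))))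
          rw [hm2, m02, hm2, m02, hm2] at this
          exact this
        refine ⟨Equiv.ext hc, ?_⟩
        refine balanced hm hβm hβ (y := m0 * m * m0 * m) ?_ hc k2 ?_ hm2
        · intro w; exact k4 w
        · intro w h
          simp only [Equiv.Perm.mul_apply] at h
          -- m0 m m0 (m w) = m w, u = m w : m m0 u = m0 u
          have h1 : m0 (m0 (m (m0 (m w)))) = m0 (m w) := by rw [h]
          rw [m02] at h1
          exact hm _ h1
    · refine ⟨m0 * m, ?_, ?_, ?_⟩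
      · intro hcon
        have h1 : m0 (m 0) = 0 := DFunLike.congr_fun hcon 0
        have h2 : m0 (m0 (m 0)) = m0 0 := by rw [h1]
        rw [m02] at h2
        exact hex 0 h2
      · rw [mem_ts]
        have hc : ∀ w, (m0 * m) (m0 w) = m0 ((m0 * m) w) := by
          intro w
          simp only [Equiv.Perm.mul_apply]
          rw [m02]
          have := k2 (m0 (m w))
          -- m0 m m0 m (m w)... 
          have h1 := k2 (m w)
          rw [hm2] at h1
          exact h1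
        refine ⟨Equiv.ext hc, ?_⟩
        refine balanced m0_ne b0_m0 b0_card (y := m0 * m) ?_ hc ?_ ?_ m02
        · intro w; exact k2 w
        · intro w h
          simp only [Equiv.Perm.mul_apply] at h
          have h2 : m0 (m0 (m w)) = m0 w := by rw [h]
          rw [m02] at h2
          exact hex w h2
        · intro w h
          simp only [Equiv.Perm.mul_apply] at h
          exact hm _ (m0.injective h)
      · rw [mem_ts]
        have hc : ∀ w, (m0 * m) (m w) = m ((m0 * m) w) := by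
          intro w
          simp only [Equiv.Perm.mul_apply]
          rw [hm2]
          have h1 := k2 w
          have h2 : m0 (m0 (m (m0 (m w)))) = m0 w := by rw [h1]
          rw [m02] at h2
          exact h2.symm
        refine ⟨Equiv.ext hc, ?_⟩
        refine balanced hm hβm hβ (y := m0 * m) ?_ hc ?_ ?_ hm2
        · intro w; exact k2 w
        · intro w h
          simp only [Equiv.Perm.mul_apply] at h
          have h2 : m0 (m0 (m w)) = m0 w := by rw [h]
          rw [m02] at h2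
          exact hex w h2
        · intro w h
          simp only [Equiv.Perm.mul_apply] at h
          exact m0_ne _ h


/-- In the symmetric group on 8 letters any two Sylow 2-subgroups have non-trivial intersection: for a Sylow 2-subgroup H and every element x, H ∩ xHx⁻¹ ≠ 1. -/
theorem result (H : Sylow 2 (Equiv.Perm (Fin 8))) (x : Equiv.Perm (Fin 8)) :
    (H : Subgroup (Equiv.Perm (Fin 8))) ⊓ (H : Subgroup (Equiv.Perm (Fin 8))).map (MulAut.conj x).toMonoidHom ≠ ⊥ := by
  classical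
  -- a Sylow subgroup above the tree stabiliser
  have hp : IsPGroup 2 (ts m0 b0) := by
    intro g
    refine ⟨3, ?_⟩
    ext1
    have := ts_pow g.2
    simpa using this
  obtain ⟨Q, hQ⟩ := hp.exists_le_sylow
  obtain ⟨a, ha⟩ := MulAction.exists_smul_eq (Equiv.Perm (Fin 8)) Q H
  have haH : ∀ k, k ∈ ts m0 b0 → a * k * a⁻¹ ∈ H := by
    intro k hk
    rw [← ha]
    have : a * k * a⁻¹ ∈ (a • Q : Sylow 2 (Equiv.Perm (Fin 8))).toSubgroup := by
      rw [Sylow.coe_subgroup_smul]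
      exact ⟨k, hQ hk, rfl⟩
    exact this
  set b := a⁻¹ * x * a with hb
  obtain ⟨y, hy1, hy2, hy3⟩ := main (b * m0 * b⁻¹) (fun w => b0 (b⁻¹ w))
    (by intro w; simp only [Equiv.Perm.mul_apply, pi']
        rw [show m0 (m0 (b⁻¹ w)) = b⁻¹ w from DFunLike.congr_fun m0_sq _, pa])
    (by intro w h; simp only [Equiv.Perm.mul_apply] at h
        have : m0 (b⁻¹ w) = b⁻¹ w := by
          apply b.injective; rw [h, pa]
        exact m0_ne _ this)
    (by intro w; simp only [Equiv.Perm.mul_apply, pi']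
        exact b0_m0 _)
    (by intro c
        rw [← b0_card c]
        refine Finset.card_bij (fun w _ => b⁻¹ w) ?_ ?_ ?_
        · intro w hw; simpa using hw
        · intro w _ w' _ h; exact b⁻¹.injective h
        · intro w hw
          refine ⟨b w, ?_, by simp⟩
          simpa using hw)
  intro hbot
  have hmem : a * y * a⁻¹ ∈ (H : Subgroup (Equiv.Perm (Fin 8))) ⊓ (H : Subgroup (Equiv.Perm (Fin 8))).map (MulAut.conj x).toMonoidHom := by
    refine ⟨haH y hy2, ?_⟩
    have hby : b⁻¹ * y * b ∈ ts m0 b0 := by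
      obtain ⟨h1, c, h2⟩ := hy3
      refine ⟨?_, c, fun w => ?_⟩
      · calc b⁻¹ * y * b * m0 = b⁻¹ * (y * (b * m0 * b⁻¹)) * b := by group
          _ = b⁻¹ * (b * m0 * b⁻¹ * y) * b := by rw [h1]
          _ = m0 * (b⁻¹ * y * b) := by group
      · have := h2 (b w)
        simpa using this
    refine ⟨a * (b⁻¹ * y * b) * a⁻¹, haH _ hby, ?_⟩
    simp only [MulEquiv.coe_toMonoidHom, MulAut.conj_apply]
    rw [hb]; group
  rw [hbot, Subgroup.mem_bot] at hmem
  apply hy1
  have : y = a⁻¹ * (a * y * a⁻¹) * a := by group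
  rw [this, hmem]; group

end Cfsg.Agent.S5763
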