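import Cfsg.Statements.S5883
import Cfsg.Agent.H50F23.Der

set_option autoImplicit false
open Cfsg

namespace Cfsg.Agent.S5883

/-- The constant 10 in the statement that H⁽¹⁰⁾ is perfect for every maximal subgroup H of a finite almost simple group cannot be lowered to 9: there exist a finite almost simple group G (with a non-abelian simple normal subgroup of trivial centralizer) and a maximal subgroup H of G whose ninth derived subgroup H⁽⁹⁾ is not perfect, i.e. H⁽¹⁰⁾ ≠ H⁽⁹⁾. (A solvable maximal subgroup of derived length 10 in the Fischer group Fi₂₃ is such an example.) -/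
theorem result :
    ∃ (G : Type) (_ : Group G) (_ : Finite G) (S H : Subgroup G), S.Normal ∧ IsSimpleGroup S ∧ ¬ IsMulCommutative S ∧
      Subgroup.centralizer (S : Set G) = ⊥ ∧ IsCoatom H ∧ derivedSeries H 10 ≠ derivedSeries H 9 := by
  have hU := Cfsg.Agent.CosetEnum.Fi23.gS_univ
  have hs : IsSimpleGroup Spor.Fi23 := Cfsg.Agent.CosetEnum.Fi23.fi23_simple
  have hfin : Finite Spor.Fi23 := Cfsg.Agent.CosetEnum.Fi23.fi23_finite
  have hc : Subgroup.center Spor.Fi23 = ⊥ := Cfsg.Agent.CosetEnum.Fi23.center_bot hU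
  obtain ⟨A, T, F⟩ := Cfsg.Agent.H50F23.exists_FA hU
  refine ⟨Spor.Fi23, inferInstance, hfin, ⊤, Cfsg.Agent.H50F23.Hs Spor.Fi23, inferInstance, ?_, ?_, ?_,
    Cfsg.Agent.H50F23.isCoatom F hU, Cfsg.Agent.H50F23.main hU F⟩
  · exact Cfsg.Agent.CosetEnum.simple_equiv Subgroup.topEquiv.symm hs
  · intro h
    have h1 : Subgroup.center Spor.Fi23 = ⊤ := by
      rw [eq_top_iff]
      intro x _
      rw [Subgroup.mem_center_iff]
      intro y
      have h2 := h.is_comm.comm (⟨y, trivial⟩ : (⊤ : Subgroup Spor.Fi23)) ⟨x, trivial⟩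
      exact congrArg Subtype.val h2
    rw [hc] at h1
    exact bot_ne_top h1
  · rw [Subgroup.coe_top, Subgroup.centralizer_univ, hc]

end Cfsg.Agent.S5883
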