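import Cfsg.Statements.S5885


set_option autoImplicit false
open Cfsg

namespace Cfsg.Agent.S5885

open MulAction Equiv Pointwise

theorem isCoatom_subgroupOf_of {G : Type*} [Group G] {H K : Subgroup G} (hHK : H ≤ K) (hne : H ≠ K)
    (h : ∀ L : Subgroup G, H < L → L ≤ K → L = K) : IsCoatom (H.subgroupOf K) := by
  constructor
  · intro h1
    rw [Subgroup.subgroupOf_eq_top] at h1
    exact hne (le_antisymm hHK h1)
  · intro Y hY
    have h1 : H < Y.map K.subtype := by
      refine lt_of_le_of_ne ?_ ?_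
      · intro x hx
        exact ⟨⟨x, hHK hx⟩, hY.le hx, rfl⟩
      · intro heq
        apply hY.not_ge
        intro y hy
        change (y : G) ∈ H
        rw [heq]
        exact ⟨y, hy, rfl⟩
    have h2 := h _ h1 (Subgroup.map_subtype_le Y)
    rw [eq_top_iff]
    rintro ⟨g, hg⟩ -
    have hg' : g ∈ Y.map K.subtype := by rw [h2]; exact hg
    obtain ⟨y, hy, hyg⟩ := hg'
    have : y = ⟨g, hg⟩ := Subtype.ext hyg
    rw [← this]; exact hy

theorem eq_or_eq_of_isCoatom {G : Type*} [Group G] {H M Y : Subgroup G} (hmax : IsCoatom (H.subgroupOf M))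
    (hHY : H ≤ Y) (hYM : Y ≤ M) : Y = H ∨ Y = M := by
  by_cases h : Y ≤ H
  · exact Or.inl (le_antisymm h hHY)
  · right
    have h1 : H.subgroupOf M < Y.subgroupOf M := by
      refine lt_of_le_of_ne (Subgroup.comap_mono hHY) ?_
      intro heq
      apply h
      intro y hy
      have : (⟨y, hYM hy⟩ : M) ∈ Y.subgroupOf M := hy
      rw [← heq] at this
      exact this
    have h2 := hmax.2 _ h1
    rw [Subgroup.subgroupOf_eq_top] at h2
    exact le_antisymm hYM h2

/-- Main combinatorial step: `G` acts on `Ω` inducing every 3-cycle, `o ∈ Ω`, the order of `Ω` is odd. -/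
theorem core_step {G Ω : Type*} [Group G] [MulAction G Ω] [Finite Ω] [IsPretransitive G Ω] (o : Ω)
    (hodd : Odd (Nat.card Ω))
    (h3 : ∀ x y z : Ω, x ≠ y → x ≠ z → y ≠ z → ∃ g : G, g • x = y ∧ g • y = z ∧ g • z = x ∧
      ∀ w, w ≠ x → w ≠ y → w ≠ z → g • w = w)
    (H K L : Subgroup G) (hH : K ⊓ stabilizer G o = H) (hmax : IsCoatom (H.subgroupOf (stabilizer G o)))
    (hK : IsCoatom K) (hHL : H < L) (hLK : L ≤ K) : L = K := by
  classical
  have hstab : ∀ k ∈ K, k • o = o → k ∈ L := by
    intro k hk hko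
    apply hHL.le
    rw [← hH]
    exact ⟨hk, hko⟩
  -- it suffices to show that `L` is transitive on the `K`-orbit of `o`
  suffices hsuf : ∀ k ∈ K, ∃ l ∈ L, l • o = k • o by
    refine le_antisymm hLK fun k hk => ?_
    obtain ⟨l, hl, hlk⟩ := hsuf k hk
    have h1 : l⁻¹ * k ∈ L := by
      apply hstab _ (K.mul_mem (K.inv_mem (hLK hl)) hk)
      rw [mul_smul, ← hlk, inv_smul_smul]
    have h2 := L.mul_mem hl h1
    rwa [mul_inv_cancel_left] at h2
  obtain ⟨l₀, hl₀, hl₀o⟩ : ∃ l ∈ L, l • o ≠ o := by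
    obtain ⟨l, hl, hlH⟩ := SetLike.exists_of_lt hHL
    refine ⟨l, hl, fun h => hlH ?_⟩
    rw [← hH]
    exact ⟨hLK hl, h⟩
  -- elements of `G` mapping `o` to the same place as an element of `L`
  have hstab' : ∀ k ∈ K, ∀ l ∈ L, k • o = l • o → k ∈ L := by
    intro k hk l hl hkl
    have h1 : l⁻¹ * k ∈ L := by
      apply hstab _ (K.mul_mem (K.inv_mem (hLK hl)) hk)
      rw [mul_smul, hkl, inv_smul_smul]
    have h2 := L.mul_mem hl h1
    rwa [mul_inv_cancel_left] at h2
  by_cases htr : ∀ x : Ω, ∃ k ∈ K, k • o = x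
  · -- `K` transitive
    by_contra hcon
    push Not at hcon
    obtain ⟨k₀, hk₀, hk₀'⟩ := hcon
    let B : Set Ω := orbit L o
    have hmemB : ∀ x, x ∈ B ↔ ∃ l ∈ L, l • o = x := by
      intro x
      constructor
      · rintro ⟨l, rfl⟩; exact ⟨l, l.2, rfl⟩
      · rintro ⟨l, hl, rfl⟩; exact ⟨⟨l, hl⟩, rfl⟩
    have hoB : o ∈ B := (hmemB o).mpr ⟨1, L.one_mem, one_smul _ _⟩
    have hl₀B : l₀ • o ∈ B := (hmemB _).mpr ⟨l₀, hl₀, rfl⟩
    have hk₀B : k₀ • o ∉ B := by
      rw [hmemB]
      rintro ⟨l, hl, h⟩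
      exact hk₀' l hl h
    -- block property
    have hblock : ∀ k ∈ K, ∀ x ∈ B, k • x ∈ B → k ∈ L := by
      intro k hk x hx hkx
      obtain ⟨l, hl, rfl⟩ := (hmemB x).mp hx
      obtain ⟨l', hl', h⟩ := (hmemB _).mp hkx
      rw [← mul_smul] at h
      have h1 := hstab' (k * l) (K.mul_mem hk (hLK hl)) l' hl' h.symm
      have h2 := L.mul_mem h1 (L.inv_mem hl)
      rwa [mul_inv_cancel_right] at h2
    have hLB : ∀ l ∈ L, l • B = B := by
      intro l hl
      exact smul_orbit (⟨l, hl⟩ : L) o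
    -- the second block
    let B' : Set Ω := k₀ • B
    have hdisj : ∀ x ∈ B, x ∉ B' := by
      intro x hx hx'
      obtain ⟨y, hy, hyx⟩ := Set.mem_smul_set.mp hx'
      have h1 := hblock k₀ hk₀ y hy (hyx ▸ hx)
      exact hk₀B ((hmemB _).mpr ⟨k₀, h1, rfl⟩)
    -- a point outside
    obtain ⟨v, hvB, hvB'⟩ : ∃ v, v ∉ B ∧ v ∉ B' := by
      by_contra hcon
      push Not at hcon
      have hcompl : B' = Bᶜ := by
        ext x
        constructor
        · intro h1 h2; exact hdisj x h2 h1
        · intro h1; exact hcon x h1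
      have h1 : B'.ncard = B.ncard := Set.ncard_smul_set k₀ B
      have h2 := Set.ncard_add_ncard_compl B
      rw [← hcompl, h1] at h2
      rw [← h2] at hodd
      exact (Nat.not_odd_iff_even.mpr ⟨B.ncard, rfl⟩) hodd
    -- the intermediate subgroup
    let Y : Subgroup G := stabilizer G o ⊓ stabilizer G B
    have hHY : H ≤ Y := by
      intro h hh
      refine ⟨?_, hLB h (hHL.le hh)⟩
      rw [← hH] at hh
      exact hh.2
    rcases eq_or_eq_of_isCoatom hmax hHY inf_le_left with hY | hY
    · -- `Y = H`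
      have hu : k₀ • o ∈ B' := Set.smul_mem_smul_set hoB
      have hu' : k₀ • (l₀ • o) ∈ B' := Set.smul_mem_smul_set hl₀B
      have huu' : k₀ • o ≠ k₀ • (l₀ • o) := fun h => hl₀o (smul_left_cancel k₀ h).symm
      have huv : k₀ • o ≠ v := fun h => hvB' (h ▸ hu)
      have hu'v : k₀ • (l₀ • o) ≠ v := fun h => hvB' (h ▸ hu')
      obtain ⟨g, hg1, hg2, hg3, hg4⟩ := h3 _ _ v huu' huv hu'v
      have hfix : ∀ x ∈ B, g • x = x := by
        intro x hx
        apply hg4
        · rintro rfl; exact hdisj _ hx hu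
        · rintro rfl; exact hdisj _ hx hu'
        · rintro rfl; exact hvB hx
      have hgY : g ∈ Y := by
        refine ⟨hfix o hoB, ?_⟩
        change g ∈ stabilizer G B
        rw [mem_stabilizer_set_iff_smul_set_subset (Set.toFinite B)]
        rintro _ ⟨x, hx, rfl⟩
        change g • x ∈ B
        rw [hfix x hx]; exact hx
      have hgK : g ∈ K := by
        rw [hY, ← hH] at hgY
        exact hgY.1
      -- `k₀⁻¹ g k₀` maps `o` to `l₀ o`, so it lies in `L`, but it moves `l₀ o` out of `B`
      have hk : k₀⁻¹ * g * k₀ ∈ L := by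
        apply hblock _ (K.mul_mem (K.mul_mem (K.inv_mem hk₀) hgK) hk₀) o hoB
        rw [mul_smul, mul_smul, hg1, inv_smul_smul]
        exact hl₀B
      have h5 : (k₀⁻¹ * g * k₀) • (l₀ • o) ∈ B := by
        rw [← hLB _ hk]
        exact Set.smul_mem_smul_set hl₀B
      rw [mul_smul, mul_smul, hg2] at h5
      exact hvB' (Set.mem_smul_set.mpr ⟨_, h5, smul_inv_smul _ _⟩)
    · -- `Y = M`
      have h1 : l₀ • o ≠ o := hl₀o
      have h2 : l₀ • o ≠ k₀ • o := fun h => hk₀B (h ▸ hl₀B)
      have h4 : l₀ • o ≠ v := fun h => hvB (h ▸ hl₀B)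
      have h5 : k₀ • o ≠ v := fun h => hvB' (h ▸ Set.smul_mem_smul_set hoB)
      obtain ⟨g, hg1, hg2, hg3, hg4⟩ := h3 (l₀ • o) (k₀ • o) v h2 h4 h5
      have hgo : g • o = o := hg4 o hl₀o.symm (fun h => hk₀B (h ▸ hoB)) (fun h => hvB (h ▸ hoB))
      have hgY : g ∈ Y := by rw [hY]; exact hgo
      have hgB : g • B = B := hgY.2
      have h6 : g • (l₀ • o) ∈ B := by
        rw [← hgB]; exact Set.smul_mem_smul_set hl₀B
      rw [hg1] at h6
      exact hk₀B h6
  · -- `K` intransitive: it is the stabilizer of the orbit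
    push Not at htr
    obtain ⟨x₁, hx₁⟩ := htr
    let D : Set Ω := orbit K o
    have hmemD : ∀ x, x ∈ D ↔ ∃ k ∈ K, k • o = x := by
      intro x
      constructor
      · rintro ⟨l, rfl⟩; exact ⟨l, l.2, rfl⟩
      · rintro ⟨l, hl, rfl⟩; exact ⟨⟨l, hl⟩, rfl⟩
    have hoD : o ∈ D := (hmemD o).mpr ⟨1, K.one_mem, one_smul _ _⟩
    have hKD : K = stabilizer G D := by
      have hle : K ≤ stabilizer G D := by
        intro k hk
        exact smul_orbit (⟨k, hk⟩ : K) o
      refine (hK.le_iff.mp hle).resolve_left ?_ |>.symm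
      intro htop
      obtain ⟨g, hg⟩ := exists_smul_eq G o x₁
      have h1 : g • D = D := by
        have : g ∈ stabilizer G D := by rw [htop]; exact Subgroup.mem_top _
        exact this
      have h2 : g • o ∈ D := by rw [← h1]; exact Set.smul_mem_smul_set hoD
      rw [hg, hmemD] at h2
      obtain ⟨k, hk, hkx⟩ := h2
      exact hx₁ k hk hkx
    intro k hk
    by_cases h1 : k • o = o
    · exact ⟨1, L.one_mem, by rw [one_smul, h1]⟩
    by_cases h2 : k • o = l₀ • o
    · exact ⟨l₀, hl₀, h2.symm⟩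
    obtain ⟨g, hg1, hg2, hg3, hg4⟩ := h3 o (l₀ • o) (k • o) hl₀o.symm (fun h => h1 h.symm) (fun h => h2 h.symm)
    have hl₀D : l₀ • o ∈ D := (hmemD _).mpr ⟨l₀, hLK hl₀, rfl⟩
    have hkD : k • o ∈ D := (hmemD _).mpr ⟨k, hk, rfl⟩
    have hgK : g ∈ K := by
      rw [hKD, mem_stabilizer_set_iff_smul_set_subset (Set.toFinite D)]
      rintro _ ⟨x, hx, rfl⟩
      change g • x ∈ D
      by_cases e1 : x = o
      · rw [e1, hg1]; exact hl₀D
      by_cases e2 : x = l₀ • o
      · rw [e2, hg2]; exact hkD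
      by_cases e3 : x = k • o
      · rw [e3, hg3]; exact hoD
      rw [hg4 x e1 e2 e3]; exact hx
    have hgL : g ∈ L := hstab' g hgK l₀ hl₀ hg1
    refine ⟨g * l₀, L.mul_mem hgL hl₀, ?_⟩
    rw [mul_smul, hg2]

/-- Let n be an odd positive integer such that every primitive permutation group of degree n contains the alternating group (so the symmetric and alternating groups are the only primitive groups of degree n). Let G be a finite group, M a maximal subgroup of G of index n, and H a maximal subgroup of M. Then H is a second maximal subgroup of G: H is maximal in every maximal subgroup K of G containing H. -/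
theorem result {G : Type*} [Group G]
    [Finite G] (n : ℕ) (hodd : Odd n)
    (hA : ∀ P : Subgroup (Equiv.Perm (Fin n)), MulAction.IsPreprimitive P (Fin n) → alternatingGroup (Fin n) ≤ P)
    (M : Subgroup G) (hM : IsCoatom M) (hn : M.index = n) (H : Subgroup G) (hHM : H ≤ M)
    (hmax : IsCoatom (H.subgroupOf M)) (K : Subgroup G) (hK : IsCoatom K) (hHK : H ≤ K) :
    IsCoatom (H.subgroupOf K) := by
  classical
  by_cases hKM : K = M
  · rw [hKM]; exact hmax
  -- `K ⊓ M = H`
  have hinf : K ⊓ M = H := by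
    rcases eq_or_eq_of_isCoatom hmax (le_inf hHK hHM) inf_le_right with h | h
    · exact h
    · exfalso
      have h1 : M ≤ K := inf_eq_right.mp h
      rcases hM.le_iff.mp h1 with h2 | h2
      · exact hK.1 h2
      · exact hKM h2
  have hne : H ≠ K := by
    intro h
    have h1 : K ≤ M := h ▸ hHM
    rcases hK.le_iff.mp h1 with h2 | h2
    · exact hM.1 h2
    · exact hKM h2.symm
  refine isCoatom_subgroupOf_of hHK hne fun L hHL hLK => ?_
  -- `L` is not contained in `M`
  have hLM : ¬ L ≤ M := fun h => hHL.not_ge (hinf ▸ le_inf hLK h)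
  by_cases hcore : M.normalCore ≤ K
  · -- use the action on the cosets of `M`
    have hstab : MulAction.stabilizer G ((1 : G) : G ⧸ M) = M := MulAction.stabilizer_quotient M
    have hnt : Nontrivial (G ⧸ M) := QuotientGroup.nontrivial_iff.mpr hM.1
    have hcardn : Nat.card (G ⧸ M) = n := hn
    have hprim : MulAction.IsPreprimitive G (G ⧸ M) := by
      rw [← MulAction.isCoatom_stabilizer_iff_preprimitive (G := G) ((1 : G) : G ⧸ M), hstab]
      exact hM
    let e : G ⧸ M ≃ Fin n := (Finite.equivFinOfCardEq hcardn)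
    let ρ : G →* Equiv.Perm (Fin n) := (Equiv.permCongrHom e).toMonoidHom.comp (MulAction.toPermHom G (G ⧸ M))
    have hρ : ∀ g x, ρ g (e x) = e (g • x) := by
      intro g x
      change e (g • (e.symm (e x))) = _
      rw [Equiv.symm_apply_apply]
    have hP : MulAction.IsPreprimitive ρ.range (Fin n) := by
      let f : (G ⧸ M) →ₑ[ρ.rangeRestrict] Fin n :=
        { toFun := e
          map_smul' := fun g x => (hρ g x).symm }
      exact MulAction.IsPreprimitive.of_surjective (f := f) e.surjective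
    have hAlt := hA ρ.range hP
    refine core_step (Ω := G ⧸ M) ((1 : G) : G ⧸ M) (by rw [hcardn]; exact hodd) ?_ H K L (by rw [hstab]; exact hinf)
      (by rw [hstab]; exact hmax) hK hHL hLK
    intro x y z hxy hxz hyz
    have hc : (Equiv.swap (e y) (e x) * Equiv.swap (e y) (e z) : Equiv.Perm (Fin n)) ∈ alternatingGroup (Fin n) :=
      (Equiv.Perm.isThreeCycle_swap_mul_swap_same (e.injective.ne hxy.symm) (e.injective.ne hyz)
        (e.injective.ne hxz)).mem_alternatingGroup
    obtain ⟨g, hg⟩ := hAlt hc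
    have hact : ∀ w, e (g • w) = (Equiv.swap (e y) (e x) * Equiv.swap (e y) (e z)) (e w) := by
      intro w
      rw [← hρ, hg]
    refine ⟨g, ?_, ?_, ?_, ?_⟩
    · apply e.injective
      rw [hact, Equiv.Perm.mul_apply, Equiv.swap_apply_of_ne_of_ne (e.injective.ne hxy) (e.injective.ne hxz),
        Equiv.swap_apply_right]
    · apply e.injective
      rw [hact, Equiv.Perm.mul_apply, Equiv.swap_apply_left,
        Equiv.swap_apply_of_ne_of_ne (e.injective.ne hyz.symm) (e.injective.ne hxz.symm)]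
    · apply e.injective
      rw [hact, Equiv.Perm.mul_apply, Equiv.swap_apply_right, Equiv.swap_apply_left]
    · intro w hwx hwy hwz
      apply e.injective
      rw [hact, Equiv.Perm.mul_apply, Equiv.swap_apply_of_ne_of_ne (e.injective.ne hwy) (e.injective.ne hwz),
        Equiv.swap_apply_of_ne_of_ne (e.injective.ne hwy) (e.injective.ne hwx)]
  · -- the core supplements everything
    have hNM : M.normalCore ≤ M := Subgroup.normalCore_le M
    have hHN : H ⊔ M.normalCore = M := by
      rcases eq_or_eq_of_isCoatom hmax (Y := H ⊔ M.normalCore) le_sup_left (sup_le hHM hNM) with h | h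
      · exfalso
        apply hcore
        have h1 : M.normalCore ≤ H := by rw [← h]; exact le_sup_right
        exact h1.trans hHK
      · exact h
    have hLN : L ⊔ M.normalCore = ⊤ := by
      have h1 : M ≤ L ⊔ M.normalCore := by
        calc M = H ⊔ M.normalCore := hHN.symm
          _ ≤ L ⊔ M.normalCore := sup_le_sup_right hHL.le _
      rcases hM.le_iff.mp h1 with h2 | h2
      · exact h2
      · exact absurd (h2 ▸ le_sup_left) hLM
    refine le_antisymm hLK fun k hk => ?_
    have hk' : k ∈ L ⊔ M.normalCore := by rw [hLN]; exact Subgroup.mem_top _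
    obtain ⟨l, hl, m, hm, rfl⟩ := Subgroup.mem_sup_of_normal_right.mp hk'
    have h1 : m ∈ K := by
      have := K.mul_mem (K.inv_mem (hLK hl)) hk
      rwa [inv_mul_cancel_left] at this
    have h2 : m ∈ H := by rw [← hinf]; exact ⟨h1, hNM hm⟩
    exact L.mul_mem hl (hHL.le h2)

end Cfsg.Agent.S5885
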