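import Cfsg.Statements.S5891
import Cfsg.Agent.Dk.PglList
-- import your own Cfsg.Agent.* helpers here

set_option autoImplicit false
open Cfsg

namespace Cfsg.Agent.S5891

/-- Let F be a finite field of odd order q > 3 and characteristic p, and let M be a maximal subgroup of PGL₂(F) not containing the image L of SL₂(F) (a copy of PSL₂(F) of index 2). Then one of the following holds: |M| = q(q − 1) (M is the stabiliser of a point of the projective line); q ≠ 5 and M is dihedral of order 2(q − 1); M is dihedral of order 2(q + 1); q = p ≡ ±3 (mod 8) and M ≅ S₄; or q = q₀^r for an odd prime r and M ≅ PGL₂(F₀) with |F₀| = q₀. -/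
theorem result {F : Type*} [Field F] [Fintype F]
    (hodd : Odd (Fintype.card F)) (h3 : 3 < Fintype.card F) (M : Subgroup (Matrix.ProjGenLinGroup (Fin 2) F)) (hM : IsCoatom M)
    (hML : ¬ (Matrix.ProjGenLinGroup.mk.comp Matrix.SpecialLinearGroup.toGL).range ≤ M) :
    Nat.card M = Fintype.card F * (Fintype.card F - 1) ∨
    (Fintype.card F ≠ 5 ∧ Nonempty (M ≃* DihedralGroup (Fintype.card F - 1))) ∨
    Nonempty (M ≃* DihedralGroup (Fintype.card F + 1)) ∨
    ((Fintype.card F).Prime ∧ (Fintype.card F % 8 = 3 ∨ Fintype.card F % 8 = 5) ∧ Nonempty (M ≃* Equiv.Perm (Fin 4))) ∨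
    (∃ (F₀ : Type) (_ : Field F₀) (_ : Fintype F₀) (r : ℕ), r.Prime ∧ Odd r ∧ Fintype.card F = Fintype.card F₀ ^ r ∧
        Nonempty (M ≃* Matrix.ProjGenLinGroup (Fin 2) F₀)) := by
  have hML' : ¬ Dk.PSLr F ≤ M := hML
  have ho : Odd (Nat.card F) := by rw [Nat.card_eq_fintype_card]; exact hodd
  have h3' : 3 < Nat.card F := by rw [Nat.card_eq_fintype_card]; exact h3
  obtain ⟨p, hp, hc⟩ := Dk.exists_char (F := F)
  have : Fact p.Prime := ⟨hp⟩
  have : CharP (AlgebraicClosure F) p :=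
    charP_of_injective_algebraMap (algebraMap F (AlgebraicClosure F)).injective p
  letI := Dk.pact F (AlgebraicClosure F)
  have hfin : Finite (Matrix.ProjGenLinGroup (Fin 2) F) := Dk.finite_pgl
  rw [← Nat.card_eq_fintype_card (α := F)]
  rcases Dk.coatoms_pgl (p := p) (K := AlgebraicClosure F) ho h3' hM hML' with
    ⟨z, -, -, h⟩ | ⟨h5, z, w, h1, h2, ⟨s, hs1, hs2⟩, -, -, h6⟩ |
    ⟨z, w, h1, h2, ⟨s, hs1, hs2⟩, -, h6⟩ | ⟨h5, h6, h7⟩ | ⟨g, K1, r, hr, hr2, h4, h5⟩
  · exact Or.inl h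
  · right; left
    refine ⟨h5, ?_⟩
    rw [h2, ← h6]
    exact ((Dk.mobF (p := p) (F := F) (K := AlgebraicClosure F)).DS_dihedral h1 hs1 hs2).1
  · right; right; left
    rw [h2, ← h6]
    exact ((Dk.mobF (p := p) (F := F) (K := AlgebraicClosure F)).DS_dihedral h1 hs1 hs2).1
  · right; right; right; left
    rw [h5]
    exact ⟨hp, h6, h7⟩
  · right; right; right; right
    obtain ⟨k, _, _, ⟨e⟩, hk⟩ := Dk.exists_type_copy K1
    have hk' : Fintype.card k = Nat.card K1 := hk
    exact ⟨k, inferInstance, inferInstance, r, hr, hr2, by rw [hk', h4], Dk.pgl_equiv_of_cj' h5 e⟩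

end Cfsg.Agent.S5891
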