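import Cfsg.Statements.S5894
import Cfsg.Agent.SymMax.Partition

set_option autoImplicit false
open Cfsg

namespace Cfsg.Agent.S5894

open MulAction Equiv Pointwise in
/-- The point stabilizer in `Perm Ω` of the set `S`, seen in the stabilizer of a point `o ∈ S`, corresponds to the
set stabilizer of `S ∖ {o}` in the symmetric group on the remaining points. -/
theorem coatom_aux {Ω : Type*} [Finite Ω] [DecidableEq Ω] (o : Ω) (S : Set Ω) (hoS : o ∈ S)
    (h1 : ∃ x ∈ S, x ≠ o) (h2 : ∃ x, x ∉ S) (h3 : Nat.card Ω ≠ 2 * S.ncard - 1) :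
    IsCoatom ((stabilizer (Perm Ω) o ⊓ stabilizer (Perm Ω) S).subgroupOf (stabilizer (Perm Ω) o)) := by
  classical
  have := Fintype.ofFinite Ω
  let φ : Perm {x // x ≠ o} →* stabilizer (Perm Ω) o :=
    (Perm.ofSubtype (p := fun x => x ≠ o)).codRestrict (stabilizer (Perm Ω) o) (fun g => by
      rw [mem_stabilizer_iff]
      exact Perm.ofSubtype_apply_of_not_mem g (by simp))
  have hφv : ∀ g, (φ g : Perm Ω) = Perm.ofSubtype g := fun g => rfl
  have hφ : Function.Bijective φ := by
    constructor
    · intro g h hgh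
      exact Perm.ofSubtype_injective (congrArg Subtype.val hgh)
    · rintro ⟨g, hg⟩
      have hg' : g o = o := hg
      have hp : ∀ x, g x ≠ o ↔ x ≠ o := fun x => by
        rw [not_iff_not]
        constructor
        · intro h; exact g.injective (h.trans hg'.symm)
        · rintro rfl; exact hg'
      refine ⟨g.subtypePerm hp, Subtype.ext ?_⟩
      rw [hφv]
      exact Perm.ofSubtype_subtypePerm hp (fun x hx => by rintro rfl; exact hx hg')
  let e : Perm {x // x ≠ o} ≃* stabilizer (Perm Ω) o := MulEquiv.ofBijective φ hφ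
  let S' : Set {x // x ≠ o} := {x | (x : Ω) ∈ S}
  have hS' : S'.ncard + 1 = S.ncard := by
    have h : Subtype.val '' S' = S \ {o} := by
      ext x
      constructor
      · rintro ⟨y, hy, rfl⟩; exact ⟨hy, y.2⟩
      · rintro ⟨hx, hxo⟩; exact ⟨⟨x, hxo⟩, hx, rfl⟩
    rw [← Set.ncard_image_of_injective S' Subtype.val_injective, h,
      Set.ncard_sdiff_singleton_add_one hoS]
  have hco : IsCoatom (stabilizer (Perm {x // x ≠ o}) S') := by
    apply Perm.isCoatom_stabilizer
    · obtain ⟨x, hx, hxo⟩ := h1
      exact ⟨⟨x, hxo⟩, hx⟩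
    · obtain ⟨x, hx⟩ := h2
      exact ⟨⟨x, fun h => hx (h ▸ hoS)⟩, hx⟩
    · have : Nat.card {x // x ≠ o} + 1 = Nat.card Ω := by
        rw [Nat.card_eq_fintype_card, Nat.card_eq_fintype_card, Fintype.card_subtype_compl,
          Fintype.card_subtype_eq]
        have : 0 < Fintype.card Ω := Fintype.card_pos_iff.mpr ⟨o⟩
        omega
      omega
  have hmap : e.mapSubgroup (stabilizer (Perm {x // x ≠ o}) S') =
      (stabilizer (Perm Ω) o ⊓ stabilizer (Perm Ω) S).subgroupOf (stabilizer (Perm Ω) o) := by
    ext g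
    constructor
    · rintro ⟨k, hk, rfl⟩
      refine ⟨(e k).2, ?_⟩
      change (φ k : Perm Ω) ∈ stabilizer (Perm Ω) S
      rw [mem_stabilizer_set_iff_smul_set_subset (Set.toFinite S)]
      rintro _ ⟨x, hx, rfl⟩
      change (φ k : Perm Ω) x ∈ S
      rw [hφv]
      by_cases hxo : x = o
      · rw [Perm.ofSubtype_apply_of_not_mem k (by simp [hxo])]; exact hx
      · rw [Perm.ofSubtype_apply_of_mem k hxo]
        have h4 : k • (⟨x, hxo⟩ : {x // x ≠ o}) ∈ k • S' := Set.smul_mem_smul_set (show _ ∈ S' from hx)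
        rw [mem_stabilizer_iff.mp hk] at h4
        exact h4
    · rintro ⟨_, hg2⟩
      obtain ⟨k, rfl⟩ := e.surjective g
      refine ⟨k, ?_, rfl⟩
      rw [SetLike.mem_coe, mem_stabilizer_set_iff_smul_set_subset (Set.toFinite S')]
      rintro _ ⟨x, hx, rfl⟩
      change (k x : Ω) ∈ S
      have h4 : (e k : Perm Ω) • (x : Ω) ∈ (e k : Perm Ω) • S := Set.smul_mem_smul_set hx
      have hg3 : (e k : Perm Ω) • S = S := hg2
      rw [hg3] at h4
      have h5 : (e k : Perm Ω) • (x : Ω) = (k x : Ω) := by
        change (φ k : Perm Ω) x = _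
        rw [hφv, Perm.ofSubtype_apply_coe]
      rwa [h5] at h4
  rw [← hmap]
  exact (OrderIso.isCoatom_iff e.mapSubgroup _).mpr hco

open Pointwise in
theorem main (m : ℕ) (hm : 2 ≤ m) :
    ∃ M H K : Subgroup (Equiv.Perm (Fin (2 * m))), IsCoatom M ∧ M.index = 2 * m ∧ H ≤ M ∧ IsCoatom (H.subgroupOf M) ∧
      IsCoatom K ∧ H ≤ K ∧ ¬ IsCoatom (H.subgroupOf K) := by
  classical
  let o : Fin (2 * m) := ⟨0, by omega⟩
  let p1 : Fin (2 * m) := ⟨1, by omega⟩
  let pm : Fin (2 * m) := ⟨m, by omega⟩
  let f : Fin (2 * m) → Bool := fun x => decide ((x : ℕ) < m)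
  let S : Set (Fin (2 * m)) := {x | (x : ℕ) < m}
  have hfS : ∀ x, f x = true ↔ x ∈ S := fun x => by simp [f, S]
  have hf : ∀ x : Fin (2 * m), Nat.card {y : Fin (2 * m) // f y = f x} = m := by
    have h0 : Nat.card {y : Fin (2 * m) // (y : ℕ) < m} = m := by
      rw [Nat.card_eq_fintype_card]
      let e : {y : Fin (2 * m) // (y : ℕ) < m} ≃ Fin m :=
        { toFun := fun y => ⟨y.1, y.2⟩
          invFun := fun y => ⟨⟨y.1, by omega⟩, y.2⟩
          left_inv := fun y => rfl
          right_inv := fun y => rfl }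
      rw [Fintype.card_congr e, Fintype.card_fin]
    have h1 : Nat.card {y : Fin (2 * m) // ¬ (y : ℕ) < m} = m := by
      rw [Nat.card_eq_fintype_card, Fintype.card_subtype_compl, ← Nat.card_eq_fintype_card,
        ← Nat.card_eq_fintype_card, h0, Nat.card_eq_fintype_card, Fintype.card_fin]
      omega
    intro x
    by_cases hx : (x : ℕ) < m
    · have : f x = true := by simp [f, hx]
      rw [this]
      simpa [f] using h0
    · have : f x = false := by simp only [f, decide_eq_false_iff_not]; exact hx
      rw [this]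
      simpa only [f, decide_eq_false_iff_not] using h1
  have hScard : S.ncard = m := by
    have := hf o
    rw [← Nat.card_coe_set_eq]
    have h : f o = true := by simp only [f, o, decide_eq_true_eq]; omega
    rw [h] at this
    have h2 : {y : Fin (2 * m) // f y = true} = {y // y ∈ S} := by
      congr 1; funext y; rw [hfS]
    rw [h2] at this
    exact this
  have hoS : o ∈ S := by change 0 < m; omega
  have hpS : p1 ∈ S := by change 1 < m; omega
  have hmS : pm ∉ S := by change ¬ m < m; omega
  have hop : o ≠ p1 := by simp [o, p1]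
  have hcard : Nat.card (Fin (2 * m)) = 2 * m := by rw [Nat.card_eq_fintype_card, Fintype.card_fin]
  have : Nontrivial (Fin (2 * m)) := ⟨o, p1, hop⟩
  have hSK : MulAction.stabilizer (Equiv.Perm (Fin (2 * m))) S ≤ SymMax.partStab f := by
    intro g hg x y
    have h : ∀ x, f (g x) = f x := by
      intro x
      have h1 : g x ∈ S ↔ x ∈ S := by
        have h2 : g • x ∈ g • S ↔ x ∈ S := Set.smul_mem_smul_set_iff
        rw [MulAction.mem_stabilizer_iff.mp hg] at h2
        exact h2
      rw [Bool.eq_iff_iff, hfS, hfS, h1]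
    rw [h, h]
  refine ⟨MulAction.stabilizer _ o, MulAction.stabilizer _ o ⊓ MulAction.stabilizer _ S, SymMax.partStab f,
    MulAction.IsPreprimitive.isCoatom_stabilizer_of_isPreprimitive _ o, ?_, inf_le_left, ?_, ?_,
    inf_le_right.trans hSK, ?_⟩
  · rw [MulAction.index_stabilizer_of_transitive, hcard]
  · exact coatom_aux o S hoS ⟨p1, hpS, hop.symm⟩ ⟨pm, hmS⟩ (by rw [hcard, hScard]; omega)
  · exact SymMax.isCoatom_partStab hm hf ⟨o, pm, by
      rw [(hfS o).mpr hoS]
      intro h
      exact hmS ((hfS pm).mp h.symm)⟩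
  · intro hco
    have hneop : f o ≠ f pm := by
      rw [(hfS o).mpr hoS]
      intro h
      exact hmS ((hfS pm).mp h.symm)
    -- the intermediate subgroup
    have hlt : (MulAction.stabilizer (Equiv.Perm (Fin (2 * m))) o ⊓ MulAction.stabilizer _ S).subgroupOf
        (SymMax.partStab f) < (MulAction.stabilizer (Equiv.Perm (Fin (2 * m))) S).subgroupOf
        (SymMax.partStab f) := by
      refine lt_of_le_of_ne (Subgroup.comap_mono inf_le_right) ?_
      intro h
      have hs : Equiv.swap o p1 ∈ MulAction.stabilizer (Equiv.Perm (Fin (2 * m))) S := by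
        rw [MulAction.mem_stabilizer_set_iff_smul_set_subset (Set.toFinite S)]
        rintro _ ⟨x, hx, rfl⟩
        change Equiv.swap o p1 x ∈ S
        rw [Equiv.swap_apply_def]
        split_ifs
        · exact hpS
        · exact hoS
        · exact hx
      have hs2 : (⟨Equiv.swap o p1, hSK hs⟩ : SymMax.partStab f) ∈
          (MulAction.stabilizer (Equiv.Perm (Fin (2 * m))) S).subgroupOf (SymMax.partStab f) := hs
      rw [← h] at hs2
      have h6 : Equiv.swap o p1 o = o := hs2.1
      rw [Equiv.swap_apply_left] at h6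
      exact hop h6.symm
    have htop := hco.2 _ hlt
    obtain ⟨g, hg, hgo, _⟩ := SymMax.exists_swap_fibres hf hneop
    have hgS : (⟨g, hg⟩ : SymMax.partStab f) ∈
          (MulAction.stabilizer (Equiv.Perm (Fin (2 * m))) S).subgroupOf (SymMax.partStab f) := by
      rw [htop]; exact Subgroup.mem_top _
    have hgS' : g • S = S := hgS
    have h7 : g • o ∈ g • S := Set.smul_mem_smul_set hoS
    rw [hgS'] at h7
    have h8 : g • o = pm := hgo
    rw [h8] at h7
    exact hmS h7

/-- For every m ≥ 2 the symmetric group on 2m letters has a maximal subgroup M of index 2m together with a maximal subgroup H of M that is not second maximal: some maximal subgroup K of the symmetric group contains H without H being maximal in K. (One may take M the stabiliser of a letter, H ≅ S_m × S_{m−1} inside it, and K ≅ S_m ≀ S₂ the stabiliser of a partition into two m-sets, with H < S_m × S_m < K.) So the prime-index hypothesis in the second-maximality criterion cannot be relaxed to any even index ≥ 4. -/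
theorem result (m : ℕ) (hm : 2 ≤ m) :
    ∃ M H K : Subgroup (Equiv.Perm (Fin (2 * m))), IsCoatom M ∧ M.index = 2 * m ∧ H ≤ M ∧ IsCoatom (H.subgroupOf M) ∧
      IsCoatom K ∧ H ≤ K ∧ ¬ IsCoatom (H.subgroupOf K) := by
  exact main m hm

end Cfsg.Agent.S5894
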