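import Cfsg.Statements.S5895


set_option autoImplicit false
open Cfsg

namespace Cfsg.Agent.S5895

open Multiplicative SemidirectProduct

/-- multiplication action of a group of units on the additive group of a field -/
def act (F : Type) [Field F] (M : Subgroup Fˣ) : M →* MulAut (Multiplicative F) where
  toFun m :=
    { toFun := fun x => ofAdd (((m : Fˣ) : F) * toAdd x)
      invFun := fun x => ofAdd (((m⁻¹ : M) : Fˣ) * toAdd x)
      left_inv := fun x => by simp
      right_inv := fun x => by simp
      map_mul' := fun x y => by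
        rw [toAdd_mul, mul_add, ofAdd_add] }
  map_one' := by ext x; simp
  map_mul' a b := by ext x; simp [mul_assoc]

/-- no proper nontrivial additive subgroup is invariant -/
def Irred (F : Type) [Field F] (M : Subgroup Fˣ) : Prop :=
  ∀ W : AddSubgroup F, (∀ m ∈ M, ∀ w ∈ W, (m : F) * w ∈ W) → W = ⊥ ∨ W = ⊤

theorem act_apply {F : Type} [Field F] {M : Subgroup Fˣ} (m : M) (x : Multiplicative F) :
    act F M m x = ofAdd (((m : Fˣ) : F) * toAdd x) := rfl

/-- the translations lying in a subgroup -/
def transl {F : Type} [Field F] {M : Subgroup Fˣ} (X : Subgroup (Multiplicative F ⋊[act F M] M)) :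
    AddSubgroup F where
  carrier := {x | inl (ofAdd x) ∈ X}
  zero_mem' := by
    change inl (ofAdd (0 : F)) ∈ X
    rw [ofAdd_zero, map_one]; exact X.one_mem
  add_mem' := by
    intro a b ha hb
    change inl (ofAdd (a + b)) ∈ X
    rw [ofAdd_add, map_mul]; exact X.mul_mem ha hb
  neg_mem' := by
    intro a ha
    change inl (ofAdd (-a)) ∈ X
    rw [ofAdd_neg, map_inv]; exact X.inv_mem ha

theorem main (p d : ℕ) (hp : p.Prime) (hd : 2 ≤ d) :
    ∃ (G : Type) (_ : Group G) (_ : Finite G) (M H K : Subgroup G), IsCoatom M ∧ M.index = p ^ d ∧ H ≤ M ∧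
      IsCoatom (H.subgroupOf M) ∧ IsCoatom K ∧ H ≤ K ∧ ¬ IsCoatom (H.subgroupOf K) := by
  classical
  have : Fact p.Prime := ⟨hp⟩
  let F := GaloisField p d
  have : Finite F := inferInstance
  have hcardF : Nat.card F = p ^ d := GaloisField.card p d (by omega)
  -- a minimal irreducible group of units
  have hirr : Irred F (⊤ : Subgroup Fˣ) := by
    intro W hW
    by_cases h : W = ⊥
    · exact Or.inl h
    · right
      obtain ⟨⟨w, hw⟩, hw0'⟩ := AddSubgroup.ne_bot_iff_exists_ne_zero.mp h
      have hw0 : w ≠ 0 := fun h => hw0' (Subtype.ext h)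
      rw [eq_top_iff]
      intro x _
      by_cases hx : x = 0
      · rw [hx]; exact W.zero_mem
      · have := hW (Units.mk0 x hx * (Units.mk0 w hw0)⁻¹) (Subgroup.mem_top _) w hw
        simpa [hw0] using this
  obtain ⟨M, hM, hmin⟩ := (wellFounded_lt (α := Subgroup Fˣ)).has_min {M | Irred F M} ⟨⊤, hirr⟩
  have hMbot : M ≠ ⊥ := by
    rintro rfl
    have hprime := hM (AddSubgroup.zmultiples (1 : F)) (by
      intro m hm w hw
      rw [Subgroup.mem_bot.mp hm]; simpa using hw)
    have hcard : Nat.card (AddSubgroup.zmultiples (1 : F)) = p := by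
      rw [Nat.card_zmultiples]
      exact CharP.eq F (CharP.addOrderOf_one F) inferInstance
    rcases hprime with h | h
    · rw [h, AddSubgroup.card_bot] at hcard
      exact hp.one_lt.ne hcard
    · rw [h, AddSubgroup.card_top, hcardF] at hcard
      have h1 : p ^ 1 < p ^ d := Nat.pow_lt_pow_right hp.one_lt (by omega)
      rw [pow_one] at h1
      omega
  have : Nontrivial M := (Subgroup.nontrivial_iff_ne_bot M).mpr hMbot
  obtain ⟨H', hH', _⟩ := (eq_top_or_exists_le_coatom (⊥ : Subgroup M)).resolve_left bot_ne_top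
  have hred : ¬ Irred F (H'.map M.subtype) := by
    intro h
    apply hmin _ h
    refine lt_of_le_of_ne (Subgroup.map_subtype_le H') ?_
    intro heq
    apply hH'.1
    rw [eq_top_iff]
    rintro ⟨m, hm⟩ -
    have hm' : m ∈ H'.map M.subtype := by rw [heq]; exact hm
    obtain ⟨m'', h1, h2⟩ := hm'
    have : m'' = ⟨m, hm⟩ := Subtype.ext h2
    rw [← this]; exact h1
  unfold Irred at hred
  push Not at hred
  obtain ⟨W, hWinv, hWbot, hWtop⟩ := hred
  let G := Multiplicative F ⋊[act F M] M
  have : Finite G := Finite.of_equiv _ (SemidirectProduct.equivProd (φ := act F M)).symm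
  let MG : Subgroup G := (inr : M →* G).range
  let HG : Subgroup G := H'.map (inr : M →* G)
  let KG : Subgroup G := H'.comap (rightHom : G →* M)
  -- overgroups of the complement
  have hMG : ∀ g : G, g ∈ MG ↔ g.left = 1 := by
    intro g
    constructor
    · rintro ⟨m, rfl⟩; rfl
    · intro h
      refine ⟨g.right, ?_⟩
      ext
      · rw [left_inr, h]
      · rw [right_inr]
  have hHG : ∀ g : G, g ∈ HG ↔ g.left = 1 ∧ g.right ∈ H' := by
    intro g
    constructor
    · rintro ⟨m, hm, rfl⟩; exact ⟨rfl, hm⟩
    · rintro ⟨h, h'⟩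
      refine ⟨g.right, h', ?_⟩
      ext
      · rw [left_inr, h]
      · rw [right_inr]
  have hcoM : IsCoatom MG := by
    constructor
    · intro h
      have h1 : (inl (ofAdd (1 : F)) : G) ∈ MG := h ▸ Subgroup.mem_top _
      rw [hMG, left_inl] at h1
      exact one_ne_zero (ofAdd.injective h1)
    · intro X hX
      have hMX : ∀ m : M, (inr m : G) ∈ X := fun m => hX.le ⟨m, rfl⟩
      have hinv : ∀ m ∈ M, ∀ w ∈ transl X, (m : F) * w ∈ transl X := by
        intro m hm w hw
        have h1 := inl_aut (φ := act F M) ⟨m, hm⟩ (ofAdd w)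
        have h2 : (inl (act F M ⟨m, hm⟩ (ofAdd w)) : G) ∈ X := by
          rw [h1]
          exact X.mul_mem (X.mul_mem (hMX _) hw) (by rw [map_inv]; exact X.inv_mem (hMX _))
        exact h2
      rcases hM (transl X) hinv with h | h
      · exfalso
        apply hX.not_ge
        intro g hg
        rw [hMG]
        have h1 : (inl g.left : G) ∈ X := by
          have h2 : (inl g.left : G) = g * (inr g.right)⁻¹ := by
            rw [eq_mul_inv_iff_mul_eq, inl_left_mul_inr_right]
          rw [h2]
          exact X.mul_mem hg (X.inv_mem (hMX _))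
        have h3 : toAdd g.left ∈ transl X := h1
        rw [h, AddSubgroup.mem_bot] at h3
        exact toAdd.injective h3
      · rw [eq_top_iff]
        intro g _
        have h1 : toAdd g.left ∈ transl X := by rw [h]; exact AddSubgroup.mem_top _
        have h2 : (inl g.left : G) ∈ X := h1
        rw [← inl_left_mul_inr_right g]
        exact X.mul_mem h2 (hMX _)
  -- the intermediate subgroup between `HG` and `KG`
  let LG : Subgroup G :=
    { carrier := {g | toAdd g.left ∈ W ∧ g.right ∈ H'}
      one_mem' := ⟨W.zero_mem, H'.one_mem⟩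
      mul_mem' := by
        rintro a b ⟨ha, ha'⟩ ⟨hb, hb'⟩
        refine ⟨?_, H'.mul_mem ha' hb'⟩
        rw [mul_left, toAdd_mul]
        refine W.add_mem ha ?_
        exact hWinv _ ⟨a.right, ha', rfl⟩ _ hb
      inv_mem' := by
        rintro a ⟨ha, ha'⟩
        refine ⟨?_, H'.inv_mem ha'⟩
        rw [inv_left]
        exact hWinv _ ⟨a.right⁻¹, H'.inv_mem ha', rfl⟩ _ (W.neg_mem ha) }
  refine ⟨G, inferInstance, inferInstance, MG, HG, KG, hcoM, ?_, ?_, ?_, ?_, ?_, ?_⟩
  · have h1 := MG.index_mul_card
    have h2 : Nat.card G = Nat.card (Multiplicative F) * Nat.card M := SemidirectProduct.card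
    have h3 : Nat.card MG = Nat.card M := Nat.card_congr (MonoidHom.ofInjective inr_injective).toEquiv.symm
    have h4 : Nat.card (Multiplicative F) = p ^ d := by rw [← hcardF]; exact Nat.card_congr toAdd
    rw [h2, h3, h4] at h1
    exact Nat.eq_of_mul_eq_mul_right Nat.card_pos h1
  · rintro g hg
    rw [hMG]; exact ((hHG g).mp hg).1
  · have h1 : HG.subgroupOf MG = (MonoidHom.ofInjective (f := (inr : M →* G)) inr_injective).mapSubgroup H' := by
      ext ⟨g, hg⟩
      obtain ⟨m, rfl⟩ := hg
      constructor
      · intro h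
        exact ⟨m, ((hHG _).mp h).2, rfl⟩
      · rintro ⟨m', hm', h⟩
        have : m' = m := inr_injective (congrArg Subtype.val h)
        rw [← this]
        exact (hHG _).mpr ⟨rfl, hm'⟩
    rw [h1]
    exact (OrderIso.isCoatom_iff _ _).mpr hH'
  · exact Subgroup.isCoatom_comap_of_surjective rightHom_surjective hH'
  · intro g hg
    exact ((hHG g).mp hg).2
  · intro hco
    have hlt : HG.subgroupOf KG < LG.subgroupOf KG := by
      refine lt_of_le_of_ne ?_ ?_
      · rintro ⟨g, hgK⟩ hg
        obtain ⟨h1, h2⟩ := (hHG g).mp hg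
        refine ⟨?_, h2⟩
        change toAdd g.left ∈ W
        rw [h1]; exact W.zero_mem
      · intro heq
        apply hWbot
        rw [eq_bot_iff]
        intro w hw
        have hK : (inl (ofAdd w) : G) ∈ KG := H'.one_mem
        have h1 : (⟨inl (ofAdd w), hK⟩ : KG) ∈ LG.subgroupOf KG := ⟨hw, H'.one_mem⟩
        rw [← heq] at h1
        have h2 := ((hHG _).mp h1).1
        exact ofAdd.injective h2
    have htop := hco.2 _ hlt
    apply hWtop
    rw [eq_top_iff]
    intro w _
    have hK : (inl (ofAdd w) : G) ∈ KG := H'.one_mem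
    have h1 : (⟨inl (ofAdd w), hK⟩ : KG) ∈ LG.subgroupOf KG := by rw [htop]; exact Subgroup.mem_top _
    exact h1.1

/-- For every prime p and every d ≥ 2 there is a finite group G with a maximal subgroup M of index p^d and a maximal subgroup H of M that is not second maximal in G: some maximal subgroup K of G contains H without H being maximal in K. (One may take G the affine group V ⋊ GL(V) of V = 𝔽_p^d, M = GL(V), H the stabiliser in M of a line W of V, and K = V ⋊ H, with H < W ⋊ H < K.) So the prime-index hypothesis in the second-maximality criterion cannot be relaxed to prime-power index. -/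
theorem result (p d : ℕ) (hp : p.Prime)
    (hd : 2 ≤ d) :
    ∃ (G : Type) (_ : Group G) (_ : Finite G) (M H K : Subgroup G), IsCoatom M ∧ M.index = p ^ d ∧ H ≤ M ∧
      IsCoatom (H.subgroupOf M) ∧ IsCoatom K ∧ H ≤ K ∧ ¬ IsCoatom (H.subgroupOf K) := by
  exact main p d hp hd

end Cfsg.Agent.S5895
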