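import Cfsg.Statements.S5896
import Mathlib.LinearAlgebra.Matrix.SpecialLinearGroup
import Mathlib.GroupTheory.Solvable
import Mathlib.Tactic

set_option autoImplicit false
set_option linter.style.haveILetI false
open Cfsg

namespace Cfsg.Agent.S5896

open Cfsg
open scoped MatrixGroups commutatorElement


section gen

variable {R : Type*} [CommRing R]

/-- upper elementary matrix -/
def U (x : R) : SL(2, R) := ⟨!![1, x; 0, 1], by simp [Matrix.det_fin_two]⟩

/-- lower elementary matrix -/
def L (x : R) : SL(2, R) := ⟨!![1, 0; x, 1], by simp [Matrix.det_fin_two]⟩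

/-- diagonal matrix -/
def Dg (u v : R) (h : u * v = 1) : SL(2, R) := ⟨!![u, 0; 0, v], by simp [Matrix.det_fin_two, h]⟩

theorem ext2 {A B : SL(2, R)} (h1 : A.1 0 0 = B.1 0 0) (h2 : A.1 0 1 = B.1 0 1) (h3 : A.1 1 0 = B.1 1 0)
    (h4 : A.1 1 1 = B.1 1 1) : A = B := by
  apply Subtype.ext
  ext i j
  fin_cases i <;> fin_cases j
  · exact h1
  · exact h2
  · exact h3
  · exact h4

theorem mul00 (A B : SL(2, R)) : (A * B).1 0 0 = A.1 0 0 * B.1 0 0 + A.1 0 1 * B.1 1 0 := by
  show (A.1 * B.1) 0 0 = _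
  rw [Matrix.mul_apply, Fin.sum_univ_two]

theorem mul01 (A B : SL(2, R)) : (A * B).1 0 1 = A.1 0 0 * B.1 0 1 + A.1 0 1 * B.1 1 1 := by
  show (A.1 * B.1) 0 1 = _
  rw [Matrix.mul_apply, Fin.sum_univ_two]

theorem mul10 (A B : SL(2, R)) : (A * B).1 1 0 = A.1 1 0 * B.1 0 0 + A.1 1 1 * B.1 1 0 := by
  show (A.1 * B.1) 1 0 = _
  rw [Matrix.mul_apply, Fin.sum_univ_two]

theorem mul11 (A B : SL(2, R)) : (A * B).1 1 1 = A.1 1 0 * B.1 0 1 + A.1 1 1 * B.1 1 1 := by
  show (A.1 * B.1) 1 1 = _
  rw [Matrix.mul_apply, Fin.sum_univ_two]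

@[simp] theorem U00 (x : R) : (U x).1 0 0 = 1 := rfl
@[simp] theorem U01 (x : R) : (U x).1 0 1 = x := rfl
@[simp] theorem U10 (x : R) : (U x).1 1 0 = 0 := rfl
@[simp] theorem U11 (x : R) : (U x).1 1 1 = 1 := rfl
@[simp] theorem L00 (x : R) : (L x).1 0 0 = 1 := rfl
@[simp] theorem L01 (x : R) : (L x).1 0 1 = 0 := rfl
@[simp] theorem L10 (x : R) : (L x).1 1 0 = x := rfl
@[simp] theorem L11 (x : R) : (L x).1 1 1 = 1 := rfl
@[simp] theorem D00 (u v : R) (h : u * v = 1) : (Dg u v h).1 0 0 = u := rfl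
@[simp] theorem D01 (u v : R) (h : u * v = 1) : (Dg u v h).1 0 1 = 0 := rfl
@[simp] theorem D10 (u v : R) (h : u * v = 1) : (Dg u v h).1 1 0 = 0 := rfl
@[simp] theorem D11 (u v : R) (h : u * v = 1) : (Dg u v h).1 1 1 = v := rfl

theorem inv00 (A : SL(2, R)) : (A⁻¹).1 0 0 = A.1 1 1 := by
  show (A⁻¹ : SL(2, R)).1 0 0 = _
  rw [Matrix.SpecialLinearGroup.SL2_inv_expl]
  rfl

theorem inv01 (A : SL(2, R)) : (A⁻¹).1 0 1 = - A.1 0 1 := by
  rw [Matrix.SpecialLinearGroup.SL2_inv_expl]
  rfl

theorem inv10 (A : SL(2, R)) : (A⁻¹).1 1 0 = - A.1 1 0 := by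
  rw [Matrix.SpecialLinearGroup.SL2_inv_expl]
  rfl

theorem inv11 (A : SL(2, R)) : (A⁻¹).1 1 1 = A.1 0 0 := by
  rw [Matrix.SpecialLinearGroup.SL2_inv_expl]
  rfl

theorem det2 (A : SL(2, R)) : A.1 0 0 * A.1 1 1 - A.1 0 1 * A.1 1 0 = 1 := by
  have := A.2
  rwa [Matrix.det_fin_two] at this

theorem U_add (x y : R) : U (x + y) = U x * U y := by
  apply ext2 <;> simp [mul00, mul01, mul10, mul11, add_comm]

theorem L_add (x y : R) : L (x + y) = L x * L y := by
  apply ext2 <;> simp [mul00, mul01, mul10, mul11]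

theorem L_nsmul (x : R) (j : ℕ) : L ((j : R) * x) = (L x) ^ j := by
  induction j with
  | zero =>
    rw [pow_zero]
    apply ext2 <;> simp
  | succ j ih =>
    rw [pow_succ, ← ih, ← L_add]
    congr 1
    push_cast
    ring

/-- decomposition of a matrix with invertible lower left entry -/
theorem decomp (A : SL(2, R)) (v : R) (h : A.1 1 0 * v = 1) :
    A = U ((A.1 0 0 - 1) * v) * L (A.1 1 0) * U ((A.1 1 1 - 1) * v) := by
  have hd := det2 A
  apply ext2
  · simp only [mul00, mul01, mul10, mul11, U00, U01, U10, U11, L00, L01, L10, L11]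
    linear_combination (-(A.1 0 0 - 1)) * h
  · simp only [mul00, mul01, mul10, mul11, U00, U01, U10, U11, L00, L01, L10, L11]
    linear_combination (-(A.1 0 1) - (A.1 0 0 - 1) * (A.1 1 1 - 1) * v) * h - v * hd
  · simp only [mul00, mul01, mul10, mul11, U00, U01, U10, U11, L00, L01, L10, L11]
    ring
  · simp only [mul00, mul01, mul10, mul11, U00, U01, U10, U11, L00, L01, L10, L11]
    linear_combination (-(A.1 1 1 - 1)) * h

/-- generation, when one entry of the first column (or the sum) is invertible -/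
theorem gen (hR : ∀ a c b d : R, a * d - b * c = 1 → IsUnit c ∨ IsUnit (a + c)) (K : Subgroup SL(2, R))
    (hU : ∀ x, U x ∈ K) (hL : ∀ x, L x ∈ K) : K = ⊤ := by
  rw [Subgroup.eq_top_iff']
  have h1 : ∀ A : SL(2, R), IsUnit (A.1 1 0) → A ∈ K := by
    intro A hA
    obtain ⟨v, hv⟩ := hA.exists_right_inv
    rw [decomp A v hv]
    exact mul_mem (mul_mem (hU _) (hL _)) (hU _)
  intro A
  rcases hR _ _ _ _ (det2 A) with h | h
  · exact h1 A h
  · have h2 : L 1 * A ∈ K := by
      apply h1
      rw [mul10, L10, L11, one_mul, one_mul]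
      exact h
    have h3 : A = (L 1)⁻¹ * (L 1 * A) := by group
    rw [h3]
    exact mul_mem (inv_mem (hL 1)) h2

/-- perfectness -/
theorem perfect (hR : ∀ a c b d : R, a * d - b * c = 1 → IsUnit c ∨ IsUnit (a + c))
    (u w s : R) (hu : u * w = 1) (hs : (u * u - 1) * s = 1) :
    commutator SL(2, R) = ⊤ := by
  have hs' : (w * w - 1) * (-(u * u) * s) = 1 := by
    linear_combination hs - s * (u * w + 1) * hu
  apply gen hR
  · intro x
    have h1 : U x = ⁅Dg u w hu, U (s * x)⁆ := by
      rw [commutatorElement_def]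
      apply ext2
      · simp only [mul00, mul01, mul10, mul11, inv00, inv01, inv10, inv11, U00, U01, U10, U11, D00, D01, D10, D11]
        linear_combination (-1 : R) * hu
      · simp only [mul00, mul01, mul10, mul11, inv00, inv01, inv10, inv11, U00, U01, U10, U11, D00, D01, D10, D11]
        linear_combination (-x) * hs + (s * x) * hu
      · simp only [mul00, mul01, mul10, mul11, inv00, inv01, inv10, inv11, U00, U01, U10, U11, D00, D01, D10, D11]
        ring
      · simp only [mul00, mul01, mul10, mul11, inv00, inv01, inv10, inv11, U00, U01, U10, U11, D00, D01, D10, D11]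
        linear_combination (-1 : R) * hu
    rw [h1]
    exact Subgroup.commutator_mem_commutator (Subgroup.mem_top _) (Subgroup.mem_top _)
  · intro x
    have h1 : L x = ⁅Dg u w hu, L ((-(u * u) * s) * x)⁆ := by
      rw [commutatorElement_def]
      apply ext2
      · simp only [mul00, mul01, mul10, mul11, inv00, inv01, inv10, inv11, L00, L01, L10, L11, D00, D01, D10, D11]
        linear_combination (-1 : R) * hu
      · simp only [mul00, mul01, mul10, mul11, inv00, inv01, inv10, inv11, L00, L01, L10, L11, D00, D01, D10, D11]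
        ring
      · simp only [mul00, mul01, mul10, mul11, inv00, inv01, inv10, inv11, L00, L01, L10, L11, D00, D01, D10, D11]
        linear_combination (-x) * hs' + (-(u * u) * s * x) * hu
      · simp only [mul00, mul01, mul10, mul11, inv00, inv01, inv10, inv11, L00, L01, L10, L11, D00, D01, D10, D11]
        linear_combination (-1 : R) * hu
    rw [h1]
    exact Subgroup.commutator_mem_commutator (Subgroup.mem_top _) (Subgroup.mem_top _)


/-- matrices with vanishing image of the lower left entry -/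
def Hs {S : Type*} [CommRing S] (φ : R →+* S) : Subgroup SL(2, R) where
  carrier := {A | φ (A.1 1 0) = 0}
  mul_mem' := by
    intro A B hA hB
    simp only [Set.mem_setOf_eq] at hA hB ⊢
    rw [mul10, map_add, map_mul, map_mul, hA, hB, zero_mul, mul_zero, add_zero]
  one_mem' := by
    show φ 0 = 0
    exact map_zero φ
  inv_mem' := by
    intro A hA
    simp only [Set.mem_setOf_eq] at hA ⊢
    rw [inv10, map_neg, hA, neg_zero]

theorem mem_Hs {S : Type*} [CommRing S] {φ : R →+* S} {A : SL(2, R)} : A ∈ Hs φ ↔ φ (A.1 1 0) = 0 := Iff.rfl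

abbrev mp {S : Type*} [CommRing S] (φ : R →+* S) : SL(2, R) →* SL(2, S) := Matrix.SpecialLinearGroup.map φ

theorem mp_apply {S : Type*} [CommRing S] (φ : R →+* S) (A : SL(2, R)) (i j : Fin 2) :
    (mp φ A).1 i j = φ (A.1 i j) := rfl

theorem commutator_step {S S' : Type*} [CommRing S] [CommRing S'] {f : R →+* S} {g : R →+* S'}
    (h : ∀ x y, f x = 0 → f y = 0 → g (x * y) = 0) {A B : SL(2, R)} (hA : A ∈ (mp f).ker) (hB : B ∈ (mp f).ker) :
    ⁅A, B⁆ ∈ (mp g).ker := by
  have e : ∀ {C : SL(2, R)}, C ∈ (mp f).ker → f (C.1 0 1) = 0 ∧ f (C.1 1 0) = 0 ∧ f (C.1 0 0 - C.1 1 1) = 0 := by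
    intro C hC
    rw [MonoidHom.mem_ker] at hC
    have h1 := mp_apply f C
    rw [hC] at h1
    refine ⟨(h1 0 1).symm, (h1 1 0).symm, ?_⟩
    rw [map_sub, ← h1 0 0, ← h1 1 1]
    show (1 : S) - 1 = 0
    ring
  obtain ⟨a1, a2, a3⟩ := e hA
  obtain ⟨b1, b2, b3⟩ := e hB
  rw [MonoidHom.mem_ker, map_commutatorElement, commutatorElement_eq_one_iff_mul_comm]
  apply ext2
  · rw [mul00, mul00]
    simp only [mp_apply]
    have h1 := h _ _ a1 b2
    have h2 := h _ _ b1 a2
    rw [map_mul] at h1 h2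
    linear_combination h1 - h2
  · rw [mul01, mul01]
    simp only [mp_apply]
    have h1 := h _ _ b1 a3
    have h2 := h _ _ a1 b3
    rw [map_mul, map_sub] at h1 h2
    linear_combination h1 - h2
  · rw [mul10, mul10]
    simp only [mp_apply]
    have h1 := h _ _ a2 b3
    have h2 := h _ _ b2 a3
    rw [map_mul, map_sub] at h1 h2
    linear_combination h1 - h2
  · rw [mul11, mul11]
    simp only [mp_apply]
    have h1 := h _ _ a1 b2
    have h2 := h _ _ b1 a2
    rw [map_mul] at h1 h2
    linear_combination h2 - h1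

/-- the diagonal character -/
def chi {S : Type*} [CommRing S] (φ : R →+* S) : Hs φ →* S where
  toFun A := φ (A.1.1 0 0)
  map_one' := by
    show φ 1 = 1
    exact map_one φ
  map_mul' := by
    intro A B
    show φ ((A.1 * B.1).1 0 0) = _
    rw [mul00, map_add, map_mul, map_mul, mem_Hs.1 B.2, mul_zero, add_zero]

theorem chi_commutator {S : Type*} [CommRing S] (φ : R →+* S) (A B : Hs φ) : chi φ ⁅A, B⁆ = 1 := by
  rw [commutatorElement_def, map_mul, map_mul, map_mul]
  have h1 : chi φ A * chi φ A⁻¹ = 1 := by rw [← map_mul, mul_inv_cancel, map_one]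
  have h2 : chi φ B * chi φ B⁻¹ = 1 := by rw [← map_mul, mul_inv_cancel, map_one]
  linear_combination (chi φ B * chi φ B⁻¹) * h1 + h2

theorem der1 {S : Type*} [CommRing S] (φ : R →+* S) : ∀ A ∈ derivedSeries (Hs φ) 1, chi φ A = 1 := by
  let N : Subgroup (Hs φ) :=
    { carrier := {A | chi φ A = 1}
      mul_mem' := fun {a b} ha hb => by
        simp only [Set.mem_setOf_eq] at ha hb ⊢
        rw [map_mul, ha, hb, mul_one]
      one_mem' := map_one _
      inv_mem' := fun {a} ha => by
        simp only [Set.mem_setOf_eq] at ha ⊢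
        have h1 : chi φ a * chi φ a⁻¹ = 1 := by rw [← map_mul, mul_inv_cancel, map_one]
        rwa [ha, one_mul] at h1 }
  have h : derivedSeries (Hs φ) 1 ≤ N := by
    rw [derivedSeries_succ, Subgroup.commutator_le]
    intro A _ B _
    exact chi_commutator φ A B
  exact fun A hA => h hA

theorem der2 {S : Type*} [CommRing S] (φ : R →+* S) : ∀ A ∈ derivedSeries (Hs φ) 2, (A : SL(2, R)) ∈ (mp φ).ker := by
  have h : derivedSeries (Hs φ) 2 ≤ ((mp φ).ker).comap (Hs φ).subtype := by
    rw [derivedSeries_succ, Subgroup.commutator_le]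
    intro A hA B hB
    have e : ∀ C ∈ derivedSeries (Hs φ) 1, φ (C.1.1 0 0) = 1 ∧ φ (C.1.1 1 0) = 0 ∧ φ (C.1.1 1 1) = 1 := by
      intro C hC
      have h1 : φ (C.1.1 0 0) = 1 := der1 φ C hC
      have h2 : φ (C.1.1 1 0) = 0 := C.2
      refine ⟨h1, h2, ?_⟩
      have h3 := congrArg φ (det2 C.1)
      rw [map_sub, map_mul, map_mul, h1, h2, map_one] at h3
      linear_combination h3
    obtain ⟨a1, a2, a3⟩ := e A hA
    obtain ⟨b1, b2, b3⟩ := e B hB
    show ⁅A.1, B.1⁆ ∈ (mp φ).ker
    rw [MonoidHom.mem_ker, map_commutatorElement, commutatorElement_eq_one_iff_mul_comm]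
    apply ext2
    · rw [mul00, mul00]
      simp only [mp_apply]
      rw [a1, a2, b1, b2]
      ring
    · rw [mul01, mul01]
      simp only [mp_apply]
      rw [a1, a3, b1, b3]
      ring
    · rw [mul10, mul10]
      simp only [mp_apply]
      rw [a1, a2, a3, b1, b2, b3]
    · rw [mul11, mul11]
      simp only [mp_apply]
      rw [a2, a3, b2, b3]
      ring
  exact fun A hA => h hA

end gen

section zmod

variable (k : ℕ)

theorem five_dvd : 5 ∣ 5 ^ (k + 1) := dvd_pow_self 5 (Nat.succ_ne_zero k)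

abbrev Rk (k : ℕ) : Type := ZMod (5 ^ (k + 1))

def ph : Rk k →+* ZMod 5 := ZMod.castHom (five_dvd k) (ZMod 5)

instance : NeZero (5 ^ (k + 1)) := ⟨pow_ne_zero _ (by norm_num)⟩

theorem isUnit_of {c : Rk k} (h : ph k c ≠ 0) : IsUnit c := by
  have hc : ((c.val : ℕ) : Rk k) = c := ZMod.natCast_zmod_val c
  rw [← hc] at h ⊢
  rw [map_natCast, Ne, ZMod.natCast_eq_zero_iff] at h
  rw [ZMod.isUnit_iff_coprime]
  apply Nat.Coprime.pow_right
  exact ((Nat.Prime.coprime_iff_not_dvd (by norm_num)).2 h).symm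

theorem dvd_of {c : Rk k} (h : ph k c = 0) : (5 : Rk k) ∣ c := by
  have hc : ((c.val : ℕ) : Rk k) = c := ZMod.natCast_zmod_val c
  rw [← hc] at h ⊢
  rw [map_natCast, ZMod.natCast_eq_zero_iff] at h
  obtain ⟨d, hd⟩ := h
  rw [hd]
  exact ⟨(d : Rk k), by push_cast; ring⟩

theorem hRk : ∀ a c b d : Rk k, a * d - b * c = 1 → IsUnit c ∨ IsUnit (a + c) := by
  intro a c b d h
  by_cases hc : ph k c = 0
  · right
    apply isUnit_of
    rw [map_add, hc, add_zero]
    intro ha
    have h1 := congrArg (ph k) h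
    rw [map_sub, map_mul, map_mul, ha, hc, map_one, zero_mul, mul_zero, sub_zero] at h1
    exact absurd h1 (by decide)
  · exact Or.inl (isUnit_of k hc)

theorem perfect_k : commutator SL(2, Rk k) = ⊤ := by
  have h2 : IsUnit (2 : Rk k) := by
    apply isUnit_of
    have : ph k 2 = 2 := map_ofNat (ph k) 2
    rw [this]
    decide
  have h3 : IsUnit (3 : Rk k) := by
    apply isUnit_of
    have : ph k 3 = 3 := map_ofNat (ph k) 3
    rw [this]
    decide
  obtain ⟨w, hw⟩ := h2.exists_right_inv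
  obtain ⟨s, hs⟩ := h3.exists_right_inv
  refine perfect (hRk k) 2 w s hw ?_
  linear_combination hs

theorem coatom_k : IsCoatom (Hs (ph k)) := by
  constructor
  · intro h
    have h1 : L (1 : Rk k) ∈ Hs (ph k) := by rw [h]; exact Subgroup.mem_top _
    rw [mem_Hs, L10, map_one] at h1
    exact absurd h1 (by decide)
  · intro K hK
    obtain ⟨hle, g, hg, hgH⟩ := Set.ssubset_iff_exists.1 (show ((Hs (ph k) : Subgroup SL(2, Rk k)) : Set SL(2, Rk k)) ⊂ K from hK)
    have hgc : ph k (g.1 1 0) ≠ 0 := hgH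
    obtain ⟨v, hv⟩ := (isUnit_of k hgc).exists_right_inv
    have hU : ∀ x, U x ∈ K := by
      intro x
      apply hle
      show ph k 0 = 0
      exact map_zero _
    have hLc : L (g.1 1 0) ∈ K := by
      obtain ⟨X, Y, hX, hY, h1⟩ : ∃ X Y, X ∈ K ∧ Y ∈ K ∧ g = X * L (g.1 1 0) * Y :=
        ⟨_, _, hU _, hU _, decomp g v hv⟩
      have h2 : L (g.1 1 0) = X⁻¹ * g * Y⁻¹ := by
        rw [eq_mul_inv_iff_mul_eq, eq_inv_mul_iff_mul_eq, ← mul_assoc]
        exact h1.symm
      rw [h2]
      exact mul_mem (mul_mem (inv_mem hX) hg) (inv_mem hY)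
    apply gen (hRk k) K hU
    intro r
    obtain ⟨j, hj⟩ : ∃ j : ℕ, ph k (r - (j : Rk k) * g.1 1 0) = 0 := by
      refine ⟨(ph k (r * v)).val, ?_⟩
      rw [map_sub, map_mul, map_natCast, ZMod.natCast_zmod_val, ← map_mul, ← map_sub]
      have : r - r * v * g.1 1 0 = 0 := by linear_combination (-r) * hv
      rw [this, map_zero]
    have h3 : L r = L (r - (j : Rk k) * g.1 1 0) * L (g.1 1 0) ^ j := by
      rw [← L_nsmul, ← L_add]
      congr 1
      ring
    rw [h3]
    refine mul_mem (hle ?_) (pow_mem hLc j)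
    exact hj

abbrev qm (k i : ℕ) : Rk k →+* Rk k ⧸ Ideal.span {(5 : Rk k) ^ i} := Ideal.Quotient.mk _

theorem qm_zero {k i : ℕ} {x : Rk k} : qm k i x = 0 ↔ (5 : Rk k) ^ i ∣ x := by
  rw [Ideal.Quotient.eq_zero_iff_mem, Ideal.mem_span_singleton]

theorem der_k (i : ℕ) : ∀ A ∈ derivedSeries (Hs (ph k)) (i + 3), (A : SL(2, Rk k)) ∈ (mp (qm k (i + 2))).ker := by
  induction i with
  | zero =>
    have h : derivedSeries (Hs (ph k)) 3 ≤ ((mp (qm k 2)).ker).comap (Hs (ph k)).subtype := by
      rw [derivedSeries_succ, Subgroup.commutator_le]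
      intro A hA B hB
      refine commutator_step (f := ph k) ?_ (der2 (ph k) A hA) (der2 (ph k) B hB)
      intro x y hx hy
      rw [qm_zero, pow_two]
      exact mul_dvd_mul (dvd_of k hx) (dvd_of k hy)
    exact fun A hA => h hA
  | succ i ih =>
    have h : derivedSeries (Hs (ph k)) (i + 1 + 3) ≤ ((mp (qm k (i + 1 + 2))).ker).comap (Hs (ph k)).subtype := by
      rw [show i + 1 + 3 = (i + 3) + 1 by ring, derivedSeries_succ, Subgroup.commutator_le]
      intro A hA B hB
      refine commutator_step (f := qm k (i + 2)) ?_ (ih A hA) (ih B hB)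
      intro x y hx hy
      rw [qm_zero] at hx hy ⊢
      have h1 := mul_dvd_mul hx hy
      rw [← pow_add] at h1
      exact (pow_dvd_pow _ (by omega)).trans h1
    exact fun A hA => h hA

theorem solvable_k : Group.IsSolvable (Hs (ph k)) := by
  refine ⟨⟨k + 3, ?_⟩⟩
  rw [eq_bot_iff]
  intro A hA
  have h1 := der_k k k A hA
  rw [MonoidHom.mem_ker] at h1
  have h2 : ∀ x : Rk k, qm k (k + 2) x = 0 → x = 0 := by
    intro x hx
    rw [qm_zero] at hx
    have h3 : (5 : Rk k) ^ (k + 2) = 0 := by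
      have : ((5 ^ (k + 1) : ℕ) : Rk k) = 0 := ZMod.natCast_self _
      push_cast at this
      rw [pow_succ, this, zero_mul]
    rw [h3, zero_dvd_iff] at hx
    exact hx
  have h4 := mp_apply (qm k (k + 2)) (A : SL(2, Rk k))
  rw [h1] at h4
  rw [Subgroup.mem_bot]
  apply Subtype.ext
  apply ext2
  · have h5 := h4 0 0
    rw [← sub_eq_zero]
    apply h2
    rw [map_sub, ← h5]
    show (1 : Rk k ⧸ Ideal.span {(5 : Rk k) ^ (k + 2)}) - qm k (k + 2) 1 = 0
    rw [map_one, sub_self]
  · have h5 := h4 0 1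
    apply h2
    rw [← h5]
    rfl
  · have h5 := h4 1 0
    apply h2
    rw [← h5]
    rfl
  · have h5 := h4 1 1
    rw [← sub_eq_zero]
    apply h2
    rw [map_sub, ← h5]
    show (1 : Rk k ⧸ Ideal.span {(5 : Rk k) ^ (k + 2)}) - qm k (k + 2) 1 = 0
    rw [map_one, sub_self]

end zmod

section integral

abbrev Gam : Subgroup SL(2, ℤ) := Hs (Int.castRingHom (ZMod 5))

theorem hR7 : ∀ a c b d : ZMod 7, a * d - b * c = 1 → IsUnit c ∨ IsUnit (a + c) := by
  haveI : Fact (Nat.Prime 7) := ⟨by norm_num⟩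
  intro a c b d h
  by_cases hc : c = 0
  · right
    rw [hc, mul_zero, sub_zero] at h
    rw [hc, add_zero]
    exact IsUnit.of_mul_eq_one _ h
  · exact Or.inl (IsUnit.mk0 c hc)

theorem perfect7 : commutator SL(2, ZMod 7) = ⊤ :=
  perfect hR7 2 4 5 (by decide) (by decide)

def F7 : Gam →* SL(2, ZMod 7) := (mp (Int.castRingHom (ZMod 7))).comp Gam.subtype

theorem F7_surj : Function.Surjective F7 := by
  rw [← MonoidHom.range_eq_top]
  apply gen hR7
  · intro x
    refine ⟨⟨U (x.val : ℤ), ?_⟩, ?_⟩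
    · show Int.castRingHom (ZMod 5) 0 = 0
      exact map_zero _
    · apply ext2
      · show Int.castRingHom (ZMod 7) 1 = 1
        exact map_one _
      · show Int.castRingHom (ZMod 7) (x.val : ℤ) = x
        simp
      · show Int.castRingHom (ZMod 7) 0 = 0
        exact map_zero _
      · show Int.castRingHom (ZMod 7) 1 = 1
        exact map_one _
  · intro x
    refine ⟨⟨L (5 * ((3 * x).val : ℤ)), ?_⟩, ?_⟩
    · show Int.castRingHom (ZMod 5) (5 * ((3 * x).val : ℤ)) = 0
      rw [map_mul]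
      have : Int.castRingHom (ZMod 5) 5 = 0 := by decide
      rw [this, zero_mul]
    · apply ext2
      · show Int.castRingHom (ZMod 7) 1 = 1
        exact map_one _
      · show Int.castRingHom (ZMod 7) 0 = 0
        exact map_zero _
      · show Int.castRingHom (ZMod 7) (5 * ((3 * x).val : ℤ)) = x
        have h1 : Int.castRingHom (ZMod 7) ((3 * x).val : ℤ) = 3 * x := by simp
        rw [map_mul, h1]
        have : Int.castRingHom (ZMod 7) 5 = 5 := by decide
        rw [this, ← mul_assoc]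
        have h2 : (5 : ZMod 7) * 3 = 1 := by decide
        rw [h2, one_mul]
      · show Int.castRingHom (ZMod 7) 1 = 1
        exact map_one _

theorem der7 (d : ℕ) : derivedSeries SL(2, ZMod 7) d = ⊤ := by
  induction d with
  | zero => rfl
  | succ d ih => rw [derivedSeries_succ, ih]; exact perfect7

/-- reduction -/
def Fk (k : ℕ) : Gam →* Hs (ph k) :=
  ((mp (Int.castRingHom (Rk k))).comp Gam.subtype).codRestrict (Hs (ph k)) (by
    intro A
    show ph k (Int.castRingHom (Rk k) (A.1.1 1 0)) = 0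
    have h1 : Int.castRingHom (ZMod 5) (A.1.1 1 0) = 0 := A.2
    rw [← h1]
    exact map_intCast (ph k) _)

end integral

/-- Finite perfect groups have solvable maximal subgroups of unbounded derived length: for every d there is a finite perfect group G (equal to its commutator subgroup) with a solvable maximal subgroup H whose derived length exceeds d, i.e. the d-th term of the derived series of H is non-trivial. (Take the derived subgroup of a wreath product S ≀ A₅ with S solvable of large derived length, and H the preimage of a maximal subgroup of A₅.) -/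
theorem result (d : ℕ) :
    ∃ (G : Type) (_ : Group G) (_ : Finite G) (H : Subgroup G), commutator G = ⊤ ∧ IsCoatom H ∧ Group.IsSolvable H ∧
      derivedSeries H d ≠ ⊥ := by
  -- a nontrivial element of the derived series of the integral group
  obtain ⟨γ, hγ, hne⟩ : ∃ γ ∈ derivedSeries Gam d, γ ≠ 1 := by
    have h1 := derivedSeries_le_map_derivedSeries F7_surj d
    rw [der7] at h1
    obtain ⟨γ, hγ, h2⟩ := h1 (Subgroup.mem_top (U 1))
    refine ⟨γ, hγ, ?_⟩
    rintro rfl
    rw [map_one] at h2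
    have h3 := congrArg (fun A : SL(2, ZMod 7) => A.1 0 1) h2
    have h4 : (0 : ZMod 7) = 1 := h3
    exact absurd h4 (by decide)
  obtain ⟨i, j, hij⟩ : ∃ i j, γ.1.1 i j - (1 : Matrix (Fin 2) (Fin 2) ℤ) i j ≠ 0 := by
    by_contra hno
    push Not at hno
    apply hne
    apply Subtype.ext
    apply Subtype.ext
    ext i j
    have := hno i j
    exact sub_eq_zero.1 this
  set δ := γ.1.1 i j - (1 : Matrix (Fin 2) (Fin 2) ℤ) i j with hδ
  obtain ⟨k, hk⟩ : ∃ k : ℕ, |δ| < 5 ^ (k + 1) := by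
    refine ⟨δ.natAbs, ?_⟩
    have h1 : δ.natAbs < 5 ^ (δ.natAbs + 1) :=
      (Nat.lt_pow_self (by norm_num)).trans (Nat.pow_lt_pow_right (by norm_num) (Nat.lt_succ_self _))
    rw [Int.abs_eq_natAbs]
    exact_mod_cast h1
  refine ⟨SL(2, Rk k), inferInstance, inferInstance, Hs (ph k), perfect_k k, coatom_k k, solvable_k k, ?_⟩
  intro hbot
  have h1 : Fk k γ ∈ derivedSeries (Hs (ph k)) d :=
    map_derivedSeries_le_derivedSeries (Fk k) d ⟨γ, hγ, rfl⟩
  rw [hbot, Subgroup.mem_bot] at h1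
  have h2 : ((γ.1.1 i j : ℤ) : Rk k) = ((1 : Matrix (Fin 2) (Fin 2) ℤ) i j : ℤ) := by
    have h3 := congrArg (fun A : Hs (ph k) => A.1.1 i j) h1
    have h4 : ((γ.1.1 i j : ℤ) : Rk k) = (1 : Matrix (Fin 2) (Fin 2) (Rk k)) i j := h3
    rw [h4, Matrix.one_apply, Matrix.one_apply]
    split_ifs <;> simp
  have h3 : ((δ : ℤ) : Rk k) = 0 := by
    rw [hδ, Int.cast_sub, h2, sub_self]
  rw [ZMod.intCast_zmod_eq_zero_iff_dvd] at h3
  apply hij
  apply Int.eq_zero_of_abs_lt_dvd h3
  exact_mod_cast hk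


end Cfsg.Agent.S5896
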