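import Cfsg.Statements.S5902
import Cfsg.Agent.S5901

set_option autoImplicit false
open Cfsg

namespace Cfsg.Agent.S5902


/-- Let G be a finite group, X a subgroup whose own subgroup lattice is complemented, and suppose X lies in exactly one maximal subgroup M of G. Then every subgroup H of G not contained in the normal core of M has a complement in the subgroup lattice of G (some C with H ⊔ C = G and H ⊓ C = 1); in particular the subgroup lattice of G modulo the normal core of M is complemented. -/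
theorem result {G : Type*} [Group G] [Finite G] (X M : Subgroup G)
    (hK : ComplementedLattice (Subgroup X))
    (hM : IsCoatom M) (hXM : X ≤ M) (huniq : ∀ M' : Subgroup G, IsCoatom M' → X ≤ M' → M' = M) :
    (∀ H : Subgroup G, ¬ H ≤ M.normalCore → ∃ C : Subgroup G, H ⊔ C = ⊤ ∧ H ⊓ C = ⊥) ∧
    ComplementedLattice (Subgroup (G ⧸ M.normalCore)) := by
  have hint : ∀ Y : Subgroup G, ⊥ ≤ Y → Y ≤ X →
      ∃ C : Subgroup G, ⊥ ≤ C ∧ C ≤ X ∧ Y ⊔ C = X ∧ Y ⊓ C = ⊥ := by
    intro Y _ hYX
    obtain ⟨C', hC'⟩ := hK.exists_isCompl (Y.subgroupOf X)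
    refine ⟨C'.map X.subtype, bot_le, Subgroup.map_subtype_le C', ?_, ?_⟩
    · have h := congrArg (Subgroup.map X.subtype) hC'.sup_eq_top
      rw [Subgroup.map_sup, Subgroup.subgroupOf_map_subtype, inf_eq_left.mpr hYX,
        ← MonoidHom.range_eq_map, Subgroup.range_subtype] at h
      exact h
    · have h := congrArg (Subgroup.map X.subtype) hC'.inf_eq_bot
      rw [Subgroup.map_inf _ _ _ X.subtype_injective, Subgroup.subgroupOf_map_subtype,
        inf_eq_left.mpr hYX, Subgroup.map_bot] at h
      exact h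
  have key : ∀ H : Subgroup G, ¬ H ≤ M.normalCore → ∃ C : Subgroup G, H ⊔ C = ⊤ ∧ H ⊓ C = ⊥ := by
    intro H hH
    obtain ⟨h, hhH, hh⟩ := SetLike.not_le_iff_exists.mp hH
    have : ∃ g : G, g * h * g⁻¹ ∉ M := by
      by_contra hcon
      push Not at hcon
      exact hh (fun g => hcon g)
    obtain ⟨g, hg⟩ := this
    have hX : X ≠ ⊤ := fun hX => hM.1 (top_le_iff.mp (hX ▸ hXM))
    obtain ⟨C', h1, h2⟩ := S5901.result (⊥ : Subgroup G) X M bot_le hX hint hM hXM huniq
      ((MulAut.conj g).mapSubgroup H) (fun hle => hg (hle ⟨h, hhH, rfl⟩)) (inf_bot_eq _)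
    refine ⟨(MulAut.conj g).mapSubgroup.symm C', ?_, ?_⟩
    · have h := congrArg (MulAut.conj g).mapSubgroup.symm h1
      rw [OrderIso.map_sup, OrderIso.symm_apply_apply, OrderIso.map_top] at h
      exact h
    · have h := congrArg (MulAut.conj g).mapSubgroup.symm h2
      rw [OrderIso.map_inf, OrderIso.symm_apply_apply, OrderIso.map_bot] at h
      exact h
  refine ⟨key, ⟨fun Q => ?_⟩⟩
  by_cases hQ : Q = ⊥
  · exact ⟨⊤, by rw [hQ]; exact isCompl_bot_top⟩
  · set π := QuotientGroup.mk' M.normalCore with hπ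
    have hsurj : Function.Surjective π := QuotientGroup.mk'_surjective _
    have hne : ¬ Q.comap π ≤ M.normalCore := by
      intro hle
      apply hQ
      rw [eq_bot_iff, ← Subgroup.map_comap_eq_self_of_surjective hsurj Q, Subgroup.map_le_iff_le_comap]
      intro x hx
      have hx' := hle hx
      rw [Subgroup.mem_comap, Subgroup.mem_bot]
      exact (QuotientGroup.eq_one_iff x).mpr hx'
    obtain ⟨C, h1, h2⟩ := key _ hne
    refine ⟨C.map π, IsCompl.of_eq ?_ ?_⟩
    · rw [eq_bot_iff]
      rintro x ⟨hxQ, c, hc, rfl⟩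
      have : c ∈ Q.comap π ⊓ C := ⟨hxQ, hc⟩
      rw [h2, Subgroup.mem_bot] at this
      rw [this, map_one]
      exact Subgroup.one_mem _
    · rw [← Subgroup.map_comap_eq_self_of_surjective hsurj Q, ← Subgroup.map_sup, h1,
        ← MonoidHom.range_eq_map, MonoidHom.range_eq_top.mpr hsurj]

end Cfsg.Agent.S5902
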