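import Cfsg.Statements.S5903
import Cfsg.Agent.S5901

set_option autoImplicit false
open Cfsg

namespace Cfsg.Agent.S5903


/-- Let G be a finite simple group, X a subgroup lying in exactly one maximal subgroup M of G, and N a subgroup of prime order with N ≤ X that is central in M. If the subgroup lattice of X/N is complemented, then the subgroup lattice of G is complemented. -/
theorem result {G : Type*} [Group G] [Finite G] [IsSimpleGroup G] (X M N : Subgroup G)
    (hM : IsCoatom M) (hXM : X ≤ M) (huniq : ∀ M' : Subgroup G, IsCoatom M' → X ≤ M' → M' = M)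
    (hNX : N ≤ X) (hN : (Nat.card N).Prime) (hcen : ∀ n ∈ N, ∀ m ∈ M, m * n = n * m)
    [(N.subgroupOf X).Normal] (hK : ComplementedLattice (Subgroup (X ⧸ N.subgroupOf X))) :
    ComplementedLattice (Subgroup G) := by
  have hXM' : X ≠ ⊤ := fun hX => hM.1 (top_le_iff.mp (hX ▸ hXM))
  have hint : ∀ Y : Subgroup G, N ≤ Y → Y ≤ X →
      ∃ C : Subgroup G, N ≤ C ∧ C ≤ X ∧ Y ⊔ C = X ∧ Y ⊓ C = N := by
    intro Y hNY hYX
    set π := QuotientGroup.mk' (N.subgroupOf X) with hπ
    have hsurj : Function.Surjective π := QuotientGroup.mk'_surjective _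
    have hker : π.ker = N.subgroupOf X := QuotientGroup.ker_mk' _
    obtain ⟨C', hC'⟩ := hK.exists_isCompl ((Y.subgroupOf X).map π)
    have hYk : (N.subgroupOf X) ≤ Y.subgroupOf X := Subgroup.comap_mono hNY
    have hCk : (N.subgroupOf X) ≤ C'.comap π := by
      exact hker.ge.trans (MonoidHom.ker_le_comap π C')
    have hYc : ((Y.subgroupOf X).map π).comap π = Y.subgroupOf X := by
      rw [Subgroup.comap_map_eq, hker, sup_eq_left.mpr hYk]
    have e1 : Y.subgroupOf X ⊔ C'.comap π = ⊤ := by
      have h := congrArg (Subgroup.comap π) hC'.sup_eq_top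
      rw [← Subgroup.comap_sup_eq _ _ _ hsurj, hYc, Subgroup.comap_top] at h
      exact h
    have e2 : Y.subgroupOf X ⊓ C'.comap π = N.subgroupOf X := by
      have h := congrArg (Subgroup.comap π) hC'.inf_eq_bot
      rw [Subgroup.comap_inf, hYc, MonoidHom.comap_bot, hker] at h
      exact h
    refine ⟨(C'.comap π).map X.subtype, ?_, Subgroup.map_subtype_le _, ?_, ?_⟩
    · have h := Subgroup.map_mono (f := X.subtype) hCk
      rw [Subgroup.subgroupOf_map_subtype, inf_eq_left.mpr hNX] at h
      exact h
    · have h := congrArg (Subgroup.map X.subtype) e1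
      rw [Subgroup.map_sup, Subgroup.subgroupOf_map_subtype, inf_eq_left.mpr hYX,
        ← MonoidHom.range_eq_map, Subgroup.range_subtype] at h
      exact h
    · have h := congrArg (Subgroup.map X.subtype) e2
      rw [Subgroup.map_inf _ _ _ X.subtype_injective, Subgroup.subgroupOf_map_subtype,
        inf_eq_left.mpr hYX, Subgroup.subgroupOf_map_subtype, inf_eq_left.mpr hNX] at h
      exact h
  refine ⟨fun H => ?_⟩
  by_cases hbot : H = ⊥
  · exact ⟨⊤, by rw [hbot]; exact isCompl_bot_top⟩
  by_cases htop : H = ⊤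
  · exact ⟨⊥, by rw [htop]; exact isCompl_top_bot⟩
  -- some conjugate `g H g⁻¹` is not inside `M` and meets `N` trivially
  have hex : ∃ g : G, ¬ ((MulAut.conj g).mapSubgroup H) ≤ M ∧ ¬ N ≤ (MulAut.conj g).mapSubgroup H := by
    by_contra hcon
    push Not at hcon
    have hnorm : ∀ g : G, ∀ n ∈ N, g⁻¹ * n * g ∈ Subgroup.normalizer (H : Set G) := by
      intro g n hn
      by_cases hle : (MulAut.conj g).mapSubgroup H ≤ M
      · rw [Subgroup.mem_normalizer_iff]
        intro h
        have hc : ∀ h ∈ H, (g⁻¹ * n * g) * h * (g⁻¹ * n * g)⁻¹ = h := by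
          intro h hh
          have h1 : g * h * g⁻¹ ∈ M := hle ⟨h, hh, rfl⟩
          have h2 := hcen n hn _ h1
          have h3 : h * (g⁻¹ * n * g) = (g⁻¹ * n * g) * h := by
            calc h * (g⁻¹ * n * g) = g⁻¹ * ((g * h * g⁻¹) * n) * g := by group
              _ = g⁻¹ * (n * (g * h * g⁻¹)) * g := by rw [h2]
              _ = (g⁻¹ * n * g) * h := by group
          rw [← h3, mul_inv_cancel_right]
        constructor
        · intro hh
          rw [hc h hh]; exact hh
        · intro hh
          have h4 := hc _ hh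
          have h5 : (g⁻¹ * n * g) * h * (g⁻¹ * n * g)⁻¹ = h := by
            have := mul_right_cancel h4
            exact mul_left_cancel this
          rw [← h5]; exact hh
      · have hNle := hcon g hle
        obtain ⟨h, hh, hh2⟩ := hNle hn
        have h3 : g⁻¹ * n * g = h := by
          rw [← hh2]
          change g⁻¹ * (g * h * g⁻¹) * g = h
          group
        rw [h3]
        exact Subgroup.le_normalizer hh
    have hnc : Subgroup.normalClosure (N : Set G) ≤ Subgroup.normalizer (H : Set G) := by
      rw [Subgroup.normalClosure, Subgroup.closure_le]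
      intro x hx
      obtain ⟨a, ha, hax⟩ := Group.mem_conjugatesOfSet_iff.mp hx
      obtain ⟨c, hc⟩ := isConj_iff.mp hax
      have := hnorm c⁻¹ a ha
      rw [inv_inv, hc] at this
      exact this
    have hNne : N ≠ ⊥ := by
      intro h
      rw [h, Subgroup.card_bot] at hN
      exact Nat.not_prime_one hN
    have hncl : Subgroup.normalClosure (N : Set G) = ⊤ := by
      refine (IsSimpleGroup.eq_bot_or_eq_top_of_normal _ Subgroup.normalClosure_normal).resolve_left ?_
      intro h
      exact hNne (le_bot_iff.mp (h ▸ Subgroup.le_normalClosure))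
    rw [hncl, top_le_iff] at hnc
    have hHn : H.Normal := Subgroup.normalizer_eq_top_iff.mp hnc
    rcases IsSimpleGroup.eq_bot_or_eq_top_of_normal H hHn with h | h
    · exact hbot h
    · exact htop h
  obtain ⟨g, hg1, hg2⟩ := hex
  have hdisj : (MulAut.conj g).mapSubgroup H ⊓ N = ⊥ := by
    haveI : Fact (Nat.card N).Prime := ⟨hN⟩
    have h1 : ((MulAut.conj g).mapSubgroup H ⊓ N).subgroupOf N = ⊥ ∨
        ((MulAut.conj g).mapSubgroup H ⊓ N).subgroupOf N = ⊤ :=
      Subgroup.eq_bot_or_eq_top_of_prime_card _
    rcases h1 with h1 | h1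
    · rw [Subgroup.subgroupOf_eq_bot, disjoint_iff] at h1
      rw [inf_assoc, inf_idem] at h1
      exact h1
    · rw [Subgroup.subgroupOf_eq_top] at h1
      exact absurd (h1.trans inf_le_left) hg2
  obtain ⟨C', h1, h2⟩ := S5901.result N X M hNX hXM' hint hM hXM huniq
      ((MulAut.conj g).mapSubgroup H) hg1 hdisj
  refine ⟨(MulAut.conj g).mapSubgroup.symm C', IsCompl.of_eq ?_ ?_⟩
  · have h := congrArg (MulAut.conj g).mapSubgroup.symm h2
    rw [OrderIso.map_inf, OrderIso.symm_apply_apply, OrderIso.map_bot] at h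
    exact h
  · have h := congrArg (MulAut.conj g).mapSubgroup.symm h1
    rw [OrderIso.map_sup, OrderIso.symm_apply_apply, OrderIso.map_top] at h
    exact h

end Cfsg.Agent.S5903
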