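import Cfsg.Statements.S5904


set_option autoImplicit false
open scoped Pointwise
open Cfsg

namespace Cfsg.Agent.S5904


/-- Let Ω be a finite set with more than two elements and O ⊆ Ω a subset with exactly as many elements as its complement. Then the setwise stabilizer of O in the symmetric group on Ω is not a maximal subgroup (it is properly contained in the stabilizer of the partition {O, Ω ∖ O}, which is proper). -/
theorem result {Ω : Type*} [Fintype Ω] [DecidableEq Ω] (hΩ : 2 < Fintype.card Ω)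
    (O : Set Ω) (hO : Nat.card O = Nat.card ↥Oᶜ) :
    ¬ IsCoatom (MulAction.stabilizer (Equiv.Perm Ω) O) := by
  classical
  intro hco
  have hsum : Nat.card O + Nat.card ↥Oᶜ = Fintype.card Ω := by
    rw [Nat.card_coe_set_eq, Nat.card_coe_set_eq, Set.ncard_add_ncard_compl, Nat.card_eq_fintype_card]
  have hOcard : 1 < O.ncard := by
    rw [← Nat.card_coe_set_eq]; omega
  have hOc : 0 < (Oᶜ).ncard := by
    rw [← Nat.card_coe_set_eq]; omega
  obtain ⟨a, ha, b, hb, hab⟩ := (Set.one_lt_ncard).mp hOcard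
  obtain ⟨c, hc⟩ := (Set.ncard_pos).mp hOc
  -- the partition stabilizer
  let P : Subgroup (Equiv.Perm Ω) :=
    { carrier := {g | g • O = O ∨ g • O = Oᶜ}
      one_mem' := Or.inl (one_smul _ _)
      mul_mem' := by
        rintro g h (hg | hg) (hh | hh)
        · left; rw [mul_smul, hh, hg]
        · right; rw [mul_smul, hh, Set.smul_set_compl, hg]
        · right; rw [mul_smul, hh, hg]
        · left; rw [mul_smul, hh, Set.smul_set_compl, hg, compl_compl]
      inv_mem' := by
        rintro g (hg | hg)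
        · left; rw [inv_smul_eq_iff, hg]
        · right
          rw [inv_smul_eq_iff, Set.smul_set_compl, hg, compl_compl] }
  have hSP : MulAction.stabilizer (Equiv.Perm Ω) O ≤ P := fun g hg => Or.inl hg
  have hPtop : P ≠ ⊤ := by
    intro hP
    have hs : Equiv.swap a c ∈ P := hP ▸ Subgroup.mem_top _
    rcases hs with hs | hs
    · have h1 : (Equiv.swap a c) • a ∈ (Equiv.swap a c) • O := Set.smul_mem_smul_set ha
      rw [hs, Equiv.Perm.smul_def, Equiv.swap_apply_left] at h1
      exact hc h1
    · have hbc : b ≠ c := fun h => hc (h ▸ hb)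
      have h1 : (Equiv.swap a c) • b ∈ (Equiv.swap a c) • O := Set.smul_mem_smul_set hb
      rw [hs, Equiv.Perm.smul_def, Equiv.swap_apply_of_ne_of_ne hab.symm hbc] at h1
      exact h1 hb
  have hne : MulAction.stabilizer (Equiv.Perm Ω) O ≠ P := by
    intro hEq
    -- an element interchanging `O` and its complement
    obtain ⟨e⟩ : Nonempty (O ≃ (Oᶜ : Set Ω)) := Finite.card_eq.mp hO
    let f : Ω → Ω := fun x => if h : x ∈ O then (e ⟨x, h⟩ : Ω) else (e.symm ⟨x, h⟩ : Ω)
    have hf1 : ∀ x (h : x ∈ O), f x = (e ⟨x, h⟩ : Ω) := fun x h => dif_pos h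
    have hf2 : ∀ x (h : x ∉ O), f x = (e.symm ⟨x, h⟩ : Ω) := fun x h => dif_neg h
    have hinv : Function.Involutive f := by
      intro x
      by_cases h : x ∈ O
      · have h' : f x ∉ O := by rw [hf1 x h]; exact (e ⟨x, h⟩).2
        rw [hf2 _ h']
        have : (⟨f x, h'⟩ : (Oᶜ : Set Ω)) = e ⟨x, h⟩ := Subtype.ext (hf1 x h)
        rw [this, Equiv.symm_apply_apply]
      · have h' : f x ∈ O := by rw [hf2 x h]; exact (e.symm ⟨x, h⟩).2
        rw [hf1 _ h']
        have : (⟨f x, h'⟩ : O) = e.symm ⟨x, h⟩ := Subtype.ext (hf2 x h)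
        rw [this, Equiv.apply_symm_apply]
    have hg : hinv.toPerm ∈ P := by
      right
      apply Set.eq_of_subset_of_ncard_le
      · rintro _ ⟨x, hx, rfl⟩
        change f x ∉ O
        rw [hf1 x hx]
        exact (e ⟨x, hx⟩).2
      · rw [Set.ncard_smul_set, ← Nat.card_coe_set_eq, ← Nat.card_coe_set_eq, hO]
      · exact Set.toFinite _
    rw [← hEq] at hg
    have h1 : hinv.toPerm • a ∈ hinv.toPerm • O := Set.smul_mem_smul_set ha
    rw [MulAction.mem_stabilizer_iff.mp hg] at h1
    have h2 : hinv.toPerm • a = (e ⟨a, ha⟩ : Ω) := hf1 a ha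
    rw [h2] at h1
    exact (e ⟨a, ha⟩).2 h1
  exact hPtop (hco.2 P (lt_of_le_of_ne hSP hne))

end Cfsg.Agent.S5904
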