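import Cfsg.Statements.S5908
import Cfsg.Agent.Uni.PSU32

set_option autoImplicit false
open Cfsg

namespace Cfsg.Agent.S5908


/-- The subgroup lattice of PSU₃(2) (the solvable group of order 72, realised over the field with 4 elements) is not complemented: some subgroup H has no subgroup X with H ⊔ X = ⊤ and H ⊓ X = ⊥. -/
theorem result {F : Type*} [Field F] [Fintype F] (hF : Fintype.card F = 4) :
    ¬ ComplementedLattice (Subgroup (Cfsg.PSU 3 F 2)) := by
  classical
  have hF' : Fintype.card F = 2 ^ 2 := by rw [hF]; norm_num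
  intro hC
  obtain ⟨N, hNn, hN9⟩ := Cfsg.Agent.Uni.P32.exists_normal_nine (F := F) hF'
  obtain ⟨e⟩ := Cfsg.Agent.Uni.P32.quotient_equiv (F := F) hF' hN9
  obtain ⟨z, hz⟩ : ∃ z, z = e.symm (QuaternionGroup.a 2) := ⟨_, rfl⟩
  have hez : e z = QuaternionGroup.a 2 := by rw [hz, e.apply_symm_apply]
  have hz2 : z * z = 1 := by
    apply e.injective
    rw [map_mul, map_one, hez]
    decide
  have hz1 : z ≠ 1 := by
    intro h
    rw [h, map_one] at hez
    exact absurd hez (by decide)
  obtain ⟨H, hH⟩ : ∃ H : Subgroup (Cfsg.PSU 3 F 2), ∀ x, x ∈ H ↔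
      ((QuotientGroup.mk' N) x = 1 ∨ (QuotientGroup.mk' N) x = z) := by
    refine ⟨(Subgroup.zpowers z).comap (QuotientGroup.mk' N), fun x => ?_⟩
    rw [Subgroup.mem_comap]
    constructor
    · intro h
      obtain ⟨k, hk⟩ := h
      have hk' : z ^ k = (QuotientGroup.mk' N) x := hk
      rw [← hk']
      rcases Int.even_or_odd' k with ⟨m, rfl | rfl⟩
      · left
        rw [zpow_mul, zpow_ofNat, pow_two, hz2, one_zpow]
      · right
        rw [zpow_add, zpow_mul, zpow_ofNat, pow_two, hz2, one_zpow, one_mul, zpow_one]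
    · rintro (h | h)
      · rw [h]; exact one_mem _
      · rw [h]; exact Subgroup.mem_zpowers z
  obtain ⟨X, hX⟩ := hC.exists_isCompl H
  have hdisj : ∀ x, x ∈ X → x ∈ H → x = 1 := fun x h1 h2 => by
    have : x ∈ H ⊓ X := ⟨h2, h1⟩
    rw [hX.inf_eq_bot] at this
    exact Subgroup.mem_bot.1 this
  by_cases hX1 : ∃ x ∈ X, x ≠ 1
  · obtain ⟨x, hx, hx1⟩ := hX1
    have hxN : (QuotientGroup.mk' N) x ≠ 1 := fun h => hx1 (hdisj x hx ((hH x).2 (Or.inl h)))
    have key : ∀ y : QuaternionGroup 2, y ≠ 1 → y = QuaternionGroup.a 2 ∨ y * y = QuaternionGroup.a 2 := by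
      decide
    have hy : e ((QuotientGroup.mk' N) x) ≠ 1 := by
      intro h
      exact hxN (e.injective (by rw [h, map_one]))
    rcases key _ hy with h | h
    · have h2 : (QuotientGroup.mk' N) x = z := e.injective (by rw [h, hez])
      exact hx1 (hdisj x hx ((hH x).2 (Or.inr h2)))
    · have h2 : (QuotientGroup.mk' N) (x * x) = z := e.injective (by rw [map_mul, map_mul, h, hez])
      have h3 := hdisj _ (X.mul_mem hx hx) ((hH _).2 (Or.inr h2))
      rw [h3, map_one] at h2
      exact hz1 h2.symm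
  · push Not at hX1
    have hXb : X = ⊥ := by
      rw [Subgroup.eq_bot_iff_forall]
      exact hX1
    have hHt : H = ⊤ := by
      have := hX.sup_eq_top
      rwa [hXb, sup_bot_eq] at this
    have h4 : ∀ y : PSU 3 F 2 ⧸ N, y = 1 ∨ y = z := by
      intro y
      obtain ⟨x, rfl⟩ := QuotientGroup.mk'_surjective N y
      exact (hH x).1 (by rw [hHt]; trivial)
    have h5 := h4 (e.symm (QuaternionGroup.a 1))
    rcases h5 with h5 | h5
    · have := congrArg e h5
      rw [e.apply_symm_apply, map_one] at this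
      exact absurd this (by decide)
    · have := congrArg e h5
      rw [e.apply_symm_apply, hez] at this
      exact absurd this (by decide)

end Cfsg.Agent.S5908
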