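import Cfsg.Statements.S5909
import Cfsg.Agent.SymMax.AltPartition

set_option autoImplicit false
open Cfsg

namespace Cfsg.Agent.S5909


/-- Let Ω be a finite set whose size is not 8, and f : Ω → Fin b a labelling with b ≥ 2 whose fibres all have the same size a ≥ 2 (a partition into b blocks of size a). Then the even permutations preserving the partition — the intersection of the imprimitive wreath product S_a ≀ S_b with the alternating group — form a maximal subgroup of the alternating group on Ω. -/
theorem result {Ω : Type*} [Fintype Ω] [DecidableEq Ω] (h8 : Fintype.card Ω ≠ 8) (a b : ℕ) (ha : 2 ≤ a) (hb : 2 ≤ b)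
    (f : Ω → Fin b) (hf : ∀ i : Fin b, Nat.card {x : Ω // f x = i} = a) :
    IsCoatom ((Subgroup.closure {g : Equiv.Perm Ω | ∀ x y : Ω, f x = f y ↔ f (g x) = f (g y)} ⊓ alternatingGroup Ω).subgroupOf (alternatingGroup Ω)) := by
  classical
  rw [SymMax.closure_eq_partStab]
  have hf' : ∀ x : Ω, Nat.card {y : Ω // f y = f x} = a := fun x => hf (f x)
  have hsurj : ∀ i : Fin b, ∃ x, f x = i := by
    intro i
    have h1 : 0 < Nat.card {x : Ω // f x = i} := by rw [hf i]; omega
    rw [Nat.card_pos_iff] at h1
    obtain ⟨⟨x, hx⟩⟩ := h1.1
    exact ⟨x, hx⟩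
  have hcard : Fintype.card Ω = b * a := by
    rw [← Fintype.card_congr (Equiv.sigmaFiberEquiv f), Fintype.card_sigma]
    have : ∀ i : Fin b, Fintype.card {x // f x = i} = a := fun i => by
      rw [← Nat.card_eq_fintype_card]; exact hf i
    rw [Finset.sum_congr rfl (fun i _ => this i)]
    simp
  have havoid : ∀ s : Finset (Fin b), s.card < b → ∃ z, f z ∉ s := by
    intro s hs
    obtain ⟨i, hi⟩ : ∃ i, i ∉ s := by
      by_contra hcon
      push Not at hcon
      have : s = Finset.univ := Finset.eq_univ_of_forall hcon
      rw [this, Finset.card_univ, Fintype.card_fin] at hs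
      exact lt_irrefl _ hs
    obtain ⟨z, hz⟩ := hsurj i
    exact ⟨z, by rw [hz]; exact hi⟩
  have hb1 : ∀ x : Ω, ∃ y : Ω, f y ≠ f x := by
    intro x
    obtain ⟨z, hz⟩ := havoid {f x} (by rw [Finset.card_singleton]; omega)
    exact ⟨z, by simpa using hz⟩
  obtain ⟨x₀, _⟩ := hsurj ⟨0, by omega⟩
  have : Nonempty Ω := ⟨x₀⟩
  refine SymMax.isCoatom_inf_alternating ?_ ?_
  · apply SymMax.exists_not_mem_partStab
    have h1 : 1 < Nat.card {y : Ω // f y = f x₀} := by rw [hf' x₀]; omega
    rw [Finite.one_lt_card_iff_nontrivial] at h1
    obtain ⟨⟨y, hy⟩, hne⟩ := exists_ne (⟨x₀, rfl⟩ : {y : Ω // f y = f x₀})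
    obtain ⟨z, hz⟩ := hb1 x₀
    exact ⟨x₀, y, z, fun h => hne (Subtype.ext h.symm), hy.symm, hz⟩
  · intro X hKX hXA hXK
    rcases Nat.lt_or_ge a 3 with ha3 | ha3
    · have ha2 : a = 2 := by omega
      subst ha2
      rcases Nat.lt_or_ge b 3 with hb3 | hb3
      · -- four points
        have hb2 : b = 2 := by omega
        subst hb2
        have htr : ∀ Y : Subgroup (Equiv.Perm Ω), SymMax.partStab f ⊓ alternatingGroup Ω ≤ Y → 4 ∣ Nat.card Y := by
          intro Y hY
          have htrans : MulAction.IsPretransitive Y Ω := ⟨fun x y => by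
            obtain ⟨g, hg, _, hgx⟩ := SymMax.alt_trans (X := Y) le_rfl hf' hb1 hY x y
            exact ⟨⟨g, hg⟩, hgx⟩⟩
          have h1 := MulAction.index_stabilizer_of_transitive Y x₀
          rw [Nat.card_eq_fintype_card, hcard] at h1
          have h2 := (MulAction.stabilizer Y x₀).index_dvd_card
          rw [h1] at h2
          exact h2
        have h12 : Nat.card (alternatingGroup Ω) = 12 := by
          have : Nontrivial Ω := Fintype.one_lt_card_iff_nontrivial.mp (by rw [hcard]; norm_num)
          have h := nat_card_alternatingGroup (α := Ω)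
          rw [Nat.card_eq_fintype_card (α := Ω), hcard] at h
          rw [h]
          rfl
        have hX4 := htr X hKX
        have hK4 := htr _ (le_refl (SymMax.partStab f ⊓ alternatingGroup Ω))
        have hXdvd : Nat.card X ∣ 12 := h12 ▸ Subgroup.card_dvd_of_le hXA
        obtain ⟨t, ht⟩ := hX4
        rw [ht] at hXdvd
        have ht3 : t ∣ 3 := by
          have : 4 * t ∣ 4 * 3 := hXdvd
          exact Nat.dvd_of_mul_dvd_mul_left (by norm_num) this
        rcases (Nat.dvd_prime Nat.prime_three).mp ht3 with h | h
        · exfalso
          apply hXK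
          have hle : Nat.card X ≤ Nat.card (SymMax.partStab f ⊓ alternatingGroup Ω : Subgroup (Equiv.Perm Ω)) := by
            rw [ht, h]
            exact Nat.le_of_dvd Nat.card_pos hK4
          have := Subgroup.eq_of_le_of_card_ge hKX hle
          rw [← this]
          exact inf_le_left
        · have hle : Nat.card (alternatingGroup Ω) ≤ Nat.card X := by rw [ht, h, h12]
          exact (Subgroup.eq_of_le_of_card_ge hXA hle).ge
      · have hprim := SymMax.alt_prim_of_two hf' (fun x y => by
          obtain ⟨z, hz⟩ := havoid {f x, f y} (lt_of_le_of_lt Finset.card_le_two (by omega))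
          simp only [Finset.mem_insert, Finset.mem_singleton, not_or] at hz
          exact ⟨z, hz⟩) hKX hXK
        obtain ⟨g, hg, hg3⟩ : ∃ g ∈ X, g.IsThreeCycle := by
          refine SymMax.alt_threeCycle_of_two hf' ?_ hKX hXK
          rcases Nat.lt_or_ge b 5 with hb5 | hb5
          · right
            have hb3' : b = 3 := by
              rcases Nat.lt_or_ge b 4 with h | h
              · omega
              · exfalso
                apply h8
                have : b = 4 := by omega
                rw [hcard, this]
            subst hb3'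
            constructor
            · intro x y
              obtain ⟨z, hz⟩ := havoid {f x, f y} (lt_of_le_of_lt Finset.card_le_two (by omega))
              simp only [Finset.mem_insert, Finset.mem_singleton, not_or] at hz
              exact ⟨z, hz⟩
            · intro x1 x2 x3 x4
              generalize f x1 = i1
              generalize f x2 = i2
              generalize f x3 = i3
              generalize f x4 = i4
              revert i1 i2 i3 i4
              decide
          · left
            intro x1 x2 x3 x4
            obtain ⟨z, hz⟩ := havoid {f x1, f x2, f x3, f x4} (lt_of_le_of_lt Finset.card_le_four (by omega))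
            simp only [Finset.mem_insert, Finset.mem_singleton, not_or] at hz
            exact ⟨z, hz⟩
        exact Equiv.Perm.alternatingGroup_le_of_isPreprimitive_of_isThreeCycle_mem hprim hg3 hg
    · have hprim := SymMax.alt_prim_of_three_le ha3 hf' hb1 hKX hXK
      obtain ⟨g, hg, hg3⟩ := SymMax.alt_threeCycle_of_three_le ha3 hf' hKX
      exact Equiv.Perm.alternatingGroup_le_of_isPreprimitive_of_isThreeCycle_mem hprim hg3 hg

end Cfsg.Agent.S5909
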