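import Cfsg.Statements.S5910
import Cfsg.Agent.SymMax.AltPartition

set_option autoImplicit false
open Cfsg

namespace Cfsg.Agent.S5910

open Equiv

/-- coordinates adapted to a partition of 8 points into 4 pairs -/
theorem exists_coords {Ω : Type*} [Fintype Ω] [DecidableEq Ω] (f : Ω → Fin 4)
    (hf : ∀ i : Fin 4, Nat.card {x : Ω // f x = i} = 2) :
    ∃ Φ : Ω ≃ Fin 4 × ZMod 2, ∀ x, (Φ x).1 = f x := by
  have h : ∀ i : Fin 4, Nonempty ({x : Ω // f x = i} ≃ ZMod 2) := fun i =>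
    Finite.card_eq.mp ((hf i).trans (by rw [Nat.card_eq_fintype_card, ZMod.card]))
  let e := fun i => (h i).some
  refine ⟨(Equiv.sigmaFiberEquiv f).symm.trans ((Equiv.sigmaCongrRight e).trans
    (Equiv.sigmaEquivProd (Fin 4) (ZMod 2))), fun x => rfl⟩

theorem perm_zmod2 (c : Perm (ZMod 2)) (ε : ZMod 2) : c ε = ε + c 0 := by
  revert c ε; decide

theorem sign_zmod2 (c : Perm (ZMod 2)) : Perm.sign c = if c 0 = 0 then 1 else -1 := by
  revert c; decide

theorem prod_if (d : Fin 4 → ZMod 2) (h : (∏ k, (if d k = 0 then (1 : ℤˣ) else -1)) = 1) :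
    ∀ i j k l : Fin 4, ((i = j ∧ k = l) ∨ (i = k ∧ j = l) ∨ (i = l ∧ j = k) ∨
      (i ≠ j ∧ i ≠ k ∧ i ≠ l ∧ j ≠ k ∧ j ≠ l ∧ k ≠ l)) → d i + d j + d k + d l = 0 := by
  revert d; decide

/-- Each even permutation preserving the pairs acts on the coordinates as asserted. -/
theorem action_coords {Ω : Type*} [Fintype Ω] [DecidableEq Ω] (f : Ω → Fin 4)
    (Φ : Ω ≃ Fin 4 × ZMod 2) (hΦ : ∀ x, (Φ x).1 = f x) (g : Perm Ω) (hg : g ∈ SymMax.partStab f)
    (hs : Perm.sign g = 1) :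
    ∃ (σ : Perm (Fin 4)) (d : Fin 4 → ZMod 2), (∀ x, f (g x) = σ (f x)) ∧
      (∀ x, (Φ (g x)).2 = (Φ x).2 + d (σ (f x))) ∧
      (∏ k, (if d k = 0 then (1 : ℤˣ) else -1)) = 1 := by
  have hfΦ : ∀ y, f (Φ.symm y) = y.1 := fun y => by rw [← hΦ, Equiv.apply_symm_apply]
  let s : Fin 4 → Fin 4 := fun i => f (g (Φ.symm (i, 0)))
  have hs' : ∀ x, f (g x) = s (f x) := fun x => by
    have h1 := (hg x (Φ.symm (f x, 0))).mp (by rw [hfΦ])
    exact h1
  have hsinj : Function.Injective s := by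
    intro i j hij
    have h1 := (hg (Φ.symm (i, 0)) (Φ.symm (j, 0))).mpr hij
    rwa [hfΦ, hfΦ] at h1
  let σ : Perm (Fin 4) := Equiv.ofBijective s (Finite.injective_iff_bijective.mp hsinj)
  have hσ : ∀ x, f (g x) = σ (f x) := hs'
  let c' : Fin 4 → ZMod 2 → ZMod 2 := fun j ε => (Φ (g (Φ.symm (σ.symm j, ε)))).2
  have hc'inj : ∀ j, Function.Injective (c' j) := by
    intro j ε ε' h
    have h1 : Φ (g (Φ.symm (σ.symm j, ε))) = Φ (g (Φ.symm (σ.symm j, ε'))) := by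
      refine Prod.ext ?_ h
      rw [hΦ, hΦ, hσ, hσ, hfΦ, hfΦ]
    have h2 := Φ.symm.injective (g.injective (Φ.injective h1))
    exact congrArg Prod.snd h2
  let c : Fin 4 → Perm (ZMod 2) := fun j =>
    Equiv.ofBijective (c' j) (Finite.injective_iff_bijective.mp (hc'inj j))
  have hact : ∀ x, (Φ (g x)).2 = c (σ (f x)) (Φ x).2 := by
    intro x
    change _ = (Φ (g (Φ.symm (σ.symm (σ (f x)), (Φ x).2)))).2
    rw [Equiv.symm_apply_apply]
    have : (f x, (Φ x).2) = Φ x := Prod.ext (hΦ x).symm rfl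
    rw [this, Equiv.symm_apply_apply]
  have hperm : (Φ.symm.trans g).trans Φ =
      (Equiv.prodCongrRight c : Perm (Fin 4 × ZMod 2)) * (Equiv.prodCongrLeft (fun _ => σ)) := by
    ext1 y
    obtain ⟨x, rfl⟩ := Φ.surjective y
    rw [Equiv.trans_apply, Equiv.trans_apply, Equiv.symm_apply_apply, Perm.mul_apply]
    refine Prod.ext ?_ ?_
    · rw [hΦ, hσ, ← hΦ]
      rfl
    · rw [hact, ← hΦ]
      rfl
  have hsign := congrArg Perm.sign hperm
  rw [Perm.sign_symm_trans_trans, hs, Perm.sign_mul, Perm.sign_prodCongrRight, Perm.sign_prodCongrLeft] at hsign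
  have h2 : ∏ _k : ZMod 2, Perm.sign σ = 1 := by
    rw [Finset.prod_const, Finset.card_univ, ZMod.card]
    exact Int.units_sq _
  rw [h2, mul_one] at hsign
  refine ⟨σ, fun j => c j 0, hσ, fun x => ?_, ?_⟩
  · rw [hact, perm_zmod2]
  · refine Eq.trans ?_ hsign.symm
    refine Finset.prod_congr rfl fun k _ => ?_
    rw [sign_zmod2]

/-- identification of the four pairs with the points of the affine plane over the field with two elements -/
def lab : Fin 4 → ZMod 2 × ZMod 2 := ![(0, 0), (0, 1), (1, 0), (1, 1)]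

theorem lab_iff (i j k l : Fin 4) : lab i + lab j + lab k + lab l = 0 ↔
    ((i = j ∧ k = l) ∨ (i = k ∧ j = l) ∨ (i = l ∧ j = k) ∨
      (i ≠ j ∧ i ≠ k ∧ i ≠ l ∧ j ≠ k ∧ j ≠ l ∧ k ≠ l)) := by
  revert i j k l; decide

/-- the affine planes: quadruples with vector sum zero -/
def Rel {Ω : Type*} (Φ : Ω ≃ Fin 4 × ZMod 2) (x y z w : Ω) : Prop :=
  lab (Φ x).1 + lab (Φ y).1 + lab (Φ z).1 + lab (Φ w).1 = 0 ∧ (Φ x).2 + (Φ y).2 + (Φ z).2 + (Φ w).2 = 0

/-- the group of affine permutations of the 8 points -/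
def affStab {Ω : Type*} (Φ : Ω ≃ Fin 4 × ZMod 2) : Subgroup (Perm Ω) where
  carrier := {g | ∀ x y z w, Rel Φ x y z w ↔ Rel Φ (g x) (g y) (g z) (g w)}
  one_mem' := fun _ _ _ _ => Iff.rfl
  mul_mem' {g h} hg hh x y z w := (hh x y z w).trans (hg (h x) (h y) (h z) (h w))
  inv_mem' {g} hg x y z w := by
    have h := hg (g⁻¹ x) (g⁻¹ y) (g⁻¹ z) (g⁻¹ w)
    simp only [SymMax.apply_inv_cancel'] at h
    exact h.symm

theorem inf_le_affStab {Ω : Type*} [Fintype Ω] [DecidableEq Ω] (f : Ω → Fin 4)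
    (Φ : Ω ≃ Fin 4 × ZMod 2) (hΦ : ∀ x, (Φ x).1 = f x) :
    SymMax.partStab f ⊓ alternatingGroup Ω ≤ affStab Φ := by
  rintro g ⟨hg, hs⟩
  obtain ⟨σ, d, hσ, hd, hprod⟩ := action_coords f Φ hΦ g hg hs
  intro x y z w
  have h1 : lab (Φ x).1 + lab (Φ y).1 + lab (Φ z).1 + lab (Φ w).1 = 0 ↔
      lab (Φ (g x)).1 + lab (Φ (g y)).1 + lab (Φ (g z)).1 + lab (Φ (g w)).1 = 0 := by
    rw [lab_iff, lab_iff]
    simp only [hΦ, hσ, EmbeddingLike.apply_eq_iff_eq, ne_eq]
  unfold Rel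
  rw [← h1]
  refine and_congr_right fun h => ?_
  have h2 := h1.mp h
  rw [lab_iff] at h2
  simp only [hΦ, hσ] at h2
  have h3 := prod_if d hprod _ _ _ _ h2
  rw [hd, hd, hd, hd]
  have h4 : (Φ x).2 + d (σ (f x)) + ((Φ y).2 + d (σ (f y))) + ((Φ z).2 + d (σ (f z))) + ((Φ w).2 + d (σ (f w)))
      = (Φ x).2 + (Φ y).2 + (Φ z).2 + (Φ w).2 + (d (σ (f x)) + d (σ (f y)) + d (σ (f z)) + d (σ (f w))) := by ring
  rw [h4, h3, add_zero]

/-- Let Ω be a set with 8 elements and f : Ω → Fin 4 a labelling whose four fibres all have size 2 (a partition of the 8 points into 4 pairs). Then the group of even permutations preserving this partition, (S₂ ≀ S₄) ∩ A₈, is not a maximal subgroup of the alternating group A₈ (it lies in a subgroup isomorphic to the affine group AGL₃(2)). -/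
theorem result {Ω : Type*} [Fintype Ω] [DecidableEq Ω] (h8 : Fintype.card Ω = 8)
    (f : Ω → Fin 4) (hf : ∀ i : Fin 4, Nat.card {x : Ω // f x = i} = 2) :
    ¬ IsCoatom ((Subgroup.closure {g : Equiv.Perm Ω | ∀ x y : Ω, f x = f y ↔ f (g x) = f (g y)} ⊓ alternatingGroup Ω).subgroupOf (alternatingGroup Ω)) := by
  classical
  intro hco
  rw [SymMax.closure_eq_partStab] at hco
  obtain ⟨Φ, hΦ⟩ := exists_coords f hf
  -- an even affine permutation that does not preserve the pairs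
  let τ : Perm (Fin 4 × ZMod 2) := swap (0, 1) (2, 1) * swap (1, 1) (3, 1)
  let t : Perm Ω := (Φ.symm.symm.trans τ).trans Φ.symm
  have ht : ∀ x, Φ (t x) = τ (Φ x) := fun x => Φ.apply_symm_apply _
  have hts : Perm.sign t = 1 := by
    rw [Perm.sign_symm_trans_trans]
    decide
  have hτ : ∀ a, lab (τ a).1 = lab a.1 + (a.2, 0) ∧ (τ a).2 = a.2 := by decide
  have htaff : t ∈ affStab Φ := by
    intro x y z w
    unfold Rel
    rw [ht, ht, ht, ht, (hτ _).1, (hτ _).1, (hτ _).1, (hτ _).1, (hτ _).2, (hτ _).2, (hτ _).2, (hτ _).2]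
    refine and_congr_left fun h => ?_
    have h1 : lab (Φ x).1 + ((Φ x).2, 0) + (lab (Φ y).1 + ((Φ y).2, 0)) + (lab (Φ z).1 + ((Φ z).2, 0)) +
        (lab (Φ w).1 + ((Φ w).2, 0)) = lab (Φ x).1 + lab (Φ y).1 + lab (Φ z).1 + lab (Φ w).1 +
        ((Φ x).2 + (Φ y).2 + (Φ z).2 + (Φ w).2, 0) := by
      ext
      · simp only [Prod.fst_add]; ring
      · simp only [Prod.snd_add]; ring
    rw [h1, h]
    have h2 : ((0 : ZMod 2), (0 : ZMod 2)) = 0 := rfl
    rw [h2, add_zero]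
  have htK : t ∉ SymMax.partStab f := by
    intro h
    have h1 := (h (Φ.symm (0, 0)) (Φ.symm (0, 1))).mp (by
      rw [← hΦ, ← hΦ, Equiv.apply_symm_apply, Equiv.apply_symm_apply])
    rw [← hΦ, ← hΦ, ht, ht, Equiv.apply_symm_apply, Equiv.apply_symm_apply] at h1
    revert h1
    decide
  -- an even permutation that is not affine
  let ρ : Perm (Fin 4 × ZMod 2) := swap (0, 0) (0, 1) * swap (0, 0) (1, 0)
  let s : Perm Ω := (Φ.symm.symm.trans ρ).trans Φ.symm
  have hs : ∀ x, Φ (s x) = ρ (Φ x) := fun x => Φ.apply_symm_apply _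
  have hss : Perm.sign s = 1 := by
    rw [Perm.sign_symm_trans_trans]
    decide
  have hsaff : s ∉ affStab Φ := by
    intro h
    have h1 := (h (Φ.symm (0, 0)) (Φ.symm (2, 0)) (Φ.symm (1, 1)) (Φ.symm (3, 1))).mp (by
      unfold Rel
      simp only [Equiv.apply_symm_apply]
      decide)
    unfold Rel at h1
    rw [hs, hs, hs, hs] at h1
    simp only [Equiv.apply_symm_apply] at h1
    revert h1
    decide
  have hlt : (SymMax.partStab f ⊓ alternatingGroup Ω).subgroupOf (alternatingGroup Ω) <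
      (affStab Φ).subgroupOf (alternatingGroup Ω) := by
    refine lt_of_le_of_ne (Subgroup.comap_mono (inf_le_affStab f Φ hΦ)) ?_
    intro h
    have h1 : (⟨t, hts⟩ : alternatingGroup Ω) ∈ (affStab Φ).subgroupOf (alternatingGroup Ω) := htaff
    rw [← h] at h1
    exact htK h1.1
  have htop := hco.2 _ hlt
  have h1 : (⟨s, hss⟩ : alternatingGroup Ω) ∈ (affStab Φ).subgroupOf (alternatingGroup Ω) := by
    rw [htop]; exact Subgroup.mem_top _
  exact hsaff h1

end Cfsg.Agent.S5910
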