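import Cfsg.Statements.S5911
import Cfsg.Agent.SymMax.AutSym

set_option autoImplicit false
open Cfsg

namespace Cfsg.Agent.S5911

open MulAction Equiv

theorem small_three {Ω : Type*} [Fintype Ω] [DecidableEq Ω] (h : Fintype.card Ω = 3)
    (H : Subgroup (Perm Ω)) (hH : H.index = 3) : ∃ x : Ω, ∀ g ∈ H, g x = x := by
  have hc := H.index_mul_card
  rw [hH, Nat.card_perm, Nat.card_eq_fintype_card (α := Ω), h] at hc
  have hc2 : Nat.card H = 2 := by
    have : Nat.factorial 3 = 6 := rfl
    omega
  have hp : IsPGroup 2 H := IsPGroup.of_card (n := 1) (by rw [hc2, pow_one])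
  have : Fact (Nat.Prime 2) := ⟨Nat.prime_two⟩
  have h1 := hp.card_modEq_card_fixedPoints Ω
  rw [Nat.card_eq_fintype_card, h] at h1
  have h2 : 0 < Nat.card (fixedPoints H Ω) := by
    by_contra hcon
    have h3 : Nat.card (fixedPoints H Ω) = 0 := by omega
    rw [h3] at h1
    revert h1; decide
  obtain ⟨⟨x, hx⟩⟩ := (Nat.card_pos_iff.mp h2).1
  exact ⟨x, fun g hg => hx ⟨g, hg⟩⟩

theorem small_four {Ω : Type*} [Fintype Ω] [DecidableEq Ω] (h : Fintype.card Ω = 4)
    (H : Subgroup (Perm Ω)) (hH : H.index = 4) : ∃ x : Ω, ∀ g ∈ H, g x = x := by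
  have hc := H.index_mul_card
  rw [hH, Nat.card_perm, Nat.card_eq_fintype_card (α := Ω), h] at hc
  have hc2 : Nat.card H = 6 := by
    have : Nat.factorial 4 = 24 := rfl
    omega
  have : Fact (Nat.Prime 3) := ⟨Nat.prime_three⟩
  obtain ⟨c, hc3⟩ := exists_prime_orderOf_dvd_card' (G := H) 3 (by rw [hc2]; norm_num)
  let Z : Subgroup H := Subgroup.zpowers c
  have hZ : Nat.card Z = 3 := by rw [Nat.card_zpowers, hc3]
  have hZi : Z.index = 2 := by
    have := Z.index_mul_card
    rw [hZ, hc2] at this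
    omega
  have hZn : Z.Normal := Subgroup.normal_of_index_eq_two hZi
  have hp : IsPGroup 3 Z := IsPGroup.of_card (n := 1) (by rw [hZ, pow_one])
  have h1 := hp.card_modEq_card_fixedPoints Ω
  rw [Nat.card_eq_fintype_card, h] at h1
  have hle : Nat.card (fixedPoints Z Ω) ≤ 4 := by
    have := Finite.card_subtype_le (fun x : Ω => x ∈ fixedPoints Z Ω)
    rw [Nat.card_eq_fintype_card (α := Ω), h] at this
    exact this
  have hne4 : Nat.card (fixedPoints Z Ω) ≠ 4 := by
    intro h4
    have huniv : fixedPoints Z Ω = Set.univ := by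
      apply Set.eq_of_subset_of_ncard_le (Set.subset_univ _)
      · rw [Set.ncard_univ, Nat.card_eq_fintype_card, h, ← h4]
        exact (Nat.card_coe_set_eq _).le
    have hc1 : c = 1 := by
      apply Subtype.ext
      ext x
      have hx : x ∈ fixedPoints Z Ω := by rw [huniv]; exact Set.mem_univ x
      exact hx ⟨c, Subgroup.mem_zpowers c⟩
    rw [hc1, orderOf_one] at hc3
    norm_num at hc3
  have hone : Nat.card (fixedPoints Z Ω) = 1 := by
    have h2 : (Nat.card (fixedPoints Z Ω)) % 3 = 1 := h1.symm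
    omega
  obtain ⟨⟨x, hx⟩, hxu⟩ := (Nat.card_eq_one_iff_exists.mp hone)
  refine ⟨x, fun g hg => ?_⟩
  have hgx : g x ∈ fixedPoints Z Ω := by
    intro z
    let g' : H := ⟨g, hg⟩
    have h3 : g'⁻¹ * z * g' ∈ Z := by
      have := hZn.conj_mem z z.2 g'⁻¹
      rwa [inv_inv] at this
    have h4 := hx ⟨_, h3⟩
    change ((g'⁻¹ * (z : H) * g' : H) : Perm Ω) x = x at h4
    change ((z : H) : Perm Ω) (g x) = g x
    have h5 : ((g' : H) : Perm Ω) (((g'⁻¹ * (z : H) * g' : H) : Perm Ω) x) = ((z : H) : Perm Ω) (g x) := by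
      rw [← Perm.mul_apply, ← Subgroup.coe_mul]
      have : g' * (g'⁻¹ * (z : H) * g') = (z : H) * g' := by group
      rw [this]; rfl
    rw [h4] at h5
    exact h5.symm
  exact congrArg Subtype.val (hxu ⟨g x, hgx⟩)

/-- Let Ω be a finite set whose size n is not 6. Then every subgroup of the symmetric group on Ω of index n is the stabilizer of a point. -/
theorem result {Ω : Type*} [Fintype Ω] [DecidableEq Ω] (h6 : Fintype.card Ω ≠ 6)
    (H : Subgroup (Equiv.Perm Ω)) (hH : H.index = Fintype.card Ω) :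
    ∃ x : Ω, H = MulAction.stabilizer (Equiv.Perm Ω) x := by
  classical
  -- it suffices to find a common fixed point
  suffices hfix : ∃ x : Ω, ∀ g ∈ H, g x = x by
    obtain ⟨x, hx⟩ := hfix
    refine ⟨x, ?_⟩
    have hle : H ≤ MulAction.stabilizer (Equiv.Perm Ω) x := fun g hg => hx g hg
    have hi : (MulAction.stabilizer (Equiv.Perm Ω) x).index = Fintype.card Ω := by
      rw [MulAction.index_stabilizer_of_transitive, Nat.card_eq_fintype_card]
    refine Subgroup.eq_of_le_of_card_ge hle ?_
    have h1 := H.index_mul_card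
    have h2 := (MulAction.stabilizer (Equiv.Perm Ω) x).index_mul_card
    rw [hH] at h1
    rw [hi] at h2
    have hpos : 0 < Fintype.card Ω := Fintype.card_pos_iff.mpr ⟨x⟩
    exact (Nat.eq_of_mul_eq_mul_left hpos (h2.trans h1.symm)).le
  rcases Nat.lt_or_ge (Fintype.card Ω) 5 with h5 | h5
  · have h0 : H.index ≠ 0 := Subgroup.index_ne_zero_of_finite
    interval_cases hcase : Fintype.card Ω
    · exact absurd hH h0
    · have : Subsingleton Ω := Fintype.card_le_one_iff_subsingleton.mp hcase.le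
      have : Nonempty Ω := Fintype.card_pos_iff.mp (by omega)
      obtain ⟨x⟩ := this
      exact ⟨x, fun g _ => Subsingleton.elim _ _⟩
    · have : Nonempty Ω := Fintype.card_pos_iff.mp (by omega)
      obtain ⟨x⟩ := this
      refine ⟨x, fun g hg => ?_⟩
      have hc := H.index_mul_card
      rw [hH, Nat.card_perm, Nat.card_eq_fintype_card (α := Ω), hcase] at hc
      have hc2 : Nat.card H = 1 := by
        have : Nat.factorial 2 = 2 := rfl
        omega
      rw [Subgroup.card_eq_one] at hc2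
      rw [hc2, Subgroup.mem_bot] at hg
      rw [hg]; rfl
    · exact small_three hcase H hH
    · exact small_four hcase H hH
  · obtain ⟨θ, hθ⟩ := SymMax.exists_cosetEquiv H hH h5
    have : Fintype (Equiv.Perm Ω ⧸ H) := Fintype.ofFinite _
    have hcard : Fintype.card Ω = Fintype.card (Equiv.Perm Ω ⧸ H) := by
      rw [← hH, ← Nat.card_eq_fintype_card]; rfl
    obtain ⟨x, hx⟩ := SymMax.exists_point θ hcard h5
      (fun t ht => (SymMax.isSwap_or θ hcard ht).resolve_right fun h => h6 h.1)
      (fun t ht => (SymMax.isSwap_or θ.symm hcard.symm ht).resolve_right fun h => h6 (hcard.trans h.1))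
      ((1 : Equiv.Perm Ω) : Equiv.Perm Ω ⧸ H)
    exact ⟨x, fun g hg => (hx g).mp ((hθ g).mp hg)⟩

end Cfsg.Agent.S5911
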