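import Cfsg.Statements.S5912
import Cfsg.Agent.SymMax.AutSym

set_option autoImplicit false
open Cfsg

namespace Cfsg.Agent.S5912

open MulAction Equiv

/-- two points with the same stabilizer are equal (at least 3 points) -/
theorem eq_of_stab {Ω : Type*} [Fintype Ω] [DecidableEq Ω] (h3 : 3 ≤ Fintype.card Ω) {o o' : Ω}
    (h : ∀ g : Perm Ω, g o = o → g o' = o') : o = o' := by
  by_contra hne
  obtain ⟨z, hz⟩ : ∃ z, z ∉ ({o, o'} : Finset Ω) := by
    by_contra hcon
    push Not at hcon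
    have h1 : (Finset.univ : Finset Ω) ⊆ {o, o'} := fun j _ => hcon j
    have h2 := Finset.card_le_card h1
    have h4 : ({o, o'} : Finset Ω).card ≤ 2 := Finset.card_le_two
    rw [Finset.card_univ] at h2
    omega
  simp only [Finset.mem_insert, Finset.mem_singleton, not_or] at hz
  have h1 := h (swap o' z) (swap_apply_of_ne_of_ne hne (Ne.symm hz.1))
  rw [swap_apply_left] at h1
  exact hz.2 h1

/-- An isomorphism of symmetric groups preserving transpositions in both directions is induced by a bijection. -/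
theorem exists_bij {Ω Ω' : Type*} [Fintype Ω] [DecidableEq Ω] [Fintype Ω'] [DecidableEq Ω']
    (θ : Perm Ω ≃* Perm Ω') (hcard : Fintype.card Ω = Fintype.card Ω') (h5 : 5 ≤ Fintype.card Ω)
    (hθ : ∀ t : Perm Ω, t.IsSwap → (θ t).IsSwap) (hθ' : ∀ t : Perm Ω', t.IsSwap → (θ.symm t).IsSwap) :
    ∃ F : Ω' ≃ Ω, ∀ g : Perm Ω, ∀ o, F (θ g o) = g (F o) := by
  choose p hp using SymMax.exists_point θ hcard h5 hθ hθ'
  have hinj : Function.Injective p := by
    intro o o' h
    refine eq_of_stab (by omega) fun g hg => ?_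
    obtain ⟨k, rfl⟩ := θ.surjective g
    rw [hp] at hg ⊢
    rwa [← h]
  have hbij : Function.Bijective p := (Fintype.bijective_iff_injective_and_card p).mpr ⟨hinj, hcard.symm⟩
  refine ⟨Equiv.ofBijective p hbij, fun g o => ?_⟩
  change p (θ g o) = g (p o)
  refine eq_of_stab (by omega) fun h hh => ?_
  rw [← hp] at hh
  have h1 : θ (g⁻¹ * h * g) o = o := by
    rw [map_mul, map_mul, map_inv, Perm.mul_apply, Perm.mul_apply, hh]
    exact (θ g).symm_apply_apply o
  rw [hp] at h1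
  have h2 := congrArg g h1
  rw [Perm.mul_apply, Perm.mul_apply] at h2
  exact (g.apply_symm_apply _).symm.trans h2

theorem card_sylow5 : Nat.card (Sylow 5 (Perm (Fin 5))) = 6 := by
  have : Fact (Nat.Prime 5) := ⟨by norm_num⟩
  have hA : Nat.card (Perm (Fin 5)) = 120 := by
    rw [Nat.card_perm, Nat.card_eq_fintype_card, Fintype.card_fin]; rfl
  obtain ⟨P⟩ : Nonempty (Sylow 5 (Perm (Fin 5))) := inferInstance
  obtain ⟨k, hk⟩ := IsPGroup.iff_card.mp P.2
  have hk' : Nat.card (P : Subgroup (Perm (Fin 5))) = 5 ^ k := hk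
  have hmul := (P : Subgroup (Perm (Fin 5))).index_mul_card
  rw [hA, hk'] at hmul
  have hnd := P.not_dvd_index
  have hk1 : k = 1 := by
    rcases Nat.lt_or_ge k 1 with h | h
    · exfalso
      have : k = 0 := by omega
      subst this
      rw [pow_zero, mul_one] at hmul
      exact hnd (hmul ▸ (by norm_num : (5 : ℕ) ∣ 120))
    · rcases Nat.lt_or_ge k 2 with h' | h'
      · omega
      · exfalso
        have h25 : 5 ^ 2 ∣ 120 := by
          rw [← hmul]; exact Dvd.dvd.mul_left (pow_dvd_pow 5 h') _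
        revert h25; norm_num
  subst hk1
  have hidx : (P : Subgroup (Perm (Fin 5))).index = 24 := by omega
  have h1 := P.card_dvd_index
  rw [hidx] at h1
  have h2 := card_sylow_modEq_one 5 (Perm (Fin 5))
  have hle := Nat.le_of_dvd (by norm_num) h1
  have hne1 : Nat.card (Sylow 5 (Perm (Fin 5))) ≠ 1 := by
    intro h
    have hsub : Subsingleton (Sylow 5 (Perm (Fin 5))) := (Nat.card_eq_one_iff_unique.mp h).1
    have hn : (P : Subgroup (Perm (Fin 5))).Normal := Sylow.normal_of_subsingleton P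
    have hnt : Nontrivial (P : Subgroup (Perm (Fin 5))) := by
      rw [← Finite.one_lt_card_iff_nontrivial, hk']; norm_num
    have h3 := Equiv.Perm.alternatingGroup_le_of_normal (α := Fin 5)
      (by rw [Nat.card_eq_fintype_card, Fintype.card_fin]) hnt
    have h4 := Subgroup.index_dvd_of_le h3
    rw [alternatingGroup.index_eq_two, hidx] at h4
    revert h4; norm_num
  generalize Nat.card (Sylow 5 (Perm (Fin 5))) = n at h1 h2 hle hne1
  unfold Nat.ModEq at h2
  interval_cases n <;> simp_all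

/-- a transitive subgroup of index 6 in the symmetric group of degree 6 -/
theorem exists_exotic {Ω : Type*} [Fintype Ω] [DecidableEq Ω] (h6 : Fintype.card Ω = 6) :
    ∃ H : Subgroup (Perm Ω), H.index = 6 ∧ ∀ x y : Ω, ∃ g ∈ H, g x = y := by
  classical
  have : Fact (Nat.Prime 5) := ⟨by norm_num⟩
  have hA : Nat.card (Perm (Fin 5)) = 120 := by
    rw [Nat.card_perm, Nat.card_eq_fintype_card, Fintype.card_fin]; rfl
  have hS := card_sylow5
  have hfin : Finite (Sylow 5 (Perm (Fin 5))) := Nat.finite_of_card_ne_zero (by rw [hS]; norm_num)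
  obtain ⟨e⟩ : Nonempty (Sylow 5 (Perm (Fin 5)) ≃ Ω) := by
    apply Finite.card_eq.mp
    rw [hS, Nat.card_eq_fintype_card, h6]
  let ρ : Perm (Fin 5) →* Perm (Sylow 5 (Perm (Fin 5))) := MulAction.toPermHom _ _
  have hρ : Function.Injective ρ := by
    rw [← MonoidHom.ker_eq_bot_iff]
    by_contra hne
    have hnt : Nontrivial ρ.ker := (Subgroup.nontrivial_iff_ne_bot _).mpr hne
    have h1 := Equiv.Perm.alternatingGroup_le_of_normal (α := Fin 5)
      (by rw [Nat.card_eq_fintype_card, Fintype.card_fin]) hnt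
    obtain ⟨P⟩ : Nonempty (Sylow 5 (Perm (Fin 5))) := inferInstance
    have h2 : ρ.ker ≤ stabilizer (Perm (Fin 5)) P := by
      intro g hg
      rw [MonoidHom.mem_ker] at hg
      have := congrArg (fun f : Perm (Sylow 5 (Perm (Fin 5))) => f P) hg
      exact this
    have h3 := Subgroup.index_dvd_of_le (h1.trans h2)
    rw [alternatingGroup.index_eq_two, MulAction.index_stabilizer_of_transitive, hS] at h3
    revert h3; norm_num
  let σ : Perm (Fin 5) →* Perm Ω := (Equiv.permCongrHom e).toMonoidHom.comp ρ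
  have hσ : Function.Injective σ := (Equiv.permCongrHom e).injective.comp hρ
  have hact : ∀ g P, σ g (e P) = e (g • P) := by
    intro g P
    change e (g • (e.symm (e P))) = _
    rw [Equiv.symm_apply_apply]
  refine ⟨σ.range, ?_, ?_⟩
  · have h1 := σ.range.index_mul_card
    have h2 : Nat.card σ.range = 120 := by
      rw [← hA]; exact (Nat.card_congr (MonoidHom.ofInjective hσ).toEquiv).symm
    rw [h2, Nat.card_perm, Nat.card_eq_fintype_card, h6] at h1
    have : Nat.factorial 6 = 720 := rfl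
    omega
  · intro x y
    obtain ⟨P, rfl⟩ := e.surjective x
    obtain ⟨Q, rfl⟩ := e.surjective y
    obtain ⟨g, hg⟩ := MulAction.exists_smul_eq (Perm (Fin 5)) P Q
    exact ⟨σ g, ⟨g, rfl⟩, by rw [hact, hg]⟩

theorem isConj_of_isSwap {α : Type*} [Fintype α] [DecidableEq α] {a b : Perm α} (ha : a.IsSwap) (hb : b.IsSwap) :
    IsConj a b := by
  rw [Perm.isConj_iff_cycleType_eq, Perm.isSwap_iff_cycleType.mp ha, Perm.isSwap_iff_cycleType.mp hb]

theorem isSwap_of_isConj {α : Type*} [Fintype α] [DecidableEq α] {a b : Perm α} (ha : a.IsSwap) (hab : IsConj a b) :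
    b.IsSwap := by
  rw [Perm.isSwap_iff_cycleType, ← Perm.isConj_iff_cycleType_eq.mp hab, Perm.isSwap_iff_cycleType.mp ha]

/-- all transpositions or none are mapped to transpositions -/
theorem swap_of_one {Ω Ω' : Type*} [Fintype Ω] [DecidableEq Ω] [Fintype Ω'] [DecidableEq Ω']
    (θ : Perm Ω ≃* Perm Ω') {t : Perm Ω} (ht : t.IsSwap) (h : (θ t).IsSwap) :
    (∀ t : Perm Ω, t.IsSwap → (θ t).IsSwap) ∧ (∀ t : Perm Ω', t.IsSwap → (θ.symm t).IsSwap) := by
  constructor
  · intro s hs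
    exact isSwap_of_isConj h (θ.toMonoidHom.map_isConj (isConj_of_isSwap ht hs))
  · intro s hs
    have h1 := θ.symm.toMonoidHom.map_isConj (isConj_of_isSwap h hs)
    have h2 : θ.symm.toMonoidHom (θ t) = t := θ.symm_apply_apply t
    rw [h2] at h1
    exact isSwap_of_isConj ht h1

/-- Two subgroups of index 6 whose coset actions map transpositions to triple transpositions are conjugate. -/
theorem conj_of_exotic {Ω : Type*} [Fintype Ω] [DecidableEq Ω] (h6 : Fintype.card Ω = 6) {Ω₁ Ω₂ : Type*}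
    [Fintype Ω₁] [DecidableEq Ω₁] [Fintype Ω₂] [DecidableEq Ω₂] (h1 : Fintype.card Ω₁ = 6) (h2 : Fintype.card Ω₂ = 6)
    (θ₁ : Perm Ω ≃* Perm Ω₁) (θ₂ : Perm Ω ≃* Perm Ω₂) (t : Perm Ω) (ht : t.IsSwap)
    (ht1 : (θ₁ t).cycleType = Multiset.replicate 3 2) (ht2 : (θ₂ t).cycleType = Multiset.replicate 3 2)
    (o₁ : Ω₁) (o₂ : Ω₂) :
    ∃ u : Perm Ω, ∀ g : Perm Ω, θ₁ g o₁ = o₁ ↔ θ₂ (u * g * u⁻¹) o₂ = o₂ := by
  classical
  obtain ⟨β₀⟩ : Nonempty (Ω₁ ≃ Ω₂) := ⟨Fintype.equivOfCardEq (h1.trans h2.symm)⟩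
  let β : Ω₁ ≃ Ω₂ := β₀.trans (swap (β₀ o₁) o₂)
  have hβ : β o₁ = o₂ := by simp [β]
  let B : Perm Ω₁ ≃* Perm Ω₂ := Equiv.permCongrHom β
  have hB : ∀ f x, B f (β x) = β (f x) := by
    intro f x
    change β (f (β.symm (β x))) = _
    rw [Equiv.symm_apply_apply]
  have hBc : ∀ f, (B f).cycleType = f.cycleType := fun f => by
    let e : Ω₁ ≃ {x : Ω₂ // True} := β.trans (Equiv.subtypeUnivEquiv (fun _ => trivial)).symm
    have he : B f = f.extendDomain e := by
      ext y
      obtain ⟨x, rfl⟩ := β.surjective y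
      rw [hB]
      have h3 := Perm.extendDomain_apply_image f e x
      exact h3.symm
    rw [he, Perm.cycleType_extendDomain]
  let θ : Perm Ω ≃* Perm Ω := (θ₁.trans B).trans θ₂.symm
  have hθ : (θ t).IsSwap := by
    have h3 : IsConj (θ₂ t) (B (θ₁ t)) := by
      rw [Perm.isConj_iff_cycleType_eq, hBc, ht1, ht2]
    have h4 := θ₂.symm.toMonoidHom.map_isConj h3
    have h5 : θ₂.symm.toMonoidHom (θ₂ t) = t := θ₂.symm_apply_apply t
    rw [h5] at h4
    exact isSwap_of_isConj ht h4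
  obtain ⟨hs1, hs2⟩ := swap_of_one θ ht hθ
  obtain ⟨F, hF⟩ := exists_bij θ rfl (by omega) hs1 hs2
  -- `θ g = F⁻¹ g F`
  have hinner : ∀ g, θ g = F⁻¹ * g * F⁻¹⁻¹ := by
    intro g
    ext x
    rw [inv_inv, Perm.mul_apply, Perm.mul_apply, ← hF]
    exact (F.symm_apply_apply _).symm
  refine ⟨F⁻¹, fun g => ?_⟩
  rw [← hinner]
  change _ ↔ θ₂ (θ₂.symm (B (θ₁ g))) o₂ = o₂
  rw [MulEquiv.apply_symm_apply, ← hβ, hB, β.injective.eq_iff]

/-- The symmetric group on a 6-element set Ω has exactly two conjugacy classes of subgroups of index 6: there are two non-conjugate subgroups of index 6 (a point stabilizer and a transitive subgroup isomorphic to S₅), and every subgroup of index 6 is conjugate to one of them. -/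
theorem result {Ω : Type*} [Fintype Ω] [DecidableEq Ω] (h6 : Fintype.card Ω = 6) :
    ∃ H₁ H₂ : Subgroup (Equiv.Perm Ω), H₁.index = 6 ∧ H₂.index = 6 ∧
      (¬ ∃ g : Equiv.Perm Ω, Subgroup.map (MulAut.conj g).toMonoidHom H₁ = H₂) ∧
      ∀ H : Subgroup (Equiv.Perm Ω), H.index = 6 →
        ∃ g : Equiv.Perm Ω, Subgroup.map (MulAut.conj g).toMonoidHom H₁ = H ∨ Subgroup.map (MulAut.conj g).toMonoidHom H₂ = H := by

  classical
  obtain ⟨H₂, hH₂, htr⟩ := exists_exotic h6
  have hne : Nonempty Ω := Fintype.card_pos_iff.mp (by omega)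
  obtain ⟨x₀⟩ := hne
  have hst : ∀ x : Ω, (MulAction.stabilizer (Equiv.Perm Ω) x).index = 6 := fun x => by
    rw [MulAction.index_stabilizer_of_transitive, Nat.card_eq_fintype_card, h6]
  obtain ⟨a, b, hab⟩ : ∃ a b : Ω, a ≠ b := Fintype.one_lt_card_iff.mp (by omega)
  have ht : (Equiv.swap a b).IsSwap := ⟨a, b, hab, rfl⟩
  let hfin : ∀ H : Subgroup (Equiv.Perm Ω), Fintype (Equiv.Perm Ω ⧸ H) := fun H => Fintype.ofFinite _
  -- the dichotomy
  have hdich : ∀ (H : Subgroup (Equiv.Perm Ω)), H.index = 6 →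
      (∃ x : Ω, H = MulAction.stabilizer (Equiv.Perm Ω) x) ∨
      ∃ θ : Equiv.Perm Ω ≃* Equiv.Perm (Equiv.Perm Ω ⧸ H),
        (∀ g, g ∈ H ↔ θ g ((1 : Equiv.Perm Ω) : Equiv.Perm Ω ⧸ H) = ((1 : Equiv.Perm Ω) : Equiv.Perm Ω ⧸ H)) ∧
        (θ (Equiv.swap a b)).cycleType = Multiset.replicate 3 2 := by
    intro H hH
    obtain ⟨θ, hθ⟩ := SymMax.exists_cosetEquiv H (hH.trans h6.symm) (by omega)
    have hcard : Fintype.card Ω = Fintype.card (Equiv.Perm Ω ⧸ H) := by
      rw [h6, ← hH, ← Nat.card_eq_fintype_card]; rfl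
    rcases SymMax.isSwap_or θ hcard ht with h | h
    · left
      obtain ⟨hs1, hs2⟩ := swap_of_one θ ht h
      obtain ⟨x, hx⟩ := SymMax.exists_point θ hcard (by omega) hs1 hs2 ((1 : Equiv.Perm Ω) : Equiv.Perm Ω ⧸ H)
      refine ⟨x, ?_⟩
      ext g
      rw [hθ, hx]
      rfl
    · exact Or.inr ⟨θ, hθ, h.2⟩
  refine ⟨MulAction.stabilizer (Equiv.Perm Ω) x₀, H₂, hst x₀, hH₂, ?_, ?_⟩
  · rintro ⟨g, hg⟩
    -- `H₂` fixes `g x₀`
    obtain ⟨y, hy⟩ : ∃ y, y ≠ g x₀ := by
      by_cases h : a = g x₀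
      · exact ⟨b, fun h' => hab (h.trans h'.symm)⟩
      · exact ⟨a, h⟩
    obtain ⟨h, hh, hhy⟩ := htr (g x₀) y
    rw [← hg] at hh
    obtain ⟨k, hk, hkh⟩ := hh
    have hk' : k x₀ = x₀ := hk
    apply hy
    rw [← hhy, ← hkh]
    change g (k (g⁻¹ (g x₀))) = g x₀
    have : g⁻¹ (g x₀) = x₀ := g.symm_apply_apply x₀
    rw [this, hk']
  · intro H hH
    rcases hdich H hH with ⟨x, hx⟩ | ⟨θ, hθ, hθt⟩
    · obtain ⟨g, hg⟩ := MulAction.exists_smul_eq (Equiv.Perm Ω) x₀ x
      refine ⟨g, Or.inl ?_⟩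
      rw [hx, ← hg]
      ext h
      constructor
      · rintro ⟨k, hk, rfl⟩
        have hk' : k x₀ = x₀ := hk
        change g (k (g⁻¹ (g x₀))) = g x₀
        have : g⁻¹ (g x₀) = x₀ := g.symm_apply_apply x₀
        rw [this, hk']
      · intro hh
        have hh' : h (g x₀) = g x₀ := hh
        refine ⟨g⁻¹ * h * g, ?_, ?_⟩
        · change g⁻¹ (h (g x₀)) = x₀
          rw [hh']
          exact g.symm_apply_apply x₀
        · change g * (g⁻¹ * h * g) * g⁻¹ = h
          group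
    · rcases hdich H₂ hH₂ with ⟨x, hx⟩ | ⟨θ₂, hθ₂, hθ₂t⟩
      · exfalso
        obtain ⟨y, hy⟩ : ∃ y, y ≠ x := by
          by_cases h : a = x
          · exact ⟨b, fun h' => hab (h.trans h'.symm)⟩
          · exact ⟨a, h⟩
        obtain ⟨g, hg, hgy⟩ := htr x y
        rw [hx] at hg
        exact hy (hgy.symm.trans hg)
      · have hc1 : Fintype.card (Equiv.Perm Ω ⧸ H) = 6 := by
          rw [← Nat.card_eq_fintype_card]; exact hH
        have hc2 : Fintype.card (Equiv.Perm Ω ⧸ H₂) = 6 := by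
          rw [← Nat.card_eq_fintype_card]; exact hH₂
        obtain ⟨u, hu⟩ := conj_of_exotic h6 hc1 hc2 θ θ₂ (Equiv.swap a b) ht hθt hθ₂t
          ((1 : Equiv.Perm Ω) : Equiv.Perm Ω ⧸ H) ((1 : Equiv.Perm Ω) : Equiv.Perm Ω ⧸ H₂)
        refine ⟨u⁻¹, Or.inr ?_⟩
        ext g
        rw [hθ, hu, ← hθ₂]
        constructor
        · rintro ⟨k, hk, rfl⟩
          change u * (u⁻¹ * k * u⁻¹⁻¹) * u⁻¹ ∈ H₂
          have : u * (u⁻¹ * k * u⁻¹⁻¹) * u⁻¹ = k := by group
          rw [this]; exact hk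
        · intro hk
          refine ⟨u * g * u⁻¹, hk, ?_⟩
          change u⁻¹ * (u * g * u⁻¹) * u⁻¹⁻¹ = g
          group

end Cfsg.Agent.S5912
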