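import Cfsg.Statements.S5913


set_option autoImplicit false
open Cfsg

namespace Cfsg.Agent.S5913


/-- Let S be a non-abelian simple group and n a natural number. Every normal subgroup N of the direct power S^n (functions Fin n → S) is a subproduct: there is a set T of coordinates such that N consists exactly of the elements whose coordinates outside T are trivial. In particular the minimal normal subgroups of S^n are its n factors. -/
theorem result {S : Type*} [Group S] [IsSimpleGroup S] (hS : ¬ IsMulCommutative S) (n : ℕ)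
    (N : Subgroup (Fin n → S)) [N.Normal] :
    ∃ T : Finset (Fin n), ∀ x : Fin n → S, x ∈ N ↔ ∀ i, i ∉ T → x i = 1 := by
  classical
  -- the `i`-th factor's intersection with `N`, as a subgroup of `S`
  let K : Fin n → Subgroup S := fun i => N.comap (MonoidHom.mulSingle (fun _ => S) i)
  have hK : ∀ i, (K i).Normal := fun i => by
    constructor
    intro s hs t
    have h1 : Pi.mulSingle i s ∈ N := hs
    have h2 := Subgroup.Normal.conj_mem ‹N.Normal› _ h1 (Pi.mulSingle i t)
    have h3 : Pi.mulSingle i t * Pi.mulSingle i s * (Pi.mulSingle i t)⁻¹ =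
        (Pi.mulSingle i (t * s * t⁻¹) : Fin n → S) := by
      rw [← Pi.mulSingle_inv, ← Pi.mulSingle_mul, ← Pi.mulSingle_mul]
    rw [h3] at h2
    exact h2
  have hcenter : ∀ a : S, a ≠ 1 → ∃ s : S, s * a ≠ a * s := by
    intro a ha
    by_contra hcon
    push Not at hcon
    have hmem : a ∈ Subgroup.center S := Subgroup.mem_center_iff.mpr hcon
    rcases IsSimpleGroup.eq_bot_or_eq_top_of_normal (Subgroup.center S) inferInstance with h | h
    · rw [h, Subgroup.mem_bot] at hmem
      exact ha hmem
    · apply hS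
      refine ⟨⟨fun x y => ?_⟩⟩
      have hx : y ∈ Subgroup.center S := h ▸ Subgroup.mem_top y
      exact Subgroup.mem_center_iff.mp hx x
  have hT : ∀ i, (∃ x ∈ N, x i ≠ 1) → K i = ⊤ := by
    rintro i ⟨x, hx, hxi⟩
    refine (IsSimpleGroup.eq_bot_or_eq_top_of_normal (K i) (hK i)).resolve_left ?_
    intro hbot
    obtain ⟨s, hs⟩ := hcenter (x i) hxi
    have h1 : Pi.mulSingle i s * x * (Pi.mulSingle i s)⁻¹ * x⁻¹ ∈ N :=
      N.mul_mem (Subgroup.Normal.conj_mem ‹N.Normal› _ hx _) (N.inv_mem hx)
    have h2 : Pi.mulSingle i s * x * (Pi.mulSingle i s)⁻¹ * x⁻¹ =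
        Pi.mulSingle i (s * x i * s⁻¹ * (x i)⁻¹) := by
      funext j
      by_cases hj : j = i
      · subst hj
        simp
      · simp [Pi.mulSingle_eq_of_ne hj]
    rw [h2] at h1
    have h3 : s * x i * s⁻¹ * (x i)⁻¹ ∈ K i := h1
    rw [hbot, Subgroup.mem_bot] at h3
    apply hs
    have h4 := eq_inv_of_mul_eq_one_left h3
    rw [inv_inv] at h4
    exact mul_inv_eq_iff_eq_mul.mp h4
  refine ⟨Finset.univ.filter (fun i => ∃ x ∈ N, x i ≠ 1), fun x => ⟨fun hx i hi => ?_, fun hx => ?_⟩⟩
  · by_contra hne
    exact hi (Finset.mem_filter.mpr ⟨Finset.mem_univ _, x, hx, hne⟩)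
  · apply Subgroup.pi_mem_of_mulSingle_mem
    intro i
    by_cases hi : ∃ x ∈ N, x i ≠ 1
    · have : x i ∈ K i := by rw [hT i hi]; exact Subgroup.mem_top _
      exact this
    · rw [hx i (fun h => hi (Finset.mem_filter.mp h).2), Pi.mulSingle_one]
      exact N.one_mem

end Cfsg.Agent.S5913
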