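import Cfsg.Statements.S5914
import Cfsg.Agent.S5913

set_option autoImplicit false
open Cfsg

namespace Cfsg.Agent.S5914

/-- the splitting of the last coordinate -/
def splitLast {S : Type*} [Group S] (k : ℕ) : (Fin (k + 1) → S) →* (Fin k → S) × S where
  toFun x := (fun i => x i.castSucc, x (Fin.last k))
  map_one' := rfl
  map_mul' _ _ := rfl

theorem splitLast_bijective {S : Type*} [Group S] (k : ℕ) : Function.Bijective (splitLast (S := S) k) := by
  constructor
  · intro x y h
    have h1 : ∀ i : Fin k, x i.castSucc = y i.castSucc := fun i => congrFun (congrArg Prod.fst h) i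
    have h2 : x (Fin.last k) = y (Fin.last k) := congrArg Prod.snd h
    funext i
    exact Fin.lastCases h2 h1 i
  · rintro ⟨a, b⟩
    refine ⟨Fin.snoc a b, ?_⟩
    refine Prod.ext ?_ ?_
    · funext i
      exact Fin.snoc_castSucc (α := fun _ => S) b a i
    · exact Fin.snoc_last (α := fun _ => S) b a

theorem forward {G : Type*} [Group G] [Finite G] [Nontrivial G]
    (hG : ∀ H : Subgroup G, H.Characteristic → H = ⊥ ∨ H = ⊤) :
    ∃ (N : Subgroup G) (_ : IsSimpleGroup N) (n : ℕ), 1 ≤ n ∧ Nonempty (G ≃* (Fin n → N)) := by
  classical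
  -- a nontrivial normal subgroup of least order
  have hex : ∃ m : ℕ, ∃ N : Subgroup G, N.Normal ∧ N ≠ ⊥ ∧ Nat.card N = m :=
    ⟨Nat.card (⊤ : Subgroup G), ⊤, inferInstance, top_ne_bot, rfl⟩
  obtain ⟨N, hNn, hNb, hNc⟩ := Nat.find_spec hex
  have hmin : ∀ K : Subgroup G, K.Normal → K ≠ ⊥ → Nat.card N ≤ Nat.card K := by
    intro K hK hKb
    rw [hNc]
    exact Nat.find_min' hex ⟨K, hK, hKb, rfl⟩
  -- powers of `N` embedded as normal subgroups
  let good : ℕ → Prop := fun k => ∃ ψ : (Fin k → N) →* G, Function.Injective ψ ∧ ψ.range.Normal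
  have hcard2 : 2 ≤ Nat.card N := by
    have := (Subgroup.nontrivial_iff_ne_bot N).mpr hNb
    exact Finite.one_lt_card
  have hbound : ∀ k, good k → k ≤ Nat.card G := by
    rintro k ⟨ψ, hψ, _⟩
    have h1 := Nat.card_le_card_of_injective ψ hψ
    rw [Nat.card_fun, Nat.card_eq_fintype_card (α := Fin k), Fintype.card_fin] at h1
    exact (Nat.lt_pow_self hcard2).le.trans h1
  have hgood0 : good 0 := by
    refine ⟨1, fun x y _ => Subsingleton.elim x y, ?_⟩
    rw [MonoidHom.range_one]; infer_instance
  obtain ⟨k, hk, hkmax⟩ : ∃ k, good k ∧ ¬ good (k + 1) := by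
    by_contra hcon
    push Not at hcon
    have hall : ∀ k, good k := fun k => by
      induction k with
      | zero => exact hgood0
      | succ k ih => exact hcon k ih
    have := hbound _ (hall (Nat.card G + 1))
    omega
  obtain ⟨ψ, hψinj, hψn⟩ := hk
  -- all images of `N` lie in the range
  have himg : ∀ α : G ≃* G, N.map α.toMonoidHom ≤ ψ.range := by
    intro α
    by_contra hle
    apply hkmax
    have hNαn : (N.map α.toMonoidHom).Normal := Subgroup.Normal.map hNn _ α.surjective
    have hNαc : Nat.card (N.map α.toMonoidHom) = Nat.card N :=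
      Nat.card_congr (Subgroup.equivMapOfInjective N α.toMonoidHom α.injective).toEquiv.symm
    have hdisj : Disjoint ψ.range (N.map α.toMonoidHom) := by
      rw [disjoint_iff]
      by_contra hne
      have h1 := hmin _ (Subgroup.normal_inf_normal ψ.range (N.map α.toMonoidHom)) hne
      have h2 : ψ.range ⊓ N.map α.toMonoidHom = N.map α.toMonoidHom :=
        Subgroup.eq_of_le_of_card_ge inf_le_right (hNαc.trans_le h1)
      exact hle (inf_eq_right.mp h2)
    let β : N →* G := α.toMonoidHom.comp N.subtype
    have hβr : β.range = N.map α.toMonoidHom := by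
      rw [MonoidHom.range_comp, Subgroup.range_subtype]
    have hβinj : Function.Injective β := α.injective.comp N.subtype_injective
    have hcomm : ∀ x y, Commute (ψ x) (β y) := fun x y =>
      Subgroup.commute_of_normal_of_disjoint _ _ hψn hNαn hdisj _ _ ⟨x, rfl⟩ (hβr ▸ ⟨y, rfl⟩)
    refine ⟨(ψ.noncommCoprod β hcomm).comp (splitLast k), ?_, ?_⟩
    · refine Function.Injective.comp (g := (ψ.noncommCoprod β hcomm)) ?_ (splitLast_bijective k).1
      rw [MonoidHom.noncommCoprod_injective]
      exact ⟨hψinj, hβinj, hβr ▸ hdisj⟩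
    · rw [MonoidHom.range_comp, MonoidHom.range_eq_top.mpr (splitLast_bijective k).2,
        ← MonoidHom.range_eq_map, MonoidHom.noncommCoprod_range, hβr]
      exact Subgroup.sup_normal _ _
  -- hence the range is everything
  have htop : ψ.range = ⊤ := by
    have hchar : (⨆ α : G ≃* G, N.map α.toMonoidHom).Characteristic := by
      rw [Subgroup.characteristic_iff_map_le]
      intro φ
      rw [Subgroup.map_iSup]
      refine iSup_le fun α => ?_
      rw [Subgroup.map_map]
      exact le_iSup_of_le (α.trans φ) le_rfl
    have hle : (⨆ α : G ≃* G, N.map α.toMonoidHom) ≤ ψ.range := iSup_le himg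
    rcases hG _ hchar with h | h
    · exfalso
      apply hNb
      have h1 : N.map (MulEquiv.refl G).toMonoidHom ≤ ⊥ := h ▸ le_iSup (fun α : G ≃* G => N.map α.toMonoidHom)
        (MulEquiv.refl G)
      rw [eq_bot_iff]
      intro x hx
      exact h1 ⟨x, hx, rfl⟩
    · rw [h] at hle
      exact top_le_iff.mp hle
  have hψsurj : Function.Surjective ψ := MonoidHom.range_eq_top.mp htop
  have hk1 : 1 ≤ k := by
    rcases Nat.eq_zero_or_pos k with h | h
    · exfalso
      subst h
      obtain ⟨x, y, hxy⟩ := exists_pair_ne G
      obtain ⟨a, rfl⟩ := hψsurj x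
      obtain ⟨b, rfl⟩ := hψsurj y
      exact hxy (by rw [Subsingleton.elim a b])
    · exact h
  let i0 : Fin k := ⟨0, hk1⟩
  have hsimple : IsSimpleGroup N := by
    have := (Subgroup.nontrivial_iff_ne_bot N).mpr hNb
    refine ⟨fun K hK => ?_⟩
    by_cases hKb : K = ⊥
    · exact Or.inl hKb
    · right
      -- the copy of `K` in the first coordinate
      let ι : N →* G := ψ.comp (MonoidHom.mulSingle (fun _ : Fin k => N) i0)
      have hιinj : Function.Injective ι := hψinj.comp (fun a b h => by
        have h' : (Pi.mulSingle i0 a : Fin k → N) = Pi.mulSingle i0 b := h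
        have h1 := congrFun h' i0
        rwa [Pi.mulSingle_eq_same, Pi.mulSingle_eq_same] at h1)
      have hKn : (K.map ι).Normal := by
        constructor
        rintro _ ⟨x, hx, rfl⟩ g
        obtain ⟨y, rfl⟩ := hψsurj g
        refine ⟨y i0 * x * (y i0)⁻¹, hK.conj_mem x hx (y i0), ?_⟩
        change ψ (Pi.mulSingle i0 (y i0 * x * (y i0)⁻¹)) = ψ y * ψ (Pi.mulSingle i0 x) * (ψ y)⁻¹
        rw [← map_inv, ← map_mul, ← map_mul]
        congr 1
        funext j
        by_cases hj : j = i0
        · subst hj; simp
        · simp [Pi.mulSingle_eq_of_ne hj]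
      have h1 := hmin _ hKn (by rwa [Ne, Subgroup.map_eq_bot_iff_of_injective K hιinj])
      have h2 : Nat.card (K.map ι) = Nat.card K :=
        Nat.card_congr (Subgroup.equivMapOfInjective K ι hιinj).toEquiv.symm
      rw [h2] at h1
      exact Subgroup.eq_top_of_card_eq K (le_antisymm (Subgroup.card_le_card_group K) h1)
  exact ⟨N, hsimple, k, hk1, ⟨(MulEquiv.ofBijective ψ ⟨hψinj, hψsurj⟩).symm⟩⟩

/-- invariance of (the image of) a characteristic subgroup of `G ≃ S^n` under automorphisms of `S^n` -/
theorem inv_of_char {G A : Type*} [Group G] [Group A] (e : G ≃* A) (H : Subgroup G) (hH : H.Characteristic)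
    (ψ : A ≃* A) (x : A) (hx : e.symm x ∈ H) : e.symm (ψ x) ∈ H := by
  have h1 := (Subgroup.characteristic_iff_le_comap.mp hH) ((e.trans ψ).trans e.symm)
  have h2 := h1 hx
  have h3 : ((e.trans ψ).trans e.symm) (e.symm x) = e.symm (ψ x) := by simp
  rw [Subgroup.mem_comap] at h2
  change ((e.trans ψ).trans e.symm) (e.symm x) ∈ H at h2
  rwa [h3] at h2

theorem backward {G : Type*} [Group G] [Finite G] {S : Type*} [Group S] [IsSimpleGroup S] (n : ℕ)
    (e : G ≃* (Fin n → S)) (H : Subgroup G) (hH : H.Characteristic) : H = ⊥ ∨ H = ⊤ := by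
  classical
  by_cases hbot : H = ⊥
  · exact Or.inl hbot
  right
  -- it suffices to catch all single coordinates
  suffices hall : ∀ (i : Fin n) (s : S), e.symm (Pi.mulSingle i s) ∈ H by
    rw [eq_top_iff]
    intro g _
    have h1 : e g ∈ H.comap e.symm.toMonoidHom := by
      apply Subgroup.pi_mem_of_mulSingle_mem
      intro i
      exact hall i _
    have h2 : e.symm (e g) ∈ H := h1
    rwa [MulEquiv.symm_apply_apply] at h2
  have hnorm : H.Normal := inferInstance
  obtain ⟨⟨h, hh⟩, hne'⟩ := Subgroup.ne_bot_iff_exists_ne_one.mp hbot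
  have hne : h ≠ 1 := fun h' => hne' (Subtype.ext h')
  obtain ⟨i, hi⟩ : ∃ i, e h i ≠ 1 := by
    by_contra hcon
    push Not at hcon
    apply hne
    apply e.injective
    rw [map_one]
    funext i
    exact hcon i
  -- swapping of coordinates
  have hswap : ∀ (i j : Fin n) (s : S), e.symm (Pi.mulSingle i s) ∈ H → e.symm (Pi.mulSingle j s) ∈ H := by
    intro i j s hs
    let ψ : (Fin n → S) ≃* (Fin n → S) :=
      { toFun := fun x k => x (Equiv.swap i j k)
        invFun := fun x k => x (Equiv.swap i j k)
        left_inv := fun x => by funext k; simp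
        right_inv := fun x => by funext k; simp
        map_mul' := fun x y => rfl }
    have h1 := inv_of_char e H hH ψ _ hs
    have h2 : ψ (Pi.mulSingle i s) = Pi.mulSingle j s := by
      funext k
      change (Pi.mulSingle i s : Fin n → S) (Equiv.swap i j k) = _
      by_cases hk : k = j
      · subst hk; simp
      · rw [Pi.mulSingle_eq_of_ne hk, Pi.mulSingle_eq_of_ne]
        intro h
        apply hk
        rw [Equiv.swap_apply_eq_iff, Equiv.swap_apply_left] at h
        exact h
    rwa [h2] at h1
  suffices hone : ∀ s : S, e.symm (Pi.mulSingle i s) ∈ H from fun j s => hswap i j s (hone s)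
  by_cases hS : IsMulCommutative S
  · -- abelian: every nontrivial element generates
    have hgen : ∀ s, s ∈ Subgroup.zpowers (e h i) := by
      intro s
      have hzn : (Subgroup.zpowers (e h i)).Normal := ⟨fun a ha b => by
        have : b * a * b⁻¹ = a := by
          have h1 : b * a = a * b := hS.is_comm.comm b a
          rw [h1, mul_inv_cancel_right]
        rw [this]; exact ha⟩
      rcases IsSimpleGroup.eq_bot_or_eq_top_of_normal _ hzn with h1 | h1
      · exact absurd (Subgroup.zpowers_eq_bot.mp h1) hi
      · rw [h1]; exact Subgroup.mem_top s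
    have hxi : e.symm (Pi.mulSingle i (e h i)) ∈ H := by
      by_cases hj : ∃ j, j ≠ i
      · obtain ⟨j, hj⟩ := hj
        -- transvection
        let ψ : (Fin n → S) ≃* (Fin n → S) :=
          { toFun := fun x => x * Pi.mulSingle j (x i)
            invFun := fun x => x * Pi.mulSingle j (x i)⁻¹
            left_inv := fun x => by
              funext k
              by_cases hk : k = j
              · subst hk
                simp [Pi.mulSingle_eq_of_ne hj.symm]
              · simp [Pi.mulSingle_eq_of_ne hk]
            right_inv := fun x => by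
              funext k
              by_cases hk : k = j
              · subst hk
                simp [Pi.mulSingle_eq_of_ne hj.symm]
              · simp [Pi.mulSingle_eq_of_ne hk]
            map_mul' := fun x y => by
              funext k
              by_cases hk : k = j
              · subst hk
                simp only [Pi.mul_apply, Pi.mulSingle_eq_same]
                have h1 : y k * x i = x i * y k := hS.is_comm.comm _ _
                rw [mul_assoc, ← mul_assoc (y k), h1]
                simp only [mul_assoc]
              · simp [Pi.mulSingle_eq_of_ne hk] }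
        have h1 := inv_of_char e H hH ψ (e h) (by rwa [MulEquiv.symm_apply_apply])
        have h2 : e.symm (Pi.mulSingle j (e h i)) ∈ H := by
          have h3 : (Pi.mulSingle j (e h i) : Fin n → S) = (e h)⁻¹ * ψ (e h) := by
            change _ = (e h)⁻¹ * (e h * Pi.mulSingle j (e h i))
            rw [inv_mul_cancel_left]
          rw [h3, map_mul, map_inv, MulEquiv.symm_apply_apply]
          exact H.mul_mem (H.inv_mem hh) h1
        exact hswap j i _ h2
      · push Not at hj
        have h3 : Pi.mulSingle i (e h i) = e h := by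
          funext k
          rw [hj k, Pi.mulSingle_eq_same]
        rw [h3, MulEquiv.symm_apply_apply]
        exact hh
    intro s
    obtain ⟨z, hz⟩ := Subgroup.mem_zpowers_iff.mp (hgen s)
    rw [← hz, Pi.mulSingle_zpow, map_zpow]
    exact H.zpow_mem hxi z
  · have hN : (H.comap e.symm.toMonoidHom).Normal := Subgroup.Normal.comap hnorm _
    obtain ⟨T, hT⟩ := S5913.result hS n (H.comap e.symm.toMonoidHom)
    have hiT : i ∈ T := by
      by_contra hiT
      apply hi
      refine (hT (e h)).mp ?_ i hiT
      change e.symm (e h) ∈ H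
      rwa [MulEquiv.symm_apply_apply]
    intro s
    refine (hT (Pi.mulSingle i s)).mpr fun j hj => ?_
    have hji : j ≠ i := by
      rintro rfl; exact hj hiT
    exact Pi.mulSingle_eq_of_ne (M := fun _ => S) hji s

/-- A non-trivial finite group G is characteristically simple (its only characteristic subgroups are 1 and G) if and only if G is isomorphic to a direct power S^n (n ≥ 1) of some simple group S (possibly cyclic of prime order). -/
theorem result {G : Type*} [Group G] [Finite G] [Nontrivial G] :
    (∀ H : Subgroup G, H.Characteristic → H = ⊥ ∨ H = ⊤) ↔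
    ∃ (S : Type) (_ : Group S) (_ : IsSimpleGroup S) (n : ℕ), 1 ≤ n ∧ Nonempty (G ≃* (Fin n → S)) := by
  constructor
  · intro hG
    obtain ⟨N, hN, n, hn, ⟨e⟩⟩ := forward hG
    have hsmall : Small.{0} N := inferInstance
    have hNtr : Nontrivial (Shrink.{0} N) := (equivShrink N).symm.nontrivial
    refine ⟨Shrink.{0} N, inferInstance, ?_, n, hn, ⟨e.trans ?_⟩⟩
    · exact IsSimpleGroup.isSimpleGroup_of_surjective (Shrink.mulEquiv (α := N)).symm.toMonoidHom
        (Shrink.mulEquiv (α := N)).symm.surjective
    · exact MulEquiv.piCongrRight fun _ => (Shrink.mulEquiv (α := N)).symm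
  · rintro ⟨S, _, hS, n, hn, ⟨e⟩⟩ H hH
    exact backward n e H hH

end Cfsg.Agent.S5914
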