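import Cfsg.Statements.S5945
import Cfsg.Agent.S5912

set_option autoImplicit false
open Cfsg

namespace Cfsg.Agent.S5945

open MulAction Equiv

theorem card_quot {H : Subgroup (Perm (Fin 6))} (hH : H.index = 6) : Nat.card (Perm (Fin 6) ⧸ H) = 6 := hH

theorem mem_of_conj {H : Subgroup (Perm (Fin 6))} (hH : H.index = 6) (g : Perm (Fin 6))
    (hg : ∀ h ∈ H, g⁻¹ * h * g ∈ H) : g ∈ H := by
  classical
  obtain ⟨θ, hθ⟩ := Cfsg.Agent.SymMax.exists_cosetEquiv H (hH.trans (by simp : 6 = Fintype.card (Fin 6))) (by simp)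
  have hfin : Fintype (Perm (Fin 6) ⧸ H) := Fintype.ofFinite _
  have hcard : Fintype.card (Perm (Fin 6) ⧸ H) = 6 := by
    rw [← Nat.card_eq_fintype_card]; exact card_quot hH
  rw [hθ]
  symm
  apply Cfsg.Agent.S5912.eq_of_stab (by omega)
  intro k hk
  obtain ⟨h, rfl⟩ := θ.surjective k
  have hh : h ∈ H := (hθ h).mpr hk
  have h1 := (hθ _).mp (hg h hh)
  rw [map_mul, map_mul, map_inv, Perm.mul_apply, Perm.mul_apply, Perm.inv_eq_iff_eq] at h1
  exact h1

noncomputable def FF (H : Subgroup (Perm (Fin 6))) : Perm (Fin 6) ⧸ H → Subgroup (Perm (Fin 6)) :=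
  fun x => H.map (MulAut.conj x.out).toMonoidHom

theorem FF_mk (H : Subgroup (Perm (Fin 6))) (g : Perm (Fin 6)) :
    FF H (QuotientGroup.mk g) = H.map (MulAut.conj g).toMonoidHom := by
  obtain ⟨h, hh⟩ := QuotientGroup.mk_out_eq_mul H g
  have key : ∀ (a : Perm (Fin 6)) (b : H), H.map (MulAut.conj (a * b)).toMonoidHom ≤ H.map (MulAut.conj a).toMonoidHom := by
    rintro a b _ ⟨x, hx, rfl⟩
    refine ⟨b * x * (b : Perm (Fin 6))⁻¹, H.mul_mem (H.mul_mem b.2 hx) (H.inv_mem b.2), ?_⟩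
    show a * (b * x * (b : Perm (Fin 6))⁻¹) * a⁻¹ = (a * b) * x * (a * b)⁻¹
    group
  unfold FF
  rw [hh]
  apply le_antisymm (key g h)
  have := key (g * h) h⁻¹
  rwa [Subgroup.coe_inv, mul_inv_cancel_right] at this

theorem FF_injective {H : Subgroup (Perm (Fin 6))} (hH : H.index = 6) : Function.Injective (FF H) := by
  intro x y hxy
  obtain ⟨a, rfl⟩ := QuotientGroup.mk_surjective x
  obtain ⟨b, rfl⟩ := QuotientGroup.mk_surjective y
  rw [FF_mk, FF_mk] at hxy
  rw [QuotientGroup.eq]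
  apply mem_of_conj hH
  intro h hh
  have h1 : a * h * a⁻¹ ∈ H.map (MulAut.conj a).toMonoidHom := ⟨h, hh, rfl⟩
  rw [hxy] at h1
  obtain ⟨k, hk, hk'⟩ := h1
  have h2 : b * k * b⁻¹ = a * h * a⁻¹ := hk'
  have h3 : (a⁻¹ * b)⁻¹ * h * (a⁻¹ * b) = k := by
    calc (a⁻¹ * b)⁻¹ * h * (a⁻¹ * b) = b⁻¹ * (a * h * a⁻¹) * b := by group
      _ = b⁻¹ * (b * k * b⁻¹) * b := by rw [h2]
      _ = k := by group
  rw [h3]; exact hk

theorem index_FF {H : Subgroup (Perm (Fin 6))} (hH : H.index = 6) (x) : (FF H x).index = 6 := by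
  exact (Subgroup.index_map_equiv H (MulAut.conj x.out)).trans hH

theorem nonempty_iso {H : Subgroup (Perm (Fin 6))} (hH : H.index = 6) : Nonempty (H ≃* Equiv.Perm (Fin 5)) := by
  classical
  obtain ⟨θ, hθ⟩ := Cfsg.Agent.SymMax.exists_cosetEquiv H (hH.trans (by simp : 6 = Fintype.card (Fin 6))) (by simp)
  have hfin : Fintype (Perm (Fin 6) ⧸ H) := Fintype.ofFinite _
  have hcard : Fintype.card (Perm (Fin 6) ⧸ H) = 6 := by
    rw [← Nat.card_eq_fintype_card]; exact card_quot hH
  obtain ⟨pt, hpt⟩ : ∃ pt : Perm (Fin 6) ⧸ H, pt = ((1 : Perm (Fin 6)) : Perm (Fin 6) ⧸ H) := ⟨_, rfl⟩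
  rw [← hpt] at hθ
  obtain ⟨f, hf⟩ : ∃ f : Perm {x : Perm (Fin 6) ⧸ H // x ≠ pt} →* Perm (Fin 6),
      f = (θ.symm.toMonoidHom).comp (Perm.ofSubtype) := ⟨_, rfl⟩
  have hinj : Function.Injective f := by
    rw [hf]
    exact θ.symm.injective.comp Perm.ofSubtype_injective
  have hc5 : Fintype.card {x : Perm (Fin 6) ⧸ H // x ≠ pt} = 5 := by
    rw [Fintype.card_subtype_compl, hcard, Fintype.card_subtype_eq]
  have hrange : f.range = H := by
    apply Subgroup.eq_of_le_of_card_ge
    · rintro _ ⟨σ, rfl⟩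
      rw [hθ, hf]
      show θ (θ.symm (Perm.ofSubtype σ)) pt = pt
      rw [MulEquiv.apply_symm_apply]
      exact Perm.ofSubtype_apply_of_not_mem σ (by simp)
    · rw [← Nat.card_congr (MonoidHom.ofInjective hinj).toEquiv, Nat.card_perm,
        Nat.card_eq_fintype_card (α := {x : Perm (Fin 6) ⧸ H // x ≠ pt}), hc5]
      have h1 := H.index_mul_card
      rw [hH, Nat.card_perm, Nat.card_fin] at h1
      have h6 : Nat.factorial 6 = 720 := rfl
      have h5 : Nat.factorial 5 = 120 := rfl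
      rw [h6] at h1
      rw [h5]
      omega
  obtain ⟨e⟩ : Nonempty ({x : Perm (Fin 6) ⧸ H // x ≠ pt} ≃ Fin 5) := ⟨Fintype.equivOfCardEq (by rw [hc5, Fintype.card_fin])⟩
  exact ⟨((MulEquiv.subgroupCongr hrange.symm).trans (MonoidHom.ofInjective hinj).symm).trans (Equiv.permCongrHom e)⟩

/-- The symmetric group S_6 has exactly 12 subgroups of index 6; each of them is isomorphic to S_5, and at least one of them is not the stabilizer of any point. -/
theorem result : Nat.card {H : Subgroup (Equiv.Perm (Fin 6)) // H.index = 6} = 12 ∧ (∀ H : Subgroup (Equiv.Perm (Fin 6)), H.index = 6 → Nonempty (H ≃* Equiv.Perm (Fin 5))) ∧ ∃ H : Subgroup (Equiv.Perm (Fin 6)), H.index = 6 ∧ ∀ a : Fin 6, H ≠ MulAction.stabilizer (Equiv.Perm (Fin 6)) a := by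
  classical
  refine ⟨?_, fun H hH => nonempty_iso hH, ?_⟩
  · obtain ⟨H₁, H₂, h1, h2, hne, hall⟩ := Cfsg.Agent.S5912.result (Ω := Fin 6) (by simp)
    have hb : Function.Bijective (Sum.elim (fun x => (⟨FF H₁ x, index_FF h1 x⟩ : {H : Subgroup (Equiv.Perm (Fin 6)) // H.index = 6}))
        (fun x => ⟨FF H₂ x, index_FF h2 x⟩)) := by
      have hcross : ∀ a b : Equiv.Perm (Fin 6), H₁.map (MulAut.conj a).toMonoidHom ≠ H₂.map (MulAut.conj b).toMonoidHom := by
        intro a b h
        apply hne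
        refine ⟨b⁻¹ * a, ?_⟩
        have h3 : H₂ = (H₂.map (MulAut.conj b).toMonoidHom).map (MulAut.conj b⁻¹).toMonoidHom := by
          rw [Subgroup.map_map]
          have : ((MulAut.conj b⁻¹).toMonoidHom).comp ((MulAut.conj b).toMonoidHom) = MonoidHom.id _ := by
            ext x : 1
            show b⁻¹ * (b * x * b⁻¹) * b⁻¹⁻¹ = x
            group
          rw [this, Subgroup.map_id]
        rw [h3, ← h, Subgroup.map_map]
        congr 1
      constructor
      · rintro (x | x) (y | y) hxy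
        · exact congrArg Sum.inl (FF_injective h1 (congrArg Subtype.val hxy))
        · exfalso
          obtain ⟨a, rfl⟩ := QuotientGroup.mk_surjective x
          obtain ⟨b, rfl⟩ := QuotientGroup.mk_surjective y
          have h3 : FF H₁ (QuotientGroup.mk a) = FF H₂ (QuotientGroup.mk b) := congrArg Subtype.val hxy
          rw [FF_mk, FF_mk] at h3
          exact hcross a b h3
        · exfalso
          obtain ⟨a, rfl⟩ := QuotientGroup.mk_surjective x
          obtain ⟨b, rfl⟩ := QuotientGroup.mk_surjective y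
          have h3 : FF H₂ (QuotientGroup.mk a) = FF H₁ (QuotientGroup.mk b) := congrArg Subtype.val hxy
          rw [FF_mk, FF_mk] at h3
          exact hcross b a h3.symm
        · exact congrArg Sum.inr (FF_injective h2 (congrArg Subtype.val hxy))
      · rintro ⟨H, hH⟩
        obtain ⟨g, hg | hg⟩ := hall H hH
        · refine ⟨Sum.inl (QuotientGroup.mk g), ?_⟩
          apply Subtype.ext
          show FF H₁ (QuotientGroup.mk g) = H
          rw [FF_mk, hg]
        · refine ⟨Sum.inr (QuotientGroup.mk g), ?_⟩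
          apply Subtype.ext
          show FF H₂ (QuotientGroup.mk g) = H
          rw [FF_mk, hg]
    rw [← Nat.card_congr (Equiv.ofBijective _ hb), Nat.card_sum, card_quot h1, card_quot h2]
  · obtain ⟨H, hH, htr⟩ := Cfsg.Agent.S5912.exists_exotic (Ω := Fin 6) (by simp)
    refine ⟨H, hH, ?_⟩
    rintro a rfl
    obtain ⟨b, hb⟩ := exists_ne a
    obtain ⟨g, hg, hga⟩ := htr a b
    have : g a = a := hg
    rw [this] at hga
    exact hb hga.symm

end Cfsg.Agent.S5945
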